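import Cfsg.Statements.S0602
import Mathlib
import Cfsg.Agent.Helper10.Thompson

set_option autoImplicit false
open Cfsg

namespace Cfsg.Agent.S0602

open Cfsg.Agent.Helper10
open Pointwise

/-- The Thompson subgroup is characteristic, and nontrivial as soon as p divides the group order. -/
theorem result {G : Type*} [Group G] [Finite G] {p : ℕ} [Fact p.Prime] : (Cfsg.thompsonSubgroup p G).Characteristic ∧ (p ∣ Nat.card G → Cfsg.thompsonSubgroup p G ≠ ⊥) := by
  constructor
  · rw [Subgroup.characteristic_iff_map_le]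
    intro ϕ
    show (sSup (Cfsg.maxElementaryAbelianSubgroups p G)).map ϕ.toMonoidHom ≤ _
    rw [sSup_eq_iSup', Subgroup.map_iSup]
    refine iSup_le ?_
    rintro ⟨A, hA⟩
    apply le_thompson
    refine ⟨elemAb_map hA.1 _, ?_⟩
    intro B hB
    rw [Subgroup.card_map_of_injective ϕ.injective]
    exact hA.2 B hB
  · intro hp
    obtain ⟨x, hx⟩ := exists_prime_orderOf_dvd_card' p hp
    obtain ⟨A, hA⟩ := exists_maxElemAb p G
    have hxp : x ^ p = 1 := by rw [← hx]; exact pow_orderOf_eq_one x
    have h1 := hA.2 _ (elemAb_zpowers hxp)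
    rw [Nat.card_zpowers, hx] at h1
    intro hbot
    have hAbot : A = ⊥ := by rw [eq_bot_iff, ← hbot]; exact le_thompson hA
    rw [hAbot, Subgroup.card_bot] at h1
    exact absurd h1 (not_le.mpr (Fact.out : p.Prime).one_lt)

end Cfsg.Agent.S0602
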