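import Cfsg.Statements.S0606
import Mathlib
import Cfsg.Agent.Helper10.Thompson

set_option autoImplicit false
open Cfsg

namespace Cfsg.Agent.S0606

open Cfsg.Agent.Helper10
open Pointwise

/-- Elementary abelian p-subgroups of maximal order are best offenders on any normal elementary abelian p-subgroup. -/
theorem result {G : Type*} [Group G] [Finite G] {p : ℕ} [Fact p.Prime] (V : Subgroup G) [V.Normal] (hV : Cfsg.IsElementaryAbelian p V) (A : Subgroup G) (hA : A ∈ Cfsg.maxElementaryAbelianSubgroups p G) : Cfsg.IsBestOffenderOn p V A := by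
  have hA' := (elemAb_iff p A).mp hA.1
  have hV' := (elemAb_iff p V).mp hV
  refine ⟨?_, ?_, ?_⟩
  · intro B hBA
    have hBel : Cfsg.IsElementaryAbelian p B := elemAb_of_le hA.1 hBA
    have hCel : Cfsg.IsElementaryAbelian p (V ⊓ Subgroup.centralizer (B : Set G)) :=
      elemAb_of_le hV inf_le_left
    have hE : Cfsg.IsElementaryAbelian p (B ⊔ (V ⊓ Subgroup.centralizer (B : Set G))) :=
      elemAb_sup hBel hCel (fun b hb c hc => hc.2 b hb)
    have h1 := card_mul_card_le (le_sup_left : B ≤ B ⊔ (V ⊓ Subgroup.centralizer (B : Set G)))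
      (le_sup_right : V ⊓ Subgroup.centralizer (B : Set G) ≤ B ⊔ (V ⊓ Subgroup.centralizer (B : Set G)))
    have h2 : Nat.card (B ⊔ (V ⊓ Subgroup.centralizer (B : Set G)) : Subgroup G) ≤ Nat.card A :=
      hA.2 _ hE
    have h3 : B ⊓ (V ⊓ Subgroup.centralizer (B : Set G)) ≤ V ⊓ Subgroup.centralizer (A : Set G) := by
      rintro x ⟨hxB, hxV, -⟩
      exact ⟨hxV, fun a ha => hA'.1 a ha x (hBA hxB)⟩
    have h4 := Subgroup.card_le_of_le h3
    calc Nat.card B * Nat.card ↥(V ⊓ Subgroup.centralizer (B : Set G))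
        ≤ Nat.card (B ⊔ (V ⊓ Subgroup.centralizer (B : Set G)) : Subgroup G) *
          Nat.card (B ⊓ (V ⊓ Subgroup.centralizer (B : Set G)) : Subgroup G) := h1
      _ ≤ Nat.card A * Nat.card ↥(V ⊓ Subgroup.centralizer (A : Set G)) := Nat.mul_le_mul h2 h4
  · have : ⁅A, A⁆ = ⊥ := by
      rw [Subgroup.commutator_eq_bot_iff_le_centralizer]
      exact fun a ha b hb => hA'.1 b hb a ha
    rw [this]
    exact bot_le
  · intro a ha
    rw [hA'.2 a ha]
    exact Subgroup.one_mem _

end Cfsg.Agent.S0606
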