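import Cfsg.Statements.S0600
import Mathlib
import Cfsg.Agent.Helper10.PCore

set_option autoImplicit false
open Cfsg

namespace Cfsg.Agent.S0600

/-- A normal elementary abelian p-subgroup generated by the fixed points of the Sylow p-subgroups admits no nontrivial normal p-subgroup of G modulo its centralizer. -/
theorem result {G : Type*} [Group G] [Finite G] {p : ℕ} [Fact p.Prime] (V : Subgroup G) [V.Normal] (hV : Cfsg.IsElementaryAbelian p V) (hgen : V = ⨆ S : Sylow p G, V ⊓ Subgroup.centralizer ((S : Subgroup G) : Set G)) : Cfsg.pCore p (G ⧸ Subgroup.centralizer (V : Set G)) = ⊥ := by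
  rw [eq_bot_iff]
  intro x hx
  rw [Subgroup.mem_bot]
  obtain ⟨d, rfl⟩ := QuotientGroup.mk_surjective x
  rw [QuotientGroup.eq_one_iff]
  have hsurj : Function.Surjective (QuotientGroup.mk' (Subgroup.centralizer (V : Set G))) :=
    QuotientGroup.mk'_surjective _
  have key : V ≤ Subgroup.centralizer {d} := by
    refine hgen.le.trans (iSup_le fun S => ?_)
    intro v hv
    rw [Subgroup.mem_centralizer_singleton_iff]
    have hxS : (QuotientGroup.mk' (Subgroup.centralizer (V : Set G)) d) ∈
        ((S.mapSurjective hsurj : Sylow p (G ⧸ Subgroup.centralizer (V : Set G))) :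
          Subgroup (G ⧸ Subgroup.centralizer (V : Set G))) :=
      Cfsg.Agent.Helper10.pCore_le_sylow _ hx
    rw [Sylow.coe_mapSurjective] at hxS
    obtain ⟨s, hs, hsd⟩ := hxS
    have hc : s⁻¹ * d ∈ Subgroup.centralizer (V : Set G) := QuotientGroup.eq.mp hsd
    have hvs : s * v = v * s := (Subgroup.mem_centralizer_iff.mp hv.2 s hs)
    have hvc : v * (s⁻¹ * d) = (s⁻¹ * d) * v := (Subgroup.mem_centralizer_iff.mp hc v hv.1)
    have e : d * v = v * d := by
      calc d * v = s * ((s⁻¹ * d) * v) := by group
        _ = s * (v * (s⁻¹ * d)) := by rw [hvc]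
        _ = s * v * (s⁻¹ * d) := by group
        _ = v * s * (s⁻¹ * d) := by rw [hvs]
        _ = v * d := by group
    first | exact e | exact e.symm
  rw [Subgroup.mem_centralizer_iff]
  intro v hv
  have := key hv
  rw [Subgroup.mem_centralizer_singleton_iff] at this
  exact this

end Cfsg.Agent.S0600
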