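import Cfsg.Statements.S0601
import Mathlib
import Cfsg.Agent.Helper10.PCore
import Cfsg.Agent.Helper10.Conj
import Cfsg.Agent.Helper10.Thompson
import Cfsg.Agent.Helper11.Basic
import Cfsg.Agent.S0600

set_option autoImplicit false
open Cfsg

namespace Cfsg.Agent.S0601

open scoped Pointwise

lemma main {G : Type*} [Group G] [Finite G] {p : ℕ} [Fact p.Prime]
    (hc : Subgroup.centralizer (Cfsg.pCore p G : Set G) ≤ Cfsg.pCore p G) (W : Subgroup G)
    (hW : W = ⨆ S : Sylow p G, Cfsg.omegaOne p (((S : Subgroup G)) ⊓ Subgroup.centralizer ((S : Subgroup G) : Set G))) :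
    W.Normal ∧ Cfsg.IsElementaryAbelian p W ∧ ∀ D : Subgroup G, D.Normal →
      Subgroup.centralizer (W : Set G) ≤ D →
      (∃ k : ℕ, (Subgroup.centralizer (W : Set G)).relIndex D = p ^ k) →
      D = Subgroup.centralizer (W : Set G) := by
  have hT : ∀ S : Sylow p G, ∀ x, x ∈ (S : Subgroup G) ⊓ Subgroup.centralizer ((S : Subgroup G) : Set G) →
      x ^ p = 1 → x ∈ W := by
    intro S x hx hxp
    rw [hW]
    exact (le_iSup (fun S : Sylow p G => Cfsg.omegaOne p (((S : Subgroup G)) ⊓
      Subgroup.centralizer ((S : Subgroup G) : Set G))) S) (Subgroup.subset_closure ⟨hx, hxp⟩)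
  have hWn : W.Normal := by
    constructor
    intro x hx g
    have : W ≤ W.comap (MulAut.conj g).toMonoidHom := by
      conv_lhs => rw [hW]
      refine iSup_le fun S => ?_
      unfold Cfsg.omegaOne
      rw [Subgroup.closure_le]
      rintro y ⟨hy, hyp⟩
      rw [SetLike.mem_coe, Subgroup.mem_comap, MulEquiv.coe_toMonoidHom, MulAut.conj_apply]
      refine hT (g • S) _ ?_ ?_
      · rw [Sylow.coe_subgroup_smul]
        refine Subgroup.mem_inf.mpr ⟨Cfsg.Agent.Helper10.conj_mem_conj_smul g y _ hy.1, ?_⟩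
        rw [Subgroup.mem_centralizer_iff]
        intro z hz
        rw [SetLike.mem_coe, Cfsg.Agent.Helper10.mem_conj_smul_iff] at hz
        have := Subgroup.mem_centralizer_iff.mp hy.2 _ hz
        calc z * (g * y * g⁻¹) = g * ((g⁻¹ * z * g) * y) * g⁻¹ := by group
          _ = g * (y * (g⁻¹ * z * g)) * g⁻¹ := by rw [this]
          _ = g * y * g⁻¹ * z := by group
      · rw [conj_pow, hyp]; group
    have := this hx
    rwa [Subgroup.mem_comap, MulEquiv.coe_toMonoidHom, MulAut.conj_apply] at this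
  have hZ : ∀ S : Sylow p G, ∀ x, x ∈ (S : Subgroup G) ⊓ Subgroup.centralizer ((S : Subgroup G) : Set G) →
      x ∈ Cfsg.pCore p G ⊓ Subgroup.centralizer (Cfsg.pCore p G : Set G) := by
    intro S x hx
    have hQS : Cfsg.pCore p G ≤ S := Cfsg.Agent.Helper10.pCore_le_sylow S
    have h1 : x ∈ Subgroup.centralizer (Cfsg.pCore p G : Set G) :=
      Subgroup.centralizer_le (SetLike.coe_subset_coe.mpr hQS) hx.2
    exact ⟨hc h1, h1⟩
  have hWe : Cfsg.IsElementaryAbelian p W := by
    have hle : W ≤ Subgroup.closure {x : G | x ∈ Cfsg.pCore p G ⊓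
        Subgroup.centralizer (Cfsg.pCore p G : Set G) ∧ x ^ p = 1} := by
      rw [hW]
      refine iSup_le fun S => ?_
      apply Subgroup.closure_mono
      rintro y ⟨hy, hyp⟩
      exact ⟨hZ S y hy, hyp⟩
    refine Cfsg.Agent.Helper10.elemAb_of_le
      (Cfsg.Agent.Helper11.isElementaryAbelian_closure p _ ?_ ?_) hle
    · rintro x ⟨hx, _⟩ y ⟨hy, _⟩
      exact (Subgroup.mem_centralizer_iff.mp hy.2 x hx.1)
    · rintro x ⟨_, hxp⟩
      exact hxp
  refine ⟨hWn, hWe, ?_⟩
  intro D hDn hCD ⟨k, hk⟩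
  refine le_antisymm ?_ hCD
  have hgen : W = ⨆ S : Sylow p G, W ⊓ Subgroup.centralizer ((S : Subgroup G) : Set G) := by
    apply le_antisymm
    · conv_lhs => rw [hW]
      refine iSup_le fun S => ?_
      refine le_trans ?_ (le_iSup (fun S : Sylow p G => W ⊓ Subgroup.centralizer ((S : Subgroup G) : Set G)) S)
      unfold Cfsg.omegaOne
      rw [Subgroup.closure_le]
      rintro y ⟨hy, hyp⟩
      exact ⟨hT S y hy hyp, hy.2⟩
    · exact iSup_le fun S => inf_le_left
  have h0 := Cfsg.Agent.S0600.result W hWe hgen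
  intro d hd
  have hmem : (QuotientGroup.mk' (Subgroup.centralizer (W : Set G)) d) ∈
      Cfsg.pCore p (G ⧸ Subgroup.centralizer (W : Set G)) := by
    refine Cfsg.Agent.Helper10.le_pCore (D.map (QuotientGroup.mk' (Subgroup.centralizer (W : Set G))))
      (hDn.map _ (QuotientGroup.mk'_surjective _)) ?_ (Subgroup.mem_map_of_mem _ hd)
    rintro ⟨_, ⟨e, he, rfl⟩⟩
    refine ⟨k, ?_⟩
    apply Subtype.ext
    simp only [Subgroup.coe_pow, Subgroup.coe_one]
    rw [← map_pow]
    refine (QuotientGroup.eq_one_iff _).mpr ?_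
    have h1 := Subgroup.pow_index_mem ((Subgroup.centralizer (W : Set G)).subgroupOf D) (⟨e, he⟩ : D)
    have h2 : ((Subgroup.centralizer (W : Set G)).subgroupOf D).index = p ^ k := hk
    rw [h2, Subgroup.mem_subgroupOf] at h1
    simpa using h1
  rw [h0, Subgroup.mem_bot] at hmem
  exact (QuotientGroup.eq_one_iff _).mp hmem

/-- When O_p(G) contains its centralizer, the normal closure of Ω₁(Z(S)) is elementary abelian and G has no nontrivial normal p-subgroup modulo its centralizer. -/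
theorem result {G : Type*} [Group G] [Finite G] {p : ℕ} [Fact p.Prime] (hc : Subgroup.centralizer (Cfsg.pCore p G : Set G) ≤ Cfsg.pCore p G) : (⨆ S : Sylow p G, Cfsg.omegaOne p (((S : Subgroup G)) ⊓ Subgroup.centralizer ((S : Subgroup G) : Set G))).Normal ∧ Cfsg.IsElementaryAbelian p (⨆ S : Sylow p G, Cfsg.omegaOne p (((S : Subgroup G)) ⊓ Subgroup.centralizer ((S : Subgroup G) : Set G))) ∧ ∀ D : Subgroup G, D.Normal → Subgroup.centralizer ((⨆ S : Sylow p G, Cfsg.omegaOne p (((S : Subgroup G)) ⊓ Subgroup.centralizer ((S : Subgroup G) : Set G)) : Subgroup G) : Set G) ≤ D → (∃ k : ℕ, (Subgroup.centralizer ((⨆ S : Sylow p G, Cfsg.omegaOne p (((S : Subgroup G)) ⊓ Subgroup.centralizer ((S : Subgroup G) : Set G)) : Subgroup G) : Set G)).relIndex D = p ^ k) → D = Subgroup.centralizer ((⨆ S : Sylow p G, Cfsg.omegaOne p (((S : Subgroup G)) ⊓ Subgroup.centralizer ((S : Subgroup G) : Set G)) : Subgroup G) : Set G) := by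
  exact main hc _ rfl

end Cfsg.Agent.S0601
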