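import Cfsg.Statements.S0622
import Cfsg.Agent.Helper11.Basic

set_option autoImplicit false
universe u
open Cfsg

namespace Cfsg.Agent.S0622

open Cfsg.Agent.Helper11

/-- The image of an elementary abelian subgroup of largest order under an isomorphism. -/
theorem map_mem_maxElementaryAbelianSubgroups {S S' : Type u} [Group S] [Group S'] (p : ℕ)
    (η : S ≃* S') (A : Subgroup S) (hA : A ∈ maxElementaryAbelianSubgroups p S) :
    A.map η.toMonoidHom ∈ maxElementaryAbelianSubgroups p S' := by
  have hAc : IsMulCommutative A := hA.1.1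
  refine ⟨⟨inferInstance, ?_⟩, ?_⟩
  · rintro _ ⟨x, hx, rfl⟩
    rw [← map_pow, hA.1.2 x hx, map_one]
  · intro B hB
    have hB' : IsElementaryAbelian p (B.comap η.toMonoidHom) := by
      have hBc : IsMulCommutative B := hB.1
      refine ⟨Subgroup.comap_injective_isMulCommutative B (f := η.toMonoidHom) η.injective, ?_⟩
      intro x hx
      apply η.injective
      rw [map_pow, map_one]
      exact hB.2 _ hx
    have h1 := hA.2 _ hB'
    have h2 : Nat.card (B.comap η.toMonoidHom) = Nat.card B := by
      rw [Subgroup.comap_equiv_eq_map_symm']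
      exact Subgroup.card_map_of_injective η.symm.injective
    have h3 : Nat.card (A.map η.toMonoidHom) = Nat.card A :=
      Subgroup.card_map_of_injective η.injective
    rw [h3, ← h2]
    exact h1

theorem map_thompsonSubgroup_le {S S' : Type u} [Group S] [Group S'] (p : ℕ) (η : S ≃* S') :
    (thompsonSubgroup p S).map η.toMonoidHom ≤ thompsonSubgroup p S' := by
  rw [Subgroup.map_le_iff_le_comap, thompsonSubgroup]
  apply sSup_le
  intro A hA
  rw [← Subgroup.map_le_iff_le_comap]
  exact le_sSup (map_mem_maxElementaryAbelianSubgroups p η A hA)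

theorem map_symm_map {S S' : Type u} [Group S] [Group S'] (η : S ≃* S') (K : Subgroup S') :
    (K.map η.symm.toMonoidHom).map η.toMonoidHom = K := by
  ext x
  constructor
  · rintro ⟨y, ⟨z, hz, rfl⟩, rfl⟩
    simpa using hz
  · intro hx
    exact ⟨η.symm x, ⟨x, hx, rfl⟩, by simp⟩

theorem map_thompsonSubgroup {S S' : Type u} [Group S] [Group S'] (p : ℕ) (η : S ≃* S') :
    (thompsonSubgroup p S).map η.toMonoidHom = thompsonSubgroup p S' := by
  apply le_antisymm (map_thompsonSubgroup_le p η)
  have h := map_thompsonSubgroup_le p η.symm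
  have h2 := Subgroup.map_mono (f := η.toMonoidHom) h
  rw [map_symm_map] at h2
  exact h2

theorem map_omegaCenterThompson_le {S S' : Type u} [Group S] [Group S'] (p : ℕ) (η : S ≃* S') :
    (omegaCenterThompson p S).map η.toMonoidHom ≤ omegaCenterThompson p S' := by
  rw [omegaCenterThompson, omegaOne, MonoidHom.map_closure, Subgroup.closure_le]
  rintro _ ⟨x, ⟨hxZ, hxp⟩, rfl⟩
  have hxJ : x ∈ thompsonSubgroup p S := (Subgroup.mem_inf.mp hxZ).1
  have hxC : x ∈ Subgroup.centralizer (thompsonSubgroup p S : Set S) := (Subgroup.mem_inf.mp hxZ).2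
  apply Subgroup.subset_closure
  refine ⟨Subgroup.mem_inf.mpr ⟨?_, ?_⟩, ?_⟩
  · exact map_thompsonSubgroup_le p η (Subgroup.mem_map_of_mem _ hxJ)
  · rw [Subgroup.mem_centralizer_iff]
    intro y hy
    rw [SetLike.mem_coe, ← map_thompsonSubgroup p η] at hy
    obtain ⟨z, hz, rfl⟩ := hy
    rw [Subgroup.mem_centralizer_iff] at hxC
    have := hxC z hz
    change η z * η x = η x * η z
    rw [← map_mul, ← map_mul, this]
  · change (η x) ^ p = 1
    rw [← map_pow, hxp, map_one]

theorem map_omegaCenterThompson {S S' : Type u} [Group S] [Group S'] (p : ℕ) (η : S ≃* S') :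
    (omegaCenterThompson p S).map η.toMonoidHom = omegaCenterThompson p S' := by
  apply le_antisymm (map_omegaCenterThompson_le p η)
  have h := map_omegaCenterThompson_le p η.symm
  have h2 := Subgroup.map_mono (f := η.toMonoidHom) h
  rw [map_symm_map] at h2
  exact h2

theorem map_comp_symm {S S' H : Type u} [Group S] [Group S'] [Group H] (η : S ≃* S')
    (τ : S →* H) (K : Subgroup S') :
    K.map (τ.comp η.symm.toMonoidHom) = (K.map η.symm.toMonoidHom).map τ := by
  rw [Subgroup.map_map]

/-- Stable embeddings transport along isomorphisms of the source. -/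
theorem isStableEmbedding_comp_symm {S S' H : Type u} [Group S] [Group S'] [Group H] (p : ℕ)
    (η : S ≃* S') (τ : S →* H) (hτ : IsStableEmbedding p τ) :
    IsStableEmbedding p (τ.comp η.symm.toMonoidHom) := by
  obtain ⟨hinj, hfin, ⟨P, hP⟩, hc, hJ, hst⟩ := hτ
  refine ⟨?_, hfin, ⟨P, ?_⟩, hc, ?_, ?_⟩
  · exact hinj.comp η.symm.injective
  · rw [hP]
    ext x
    constructor
    · rintro ⟨y, rfl⟩
      exact ⟨η y, by simp⟩
    · rintro ⟨y, rfl⟩
      exact ⟨η.symm y, rfl⟩
  · rw [map_comp_symm, map_thompsonSubgroup p η.symm]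
    exact hJ
  · intro V _ hV
    apply hst V
    rw [map_comp_symm, map_omegaCenterThompson p η.symm] at hV
    exact hV

theorem map_omegaOne_center_le {S S' : Type u} [Group S] [Group S'] (p : ℕ) (η : S ≃* S') :
    (omegaOne p (Subgroup.center S)).map η.toMonoidHom ≤ omegaOne p (Subgroup.center S') := by
  rw [omegaOne, MonoidHom.map_closure, Subgroup.closure_le]
  rintro _ ⟨x, ⟨hxZ, hxp⟩, rfl⟩
  apply Subgroup.subset_closure
  refine ⟨?_, ?_⟩
  · rw [Subgroup.mem_center_iff] at hxZ ⊢
    intro y
    obtain ⟨z, rfl⟩ := η.surjective y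
    change η z * η x = η x * η z
    rw [← map_mul, ← map_mul, hxZ z]
  · change (η x) ^ p = 1
    rw [← map_pow, hxp, map_one]

theorem map_stableNormalClosure_le {S S' : Type u} [Group S] [Group S'] (p : ℕ) (η : S ≃* S') :
    (stableNormalClosure p S).map η.toMonoidHom ≤ stableNormalClosure p S' := by
  rw [stableNormalClosure, stableNormalClosure]
  apply le_sInf
  intro W' hW'
  rw [Subgroup.map_le_iff_le_comap]
  apply sInf_le
  refine ⟨?_, ?_⟩
  · rw [← Subgroup.map_le_iff_le_comap]
    exact (map_omegaOne_center_le p η).trans hW'.1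
  · intro H _ τ hτ
    have h1 := hW'.2 H (τ.comp η.symm.toMonoidHom) (isStableEmbedding_comp_symm p η τ hτ)
    rw [map_comp_symm, ← Subgroup.comap_equiv_eq_map_symm'] at h1
    exact h1

theorem map_stableNormalClosure {S S' : Type u} [Group S] [Group S'] (p : ℕ) (η : S ≃* S') :
    (stableNormalClosure p S).map η.toMonoidHom = stableNormalClosure p S' := by
  apply le_antisymm (map_stableNormalClosure_le p η)
  have h := map_stableNormalClosure_le p η.symm
  have h2 := Subgroup.map_mono (f := η.toMonoidHom) h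
  rw [map_symm_map] at h2
  exact h2

theorem omegaOne_center_le_omegaCenterThompson {S : Type u} [Group S] [Finite S] (p : ℕ) :
    omegaOne p (Subgroup.center S) ≤ omegaCenterThompson p S := by
  rw [omegaOne, Subgroup.closure_le]
  rintro x ⟨hxZ, hxp⟩
  apply Subgroup.subset_closure
  rw [Subgroup.mem_center_iff] at hxZ
  refine ⟨Subgroup.mem_inf.mpr ⟨?_, ?_⟩, hxp⟩
  · obtain ⟨A, hA⟩ := maxElementaryAbelianSubgroups_nonempty (G := S) p
    exact le_sSup hA (mem_of_mem_maxElementaryAbelianSubgroups p A hA x hxp (fun a _ => hxZ a))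
  · rw [Subgroup.mem_centralizer_iff]
    intro y _
    exact hxZ y

/-- The image of `Ω₁(Z(J(S)))` under an injective map that makes the image of `J(S)` normal is
normal. -/
theorem map_omegaCenterThompson_normal {S H : Type u} [Group S] [Group H] (p : ℕ) (τ : S →* H)
    (hinj : Function.Injective τ) (hJ : ((thompsonSubgroup p S).map τ).Normal) :
    ((omegaCenterThompson p S).map τ).Normal := by
  rw [← Subgroup.normalizer_eq_top_iff, eq_top_iff]
  have hmap : (omegaCenterThompson p S).map τ =
      Subgroup.closure (τ '' {x : S | x ∈ thompsonSubgroup p S ⊓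
        Subgroup.centralizer (thompsonSubgroup p S : Set S) ∧ x ^ p = 1}) := by
    rw [omegaCenterThompson, omegaOne, MonoidHom.map_closure]
  rw [hmap, Subgroup.le_normalizer_closure_iff]
  rintro h _ _ ⟨x, ⟨hxZ, hxp⟩, rfl⟩
  have hxJ : x ∈ thompsonSubgroup p S := (Subgroup.mem_inf.mp hxZ).1
  have hxC : x ∈ Subgroup.centralizer (thompsonSubgroup p S : Set S) := (Subgroup.mem_inf.mp hxZ).2
  apply Subgroup.subset_closure
  have h1 : h * τ x * h⁻¹ ∈ (thompsonSubgroup p S).map τ :=
    hJ.conj_mem _ (Subgroup.mem_map_of_mem _ hxJ) h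
  obtain ⟨y, hyJ, hy⟩ := h1
  refine ⟨y, ⟨Subgroup.mem_inf.mpr ⟨hyJ, ?_⟩, ?_⟩, hy⟩
  · rw [Subgroup.mem_centralizer_iff]
    intro j hj
    apply hinj
    rw [map_mul, map_mul, hy]
    have h2 : h⁻¹ * τ j * h⁻¹⁻¹ ∈ (thompsonSubgroup p S).map τ :=
      hJ.conj_mem _ (Subgroup.mem_map_of_mem _ hj) h⁻¹
    obtain ⟨j', hj'J, hj'⟩ := h2
    rw [Subgroup.mem_centralizer_iff] at hxC
    have h3 := congrArg τ (hxC j' hj'J)
    rw [map_mul, map_mul, hj'] at h3
    have h4 : τ j * (h * τ x * h⁻¹) = h * ((h⁻¹ * τ j * h⁻¹⁻¹) * τ x) * h⁻¹ := by group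
    have h5 : h * τ x * h⁻¹ * τ j = h * (τ x * (h⁻¹ * τ j * h⁻¹⁻¹)) * h⁻¹ := by group
    rw [h4, h5, h3]
  · apply hinj
    rw [map_pow, hy, map_one, conj_pow, ← map_pow, hxp, map_one]
    group

theorem omegaOne_center_ne_bot {S : Type u} [Group S] [Finite S] [Nontrivial S] {p : ℕ}
    [Fact p.Prime] (hS : IsPGroup p S) : omegaOne p (Subgroup.center S) ≠ ⊥ := by
  have hnt : Nontrivial (Subgroup.center S) := hS.center_nontrivial
  have hZ : IsPGroup p (Subgroup.center S) := hS.to_subgroup _
  have hdvd : p ∣ Nat.card (Subgroup.center S) := by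
    rcases hZ.card_eq_or_dvd with h | h
    · exact absurd (Nat.card_eq_one_iff_unique.mp h).1 (not_subsingleton _)
    · exact h
  obtain ⟨x, hx⟩ := exists_prime_orderOf_dvd_card' p hdvd
  intro hbot
  have hmem : (x : S) ∈ omegaOne p (Subgroup.center S) := by
    apply Subgroup.subset_closure
    refine ⟨x.2, ?_⟩
    have : x ^ p = 1 := by rw [← hx]; exact pow_orderOf_eq_one x
    have h2 := congrArg Subtype.val this
    simpa using h2
  rw [hbot, Subgroup.mem_bot] at hmem
  have hx1 : x = 1 := Subtype.ext hmem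
  rw [hx1, orderOf_one] at hx
  exact (Fact.out : p.Prime).one_lt.ne hx

/-- Basic properties of the stable normal closure W(S) of Ω₁(Z(S)) in a finite p-group: characteristic, squeezed between Ω₁(Z(S)) and Ω₁(Z(J(S))), nontrivial for S ≠ 1, and transported by group isomorphisms. -/
theorem result {S : Type u} [Group S] [Finite S] {p : ℕ} [Fact p.Prime] (hS : IsPGroup p S) : (Cfsg.stableNormalClosure p S).Characteristic ∧ Cfsg.omegaOne p (Subgroup.center S) ≤ Cfsg.stableNormalClosure p S ∧ Cfsg.stableNormalClosure p S ≤ Cfsg.omegaCenterThompson p S ∧ (Nontrivial S → Cfsg.stableNormalClosure p S ≠ ⊥) ∧ ∀ (S' : Type u) [Group S'] (η : S ≃* S'), (Cfsg.stableNormalClosure p S).map η.toMonoidHom = Cfsg.stableNormalClosure p S' := by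
  have h2 : omegaOne p (Subgroup.center S) ≤ stableNormalClosure p S := by
    rw [stableNormalClosure]
    apply le_sInf
    intro W hW
    exact hW.1
  refine ⟨?_, h2, ?_, ?_, ?_⟩
  · rw [Subgroup.characteristic_iff_map_eq]
    intro ϕ
    exact map_stableNormalClosure p ϕ
  · rw [stableNormalClosure]
    apply sInf_le
    refine ⟨omegaOne_center_le_omegaCenterThompson p, ?_⟩
    intro H _ τ hτ
    exact map_omegaCenterThompson_normal p τ hτ.1 hτ.2.2.2.2.1
  · intro hnt hbot
    apply omegaOne_center_ne_bot hS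
    rw [eq_bot_iff, ← hbot]
    exact h2
  · intro S' _ η
    exact map_stableNormalClosure p η

end Cfsg.Agent.S0622
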