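import Cfsg.Statements.S0794
import Mathlib
import Cfsg.Agent.Helper13.Quad

set_option autoImplicit false
open Cfsg

namespace Cfsg.Agent.S0794

open scoped Matrix commutatorElement

section aux

variable {F : Type*} [Field F] {ι : Type} [Fintype ι] [DecidableEq ι] (Q : QuadraticForm F (ι → F))

/-- The matrix of `x ↦ x - 2 f(u',x) u - 2 f(u,x) u'` (minus one on the hyperbolic plane `⟨u,u'⟩`). -/
def negMat (u u' : ι → F) : Matrix ι ι F :=
  1 - (2 : F) • (Matrix.vecMulVec u (Cfsg.polarVec ⇑Q u') + Matrix.vecMulVec u' (Cfsg.polarVec ⇑Q u))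

theorem negMat_mulVec (u u' x : ι → F) :
    negMat Q u u' *ᵥ x =
      x - (2 * QuadraticMap.polar ⇑Q u' x) • u - (2 * QuadraticMap.polar ⇑Q u x) • u' := by
  rw [negMat, Matrix.sub_mulVec, Matrix.one_mulVec, Matrix.smul_mulVec, Matrix.add_mulVec,
    Matrix.vecMulVec_mulVec, Matrix.vecMulVec_mulVec, Cfsg.Agent.Helper13.polarVec_dotProduct,
    Cfsg.Agent.Helper13.polarVec_dotProduct]
  simp only [mul_smul, smul_add, sub_sub]
  congr 1
  simp [smul_smul, mul_comm]

variable {Q}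

theorem polar_negMat (u u' : ι → F) (hu : Q u = 0) (hu' : Q u' = 0)
    (huu' : QuadraticMap.polar ⇑Q u u' = 1) (x : ι → F) :
    QuadraticMap.polar ⇑Q u (negMat Q u u' *ᵥ x) = - QuadraticMap.polar ⇑Q u x ∧
    QuadraticMap.polar ⇑Q u' (negMat Q u u' *ᵥ x) = - QuadraticMap.polar ⇑Q u' x := by
  have h1 : QuadraticMap.polar ⇑Q u u = 0 := by rw [QuadraticMap.polar_self, hu]; simp
  have h2 : QuadraticMap.polar ⇑Q u' u' = 0 := by rw [QuadraticMap.polar_self, hu']; simp
  have h3 : QuadraticMap.polar ⇑Q u' u = 1 := by rw [QuadraticMap.polar_comm]; exact huu'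
  rw [negMat_mulVec]
  simp only [QuadraticMap.polar_sub_right, QuadraticMap.polar_smul_right, h1, h2, h3, huu',
    smul_eq_mul]
  constructor <;> ring

theorem negMat_sq (u u' : ι → F) (hu : Q u = 0) (hu' : Q u' = 0)
    (huu' : QuadraticMap.polar ⇑Q u u' = 1) : negMat Q u u' * negMat Q u u' = 1 := by
  apply Cfsg.Agent.Helper13.mulVec_ext
  intro x
  obtain ⟨e1, e2⟩ := polar_negMat u u' hu hu' huu' x
  rw [← Matrix.mulVec_mulVec, negMat_mulVec Q u u' (negMat Q u u' *ᵥ x), e1, e2, negMat_mulVec,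
    Matrix.one_mulVec]
  module

theorem negMat_preserves (u u' : ι → F) (hu : Q u = 0) (hu' : Q u' = 0)
    (huu' : QuadraticMap.polar ⇑Q u u' = 1) (x : ι → F) : Q (negMat Q u u' *ᵥ x) = Q x := by
  have h3 : QuadraticMap.polar ⇑Q u' u = 1 := by rw [QuadraticMap.polar_comm]; exact huu'
  rw [negMat_mulVec, sub_eq_add_neg, sub_eq_add_neg, ← neg_smul, ← neg_smul,
    Cfsg.Agent.Helper13.Q_add', Cfsg.Agent.Helper13.Q_add', QuadraticMap.map_smul,
    QuadraticMap.map_smul, hu, hu', QuadraticMap.polar_smul_right, QuadraticMap.polar_smul_right,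
    QuadraticMap.polar_add_left, QuadraticMap.polar_smul_left, huu',
    QuadraticMap.polar_comm ⇑Q x u, QuadraticMap.polar_comm ⇑Q x u']
  simp only [smul_eq_mul]
  ring

/-- conjugating a Siegel transformation by `negMat` negates the parameter -/
theorem negMat_conj (u u' v : ι → F) (hu : Q u = 0) (hu' : Q u' = 0)
    (huu' : QuadraticMap.polar ⇑Q u u' = 1) (huv : QuadraticMap.polar ⇑Q u v = 0)
    (hu'v : QuadraticMap.polar ⇑Q u' v = 0) (c : F) :
    negMat Q u u' * Cfsg.siegelMatrix ⇑Q u v c * negMat Q u u' = Cfsg.siegelMatrix ⇑Q u v (-c) := by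
  have h1 : QuadraticMap.polar ⇑Q u u = 0 := by rw [QuadraticMap.polar_self, hu]; simp
  have h3 : QuadraticMap.polar ⇑Q u' u = 1 := by rw [QuadraticMap.polar_comm]; exact huu'
  have hvu : QuadraticMap.polar ⇑Q v u = 0 := by rw [QuadraticMap.polar_comm]; exact huv
  have hvu' : QuadraticMap.polar ⇑Q v u' = 0 := by rw [QuadraticMap.polar_comm]; exact hu'v
  apply Cfsg.Agent.Helper13.mulVec_ext
  intro x
  obtain ⟨e1, e2⟩ := polar_negMat u u' hu hu' huu' x
  have e3 : QuadraticMap.polar ⇑Q v (negMat Q u u' *ᵥ x) = QuadraticMap.polar ⇑Q v x := by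
    rw [negMat_mulVec]
    simp only [QuadraticMap.polar_sub_right, QuadraticMap.polar_smul_right, hvu, hvu',
      smul_eq_mul]
    ring
  have e4 : negMat Q u u' *ᵥ u = -u := by
    rw [negMat_mulVec, h1, h3]; module
  have e5 : negMat Q u u' *ᵥ v = v := by
    rw [negMat_mulVec, huv, hu'v]; module
  have e6 : negMat Q u u' *ᵥ (negMat Q u u' *ᵥ x) = x := by
    rw [Matrix.mulVec_mulVec, negMat_sq u u' hu hu' huu', Matrix.one_mulVec]
  rw [← Matrix.mulVec_mulVec, ← Matrix.mulVec_mulVec,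
    Cfsg.Agent.Helper13.siegelMatrix_mulVec Q u v c (negMat Q u u' *ᵥ x), e1, e3,
    Matrix.mulVec_sub, Matrix.mulVec_add, Matrix.mulVec_smul, Matrix.mulVec_smul, e4, e5, e6,
    Cfsg.Agent.Helper13.siegelMatrix_mulVec]
  module

end aux

section aux2

variable {F : Type*} [Field F] {ι : Type} [Fintype ι] [DecidableEq ι] (Q : QuadraticForm F (ι → F))

theorem siegel_zero (u v : ι → F) : Cfsg.siegelMatrix ⇑Q u v 0 = 1 := by
  simp [Cfsg.siegelMatrix]

theorem siegel_eq_one_of_left_zero (v : ι → F) (c : F) : Cfsg.siegelMatrix ⇑Q 0 v c = 1 := by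
  apply Cfsg.Agent.Helper13.mulVec_ext
  intro x
  rw [Cfsg.Agent.Helper13.siegelMatrix_mulVec, QuadraticMap.polar_zero_left, Matrix.one_mulVec]
  simp

theorem siegel_eq_one_of_smul (u : ι → F) (β c : F) :
    Cfsg.siegelMatrix ⇑Q u (β • u) c = 1 := by
  apply Cfsg.Agent.Helper13.mulVec_ext
  intro x
  rw [Cfsg.Agent.Helper13.siegelMatrix_mulVec, QuadraticMap.polar_smul_left, Matrix.one_mulVec]
  simp only [smul_eq_mul]
  module

/-- a hyperbolic partner of `u` orthogonal to `v` -/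
theorem exists_partner (hQ : (QuadraticMap.polarBilin Q).Nondegenerate) (u v : ι → F)
    (hu : Q u = 0) (huv : QuadraticMap.polar ⇑Q u v = 0) (hu0 : u ≠ 0)
    (hv : ∀ β : F, v ≠ β • u) :
    ∃ u' : ι → F, Q u' = 0 ∧ QuadraticMap.polar ⇑Q u u' = 1 ∧ QuadraticMap.polar ⇑Q u' v = 0 := by
  have hsep : ∀ z : ι → F, z ≠ 0 → ∃ x, QuadraticMap.polar ⇑Q z x = 1 := by
    intro z hz
    have : ∃ x, QuadraticMap.polar ⇑Q z x ≠ 0 := by
      by_contra hcon
      push Not at hcon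
      exact hz (hQ.1 z hcon)
    obtain ⟨x, hx⟩ := this
    refine ⟨(QuadraticMap.polar ⇑Q z x)⁻¹ • x, ?_⟩
    rw [QuadraticMap.polar_smul_right, smul_eq_mul, inv_mul_cancel₀ hx]
  obtain ⟨x₁, hx₁⟩ := hsep u hu0
  have hv' : v - (QuadraticMap.polar ⇑Q v x₁) • u ≠ 0 := by
    intro h
    exact hv _ (sub_eq_zero.mp h)
  obtain ⟨x₂, hx₂⟩ := hsep _ hv'
  rw [QuadraticMap.polar_sub_left, QuadraticMap.polar_smul_left, smul_eq_mul] at hx₂
  have h1 : QuadraticMap.polar ⇑Q u u = 0 := by rw [QuadraticMap.polar_self, hu]; simp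
  have hw1 : QuadraticMap.polar ⇑Q u ((1 + QuadraticMap.polar ⇑Q v x₁ * QuadraticMap.polar ⇑Q u x₂) • x₁
      - (QuadraticMap.polar ⇑Q v x₁) • x₂) = 1 := by
    rw [QuadraticMap.polar_sub_right, QuadraticMap.polar_smul_right, QuadraticMap.polar_smul_right,
      hx₁]
    simp only [smul_eq_mul]
    ring
  have hw2 : QuadraticMap.polar ⇑Q v ((1 + QuadraticMap.polar ⇑Q v x₁ * QuadraticMap.polar ⇑Q u x₂) • x₁
      - (QuadraticMap.polar ⇑Q v x₁) • x₂) = 0 := by
    rw [QuadraticMap.polar_sub_right, QuadraticMap.polar_smul_right, QuadraticMap.polar_smul_right]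
    simp only [smul_eq_mul]
    linear_combination (-(QuadraticMap.polar ⇑Q v x₁)) * hx₂
  generalize (1 + QuadraticMap.polar ⇑Q v x₁ * QuadraticMap.polar ⇑Q u x₂) • x₁
      - (QuadraticMap.polar ⇑Q v x₁) • x₂ = w at hw1 hw2
  have hwu : QuadraticMap.polar ⇑Q w u = 1 := by rw [QuadraticMap.polar_comm]; exact hw1
  have hwv : QuadraticMap.polar ⇑Q w v = 0 := by rw [QuadraticMap.polar_comm]; exact hw2
  refine ⟨w - Q w • u, ?_, ?_, ?_⟩
  · rw [sub_eq_add_neg, ← neg_smul, Cfsg.Agent.Helper13.Q_add', QuadraticMap.map_smul, hu,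
      QuadraticMap.polar_smul_right, hwu]
    simp
  · rw [QuadraticMap.polar_sub_right, QuadraticMap.polar_smul_right, h1, hw1]
    simp
  · rw [QuadraticMap.polar_sub_left, QuadraticMap.polar_smul_left, hwv, huv]
    simp

end aux2

/-- For q odd, n ≥ 5 and Q with non-degenerate polar form: an isometry whose matrix is a Siegel transformation T_(u,v)(c) (u, v singular and orthogonal) is a commutator in the isometry group, so lies in Ω. -/
theorem result {F : Type*} [Field F] [Fintype F] (h2 : (2 : F) ≠ 0) {n : ℕ} (hn : 5 ≤ n) (Q : QuadraticForm F (Fin n → F)) (hQ : (QuadraticMap.polarBilin Q).Nondegenerate) (u v : Fin n → F) (hu : Q u = 0) (hv : Q v = 0) (huv : QuadraticMap.polar ⇑Q u v = 0) (c : F) (g : ↥(Cfsg.isometryGroup F ⇑Q)) (hg : ((g : Matrix.GeneralLinearGroup (Fin n) F) : Matrix (Fin n) (Fin n) F) = Cfsg.siegelMatrix ⇑Q u v c) : g ∈ commutatorSet ↥(Cfsg.isometryGroup F ⇑Q) ∧ g ∈ Cfsg.Omega F ⇑Q := by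
  classical
  have hone : Cfsg.siegelMatrix ⇑Q u v c = 1 → g ∈ commutatorSet ↥(Cfsg.isometryGroup F ⇑Q) := by
    intro h1
    have : g = 1 := by
      apply Subtype.ext
      apply Units.ext
      rw [hg, h1]
      rfl
    rw [this]
    exact one_mem_commutatorSet _
  have hcomm : g ∈ commutatorSet ↥(Cfsg.isometryGroup F ⇑Q) := by
    by_cases hu0 : u = 0
    · subst hu0
      exact hone (siegel_eq_one_of_left_zero Q v c)
    by_cases hvu : ∃ β : F, v = β • u
    · obtain ⟨β, rfl⟩ := hvu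
      exact hone (siegel_eq_one_of_smul Q u β c)
    push Not at hvu
    obtain ⟨u', hu', huu', hu'v⟩ := exists_partner Q hQ u v hu huv hu0 hvu
    have hsq := negMat_sq u u' hu hu' huu'
    have hT1 : Cfsg.siegelMatrix ⇑Q u v (-c / 2) * Cfsg.siegelMatrix ⇑Q u v (-(-c / 2)) = 1 := by
      rw [Cfsg.Agent.Helper13.siegel_mul Q u v hu hv huv, add_neg_cancel, siegel_zero]
    have hT2 : Cfsg.siegelMatrix ⇑Q u v (-(-c / 2)) * Cfsg.siegelMatrix ⇑Q u v (-c / 2) = 1 := by
      rw [Cfsg.Agent.Helper13.siegel_mul Q u v hu hv huv, neg_add_cancel, siegel_zero]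
    let a₀ : Matrix.GeneralLinearGroup (Fin n) F := ⟨negMat Q u u', negMat Q u u', hsq, hsq⟩
    let b₀ : Matrix.GeneralLinearGroup (Fin n) F :=
      ⟨Cfsg.siegelMatrix ⇑Q u v (-c / 2), Cfsg.siegelMatrix ⇑Q u v (-(-c / 2)), hT1, hT2⟩
    have ha : a₀ ∈ Cfsg.isometryGroup F ⇑Q := by
      intro x y
      exact negMat_preserves u u' hu hu' huu' x
    have hb : b₀ ∈ Cfsg.isometryGroup F ⇑Q := by
      intro x y
      exact Cfsg.Agent.Helper13.siegel_preserves Q u v hu hv huv _ x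
    refine ⟨⟨a₀, ha⟩, ⟨b₀, hb⟩, ?_⟩
    apply Subtype.ext
    apply Units.ext
    rw [hg]
    show negMat Q u u' * Cfsg.siegelMatrix ⇑Q u v (-c / 2) * negMat Q u u' *
      Cfsg.siegelMatrix ⇑Q u v (-(-c / 2)) = _
    rw [negMat_conj u u' v hu hu' huu' huv hu'v, Cfsg.Agent.Helper13.siegel_mul Q u v hu hv huv]
    congr 1
    field_simp
    ring
  refine ⟨hcomm, ?_⟩
  show g ∈ commutator ↥(Cfsg.isometryGroup F ⇑Q)
  rw [commutator_eq_closure]
  exact Subgroup.subset_closure hcomm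

end Cfsg.Agent.S0794
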