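import Cfsg.Statements.S1086
import Cfsg.Agent.Helper17.TwE6U
import Cfsg.Agent.Helper17.TwField
import Cfsg.Agent.Helper18.GAut2

set_option autoImplicit false
open Cfsg

namespace Cfsg.Agent.S1086

open Cfsg.Lie Cfsg.Agent.Helper17 Cfsg.Agent.Helper36 Cfsg.Agent.Helper18

/-- |U¹| = |G¹ ∩ U| = q ^ 36 for ²E₆(q). -/
theorem result {K : Type*} [Field K] [Fintype K] {q : ℕ} (hq : IsPrimePow q) (hK : Fintype.card K = q ^ 2) :
    Nat.card ↥(Cfsg.Lie.chevE6.posUnipotent K ⊓ Cfsg.Lie.twistedE6 K q) = q ^ 36 := by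
  have hq1 : 1 < q := hq.one_lt
  obtain ⟨φ, hφ⟩ := exists_frob hq (by norm_num) hK
  have hφ2 : ∀ t : K, φ (φ t) = t := by
    intro t
    rw [hφ, hφ]
    have : (t ^ q) ^ q = t ^ (q ^ 2) := by ring
    rw [this, ← hK, FiniteField.pow_card]
  obtain ⟨α, hα⟩ := exists_graph_aut_of_checks (F := K) hD_E6 gautP_E6 gautQ_E6 [5, 1, 4, 3, 2, 0]
    [5, 1, 4, 3, 2, 0] gaut_chk_E6
  have hshift : ∀ o ∈ orbsE6, ∀ t : K, (o.length = 1 → φ t = t) → ∀ i ∈ o,
      φ (coef φ eE6 t i) = coef φ eE6 t (lE6.getD i 0) := by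
    intro o ho t ht i hi
    simp only [orbsE6, List.mem_cons, List.not_mem_nil, or_false] at ho
    rcases ho with rfl | rfl | rfl | rfl
    · simp only [List.mem_cons, List.not_mem_nil, or_false] at hi
      subst hi
      exact ht rfl
    · simp only [List.mem_cons, List.not_mem_nil, or_false] at hi
      subst hi
      exact ht rfl
    · simp only [List.mem_cons, List.not_mem_nil, or_false] at hi
      rcases hi with rfl | rfl
      · rfl
      · exact hφ2 t
    · simp only [List.mem_cons, List.not_mem_nil, or_false] at hi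
      rcases hi with rfl | rfl
      · rfl
      · exact hφ2 t
  have hcard := card_twisted_unipotent hD_E6 φ eE6 lE6 orbsE6 rowsE6 coordWE6
    (rootCoords_of_OK chainPackOK_E6 coordOK_E6) twTab_E6 orbOK_E6 (symActOK_E6 _ (by decide)) (by decide) α hα
    (by decide) hshift
  rw [twistedE6_eq q φ hφ (bRel_of_mem hD_E6).xadd, hcard]
  have e1 : (rowsE6.map fun row => Nat.card (RowPar φ orbsE6 row)) =
      rowsE6.map fun row => if (rowO orbsE6 row).length = 1 then q else q ^ 2 :=
    List.map_congr_left fun row _ => card_rowPar hφ hq1 (by norm_num) hK orbsE6 row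
  rw [e1, prod_ite_pow]
  congr 1

end Cfsg.Agent.S1086
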