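import Mathlib
import Cfsg.Statements.S1012

set_option autoImplicit false
open Cfsg

namespace Cfsg.Agent.S1012

/-- A group of order 24 containing no element of order 6 is isomorphic to the symmetric group of degree 4. -/
theorem result {G : Type*} [Group G] [Finite G] (h : Nat.card G = 24) (h6 : ∀ g : G, orderOf g ≠ 6) : Nonempty (G ≃* Equiv.Perm (Fin 4)) := by
  have : Fact (Nat.Prime 3) := ⟨by norm_num⟩
  have : Fact (Nat.Prime 2) := ⟨by norm_num⟩
  obtain ⟨x, hx⟩ := exists_prime_orderOf_dvd_card' (G := G) 3 (by rw [h]; norm_num)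
  have key : ∀ t y : G, orderOf t = 2 → orderOf y = 3 → Commute t y → False := by
    intro t y ht hy hc
    have := hc.orderOf_mul_eq_mul_orderOf_of_coprime (by rw [ht, hy]; norm_num)
    rw [ht, hy] at this
    exact h6 _ this
  have hQcard : ∀ Q : Sylow 3 G, Nat.card ↥(Q : Subgroup G) = 3 ∧ (Q : Subgroup G).index = 8 := by
    intro Q
    obtain ⟨k, hk⟩ := IsPGroup.iff_card.1 Q.2
    have h1 := (Q : Subgroup G).card_mul_index
    have h2 := Q.not_dvd_index
    rw [h, hk] at h1
    have hk3 : k < 3 := by
      by_contra hcon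
      have h3 : 3 ^ 3 ≤ 3 ^ k := Nat.pow_le_pow_right (by norm_num) (by omega)
      have h4 : 3 ^ k ∣ 24 := Dvd.intro _ h1
      have := Nat.le_of_dvd (by norm_num) h4
      omega
    rw [hk]
    interval_cases k
    · exfalso; apply h2; rw [show (Q : Subgroup G).index = 24 by omega]; norm_num
    · exact ⟨by norm_num, by omega⟩
    · exfalso; omega
  let P : Sylow 3 G := default
  have hn : Nat.card (Sylow 3 G) = 1 ∨ Nat.card (Sylow 3 G) = 4 := by
    have h1 := P.card_dvd_index
    rw [(hQcard P).2] at h1
    have h2 := card_sylow_modEq_one 3 G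
    have h3 := Nat.le_of_dvd (by norm_num) h1
    unfold Nat.ModEq at h2
    generalize Nat.card (Sylow 3 G) = n at *
    interval_cases n <;> simp_all
  have hidxN : (Subgroup.normalizer ((P : Subgroup G) : Set G)).index = Nat.card (Sylow 3 G) :=
    (P.card_eq_index_normalizer).symm
  rcases hn with hn | hn
  · exfalso
    have hPn : (P : Subgroup G).Normal := by
      rw [← Subgroup.normalizer_eq_top_iff, ← Subgroup.index_eq_one, hidxN]
      exact hn
    have hcyc : IsCyclic ↥(P : Subgroup G) := isCyclic_of_prime_card (hQcard P).1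
    have hcard_aut : Nat.card (MulAut ↥(P : Subgroup G)) = 2 := by
      rw [IsCyclic.card_mulAut, (hQcard P).1]
      decide
    set K : Subgroup G := (MulAut.conjNormal : G →* MulAut ↥(P : Subgroup G)).ker with hK
    have hKidx : K.index ∣ 2 := by
      rw [hK, Subgroup.index_ker, ← hcard_aut]
      exact Subgroup.card_subgroup_dvd_card _
    have hK2 : 2 ∣ Nat.card ↥K := by
      have h1 := K.card_mul_index
      rw [h] at h1
      have h2 := Nat.le_of_dvd (by norm_num) hKidx
      have h3 : K.index ≠ 0 := fun h0 => by rw [h0] at h1; omega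
      generalize K.index = i at *
      interval_cases i <;> omega
    obtain ⟨t, ht⟩ := exists_prime_orderOf_dvd_card' (G := ↥K) 2 hK2
    obtain ⟨y, hy⟩ := exists_prime_orderOf_dvd_card' (G := ↥(P : Subgroup G)) 3
      (by rw [(hQcard P).1])
    apply key (t : G) (y : G) (by rw [Subgroup.orderOf_coe, ht]) (by rw [Subgroup.orderOf_coe, hy])
    have htk : (MulAut.conjNormal : G →* MulAut ↥(P : Subgroup G)) (t : G) = 1 := t.2
    have h1 := congrArg (fun φ : MulAut ↥(P : Subgroup G) => ((φ y : ↥(P : Subgroup G)) : G)) htk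
    simp only [MulAut.conjNormal_apply, MulAut.one_apply] at h1
    show (t : G) * (y : G) = (y : G) * (t : G)
    calc (t : G) * (y : G) = ((t : G) * (y : G) * (t : G)⁻¹) * (t : G) := by group
      _ = (y : G) * (t : G) := by rw [h1]
  · set φ : G →* Equiv.Perm (Sylow 3 G) := MulAction.toPermHom G (Sylow 3 G) with hφ
    set K : Subgroup G := φ.ker with hK
    have hKmem : ∀ g : G, g ∈ K → ∀ Q : Sylow 3 G, g • Q = Q := by
      intro g hg Q
      have h1 : φ g = 1 := hg
      have h2 := congrArg (fun σ : Equiv.Perm (Sylow 3 G) => σ Q) h1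
      simpa [hφ] using h2
    -- no element of order 3 in K
    have hno3 : ∀ g : G, g ∈ K → orderOf g ≠ 3 := by
      intro g hg hg3
      have hzp : IsPGroup 3 ↥(Subgroup.zpowers g) :=
        IsPGroup.of_card (n := 1) (by rw [Nat.card_zpowers, hg3, pow_one])
      have hall : ∀ Q : Sylow 3 G, (Q : Subgroup G) = Subgroup.zpowers g := by
        intro Q
        have h1 : g ∈ Subgroup.normalizer ((Q : Subgroup G) : Set G) :=
          Sylow.smul_eq_iff_mem_normalizer.1 (hKmem g hg Q)
        have h2 := hzp.inf_normalizer_sylow Q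
        have h3 : g ∈ Subgroup.zpowers g ⊓ (Q : Subgroup G) := by
          rw [← h2]
          exact ⟨Subgroup.mem_zpowers g, h1⟩
        have h4 : Subgroup.zpowers g ≤ (Q : Subgroup G) := by
          rw [Subgroup.zpowers_le]
          exact h3.2
        exact (Subgroup.eq_of_le_of_card_ge h4
          (by rw [(hQcard Q).1, Nat.card_zpowers, hg3])).symm
      have hsub : Subsingleton (Sylow 3 G) :=
        ⟨fun Q Q' => Sylow.ext ((hall Q).trans (hall Q').symm)⟩
      have := Finite.card_le_one_iff_subsingleton.2 hsub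
      omega
    have hKdvd6 : Nat.card ↥K ∣ 6 := by
      have h1 : K ≤ Subgroup.normalizer ((P : Subgroup G) : Set G) := fun g hg =>
        Sylow.smul_eq_iff_mem_normalizer.1 (hKmem g hg P)
      have h2 := (Subgroup.normalizer ((P : Subgroup G) : Set G)).card_mul_index
      rw [hidxN, hn, h] at h2
      have h3 : Nat.card ↥(Subgroup.normalizer ((P : Subgroup G) : Set G)) = 6 := by omega
      rw [← h3]
      exact Subgroup.card_dvd_of_le h1
    have hK3 : ¬ 3 ∣ Nat.card ↥K := by
      intro h3
      obtain ⟨g, hg⟩ := exists_prime_orderOf_dvd_card' (G := ↥K) 3 h3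
      exact hno3 (g : G) g.2 (by rw [Subgroup.orderOf_coe, hg])
    have hK12 : Nat.card ↥K = 1 ∨ Nat.card ↥K = 2 := by
      have h1 := Nat.le_of_dvd (by norm_num) hKdvd6
      have h0 : Nat.card ↥K ≠ 0 := Nat.card_pos.ne'
      generalize Nat.card ↥K = n at *
      interval_cases n <;> simp_all
    rcases hK12 with hK1 | hK2
    · have hinj : Function.Injective φ := by
        rw [← MonoidHom.ker_eq_bot_iff, ← hK]
        exact Subgroup.card_eq_one.1 hK1
      have hbij : Function.Bijective φ := by
        rw [Nat.bijective_iff_injective_and_card]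
        refine ⟨hinj, ?_⟩
        rw [Nat.card_perm, hn, h]
        decide
      exact ⟨(MulEquiv.ofBijective φ hbij).trans
        (Equiv.permCongrHom (Finite.equivFinOfCardEq hn))⟩
    · exfalso
      obtain ⟨t, ht⟩ := exists_prime_orderOf_dvd_card' (G := ↥K) 2 (by rw [hK2])
      have huniq := (Nat.card_eq_two_iff' (1 : ↥K)).1 hK2
      have hKn : K.Normal := MonoidHom.normal_ker φ
      have ht1 : t ≠ 1 := by
        intro h1
        rw [h1, orderOf_one] at ht
        omega
      have hconj : (⟨x * (t : G) * x⁻¹, hKn.conj_mem _ t.2 x⟩ : ↥K) ≠ 1 := by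
        intro h1
        apply ht1
        have h2 : x * (t : G) * x⁻¹ = 1 := congrArg Subtype.val h1
        have h3 : (t : G) = 1 := by
          have : (t : G) = x⁻¹ * (x * (t : G) * x⁻¹) * x := by group
          rw [this, h2]; group
        exact Subtype.ext h3
      have heq := huniq.unique hconj ht1
      have heq' : x * (t : G) * x⁻¹ = (t : G) := congrArg Subtype.val heq
      apply key (t : G) x (by rw [Subgroup.orderOf_coe, ht]) hx
      show (t : G) * x = x * (t : G)
      calc (t : G) * x = (x * (t : G) * x⁻¹) * x := by rw [heq']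
        _ = x * (t : G) := by group

end Cfsg.Agent.S1012
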