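import Mathlib
import Cfsg.Statements.S0203
import Cfsg.Agent.Helper55.KleinFusion
-- import your own Cfsg.Agent.* helpers here

set_option autoImplicit false
open Cfsg

namespace Cfsg.Agent.S0203

/-- If a Sylow 2-subgroup P of a finite group G is a Klein four-group, then G has three classes of involutions if and only if P has a normal complement in G. -/
theorem result {G : Type*} [Group G] [Finite G] (P : Sylow 2 G) (hP : IsKleinFour (P : Subgroup G)) : Nat.card {C : ConjClasses G // ∃ t : G, orderOf t = 2 ∧ ConjClasses.mk t = C} = 3 ↔ ∃ N : Subgroup G, N.Normal ∧ Subgroup.IsComplement' N (P : Subgroup G) := by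
  have hfact : Fact (Nat.Prime 2) := ⟨Nat.prime_two⟩
  constructor
  · intro h3
    have hnf : ∀ u ∈ (P : Subgroup G), ∀ v ∈ (P : Subgroup G), IsConj u v → u = v := by
      rcases Cfsg.Agent.Helper55.klein_dichotomy P hP with h | h
      · exact h
      · rw [Cfsg.Agent.Helper55.klein_card_classes_of_all_conj P hP h] at h3
        omega
    have hNC : Subgroup.normalizer ((P : Subgroup G) : Set G) ≤
        Subgroup.centralizer ((P : Subgroup G) : Set G) := by
      intro n hn
      rw [Subgroup.mem_centralizer_iff]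
      intro x hx
      have hx' : n * x * n⁻¹ ∈ (P : Subgroup G) := (Subgroup.mem_normalizer_iff.1 hn x).1 hx
      have h1 := hnf x hx _ hx' (isConj_iff.2 ⟨n, rfl⟩)
      rw [eq_mul_inv_iff_mul_eq] at h1
      exact h1
    exact ⟨_, inferInstance, MonoidHom.ker_transferSylow_isComplement' P hNC⟩
  · rintro ⟨N, hN, hc⟩
    apply Cfsg.Agent.Helper55.klein_card_classes_of_no_fusion P hP
    intro u hu v hv huv
    obtain ⟨g, hg⟩ := isConj_iff.1 huv
    obtain ⟨⟨⟨n, hn⟩, ⟨p, hp⟩⟩, hnp, -⟩ := (Subgroup.isComplement'_def.1 hc).existsUnique g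
    simp only at hnp
    subst hnp
    have hn' : n ∈ N := hn
    have hp' : p ∈ (P : Subgroup G) := hp
    have h1 : n * u * n⁻¹ = v := by
      rw [← hg]
      have hpu := Cfsg.Agent.Helper55.klein_comm hP hp' hu
      calc n * u * n⁻¹ = n * (u * p * p⁻¹) * n⁻¹ := by group
        _ = n * (p * u * p⁻¹) * n⁻¹ := by rw [hpu]
        _ = n * p * u * (n * p)⁻¹ := by group
    have h2 : v * u⁻¹ ∈ N := by
      rw [← h1]
      have e : n * u * n⁻¹ * u⁻¹ = n * (u * n⁻¹ * u⁻¹) := by group
      rw [e]
      exact N.mul_mem hn' (hN.conj_mem _ (N.inv_mem hn') u)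
    have h3 : v * u⁻¹ ∈ (P : Subgroup G) := mul_mem hv (inv_mem hu)
    have h4 : v * u⁻¹ = 1 := (Subgroup.disjoint_def.1 hc.disjoint) h2 h3
    exact (mul_inv_eq_one.1 h4).symm

end Cfsg.Agent.S0203
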