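import Cfsg.Statements.S0129
import Cfsg.Agent.S0126

set_option autoImplicit false
open Cfsg

namespace Cfsg.Agent.S0129

/-- In a finite `p`-group, between normal subgroups `K < M` there is `x ∈ M ∖ K`
central modulo `K` with `x ^ p ∈ K`. -/
theorem central_ext {G : Type*} [Group G] [Finite G] {p : ℕ} [Fact p.Prime] (hG : IsPGroup p G)
    (K M : Subgroup G) [K.Normal] [M.Normal] (hKM : K ≤ M) (hne : K ≠ M) :
    ∃ x ∈ M, x ∉ K ∧ x ^ p ∈ K ∧ ∀ g : G, g * x * g⁻¹ * x⁻¹ ∈ K := by
  have hmk1 : ∀ y : G, (QuotientGroup.mk' K y = 1) ↔ y ∈ K := fun y => by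
    rw [QuotientGroup.mk'_apply, QuotientGroup.eq_one_iff]
  have hNn : (M.map (QuotientGroup.mk' K)).Normal :=
    Subgroup.Normal.map inferInstance _ (QuotientGroup.mk'_surjective K)
  have hNne : M.map (QuotientGroup.mk' K) ≠ ⊥ := by
    intro hb
    apply hne
    apply le_antisymm hKM
    intro y hy
    have h1 : QuotientGroup.mk' K y ∈ M.map (QuotientGroup.mk' K) := Subgroup.mem_map_of_mem _ hy
    rw [hb, Subgroup.mem_bot] at h1
    exact (hmk1 y).mp h1
  obtain ⟨z, hzN, hzc, hzo⟩ :=
    Cfsg.Agent.S0126.exists_central_order_p (hG.to_quotient K) (M.map (QuotientGroup.mk' K)) hNne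
  obtain ⟨x, hxM, rfl⟩ := Subgroup.mem_map.mp hzN
  have hpp : p.Prime := Fact.out
  refine ⟨x, hxM, ?_, ?_, ?_⟩
  · intro hxK
    rw [(hmk1 x).mpr hxK, orderOf_one] at hzo
    exact hpp.one_lt.ne hzo
  · rw [← hmk1, map_pow, ← hzo, pow_orderOf_eq_one]
  · intro g
    have h1 := Subgroup.mem_center_iff.mp hzc (QuotientGroup.mk' K g)
    rw [← hmk1, map_mul, map_mul, map_mul, map_inv, map_inv, h1]
    group

/-- adjoining `x` (central mod `K`, `x^p ∈ K`, `x ∉ K`) to `K`. -/
theorem ext_props {G : Type*} [Group G] [Finite G] {p : ℕ} [Fact p.Prime]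
    (K : Subgroup G) [K.Normal] (x : G) (hxK : x ∉ K) (hxp : x ^ p ∈ K)
    (hxc : ∀ g : G, g * x * g⁻¹ * x⁻¹ ∈ K) :
    ∃ K' : Subgroup G, K'.Normal ∧ K ≤ K' ∧ x ∈ K' ∧ Nat.card K' = p * Nat.card K ∧
      ∀ y ∈ K', ∃ k : ℤ, ∃ e ∈ K, y = x ^ k * e := by
  have hmk1 : ∀ y : G, (QuotientGroup.mk' K y = 1) ↔ y ∈ K := fun y => by
    rw [QuotientGroup.mk'_apply, QuotientGroup.eq_one_iff]
  have hcomm : ∀ g : G, QuotientGroup.mk' K g * QuotientGroup.mk' K x =
      QuotientGroup.mk' K x * QuotientGroup.mk' K g := by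
    intro g
    have h1 := (hmk1 _).mpr (hxc g)
    simp only [map_mul, map_inv] at h1
    calc QuotientGroup.mk' K g * QuotientGroup.mk' K x
        = (QuotientGroup.mk' K g * QuotientGroup.mk' K x * (QuotientGroup.mk' K g)⁻¹ *
            (QuotientGroup.mk' K x)⁻¹) * (QuotientGroup.mk' K x * QuotientGroup.mk' K g) := by group
      _ = QuotientGroup.mk' K x * QuotientGroup.mk' K g := by rw [h1, one_mul]
  refine ⟨(Subgroup.zpowers (QuotientGroup.mk' K x)).comap (QuotientGroup.mk' K), ?_, ?_, ?_, ?_, ?_⟩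
  · constructor
    intro y hy g
    rw [Subgroup.mem_comap] at hy ⊢
    obtain ⟨k, hk⟩ := Subgroup.mem_zpowers_iff.mp hy
    have h2 : Commute (QuotientGroup.mk' K g) (QuotientGroup.mk' K x ^ k) :=
      (show Commute (QuotientGroup.mk' K g) (QuotientGroup.mk' K x) from hcomm g).zpow_right k
    rw [map_mul, map_mul, map_inv, ← hk, h2.eq, mul_inv_cancel_right]
    exact Subgroup.zpow_mem _ (Subgroup.mem_zpowers _) k
  · intro e he
    rw [Subgroup.mem_comap, (hmk1 e).mpr he]
    exact Subgroup.one_mem _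
  · rw [Subgroup.mem_comap]
    exact Subgroup.mem_zpowers _
  · rw [Cfsg.Agent.S0126.card_comap_mk, Nat.card_zpowers]
    have hord : orderOf (QuotientGroup.mk' K x) = p := by
      apply orderOf_eq_prime
      · rw [← map_pow]
        exact (hmk1 _).mpr hxp
      · intro h
        exact hxK ((hmk1 x).mp h)
    rw [hord]
  · intro y hy
    rw [Subgroup.mem_comap] at hy
    obtain ⟨k, hk⟩ := Subgroup.mem_zpowers_iff.mp hy
    refine ⟨k, (x ^ k)⁻¹ * y, ?_, by group⟩
    rw [← hmk1, map_mul, map_inv, map_zpow, hk, inv_mul_cancel]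

theorem tri (i : ℕ) : i + i * (i - 1) / 2 = (i + 1) * (i + 1 - 1) / 2 := by
  cases i with
  | zero => rfl
  | succ j =>
    have h1 : (j + 1 + 1) * (j + 1 + 1 - 1) = (j + 1) * (j + 1 - 1) + 2 * (j + 1) := by
      simp only [Nat.add_sub_cancel]; ring
    rw [h1, Nat.add_mul_div_left _ _ (by norm_num : 0 < 2)]
    omega

/-- If A is a maximal normal abelian subgroup of a finite p-group and has order p^a, then the group has order at most p^(a(a+1)/2). -/
theorem result {G : Type*} [Group G] [Finite G] {p : ℕ} [Fact p.Prime] (hG : IsPGroup p G) (A : Subgroup G) [A.Normal] (hA : IsMulCommutative A) (hmax : ∀ B : Subgroup G, B.Normal → IsMulCommutative B → A ≤ B → B = A) (a : ℕ) (ha : Nat.card A = p ^ a) : Nat.card G ≤ p ^ (a * (a + 1) / 2) := by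
  have hpp : p.Prime := Fact.out
  have hp1 : 1 < p := hpp.one_lt
  have hAcomm : ∀ e ∈ A, ∀ e' ∈ A, Commute e e' := fun e he e' he' => by
    have := hA.1.1 ⟨e, he⟩ ⟨e', he'⟩
    exact congrArg Subtype.val this
  have hAcent : A ≤ Subgroup.centralizer (A : Set G) :=
    Subgroup.le_centralizer_iff_isMulCommutative.mpr hA
  -- step 1: the centralizer of A is A
  have hCA : Subgroup.centralizer (A : Set G) = A := by
    by_contra hne
    obtain ⟨w, hwC, hwA, hwp, hwc⟩ :=
      central_ext hG A (Subgroup.centralizer (A : Set G)) hAcent (fun h => hne h.symm)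
    obtain ⟨B, hBn, hAB, hwB, -, hBmem⟩ := ext_props A w hwA hwp hwc
    have hwcomm : ∀ e ∈ A, Commute w e := fun e he =>
      (Subgroup.mem_centralizer_iff.mp hwC e he).symm
    have hBc : IsMulCommutative B := by
      refine ⟨⟨fun u v => ?_⟩⟩
      apply Subtype.ext
      obtain ⟨k, e, he, hab⟩ := hBmem u.1 u.2
      obtain ⟨k', e', he', hab'⟩ := hBmem v.1 v.2
      simp only [Subgroup.coe_mul]
      rw [hab, hab']
      have h1 : Commute (w ^ k) (w ^ k') := (Commute.refl w).zpow_zpow k k'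
      have h2 : Commute (w ^ k) e' := (hwcomm e' he').zpow_left k
      have h3 : Commute e (w ^ k') := ((hwcomm e he).zpow_left k').symm
      have h4 : Commute e e' := hAcomm e he e' he'
      exact ((h1.mul_right h2).mul_left (h3.mul_right h4)).eq
    exact hwA (hmax B hBn hBc hAB ▸ hwB)
  -- step 2: the chain
  have key : ∀ i : ℕ, i ≤ a → ∃ K : Subgroup G, K.Normal ∧ K ≤ A ∧ Nat.card K = p ^ i ∧
      (Subgroup.centralizer (K : Set G)).index ≤ p ^ (i * (i - 1) / 2) := by
    intro i
    induction i with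
    | zero =>
      intro _
      refine ⟨⊥, inferInstance, bot_le, by rw [Subgroup.card_bot, pow_zero], ?_⟩
      have : Subgroup.centralizer ((⊥ : Subgroup G) : Set G) = ⊤ := by
        rw [Subgroup.centralizer_eq_top_iff_subset]
        intro y hy
        rw [SetLike.mem_coe, Subgroup.mem_bot] at hy
        rw [hy]
        exact Subgroup.one_mem _
      rw [this, Subgroup.index_top]
      exact Nat.one_le_pow _ _ hpp.pos
    | succ i ih =>
      intro hi
      obtain ⟨K, hKn, hKA, hKcard, hKidx⟩ := ih (by omega)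
      have hKne : K ≠ A := by
        intro h
        rw [h, ha] at hKcard
        have := Nat.pow_right_injective hp1 hKcard
        omega
      obtain ⟨x, hxA, hxK, hxp, hxc⟩ := central_ext hG K A hKA hKne
      obtain ⟨K', hK'n, hKK', hxK', hK'card, hK'mem⟩ := ext_props K x hxK hxp hxc
      have hK'A : K' ≤ A := by
        intro y hy
        obtain ⟨k, e, he, rfl⟩ := hK'mem y hy
        exact A.mul_mem (A.zpow_mem hxA k) (hKA he)
      refine ⟨K', hK'n, hK'A, by rw [hK'card, hKcard, pow_succ, mul_comm], ?_⟩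
      -- the homomorphism
      let φ : ↥(Subgroup.centralizer (K : Set G)) →* G :=
        MonoidHom.mk' (fun g => (g : G) * x * (g : G)⁻¹ * x⁻¹) (by
          intro g h
          have hc : (h : G) * x * (h : G)⁻¹ * x⁻¹ ∈ K := hxc h
          have hg := Subgroup.mem_centralizer_iff.mp g.2 _ hc
          have hcomm := hAcomm _ (hKA (hxc (g : G))) _ (hKA hc)
          simp only [Subgroup.coe_mul]
          calc (g : G) * (h : G) * x * ((g : G) * (h : G))⁻¹ * x⁻¹
              = (g : G) * ((h : G) * x * (h : G)⁻¹ * x⁻¹) * (g : G)⁻¹ *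
                  ((g : G) * x * (g : G)⁻¹ * x⁻¹) := by group
            _ = ((h : G) * x * (h : G)⁻¹ * x⁻¹) * (g : G) * (g : G)⁻¹ *
                  ((g : G) * x * (g : G)⁻¹ * x⁻¹) := by rw [hg]
            _ = ((h : G) * x * (h : G)⁻¹ * x⁻¹) * ((g : G) * x * (g : G)⁻¹ * x⁻¹) := by group
            _ = (g : G) * x * (g : G)⁻¹ * x⁻¹ * ((h : G) * x * (h : G)⁻¹ * x⁻¹) := hcomm.eq.symm)
      have hφ : ∀ g, φ g = (g : G) * x * (g : G)⁻¹ * x⁻¹ := fun g => rfl
      have hrange : φ.range ≤ K := by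
        rintro _ ⟨g, rfl⟩
        exact hxc g
      have hkeridx : φ.ker.index ≤ p ^ i := by
        rw [Subgroup.index_ker, ← hKcard]
        exact Subgroup.card_le_of_le hrange
      have hsub : φ.ker.map (Subgroup.centralizer (K : Set G)).subtype ≤
          Subgroup.centralizer (K' : Set G) := by
        rintro _ ⟨g, hg, rfl⟩
        rw [SetLike.mem_coe, MonoidHom.mem_ker, hφ] at hg
        rw [Subgroup.mem_centralizer_iff]
        intro y hy
        obtain ⟨k, e, he, rfl⟩ := hK'mem y hy
        have h1 : Commute e (g : G) := Subgroup.mem_centralizer_iff.mp g.2 e he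
        have h2 : Commute x (g : G) := by
          have : (g : G) * x = x * (g : G) := by
            calc (g : G) * x = ((g : G) * x * (g : G)⁻¹ * x⁻¹) * (x * (g : G)) := by group
              _ = x * (g : G) := by rw [hg, one_mul]
          exact this.symm
        exact ((h2.zpow_left k).mul_left h1).eq
      calc (Subgroup.centralizer (K' : Set G)).index
          ≤ (φ.ker.map (Subgroup.centralizer (K : Set G)).subtype).index :=
            Nat.le_of_dvd (Nat.pos_of_ne_zero Subgroup.index_ne_zero_of_finite)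
              (Subgroup.index_dvd_of_le hsub)
        _ = φ.ker.index * (Subgroup.centralizer (K : Set G)).index := Subgroup.index_map_subtype _
        _ ≤ p ^ i * p ^ (i * (i - 1) / 2) := Nat.mul_le_mul hkeridx hKidx
        _ = p ^ ((i + 1) * (i + 1 - 1) / 2) := by rw [← pow_add, tri]
  obtain ⟨K, -, hKA, hKcard, hKidx⟩ := key a le_rfl
  have hKeq : K = A := Subgroup.eq_of_le_of_card_ge hKA (by rw [hKcard, ha])
  rw [hKeq, hCA] at hKidx
  rw [← Subgroup.card_mul_index A, ha]
  calc p ^ a * A.index ≤ p ^ a * p ^ (a * (a - 1) / 2) := Nat.mul_le_mul_left _ hKidx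
    _ = p ^ (a * (a + 1) / 2) := by
      rw [← pow_add, tri a, Nat.add_sub_cancel, mul_comm]

end Cfsg.Agent.S0129
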