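-- Statement S1442 (row 1442).
import Cfsg.Statements.S1442

set_option autoImplicit false
open Cfsg
open scoped commutatorElement

namespace Cfsg.Agent.S1442

/-- If the commutator `⁅x, a⁆` commutes with `a` and the two have coprime exponents, then `x` and `a`
commute. -/
theorem comm_of_commutator_comm {G : Type*} [Group G] (x a : G) (m n : ℕ) (hcop : m.Coprime n)
    (ha : a ^ m = 1) (hz : ⁅x, a⁆ ^ n = 1) (hzc : ⁅x, a⁆ * a = a * ⁅x, a⁆) : x * a = a * x := by
  have h1 : x * a * x⁻¹ = ⁅x, a⁆ * a := by simp [commutatorElement_def]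
  have h2 : (⁅x, a⁆ * a) ^ m = ⁅x, a⁆ ^ m * a ^ m := Commute.mul_pow hzc _
  have h3 : (x * a * x⁻¹) ^ m = 1 := by
    rw [conj_pow, ha]; simp
  have h4 : ⁅x, a⁆ ^ m = 1 := by
    rw [h1, h2, ha, mul_one] at h3; exact h3
  have h5 : orderOf ⁅x, a⁆ ∣ n := orderOf_dvd_of_pow_eq_one hz
  have h6 : orderOf ⁅x, a⁆ ∣ m := orderOf_dvd_of_pow_eq_one h4
  have h7 : orderOf ⁅x, a⁆ = 1 := Nat.eq_one_of_dvd_coprimes hcop h6 h5
  have h8 : ⁅x, a⁆ = 1 := orderOf_eq_one_iff.mp h7
  rw [commutatorElement_eq_one_iff_mul_comm] at h8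
  exact h8

theorem result {G : Type*} [Group G] [Finite G] (H A : Subgroup G) (hH : Group.IsNilpotent H) (hA : (A ≤ Subgroup.normalizer (H : Set G))) (hcop : (Nat.card A).Coprime (Nat.card H))
    (hC : H ⊓ Subgroup.centralizer (((H ⊓ Subgroup.centralizer (A : Set G)) : Subgroup G) : Set G) ≤ (H ⊓ Subgroup.centralizer (A : Set G))) :
    A ≤ Subgroup.centralizer (H : Set G) := by
  classical
  set C : Subgroup G := H ⊓ Subgroup.centralizer (A : Set G) with hCdef
  -- every element of `H` normalizing `C` lies in `C`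
  have key : ∀ x ∈ H, (∀ c ∈ C, x⁻¹ * c * x ∈ C) → x ∈ C := by
    intro x hx hxC
    refine Subgroup.mem_inf.mpr ⟨hx, ?_⟩
    rw [Subgroup.mem_centralizer_iff]
    intro a ha
    have hzH : ⁅x, a⁆ ∈ H := by
      have h1 : a * x⁻¹ * a⁻¹ ∈ H :=
        ((Subgroup.mem_normalizer_iff.mp (hA ha)) x⁻¹).mp (H.inv_mem hx)
      have h2 : ⁅x, a⁆ = x * (a * x⁻¹ * a⁻¹) := by simp [commutatorElement_def, mul_assoc]
      rw [h2]; exact H.mul_mem hx h1
    have hzC : ⁅x, a⁆ ∈ Subgroup.centralizer (C : Set G) := by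
      rw [Subgroup.mem_centralizer_iff]
      intro c hc
      have hca : a * c = c * a :=
        (Subgroup.mem_centralizer_iff.mp (Subgroup.mem_inf.mp hc).2) a ha
      have hc' := hxC c hc
      have hc'a : a * (x⁻¹ * c * x) = (x⁻¹ * c * x) * a :=
        (Subgroup.mem_centralizer_iff.mp (Subgroup.mem_inf.mp hc').2) a ha
      have h1 : a⁻¹ * c = c * a⁻¹ := (Commute.inv_left (show Commute a c from hca)).eq
      calc c * ⁅x, a⁆ = x * ((x⁻¹ * c * x) * a) * x⁻¹ * a⁻¹ := by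
            simp [commutatorElement_def, mul_assoc]
        _ = x * (a * (x⁻¹ * c * x)) * x⁻¹ * a⁻¹ := by rw [hc'a]
        _ = x * a * x⁻¹ * (c * a⁻¹) := by simp [mul_assoc]
        _ = x * a * x⁻¹ * (a⁻¹ * c) := by rw [h1]
        _ = ⁅x, a⁆ * c := by simp [commutatorElement_def, mul_assoc]
    have hz : ⁅x, a⁆ ∈ C := hC (Subgroup.mem_inf.mpr ⟨hzH, hzC⟩)
    have hza : ⁅x, a⁆ * a = a * ⁅x, a⁆ :=
      ((Subgroup.mem_centralizer_iff.mp (Subgroup.mem_inf.mp hz).2) a ha).symm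
    have ham : a ^ Nat.card A = 1 := by
      have h := congrArg Subtype.val (pow_card_eq_one' (G := A) (x := ⟨a, ha⟩))
      rw [Subgroup.coe_pow] at h
      exact h
    have hzn : ⁅x, a⁆ ^ Nat.card H = 1 := by
      have h := congrArg Subtype.val (pow_card_eq_one' (G := H) (x := ⟨⁅x, a⁆, hzH⟩))
      rw [Subgroup.coe_pow] at h
      exact h
    exact (comm_of_commutator_comm x a _ _ hcop ham hzn hza).symm
  have hCtop : C.subgroupOf H = ⊤ := by
    by_contra hne
    have hlt : C.subgroupOf H < ⊤ := lt_top_iff_ne_top.mpr hne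
    have hnc := Group.normalizerCondition_of_isNilpotent (G := H) _ hlt
    obtain ⟨y, hyN, hyC⟩ := SetLike.exists_of_lt hnc
    apply hyC
    rw [Subgroup.mem_subgroupOf]
    apply key _ y.2
    intro c hc
    have h1 := (Subgroup.mem_normalizer_iff.mp hyN) (y⁻¹ * ⟨c, (Subgroup.mem_inf.mp hc).1⟩ * y)
    have h2 := h1.mpr (by simpa [Subgroup.mem_subgroupOf, mul_assoc] using hc)
    simpa [Subgroup.mem_subgroupOf] using h2
  have hHC : H ≤ C := Subgroup.subgroupOf_eq_top.mp hCtop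
  intro a ha
  rw [Subgroup.mem_centralizer_iff]
  intro h hh
  exact ((Subgroup.mem_centralizer_iff.mp (Subgroup.mem_inf.mp (hHC hh)).2) a ha).symm

end Cfsg.Agent.S1442
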