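-- Statement S1443 (row 1443).
import Cfsg.Statements.S1443
import Cfsg.Agent.Helper24.Coprime

set_option autoImplicit false
open Cfsg
open scoped commutatorElement Pointwise

namespace Cfsg.Agent.S1443

open Cfsg.Agent.Helper24

/-- Let p be an odd prime, H a p-subgroup, E ≤ H elementary abelian, and A a p'-subgroup normalizing H. If A centralizes every element of order p of C_H(E), then A centralizes H. -/
theorem result {G : Type*} [Group G] [Finite G] (p : ℕ) [Fact p.Prime] (hp : p ≠ 2) (H E A : Subgroup G) (hH : IsPGroup p H) (hE : E ≤ H) (hEe : Cfsg.IsElementaryAbelian p E)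
    (hA : (A ≤ Subgroup.normalizer (H : Set G))) (hcop : (Nat.card A).Coprime p)
    (hfix : ∀ x ∈ (H ⊓ Subgroup.centralizer (E : Set G)), orderOf x = p → A ≤ Subgroup.centralizer ({x} : Set G)) :
    A ≤ Subgroup.centralizer (H : Set G) := by
  obtain ⟨hEcomm, hEp⟩ := hEe
  set C : Subgroup G := H ⊓ Subgroup.centralizer (E : Set G) with hC
  -- `A` centralizes every `x ∈ C` with `x ^ p = 1`
  have hΩ : ∀ x ∈ C, x ^ p = 1 → ∀ a ∈ A, a * x = x * a := by
    intro x hx hxp a ha
    by_cases hx1 : x = 1
    · subst hx1; simp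
    · have hord : orderOf x = p := orderOf_eq_prime hxp hx1
      have := Subgroup.mem_centralizer_iff.mp (hfix x hx hord ha) x (Set.mem_singleton x)
      exact this.symm
  -- `E ≤ C`
  have hEC : E ≤ C := by
    intro e he
    refine Subgroup.mem_inf.mpr ⟨hE he, ?_⟩
    rw [Subgroup.mem_centralizer_iff]
    intro e' he'
    have := hEcomm.is_comm.comm (⟨e', he'⟩ : E) ⟨e, he⟩
    exact congrArg Subtype.val this
  -- `A` centralizes `E`
  have hAE : ∀ a ∈ A, ∀ e ∈ E, a * e = e * a := fun a ha e he => hΩ e (hEC he) (hEp e he) a ha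
  have hAEbot : ⁅A, E⁆ = ⊥ := by
    rw [Subgroup.commutator_eq_bot_iff_le_centralizer]
    intro a ha
    rw [Subgroup.mem_centralizer_iff]
    intro e he
    exact (hAE a ha e he).symm
  -- `A` normalizes `C`
  have hAC : A ≤ Subgroup.normalizer (C : Set G) := by
    have key : ∀ a ∈ A, ∀ c ∈ C, a * c * a⁻¹ ∈ C := by
      intro a ha c hc
      refine Subgroup.mem_inf.mpr ⟨(Subgroup.mem_normalizer_iff.mp (hA ha) c).mp hc.1, ?_⟩
      rw [Subgroup.mem_centralizer_iff]
      intro e he
      have h1 : e * c = c * e := Subgroup.mem_centralizer_iff.mp hc.2 e he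
      have h2 : a * e = e * a := hAE a ha e he
      have h3 : a⁻¹ * e = e * a⁻¹ := (Commute.inv_left (show Commute a e from h2)).eq
      calc e * (a * c * a⁻¹) = (e * a) * c * a⁻¹ := by group
        _ = (a * e) * c * a⁻¹ := by rw [h2]
        _ = a * (e * c) * a⁻¹ := by group
        _ = a * (c * e) * a⁻¹ := by rw [h1]
        _ = a * c * (e * a⁻¹) := by group
        _ = a * c * (a⁻¹ * e) := by rw [h3]
        _ = a * c * a⁻¹ * e := by group
    intro a ha
    refine mem_normalizer_of_conj_mem (key a ha) (fun c hc => ?_)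
    have := key a⁻¹ (A.inv_mem ha) c hc
    simpa using this
  have hCp : IsPGroup p C := hH.to_le inf_le_left
  have hCA : C ≤ Subgroup.centralizer (A : Set G) :=
    le_centralizer_of_odd_of_centralizes_omega hp A hcop _ C le_rfl hCp hAC hΩ
  have hHA : H ≤ Subgroup.centralizer (A : Set G) :=
    thompson_AxB A E (hH.to_le hE) hAEbot hcop _ H le_rfl hH hA (hE.trans Subgroup.le_normalizer) hCA
  intro a ha
  rw [Subgroup.mem_centralizer_iff]
  intro h hh
  exact (Subgroup.mem_centralizer_iff.mp (hHA hh) a ha).symm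

end Cfsg.Agent.S1443
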