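import Cfsg.Statements.S0228
import Mathlib
import Cfsg.Agent.Helper4.Dihedral

set_option autoImplicit false
open Cfsg

namespace Cfsg.Agent.S0228

/-- A group of order 12 in which no involution is central is isomorphic to the alternating group on four letters. -/
theorem result {G : Type*} [Group G] [Finite G] (hG : Nat.card G = 12) (hz : ∀ z : G, orderOf z = 2 → z ∉ Subgroup.center G) : Nonempty (G ≃* alternatingGroup (Fin 4)) := by
  classical
  haveI : Fact (Nat.Prime 3) := ⟨by norm_num⟩
  haveI : Fact (Nat.Prime 2) := ⟨Nat.prime_two⟩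
  have hP3 : ∀ P : Sylow 3 G, Nat.card P = 3 := by
    intro P
    obtain ⟨k, hk⟩ := IsPGroup.iff_card.mp P.isPGroup'
    have h1 := Subgroup.card_mul_index (P : Subgroup G)
    have h2 := P.not_dvd_index
    rw [hG, hk] at h1
    rw [hk]
    rcases k with _ | _ | k
    · exfalso; apply h2; rw [pow_zero, one_mul] at h1; rw [h1]; norm_num
    · norm_num
    · exfalso
      have : 9 ∣ 12 := ⟨3 ^ k * (P : Subgroup G).index, by rw [← h1]; ring⟩
      omega
  have hQ4 : ∀ Q : Sylow 2 G, Nat.card Q = 4 := by
    intro Q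
    obtain ⟨k, hk⟩ := IsPGroup.iff_card.mp Q.isPGroup'
    have h1 := Subgroup.card_mul_index (Q : Subgroup G)
    have h2 := Q.not_dvd_index
    rw [hG, hk] at h1
    rw [hk]
    rcases k with _ | _ | _ | k
    · exfalso; apply h2; rw [pow_zero, one_mul] at h1; rw [h1]; norm_num
    · exfalso; apply h2
      have : (Q : Subgroup G).index = 6 := by omega
      rw [this]; norm_num
    · norm_num
    · exfalso
      have : 8 ∣ 12 := ⟨2 ^ k * (Q : Subgroup G).index, by rw [← h1]; ring⟩
      omega
  have hn3 : Nat.card (Sylow 3 G) = 1 ∨ Nat.card (Sylow 3 G) = 4 := by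
    obtain ⟨P⟩ : Nonempty (Sylow 3 G) := inferInstance
    have h1 := Sylow.card_dvd_index P
    have h2 := card_sylow_modEq_one 3 G
    have h3 := Subgroup.card_mul_index (P : Subgroup G)
    rw [hG, hP3 P] at h3
    have h4 : (P : Subgroup G).index = 4 := by omega
    rw [h4] at h1
    have h5 : Nat.card (Sylow 3 G) ≤ 4 := Nat.le_of_dvd (by norm_num) h1
    have key : ∀ n ≤ 4, n ∣ 4 → n ≡ 1 [MOD 3] → n = 1 ∨ n = 4 := by decide
    exact key _ h5 h1 h2
  rcases hn3 with h1 | h4
  · exfalso
    haveI : Subsingleton (Sylow 3 G) := (Nat.card_eq_one_iff_unique.mp h1).1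
    obtain ⟨P⟩ : Nonempty (Sylow 3 G) := inferInstance
    have hPn : (P : Subgroup G).Normal := Sylow.normal_of_subsingleton P
    obtain ⟨Q⟩ : Nonempty (Sylow 2 G) := inferInstance
    have h3 : 3 ∣ Nat.card (P : Subgroup G) := by rw [hP3 P]
    obtain ⟨⟨a, haP⟩, hao⟩ := exists_prime_orderOf_dvd_card' 3 h3
    have hao' : orderOf a = 3 := by rw [← hao]; exact (Subgroup.orderOf_mk a haP).symm
    -- pigeonhole on Q → P
    have hninj : ¬ Function.Injective (fun q : (Q : Subgroup G) =>
        (⟨(q : G) * a * (q : G)⁻¹, hPn.conj_mem a haP q⟩ : (P : Subgroup G))) := by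
      intro hinj
      have h5 := Nat.card_le_card_of_injective _ hinj
      rw [hP3 P, hQ4 Q] at h5
      omega
    rw [Function.Injective] at hninj
    push Not at hninj
    obtain ⟨q, q', hqq', hne⟩ := hninj
    have hqq : (q : G) * a * (q : G)⁻¹ = (q' : G) * a * (q' : G)⁻¹ := congrArg Subtype.val hqq'
    -- r = q'⁻¹ q commutes with a
    have hrQ : (q' : G)⁻¹ * (q : G) ∈ (Q : Subgroup G) := (Q : Subgroup G).mul_mem
      ((Q : Subgroup G).inv_mem q'.2) q.2
    have hr1 : (q' : G)⁻¹ * (q : G) ≠ 1 := by
      intro h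
      apply hne
      apply Subtype.ext
      have := inv_mul_eq_one.mp h
      exact this.symm
    have hra : (q' : G)⁻¹ * (q : G) * a = a * ((q' : G)⁻¹ * (q : G)) := by
      calc (q' : G)⁻¹ * (q : G) * a = (q' : G)⁻¹ * ((q : G) * a * (q : G)⁻¹) * (q : G) := by group
        _ = (q' : G)⁻¹ * ((q' : G) * a * (q' : G)⁻¹) * (q : G) := by rw [hqq]
        _ = a * ((q' : G)⁻¹ * (q : G)) := by group
    -- Q is abelian
    have hQcomm : ∀ x ∈ (Q : Subgroup G), ∀ y ∈ (Q : Subgroup G), x * y = y * x := by
      intro x hx y hy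
      have hmc := IsPGroup.isMulCommutative_of_card_eq_prime_sq (p := 2) (G := (Q : Subgroup G))
        (by rw [hQ4 Q]; norm_num)
      have h := mul_comm' (⟨x, hx⟩ : (Q : Subgroup G)) ⟨y, hy⟩
      exact congrArg Subtype.val h
    -- an involution t ∈ Q commuting with a
    obtain ⟨t, htQ, hto, hta⟩ : ∃ t ∈ (Q : Subgroup G), orderOf t = 2 ∧ t * a = a * t := by
      set r := (q' : G)⁻¹ * (q : G) with hr
      have hord : orderOf r ∣ 4 := by
        have h := orderOf_dvd_natCard (⟨r, hrQ⟩ : (Q : Subgroup G))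
        rw [hQ4 Q, Subgroup.orderOf_mk] at h
        exact h
      have hr4 : r ^ 4 = 1 := orderOf_dvd_iff_pow_eq_one.mp hord
      by_cases hrr : r * r = 1
      · exact ⟨r, hrQ, Agent.Helper4.orderOf_two_iff.mpr ⟨hr1, hrr⟩, hra⟩
      · refine ⟨r * r, (Q : Subgroup G).mul_mem hrQ hrQ,
          Agent.Helper4.orderOf_two_iff.mpr ⟨hrr, ?_⟩, ?_⟩
        · have h6 := hr4
          rw [show (4 : ℕ) = 2 + 2 from rfl, pow_add, pow_two] at h6
          exact h6
        · calc r * r * a = r * (r * a) := mul_assoc r r a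
            _ = r * (a * r) := by rw [hra]
            _ = (r * a) * r := (mul_assoc r a r).symm
            _ = (a * r) * r := by rw [hra]
            _ = a * (r * r) := mul_assoc a r r
    -- t is central
    have hQC : (Q : Subgroup G) ≤ Subgroup.centralizer ({t} : Set G) := by
      intro y hy
      rw [Subgroup.mem_centralizer_singleton_iff]
      exact hQcomm y hy t htQ
    have hPC : (P : Subgroup G) ≤ Subgroup.centralizer ({t} : Set G) := by
      have hzp : Subgroup.zpowers a = (P : Subgroup G) := by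
        apply Subgroup.eq_of_le_of_card_ge ((Subgroup.zpowers_le).mpr haP)
        rw [hP3 P, Nat.card_zpowers, hao']
      rw [← hzp, Subgroup.zpowers_le, Subgroup.mem_centralizer_singleton_iff]
      exact hta.symm
    have hCtop : Subgroup.centralizer ({t} : Set G) = ⊤ := by
      apply Subgroup.eq_top_of_card_eq
      have d1 : 3 ∣ Nat.card (Subgroup.centralizer ({t} : Set G)) := by
        have h5 := Subgroup.card_dvd_of_le hPC
        rwa [hP3 P] at h5
      have d2 : 4 ∣ Nat.card (Subgroup.centralizer ({t} : Set G)) := by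
        have h5 := Subgroup.card_dvd_of_le hQC
        rwa [hQ4 Q] at h5
      have d5 : 0 < Nat.card (Subgroup.centralizer ({t} : Set G)) := Nat.card_pos
      have d3 : Nat.card (Subgroup.centralizer ({t} : Set G)) ∣ 12 := by
        rw [← hG]; exact Subgroup.card_subgroup_dvd_card _
      have d4 : Nat.card (Subgroup.centralizer ({t} : Set G)) ≤ 12 := Nat.le_of_dvd (by norm_num) d3
      rw [hG]
      omega
    apply hz t hto
    rw [Subgroup.mem_center_iff]
    intro g
    have hg : g ∈ Subgroup.centralizer ({t} : Set G) := by rw [hCtop]; exact Subgroup.mem_top g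
    exact Subgroup.mem_centralizer_singleton_iff.mp hg
  · -- action on the four Sylow 3-subgroups
    have hker : ∀ g : G, (∀ P : Sylow 3 G, g • P = P) → g = 1 := by
      intro g hg
      have hnt : Nontrivial (Sylow 3 G) := by
        apply (Finite.one_lt_card_iff_nontrivial).mp
        rw [h4]; norm_num
      obtain ⟨P₁, P₂, hne⟩ := hnt
      have hN : ∀ P : Sylow 3 G, g ∈ (P : Subgroup G) := by
        intro P
        have h1 := Sylow.smul_eq_iff_mem_normalizer.mp (hg P)
        have h2 : Nat.card (Subgroup.normalizer (P : Set G)) = 3 := by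
          have h3 := Sylow.card_eq_index_normalizer P
          have h5 := Subgroup.card_mul_index (Subgroup.normalizer (P : Set G))
          rw [← h3, h4, hG] at h5
          omega
        have hle : (P : Subgroup G) ≤ Subgroup.normalizer (P : Set G) := Subgroup.le_normalizer
        have h6 : (P : Subgroup G) = Subgroup.normalizer (P : Set G) :=
          Subgroup.eq_of_le_of_card_ge hle (by rw [h2, hP3 P])
        rw [h6]; exact h1
      have h7 : Nat.card ((P₁ : Subgroup G) ⊓ (P₂ : Subgroup G) : Subgroup G) ∣ 3 := by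
        have h5 := Subgroup.card_dvd_of_le
          (inf_le_left : (P₁ : Subgroup G) ⊓ (P₂ : Subgroup G) ≤ (P₁ : Subgroup G))
        rwa [hP3 P₁] at h5
      have h8 : Nat.card ((P₁ : Subgroup G) ⊓ (P₂ : Subgroup G) : Subgroup G) ≠ 3 := by
        intro h
        apply hne
        have e1 : (P₁ : Subgroup G) ⊓ (P₂ : Subgroup G) = (P₁ : Subgroup G) :=
          Subgroup.eq_of_le_of_card_ge inf_le_left (by rw [h, hP3 P₁])
        have e2 : (P₁ : Subgroup G) ⊓ (P₂ : Subgroup G) = (P₂ : Subgroup G) :=
          Subgroup.eq_of_le_of_card_ge inf_le_right (by rw [h, hP3 P₂])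
        exact Sylow.ext (e1.symm.trans e2)
      have h9 : Nat.card ((P₁ : Subgroup G) ⊓ (P₂ : Subgroup G) : Subgroup G) = 1 := by
        rcases (Nat.dvd_prime (by norm_num : Nat.Prime 3)).mp h7 with h | h
        · exact h
        · exact absurd h h8
      have h10 := Subgroup.card_eq_one.mp h9
      have h11 : g ∈ (P₁ : Subgroup G) ⊓ (P₂ : Subgroup G) := Subgroup.mem_inf.mpr ⟨hN P₁, hN P₂⟩
      rw [h10] at h11
      exact Subgroup.mem_bot.mp h11
    let e : Sylow 3 G ≃ Fin 4 := Finite.equivFinOfCardEq h4
    let φ : G →* Equiv.Perm (Sylow 3 G) := MulAction.toPermHom G (Sylow 3 G)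
    let ψ : G →* Equiv.Perm (Fin 4) := (e.permCongrHom).toMonoidHom.comp φ
    have hψinj : Function.Injective ψ := by
      rw [injective_iff_map_eq_one]
      intro g hg
      apply hker
      intro P
      have h1 : φ g = 1 := by
        have h2 : (e.permCongrHom) (φ g) = 1 := hg
        exact (MulEquiv.map_eq_one_iff _).mp h2
      exact congrArg (fun σ : Equiv.Perm (Sylow 3 G) => σ P) h1
    have hcard : Nat.card ψ.range = 12 := by
      rw [← hG]; exact (Nat.card_congr (MonoidHom.ofInjective hψinj).toEquiv).symm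
    have hidx : ψ.range.index = 2 := by
      have h1 := Subgroup.card_mul_index ψ.range
      rw [hcard, Nat.card_perm, Nat.card_eq_fintype_card, Fintype.card_fin] at h1
      have h2 : Nat.factorial 4 = 24 := rfl
      omega
    have hrange : ψ.range = alternatingGroup (Fin 4) :=
      Equiv.Perm.eq_alternatingGroup_of_index_eq_two hidx
    exact ⟨(MonoidHom.ofInjective hψinj).trans (MulEquiv.subgroupCongr hrange)⟩

end Cfsg.Agent.S0228
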