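import Cfsg.Statements.S3908
import Cfsg.Agent.S0016

set_option autoImplicit false
open Cfsg

namespace Cfsg.Agent.S3908

theorem zpowers_comm {G : Type*} [Group G] (g : G) (u v : Subgroup.zpowers g) : u * v = v * u := by
  obtain ⟨i, hi⟩ := Subgroup.mem_zpowers_iff.mp u.2
  obtain ⟨j, hj⟩ := Subgroup.mem_zpowers_iff.mp v.2
  apply Subtype.ext
  show (u : G) * v = v * u
  rw [← hi, ← hj, ← zpow_add, ← zpow_add, add_comm]

/-- Key lemma: under the conjugacy hypothesis, a `p`-subgroup with two different subgroups of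
order `p` has exponent dividing `p`. -/
theorem key {G : Type*} [Group G] [Finite G]
    (hB : ∀ A B : Subgroup G, IsMulCommutative ↥A → IsMulCommutative ↥B →
      Nat.card ↥A = Nat.card ↥B → ∃ g : G, B = A.map (MulAut.conj g).toMonoidHom)
    (p : ℕ) [Fact p.Prime] (P : Subgroup G) (hP : IsPGroup p P)
    (hnu : ¬ ∀ H K : Subgroup P, Nat.card H = p → Nat.card K = p → H = K) :
    ∀ x ∈ P, x ^ p = 1 := by
  have hp : p.Prime := Fact.out
  push Not at hnu
  obtain ⟨H, K, hH, hK, hHK⟩ := hnu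
  have hPnt : Nontrivial P := by
    have : Nontrivial H := Finite.one_lt_card_iff_nontrivial.mp (hH ▸ hp.one_lt)
    obtain ⟨a, b, hab⟩ := this
    exact ⟨⟨(a : P), (b : P), fun h => hab (Subtype.ext h)⟩⟩
  have hZnt : Nontrivial (Subgroup.center P) := hP.center_nontrivial
  obtain ⟨n, hn0, hn⟩ := (hP.to_subgroup (Subgroup.center P)).nontrivial_iff_card.mp hZnt
  have hpdvd : p ∣ Nat.card (Subgroup.center P) := by rw [hn]; exact dvd_pow_self p (by omega)
  obtain ⟨z, hz⟩ := exists_prime_orderOf_dvd_card' p hpdvd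
  have hzP : orderOf (z : P) = p := by rw [Subgroup.orderOf_coe, hz]
  have hz₀ : orderOf ((z : P) : G) = p := by rw [Subgroup.orderOf_coe, hzP]
  have hzcomm : ∀ u ∈ P, u * ((z : P) : G) = ((z : P) : G) * u := by
    intro u hu
    have := Subgroup.mem_center_iff.mp z.2 ⟨u, hu⟩
    exact congrArg Subtype.val this
  -- a second element of order `p`
  obtain ⟨A₁, hA₁, hA₁Z⟩ : ∃ A₁ : Subgroup P, Nat.card A₁ = p ∧ A₁ ≠ Subgroup.zpowers (z : P) := by
    by_cases h : H = Subgroup.zpowers (z : P)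
    · exact ⟨K, hK, fun h' => hHK (h.trans h'.symm)⟩
    · exact ⟨H, hH, h⟩
  have hZcard : Nat.card (Subgroup.zpowers (z : P)) = p := by rw [Nat.card_zpowers, hzP]
  obtain ⟨y', hy'A, hy'Z⟩ : ∃ y' ∈ A₁, y' ∉ Subgroup.zpowers (z : P) := by
    by_contra hcon
    push Not at hcon
    exact hA₁Z (Subgroup.eq_of_le_of_card_ge hcon (by rw [hZcard, hA₁]))
  have hy'1 : y' ≠ 1 := fun h => hy'Z (h ▸ Subgroup.one_mem _)
  have hy'o : orderOf y' = p := by
    have h1 : orderOf (⟨y', hy'A⟩ : A₁) ∣ p := hA₁ ▸ orderOf_dvd_natCard _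
    rw [Subgroup.orderOf_mk] at h1
    rcases (Nat.dvd_prime hp).mp h1 with h2 | h2
    · exact absurd (orderOf_eq_one_iff.mp h2) hy'1
    · exact h2
  have hyo : orderOf (y' : G) = p := by rw [Subgroup.orderOf_coe, hy'o]
  have hyZ : (y' : G) ∉ Subgroup.zpowers ((z : P) : G) := by
    intro h
    obtain ⟨k, hk⟩ := Subgroup.mem_zpowers_iff.mp h
    apply hy'Z
    refine Subgroup.mem_zpowers_iff.mpr ⟨k, Subtype.ext ?_⟩
    rw [← hk]; simp
  -- the two cyclic subgroups meet trivially
  have hdisj : ∀ u : G, u ∈ Subgroup.zpowers ((z : P) : G) → u ∈ Subgroup.zpowers (y' : G) →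
      u = 1 := by
    intro u hu1 hu2
    by_contra hu
    have h1 : Subgroup.zpowers u = Subgroup.zpowers ((z : P) : G) := by
      apply Subgroup.eq_of_le_of_card_ge (Subgroup.zpowers_le.mpr hu1)
      rw [Nat.card_zpowers, Nat.card_zpowers, hz₀]
      have h2 : orderOf u ∣ p := by
        have := orderOf_dvd_natCard (⟨u, hu1⟩ : Subgroup.zpowers ((z : P) : G))
        rwa [Subgroup.orderOf_mk, Nat.card_zpowers, hz₀] at this
      rcases (Nat.dvd_prime hp).mp h2 with h3 | h3
      · exact absurd (orderOf_eq_one_iff.mp h3) hu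
      · rw [h3]
    have h2 : Subgroup.zpowers u = Subgroup.zpowers (y' : G) := by
      apply Subgroup.eq_of_le_of_card_ge (Subgroup.zpowers_le.mpr hu2)
      rw [h1, Nat.card_zpowers, Nat.card_zpowers, hz₀, hyo]
    apply hyZ
    rw [← h1, h2]
    exact Subgroup.mem_zpowers _
  -- the elementary abelian subgroup of order `p ^ 2`
  have hcomm : ∀ (m : Subgroup.zpowers ((z : P) : G)) (n : Subgroup.zpowers (y' : G)),
      Commute ((Subgroup.zpowers ((z : P) : G)).subtype m) ((Subgroup.zpowers (y' : G)).subtype n) := by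
    intro m n
    obtain ⟨i, hi⟩ := Subgroup.mem_zpowers_iff.mp m.2
    obtain ⟨j, hj⟩ := Subgroup.mem_zpowers_iff.mp n.2
    show (m : G) * (n : G) = (n : G) * (m : G)
    rw [← hi, ← hj]
    have h1 : Commute ((y' : G)) (((z : P) : G)) := hzcomm _ y'.2
    exact ((h1.zpow_zpow j i).eq).symm
  set f := MonoidHom.noncommCoprod (Subgroup.zpowers ((z : P) : G)).subtype
    (Subgroup.zpowers (y' : G)).subtype hcomm with hf
  have hfinj : Function.Injective f := by
    rw [hf, MonoidHom.noncommCoprod_injective]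
    refine ⟨Subgroup.subtype_injective _, Subgroup.subtype_injective _, ?_⟩
    rw [Subgroup.range_subtype, Subgroup.range_subtype, Subgroup.disjoint_def]
    exact fun {u} hu1 hu2 => hdisj u hu1 hu2
  have hEcard : Nat.card f.range = p * p := by
    rw [← Nat.card_congr (MonoidHom.ofInjective hfinj).toEquiv, Nat.card_prod, Nat.card_zpowers,
      Nat.card_zpowers, hz₀, hyo]
  have hEcomm : IsMulCommutative f.range := by
    refine ⟨⟨?_⟩⟩
    rintro ⟨_, a, rfl⟩ ⟨_, b, rfl⟩
    apply Subtype.ext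
    show f a * f b = f b * f a
    rw [← map_mul, ← map_mul]
    congr 1
    exact Prod.ext (zpowers_comm _ a.1 b.1) (zpowers_comm _ a.2 b.2)
  have hEexp : ∀ e ∈ f.range, e ^ p = 1 := by
    rintro _ ⟨⟨u, v⟩, rfl⟩
    have h1 : f (u, v) = (u : G) * (v : G) := by
      rw [hf, MonoidHom.noncommCoprod_apply]; rfl
    have hc : Commute (u : G) (v : G) := hcomm u v
    rw [h1, hc.mul_pow]
    have hu : (u : G) ^ p = 1 := by
      have := orderOf_dvd_natCard u
      rw [Nat.card_zpowers, hz₀] at this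
      have h2 := orderOf_dvd_iff_pow_eq_one.mp this
      exact_mod_cast congrArg Subtype.val h2
    have hv : (v : G) ^ p = 1 := by
      have := orderOf_dvd_natCard v
      rw [Nat.card_zpowers, hyo] at this
      have h2 := orderOf_dvd_iff_pow_eq_one.mp this
      exact_mod_cast congrArg Subtype.val h2
    rw [hu, hv, one_mul]
  -- an element of order `p ^ 2` gives a contradiction
  intro x hx
  by_contra hxp
  obtain ⟨k, hk⟩ := (IsPGroup.iff_orderOf.mp hP) ⟨x, hx⟩
  rw [Subgroup.orderOf_mk] at hk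
  have hk2 : 2 ≤ k := by
    by_contra h
    apply hxp
    have h1 : orderOf x ∣ p := by
      rw [hk]
      interval_cases k
      · simp
      · simp
    exact orderOf_dvd_iff_pow_eq_one.mp h1
  obtain ⟨j, rfl⟩ : ∃ j, k = j + 2 := ⟨k - 2, by omega⟩
  have hx'o : orderOf (x ^ (p ^ j)) = p ^ (1 + 1) := by
    apply orderOf_eq_prime_pow
    · rw [← pow_mul, ← pow_add]
      intro h
      have h1 := orderOf_dvd_of_pow_eq_one h
      rw [hk] at h1
      have h2 := Nat.le_of_dvd (pow_pos hp.pos _) h1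
      have h3 : p ^ (j + 1) < p ^ (j + 2) := Nat.pow_lt_pow_right hp.one_lt (by omega)
      omega
    · have e : p ^ j * p ^ (1 + 1) = p ^ (j + 2) := by ring
      rw [← pow_mul, e, ← hk, pow_orderOf_eq_one]
  have hCcard : Nat.card (Subgroup.zpowers (x ^ (p ^ j))) = Nat.card f.range := by
    rw [Nat.card_zpowers, hx'o, hEcard]; ring
  have hCcomm : IsMulCommutative (Subgroup.zpowers (x ^ (p ^ j))) :=
    ⟨⟨fun a b => zpowers_comm _ a b⟩⟩
  obtain ⟨g, hg⟩ := hB _ _ hCcomm hEcomm hCcard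
  have h1 : g * x ^ (p ^ j) * g⁻¹ ∈ f.range := by
    rw [hg]
    exact ⟨x ^ (p ^ j), Subgroup.mem_zpowers _, rfl⟩
  have h2 := hEexp _ h1
  rw [conj_pow] at h2
  have h3 : (x ^ (p ^ j)) ^ p = 1 := by
    have : (x ^ (p ^ j)) ^ p = g⁻¹ * (g * (x ^ p ^ j) ^ p * g⁻¹) * g := by group
    rw [this, h2]; group
  have h4 := orderOf_dvd_of_pow_eq_one h3
  rw [hx'o] at h4
  have h5 := Nat.le_of_dvd hp.pos h4
  have h6 : p ^ 1 < p ^ (1 + 1) := Nat.pow_lt_pow_right hp.one_lt (by omega)
  rw [pow_one] at h6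
  omega

/-- Let G be a finite group in which any two abelian subgroups of the same order are conjugate. Then a Sylow 2-subgroup of G is cyclic, elementary abelian or generalized quaternion, and for an odd prime p a Sylow p-subgroup of G is cyclic or has exponent dividing p. -/
theorem result {G : Type*} [Group G] [Finite G] (hB : ∀ A B : Subgroup G, IsMulCommutative ↥A → IsMulCommutative ↥B → Nat.card ↥A = Nat.card ↥B → ∃ g : G, B = A.map (MulAut.conj g).toMonoidHom) :
    (∀ P : Sylow 2 G, IsCyclic ↥(P : Subgroup G) ∨ Cfsg.IsElementaryAbelian 2 (P : Subgroup G) ∨ ∃ k : ℕ, Nonempty (↥(P : Subgroup G) ≃* QuaternionGroup (2 ^ k))) ∧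
    ∀ (p : ℕ) [Fact p.Prime], p ≠ 2 → ∀ P : Sylow p G, IsCyclic ↥(P : Subgroup G) ∨ ∀ x ∈ (P : Subgroup G), x ^ p = 1 := by
  constructor
  · intro P
    by_cases hu : ∀ H K : Subgroup (P : Subgroup G), Nat.card H = 2 → Nat.card K = 2 → H = K
    · rcases Cfsg.Agent.S0016.result 2 P.isPGroup' hu with h | ⟨-, n, hn⟩
      · exact Or.inl h
      · exact Or.inr (Or.inr ⟨n, hn⟩)
    · right; left
      have hexp := key hB 2 (P : Subgroup G) P.isPGroup' hu
      refine ⟨⟨⟨fun a b => ?_⟩⟩, hexp⟩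
      apply Subtype.ext
      show (a : G) * b = b * a
      have ha : (a : G) * a = 1 := by rw [← pow_two]; exact hexp a a.2
      have hb : (b : G) * b = 1 := by rw [← pow_two]; exact hexp b b.2
      have hab : (a : G) * b * (a * b) = 1 := by
        rw [← pow_two]; exact hexp _ (mul_mem a.2 b.2)
      calc (a : G) * b = (a : G) * ((a : G) * b * (a * b)) * b := by rw [hab]; group
        _ = ((a : G) * a) * (b * a) * (b * b) := by group
        _ = b * a := by rw [ha, hb]; group
  · intro p _ hp2 P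
    by_cases hu : ∀ H K : Subgroup (P : Subgroup G), Nat.card H = p → Nat.card K = p → H = K
    · rcases Cfsg.Agent.S0016.result p P.isPGroup' hu with h | ⟨h2, -⟩
      · exact Or.inl h
      · exact absurd h2 hp2
    · exact Or.inr (key hB p (P : Subgroup G) P.isPGroup' hu)

end Cfsg.Agent.S3908
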