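import Cfsg.Statements.S3909

set_option autoImplicit false
open Cfsg

namespace Cfsg.Agent.S3909

/-- Let G be a finite group in which any two abelian subgroups of the same order are conjugate. Let M be a normal subgroup of G. If M contains an element of the same order as a ∈ G, then a ∈ M; and if M is elementary abelian of order p^t with p prime and t ≥ 2, then M is the unique Sylow p-subgroup of G. -/
theorem result {G : Type*} [Group G] [Finite G] (hB : ∀ A B : Subgroup G, IsMulCommutative ↥A → IsMulCommutative ↥B → Nat.card ↥A = Nat.card ↥B → ∃ g : G, B = A.map (MulAut.conj g).toMonoidHom) (M : Subgroup G) [M.Normal] :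
    (∀ a : G, (∃ m ∈ M, orderOf m = orderOf a) → a ∈ M) ∧
    ∀ (p t : ℕ) [Fact p.Prime], 2 ≤ t → Nat.card ↥M = p ^ t → Cfsg.IsElementaryAbelian p M → ∀ P : Sylow p G, (P : Subgroup G) = M := by
  have part1 : ∀ a : G, (∃ m ∈ M, orderOf m = orderOf a) → a ∈ M := by
    rintro a ⟨m, hm, hord⟩
    obtain ⟨g, hg⟩ := hB (Subgroup.zpowers m) (Subgroup.zpowers a) inferInstance inferInstance
      (by rw [Nat.card_zpowers, Nat.card_zpowers, hord])
    have ha : a ∈ (Subgroup.zpowers m).map (MulAut.conj g).toMonoidHom := by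
      rw [← hg]; exact Subgroup.mem_zpowers a
    obtain ⟨x, hx, rfl⟩ := ha
    have hxM : x ∈ M := (Subgroup.zpowers_le.mpr hm) hx
    simp only [MulEquiv.coe_toMonoidHom, MulAut.conj_apply]
    exact ‹M.Normal›.conj_mem x hxM g
  refine ⟨part1, ?_⟩
  intro p t hp ht hcard hel P
  have hpp : p.Prime := hp.out
  obtain ⟨hMcomm, hMexp⟩ := hel
  apply le_antisymm
  · -- P ≤ M
    intro x hx
    obtain ⟨j, hj⟩ := (IsPGroup.iff_orderOf.mp P.2) ⟨x, hx⟩
    rw [Subgroup.orderOf_mk] at hj
    -- M has an element of order p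
    have hpM : p ∣ Nat.card M := by rw [hcard]; exact dvd_pow_self p (by omega)
    obtain ⟨m0, hm0⟩ := exists_prime_orderOf_dvd_card' p hpM
    have hm0' : orderOf (m0 : G) = p := by rw [Subgroup.orderOf_coe]; exact hm0
    rcases j with _ | _ | j
    · -- order 1
      rw [pow_zero, orderOf_eq_one_iff] at hj
      rw [hj]; exact M.one_mem
    · -- order p
      rw [zero_add, pow_one] at hj
      exact part1 x ⟨m0, m0.2, by rw [hm0', hj]⟩
    · -- order p^(j+2): impossible
      exfalso
      set y := x ^ (p ^ j) with hy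
      have hyord : orderOf y = p ^ 2 := by
        rw [hy, orderOf_pow' _ (pow_ne_zero _ hpp.ne_zero), hj]
        rw [Nat.gcd_eq_right (pow_dvd_pow p (by omega))]
        rw [show j + 1 + 1 = 2 + j by ring, pow_add]
        exact Nat.mul_div_cancel _ (pow_pos hpp.pos _)
      -- a subgroup of M of order p^2
      have hp2 : p ^ 2 ∣ Nat.card M := by rw [hcard]; exact pow_dvd_pow p ht
      obtain ⟨K, hK⟩ := Sylow.exists_subgroup_card_pow_prime p hp2
      set H : Subgroup G := K.map M.subtype with hH
      have hHcard : Nat.card H = p ^ 2 := by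
        rw [hH, Nat.card_congr (K.equivMapOfInjective M.subtype M.subtype_injective).toEquiv.symm, hK]
      have hHM : H ≤ M := by
        rw [hH]; exact Subgroup.map_subtype_le K
      have hHcomm : IsMulCommutative H := by
        refine ⟨⟨?_⟩⟩
        rintro ⟨a, ha⟩ ⟨b, hb⟩
        have := hMcomm.1.1 ⟨a, hHM ha⟩ ⟨b, hHM hb⟩
        simpa [Subtype.ext_iff] using this
      obtain ⟨g, hg⟩ := hB H (Subgroup.zpowers y) hHcomm inferInstance
        (by rw [Nat.card_zpowers, hyord, hHcard])
      have hy' : y ∈ H.map (MulAut.conj g).toMonoidHom := by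
        rw [← hg]; exact Subgroup.mem_zpowers y
      obtain ⟨h, hh, hhy⟩ := hy'
      have hhp : h ^ p = 1 := hMexp h (hHM hh)
      have hyp : y ^ p = 1 := by
        rw [← hhy, ← map_pow, hhp, map_one]
      have := orderOf_dvd_of_pow_eq_one hyp
      rw [hyord] at this
      have h2 := Nat.le_of_dvd hpp.pos this
      have : p < p ^ 2 := by
        rw [pow_two]; exact lt_mul_self hpp.one_lt
      omega
  · -- M ≤ P
    have hMp : IsPGroup p M := IsPGroup.of_card hcard
    obtain ⟨Q, hQ⟩ := hMp.exists_le_sylow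
    obtain ⟨g, hg⟩ := MulAction.exists_smul_eq G Q P
    intro x hx
    rw [← hg]
    show x ∈ ((g • Q : Sylow p G) : Subgroup G)
    rw [Sylow.smul_def, Sylow.pointwise_smul_def, Subgroup.mem_pointwise_smul_iff_inv_smul_mem]
    apply hQ
    have := ‹M.Normal›.conj_mem x hx g⁻¹
    simpa [MulAut.smul_def] using this

end Cfsg.Agent.S3909
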