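import Cfsg.Statements.S2424
import Cfsg.Agent.Helper40.Parabolic

set_option autoImplicit false
open Cfsg

open scoped MatrixGroups

namespace Cfsg.Agent.S2424

open Finset Matrix Cfsg.Agent.Helper40

/-- the q-integer `1 + q + ⋯ + q^(r-1)`. -/
def qint (q r : ℕ) : ℕ := ∑ l ∈ range r, q ^ l

/-- the falling q-factorial `[m][m-1]⋯[m-k+1]`. -/
def qfall (q m k : ℕ) : ℕ := ∏ t ∈ range k, qint q (m - t)

theorem qfac_eq (q m : ℕ) : qfac q m = ∏ j ∈ range m, qint q (j + 1) := rfl

theorem qfac_split (q m k : ℕ) (hk : k ≤ m) : qfac q m = qfac q (m - k) * qfall q m k := by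
  have h1 : m = (m - k) + k := by omega
  rw [qfac_eq, qfac_eq]
  conv_lhs => rw [h1, Finset.prod_range_add]
  congr 1
  unfold qfall
  rw [← Finset.prod_range_reflect (fun t => qint q (m - t)) k]
  apply Finset.prod_congr rfl
  intro x hx
  have := Finset.mem_range.mp hx
  congr 1
  omega

theorem qfall_eq_zero (q m k : ℕ) (hk : m < k) : qfall q m k = 0 := by
  unfold qfall
  apply Finset.prod_eq_zero (Finset.mem_range.mpr hk)
  simp [qint]

theorem qint_split (q m t : ℕ) (ht : t ≤ m) : qint q m = qint q t + q ^ t * qint q (m - t) := by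
  unfold qint
  have h1 : m = t + (m - t) := by omega
  conv_lhs => rw [h1, Finset.sum_range_add]
  congr 1
  rw [Finset.mul_sum]
  apply Finset.sum_congr rfl
  intro x _
  rw [pow_add]

theorem qfall_cast (q m k : ℕ) :
    ((qfall q m k : ℕ) : ℂ) * ∏ t ∈ range k, ((q : ℂ) ^ t) =
      ∏ t ∈ range k, (((qint q m : ℕ) : ℂ) - ((qint q t : ℕ) : ℂ)) := by
  rcases Nat.lt_or_ge m k with h | h
  · rw [qfall_eq_zero q m k h, Nat.cast_zero, zero_mul]
    symm
    apply Finset.prod_eq_zero (Finset.mem_range.mpr h)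
    rw [sub_self]
  · unfold qfall
    rw [Nat.cast_prod, ← Finset.prod_mul_distrib]
    apply Finset.prod_congr rfl
    intro t ht
    have htm : t ≤ m := le_trans (Finset.mem_range.mp ht).le h
    rw [qint_split q m t htm]
    push_cast
    ring

theorem qfac_pos (q m : ℕ) (hq : 1 ≤ q) : 0 < qfac q m := by
  rw [qfac_eq]
  apply Finset.prod_pos
  intro j _
  unfold qint
  rw [Finset.sum_range_succ']
  have : 0 < q ^ 0 := by simp
  omega

theorem sum_tri (n : ℕ) : ∑ k ∈ range n, ∑ t ∈ range k, t = n * (n - 1) * (n - 2) / 6 := by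
  have key : ∀ n : ℕ, 6 * ∑ k ∈ range n, ∑ t ∈ range k, t = n * (n - 1) * (n - 2) := by
    intro n
    induction n with
    | zero => simp
    | succ n ih =>
      rw [Finset.sum_range_succ, mul_add, ih]
      have h2 := Finset.sum_range_id_mul_two n
      have h3 : 6 * ∑ t ∈ range n, t = 3 * (n * (n - 1)) := by
        rw [← h2]
        ring
      rw [h3]
      rcases n with _ | _ | m
      · simp
      · simp
      · simp only [Nat.add_sub_cancel]
        have e2 : m + 1 + 1 - 2 = m := by omega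
        have e3 : m + 1 + 1 + 1 - 2 = m + 1 := by omega
        rw [e2, e3]
        ring
  rw [← key n]
  simp

section Main
variable {F : Type*} [Field F] [Fintype F]

theorem fixedPointCharacter_one {G : Type*} [Group G] (H : Subgroup G) :
    Cfsg.fixedPointCharacter H 1 = (H.index : ℂ) := by
  unfold Cfsg.fixedPointCharacter
  rw [Subgroup.index_eq_card]
  congr 1
  apply Nat.card_congr
  refine ⟨fun x => x.1, fun x => ⟨x, ?_⟩, fun x => rfl, fun x => rfl⟩
  rw [MulAction.mem_fixedBy, one_smul]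

/-- Degrees of the partition-indexed irreducible characters of `GL_n(q)`: for `ν` a partition of `n` with `n` non-decreasing parts `ν_0 ≤ ⋯ ≤ ν_{n−1}` (zeros allowed; positions counted from 0) and `λ_i = ν_i + i`, write `Q(r)` for the q-integer `1 + q + ⋯ + q^(r−1)` and `Q!(r)` for `Q(1)Q(2)⋯Q(r)`; then the degree `γ(ν)` of the character satisfies `γ(ν) · q^(n(n−1)(n−2)/6) · ∏_i Q!(λ_i) = Q!(n) · ∏_{i<j} (Q(λ_j) − Q(λ_i))`. For `ν = (1,…,1)` this gives the Steinberg degree `q^(n(n−1)/2)`, for `ν = (0,…,0,n)` degree 1. -/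
theorem result {F : Type*} [Field F] [Fintype F] {q : ℕ} (hq : Fintype.card F = q) {n : ℕ} (ν : Fin n → ℕ) (hmono : Monotone ν) (hsum : ∑ i, ν i = n) :
    Cfsg.unipotentCharacterGL n F ν 1 * (q : ℂ) ^ (n * (n - 1) * (n - 2) / 6) *
        ∏ i : Fin n, ∏ j ∈ Finset.range (ν i + i.val), ((∑ l ∈ Finset.range (j + 1), q ^ l : ℕ) : ℂ) =
      (∏ j ∈ Finset.range n, ((∑ l ∈ Finset.range (j + 1), q ^ l : ℕ) : ℂ)) *
        ∏ i : Fin n, ∏ j ∈ Finset.univ.filter (fun j : Fin n => i < j),
          (((∑ l ∈ Finset.range (ν j + j.val), q ^ l : ℕ) : ℂ) - ((∑ l ∈ Finset.range (ν i + i.val), q ^ l : ℕ) : ℂ)) := by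
  classical
  have hq1 : 1 ≤ q := by
    rw [← hq]
    exact Fintype.card_pos
  -- rewrite in terms of qfac, qint
  have hL : ∀ i : Fin n, ∏ j ∈ Finset.range (ν i + i.val), ((∑ l ∈ Finset.range (j + 1), q ^ l : ℕ) : ℂ) =
      ((qfac q (ν i + i.val) : ℕ) : ℂ) := by
    intro i
    rw [qfac, Nat.cast_prod]
  have hR : (∏ j ∈ Finset.range n, ((∑ l ∈ Finset.range (j + 1), q ^ l : ℕ) : ℂ)) = ((qfac q n : ℕ) : ℂ) := by
    rw [qfac, Nat.cast_prod]
  rw [Finset.prod_congr rfl (fun i _ => hL i), hR]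
  -- the key termwise identity
  have hterm : ∀ κ : Equiv.Perm (Fin n),
      (if ∀ i : Fin n, (κ i).val ≤ ν i + i.val then
        ((Equiv.Perm.sign κ : ℤ) : ℂ) *
          Cfsg.fixedPointCharacter (Cfsg.parabolicGL n F fun i => ν i + i.val - (κ i).val) 1
      else 0) * ∏ i : Fin n, ((qfac q (ν i + i.val) : ℕ) : ℂ) =
      ((qfac q n : ℕ) : ℂ) * (((Equiv.Perm.sign κ : ℤ) : ℂ) *
        ∏ i : Fin n, ((qfall q (ν i + i.val) (κ i).val : ℕ) : ℂ)) := by
    intro κ
    split_ifs with hκ
    · rw [fixedPointCharacter_one]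
      have hμ : ∑ i : Fin n, (ν i + i.val - (κ i).val) = n := by
        have h1 : ∑ i : Fin n, (ν i + i.val - (κ i).val) + ∑ i : Fin n, (κ i).val =
            ∑ i : Fin n, (ν i + i.val) := by
          rw [← Finset.sum_add_distrib]
          apply Finset.sum_congr rfl
          intro i _
          exact Nat.sub_add_cancel (hκ i)
        have h2 : ∑ i : Fin n, (κ i).val = ∑ i : Fin n, i.val := Equiv.sum_comp κ (fun i => i.val)
        rw [h2, Finset.sum_add_distrib, hsum] at h1
        omega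
      have hidx := index_parabolicGL (F := F) (fun i => ν i + i.val - (κ i).val) hμ
      rw [hq] at hidx
      have hsplit : ∏ i : Fin n, qfac q (ν i + i.val) =
          (∏ i : Fin n, qfac q (ν i + i.val - (κ i).val)) * ∏ i : Fin n, qfall q (ν i + i.val) (κ i).val := by
        rw [← Finset.prod_mul_distrib]
        apply Finset.prod_congr rfl
        intro i _
        exact qfac_split q _ _ (hκ i)
      have hnat : (Cfsg.parabolicGL n F fun i => ν i + i.val - (κ i).val).index *
          ∏ i : Fin n, qfac q (ν i + i.val) = qfac q n * ∏ i : Fin n, qfall q (ν i + i.val) (κ i).val := by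
        rw [hsplit, ← mul_assoc, hidx]
      have hcast := congrArg (Nat.cast : ℕ → ℂ) hnat
      push_cast at hcast
      rw [mul_assoc, hcast]
      ring
    · push Not at hκ
      obtain ⟨i, hi⟩ := hκ
      rw [zero_mul]
      have : ∏ i : Fin n, ((qfall q (ν i + i.val) (κ i).val : ℕ) : ℂ) = 0 := by
        apply Finset.prod_eq_zero (Finset.mem_univ i)
        rw [qfall_eq_zero q _ _ hi, Nat.cast_zero]
      rw [this]
      ring
  -- sum over permutations
  have hsumκ : Cfsg.unipotentCharacterGL n F ν 1 * ∏ i : Fin n, ((qfac q (ν i + i.val) : ℕ) : ℂ) =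
      ((qfac q n : ℕ) : ℂ) * ∑ κ : Equiv.Perm (Fin n), ((Equiv.Perm.sign κ : ℤ) : ℂ) *
        ∏ i : Fin n, ((qfall q (ν i + i.val) (κ i).val : ℕ) : ℂ) := by
    unfold Cfsg.unipotentCharacterGL
    rw [Finset.sum_mul, Finset.mul_sum]
    exact Finset.sum_congr rfl (fun κ _ => hterm κ)
  -- the determinant
  let A' : Matrix (Fin n) (Fin n) ℂ := Matrix.of fun i k => ((qfall q (ν i + i.val) k.val : ℕ) : ℂ)
  have hdet1 : ∑ κ : Equiv.Perm (Fin n), ((Equiv.Perm.sign κ : ℤ) : ℂ) *
      ∏ i : Fin n, ((qfall q (ν i + i.val) (κ i).val : ℕ) : ℂ) = A'.det := by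
    rw [← Matrix.det_transpose, Matrix.det_apply']
    rfl
  let x : Fin n → ℂ := fun i => ((qint q (ν i + i.val) : ℕ) : ℂ)
  let p : Fin n → Polynomial ℂ := fun k => ∏ t ∈ range k.val, (Polynomial.X - Polynomial.C ((qint q t : ℕ) : ℂ))
  have hpdeg : ∀ k, (p k).natDegree = k := by
    intro k
    simp only [p]
    rw [Polynomial.natDegree_prod_of_monic _ _ (fun t _ => Polynomial.monic_X_sub_C _),
      Finset.sum_congr rfl (fun t _ => Polynomial.natDegree_X_sub_C _)]
    simp
  have hpmonic : ∀ k, (p k).Monic := by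
    intro k
    exact Polynomial.monic_prod_of_monic _ _ (fun t _ => Polynomial.monic_X_sub_C _)
  have hvand := Matrix.det_eval_matrixOfPolynomials_eq_det_vandermonde x p hpdeg hpmonic
  have hB : (Matrix.of fun i j => Polynomial.eval (x i) (p j)) =
      Matrix.of fun i k => (∏ t ∈ range k.val, ((q : ℂ) ^ t)) * A' i k := by
    ext i k
    simp only [Matrix.of_apply, p, A', x]
    rw [Polynomial.eval_prod, mul_comm, qfall_cast]
    apply Finset.prod_congr rfl
    intro t _
    simp
  rw [hB, Matrix.det_mul_row, Matrix.det_vandermonde] at hvand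
  have hpow : ∏ k : Fin n, ∏ t ∈ range k.val, ((q : ℂ) ^ t) = (q : ℂ) ^ (n * (n - 1) * (n - 2) / 6) := by
    rw [← sum_tri n, Fin.prod_univ_eq_prod_range (fun k => ∏ t ∈ range k, ((q : ℂ) ^ t)) n,
      ← Finset.prod_pow_eq_pow_sum]
    apply Finset.prod_congr rfl
    intro k _
    rw [Finset.prod_pow_eq_pow_sum]
  rw [hpow] at hvand
  -- assemble
  have hIoi : ∀ i : Fin n, Finset.univ.filter (fun j : Fin n => i < j) = Finset.Ioi i := by
    intro i
    exact Finset.filter_lt_eq_Ioi
  calc Cfsg.unipotentCharacterGL n F ν 1 * (q : ℂ) ^ (n * (n - 1) * (n - 2) / 6) *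
        ∏ i : Fin n, ((qfac q (ν i + i.val) : ℕ) : ℂ)
      = (Cfsg.unipotentCharacterGL n F ν 1 * ∏ i : Fin n, ((qfac q (ν i + i.val) : ℕ) : ℂ)) *
          (q : ℂ) ^ (n * (n - 1) * (n - 2) / 6) := by ring
    _ = ((qfac q n : ℕ) : ℂ) * ((q : ℂ) ^ (n * (n - 1) * (n - 2) / 6) * A'.det) := by
        rw [hsumκ, hdet1]
        ring
    _ = ((qfac q n : ℕ) : ℂ) * ∏ i : Fin n, ∏ j ∈ Finset.Ioi i, (x j - x i) := by rw [← hvand]
    _ = _ := by
        congr 1
        apply Finset.prod_congr rfl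
        intro i _
        rw [hIoi i]
        rfl

end Main

end Cfsg.Agent.S2424
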