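import Cfsg.Statements.S2622
-- import your own Cfsg.Agent.* helpers here

set_option autoImplicit false
open Cfsg

namespace Cfsg.Agent.S2622

universe u

theorem orthonormal_aux {F : Type*} [Field F] [Finite F] [CharP F 2] (n : ℕ) :
    ∀ (V : Type u) [AddCommGroup V] [Module F V] [FiniteDimensional F V]
      (B : LinearMap.BilinForm F V), Module.finrank F V = n → B.IsSymm → B.Nondegenerate →
      (n = 0 ∨ ∃ v : V, B v v ≠ 0) →
      ∃ b : Module.Basis (Fin n) F V, ∀ i j, B (b i) (b j) = if i = j then 1 else 0 := by
  induction n with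
  | zero =>
    intro V _ _ _ B hV _ _ _
    exact ⟨basisOfFinrankZero hV, fun i => i.elim0⟩
  | succ k ih =>
    intro V _ _ _ B hV hS hB hna
    have h2 : (2 : F) = 0 := CharTwo.two_eq_zero
    obtain ⟨v, hv⟩ : ∃ v : V, B v v ≠ 0 := by
      rcases hna with h | h
      · exact absurd h (Nat.succ_ne_zero k)
      · exact h
    obtain ⟨c, hc⟩ := (frobeniusEquiv F 2).surjective (B v v)⁻¹
    rw [frobeniusEquiv_apply, frobenius_def] at hc
    have hv11 : B (c • v) (c • v) = 1 := by
      simp only [map_smul, LinearMap.smul_apply, smul_eq_mul]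
      rw [← mul_assoc, ← sq, hc, inv_mul_cancel₀ hv]
    have hfin : ∀ w : V, B w w = 1 →
        Module.finrank F (B.orthogonal (Submodule.span F {w})) = k := by
      intro w hw
      have hw0 : B w w ≠ 0 := by rw [hw]; exact one_ne_zero
      have h1 := Submodule.finrank_add_eq_of_isCompl
        (LinearMap.BilinForm.isCompl_span_singleton_orthogonal hw0)
      rw [finrank_span_singleton (by rintro rfl; simp at hw0), hV] at h1
      omega
    have key : ∃ w : V, B w w = 1 ∧
        (k = 0 ∨ ∃ u ∈ B.orthogonal (Submodule.span F {w}), B u u ≠ 0) := by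
      by_cases hk : k = 0
      · exact ⟨c • v, hv11, Or.inl hk⟩
      by_cases halt : ∃ u ∈ B.orthogonal (Submodule.span F {c • v}), B u u ≠ 0
      · exact ⟨c • v, hv11, Or.inr halt⟩
      have halt' : ∀ u ∈ B.orthogonal (Submodule.span F {c • v}), B u u = 0 := by
        intro u hu
        by_contra h
        exact halt ⟨u, hu, h⟩
      set v1 := c • v with hv1
      have hnd1 := B.restrict_nondegenerate_orthogonal_spanSingleton hB hS.isRefl (x := v1)
        (by rw [hv11]; exact one_ne_zero)
      have hfin1 := hfin v1 hv11
      have : Nontrivial (B.orthogonal (Submodule.span F {v1})) :=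
        Module.nontrivial_of_finrank_pos (R := F) (by omega)
      obtain ⟨e, he⟩ := exists_ne (0 : B.orthogonal (Submodule.span F {v1}))
      obtain ⟨f, hf⟩ : ∃ f : B.orthogonal (Submodule.span F {v1}), B e f ≠ 0 := by
        by_contra hcon
        apply he
        apply hnd1.1 e
        intro y
        by_contra hy
        exact hcon ⟨y, hy⟩
      have hv1e : B v1 e = 0 := e.2 v1 (Submodule.mem_span_singleton_self v1)
      have hv1f : B v1 f = 0 := f.2 v1 (Submodule.mem_span_singleton_self v1)
      have hev1 : B e v1 = 0 := by rw [hS.eq]; exact hv1e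
      have hfv1 : B f v1 = 0 := by rw [hS.eq]; exact hv1f
      have hee : B e e = 0 := halt' e e.2
      have hff : B f f = 0 := halt' f f.2
      refine ⟨v1 + e, ?_, Or.inr ⟨v1 + (B e f)⁻¹ • (f : V), ?_, ?_⟩⟩
      · simp only [map_add, LinearMap.add_apply, hv11, hv1e, hev1, hee]
        ring
      · rw [LinearMap.BilinForm.mem_orthogonal_iff]
        intro n hn
        obtain ⟨a, rfl⟩ := Submodule.mem_span_singleton.mp hn
        simp only [map_add, map_smul, LinearMap.add_apply, LinearMap.smul_apply, smul_eq_mul, hv11,
          hv1f, hev1]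
        have hf' : (B e f)⁻¹ * B e f = 1 := inv_mul_cancel₀ hf
        linear_combination a * h2 + a * hf'
      · simp only [map_add, map_smul, LinearMap.add_apply, LinearMap.smul_apply, smul_eq_mul, hv11,
          hv1f, hfv1, hff]
        simp
    obtain ⟨w, hw, hcase⟩ := key
    have hw0 : B w w ≠ 0 := by rw [hw]; exact one_ne_zero
    have hndW := B.restrict_nondegenerate_orthogonal_spanSingleton hB hS.isRefl hw0
    obtain ⟨b', hb'⟩ := ih (B.orthogonal (Submodule.span F {w}))
      (B.restrict (B.orthogonal (Submodule.span F {w}))) (hfin w hw)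
      (hS.restrict _) hndW (by
        rcases hcase with h | ⟨u, hu, huu⟩
        · exact Or.inl h
        · exact Or.inr ⟨⟨u, hu⟩, huu⟩)
    let b := Module.Basis.mkFinCons w b'
      (by
        intro c x hx hc
        have h1 := congrArg (B w) hc
        rw [map_add, map_smul, smul_eq_mul, hw, mul_one, map_zero,
          hx w (Submodule.mem_span_singleton_self w), add_zero] at h1
        exact h1)
      (by
        intro z
        refine ⟨- B w z, ?_⟩
        intro n hn
        obtain ⟨a, rfl⟩ := Submodule.mem_span_singleton.mp hn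
        show B (a • w) (z + -B w z • w) = 0
        simp only [map_add, map_smul, LinearMap.smul_apply, smul_eq_mul, hw]
        ring)
    refine ⟨b, ?_⟩
    have hb : (b : Fin (k + 1) → V) = Fin.cons w ((↑) ∘ b') := Module.Basis.coe_mkFinCons _ _ _ _
    intro i j
    rw [hb]
    refine Fin.cases ?_ (fun i => ?_) i <;> refine Fin.cases ?_ (fun j => ?_) j
    · simp [hw]
    · simp only [Fin.cons_zero, Fin.cons_succ, Function.comp_apply]
      rw [if_neg (Fin.succ_ne_zero j).symm]
      exact (b' j).2 w (Submodule.mem_span_singleton_self w)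
    · simp only [Fin.cons_zero, Fin.cons_succ, Function.comp_apply]
      rw [if_neg (Fin.succ_ne_zero i), hS.eq]
      exact (b' i).2 w (Submodule.mem_span_singleton_self w)
    · simp only [Fin.cons_succ, Function.comp_apply]
      have := hb' i j
      simp only [Fin.succ_inj]
      exact this


/-- Over a finite field of characteristic two, a non-degenerate symmetric bilinear form that is not alternating (some vector v has B(v, v) ≠ 0) admits an orthonormal basis. -/
theorem result {F V : Type*} [Field F] [Finite F] [CharP F 2] [AddCommGroup V] [Module F V] [FiniteDimensional F V] {n : ℕ} (hV : Module.finrank F V = n) (B : LinearMap.BilinForm F V) (hS : B.IsSymm) (hB : B.Nondegenerate) (hna : ∃ v : V, B v v ≠ 0) : ∃ b : Module.Basis (Fin n) F V, ∀ i j, B (b i) (b j) = if i = j then 1 else 0 := by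
  exact orthonormal_aux n V B hV hS hB (Or.inr hna)

end Cfsg.Agent.S2622
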