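import Cfsg.Statements.S3742

set_option autoImplicit false
open Cfsg

namespace Cfsg.Agent.S3742

def vlist : List (QuaternionGroup 2 × QuaternionGroup 2) :=
  [(QuaternionGroup.a 1, QuaternionGroup.xa 0),
   (QuaternionGroup.a 1, QuaternionGroup.xa 1),
   (QuaternionGroup.a 1, QuaternionGroup.xa 2),
   (QuaternionGroup.a 1, QuaternionGroup.xa 3),
   (QuaternionGroup.a 3, QuaternionGroup.xa 0),
   (QuaternionGroup.a 3, QuaternionGroup.xa 1),
   (QuaternionGroup.a 3, QuaternionGroup.xa 2),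
   (QuaternionGroup.a 3, QuaternionGroup.xa 3),
   (QuaternionGroup.xa 0, QuaternionGroup.a 1),
   (QuaternionGroup.xa 0, QuaternionGroup.a 3),
   (QuaternionGroup.xa 0, QuaternionGroup.xa 1),
   (QuaternionGroup.xa 0, QuaternionGroup.xa 3),
   (QuaternionGroup.xa 1, QuaternionGroup.a 1),
   (QuaternionGroup.xa 1, QuaternionGroup.a 3),
   (QuaternionGroup.xa 1, QuaternionGroup.xa 0),
   (QuaternionGroup.xa 1, QuaternionGroup.xa 2),
   (QuaternionGroup.xa 2, QuaternionGroup.a 1),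
   (QuaternionGroup.xa 2, QuaternionGroup.a 3),
   (QuaternionGroup.xa 2, QuaternionGroup.xa 1),
   (QuaternionGroup.xa 2, QuaternionGroup.xa 3),
   (QuaternionGroup.xa 3, QuaternionGroup.a 1),
   (QuaternionGroup.xa 3, QuaternionGroup.a 3),
   (QuaternionGroup.xa 3, QuaternionGroup.xa 0),
   (QuaternionGroup.xa 3, QuaternionGroup.xa 2)]

def tbl : List (List (Fin 4 × Fin 4)) :=
  [[], [], [], [], [], [], [], [], [], [], [], [], [], [(0, 2), (1, 2), (2, 3)], [(0, 3), (1, 2)], [(0, 1), (1, 3), (2, 3)], [], [], [], [], [], [], [], [], [], [], [], [], [(0, 2), (1, 3)], [(0, 3)], [(0, 1), (2, 3)], [(1, 2)], [], [(0, 1)], [], [(0, 3), (1, 2), (2, 3)], [], [(1, 3), (2, 3)], [], [(0, 2), (2, 3)], [], [(1, 2), (2, 3)], [], [(0, 1), (1, 3)], [(0, 3), (1, 3), (2, 3)], [], [(0, 2)], [], [], [(0, 2), (1, 3), (2, 3)], [], [(2, 3)], [], [(0, 1), (1, 2)], [], [(0, 3), (1, 3)], [], [(0, 3), (2, 3)], [], [(0, 2), (1, 2)], [(0, 1), (1, 2), (2, 3)], [], [(1,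 3)], []]

def ev (p q : QuaternionGroup 2) : QuaternionGroup 2 → QuaternionGroup 2
  | .a i => p ^ i.val
  | .xa i => q * p ^ i.val

def code : QuaternionGroup 2 → ℕ
  | .a i => i.val
  | .xa i => 4 + i.val

def g (p q : QuaternionGroup 2) : Equiv.Perm (Fin 4) :=
  ((tbl.getD (8 * code p + code q) []).map (fun s => Equiv.swap s.1 s.2)).prod

theorem a_eq (i : ZMod 4) : (QuaternionGroup.a i : QuaternionGroup 2) = QuaternionGroup.a 1 ^ i.val := by
  revert i; decide

theorem xa_eq (i : ZMod 4) :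
    (QuaternionGroup.xa i : QuaternionGroup 2) = QuaternionGroup.xa 0 * QuaternionGroup.a 1 ^ i.val := by
  revert i; decide

theorem key (φ : MulAut (QuaternionGroup 2)) (u : QuaternionGroup 2) :
    φ u = ev (φ (QuaternionGroup.a 1)) (φ (QuaternionGroup.xa 0)) u := by
  cases u with
  | a i =>
    have h : φ (QuaternionGroup.a i) = φ (QuaternionGroup.a 1) ^ i.val := by
      conv_lhs => rw [a_eq i]
      rw [map_pow]
    rw [h]; rfl
  | xa i =>
    have h : φ (QuaternionGroup.xa i) = φ (QuaternionGroup.xa 0) * φ (QuaternionGroup.a 1) ^ i.val := by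
      conv_lhs => rw [xa_eq i]
      rw [map_mul, map_pow]
    rw [h]; rfl

theorem ev_mul_of_mem : ∀ P ∈ vlist, ∀ x y : QuaternionGroup 2,
    ev P.1 P.2 (x * y) = ev P.1 P.2 x * ev P.1 P.2 y := by
  decide +kernel

theorem ev_inj_of_mem : ∀ P ∈ vlist, ∀ x y : QuaternionGroup 2,
    ev P.1 P.2 x = ev P.1 P.2 y → x = y := by
  decide +kernel

theorem mem_of_hom_inj : ∀ p q : QuaternionGroup 2,
    (∀ x y : QuaternionGroup 2, ev p q (x * y) = ev p q x * ev p q y) →
    (∀ x y : QuaternionGroup 2, ev p q x = ev p q y → x = y) → (p, q) ∈ vlist := by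
  decide +kernel

theorem mem_vlist (φ : MulAut (QuaternionGroup 2)) :
    (φ (QuaternionGroup.a 1), φ (QuaternionGroup.xa 0)) ∈ vlist := by
  apply mem_of_hom_inj
  · intro x y; rw [← key, ← key, ← key, map_mul]
  · intro x y h; rw [← key, ← key] at h; exact φ.injective h

theorem g_mul : ∀ P ∈ vlist, ∀ P' ∈ vlist,
    g (ev P.1 P.2 P'.1) (ev P.1 P.2 P'.2) = g P.1 P.2 * g P'.1 P'.2 := by
  decide +kernel

theorem g_inj : ∀ P ∈ vlist, ∀ P' ∈ vlist, g P.1 P.2 = g P'.1 P'.2 → P = P' := by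
  decide +kernel

theorem g_surj : ∀ σ : Equiv.Perm (Fin 4), ∃ P ∈ vlist, g P.1 P.2 = σ := by
  decide +kernel

/-- The homomorphism `Aut(Q₈) → S₄`. -/
def Φ : MulAut (QuaternionGroup 2) →* Equiv.Perm (Fin 4) :=
  MonoidHom.mk' (fun φ => g (φ (QuaternionGroup.a 1)) (φ (QuaternionGroup.xa 0))) (by
    intro φ ψ
    have h := g_mul _ (mem_vlist φ) _ (mem_vlist ψ)
    simp only [← key] at h
    exact h)

theorem Φ_injective : Function.Injective Φ := by
  intro φ ψ h
  have h1 := g_inj _ (mem_vlist φ) _ (mem_vlist ψ) h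
  have h2 : φ (QuaternionGroup.a 1) = ψ (QuaternionGroup.a 1) := congrArg Prod.fst h1
  have h3 : φ (QuaternionGroup.xa 0) = ψ (QuaternionGroup.xa 0) := congrArg Prod.snd h1
  ext u
  rw [key φ u, key ψ u, h2, h3]

theorem Φ_surjective : Function.Surjective Φ := by
  intro σ
  obtain ⟨P, hP, hσ⟩ := g_surj σ
  have hinj : Function.Injective (ev P.1 P.2) := fun x y h => ev_inj_of_mem P hP x y h
  refine ⟨MulEquiv.ofBijective (MonoidHom.mk' (ev P.1 P.2) (ev_mul_of_mem P hP))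
    ⟨hinj, Finite.surjective_of_injective hinj⟩, ?_⟩
  rw [← hσ]
  show g (ev P.1 P.2 (QuaternionGroup.a 1)) (ev P.1 P.2 (QuaternionGroup.xa 0)) = g P.1 P.2
  have e1 : ev P.1 P.2 (QuaternionGroup.a 1) = P.1 := by
    show P.1 ^ (1 : ZMod 4).val = P.1
    rw [show (1 : ZMod 4).val = 1 from rfl, pow_one]
  have e2 : ev P.1 P.2 (QuaternionGroup.xa 0) = P.2 := by
    show P.2 * P.1 ^ (0 : ZMod 4).val = P.2
    rw [show (0 : ZMod 4).val = 0 from rfl, pow_zero, mul_one]
  rw [e1, e2]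

/-- The automorphism group of the quaternion group of order 8 is isomorphic to the symmetric group of degree 4. -/
theorem result : Nonempty (MulAut (QuaternionGroup 2) ≃* Equiv.Perm (Fin 4)) :=
  ⟨MulEquiv.ofBijective Φ ⟨Φ_injective, Φ_surjective⟩⟩

end Cfsg.Agent.S3742
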