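-- Statement S3803: odd-order group normalizing all subgroups of a given order of a 2-group centralizes it.
import Cfsg.Statements.S3803
import Cfsg.Agent.Helper24.Coprime
import Cfsg.Agent.Helper35.Coprime
import Cfsg.Agent.Helper54.Basic

set_option autoImplicit false
open Cfsg

namespace Cfsg.Agent.S3803

open Cfsg.Agent.Helper24
open scoped commutatorElement

universe u

/-- Subgroups of prescribed order between `H` and `P` in a `p`-group `P`. -/
theorem exists_between {X : Type u} [Group X] [Finite X] (p : ℕ) [Fact p.Prime] (P H : Subgroup X)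
    (hHP : H ≤ P) {n m : ℕ} (hH : Nat.card H = p ^ n) (hnm : n ≤ m) (hdvd : p ^ m ∣ Nat.card P) :
    ∃ K : Subgroup X, Nat.card K = p ^ m ∧ H ≤ K ∧ K ≤ P := by
  have hH' : Nat.card (H.subgroupOf P) = p ^ n := by
    rw [Nat.card_congr (Subgroup.subgroupOfEquivOfLe hHP).toEquiv, hH]
  obtain ⟨K', hK', hle⟩ := Sylow.exists_subgroup_card_pow_prime_le p hdvd (H.subgroupOf P) hH' hnm
  refine ⟨K'.map P.subtype, ?_, ?_, Subgroup.map_subtype_le K'⟩
  · rw [Subgroup.card_map_of_injective P.subtype_injective, hK']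
  · intro x hx
    exact ⟨⟨x, hHP hx⟩, hle (Subgroup.mem_subgroupOf.mpr hx), rfl⟩

/-- An element normalizing two subgroups normalizes their join. -/
theorem le_normalizer_sup {X : Type u} [Group X] {A M M' : Subgroup X}
    (h1 : A ≤ Subgroup.normalizer (M : Set X)) (h2 : A ≤ Subgroup.normalizer (M' : Set X)) :
    A ≤ Subgroup.normalizer ((M ⊔ M' : Subgroup X) : Set X) := by
  have key : ∀ g : X, g ∈ Subgroup.normalizer (M : Set X) → g ∈ Subgroup.normalizer (M' : Set X) →
      ∀ h ∈ M ⊔ M', g * h * g⁻¹ ∈ M ⊔ M' := by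
    intro g hg hg' h hh
    have hle : M ⊔ M' ≤ (M ⊔ M').comap (MulAut.conj g).toMonoidHom := by
      apply sup_le
      · intro m hm
        rw [Subgroup.mem_comap]
        exact Subgroup.mem_sup_left ((Subgroup.mem_normalizer_iff.mp hg m).mp hm)
      · intro m hm
        rw [Subgroup.mem_comap]
        exact Subgroup.mem_sup_right ((Subgroup.mem_normalizer_iff.mp hg' m).mp hm)
    have := hle hh
    simpa using this
  intro a ha
  refine mem_normalizer_of_conj_mem (key a (h1 ha) (h2 ha)) (fun h hh => ?_)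
  have := key a⁻¹ (Subgroup.inv_mem _ (h1 ha)) (Subgroup.inv_mem _ (h2 ha)) h hh
  simpa using this

/-- Burnside-type lemma: an odd-order group normalizing a 2-group `F` of order `2^(k+1)` and all
its subgroups of order `2^k` centralizes `F`. -/
theorem centralizes_of_max_invariant {X : Type u} [Group X] [Finite X] (F A : Subgroup X) (k : ℕ)
    (hF : Nat.card F = 2 ^ (k + 1)) (hA : Odd (Nat.card A))
    (hAF : A ≤ Subgroup.normalizer (F : Set X))
    (hM : ∀ M : Subgroup X, M ≤ F → Nat.card M = 2 ^ k → A ≤ Subgroup.normalizer (M : Set X)) :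
    F ≤ Subgroup.centralizer (A : Set X) := by
  by_contra hnot
  have hCF : F ⊓ Subgroup.centralizer (A : Set X) ≤ F := inf_le_left
  have hCne : F ⊓ Subgroup.centralizer (A : Set X) ≠ F := by
    intro h
    exact hnot (h ▸ inf_le_right)
  have hCdvd : Nat.card (F ⊓ Subgroup.centralizer (A : Set X) : Subgroup X) ∣ 2 ^ (k + 1) := by
    rw [← hF]; exact Subgroup.card_dvd_of_le hCF
  obtain ⟨j, hj, hCj⟩ := (Nat.dvd_prime_pow Nat.prime_two).mp hCdvd
  have hjk : j ≤ k := by
    by_contra hjk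
    have : j = k + 1 := by omega
    rw [this] at hCj
    exact hCne (Subgroup.eq_of_le_of_card_ge hCF (by rw [hCj, hF]))
  obtain ⟨M, hMcard, hCM, hMF⟩ := exists_between 2 F _ hCF hCj hjk
    (by rw [hF]; exact pow_dvd_pow 2 (Nat.le_succ k))
  obtain ⟨x, hxF, hxM⟩ : ∃ x ∈ F, x ∉ M := by
    by_contra hcon
    push Not at hcon
    have h1 : Nat.card F ≤ Nat.card M := Subgroup.card_le_of_le hcon
    rw [hF, hMcard] at h1
    have : 2 ^ k < 2 ^ (k + 1) := Nat.pow_lt_pow_right (by norm_num) (Nat.lt_succ_self k)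
    omega
  have hAM : A ≤ Subgroup.normalizer (M : Set X) := hM M hMF hMcard
  have hidx : (M.subgroupOf F).index = 2 := by
    have h1 : Nat.card M * M.relIndex F = Nat.card F := by
      have := Subgroup.relIndex_mul_relIndex (H := (⊥ : Subgroup X)) (K := M) (L := F) bot_le hMF
      rwa [Subgroup.relIndex_bot_left, Subgroup.relIndex_bot_left] at this
    rw [hMcard, hF, pow_succ] at h1
    exact Nat.eq_of_mul_eq_mul_left (pow_pos (by norm_num) k) h1
  have hx : ∀ a ∈ A, x⁻¹ * a * x * a⁻¹ ∈ M := by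
    intro a ha
    have haxF : a * x * a⁻¹ ∈ F := (Subgroup.mem_normalizer_iff.mp (hAF ha) x).mp hxF
    have haxM : a * x * a⁻¹ ∉ M := fun h => hxM ((Subgroup.mem_normalizer_iff.mp (hAM ha) x).mpr h)
    have h1 := Subgroup.mul_mem_iff_of_index_two hidx (a := (⟨x⁻¹, F.inv_mem hxF⟩ : F))
      (b := (⟨a * x * a⁻¹, haxF⟩ : F))
    have h2 : (⟨x⁻¹, F.inv_mem hxF⟩ : F) * (⟨a * x * a⁻¹, haxF⟩ : F) ∈ M.subgroupOf F := by
      rw [h1, Subgroup.mem_subgroupOf, Subgroup.mem_subgroupOf]
      constructor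
      · intro h
        exact absurd ((Subgroup.inv_mem_iff M).mp h) hxM
      · intro h
        exact absurd h haxM
    rw [Subgroup.mem_subgroupOf] at h2
    have h3 : x⁻¹ * a * x * a⁻¹ = x⁻¹ * (a * x * a⁻¹) := by group
    rw [h3]
    exact h2
  have hcop : (Nat.card A).Coprime (Nat.card M) := by
    rw [hMcard]; exact Nat.Coprime.pow_right k hA.coprime_two_right
  have hMp : IsPGroup 2 M := IsPGroup.of_card hMcard
  haveI : Group.IsNilpotent M := hMp.isNilpotent
  have hsolv : Group.IsSolvable A ∨ Group.IsSolvable M := Or.inr inferInstance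
  obtain ⟨c, hc, hcM⟩ := Cfsg.Agent.Helper35.exists_fixed_in_coset hAM hcop hsolv x hx
  have hcF : c ∈ F := by
    have : c = x * (x⁻¹ * c) := by group
    rw [this]
    exact F.mul_mem hxF (hMF hcM)
  have hcM' : c ∈ M := hCM ⟨hcF, hc⟩
  apply hxM
  have : x = c * (x⁻¹ * c)⁻¹ := by group
  rw [this]
  exact M.mul_mem hcM' (M.inv_mem hcM)

/-- An odd-order group normalizing a 2-group and centralizing its elements of order dividing 4
centralizes it. -/
theorem le_centralizer_of_centralizes_omega_two {G : Type u} [Group G] [Finite G]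
    (A : Subgroup G) (hAcop : (Nat.card A).Coprime 2) :
    ∀ (n : ℕ) (P : Subgroup G), Nat.card P ≤ n → IsPGroup 2 P →
      A ≤ Subgroup.normalizer (P : Set G) →
      (∀ x ∈ P, x ^ 4 = 1 → ∀ a ∈ A, a * x = x * a) →
      P ≤ Subgroup.centralizer (A : Set G) := by
  intro n
  induction n with
  | zero =>
    intro P hn
    exact absurd hn (by have : 0 < Nat.card P := Nat.card_pos; omega)
  | succ n ih =>
    intro P hn hP hAP hΩ
    by_cases hP1 : P = ⊥
    · rw [hP1]; exact bot_le
    have hcop : (Nat.card A).Coprime (Nat.card P) := by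
      obtain ⟨k, hk⟩ := IsPGroup.iff_card.mp hP
      rw [hk]; exact Nat.Coprime.pow_right k hAcop
    have hPA : ⁅P, A⁆ ≤ P := Subgroup.le_normalizer_iff_commutator_le_left.mp hAP
    have ihM : ∀ M : Subgroup G, M < P → A ≤ Subgroup.normalizer (M : Set G) →
        M ≤ Subgroup.centralizer (A : Set G) := by
      intro M hM hAM
      exact ih M (by have := card_lt_card_of_lt hM; omega) (hP.to_le hM.le) hAM
        (fun x hx => hΩ x (hM.le hx))
    by_cases hlt : ⁅P, A⁆ < P
    · exact le_centralizer_of_commutator_le_centralizer hAP hcop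
        (ihM _ hlt (Subgroup.normalizer_commutator_ge_right P A))
    have hPAeq : ⁅P, A⁆ = P := by
      by_contra hne; exact hlt (lt_of_le_of_ne hPA hne)
    have hMP : agemoComm 2 P < P := agemoComm_lt hP hP1
    have hAM : A ≤ Subgroup.normalizer ((agemoComm 2 P : Subgroup G) : Set G) :=
      hAP.trans (normalizer_le_normalizer_agemoComm 2 P)
    have hPM : P ≤ Subgroup.normalizer ((agemoComm 2 P : Subgroup G) : Set G) :=
      Subgroup.le_normalizer.trans (normalizer_le_normalizer_agemoComm 2 P)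
    have hMcA : agemoComm 2 P ≤ Subgroup.centralizer (A : Set G) := ihM _ hMP hAM
    have hMcP : agemoComm 2 P ≤ Subgroup.centralizer (P : Set G) := by
      have hMA : ⁅agemoComm 2 P, A⁆ = ⊥ := Subgroup.commutator_eq_bot_iff_le_centralizer.mpr hMcA
      have h1 : ⁅⁅A, agemoComm 2 P⁆, P⁆ = ⊥ := by
        rw [Subgroup.commutator_comm A (agemoComm 2 P), hMA, Subgroup.commutator_bot_left]
      have h2 : ⁅⁅agemoComm 2 P, P⁆, A⁆ = ⊥ := by
        have h : ⁅agemoComm 2 P, P⁆ ≤ agemoComm 2 P :=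
          Subgroup.le_normalizer_iff_commutator_le_left.mp hPM
        rw [← le_bot_iff, ← hMA]; exact Subgroup.commutator_mono h le_rfl
      have h3 : ⁅⁅P, A⁆, agemoComm 2 P⁆ = ⊥ := Subgroup.commutator_commutator_eq_bot_of_rotate h1 h2
      rw [hPAeq, Subgroup.commutator_comm] at h3
      exact Subgroup.commutator_eq_bot_iff_le_centralizer.mp h3
    intro x hx
    rw [Subgroup.mem_centralizer_iff]
    intro a ha
    have hyP : a * x⁻¹ * a⁻¹ ∈ P :=
      (Subgroup.mem_normalizer_iff.mp (hAP ha) x⁻¹).mp (P.inv_mem hx)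
    have hw : ⁅x, a⁆ = x * (a * x⁻¹ * a⁻¹) := by simp [commutatorElement_def, mul_assoc]
    have hzM : ⁅a * x⁻¹ * a⁻¹, x⁆ ∈ agemoComm 2 P := commutator_mem_agemoComm 2 hyP hx
    have hzx : Commute ⁅a * x⁻¹ * a⁻¹, x⁆ x :=
      (Subgroup.mem_centralizer_iff.mp (hMcP hzM) x hx).symm
    have hzy : Commute ⁅a * x⁻¹ * a⁻¹, x⁆ (a * x⁻¹ * a⁻¹) :=
      (Subgroup.mem_centralizer_iff.mp (hMcP hzM) _ hyP).symm
    have hzp : ⁅a * x⁻¹ * a⁻¹, x⁆ ^ 2 = 1 := by
      rw [← commutator_pow_left_of_commute x (a * x⁻¹ * a⁻¹) hzy 2,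
        commutatorElement_eq_one_iff_mul_comm]
      exact (Subgroup.mem_centralizer_iff.mp (hMcP (pow_mem_agemoComm 2 hyP)) x hx).symm
    have hyp : (a * x⁻¹ * a⁻¹) ^ 2 = (x ^ 2)⁻¹ := by
      have h1 : (a * x⁻¹ * a⁻¹) ^ 2 = a * (x ^ 2)⁻¹ * a⁻¹ := by
        rw [conj_pow, inv_pow]
      have h2 : a * (x ^ 2)⁻¹ = (x ^ 2)⁻¹ * a := by
        have := Subgroup.mem_centralizer_iff.mp
          (hMcA ((agemoComm 2 P).inv_mem (pow_mem_agemoComm 2 hx))) a ha
        exact this
      rw [h1, h2]; group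
    have hw2 : ⁅x, a⁆ ^ 2 = ⁅a * x⁻¹ * a⁻¹, x⁆ := by
      rw [hw, mul_pow_of_commutator_commute x (a * x⁻¹ * a⁻¹) hzx hzy 2, hyp]
      have : Nat.choose 2 2 = 1 := by decide
      rw [this, pow_one]; group
    have hw4 : ⁅x, a⁆ ^ 4 = 1 := by
      have : ⁅x, a⁆ ^ 4 = (⁅x, a⁆ ^ 2) ^ 2 := by rw [← pow_mul]
      rw [this, hw2, hzp]
    have hwP : ⁅x, a⁆ ∈ P := by rw [hw]; exact P.mul_mem hx hyP
    have hwa : ⁅x, a⁆ * a = a * ⁅x, a⁆ := (hΩ _ hwP hw4 a ha).symm
    exact (comm_of_commutator_comm x a _ _ hcop (pow_card_eq_one_of_mem ha)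
      (pow_card_eq_one_of_mem hwP) hwa).symm

/-- Let P be a 2-subgroup and A a subgroup of odd order of a finite group, with A normalizing P. Let D ≤ P with 1 < |D| < |P|. If every subgroup of P of order |D|, and also every subgroup of P of order 4 in case |D| = 2, is normalized by A, then A centralizes P. -/
theorem result {X : Type*} [Group X] [Finite X] (P A D : Subgroup X) (hP : IsPGroup 2 P) (hA : Odd (Nat.card A))
    (hAP : A ≤ Subgroup.normalizer (P : Set X)) (hDP : D ≤ P) (hD1 : 1 < Nat.card D) (hD2 : Nat.card D < Nat.card P)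
    (hinv : ∀ E : Subgroup X, E ≤ P → (Nat.card E = Nat.card D ∨ (Nat.card D = 2 ∧ Nat.card E = 4)) → A ≤ Subgroup.normalizer (E : Set X)) :
    A ≤ Subgroup.centralizer (P : Set X) := by
  obtain ⟨n, hn⟩ := IsPGroup.iff_card.mp hP
  have hDp : IsPGroup 2 D := hP.to_le hDP
  obtain ⟨k, hk⟩ := IsPGroup.iff_card.mp hDp
  have hk1 : 1 ≤ k := by
    by_contra h
    have : k = 0 := by omega
    rw [hk, this] at hD1
    simp at hD1
  have hkn : k < n := by
    rw [hk, hn] at hD2
    exact (Nat.pow_lt_pow_iff_right (by norm_num : 1 < 2)).mp hD2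
  have hAcop : (Nat.card A).Coprime 2 := hA.coprime_two_right
  rw [Subgroup.le_centralizer_iff]
  apply le_centralizer_of_centralizes_omega_two A hAcop (Nat.card P) P le_rfl hP hAP
  intro x hx hx4 a ha
  have hodd_a : Odd (orderOf a) := Odd.of_dvd_nat hA (Subgroup.orderOf_dvd_natCard A ha)
  have hYP : Subgroup.zpowers x ≤ P := by rw [Subgroup.zpowers_le]; exact hx
  have hYdvd : orderOf x ∣ 2 ^ 2 := orderOf_dvd_of_pow_eq_one (by norm_num; exact hx4)
  obtain ⟨j, hj2, hj⟩ := (Nat.dvd_prime_pow Nat.prime_two).mp hYdvd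
  have hYcard : Nat.card (Subgroup.zpowers x) = 2 ^ j := by rw [Nat.card_zpowers, hj]
  by_cases hk' : k = 1
  · -- `|D| = 2`
    have hD : Nat.card D = 2 := by rw [hk, hk']; norm_num
    have hj012 : j = 0 ∨ j = 1 ∨ j = 2 := by omega
    rcases hj012 with rfl | rfl | rfl
    · have : x = 1 := by
        rw [← orderOf_eq_one_iff, hj]; norm_num
      rw [this, mul_one, one_mul]
    · have hN := hinv (Subgroup.zpowers x) hYP (Or.inl (by rw [hYcard, hD]; norm_num))
      exact Cfsg.Agent.Helper54.commute_of_odd_of_mem_normalizer_cyclic (Subgroup.zpowers x) 1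
        hYcard a (hN ha) hodd_a x (Subgroup.mem_zpowers x)
    · have hN := hinv (Subgroup.zpowers x) hYP (Or.inr ⟨hD, by rw [hYcard]; norm_num⟩)
      exact Cfsg.Agent.Helper54.commute_of_odd_of_mem_normalizer_cyclic (Subgroup.zpowers x) 2
        hYcard a (hN ha) hodd_a x (Subgroup.mem_zpowers x)
  · have hk2 : 2 ≤ k := by omega
    obtain ⟨M, hMcard, hYM, hMP⟩ := exists_between 2 P _ hYP hYcard (le_trans hj2 hk2)
      (by rw [hn]; exact pow_dvd_pow 2 hkn.le)
    obtain ⟨E, hEcard, hME, hEP⟩ := exists_between 2 P _ hMP hMcard (Nat.le_succ k)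
      (by rw [hn]; exact pow_dvd_pow 2 hkn)
    have hAM : A ≤ Subgroup.normalizer (M : Set X) := hinv M hMP (Or.inl (by rw [hMcard, hk]))
    obtain ⟨y, hyE, hyM⟩ : ∃ y ∈ E, y ∉ M := by
      by_contra hcon
      push Not at hcon
      have h1 : Nat.card E ≤ Nat.card M := Subgroup.card_le_of_le hcon
      rw [hEcard, hMcard] at h1
      have : 2 ^ k < 2 ^ (k + 1) := Nat.pow_lt_pow_right (by norm_num) (Nat.lt_succ_self k)
      omega
    have hZE : Subgroup.zpowers y ≤ E := by rw [Subgroup.zpowers_le]; exact hyE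
    have hZdvd : Nat.card (Subgroup.zpowers y) ∣ 2 ^ (k + 1) := by
      rw [← hEcard]; exact Subgroup.card_dvd_of_le hZE
    obtain ⟨i, hi, hZcard⟩ := (Nat.dvd_prime_pow Nat.prime_two).mp hZdvd
    by_cases hik : i ≤ k
    · obtain ⟨M', hM'card, hZM', hM'E⟩ := exists_between 2 E _ hZE hZcard hik
        (by rw [hEcard]; exact pow_dvd_pow 2 (Nat.le_succ k))
      have hAM' : A ≤ Subgroup.normalizer (M' : Set X) :=
        hinv M' (hM'E.trans hEP) (Or.inl (by rw [hM'card, hk]))
      have hsupE : M ⊔ M' = E := by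
        have hle : M ⊔ M' ≤ E := sup_le hME hM'E
        have hlt : M < M ⊔ M' := by
          refine lt_of_le_of_ne le_sup_left (fun h => hyM ?_)
          rw [h]
          exact Subgroup.mem_sup_right (hZM' (Subgroup.mem_zpowers y))
        have h1 := card_lt_card_of_lt hlt
        have hdvd : Nat.card (M ⊔ M' : Subgroup X) ∣ 2 ^ (k + 1) := by
          rw [← hEcard]; exact Subgroup.card_dvd_of_le hle
        obtain ⟨t, ht, htc⟩ := (Nat.dvd_prime_pow Nat.prime_two).mp hdvd
        rw [hMcard, htc] at h1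
        have htk : k < t := (Nat.pow_lt_pow_iff_right (by norm_num : 1 < 2)).mp h1
        have ht' : t = k + 1 := by omega
        exact Subgroup.eq_of_le_of_card_ge hle (by rw [hEcard, htc, ht'])
      have hAE : A ≤ Subgroup.normalizer (E : Set X) := by
        rw [← hsupE]; exact le_normalizer_sup hAM hAM'
      have hEc := centralizes_of_max_invariant E A k hEcard hA hAE
        (fun M0 hM0E hM0 => hinv M0 (hM0E.trans hEP) (Or.inl (by rw [hM0, hk])))
      exact Subgroup.mem_centralizer_iff.mp (hEc (hME (hYM (Subgroup.mem_zpowers x)))) a ha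
    · have hi' : i = k + 1 := by omega
      have hZeq : Subgroup.zpowers y = E :=
        Subgroup.eq_of_le_of_card_ge hZE (by rw [hEcard, hZcard, hi'])
      haveI : IsCyclic ↥E := (Subgroup.isCyclic_iff_exists_zpowers_eq_top E).mpr ⟨y, hZeq⟩
      haveI : IsCyclic ↥M := Subgroup.isCyclic_of_le hME
      exact Cfsg.Agent.Helper54.commute_of_odd_of_mem_normalizer_cyclic M k hMcard a (hAM ha)
        hodd_a x (hYM (Subgroup.mem_zpowers x))

end Cfsg.Agent.S3803
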