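import Cfsg.Statements.S4479
import Cfsg.Agent.Helper82.KleinCount
import Cfsg.Agent.Helper82.KleinOrder

set_option autoImplicit false
open Cfsg

namespace Cfsg.Agent.S4479

/-- An order formula from the principal 2-block. Let G be a finite group of order 4·g₀ with g₀ odd having no normal 2-complement (no normal subgroup of order g₀); let P be a Sylow 2-subgroup, J an involution of P, and fix a maximal ideal M of the algebraic integers containing 2. Suppose the principal 2-block consists of the principal character and three further distinct characters χ₁, χ₂, χ₃ of degrees x₁, x₂, x₃, with χ_i(J) = ε_i = ±1. Then, writing c(J) and c(P) for the orders of the centralizers of J and of P, the order of G equals 8·α·c(J)³/c(P)² with α = x₁x₂x₃ / ((x₁ + ε₁)(x₂ + ε₂)(x₃ + ε₃)). -/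
theorem result {G : Type*} [Group G] [Finite G] (M : Ideal Cfsg.AlgInt) (hM : Cfsg.IsPModular 2 M) (g₀ : ℕ) (hg₀ : Odd g₀) (hG : Nat.card G = 4 * g₀) (hnc : ¬ ∃ N : Subgroup G, N.Normal ∧ Nat.card N = g₀) (P : Sylow 2 G) (J : G) (hJ : J ∈ (P : Subgroup G)) (hJ2 : orderOf J = 2) (χ₁ χ₂ χ₃ : Cfsg.IrrCharacter G) (ε₁ ε₂ ε₃ : ℤ) (hB : Cfsg.principalBlock M G = {χ : Cfsg.IrrCharacter G | (χ : G → ℂ) = (fun _ => 1) ∨ χ = χ₁ ∨ χ = χ₂ ∨ χ = χ₃}) (hdist : (χ₁ : G → ℂ) ≠ (fun _ => 1) ∧ (χ₂ : G → ℂ) ≠ (fun _ => 1) ∧ (χ₃ : G → ℂ) ≠ (fun _ => 1) ∧ χ₁ ≠ χ₂ ∧ χ₁ ≠ χ₃ ∧ χ₂ ≠ χ₃) (hε : (ε₁ = 1 ∨ ε₁ = -1) ∧ (ε₂ = 1 ∨ ε₂ = -1) ∧ (ε₃ = 1 ∨ ε₃ = -1)) (hval : (χ₁ : G → ℂ) J = ε₁ ∧ (χ₂ : G → ℂ) J = ε₂ ∧ (χ₃ : G → ℂ) J = ε₃) : (Nat.card G : ℚ) = 8 * (((Cfsg.charDegree (χ₁ : G → ℂ) : ℚ) * Cfsg.charDegree (χ₂ : G → ℂ) * Cfsg.charDegree (χ₃ : G → ℂ)) / ((Cfsg.charDegree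 (χ₁ : G → ℂ) + ε₁) * (Cfsg.charDegree (χ₂ : G → ℂ) + ε₂) * (Cfsg.charDegree (χ₃ : G → ℂ) + ε₃))) * (Nat.card (Subgroup.centralizer ({J} : Set G)) : ℚ) ^ 3 / (Nat.card (Subgroup.centralizer ((P : Subgroup G) : Set G)) : ℚ) ^ 2 := by
  classical
  have := Fintype.ofFinite G
  have := Fintype.ofFinite (Cfsg.IrrCharacter G)
  have hp2 : (2 : ℕ).Prime := hM.1
  have : Fact (Nat.Prime 2) := ⟨hp2⟩
  have hMp : M.IsPrime := Helper81.isPrime_of_isPModular hM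
  have hJ1 : J ≠ 1 := by
    rintro rfl
    rw [orderOf_one] at hJ2
    exact absurd hJ2 (by norm_num)
  have hPcard := Helper82.kleinGroup_card_sylow g₀ hg₀ hG P
  have hPexp := (Helper82.kleinGroup_of_no_complement g₀ hg₀ hG hnc P).1
  have hone : ∀ s t : G, orderOf s = 2 → orderOf t = 2 → IsConj s t := by
    intro s t hs ht
    exact (Helper82.kleinGroup_one_class g₀ hg₀ hG hnc P J hJ hJ1 s hs).trans
      (Helper82.kleinGroup_one_class g₀ hg₀ hG hnc P J hJ hJ1 t ht).symm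
  have hchar := Helper82.kleinOrder_char_count M hM P hPcard hPexp hone J hJ hJ2
  have hcount := Helper82.kleinCount_main g₀ hg₀ hG hnc P J hJ hJ2
  -- the principal block as a finset
  have hB₀ : Cfsg.IsPBlock M (Cfsg.principalBlock M G) := ⟨Helper81.trivIrr G, rfl⟩
  obtain ⟨h1ne, h2ne, h3ne, h12, h13, h23⟩ := hdist
  have ht1 : Helper81.trivIrr G ≠ χ₁ := fun h => h1ne (by rw [← h]; rfl)
  have ht2 : Helper81.trivIrr G ≠ χ₂ := fun h => h2ne (by rw [← h]; rfl)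
  have ht3 : Helper81.trivIrr G ≠ χ₃ := fun h => h3ne (by rw [← h]; rfl)
  have hset : Cfsg.principalBlock M G
      = ↑({Helper81.trivIrr G, χ₁, χ₂, χ₃} : Finset (Cfsg.IrrCharacter G)) := by
    rw [hB]
    ext χ
    simp only [Set.mem_ofPred_eq, Finset.coe_insert, Finset.coe_singleton, Set.mem_insert_iff,
      Set.mem_singleton_iff]
    constructor
    · rintro (h | h)
      · exact Or.inl (Subtype.ext h)
      · exact Or.inr h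
    · rintro (h | h)
      · exact Or.inl (by rw [h]; rfl)
      · exact Or.inr h
  have hni1 : Helper81.trivIrr G ∉ ({χ₁, χ₂, χ₃} : Finset (Cfsg.IrrCharacter G)) := by
    simp only [Finset.mem_insert, Finset.mem_singleton, not_or]
    exact ⟨ht1, ht2, ht3⟩
  have hni2 : χ₁ ∉ ({χ₂, χ₃} : Finset (Cfsg.IrrCharacter G)) := by
    simp only [Finset.mem_insert, Finset.mem_singleton, not_or]
    exact ⟨h12, h13⟩
  rw [hset, finsum_mem_coe_finset, Finset.sum_insert hni1, Finset.sum_insert hni2,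
    Finset.sum_pair h23] at hchar
  -- the degree relation
  have hweak := Helper77.weak_block_orthogonality hM hB₀ (x := (1 : G)) (y := J)
    (by rw [orderOf_one]; norm_num) (by rw [hJ2])
  rw [hset, finsum_mem_coe_finset, Finset.sum_insert hni1, Finset.sum_insert hni2,
    Finset.sum_pair h23] at hweak
  obtain ⟨hv1, hv2, hv3⟩ := hval
  simp only [Helper81.trivIrr_apply, Helper81.irr_one_eq_charDegree, hv1, hv2, hv3, map_one,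
    map_intCast, mul_one] at hchar hweak
  -- notation
  obtain ⟨x₁, hx₁⟩ : ∃ x₁ : ℕ, x₁ = Cfsg.charDegree (χ₁ : G → ℂ) := ⟨_, rfl⟩
  obtain ⟨x₂, hx₂⟩ : ∃ x₂ : ℕ, x₂ = Cfsg.charDegree (χ₂ : G → ℂ) := ⟨_, rfl⟩
  obtain ⟨x₃, hx₃⟩ : ∃ x₃ : ℕ, x₃ = Cfsg.charDegree (χ₃ : G → ℂ) := ⟨_, rfl⟩
  obtain ⟨c, hc⟩ : ∃ c : ℕ, c = Nat.card (Subgroup.centralizer ({J} : Set G)) := ⟨_, rfl⟩
  obtain ⟨cP, hcP⟩ : ∃ cP : ℕ, cP = Nat.card (Subgroup.centralizer ((P : Subgroup G) : Set G)) :=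
    ⟨_, rfl⟩
  obtain ⟨T, hT⟩ : ∃ T : ℕ, T = Nat.card {v : G // orderOf v = 2 ∧ 2 ∣ orderOf (J * v)} :=
    ⟨_, rfl⟩
  obtain ⟨N, hN⟩ : ∃ N : ℕ, N = Nat.card G := ⟨_, rfl⟩
  rw [← hx₁, ← hx₂, ← hx₃, ← hc, ← hT, ← hN] at hchar
  rw [← hx₁, ← hx₂, ← hx₃] at hweak
  rw [← hc, ← hcP, ← hT] at hcount
  rw [← hx₁, ← hx₂, ← hx₃, ← hc, ← hcP, ← hN]
  have hx₁pos : (0 : ℚ) < x₁ := by rw [hx₁]; exact_mod_cast Helper81.charDegree_pos χ₁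
  have hx₂pos : (0 : ℚ) < x₂ := by rw [hx₂]; exact_mod_cast Helper81.charDegree_pos χ₂
  have hx₃pos : (0 : ℚ) < x₃ := by rw [hx₃]; exact_mod_cast Helper81.charDegree_pos χ₃
  have hcpos : (0 : ℚ) < c := by
    rw [hc]; exact_mod_cast (Nat.card_pos : 0 < Nat.card (Subgroup.centralizer ({J} : Set G)))
  have hcPpos : (0 : ℚ) < cP := by
    rw [hcP]
    exact_mod_cast (Nat.card_pos :
      0 < Nat.card (Subgroup.centralizer ((P : Subgroup G) : Set G)))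
  have hNpos : (0 : ℚ) < N := by
    rw [hN]; exact_mod_cast (Nat.card_pos : 0 < Nat.card G)
  -- rational forms
  have hcharQ : 4 * (c : ℚ) * T
      = N * (1 + (ε₁ : ℚ) ^ 3 / x₁ + (ε₂ : ℚ) ^ 3 / x₂ + (ε₃ : ℚ) ^ 3 / x₃) := by
    have h : 4 * (c : ℂ) * T
        = N * (1 + (ε₁ : ℂ) ^ 3 / x₁ + (ε₂ : ℂ) ^ 3 / x₂ + (ε₃ : ℂ) ^ 3 / x₃) := by
      rw [hchar]; ring
    exact_mod_cast h
  have hweakQ : 1 + (x₁ : ℚ) * ε₁ + x₂ * ε₂ + x₃ * ε₃ = 0 := by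
    have h : 1 + (x₁ : ℂ) * ε₁ + x₂ * ε₂ + x₃ * ε₃ = 0 := by
      rw [← hweak]; ring
    exact_mod_cast h
  have hcountQ : (T : ℚ) * cP ^ 2 = 2 * c ^ 2 := by exact_mod_cast hcount
  obtain ⟨hε1, hε2, hε3⟩ := hε
  have he1 : (ε₁ : ℚ) ^ 2 = 1 := by rcases hε1 with h | h <;> rw [h] <;> norm_num
  have he2 : (ε₂ : ℚ) ^ 2 = 1 := by rcases hε2 with h | h <;> rw [h] <;> norm_num
  have he3 : (ε₃ : ℚ) ^ 2 = 1 := by rcases hε3 with h | h <;> rw [h] <;> norm_num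
  have hx₁0 := hx₁pos.ne'
  have hx₂0 := hx₂pos.ne'
  have hx₃0 := hx₃pos.ne'
  have he1c : (ε₁ : ℚ) ^ 3 = ε₁ := by rw [pow_succ, he1, one_mul]
  have he2c : (ε₂ : ℚ) ^ 3 = ε₂ := by rw [pow_succ, he2, one_mul]
  have he3c : (ε₃ : ℚ) ^ 3 = ε₃ := by rw [pow_succ, he3, one_mul]
  rw [he1c, he2c, he3c] at hcharQ
  have ha : (N : ℚ) * (x₁ * x₂ * x₃ + ε₁ * x₂ * x₃ + ε₂ * x₁ * x₃ + ε₃ * x₁ * x₂)
      = 4 * c * T * (x₁ * x₂ * x₃) := by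
    rw [hcharQ]
    field_simp
  have hDD : ((x₁ : ℚ) + ε₁) * (x₂ + ε₂) * (x₃ + ε₃)
      = x₁ * x₂ * x₃ + ε₁ * x₂ * x₃ + ε₂ * x₁ * x₃ + ε₃ * x₁ * x₂ := by
    linear_combination ((ε₁ : ℚ) * ε₂ * ε₃) * hweakQ - (ε₂ * ε₃ * x₁) * he1
      - (ε₁ * ε₃ * x₂) * he2 - (ε₁ * ε₂ * x₃) * he3
  have hTpos : (0 : ℚ) < T := by
    have h1 : (0 : ℚ) < T * cP ^ 2 := by rw [hcountQ]; positivity
    by_contra hcon
    have hT0 : (T : ℚ) = 0 := le_antisymm (not_lt.mp hcon) (by positivity)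
    rw [hT0, zero_mul] at h1
    exact lt_irrefl _ h1
  have hD0 : (x₁ : ℚ) * x₂ * x₃ + ε₁ * x₂ * x₃ + ε₂ * x₁ * x₃ + ε₃ * x₁ * x₂ ≠ 0 := by
    intro h0
    rw [h0, mul_zero] at ha
    have h1 : (0 : ℚ) < 4 * c * T * (x₁ * x₂ * x₃) := by positivity
    rw [← ha] at h1
    exact lt_irrefl _ h1
  rw [hDD]
  have hform : 8 * ((x₁ : ℚ) * x₂ * x₃
        / (x₁ * x₂ * x₃ + ε₁ * x₂ * x₃ + ε₂ * x₁ * x₃ + ε₃ * x₁ * x₂)) * (c : ℚ) ^ 3 / (cP : ℚ) ^ 2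
      = 8 * (x₁ * x₂ * x₃) * c ^ 3
        / ((x₁ * x₂ * x₃ + ε₁ * x₂ * x₃ + ε₂ * x₁ * x₃ + ε₃ * x₁ * x₂) * cP ^ 2) := by
    field_simp
  rw [hform, eq_div_iff (mul_ne_zero hD0 (pow_ne_zero 2 hcPpos.ne'))]
  linear_combination ((cP : ℚ) ^ 2) * ha + (4 * c * (x₁ * x₂ * x₃)) * hcountQ

end Cfsg.Agent.S4479
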