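import Cfsg.Statements.S0904
import Mathlib
import Cfsg.Agent.S0907
import Cfsg.Agent.S0910
import Cfsg.Agent.Helper80.DefectZero
import Cfsg.Agent.Helper81.BlockDefect
import Cfsg.Agent.Helper78.Counting
import Cfsg.Agent.Helper77.BlockIdem

set_option autoImplicit false
open Cfsg

namespace Cfsg.Agent.S0904

open scoped ComplexConjugate

/-- The exponent of `r` in `p ^ a * q ^ b * r` is one. -/
theorem s0904_fac (p q r a b : ℕ) (hp : p.Prime) (hq : q.Prime) (hr : r.Prime)
    (hpr : p ≠ r) (hqr : q ≠ r) : (p ^ a * q ^ b * r).factorization r = 1 := by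
  have h1 : p ^ a ≠ 0 := pow_ne_zero _ hp.ne_zero
  have h2 : q ^ b ≠ 0 := pow_ne_zero _ hq.ne_zero
  rw [Nat.factorization_mul (mul_ne_zero h1 h2) hr.ne_zero, Nat.factorization_mul h1 h2,
    Nat.factorization_pow, Nat.factorization_pow, hp.factorization, hq.factorization,
    hr.factorization]
  simp [hpr, hqr]

/-- In a nonabelian simple group of order `p ^ a * q ^ b * r`, no element has order divisible
by both `p` and `r` (Brauer; weak block orthogonality for the principal `p`-block). -/
theorem s0904_no_pr {G : Type*} [Group G] [Finite G] [IsSimpleGroup G]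
    (hna : ∃ a b : G, a * b ≠ b * a) (p q r a b : ℕ) (hp : p.Prime) (hq : q.Prime)
    (hr : r.Prime) (hpr : p ≠ r) (hqr : q ≠ r)
    (hcard : Nat.card G = p ^ a * q ^ b * r) (g : G) (hgp : p ∣ orderOf g)
    (hgr : r ∣ orderOf g) : False := by
  classical
  haveI : Fact p.Prime := ⟨hp⟩
  haveI : Fintype G := Fintype.ofFinite G
  obtain ⟨M, hM⟩ := Helper78.exists_isPModular p hp
  obtain ⟨M', hM'⟩ := Helper78.exists_isPModular q hq
  have hfac : (Nat.card G).factorization r = 1 := by
    rw [hcard]; exact s0904_fac p q r a b hp hq hr hpr hqr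
  have hB : Cfsg.IsPBlock M (Cfsg.principalBlock M G) := ⟨Helper79.trivIrr G, rfl⟩
  have h0 := Cfsg.Agent.S0907.result p M hM (Cfsg.principalBlock M G) hB (1 : G) g
    (by rw [orderOf_one, Nat.dvd_one]; exact hp.one_lt.ne') hgp
  have htriv : Helper79.trivIrr G ∈ Cfsg.principalBlock M G := by
    intro x
    refine ⟨0, 1, M.zero_mem, (Ideal.ne_top_iff_one M).1 hM.2.1.ne_top, ?_⟩
    have htr : (Helper79.trivIrr G : G → ℂ) = fun _ => 1 := rfl
    rw [htr]
    simp
  -- every nontrivial member contributes a multiple of `q`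
  have key : ∀ χ ∈ Cfsg.principalBlock M G, χ ≠ Helper79.trivIrr G →
      ∃ z : Cfsg.AlgInt, (χ : G → ℂ) 1 * conj ((χ : G → ℂ) g) = (q : ℂ) * (z : ℂ) := by
    intro χ hχ hne
    have hd := Helper81.charDegree_dvd_card χ
    have h1 := Helper81.irr_one_eq_charDegree χ
    have hint : IsIntegral ℤ (conj ((χ : G → ℂ) g)) := by
      rw [← Helper77.irr_inv]; exact Helper81.irr_isIntegral χ g⁻¹
    by_cases hq' : q ∣ Cfsg.charDegree (χ : G → ℂ)
    · obtain ⟨c, hc⟩ := hq'
      refine ⟨⟨(c : ℂ) * conj ((χ : G → ℂ) g), ?_⟩, ?_⟩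
      · exact IsIntegral.mul (isIntegral_natCast c) hint
      · rw [h1, hc]; push_cast; ring
    · by_cases hr' : r ∣ Cfsg.charDegree (χ : G → ℂ)
      · have hz := Helper80.irr_eq_zero_of_defect_zero χ r hr
          (by rw [hfac, pow_one]; exact hr') g hgr
        exact ⟨0, by rw [hz]; simp⟩
      · exfalso
        rw [hcard] at hd
        have hd1 : Cfsg.charDegree (χ : G → ℂ) ∣ p ^ a * q ^ b :=
          Nat.Coprime.dvd_of_dvd_mul_right
            (((Nat.Prime.coprime_iff_not_dvd hr).2 hr').symm) hd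
        have hd2 : Cfsg.charDegree (χ : G → ℂ) ∣ p ^ a :=
          Nat.Coprime.dvd_of_dvd_mul_right
            (Nat.Coprime.pow_right b ((Nat.Prime.coprime_iff_not_dvd hq).2 hq').symm) hd1
        obtain ⟨k, -, hk⟩ := (Nat.dvd_prime_pow hp).1 hd2
        have hdeg : (χ : G → ℂ) 1 = (p : ℂ) ^ k := by rw [h1, hk]; push_cast; rfl
        have h10 := Cfsg.Agent.S0910.result p M hM hna χ hχ k hdeg
        exact hne (Subtype.ext h10)
  rw [finsum_mem_eq_finite_toFinset_sum _ (Set.toFinite _)] at h0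
  have hmem : Helper79.trivIrr G ∈ (Set.toFinite (Cfsg.principalBlock M G)).toFinset := by
    rw [Set.Finite.mem_toFinset]; exact htriv
  rw [← Finset.add_sum_erase _ _ hmem] at h0
  have hsum : ∃ z : Cfsg.AlgInt,
      ∑ χ ∈ (Set.toFinite (Cfsg.principalBlock M G)).toFinset.erase (Helper79.trivIrr G),
        (χ : G → ℂ) 1 * conj ((χ : G → ℂ) g) = (q : ℂ) * (z : ℂ) := by
    refine Finset.sum_induction _ (fun c => ∃ z : Cfsg.AlgInt, c = (q : ℂ) * (z : ℂ)) ?_ ?_ ?_
    · rintro c d ⟨z, rfl⟩ ⟨w, rfl⟩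
      exact ⟨z + w, by push_cast; ring⟩
    · exact ⟨0, by simp⟩
    · intro χ hχ
      rw [Finset.mem_erase, Set.Finite.mem_toFinset] at hχ
      exact key χ hχ.2 hχ.1
  obtain ⟨z, hz⟩ := hsum
  rw [hz] at h0
  simp only [Helper79.trivIrr_apply, map_one, mul_one] at h0
  have h1 : (q : Cfsg.AlgInt) * z = -1 := by
    apply Subtype.ext
    push_cast
    linear_combination h0
  have h2 : (1 : Cfsg.AlgInt) ∈ M' := by
    have h3 : (q : Cfsg.AlgInt) * z ∈ M' := M'.mul_mem_right _ hM'.2.2
    rw [h1] at h3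
    simpa using M'.neg_mem h3
  exact (Ideal.ne_top_iff_one M').1 hM'.2.1.ne_top h2

/-- Let G be a finite simple group of order p ^ a * q ^ b * r with p, q, r distinct primes. Then every Sylow r-subgroup S of G satisfies C_G(S) = S. -/
theorem result {G : Type*} [Group G] [Finite G] [IsSimpleGroup G] (p q r a b : ℕ) (hp : p.Prime) (hq : q.Prime) [Fact r.Prime] (hpq : p ≠ q) (hpr : p ≠ r) (hqr : q ≠ r) (hcard : Nat.card G = p ^ a * q ^ b * r) (S : Sylow r G) : Subgroup.centralizer (S : Set G) = (S : Subgroup G) := by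
  classical
  have hr : r.Prime := Fact.out
  have hfac : (Nat.card G).factorization r = 1 := by
    rw [hcard]; exact s0904_fac p q r a b hp hq hr hpr hqr
  have hS : Nat.card (S : Subgroup G) = r := by
    rw [Sylow.card_eq_multiplicity, hfac, pow_one]
  have hScyc : IsCyclic (S : Subgroup G) := isCyclic_of_prime_card (p := r) hS
  have hScomm : ∀ u ∈ (S : Subgroup G), ∀ v ∈ (S : Subgroup G), u * v = v * u := by
    intro u hu v hv
    have hc := (IsCyclic.commGroup (α := (S : Subgroup G))).mul_comm ⟨u, hu⟩ ⟨v, hv⟩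
    exact congrArg Subtype.val hc
  have hSH : (S : Subgroup G) ≤ Subgroup.centralizer (S : Set G) := fun u hu =>
    Subgroup.mem_centralizer_iff.2 (fun v hv => hScomm v hv u hu)
  by_cases hna : ∃ a b : G, a * b ≠ b * a
  · refine le_antisymm ?_ hSH
    by_contra hle
    have h1 : Nat.card (S : Subgroup G) ∣ Nat.card (Subgroup.centralizer (S : Set G)) :=
      Subgroup.card_dvd_of_le hSH
    have h2 : Nat.card (Subgroup.centralizer (S : Set G)) ∣ Nat.card G :=
      Subgroup.card_subgroup_dvd_card _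
    obtain ⟨m, hm⟩ := h1
    rw [hS] at hm
    have hm1 : m ≠ 1 := by
      rintro rfl
      apply hle
      have h3 : (S : Subgroup G) = Subgroup.centralizer (S : Set G) :=
        Subgroup.eq_of_le_of_card_ge hSH (by rw [hm, hS, mul_one])
      rw [← h3]
    have hmdvd : m ∣ p ^ a * q ^ b := by
      have h3 : r * m ∣ r * (p ^ a * q ^ b) := by
        rw [← hm, mul_comm r, ← hcard]; exact h2
      exact (Nat.mul_dvd_mul_iff_left hr.pos).1 h3
    obtain ⟨l, hl, hlm⟩ := Nat.exists_prime_and_dvd hm1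
    have hlH : l ∣ Nat.card (Subgroup.centralizer (S : Set G)) := by
      rw [hm]; exact Dvd.dvd.mul_left hlm _
    haveI : Fact l.Prime := ⟨hl⟩
    obtain ⟨y, hy⟩ := exists_prime_orderOf_dvd_card' l hlH
    obtain ⟨x, hx⟩ := exists_prime_orderOf_dvd_card' (G := (S : Subgroup G)) r (by rw [hS])
    have hcomm : Commute (x : G) (y : G) := Subgroup.mem_centralizer_iff.1 y.2 x x.2
    have hox : orderOf (x : G) = r := by rw [Subgroup.orderOf_coe]; exact hx
    have hoy : orderOf (y : G) = l := by rw [Subgroup.orderOf_coe]; exact hy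
    have hlpq : l = p ∨ l = q := by
      rcases (Nat.Prime.dvd_mul hl).1 (hlm.trans hmdvd) with h | h
      · exact Or.inl ((Nat.prime_dvd_prime_iff_eq hl hp).1 (hl.dvd_of_dvd_pow h))
      · exact Or.inr ((Nat.prime_dvd_prime_iff_eq hl hq).1 (hl.dvd_of_dvd_pow h))
    have hlr : l ≠ r := by
      rcases hlpq with h | h
      · rw [h]; exact hpr
      · rw [h]; exact hqr
    have hord : orderOf ((x : G) * (y : G)) = r * l := by
      rw [hcomm.orderOf_mul_eq_mul_orderOf_of_coprime
        (by rw [hox, hoy]; exact (Nat.coprime_primes hr hl).2 (Ne.symm hlr)), hox, hoy]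
    have hdr : r ∣ orderOf ((x : G) * (y : G)) := by rw [hord]; exact Dvd.intro _ rfl
    have hdl : l ∣ orderOf ((x : G) * (y : G)) := by rw [hord]; exact Dvd.intro_left _ rfl
    rcases hlpq with h | h
    · subst h
      exact s0904_no_pr hna l q r a b hl hq hr hpr hqr hcard _ hdl hdr
    · subst h
      exact s0904_no_pr hna l p r b a hl hp hr hqr hpr
        (by rw [hcard]; ring) _ hdl hdr
  · push_neg at hna
    have hnorm : (S : Subgroup G).Normal :=
      ⟨fun n hn g => by rw [hna g n, mul_inv_cancel_right]; exact hn⟩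
    rcases hnorm.eq_bot_or_eq_top with h | h
    · exfalso
      rw [h, Subgroup.card_bot] at hS
      exact hr.one_lt.ne hS
    · rw [h]
      ext z
      simp only [Subgroup.mem_centralizer_iff, Subgroup.mem_top, iff_true]
      intro w _
      exact hna w z

end Cfsg.Agent.S0904
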