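import Cfsg.Statements.S0493
import Cfsg.Agent.Helper41.SmallSimple2

set_option autoImplicit false
open Cfsg

namespace Cfsg.Agent.S0493

theorem small_cases (n : ℕ) (h1 : 1 ≤ n) (h : n ≤ 100) :
    n = 1 ∨ n = 60 ∨ n = 84 ∨ n % 4 = 2 ∨
      ∃ a b i j : ℕ, a.Prime ∧ b.Prime ∧ n = a ^ i * b ^ j := by
  interval_cases n
  · exact Or.inl rfl
  · exact Or.inr (Or.inr (Or.inr (Or.inl rfl)))
  · exact Or.inr (Or.inr (Or.inr (Or.inr ⟨3, 2, 1, 0, by norm_num, by norm_num, by norm_num⟩)))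
  · exact Or.inr (Or.inr (Or.inr (Or.inr ⟨2, 2, 2, 0, by norm_num, by norm_num, by norm_num⟩)))
  · exact Or.inr (Or.inr (Or.inr (Or.inr ⟨5, 2, 1, 0, by norm_num, by norm_num, by norm_num⟩)))
  · exact Or.inr (Or.inr (Or.inr (Or.inl rfl)))
  · exact Or.inr (Or.inr (Or.inr (Or.inr ⟨7, 2, 1, 0, by norm_num, by norm_num, by norm_num⟩)))
  · exact Or.inr (Or.inr (Or.inr (Or.inr ⟨2, 2, 3, 0, by norm_num, by norm_num, by norm_num⟩)))
  · exact Or.inr (Or.inr (Or.inr (Or.inr ⟨3, 2, 2, 0, by norm_num, by norm_num, by norm_num⟩)))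
  · exact Or.inr (Or.inr (Or.inr (Or.inl rfl)))
  · exact Or.inr (Or.inr (Or.inr (Or.inr ⟨11, 2, 1, 0, by norm_num, by norm_num, by norm_num⟩)))
  · exact Or.inr (Or.inr (Or.inr (Or.inr ⟨2, 3, 2, 1, by norm_num, by norm_num, by norm_num⟩)))
  · exact Or.inr (Or.inr (Or.inr (Or.inr ⟨13, 2, 1, 0, by norm_num, by norm_num, by norm_num⟩)))
  · exact Or.inr (Or.inr (Or.inr (Or.inl rfl)))
  · exact Or.inr (Or.inr (Or.inr (Or.inr ⟨3, 5, 1, 1, by norm_num, by norm_num, by norm_num⟩)))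
  · exact Or.inr (Or.inr (Or.inr (Or.inr ⟨2, 2, 4, 0, by norm_num, by norm_num, by norm_num⟩)))
  · exact Or.inr (Or.inr (Or.inr (Or.inr ⟨17, 2, 1, 0, by norm_num, by norm_num, by norm_num⟩)))
  · exact Or.inr (Or.inr (Or.inr (Or.inl rfl)))
  · exact Or.inr (Or.inr (Or.inr (Or.inr ⟨19, 2, 1, 0, by norm_num, by norm_num, by norm_num⟩)))
  · exact Or.inr (Or.inr (Or.inr (Or.inr ⟨2, 5, 2, 1, by norm_num, by norm_num, by norm_num⟩)))
  · exact Or.inr (Or.inr (Or.inr (Or.inr ⟨3, 7, 1, 1, by norm_num, by norm_num, by norm_num⟩)))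
  · exact Or.inr (Or.inr (Or.inr (Or.inl rfl)))
  · exact Or.inr (Or.inr (Or.inr (Or.inr ⟨23, 2, 1, 0, by norm_num, by norm_num, by norm_num⟩)))
  · exact Or.inr (Or.inr (Or.inr (Or.inr ⟨2, 3, 3, 1, by norm_num, by norm_num, by norm_num⟩)))
  · exact Or.inr (Or.inr (Or.inr (Or.inr ⟨5, 2, 2, 0, by norm_num, by norm_num, by norm_num⟩)))
  · exact Or.inr (Or.inr (Or.inr (Or.inl rfl)))
  · exact Or.inr (Or.inr (Or.inr (Or.inr ⟨3, 2, 3, 0, by norm_num, by norm_num, by norm_num⟩)))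
  · exact Or.inr (Or.inr (Or.inr (Or.inr ⟨2, 7, 2, 1, by norm_num, by norm_num, by norm_num⟩)))
  · exact Or.inr (Or.inr (Or.inr (Or.inr ⟨29, 2, 1, 0, by norm_num, by norm_num, by norm_num⟩)))
  · exact Or.inr (Or.inr (Or.inr (Or.inl rfl)))
  · exact Or.inr (Or.inr (Or.inr (Or.inr ⟨31, 2, 1, 0, by norm_num, by norm_num, by norm_num⟩)))
  · exact Or.inr (Or.inr (Or.inr (Or.inr ⟨2, 2, 5, 0, by norm_num, by norm_num, by norm_num⟩)))
  · exact Or.inr (Or.inr (Or.inr (Or.inr ⟨3, 11, 1, 1, by norm_num, by norm_num, by norm_num⟩)))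
  · exact Or.inr (Or.inr (Or.inr (Or.inl rfl)))
  · exact Or.inr (Or.inr (Or.inr (Or.inr ⟨5, 7, 1, 1, by norm_num, by norm_num, by norm_num⟩)))
  · exact Or.inr (Or.inr (Or.inr (Or.inr ⟨2, 3, 2, 2, by norm_num, by norm_num, by norm_num⟩)))
  · exact Or.inr (Or.inr (Or.inr (Or.inr ⟨37, 2, 1, 0, by norm_num, by norm_num, by norm_num⟩)))
  · exact Or.inr (Or.inr (Or.inr (Or.inl rfl)))
  · exact Or.inr (Or.inr (Or.inr (Or.inr ⟨3, 13, 1, 1, by norm_num, by norm_num, by norm_num⟩)))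
  · exact Or.inr (Or.inr (Or.inr (Or.inr ⟨2, 5, 3, 1, by norm_num, by norm_num, by norm_num⟩)))
  · exact Or.inr (Or.inr (Or.inr (Or.inr ⟨41, 2, 1, 0, by norm_num, by norm_num, by norm_num⟩)))
  · exact Or.inr (Or.inr (Or.inr (Or.inl rfl)))
  · exact Or.inr (Or.inr (Or.inr (Or.inr ⟨43, 2, 1, 0, by norm_num, by norm_num, by norm_num⟩)))
  · exact Or.inr (Or.inr (Or.inr (Or.inr ⟨2, 11, 2, 1, by norm_num, by norm_num, by norm_num⟩)))
  · exact Or.inr (Or.inr (Or.inr (Or.inr ⟨3, 5, 2, 1, by norm_num, by norm_num, by norm_num⟩)))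
  · exact Or.inr (Or.inr (Or.inr (Or.inl rfl)))
  · exact Or.inr (Or.inr (Or.inr (Or.inr ⟨47, 2, 1, 0, by norm_num, by norm_num, by norm_num⟩)))
  · exact Or.inr (Or.inr (Or.inr (Or.inr ⟨2, 3, 4, 1, by norm_num, by norm_num, by norm_num⟩)))
  · exact Or.inr (Or.inr (Or.inr (Or.inr ⟨7, 2, 2, 0, by norm_num, by norm_num, by norm_num⟩)))
  · exact Or.inr (Or.inr (Or.inr (Or.inl rfl)))
  · exact Or.inr (Or.inr (Or.inr (Or.inr ⟨3, 17, 1, 1, by norm_num, by norm_num, by norm_num⟩)))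
  · exact Or.inr (Or.inr (Or.inr (Or.inr ⟨2, 13, 2, 1, by norm_num, by norm_num, by norm_num⟩)))
  · exact Or.inr (Or.inr (Or.inr (Or.inr ⟨53, 2, 1, 0, by norm_num, by norm_num, by norm_num⟩)))
  · exact Or.inr (Or.inr (Or.inr (Or.inl rfl)))
  · exact Or.inr (Or.inr (Or.inr (Or.inr ⟨5, 11, 1, 1, by norm_num, by norm_num, by norm_num⟩)))
  · exact Or.inr (Or.inr (Or.inr (Or.inr ⟨2, 7, 3, 1, by norm_num, by norm_num, by norm_num⟩)))
  · exact Or.inr (Or.inr (Or.inr (Or.inr ⟨3, 19, 1, 1, by norm_num, by norm_num, by norm_num⟩)))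
  · exact Or.inr (Or.inr (Or.inr (Or.inl rfl)))
  · exact Or.inr (Or.inr (Or.inr (Or.inr ⟨59, 2, 1, 0, by norm_num, by norm_num, by norm_num⟩)))
  · exact Or.inr (Or.inl rfl)
  · exact Or.inr (Or.inr (Or.inr (Or.inr ⟨61, 2, 1, 0, by norm_num, by norm_num, by norm_num⟩)))
  · exact Or.inr (Or.inr (Or.inr (Or.inl rfl)))
  · exact Or.inr (Or.inr (Or.inr (Or.inr ⟨3, 7, 2, 1, by norm_num, by norm_num, by norm_num⟩)))
  · exact Or.inr (Or.inr (Or.inr (Or.inr ⟨2, 2, 6, 0, by norm_num, by norm_num, by norm_num⟩)))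
  · exact Or.inr (Or.inr (Or.inr (Or.inr ⟨5, 13, 1, 1, by norm_num, by norm_num, by norm_num⟩)))
  · exact Or.inr (Or.inr (Or.inr (Or.inl rfl)))
  · exact Or.inr (Or.inr (Or.inr (Or.inr ⟨67, 2, 1, 0, by norm_num, by norm_num, by norm_num⟩)))
  · exact Or.inr (Or.inr (Or.inr (Or.inr ⟨2, 17, 2, 1, by norm_num, by norm_num, by norm_num⟩)))
  · exact Or.inr (Or.inr (Or.inr (Or.inr ⟨3, 23, 1, 1, by norm_num, by norm_num, by norm_num⟩)))
  · exact Or.inr (Or.inr (Or.inr (Or.inl rfl)))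
  · exact Or.inr (Or.inr (Or.inr (Or.inr ⟨71, 2, 1, 0, by norm_num, by norm_num, by norm_num⟩)))
  · exact Or.inr (Or.inr (Or.inr (Or.inr ⟨2, 3, 3, 2, by norm_num, by norm_num, by norm_num⟩)))
  · exact Or.inr (Or.inr (Or.inr (Or.inr ⟨73, 2, 1, 0, by norm_num, by norm_num, by norm_num⟩)))
  · exact Or.inr (Or.inr (Or.inr (Or.inl rfl)))
  · exact Or.inr (Or.inr (Or.inr (Or.inr ⟨3, 5, 1, 2, by norm_num, by norm_num, by norm_num⟩)))
  · exact Or.inr (Or.inr (Or.inr (Or.inr ⟨2, 19, 2, 1, by norm_num, by norm_num, by norm_num⟩)))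
  · exact Or.inr (Or.inr (Or.inr (Or.inr ⟨7, 11, 1, 1, by norm_num, by norm_num, by norm_num⟩)))
  · exact Or.inr (Or.inr (Or.inr (Or.inl rfl)))
  · exact Or.inr (Or.inr (Or.inr (Or.inr ⟨79, 2, 1, 0, by norm_num, by norm_num, by norm_num⟩)))
  · exact Or.inr (Or.inr (Or.inr (Or.inr ⟨2, 5, 4, 1, by norm_num, by norm_num, by norm_num⟩)))
  · exact Or.inr (Or.inr (Or.inr (Or.inr ⟨3, 2, 4, 0, by norm_num, by norm_num, by norm_num⟩)))
  · exact Or.inr (Or.inr (Or.inr (Or.inl rfl)))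
  · exact Or.inr (Or.inr (Or.inr (Or.inr ⟨83, 2, 1, 0, by norm_num, by norm_num, by norm_num⟩)))
  · exact Or.inr (Or.inr (Or.inl rfl))
  · exact Or.inr (Or.inr (Or.inr (Or.inr ⟨5, 17, 1, 1, by norm_num, by norm_num, by norm_num⟩)))
  · exact Or.inr (Or.inr (Or.inr (Or.inl rfl)))
  · exact Or.inr (Or.inr (Or.inr (Or.inr ⟨3, 29, 1, 1, by norm_num, by norm_num, by norm_num⟩)))
  · exact Or.inr (Or.inr (Or.inr (Or.inr ⟨2, 11, 3, 1, by norm_num, by norm_num, by norm_num⟩)))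
  · exact Or.inr (Or.inr (Or.inr (Or.inr ⟨89, 2, 1, 0, by norm_num, by norm_num, by norm_num⟩)))
  · exact Or.inr (Or.inr (Or.inr (Or.inl rfl)))
  · exact Or.inr (Or.inr (Or.inr (Or.inr ⟨7, 13, 1, 1, by norm_num, by norm_num, by norm_num⟩)))
  · exact Or.inr (Or.inr (Or.inr (Or.inr ⟨2, 23, 2, 1, by norm_num, by norm_num, by norm_num⟩)))
  · exact Or.inr (Or.inr (Or.inr (Or.inr ⟨3, 31, 1, 1, by norm_num, by norm_num, by norm_num⟩)))
  · exact Or.inr (Or.inr (Or.inr (Or.inl rfl)))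
  · exact Or.inr (Or.inr (Or.inr (Or.inr ⟨5, 19, 1, 1, by norm_num, by norm_num, by norm_num⟩)))
  · exact Or.inr (Or.inr (Or.inr (Or.inr ⟨2, 3, 5, 1, by norm_num, by norm_num, by norm_num⟩)))
  · exact Or.inr (Or.inr (Or.inr (Or.inr ⟨97, 2, 1, 0, by norm_num, by norm_num, by norm_num⟩)))
  · exact Or.inr (Or.inr (Or.inr (Or.inl rfl)))
  · exact Or.inr (Or.inr (Or.inr (Or.inr ⟨3, 11, 2, 1, by norm_num, by norm_num, by norm_num⟩)))
  · exact Or.inr (Or.inr (Or.inr (Or.inr ⟨2, 5, 2, 2, by norm_num, by norm_num, by norm_num⟩)))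

/-- A finite simple group of order at most 100 that is not cyclic has order 60. -/
theorem result {G : Type*} [Group G] [Finite G] [IsSimpleGroup G]
    (hG : ¬ IsCyclic G) (h : Nat.card G ≤ 100) : Nat.card G = 60 := by
  classical
  have hnp : ¬ (Nat.card G).Prime := fun hp => hG (by
    have := Fact.mk hp
    exact isCyclic_of_prime_card rfl)
  have hns := Cfsg.Agent.Helper41.not_solvable_of_not_prime hnp
  rcases small_cases (Nat.card G) Nat.card_pos h with h1 | h60 | h84 | h2 | ⟨a, b, i, j, ha, hb, hn⟩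
  · exfalso
    apply hG
    have := (Nat.card_eq_one_iff_unique.mp h1).1
    infer_instance
  · exact h60
  · exact Cfsg.Agent.Helper41.card_eq_sixty_of_sq_mul_mul 2 3 7 (by norm_num) (by norm_num)
      (by norm_num) (h84.trans (by norm_num))
  · exfalso
    have hmin : (Nat.card G).minFac = 2 := (Nat.minFac_eq_two_iff _).mpr (by omega)
    have := Fact.mk Nat.prime_two
    let S : Sylow 2 G := default
    apply Cfsg.Agent.Helper41.not_isCyclic_sylow_minFac hns hmin S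
    have hc := S.card_eq_multiplicity
    have hd := Nat.ordProj_dvd (Nat.card G) 2
    have hv : (Nat.card G).factorization 2 = 1 := by
      have h1 : 0 < (Nat.card G).factorization 2 :=
        Nat.Prime.factorization_pos_of_dvd Nat.prime_two (Nat.card_pos.ne') (by omega)
      by_contra hne
      have h2' : 2 ≤ (Nat.card G).factorization 2 := by omega
      have : 2 ^ 2 ∣ Nat.card G := (pow_dvd_pow 2 h2').trans hd
      omega
    rw [hv, pow_one] at hc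
    exact isCyclic_of_prime_card hc
  · exact absurd (Cfsg.Agent.Helper3.isSolvable_of_card_eq a b i j ha hb hn) hns

end Cfsg.Agent.S0493
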