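import Mathlib
import Cfsg.Statements.S3918
import Cfsg.Agent.S0126
import Cfsg.Agent.S3771

set_option autoImplicit false
open Cfsg

namespace Cfsg.Agent.S3918

open Cfsg.Agent.S0126

/-- structure of a normal subgroup of order `p^2` in a `p`-group. -/
theorem normal_p_sq_struct {G : Type*} [Group G] [Finite G] {p : ℕ} [Fact p.Prime]
    (hP : IsPGroup p G) (A : Subgroup G) [hAn : A.Normal] (hAcard : Nat.card A = p ^ 2) :
    ∃ z ∈ A, z ∈ Subgroup.center G ∧ orderOf z = p ∧
      (∀ x ∈ A, ∀ g : G, g * x * g⁻¹ * x⁻¹ ∈ Subgroup.zpowers z) ∧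
      (∀ x₀ ∈ A, x₀ ∉ Subgroup.zpowers z → ∀ a ∈ A, ∃ k : ℤ, (x₀ ^ k)⁻¹ * a ∈ Subgroup.zpowers z) := by
  have hpp : p.Prime := Fact.out
  have hAne : A ≠ ⊥ := by
    intro h
    rw [h, Subgroup.card_bot] at hAcard
    have := hpp.two_le
    nlinarith
  obtain ⟨z, hzA, hzc, hzo⟩ := exists_central_order_p hP A hAne
  have hZc : Subgroup.zpowers z ≤ Subgroup.center G := Subgroup.zpowers_le.mpr hzc
  have hZA : Subgroup.zpowers z ≤ A := Subgroup.zpowers_le.mpr hzA
  have hZn : (Subgroup.zpowers z).Normal := by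
    constructor
    intro x hx g
    have := Subgroup.mem_center_iff.mp (hZc hx) g
    rw [this]; simpa using hx
  have hZcard : Nat.card (Subgroup.zpowers z) = p := by rw [Nat.card_zpowers, hzo]
  have hmk1 : ∀ x : G, (QuotientGroup.mk' (Subgroup.zpowers z) x = 1) ↔ x ∈ Subgroup.zpowers z :=
    fun x => by rw [QuotientGroup.mk'_apply, QuotientGroup.eq_one_iff]
  obtain ⟨Ab, hAb⟩ : ∃ Ab : Subgroup (G ⧸ Subgroup.zpowers z),
      Ab = A.map (QuotientGroup.mk' (Subgroup.zpowers z)) := ⟨_, rfl⟩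
  have hAbn : Ab.Normal := by
    rw [hAb]; exact hAn.map _ (QuotientGroup.mk'_surjective _)
  have hAbc : Ab.comap (QuotientGroup.mk' (Subgroup.zpowers z)) = A := by
    rw [hAb]
    apply Subgroup.comap_map_eq_self
    rw [QuotientGroup.ker_mk']; exact hZA
  have hAbcard : Nat.card Ab = p := by
    have h1 := card_comap_mk (Subgroup.zpowers z) Ab
    rw [hAbc, hAcard, hZcard] at h1
    have : p * p = Nat.card Ab * p := by rw [← h1]; ring
    exact (Nat.eq_of_mul_eq_mul_right hpp.pos this).symm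
  have hAbne : Ab ≠ ⊥ := by
    intro h
    rw [h, Subgroup.card_bot] at hAbcard
    exact hpp.one_lt.ne hAbcard
  obtain ⟨w, hwA, hwc, hwo⟩ :=
    exists_central_order_p (hP.to_quotient (Subgroup.zpowers z)) Ab hAbne
  have hwAb : Subgroup.zpowers w = Ab := by
    apply Subgroup.eq_of_le_of_card_ge (Subgroup.zpowers_le.mpr hwA)
    rw [hAbcard, Nat.card_zpowers, hwo]
  refine ⟨z, hzA, hzc, hzo, ?_, ?_⟩
  · intro x hx g
    have hxb : QuotientGroup.mk' (Subgroup.zpowers z) x ∈ Subgroup.center (G ⧸ Subgroup.zpowers z) := by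
      have : QuotientGroup.mk' (Subgroup.zpowers z) x ∈ Ab := by
        rw [hAb]; exact Subgroup.mem_map_of_mem _ hx
      rw [← hwAb] at this
      exact (Subgroup.zpowers_le.mpr hwc) this
    have h1 := Subgroup.mem_center_iff.mp hxb (QuotientGroup.mk' (Subgroup.zpowers z) g)
    rw [← hmk1, map_mul, map_mul, map_mul, map_inv, map_inv, h1]; group
  · intro x₀ hx₀A hx₀Z a ha
    have hx₀b : QuotientGroup.mk' (Subgroup.zpowers z) x₀ ∈ Ab := by
      rw [hAb]; exact Subgroup.mem_map_of_mem _ hx₀A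
    have hgen : Subgroup.zpowers (QuotientGroup.mk' (Subgroup.zpowers z) x₀) = Ab := by
      apply Subgroup.eq_of_le_of_card_ge (Subgroup.zpowers_le.mpr hx₀b)
      rw [hAbcard, Nat.card_zpowers]
      have hne : QuotientGroup.mk' (Subgroup.zpowers z) x₀ ≠ 1 := fun h => hx₀Z ((hmk1 x₀).mp h)
      have hdvd : orderOf (QuotientGroup.mk' (Subgroup.zpowers z) x₀) ∣ p := by
        have h1 : (⟨_, hx₀b⟩ : Ab) ^ Nat.card Ab = 1 := pow_card_eq_one'
        rw [hAbcard] at h1
        apply orderOf_dvd_of_pow_eq_one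
        exact congrArg Subtype.val h1
      rcases (Nat.dvd_prime hpp).mp hdvd with h2 | h2
      · exact absurd (orderOf_eq_one_iff.mp h2) hne
      · exact le_of_eq h2.symm
    have hab : QuotientGroup.mk' (Subgroup.zpowers z) a ∈
        Subgroup.zpowers (QuotientGroup.mk' (Subgroup.zpowers z) x₀) := by
      rw [hgen, hAb]; exact Subgroup.mem_map_of_mem _ ha
    obtain ⟨k, hk⟩ := Subgroup.mem_zpowers_iff.mp hab
    refine ⟨k, ?_⟩
    rw [← hmk1, map_mul, map_inv, map_zpow, hk, inv_mul_cancel]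

/-- Say that a group has self-centralizing non-cyclic subgroups when every non-cyclic subgroup H satisfies C_G(H) ≤ H. For an odd prime p, a finite non-abelian p-group has self-centralizing non-cyclic subgroups if and only if it has order p³. -/
theorem result {G : Type*} [Group G] [Finite G] {p : ℕ} [Fact p.Prime] (hp : p ≠ 2) (hG : IsPGroup p G) (hna : ¬ IsMulCommutative G) :
    (∀ H : Subgroup G, ¬ IsCyclic ↥H → Subgroup.centralizer (H : Set G) ≤ H) ↔ Nat.card G = p ^ 3 := by
  have hpp : p.Prime := Fact.out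
  obtain ⟨n, hn⟩ := IsPGroup.iff_card.mp hG
  have hn3 : 3 ≤ n := by
    by_contra h
    apply hna
    have hn' : n = 0 ∨ n = 1 ∨ n = 2 := by omega
    rcases hn' with h0 | h1 | h2
    · rw [h0, pow_zero] at hn
      have : Subsingleton G := (Nat.card_eq_one_iff_unique.mp hn).1
      exact ⟨⟨fun a b => Subsingleton.elim _ _⟩⟩
    · rw [h1, pow_one] at hn
      have : IsCyclic G := isCyclic_of_prime_card hn
      exact IsCyclic.isMulCommutative
    · rw [h2] at hn
      exact IsPGroup.isMulCommutative_of_card_eq_prime_sq hn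
  constructor
  · intro hH
    have hnc : ¬ IsCyclic G := fun h => hna IsCyclic.isMulCommutative
    obtain ⟨A, hAn, ⟨hAc, hAp⟩, hAcard⟩ := Cfsg.Agent.S0126.result hp hG hnc
    have hAnc : ¬ IsCyclic A := by
      intro hcyc
      obtain ⟨g, hg⟩ := hcyc.exists_generator
      have h1 : orderOf g = Nat.card A := orderOf_eq_card_of_forall_mem_zpowers hg
      have h2 : g ^ p = 1 := Subtype.ext (by simpa using hAp g.1 g.2)
      have h3 := orderOf_dvd_of_pow_eq_one h2
      rw [h1, hAcard] at h3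
      have h4 := Nat.le_of_dvd hpp.pos h3
      have := hpp.two_le
      nlinarith
    have hCA := hH A hAnc
    obtain ⟨z, hzA, hzc, hzo, hPA, hdec⟩ := normal_p_sq_struct hG A hAcard
    have hZc : Subgroup.zpowers z ≤ Subgroup.center G := Subgroup.zpowers_le.mpr hzc
    have hZcard : Nat.card (Subgroup.zpowers z) = p := by rw [Nat.card_zpowers, hzo]
    obtain ⟨x₀, hx₀A, hx₀Z⟩ : ∃ x₀ ∈ A, x₀ ∉ Subgroup.zpowers z := by
      by_contra h
      push Not at h
      have h1 : A ≤ Subgroup.zpowers z := h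
      have h2 := Subgroup.card_le_of_le h1
      rw [hAcard, hZcard] at h2
      have := hpp.two_le
      nlinarith
    have hcw : ∀ g : G, g * x₀ * g⁻¹ * x₀⁻¹ ∈ Subgroup.zpowers z := hPA x₀ hx₀A
    let φ : G →* Subgroup.zpowers z := MonoidHom.mk' (fun g => ⟨g * x₀ * g⁻¹ * x₀⁻¹, hcw g⟩) (by
      intro g h
      apply Subtype.ext
      simp only [Subgroup.coe_mul]
      have hc := Subgroup.mem_center_iff.mp (hZc (hcw h))
      calc g * h * x₀ * (g * h)⁻¹ * x₀⁻¹ = g * (h * x₀ * h⁻¹ * x₀⁻¹) * x₀ * g⁻¹ * x₀⁻¹ := by group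
        _ = (h * x₀ * h⁻¹ * x₀⁻¹) * g * x₀ * g⁻¹ * x₀⁻¹ := by rw [hc g]
        _ = (h * x₀ * h⁻¹ * x₀⁻¹) * (g * x₀ * g⁻¹ * x₀⁻¹) := by group
        _ = (g * x₀ * g⁻¹ * x₀⁻¹) * (h * x₀ * h⁻¹ * x₀⁻¹) := (hc _).symm)
    have hφ : ∀ g : G, ((φ g : Subgroup.zpowers z) : G) = g * x₀ * g⁻¹ * x₀⁻¹ := fun g => rfl
    have hker : ∀ g : G, g ∈ φ.ker → g * x₀ = x₀ * g := by
      intro g hg
      rw [MonoidHom.mem_ker] at hg
      have h1 := hφ g
      rw [hg] at h1
      calc g * x₀ = (g * x₀ * g⁻¹ * x₀⁻¹) * x₀ * g := by group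
        _ = x₀ * g := by rw [← h1]; simp
    have hidx : φ.ker.index ≤ p := by
      rw [Subgroup.index_ker]
      have hd : Nat.card φ.range ∣ p := hZcard ▸ Subgroup.card_subgroup_dvd_card φ.range
      exact Nat.le_of_dvd hpp.pos hd
    have hkerA : φ.ker ≤ A := by
      intro x hx
      have hxw := hker x hx
      apply hCA
      rw [Subgroup.mem_centralizer_iff]
      intro a ha
      obtain ⟨k, hk⟩ := hdec x₀ hx₀A hx₀Z a ha
      have hc := Subgroup.mem_center_iff.mp (hZc hk)
      have ea : a = x₀ ^ k * ((x₀ ^ k)⁻¹ * a) := by group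
      have hxwk : x * x₀ ^ k = x₀ ^ k * x := (Commute.zpow_right (show Commute x x₀ from hxw) k).eq
      rw [ea, mul_assoc, ← hc x, ← mul_assoc, ← hxwk, mul_assoc]
    have h1 := Subgroup.card_mul_index φ.ker
    have h2 := Subgroup.card_le_of_le hkerA
    rw [hAcard] at h2
    rw [hn] at h1
    have h3 : p ^ n ≤ p ^ 2 * p := by
      rw [← h1]; exact Nat.mul_le_mul h2 hidx
    have h4 : p ^ n ≤ p ^ 3 := by
      have : p ^ 3 = p ^ 2 * p := by ring
      rw [this]; exact h3
    have h5 : n ≤ 3 := (Nat.pow_le_pow_iff_right hpp.one_lt).mp h4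
    rw [hn]
    congr 1
    omega
  · intro hcard H hHnc x hx
    by_contra hxH
    obtain ⟨k, hk⟩ := IsPGroup.iff_card.mp (hG.to_subgroup H)
    have hk3 : k ≤ 3 := by
      have h1 := Subgroup.card_le_card_group H
      rw [hk, hcard] at h1
      exact (Nat.pow_le_pow_iff_right hpp.one_lt).mp h1
    have hk' : k = 0 ∨ k = 1 ∨ k = 2 ∨ k = 3 := by omega
    rcases hk' with h0 | h1 | h2 | h3
    · rw [h0, pow_zero] at hk
      have : Subsingleton H := (Nat.card_eq_one_iff_unique.mp hk).1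
      exact hHnc isCyclic_of_subsingleton
    · rw [h1, pow_one] at hk
      exact hHnc (isCyclic_of_prime_card hk)
    · rw [h2] at hk
      have hHc : IsMulCommutative H := IsPGroup.isMulCommutative_of_card_eq_prime_sq hk
      obtain ⟨A, hAc, hA⟩ := Cfsg.Agent.S3771.exists_comm_subgroup ((H : Set G) ∪ {x}) (by
        have hHx : ∀ a ∈ H, a * x = x * a := by
          intro a ha
          exact Subgroup.mem_centralizer_iff.mp hx a ha
        rintro a (ha | ha) b (hb | hb)
        · exact congrArg Subtype.val (hHc.is_comm.comm ⟨a, ha⟩ ⟨b, hb⟩)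
        · rw [Set.mem_singleton_iff] at hb; rw [hb]; exact hHx a ha
        · rw [Set.mem_singleton_iff] at ha; rw [ha]; exact (hHx b hb).symm
        · rw [Set.mem_singleton_iff] at ha hb; rw [ha, hb])
      have hHA : H ≤ A := fun a ha => hA (Or.inl ha)
      have hxA : x ∈ A := hA (Or.inr rfl)
      obtain ⟨j, hj⟩ := IsPGroup.iff_card.mp (hG.to_subgroup A)
      have hj2 : 2 < j := by
        by_contra hle
        have : Nat.card A ≤ Nat.card H := by
          rw [hj, hk]; exact Nat.pow_le_pow_right hpp.pos (by omega)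
        have hHA' : H = A := Subgroup.eq_of_le_of_card_ge hHA this
        exact hxH (hHA' ▸ hxA)
      have hj3 : j ≤ 3 := by
        have h1 := Subgroup.card_le_card_group A
        rw [hj, hcard] at h1
        exact (Nat.pow_le_pow_iff_right hpp.one_lt).mp h1
      have hAtop : A = ⊤ := by
        rw [← Subgroup.card_eq_iff_eq_top, hj, hcard]
        congr 1
        omega
      apply hna
      refine ⟨⟨fun a b => ?_⟩⟩
      have ha : a ∈ A := hAtop ▸ Subgroup.mem_top a
      have hb : b ∈ A := hAtop ▸ Subgroup.mem_top b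
      exact congrArg Subtype.val (hAc.is_comm.comm ⟨a, ha⟩ ⟨b, hb⟩)
    · rw [h3, ← hcard] at hk
      have : H = ⊤ := (Subgroup.card_eq_iff_eq_top H).mp hk
      exact hxH (this ▸ Subgroup.mem_top x)

end Cfsg.Agent.S3918
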