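-- Statement S1453: narrow p-groups of rank at least 3 (Bender-Glauberman, section 5).
import Cfsg.Statements.S1453
import Cfsg.Agent.S0126
import Cfsg.Agent.S3918
import Cfsg.Agent.Helper22.NormalElemAb
import Cfsg.Agent.Helper22.Signalizer
import Cfsg.Agent.Helper22.Transitivity

set_option autoImplicit false
open Cfsg

namespace Cfsg.Agent.S1453

open Subgroup

/-- If `c = [a, b]` is central then `a ^ n * b * a ^ (-n) = c ^ n * b`. -/
theorem conj_pow_eq {R : Type*} [Group R] (a b : R)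
    (hc : ∀ g : R, (a * b * a⁻¹ * b⁻¹) * g = g * (a * b * a⁻¹ * b⁻¹)) (n : ℕ) :
    a ^ n * b * (a ^ n)⁻¹ = (a * b * a⁻¹ * b⁻¹) ^ n * b := by
  induction n with
  | zero => simp
  | succ n ih =>
    have hca : Commute (a * b * a⁻¹ * b⁻¹) a := hc a
    have h1 : a * (a * b * a⁻¹ * b⁻¹) ^ n = (a * b * a⁻¹ * b⁻¹) ^ n * a :=
      ((hca.pow_left n).eq).symm
    calc a ^ (n + 1) * b * (a ^ (n + 1))⁻¹ = a * (a ^ n * b * (a ^ n)⁻¹) * a⁻¹ := by
          rw [pow_succ']; group
      _ = a * ((a * b * a⁻¹ * b⁻¹) ^ n * b) * a⁻¹ := by rw [ih]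
      _ = (a * (a * b * a⁻¹ * b⁻¹) ^ n) * b * a⁻¹ := by group
      _ = ((a * b * a⁻¹ * b⁻¹) ^ n * a) * b * a⁻¹ := by rw [h1]
      _ = (a * b * a⁻¹ * b⁻¹) ^ n * (a * b * a⁻¹ * b⁻¹) * b := by group
      _ = (a * b * a⁻¹ * b⁻¹) ^ (n + 1) * b := by rw [← pow_succ]

theorem comm_pow_eq_one {R : Type*} [Group R] (p : ℕ) (a b : R)
    (hc : ∀ g : R, (a * b * a⁻¹ * b⁻¹) * g = g * (a * b * a⁻¹ * b⁻¹)) (ha : a ^ p = 1) :
    (a * b * a⁻¹ * b⁻¹) ^ p = 1 := by
  have h := conj_pow_eq a b hc p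
  rw [ha, one_mul, inv_one, mul_one] at h
  exact mul_right_cancel (b := b) (by rw [one_mul]; exact h.symm)

theorem sup_zpowers_eq {R : Type*} [Group R] [Finite R] {p : ℕ} (hpp : p.Prime)
    {Z K : Subgroup R} (hZK : Z ≤ K) (hZ : Nat.card Z = p) (hK : Nat.card K = p ^ 2) {v : R}
    (hvK : v ∈ K) (hvZ : v ∉ Z) : Z ⊔ zpowers v = K := by
  have hle : Z ⊔ zpowers v ≤ K := sup_le hZK (zpowers_le.mpr hvK)
  apply Subgroup.eq_of_le_of_card_ge hle
  have hlt : Z < Z ⊔ zpowers v :=
    lt_of_le_of_ne le_sup_left (fun h => hvZ (by rw [h]; exact Subgroup.mem_sup_right (mem_zpowers v)))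
  have h1 := Helper22.card_lt_of_lt hlt
  have hdvd : Nat.card (Z ⊔ zpowers v : Subgroup R) ∣ p ^ 2 := by
    rw [← hK]; exact Subgroup.card_dvd_of_le hle
  obtain ⟨k, -, hk⟩ := (Nat.dvd_prime_pow hpp).1 hdvd
  rw [hZ, hk] at h1
  have hk2' : 2 ≤ k := by
    by_contra hh
    have hk1 : k ≤ 1 := by omega
    have := Nat.pow_le_pow_right hpp.pos hk1
    rw [pow_one] at this
    omega
  rw [hK, hk]
  exact Nat.pow_le_pow_right hpp.pos hk2'

/-- Let p be an odd prime and R a finite p-group with an elementary abelian subgroup of order p ^ 3 and an elementary abelian subgroup E of order p ^ 2 contained in no larger elementary abelian subgroup. Let Z₂ be the second centre of R, W the subgroup generated by the elements of Z₂ of order dividing p, and T = C_R(W). Then E is not contained in T; the elements of order dividing p of the centre of R generate a group of order p; W is elementary abelian of order p ^ 2; and T is characteristic in R of index p. -/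
theorem result {R : Type*} [Group R] [Finite R] (p : ℕ) [Fact p.Prime] (hp : p ≠ 2) (hR : IsPGroup p R) (hr : ¬ Cfsg.PRankLE p 2 R)
    (E : Subgroup R) (hE : Cfsg.IsElementaryAbelian p E) (hE2 : Nat.card E = p ^ 2)
    (hEmax : ∀ B : Subgroup R, Cfsg.IsElementaryAbelian p B → E ≤ B → B = E) :
    ¬ E ≤ Subgroup.centralizer ((Subgroup.closure {x : R | x ∈ Subgroup.upperCentralSeries R 2 ∧ x ^ p = 1} : Subgroup R) : Set R) ∧
      Nat.card ↥(Subgroup.closure {x : R | x ∈ Subgroup.center R ∧ x ^ p = 1}) = p ∧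
      (Cfsg.IsElementaryAbelian p (Subgroup.closure {x : R | x ∈ Subgroup.upperCentralSeries R 2 ∧ x ^ p = 1}) ∧
        Nat.card ↥(Subgroup.closure {x : R | x ∈ Subgroup.upperCentralSeries R 2 ∧ x ^ p = 1}) = p ^ 2) ∧
      (Subgroup.centralizer ((Subgroup.closure {x : R | x ∈ Subgroup.upperCentralSeries R 2 ∧ x ^ p = 1} : Subgroup R) : Set R)).Characteristic ∧
      (Subgroup.centralizer ((Subgroup.closure {x : R | x ∈ Subgroup.upperCentralSeries R 2 ∧ x ^ p = 1} : Subgroup R) : Set R)).index = p := by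
  classical
  have hpp : p.Prime := Fact.out
  set Z₂ := Subgroup.upperCentralSeries R 2 with hZ₂
  have hmemZ₂ : ∀ x : R, x ∈ Z₂ ↔ ∀ y : R, x * y * x⁻¹ * y⁻¹ ∈ Subgroup.center R := by
    intro x
    rw [hZ₂, Subgroup.mem_upperCentralSeries_succ_iff, Subgroup.upperCentralSeries_one]
    exact Iff.rfl
  have hcen : ∀ z : R, z ∈ Subgroup.center R → ∀ g : R, z * g = g * z :=
    fun z hz g => (Subgroup.mem_center_iff.mp hz g).symm
  set Z1 := Subgroup.closure {x : R | x ∈ Subgroup.center R ∧ x ^ p = 1} with hZ1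
  have hZ1mem : ∀ z ∈ Z1, z ∈ Subgroup.center R ∧ z ^ p = 1 := by
    intro z hz
    rw [hZ1] at hz
    induction hz using Subgroup.closure_induction with
    | mem x hx => exact hx
    | one => exact ⟨Subgroup.one_mem _, one_pow p⟩
    | mul x y _ _ hx hy =>
      refine ⟨Subgroup.mul_mem _ hx.1 hy.1, ?_⟩
      have hxy : Commute x y := hcen x hx.1 y
      rw [hxy.mul_pow, hx.2, hy.2, one_mul]
    | inv x _ hx => exact ⟨Subgroup.inv_mem _ hx.1, by rw [inv_pow, hx.2, inv_one]⟩
  have hstar : ∀ y : R, y ^ p = 1 → (∀ e ∈ E, y * e = e * y) → y ∈ E := by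
    intro y hy hyc
    by_contra hyE
    obtain ⟨h1, -⟩ := Helper22.elemAb_sup_zpowers' E hE y hyE hy hyc
    have h3 := hEmax _ h1 le_sup_left
    have h4 : y ∈ E ⊔ zpowers y := Subgroup.mem_sup_right (mem_zpowers y)
    rw [h3] at h4
    exact hyE h4
  have hZ1E : Z1 ≤ E :=
    fun z hz => hstar z (hZ1mem z hz).2 (fun e _ => hcen z (hZ1mem z hz).1 e)
  have hEne : E ≠ ⊥ := by
    intro h
    rw [h, Subgroup.card_bot] at hE2
    have := hpp.two_le
    nlinarith
  have hZ1ne : Z1 ≠ ⊥ := by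
    have htop : (⊤ : Subgroup R) ≠ ⊥ := by
      intro h
      apply hEne
      rw [eq_bot_iff, ← h]
      exact le_top
    obtain ⟨z, -, hzc, hzo⟩ := Cfsg.Agent.S0126.exists_central_order_p hR (⊤ : Subgroup R) htop
    intro h
    have hz : z ∈ Z1 := by
      rw [hZ1]
      exact Subgroup.subset_closure ⟨hzc, by rw [← hzo]; exact pow_orderOf_eq_one z⟩
    rw [h, Subgroup.mem_bot] at hz
    rw [hz, orderOf_one] at hzo
    exact hpp.one_lt.ne hzo
  obtain ⟨A₃, hA₃c, hA₃e, hA₃card⟩ : ∃ A₃ : Subgroup R, IsMulCommutative A₃ ∧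
      (∀ a ∈ A₃, a ^ p = 1) ∧ p ^ 2 < Nat.card A₃ := by
    by_contra hcon
    apply hr
    intro A hAc hAe
    by_contra hlt
    exact hcon ⟨A, hAc, hAe, not_le.mp hlt⟩
  have hA₃ : Cfsg.IsElementaryAbelian p A₃ := ⟨hA₃c, hA₃e⟩
  have hZ1neE : Z1 ≠ E := by
    intro h
    have hA₃E : A₃ ≤ E := fun a ha => hstar a (hA₃e a ha) (fun e he => by
      have hez : e ∈ Z1 := by rw [h]; exact he
      exact (hcen e (hZ1mem e hez).1 a).symm)
    have := Subgroup.card_le_of_le hA₃E
    rw [hE2] at this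
    omega
  have hZ1card : Nat.card Z1 = p := by
    have hdvd : Nat.card Z1 ∣ p ^ 2 := by rw [← hE2]; exact Subgroup.card_dvd_of_le hZ1E
    obtain ⟨k, -, hk⟩ := (Nat.dvd_prime_pow hpp).1 hdvd
    have hk0 : k ≠ 0 := by
      rintro rfl
      rw [pow_zero] at hk
      exact hZ1ne (Subgroup.card_eq_one.mp hk)
    have hk2' : k ≠ 2 := by
      rintro rfl
      exact hZ1neE (Subgroup.eq_of_le_of_card_ge hZ1E (by rw [hk, hE2]))
    have hk2'' : k ≤ 2 := by
      by_contra hh
      have h3 : 3 ≤ k := by omega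
      have h4 : p ^ 3 ≤ p ^ k := Nat.pow_le_pow_right hpp.pos h3
      have h5 : p ^ k ≤ p ^ 2 := by rw [← hk, ← hE2]; exact Subgroup.card_le_of_le hZ1E
      have h6 : p ^ 2 < p ^ 3 := Nat.pow_lt_pow_right hpp.one_lt (by norm_num)
      omega
    have hk1 : k = 1 := by omega
    rw [hk, hk1, pow_one]
  -- commuting with an element of `E` outside `Z1` means commuting with `E`
  have hcommE : ∀ x ∈ E, x ∉ Z1 → ∀ y : R, y * x = x * y → ∀ e ∈ E, y * e = e * y := by
    intro x hxE hxZ y hyx e he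
    have hEsup := sup_zpowers_eq hpp hZ1E hZ1card hE2 hxE hxZ
    have hle : E ≤ Subgroup.centralizer {y} := by
      rw [← hEsup]
      refine sup_le (fun z hz => ?_) (zpowers_le.mpr ?_)
      · exact Subgroup.mem_centralizer_singleton_iff.mpr (hcen z (hZ1mem z hz).1 y)
      · exact Subgroup.mem_centralizer_singleton_iff.mpr hyx.symm
    exact (Subgroup.mem_centralizer_singleton_iff.mp (hle he)).symm
  have hcommZ1 : ∀ w : R, w ∈ Z₂ → w ^ p = 1 → ∀ r : R, w * r * w⁻¹ * r⁻¹ ∈ Z1 := by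
    intro w hw hwp r
    have hc := (hmemZ₂ w).mp hw r
    rw [hZ1]
    apply Subgroup.subset_closure
    exact ⟨hc, comm_pow_eq_one p w r (fun g => hcen _ hc g) hwp⟩
  have hcommZ1' : ∀ w : R, w ∈ Z₂ → w ^ p = 1 → ∀ r : R, r * w * r⁻¹ * w⁻¹ ∈ Z1 := by
    intro w hw hwp r
    have h1 := Z1.inv_mem (hcommZ1 w hw hwp r)
    have e : (w * r * w⁻¹ * r⁻¹)⁻¹ = r * w * r⁻¹ * w⁻¹ := by group
    rwa [e] at h1
  -- elements of `E` outside `Z1` are not in the second centre
  have hEZ₂ : ∀ x ∈ E, x ∉ Z1 → x ∉ Z₂ := by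
    intro x hxE hxZ hx2
    have hxp : x ^ p = 1 := hE.2 x hxE
    have h1 := Helper22.card_le_card_mul_card_inf_centralizer A₃ Z1 x
      (fun s _ => hcommZ1' x hx2 hxp s)
    have h2 : A₃ ⊓ Subgroup.centralizer {x} ≤ E := by
      intro a ha
      exact hstar a (hA₃e a ha.1)
        (hcommE x hxE hxZ a (Subgroup.mem_centralizer_singleton_iff.mp ha.2))
    have h3 : Nat.card (A₃ ⊓ Subgroup.centralizer {x} : Subgroup R) ≤ p ^ 2 := by
      rw [← hE2]; exact Subgroup.card_le_of_le h2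
    rw [hZ1card] at h1
    have h4 : p < Nat.card (A₃ ⊓ Subgroup.centralizer {x} : Subgroup R) := by
      by_contra hh
      have hh' : Nat.card (A₃ ⊓ Subgroup.centralizer {x} : Subgroup R) ≤ p := not_lt.mp hh
      have := Nat.mul_le_mul_left p hh'
      nlinarith
    have h5 : Nat.card (A₃ ⊓ Subgroup.centralizer {x} : Subgroup R) = p ^ 2 := by
      obtain ⟨k, hk⟩ := (hR.to_subgroup (A₃ ⊓ Subgroup.centralizer {x})).exists_card_eq
      rw [hk] at h4 h3 ⊢
      have hk2 : 2 ≤ k := by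
        by_contra hh
        have hk1 : k ≤ 1 := by omega
        have := Nat.pow_le_pow_right hpp.pos hk1
        rw [pow_one] at this
        omega
      exact le_antisymm h3 (Nat.pow_le_pow_right hpp.pos hk2)
    have h6 : A₃ ⊓ Subgroup.centralizer {x} = E :=
      Subgroup.eq_of_le_of_card_ge h2 (by rw [h5, hE2])
    have h7 : E ≤ A₃ := by rw [← h6]; exact inf_le_left
    have h8 := hEmax A₃ hA₃ h7
    rw [h8, hE2] at hA₃card
    exact lt_irrefl _ hA₃card
  obtain ⟨x, hxE, hxZ⟩ := SetLike.exists_of_lt (lt_of_le_of_ne hZ1E hZ1neE)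
  set W := Subgroup.closure {x : R | x ∈ Z₂ ∧ x ^ p = 1} with hW
  have hWmem : ∀ w ∈ W, w ∈ Z₂ ∧ w ^ p = 1 := by
    intro w hw
    rw [hW] at hw
    induction hw using Subgroup.closure_induction with
    | mem y hy => exact hy
    | one => exact ⟨Subgroup.one_mem _, one_pow p⟩
    | mul a b _ _ ha hb =>
      refine ⟨Subgroup.mul_mem _ ha.1 hb.1, ?_⟩
      have hcZ : b * a * b⁻¹ * a⁻¹ ∈ Z1 := hcommZ1 b hb.1 hb.2 a
      have hcc := (hZ1mem _ hcZ).1
      have hcp := (hZ1mem _ hcZ).2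
      have hyx : b * a = (b * a * b⁻¹ * a⁻¹) * a * b := by group
      rw [Cfsg.Agent.S0126.mul_pow_class_two a b (b * a * b⁻¹ * a⁻¹) (hcen _ hcc a)
        (hcen _ hcc b) hyx p, ha.2, hb.2, one_mul, one_mul]
      obtain ⟨m, hm⟩ := Cfsg.Agent.S0126.p_dvd_sum_range (p := p) hp
      rw [hm, pow_mul, hcp, one_pow]
    | inv a _ ha => exact ⟨Subgroup.inv_mem _ ha.1, by rw [inv_pow, ha.2, inv_one]⟩
  have hcenZ₂ : ∀ z : R, z ∈ Subgroup.center R → z ∈ Z₂ := by
    intro z hz
    rw [hmemZ₂]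
    intro y
    have h1 : z * y * z⁻¹ * y⁻¹ = 1 := by rw [hcen z hz y]; group
    rw [h1]; exact Subgroup.one_mem _
  have hZ1W : Z1 ≤ W := by
    rw [hZ1, hW]
    exact Subgroup.closure_mono (fun z hz => ⟨hcenZ₂ z hz.1, hz.2⟩)
  have hWx : W ⊓ Subgroup.centralizer {x} ≤ Z1 := by
    intro w hw
    have hw1 := hWmem w hw.1
    have hwE : w ∈ E := hstar w hw1.2
      (hcommE x hxE hxZ w (Subgroup.mem_centralizer_singleton_iff.mp hw.2))
    by_contra hwZ
    exact hEZ₂ w hwE hwZ hw1.1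
  have hWcard_le : Nat.card W ≤ p ^ 2 := by
    have h1 := Helper22.card_le_card_mul_card_inf_centralizer W Z1 x
      (fun s hs => hcommZ1 s (hWmem s hs).1 (hWmem s hs).2 x)
    have h2 := Subgroup.card_le_of_le hWx
    rw [hZ1card] at h1 h2
    calc Nat.card W ≤ p * Nat.card (W ⊓ Subgroup.centralizer {x} : Subgroup R) := h1
      _ ≤ p * p := Nat.mul_le_mul_left p h2
      _ = p ^ 2 := by ring
  have hnc : ¬ IsCyclic R := by
    intro hcyc
    haveI := hcyc
    have hEc : IsCyclic E := Subgroup.isCyclic E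
    obtain ⟨g, hg⟩ := hEc.exists_generator
    have h1 : orderOf g = Nat.card E := orderOf_eq_card_of_forall_mem_zpowers hg
    have hgp : g ^ p = 1 := Subtype.ext (by simpa using hE.2 g g.2)
    have h2 := orderOf_dvd_of_pow_eq_one hgp
    rw [h1, hE2] at h2
    have h3 := Nat.le_of_dvd hpp.pos h2
    have := hpp.two_le
    nlinarith
  obtain ⟨V, hVn, hVe, hVcard⟩ := Cfsg.Agent.S0126.result hp hR hnc
  haveI := hVn
  obtain ⟨z, hzV, hzc, hzo, hPV, -⟩ := Cfsg.Agent.S3918.normal_p_sq_struct hR V hVcard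
  have hVW : V ≤ W := by
    intro v hv
    rw [hW]
    apply Subgroup.subset_closure
    refine ⟨(hmemZ₂ v).mpr (fun y => ?_), hVe.2 v hv⟩
    have h1 := hPV v hv y
    have h2 : y * v * y⁻¹ * v⁻¹ ∈ Subgroup.center R := (zpowers_le.mpr hzc) h1
    have h3 := Subgroup.inv_mem _ h2
    have e : (y * v * y⁻¹ * v⁻¹)⁻¹ = v * y * v⁻¹ * y⁻¹ := by group
    rwa [e] at h3
  have hWV : V = W := Subgroup.eq_of_le_of_card_ge hVW (by rw [hVcard]; exact hWcard_le)
  have hWcard : Nat.card W = p ^ 2 := by rw [← hWV, hVcard]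
  have hWe : Cfsg.IsElementaryAbelian p W := by rw [← hWV]; exact hVe
  have hxT : x ∉ Subgroup.centralizer (W : Set R) := by
    intro hxT
    have hle : W ≤ W ⊓ Subgroup.centralizer {x} := by
      refine le_inf le_rfl (fun w hw => ?_)
      rw [Subgroup.mem_centralizer_iff] at hxT
      exact Subgroup.mem_centralizer_singleton_iff.mpr (hxT w hw)
    have h1 := Subgroup.card_le_of_le (hle.trans hWx)
    rw [hWcard, hZ1card] at h1
    have := hpp.two_le
    nlinarith
  have hWchar : W.Characteristic := by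
    rw [Subgroup.characteristic_iff_map_le]
    intro φ
    rw [hW, MonoidHom.map_closure]
    apply Subgroup.closure_mono
    rintro _ ⟨y, hy, rfl⟩
    refine ⟨(hmemZ₂ _).mpr (fun g => ?_), ?_⟩
    · have hc := (hmemZ₂ y).mp hy.1 (φ.symm g)
      have e : φ.toMonoidHom y * g * (φ.toMonoidHom y)⁻¹ * g⁻¹ =
          φ (y * φ.symm g * y⁻¹ * (φ.symm g)⁻¹) := by
        simp
      rw [e, Subgroup.mem_center_iff]
      intro h
      have h1 := Subgroup.mem_center_iff.mp hc (φ.symm h)
      have h2 := congrArg φ h1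
      simpa using h2
    · show (φ y) ^ p = 1
      rw [← map_pow, hy.2, map_one]
  have hTchar : (Subgroup.centralizer (W : Set R)).Characteristic := by
    haveI := hWchar
    infer_instance
  obtain ⟨v, hvW, hvZ⟩ : ∃ v ∈ W, v ∉ Z1 := by
    have hlt : Z1 < W := lt_of_le_of_ne hZ1W (fun h => by
      have h1 : Nat.card Z1 = Nat.card W := by rw [h]
      rw [hZ1card, hWcard] at h1
      have := hpp.two_le
      nlinarith)
    exact SetLike.exists_of_lt hlt
  have hTidx : (Subgroup.centralizer (W : Set R)).index = p := by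
    set T := Subgroup.centralizer (W : Set R) with hT
    have hWsup := sup_zpowers_eq hpp hZ1W hZ1card hWcard hvW hvZ
    have hle : Subgroup.centralizer {v} ≤ T := by
      intro g hg
      rw [hT, Subgroup.mem_centralizer_iff]
      intro w hw
      have hWle : W ≤ Subgroup.centralizer {g} := by
        rw [← hWsup]
        refine sup_le (fun z hz => ?_) (zpowers_le.mpr ?_)
        · exact Subgroup.mem_centralizer_singleton_iff.mpr (hcen z (hZ1mem z hz).1 g)
        · exact Subgroup.mem_centralizer_singleton_iff.mpr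
            (Subgroup.mem_centralizer_singleton_iff.mp hg).symm
      exact Subgroup.mem_centralizer_singleton_iff.mp (hWle hw)
    have hv1 := hWmem v hvW
    have h1 := Helper22.card_le_card_mul_card_inf_centralizer (⊤ : Subgroup R) Z1 v
      (fun s _ => hcommZ1' v hv1.1 hv1.2 s)
    have h2 : Nat.card ((⊤ : Subgroup R) ⊓ Subgroup.centralizer {v} : Subgroup R) ≤ Nat.card T :=
      Subgroup.card_le_of_le (inf_le_right.trans hle)
    rw [Subgroup.card_top, hZ1card] at h1
    have h3 := Subgroup.card_mul_index T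
    have hTpos : 0 < Nat.card T := Nat.card_pos
    have h4 : T.index ≤ p := by
      have h5 : Nat.card T * T.index ≤ Nat.card T * p := by
        rw [h3]
        calc Nat.card R ≤ p * Nat.card ((⊤ : Subgroup R) ⊓ Subgroup.centralizer {v} : Subgroup R) := h1
          _ ≤ p * Nat.card T := Nat.mul_le_mul_left p h2
          _ = Nat.card T * p := mul_comm _ _
      exact Nat.le_of_mul_le_mul_left h5 hTpos
    have h5 : T.index ≠ 1 := by
      intro h
      rw [Subgroup.index_eq_one] at h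
      exact hxT (by rw [h]; exact Subgroup.mem_top x)
    obtain ⟨j, hj⟩ : ∃ j, T.index = p ^ j := by
      obtain ⟨n, hn⟩ := hR.exists_card_eq
      have hdvd : T.index ∣ p ^ n := by rw [← hn]; exact Subgroup.index_dvd_card T
      obtain ⟨j, -, hj⟩ := (Nat.dvd_prime_pow hpp).1 hdvd
      exact ⟨j, hj⟩
    rw [hj] at h4 h5 ⊢
    have hj1 : j = 1 := by
      rcases j with _ | _ | j
      · exact absurd (pow_zero p) h5
      · rfl
      · exfalso
        have h6 : p ^ 2 ≤ p ^ (j + 1 + 1) := Nat.pow_le_pow_right hpp.pos (by omega)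
        have := hpp.two_le
        nlinarith
    rw [hj1, pow_one]
  exact ⟨fun hET => hxT (hET hxE), hZ1card, ⟨hWe, hWcard⟩, hTchar, hTidx⟩

end Cfsg.Agent.S1453
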