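import Cfsg.Statements.S3183
import Cfsg.Agent.Helper53.Card

set_option autoImplicit false
open Cfsg

namespace Cfsg.Agent.S3183

open Cfsg.Agent.Helper53

/-- Key claim: with central Sylow 2-intersections, `S ∩ T ≤ Z(S)` for distinct Sylow 2-subgroups. -/
theorem inf_le_center {G : Type*} [Group G] [Finite G]
    (hCI : ∀ S T : Sylow 2 G, S ≠ T → ∃ U : Sylow 2 G,
      (S : Subgroup G) ⊓ (T : Subgroup G) ≤ (Subgroup.center ↥(U : Subgroup G)).map (U : Subgroup G).subtype) :
    ∀ (k : ℕ) (S T : Sylow 2 G), S ≠ T →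
      Nat.card (S : Subgroup G) - Nat.card ((S : Subgroup G) ⊓ (T : Subgroup G) : Subgroup G) ≤ k →
      (S : Subgroup G) ⊓ (T : Subgroup G) ≤ (Subgroup.center ↥(S : Subgroup G)).map (S : Subgroup G).subtype := by
  have : Fact (Nat.Prime 2) := ⟨Nat.prime_two⟩
  intro k
  induction k with
  | zero =>
    intro S T hST hk
    exfalso
    have h1 : Nat.card (S : Subgroup G) ≤ Nat.card ((S : Subgroup G) ⊓ (T : Subgroup G) : Subgroup G) := by
      omega
    have h2 : (S : Subgroup G) ⊓ (T : Subgroup G) = (S : Subgroup G) :=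
      Subgroup.eq_of_le_of_card_ge inf_le_left h1
    exact hST (sylow_eq_of_le (inf_eq_left.mp h2))
  | succ k ih =>
    intro S T hST hk
    set D : Subgroup G := (S : Subgroup G) ⊓ (T : Subgroup G) with hD
    have hDS : D < (S : Subgroup G) := by
      refine lt_of_le_of_ne inf_le_left ?_
      intro h2
      exact hST (sylow_eq_of_le (inf_eq_left.mp h2))
    obtain ⟨U, hU⟩ := hCI S T hST
    -- U normalizes (centralizes) D
    have hUN : (U : Subgroup G) ≤ Subgroup.normalizer (D : Set G) := by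
      rw [Subgroup.le_normalizer_iff]
      intro u hu d hd
      have h1 := (mem_map_center_subtype.mp (hU hd)).2 u hu
      have h2 : u * d * u⁻¹ = d := by rw [h1]; group
      rw [h2]; exact hd
    obtain ⟨x, hxS, hxD, hxN⟩ := exists_mem_normalizer_not_mem S.2 hDS
    -- move S ∩ N(D) into U by an element of N(D)
    have hSN : IsPGroup 2 ((S : Subgroup G) ⊓ Subgroup.normalizer (D : Set G) : Subgroup G) :=
      S.2.to_le inf_le_left
    obtain ⟨n, hnN, hn⟩ := exists_mem_map_conj_le hUN U.2 (sylow_not_dvd_relIndex U hUN)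
      (inf_le_right : (S : Subgroup G) ⊓ Subgroup.normalizer (D : Set G) ≤ _) hSN
    -- S₁ = n⁻¹ U n
    set S₁ : Sylow 2 G := n⁻¹ • U with hS₁
    have hS₁mem : ∀ y, y ∈ (S₁ : Subgroup G) ↔ n * y * n⁻¹ ∈ (U : Subgroup G) := by
      intro y
      rw [hS₁, sylow_smul_eq_map, mem_map_conj]
      simp
    have hle : (S : Subgroup G) ⊓ Subgroup.normalizer (D : Set G) ≤ (S₁ : Subgroup G) := by
      intro y hy
      rw [hS₁mem]
      exact hn (conj_mem_map_conj hy)
    have hnD : ∀ d, d ∈ D ↔ n * d * n⁻¹ ∈ D := Subgroup.mem_normalizer_iff.mp hnN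
    have hDZ : D ≤ (Subgroup.center ↥(S₁ : Subgroup G)).map (S₁ : Subgroup G).subtype := by
      intro d hd
      rw [mem_map_center_subtype]
      have hd' : n * d * n⁻¹ ∈ D := (hnD d).mp hd
      have hc := mem_map_center_subtype.mp (hU hd')
      refine ⟨(hS₁mem d).mpr hc.1, fun r hr => ?_⟩
      have h1 := hc.2 _ ((hS₁mem r).mp hr)
      calc r * d = n⁻¹ * ((n * r * n⁻¹) * (n * d * n⁻¹)) * n := by group
        _ = n⁻¹ * ((n * d * n⁻¹) * (n * r * n⁻¹)) * n := by rw [h1]
        _ = d * r := by group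
    by_cases hS₁S : S₁ = S
    · rw [hS₁S] at hDZ; exact hDZ
    · -- S ∩ S₁ is strictly bigger than D
      have hD_le : D ≤ (S : Subgroup G) ⊓ (S₁ : Subgroup G) := by
        refine le_inf inf_le_left ?_
        intro d hd
        exact hle ⟨hDS.le hd, Subgroup.le_normalizer hd⟩
      have hx_mem : x ∈ (S : Subgroup G) ⊓ (S₁ : Subgroup G) := ⟨hxS, hle ⟨hxS, hxN⟩⟩
      have hlt : D < (S : Subgroup G) ⊓ (S₁ : Subgroup G) := by
        refine lt_of_le_of_ne hD_le ?_
        intro heq
        exact hxD (heq ▸ hx_mem)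
      have hcard := card_lt_of_lt hlt
      have hcardS : Nat.card ((S : Subgroup G) ⊓ (S₁ : Subgroup G) : Subgroup G) ≤ Nat.card (S : Subgroup G) :=
        Subgroup.card_le_of_le inf_le_left
      have h3 := ih S S₁ (fun h => hS₁S h.symm) (by omega)
      exact hD_le.trans h3


/-- Let G be a finite group in which the intersection of any two distinct Sylow 2-subgroups is contained in the centre of some Sylow 2-subgroup, and let S be a Sylow 2-subgroup. Then for every x in S the centralizer of x in S is a Sylow 2-subgroup of the centralizer of x in G (no 2-subgroup centralizing x is larger), and for every other Sylow 2-subgroup T the intersection S ∩ T lies in both the centre of S and the centre of T. -/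
theorem result {G : Type*} [Group G] [Finite G]
    (hCI : ∀ S T : Sylow 2 G, S ≠ T → ∃ U : Sylow 2 G,
      (S : Subgroup G) ⊓ (T : Subgroup G) ≤ (Subgroup.center ↥(U : Subgroup G)).map (U : Subgroup G).subtype)
    (S : Sylow 2 G) :
    (∀ x ∈ (S : Subgroup G), ∀ P : Subgroup G, IsPGroup 2 ↥P → P ≤ Subgroup.centralizer ({x} : Set G) →
        Nat.card ↥P ≤ Nat.card ↥((S : Subgroup G) ⊓ Subgroup.centralizer ({x} : Set G))) ∧
    (∀ T : Sylow 2 G, T ≠ S →
        (S : Subgroup G) ⊓ (T : Subgroup G) ≤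
          (Subgroup.center ↥(S : Subgroup G)).map (S : Subgroup G).subtype ⊓
            (Subgroup.center ↥(T : Subgroup G)).map (T : Subgroup G).subtype) := by
  have : Fact (Nat.Prime 2) := ⟨Nat.prime_two⟩
  have hC : ∀ S T : Sylow 2 G, S ≠ T →
      (S : Subgroup G) ⊓ (T : Subgroup G) ≤ (Subgroup.center ↥(S : Subgroup G)).map (S : Subgroup G).subtype :=
    fun S T hST => inf_le_center hCI _ S T hST le_rfl
  refine ⟨?_, ?_⟩
  · intro x hxS P hP hPC
    set C := Subgroup.centralizer ({x} : Set G) with hCdef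
    have hxC : x ∈ C := by
      rw [hCdef, Subgroup.mem_centralizer_iff]
      intro y hy
      rw [Set.mem_singleton_iff] at hy
      rw [hy]
    have hQ₀ : IsPGroup 2 ((S : Subgroup G) ⊓ C : Subgroup G) := S.2.to_le inf_le_left
    by_cases hdvd : 2 ∣ ((S : Subgroup G) ⊓ C).relIndex C
    · obtain ⟨Q, hQ, hQ₀Q, hQC⟩ := exists_isPGroup_lt_of_dvd_relIndex hQ₀ inf_le_right hdvd
      obtain ⟨T, hT⟩ := hQ.exists_le_sylow
      have hTS : T ≠ S := by
        intro h
        rw [h] at hT
        exact not_le_of_gt hQ₀Q (le_inf hT hQC)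
      have hxT : x ∈ (T : Subgroup G) := hT (hQ₀Q.le ⟨hxS, hxC⟩)
      have hxZ := hC S T (fun h => hTS h.symm) ⟨hxS, hxT⟩
      have hSC : (S : Subgroup G) ≤ C := by
        intro s hs
        rw [hCdef, Subgroup.mem_centralizer_iff]
        intro y hy
        rw [Set.mem_singleton_iff] at hy
        rw [hy]
        exact ((mem_map_center_subtype.mp hxZ).2 s hs).symm
      rw [inf_eq_left.mpr hSC]
      exact card_le_card_sylow S hP
    · obtain ⟨n, -, hn⟩ := exists_mem_map_conj_le (inf_le_right : (S : Subgroup G) ⊓ C ≤ C) hQ₀ hdvd hPC hP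
      rw [← card_map_conj P n]
      exact Subgroup.card_le_of_le hn
  · intro T hTS
    refine le_inf (hC S T (fun h => hTS h.symm)) ?_
    rw [inf_comm]
    exact hC T S hTS

end Cfsg.Agent.S3183
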