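import Cfsg.Statements.S0992
import Mathlib

set_option autoImplicit false
open Cfsg

namespace Cfsg.Agent.S0992

/-- Let G be a non-abelian finite simple group of even order not divisible by 8, and T a Sylow 2-subgroup. Then T is a Klein four-group and the centralizer of T has index 3 in the normalizer of T. -/
theorem result {G : Type*} [Group G] [Finite G] [IsSimpleGroup G] (hG : ¬ IsMulCommutative G) (h2 : Even (Nat.card G)) (h8 : ¬ 8 ∣ Nat.card G) (T : Sylow 2 G) : IsKleinFour ↥(T : Subgroup G) ∧ (Subgroup.centralizer ((T : Subgroup G) : Set G)).relIndex (Subgroup.normalizer ((T : Subgroup G) : Set G)) = 3 := by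
  have : Fact (Nat.Prime 2) := ⟨Nat.prime_two⟩
  have h2T : 2 ∣ Nat.card (T : Subgroup G) := T.dvd_card_of_dvd_card h2.two_dvd
  -- Burnside: N(T) is not contained in C(T)
  have hNC : ¬ Subgroup.normalizer ((T : Subgroup G) : Set G) ≤
      Subgroup.centralizer ((T : Subgroup G) : Set G) := by
    intro hP
    have hc := MonoidHom.ker_transferSylow_isComplement' T hP
    rcases (MonoidHom.transferSylow T hP).normal_ker.eq_bot_or_eq_top with hb | ht
    · rw [hb] at hc
      have hTtop : (T : Subgroup G) = ⊤ := Subgroup.isComplement'_bot_left.mp hc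
      apply hG
      refine ⟨⟨fun a b => ?_⟩⟩
      have ha : a ∈ (T : Subgroup G) := hTtop ▸ Subgroup.mem_top a
      have hb' : b ∈ (T : Subgroup G) := hTtop ▸ Subgroup.mem_top b
      exact hP (Subgroup.le_normalizer hb') a ha
    · rw [ht] at hc
      have hTbot : (T : Subgroup G) = ⊥ := Subgroup.isComplement'_top_left.mp hc
      rw [hTbot] at h2T
      simp at h2T
  -- T is not cyclic
  have hmin : (Nat.card G).minFac = 2 := by
    rw [Nat.minFac_eq_two_iff]
    exact h2.two_dvd
  have hcyc : ¬ IsCyclic (T : Subgroup G) := fun h =>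
    hNC (IsCyclic.normalizer_le_centralizer hmin h)
  -- |T| = 4
  have hcard : Nat.card (T : Subgroup G) = 4 := by
    obtain ⟨n, hn⟩ := T.2.exists_card_eq
    have hdvd : 2 ^ n ∣ Nat.card G := hn ▸ Subgroup.card_subgroup_dvd_card (T : Subgroup G)
    have hn3 : n < 3 := by
      by_contra hge
      have : (8 : ℕ) ∣ 2 ^ n := by
        have : (2 : ℕ) ^ 3 ∣ 2 ^ n := pow_dvd_pow 2 (by omega)
        simpa using this
      exact h8 (this.trans hdvd)
    have hn0 : n ≠ 0 := by
      rintro rfl
      rw [hn] at h2T
      simp at h2T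
    have hn1 : n ≠ 1 := by
      rintro rfl
      rw [pow_one] at hn
      exact hcyc (isCyclic_of_prime_card hn)
    have : n = 2 := by omega
    rw [hn, this]; norm_num
  have hexp : Monoid.exponent (T : Subgroup G) = 2 :=
    (not_isCyclic_iff_exponent_eq_prime Nat.prime_two (by rw [hcard]; norm_num)).mp hcyc
  have hK : IsKleinFour ↥(T : Subgroup G) := ⟨hcard, hexp⟩
  refine ⟨hK, ?_⟩
  -- the index [N(T) : C(T)]
  have key := Subgroup.card_dvd_of_injective _
    (QuotientGroup.kerLift_injective (T : Subgroup G).normalizerMonoidHom)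
  rw [Subgroup.normalizerMonoidHom_ker, ← Subgroup.index, ← Subgroup.relIndex] at key
  have key2 : Nat.card (MulAut ↥(T : Subgroup G)) ∣ 24 := by
    have h := Subgroup.card_dvd_of_injective (MulAut.toPerm ↥(T : Subgroup G))
      (fun a b hab => by
        refine MulEquiv.ext fun x => ?_
        have := congrArg (fun σ : Equiv.Perm ↥(T : Subgroup G) => σ x) hab
        exact this)
    rw [Nat.card_perm, hcard] at h
    exact h
  have hdvd24 := key.trans key2
  have : IsMulCommutative ↥(T : Subgroup G) := IsKleinFour.isMulCommutative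
  have hodd : ¬ 2 ∣ (Subgroup.centralizer ((T : Subgroup G) : Set G)).relIndex
      (Subgroup.normalizer ((T : Subgroup G) : Set G)) := by
    intro h
    have h1 := (Subgroup.relIndex_dvd_of_le_left (Subgroup.normalizer ((T : Subgroup G) : Set G))
      (Subgroup.le_centralizer (T : Subgroup G)))
    have h2' := Subgroup.relIndex_dvd_index_of_le (Subgroup.le_normalizer (H := (T : Subgroup G)))
    exact T.not_dvd_index (h.trans (h1.trans h2'))
  have hne1 : (Subgroup.centralizer ((T : Subgroup G) : Set G)).relIndex
      (Subgroup.normalizer ((T : Subgroup G) : Set G)) ≠ 1 := fun h =>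
    hNC (Subgroup.relIndex_eq_one.mp h)
  generalize (Subgroup.centralizer ((T : Subgroup G) : Set G)).relIndex
      (Subgroup.normalizer ((T : Subgroup G) : Set G)) = m at hdvd24 hodd hne1
  have hle : m ≤ 24 := Nat.le_of_dvd (by norm_num) hdvd24
  interval_cases m <;> omega

end Cfsg.Agent.S0992
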