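-- Statement S0713: Jordan's theorem on primitive groups containing a cycle of prime length.
import Cfsg.Statements.S0713
import Mathlib

set_option autoImplicit false
open Cfsg

namespace Cfsg.Agent.S0713

/-- If `u` and `v` conjugate `g` into its cyclic group, a commutator of `u` and `v`
commutes with `g`. -/
theorem comm_of_conj_zpow {M : Type*} [Group M] (g u v : M)
    (hu : u * g * u⁻¹ ∈ Subgroup.zpowers g) (hv : v * g * v⁻¹ ∈ Subgroup.zpowers g) :
    Commute (u⁻¹ * v⁻¹ * u * v) g := by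
  obtain ⟨i, hi⟩ := Subgroup.mem_zpowers_iff.mp hu
  obtain ⟨j, hj⟩ := Subgroup.mem_zpowers_iff.mp hv
  have h1 : u * v * g * v⁻¹ * u⁻¹ = g ^ (i * j) := by
    have : u * v * g * v⁻¹ * u⁻¹ = u * (v * g * v⁻¹) * u⁻¹ := by group
    rw [this, ← hj, ← conj_zpow, ← hi, zpow_mul]
  have h2 : v * u * g * u⁻¹ * v⁻¹ = g ^ (j * i) := by
    have : v * u * g * u⁻¹ * v⁻¹ = v * (u * g * u⁻¹) * v⁻¹ := by group
    rw [this, ← hi, ← conj_zpow, ← hj, zpow_mul]
  have h : u * v * g * v⁻¹ * u⁻¹ = v * u * g * u⁻¹ * v⁻¹ := by rw [h1, h2, mul_comm]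
  have e1 : u⁻¹ * v⁻¹ * (u * v * g * v⁻¹ * u⁻¹) * u * v = u⁻¹ * v⁻¹ * u * v * g := by group
  have e2 : u⁻¹ * v⁻¹ * (v * u * g * u⁻¹ * v⁻¹) * u * v = g * (u⁻¹ * v⁻¹ * u * v) := by group
  change u⁻¹ * v⁻¹ * u * v * g = g * (u⁻¹ * v⁻¹ * u * v)
  rw [← e1, h, e2]

/-- Jordan's Theorem: a primitive permutation group of degree `n ≥ 5` containing a `p`-cycle for a prime `p ≤ n - 3` contains the alternating group. -/
theorem result {α : Type*} [Fintype α] [DecidableEq α] (G : Subgroup (Equiv.Perm α)) (hG : MulAction.IsPreprimitive G α) {p : ℕ} (hp : p.Prime) (hn : 5 ≤ Fintype.card α) (hpn : p + 3 ≤ Fintype.card α) {g : Equiv.Perm α} (hgc : g.IsCycle) (hgp : g.support.card = p) (hg : g ∈ G) : alternatingGroup α ≤ G := by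
  classical
  have : Fact p.Prime := ⟨hp⟩
  have hp2 := hp.two_le
  obtain ⟨m, hm⟩ : ∃ m, Fintype.card α = p + (m + 3) := ⟨Fintype.card α - p - 3, by omega⟩
  have hsc : Set.ncard ((g.support : Set α)ᶜ) = (m + 2) + 1 := by
    apply Nat.add_left_cancel (n := (g.support : Set α).ncard)
    rw [Set.ncard_add_ncard_compl, Set.ncard_coe_finset, hgp, Nat.card_eq_fintype_card, hm]
  have hprimF : MulAction.IsPreprimitive (fixingSubgroup G ((g.support : Set α)ᶜ))
      (SubMulAction.ofFixingSubgroup G ((g.support : Set α)ᶜ)) := by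
    have := Equiv.Perm.isPretransitive_of_isCycle_mem hgc hg
    apply MulAction.IsPreprimitive.of_prime_card
    convert hp
    rw [Nat.card_eq_fintype_card, Fintype.card_subtype, ← hgp]
    apply congr_arg
    ext x
    simp [SubMulAction.mem_ofFixingSubgroup_iff]
  have hJ : MulAction.IsMultiplyPreprimitive G α (m + 2 + 2) :=
    hG.isMultiplyPreprimitive hsc (by rw [Nat.card_eq_fintype_card, hm]; omega) hprimF
  have hJt : MulAction.IsMultiplyPretransitive G α (m + 3) := by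
    have : MulAction.IsMultiplyPretransitive G α (m + 2 + 2) := inferInstance
    exact MulAction.isMultiplyPretransitive_of_le (n := m + 2 + 2) (by omega)
      (by rw [Nat.card_eq_fintype_card, hm]; omega)
  set Δ : Finset α := g.supportᶜ with hΔ
  have hΔcard : Δ.card = m + 3 := by rw [hΔ, Finset.card_compl, hgp, hm]; omega
  have hΔmem : ∀ x, x ∈ Δ ↔ g x = x := by
    intro x; rw [hΔ, Finset.mem_compl, Equiv.Perm.notMem_support]
  have htransΔ : ∀ σ : Equiv.Perm α, ∃ x ∈ G, ∀ d ∈ Δ, x d = σ d := by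
    intro σ
    let e : Fin (m + 3) ↪ α := (Δ.equivFinOfCardEq hΔcard).symm.toEmbedding.trans
      (Function.Embedding.subtype _)
    obtain ⟨x, hx⟩ := hJt.exists_smul_eq e (e.trans σ.toEmbedding)
    refine ⟨x.1, x.2, fun d hd => ?_⟩
    have := congrArg (fun f : Fin (m + 3) ↪ α => f (Δ.equivFinOfCardEq hΔcard ⟨d, hd⟩)) hx
    have h' : x • d = σ d := by simpa [e] using this
    exact h'
  set F : Subgroup (Equiv.Perm α) := G ⊓ fixingSubgroup (Equiv.Perm α) (Δ : Set α) with hF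
  have hFmem : ∀ f : Equiv.Perm α, f ∈ F ↔ f ∈ G ∧ ∀ d ∈ Δ, f d = d := by
    intro f
    rw [hF, Subgroup.mem_inf, mem_fixingSubgroup_iff]
    simp
  have hgF : g ∈ F := (hFmem g).mpr ⟨hg, fun d hd => (hΔmem d).mp hd⟩
  have hFcard : (Nat.card F).factorization p = 1 := by
    have h1 : Nat.card F ∣ p.factorial := by
      have hle : F ≤ (Equiv.Perm.ofSubtype (p := fun x => x ∈ g.support)).range := by
        intro f hf
        rw [hFmem] at hf
        have h₂ : ∀ x, f x ≠ x → x ∈ g.support := by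
          intro x hx
          by_contra hxs
          exact hx (hf.2 x (by rw [hΔ, Finset.mem_compl]; exact hxs))
        have h₁ : ∀ x, f x ∈ g.support ↔ x ∈ g.support := by
          intro x
          constructor
          · intro h
            by_contra hxs
            have : f x = x := hf.2 x (by rw [hΔ, Finset.mem_compl]; exact hxs)
            rw [this] at h; exact hxs h
          · intro h
            by_contra hxs
            have h1 : f (f x) = f x := hf.2 (f x) (by rw [hΔ, Finset.mem_compl]; exact hxs)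
            have h2 : f x = x := f.injective h1
            rw [h2] at hxs; exact hxs h
        exact ⟨Equiv.Perm.subtypePerm f h₁, Equiv.Perm.ofSubtype_subtypePerm h₁ h₂⟩
      have h2 := Subgroup.card_dvd_of_le hle
      have h3 : Nat.card (Equiv.Perm.ofSubtype (p := fun x => x ∈ g.support)).range
          = p.factorial := by
        rw [← Nat.card_congr (MonoidHom.ofInjective Equiv.Perm.ofSubtype_injective).toEquiv,
          Nat.card_perm, Nat.card_eq_fintype_card, Fintype.card_coe, hgp]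
      rwa [h3] at h2
    have h2 : p ∣ Nat.card F := by
      have := orderOf_dvd_natCard (⟨g, hgF⟩ : F)
      rwa [Subgroup.orderOf_mk, hgc.orderOf, hgp] at this
    have hne : Nat.card F ≠ 0 := Nat.card_pos.ne'
    have h3 : ¬ p ^ 2 ∣ Nat.card F := by
      intro h
      have h4 : p ^ 2 ∣ p.factorial := h.trans h1
      obtain ⟨q, hq⟩ : ∃ q, p = q + 1 := ⟨p - 1, by omega⟩
      rw [hq, Nat.factorial_succ, pow_two, ← hq] at h4
      have h5 : p ∣ q.factorial := (Nat.mul_dvd_mul_iff_left hp.pos).mp h4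
      rw [hp.dvd_factorial] at h5
      omega
    have h4 : 1 ≤ (Nat.card F).factorization p :=
      (hp.pow_dvd_iff_le_factorization hne).mp (by simpa using h2)
    have h5 : ¬ 2 ≤ (Nat.card F).factorization p :=
      fun h => h3 ((hp.pow_dvd_iff_le_factorization hne).mpr h)
    omega
  have hnorm : ∀ σ : Equiv.Perm α, (∀ d ∈ Δ, σ d ∈ Δ) →
      ∃ u ∈ G, (∀ d ∈ Δ, u d = σ d) ∧ u * g * u⁻¹ ∈ Subgroup.zpowers g := by
    intro σ hσ
    obtain ⟨x, hxG, hx⟩ := htransΔ σ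
    have hxΔ : ∀ d ∈ Δ, x d ∈ Δ := fun d hd => by rw [hx d hd]; exact hσ d hd
    have hxinv : ∀ d ∈ Δ, x⁻¹ d ∈ Δ := by
      intro d hd
      have himg : Δ.image x = Δ := by
        apply Finset.eq_of_subset_of_card_le
        · intro y hy
          obtain ⟨d', hd', rfl⟩ := Finset.mem_image.mp hy
          exact hxΔ d' hd'
        · rw [Finset.card_image_of_injective _ x.injective]
      rw [← himg] at hd
      obtain ⟨d', hd', rfl⟩ := Finset.mem_image.mp hd
      rw [Equiv.Perm.inv_def, Equiv.symm_apply_apply]; exact hd'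
    have hg₂F : x * g * x⁻¹ ∈ F := by
      rw [hFmem]
      refine ⟨G.mul_mem (G.mul_mem hxG hg) (G.inv_mem hxG), fun d hd => ?_⟩
      rw [Equiv.Perm.mul_apply, Equiv.Perm.mul_apply, (hΔmem _).mp (hxinv d hd)]
      rw [Equiv.Perm.inv_def, Equiv.apply_symm_apply]
    have hPcard : Nat.card (Subgroup.zpowers (⟨g, hgF⟩ : F)) =
        p ^ (Nat.card F).factorization p := by
      rw [hFcard, pow_one, Nat.card_zpowers, Subgroup.orderOf_mk, hgc.orderOf, hgp]
    have hQcard : Nat.card (Subgroup.zpowers (⟨x * g * x⁻¹, hg₂F⟩ : F)) =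
        p ^ (Nat.card F).factorization p := by
      rw [hFcard, pow_one, Nat.card_zpowers, Subgroup.orderOf_mk]
      have : orderOf (x * g * x⁻¹) = orderOf g := by
        have := orderOf_injective (MulAut.conj x).toMonoidHom (MulAut.conj x).injective g
        simpa using this
      rw [this, hgc.orderOf, hgp]
    obtain ⟨y, hy⟩ := MulAction.exists_smul_eq F (Sylow.ofCard _ hQcard) (Sylow.ofCard _ hPcard)
    have hmem : y * ⟨x * g * x⁻¹, hg₂F⟩ * y⁻¹ ∈ Subgroup.zpowers (⟨g, hgF⟩ : F) := by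
      have h1 : (⟨x * g * x⁻¹, hg₂F⟩ : F) ∈
          ((Sylow.ofCard _ hQcard : Sylow p F) : Subgroup F) := by
        rw [Sylow.coe_ofCard]; exact Subgroup.mem_zpowers _
      have h2 := Subgroup.smul_mem_pointwise_smul _ (MulAut.conj y) _ h1
      rw [← Sylow.coe_subgroup_smul, hy, Sylow.coe_ofCard] at h2
      simpa [MulAut.smul_def] using h2
    obtain ⟨j, hj⟩ := Subgroup.mem_zpowers_iff.mp hmem
    have hyF := (hFmem y.1).mp y.2
    refine ⟨y.1 * x, G.mul_mem hyF.1 hxG, fun d hd => ?_, ?_⟩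
    · rw [Equiv.Perm.mul_apply, hx d hd, hyF.2 _ (hσ d hd)]
    · rw [Subgroup.mem_zpowers_iff]
      refine ⟨j, ?_⟩
      have h3 : g ^ j = y.1 * (x * g * x⁻¹) * y.1⁻¹ := by
        have := congrArg Subtype.val hj
        simpa using this
      rw [h3]; group
  obtain ⟨d1, hd1, d2, hd2, d3, hd3, h12, h13, h23⟩ :=
    Finset.two_lt_card.mp (by rw [hΔcard]; omega : 2 < Δ.card)
  have hswapΔ : ∀ a b : α, a ∈ Δ → b ∈ Δ → ∀ d ∈ Δ, Equiv.swap a b d ∈ Δ := by
    intro a b ha hb d hd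
    rw [Equiv.swap_apply_def]
    split_ifs <;> assumption
  obtain ⟨u, huG, hu, hug⟩ := hnorm (Equiv.swap d1 d2) (hswapΔ d1 d2 hd1 hd2)
  obtain ⟨v, hvG, hv, hvg⟩ := hnorm (Equiv.swap d2 d3) (hswapΔ d2 d3 hd2 hd3)
  have huinv : ∀ d ∈ Δ, u⁻¹ d = Equiv.swap d1 d2 d := by
    intro d hd
    rw [Equiv.Perm.inv_def, Equiv.symm_apply_eq, hu _ (hswapΔ d1 d2 hd1 hd2 d hd),
      Equiv.swap_apply_self]
  have hvinv : ∀ d ∈ Δ, v⁻¹ d = Equiv.swap d2 d3 d := by
    intro d hd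
    rw [Equiv.Perm.inv_def, Equiv.symm_apply_eq, hv _ (hswapΔ d2 d3 hd2 hd3 d hd),
      Equiv.swap_apply_self]
  have hcG : u⁻¹ * v⁻¹ * u * v ∈ G :=
    G.mul_mem (G.mul_mem (G.mul_mem (G.inv_mem huG) (G.inv_mem hvG)) huG) hvG
  have hcomm : Commute (u⁻¹ * v⁻¹ * u * v) g := comm_of_conj_zpow g u v hug hvg
  have hcΔ : ∀ d ∈ Δ, (u⁻¹ * v⁻¹ * u * v) d =
      (Equiv.swap d1 d2 * Equiv.swap d2 d3 * (Equiv.swap d1 d2 * Equiv.swap d2 d3)) d := by
    intro d hd
    simp only [Equiv.Perm.mul_apply]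
    have s1 := hswapΔ d2 d3 hd2 hd3 d hd
    have s2 := hswapΔ d1 d2 hd1 hd2 _ s1
    have s3 := hswapΔ d2 d3 hd2 hd3 _ s2
    rw [hv d hd, hu _ s1, hvinv _ s2, huinv _ s3]
  have hρΔ : ∀ d ∈ Δ,
      (Equiv.swap d1 d2 * Equiv.swap d2 d3 * (Equiv.swap d1 d2 * Equiv.swap d2 d3)) d ∈ Δ := by
    intro d hd
    simp only [Equiv.Perm.mul_apply]
    exact hswapΔ d1 d2 hd1 hd2 _ (hswapΔ d2 d3 hd2 hd3 _ (hswapΔ d1 d2 hd1 hd2 _
      (hswapΔ d2 d3 hd2 hd3 d hd)))
  have hρΓ : ∀ x, x ∉ Δ →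
      (Equiv.swap d1 d2 * Equiv.swap d2 d3 * (Equiv.swap d1 d2 * Equiv.swap d2 d3)) x = x := by
    intro x hx
    have e1 : ∀ a b, a ∈ Δ → b ∈ Δ → Equiv.swap a b x = x := fun a b ha hb =>
      Equiv.swap_apply_of_ne_of_ne (by rintro rfl; exact hx ha) (by rintro rfl; exact hx hb)
    simp only [Equiv.Perm.mul_apply, e1 d2 d3 hd2 hd3, e1 d1 d2 hd1 hd2]
  obtain ⟨x₀, hx₀⟩ : ∃ x₀, g x₀ ≠ x₀ := by
    obtain ⟨x, hx, -⟩ := hgc; exact ⟨x, hx⟩
  have hcx₀ : g ((u⁻¹ * v⁻¹ * u * v) x₀) ≠ (u⁻¹ * v⁻¹ * u * v) x₀ := by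
    intro h
    have h1 : (u⁻¹ * v⁻¹ * u * v) (g x₀) = g ((u⁻¹ * v⁻¹ * u * v) x₀) := by
      have := congrArg (fun f : Equiv.Perm α => f x₀) hcomm.eq
      simpa using this
    rw [h] at h1
    exact hx₀ ((u⁻¹ * v⁻¹ * u * v).injective h1)
  obtain ⟨l, hl⟩ := hgc.exists_zpow_eq hx₀ hcx₀
  have hc'G : (g ^ l)⁻¹ * (u⁻¹ * v⁻¹ * u * v) ∈ G :=
    G.mul_mem (G.inv_mem (G.zpow_mem hg l)) hcG
  have hc'comm : Commute ((g ^ l)⁻¹ * (u⁻¹ * v⁻¹ * u * v)) g :=
    (((Commute.refl g).zpow_left l).inv_left).mul_left hcomm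
  have hc'eq : (g ^ l)⁻¹ * (u⁻¹ * v⁻¹ * u * v) =
      Equiv.swap d1 d2 * Equiv.swap d2 d3 * (Equiv.swap d1 d2 * Equiv.swap d2 d3) := by
    ext x
    by_cases hx : x ∈ Δ
    · rw [Equiv.Perm.mul_apply, hcΔ x hx]
      have hfix : (g ^ l) ((Equiv.swap d1 d2 * Equiv.swap d2 d3 *
          (Equiv.swap d1 d2 * Equiv.swap d2 d3)) x) =
          (Equiv.swap d1 d2 * Equiv.swap d2 d3 * (Equiv.swap d1 d2 * Equiv.swap d2 d3)) x :=
        Equiv.Perm.zpow_apply_eq_self_of_apply_eq_self ((hΔmem _).mp (hρΔ x hx)) l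
      rw [Equiv.Perm.inv_def, Equiv.symm_apply_eq, hfix]
    · rw [hρΓ x hx]
      have hgx : g x ≠ x := by rwa [hΔmem] at hx
      obtain ⟨m', hm'⟩ := hgc.exists_zpow_eq hx₀ hgx
      have h0 : ((g ^ l)⁻¹ * (u⁻¹ * v⁻¹ * u * v)) x₀ = x₀ := by
        rw [Equiv.Perm.mul_apply, ← hl, Equiv.Perm.inv_def, Equiv.symm_apply_apply]
      rw [← hm']
      have h1 : ((g ^ l)⁻¹ * (u⁻¹ * v⁻¹ * u * v)) * g ^ m' =
          g ^ m' * ((g ^ l)⁻¹ * (u⁻¹ * v⁻¹ * u * v)) := (hc'comm.zpow_right m').eq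
      have h2 : ∀ f : Equiv.Perm α, f * g ^ m' = g ^ m' * f → f x₀ = x₀ →
          f ((g ^ m') x₀) = (g ^ m') x₀ := by
        intro f hf hf0
        have := congrArg (fun k : Equiv.Perm α => k x₀) hf
        simp only [Equiv.Perm.mul_apply] at this
        rw [this, hf0]
      exact h2 _ h1 h0
  rw [hc'eq] at hc'G
  have h3 : Equiv.Perm.IsThreeCycle
      (Equiv.swap d1 d2 * Equiv.swap d2 d3 * (Equiv.swap d1 d2 * Equiv.swap d2 d3)) := by
    apply Equiv.Perm.IsThreeCycle.isThreeCycle_sq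
    rw [Equiv.swap_comm d1 d2]
    exact Equiv.Perm.isThreeCycle_swap_mul_swap_same h12.symm h23 h13
  exact Equiv.Perm.alternatingGroup_le_of_isPreprimitive_of_isThreeCycle_mem hG h3 hc'G

end Cfsg.Agent.S0713
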