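-- Statement S0728: sharply 3-transitive groups, subgroups of order 3 in a two-point stabiliser.
import Cfsg.Statements.S0728
import Mathlib

set_option autoImplicit false
open Cfsg

namespace Cfsg.Agent.S0728

theorem inj3 {α : Type*} {u v w : α} (huv : u ≠ v) (huw : u ≠ w) (hvw : v ≠ w) :
    Function.Injective ![u, v, w] := by
  intro i j hij
  fin_cases i <;> fin_cases j <;> first | rfl | (exfalso; simp at hij; first | exact huv hij | exact huw hij | exact hvw hij | exact huv hij.symm | exact huw hij.symm | exact hvw hij.symm)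

section
variable {α : Type*} [Fintype α] [DecidableEq α] (G : Subgroup (Equiv.Perm α))

theorem trans3 (h3 : MulAction.IsMultiplyPretransitive G α 3) {x y z x' y' z' : α}
    (hxy : x ≠ y) (hxz : x ≠ z) (hyz : y ≠ z) (hxy' : x' ≠ y') (hxz' : x' ≠ z')
    (hyz' : y' ≠ z') : ∃ g : G, g • x = x' ∧ g • y = y' ∧ g • z = z' := by
  obtain ⟨g, hg⟩ := h3.exists_smul_eq (⟨![x, y, z], inj3 hxy hxz hyz⟩ : Fin 3 ↪ α)
    ⟨![x', y', z'], inj3 hxy' hxz' hyz'⟩
  refine ⟨g, ?_, ?_, ?_⟩
  · exact congrArg (fun e : Fin 3 ↪ α => e 0) hg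
  · exact congrArg (fun e : Fin 3 ↪ α => e 1) hg
  · exact congrArg (fun e : Fin 3 ↪ α => e 2) hg

theorem sharp3 (hsharp : ∀ x : Fin 3 ↪ α, MulAction.stabilizer G x = ⊥) {g : G} {x y z : α}
    (hxy : x ≠ y) (hxz : x ≠ z) (hyz : y ≠ z) (hx : g • x = x) (hy : g • y = y)
    (hz : g • z = z) : g = 1 := by
  have : g ∈ MulAction.stabilizer G (⟨![x, y, z], inj3 hxy hxz hyz⟩ : Fin 3 ↪ α) := by
    rw [MulAction.mem_stabilizer_iff]
    ext i
    fin_cases i
    · exact hx
    · exact hy
    · exact hz
  rw [hsharp] at this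
  exact Subgroup.mem_bot.mp this

/-- fixed points of a group element, as a finset -/
def fixF (t : G) : Finset α := Finset.univ.filter (fun x => t • x = x)

theorem mem_fixF (t : G) (x : α) : x ∈ fixF G t ↔ t • x = x := by
  simp [fixF]

theorem fixF_card_le (hsharp : ∀ x : Fin 3 ↪ α, MulAction.stabilizer G x = ⊥) (t : G)
    (ht : t ≠ 1) : (fixF G t).card ≤ 2 := by
  by_contra hcon
  push Not at hcon
  obtain ⟨x, hx, y, hy, z, hz, hxy, hxz, hyz⟩ := Finset.two_lt_card.mp hcon
  rw [mem_fixF] at hx hy hz
  exact ht (sharp3 G hsharp hxy hxz hyz hx hy hz)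

theorem fixF_card_mod (t : G) (ht : t ^ 3 = 1) :
    (fixF G t).card % 3 = Fintype.card α % 3 := by
  have : Fact (Nat.Prime 3) := ⟨Nat.prime_three⟩
  have h1 : ((t : Equiv.Perm α)) ^ 3 ^ 1 = 1 := by
    rw [pow_one, ← Subgroup.coe_pow, ht]; rfl
  have h2 := Equiv.Perm.card_compl_support_modEq h1
  have h3' : fixF G t = (Equiv.Perm.support (t : Equiv.Perm α))ᶜ := by
    ext x
    rw [mem_fixF, Finset.mem_compl, Equiv.Perm.notMem_support]
    rfl
  rw [h3']; exact h2

/-- number of elements of `T` fixing `x` and `y` -/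
def cnt (T : Finset G) (x y : α) : ℕ := (T.filter (fun t => t • x = x ∧ t • y = y)).card

theorem conj_ok (g t : G) (u v : α) (h : (t ≠ 1 ∧ t ^ 3 = 1) ∧ t • u = u ∧ t • v = v) :
    (g * t * g⁻¹ ≠ 1 ∧ (g * t * g⁻¹) ^ 3 = 1) ∧ (g * t * g⁻¹) • (g • u) = g • u ∧
      (g * t * g⁻¹) • (g • v) = g • v := by
  obtain ⟨⟨h1, h3⟩, hu, hv⟩ := h
  refine ⟨⟨?_, ?_⟩, ?_, ?_⟩
  · intro h
    apply h1
    have := congrArg (fun s => g⁻¹ * s * g) h
    simpa [mul_assoc] using this
  · rw [conj_pow, h3, mul_one, mul_inv_cancel]
  · rw [mul_smul, mul_smul, inv_smul_smul, hu]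
  · rw [mul_smul, mul_smul, inv_smul_smul, hv]

end

/-- In a sharply triply transitive group of even degree at least 6 (degree `q + 1`, `q` odd), a two-point stabiliser has at most one subgroup of order 3. -/
theorem result {α : Type*} [Fintype α] [DecidableEq α] (heven : Even (Fintype.card α)) (h6 : 6 ≤ Fintype.card α) (G : Subgroup (Equiv.Perm α)) (h3 : MulAction.IsMultiplyPretransitive G α 3) (hsharp : ∀ x : Fin 3 ↪ α, MulAction.stabilizer G x = ⊥) {a b : α} (hab : a ≠ b) (A B : Subgroup G) (hA : A ≤ MulAction.stabilizer G a ⊓ MulAction.stabilizer G b) (hB : B ≤ MulAction.stabilizer G a ⊓ MulAction.stabilizer G b) (hA3 : Nat.card A = 3) (hB3 : Nat.card B = 3) : A = B := by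
  classical
  -- an element of A of order 3
  have hA1 : ∃ t : G, t ∈ A ∧ t ≠ 1 := by
    by_contra hcon
    push Not at hcon
    have : A = ⊥ := by
      rw [eq_bot_iff]; intro t ht; exact Subgroup.mem_bot.mpr (hcon t ht)
    rw [this, Subgroup.card_bot] at hA3
    omega
  obtain ⟨t₀, ht₀A, ht₀1⟩ := hA1
  have hn2 : Fintype.card α % 3 = 2 := by
    have h1 := fixF_card_le G hsharp t₀ ht₀1
    have ht3 : t₀ ^ 3 = 1 := by
      have := pow_card_eq_one' (G := A) (x := ⟨t₀, ht₀A⟩)
      rw [hA3] at this
      exact congrArg Subtype.val this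
    have h2 := fixF_card_mod G t₀ ht3
    have hfix := hA ht₀A
    rw [Subgroup.mem_inf, MulAction.mem_stabilizer_iff, MulAction.mem_stabilizer_iff] at hfix
    have h3 : 2 ≤ (fixF G t₀).card := by
      have hsub : ({a, b} : Finset α) ⊆ fixF G t₀ := by
        intro x hx
        simp only [Finset.mem_insert, Finset.mem_singleton] at hx
        rw [mem_fixF]
        rcases hx with rfl | rfl
        · exact hfix.1
        · exact hfix.2
      have := Finset.card_le_card hsub
      rwa [Finset.card_pair hab] at this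
    omega
  set T : Finset G := Finset.univ.filter (fun t : G => t ≠ 1 ∧ t ^ 3 = 1) with hT
  have hT2 : ∀ t ∈ T, (fixF G t).card = 2 := by
    intro t ht
    rw [hT, Finset.mem_filter] at ht
    have h1 := fixF_card_le G hsharp t ht.2.1
    have h2 := fixF_card_mod G t ht.2.2
    omega
  -- conjugacy
  have hthird : ∀ x y : α, ∃ z, x ≠ z ∧ y ≠ z := by
    intro x y
    by_contra hcon
    push Not at hcon
    have hsub : (Finset.univ : Finset α) ⊆ {x, y} := by
      intro z _
      by_cases h : x = z
      · simp [h]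
      · simp [hcon z h]
    have h1 := Finset.card_le_card hsub
    have h2 := Finset.card_le_two (a := x) (b := y)
    rw [Finset.card_univ] at h1
    omega
  have hc : ∀ x y : α, x ≠ y → cnt G T x y = cnt G T a b := by
    intro x y hxy
    obtain ⟨z, hxz, hyz⟩ := hthird x y
    obtain ⟨w, haw, hbw⟩ := hthird a b
    obtain ⟨g, hga, hgb, -⟩ := trans3 G h3 hab haw hbw hxy hxz hyz
    symm
    unfold cnt
    apply Finset.card_nbij' (fun t => g * t * g⁻¹) (fun t => g⁻¹ * t * g)
    · intro t ht
      simp only [Finset.coe_filter, Set.mem_ofPred_eq, hT, Finset.mem_filter, Finset.mem_univ,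
        true_and] at ht ⊢
      have := conj_ok G g t a b ht
      rw [hga, hgb] at this
      exact this
    · intro t ht
      simp only [Finset.coe_filter, Set.mem_ofPred_eq, hT, Finset.mem_filter, Finset.mem_univ,
        true_and] at ht ⊢
      have := conj_ok G g⁻¹ t x y ht
      rw [← hga, ← hgb, inv_smul_smul, inv_smul_smul, inv_inv] at this
      exact this
    · intro t _
      simp only [mul_assoc, inv_mul_cancel_left, inv_mul_cancel, mul_one]
    · intro t _
      simp only [mul_assoc, mul_inv_cancel_left, mul_inv_cancel, mul_one]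
  have hK3 : ∑ p ∈ (Finset.univ : Finset α).offDiag, cnt G T p.1 p.2 = 2 * T.card := by
    have h1 : ∀ p : α × α, cnt G T p.1 p.2 =
        ∑ t ∈ T, if (t • p.1 = p.1 ∧ t • p.2 = p.2) then 1 else 0 := by
      intro p; unfold cnt; rw [Finset.card_filter]
    simp_rw [h1]
    rw [Finset.sum_comm]
    rw [show 2 * T.card = ∑ t ∈ T, 2 by simp [mul_comm]]
    apply Finset.sum_congr rfl
    intro t ht
    rw [← Finset.card_filter]
    have : (Finset.univ : Finset α).offDiag.filter (fun p => t • p.1 = p.1 ∧ t • p.2 = p.2) =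
        (fixF G t).offDiag := by
      ext p
      simp only [Finset.mem_filter, Finset.mem_offDiag, Finset.mem_univ, true_and, mem_fixF]
      tauto
    rw [this, Finset.offDiag_card, hT2 t ht]
  have hK23 : (Fintype.card α * Fintype.card α - Fintype.card α) * cnt G T a b = 2 * T.card := by
    rw [← hK3, Finset.sum_congr rfl (fun p hp => hc p.1 p.2 (Finset.mem_offDiag.mp hp).2.2),
      Finset.sum_const, smul_eq_mul, Finset.offDiag_card, Finset.card_univ]
  have hK4 : T.card * (Fintype.card α - 2) =
      Fintype.card α * (Fintype.card α - 1) * (Fintype.card α - 2) := by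
    have hE : Fintype.card (Fin 3 ↪ α) =
        Fintype.card α * (Fintype.card α - 1) * (Fintype.card α - 2) := by
      rw [Fintype.card_embedding_eq, Fintype.card_fin]
      simp [Nat.descFactorial]
      ring
    have h1 : ∀ e : Fin 3 ↪ α,
        (T.filter (fun t => t • e 0 = e 1 ∧ t • e 1 = e 2 ∧ t • e 2 = e 0)).card = 1 := by
      intro e
      rw [Finset.card_eq_one]
      have h01 : e 0 ≠ e 1 := by
        intro h; exact absurd (e.injective h) (by decide)
      have h02 : e 0 ≠ e 2 := by
        intro h; exact absurd (e.injective h) (by decide)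
      have h12 : e 1 ≠ e 2 := by
        intro h; exact absurd (e.injective h) (by decide)
      obtain ⟨t, ht0, ht1, ht2⟩ := trans3 G h3 h01 h02 h12 h12 (Ne.symm h01) (Ne.symm h02)
      refine ⟨t, ?_⟩
      ext t'
      rw [Finset.mem_filter, Finset.mem_singleton]
      constructor
      · rintro ⟨-, h0, h1', h2⟩
        have : t⁻¹ * t' = 1 := sharp3 G hsharp h01 h02 h12
          (by rw [mul_smul, h0, ← ht0, inv_smul_smul])
          (by rw [mul_smul, h1', ← ht1, inv_smul_smul])
          (by rw [mul_smul, h2, ← ht2, inv_smul_smul])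
        exact (inv_mul_eq_one.mp this).symm
      · rintro rfl
        refine ⟨?_, ht0, ht1, ht2⟩
        rw [hT, Finset.mem_filter]
        refine ⟨Finset.mem_univ _, ?_, ?_⟩
        · rintro rfl; rw [one_smul] at ht0; exact h01 ht0
        · have hp : ∀ x : α, (t' ^ 3) • x = t' • t' • t' • x := by
            intro x
            rw [pow_succ, pow_two, mul_smul, mul_smul]
          apply sharp3 G hsharp h01 h02 h12
          · rw [hp, ht0, ht1, ht2]
          · rw [hp, ht1, ht2, ht0]
          · rw [hp, ht2, ht0, ht1]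
    have h2 : ∀ t ∈ T, (Finset.univ.filter
        (fun e : Fin 3 ↪ α => t • e 0 = e 1 ∧ t • e 1 = e 2 ∧ t • e 2 = e 0)).card =
        Fintype.card α - 2 := by
      intro t ht
      have hsupp : (Finset.univ.filter (fun x : α => ¬ t • x = x)).card = Fintype.card α - 2 := by
        have := Finset.card_filter_add_card_filter_not (s := (Finset.univ : Finset α))
          (fun x => t • x = x)
        have h2 := hT2 t ht
        unfold fixF at h2
        rw [Finset.card_univ] at this
        omega
      rw [← hsupp]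
      rw [hT, Finset.mem_filter] at ht
      obtain ⟨-, ht1, ht3⟩ := ht
      have ht3' : ∀ x : α, t • t • t • x = x := by
        intro x
        rw [← mul_smul, ← mul_smul, ← pow_two, ← pow_succ, ht3, one_smul]
      apply Finset.card_bij (fun e _ => e 0)
      · intro e he
        rw [Finset.mem_filter] at he ⊢
        refine ⟨Finset.mem_univ _, ?_⟩
        rw [he.2.1]
        intro h; exact absurd (e.injective h) (by decide)
      · intro e he e' he' h0
        rw [Finset.mem_filter] at he he'
        obtain ⟨-, h0e, h1e, h2e⟩ := he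
        obtain ⟨-, h0e', h1e', h2e'⟩ := he'
        have h1 : e 1 = e' 1 := by rw [← h0e, ← h0e', h0]
        have h2 : e 2 = e' 2 := by rw [← h1e, ← h1e', h1]
        ext i
        fin_cases i
        · exact h0
        · exact h1
        · exact h2
      · intro x hx
        rw [Finset.mem_filter] at hx
        have hx' : x ≠ t • x := fun h => hx.2 h.symm
        have hx'' : t • x ≠ t • t • x := fun h => hx' (smul_left_cancel t h)
        have hx''' : x ≠ t • t • x := by
          intro h
          apply hx'
          have := congrArg (fun y => t • y) h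
          simp only [ht3'] at this
          exact this.symm
        refine ⟨⟨![x, t • x, t • t • x], inj3 hx' hx''' hx''⟩, ?_, rfl⟩
        rw [Finset.mem_filter]
        exact ⟨Finset.mem_univ _, rfl, rfl, ht3' x⟩
    have h3'' : Fintype.card (Fin 3 ↪ α) = ∑ t ∈ T, (Finset.univ.filter
        (fun e : Fin 3 ↪ α => t • e 0 = e 1 ∧ t • e 1 = e 2 ∧ t • e 2 = e 0)).card := by
      rw [← Finset.card_univ, Finset.card_eq_sum_ones]
      have : ∀ e : Fin 3 ↪ α, (1 : ℕ) =
          ∑ t ∈ T, if (t • e 0 = e 1 ∧ t • e 1 = e 2 ∧ t • e 2 = e 0) then 1 else 0 := by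
        intro e; rw [← Finset.card_filter, h1 e]
      rw [Finset.sum_congr rfl (fun e _ => this e), Finset.sum_comm]
      apply Finset.sum_congr rfl
      intro t _
      rw [Finset.card_filter]
    rw [← hE, h3'', Finset.sum_congr rfl h2, Finset.sum_const, smul_eq_mul]
  have hTcard : T.card = Fintype.card α * (Fintype.card α - 1) :=
    Nat.eq_of_mul_eq_mul_right (by omega : 0 < Fintype.card α - 2) hK4
  have hcab : cnt G T a b = 2 := by
    rw [hTcard] at hK23
    have h1 : Fintype.card α * Fintype.card α - Fintype.card α =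
        Fintype.card α * (Fintype.card α - 1) := by
      rw [Nat.mul_sub_one]
    rw [h1, mul_comm] at hK23
    have hpos : 0 < Fintype.card α * (Fintype.card α - 1) :=
      Nat.mul_pos (by omega) (by omega)
    exact Nat.eq_of_mul_eq_mul_right hpos hK23
  have key : ∀ C : Subgroup G, C ≤ MulAction.stabilizer G a ⊓ MulAction.stabilizer G b →
      Nat.card C = 3 → ∀ t : G, t ∈ C ↔
        t = 1 ∨ t ∈ T.filter (fun t => t • a = a ∧ t • b = b) := by
    intro C hC hC3
    have hsub : (Finset.univ.filter (fun t : G => t ∈ C)).erase 1 ⊆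
        T.filter (fun t => t • a = a ∧ t • b = b) := by
      intro t ht
      rw [Finset.mem_erase, Finset.mem_filter] at ht
      obtain ⟨ht1, -, htC⟩ := ht
      rw [Finset.mem_filter, hT, Finset.mem_filter]
      have hfix := hC htC
      rw [Subgroup.mem_inf, MulAction.mem_stabilizer_iff, MulAction.mem_stabilizer_iff] at hfix
      refine ⟨⟨Finset.mem_univ _, ht1, ?_⟩, hfix⟩
      have := pow_card_eq_one' (G := C) (x := ⟨t, htC⟩)
      rw [hC3] at this
      exact congrArg Subtype.val this
    have hcard : ((Finset.univ.filter (fun t : G => t ∈ C)).erase 1).card = 2 := by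
      rw [Finset.card_erase_of_mem (by rw [Finset.mem_filter]; exact ⟨Finset.mem_univ _, C.one_mem⟩)]
      have : (Finset.univ.filter (fun t : G => t ∈ C)).card = 3 := by
        rw [← hC3, Nat.card_eq_fintype_card, Fintype.card_subtype]
      rw [this]
    have heq := Finset.eq_of_subset_of_card_le hsub (by rw [hcard]; exact hcab.le)
    intro t
    rw [← heq, Finset.mem_erase, Finset.mem_filter]
    constructor
    · intro ht
      by_cases h1 : t = 1
      · exact Or.inl h1
      · exact Or.inr ⟨h1, Finset.mem_univ _, ht⟩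
    · rintro (rfl | ⟨-, -, h⟩)
      · exact C.one_mem
      · exact h
  ext t
  rw [key A hA hA3, key B hB hB3]

end Cfsg.Agent.S0728
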