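-- Statement S0729: sharply 3-transitive groups of even degree, index-2 subgroup of a two-point
-- stabiliser normalised by the involution interchanging the two points.
import Cfsg.Statements.S0729
import Cfsg.Agent.S0728
import Cfsg.Agent.Helper59.Sharp3Even

set_option autoImplicit false
open Cfsg

namespace Cfsg.Agent.S0729

open Cfsg.Agent.Helper59 Cfsg.Agent.Helper59.Sharp3Even

/-- A two-point stabiliser of a sharply 3-transitive permutation group of even degree at least 6
has a subgroup of index two. -/
theorem exists_index_two {α : Type*} [Fintype α] [DecidableEq α] (heven : Even (Fintype.card α))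
    (h6 : 6 ≤ Fintype.card α) (G : Subgroup (Equiv.Perm α))
    (h3 : MulAction.IsMultiplyPretransitive G α 3)
    (hsharp : ∀ x : Fin 3 ↪ α, MulAction.stabilizer G x = ⊥) {a b c : α} (hab : a ≠ b)
    (hac : a ≠ c) (hbc : b ≠ c) {p : ℕ} {K : Subgroup G} (hp : p.Prime) (hp2 : p ≠ 2)
    (Kp : ∀ x ∈ K, x ^ p = 1) (C : Ctx G α a b K) :
    ∃ N : Subgroup ↥(MulAction.stabilizer G a ⊓ MulAction.stabilizer G b),
      N.Normal ∧ N.index = 2 := by
  haveI : Fact p.Prime := ⟨hp⟩
  rcases C.dichotomy hac.symm hbc.symm hp2 Kp with h | h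
  · exact h
  · exfalso
    obtain ⟨A, B, hA, hB, hAB⟩ := h.two_three
    apply hAB
    have hinj := Subgroup.subtype_injective (MulAction.stabilizer G a ⊓ MulAction.stabilizer G b)
    have h1 := Cfsg.Agent.S0728.result heven h6 G h3 hsharp hab
      (A.map (Subgroup.subtype _)) (B.map (Subgroup.subtype _))
      (Subgroup.map_subtype_le A) (Subgroup.map_subtype_le B)
      (by rw [Subgroup.card_map_of_injective hinj, hA])
      (by rw [Subgroup.card_map_of_injective hinj, hB])
    exact Subgroup.map_injective hinj h1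

/-- In a sharply triply transitive group of even degree at least 6, the two-point stabiliser `H = G_{a,b}` has a normal subgroup of index 2 that is normalised by the element `s` interchanging `a, b` and fixing a third point `c`. -/
theorem result {α : Type*} [Fintype α] [DecidableEq α] (heven : Even (Fintype.card α)) (h6 : 6 ≤ Fintype.card α) (G : Subgroup (Equiv.Perm α)) (h3 : MulAction.IsMultiplyPretransitive G α 3) (hsharp : ∀ x : Fin 3 ↪ α, MulAction.stabilizer G x = ⊥) {a b c : α} (hab : a ≠ b) (hac : a ≠ c) (hbc : b ≠ c) (s : G) (hsa : s • a = b) (hsb : s • b = a) (hsc : s • c = c) : ∃ N : Subgroup G, N ≤ MulAction.stabilizer G a ⊓ MulAction.stabilizer G b ∧ (N.subgroupOf (MulAction.stabilizer G a ⊓ MulAction.stabilizer G b)).Normal ∧ N.relIndex (MulAction.stabilizer G a ⊓ MulAction.stabilizer G b) = 2 ∧ ∀ n ∈ N, s * n * s⁻¹ ∈ N := by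
  obtain ⟨p, K, hp, hp2, Kp, C⟩ := Ctx.of_sharp h3 hsharp heven (by omega) hab
  obtain ⟨N, -, hN2⟩ := exists_index_two heven h6 G h3 hsharp hab hac hbc hp hp2 Kp C
  have hss : s * s = 1 := C.tau_sq hac.symm hbc.symm hsa hsb hsc
  have hsi : s⁻¹ = s := inv_eq_of_mul_eq_one_left hss
  obtain ⟨f, hf1, hfinv⟩ := exists_invariant_char N hN2 (conjH hsa hsb) (by
    intro x
    apply Subtype.ext
    rw [conjH_coe, conjH_coe, hsi]
    calc s * (s * (x : G) * s) * s = (s * s) * x * (s * s) := by group
      _ = x := by rw [hss, one_mul, mul_one])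
  have hinj := Subgroup.subtype_injective (MulAction.stabilizer G a ⊓ MulAction.stabilizer G b)
  have hidx : f.ker.index = 2 := by
    obtain ⟨x, hx⟩ : ∃ x, f x ≠ 1 := by
      by_contra hcon
      push Not at hcon
      exact hf1 (MonoidHom.ext hcon)
    exact Helper12.index_two_ker_of_neg_one f x ((Int.units_eq_one_or (f x)).resolve_left hx)
  refine ⟨f.ker.map (Subgroup.subtype _), Subgroup.map_subtype_le _, ?_, ?_, ?_⟩
  · show ((f.ker.map (Subgroup.subtype _)).comap (Subgroup.subtype _)).Normal
    rw [Subgroup.comap_map_eq_self_of_injective hinj]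
    infer_instance
  · show ((f.ker.map (Subgroup.subtype _)).comap (Subgroup.subtype _)).index = 2
    rw [Subgroup.comap_map_eq_self_of_injective hinj]
    exact hidx
  · rintro _ ⟨x, hx, rfl⟩
    have hx' : f x = 1 := MonoidHom.mem_ker.mp hx
    refine ⟨conjH hsa hsb x, ?_, rfl⟩
    show conjH hsa hsb x ∈ f.ker
    rw [MonoidHom.mem_ker, hfinv, hx']

end Cfsg.Agent.S0729
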