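import Cfsg.Statements.S0741
-- import your own Cfsg.Agent.* helpers here

set_option autoImplicit false
open Cfsg

namespace Cfsg.Agent.S0741

open MulAction

section core

open Classical

variable {G Ω : Type*} [Group G] [Fintype G] [MulAction G Ω] [Fintype Ω]

/-- Double count of involutions with two fixed points. -/
lemma core (h2 : ∀ x y x' y' : Ω, x ≠ y → x' ≠ y' → ∃ g : G, g • x = x' ∧ g • y = y')
    (h3 : ∀ g : G, ∀ a b c : Ω, a ≠ b → b ≠ c → a ≠ c → g • a = a → g • b = b → g • c = c → g = 1)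
    {a b : Ω} (hab : a ≠ b) (t₀ : G) (ht₀ : t₀ ≠ 1) (ht₀2 : t₀ * t₀ = 1) (hta : t₀ • a = a)
    (htb : t₀ • b = b) :
    Fintype.card Ω - 2 ≤ 2 * (Finset.univ.filter (fun g : G => g • a = a ∧ g • b = b)).card := by
  have hfix : ∀ t : G, t ≠ 1 → (Finset.univ.filter (fun x : Ω => t • x = x)).card ≤ 2 := by
    intro t ht
    by_contra hcon
    push Not at hcon
    rw [Finset.two_lt_card] at hcon
    obtain ⟨x, hx, y, hy, z, hz, hxy, hxz, hyz⟩ := hcon
    simp only [Finset.mem_filter, Finset.mem_univ, true_and] at hx hy hz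
    exact ht (h3 t x y z hxy hyz hxz hx hy hz)
  have hf : ∀ p : Ω × Ω, ∃ t : G, p.1 ≠ p.2 →
      (t ≠ 1 ∧ t * t = 1 ∧ t • p.1 = p.1 ∧ t • p.2 = p.2) := by
    intro p
    by_cases hp : p.1 ≠ p.2
    · obtain ⟨g, hg1, hg2⟩ := h2 a b p.1 p.2 hab hp
      refine ⟨g * t₀ * g⁻¹, fun _ => ⟨?_, ?_, ?_, ?_⟩⟩
      · intro h
        apply ht₀
        have h' : t₀ = g⁻¹ * (g * t₀ * g⁻¹) * g := by group
        rw [h', h]
        group
      · calc g * t₀ * g⁻¹ * (g * t₀ * g⁻¹) = g * (t₀ * t₀) * g⁻¹ := by group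
          _ = 1 := by rw [ht₀2]; group
      · rw [mul_smul, mul_smul, ← hg1, inv_smul_smul, hta]
      · rw [mul_smul, mul_smul, ← hg2, inv_smul_smul, htb]
    · exact ⟨1, fun h => absurd h hp⟩
  choose f hf using hf
  generalize hP : (Finset.univ : Finset Ω).offDiag = P
  have hPmem : ∀ p : Ω × Ω, p ∈ P ↔ p.1 ≠ p.2 := by
    intro p
    rw [← hP, Finset.mem_offDiag]
    simp
  generalize hJ : P.image f = J
  have hJprop : ∀ t ∈ J, t ≠ 1 ∧ t * t = 1 := by
    intro t ht
    rw [← hJ, Finset.mem_image] at ht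
    obtain ⟨p, hp, rfl⟩ := ht
    rw [hPmem] at hp
    exact ⟨(hf p hp).1, (hf p hp).2.1⟩
  have h6 : P.card ≤ 2 * J.card := by
    rw [← hJ]
    apply Finset.card_le_mul_card_image
    intro t ht
    rw [hJ] at ht
    have htJ := hJprop t ht
    calc (P.filter (fun p => f p = t)).card
        ≤ ((Finset.univ.filter (fun x : Ω => t • x = x)).offDiag).card := by
          apply Finset.card_le_card
          intro p hp
          rw [Finset.mem_filter, hPmem] at hp
          obtain ⟨hne, rfl⟩ := hp
          rw [Finset.mem_offDiag]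
          simp only [Finset.mem_filter, Finset.mem_univ, true_and]
          exact ⟨(hf p hne).2.2.1, (hf p hne).2.2.2, hne⟩
      _ ≤ 2 := by
          rw [Finset.offDiag_card]
          have := hfix t htJ.1
          generalize (Finset.univ.filter (fun x : Ω => t • x = x)).card = c at this
          interval_cases c <;> simp
  have h5 : ∀ t ∈ J, Fintype.card Ω - 2 ≤ (P.filter (fun p => t • p.1 = p.2)).card := by
    intro t ht
    have htJ := hJprop t ht
    have h1 : (Finset.univ.filter (fun x : Ω => ¬ t • x = x)).card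
        ≤ (P.filter (fun p => t • p.1 = p.2)).card := by
      apply Finset.card_le_card_of_injOn (fun x => (x, t • x))
      · intro x hx
        rw [Finset.mem_coe, Finset.mem_filter] at hx ⊢
        rw [hPmem]
        exact ⟨fun h => hx.2 h.symm, rfl⟩
      · intro x _ y _ hxy
        exact (Prod.mk.inj hxy).1
    have h2' := Finset.card_filter_add_card_filter_not (s := (Finset.univ : Finset Ω))
      (fun x : Ω => t • x = x)
    rw [Finset.card_univ] at h2'
    have h3' := hfix t htJ.1
    omega
  have h4 : ∀ p ∈ P, (J.filter (fun t => t • p.1 = p.2)).card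
      ≤ (Finset.univ.filter (fun g : G => g • a = a ∧ g • b = b)).card := by
    rintro ⟨x, y⟩ hp
    rw [hPmem] at hp
    have hxy : x ≠ y := hp
    rcases (J.filter (fun t => t • x = y)).eq_empty_or_nonempty with hempty | ⟨g₀, hg₀⟩
    · show (J.filter (fun t => t • x = y)).card ≤ _
      rw [hempty]
      simp
    · obtain ⟨k, hk1, hk2⟩ := h2 a b x y hab hxy
      rw [Finset.mem_filter] at hg₀
      have hg₀y : g₀ • y = x := by
        rw [← hg₀.2, ← mul_smul, (hJprop g₀ hg₀.1).2, one_smul]
      apply Finset.card_le_card_of_injOn (fun g => k⁻¹ * g₀⁻¹ * g * k)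
      · intro g hg
        rw [Finset.mem_coe, Finset.mem_filter] at hg ⊢
        refine ⟨Finset.mem_univ _, ?_⟩
        obtain ⟨hgJ, hgx0⟩ := hg
        have hgx : g • x = y := hgx0
        have hgy : g • y = x := by
          rw [← hgx, ← mul_smul, (hJprop g hgJ).2, one_smul]
        constructor
        · rw [mul_smul, mul_smul, mul_smul, hk1, hgx, inv_smul_eq_iff, inv_smul_eq_iff, hk1, hg₀.2]
        · rw [mul_smul, mul_smul, mul_smul, hk2, hgy, inv_smul_eq_iff, inv_smul_eq_iff, hk2, hg₀y]
      · intro g _ g' _ h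
        exact mul_left_cancel (mul_right_cancel h)
  have hsum : ∑ t ∈ J, (P.filter (fun p => t • p.1 = p.2)).card
      = ∑ p ∈ P, (J.filter (fun t => t • p.1 = p.2)).card := by
    simp only [Finset.card_filter]
    exact Finset.sum_comm
  have hlow : J.card * (Fintype.card Ω - 2) ≤ ∑ t ∈ J, (P.filter (fun p => t • p.1 = p.2)).card := by
    rw [← smul_eq_mul, ← Finset.sum_const]
    exact Finset.sum_le_sum h5
  have hupp : ∑ p ∈ P, (J.filter (fun t => t • p.1 = p.2)).card
      ≤ P.card * (Finset.univ.filter (fun g : G => g • a = a ∧ g • b = b)).card := by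
    rw [← smul_eq_mul, ← Finset.sum_const]
    exact Finset.sum_le_sum h4
  have hPpos : 0 < P.card := Finset.card_pos.mpr ⟨(a, b), (hPmem _).mpr hab⟩
  rw [hsum] at hlow
  have hfin : P.card * (Fintype.card Ω - 2)
      ≤ P.card * (2 * (Finset.univ.filter (fun g : G => g • a = a ∧ g • b = b)).card) := by
    calc P.card * (Fintype.card Ω - 2) ≤ (2 * J.card) * (Fintype.card Ω - 2) :=
          Nat.mul_le_mul_right _ h6
      _ = 2 * (J.card * (Fintype.card Ω - 2)) := by ring
      _ ≤ 2 * (P.card * (Finset.univ.filter (fun g : G => g • a = a ∧ g • b = b)).card) :=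
          Nat.mul_le_mul_left 2 (hlow.trans hupp)
      _ = P.card * (2 * (Finset.univ.filter (fun g : G => g • a = a ∧ g • b = b)).card) := by ring
  exact Nat.le_of_mul_le_mul_left hfin hPpos

lemma card_stab (a b : Ω) : Nat.card ↥(stabilizer G a ⊓ stabilizer G b)
    = (Finset.univ.filter (fun g : G => g • a = a ∧ g • b = b)).card := by
  rw [← Nat.card_eq_finsetCard]
  exact Nat.card_congr (Equiv.subtypeEquivRight (fun g => by simp [Subgroup.mem_inf]))

end core

/-- If the two-point stabilisers of a finite Zassenhaus group of degree `n + 1` have even order `d`, then `2d ≥ n - 1`. -/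
theorem result {G Ω : Type*} [Group G] [Finite G] [MulAction G Ω] [Fintype Ω] (hZ : Cfsg.IsZassenhausGroup G Ω) {a b : Ω} (hab : a ≠ b) (heven : Even (Nat.card ↥(MulAction.stabilizer G a ⊓ MulAction.stabilizer G b))) : Fintype.card Ω - 2 ≤ 2 * Nat.card ↥(MulAction.stabilizer G a ⊓ MulAction.stabilizer G b) := by
  obtain ⟨_, h2, h3, _, _⟩ := hZ
  rw [MulAction.is_two_pretransitive_iff] at h2
  cases nonempty_fintype G
  have : Fact (Nat.Prime 2) := ⟨Nat.prime_two⟩
  obtain ⟨h, hh⟩ := exists_prime_orderOf_dvd_card' (G := ↥(stabilizer G a ⊓ stabilizer G b)) 2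
    (even_iff_two_dvd.mp heven)
  have hmem := h.2
  rw [Subgroup.mem_inf, mem_stabilizer_iff, mem_stabilizer_iff] at hmem
  have hne : (h : G) ≠ 1 := by
    intro h1
    have h1' : h = 1 := Subtype.ext h1
    rw [h1', orderOf_one] at hh
    omega
  have hsq : (h : G) * (h : G) = 1 := by
    have h1 := pow_orderOf_eq_one h
    rw [hh, pow_two] at h1
    exact congrArg Subtype.val h1
  have hcore := core (fun x y x' y' hxy hxy' => h2 hxy hxy') h3 hab (h : G) hne hsq hmem.1 hmem.2
  rw [card_stab]
  exact hcore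

end Cfsg.Agent.S0741
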