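import Cfsg.Statements.S0445
import Mathlib

set_option autoImplicit false
open Cfsg

namespace Cfsg.Agent.S0445

abbrev M5 := Matrix (Fin 5) (Fin 5) (ZMod 2)

/-- the transvection, explicitly -/
def T : M5 := !![1,1,0,0,0; 0,1,0,0,0; 0,0,1,0,0; 0,0,0,1,0; 0,0,0,0,1]

theorem T_eq : (Matrix.transvection 0 1 1 : M5) = T := by decide

/-- the general element of the centraliser -/
def build (a : ZMod 2) (u : Fin 4 → ZMod 2) (v : Fin 3 → ZMod 2)
    (B : Matrix (Fin 3) (Fin 3) (ZMod 2)) : M5 :=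
  !![a, u 0, u 1, u 2, u 3;
     0, a, 0, 0, 0;
     0, v 0, B 0 0, B 0 1, B 0 2;
     0, v 1, B 1 0, B 1 1, B 1 2;
     0, v 2, B 2 0, B 2 1, B 2 2]

theorem build_comm (a : ZMod 2) (u : Fin 4 → ZMod 2) (v : Fin 3 → ZMod 2)
    (B : Matrix (Fin 3) (Fin 3) (ZMod 2)) : build a u v B * T = T * build a u v B := by
  ext i j
  fin_cases i <;> fin_cases j <;>
    simp [build, T, Matrix.mul_apply, Fin.sum_univ_five, add_comm]

theorem det_build (a : ZMod 2) (u : Fin 4 → ZMod 2) (v : Fin 3 → ZMod 2)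
    (B : Matrix (Fin 3) (Fin 3) (ZMod 2)) : (build a u v B).det = a * a * B.det := by
  have h1 : (build a u v B).submatrix Fin.succ Fin.succ =
      !![a, 0, 0, 0; v 0, B 0 0, B 0 1, B 0 2; v 1, B 1 0, B 1 1, B 1 2;
         v 2, B 2 0, B 2 1, B 2 2] := by
    ext i j
    fin_cases i <;> fin_cases j <;> rfl
  have h2 : (!![a, 0, 0, 0; v 0, B 0 0, B 0 1, B 0 2; v 1, B 1 0, B 1 1, B 1 2;
         v 2, B 2 0, B 2 1, B 2 2] : Matrix (Fin 4) (Fin 4) (ZMod 2)).submatrix Fin.succ Fin.succ
         = B := by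
    ext i j
    fin_cases i <;> fin_cases j <;> rfl
  have h3 : (build a u v B).det = a * ((build a u v B).submatrix Fin.succ Fin.succ).det := by
    rw [Matrix.det_succ_column_zero]
    simp [Fin.sum_univ_succ, build]
  rw [h3, h1, Matrix.det_succ_row_zero]
  simp [Fin.sum_univ_succ]
  rw [h2, mul_assoc]

theorem eq_build (A : M5) (h : A * T = T * A) :
    A = build (A 0 0) (fun j => A 0 j.succ) (fun i => A i.succ.succ 1)
      (fun i j => A i.succ.succ j.succ.succ) := by
  have e : ∀ i j, (A * T) i j = (T * A) i j := fun i j => by rw [h]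
  have e01 := e 0 1
  have e00 := e 0 0
  have e02 := e 0 2
  have e03 := e 0 3
  have e04 := e 0 4
  have e11 := e 1 1
  have e21 := e 2 1
  have e31 := e 3 1
  have e41 := e 4 1
  simp [T, Matrix.mul_apply, Fin.sum_univ_five] at e00 e01 e02 e03 e04 e11 e21 e31 e41
  have e01' : A 1 1 = A 0 0 := by
    rw [add_comm] at e01
    exact (add_left_cancel e01).symm
  ext i j
  fin_cases i <;> fin_cases j <;> simp [build, *]

theorem zmod2_aux : ∀ a d : ZMod 2, a * a * d = 1 → a = 1 ∧ d = 1 := by decide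

/-- the bottom right block of a matrix -/
def block (A : M5) : Matrix (Fin 3) (Fin 3) (ZMod 2) := fun i j => A i.succ.succ j.succ.succ

theorem block_build (a : ZMod 2) (u : Fin 4 → ZMod 2) (v : Fin 3 → ZMod 2)
    (B : Matrix (Fin 3) (Fin 3) (ZMod 2)) : block (build a u v B) = B := by
  ext i j
  fin_cases i <;> fin_cases j <;> rfl

theorem row_build (a : ZMod 2) (u : Fin 4 → ZMod 2) (v : Fin 3 → ZMod 2)
    (B : Matrix (Fin 3) (Fin 3) (ZMod 2)) : (fun j : Fin 4 => build a u v B 0 j.succ) = u := by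
  ext j
  fin_cases j <;> rfl

theorem col_build (a : ZMod 2) (u : Fin 4 → ZMod 2) (v : Fin 3 → ZMod 2)
    (B : Matrix (Fin 3) (Fin 3) (ZMod 2)) :
    (fun i : Fin 3 => build a u v B i.succ.succ 1) = v := by
  ext i
  fin_cases i <;> rfl

/-- a matrix of determinant one commuting with `T` has the standard shape -/
theorem eq_build_one (A : M5) (hdet : A.det = 1) (h : A * T = T * A) :
    A = build 1 (fun j => A 0 j.succ) (fun i => A i.succ.succ 1) (block A) ∧ (block A).det = 1 := by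
  have h1 := eq_build A h
  have h2 := det_build (A 0 0) (fun j => A 0 j.succ) (fun i => A i.succ.succ 1) (block A)
  have h1' : A = build (A 0 0) (fun j => A 0 j.succ) (fun i => A i.succ.succ 1) (block A) := h1
  rw [← h1', hdet] at h2
  obtain ⟨h3, h4⟩ := zmod2_aux _ _ h2.symm
  refine ⟨?_, h4⟩
  rw [h3] at h1'
  exact h1'

abbrev SL5 := Matrix.SpecialLinearGroup (Fin 5) (ZMod 2)

theorem mem_centralizer_iff' (s : SL5) (hs : (s : M5) = Matrix.transvection 0 1 1) (g : SL5) :
    g ∈ Subgroup.centralizer ({s} : Set SL5) ↔ (g : M5) * T = T * (g : M5) := by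
  rw [Subgroup.mem_centralizer_iff]
  constructor
  · intro h
    have h1 := h s rfl
    have h2 := congrArg (fun x : SL5 => (x : M5)) h1
    simp only [Matrix.SpecialLinearGroup.coe_mul, hs, T_eq] at h2
    exact h2.symm
  · intro h x hx
    rw [Set.mem_singleton_iff] at hx
    subst hx
    apply Subtype.ext
    simp only [Matrix.SpecialLinearGroup.coe_mul, hs, T_eq]
    exact h.symm

/-- the centraliser, parametrised -/
def centEquiv (s : SL5) (hs : (s : M5) = Matrix.transvection 0 1 1) :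
    Subgroup.centralizer ({s} : Set SL5) ≃
      (Fin 4 → ZMod 2) × (Fin 3 → ZMod 2) × Matrix.SpecialLinearGroup (Fin 3) (ZMod 2) where
  toFun g := (fun j => (g.1 : M5) 0 j.succ, fun i => (g.1 : M5) i.succ.succ 1,
    ⟨block (g.1 : M5), (eq_build_one (g.1 : M5) g.1.2 ((mem_centralizer_iff' s hs g.1).mp g.2)).2⟩)
  invFun p := ⟨⟨build 1 p.1 p.2.1 p.2.2.1, by rw [det_build, p.2.2.2]; simp⟩,
    (mem_centralizer_iff' s hs _).mpr (build_comm _ _ _ _)⟩
  left_inv g := by
    apply Subtype.ext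
    apply Subtype.ext
    exact (eq_build_one (g.1 : M5) g.1.2 ((mem_centralizer_iff' s hs g.1).mp g.2)).1.symm
  right_inv p := by
    obtain ⟨u, v, B⟩ := p
    refine Prod.ext ?_ (Prod.ext ?_ ?_)
    · exact row_build 1 u v B.1
    · exact col_build 1 u v B.1
    · apply Subtype.ext
      exact block_build 1 u v B.1

/-- `SL(3,2)` and `GL(3,2)` have the same elements -/
noncomputable def slEquivGL : Matrix.SpecialLinearGroup (Fin 3) (ZMod 2) ≃ GL (Fin 3) (ZMod 2) where
  toFun B := Matrix.GeneralLinearGroup.mk'' B.1 (by rw [B.2]; exact isUnit_one)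
  invFun g := ⟨(g : Matrix (Fin 3) (Fin 3) (ZMod 2)), by
    have h : IsUnit (g : Matrix (Fin 3) (Fin 3) (ZMod 2)).det :=
      (Matrix.isUnit_iff_isUnit_det _).mp g.isUnit
    have h2 : ∀ x : ZMod 2, x ≠ 0 → x = 1 := by decide
    exact h2 _ h.ne_zero⟩
  left_inv B := by
    apply Subtype.ext
    rfl
  right_inv g := by
    apply Units.ext
    rfl

theorem card_SL3 : Nat.card (Matrix.SpecialLinearGroup (Fin 3) (ZMod 2)) = 168 := by
  rw [Nat.card_congr slEquivGL, Matrix.card_GL_field]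
  simp [Fin.prod_univ_succ, ZMod.card]

theorem result (s : Matrix.SpecialLinearGroup (Fin 5) (ZMod 2)) (hs : (s : Matrix (Fin 5) (Fin 5) (ZMod 2)) = Matrix.transvection 0 1 1) : Nat.card (Subgroup.centralizer ({s} : Set (Matrix.SpecialLinearGroup (Fin 5) (ZMod 2)))) = 21504 := by
  rw [Nat.card_congr (centEquiv s hs), Nat.card_prod, Nat.card_prod, card_SL3, Nat.card_fun,
    Nat.card_fun]
  simp

end Cfsg.Agent.S0445
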