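-- S4010: a finite p-subgroup of GL_n(F) has derived length at most floor(log2 n) + 1.
-- Proof (lead): extend scalars to the algebraic closure K.  If char K = p the group stabilises
-- subspaces of every dimension (fixed vectors); halving the dimension gives derived length
-- <= clog2 n.  If char K != p: strong induction on n; a proper invariant subspace W gives faithful
-- action on W + V/W (no unipotent p-elements); in the irreducible non-abelian case central elements
-- are scalars, z in Z_2 \ Z has eigenspaces of dimension <= n/2 permuted by P and stabilised by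
-- C_P(z), which contains the commutator subgroup.
import Mathlib
import Cfsg.Statements.S4010

set_option autoImplicit false
open Cfsg

namespace Cfsg.Agent.S4010

open Module

universe u v w

theorem one_add_pow_of_sq_zero {R : Type*} [Ring R] (N : R) (h : N * N = 0) (m : ℕ) :
    (1 + N) ^ m = 1 + m • N := by
  induction m with
  | zero => simp
  | succ m ih =>
    rw [pow_succ, ih, mul_add, mul_one, add_mul, one_mul, smul_mul_assoc, h, smul_zero, add_zero,
      succ_nsmul]
    abel

theorem dS_le_ker_of_quot {P : Type u} [Group P] {M : Type*} [Monoid M] (ρ : P →* M) (k : ℕ)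
    (h : derivedSeries (P ⧸ ρ.ker) k = ⊥) : derivedSeries P k ≤ ρ.ker := by
  have h1 := map_derivedSeries_le_derivedSeries (QuotientGroup.mk' ρ.ker) k
  rw [h] at h1
  intro x hx
  have hx' : QuotientGroup.mk' ρ.ker x ∈ (⊥ : Subgroup (P ⧸ ρ.ker)) :=
    h1 (Subgroup.mem_map_of_mem _ hx)
  rw [Subgroup.mem_bot] at hx'
  exact (QuotientGroup.eq_one_iff x).mp hx'

theorem dS_succ_le {P : Type*} [Group P] (M : Subgroup P) (h : commutator P ≤ M) (k : ℕ) :
    derivedSeries P (k + 1) ≤ (derivedSeries M k).map M.subtype := by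
  induction k with
  | zero =>
    rw [derivedSeries_one, derivedSeries_zero, ← MonoidHom.range_eq_map, Subgroup.range_subtype]
    exact h
  | succ k ih =>
    rw [derivedSeries_succ, derivedSeries_succ (G := M), Subgroup.map_commutator]
    exact Subgroup.commutator_mono ih ih

theorem quot_inj {P : Type*} [Group P] {M : Type*} [Monoid M] (ρ : P →* M) :
    Function.Injective (QuotientGroup.lift ρ.ker ρ le_rfl) := by
  intro a b
  induction a using QuotientGroup.induction_on with
  | H a =>
  induction b using QuotientGroup.induction_on with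
  | H b =>
  intro h
  have h' : ρ a = ρ b := h
  rw [QuotientGroup.eq, MonoidHom.mem_ker, map_mul, ← h', ← map_mul, inv_mul_cancel, map_one]

theorem rep_inj {K : Type*} [Field K] {P : Type*} [Group P] {V : Type*} [AddCommGroup V]
    [Module K V] (ρ : Representation K P V) (g : P) : Function.Injective (ρ g) := by
  intro x y hxy
  have h := congrArg (ρ g⁻¹) hxy
  rw [← Module.End.mul_apply, ← Module.End.mul_apply, ← map_mul, inv_mul_cancel, map_one] at h
  exact h

theorem charNe {K : Type w} [Field K] [IsAlgClosed K] (p : ℕ) [Fact p.Prime] (hpK : (p : K) ≠ 0) :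
    ∀ (n : ℕ) (P : Type u) [Group P] [Finite P] (_ : IsPGroup p P) (V : Type v) [AddCommGroup V]
      [Module K V] [FiniteDimensional K V] (_ : finrank K V = n) (ρ : Representation K P V)
      (_ : Function.Injective ρ), derivedSeries P (Nat.log 2 n + 1) = ⊥ := by
  intro n
  induction n using Nat.strong_induction_on with
  | _ n IH =>
  intro P _ _ hP V _ _ _ hn ρ hρ
  have IHker : ∀ m < n, ∀ (Q : Type u) [Group Q] [Finite Q] (_ : IsPGroup p Q) (W : Type v)
      [AddCommGroup W] [Module K W] [FiniteDimensional K W] (_ : finrank K W = m)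
      (σ : Representation K Q W), derivedSeries Q (Nat.log 2 m + 1) ≤ σ.ker := by
    intro m hm Q _ _ hQ W _ _ _ hW σ
    exact dS_le_ker_of_quot σ _ (IH m hm (Q ⧸ σ.ker) (hQ.to_quotient _) W hW
      (QuotientGroup.lift σ.ker σ le_rfl) (quot_inj σ))
  by_cases hab : ∀ a b : P, a * b = b * a
  · have h1 : derivedSeries P 1 = ⊥ := by
      rw [derivedSeries_one, commutator_def, Subgroup.commutator_eq_bot_iff_le_centralizer]
      intro x _
      rw [Subgroup.mem_centralizer_iff]
      intro y _
      exact hab y x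
    exact le_bot_iff.mp (h1 ▸ derivedSeries_antitone P (by omega : 1 ≤ Nat.log 2 n + 1))
  by_cases hred : ∃ W : Submodule K V, W ≠ ⊥ ∧ W ≠ ⊤ ∧ ∀ g, W ≤ W.comap (ρ g)
  · obtain ⟨W, hW0, hW1, hinv⟩ := hred
    have hlt1 : finrank K W < n := hn ▸ Submodule.finrank_lt hW1
    have hsum := Submodule.finrank_quotient_add_finrank W
    have hpos : 0 < finrank K W := by
      have : Nontrivial W := (Submodule.nontrivial_iff_ne_bot).mpr hW0
      exact Module.finrank_pos
    have hlt2 : finrank K (V ⧸ W) < n := by omega
    have h1 := IHker _ hlt1 P hP W rfl (ρ.subrepresentation W hinv)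
    have h2 := IHker _ hlt2 P hP (V ⧸ W) rfl (ρ.quotient W hinv)
    have hm1 : Nat.log 2 (finrank K W) + 1 ≤ Nat.log 2 n + 1 := by
      have := Nat.log_mono_right (b := 2) hlt1.le; omega
    have hm2 : Nat.log 2 (finrank K (V ⧸ W)) + 1 ≤ Nat.log 2 n + 1 := by
      have := Nat.log_mono_right (b := 2) hlt2.le; omega
    rw [eq_bot_iff]
    intro g hg
    have hg1 := h1 (derivedSeries_antitone P hm1 hg)
    have hg2 := h2 (derivedSeries_antitone P hm2 hg)
    rw [MonoidHom.mem_ker] at hg1 hg2
    have e1 : ∀ w ∈ W, ρ g w = w := by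
      intro w hw
      have := congrArg (fun f : Module.End K W => ((f ⟨w, hw⟩ : W) : V)) hg1
      simpa using this
    have e2 : ∀ x, ρ g x - x ∈ W := by
      intro x
      have := congrArg (fun f : Module.End K (V ⧸ W) => f (Submodule.Quotient.mk x)) hg2
      simp only [Representation.quotient_apply, Submodule.mapQ_apply, Module.End.one_apply] at this
      exact (Submodule.Quotient.eq W).mp this
    set N : Module.End K V := ρ g - 1 with hN
    have hNN : N * N = 0 := by
      ext x
      have := e1 _ (e2 x)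
      simp only [hN, Module.End.mul_apply, LinearMap.sub_apply, Module.End.one_apply,
        LinearMap.zero_apply, map_sub]
      rw [map_sub] at this
      rw [this]; abel
    obtain ⟨a, ha⟩ := hP g
    have hpow : (ρ g) ^ (p ^ a) = 1 := by rw [← map_pow, ha, map_one]
    have hρg : ρ g = 1 + N := by rw [hN]; abel
    rw [hρg, one_add_pow_of_sq_zero N hNN] at hpow
    have hz : (p ^ a) • N = 0 := by simpa using hpow
    have hz' : ((p ^ a : ℕ) : K) • N = 0 := by rw [Nat.cast_smul_eq_nsmul]; exact hz
    have hN0 : N = 0 := by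
      rcases smul_eq_zero.mp hz' with h | h
      · exact absurd h (by push_cast; exact pow_ne_zero a hpK)
      · exact h
    have : ρ g = ρ 1 := by rw [hρg, hN0, add_zero, map_one]
    rw [Subgroup.mem_bot]; exact hρ this
  · have hirr : ∀ W : Submodule K V, (∀ g, W ≤ W.comap (ρ g)) → W ≠ ⊥ → W = ⊤ := by
      intro W hinv h0
      by_contra h1
      exact hred ⟨W, h0, h1, hinv⟩
    have hnt : Nontrivial V := by
      by_contra hnt
      rw [not_nontrivial_iff_subsingleton] at hnt
      exact hab fun a b => hρ (LinearMap.ext fun x => Subsingleton.elim _ _)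
    have hscal : ∀ c ∈ Subgroup.center P, ∃ μ : K, ∀ x, ρ c x = μ • x := by
      intro c hc
      obtain ⟨μ, hμ⟩ := Module.End.exists_eigenvalue (ρ c)
      refine ⟨μ, fun x => ?_⟩
      have hE : Module.End.eigenspace (ρ c) μ = ⊤ := by
        apply hirr
        · intro g x hx
          rw [Submodule.mem_comap, Module.End.mem_eigenspace_iff]
          rw [Module.End.mem_eigenspace_iff] at hx
          have : ρ c (ρ g x) = ρ g (ρ c x) := by
            rw [← Module.End.mul_apply, ← Module.End.mul_apply, ← map_mul, ← map_mul,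
              (Subgroup.mem_center_iff.mp hc g)]
          rw [this, hx, map_smul]
        · exact hμ
      have : x ∈ Module.End.eigenspace (ρ c) μ := hE ▸ Submodule.mem_top
      exact Module.End.mem_eigenspace_iff.mp this
    obtain ⟨z, hz, hzc⟩ : ∃ z : P, z ∉ Subgroup.center P ∧
        ∀ g, z * g * z⁻¹ * g⁻¹ ∈ Subgroup.center P := by
      have hnc : ∃ a : P, a ∉ Subgroup.center P := by
        by_contra h
        push Not at h
        exact hab fun a b => (Subgroup.mem_center_iff.mp (h b) a)
      obtain ⟨a0, ha0⟩ := hnc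
      have : Nontrivial (P ⧸ Subgroup.center P) :=
        ⟨⟨(a0 : P ⧸ Subgroup.center P), 1, fun h => ha0 ((QuotientGroup.eq_one_iff a0).mp h)⟩⟩
      have hQ : IsPGroup p (P ⧸ Subgroup.center P) := hP.to_quotient _
      have := hQ.center_nontrivial
      obtain ⟨⟨zb, hzb⟩, hne⟩ := exists_ne (1 : Subgroup.center (P ⧸ Subgroup.center P))
      obtain ⟨z, rfl⟩ := QuotientGroup.mk_surjective zb
      refine ⟨z, fun hzc => hne (Subtype.ext ((QuotientGroup.eq_one_iff z).mpr hzc)), fun g => ?_⟩
      rw [← QuotientGroup.eq_one_iff]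
      have := Subgroup.mem_center_iff.mp hzb (g : P ⧸ Subgroup.center P)
      rw [QuotientGroup.mk_mul, QuotientGroup.mk_mul, QuotientGroup.mk_mul, QuotientGroup.mk_inv,
        QuotientGroup.mk_inv, ← this]
      group
    have hmul : ∀ a b : P, z * (a * b) * z⁻¹ * (a * b)⁻¹ =
        (z * a * z⁻¹ * a⁻¹) * (z * b * z⁻¹ * b⁻¹) := by
      intro a b
      have hcb := Subgroup.mem_center_iff.mp (hzc b) a⁻¹
      calc z * (a * b) * z⁻¹ * (a * b)⁻¹
          = z * a * z⁻¹ * ((z * b * z⁻¹ * b⁻¹) * a⁻¹) := by group
        _ = z * a * z⁻¹ * (a⁻¹ * (z * b * z⁻¹ * b⁻¹)) := by rw [hcb]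
        _ = (z * a * z⁻¹ * a⁻¹) * (z * b * z⁻¹ * b⁻¹) := by simp only [mul_assoc]
    obtain ⟨M, hcomm, hMz⟩ : ∃ M : Subgroup P, commutator P ≤ M ∧ ∀ m ∈ M, z * m = m * z := by
      refine ⟨Subgroup.centralizer {z}, ?_, ?_⟩
      · rw [commutator_def, Subgroup.commutator_le]
        intro a _ b _
        rw [Subgroup.mem_centralizer_iff]
        intro h hh
        rw [Set.mem_singleton_iff.mp hh]
        have hinv : ∀ a : P, z * a⁻¹ * z⁻¹ * a⁻¹⁻¹ = (z * a * z⁻¹ * a⁻¹)⁻¹ := by
          intro a
          have h := hmul a a⁻¹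
          rw [mul_inv_cancel] at h
          have h0 : z * 1 * z⁻¹ * (1 : P)⁻¹ = 1 := by group
          rw [h0] at h
          exact eq_inv_of_mul_eq_one_right h.symm
        have hcc := Subgroup.mem_center_iff.mp (hzc b) (z * a * z⁻¹ * a⁻¹)
        rw [commutatorElement_def]
        have key : z * (a * b * a⁻¹ * b⁻¹) * z⁻¹ * (a * b * a⁻¹ * b⁻¹)⁻¹ = 1 := by
          rw [hmul, hmul, hmul, hinv, hinv, hcc]; group
        calc z * (a * b * a⁻¹ * b⁻¹)
            = (z * (a * b * a⁻¹ * b⁻¹) * z⁻¹ * (a * b * a⁻¹ * b⁻¹)⁻¹) * ((a * b * a⁻¹ * b⁻¹) * z) := by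
              group
          _ = (a * b * a⁻¹ * b⁻¹) * z := by rw [key, one_mul]
      · intro m hm
        exact Subgroup.mem_centralizer_iff.mp hm z rfl
    have hstep : ∀ g : P, ∃ μ : K, (∀ x, ρ (z * g * z⁻¹ * g⁻¹) x = μ • x) ∧
        ∀ (ν : K) (x : V), ρ z x = ν • x → ρ z (ρ g x) = (μ * ν) • ρ g x := by
      intro g
      obtain ⟨μ, hμ⟩ := hscal _ (hzc g)
      refine ⟨μ, hμ, fun ν x hx => ?_⟩
      have e2 : ρ z * ρ g = ρ (z * g * z⁻¹ * g⁻¹) * ρ g * ρ z := by
        rw [← map_mul, ← map_mul, ← map_mul]; congr 1; group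
      calc ρ z (ρ g x) = (ρ z * ρ g) x := rfl
        _ = ρ (z * g * z⁻¹ * g⁻¹) (ρ g (ρ z x)) := by rw [e2]; rfl
        _ = (μ * ν) • ρ g x := by rw [hμ, hx, map_smul, smul_smul]
    have hS : (⨆ ν : K, Module.End.eigenspace (ρ z) ν) = ⊤ := by
      apply hirr
      · intro g
        rw [← Submodule.map_le_iff_le_comap, Submodule.map_iSup]
        apply iSup_le
        intro ν
        obtain ⟨μ, -, hμ⟩ := hstep g
        refine le_trans ?_ (le_iSup _ (μ * ν))
        rintro _ ⟨x, hx, rfl⟩
        exact Module.End.mem_eigenspace_iff.mpr (hμ ν x (Module.End.mem_eigenspace_iff.mp hx))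
      · obtain ⟨μ, hμ⟩ := Module.End.exists_eigenvalue (ρ z)
        intro h
        exact hμ (le_bot_iff.mp (h ▸ le_iSup (fun ν => Module.End.eigenspace (ρ z) ν) μ))
    obtain ⟨g1, hg1⟩ : ∃ g1 : P, g1 * z ≠ z * g1 := by
      by_contra h
      push Not at h
      exact hz (Subgroup.mem_center_iff.mpr h)
    obtain ⟨μ1, hμ1, hμ1'⟩ := hstep g1
    have hμ1ne : μ1 ≠ 1 := by
      intro h
      have : ρ (z * g1 * z⁻¹ * g1⁻¹) = ρ 1 := by
        ext x; rw [hμ1, h, one_smul, map_one]; rfl
      have h2 := hρ this
      apply hg1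
      calc g1 * z = (z * g1 * z⁻¹ * g1⁻¹)⁻¹ * (z * g1) := by group
        _ = z * g1 := by rw [h2, inv_one, one_mul]
    have hdim : ∀ ν : K, 2 * finrank K (Module.End.eigenspace (ρ z) ν) ≤ n := by
      intro ν
      set E := Module.End.eigenspace (ρ z) ν with hE
      have hdisj : E ⊓ E.map (ρ g1) = ⊥ := by
        rw [eq_bot_iff]
        rintro w ⟨hw1, x, hx, rfl⟩
        rw [Submodule.mem_bot]
        have a1 := Module.End.mem_eigenspace_iff.mp hw1
        have a2 := hμ1' ν x (Module.End.mem_eigenspace_iff.mp hx)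
        have a3 : ((μ1 - 1) * ν) • ρ g1 x = 0 := by
          rw [sub_mul, one_mul, sub_smul, ← a2, ← a1, sub_self]
        rcases smul_eq_zero.mp a3 with h | h
        · rcases mul_eq_zero.mp h with h | h
          · exact absurd (sub_eq_zero.mp h) hμ1ne
          · rw [h, zero_smul] at a1
            exact rep_inj ρ z (a1.trans (map_zero _).symm)
        · exact h
      have h1 := Submodule.finrank_sup_add_finrank_inf_eq E (E.map (ρ g1))
      rw [hdisj, finrank_bot, add_zero] at h1
      have h2 : finrank K (E.map (ρ g1)) = finrank K E :=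
        (LinearEquiv.finrank_eq (Submodule.equivMapOfInjective (ρ g1) (rep_inj ρ g1) E)).symm
      have h3 := Submodule.finrank_le (E ⊔ E.map (ρ g1))
      rw [hn] at h3
      omega
    have hMbot : derivedSeries M (Nat.log 2 n) = ⊥ := by
      rw [eq_bot_iff]
      intro m hm
      rw [Subgroup.mem_bot]
      have hfix : ∀ ν : K, Module.End.eigenspace (ρ z) ν ≤ LinearMap.eqLocus (ρ (m : P)) 1 := by
        intro ν
        by_cases hE0 : Module.End.eigenspace (ρ z) ν = ⊥
        · rw [hE0]; exact bot_le
        have hinvM : ∀ m' : M, Module.End.eigenspace (ρ z) ν ≤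
            (Module.End.eigenspace (ρ z) ν).comap ((ρ.comp M.subtype) m') := by
          intro m' x hx
          rw [Submodule.mem_comap, Module.End.mem_eigenspace_iff]
          rw [Module.End.mem_eigenspace_iff] at hx
          have : ρ z (ρ (m' : P) x) = ρ (m' : P) (ρ z x) := by
            rw [← Module.End.mul_apply, ← Module.End.mul_apply, ← map_mul, ← map_mul,
              hMz _ m'.2]
          show ρ z (ρ (m' : P) x) = ν • ρ (m' : P) x
          rw [this, hx, map_smul]
        have hd := hdim ν
        have hdpos : 0 < finrank K (Module.End.eigenspace (ρ z) ν) := by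
          have : Nontrivial (Module.End.eigenspace (ρ z) ν) :=
            (Submodule.nontrivial_iff_ne_bot).mpr hE0
          exact Module.finrank_pos
        have hlt : finrank K (Module.End.eigenspace (ρ z) ν) < n := by omega
        have h1 := IHker _ hlt M (hP.to_subgroup M) (Module.End.eigenspace (ρ z) ν) rfl
          (Representation.subrepresentation (ρ.comp M.subtype : Representation K M V) _ hinvM)
        have hlog : Nat.log 2 (finrank K (Module.End.eigenspace (ρ z) ν)) + 1 ≤ Nat.log 2 n := by
          rw [← Nat.log_mul_base (by norm_num) hdpos.ne']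
          exact Nat.log_mono_right (by omega)
        have hm1 := h1 (derivedSeries_antitone M hlog hm)
        rw [MonoidHom.mem_ker] at hm1
        intro x hx
        rw [LinearMap.mem_eqLocus]
        have := congrArg (fun f : Module.End K (Module.End.eigenspace (ρ z) ν) =>
          ((f ⟨x, hx⟩ : Module.End.eigenspace (ρ z) ν) : V)) hm1
        simpa using this
      have htop : (⊤ : Submodule K V) ≤ LinearMap.eqLocus (ρ (m : P)) 1 := hS ▸ iSup_le hfix
      have : ρ (m : P) = ρ 1 := by
        ext x
        rw [map_one]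
        exact LinearMap.mem_eqLocus.mp (htop Submodule.mem_top)
      exact Subtype.ext (hρ this)
    have hfin := dS_succ_le M hcomm (Nat.log 2 n)
    rw [hMbot, Subgroup.map_bot] at hfin
    exact le_bot_iff.mp hfin

theorem exists_fixed {K : Type*} [Field K] (p : ℕ) [Fact p.Prime] (hpK : (p : K) = 0)
    {P : Type*} [Group P] [Finite P] (hP : IsPGroup p P) {V : Type*} [AddCommGroup V] [Module K V]
    [Nontrivial V] (ρ : Representation K P V) : ∃ v : V, v ≠ 0 ∧ ∀ g, ρ g v = v := by
  obtain ⟨v0, hv0⟩ := exists_ne (0 : V)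
  have hpV : ∀ x : V, p • x = 0 := by
    intro x
    rw [← Nat.cast_smul_eq_nsmul K, hpK, zero_smul]
  let A : AddSubgroup V := AddSubgroup.closure (Set.range fun g : P => ρ g v0)
  have hinv : ∀ g : P, ∀ a ∈ A, ρ g a ∈ A := by
    intro g a ha
    induction ha using AddSubgroup.closure_induction with
    | mem x hx =>
      obtain ⟨h, rfl⟩ := hx
      apply AddSubgroup.subset_closure
      exact ⟨g * h, by show ρ (g * h) v0 = ρ g (ρ h v0); rw [map_mul]; rfl⟩
    | zero => rw [map_zero]; exact A.zero_mem
    | add x y _ _ hx hy => rw [map_add]; exact A.add_mem hx hy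
    | neg x _ hx => rw [map_neg]; exact A.neg_mem hx
  let _inst : MulAction P A :=
    { smul := fun g a => ⟨ρ g a, hinv g a a.2⟩
      one_smul := fun a => Subtype.ext (by show ρ 1 (a : V) = a; rw [map_one]; rfl)
      mul_smul := fun g h a => Subtype.ext (by
        show ρ (g * h) (a : V) = ρ g (ρ h a); rw [map_mul]; rfl) }
  have : Finite A := by
    have hfs : Finite (Set.range fun g : P => ρ g v0) := (Set.finite_range _).to_subtype
    have h1 : AddGroup.FG (AddSubgroup.closure (Set.range fun g : P => ρ g v0)) := inferInstance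
    have h2 : Module.Finite ℤ (AddSubgroup.closure (Set.range fun g : P => ρ g v0)) :=
      Module.Finite.iff_addGroup_fg.mpr h1
    apply Module.finite_of_fg_torsion
    intro x
    refine ⟨⟨(p : ℤ), mem_nonZeroDivisors_of_ne_zero
      (by exact_mod_cast (Fact.out : p.Prime).ne_zero)⟩, ?_⟩
    apply Subtype.ext
    show (p : ℤ) • (x : V) = 0
    rw [natCast_zsmul]
    exact hpV x
  have hv0A : v0 ∈ A := AddSubgroup.subset_closure ⟨1, by show ρ 1 v0 = v0; rw [map_one]; rfl⟩
  have hdvd : p ∣ Nat.card A := by
    have h1 : addOrderOf (⟨v0, hv0A⟩ : A) = p := by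
      apply addOrderOf_eq_prime
      · exact Subtype.ext (hpV v0)
      · intro h; exact hv0 (congrArg Subtype.val h)
    rw [← h1]; exact addOrderOf_dvd_natCard _
  have h0 : (0 : A) ∈ MulAction.fixedPoints P A := by
    intro g; exact Subtype.ext (map_zero (ρ g))
  obtain ⟨b, hb, hb0⟩ := hP.exists_fixed_point_of_prime_dvd_card_of_fixed_point A hdvd h0
  refine ⟨b, fun h => hb0 (Subtype.ext h.symm), fun g => ?_⟩
  exact congrArg Subtype.val (hb g)

theorem exists_inv_sub {K : Type*} [Field K] (p : ℕ) [Fact p.Prime] (hpK : (p : K) = 0)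
    {P : Type*} [Group P] [Finite P] (hP : IsPGroup p P) {V : Type*} [AddCommGroup V] [Module K V]
    [FiniteDimensional K V] (ρ : Representation K P V) :
    ∀ k ≤ finrank K V, ∃ W : Submodule K V, finrank K W = k ∧ ∀ g, W ≤ W.comap (ρ g) := by
  intro k
  induction k with
  | zero => intro _; exact ⟨⊥, finrank_bot K V, fun g => bot_le⟩
  | succ k ih =>
    intro hk
    obtain ⟨W, hWk, hinv⟩ := ih (by omega)
    have hsum := Submodule.finrank_quotient_add_finrank W
    haveI : Nontrivial (V ⧸ W) := by
      apply Module.nontrivial_of_finrank_pos (R := K); omega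
    obtain ⟨vb, hvb, hfix⟩ := exists_fixed p hpK hP (ρ.quotient W hinv)
    obtain ⟨v, rfl⟩ := Submodule.Quotient.mk_surjective W vb
    have hvW : v ∉ W := fun h => hvb ((Submodule.Quotient.mk_eq_zero W).mpr h)
    have hv0 : v ≠ 0 := fun h => hvW (h ▸ W.zero_mem)
    refine ⟨W ⊔ K ∙ v, ?_, ?_⟩
    · have h1 := Submodule.finrank_sup_add_finrank_inf_eq W (K ∙ v)
      have h2 : W ⊓ K ∙ v = ⊥ := disjoint_iff.mp ((Submodule.disjoint_span_singleton' hv0).mpr hvW)
      rw [h2, finrank_bot, finrank_span_singleton hv0] at h1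
      omega
    · intro g x hx
      rw [Submodule.mem_comap]
      obtain ⟨w, hw, y, hy, rfl⟩ := Submodule.mem_sup.mp hx
      obtain ⟨a, rfl⟩ := Submodule.mem_span_singleton.mp hy
      have hgv : ρ g v - v ∈ W := by
        have := hfix g
        simp only [Representation.quotient_apply, Submodule.mapQ_apply] at this
        exact (Submodule.Quotient.eq W).mp this
      rw [map_add, map_smul]
      have : ρ g w + a • ρ g v = (ρ g w + a • (ρ g v - v)) + a • v := by
        rw [smul_sub]; abel
      rw [this]
      exact Submodule.add_mem_sup (W.add_mem (hinv g hw) (W.smul_mem a hgv))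
        (Submodule.smul_mem _ a (Submodule.mem_span_singleton_self v))

theorem charEq {K : Type w} [Field K] (p : ℕ) [Fact p.Prime] (hpK : (p : K) = 0) :
    ∀ (n : ℕ) (P : Type u) [Group P] [Finite P] (_ : IsPGroup p P) (V : Type v) [AddCommGroup V]
      [Module K V] [FiniteDimensional K V] (_ : finrank K V = n) (ρ : Representation K P V),
      derivedSeries P (Nat.clog 2 n) ≤ ρ.ker := by
  intro n
  induction n using Nat.strong_induction_on with
  | _ n IH =>
  intro P _ _ hP V _ _ _ hn ρ
  rcases Nat.lt_or_ge n 2 with hlt | hge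
  · have htriv : ∀ g, ρ g = 1 := by
      intro g
      rcases Nat.eq_zero_or_pos n with h0 | hpos
      · haveI : Subsingleton V := by
          rw [h0] at hn; exact Module.finrank_zero_iff.mp hn
        exact LinearMap.ext fun x => Subsingleton.elim _ _
      · have h1 : finrank K V = 1 := by omega
        haveI : Nontrivial V := Module.nontrivial_of_finrank_pos (R := K) (by omega)
        obtain ⟨v, hv, hfix⟩ := exists_fixed p hpK hP ρ
        ext x
        obtain ⟨c, rfl⟩ := (finrank_eq_one_iff_of_nonzero' v hv).mp h1 x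
        rw [map_smul, hfix g]; rfl
    intro g _
    exact MonoidHom.mem_ker.mpr (htriv g)
  · obtain ⟨W, hWk, hinv⟩ := exists_inv_sub p hpK hP ρ (n / 2)
      (by rw [hn]; exact Nat.div_le_self n 2)
    have hsum := Submodule.finrank_quotient_add_finrank W
    have hq : finrank K (V ⧸ W) = (n + 1) / 2 := by omega
    have h1 := IH (n / 2) (by omega) P hP W hWk (ρ.subrepresentation W hinv)
    have h2 := IH ((n + 1) / 2) (by omega) P hP (V ⧸ W) hq (ρ.quotient W hinv)
    have hclog : Nat.clog 2 n = Nat.clog 2 ((n + 1) / 2) + 1 := by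
      rw [Nat.clog_of_two_le (by norm_num) hge]; rfl
    have hmono : Nat.clog 2 (n / 2) ≤ Nat.clog 2 ((n + 1) / 2) :=
      Nat.clog_mono_right 2 (by omega)
    rw [hclog, derivedSeries_succ, Subgroup.commutator_le]
    intro a ha b hb
    have ha1 := h1 (derivedSeries_antitone P hmono ha)
    have hb1 := h1 (derivedSeries_antitone P hmono hb)
    have ha2 := h2 ha
    have hb2 := h2 hb
    rw [MonoidHom.mem_ker] at ha1 hb1 ha2 hb2
    have fixW : ∀ c : P, (ρ.subrepresentation W hinv) c = 1 → ∀ w ∈ W, ρ c w = w := by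
      intro c hc w hw
      have := congrArg (fun f : Module.End K W => ((f ⟨w, hw⟩ : W) : V)) hc
      simpa using this
    have modW : ∀ c : P, (ρ.quotient W hinv) c = 1 → ∀ x, ρ c x - x ∈ W := by
      intro c hc x
      have := congrArg (fun f : Module.End K (V ⧸ W) => f (Submodule.Quotient.mk x)) hc
      simp only [Representation.quotient_apply, Submodule.mapQ_apply, Module.End.one_apply] at this
      exact (Submodule.Quotient.eq W).mp this
    have hcomm : ρ (a * b) = ρ (b * a) := by
      ext x
      rw [map_mul, map_mul]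
      show ρ a (ρ b x) = ρ b (ρ a x)
      have e1 : ρ a (ρ b x - x) = ρ b x - x := fixW a ha1 _ (modW b hb2 x)
      have e2 : ρ b (ρ a x - x) = ρ a x - x := fixW b hb1 _ (modW a ha2 x)
      rw [map_sub, sub_eq_iff_eq_add] at e1 e2
      rw [e1, e2]; abel
    rw [MonoidHom.mem_ker, commutatorElement_def]
    have : a * b * a⁻¹ * b⁻¹ = (a * b) * (b * a)⁻¹ := by group
    rw [this, map_mul, hcomm, ← map_mul, mul_inv_cancel, map_one]

/-- Let F be a field, n ≥ 1, and P a finite p-group (p a prime) admitting an injective homomorphism into the general linear group of degree n over F. Then the derived length of P is at most ⌊log₂ n⌋ + 1: that term of the derived series of P is trivial. -/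
theorem result {P : Type*} [Group P] [Finite P] (p : ℕ) [Fact p.Prime] (hP : IsPGroup p P) (F : Type*) [Field F] (n : ℕ) (hn : 1 ≤ n) (ρ : P →* Matrix.GeneralLinearGroup (Fin n) F) (hρ : Function.Injective ρ) : derivedSeries P (Nat.log 2 n + 1) = ⊥ := by
  let K := AlgebraicClosure F
  let ρ' : Representation K P (Fin n → K) :=
    ((Matrix.toLinAlgEquiv' : Matrix (Fin n) (Fin n) K ≃ₐ[K] _) :
        Matrix (Fin n) (Fin n) K →* _).comp
      ((Units.coeHom _).comp ((Matrix.GeneralLinearGroup.map (algebraMap F K)).comp ρ))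
  have hinj : Function.Injective ρ' := by
    intro a b hab
    apply hρ
    have h1 : (Matrix.GeneralLinearGroup.map (algebraMap F K) (ρ a) : Matrix (Fin n) (Fin n) K) =
        (Matrix.GeneralLinearGroup.map (algebraMap F K) (ρ b) : Matrix (Fin n) (Fin n) K) :=
      Matrix.toLinAlgEquiv'.injective hab
    apply Units.ext
    apply Matrix.map_injective (FaithfulSMul.algebraMap_injective F K)
    exact h1
  have hfr : finrank K (Fin n → K) = n := Module.finrank_fin_fun K
  by_cases hpK : (p : K) = 0
  · have h := charEq p hpK n P hP (Fin n → K) hfr ρ'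
    have hle : Nat.clog 2 n ≤ Nat.log 2 n + 1 := by
      rw [Nat.clog_le_iff_le_pow (by norm_num)]
      exact (Nat.lt_pow_succ_log_self (by norm_num) n).le
    rw [eq_bot_iff]
    intro g hg
    have := h (derivedSeries_antitone P hle hg)
    rw [MonoidHom.mem_ker] at this
    rw [Subgroup.mem_bot]
    exact hinj (this.trans (map_one ρ').symm)
  · exact charNe p hpK n P hP (Fin n → K) hfr ρ' hinj

end Cfsg.Agent.S4010
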