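import Cfsg.Statements.S4417
import Mathlib
import Cfsg.Agent.S4010

set_option autoImplicit false
open Cfsg

namespace Cfsg.Agent.S4417

open Module Polynomial

universe u w

section Rep

variable {K : Type*} [Field K] {V : Type*} [AddCommGroup V] [Module K V] {G : Type*} [Group G]

/-- Restriction of a representation to an invariant subspace. -/
def resRep (ρ : G →* Module.End K V) (W : Submodule K V) (hW : ∀ g, ∀ w ∈ W, ρ g w ∈ W) :
    G →* Module.End K W where
  toFun g := (ρ g).restrict (hW g)
  map_one' := by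
    apply LinearMap.ext
    intro w
    apply Subtype.ext
    show ρ 1 w = w
    rw [map_one]; rfl
  map_mul' g h := by
    apply LinearMap.ext
    intro w
    apply Subtype.ext
    show ρ (g * h) w = ρ g (ρ h w)
    rw [map_mul]; rfl

theorem resRep_apply (ρ : G →* Module.End K V) (W : Submodule K V)
    (hW : ∀ g, ∀ w ∈ W, ρ g w ∈ W) (g : G) (w : W) : ((resRep ρ W hW g) w : V) = ρ g w := rfl

/-- An endomorphism commuting with `a` commutes with every polynomial in `a`. -/
theorem commute_aeval {a b : Module.End K V} (h : Commute b a) (q : K[X]) :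
    Commute b (aeval a q) := by
  induction q using Polynomial.induction_on' with
  | add p q hp hq => rw [map_add]; exact hp.add_right hq
  | monomial n c =>
    rw [Polynomial.aeval_monomial]
    exact (Algebra.commute_algebraMap_right c b).mul_right (h.pow_right n)

/-- An element in the kernel of the restricted representation acts trivially on the subspace. -/
theorem apply_eq_of_mem_ker_resRep (ρ : G →* Module.End K V) (W : Submodule K V)
    (hW : ∀ g, ∀ w ∈ W, ρ g w ∈ W) {g : G} (hg : g ∈ (resRep ρ W hW).ker) {w : V} (hw : w ∈ W) :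
    ρ g w = w := by
  have h1 := MonoidHom.mem_ker.mp hg
  have h2 := congrArg (fun φ : Module.End K W => ((φ ⟨w, hw⟩ : W) : V)) h1
  exact h2

end Rep

/-- The general statement: a finite `p`-group acting linearly on a space of dimension `N` over a
finite field `F` of order prime to `p` has its `(⌊log₂ (N / e)⌋ + 1)`-st derived subgroup in the
kernel, `e` the order of `#F` modulo `p`. -/
theorem main (F : Type w) [Field F] [Finite F] (p : ℕ) [Fact p.Prime] (hpF : (p : F) ≠ 0)
    (e : ℕ) (he : e = orderOf ((Nat.card F : ℕ) : ZMod p)) :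
    ∀ N : ℕ, ∀ (V : Type w) [AddCommGroup V] [Module F V] [FiniteDimensional F V]
      (G : Type u) [Group G] [Finite G], IsPGroup p G → ∀ ρ : G →* Module.End F V,
      finrank F V = N → derivedSeries G (Nat.log 2 (N / e) + 1) ≤ ρ.ker := by
  intro N
  induction N using Nat.strong_induction_on with
  | _ N ih =>
  intro V _ _ _ G _ _ hG ρ hN
  -- reduce to a faithful representation
  suffices key : ∀ (G : Type u) [Group G] [Finite G], IsPGroup p G →
      ∀ ρ : G →* Module.End F V, Function.Injective ρ →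
      derivedSeries G (Nat.log 2 (N / e) + 1) = ⊥ by
    have hQ : IsPGroup p (G ⧸ ρ.ker) := hG.to_quotient ρ.ker
    have hinj : Function.Injective (QuotientGroup.lift ρ.ker ρ le_rfl) := by
      intro x y hxy
      obtain ⟨a, rfl⟩ := QuotientGroup.mk_surjective x
      obtain ⟨b, rfl⟩ := QuotientGroup.mk_surjective y
      have h1 : ρ a = ρ b := hxy
      rw [QuotientGroup.eq, MonoidHom.mem_ker, map_mul, ← h1, ← map_mul, inv_mul_cancel, map_one]
    have h0 := key (G ⧸ ρ.ker) hQ (QuotientGroup.lift ρ.ker ρ le_rfl) hinj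
    intro g hg
    have h1 : QuotientGroup.mk' ρ.ker g ∈
        (derivedSeries G (Nat.log 2 (N / e) + 1)).map (QuotientGroup.mk' ρ.ker) := ⟨g, hg, rfl⟩
    have h2 := map_derivedSeries_le_derivedSeries (QuotientGroup.mk' ρ.ker) _ h1
    rw [h0] at h2
    exact (QuotientGroup.eq_one_iff g).mp (Subgroup.mem_bot.mp h2)
  clear hG ρ
  intro G _ _ hG ρ hρ
  by_cases htriv : Subsingleton G
  · exact Subsingleton.elim _ _
  rw [not_subsingleton_iff_nontrivial] at htriv
  have hpp : p.Prime := Fact.out
  -- a central element of order `p`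
  obtain ⟨z, hzc, hzo⟩ : ∃ z : G, z ∈ Subgroup.center G ∧ orderOf z = p := by
    have hnt := hG.center_nontrivial
    have hZ : IsPGroup p (Subgroup.center G) := hG.to_subgroup _
    obtain ⟨k, hk⟩ := IsPGroup.iff_card.mp hZ
    have hk0 : k ≠ 0 := by
      rintro rfl
      rw [pow_zero] at hk
      have := (Nat.card_eq_one_iff_unique.mp hk).1
      exact not_subsingleton (Subgroup.center G) this
    have hdvd : p ∣ Nat.card (Subgroup.center G) := hk ▸ dvd_pow_self p hk0
    obtain ⟨x, hx⟩ := exists_prime_orderOf_dvd_card' p hdvd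
    exact ⟨x, x.2, by rw [← hx, Subgroup.orderOf_coe]⟩
  obtain ⟨f, hfdef⟩ : ∃ f : Module.End F V, f = ρ z := ⟨_, rfl⟩
  have hfp : f ^ p = 1 := by rw [hfdef, ← map_pow, ← hzo, pow_orderOf_eq_one, map_one]
  have hz1 : z ≠ 1 := by
    rintro rfl
    rw [orderOf_one] at hzo
    exact hpp.one_lt.ne hzo
  have hf1 : f ≠ 1 := by
    intro h
    rw [hfdef, ← map_one ρ] at h
    exact hz1 (hρ h)
  have hcomm : ∀ g, Commute (ρ g) f := by
    intro g
    rw [hfdef]
    show ρ g * ρ z = ρ z * ρ g
    rw [← map_mul, ← map_mul, Subgroup.mem_center_iff.mp hzc g]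
  have hint : IsIntegral F f := Algebra.IsIntegral.isIntegral f
  obtain ⟨μ, hμdef⟩ : ∃ μ : F[X], μ = minpoly F f := ⟨_, rfl⟩
  have hμf : aeval f μ = 0 := hμdef ▸ minpoly.aeval F f
  have hμdvd : μ ∣ X ^ p - 1 := by
    rw [hμdef]
    apply minpoly.dvd
    rw [map_sub, map_pow, aeval_X, map_one, hfp, sub_self]
  have hμsep : μ.Separable := (Polynomial.X_pow_sub_one_separable_iff.mpr hpF).of_dvd hμdvd
  have hμ0 : μ ≠ 0 := hμdef ▸ minpoly.ne_zero hint
  have hμdvd' : ∀ c : F[X], aeval f c = 0 → μ ∣ c := fun c hc => hμdef ▸ minpoly.dvd F f hc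
  have hinv : ∀ c : F[X], ∀ g, ∀ w ∈ LinearMap.ker (aeval f c), ρ g w ∈ LinearMap.ker (aeval f c) := by
    intro c g w hw
    rw [LinearMap.mem_ker] at hw ⊢
    have h1 := (commute_aeval (hcomm g) c).eq
    have h2 := congrArg (fun φ : Module.End F V => φ w) h1
    simp only [Module.End.mul_apply] at h2
    rw [← h2, hw, map_zero]
  by_cases hirr : Irreducible μ
  · -- `V` is a vector space over the field `F[X]/(μ)`
    have : Fact (Irreducible μ) := ⟨hirr⟩
    obtain ⟨φ, hφ⟩ : ∃ φ : AdjoinRoot μ →+* Module.End F V,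
        ∀ a : F[X], φ (AdjoinRoot.mk μ a) = aeval f a := by
      refine ⟨Ideal.Quotient.lift (Ideal.span {μ}) ((aeval f : F[X] →ₐ[F] Module.End F V) : F[X] →+* Module.End F V) ?_, fun a => rfl⟩
      intro a ha
      obtain ⟨b, rfl⟩ := Ideal.mem_span_singleton.mp ha
      show aeval f (μ * b) = 0
      rw [map_mul, hμf, zero_mul]
    let instL : Module (AdjoinRoot μ) V := Module.compHom V φ
    have hsmul : ∀ (l : AdjoinRoot μ) (v : V), l • v = φ l v := fun l v => rfl
    have : IsScalarTower F (AdjoinRoot μ) V := by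
      refine ⟨fun c l v => ?_⟩
      obtain ⟨a, rfl⟩ := AdjoinRoot.mk_surjective l
      rw [hsmul, hsmul, AdjoinRoot.smul_mk, hφ, hφ, map_smul]
      rfl
    have : Module.Finite F (AdjoinRoot μ) := (hμdef ▸ minpoly.monic hint).finite_adjoinRoot
    have : Module.Finite (AdjoinRoot μ) V := Module.Finite.of_restrictScalars_finite F (AdjoinRoot μ) V
    have hlin : ∀ (g : G) (l : AdjoinRoot μ) (v : V), ρ g (l • v) = l • ρ g v := by
      intro g l v
      obtain ⟨a, rfl⟩ := AdjoinRoot.mk_surjective l
      rw [hsmul, hsmul, hφ]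
      have h1 := (commute_aeval (hcomm g) a).eq
      have h2 := congrArg (fun ψ : Module.End F V => ψ v) h1
      simpa only [Module.End.mul_apply] using h2
    let ρL : G →* Module.End (AdjoinRoot μ) V :=
      { toFun := fun g =>
          { toFun := fun v => ρ g v
            map_add' := fun x y => map_add _ x y
            map_smul' := fun l v => hlin g l v }
        map_one' := by
          apply LinearMap.ext
          intro v
          show ρ 1 v = v
          rw [map_one]; rfl
        map_mul' := fun g h => by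
          apply LinearMap.ext
          intro v
          show ρ (g * h) v = ρ g (ρ h v)
          rw [map_mul]; rfl }
    have hρL : Function.Injective ρL := by
      intro g h hgh
      apply hρ
      apply LinearMap.ext
      intro v
      exact congrArg (fun ψ : Module.End (AdjoinRoot μ) V => ψ v) hgh
    -- `V` is nontrivial
    have : Nontrivial V := by
      by_contra hV
      rw [not_nontrivial_iff_subsingleton] at hV
      exact hf1 (LinearMap.ext fun v => Subsingleton.elim _ _)
    have hm : 1 ≤ finrank (AdjoinRoot μ) V := Module.finrank_pos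
    obtain ⟨m, hmdef⟩ : ∃ m : ℕ, m = finrank (AdjoinRoot μ) V := ⟨_, rfl⟩
    let b : Basis (Fin m) (AdjoinRoot μ) V := Module.finBasisOfFinrankEq (AdjoinRoot μ) V hmdef.symm
    let τ₀ : G →* Matrix (Fin m) (Fin m) (AdjoinRoot μ) :=
      ((LinearMap.toMatrixAlgEquiv b : Module.End (AdjoinRoot μ) V ≃ₐ[AdjoinRoot μ] _) :
        Module.End (AdjoinRoot μ) V →* Matrix (Fin m) (Fin m) (AdjoinRoot μ)).comp ρL
    have hτ₀ : Function.Injective τ₀ := by
      intro g h hgh
      apply hρL
      exact (LinearMap.toMatrixAlgEquiv b).injective hgh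
    have hτ : Function.Injective τ₀.toHomUnits := by
      intro g h hgh
      apply hτ₀
      have := congrArg (fun x : (Matrix (Fin m) (Fin m) (AdjoinRoot μ))ˣ =>
        (x : Matrix (Fin m) (Fin m) (AdjoinRoot μ))) hgh
      simpa only [MonoidHom.coe_toHomUnits] using this
    have hres := Cfsg.Agent.S4010.result p hG (AdjoinRoot μ) m (hmdef ▸ hm) τ₀.toHomUnits hτ
    -- the degree of the extension is divisible by `e`
    obtain ⟨θ, hθdef⟩ : ∃ θ : AdjoinRoot μ, θ = AdjoinRoot.root μ := ⟨_, rfl⟩
    have hθp : θ ^ p = 1 := by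
      have h1 : AdjoinRoot.mk μ (X ^ p - 1) = 0 := AdjoinRoot.mk_eq_zero.mpr hμdvd
      rw [map_sub, map_pow, AdjoinRoot.mk_X, map_one] at h1
      rw [hθdef]
      exact sub_eq_zero.mp h1
    have hθ1 : θ ≠ 1 := by
      intro h
      have h1 : AdjoinRoot.mk μ (X - 1) = 0 := by
        rw [map_sub, AdjoinRoot.mk_X, map_one, ← hθdef, h, sub_self]
      obtain ⟨c, hc⟩ := AdjoinRoot.mk_eq_zero.mp h1
      have h2 : aeval f (X - 1 : F[X]) = 0 := by rw [hc, map_mul, hμf, zero_mul]
      rw [map_sub, aeval_X, map_one] at h2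
      exact hf1 (sub_eq_zero.mp h2)
    have hθ0 : θ ≠ 0 := by
      rintro rfl
      rw [zero_pow hpp.ne_zero] at hθp
      exact zero_ne_one hθp
    have hord : orderOf θ = p := orderOf_eq_prime hθp hθ1
    have : Finite (AdjoinRoot μ) := Module.finite_of_finite F
    have hcard : Nat.card (AdjoinRoot μ) = Nat.card F ^ finrank F (AdjoinRoot μ) :=
      Module.natCard_eq_pow_finrank (K := F) (V := AdjoinRoot μ)
    have : Fintype (AdjoinRoot μ) := Fintype.ofFinite _
    have hpow : θ ^ (Fintype.card (AdjoinRoot μ) - 1) = 1 :=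
      FiniteField.pow_card_sub_one_eq_one θ hθ0
    have hdvd : p ∣ Nat.card F ^ finrank F (AdjoinRoot μ) - 1 := by
      rw [← hcard, Nat.card_eq_fintype_card, ← hord]
      exact orderOf_dvd_of_pow_eq_one hpow
    have hFpos : 0 < Nat.card F := Nat.card_pos
    have hqpow : ((Nat.card F : ℕ) : ZMod p) ^ finrank F (AdjoinRoot μ) = 1 := by
      have h1 := (ZMod.natCast_eq_zero_iff _ _).mpr hdvd
      rw [Nat.cast_sub (Nat.one_le_pow _ _ hFpos), Nat.cast_pow, Nat.cast_one, sub_eq_zero] at h1
      exact h1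
    have hedvd : e ∣ finrank F (AdjoinRoot μ) := he ▸ orderOf_dvd_of_pow_eq_one hqpow
    have hδpos : 0 < finrank F (AdjoinRoot μ) := Module.finrank_pos
    have hele : e ≤ finrank F (AdjoinRoot μ) := Nat.le_of_dvd hδpos hedvd
    have hepos : 0 < e := by
      rcases Nat.eq_zero_or_pos e with h0 | h0
      · rw [h0, zero_dvd_iff] at hedvd; omega
      · exact h0
    have hmul : finrank F (AdjoinRoot μ) * finrank (AdjoinRoot μ) V = finrank F V :=
      Module.finrank_mul_finrank F (AdjoinRoot μ) V
    have hmle : m ≤ N / e := by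
      rw [Nat.le_div_iff_mul_le hepos, ← hN, ← hmul, hmdef, mul_comm]
      exact Nat.mul_le_mul_right _ hele
    rw [eq_bot_iff, ← hres]
    exact derivedSeries_antitone (G := G) (Nat.succ_le_succ (Nat.log_mono_right hmle))
  · -- the minimal polynomial splits into two coprime factors
    have hnt : Nontrivial (Module.End F V) := ⟨⟨f, 1, hf1⟩⟩
    have hnu : ¬IsUnit μ := hμdef ▸ minpoly.not_isUnit F f
    obtain ⟨a, b, hab, ha, hb⟩ : ∃ a b : F[X], μ = a * b ∧ ¬IsUnit a ∧ ¬IsUnit b := by
      by_contra hcon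
      push Not at hcon
      apply hirr
      refine ⟨hnu, fun a b hab => ?_⟩
      by_cases ha : IsUnit a
      · exact Or.inl ha
      · exact Or.inr (hcon a b hab ha)
    have hcop : IsCoprime a b := (hab ▸ hμsep : (a * b).Separable).isCoprime
    have hsup : LinearMap.ker (aeval f a) ⊔ LinearMap.ker (aeval f b) = ⊤ := by
      rw [Polynomial.sup_ker_aeval_eq_ker_aeval_mul_of_coprime f hcop, ← hab, hμf]
      exact LinearMap.ker_zero
    have hne : ∀ c d : F[X], μ = c * d → ¬IsUnit d → LinearMap.ker (aeval f c) ≠ ⊤ := by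
      intro c d hcd hd htop
      have h0 : aeval f c = 0 := LinearMap.ker_eq_top.mp htop
      have hdvd := hμdvd' c h0
      rw [hcd] at hdvd
      have hc0 : c ≠ 0 := by
        rintro rfl
        exact hμ0 (by rw [hcd, zero_mul])
      obtain ⟨k, hk⟩ := hdvd
      have h1 : c * 1 = c * (d * k) := by rw [mul_one, ← mul_assoc]; exact hk
      have h2 := mul_left_cancel₀ hc0 h1
      exact hd (IsUnit.of_mul_eq_one _ h2.symm)
    have hlt : ∀ c : F[X], LinearMap.ker (aeval f c) ≠ ⊤ →
        derivedSeries G (Nat.log 2 (N / e) + 1) ≤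
          (resRep ρ (LinearMap.ker (aeval f c)) (hinv c)).ker := by
      intro c hc
      have h1 : finrank F (LinearMap.ker (aeval f c)) < N :=
        hN ▸ Submodule.finrank_lt hc
      have h2 := ih _ h1 (LinearMap.ker (aeval f c)) G hG
        (resRep ρ (LinearMap.ker (aeval f c)) (hinv c)) rfl
      refine le_trans (derivedSeries_antitone (G := G) ?_) h2
      exact Nat.succ_le_succ (Nat.log_mono_right (Nat.div_le_div_right h1.le))
    have hU := hlt a (hne a b hab hb)
    have hW := hlt b (hne b a (by rw [hab, mul_comm]) ha)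
    rw [eq_bot_iff]
    intro g hg
    rw [Subgroup.mem_bot]
    apply hρ
    rw [map_one]
    apply LinearMap.ext
    intro v
    have hv : v ∈ LinearMap.ker (aeval f a) ⊔ LinearMap.ker (aeval f b) := by
      rw [hsup]; exact Submodule.mem_top
    obtain ⟨u, hu, w, hw, rfl⟩ := Submodule.mem_sup.mp hv
    rw [map_add, apply_eq_of_mem_ker_resRep ρ _ (hinv a) (hU hg) hu,
      apply_eq_of_mem_ker_resRep ρ _ (hinv b) (hW hg) hw]
    rfl

/-- Let F be a field with q elements, p a prime not dividing q, and e the multiplicative order of q modulo p; assume e ≤ n. Then every p-subgroup of GL_n(F) has derived length at most ⌊log₂(n/e)⌋ + 1: that term of its derived series is trivial (n/e is the integer quotient). -/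
theorem result {F : Type*} [Field F] [Fintype F] (q : ℕ) (hF : Fintype.card F = q) (p : ℕ) [Fact p.Prime] (hpq : ¬ p ∣ q) (n e : ℕ) (he : e = orderOf (q : ZMod p)) (hen : e ≤ n) (P : Subgroup (GL (Fin n) F)) (hP : IsPGroup p P) : derivedSeries ↥P (Nat.log 2 (n / e) + 1) = ⊥ := by
  have hpp : p.Prime := Fact.out
  have hpF : (p : F) ≠ 0 := by
    intro h0
    have : CharP F p := (CharP.charP_iff_prime_eq_zero hpp).mpr h0
    have h1 : ((q : ℕ) : F) = 0 := hF ▸ Nat.cast_card_eq_zero F
    exact hpq ((CharP.cast_eq_zero_iff F p q).mp h1)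
  have hcard : Nat.card F = q := by rw [Nat.card_eq_fintype_card, hF]
  let ρ : P →* Module.End F (Fin n → F) :=
    ((Matrix.toLinAlgEquiv' : Matrix (Fin n) (Fin n) F ≃ₐ[F] _) :
      Matrix (Fin n) (Fin n) F →* Module.End F (Fin n → F)).comp
      ((Units.coeHom (Matrix (Fin n) (Fin n) F)).comp P.subtype)
  have hρ : Function.Injective ρ := by
    intro g h hgh
    have h1 : ((g : GL (Fin n) F) : Matrix (Fin n) (Fin n) F) = ((h : GL (Fin n) F) : Matrix (Fin n) (Fin n) F) :=
      Matrix.toLinAlgEquiv'.injective hgh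
    exact Subtype.ext (Units.ext h1)
  have hmain := main F p hpF e (by rw [hcard]; exact he) n (Fin n → F) P hP ρ (by simp)
  rw [eq_bot_iff]
  intro g hg
  have h1 := hmain hg
  rw [MonoidHom.mem_ker] at h1
  rw [Subgroup.mem_bot]
  exact hρ (h1.trans (map_one ρ).symm)

end Cfsg.Agent.S4417
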