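-- Statement S0345: in a finite simple Zassenhaus group the two-point stabiliser is cyclic and
-- inverted by an involution interchanging the two points.
import Cfsg.Statements.S0345
import Cfsg.Agent.S0739
import Cfsg.Agent.S0740
import Cfsg.Agent.Helper59.ZassEven
import Cfsg.Agent.Helper59.Sharp3Idx
import Cfsg.Agent.Helper15.ZassenhausCount

set_option autoImplicit false
open Cfsg

namespace Cfsg.Agent.S0345

open MulAction Cfsg.Agent.Helper59

/-- A faithful 2-transitive group in which only the identity fixes three points and whose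
two-point stabiliser is transitive on the remaining points (i.e. a sharply 3-transitive group), of
even degree at least 4, has a normal subgroup of index two. -/
theorem exists_index_two_of_three_trans {G Ω : Type*} [Group G] [MulAction G Ω] [Fintype Ω]
    [FaithfulSMul G Ω]
    (h2 : ∀ x y x' y' : Ω, x ≠ y → x' ≠ y' → ∃ g : G, g • x = x' ∧ g • y = y')
    (h3 : ∀ (g : G) (x y z : Ω), x ≠ y → x ≠ z → y ≠ z → g • x = x → g • y = y → g • z = z →
      g = 1)
    {a b c : Ω} (hab : a ≠ b)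
    (htr : ∀ x : Ω, x ≠ a → x ≠ b → ∃ h : G, h • a = a ∧ h • b = b ∧ h • c = x)
    (heven : Even (Fintype.card Ω)) (h4 : 4 ≤ Fintype.card Ω) :
    ∃ N : Subgroup G, N.Normal ∧ N.index = 2 := by
  classical
  have hφ : Function.Injective (MulAction.toPermHom G Ω) := MulAction.toPerm_injective
  let e : G ≃* (MulAction.toPermHom G Ω).range := MonoidHom.ofInjective hφ
  have hsmul : ∀ (g : G) (x : Ω), (e g : (MulAction.toPermHom G Ω).range) • x = g • x :=
    fun g x => rfl
  have hne : ∀ (x : Fin 3 ↪ Ω), x 0 ≠ x 1 ∧ x 0 ≠ x 2 ∧ x 1 ≠ x 2 := by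
    intro x
    refine ⟨fun h => ?_, fun h => ?_, fun h => ?_⟩
    · exact absurd (x.injective h) (by decide)
    · exact absurd (x.injective h) (by decide)
    · exact absurd (x.injective h) (by decide)
  have h3' : IsMultiplyPretransitive (MulAction.toPermHom G Ω).range Ω 3 := by
    refine ⟨fun x y => ?_⟩
    obtain ⟨hx01, hx02, hx12⟩ := hne x
    obtain ⟨hy01, hy02, hy12⟩ := hne y
    obtain ⟨g₁, hg₁0, hg₁1⟩ := h2 (x 0) (x 1) a b hx01 hab
    obtain ⟨g₂, hg₂0, hg₂1⟩ := h2 (y 0) (y 1) a b hy01 hab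
    have hw : g₁ • x 2 ≠ a ∧ g₁ • x 2 ≠ b :=
      ⟨fun h => hx02 (smul_left_cancel g₁ (hg₁0.trans h.symm)),
        fun h => hx12 (smul_left_cancel g₁ (hg₁1.trans h.symm))⟩
    have hw' : g₂ • y 2 ≠ a ∧ g₂ • y 2 ≠ b :=
      ⟨fun h => hy02 (smul_left_cancel g₂ (hg₂0.trans h.symm)),
        fun h => hy12 (smul_left_cancel g₂ (hg₂1.trans h.symm))⟩
    obtain ⟨h₁, h₁a, h₁b, h₁c⟩ := htr _ hw.1 hw.2
    obtain ⟨h₂, h₂a, h₂b, h₂c⟩ := htr _ hw'.1 hw'.2
    have h₁a' : h₁⁻¹ • a = a := by rw [inv_smul_eq_iff, h₁a]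
    have h₁b' : h₁⁻¹ • b = b := by rw [inv_smul_eq_iff, h₁b]
    refine ⟨e (g₂⁻¹ * h₂ * h₁⁻¹ * g₁), ?_⟩
    ext i
    rw [Function.Embedding.smul_apply, hsmul]
    fin_cases i
    · show (g₂⁻¹ * h₂ * h₁⁻¹ * g₁) • x 0 = y 0
      rw [mul_smul, mul_smul, mul_smul, hg₁0, h₁a', h₂a, inv_smul_eq_iff, hg₂0]
    · show (g₂⁻¹ * h₂ * h₁⁻¹ * g₁) • x 1 = y 1
      rw [mul_smul, mul_smul, mul_smul, hg₁1, h₁b', h₂b, inv_smul_eq_iff, hg₂1]
    · show (g₂⁻¹ * h₂ * h₁⁻¹ * g₁) • x 2 = y 2
      rw [mul_smul, mul_smul, mul_smul, ← h₁c, inv_smul_smul, h₂c, inv_smul_smul]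
  have hsharp' : ∀ x : Fin 3 ↪ Ω, stabilizer (MulAction.toPermHom G Ω).range x = ⊥ := by
    intro x
    obtain ⟨hx01, hx02, hx12⟩ := hne x
    rw [eq_bot_iff]
    intro g' hg'
    obtain ⟨g, rfl⟩ := e.surjective g'
    rw [mem_stabilizer_iff] at hg'
    have hfix : ∀ i, g • x i = x i := by
      intro i
      have h1 := congrArg (fun f : Fin 3 ↪ Ω => f i) hg'
      exact h1
    have h1 : g = 1 := h3 g (x 0) (x 1) (x 2) hx01 hx02 hx12 (hfix 0) (hfix 1) (hfix 2)
    rw [h1, map_one]
    exact Subgroup.mem_bot.mpr rfl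
  obtain ⟨N, hN, hN2⟩ := Sharp3Even.exists_normal_index_two heven h4 _ h3' hsharp'
  refine ⟨N.comap e.toMonoidHom, hN.comap _, ?_⟩
  exact (Subgroup.index_comap_of_surjective N (f := e.toMonoidHom) e.surjective).trans hN2

/-- In a finite simple Zassenhaus group the stabiliser `H` of two points `a ≠ b` is cyclic, and some involution
interchanging `a` and `b` inverts every element of `H`. -/
theorem result {G Ω : Type*} [Group G] [Finite G] [MulAction G Ω] [Finite Ω]
    (hZ : Cfsg.IsZassenhausGroup G Ω) [IsSimpleGroup G]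
    {a b : Ω} (hab : a ≠ b) :
    IsCyclic ↥(MulAction.stabilizer G a ⊓ MulAction.stabilizer G b) ∧
      ∃ v : G, orderOf v = 2 ∧ v • a = b ∧ v • b = a ∧ ∀ h ∈ MulAction.stabilizer G a ⊓ MulAction.stabilizer G b, v * h * v⁻¹ = h⁻¹ := by
  classical
  haveI := Fintype.ofFinite Ω
  haveI : Fact (Nat.Prime 2) := ⟨Nat.prime_two⟩
  rcases Nat.even_or_odd (Nat.card ↥(stabilizer G a ⊓ stabilizer G b)) with heven | hodd
  · obtain ⟨K, C⟩ := ZassEven.Ctx0.of_zass hZ hab heven
    obtain ⟨c, hca, hcb⟩ := Cfsg.Agent.Helper6.zs_exists_ne₂ hZ a b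
    obtain ⟨z, hz⟩ := exists_prime_orderOf_dvd_card' 2 heven.two_dvd
    have hzmem := z.2
    rw [Subgroup.mem_inf, mem_stabilizer_iff, mem_stabilizer_iff] at hzmem
    have hz2 : (z : G) * z = 1 := by
      have h1 := pow_orderOf_eq_one z
      rw [hz, pow_two] at h1
      exact congrArg Subtype.val h1
    have hz1 : (z : G) ≠ 1 := by
      intro h
      have h1 : z = 1 := Subtype.ext h
      rw [h1, orderOf_one] at hz
      omega
    by_cases htr : ∀ x : Ω, x ≠ a → x ≠ b → ∃ h : G, h • a = a ∧ h • b = b ∧ h • c = x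
    · exfalso
      have hfix2 : Nat.card (fixedBy Ω (z : G)) = 2 :=
        le_antisymm (Cfsg.Agent.S0740.card_fixedBy_le_two hZ.2.2.1 _ hz1)
          (Cfsg.Agent.S0740.two_le_card_fixedBy _ hab hzmem.1 hzmem.2)
      have hmod := Cfsg.Agent.S0740.card_fixedBy_modEq (Ω := Ω) (z : G) hz2
      rw [hfix2] at hmod
      have hmod' : 2 % 2 = Fintype.card Ω % 2 := hmod
      have hevenΩ : Even (Fintype.card Ω) := by
        rw [Nat.even_iff]
        omega
      have h3le := Cfsg.Agent.Helper15.zass_three_le_card hZ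
      rw [Nat.card_eq_fintype_card] at h3le
      have h4 : 4 ≤ Fintype.card Ω := by
        obtain ⟨r, hr⟩ := hevenΩ
        omega
      haveI := hZ.1
      obtain ⟨N, hN, hN2⟩ := exists_index_two_of_three_trans
        (fun x y x' y' hxy hxy' => Cfsg.Agent.Helper15.zass_two_trans hZ hxy hxy')
        (fun g x y z hxy hxz hyz hx hy hz => hZ.2.2.1 g x y z hxy hyz hxz hx hy hz)
        hab htr hevenΩ h4
      rcases hN.eq_bot_or_eq_top with rfl | rfl
      · rw [Subgroup.index_bot] at hN2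
        have hcard := Cfsg.Agent.Helper15.zass_card_group hZ hab
        rw [hN2, Nat.card_eq_fintype_card] at hcard
        have hd : 1 ≤ Nat.card ↥(stabilizer G a ⊓ stabilizer G b) := Nat.card_pos
        have h12 : 4 * 3 ≤ Fintype.card Ω * (Fintype.card Ω - 1) :=
          Nat.mul_le_mul h4 (by omega)
        nlinarith
      · rw [Subgroup.index_top] at hN2
        omega
    · push Not at htr
      obtain ⟨c', hca', hcb', hcc'⟩ := htr
      exact C.inverting hzmem.1 hzmem.2 hz2 hz1 hca hcb hca' hcb' hcc'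
  · obtain ⟨s, hs2, hsa, hsb⟩ := (Cfsg.Agent.S0740.result hZ hab).1
    have hnil : ∀ q : ℕ, q.Prime → q ∣ Nat.card ↥(stabilizer G a ⊓ stabilizer G b) →
        ¬ ∃ N : Subgroup G, N.Normal ∧ N.index = q ^ (Nat.card G).factorization q := by
      rintro q hq hqd ⟨N, hN, hidx⟩
      rcases hN.eq_bot_or_eq_top with rfl | rfl
      · rw [Subgroup.index_bot] at hidx
        have h2 : 2 ∣ Nat.card G := by
          rw [← hs2]
          exact orderOf_dvd_natCard s
        rw [hidx] at h2
        have h2q : 2 ∣ q := Nat.Prime.dvd_of_dvd_pow Nat.prime_two h2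
        have hq2 : q = 2 := ((Nat.prime_dvd_prime_iff_eq Nat.prime_two hq).mp h2q).symm
        rw [hq2] at hqd
        exact (Nat.not_even_iff_odd.mpr hodd) (even_iff_two_dvd.mpr hqd)
      · rw [Subgroup.index_top] at hidx
        have hv : (Nat.card G).factorization q = 0 := by
          by_contra hne
          have h1 : 1 < q ^ (Nat.card G).factorization q := Nat.one_lt_pow hne hq.one_lt
          omega
        rw [Nat.factorization_eq_zero_iff] at hv
        rcases hv with h | h | h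
        · exact h hq
        · exact h (hqd.trans (Subgroup.card_subgroup_dvd_card _))
        · exact Nat.card_pos.ne' h
    obtain ⟨hcyc, -, hinv⟩ := Cfsg.Agent.S0739.result hZ hab hodd hnil
    exact ⟨hcyc, s, hs2, hsa, hsb, hinv s hsa hsb⟩

end Cfsg.Agent.S0345
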