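import Cfsg.Statements.S0387
import Cfsg.Agent.Helper7.M12Trans

set_option autoImplicit false
open scoped Pointwise
open Cfsg

namespace Cfsg.Agent.S0387

open Cfsg.Agent.Helper7 in
/-- The stabiliser of a dodecad and a point on it has order 7920 = 2^4·3^2·5·11. -/
theorem result (d : Finset Cfsg.GolayPt) (hd : d ∈ Cfsg.dodecads) (p : Cfsg.GolayPt) (hp : p ∈ d) : Nat.card ↥(MulAction.stabilizer Cfsg.M24 d ⊓ MulAction.stabilizer Cfsg.M24 p) = 7920 := by
  obtain ⟨h, hh, rfl, rfl⟩ := dodecad_flag hd hp
  rw [← card_M11grp]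
  apply Nat.card_congr
  exact
    { toFun := fun g => ⟨h⁻¹ * g.1.1 * h, by
        have hg1 : g.1 • (h • setOf D1) = h • setOf D1 := g.2.1
        have hg2 : g.1 • h (pt 0) = h (pt 0) := g.2.2
        refine Subgroup.mem_inf.mpr ⟨conj_mem_M12grp hh g.1.2 hg1, ?_⟩
        intro j hj
        rw [List.mem_singleton] at hj
        subst hj
        have hg2' : g.1.1 (h (pt 0)) = h (pt 0) := hg2
        simp only [Equiv.Perm.mul_apply]
        rw [hg2']
        simp⟩
      invFun := fun k => ⟨⟨h * k.1 * h⁻¹, M24.mul_mem (M24.mul_mem hh k.2.1.1) (M24.inv_mem hh)⟩, by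
        refine Subgroup.mem_inf.mpr ⟨?_, ?_⟩
        · exact conj_M12grp_smul k.2.1
        · show (h * k.1 * h⁻¹) (h (pt 0)) = h (pt 0)
          have := k.2.2 0 (by simp)
          simp only [Equiv.Perm.mul_apply]
          simp [this]⟩
      left_inv := fun g => by
        apply Subtype.ext
        apply Subtype.ext
        show h * (h⁻¹ * g.1.1 * h) * h⁻¹ = g.1.1
        group
      right_inv := fun k => by
        apply Subtype.ext
        show h⁻¹ * (h * k.1 * h⁻¹) * h = k.1
        group }

end Cfsg.Agent.S0387
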