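import Cfsg.Statements.S0963
import Mathlib
import Cfsg.Agent.Helper75.CliffordCorr
import Cfsg.Agent.Helper16.IndCentral
import Cfsg.Agent.Helper81.CharBasic

set_option autoImplicit false
open Cfsg

namespace Cfsg.Agent.S0963

open Cfsg.Agent.Helper75 in
theorem aux {G : Type*} [Group G] [Fintype G] (N : Subgroup G) [N.Normal] [Fintype N]
    (χ : Cfsg.IrrCharacter G) (θ : Cfsg.IrrCharacter N) :
    Cfsg.classInner (fun n : N => (χ : G → ℂ) n) (θ : N → ℂ) ≠ 0 ↔
      ∀ n : N, (χ : G → ℂ) n * indFun N (θ : N → ℂ) 1 = indFun N (θ : N → ℂ) n * (χ : G → ℂ) 1 := by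
  classical
  have hG : (Nat.card G : ℂ) ≠ 0 := by exact_mod_cast Nat.card_pos.ne'
  have hN : (Nat.card N : ℂ) ≠ 0 := by exact_mod_cast Nat.card_pos.ne'
  have hχ1 : (χ : G → ℂ) 1 ≠ 0 := Cfsg.Agent.Helper81.irr_one_ne_zero χ
  have hθ1 : (θ : N → ℂ) 1 ≠ 0 := Cfsg.Agent.Helper81.irr_one_ne_zero θ
  have hind1 : indFun N (θ : N → ℂ) 1 = (Nat.card G : ℂ) / (Nat.card N : ℂ) * (θ : N → ℂ) 1 :=
    indFun_one N _
  have hind1ne : indFun N (θ : N → ℂ) 1 ≠ 0 := by
    rw [hind1]; exact mul_ne_zero (div_ne_zero hG hN) hθ1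
  have hs := sum_conjFun_eq N (θ : N → ℂ)
  set O : N → ℂ := ∑ᶠ ψ ∈ {ψ : N → ℂ | ∃ g : G, ψ = conjFun N g (θ : N → ℂ)}, ψ with hO
  have hi : ∀ m : N, indFun N (θ : N → ℂ) (m : G) = (Nat.card N : ℂ)⁻¹ *
      ((Nat.card {g : G // conjFun N g (θ : N → ℂ) = (θ : N → ℂ)} : ℂ) * O m) := by
    intro m
    rw [indFun_apply_mem]
    congr 1
    have := congrFun hs m
    rw [Finset.sum_apply, Pi.smul_apply, smul_eq_mul] at this
    exact this
  constructor
  · intro hne n
    have hcl := clifford_restrict N χ.2 θ.2 hne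
    have hc : ∀ m : N, (χ : G → ℂ) m = Cfsg.classInner (fun n : N => (χ : G → ℂ) n) (θ : N → ℂ) * O m := by
      intro m
      have := congrFun hcl m
      rw [Pi.smul_apply, smul_eq_mul] at this
      exact this
    have h1 := hi 1
    have h2 := hc 1
    rw [Subgroup.coe_one] at h1 h2
    rw [hc n, hi n, h1, h2]
    ring
  · intro h
    have hc : (fun n : N => (χ : G → ℂ) n) = ((χ : G → ℂ) 1 / indFun N (θ : N → ℂ) 1 *
        (Nat.card N : ℂ)⁻¹) • ∑ x : G, conjFun N x (θ : N → ℂ) := by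
      funext n
      rw [Pi.smul_apply, smul_eq_mul, Finset.sum_apply, mul_assoc, ← indFun_apply_mem]
      have := h n
      field_simp
      linear_combination this
    rw [hc, classInner_smul_left, classInner_sum_left]
    refine mul_ne_zero (mul_ne_zero (div_ne_zero hχ1 hind1ne) (inv_ne_zero hN)) ?_
    have hterm : ∀ x : G, Cfsg.classInner (conjFun N x (θ : N → ℂ)) (θ : N → ℂ)
        = if conjFun N x (θ : N → ℂ) = (θ : N → ℂ) then 1 else 0 := by
      intro x
      have := classInner_irr (⟨conjFun N x (θ : N → ℂ), isIrrCharacter_conjFun N x θ.2⟩ : IrrCharacter N) θ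
      rw [this]
      by_cases hx : conjFun N x (θ : N → ℂ) = (θ : N → ℂ)
      · rw [if_pos hx, if_pos (Subtype.ext hx)]
      · rw [if_neg hx, if_neg (fun h' => hx (congrArg Subtype.val h'))]
    rw [Finset.sum_congr rfl (fun x _ => hterm x), Finset.sum_boole]
    have : (1 : G) ∈ Finset.univ.filter (fun x : G => conjFun N x (θ : N → ℂ) = (θ : N → ℂ)) := by
      rw [Finset.mem_filter]
      exact ⟨Finset.mem_univ _, conjFun_one N _⟩
    have hpos : 0 < (Finset.univ.filter (fun x : G => conjFun N x (θ : N → ℂ) = (θ : N → ℂ))).card :=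
      Finset.card_pos.2 ⟨1, this⟩
    exact_mod_cast hpos.ne'

/-- Let N be a normal subgroup of the finite group G, χ an irreducible character of G and θ an irreducible character of N. Then θ occurs in the restriction of χ to N if and only if, for every n ∈ N, the central character of χ at n (class size in G times χ n over χ 1) equals the sum of θ m / θ 1 over the elements m of N conjugate in G to n. -/
theorem result {G : Type*} [Group G] [Fintype G] (N : Subgroup G) [N.Normal] [Fintype N] (χ : Cfsg.IrrCharacter G) (θ : Cfsg.IrrCharacter N) : Cfsg.classInner (fun n : N => (χ : G → ℂ) n) (θ : N → ℂ) ≠ 0 ↔ ∀ n : N, Cfsg.centralChar (χ : G → ℂ) (n : G) = Cfsg.inducedCentralChar N (θ : N → ℂ) (n : G) := by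
  rw [aux N χ θ]
  have hχ1 : (χ : G → ℂ) 1 ≠ 0 := Cfsg.Agent.Helper81.irr_one_ne_zero χ
  have hG : (Nat.card G : ℂ) ≠ 0 := by exact_mod_cast Nat.card_pos.ne'
  have hN : (Nat.card N : ℂ) ≠ 0 := by exact_mod_cast Nat.card_pos.ne'
  have hθ1 : (θ : N → ℂ) 1 ≠ 0 := Cfsg.Agent.Helper81.irr_one_ne_zero θ
  have hind1ne : indFun N (θ : N → ℂ) 1 ≠ 0 := by
    rw [Cfsg.Agent.Helper75.indFun_one N _]; exact mul_ne_zero (div_ne_zero hG hN) hθ1
  refine forall_congr' (fun n => ?_)
  rw [Cfsg.Agent.Helper16.inducedCentralChar_eq_centralChar_indFun]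
  unfold centralChar
  have hidx : ((Subgroup.centralizer ({(n : G)} : Set G)).index : ℂ) ≠ 0 := by
    exact_mod_cast Subgroup.index_ne_zero_of_finite
  constructor
  · intro h
    field_simp
    linear_combination h
  · intro h
    field_simp at h
    linear_combination h

end Cfsg.Agent.S0963
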