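import Cfsg.Statements.S0971
import Cfsg.Agent.Helper16.BrauerInd
import Cfsg.Agent.Helper16.BK
import Cfsg.Agent.Helper16.ClassSum
import Cfsg.Agent.S0963

set_option autoImplicit false
open Cfsg

namespace Cfsg.Agent.S0971

/-- Let Q be a normal p-subgroup of the finite group G, let N = Q ⊔ C_G(Q) (a normal subgroup) and let b be a block of N relative to a maximal ideal M of the algebraic integers containing p. Then b induces some block of G, and every block B of G containing a character whose restriction to N has a constituent in b is induced by b. -/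
theorem result {G : Type*} [Group G] [Fintype G] (p : ℕ) [Fact p.Prime] (M : Ideal Cfsg.AlgInt) (hM : Cfsg.IsPModular p M) (Q : Subgroup G) [Q.Normal] (hQ : IsPGroup p Q) [Fintype ↥(Q ⊔ Subgroup.centralizer (Q : Set G))] (b : Set (Cfsg.IrrCharacter ↥(Q ⊔ Subgroup.centralizer (Q : Set G)))) (hb : Cfsg.IsPBlock M b) : Cfsg.InducedBlockDefined M (Q ⊔ Subgroup.centralizer (Q : Set G)) b ∧ ∀ B : Set (Cfsg.IrrCharacter G), Cfsg.IsPBlock M B → (∃ χ ∈ B, ∃ θ ∈ b, Cfsg.classInner (fun n : ↥(Q ⊔ Subgroup.centralizer (Q : Set G)) => (χ : G → ℂ) n) (θ : ↥(Q ⊔ Subgroup.centralizer (Q : Set G)) → ℂ) ≠ 0) → Cfsg.IsInducedBlock M (Q ⊔ Subgroup.centralizer (Q : Set G)) b B := by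
  classical
  have hMm := hM.2.1
  have hQN : Q ≤ Q ⊔ Subgroup.centralizer (Q : Set G) := le_sup_left
  have hCN : Subgroup.centralizer (Q : Set G) ≤ Q ⊔ Subgroup.centralizer (Q : Set G) :=
    le_sup_right
  have hNN : Q ⊔ Subgroup.centralizer (Q : Set G) ≤ Subgroup.normalizer (Q : Set G) := by
    rw [Subgroup.normalizer_eq_top]; exact le_top
  have hNnormal : (Q ⊔ Subgroup.centralizer (Q : Set G)).Normal := Subgroup.sup_normal _ _
  refine ⟨Cfsg.Agent.Helper16.exists_isInducedBlock hM Q _ hQ hQN hCN hNN hb, ?_⟩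
  rintro B hB ⟨χ, hχ, θ, hθ, hne⟩
  refine ⟨hb, hB, fun ξ hξ χ' hχ' g => ?_⟩
  have h1 := Cfsg.Agent.Helper16.inducedCentralChar_sub_mem hMm
    (Q ⊔ Subgroup.centralizer (Q : Set G)) (ξ : ↥(Q ⊔ Subgroup.centralizer (Q : Set G)) → ℂ)
    (θ : ↥(Q ⊔ Subgroup.centralizer (Q : Set G)) → ℂ)
    (Cfsg.Agent.Helper81.irr_isClassFunction ξ) (Cfsg.Agent.Helper81.irr_isClassFunction θ)
    (Cfsg.Agent.Helper16.sameBlock_of_mem hMm hb hξ hθ) g
  have h2 := Cfsg.Agent.Helper16.sameBlock_of_mem hMm hB hχ hχ' g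
  have h3 : Cfsg.MemLocalIdeal M (Cfsg.inducedCentralChar (Q ⊔ Subgroup.centralizer (Q : Set G))
      (θ : ↥(Q ⊔ Subgroup.centralizer (Q : Set G)) → ℂ) g
      - Cfsg.centralChar (χ : G → ℂ) g) := by
    by_cases hg : g ∈ Q ⊔ Subgroup.centralizer (Q : Set G)
    · have h4 := (Cfsg.Agent.S0963.result (Q ⊔ Subgroup.centralizer (Q : Set G)) χ θ).mp hne
        ⟨g, hg⟩
      rw [← h4, sub_self]
      exact Cfsg.Agent.Helper77.memLocalIdeal_zero hMm
    · have hgC : g ∉ Subgroup.centralizer (Q : Set G) := fun h => hg (hCN h)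
      have h4 := Cfsg.Agent.Helper16.centralChar_memLocalIdeal_of_not_mem_centralizer hM Q hQ χ g
        hgC
      have h5 : Cfsg.inducedCentralChar (Q ⊔ Subgroup.centralizer (Q : Set G))
          (θ : ↥(Q ⊔ Subgroup.centralizer (Q : Set G)) → ℂ) g = 0 := by
        unfold Cfsg.inducedCentralChar
        apply finsum_mem_eq_zero_of_forall_eq_zero
        intro h hh
        exfalso
        have hh' : IsConj g (h : G) := hh
        obtain ⟨c, hc⟩ := isConj_iff.mp hh'
        apply hg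
        have h6 : g = c⁻¹ * (h : G) * c⁻¹⁻¹ := by rw [← hc]; group
        rw [h6]
        exact hNnormal.conj_mem _ h.2 _
      rw [h5, zero_sub]
      exact Cfsg.Agent.Helper77.memLocalIdeal_neg h4
  have h4 := Cfsg.Agent.Helper77.memLocalIdeal_add hMm
    (Cfsg.Agent.Helper77.memLocalIdeal_add hMm h1 h3) h2
  have e : Cfsg.inducedCentralChar (Q ⊔ Subgroup.centralizer (Q : Set G))
        (ξ : ↥(Q ⊔ Subgroup.centralizer (Q : Set G)) → ℂ) g
      - Cfsg.inducedCentralChar (Q ⊔ Subgroup.centralizer (Q : Set G))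
        (θ : ↥(Q ⊔ Subgroup.centralizer (Q : Set G)) → ℂ) g
      + (Cfsg.inducedCentralChar (Q ⊔ Subgroup.centralizer (Q : Set G))
        (θ : ↥(Q ⊔ Subgroup.centralizer (Q : Set G)) → ℂ) g - Cfsg.centralChar (χ : G → ℂ) g)
      + (Cfsg.centralChar (χ : G → ℂ) g - Cfsg.centralChar (χ' : G → ℂ) g)
      = Cfsg.inducedCentralChar (Q ⊔ Subgroup.centralizer (Q : Set G))
        (ξ : ↥(Q ⊔ Subgroup.centralizer (Q : Set G)) → ℂ) g
      - Cfsg.centralChar (χ' : G → ℂ) g := by ring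
  rwa [e] at h4

end Cfsg.Agent.S0971
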