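import Cfsg.Statements.S0020
import Cfsg.Agent.Helper1.Hall

set_option autoImplicit false
open Pointwise
open Cfsg

namespace Cfsg.Agent.S0020

theorem index_inf_of_coprime {G : Type*} [Group G] [Finite G] (H K : Subgroup G)
    (h : H.index.Coprime K.index) : (H ⊓ K).index = H.index * K.index := by
  have hHK : (H ⊓ K).index ≠ 0 := Subgroup.index_ne_zero_of_finite
  apply le_antisymm (Subgroup.index_inf_le)
  apply Nat.le_of_dvd (Nat.pos_of_ne_zero hHK)
  exact Nat.Coprime.mul_dvd_of_dvd_of_dvd h (Subgroup.index_dvd_of_le inf_le_left)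
    (Subgroup.index_dvd_of_le inf_le_right)

theorem exists_hall_compl {G : Type*} [Group G] [Finite G] [Group.IsSolvable G] (p : ℕ)
    (hp : p.Prime) : ∃ K : Subgroup G, K.index = p ^ (Nat.card G).factorization p := by
  have hG0 : Nat.card G ≠ 0 := Nat.card_pos.ne'
  have hmul : Nat.card G = (Nat.card G / p ^ (Nat.card G).factorization p) *
      p ^ (Nat.card G).factorization p := by
    rw [mul_comm]; exact (Nat.ordProj_mul_ordCompl_eq_self (Nat.card G) p).symm
  have hcop : (Nat.card G / p ^ (Nat.card G).factorization p).Coprime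
      (p ^ (Nat.card G).factorization p) :=
    (Nat.Coprime.pow_left _ (Nat.coprime_ordCompl hp hG0)).symm
  obtain ⟨K, hK⟩ := Cfsg.Agent.Helper1.hall_exists_aux (Nat.card G) G _ _ rfl hmul hcop
  exact ⟨K, Cfsg.Agent.Helper1.hall_index hmul K hK⟩

theorem mul_eq_of_card {G : Type*} [Group G] [Finite G] (H A B : Subgroup G) (hA : A ≤ H)
    (hB : B ≤ H) (hcard : Nat.card A * Nat.card B = Nat.card H)
    (hcop : (Nat.card A).Coprime (Nat.card B)) : (A : Set G) * (B : Set G) = H := by
  have hc : Subgroup.IsComplement' (A.subgroupOf H) (B.subgroupOf H) :=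
    Subgroup.isComplement'_of_coprime
      (by rw [Cfsg.Agent.Helper1.card_subgroupOf_of_le hA,
        Cfsg.Agent.Helper1.card_subgroupOf_of_le hB, hcard])
      (by rw [Cfsg.Agent.Helper1.card_subgroupOf_of_le hA,
        Cfsg.Agent.Helper1.card_subgroupOf_of_le hB]; exact hcop)
  ext x
  constructor
  · rintro ⟨a, ha, b, hb, rfl⟩
    exact H.mul_mem (hA ha) (hB hb)
  · intro hx
    obtain ⟨⟨u, w⟩, huw⟩ := hc.2 ⟨x, hx⟩
    have h1 : ((u : H) : G) * ((w : H) : G) = x := congrArg Subtype.val huw
    exact ⟨_, Subgroup.mem_subgroupOf.mp u.2, _, Subgroup.mem_subgroupOf.mp w.2, h1⟩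

theorem aux {G : Type*} [Group G] [Finite G] [Group.IsSolvable G] :
    ∃ S : (p : Nat.Primes) → Sylow (p : ℕ) G,
      ∀ p q : Nat.Primes, (S p : Set G) * (S q : Set G) = (S q : Set G) * (S p : Set G) := by
  classical
  have hG0 : Nat.card G ≠ 0 := Nat.card_pos.ne'
  choose! K hK using (fun p (hp : p.Prime) => exists_hall_compl (G := G) p hp)
  have hidx : ∀ J : Finset ℕ, J ⊆ (Nat.card G).primeFactors →
      (⨅ r ∈ J, K r).index = ∏ r ∈ J, r ^ (Nat.card G).factorization r := by
    intro J
    induction J using Finset.induction_on with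
    | empty => intro _; simp
    | insert p J hpJ ih =>
      intro hJ
      have hJ' : J ⊆ (Nat.card G).primeFactors := (Finset.subset_insert p J).trans hJ
      have hpp : p.Prime := Nat.prime_of_mem_primeFactors (hJ (Finset.mem_insert_self p J))
      rw [Finset.iInf_insert, Finset.prod_insert hpJ, ← ih hJ', ← hK p hpp]
      apply index_inf_of_coprime
      rw [ih hJ', hK p hpp]
      apply Nat.Coprime.prod_right
      intro r hr
      have hrp : r.Prime := Nat.prime_of_mem_primeFactors (hJ' hr)
      have hne : p ≠ r := fun h => hpJ (h ▸ hr)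
      exact Nat.Coprime.pow _ _ ((Nat.coprime_primes hpp hrp).mpr hne)
  have hprod : ∏ r ∈ (Nat.card G).primeFactors, r ^ (Nat.card G).factorization r = Nat.card G := by
    have h1 := Nat.prod_factorization_pow_eq_self hG0
    rw [Finsupp.prod, Nat.support_factorization] at h1
    exact h1
  have ha0 : ∀ p, p ∉ (Nat.card G).primeFactors → (Nat.card G).factorization p = 0 := by
    intro p hp
    rw [← Nat.support_factorization] at hp
    exact Finsupp.notMem_support_iff.mp hp
  have herase : ∀ (J : Finset ℕ) (p : ℕ), (p ∉ J → (Nat.card G).factorization p = 0) →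
      (∏ r ∈ J.erase p, r ^ (Nat.card G).factorization r) * p ^ (Nat.card G).factorization p =
        ∏ r ∈ J, r ^ (Nat.card G).factorization r := by
    intro J p hp
    by_cases hpJ : p ∈ J
    · exact Finset.prod_erase_mul J _ hpJ
    · rw [Finset.erase_eq_of_notMem hpJ, hp hpJ, pow_zero, mul_one]
  have hTcard : ∀ p : ℕ, Nat.card (⨅ r ∈ (Nat.card G).primeFactors.erase p, K r : Subgroup G) =
      p ^ (Nat.card G).factorization p := by
    intro p
    have h1 := hidx ((Nat.card G).primeFactors.erase p) (Finset.erase_subset _ _)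
    have h2 := Subgroup.card_mul_index (⨅ r ∈ (Nat.card G).primeFactors.erase p, K r)
    rw [h1] at h2
    have h3 := herase (Nat.card G).primeFactors p (ha0 p)
    rw [hprod] at h3
    have hpos : 0 < ∏ r ∈ (Nat.card G).primeFactors.erase p, r ^ (Nat.card G).factorization r := by
      apply Nat.pos_of_ne_zero
      intro h0
      rw [h0, zero_mul] at h3
      exact hG0 h3.symm
    apply Nat.eq_of_mul_eq_mul_right hpos
    exact h2.trans (h3.symm.trans (mul_comm _ _))
  refine ⟨fun p => haveI : Fact (p : ℕ).Prime := ⟨p.2⟩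
    Sylow.ofCard (⨅ r ∈ (Nat.card G).primeFactors.erase (p : ℕ), K r) (hTcard p), ?_⟩
  intro p q
  by_cases hpq : p = q
  · subst hpq; rfl
  · have hpq' : (p : ℕ) ≠ q := fun h => hpq (Subtype.ext h)
    have hHidx := hidx (((Nat.card G).primeFactors.erase (p : ℕ)).erase (q : ℕ))
      ((Finset.erase_subset _ _).trans (Finset.erase_subset _ _))
    have hHcard : Nat.card (⨅ r ∈ ((Nat.card G).primeFactors.erase (p : ℕ)).erase (q : ℕ), K r :
        Subgroup G) = (p : ℕ) ^ (Nat.card G).factorization p *
          (q : ℕ) ^ (Nat.card G).factorization q := by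
      have h2 := Subgroup.card_mul_index
        (⨅ r ∈ ((Nat.card G).primeFactors.erase (p : ℕ)).erase (q : ℕ), K r)
      rw [hHidx] at h2
      have h3 := herase (Nat.card G).primeFactors p (ha0 p)
      have h4 := herase ((Nat.card G).primeFactors.erase (p : ℕ)) q
        (fun hq => ha0 q (fun hq' => hq (Finset.mem_erase.mpr ⟨hpq'.symm, hq'⟩)))
      rw [hprod, ← h4] at h3
      have hpos : 0 < ∏ r ∈ ((Nat.card G).primeFactors.erase (p : ℕ)).erase (q : ℕ),
          r ^ (Nat.card G).factorization r := by
        apply Nat.pos_of_ne_zero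
        intro h0
        rw [h0, zero_mul, zero_mul] at h3
        exact hG0 h3.symm
      apply Nat.eq_of_mul_eq_mul_right hpos
      exact h2.trans (h3.symm.trans (by ring))
    have hpH : (⨅ r ∈ (Nat.card G).primeFactors.erase (p : ℕ), K r) ≤
        ⨅ r ∈ ((Nat.card G).primeFactors.erase (p : ℕ)).erase (q : ℕ), K r :=
      biInf_mono (fun r hr => Finset.mem_of_mem_erase hr)
    have hqH : (⨅ r ∈ (Nat.card G).primeFactors.erase (q : ℕ), K r) ≤
        ⨅ r ∈ ((Nat.card G).primeFactors.erase (p : ℕ)).erase (q : ℕ), K r :=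
      biInf_mono (fun r hr => by
        rw [Finset.mem_erase, Finset.mem_erase] at hr
        exact Finset.mem_erase.mpr ⟨hr.1, hr.2.2⟩)
    have hcop : ((p : ℕ) ^ (Nat.card G).factorization p).Coprime
        ((q : ℕ) ^ (Nat.card G).factorization q) :=
      Nat.Coprime.pow _ _ ((Nat.coprime_primes p.2 q.2).mpr hpq')
    have e1 := mul_eq_of_card _ _ _ hpH hqH (by rw [hTcard, hTcard, hHcard])
      (by rw [hTcard, hTcard]; exact hcop)
    have e2 := mul_eq_of_card _ _ _ hqH hpH (by rw [hTcard, hTcard, hHcard, mul_comm])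
      (by rw [hTcard, hTcard]; exact hcop.symm)
    exact e1.trans e2.symm

/-- A finite solvable group admits a Sylow system: Sylow subgroups, one for each prime, that pairwise permute as sets. -/
theorem result {G : Type*} [Group G] [Finite G] [Group.IsSolvable G] :
    ∃ S : (p : Nat.Primes) → Sylow (p : ℕ) G,
      ∀ p q : Nat.Primes, (S p : Set G) * (S q : Set G) = (S q : Set G) * (S p : Set G) := by
  exact aux

end Cfsg.Agent.S0020
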