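import Cfsg.Statements.S1450
import Cfsg.Agent.Helper23.Rank2Sol

set_option autoImplicit false
open Cfsg

namespace Cfsg.Agent.S1450

/-- Let G be a solvable group of odd order, p a prime dividing its order with G having no elementary abelian subgroup of order p ^ 3. Then every prime dividing the index of O_{p'}(G) is at most p; if p = 3 or p is the smallest prime divisor of #G then G has a normal p-complement; the derived subgroup G' has a normal p-complement; every subgroup of G' of order coprime to p lies in O_{p'}(G'); and G/O_{p',p}(G) is abelian of order coprime to p. -/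
theorem result {G : Type*} [Group G] [Finite G] [Group.IsSolvable G] (hodd : Odd (Nat.card G)) (p : ℕ) [Fact p.Prime] (hpG : p ∣ Nat.card G) (hr : Cfsg.PRankLE p 2 G) :
    (∀ q : ℕ, q.Prime → q ∣ (Cfsg.pPrimeCore p G).index → q ≤ p) ∧
      ((p = 3 ∨ ∀ q : ℕ, q.Prime → q ∣ Nat.card G → p ≤ q) → Cfsg.HasNormalPComplement p G) ∧
      Cfsg.HasNormalPComplement p ↥(commutator G) ∧
      (∀ L : Subgroup ↥(commutator G), (Nat.card L).Coprime p → L ≤ Cfsg.pPrimeCore p ↥(commutator G)) ∧
      commutator G ≤ Cfsg.pPrimePCore p G ∧ ((Cfsg.pPrimePCore p G).index).Coprime p := by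
  have hp' : p.Prime := Fact.out
  have hp2 : p ≠ 2 := by
    rintro rfl
    exact (Nat.not_even_iff_odd.mpr hodd) (even_iff_two_dvd.mpr hpG)
  have hK : (Nat.card (pPrimeCore p G)).Coprime p := Cfsg.Agent.Helper24.coprime_card_pPrimeCore p
  obtain ⟨hA, hB⟩ := Cfsg.Agent.Helper23.rank2_solvable p hp2 hodd hr
  have hsurj := QuotientGroup.mk'_surjective (pPrimeCore p G)
  -- (a)
  have ha : ∀ q : ℕ, q.Prime → q ∣ (pPrimeCore p G).index → q ≤ p := by
    intro q hq hdvd
    by_contra hlt
    push Not at hlt
    haveI : Fact q.Prime := ⟨hq⟩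
    rw [Subgroup.index_eq_card] at hdvd
    obtain ⟨x, hx⟩ := exists_prime_orderOf_dvd_card' (G := G ⧸ pPrimeCore p G) q hdvd
    have h1 := hB x q hq hlt (by rw [← hx]; exact pow_orderOf_eq_one x)
    rw [h1, orderOf_one] at hx
    exact hq.one_lt.ne hx
  have hcomm : ∀ g ∈ commutator G,
      (QuotientGroup.mk' (pPrimeCore p G)) g ∈ pCore p (G ⧸ pPrimeCore p G) := by
    intro g hg
    apply hA
    rw [commutator_def] at hg ⊢
    have h1 : (QuotientGroup.mk' (pPrimeCore p G)) g ∈
        Subgroup.map (QuotientGroup.mk' (pPrimeCore p G)) ⁅(⊤ : Subgroup G), (⊤ : Subgroup G)⁆ :=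
      Subgroup.mem_map_of_mem _ hg
    rw [Subgroup.map_commutator] at h1
    exact Subgroup.commutator_mono le_top le_top h1
  have hRp : IsPGroup p (pCore p (G ⧸ pPrimeCore p G)) := Cfsg.Agent.Helper24.isPGroup_pCore p _
  -- (e)
  have he1 : commutator G ≤ pPrimePCore p G := fun g hg => hcomm g hg
  have he2 : ((pPrimePCore p G).index).Coprime p := by
    have h1 : (pPrimePCore p G).index = (pCore p (G ⧸ pPrimeCore p G)).index :=
      Subgroup.index_comap_of_surjective _ hsurj
    rw [h1]
    let P : Sylow p (G ⧸ pPrimeCore p G) := default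
    have h2 : pCore p (G ⧸ pPrimeCore p G) ≤ (P : Subgroup (G ⧸ pPrimeCore p G)) :=
      Cfsg.Agent.Helper24.normal_isPGroup_le_sylow inferInstance hRp P
    have h3 : (P : Subgroup (G ⧸ pPrimeCore p G)).Normal :=
      Subgroup.Normal.of_commutator_le _ (hA.trans h2)
    have h4 : (P : Subgroup (G ⧸ pPrimeCore p G)) ≤ pCore p (G ⧸ pPrimeCore p G) :=
      Cfsg.Agent.Helper24.le_pCore h3 P.isPGroup'
    have h5 : pCore p (G ⧸ pPrimeCore p G) = P := le_antisymm h2 h4
    rw [h5, Nat.coprime_comm, hp'.coprime_iff_not_dvd]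
    exact P.not_dvd_index
  -- (b)
  have hb : (p = 3 ∨ ∀ q : ℕ, q.Prime → q ∣ Nat.card G → p ≤ q) → HasNormalPComplement p G := by
    intro hcase
    have key : ∀ q : ℕ, q.Prime → q ∣ (pPrimeCore p G).index → q = p := by
      intro q hq hdvd
      have h1 := ha q hq hdvd
      have hqG : q ∣ Nat.card G := hdvd.trans (Subgroup.index_dvd_card _)
      rcases hcase with h3 | hmin
      · have hq2 : q ≠ 2 := by
          rintro rfl
          exact (Nat.not_even_iff_odd.mpr hodd) (even_iff_two_dvd.mpr hqG)
        have := hq.two_le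
        omega
      · exact le_antisymm h1 (hmin q hq hqG)
    have hidx := Nat.eq_prime_pow_of_unique_prime_dvd
      (Subgroup.index_ne_zero_of_finite (H := pPrimeCore p G))
      (fun {d} hd hdvd => key d hd hdvd)
    let P : Sylow p G := default
    have hcardG : Nat.card G =
        Nat.card (pPrimeCore p G) * p ^ (pPrimeCore p G).index.primeFactorsList.length := by
      rw [← hidx]
      exact (Subgroup.card_mul_index _).symm
    have hP := Cfsg.Agent.Helper23.sylow_card_of_card_eq P hcardG hK
    exact ⟨P, pPrimeCore p G, inferInstance,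
      Subgroup.isComplement'_of_coprime (by rw [hP, ← hcardG]) (by rw [hP]; exact hK.pow_right _)⟩
  -- (c), (d)
  have hker : ((QuotientGroup.mk' (pPrimeCore p G)).comp (commutator G).subtype).ker =
      (pPrimeCore p G).subgroupOf (commutator G) := by
    ext x
    rw [MonoidHom.mem_ker, Subgroup.mem_subgroupOf, MonoidHom.comp_apply, QuotientGroup.mk'_apply,
      QuotientGroup.eq_one_iff]
    rfl
  have hrange : ((QuotientGroup.mk' (pPrimeCore p G)).comp (commutator G).subtype).range ≤
      pCore p (G ⧸ pPrimeCore p G) := by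
    rintro _ ⟨x, rfl⟩
    exact hcomm x x.2
  have hrange_p := hRp.to_le hrange
  obtain ⟨m, hm⟩ := IsPGroup.iff_card.mp hrange_p
  have hN'card : (Nat.card ((pPrimeCore p G).subgroupOf (commutator G))).Coprime p := by
    have h1 : Nat.card ((pPrimeCore p G).subgroupOf (commutator G)) ∣ Nat.card (pPrimeCore p G) := by
      rw [← Subgroup.card_map_of_injective (commutator G).subtype_injective,
        Subgroup.subgroupOf_map_subtype]
      exact Subgroup.card_dvd_of_le inf_le_left
    exact Nat.Coprime.coprime_dvd_left h1 hK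
  have hcardG' : Nat.card ↥(commutator G) =
      Nat.card ((pPrimeCore p G).subgroupOf (commutator G)) * p ^ m := by
    rw [← hm, ← Subgroup.index_ker, hker]
    exact (Subgroup.card_mul_index _).symm
  have hc : HasNormalPComplement p ↥(commutator G) := by
    let P : Sylow p ↥(commutator G) := default
    have hP := Cfsg.Agent.Helper23.sylow_card_of_card_eq P hcardG' hN'card
    exact ⟨P, (pPrimeCore p G).subgroupOf (commutator G), inferInstance,
      Subgroup.isComplement'_of_coprime (by rw [hP, ← hcardG'])
        (by rw [hP]; exact hN'card.pow_right m)⟩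
  have hd : ∀ L : Subgroup ↥(commutator G), (Nat.card L).Coprime p →
      L ≤ pPrimeCore p ↥(commutator G) := by
    intro L hL
    have h1 : L ≤ (pPrimeCore p G).subgroupOf (commutator G) := by
      intro l hl
      rw [← hker, MonoidHom.mem_ker]
      obtain ⟨k, hk⟩ := hrange_p ⟨_, ⟨l, rfl⟩⟩
      have hk' : (((QuotientGroup.mk' (pPrimeCore p G)).comp (commutator G).subtype) l) ^ p ^ k
          = 1 := by
        have := congrArg Subtype.val hk
        simpa using this
      have h2 := orderOf_dvd_of_pow_eq_one hk'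
      have h3 : orderOf (((QuotientGroup.mk' (pPrimeCore p G)).comp (commutator G).subtype) l) ∣
          Nat.card L := by
        have h4 := orderOf_map_dvd
          ((QuotientGroup.mk' (pPrimeCore p G)).comp (commutator G).subtype) l
        have h5 := orderOf_dvd_natCard (⟨l, hl⟩ : L)
        rw [Subgroup.orderOf_mk] at h5
        exact h4.trans h5
      exact orderOf_eq_one_iff.mp (Nat.eq_one_of_dvd_coprimes (hL.pow_right k) h3 h2)
    exact h1.trans (Cfsg.Agent.Helper24.le_pPrimeCore inferInstance hN'card)
  exact ⟨ha, hb, hc, hd, he1, he2⟩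

end Cfsg.Agent.S1450
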