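import Cfsg.Statements.S4672
import Cfsg.Agent.Helper16.FongPIndex

set_option autoImplicit false
open Cfsg

namespace Cfsg.Agent.S4672

/-- Fix a prime p and a maximal ideal M of the algebraic integers containing p. Let N be a normal subgroup of the finite group G of p-power index and c a p-block of N stable under conjugation by G. Then the idempotent of c is a block idempotent of G: there is a p-block B of G whose idempotent coefficients agree with those of c on N and vanish off N; and for every defect group P of such a block B, G = NP and P ∩ N is a defect group of c. -/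
theorem result {G : Type*} [Group G] [Fintype G] (p : ℕ) [Fact p.Prime] (M : Ideal Cfsg.AlgInt) (hM : Cfsg.IsPModular p M) (N : Subgroup G) [N.Normal] (hN : ∃ k : ℕ, N.index = p ^ k) (c : Set (Cfsg.IrrCharacter N)) (hc : Cfsg.IsPBlock M c) (hst : ∀ x : G, Cfsg.StabilizesBlock N c x) : (∃ B : Set (Cfsg.IrrCharacter G), Cfsg.IsPBlock M B ∧ ∀ g : G, Cfsg.blockCoeff B g = Cfsg.subgroupBlockCoeff N c g) ∧ ∀ B : Set (Cfsg.IrrCharacter G), Cfsg.IsPBlock M B → (∀ g : G, Cfsg.blockCoeff B g = Cfsg.subgroupBlockCoeff N c g) → ∀ P : Subgroup G, Cfsg.IsDefectGroup p M B P → N ⊔ P = ⊤ ∧ Cfsg.IsDefectGroup p M c ((P ⊓ N).subgroupOf N) := by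
  classical
  have : Fintype N := Fintype.ofFinite N
  have hNn : N.Normal := inferInstance
  have hinv : ∀ g : G, ∀ θ ∈ c, Helper16.irrConj N g θ ∈ c := by
    intro g θ hθ
    obtain ⟨χ', hχ'c, hconj⟩ := (hst g).2 θ hθ
    have heq : Helper16.irrConj N g θ = χ' := by
      apply Subtype.ext
      funext k'
      rw [Helper16.irrConj_apply]
      symm
      apply hconj
      show (k' : G) = g * (g⁻¹ * (k' : G) * g) * g⁻¹
      group
    rw [heq]
    exact hχ'c
  have hsub : ∀ g : G, Cfsg.subgroupBlockCoeff N c g = Helper16.ext0 N (Cfsg.blockCoeff c) g := by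
    intro g
    unfold Cfsg.subgroupBlockCoeff
    by_cases h : g ∈ N
    · rw [dif_pos h, Helper16.ext0_apply_mem N _ h]
    · rw [dif_neg h, Helper16.ext0_apply_not_mem N _ h]
  obtain ⟨⟨B, hB, hBc⟩, h2⟩ := Helper16.fongPIndex_main N hM hN hc hinv
  refine ⟨⟨B, hB, fun g => ?_⟩, ?_⟩
  · rw [hsub, hBc]
  · intro B' hB' hB'c P hP
    exact h2 B' hB' (funext fun g => by rw [hB'c, hsub]) P hP

end Cfsg.Agent.S4672
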