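import Cfsg.Statements.S0940
import Cfsg.Agent.Helper75.KulCount

set_option autoImplicit false
open Cfsg

namespace Cfsg.Agent.S0940

/-- Let G be a finite group and M a maximal ideal of the algebraic integers containing the prime p. For every p-regular g, the idempotent coefficient of the principal block at g (the inverse of the group order times the sum over χ in the principal block of χ 1 * conj (χ g)) is congruent modulo the local ideal at M to N / R, where N is the number of pairs (x, y) with x of p-power order, y of order prime to p and x * y = g, and R is the number of elements of G of order prime to p. -/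
theorem result {G : Type*} [Group G] [Finite G] (p : ℕ) [Fact p.Prime] (M : Ideal Cfsg.AlgInt) (hM : Cfsg.IsPModular p M) (g : G) (hg : ¬ p ∣ orderOf g) : Cfsg.MemLocalIdeal M (Cfsg.blockCoeff (Cfsg.principalBlock M G) g - (Nat.card {xy : G × G // (∃ k : ℕ, orderOf xy.1 = p ^ k) ∧ ¬ p ∣ orderOf xy.2 ∧ xy.1 * xy.2 = g} : ℂ) / (Nat.card {y : G // ¬ p ∣ orderOf y} : ℂ)) := by
  classical
  haveI : Fintype G := Fintype.ofFinite G
  have hp : p.Prime := Fact.out
  have hMm := hM.2.1
  obtain ⟨r, hr⟩ := Helper75.convPow_pregInd_congr (G := G) hM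
  have hcop : Nat.Coprime p (orderOf g) := (Nat.Prime.coprime_iff_not_dvd hp).mpr hg
  have htot : 0 < (orderOf g).totient := Nat.totient_pos.mpr (orderOf_pos g)
  have hjt : r + Nat.card G + 1 ≤ (orderOf g).totient * (r + Nat.card G + 1) :=
    Nat.le_mul_of_pos_left _ htot
  generalize hj : (orderOf g).totient * (r + Nat.card G + 1) = j at hjt
  have hj0 : 0 < j := by omega
  have hjp : j < p ^ j := Nat.lt_pow_self hp.one_lt
  have hrj : r ≤ p ^ j := by omega
  have hmod : p ^ j ≡ 1 [MOD orderOf g] := by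
    have h1 := (Nat.ModEq.pow_totient hcop).pow (r + Nat.card G + 1)
    rw [one_pow, ← pow_mul, hj] at h1
    exact h1
  have hgq : g ^ (p ^ j) = g := by
    have := (pow_eq_pow_iff_modEq (x := g) (n := p ^ j) (m := 1)).mpr hmod
    rwa [pow_one] at this
  have h1 := hr j hj0 hrj g
  obtain ⟨T, hT, hTmod⟩ := Helper75.convPow_pregInd_count p j g hgq
  rw [Helper75.convPow_smul, Pi.smul_apply, smul_eq_mul, hT] at h1
  -- the bijection between the pairs and the `z`
  have hF : Nat.card {xy : G × G // (∃ k : ℕ, orderOf xy.1 = p ^ k) ∧ ¬ p ∣ orderOf xy.2 ∧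
      xy.1 * xy.2 = g} = Fintype.card {z : G // z ^ (p ^ j) = 1 ∧ ¬ p ∣ orderOf (z * g)} := by
    rw [← Nat.card_eq_fintype_card]
    have hto : ∀ xy : {xy : G × G // (∃ k : ℕ, orderOf xy.1 = p ^ k) ∧ ¬ p ∣ orderOf xy.2 ∧
        xy.1 * xy.2 = g}, xy.1.1⁻¹ ^ (p ^ j) = 1 ∧ ¬ p ∣ orderOf (xy.1.1⁻¹ * g) := by
      intro xy
      obtain ⟨⟨k, hk⟩, hy, hxy⟩ := xy.2
      constructor
      · rw [inv_pow, inv_eq_one]
        apply orderOf_dvd_iff_pow_eq_one.mp
        rw [hk]
        apply pow_dvd_pow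
        have h2 : p ^ k ≤ Nat.card G := by
          rw [← hk]
          exact Nat.le_of_dvd Nat.card_pos (orderOf_dvd_natCard _)
        have h3 : k < p ^ k := Nat.lt_pow_self hp.one_lt
        omega
      · have h5 : xy.1.1⁻¹ * g = xy.1.2 := inv_mul_eq_iff_eq_mul.mpr hxy.symm
        rw [h5]
        exact hy
    have hinv : ∀ z : {z : G // z ^ (p ^ j) = 1 ∧ ¬ p ∣ orderOf (z * g)},
        (∃ k : ℕ, orderOf (z.1⁻¹, z.1 * g).1 = p ^ k) ∧ ¬ p ∣ orderOf (z.1⁻¹, z.1 * g).2 ∧
          (z.1⁻¹, z.1 * g).1 * (z.1⁻¹, z.1 * g).2 = g := by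
      intro z
      refine ⟨?_, z.2.2, inv_mul_cancel_left _ _⟩
      obtain ⟨k, _, hk⟩ := (Nat.dvd_prime_pow hp).mp (orderOf_dvd_of_pow_eq_one z.2.1)
      exact ⟨k, by rw [orderOf_inv]; exact hk⟩
    refine Nat.card_congr
      { toFun := fun xy => ⟨xy.1.1⁻¹, hto xy⟩
        invFun := fun z => ⟨(z.1⁻¹, z.1 * g), hinv z⟩
        left_inv := ?_
        right_inv := ?_ }
    · intro xy
      apply Subtype.ext
      apply Prod.ext
      · exact inv_inv _
      · change xy.1.1⁻¹ * g = xy.1.2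
        exact inv_mul_eq_iff_eq_mul.mpr xy.2.2.2.symm
    · intro z
      apply Subtype.ext
      exact inv_inv _
  rw [hF]
  change Cfsg.MemLocalIdeal M (Cfsg.blockCoeff (Cfsg.principalBlock M G) g
    - (Fintype.card {z : G // z ^ (p ^ j) = 1 ∧ ¬ p ∣ orderOf (z * g)} : ℂ)
      / (Helper75.pregCard p G : ℂ))
  generalize Fintype.card {z : G // z ^ (p ^ j) = 1 ∧ ¬ p ∣ orderOf (z * g)} = F at hTmod ⊢
  have hN : ¬ p ∣ Helper75.pregCard p G := Helper75.not_dvd_pregCard p G
  have hN0 : (Helper75.pregCard p G : ℂ) ≠ 0 := by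
    intro h
    apply hN
    have : Helper75.pregCard p G = 0 := by exact_mod_cast h
    rw [this]
    exact dvd_zero p
  have hNinv : Cfsg.MemLocalRing M ((Helper75.pregCard p G : ℂ)⁻¹) :=
    Helper77.memLocalRing_natCast_inv hM hN
  have hpow : ∀ n : ℕ, Cfsg.MemLocalRing M (((Helper75.pregCard p G : ℂ)⁻¹) ^ n) := by
    intro n
    induction n with
    | zero => rw [pow_zero]; exact Helper77.memLocalRing_one hMm
    | succ n ih => rw [pow_succ]; exact Helper77.memLocalRing_mul hMm ih hNinv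
  -- the arithmetic congruence
  have hz : ((T * Helper75.pregCard p G : ℕ) : ZMod p)
      = ((F * Helper75.pregCard p G ^ (p ^ j) : ℕ) : ZMod p) := by
    rw [Nat.cast_mul, Nat.cast_mul, Nat.cast_pow, ZMod.pow_card_pow,
      (ZMod.natCast_eq_natCast_iff _ _ _).mpr hTmod]
  obtain ⟨c, hc⟩ := (Nat.modEq_iff_dvd.mp ((ZMod.natCast_eq_natCast_iff _ _ _).mp hz))
  have hcC : ((F : ℂ) * (Helper75.pregCard p G : ℂ) ^ (p ^ j))
      - (T : ℂ) * (Helper75.pregCard p G : ℂ) = (p : ℂ) * (c : ℂ) := by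
    have := congrArg (fun z : ℤ => (z : ℂ)) hc
    simp only [Int.cast_sub, Int.cast_mul, Int.cast_natCast, Nat.cast_mul, Nat.cast_pow,
      Int.cast_pow] at this
    exact this
  have hci : Cfsg.MemLocalRing M (c : ℂ) := by
    have := isIntegral_algebraMap (R := ℤ) (A := ℂ) (x := c)
    exact Helper77.memLocalRing_of_isIntegral hMm (by simpa using this)
  have h2 : Cfsg.MemLocalIdeal M (((Helper75.pregCard p G : ℂ)⁻¹) ^ (p ^ j) * (T : ℂ)
      - (F : ℂ) / (Helper75.pregCard p G : ℂ)) := by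
    have h3 : ((Helper75.pregCard p G : ℂ)⁻¹) ^ (p ^ j) * (T : ℂ)
        - (F : ℂ) / (Helper75.pregCard p G : ℂ)
        = -((p : ℂ) * (c : ℂ)) * ((Helper75.pregCard p G : ℂ)⁻¹) ^ (p ^ j + 1) := by
      rw [← hcC, pow_succ, inv_pow]
      field_simp
      ring
    rw [h3]
    exact Helper77.memLocalIdeal_mul' hMm (Helper77.memLocalIdeal_neg
      (Helper77.memLocalIdeal_mul' hMm (Helper77.memLocalIdeal_prime hM) hci)) (hpow _)
  have h4 := Helper77.memLocalIdeal_sub hMm h2 h1
  rw [sub_sub_sub_cancel_left] at h4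
  exact h4

end Cfsg.Agent.S0940
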