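import Cfsg.Statements.S0039
import Cfsg.Agent.Helper71.Frobenius
import Mathlib.Tactic.Group

set_option autoImplicit false
open Cfsg

namespace Cfsg.Agent.S0039

/-- In a finite group that is a semidirect product of a normal subgroup K by a nontrivial subgroup H, H is a Frobenius complement exactly when each nonidentity element of H acts without nonidentity fixed points on K by conjugation. -/
theorem result {G : Type*} [Group G] [Finite G] (K H : Subgroup G) [K.Normal]
    (hc : Subgroup.IsComplement' K H) (hK : K ≠ ⊥) (hH : H ≠ ⊥) :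
    Cfsg.IsFrobeniusComplement H ↔ ∀ h ∈ H, h ≠ 1 → K ⊓ Subgroup.centralizer {h} = ⊥ := by
  rw [Cfsg.Agent.Helper71.isFrobeniusComplement_iff]
  have hdisj : K ⊓ H = ⊥ := disjoint_iff.mp hc.disjoint
  have hprod : ∀ g : G, ∃ k ∈ K, ∃ h ∈ H, g = k * h := by
    intro g
    obtain ⟨⟨a, b⟩, hab, -⟩ := (Subgroup.isComplement_iff_existsUnique.mp hc) g
    exact ⟨a, a.2, b, b.2, hab.symm⟩
  constructor
  · rintro ⟨-, -, h3⟩ h hh hh1
    rw [eq_bot_iff]
    intro x hx
    rw [Subgroup.mem_bot]
    by_contra hx1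
    have hxK : x ∈ K := hx.1
    have hxC : x * h = h * x := Subgroup.mem_centralizer_singleton_iff.mp hx.2
    have hxH : x ∉ H := by
      intro hxH
      have : x ∈ K ⊓ H := ⟨hxK, hxH⟩
      rw [hdisj, Subgroup.mem_bot] at this
      exact hx1 this
    have h4 : x⁻¹ * h * x = h := by rw [mul_assoc, ← hxC]; group
    exact hh1 (h3 x hxH h hh (by rw [h4]; exact hh))
  · intro hfpf
    refine ⟨hH, ?_, ?_⟩
    · intro htop
      apply hK
      rw [htop, inf_top_eq] at hdisj
      exact hdisj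
    · intro g hg x hx hgx
      by_contra hx1
      obtain ⟨k, hk, h', hh', rfl⟩ := hprod g
      have hk1 : k ≠ 1 := by
        rintro rfl
        exact hg (by simpa using hh')
      have h5 : k⁻¹ * x * k ∈ H := by
        have := H.mul_mem (H.mul_mem hh' hgx) (H.inv_mem hh')
        have e : h' * ((k * h')⁻¹ * x * (k * h')) * h'⁻¹ = k⁻¹ * x * k := by group
        rwa [e] at this
      have h6 : x⁻¹ * (k⁻¹ * x * k) ∈ K ⊓ H := by
        refine ⟨?_, H.mul_mem (H.inv_mem hx) h5⟩
        have h7 : x⁻¹ * k⁻¹ * x⁻¹⁻¹ ∈ K := ‹K.Normal›.conj_mem _ (K.inv_mem hk) x⁻¹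
        have e : x⁻¹ * (k⁻¹ * x * k) = x⁻¹ * k⁻¹ * x⁻¹⁻¹ * k := by group
        rw [e]; exact K.mul_mem h7 hk
      rw [hdisj, Subgroup.mem_bot] at h6
      have h8 : k * x = x * k := by
        have e : x * k = k * x * (x⁻¹ * (k⁻¹ * x * k)) := by group
        rw [e, h6, mul_one]
      have h9 : k ∈ K ⊓ Subgroup.centralizer {x} :=
        ⟨hk, Subgroup.mem_centralizer_singleton_iff.mpr h8⟩
      rw [hfpf x hx hx1, Subgroup.mem_bot] at h9
      exact hk1 h9

end Cfsg.Agent.S0039
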