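import Cfsg.Statements.S0068
import Mathlib.Tactic.Group
import Mathlib.GroupTheory.Perm.Cycle.Type

set_option autoImplicit false
open Cfsg

namespace Cfsg.Agent.S0068

/-- An involution acting fixed-point-freely on a finite normal subgroup inverts it. -/
theorem inverts {G : Type*} [Group G] [Finite G] (K : Subgroup G) [hKn : K.Normal] (t : G)
    (ht : orderOf t = 2) (hfix : K ⊓ Subgroup.centralizer {t} = ⊥) :
    ∀ k ∈ K, t * k * t⁻¹ = k⁻¹ := by
  have ht2 : t * t = 1 := by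
    have := pow_orderOf_eq_one t
    rwa [ht, pow_two] at this
  have htinv : t⁻¹ = t := inv_eq_of_mul_eq_one_left ht2
  let f : K → K := fun k => ⟨(k : G)⁻¹ * (t * k * t⁻¹),
    K.mul_mem (K.inv_mem k.2) (hKn.conj_mem k k.2 t)⟩
  have hinj : Function.Injective f := by
    intro a b hab
    have h1 : (a : G)⁻¹ * (t * a * t⁻¹) = (b : G)⁻¹ * (t * b * t⁻¹) := congrArg Subtype.val hab
    have h2 : (b : G) * (a : G)⁻¹ ∈ K ⊓ Subgroup.centralizer {t} := by
      refine Subgroup.mem_inf.mpr ⟨K.mul_mem b.2 (K.inv_mem a.2), ?_⟩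
      rw [Subgroup.mem_centralizer_iff]
      intro x hx
      rw [Set.mem_singleton_iff] at hx
      subst hx
      have h3 : (b : G) * (a : G)⁻¹ * (x * a * x⁻¹) = x * b * x⁻¹ := by
        calc (b : G) * (a : G)⁻¹ * (x * a * x⁻¹) = b * ((a : G)⁻¹ * (x * a * x⁻¹)) := by group
          _ = b * ((b : G)⁻¹ * (x * b * x⁻¹)) := by rw [h1]
          _ = x * b * x⁻¹ := by group
      calc x * ((b : G) * (a : G)⁻¹) = (x * b * x⁻¹) * (x * a * x⁻¹)⁻¹ * x := by group
        _ = ((b : G) * (a : G)⁻¹ * (x * a * x⁻¹)) * (x * a * x⁻¹)⁻¹ * x := by rw [h3]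
        _ = (b : G) * (a : G)⁻¹ * x := by group
    rw [hfix, Subgroup.mem_bot] at h2
    have h4 : (b : G) = a := by
      have := congrArg (fun z => z * (a : G)) h2
      simpa using this
    exact Subtype.ext h4.symm
  have hsurj : Function.Surjective f := Finite.injective_iff_surjective.mp hinj
  intro k hk
  obtain ⟨j, hj⟩ := hsurj ⟨k, hk⟩
  have hk' : k = (j : G)⁻¹ * (t * j * t⁻¹) := (congrArg Subtype.val hj).symm
  rw [hk', htinv]
  calc t * ((j : G)⁻¹ * (t * j * t)) * t = t * (j : G)⁻¹ * t * j * (t * t) := by group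
    _ = t * (j : G)⁻¹ * t * j := by rw [ht2, mul_one]
    _ = t⁻¹ * (j : G)⁻¹ * t⁻¹ * j := by rw [htinv]
    _ = ((j : G)⁻¹ * (t * j * t))⁻¹ := by group


/-- Frobenius complements of even order: if H complements a nontrivial normal subgroup K, each nonidentity element of H has trivial centraliser in K, and H has even order, then H contains a unique involution s, K is abelian, and s inverts every element of K. -/
theorem result {G : Type*} [Group G] [Finite G] (K H : Subgroup G) [K.Normal]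
    (hc : Subgroup.IsComplement' K H) (hK : K ≠ ⊥) (hfpf : ∀ h ∈ H, h ≠ 1 → K ⊓ Subgroup.centralizer {h} = ⊥)
    (heven : 2 ∣ Nat.card H) :
    (∃ s ∈ H, orderOf s = 2 ∧ (∀ t ∈ H, orderOf t = 2 → t = s) ∧ ∀ k ∈ K, s * k * s⁻¹ = k⁻¹) ∧ IsMulCommutative K := by
  obtain ⟨s0, hs0⟩ := exists_prime_orderOf_dvd_card' (G := H) 2 heven
  have hs : orderOf (s0 : G) = 2 := by rw [Subgroup.orderOf_coe]; exact hs0
  have hne1 : ∀ t : G, orderOf t = 2 → t ≠ 1 := by
    intro t ht h1
    rw [h1, orderOf_one] at ht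
    exact absurd ht (by norm_num)
  have hinv : ∀ t ∈ H, orderOf t = 2 → ∀ k ∈ K, t * k * t⁻¹ = k⁻¹ := by
    intro t htH ht
    exact inverts K t ht (hfpf t htH (hne1 t ht))
  have hsinv := hinv (s0 : G) s0.2 hs
  refine ⟨⟨(s0 : G), s0.2, hs, ?_, hsinv⟩, ?_⟩
  · intro t htH ht
    have htinv := hinv t htH ht
    by_contra hne
    have hst : (s0 : G) * t⁻¹ ≠ 1 := by
      intro h
      apply hne
      have := congrArg (fun z => z * t) h
      simpa using this.symm
    have hfix := hfpf ((s0 : G) * t⁻¹) (H.mul_mem s0.2 (H.inv_mem htH)) hst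
    apply hK
    rw [eq_bot_iff, ← hfix]
    intro k hk
    refine Subgroup.mem_inf.mpr ⟨hk, ?_⟩
    rw [Subgroup.mem_centralizer_iff]
    intro x hx
    rw [Set.mem_singleton_iff] at hx
    subst hx
    have h1 : t⁻¹ * k * t = k⁻¹ := by
      have h2 := htinv k⁻¹ (K.inv_mem hk)
      rw [inv_inv] at h2
      calc t⁻¹ * k * t = t⁻¹ * (t * k⁻¹ * t⁻¹) * t := by rw [h2]
        _ = k⁻¹ := by group
    have h3 : (s0 : G) * k⁻¹ * (s0 : G)⁻¹ = k := by
      have := hsinv k⁻¹ (K.inv_mem hk)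
      rwa [inv_inv] at this
    calc (s0 : G) * t⁻¹ * k = (s0 : G) * (t⁻¹ * k * t) * t⁻¹ := by group
      _ = (s0 : G) * k⁻¹ * t⁻¹ := by rw [h1]
      _ = ((s0 : G) * k⁻¹ * (s0 : G)⁻¹) * ((s0 : G) * t⁻¹) := by group
      _ = k * ((s0 : G) * t⁻¹) := by rw [h3]
  · refine ⟨⟨fun a b => Subtype.ext ?_⟩⟩
    have ha := hsinv a a.2
    have hb := hsinv b b.2
    have hab := hsinv (a * b) (K.mul_mem a.2 b.2)
    have h1 : ((a : G) * b)⁻¹ = (a : G)⁻¹ * (b : G)⁻¹ := by
      rw [← hab, ← ha, ← hb]; group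
    have h2 : (b : G) * a = a * b := by
      have := congrArg (fun z => z⁻¹) h1
      simpa using this.symm
    simpa using h2.symm

end Cfsg.Agent.S0068
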