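import Cfsg.Statements.S0119
import Cfsg.Agent.Helper2.PGroup
import Cfsg.Agent.Helper2.Class2
import Cfsg.Agent.Helper47.Coprime
import Mathlib.GroupTheory.Abelianization.Defs
import Mathlib.Tactic.Group

set_option autoImplicit false
open Cfsg

namespace Cfsg.Agent.S0119

open scoped commutatorElement

/-- A normal subgroup fixed elementwise by `A` is central when `G = [G, A]`. -/
theorem char_abelian_le_center {G : Type*} [Group G] (A : Subgroup (MulAut G))
    (hGA : Subgroup.closure {x : G | ∃ g : G, ∃ a ∈ A, x = g⁻¹ * a g} = ⊤)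
    (H : Subgroup G) [hHn : H.Normal] (hH : ∀ a ∈ A, ∀ h ∈ H, a h = h) :
    H ≤ Subgroup.center G := by
  have hC : Subgroup.centralizer (H : Set G) = ⊤ := by
    rw [eq_top_iff, ← hGA, Subgroup.closure_le]
    rintro x ⟨g, a, ha, rfl⟩
    rw [SetLike.mem_coe, Subgroup.mem_centralizer_iff]
    intro h hh
    have h1 : g * h * g⁻¹ ∈ H := hHn.conj_mem h hh g
    have h2 := hH a ha _ h1
    rw [map_mul, map_mul, map_inv, hH a ha h hh] at h2
    calc h * (g⁻¹ * a g) = g⁻¹ * (g * h * g⁻¹) * a g := by group
      _ = g⁻¹ * (a g * h * (a g)⁻¹) * a g := by rw [h2]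
      _ = g⁻¹ * a g * h := by group
  intro h hh
  rw [Subgroup.mem_center_iff]
  intro g
  have h3 : g ∈ Subgroup.centralizer (H : Set G) := hC ▸ Subgroup.mem_top g
  exact (Subgroup.mem_centralizer_iff.mp h3 h hh).symm

/-- If every characteristic abelian subgroup of a nilpotent group is central, the group has
class at most two. -/
theorem commutator_le_center_of_char_abelian_le_center {G : Type*} [Group G]
    [Group.IsNilpotent G]
    (hc : ∀ H : Subgroup G, H.Characteristic → IsMulCommutative H → H ≤ Subgroup.center G) :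
    commutator G ≤ Subgroup.center G := by
  have hT : commutator G ⊓ Subgroup.upperCentralSeries G 2 ≤ Subgroup.center G := by
    apply hc
    · haveI : (commutator G).Characteristic := by
        rw [commutator_def]; infer_instance
      infer_instance
    · refine ⟨⟨fun x y => ?_⟩⟩
      apply Subtype.ext
      have hy : ∀ g : G, ⁅(y : G), g⁆ ∈ Subgroup.center G := by
        intro g
        have h1 := Subgroup.mem_upperCentralSeries_succ_iff.mp y.2.2 g
        rwa [Subgroup.upperCentralSeries_one] at h1
      let f : G →* Subgroup.center G := MonoidHom.mk' (fun g => ⟨⁅(y : G), g⁆, hy g⟩) (by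
        intro g h
        apply Subtype.ext
        show ⁅(y : G), g * h⁆ = ⁅(y : G), g⁆ * ⁅(y : G), h⁆
        have hz := Subgroup.mem_center_iff.mp (hy h) g
        rw [commutatorElement_def] at hz
        rw [commutatorElement_def, commutatorElement_def, commutatorElement_def]
        calc (y : G) * (g * h) * (y : G)⁻¹ * (g * h)⁻¹
            = ((y : G) * g * (y : G)⁻¹ * g⁻¹) * (g * ((y : G) * h * (y : G)⁻¹ * h⁻¹)) * g⁻¹ := by
              group
          _ = ((y : G) * g * (y : G)⁻¹ * g⁻¹) * (((y : G) * h * (y : G)⁻¹ * h⁻¹) * g) * g⁻¹ := by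
              rw [hz]
          _ = _ := by group)
      have hker : commutator G ≤ f.ker := by
        rw [commutator_eq_closure, Subgroup.closure_le]
        rintro _ ⟨u, v, rfl⟩
        rw [SetLike.mem_coe, MonoidHom.mem_ker, map_commutatorElement,
          commutatorElement_eq_one_iff_commute]
        exact Subtype.ext (Subgroup.mem_center_iff.mp (f v).2 (f u : G))
      have hx : (x : G) ∈ f.ker := hker x.2.1
      have h1 : ⁅(y : G), (x : G)⁆ = 1 := congrArg Subtype.val (MonoidHom.mem_ker.mp hx)
      rw [commutatorElement_eq_one_iff_commute] at h1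
      exact h1.eq.symm
  have key : ∀ j : ℕ, ∀ x ∈ commutator G, x ∈ Subgroup.upperCentralSeries G (j + 2) →
      x ∈ Subgroup.upperCentralSeries G (j + 1) := by
    intro j
    induction j with
    | zero =>
      intro x hx hx2
      rw [zero_add, Subgroup.upperCentralSeries_one]
      exact hT ⟨hx, hx2⟩
    | succ j ih =>
      intro x hx hx3
      rw [Subgroup.mem_upperCentralSeries_succ_iff]
      intro g
      apply ih
      · rw [commutator_def]
        exact Subgroup.commutator_mem_commutator (Subgroup.mem_top _) (Subgroup.mem_top _)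
      · exact Subgroup.mem_upperCentralSeries_succ_iff.mp hx3 g
  intro x hx
  obtain ⟨n, hn⟩ := Group.IsNilpotent.nilpotent (G := G)
  have hall : ∀ m : ℕ, x ∈ Subgroup.upperCentralSeries G (m + 1) →
      x ∈ Subgroup.upperCentralSeries G 1 := by
    intro m
    induction m with
    | zero => exact fun h => h
    | succ m ih => exact fun h => ih (key m x hx h)
  have h1 : x ∈ Subgroup.upperCentralSeries G (n + 1) := by
    have h2 : Subgroup.upperCentralSeries G n ≤ Subgroup.upperCentralSeries G (n + 1) :=
      Subgroup.upperCentralSeries_mono G (Nat.le_succ n)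
    exact h2 (hn ▸ Subgroup.mem_top x)
  have h3 := hall n h1
  rwa [Subgroup.upperCentralSeries_one] at h3

/-- Norm-map argument: if `G = [G, A]` with `A` a `p'`-group of automorphisms of the `p`-group
`G`, then every fixed point of `A` lies in `G'`. -/
theorem fixed_mem_commutator {G : Type*} [Group G] [Finite G] {p : ℕ} [Fact p.Prime]
    (hG : IsPGroup p G) (A : Subgroup (MulAut G)) (hA : Nat.Coprime (Nat.card A) p)
    (hGA : Subgroup.closure {x : G | ∃ g : G, ∃ a ∈ A, x = g⁻¹ * a g} = ⊤)
    (c : G) (hc : ∀ a ∈ A, a c = c) : c ∈ commutator G := by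
  classical
  haveI : Fintype A := Fintype.ofFinite A
  let N : G →* Abelianization G :=
    ∏ a : A, (Abelianization.of).comp ((a : MulAut G).toMonoidHom)
  have hN : ∀ g, N g = ∏ a : A, Abelianization.of ((a : MulAut G) g) := by
    intro g
    simp [N, MonoidHom.finsetProd_apply]
  have hNker : N.ker = ⊤ := by
    rw [eq_top_iff, ← hGA, Subgroup.closure_le]
    rintro x ⟨g, b, hb, rfl⟩
    rw [SetLike.mem_coe, MonoidHom.mem_ker, map_mul, map_inv, hN, hN]
    have h1 : ∏ a : A, Abelianization.of ((a : MulAut G) (b g)) =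
        ∏ a : A, Abelianization.of ((a : MulAut G) g) := by
      apply Fintype.prod_equiv (Equiv.mulRight (⟨b, hb⟩ : A))
      intro a
      rfl
    rw [h1, inv_mul_cancel]
  have h1 : N c = 1 := by
    have h2 : c ∈ N.ker := hNker ▸ Subgroup.mem_top c
    exact h2
  rw [hN] at h1
  have h2 : ∏ a : A, Abelianization.of ((a : MulAut G) c) =
      Abelianization.of (c ^ Nat.card A) := by
    rw [Finset.prod_congr rfl (fun a _ => by rw [hc a a.2]), Finset.prod_const, Finset.card_univ,
      map_pow, Nat.card_eq_fintype_card]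
  rw [h2] at h1
  have h3 : c ^ Nat.card A ∈ commutator G := by
    rw [← Abelianization.ker_of]; exact h1
  have hcop : p.Coprime (Nat.card A) := hA.symm
  have h4 := hG.powEquiv_symm_apply hcop (c ^ Nat.card A)
  have h5 : (hG.powEquiv hcop).symm (c ^ Nat.card A) = c := by
    rw [← hG.powEquiv_apply hcop c, Equiv.symm_apply_apply]
  rw [h5] at h4
  rw [h4]
  exact Subgroup.zpow_mem _ h3 _

/-- In a group of class at most two, `⁅a, b ^ n⁆ = ⁅a, b⁆ ^ n`. -/
theorem commutatorElement_pow_right_of_class_two {G : Type*} [Group G]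
    (hcl : commutator G ≤ Subgroup.center G) (a b : G) (n : ℕ) : ⁅a, b ^ n⁆ = ⁅a, b⁆ ^ n := by
  rw [← commutatorElement_inv b a, ← commutatorElement_inv (b ^ n) a,
    Cfsg.Agent.Helper2.commutatorElement_pow_left_of_class_two hcl, inv_pow]

/-- If `G` is a finite `p`-group of class at most two in which every characteristic abelian
subgroup is central, then `G / Z(G)` has exponent dividing `p`. -/
theorem pow_prime_mem_center {G : Type*} [Group G] [Finite G] {p : ℕ} [Fact p.Prime]
    (hG : IsPGroup p G) (hcl : commutator G ≤ Subgroup.center G)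
    (hc : ∀ H : Subgroup G, H.Characteristic → IsMulCommutative H → H ≤ Subgroup.center G)
    (x : G) : x ^ p ∈ Subgroup.center G := by
  classical
  have hex : ∃ e : ℕ, ∀ x : G, x ^ p ^ e ∈ Subgroup.center G := by
    obtain ⟨n, hn⟩ := hG.exists_card_eq
    exact ⟨n, fun x => by rw [← hn, pow_card_eq_one']; exact one_mem _⟩
  have hmin : ∀ x : G, x ^ p ^ (Nat.find hex) ∈ Subgroup.center G := Nat.find_spec hex
  by_cases he1 : Nat.find hex ≤ 1
  · rcases Nat.le_one_iff_eq_zero_or_eq_one.mp he1 with h0 | h1
    · have h2 := hmin x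
      rw [h0, pow_zero, pow_one] at h2
      exact Subgroup.pow_mem _ h2 p
    · have h2 := hmin x
      rw [h1, pow_one] at h2
      exact h2
  · exfalso
    have he2 : 2 ≤ Nat.find hex := by omega
    have hScomm : ∀ u ∈ {y : G | ∃ x : G, y = x ^ p ^ (Nat.find hex - 1)},
        ∀ v ∈ {y : G | ∃ x : G, y = x ^ p ^ (Nat.find hex - 1)}, u * v = v * u := by
      rintro _ ⟨x, rfl⟩ _ ⟨y, rfl⟩
      have h1 : ⁅x ^ p ^ (Nat.find hex - 1), y ^ p ^ (Nat.find hex - 1)⁆ =
          ⁅x ^ (p ^ (Nat.find hex - 1) * p ^ (Nat.find hex - 1)), y⁆ := by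
        rw [Cfsg.Agent.Helper2.commutatorElement_pow_left_of_class_two hcl,
          commutatorElement_pow_right_of_class_two hcl,
          Cfsg.Agent.Helper2.commutatorElement_pow_left_of_class_two hcl, ← pow_mul, mul_comm]
      have h2 : x ^ (p ^ (Nat.find hex - 1) * p ^ (Nat.find hex - 1)) ∈ Subgroup.center G := by
        have e1 : p ^ (Nat.find hex - 1) * p ^ (Nat.find hex - 1) =
            p ^ (Nat.find hex) * p ^ (Nat.find hex - 2) := by
          rw [← pow_add, ← pow_add]
          congr 1
          omega
        rw [e1, pow_mul]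
        exact Subgroup.pow_mem _ (hmin x) _
      have h3 : ⁅x ^ (p ^ (Nat.find hex - 1) * p ^ (Nat.find hex - 1)), y⁆ = 1 := by
        rw [commutatorElement_eq_one_iff_commute]
        exact (Subgroup.mem_center_iff.mp h2 y).symm
      rw [h3, commutatorElement_eq_one_iff_commute] at h1
      exact h1.eq
    have hMchar : (Subgroup.closure
        {y : G | ∃ x : G, y = x ^ p ^ (Nat.find hex - 1)}).Characteristic := by
      rw [Subgroup.characteristic_iff_map_le]
      intro φ
      rw [MonoidHom.map_closure, Subgroup.closure_le]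
      rintro _ ⟨_, ⟨x, rfl⟩, rfl⟩
      apply Subgroup.subset_closure
      exact ⟨φ x, by simp⟩
    have hMle := hc _ hMchar (Subgroup.isMulCommutative_closure hScomm)
    have hlt : ∀ x : G, x ^ p ^ (Nat.find hex - 1) ∈ Subgroup.center G :=
      fun x => hMle (Subgroup.subset_closure ⟨x, rfl⟩)
    exact Nat.find_min hex (by omega : Nat.find hex - 1 < Nat.find hex) hlt

open scoped IsMulCommutative in
/-- If `G / Z(G)` is elementary abelian then `Φ(G) ≤ Z(G)`. -/
theorem frattini_le_center {G : Type*} [Group G] [Finite G] {p : ℕ} [Fact p.Prime]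
    (hG : IsPGroup p G) (hcl : commutator G ≤ Subgroup.center G)
    (hpow : ∀ x : G, x ^ p ∈ Subgroup.center G) : frattini G ≤ Subgroup.center G := by
  haveI : IsMulCommutative (G ⧸ Subgroup.center G) :=
    (Subgroup.Normal.quotient_commutative_iff_commutator_le).mpr hcl
  have h1 := Cfsg.Agent.Helper47.frattini_le_ker p (QuotientGroup.mk' (Subgroup.center G))
    (fun x => by
      rw [← map_pow]
      exact (QuotientGroup.eq_one_iff _).mpr (hpow x))
  rwa [QuotientGroup.ker_mk'] at h1

/-- If a p'-group A of automorphisms of a p-group G satisfies G = [G, A] and acts trivially on every characteristic abelian subgroup, then G is special with centre equal to the fixed points of A. -/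
theorem result {G : Type*} [Group G] [Finite G] {p : ℕ} [Fact p.Prime] (hG : IsPGroup p G) (A : Subgroup (MulAut G)) (hA : Nat.Coprime (Nat.card A) p) (hGA : Subgroup.closure {x : G | ∃ g : G, ∃ a ∈ A, x = g⁻¹ * a g} = ⊤) (hchar : ∀ H : Subgroup G, H.Characteristic → IsMulCommutative H → ∀ a ∈ A, ∀ h ∈ H, a h = h) : Cfsg.IsSpecial p G ∧ (∀ g : G, (g ∈ Subgroup.center G ↔ ∀ a ∈ A, a g = g)) := by
  haveI : Group.IsNilpotent G := hG.isNilpotent
  have hcen : ∀ H : Subgroup G, H.Characteristic → IsMulCommutative H →
      H ≤ Subgroup.center G := by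
    intro H hHc hHm
    haveI := hHc
    exact char_abelian_le_center A hGA H (hchar H hHc hHm)
  have hcl : commutator G ≤ Subgroup.center G :=
    commutator_le_center_of_char_abelian_le_center hcen
  have hZfix : ∀ a ∈ A, ∀ z ∈ Subgroup.center G, a z = z :=
    hchar (Subgroup.center G) inferInstance inferInstance
  have hfixc : ∀ c : G, (∀ a ∈ A, a c = c) → c ∈ commutator G :=
    fixed_mem_commutator hG A hA hGA
  have hZeq : commutator G = Subgroup.center G :=
    le_antisymm hcl (fun z hz => hfixc z (fun a ha => hZfix a ha z hz))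
  refine ⟨⟨hG, ?_, hZeq⟩, fun g => ⟨fun hg a ha => hZfix a ha g hg, fun hg => hcl (hfixc g hg)⟩⟩
  apply le_antisymm
  · exact frattini_le_center hG hcl (pow_prime_mem_center hG hcl hcen)
  · rw [← hZeq]; exact Cfsg.Agent.Helper2.commutator_le_frattini_of_isPGroup hG

end Cfsg.Agent.S0119
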