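import Cfsg.Statements.S0120
import Cfsg.Agent.S0119
import Cfsg.Agent.Helper2.PGroup
import Cfsg.Agent.Helper2.Class2
import Mathlib.Data.ZMod.QuotientGroup
import Mathlib.Tactic.Group

set_option autoImplicit false
open Cfsg

namespace Cfsg.Agent.S0120

universe u

open scoped commutatorElement

/-- Restriction of an automorphism to an invariant subgroup. -/
def restrictAut {G : Type*} [Group G] (a : MulAut G) (H : Subgroup G)
    (hinv : ∀ x, x ∈ H ↔ a x ∈ H) : MulAut H :=
  { toFun := fun h => ⟨a h, (hinv h).mp h.2⟩
    invFun := fun h => ⟨a.symm h, (hinv _).mpr (by rw [MulEquiv.apply_symm_apply]; exact h.2)⟩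
    left_inv := fun h => Subtype.ext (a.symm_apply_apply h)
    right_inv := fun h => Subtype.ext (a.apply_symm_apply h)
    map_mul' := fun x y => Subtype.ext (map_mul a (x : G) (y : G)) }

theorem restrictAut_pow_apply {G : Type*} [Group G] (a : MulAut G) (H : Subgroup G)
    (hinv : ∀ x, x ∈ H ↔ a x ∈ H) (k : ℕ) (h : H) :
    ((((restrictAut a H hinv) ^ k : MulAut H) h : H) : G) = (a ^ k : MulAut G) (h : G) := by
  induction k generalizing h with
  | zero => rfl
  | succ k ih =>
    rw [pow_succ, pow_succ, MulAut.mul_apply, MulAut.mul_apply, ih]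
    rfl

/-- If `a` fixes `y = x⁻¹ a(x)` then `a^k x = x y^k`. -/
theorem pow_apply_of_fixed {G : Type*} [Group G] (a : MulAut G) (x : G)
    (hx : a (x⁻¹ * a x) = x⁻¹ * a x) (k : ℕ) : (a ^ k) x = x * (x⁻¹ * a x) ^ k := by
  induction k with
  | zero => simp
  | succ k ih =>
    have e : a x = x * (x⁻¹ * a x) := by group
    rw [pow_succ', MulAut.mul_apply, ih, map_mul, map_pow, hx, pow_succ', ← mul_assoc x, ← e]

/-- A `p'`-automorphism of a `p`-group fixing `x⁻¹ a(x)` fixes `x`. -/
theorem fixed_of_comm_fixed {G : Type*} [Group G] {p : ℕ} [hp : Fact p.Prime]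
    (hG : IsPGroup p G) (a : MulAut G) (ha : Nat.Coprime (orderOf a) p) (x : G)
    (hx : a (x⁻¹ * a x) = x⁻¹ * a x) : a x = x := by
  have h1 := pow_apply_of_fixed a x hx (orderOf a)
  rw [pow_orderOf_eq_one, MulAut.one_apply] at h1
  have h2 : (x⁻¹ * a x) ^ orderOf a = 1 := by
    have h3 : x * (x⁻¹ * a x) ^ orderOf a = x * 1 := by rw [mul_one]; exact h1.symm
    exact mul_left_cancel h3
  obtain ⟨j, hj⟩ := hG (x⁻¹ * a x)
  have h4 : orderOf (x⁻¹ * a x) ∣ orderOf a := orderOf_dvd_of_pow_eq_one h2
  have h5 : orderOf (x⁻¹ * a x) ∣ p ^ j := orderOf_dvd_of_pow_eq_one hj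
  have h6 : orderOf (x⁻¹ * a x) = 1 :=
    Nat.eq_one_of_dvd_coprimes (Nat.Coprime.pow_right j ha) h4 h5
  have h7 : x⁻¹ * a x = 1 := orderOf_eq_one_iff.mp h6
  exact (inv_mul_eq_one.mp h7).symm

/-- The Frattini subgroup of a nontrivial finite group is proper. -/
theorem frattini_ne_top {G : Type*} [Group G] [Finite G] [Nontrivial G] : frattini G ≠ ⊤ := by
  intro htop
  obtain ⟨M, hM, -⟩ := (eq_top_or_exists_le_coatom (⊥ : Subgroup G)).resolve_left bot_ne_top
  have h1 : frattini G ≤ M := frattini_le_coatom hM
  rw [htop, top_le_iff] at h1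
  exact hM.1 h1

theorem aux {p : ℕ} [hp : Fact p.Prime] (hp2 : p ≠ 2) : ∀ (n : ℕ) (G : Type u) [Group G]
    [Finite G], Nat.card G ≤ n → IsPGroup p G → ∀ a : MulAut G, Nat.Coprime (orderOf a) p →
    (∀ x : G, x ^ p = 1 → a x = x) → a = 1 := by
  intro n
  induction n with
  | zero =>
    intro G _ _ hcard
    exfalso
    have := Nat.card_pos (α := G)
    omega
  | succ n ih =>
    intro G _ _ hcard hG a ha h
    have hI : ∀ H : Subgroup G, (∀ x, x ∈ H ↔ a x ∈ H) → H ≠ ⊤ → ∀ x ∈ H, a x = x := by
      intro H hinv hne x hx
      have hlt : Nat.card H ≤ n := by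
        have h1 := Subgroup.card_le_card_group H
        have h2 : Nat.card H ≠ Nat.card G := fun h3 => hne (Subgroup.eq_top_of_card_eq H h3)
        omega
      have hb : restrictAut a H hinv = 1 := by
        apply ih H hlt (hG.to_subgroup H) (restrictAut a H hinv)
        · apply Nat.Coprime.coprime_dvd_left _ ha
          apply orderOf_dvd_of_pow_eq_one
          apply MulEquiv.ext
          intro y
          apply Subtype.ext
          rw [restrictAut_pow_apply, pow_orderOf_eq_one]
          rfl
        · intro y hy
          apply Subtype.ext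
          have hy' : (y : G) ^ p = 1 := by
            have h3 := congrArg Subtype.val hy
            simpa using h3
          exact h y hy'
      have h4 := congrArg (fun b : MulAut H => ((b ⟨x, hx⟩ : H) : G)) hb
      exact h4
    apply MulEquiv.ext
    intro x
    show a x = x
    by_cases htriv : Subsingleton G
    · exact Subsingleton.elim _ _
    haveI : Nontrivial G := not_subsingleton_iff_nontrivial.mp htriv
    -- Step A: `a` fixes all `p`-th powers
    have hA : ∀ x : G, a (x ^ p) = x ^ p := by
      intro x
      have hinvb : ∀ (b : MulAut G) (z : G), z ∈ Subgroup.closure {y : G | ∃ x : G, y = x ^ p} →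
          b z ∈ Subgroup.closure {y : G | ∃ x : G, y = x ^ p} := by
        intro b z hz
        have h1 : b z ∈ (Subgroup.closure {y : G | ∃ x : G, y = x ^ p}).map b.toMonoidHom :=
          ⟨z, hz, rfl⟩
        rw [MonoidHom.map_closure] at h1
        refine (Subgroup.closure_mono ?_) h1
        rintro _ ⟨_, ⟨w, rfl⟩, rfl⟩
        exact ⟨b w, by simp⟩
      apply hI (Subgroup.closure {y : G | ∃ x : G, y = x ^ p})
      · intro z
        refine ⟨hinvb a z, fun hz => ?_⟩
        have h1 := hinvb a.symm (a z) hz
        rwa [MulEquiv.symm_apply_apply] at h1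
      · intro htop
        apply frattini_ne_top (G := G)
        rw [eq_top_iff, ← htop, Subgroup.closure_le]
        rintro _ ⟨w, rfl⟩
        exact Cfsg.Agent.Helper2.pow_mem_frattini_of_isPGroup hG w
      · exact Subgroup.subset_closure ⟨x, rfl⟩
    by_cases hKtop : Subgroup.closure {y : G | ∃ x : G, y = x⁻¹ * a x} = ⊤
    swap
    · apply fixed_of_comm_fixed hG a ha
      have hinvb : ∀ (z : G), z ∈ Subgroup.closure {y : G | ∃ x : G, y = x⁻¹ * a x} →
          a z ∈ Subgroup.closure {y : G | ∃ x : G, y = x⁻¹ * a x} := by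
        intro z hz
        have h1 : a z ∈ (Subgroup.closure {y : G | ∃ x : G, y = x⁻¹ * a x}).map a.toMonoidHom :=
          ⟨z, hz, rfl⟩
        rw [MonoidHom.map_closure] at h1
        refine (Subgroup.closure_mono ?_) h1
        rintro _ ⟨_, ⟨w, rfl⟩, rfl⟩
        exact ⟨a w, by simp⟩
      have hinvb' : ∀ (z : G), z ∈ Subgroup.closure {y : G | ∃ x : G, y = x⁻¹ * a x} →
          a.symm z ∈ Subgroup.closure {y : G | ∃ x : G, y = x⁻¹ * a x} := by
        intro z hz
        have h1 : a.symm z ∈
            (Subgroup.closure {y : G | ∃ x : G, y = x⁻¹ * a x}).map a.symm.toMonoidHom :=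
          ⟨z, hz, rfl⟩
        rw [MonoidHom.map_closure] at h1
        refine (Subgroup.closure_mono ?_) h1
        rintro _ ⟨_, ⟨w, rfl⟩, rfl⟩
        exact ⟨a.symm w, by simp⟩
      apply hI _ ?_ hKtop
      · exact Subgroup.subset_closure ⟨x, rfl⟩
      · intro z
        refine ⟨hinvb z, fun hz => ?_⟩
        have h1 := hinvb' (a z) hz
        rwa [MulEquiv.symm_apply_apply] at h1
    have hclass : commutator G ≤ Subgroup.center G ∧ ∀ u v : G, ⁅u, v⁆ ^ p = 1 := by
      by_cases hab : commutator G = ⊥
      · refine ⟨hab ▸ bot_le, fun u v => ?_⟩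
        have h1 : ⁅u, v⁆ ∈ commutator G := by
          rw [commutator_def]
          exact Subgroup.commutator_mem_commutator (Subgroup.mem_top _) (Subgroup.mem_top _)
        rw [hab, Subgroup.mem_bot] at h1
        rw [h1, one_pow]
      · have hS := Cfsg.Agent.S0119.result hG (Subgroup.zpowers a)
          (by rw [Nat.card_zpowers]; exact ha)
          (by
            rw [eq_top_iff, ← hKtop]
            apply Subgroup.closure_mono
            rintro _ ⟨w, rfl⟩
            exact ⟨w, a, Subgroup.mem_zpowers a, rfl⟩)
          (by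
            intro H hHc hHm
            have hHne : H ≠ ⊤ := by
              intro htop
              apply hab
              rw [commutator_eq_bot_iff]
              refine ⟨⟨fun u v => ?_⟩⟩
              have hu : u ∈ H := htop ▸ Subgroup.mem_top u
              have hv : v ∈ H := htop ▸ Subgroup.mem_top v
              exact congrArg Subtype.val (mul_comm' (⟨u, hu⟩ : H) ⟨v, hv⟩)
            have hinv : ∀ z, z ∈ H ↔ a z ∈ H := by
              intro z
              have h1 := Subgroup.characteristic_iff_comap_eq.mp hHc a
              constructor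
              · intro hz
                rw [← h1] at hz
                exact hz
              · intro hz
                rw [← h1]
                exact hz
            have hfix := hI H hinv hHne
            let F : Subgroup (MulAut G) :=
              { carrier := {b | ∀ z ∈ H, b z = z}
                mul_mem' := fun {b c} hb hc z hz => by
                  rw [MulAut.mul_apply, hc z hz, hb z hz]
                one_mem' := fun z _ => rfl
                inv_mem' := fun {b} hb z hz => by
                  have h2 := hb z hz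
                  calc b⁻¹ z = b⁻¹ (b z) := by rw [h2]
                    _ = z := MulAut.inv_apply_self G b z }
            have hle : Subgroup.zpowers a ≤ F := (Subgroup.zpowers_le).mpr hfix
            intro a' ha' z hz
            exact hle ha' z hz)
        obtain ⟨⟨-, hfr, hcz⟩, -⟩ := hS
        have hcl : commutator G ≤ Subgroup.center G := hcz.le
        refine ⟨hcl, fun u v => ?_⟩
        rw [← Cfsg.Agent.Helper2.commutatorElement_pow_left_of_class_two hcl,
          commutatorElement_eq_one_iff_commute]
        have h1 : u ^ p ∈ Subgroup.center G := by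
          rw [← hfr]
          exact Cfsg.Agent.Helper2.pow_mem_frattini_of_isPGroup hG u
        exact (Subgroup.mem_center_iff.mp h1 v).symm
    obtain ⟨hcl, hcp⟩ := hclass
    apply fixed_of_comm_fixed hG a ha
    apply h
    rw [Cfsg.Agent.Helper2.mul_pow_prime_of_class_two hcl hp.out hp2 x⁻¹ (a x) (hcp _ _), inv_pow,
      ← map_pow, hA, inv_mul_cancel]

/-- For odd p, a p'-automorphism of a p-group acting trivially on the elements of order dividing p is trivial. -/
theorem result {G : Type*} [Group G] [Finite G] {p : ℕ} [Fact p.Prime] (hp : p ≠ 2) (hG : IsPGroup p G) (a : MulAut G) (ha : Nat.Coprime (orderOf a) p) (h : ∀ x : G, x ^ p = 1 → a x = x) : a = 1 := by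
  exact aux hp (Nat.card G) G le_rfl hG a ha h

end Cfsg.Agent.S0120
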