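import Cfsg.Statements.S0069
import Cfsg.Agent.S0040
import Cfsg.Agent.S0041
import Cfsg.Agent.S0068
import Cfsg.Agent.S0120
import Cfsg.Agent.Helper1.FpfSylow
import Cfsg.Agent.Helper35.CoprimeSylow
import Cfsg.Agent.Helper51.Replace
import Cfsg.Agent.Helper2.SylowLe
import Mathlib.GroupTheory.SpecificGroups.ZGroup
import Mathlib.Tactic.Group

set_option autoImplicit false
open Cfsg

namespace Cfsg.Agent.S0069

/-- A group acting without fixed points has order coprime to the group acted upon. -/
theorem coprime_card {G : Type*} [Group G] [Finite G] (K H : Subgroup G)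
    (hHK : H ≤ Subgroup.normalizer (K : Set G))
    (hfpf : ∀ h ∈ H, h ≠ 1 → K ⊓ Subgroup.centralizer {h} = ⊥) :
    (Nat.card H).Coprime (Nat.card K) := by
  by_contra hn
  obtain ⟨p, hp, hpH, hpK⟩ := Nat.Prime.not_coprime_iff_dvd.mp hn
  haveI := Fact.mk hp
  obtain ⟨x, hx⟩ := exists_prime_orderOf_dvd_card' (G := H) p hpH
  have hx1 : (x : G) ≠ 1 := by
    intro h
    have : x = 1 := Subtype.ext h
    rw [this, orderOf_one] at hx
    exact hp.one_lt.ne hx
  have hxp : (x : G) ^ p = 1 := by
    have := pow_orderOf_eq_one x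
    rw [hx] at this
    exact congrArg Subtype.val this
  exact Cfsg.Agent.Helper1.exists_fixed_of_dvd_card p K (x : G) (hHK x.2) hpK hxp
    (hfpf x x.2 hx1)

/-- A solvable group acting without fixed points on `K ≠ 1` normalises a nontrivial abelian
subgroup of `K`. -/
theorem exists_invariant_abelian {G : Type*} [Group G] [Finite G] (K H : Subgroup G)
    (hK : K ≠ ⊥) (hHK : H ≤ Subgroup.normalizer (K : Set G))
    (hfpf : ∀ h ∈ H, h ≠ 1 → K ⊓ Subgroup.centralizer {h} = ⊥) (hsolv : Group.IsSolvable H) :
    ∃ V : Subgroup G, V ≤ K ∧ V ≠ ⊥ ∧ IsMulCommutative V ∧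
      H ≤ Subgroup.normalizer (V : Set G) := by
  have hcop := coprime_card K H hHK hfpf
  have hK1 : Nat.card K ≠ 1 := fun h => hK (Subgroup.card_eq_one.mp h)
  have hr : (Nat.card K).minFac.Prime := Nat.minFac_prime hK1
  haveI : Fact (Nat.card K).minFac.Prime := ⟨hr⟩
  obtain ⟨R, hR, hQR⟩ := Cfsg.Agent.Helper35.exists_invariant_sylow hHK hcop (Or.inl hsolv)
    (Nat.card K).minFac
  have hRp : IsPGroup (Nat.card K).minFac R := Cfsg.Agent.Helper35.isPGroup_of_mem_sylowSet hR
  have hRnt : Nontrivial R := by
    rw [← Finite.one_lt_card_iff_nontrivial, hR.2]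
    apply Nat.one_lt_pow _ hr.one_lt
    have := (Nat.Prime.dvd_iff_one_le_factorization hr Nat.card_pos.ne').mp (Nat.minFac_dvd _)
    omega
  refine ⟨R ⊓ Subgroup.centralizer (R : Set G), inf_le_left.trans hR.1, ?_, ?_, ?_⟩
  · have hc := hRp.center_nontrivial
    obtain ⟨z, hz⟩ := exists_ne (1 : Subgroup.center R)
    intro hbot
    have hzV : ((z : R) : G) ∈ R ⊓ Subgroup.centralizer (R : Set G) := by
      refine ⟨(z : R).2, ?_⟩
      show ((z : R) : G) ∈ Subgroup.centralizer (R : Set G)
      rw [Subgroup.mem_centralizer_iff]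
      intro k hk
      have h1 := (Subgroup.mem_center_iff.mp z.2) ⟨k, hk⟩
      exact congrArg Subtype.val h1
    rw [hbot, Subgroup.mem_bot] at hzV
    exact hz (Subtype.ext (Subtype.ext hzV))
  · refine ⟨⟨fun a b => Subtype.ext ?_⟩⟩
    have h1 : (b : G) ∈ Subgroup.centralizer (R : Set G) := b.2.2
    rw [Subgroup.mem_centralizer_iff] at h1
    exact h1 _ a.2.1
  · exact fun g hg => Cfsg.Agent.Helper1.mem_normalizer_inf_centralizer_self R g (hQR hg)

/-- A Z-group of odd order acting without fixed points on a nontrivial abelian group has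
nontrivial centre: the elements of order `q`, `q` the smallest prime divisor, are central. -/
theorem center_ne_bot_of_invariant_abelian {G : Type*} [Group G] [Finite G] (H V : Subgroup G)
    [IsMulCommutative V] (hV : V ≠ ⊥) (hHV : H ≤ Subgroup.normalizer (V : Set G))
    (hfV : ∀ h ∈ H, h ≠ 1 → V ⊓ Subgroup.centralizer {h} = ⊥) [IsZGroup H]
    (hodd : ¬ 2 ∣ Nat.card H) (q : ℕ) [hqF : Fact q.Prime] (hq : (Nat.card H).minFac = q) :
    Subgroup.center H ≠ ⊥ := by
  classical
  have hqp : q.Prime := hqF.out
  have hqH : q ∣ Nat.card H := hq ▸ Nat.minFac_dvd _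
  let Q : Sylow q H := default
  have hQc : IsCyclic Q := inferInstance
  have hcompl := hQc.isComplement' hq
  set N : Subgroup H := (MonoidHom.transferSylow Q (hQc.normalizer_le_centralizer hq)).ker with hN
  haveI hNn : N.Normal := MonoidHom.normal_ker _
  obtain ⟨x, hx⟩ := exists_prime_orderOf_dvd_card' (G := Q) q (Q.dvd_card_of_dvd_card hqH)
  have hxo : orderOf (x : H) = q := by rw [Subgroup.orderOf_coe, hx]
  have hx1 : (x : H) ≠ 1 := by
    intro h
    rw [h, orderOf_one] at hxo
    exact hqp.one_lt.ne hxo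
  have hxq : (x : H) ^ q = 1 := by
    have := pow_orderOf_eq_one (x : H)
    rwa [hxo] at this
  have hcardN : (Q : Subgroup H).index = Nat.card N := hcompl.index_eq_card
  have hqN : ¬ q ∣ Nat.card N := by rw [← hcardN]; exact Q.not_dvd_index
  have key : N ≤ Subgroup.centralizer {(x : H)} := by
    have hcard : Nat.card N ∣ Nat.card (N ⊓ Subgroup.centralizer {(x : H)} : Subgroup H) := by
      rw [← Nat.factorization_prime_le_iff_dvd Nat.card_pos.ne' Nat.card_pos.ne']
      intro r hr
      haveI := Fact.mk hr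
      rw [← hr.pow_dvd_iff_le_factorization Nat.card_pos.ne']
      obtain ⟨R, hR, hxR⟩ := Cfsg.Agent.Helper35.exists_invariant_sylow
        (A := Subgroup.zpowers (x : H)) (K := N)
        (by rw [Subgroup.normalizer_eq_top]; exact le_top)
        (by rw [Nat.card_zpowers, hxo]; exact (Nat.Prime.coprime_iff_not_dvd hqp).mpr hqN)
        (Or.inl inferInstance) r
      rw [← hR.2]
      apply Subgroup.card_dvd_of_le
      refine le_inf hR.1 ?_
      by_cases hRbot : R = ⊥
      · rw [hRbot]; exact bot_le
      have hRp : IsPGroup r R := Cfsg.Agent.Helper35.isPGroup_of_mem_sylowSet hR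
      have hrR : r ∣ Nat.card R := by
        obtain ⟨k, hk⟩ := IsPGroup.iff_card.mp hRp
        rcases Nat.eq_zero_or_pos k with h0 | h0
        · exfalso
          rw [h0, pow_zero] at hk
          exact hRbot (Subgroup.card_eq_one.mp hk)
        · rw [hk]; exact dvd_pow_self r h0.ne'
      have hrN : r ∣ Nat.card N := hrR.trans (Subgroup.card_dvd_of_le hR.1)
      have hrH : r ∣ Nat.card H := hrN.trans (Subgroup.card_subgroup_dvd_card N)
      have hr2 : r ≠ 2 := fun h => hodd (h ▸ hrH)
      have hrq : r ≠ q := fun h => hqN (h ▸ hrN)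
      haveI hRcyc : IsCyclic R := hRp.isCyclic_of_isZGroup
      have hxmem : (x : H) ∈ Subgroup.normalizer (R : Set H) := hxR (Subgroup.mem_zpowers _)
      have hinv : ∀ g : H, g ∈ R ↔ (MulAut.conj (x : H)) g ∈ R := fun g => by
        rw [MulAut.conj_apply]; exact Subgroup.mem_set_normalizer_iff.mp hxmem g
      have haq : (Cfsg.Agent.S0120.restrictAut (MulAut.conj (x : H)) R hinv) ^ q = 1 := by
        apply MulEquiv.ext
        intro y
        apply Subtype.ext
        rw [Cfsg.Agent.S0120.restrictAut_pow_apply, ← map_pow, hxq, map_one]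
        rfl
      have hacop : Nat.Coprime (orderOf (Cfsg.Agent.S0120.restrictAut (MulAut.conj (x : H)) R hinv))
          r := by
        apply Nat.Coprime.coprime_dvd_left (orderOf_dvd_of_pow_eq_one haq)
        exact (Nat.coprime_primes hqp hr).mpr (Ne.symm hrq)
      have hfix : ∀ y : R, y ^ r = 1 →
          (Cfsg.Agent.S0120.restrictAut (MulAut.conj (x : H)) R hinv) y = y := by
        intro y hy
        by_cases hy1 : y = 1
        · rw [hy1, map_one]
        have hc1 : (((y : H) : G)) ≠ 1 := fun h => hy1 (Subtype.ext (Subtype.ext h))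
        have hcr : (((y : H) : G)) ^ r = 1 := by
          have := congrArg (fun z : R => ((z : H) : G)) hy
          simpa using this
        have hco : orderOf (((y : H) : G)) = r := orderOf_eq_prime hcr hc1
        have hxGo : orderOf (((x : H) : G)) = q := by rw [Subgroup.orderOf_coe, hxo]
        have hRGp : IsPGroup r (R.map H.subtype) := hRp.map _
        have hRGH : R.map H.subtype ≤ H := Subgroup.map_subtype_le _
        have hcle : Subgroup.zpowers (((y : H) : G)) ≤ R.map H.subtype := by
          rw [Subgroup.zpowers_le]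
          exact ⟨(y : H), y.2, rfl⟩
        have hBle : (Subgroup.zpowers (((y : H) : G))).map
            (MulAut.conj (((x : H) : G))).toMonoidHom ≤ R.map H.subtype := by
          rintro _ ⟨z, hz, rfl⟩
          obtain ⟨w, hw, rfl⟩ := hcle hz
          exact ⟨(x : H) * w * (x : H)⁻¹, (hinv w).mp hw, rfl⟩
        have hAB := Cfsg.Agent.Helper1.fpf_eq_of_card_prime V (R.map H.subtype) hV
          (hRGH.trans hHV) (fun h hh hh1 => hfV h (hRGH hh) hh1) r hRGp
          (Subgroup.zpowers (((y : H) : G)))
          ((Subgroup.zpowers (((y : H) : G))).map (MulAut.conj (((x : H) : G))).toMonoidHom)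
          hcle hBle (by rw [Nat.card_zpowers, hco])
          (by
            rw [Subgroup.card_map_of_injective (MulAut.conj (((x : H) : G))).injective,
              Nat.card_zpowers, hco])
        have hnorm : (((x : H) : G)) ∈ Subgroup.normalizer
            ((Subgroup.zpowers (((y : H) : G)) : Subgroup G) : Set G) := by
          rw [Cfsg.Agent.Helper2.mem_normalizer_iff_map_conj_toMonoidHom_eq]
          exact hAB.symm
        have hle : Subgroup.zpowers (((x : H) : G)) ≤ Subgroup.normalizer
            ((Subgroup.zpowers (((y : H) : G)) : Subgroup G) : Set G) :=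
          (Subgroup.zpowers_le).mpr hnorm
        have hcardsup := Cfsg.Agent.Helper51.card_sup_mul_card_inf_of_le_normalizer
          (Subgroup.zpowers (((x : H) : G))) (Subgroup.zpowers (((y : H) : G))) hle
        have hinf : Subgroup.zpowers (((x : H) : G)) ⊓ Subgroup.zpowers (((y : H) : G)) = ⊥ := by
          apply Subgroup.inf_eq_bot_of_coprime
          rw [Nat.card_zpowers, Nat.card_zpowers, hxGo, hco]
          exact (Nat.coprime_primes hqp hr).mpr (Ne.symm hrq)
        rw [hinf, Subgroup.card_bot, mul_one, Nat.card_zpowers, Nat.card_zpowers, hxGo, hco]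
          at hcardsup
        have hAH : Subgroup.zpowers (((x : H) : G)) ⊔ Subgroup.zpowers (((y : H) : G)) ≤ H :=
          sup_le ((Subgroup.zpowers_le).mpr (x : H).2) ((Subgroup.zpowers_le).mpr (y : H).2)
        haveI hcyc : IsCyclic
            (Subgroup.zpowers (((x : H) : G)) ⊔ Subgroup.zpowers (((y : H) : G)) : Subgroup G) :=
          Cfsg.Agent.S0041.result _ V hV (hAH.trans hHV) (fun a ha => hfV a (hAH ha))
            (Or.inr ⟨q, r, hqp, hr, hcardsup⟩)
        have hxA : (((x : H) : G)) ∈
            Subgroup.zpowers (((x : H) : G)) ⊔ Subgroup.zpowers (((y : H) : G)) :=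
          Subgroup.mem_sup_left (Subgroup.mem_zpowers _)
        have hyA : (((y : H) : G)) ∈
            Subgroup.zpowers (((x : H) : G)) ⊔ Subgroup.zpowers (((y : H) : G)) :=
          Subgroup.mem_sup_right (Subgroup.mem_zpowers _)
        have hcomm : (((x : H) : G)) * (((y : H) : G)) = (((y : H) : G)) * (((x : H) : G)) :=
          congrArg Subtype.val (mul_comm' (⟨_, hxA⟩ :
            (Subgroup.zpowers (((x : H) : G)) ⊔ Subgroup.zpowers (((y : H) : G)) : Subgroup G))
            ⟨_, hyA⟩)
        apply Subtype.ext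
        apply Subtype.ext
        show (((x : H) : G)) * (((y : H) : G)) * (((x : H) : G))⁻¹ = (((y : H) : G))
        rw [hcomm]
        group
      have ha1 := Cfsg.Agent.S0120.result hr2 hRp _ hacop hfix
      intro g hg
      rw [Subgroup.mem_centralizer_singleton_iff]
      have h3 : (x : H) * g * (x : H)⁻¹ = g :=
        congrArg (fun b : MulAut R => ((b ⟨g, hg⟩ : R) : H)) ha1
      calc g * (x : H) = ((x : H) * g * (x : H)⁻¹) * (x : H) := by rw [h3]
        _ = (x : H) * g := by group
    have h1 : N ⊓ Subgroup.centralizer {(x : H)} = N :=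
      Subgroup.eq_of_le_of_card_ge inf_le_left (Nat.le_of_dvd Nat.card_pos hcard)
    rw [← h1]
    exact inf_le_right
  intro hbot
  have hmem : (x : H) ∈ Subgroup.center H := by
    rw [Subgroup.mem_center_iff]
    intro h
    obtain ⟨⟨⟨n, hn⟩, ⟨u, hu⟩⟩, rfl⟩ := hcompl.2 h
    have h1 : n * (x : H) = (x : H) * n := Subgroup.mem_centralizer_singleton_iff.mp (key hn)
    have h2 : u * (x : H) = (x : H) * u :=
      congrArg Subtype.val (mul_comm' (⟨u, hu⟩ : Q) x)
    show n * u * (x : H) = (x : H) * (n * u)
    rw [mul_assoc, h2, ← mul_assoc, h1, mul_assoc]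
  rw [hbot, Subgroup.mem_bot] at hmem
  exact hx1 hmem

/-- A Frobenius complement has nontrivial centre: if H ≠ 1 complements a nontrivial normal subgroup K and every nonidentity element of H has trivial centraliser in K, then the centre of H is nontrivial. -/
theorem result {G : Type*} [Group G] [Finite G] (K H : Subgroup G) [K.Normal]
    (hc : Subgroup.IsComplement' K H) (hK : K ≠ ⊥) (hH : H ≠ ⊥) (hfpf : ∀ h ∈ H, h ≠ 1 → K ⊓ Subgroup.centralizer {h} = ⊥) :
    Subgroup.center H ≠ ⊥ := by
  classical
  have hHK : H ≤ Subgroup.normalizer (K : Set G) := by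
    rw [Subgroup.normalizer_eq_top]; exact le_top
  by_cases heven : 2 ∣ Nat.card H
  · obtain ⟨⟨s, hsH, hs2, huniq, -⟩, -⟩ := Cfsg.Agent.S0068.result K H hc hK hfpf heven
    intro hbot
    have hmem : (⟨s, hsH⟩ : H) ∈ Subgroup.center H := by
      rw [Subgroup.mem_center_iff]
      intro g
      have h1 : (g : G) * s * (g : G)⁻¹ = s := by
        apply huniq _ (H.mul_mem (H.mul_mem g.2 hsH) (H.inv_mem g.2))
        have h2 : orderOf ((MulAut.conj (g : G)) s) = orderOf s := MulEquiv.orderOf_eq _ _
        rw [MulAut.conj_apply] at h2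
        rw [h2, hs2]
      apply Subtype.ext
      show (g : G) * s = s * (g : G)
      calc (g : G) * s = ((g : G) * s * (g : G)⁻¹) * (g : G) := by group
        _ = s * (g : G) := by rw [h1]
    rw [hbot, Subgroup.mem_bot] at hmem
    have hs1 : s = 1 := congrArg Subtype.val hmem
    rw [hs1, orderOf_one] at hs2
    omega
  · haveI hZ : IsZGroup H := by
      refine ⟨fun p hp P => ?_⟩
      haveI := Fact.mk hp
      rcases Cfsg.Agent.S0040.result K H hc hK hfpf p P with h | ⟨n, ⟨e⟩⟩
      · exact h
      · exfalso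
        apply heven
        have h1 : Nat.card P = 4 * 2 ^ n := by
          rw [Nat.card_congr e.toEquiv, Nat.card_eq_fintype_card, QuaternionGroup.card]
        have h2 : Nat.card P ∣ Nat.card H := Subgroup.card_subgroup_dvd_card _
        rw [h1] at h2
        exact (Dvd.intro (2 * 2 ^ n) (by ring)).trans h2
    obtain ⟨V, hVK, hV1, hVc, hHV⟩ := exists_invariant_abelian K H hK hHK hfpf inferInstance
    haveI := hVc
    have hfV : ∀ h ∈ H, h ≠ 1 → V ⊓ Subgroup.centralizer {h} = ⊥ := by
      intro h hh hh1
      rw [eq_bot_iff, ← hfpf h hh hh1]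
      exact inf_le_inf_right _ hVK
    have hH1 : Nat.card H ≠ 1 := fun h => hH (Subgroup.card_eq_one.mp h)
    haveI : Fact (Nat.card H).minFac.Prime := ⟨Nat.minFac_prime hH1⟩
    exact center_ne_bot_of_invariant_abelian H V hV1 hHV hfV heven (Nat.card H).minFac rfl

end Cfsg.Agent.S0069
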