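import Cfsg.Statements.S4211
import Cfsg.Agent.Helper71.Dedekind

set_option autoImplicit false
open Cfsg

namespace Cfsg.Agent.S4211

open Subgroup Cfsg.Agent.Helper71 Pointwise in
/-- A finite non-abelian group in which every subgroup is normal is the internal direct product of a subgroup isomorphic to the quaternion group of order `8`, an elementary abelian `2`-subgroup and an abelian subgroup of odd order. -/
theorem result {G : Type*} [Group G] [Finite G] (hna : ¬ IsMulCommutative G) (hn : ∀ H : Subgroup G, H.Normal) : ∃ Q E A : Subgroup G, Nonempty (Q ≃* QuaternionGroup 2) ∧ Cfsg.IsElementaryAbelian 2 E ∧ IsMulCommutative A ∧ Odd (Nat.card A) ∧ E ⊓ A = ⊥ ∧ Q ⊓ (E ⊔ A) = ⊥ ∧ Q ⊔ (E ⊔ A) = ⊤ := by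
  classical
  have h0 : ∃ x y : G, ¬ Commute x y := by
    by_contra hcon
    push Not at hcon
    exact hna ⟨⟨fun x y => (hcon x y).eq⟩⟩
  obtain ⟨x₀, y₀, h₀⟩ := h0
  obtain ⟨a, b, ha4, ha2, hb, hba⟩ := dedekind_exists_q8_pair hn h₀
  have hoa : orderOf a = 4 := orderOf_eq_four ha4 ha2
  have hb4 : b ^ 4 = 1 := by
    have : b ^ 4 = (b ^ 2) ^ 2 := by rw [← pow_mul]
    rw [this, hb, ← pow_mul]; exact ha4
  have hb2 : b ^ 2 ≠ 1 := by rw [hb]; exact ha2
  have hab : ¬ Commute a b := by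
    intro h
    have h1 : b * a * b⁻¹ = a := by rw [← h.eq]; group
    rw [hba] at h1
    apply ha2
    rw [pow_two]; nth_rewrite 1 [← h1]; exact inv_mul_cancel a
  have haba : a * b * a⁻¹ = b⁻¹ := q8_conj_b ha4 hb hba
  -- the homomorphism from the quaternion group
  let f : QuaternionGroup 2 →* G :=
    { toFun := Cfsg.Agent.Helper69.q8map a b ha4
      map_one' := by
        show Cfsg.Agent.Helper69.q8map a b ha4 (QuaternionGroup.a 0) = 1
        exact Cfsg.Agent.Helper69.q8pow_zero a ha4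
      map_mul' := Cfsg.Agent.Helper69.q8map_mul a b ha4 hb hba }
  have hfa : f (QuaternionGroup.a 1) = a := Cfsg.Agent.Helper69.q8pow_one a ha4
  have hfb : f (QuaternionGroup.xa 0) = b := by
    show b * (Cfsg.Agent.Helper69.q8pow a ha4 0).toMul = b
    rw [Cfsg.Agent.Helper69.q8pow_zero, mul_one]
  have hfform : ∀ q : QuaternionGroup 2, ∃ k : ℤ, f q = a ^ k ∨ f q = b * a ^ k := by
    intro q
    rcases q with i | i
    · obtain ⟨k, rfl⟩ := ZMod.intCast_surjective i
      exact ⟨k, Or.inl (Cfsg.Agent.Helper69.q8pow_intCast a ha4 k)⟩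
    · obtain ⟨k, rfl⟩ := ZMod.intCast_surjective i
      refine ⟨k, Or.inr ?_⟩
      show b * (Cfsg.Agent.Helper69.q8pow a ha4 (k : ZMod (2 * 2))).toMul = b * a ^ k
      rw [Cfsg.Agent.Helper69.q8pow_intCast]
  have haQ : a ∈ f.range := ⟨_, hfa⟩
  have hbQ : b ∈ f.range := ⟨_, hfb⟩
  have hcardQ : Nat.card f.range = 8 := by
    have h1 : Nat.card f.range ∣ 8 := by
      have := Subgroup.card_dvd_of_surjective f.rangeRestrict f.rangeRestrict_surjective
      rwa [Nat.card_eq_fintype_card (α := QuaternionGroup 2), QuaternionGroup.card] at this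
    have h2 : 4 ∣ Nat.card f.range := by
      rw [← hoa]; exact Subgroup.orderOf_dvd_natCard _ haQ
    have h3 : Nat.card f.range ≠ 4 := by
      intro h4
      have hle : zpowers a ≤ f.range := by rw [zpowers_le]; exact haQ
      have heq : zpowers a = f.range :=
        Subgroup.eq_of_le_of_card_ge hle (by rw [Nat.card_zpowers, hoa, h4])
      have hbz : b ∈ zpowers a := heq ▸ hbQ
      obtain ⟨k, hk⟩ := mem_zpowers_iff.mp hbz
      exact hab (hk ▸ (Commute.refl a).zpow_right k)
    have hle := Nat.le_of_dvd (by norm_num) h1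
    generalize Nat.card f.range = n at h1 h2 h3 hle
    interval_cases n <;> omega
  have hiso : Nonempty (f.range ≃* QuaternionGroup 2) := by
    have hbij : Function.Bijective f.rangeRestrict :=
      (Nat.bijective_iff_surjective_and_card _).mpr ⟨f.rangeRestrict_surjective, by
        rw [hcardQ, Nat.card_eq_fintype_card, QuaternionGroup.card]⟩
    exact ⟨(MulEquiv.ofBijective _ hbij).symm⟩
  -- the centraliser
  set C : Subgroup G := centralizer ({a, b} : Set G) with hC
  have hCmem : ∀ g : G, g ∈ C ↔ Commute g a ∧ Commute g b := by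
    intro g
    rw [hC, mem_centralizer_iff]
    constructor
    · intro h; exact ⟨(h a (by simp)).symm, (h b (by simp)).symm⟩
    · rintro ⟨h1, h2⟩ x hx
      rcases hx with rfl | rfl
      · exact h1.eq.symm
      · exact h2.eq.symm
  have hC4 : ∀ g ∈ C, g ^ 4 = 1 → g ^ 2 = 1 := fun g hg hg4 =>
    dedekind_central_sq hn ha4 ha2 hb hba ((hCmem g).1 hg).1 ((hCmem g).1 hg).2 hg4
  have hCcomm : ∀ g ∈ C, ∀ h ∈ C, Commute g h := by
    intro g hg h hh
    by_contra hcon
    have hnC : ∀ H : Subgroup C, H.Normal := fun H => by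
      have := (hn (H.map C.subtype)).comap C.subtype
      rwa [comap_map_eq_self_of_injective C.subtype_injective] at this
    have hcon' : ¬ Commute (⟨g, hg⟩ : C) ⟨h, hh⟩ := fun hc => hcon (by
      have := congrArg Subtype.val hc.eq
      exact this)
    obtain ⟨a', b', ha'4, ha'2, -, -⟩ := dedekind_exists_q8_pair hnC hcon'
    apply ha'2
    have h4 : (a' : G) ^ 4 = 1 := by exact_mod_cast congrArg Subtype.val ha'4
    have := hC4 a' a'.2 h4
    exact Subtype.ext (by simpa using this)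
  let T : Subgroup G :=
    { carrier := {g | g ∈ C ∧ g ^ 2 = 1}
      mul_mem' := by
        rintro x y ⟨hx, hx2⟩ ⟨hy, hy2⟩
        exact ⟨mul_mem hx hy, by rw [(hCcomm x hx y hy).mul_pow, hx2, hy2, one_mul]⟩
      one_mem' := ⟨one_mem _, one_pow _⟩
      inv_mem' := by
        rintro x ⟨hx, hx2⟩
        exact ⟨inv_mem hx, by rw [inv_pow, hx2, inv_one]⟩ }
  let A : Subgroup G :=
    { carrier := {s | ∃ g ∈ C, g ^ 2 = s}
      mul_mem' := by
        rintro _ _ ⟨x, hx, rfl⟩ ⟨y, hy, rfl⟩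
        exact ⟨x * y, mul_mem hx hy, (hCcomm x hx y hy).mul_pow 2⟩
      one_mem' := ⟨1, one_mem _, one_pow _⟩
      inv_mem' := by
        rintro _ ⟨x, hx, rfl⟩
        exact ⟨x⁻¹, inv_mem hx, inv_pow x 2⟩ }
  have hTmem : ∀ g : G, g ∈ T ↔ g ∈ C ∧ g ^ 2 = 1 := fun g => Iff.rfl
  have hAmem : ∀ s : G, s ∈ A ↔ ∃ g ∈ C, g ^ 2 = s := fun s => Iff.rfl
  have hAC : ∀ s ∈ A, s ∈ C := by
    rintro _ ⟨g, hg, rfl⟩
    exact pow_mem hg 2
  have hA2 : ∀ s ∈ A, s ^ 2 = 1 → s = 1 := by
    rintro _ ⟨g, hg, rfl⟩ h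
    exact hC4 g hg (by rw [← h, ← pow_mul])
  have hAodd : Odd (Nat.card A) := by
    rw [← Nat.not_even_iff_odd, even_iff_two_dvd]
    intro h2
    have : Fact (Nat.Prime 2) := ⟨Nat.prime_two⟩
    obtain ⟨s, hs⟩ := exists_prime_orderOf_dvd_card' 2 h2
    have hs2 : (s : G) ^ 2 = 1 := by
      have := pow_orderOf_eq_one s
      rw [hs] at this
      exact_mod_cast congrArg Subtype.val this
    have := hA2 s s.2 hs2
    have hs1 : s = 1 := Subtype.ext this
    rw [hs1, orderOf_one] at hs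
    omega
  -- the complement E
  obtain ⟨E, hE⟩ := (Set.toFinite {E : Subgroup G | E ≤ T ∧ a ^ 2 ∉ E}).exists_maximal
    ⟨⊥, bot_le, by rw [mem_bot]; exact ha2⟩
  have hET : E ≤ T := hE.prop.1
  have hcE : a ^ 2 ∉ E := hE.prop.2
  have hEmax : ∀ g ∈ T, g ∈ E ∨ g * a ^ 2 ∈ E := by
    intro g hg
    by_cases hgE : g ∈ E
    · exact Or.inl hgE
    right
    have hlt : E < E ⊔ zpowers g := by
      refine lt_of_le_of_ne le_sup_left (fun h => hgE ?_)
      have : g ∈ E ⊔ zpowers g := mem_sup_right (mem_zpowers g)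
      rw [← h] at this; exact this
    have hle : E ⊔ zpowers g ≤ T := sup_le hET (by rw [zpowers_le]; exact hg)
    have hc' : a ^ 2 ∈ E ⊔ zpowers g := by
      by_contra hcon
      exact absurd (hE.le_of_ge ⟨hle, hcon⟩ hlt.le) (not_le_of_gt hlt)
    have := hn (zpowers g)
    have hmul : a ^ 2 ∈ (E : Set G) * (zpowers g : Set G) := by
      rw [← mul_normal]; exact hc'
    obtain ⟨e, he, z, hz, hez⟩ := Set.mem_mul.mp hmul
    have hg2 : g ^ 2 = 1 := ((hTmem g).1 hg).2
    have hz' : z = 1 ∨ z = g := by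
      have hz1 : z ∈ zpowers g := hz
      rw [← mem_powers_iff_mem_zpowers] at hz1
      obtain ⟨n, hn'⟩ := hz1
      have hn'' : g ^ n = z := hn'
      rw [← hn'', pow_eq_pow_mod n hg2]
      rcases Nat.mod_two_eq_zero_or_one n with h | h
      · left; rw [h, pow_zero]
      · right; rw [h, pow_one]
    rcases hz' with rfl | rfl
    · exfalso; apply hcE; rw [← hez, mul_one]; exact he
    · have : z * a ^ 2 = e⁻¹ := by
        have h1 : z = e⁻¹ * a ^ 2 := by rw [← hez]; group
        have h2 : a ^ 2 * a ^ 2 = 1 := by rw [← pow_add]; exact ha4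
        rw [h1, mul_assoc, h2, mul_one]
      rw [this]; exact inv_mem he
  have hEC : ∀ e ∈ E, e ∈ C := fun e he => ((hTmem e).1 (hET he)).1
  have hE2 : ∀ e ∈ E, e ^ 2 = 1 := fun e he => ((hTmem e).1 (hET he)).2
  refine ⟨f.range, E, A, hiso, ⟨⟨⟨fun x y => Subtype.ext (hCcomm x (hEC x x.2) y (hEC y y.2)).eq⟩⟩,
    hE2⟩, ⟨⟨fun x y => Subtype.ext (hCcomm x (hAC x x.2) y (hAC y y.2)).eq⟩⟩, hAodd, ?_, ?_, ?_⟩
  · rw [eq_bot_iff]
    rintro g ⟨hgE, hgA⟩
    rw [mem_bot]
    exact hA2 g hgA (hE2 g hgE)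
  · rw [eq_bot_iff]
    rintro g ⟨hgQ, hgEA⟩
    rw [mem_bot]
    have := hn A
    have hmul : g ∈ (E : Set G) * (A : Set G) := by
      rw [← mul_normal]; exact hgEA
    obtain ⟨e, he, s, hs, hes⟩ := Set.mem_mul.mp hmul
    have hgC : g ∈ C := by rw [← hes]; exact mul_mem (hEC e he) (hAC s hs)
    have heC := hEC e he
    have hsC := hAC s hs
    obtain ⟨q, hq⟩ := hgQ
    obtain ⟨k, hk | hk⟩ := hfform q
    · -- g = a ^ k
      have hgk : g = a ^ k := by rw [← hq, hk]
      have hgb : Commute g b := ((hCmem g).1 hgC).2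
      have h1 : (b * a * b⁻¹) ^ k = b * a ^ k * b⁻¹ := conj_zpow
      rw [hba, ← hgk, hgb.eq.symm, mul_inv_cancel_right] at h1
      -- h1 : a⁻¹ ^ k = g
      have hg2 : g ^ 2 = 1 := by
        rw [pow_two]; nth_rewrite 1 [← h1]; rw [hgk, inv_zpow, inv_mul_cancel]
      -- s = e⁻¹ * g has square 1
      have hs2 : s ^ 2 = 1 := by
        have hse : s = e⁻¹ * g := by rw [← hes]; group
        have hcomm : Commute e⁻¹ g := (hCcomm e heC g hgC).inv_left
        rw [hse, hcomm.mul_pow, inv_pow, hE2 e he, hg2, inv_one, one_mul]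
      have hs1 : s = 1 := hA2 s hs hs2
      have hge : g = e := by rw [← hes, hs1, mul_one]
      have hgz : g ∈ zpowers a := by rw [hgk]; exact zpow_mem (mem_zpowers a) k
      rcases zpowers_pow_four_cases ha4 hgz with h | h | h | h
      · exact h
      · exfalso; apply ha2; rw [← h]; exact hg2
      · exfalso; apply hcE; rw [← h, hge]; exact he
      · exfalso; apply ha2
        rw [h, ← pow_mul] at hg2
        have : a ^ (3 * 2) = a ^ 4 * a ^ 2 := by rw [← pow_add]
        rw [this, ha4, one_mul] at hg2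
        exact hg2
    · -- g = b * a ^ k
      exfalso
      have hgk : g = b * a ^ k := by rw [← hq, hk]
      have hga : Commute g a := ((hCmem g).1 hgC).1
      apply hab
      have h1 : b * a ^ k * a = a * (b * a ^ k) := by rw [← hgk]; exact hga.eq
      have h2 : a ^ k * a = a * a ^ k := ((Commute.refl a).zpow_left k).eq
      have h3 : b * a * a ^ k = a * b * a ^ k := by
        rw [mul_assoc b a, ← h2, ← mul_assoc, h1, mul_assoc]
      exact (mul_right_cancel h3).symm
  · rw [eq_top_iff]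
    intro g _
    have key : ∀ g' : G, g' * a * g'⁻¹ = a → g' * b * g'⁻¹ = b → g' ∈ C := by
      intro g' h1 h2
      rw [hCmem]
      exact ⟨by
        have : g' * a = a * g' := by
          have := congrArg (· * g') h1
          simpa using this
        exact this, by
        have : g' * b = b * g' := by
          have := congrArg (· * g') h2
          simpa using this
        exact this⟩
    have hex : ∃ q ∈ f.range, g * q ∈ C := by
      rcases orderOf_dvd_four_conj hn ha4 ha2 g with h1 | h1 <;>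
      rcases orderOf_dvd_four_conj hn hb4 hb2 g with h2 | h2
      · exact ⟨1, one_mem _, by rw [mul_one]; exact key g h1 h2⟩
      · refine ⟨a, haQ, key _ ?_ ?_⟩
        · have : g * a * a * (g * a)⁻¹ = g * a * g⁻¹ := by group
          rw [this, h1]
        · have : g * a * b * (g * a)⁻¹ = g * (a * b * a⁻¹) * g⁻¹ := by group
          rw [this, haba]
          have : g * b⁻¹ * g⁻¹ = (g * b * g⁻¹)⁻¹ := by group
          rw [this, h2, inv_inv]
      · refine ⟨b, hbQ, key _ ?_ ?_⟩
        · have : g * b * a * (g * b)⁻¹ = g * (b * a * b⁻¹) * g⁻¹ := by group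
          rw [this, hba]
          have : g * a⁻¹ * g⁻¹ = (g * a * g⁻¹)⁻¹ := by group
          rw [this, h1, inv_inv]
        · have : g * b * b * (g * b)⁻¹ = g * b * g⁻¹ := by group
          rw [this, h2]
      · refine ⟨a * b, mul_mem haQ hbQ, key _ ?_ ?_⟩
        · have : g * (a * b) * a * (g * (a * b))⁻¹ = g * (a * (b * a * b⁻¹) * a⁻¹) * g⁻¹ := by
            group
          rw [this, hba]
          have : g * (a * a⁻¹ * a⁻¹) * g⁻¹ = (g * a * g⁻¹)⁻¹ := by group
          rw [this, h1, inv_inv]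
        · have : g * (a * b) * b * (g * (a * b))⁻¹ = g * (a * b * a⁻¹) * g⁻¹ := by group
          rw [this, haba]
          have : g * b⁻¹ * g⁻¹ = (g * b * g⁻¹)⁻¹ := by group
          rw [this, h2, inv_inv]
    obtain ⟨q, hq, hgq⟩ := hex
    set g' := g * q with hg'
    obtain ⟨j, hj⟩ := hAodd
    have hg'2A : g' ^ 2 ∈ A := ⟨g', hgq, rfl⟩
    have ht2 : (g' ^ (2 * j + 1)) ^ 2 = 1 := by
      rw [← pow_mul, mul_comm, pow_mul, ← hj]
      have h1 := pow_card_eq_one' (G := A) (x := ⟨g' ^ 2, hg'2A⟩)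
      have h2 : (((⟨g' ^ 2, hg'2A⟩ : A) ^ Nat.card A : A) : G) = ((1 : A) : G) :=
        congrArg Subtype.val h1
      rw [Subgroup.coe_pow, Subgroup.coe_one] at h2
      exact h2
    have htT : g' ^ (2 * j + 1) ∈ T := (hTmem _).2 ⟨pow_mem hgq _, ht2⟩
    have hsA : ((g'⁻¹) ^ j) ^ 2 ∈ A := ⟨(g'⁻¹) ^ j, pow_mem (inv_mem hgq) j, rfl⟩
    have hdecomp : g = g' ^ (2 * j + 1) * ((g'⁻¹) ^ j) ^ 2 * q⁻¹ := by
      have h1 : g' ^ (2 * j + 1) * ((g'⁻¹) ^ j) ^ 2 = g' := by
        rw [← pow_mul, inv_pow, pow_succ, mul_comm j 2, (Commute.pow_self g' (2 * j)).eq,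
          mul_inv_cancel_right]
      rw [h1, hg']; group
    have hQle : f.range ≤ f.range ⊔ (E ⊔ A) := le_sup_left
    have hEle : E ≤ f.range ⊔ (E ⊔ A) := le_sup_left.trans le_sup_right
    have hAle : A ≤ f.range ⊔ (E ⊔ A) := le_sup_right.trans le_sup_right
    have ha2Q : a ^ 2 ∈ f.range := pow_mem haQ 2
    have htmem : g' ^ (2 * j + 1) ∈ f.range ⊔ (E ⊔ A) := by
      rcases hEmax _ htT with h | h
      · exact hEle h
      · have : g' ^ (2 * j + 1) = g' ^ (2 * j + 1) * a ^ 2 * (a ^ 2)⁻¹ := by group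
        rw [this]
        exact mul_mem (hEle h) (inv_mem (hQle ha2Q))
    rw [hdecomp]
    exact mul_mem (mul_mem htmem (hAle hsA)) (inv_mem (hQle hq))

end Cfsg.Agent.S4211
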