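import Cfsg.Statements.S1147
import Cfsg.Agent.Helper66.SuzAsm
import Cfsg.Agent.S1139

set_option autoImplicit false
open Cfsg

namespace Cfsg.Agent.S1147

theorem result {G Ω : Type*} [Group G] [Finite G] [MulAction G Ω] [Finite Ω]
    (hZ : Cfsg.IsZassenhausGroup G Ω) [IsSimpleGroup G] {a b : Ω} (hab : a ≠ b)
    (U : Subgroup G) (hUle : U ≤ MulAction.stabilizer G a)
    (hUn : ∀ h ∈ MulAction.stabilizer G a, ∀ u ∈ U, h * u * h⁻¹ ∈ U)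
    (hreg : ∀ c d : Ω, c ≠ a → d ≠ a → ∃! u : U, (u : G) • c = d)
    (hU2 : IsPGroup 2 U) (hUna : ∃ u ∈ U, ∃ v ∈ U, u * v ≠ v * u) :
    ∃ n : ℕ, Odd n ∧ 1 < n ∧ Nat.card Ω = 2 ^ (2 * n) + 1 ∧
      IsCyclic ↥(MulAction.stabilizer G a ⊓ MulAction.stabilizer G b) ∧
      Nat.card ↥(MulAction.stabilizer G a ⊓ MulAction.stabilizer G b) = 2 ^ n - 1 ∧
      ∃ (F : Type) (_ : Field F) (_ : Fintype F) (φ : F ≃+* F), Fintype.card F = 2 ^ n ∧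
        Nonempty (U ≃* Cfsg.suzukiTypeA F (φ : F →+* F)) := by
  obtain ⟨n, hodd, hn1, hΩ, hE, hP, hc, hN⟩ :=
    Cfsg.Agent.Helper66.SuzOrd.suz_core hZ hab U hUle hUn hreg hU2 hUna
  have hcyc := (Cfsg.Agent.S0345.result hZ hab).1
  obtain ⟨F, iF, iFt, φ, hF, -, -, hiso⟩ := Cfsg.Agent.S1139.result hP hN
  exact ⟨n, hodd, hn1, hΩ, hcyc, hE, F, iF, iFt, φ, hF.trans hc, hiso⟩

end Cfsg.Agent.S1147
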