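import Cfsg.Statements.S5120
import Cfsg.Agent.Helper85.PPower

set_option autoImplicit false
open Cfsg

namespace Cfsg.Agent.S5120

open Cfsg.FusionSystem
open Cfsg.Agent.Helper88

variable {Ω : Type*} [Group Ω] {S : Subgroup Ω}

/-- A saturated subsystem of `p`-power index over `T` is invariant under `Aut_F(T)`. -/
theorem invariant_aux [Finite S] {p : ℕ} [Fact p.Prime] (hS : IsPGroup p S) (F : FusionSystem S)
    {T : Subgroup Ω} (hTS : T ≤ S) (E : FusionSystem T) (hEs : E.IsSaturated p)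
    (hEi : E.HasPPowerIndexIn F p) {a : MulAut T} (ha : a ∈ F.autGroup T) {P : Subgroup Ω} {f : Ω → Ω}
    (hf : IsMap E P f) : IsMap E (img P (autFun a)) (autFun a ∘ f ∘ autFun a⁻¹) := by
  have hfT : Finite T := Helper88.finite_of_le hTS
  have hT : IsPGroup p T := hS.to_le hTS
  have ham : IsMap F T (autFun a) := IsMap.of_mem_autGroup hTS ha
  refine alperin_induction hT hEs
    (fun P f => IsMap E (img P (autFun a)) (autFun a ∘ f ∘ autFun a⁻¹)) ?_ ?_ ?_ hf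
  · intro R hRa _ _ _ α hα P hP
    have hRT : R ≤ T := hRa.1
    have hRS : R ≤ S := hRT.trans hTS
    have hfR : Finite R := Helper88.finite_of_le hRS
    have haR : IsMap F R (autFun a) := ham.restrict hRT
    have hR'T : img R (autFun a) ≤ T := by
      intro y hy
      obtain ⟨x, hx, rfl⟩ := haR.mem_img.mp hy
      exact autFun_mem a (hRT hx)
    suffices h : IsMap E (img R (autFun a)) (autFun a ∘ autFun α ∘ autFun a⁻¹) from
      h.restrict (haR.img_restrict_le hP)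
    obtain ⟨P₀, hP₀⟩ := hRa.2
    obtain ⟨σ, hσ, β, hβ, hαeq⟩ := Cfsg.Agent.Helper85.exists_sylow_mul_pResidual P₀ ⟨α, hα⟩
    have hαeq' : α = (σ : MulAut R) * (β : MulAut R) := congrArg Subtype.val hαeq
    rw [hP₀, Subgroup.mem_subgroupOf] at hσ
    obtain ⟨t, ht, htc⟩ := (mem_autInducedBy_iff T R _).1 hσ
    have hle : E.autGroup R ≤ F.autGroup R := by
      intro γ hγ
      exact (mem_autGroup_iff F hRS γ).2
        (Cfsg.Agent.Helper85.isMap_of_subsystem hEi.1 ((mem_autGroup_iff E hRT γ).1 hγ))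
    obtain ⟨Φ, hΦ⟩ := Cfsg.Agent.Helper85.exists_autHom_of_isMap F haR
    have hβ' : (Φ.comp (Subgroup.inclusion hle)) β ∈ pResidual p (F.autGroup (img R (autFun a))) :=
      Cfsg.Agent.Helper86.map_pResidual_mem' p (Φ.comp (Subgroup.inclusion hle)) hβ
    have hβE : (((Φ.comp (Subgroup.inclusion hle)) β : F.autGroup (img R (autFun a))) :
        MulAut (img R (autFun a))) ∈ E.autGroup (img R (autFun a)) :=
      hEi.2.2 _ hR'T ⟨_, hβ', rfl⟩
    have hβm := IsMap.of_mem_autGroup hR'T hβE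
    have hat : autFun a t ∈ T := autFun_mem a ht
    have hcm : IsMap E (img R (autFun a)) (fun y => autFun a t * y * (autFun a t)⁻¹) :=
      isMap_conj E hR'T hat
    refine (hβm.comp hcm (fun y hy => autFun_mem _ hy)).congr (fun y hy => ?_)
    obtain ⟨x, hx, rfl⟩ := haR.mem_img.mp hy
    have hβx : autFun (β : MulAut R) x ∈ R := autFun_mem _ hx
    have h1 : autFun (σ : MulAut R) (autFun (β : MulAut R) x) = t * autFun (β : MulAut R) x * t⁻¹ := by
      rw [autFun_apply' _ hβx]; exact htc _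
    have h2 := hΦ (Subgroup.inclusion hle β) x hx
    show autFun a (autFun α (autFun a⁻¹ (autFun a x))) =
      autFun a t * autFun (((Φ.comp (Subgroup.inclusion hle)) β : F.autGroup (img R (autFun a))) :
        MulAut (img R (autFun a))) (autFun a x) * (autFun a t)⁻¹
    rw [autFun_inv_apply a (hRT hx), hαeq', autFun_mul _ _ hx, h1, ham.map_conj ht (hRT hβx)]
    congr 2
    exact h2.symm
  · intro P Q f g hf hg hCf hCg hPQ
    have hPT : P ≤ T := hf.le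
    have hQT : Q ≤ T := hg.le
    have haP : IsMap F P (autFun a) := ham.restrict hPT
    have haQ : IsMap F Q (autFun a) := ham.restrict hQT
    refine (hCf.comp hCg (fun y hy => ?_)).congr (fun y hy => ?_)
    · obtain ⟨x, hx, rfl⟩ := haP.mem_img.mp hy
      show autFun a (f (autFun a⁻¹ (autFun a x))) ∈ img Q (autFun a)
      rw [autFun_inv_apply a (hPT hx)]
      exact haQ.apply_mem_img (hPQ x hx)
    · obtain ⟨x, hx, rfl⟩ := haP.mem_img.mp hy
      show autFun a (g (f (autFun a⁻¹ (autFun a x)))) =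
        autFun a (g (autFun a⁻¹ (autFun a (f (autFun a⁻¹ (autFun a x))))))
      rw [autFun_inv_apply a (hPT hx), autFun_inv_apply a (hf.mem hx)]
  · intro P f g hf hCf hfg
    have hPT : P ≤ T := hf.le
    have haP : IsMap F P (autFun a) := ham.restrict hPT
    refine hCf.congr (fun y hy => ?_)
    obtain ⟨x, hx, rfl⟩ := haP.mem_img.mp hy
    show autFun a (g (autFun a⁻¹ (autFun a x))) = autFun a (f (autFun a⁻¹ (autFun a x)))
    rw [autFun_inv_apply a (hPT hx), hfg x hx]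

/-- The Frattini condition: every map of `F` is, on the part of its source inside `T`, a map of `E` followed
by conjugation by an element of `S`. -/
theorem frattini_aux [Finite S] {p : ℕ} [Fact p.Prime] (hS : IsPGroup p S) (F : FusionSystem S)
    (hF : F.IsSaturated p) {T : Subgroup Ω} (hTS : T ≤ S) (hTn : ∀ s ∈ S, ∀ x ∈ T, s * x * s⁻¹ ∈ T)
    (hT : F.hyperfocalSubgroup p ≤ T) (E : FusionSystem T) (hEs : E.IsSaturated p)
    (hEi : E.HasPPowerIndexIn F p) {P : Subgroup Ω} {f : Ω → Ω} (hf : IsMap F P f) :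
    ∃ s ∈ S, ∃ f₀, IsMap E (P ⊓ T) f₀ ∧ ∀ x ∈ P ⊓ T, f x = s * f₀ x * s⁻¹ := by
  have hfT : Finite T := Helper88.finite_of_le hTS
  have hsc : ∀ {P : Subgroup Ω} {f : Ω → Ω}, IsMap F P f → ∀ x ∈ P, x ∈ T → f x ∈ T :=
    fun hf => Cfsg.Agent.Helper85.mapsTo_of_hyperfocal_le hS hF hTn hT hf
  refine alperin_induction hS hF
    (fun P f => ∃ s ∈ S, ∃ f₀, IsMap E (P ⊓ T) f₀ ∧ ∀ x ∈ P ⊓ T, f x = s * f₀ x * s⁻¹) ?_ ?_ ?_ hf
  · intro R hRa _ _ _ α hα P hP
    have hRS : R ≤ S := hRa.1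
    have hfR : Finite R := Helper88.finite_of_le hRS
    obtain ⟨P₀, hP₀⟩ := hRa.2
    obtain ⟨σ, hσ, β, hβ, hαeq⟩ := Cfsg.Agent.Helper85.exists_sylow_mul_pResidual P₀ ⟨α, hα⟩
    have hαeq' : α = (σ : MulAut R) * (β : MulAut R) := congrArg Subtype.val hαeq
    rw [hP₀, Subgroup.mem_subgroupOf] at hσ
    obtain ⟨s, hs, hsc'⟩ := (mem_autInducedBy_iff S R _).1 hσ
    have hinv : ∀ γ ∈ F.autGroup R, ∀ x ∈ R ⊓ T, autFun γ x ∈ R ⊓ T := by
      intro γ hγ x hx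
      exact ⟨autFun_mem γ hx.1, hsc (IsMap.of_mem_autGroup hRS hγ) x hx.1 hx.2⟩
    obtain ⟨Ψ, hΨ⟩ := Cfsg.Agent.Helper85.exists_restrictHom (F.autGroup R) inf_le_left hinv
    have hΨmem : ∀ γ : F.autGroup R, Ψ γ ∈ F.autGroup (R ⊓ T) := by
      intro γ
      rw [mem_autGroup_iff F (inf_le_left.trans hRS)]
      exact ((IsMap.of_mem_autGroup hRS γ.2).restrict inf_le_left).congr (fun x hx => hΨ γ x hx)
    have hβ' : (Ψ.codRestrict _ hΨmem) β ∈ pResidual p (F.autGroup (R ⊓ T)) :=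
      Cfsg.Agent.Helper86.map_pResidual_mem' p _ hβ
    have hβE : Ψ β ∈ E.autGroup (R ⊓ T) := hEi.2.2 _ inf_le_right ⟨_, hβ', rfl⟩
    have hβm : IsMap E (R ⊓ T) (autFun (Ψ β)) := IsMap.of_mem_autGroup inf_le_right hβE
    refine ⟨s, hs, autFun (Ψ β), hβm.restrict (inf_le_inf_right T hP), fun x hx => ?_⟩
    have hxR : x ∈ R := hP hx.1
    have hxRT : x ∈ R ⊓ T := ⟨hxR, hx.2⟩
    rw [hΨ β x hxRT, hαeq', autFun_mul _ _ hxR, autFun_apply' _ (autFun_mem _ hxR)]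
    exact hsc' _
  · rintro P Q f g hf hg ⟨s, hs, f₀, hf₀, hfs⟩ ⟨t, ht, g₀, hg₀, hgt⟩ hPQ
    have hsN : s⁻¹ ∈ Subgroup.normalizer (T : Set Ω) :=
      Cfsg.Agent.Helper85.mem_normalizer_of_conj_mem (fun x hx => hTn s⁻¹ (S.inv_mem hs) x hx)
    have ha : Cfsg.Agent.Helper84.conjAut T s⁻¹ hsN ∈ F.autGroup T :=
      autInducedBy_le_autGroup F hTS (Cfsg.Agent.Helper84.conjAut_mem_autInducedBy (S.inv_mem hs) hsN)
    have hconj := invariant_aux hS F hTS E hEs hEi ha hg₀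
    have haT : ∀ y ∈ T, autFun (Cfsg.Agent.Helper84.conjAut T s⁻¹ hsN) y = s⁻¹ * y * s := by
      intro y hy
      rw [autFun_apply' _ hy, Cfsg.Agent.Helper84.conjAut_apply, inv_inv]
    have haiT : ∀ y ∈ T, autFun (Cfsg.Agent.Helper84.conjAut T s⁻¹ hsN)⁻¹ y = s * y * s⁻¹ := by
      intro y hy
      have h1 : s * y * s⁻¹ ∈ T := hTn s hs y hy
      have h2 : autFun (Cfsg.Agent.Helper84.conjAut T s⁻¹ hsN) (s * y * s⁻¹) = y := by
        rw [haT _ h1]; group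
      calc autFun (Cfsg.Agent.Helper84.conjAut T s⁻¹ hsN)⁻¹ y
          = autFun (Cfsg.Agent.Helper84.conjAut T s⁻¹ hsN)⁻¹
              (autFun (Cfsg.Agent.Helper84.conjAut T s⁻¹ hsN) (s * y * s⁻¹)) := by rw [h2]
        _ = s * y * s⁻¹ := autFun_inv_apply _ h1
    have hfxQ : ∀ x ∈ P ⊓ T, f x ∈ Q ⊓ T := fun x hx => ⟨hPQ x hx.1, hsc hf x hx.1 hx.2⟩
    have hmem : ∀ x ∈ P ⊓ T, f₀ x ∈ img (Q ⊓ T) (autFun (Cfsg.Agent.Helper84.conjAut T s⁻¹ hsN)) := by
      intro x hx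
      have hfx := hfxQ x hx
      have h1 : autFun (Cfsg.Agent.Helper84.conjAut T s⁻¹ hsN) (f x) = f₀ x := by
        rw [haT _ hfx.2, hfs x hx]; group
      rw [← h1]
      exact ((IsMap.of_mem_autGroup hTS ha).restrict inf_le_right).apply_mem_img hfx
    refine ⟨t * s, S.mul_mem ht hs, _, hf₀.comp hconj hmem, fun x hx => ?_⟩
    have hf₀T : f₀ x ∈ T := hf₀.mem hx
    have hfx := hfxQ x hx
    have e1 : autFun (Cfsg.Agent.Helper84.conjAut T s⁻¹ hsN)⁻¹ (f₀ x) = f x := by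
      rw [haiT _ hf₀T, hfs x hx]
    have hg₀T : g₀ (f x) ∈ T := hg₀.mem hfx
    show g (f x) = t * s * (autFun (Cfsg.Agent.Helper84.conjAut T s⁻¹ hsN)
      (g₀ (autFun (Cfsg.Agent.Helper84.conjAut T s⁻¹ hsN)⁻¹ (f₀ x)))) * (t * s)⁻¹
    rw [e1, haT _ hg₀T, hgt _ hfx]; group
  · rintro P f g hf ⟨s, hs, f₀, hf₀, hfs⟩ hfg
    exact ⟨s, hs, f₀, hf₀, fun x hx => (hfg x hx.1).trans (hfs x hx)⟩

/-- The extension condition. -/
theorem extension_aux [Finite S] {p : ℕ} [Fact p.Prime] (hS : IsPGroup p S) (F : FusionSystem S)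
    (hF : F.IsSaturated p) {T : Subgroup Ω} (hTS : T ≤ S)
    (hsc : ∀ {P : Subgroup Ω} {f : Ω → Ω}, IsMap F P f → ∀ x ∈ P, x ∈ T → f x ∈ T)
    (hT : F.hyperfocalSubgroup p ≤ T) (E : FusionSystem T) (hEs : E.IsSaturated p)
    (hEF : E.IsSubsystemOf F) {α : MulAut T} (hα : α ∈ E.autGroup T) :
    ∃ β ∈ F.autGroup (T ⊔ centralizerIn S T),
      (∀ x ∈ T, autFun β x = autFun α x) ∧
      ∀ c ∈ centralizerIn S T, c⁻¹ * autFun β c ∈ T ⊓ Subgroup.centralizer (T : Set Ω) := by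
  classical
  have hfT : Finite T := Helper88.finite_of_le hTS
  have hCS : centralizerIn S T ≤ S := inf_le_left
  have hTC : T ⊔ centralizerIn S T ≤ S := sup_le hTS hCS
  have hfTC : Finite ↥(T ⊔ centralizerIn S T) := Helper88.finite_of_le hTC
  -- `T` is receptive in `F`
  have hTr : F.IsReceptive T := by
    obtain ⟨Q, hQ, -, hQr⟩ := hF T hTS
    obtain ⟨f, hf, rfl⟩ := (isConj_iff F).1 hQ
    rwa [hf.img_eq_of_mapsTo (fun x hx => hsc hf x hx hx)] at hQr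
  -- `T` is fully automized in `E`
  have hTa : E.IsFullyAutomized p T := by
    obtain ⟨Q, hQ, hQa, -⟩ := hEs T le_rfl
    obtain ⟨f, hf, rfl⟩ := (isConj_iff E).1 hQ
    rwa [hf.img_eq_of_mapsTo (fun x hx => hf.mem hx)] at hQa
  have hαF : IsMap F T (autFun α) :=
    Cfsg.Agent.Helper85.isMap_of_subsystem hEF (IsMap.of_mem_autGroup le_rfl hα)
  -- extension to `T C_S(T)`
  obtain ⟨f', hf', hf'T⟩ : ∃ f', IsMap F (centralizerIn S T ⊔ T) f' ∧ ∀ x ∈ T, f' x = autFun α x := by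
    refine receptive_extend hTr hαF (img_autFun α) (fun g hg => ?_)
    have hgS : g ∈ S := hg.1
    have hgc : ∀ x ∈ T, g * x * g⁻¹ = x := fun x hx => by
      have := Subgroup.mem_centralizer_iff.1 hg.2 x hx
      rw [← this]; group
    refine ⟨hgS, ?_, 1, S.one_mem, fun x hx => ?_⟩
    · exact Cfsg.Agent.Helper85.mem_normalizer_of_conj_mem (fun x hx => by rw [hgc x hx]; exact hx)
    · rw [hgc x hx]; simp
  rw [sup_comm] at hf'
  have hf'C : ∀ c ∈ centralizerIn S T, f' c ∈ centralizerIn S T := by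
    intro c hc
    have hcTC : c ∈ T ⊔ centralizerIn S T := Subgroup.mem_sup_right hc
    refine Subgroup.mem_inf.2 ⟨hf'.mem hcTC, Subgroup.mem_centralizer_iff.2 (fun y hy => ?_)⟩
    have hx : autFun α⁻¹ y ∈ T := autFun_mem _ hy
    have hy' : f' (autFun α⁻¹ y) = y := by rw [hf'T _ hx, autFun_apply_inv α hy]
    have hcomm : autFun α⁻¹ y * c = c * autFun α⁻¹ y := Subgroup.mem_centralizer_iff.1 hc.2 _ hx
    calc y * f' c = f' (autFun α⁻¹ y) * f' c := by rw [hy']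
      _ = f' (autFun α⁻¹ y * c) := (hf'.map_mul (Subgroup.mem_sup_left hx) hcTC).symm
      _ = f' (c * autFun α⁻¹ y) := by rw [hcomm]
      _ = f' c * f' (autFun α⁻¹ y) := hf'.map_mul hcTC (Subgroup.mem_sup_left hx)
      _ = f' c * y := by rw [hy']
  have hf'maps : ∀ x ∈ T ⊔ centralizerIn S T, f' x ∈ T ⊔ centralizerIn S T :=
    hf'.mapsTo_sup (fun x hx => Subgroup.mem_sup_left (by rw [hf'T x hx]; exact autFun_mem α hx))
      (fun c hc => Subgroup.mem_sup_right (hf'C c hc))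
  obtain ⟨β₀, hβ₀, hβ₀f⟩ := hf'.exists_aut (hf'.img_eq_of_mapsTo hf'maps)
  have hβ₀T : ∀ x ∈ T, autFun β₀ x = autFun α x :=
    fun x hx => (hβ₀f x (Subgroup.mem_sup_left hx)).trans (hf'T x hx)
  have hβ₀C : ∀ c ∈ centralizerIn S T, autFun β₀ c ∈ centralizerIn S T := fun c hc => by
    rw [hβ₀f c (Subgroup.mem_sup_right hc)]; exact hf'C c hc
  have hpowT : ∀ j : ℕ, ∀ x ∈ T, autFun (β₀ ^ j) x = autFun (α ^ j) x := by
    intro j
    induction j with
    | zero => intro x hx; rw [pow_zero, pow_zero, autFun_one (Subgroup.mem_sup_left hx), autFun_one hx]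
    | succ j ih =>
      intro x hx
      rw [pow_succ', pow_succ', autFun_mul _ _ (Subgroup.mem_sup_left hx), autFun_mul _ _ hx, ih x hx,
        hβ₀T _ (autFun_mem _ hx)]
  have hpowC : ∀ j : ℕ, ∀ c ∈ centralizerIn S T, autFun (β₀ ^ j) c ∈ centralizerIn S T := by
    intro j
    induction j with
    | zero => intro c hc; rw [pow_zero, autFun_one (Subgroup.mem_sup_right hc)]; exact hc
    | succ j ih =>
      intro c hc
      rw [pow_succ', autFun_mul _ _ (Subgroup.mem_sup_right hc)]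
      exact hβ₀C _ (ih c hc)
  -- arithmetic: split `β₀` into its `p`-part and `p'`-part
  have hpp : p.Prime := Fact.out
  have hn0 : orderOf β₀ ≠ 0 := (orderOf_pos β₀).ne'
  obtain ⟨k, m, hm, hN⟩ := Nat.exists_eq_pow_mul_and_not_dvd hn0 p hpp.one_lt.ne'
  have hmc : m.Coprime p := ((Nat.Prime.coprime_iff_not_dvd hpp).mpr hm).symm
  have hmpos : 0 < m := by
    rcases Nat.eq_zero_or_pos m with h0 | h0
    · exact absurd (h0 ▸ dvd_zero p) hm
    · exact h0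
  have hv1 : (p ^ k) ^ Nat.totient m ≡ 1 [MOD m] :=
    Nat.ModEq.pow_totient (Nat.Coprime.pow_left k hmc.symm)
  have hδord : (β₀ ^ ((p ^ k) ^ Nat.totient m)) ^ m = 1 := by
    rw [← pow_mul]
    apply (orderOf_dvd_iff_pow_eq_one).1
    rw [hN]
    exact Nat.mul_dvd_mul_right (dvd_pow_self _ (Nat.totient_pos.2 hmpos).ne') m
  have hγpow : β₀ ^ (p ^ k) = β₀ ^ (p ^ k * (p ^ k) ^ Nat.totient m) := by
    apply (pow_eq_pow_iff_modEq).2
    rw [hN]
    have := Nat.ModEq.mul_left' (p ^ k) hv1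
    rw [mul_one] at this
    exact this.symm
  have hαpow : α ^ (p ^ k) = α ^ (p ^ k * (p ^ k) ^ Nat.totient m) := by
    apply autFun_ext
    intro x hx
    rw [← hpowT _ x hx, ← hpowT _ x hx, hγpow]
  have haγ : (α * (α ^ ((p ^ k) ^ Nat.totient m))⁻¹) ^ (p ^ k) = 1 := by
    have hcomm : Commute α ((α ^ ((p ^ k) ^ Nat.totient m))⁻¹) :=
      (Commute.pow_right (Commute.refl α) _).inv_right
    rw [hcomm.mul_pow, inv_pow, ← pow_mul, mul_comm ((p ^ k) ^ Nat.totient m), ← hαpow, mul_inv_cancel]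
  have haγE : α * (α ^ ((p ^ k) ^ Nat.totient m))⁻¹ ∈ E.autGroup T :=
    Subgroup.mul_mem _ hα (Subgroup.inv_mem _ (Subgroup.pow_mem _ hα _))
  obtain ⟨χ, hχ, hχc⟩ := sylow_conj_into p (E.autGroup T) (autInducedBy T T) hTa.2
      (Subgroup.zpowers (α * (α ^ ((p ^ k) ^ Nat.totient m))⁻¹)) (Subgroup.zpowers_le.2 haγE)
      (isPGroup_zpowers_of_pow_eq_one haγ)
  obtain ⟨t, ht, htc⟩ := (mem_autInducedBy_iff T T _).1 (hχc _ (Subgroup.mem_zpowers _))
  have ht'T : autFun χ⁻¹ t ∈ T := autFun_mem _ ht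
  have haγc : ∀ x ∈ T, autFun (α * (α ^ ((p ^ k) ^ Nat.totient m))⁻¹) x =
      autFun χ⁻¹ t * x * (autFun χ⁻¹ t)⁻¹ := by
    intro x hx
    have h1 := htc (χ ⟨x, hx⟩)
    have e1 : (χ * (α * (α ^ ((p ^ k) ^ Nat.totient m))⁻¹) * χ⁻¹) (χ ⟨x, hx⟩) =
        χ ((α * (α ^ ((p ^ k) ^ Nat.totient m))⁻¹) ⟨x, hx⟩) := by
      rw [MulAut.mul_apply, MulAut.mul_apply, MulAut.inv_apply_self]
    rw [e1] at h1
    have hχi : IsMap E T (autFun χ⁻¹) := IsMap.of_mem_autGroup le_rfl (Subgroup.inv_mem _ hχ)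
    have h2 : autFun χ⁻¹ (autFun χ (autFun (α * (α ^ ((p ^ k) ^ Nat.totient m))⁻¹) x)) =
        autFun χ⁻¹ (t * autFun χ x * t⁻¹) := by
      congr 1
      rw [autFun_apply' χ (autFun_mem _ hx), autFun_apply' χ hx]
      have e2 : (⟨autFun (α * (α ^ ((p ^ k) ^ Nat.totient m))⁻¹) x, autFun_mem _ hx⟩ : T) =
          (α * (α ^ ((p ^ k) ^ Nat.totient m))⁻¹) ⟨x, hx⟩ := Subtype.ext (autFun_apply' _ hx)
      rw [e2]
      exact h1
    rw [autFun_inv_apply χ (autFun_mem _ hx), hχi.map_conj ht (autFun_mem χ hx),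
      autFun_inv_apply χ hx] at h2
    exact h2
  have hδ : β₀ ^ ((p ^ k) ^ Nat.totient m) ∈ F.autGroup (T ⊔ centralizerIn S T) :=
    Subgroup.pow_mem _ hβ₀ _
  have hδres : (⟨β₀ ^ ((p ^ k) ^ Nat.totient m), hδ⟩ : F.autGroup (T ⊔ centralizerIn S T)) ∈
      pResidual p (F.autGroup (T ⊔ centralizerIn S T)) := by
    apply Subgroup.subset_closure
    show Nat.Coprime (orderOf (⟨β₀ ^ ((p ^ k) ^ Nat.totient m), hδ⟩ :
      F.autGroup (T ⊔ centralizerIn S T))) p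
    have hdvd : orderOf (⟨β₀ ^ ((p ^ k) ^ Nat.totient m), hδ⟩ :
        F.autGroup (T ⊔ centralizerIn S T)) ∣ m := by
      rw [Subgroup.orderOf_mk]
      exact orderOf_dvd_of_pow_eq_one hδord
    exact Nat.Coprime.coprime_dvd_left hdvd hmc
  have hz : ∀ c ∈ centralizerIn S T, c⁻¹ * autFun (β₀ ^ ((p ^ k) ^ Nat.totient m)) c ∈
      T ⊓ Subgroup.centralizer (T : Set Ω) := by
    intro c hc
    have hcTC : c ∈ T ⊔ centralizerIn S T := Subgroup.mem_sup_right hc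
    refine Subgroup.mem_inf.2 ⟨hT (Subgroup.subset_closure
      ⟨T ⊔ centralizerIn S T, ⟨β₀ ^ ((p ^ k) ^ Nat.totient m), hδ⟩, ⟨c, hcTC⟩, hTC, hδres, ?_⟩), ?_⟩
    · rw [autFun_apply' _ hcTC]
    · exact Subgroup.mul_mem _ (Subgroup.inv_mem _ hc.2) (hpowC _ c hc).2
  have ht'N : autFun χ⁻¹ t ∈ Subgroup.normalizer ((T ⊔ centralizerIn S T : Subgroup Ω) : Set Ω) :=
    Subgroup.le_normalizer (Subgroup.mem_sup_left ht'T)
  refine ⟨Cfsg.Agent.Helper84.conjAut (T ⊔ centralizerIn S T) (autFun χ⁻¹ t) ht'N *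
      β₀ ^ ((p ^ k) ^ Nat.totient m),
    Subgroup.mul_mem _ (autInducedBy_le_autGroup F hTC
      (Cfsg.Agent.Helper84.conjAut_mem_autInducedBy (hTS ht'T) ht'N)) hδ, ?_, ?_⟩
  · intro x hx
    have hxTC : x ∈ T ⊔ centralizerIn S T := Subgroup.mem_sup_left hx
    have h1 : autFun (α ^ ((p ^ k) ^ Nat.totient m)) x ∈ T := autFun_mem _ hx
    rw [autFun_mul _ _ hxTC, hpowT _ x hx, autFun_apply' _ (Subgroup.mem_sup_left h1)]
    show autFun χ⁻¹ t * autFun (α ^ ((p ^ k) ^ Nat.totient m)) x * (autFun χ⁻¹ t)⁻¹ = autFun α x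
    rw [← haγc _ h1, ← autFun_mul _ _ hx]
    congr 1
    group
  · intro c hc
    have hcTC : c ∈ T ⊔ centralizerIn S T := Subgroup.mem_sup_right hc
    have hδc : autFun (β₀ ^ ((p ^ k) ^ Nat.totient m)) c ∈ T ⊔ centralizerIn S T := autFun_mem _ hcTC
    rw [autFun_mul _ _ hcTC, autFun_apply' _ hδc]
    show c⁻¹ * (autFun χ⁻¹ t * autFun (β₀ ^ ((p ^ k) ^ Nat.totient m)) c * (autFun χ⁻¹ t)⁻¹) ∈ _
    have hzc := hz c hc
    have e1 : autFun χ⁻¹ t * c = c * autFun χ⁻¹ t := Subgroup.mem_centralizer_iff.1 hc.2 _ ht'T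
    have e2 : autFun χ⁻¹ t * (c⁻¹ * autFun (β₀ ^ ((p ^ k) ^ Nat.totient m)) c) =
        (c⁻¹ * autFun (β₀ ^ ((p ^ k) ^ Nat.totient m)) c) * autFun χ⁻¹ t :=
      Subgroup.mem_centralizer_iff.1 (Subgroup.mem_inf.1 hzc).2 _ ht'T
    have e3 : c⁻¹ * (autFun χ⁻¹ t * autFun (β₀ ^ ((p ^ k) ^ Nat.totient m)) c * (autFun χ⁻¹ t)⁻¹) =
        c⁻¹ * autFun (β₀ ^ ((p ^ k) ^ Nat.totient m)) c := by
      calc c⁻¹ * (autFun χ⁻¹ t * autFun (β₀ ^ ((p ^ k) ^ Nat.totient m)) c * (autFun χ⁻¹ t)⁻¹)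
          = c⁻¹ * ((autFun χ⁻¹ t * c) * (c⁻¹ * autFun (β₀ ^ ((p ^ k) ^ Nat.totient m)) c) *
              (autFun χ⁻¹ t)⁻¹) := by group
        _ = c⁻¹ * ((c * autFun χ⁻¹ t) * (c⁻¹ * autFun (β₀ ^ ((p ^ k) ^ Nat.totient m)) c) *
              (autFun χ⁻¹ t)⁻¹) := by rw [e1]
        _ = (autFun χ⁻¹ t * (c⁻¹ * autFun (β₀ ^ ((p ^ k) ^ Nat.totient m)) c)) *
              (autFun χ⁻¹ t)⁻¹ := by group
        _ = c⁻¹ * autFun (β₀ ^ ((p ^ k) ^ Nat.totient m)) c := by rw [e2]; group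
    rw [e3]; exact hzc

/-- Let F be a saturated fusion system over a finite p-group S and T a subgroup of S containing the hyperfocal subgroup of F and normal in S. Then every saturated subsystem of F over T of p-power index is a normal subsystem of F. -/
theorem result {Ω : Type*} [Group Ω] {S : Subgroup Ω} [Finite S] (p : ℕ) [Fact p.Prime] (hS : IsPGroup p S) (F : Cfsg.FusionSystem S) (hF : F.IsSaturated p) (T : Subgroup Ω) (hTS : T ≤ S) (hTn : (T.subgroupOf S).Normal) (hT : F.hyperfocalSubgroup p ≤ T) (E : Cfsg.FusionSystem T) (hEs : E.IsSaturated p) (hEi : E.HasPPowerIndexIn F p) : E.IsNormalIn F p := by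
  have hTn' : ∀ s ∈ S, ∀ x ∈ T, s * x * s⁻¹ ∈ T := by
    intro s hs x hx
    have h1 := hTn.conj_mem ⟨x, hTS hx⟩ (Subgroup.mem_subgroupOf.2 hx) ⟨s, hs⟩
    exact Subgroup.mem_subgroupOf.1 h1
  have hfT : Finite T := Helper88.finite_of_le hTS
  have hsc : ∀ {P : Subgroup Ω} {f : Ω → Ω}, IsMap F P f → ∀ x ∈ P, x ∈ T → f x ∈ T :=
    fun hf => Cfsg.Agent.Helper85.mapsTo_of_hyperfocal_le hS hF hTn' hT hf
  have hSC : F.StronglyClosed T := ⟨hTS, fun R hR φ hφ x => by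
    have := hsc (isMap_extHom hφ) x x.2 (hR x.2)
    rwa [extHom_apply] at this⟩
  refine ⟨⟨hEs, hF, hEi.1, hSC, ?_, ?_⟩, ?_⟩
  · -- invariance
    intro P hPT φ hφ α hα
    have ham : IsMap F T (autFun α) := IsMap.of_mem_autGroup hTS hα
    have h1 := invariant_aux hS F hTS E hEs hEi hα (isMap_extHom hφ)
    have himg : (P.subgroupOf T).map (T.subtype.comp α.toMonoidHom) = img P (autFun α) := by
      ext y
      constructor
      · rintro ⟨x, hx, rfl⟩
        exact Subgroup.subset_closure ⟨x, Subgroup.mem_subgroupOf.1 hx, autFun_apply α x⟩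
      · intro hy
        obtain ⟨x, hx, rfl⟩ := (ham.restrict hPT).mem_img.mp hy
        exact ⟨⟨x, hPT hx⟩, Subgroup.mem_subgroupOf.2 hx, (autFun_apply' α (hPT hx)).symm⟩
    have key : ∀ P' : Subgroup Ω, P' = img P (autFun α) → ∃ χ ∈ E.Hom P',
        ∀ (x : P) (hφx : φ x ∈ T) (hαx : ((α ⟨x, hPT x.2⟩ : T) : Ω) ∈ P'),
          χ ⟨(α ⟨x, hPT x.2⟩ : T), hαx⟩ = ((α ⟨φ x, hφx⟩ : T) : Ω) := by
      rintro P' rfl
      obtain ⟨χ, hχ, hχf⟩ := h1
      refine ⟨χ, hχ, fun x hφx hαx => ?_⟩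
      rw [hχf]
      show autFun α (extHom φ (autFun α⁻¹ ((α ⟨x, hPT x.2⟩ : T) : Ω))) = _
      rw [← autFun_apply' α (hPT x.2), autFun_inv_apply α (hPT x.2), extHom_apply,
        autFun_apply' α hφx]
    exact key _ himg
  · -- Frattini condition
    intro P hPT φ hφ
    obtain ⟨s, hs, f₀, hf₀, hfs⟩ := frattini_aux hS F hF hTS hTn' hT E hEs hEi (isMap_extHom hφ)
    have hPe : P ⊓ T = P := inf_eq_left.2 hPT
    rw [hPe] at hf₀
    obtain ⟨φ₀, hφ₀, hφ₀f⟩ := hf₀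
    have hsN : s ∈ Subgroup.normalizer (T : Set Ω) :=
      Cfsg.Agent.Helper85.mem_normalizer_of_conj_mem (fun x hx => hTn' s hs x hx)
    refine ⟨Cfsg.Agent.Helper84.conjAut T s hsN, autInducedBy_le_autGroup F hTS
      (Cfsg.Agent.Helper84.conjAut_mem_autInducedBy hs hsN), φ₀, hφ₀, fun x hx => ?_⟩
    have h1 := hfs x ⟨x.2, hPT x.2⟩
    rw [extHom_apply] at h1
    rw [h1, ← hφ₀f x]
    rfl
  · -- extension condition
    intro α hα
    obtain ⟨β, hβ, hβT, hβC⟩ := extension_aux hS F hF hTS hsc hT E hEs hEi.1 hα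
    refine ⟨β, hβ, fun x => ?_, fun c hc => ?_⟩
    · have h1 := hβT x x.2
      rw [autFun_apply' β (Subgroup.mem_sup_left x.2), autFun_apply] at h1
      exact h1
    · have h1 := hβC c hc
      rw [autFun_apply] at h1
      exact h1

end Cfsg.Agent.S5120
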