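import Mathlib
import Cfsg.Statements.S0127
import Cfsg.Agent.S0126
import Cfsg.Agent.S3771
import Cfsg.Agent.S3918

set_option autoImplicit false
open Cfsg

namespace Cfsg.Agent.S0127

open Cfsg.Agent.S0126

/-- For odd p, in a non-cyclic p-group with a cyclic subgroup of index p, the elements of order dividing p generate an elementary abelian subgroup of order p^2. -/
theorem result {R : Type*} [Group R] [Finite R] {p : ℕ} [Fact p.Prime] (hp : p ≠ 2) (hR : IsPGroup p R) (hnc : ¬ IsCyclic R) (C : Subgroup R) (hC : IsCyclic C) (hCi : C.index = p) : Cfsg.IsElementaryAbelian p (Subgroup.closure {x : R | x ^ p = 1}) ∧ Nat.card (Subgroup.closure {x : R | x ^ p = 1}) = p ^ 2 := by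
  have hpp : p.Prime := Fact.out
  obtain ⟨A, hAn, ⟨hAc, hAp⟩, hAcard⟩ := Cfsg.Agent.S0126.result hp hR hnc
  obtain ⟨z, hzA, hzc, hzo, hPA, -⟩ := Cfsg.Agent.S3918.normal_p_sq_struct hR A hAcard
  obtain ⟨Z, hZdef⟩ : ∃ Z : Subgroup R, Z = Subgroup.zpowers z := ⟨_, rfl⟩
  rw [← hZdef] at hPA
  have hZc : Z ≤ Subgroup.center R := by rw [hZdef]; exact Subgroup.zpowers_le.mpr hzc
  have hZA : Z ≤ A := by rw [hZdef]; exact Subgroup.zpowers_le.mpr hzA
  have hZn : Z.Normal := by
    constructor
    intro x hx g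
    have := Subgroup.mem_center_iff.mp (hZc hx) g
    rw [this]; simpa using hx
  have hmk1 : ∀ x : R, (QuotientGroup.mk' Z x = 1) ↔ x ∈ Z := fun x => by
    rw [QuotientGroup.mk'_apply, QuotientGroup.eq_one_iff]
  have hcentral : ∀ a ∈ A, ∀ q : R ⧸ Z, q * QuotientGroup.mk' Z a = QuotientGroup.mk' Z a * q := by
    intro a ha q
    obtain ⟨g, rfl⟩ := QuotientGroup.mk'_surjective Z q
    have h1 := hPA a ha g
    rw [← hmk1] at h1
    simp only [map_mul, map_inv] at h1
    calc QuotientGroup.mk' Z g * QuotientGroup.mk' Z a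
        = (QuotientGroup.mk' Z g * QuotientGroup.mk' Z a * (QuotientGroup.mk' Z g)⁻¹ *
            (QuotientGroup.mk' Z a)⁻¹) * QuotientGroup.mk' Z a * QuotientGroup.mk' Z g := by group
      _ = QuotientGroup.mk' Z a * QuotientGroup.mk' Z g := by rw [h1, one_mul]
  have key : ∀ x : R, x ^ p = 1 → x ∈ A := by
    intro x hx
    by_contra hxA
    obtain ⟨D, hDc, hD⟩ := Cfsg.Agent.S3771.exists_comm_subgroup
      ((A.map (QuotientGroup.mk' Z) : Set (R ⧸ Z)) ∪ {QuotientGroup.mk' Z x}) (by
        rintro a' (ha' | ha') b' (hb' | hb')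
        · obtain ⟨b, hb, rfl⟩ := hb'
          exact hcentral b hb a'
        · obtain ⟨a, ha, rfl⟩ := ha'
          rw [Set.mem_singleton_iff] at hb'; rw [hb']
          exact (hcentral a ha _).symm
        · obtain ⟨b, hb, rfl⟩ := hb'
          exact hcentral b hb a'
        · rw [Set.mem_singleton_iff] at ha' hb'; rw [ha', hb'])
    let Om : Subgroup R :=
      { carrier := {u | QuotientGroup.mk' Z u ∈ D ∧ u ^ p = 1}
        mul_mem' := by
          rintro u v ⟨huD, hu⟩ ⟨hvD, hv⟩
          refine ⟨by rw [map_mul]; exact D.mul_mem huD hvD, ?_⟩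
          obtain ⟨c, hc⟩ : ∃ c, c = v * u * v⁻¹ * u⁻¹ := ⟨_, rfl⟩
          have hcZ : c ∈ Z := by
            rw [← hmk1, hc, map_mul, map_mul, map_mul, map_inv, map_inv]
            have h1 := congrArg Subtype.val (hDc.is_comm.comm ⟨_, hvD⟩ ⟨_, huD⟩)
            simp only [Subgroup.coe_mul] at h1
            rw [h1]; group
          have hcc := Subgroup.mem_center_iff.mp (hZc hcZ)
          have hvu : v * u = c * u * v := by rw [hc]; group
          rw [mul_pow_class_two u v c (hcc u).symm (hcc v).symm hvu p]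
          obtain ⟨k, hk⟩ := p_dvd_sum_range (p := p) hp
          rw [hk, pow_mul, hAp c (hZA hcZ), one_pow, mul_one, hu, hv, one_mul]
        one_mem' := ⟨by rw [map_one]; exact D.one_mem, one_pow p⟩
        inv_mem' := by
          rintro u ⟨huD, hu⟩
          exact ⟨by rw [map_inv]; exact D.inv_mem huD, by rw [inv_pow, hu, inv_one]⟩ }
    have hOm : ∀ u, u ∈ Om ↔ QuotientGroup.mk' Z u ∈ D ∧ u ^ p = 1 := fun u => Iff.rfl
    have hAOm : A ≤ Om := by
      intro a ha
      rw [hOm]
      exact ⟨hD (Or.inl ⟨a, ha, rfl⟩), hAp a ha⟩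
    have hxOm : x ∈ Om := by
      rw [hOm]
      exact ⟨hD (Or.inr rfl), hx⟩
    -- counting
    have := hC
    have hcyc : IsCyclic ↥(C ⊓ Om) :=
      isCyclic_of_injective (Subgroup.inclusion (inf_le_left : C ⊓ Om ≤ C))
        (Subgroup.inclusion_injective _)
    have hcard1 : Nat.card ↥(C ⊓ Om) ≤ p := by
      obtain ⟨g, hg⟩ := hcyc.exists_generator
      have h1 : orderOf g = Nat.card ↥(C ⊓ Om) := orderOf_eq_card_of_forall_mem_zpowers hg
      have hgOm : (g : R) ∈ Om := (Subgroup.mem_inf.mp g.2).2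
      have h2 : g ^ p = 1 := Subtype.ext (by simpa using ((hOm _).mp hgOm).2)
      have h3 := orderOf_dvd_of_pow_eq_one h2
      rw [h1] at h3
      exact Nat.le_of_dvd hpp.pos h3
    have h1 := Subgroup.index_inf_le (H := C) (K := Om)
    have h2 := Subgroup.card_mul_index (C ⊓ Om)
    have h3 := Subgroup.card_mul_index Om
    have h4 : 0 < Om.index := Nat.pos_of_ne_zero Subgroup.index_ne_zero_of_finite
    rw [hCi] at h1
    have h5 : Nat.card Om * Om.index ≤ p * p * Om.index := by
      rw [h3, ← h2]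
      calc Nat.card ↥(C ⊓ Om) * (C ⊓ Om).index ≤ p * (p * Om.index) := Nat.mul_le_mul hcard1 h1
        _ = p * p * Om.index := by ring
    have h6 : Nat.card Om ≤ p * p := Nat.le_of_mul_le_mul_right h5 h4
    have h7 : A = Om := Subgroup.eq_of_le_of_card_ge hAOm (by rw [hAcard, pow_two]; exact h6)
    exact hxA (h7 ▸ hxOm)
  have hcl : Subgroup.closure {x : R | x ^ p = 1} = A := by
    apply le_antisymm
    · rw [Subgroup.closure_le]
      intro x hx
      exact key x hx
    · intro a ha
      exact Subgroup.subset_closure (hAp a ha)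
  rw [hcl]
  exact ⟨⟨hAc, hAp⟩, hAcard⟩

end Cfsg.Agent.S0127
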