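import Cfsg.Statements.S0252
import Cfsg.Agent.Helper5.SLCard
import Cfsg.Agent.Helper5.AltEmbed

set_option autoImplicit false
open Cfsg

namespace Cfsg.Agent.S0252

/-- PSL_2(4) is isomorphic to A_5. -/
theorem result {F : Type*} [Field F] [Fintype F] (hF : Fintype.card F = 4) : Nonempty (Matrix.ProjectiveSpecialLinearGroup (Fin 2) F ≃* alternatingGroup (Fin 5)) := by
  classical
  have h2 : (2 : F) = 0 := by
    have h4 : (4 : F) = 0 := by
      have := Nat.cast_card_eq_zero F
      rw [hF] at this
      exact_mod_cast this
    have : (2 : F) * 2 = 0 := by linear_combination h4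
    exact mul_self_eq_zero.1 this
  have hP : Nat.card (Projectivization F (Fin 2 → F)) = 5 := by
    rw [Helper5.card_projLine, hF]
  have : Finite (Projectivization F (Fin 2 → F)) := Nat.finite_of_card_ne_zero (by omega)
  have hcard : 2 * Nat.card (Matrix.ProjectiveSpecialLinearGroup (Fin 2) F) = Nat.factorial 5 := by
    have h := Helper5.card_PSL2_mul (F := F)
    rw [Helper5.center_SL2_eq_bot h2, Subgroup.card_bot, hF] at h
    rw [mul_one] at h
    rw [h]
    decide
  exact Helper5.equiv_alternatingGroup_of_injective _
    Matrix.ProjectiveSpecialLinearGroup.toPermHom_injective 5 hP hcard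

end Cfsg.Agent.S0252
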