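import Cfsg.Statements.S0261
import Cfsg.Agent.S0016
import Cfsg.Agent.Helper73.Taussky
import Cfsg.Agent.Helper5.OrthOdd

set_option autoImplicit false
open Cfsg

namespace Cfsg.Agent.S0261

open Cfsg.Agent.Helper5 Matrix
open scoped Pointwise

theorem sl2_involution {F : Type*} [Field F] (h2 : (2 : F) ≠ 0)
    (t : Matrix.SpecialLinearGroup (Fin 2) F) (ht : t ^ 2 = 1) :
    t = 1 ∨ (t : Matrix (Fin 2) (Fin 2) F) = -1 := by
  have hm : (t : Matrix (Fin 2) (Fin 2) F) * (t : Matrix (Fin 2) (Fin 2) F) = 1 := by
    have := congrArg Subtype.val ht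
    rw [sq] at this
    exact this
  have hdet := t.2
  rw [Matrix.det_fin_two] at hdet
  have e00 := congrFun (congrFun hm 0) 0
  have e01 := congrFun (congrFun hm 0) 1
  have e10 := congrFun (congrFun hm 1) 0
  have e11 := congrFun (congrFun hm 1) 1
  simp only [Matrix.mul_apply, Fin.sum_univ_two, Matrix.one_apply_eq] at e00 e11
  simp only [Matrix.mul_apply, Fin.sum_univ_two, ne_eq, zero_ne_one, one_ne_zero, not_false_eq_true,
    Matrix.one_apply_ne] at e01 e10
  set x := (t : Matrix (Fin 2) (Fin 2) F) 0 0 with hx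
  set y := (t : Matrix (Fin 2) (Fin 2) F) 0 1 with hy
  set z := (t : Matrix (Fin 2) (Fin 2) F) 1 0 with hz
  set w := (t : Matrix (Fin 2) (Fin 2) F) 1 1 with hw
  have hs : x + w ≠ 0 := by
    intro hs
    apply h2
    have hw' : w = -x := by linear_combination hs
    rw [hw'] at hdet
    linear_combination -hdet - e00
  have hy0 : y = 0 := by
    have : y * (x + w) = 0 := by linear_combination e01
    rcases mul_eq_zero.1 this with h | h
    · exact h
    · exact absurd h hs
  have hz0 : z = 0 := by
    have : z * (x + w) = 0 := by linear_combination e10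
    rcases mul_eq_zero.1 this with h | h
    · exact h
    · exact absurd h hs
  have hxw : x = w := by
    have : (x - w) * (x + w) = 0 := by linear_combination e00 - e11
    rcases mul_eq_zero.1 this with h | h
    · linear_combination h
    · exact absurd h hs
  have hx2 : (x - 1) * (x + 1) = 0 := by
    rw [hy0] at e00
    linear_combination e00
  rcases mul_eq_zero.1 hx2 with h | h
  · left
    apply Subtype.ext
    ext i j
    fin_cases i <;> fin_cases j
    · change x = 1
      linear_combination h
    · change y = 0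
      exact hy0
    · change z = 0
      exact hz0
    · change w = 1
      linear_combination h - hxw
  · right
    ext i j
    fin_cases i <;> fin_cases j
    · change x = -1
      linear_combination h
    · change y = -(1 : Matrix (Fin 2) (Fin 2) F) 0 1
      rw [hy0]
      simp
    · change z = -(1 : Matrix (Fin 2) (Fin 2) F) 1 0
      rw [hz0]
      simp
    · change w = -1
      linear_combination h - hxw

/-- For q odd, the Sylow 2-subgroups of SL_2(q) are generalised quaternion. -/
theorem result {F : Type*} [Field F] [Fintype F] (hF : Odd (Fintype.card F)) (P : Sylow 2 (Matrix.SpecialLinearGroup (Fin 2) F)) : ∃ k : ℕ, 1 ≤ k ∧ Nonempty ((P : Subgroup (Matrix.SpecialLinearGroup (Fin 2) F)) ≃* QuaternionGroup (2 ^ k)) := by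
  classical
  have h2 : (2 : F) ≠ 0 := two_ne_zero_of_odd hF
  -- a copy of the quaternion group
  obtain ⟨p, hp⟩ := CharP.exists F
  have : NeZero p := ⟨CharP.char_ne_zero_of_finite F p⟩
  obtain ⟨a', b', hab'⟩ := CharP.sq_add_sq F p (-1)
  set a : F := (a' : F) with ha
  set b : F := (b' : F) with hb
  have hab : a ^ 2 + b ^ 2 = -1 := by
    rw [hab']
    simp
  let I : Matrix.SpecialLinearGroup (Fin 2) F := ⟨!![a, b; b, -a], by
    rw [Matrix.det_fin_two_of]
    linear_combination -hab⟩
  let J : Matrix.SpecialLinearGroup (Fin 2) F := ⟨!![0, -1; 1, 0], by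
    simp [Matrix.det_fin_two_of]⟩
  have hII : ((I * I : Matrix.SpecialLinearGroup (Fin 2) F) : Matrix (Fin 2) (Fin 2) F) = -1 := by
    change !![a, b; b, -a] * !![a, b; b, -a] = (-1 : Matrix (Fin 2) (Fin 2) F)
    ext i j
    fin_cases i <;> fin_cases j <;> simp [Matrix.mul_apply, Fin.sum_univ_two]
    · linear_combination hab
    · ring
    · ring
    · linear_combination hab
  have hJJ : J * J = I ^ 2 := by
    apply Subtype.ext
    rw [sq, hII]
    change !![0, -1; 1, 0] * !![0, -1; 1, 0] = (-1 : Matrix (Fin 2) (Fin 2) F)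
    ext i j
    fin_cases i <;> fin_cases j <;> simp [Matrix.mul_apply, Fin.sum_univ_two]
  have hIJI : I * J * I = J := by
    apply Subtype.ext
    change !![a, b; b, -a] * !![0, -1; 1, 0] * !![a, b; b, -a] = !![0, -1; 1, 0]
    ext i j
    fin_cases i <;> fin_cases j <;> simp [Matrix.mul_apply, Fin.sum_univ_two]
    · ring
    · linear_combination hab
    · linear_combination -hab
    · ring
  have hconj : J * I * J⁻¹ = I⁻¹ := by
    have hJinv : J⁻¹ = I⁻¹ * J⁻¹ * I⁻¹ := by
      conv_lhs => rw [← hIJI]
      group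
    rw [hJinv]
    group
  have hI2 : ¬ I ^ 2 ^ 1 = 1 := by
    intro h
    rw [pow_one, sq] at h
    have h' := congrArg (fun m : Matrix.SpecialLinearGroup (Fin 2) F =>
      (m : Matrix (Fin 2) (Fin 2) F) 0 0) h
    simp only [hII] at h'
    apply h2
    simp at h'
    linear_combination -h'
  have hI4 : I ^ 2 ^ (1 + 1) = 1 := by
    apply Subtype.ext
    have : I ^ 2 ^ (1 + 1) = (I * I) * (I * I) := by
      change I ^ 4 = _
      rw [show (4 : ℕ) = 2 + 2 from rfl, pow_add, sq]
    rw [this, Matrix.SpecialLinearGroup.coe_mul, hII]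
    simp
  have hord : orderOf I = 2 * 2 := by
    have := orderOf_eq_prime_pow hI2 hI4
    rw [this]
    norm_num
  let φ := Cfsg.Agent.Helper73.quaternionHomOf 2 I J hord hJJ hconj
  have hφI : φ (QuaternionGroup.a 1) = I := by
    change I ^ (1 : ZMod (2 * 2)).val = I
    have : (1 : ZMod (2 * 2)).val = 1 := by decide
    rw [this, pow_one]
  have hφJ : φ (QuaternionGroup.xa 0) = J := by
    change J * I ^ (0 : ZMod (2 * 2)).val = J
    have : (0 : ZMod (2 * 2)).val = 0 := by decide
    rw [this, pow_zero, mul_one]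
  have hQ : IsPGroup 2 (QuaternionGroup 2) :=
    IsPGroup.of_card (n := 3) (by rw [Nat.card_eq_fintype_card, QuaternionGroup.card]; norm_num)
  have hR : IsPGroup 2 φ.range := hQ.of_surjective φ.rangeRestrict φ.rangeRestrict_surjective
  obtain ⟨Q, hQle⟩ := hR.exists_le_sylow
  obtain ⟨g, hg⟩ := MulAction.exists_smul_eq (Matrix.SpecialLinearGroup (Fin 2) F) Q P
  have hmem : ∀ x ∈ φ.range, g * x * g⁻¹ ∈ (P : Subgroup (Matrix.SpecialLinearGroup (Fin 2) F)) := by
    intro x hx
    rw [← hg]
    change g * x * g⁻¹ ∈ MulAut.conj g • (Q : Subgroup (Matrix.SpecialLinearGroup (Fin 2) F))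
    have := Subgroup.smul_mem_pointwise_smul x (MulAut.conj g) (Q : Subgroup _) (hQle hx)
    exact this
  have hIJne : I * J ≠ J * I := by
    intro h
    have h' := congrArg (fun m : Matrix.SpecialLinearGroup (Fin 2) F =>
      (m : Matrix (Fin 2) (Fin 2) F)) h
    change !![a, b; b, -a] * !![0, -1; 1, 0] = !![0, -1; 1, 0] * !![a, b; b, -a] at h'
    have e00 := congrFun (congrFun h' 0) 0
    have e01 := congrFun (congrFun h' 0) 1
    simp [Matrix.mul_apply, Fin.sum_univ_two] at e00 e01
    have hb0 : b = 0 := by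
      have : 2 * b = 0 := by linear_combination e00
      rcases mul_eq_zero.1 this with h | h
      · exact absurd h h2
      · exact h
    have ha0 : a = 0 := by
      have : 2 * a = 0 := by linear_combination -e01
      rcases mul_eq_zero.1 this with h | h
      · exact absurd h h2
      · exact h
    rw [ha0, hb0] at hab
    have : (1 : F) = 0 := by linear_combination hab
    exact one_ne_zero this
  -- two non-commuting elements of P
  have hnc : ¬ ∀ u v : (P : Subgroup (Matrix.SpecialLinearGroup (Fin 2) F)), u * v = v * u := by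
    intro hc
    have h := congrArg Subtype.val (hc ⟨g * I * g⁻¹, hmem I ⟨_, hφI⟩⟩ ⟨g * J * g⁻¹, hmem J ⟨_, hφJ⟩⟩)
    change g * I * g⁻¹ * (g * J * g⁻¹) = g * J * g⁻¹ * (g * I * g⁻¹) at h
    apply hIJne
    have h1 : I * J = g⁻¹ * (g * I * g⁻¹ * (g * J * g⁻¹)) * g := by group
    rw [h1, h]
    group
  -- uniqueness of the subgroup of order two
  have hsub : ∀ H : Subgroup (P : Subgroup (Matrix.SpecialLinearGroup (Fin 2) F)),
      Nat.card H = 2 → ∀ x ∈ H, x = 1 ∨
        ((x : Matrix.SpecialLinearGroup (Fin 2) F) : Matrix (Fin 2) (Fin 2) F) = -1 := by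
    intro H hH x hx
    have h1 : (⟨x, hx⟩ : H) ^ Nat.card H = 1 := pow_card_eq_one'
    rw [hH] at h1
    have h3 : (x : Matrix.SpecialLinearGroup (Fin 2) F) ^ 2 = 1 := by
      have := congrArg (fun y : H => ((y : (P : Subgroup (Matrix.SpecialLinearGroup (Fin 2) F))) :
        Matrix.SpecialLinearGroup (Fin 2) F)) h1
      exact this
    rcases sl2_involution h2 _ h3 with h | h
    · left
      exact Subtype.ext h
    · right
      exact h
  have hle : ∀ H K : Subgroup (P : Subgroup (Matrix.SpecialLinearGroup (Fin 2) F)),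
      Nat.card H = 2 → Nat.card K = 2 → H ≤ K := by
    intro H K hH hK x hx
    rcases hsub H hH x hx with h | h
    · rw [h]
      exact one_mem K
    · have hKne : K ≠ ⊥ := by
        intro hb
        rw [hb, Subgroup.card_bot] at hK
        omega
      obtain ⟨y, hy⟩ := (Subgroup.ne_bot_iff_exists_ne_one).1 hKne
      rcases hsub K hK y.1 y.2 with h' | h'
      · exact absurd (Subtype.ext h') hy
      · have : x = y.1 := Subtype.ext (Subtype.ext (h.trans h'.symm))
        rw [this]
        exact y.2
  have huniq : ∀ H K : Subgroup (P : Subgroup (Matrix.SpecialLinearGroup (Fin 2) F)),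
      Nat.card H = 2 → Nat.card K = 2 → H = K :=
    fun H K hH hK => le_antisymm (hle H K hH hK) (hle K H hK hH)
  rcases Cfsg.Agent.S0016.result (G := (P : Subgroup (Matrix.SpecialLinearGroup (Fin 2) F))) 2
    P.isPGroup' huniq with hcyc | ⟨-, n, ⟨e⟩⟩
  · exfalso
    apply hnc
    intro u v
    obtain ⟨c, hc⟩ := hcyc.exists_generator
    obtain ⟨i, rfl⟩ := Subgroup.mem_zpowers_iff.1 (hc u)
    obtain ⟨j, rfl⟩ := Subgroup.mem_zpowers_iff.1 (hc v)
    rw [← _root_.zpow_add, ← _root_.zpow_add, add_comm]
  · refine ⟨n, ?_, ⟨e⟩⟩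
    by_contra hn
    have hn0 : n = 0 := by omega
    subst hn0
    apply hnc
    have hcomm : ∀ s t : QuaternionGroup (2 ^ 0), s * t = t * s :=
      (IsPGroup.isMulCommutative_of_card_eq_prime_sq (p := 2) (by
        rw [Nat.card_eq_fintype_card, QuaternionGroup.card]; norm_num)).is_comm.comm
    intro u v
    apply e.injective
    rw [map_mul, map_mul, hcomm]

end Cfsg.Agent.S0261
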