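import Cfsg.Statements.S0419
import Cfsg.Agent.Helper59.SylowPrime

set_option autoImplicit false
open Cfsg

namespace Cfsg.Agent.S0419

/-- A sharply 5-transitive group of degree 12 is simple of order 95040. -/
theorem result {α : Type*} [Fintype α] [DecidableEq α] (hα : Fintype.card α = 12) (G : Subgroup (Equiv.Perm α)) [MulAction.IsMultiplyPretransitive G α 5] (hsharp : ∀ x : Fin 5 ↪ α, MulAction.stabilizer G x = ⊥) : Cfsg.IsM12 G := by
  classical
  have h5 : MulAction.IsMultiplyPretransitive G α 5 := inferInstance
  have hcardα : Nat.card α = 12 := by rw [Nat.card_eq_fintype_card, hα]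
  obtain ⟨x₀⟩ : Nonempty (Fin 5 ↪ α) :=
    Function.Embedding.nonempty_of_card_le (by rw [hα, Fintype.card_fin]; norm_num)
  have hcard : Nat.card G = 95040 := by
    rw [Cfsg.Agent.Helper59.card_eq_of_regular h5 hsharp x₀, Nat.card_eq_fintype_card,
      Fintype.card_embedding_eq, hα, Fintype.card_fin]
    decide
  have h3 : MulAction.IsMultiplyPretransitive G α 3 :=
    MulAction.isMultiplyPretransitive_of_le (m := 3) (n := 5) (by norm_num)
      (by rw [hcardα]; norm_num)
  have hsimple := Cfsg.Agent.Helper59.simple_of_sylow11 (G := G) (Ω := α) 8640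
    (by rw [hcard]) (by norm_num) (by norm_num) (by rw [hcardα])
    (by intro idx m h1 h2 h3 h4; interval_cases m <;> omega)
    (by
      intro K hKn hK1
      have := Cfsg.Agent.Helper59.dvd_card_normal_of_three_transitive h3 2 3 (by norm_num)
        (by norm_num) (by norm_num) (by rw [hcardα]; norm_num) (by rw [hcardα]; norm_num)
        K hKn hK1
      rw [hcardα] at this
      exact this)
  have : Nontrivial G := Finite.one_lt_card_iff_nontrivial.mp (by rw [hcard]; norm_num)
  refine ⟨?_, hcard⟩
  exact { toNontrivial := inferInstance, eq_bot_or_eq_top_of_normal := fun N hN => hsimple N hN }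

end Cfsg.Agent.S0419
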