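import Cfsg.Statements.S0436

set_option autoImplicit false
open Cfsg

namespace Cfsg.Agent.S0436

theorem inv_of_order_two {G : Type*} [Group G] {a : G} (ha : orderOf a = 2) : a * a = 1 := by
  have := pow_orderOf_eq_one a
  rw [ha, pow_two] at this
  exact this

/-- two members either commute or braid -/
theorem comm_or_braid {G : Type*} [Group G] {E : Set G} (hE : Cfsg.IsThreeTranspositionSet E)
    {a e : G} (ha : a ∈ E) (he : e ∈ E) : Commute e a ∨ e * a * e = a * e * a := by
  have ha2 := inv_of_order_two (hE.1 a ha)
  have he2 := inv_of_order_two (hE.1 e he)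
  have hainv : a⁻¹ = a := inv_eq_of_mul_eq_one_left ha2
  have heinv : e⁻¹ = e := inv_eq_of_mul_eq_one_left he2
  rcases hE.2 e he a ha with h | h
  · left
    have h1 : e * a * (e * a) = 1 := by rw [← pow_two]; exact h
    have h2 : e * a = (e * a)⁻¹ := eq_inv_of_mul_eq_one_left h1
    rw [mul_inv_rev, hainv, heinv] at h2
    exact h2
  · right
    have h1 : e * a * (e * a) * (e * a) = 1 := by rw [← h, pow_succ, pow_two]
    have h2 : e * a * e = (a * (e * a))⁻¹ := by
      apply eq_inv_of_mul_eq_one_left
      rw [← h1]; simp only [mul_assoc]
    rw [h2, mul_inv_rev, mul_inv_rev, hainv, heinv, mul_assoc]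

theorem result {G : Type*} [Group G] {E : Set G} (hE : Cfsg.IsThreeTranspositionSet E) {a b e : G} (ha : a ∈ E) (hb : b ∈ E) (he : e ∈ E) (hab : a ≠ b) (hcomm : Commute a b) : Commute e (a * b) ↔ (Commute e a ∧ Commute e b) := by
  constructor
  · intro h
    have ha2 := inv_of_order_two (hE.1 a ha)
    have hb2 := inv_of_order_two (hE.1 b hb)
    have he2 := inv_of_order_two (hE.1 e he)
    have hainv : a⁻¹ = a := inv_eq_of_mul_eq_one_left ha2
    have hbinv : b⁻¹ = b := inv_eq_of_mul_eq_one_left hb2
    have heinv : e⁻¹ = e := inv_eq_of_mul_eq_one_left he2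
    -- key: if e commutes with one of them it commutes with the other
    have key1 : Commute e a → Commute e b := by
      intro h1
      have : Commute e (a⁻¹ * (a * b)) := (h1.inv_right).mul_right h
      simpa using this
    have key2 : Commute e b → Commute e a := by
      intro h1
      have : Commute e (a * b * b⁻¹) := h.mul_right (h1.inv_right)
      simpa using this
    rcases comm_or_braid hE ha he with h1 | h1
    · exact ⟨h1, key1 h1⟩
    rcases comm_or_braid hE hb he with h2 | h2
    · exact ⟨key2 h2, h2⟩
    exfalso
    apply hab
    have h3 : e * (a * b) = a * b * e := h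
    have h4 : e * a * e * (e * b * e) = a * b := by
      calc e * a * e * (e * b * e) = e * a * (e * e) * b * e := by simp only [mul_assoc]
        _ = e * (a * b) * e := by rw [he2]; simp only [mul_assoc, mul_one]
        _ = a * b * (e * e) := by rw [h3]; simp only [mul_assoc]
        _ = a * b := by rw [he2, mul_one]
    rw [h1, h2] at h4
    have h5 : e * a * b * e = 1 := by
      have : a * (e * a * b * e) * b = a * 1 * b := by
        rw [mul_one]
        calc a * (e * a * b * e) * b = a * e * a * (b * e * b) := by simp only [mul_assoc]
          _ = a * b := h4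
      have := mul_right_cancel this
      exact mul_left_cancel this
    have h6 : a * b = 1 := by
      have : e * (a * b) * e = e * 1 * e := by
        rw [mul_one, he2]; simpa [mul_assoc] using h5
      have := mul_right_cancel this
      exact mul_left_cancel this
    calc a = b⁻¹ := eq_inv_of_mul_eq_one_left h6
      _ = b := hbinv
  · rintro ⟨h1, h2⟩
    exact h1.mul_right h2

end Cfsg.Agent.S0436
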