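import Cfsg.Statements.S0437
import Cfsg.Agent.S0436

set_option autoImplicit false
open Cfsg

namespace Cfsg.Agent.S0437

open Cfsg.Agent.S0436 in
/-- In a quotient of `S₄ = W(A₃)` the Coxeter element has order dividing 4. -/
theorem coxeter_pow_four {G : Type*} [Group G] {a b e : G} (ha2 : a * a = 1) (hb2 : b * b = 1)
    (he2 : e * e = 1) (hab : a * b = b * a) (h1 : e * a * e = a * e * a)
    (h2 : e * b * e = b * e * b) : (e * a * b) ^ 4 = 1 := by
  have hsq : e * a * b * (e * a * b) = a * b * e * (a * b * e) := by
    calc e * a * b * (e * a * b) = e * a * (b * e * b) * a := by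
          simp only [mul_assoc]; rw [hab]
      _ = e * a * (e * b * e) * a := by rw [h2]
      _ = (e * a * e) * b * e * a := by simp only [mul_assoc]
      _ = (a * e * a) * b * e * a := by rw [h1]
      _ = a * e * (a * b) * e * a := by simp only [mul_assoc]
      _ = a * e * (b * a) * e * a := by rw [hab]
      _ = a * e * b * (a * e * a) := by simp only [mul_assoc]
      _ = a * e * b * (e * a * e) := by rw [h1]
      _ = a * (e * b * e) * a * e := by simp only [mul_assoc]
      _ = a * (b * e * b) * a * e := by rw [h2]
      _ = a * b * e * (b * a) * e := by simp only [mul_assoc]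
      _ = a * b * e * (a * b) * e := by rw [hab]
      _ = a * b * e * (a * b * e) := by simp only [mul_assoc]
  have habab : a * b * (a * b) = 1 := by
    calc a * b * (a * b) = a * (b * a) * b := by simp only [mul_assoc]
      _ = a * (a * b) * b := by rw [hab]
      _ = (a * a) * (b * b) := by simp only [mul_assoc]
      _ = 1 := by rw [ha2, hb2, mul_one]
  calc (e * a * b) ^ 4 = (e * a * b * (e * a * b)) * (e * a * b * (e * a * b)) := by
        simp only [pow_succ, pow_zero, one_mul, mul_assoc]
    _ = (e * a * b * (e * a * b)) * (a * b * e * (a * b * e)) := by rw [← hsq]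
    _ = e * a * b * e * (a * b * (a * b)) * e * (a * b * e) := by simp only [mul_assoc]
    _ = e * a * b * (e * e) * (a * b * e) := by rw [habab]; simp only [mul_assoc, mul_one]
    _ = e * (a * b * (a * b)) * e := by rw [he2]; simp only [mul_assoc, mul_one]
    _ = 1 := by rw [habab, mul_one, he2]

open Cfsg.Agent.S0436 in
theorem result {G : Type*} [Group G] {E : Set G} (hE : Cfsg.IsThreeTranspositionSet E) {a b c e : G} (ha : a ∈ E) (hb : b ∈ E) (hc : c ∈ E) (he : e ∈ E) (hab : a ≠ b) (hac : a ≠ c) (hbc : b ≠ c) (h₁ : Commute a b) (h₂ : Commute a c) (h₃ : Commute b c) : Commute e (a * b * c) ↔ (Commute e a ∧ Commute e b ∧ Commute e c) := by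
  constructor
  · intro h
    have ha2 := inv_of_order_two (hE.1 a ha)
    have hb2 := inv_of_order_two (hE.1 b hb)
    have hc2 := inv_of_order_two (hE.1 c hc)
    have he2 := inv_of_order_two (hE.1 e he)
    have hainv : a⁻¹ = a := inv_eq_of_mul_eq_one_left ha2
    have hbinv : b⁻¹ = b := inv_eq_of_mul_eq_one_left hb2
    have hcinv : c⁻¹ = c := inv_eq_of_mul_eq_one_left hc2
    have heinv : e⁻¹ = e := inv_eq_of_mul_eq_one_left he2
    by_cases hec : Commute e c
    · -- then e commutes with a * b
      have : Commute e (a * b * c * c⁻¹) := h.mul_right hec.inv_right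
      rw [mul_inv_cancel_right] at this
      have := (Cfsg.Agent.S0436.result hE ha hb he hab h₁).1 this
      exact ⟨this.1, this.2, hec⟩
    by_cases hea : Commute e a
    · have : Commute e (a⁻¹ * (a * b * c)) := hea.inv_right.mul_right h
      rw [mul_assoc, inv_mul_cancel_left] at this
      have := (Cfsg.Agent.S0436.result hE hb hc he hbc h₃).1 this
      exact ⟨hea, this.1, this.2⟩
    by_cases heb : Commute e b
    · have : Commute e (b⁻¹ * (a * b * c)) := heb.inv_right.mul_right h
      rw [h₁.eq, mul_assoc, inv_mul_cancel_left] at this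
      have := (Cfsg.Agent.S0436.result hE ha hc he hac h₂).1 this
      exact ⟨this.1, heb, this.2⟩
    exfalso
    have h1 : e * a * e = a * e * a := (comm_or_braid hE ha he).resolve_left hea
    have h2 : e * b * e = b * e * b := (comm_or_braid hE hb he).resolve_left heb
    have h3 : (e * c) ^ 3 = 1 := by
      rcases hE.2 e he c hc with h' | h'
      · exfalso
        apply hec
        have h1 : e * c * (e * c) = 1 := by rw [← pow_two]; exact h'
        have h2 : e * c = (e * c)⁻¹ := eq_inv_of_mul_eq_one_left h1
        rw [mul_inv_rev, hcinv, heinv] at h2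
        exact h2
      · exact h'
    -- t = a * b * c
    set t := a * b * c with ht
    have hta : Commute t a := by
      rw [ht]; exact (((Commute.refl a).mul_left h₁.symm).mul_left h₂.symm)
    have htb : Commute t b := by
      rw [ht]; exact ((h₁.mul_left (Commute.refl b)).mul_left h₃.symm)
    have hte : Commute t e := h.symm
    have hab' : a * b = b * a := h₁.eq
    have habab : a * b * (a * b) = 1 := by
      calc a * b * (a * b) = a * (b * a) * b := by simp only [mul_assoc]
        _ = a * (a * b) * b := by rw [hab']
        _ = (a * a) * (b * b) := by simp only [mul_assoc]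
        _ = 1 := by rw [ha2, hb2, mul_one]
    have hc' : c = a * b * t := by
      rw [ht, ← mul_assoc, habab, one_mul]
    have ht2 : t * t = 1 := by
      have hcomm : Commute (a * b) c := h₂.mul_left h₃
      calc t * t = a * b * c * (a * b * c) := rfl
        _ = a * b * (c * (a * b)) * c := by simp only [mul_assoc]
        _ = a * b * ((a * b) * c) * c := by rw [hcomm.eq]
        _ = (a * b * (a * b)) * (c * c) := by simp only [mul_assoc]
        _ = 1 := by rw [habab, hc2, mul_one]
    have hcomm : Commute (e * a * b) t := ((hte.symm.mul_left hta.symm).mul_left htb.symm)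
    have h4 : (e * a * b) ^ 3 * t = 1 := by
      have : e * c = e * a * b * t := by rw [hc']; simp only [mul_assoc]
      rw [this, hcomm.mul_pow] at h3
      have ht3 : t ^ 3 = t := by
        rw [pow_succ, pow_two, ht2, one_mul]
      rw [ht3] at h3
      exact h3
    have h5 : (e * a * b) ^ 4 = 1 := coxeter_pow_four ha2 hb2 he2 hab' h1 h2
    have h6 : t = (e * a * b)⁻¹ := by
      have h7 : (e * a * b) ^ 3 = t := by
        have := eq_inv_of_mul_eq_one_left h4
        rw [this]; exact inv_eq_of_mul_eq_one_left ht2
      apply eq_inv_of_mul_eq_one_left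
      rw [← h7, ← pow_succ]; exact h5
    rw [mul_inv_rev, mul_inv_rev, hainv, hbinv, heinv, ← mul_assoc, ← hab', ht] at h6
    have : c = e := mul_left_cancel h6
    apply hec
    rw [this]
  · rintro ⟨h1, h2, h3⟩
    exact (h1.mul_right h2).mul_right h3

end Cfsg.Agent.S0437
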