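import Cfsg.Statements.S0438

set_option autoImplicit false
open Cfsg

namespace Cfsg.Agent.S0438

theorem result {G : Type*} [Group G] {E : Set G} (hE : Cfsg.IsThreeTranspositionSet E) (hconj : ∀ g : G, ∀ d ∈ E, g * d * g⁻¹ ∈ E) (x : G ≃* G) (hx : ∀ g : G, x (x g) = g) (hxE : ∀ d ∈ E, x d ∈ E) {a : G} (ha : a ∈ E) (h : ¬ Commute a (x a)) : ∃ d ∈ E, x d = d := by
  have hb : x a ∈ E := hxE a ha
  have ha2 : a * a = 1 := by
    have := pow_orderOf_eq_one a
    rw [hE.1 a ha, pow_two] at this
    exact this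
  have hb2 : x a * x a = 1 := by
    have := pow_orderOf_eq_one (x a)
    rw [hE.1 (x a) hb, pow_two] at this
    exact this
  have hainv : a⁻¹ = a := inv_eq_of_mul_eq_one_left ha2
  have hbinv : (x a)⁻¹ = x a := inv_eq_of_mul_eq_one_left hb2
  -- braid relation
  have hbr : a * x a * a = x a * a * x a := by
    rcases hE.2 a ha (x a) hb with h' | h'
    · exfalso
      apply h
      have h1 : a * x a * (a * x a) = 1 := by rw [← pow_two]; exact h'
      have h2 : a * x a = (a * x a)⁻¹ := eq_inv_of_mul_eq_one_left h1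
      rw [mul_inv_rev, hainv, hbinv] at h2
      exact h2
    · have h1 : a * x a * (a * x a) * (a * x a) = 1 := by rw [← h', pow_succ, pow_two]
      have h2 : a * x a * a = (x a * (a * x a))⁻¹ := by
        apply eq_inv_of_mul_eq_one_left
        rw [← h1]; simp only [mul_assoc]
      rw [h2, mul_inv_rev, mul_inv_rev, hainv, hbinv, mul_assoc]
  refine ⟨a * x a * a⁻¹, hconj a (x a) hb, ?_⟩
  rw [hainv, map_mul, map_mul, hx, hbr]

end Cfsg.Agent.S0438
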