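import Cfsg.Statements.S0447
import Cfsg.Agent.Helper48.DCoverB
import Cfsg.Agent.Helper37.DcD

set_option autoImplicit false
open Cfsg

namespace Cfsg.Agent.S0447

/-- Involutions in double covers of alternating groups: for n ≤ 7, a finite non-split double cover of the alternating group of degree n has exactly one element of order 2 (the central one); for degree 8 there is a non-split double cover with two distinct involutions. -/
theorem result : (∀ (n : ℕ) (H : Type) (_ : Group H) (_ : Finite H), n ≤ 7 → Cfsg.IsNonsplitDoubleCover H (alternatingGroup (Fin n)) → ∀ x y : H, orderOf x = 2 → orderOf y = 2 → x = y) ∧ ∃ (H : Type) (_ : Group H) (_ : Finite H), Cfsg.IsNonsplitDoubleCover H (alternatingGroup (Fin 8)) ∧ ∃ x y : H, x ≠ y ∧ orderOf x = 2 ∧ orderOf y = 2 := by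
  refine ⟨?_, ?_⟩
  · intro n H _ _ hn hH x y hx hy
    have hx2 : x * x = 1 := by rw [← pow_two, ← hx, pow_orderOf_eq_one]
    have hy2 : y * y = 1 := by rw [← pow_two, ← hy, pow_orderOf_eq_one]
    have hxZ := Cfsg.Agent.Helper48.dcover_alt_no_invol n hn H hH x hx2
    have hyZ := Cfsg.Agent.Helper48.dcover_alt_no_invol n hn H hH y hy2
    obtain ⟨z, hz, hz1, hzz, hzall⟩ := Cfsg.Agent.Helper48.es2_exists_z hH.1
    have hx1 : x ≠ 1 := by
      rintro rfl
      rw [orderOf_one] at hx
      omega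
    have hy1 : y ≠ 1 := by
      rintro rfl
      rw [orderOf_one] at hy
      omega
    rw [(hzall x hxZ).resolve_left hx1, (hzall y hyZ).resolve_left hy1]
  · obtain ⟨Γ, _, _, z, hz, hzo, hzc, hN, ⟨e⟩⟩ := Cfsg.Agent.Helper37.dc_exists 4
    have e' : Γ ⧸ Subgroup.zpowers z ≃* alternatingGroup (Fin 8) := e
    have hA : Subgroup.center (alternatingGroup (Fin 8)) = ⊥ :=
      alternatingGroup.center_eq_bot (by rw [Nat.card_fin]; norm_num)
    obtain ⟨hcen, hcard, hns⟩ := Cfsg.Agent.Helper48.dcover_nonsplit hA z hz hzo hzc e'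
    have hzz : z * z = 1 := by rw [← pow_two, ← hzo, pow_orderOf_eq_one]
    refine ⟨Γ, inferInstance, inferInstance,
      ⟨hcard, ⟨(QuotientGroup.quotientMulEquivOfEq hcen).trans e'⟩, hns⟩, ?_⟩
    obtain ⟨a, h, g, ha, hha, hg, hne⟩ := Cfsg.Agent.Helper48.alt8_data
    have hsurj : Function.Surjective
        (e'.toMonoidHom.comp (QuotientGroup.mk' (Subgroup.zpowers z))) :=
      e'.surjective.comp (QuotientGroup.mk'_surjective _)
    have hπ : ∀ w : Γ, (e'.toMonoidHom.comp (QuotientGroup.mk' (Subgroup.zpowers z))) w = 1 ↔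
        w ∈ Subgroup.zpowers z := by
      intro w
      rw [MonoidHom.comp_apply, MulEquiv.coe_toMonoidHom, MulEquiv.map_eq_one_iff,
        QuotientGroup.mk'_apply, QuotientGroup.eq_one_iff]
    have hker : ∀ w : Γ, (e'.toMonoidHom.comp (QuotientGroup.mk' (Subgroup.zpowers z))) w = 1 →
        w = 1 ∨ w = z := by
      intro w hw
      obtain ⟨k, rfl⟩ := Subgroup.mem_zpowers_iff.mp ((hπ w).mp hw)
      exact Cfsg.Agent.Helper48.dcover_zpow_two z hzz k
    obtain ⟨x, hxx, hx1, hxz⟩ := Cfsg.Agent.Helper48.dcover_second_invol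
      (e'.toMonoidHom.comp (QuotientGroup.mk' (Subgroup.zpowers z))) hsurj z hz hzz
      ((hπ z).mpr (Subgroup.mem_zpowers z)) hker a h g ha hha hg hne
    exact ⟨x, z, hxz, orderOf_eq_prime (by rw [pow_two]; exact hxx) hx1, hzo⟩

end Cfsg.Agent.S0447
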