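import Cfsg.Statements.S0508
import Cfsg.Agent.S3282
import Cfsg.Agent.S0731
import Cfsg.Agent.Helper2.SolvableSmall
import Cfsg.Agent.Helper29.BswdCT
import Cfsg.Agent.Helper29.BswdFUS
import Cfsg.Agent.Helper46.BswdHYPA
import Cfsg.Agent.Helper46.BswdHYPB
import Cfsg.Agent.Helper28.BswdS3T
import Cfsg.Agent.Helper81.BswdDIH
import Cfsg.Agent.Helper28.BswdZAS1
import Cfsg.Agent.Helper28.BswdZAS2
import Cfsg.Agent.Helper34.BswdZAS3

set_option autoImplicit false
open Cfsg

namespace Cfsg.Agent.S0508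

/-- Let G be a finite simple group with a dihedral Sylow 2-subgroup S (of order at least 4), t an involution in the
centre of S, C the centralizer of t and O the core of C (its largest normal subgroup of odd order). Suppose that: if O
is nontrivial then the centralizer of O in S is cyclic of index 2 in S; every element of S not centralizing O inverts
every element of O; and the normalizer of every nontrivial subgroup of O lies in C. Then G is isomorphic to a projective
special linear group of dimension 2 over a field of odd order. -/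
theorem result {G : Type*} [Group G] [Finite G] [IsSimpleGroup G] (S : Sylow 2 G) (n : ℕ)
    (hn : 2 ≤ n) (hS : Nonempty ((S : Subgroup G) ≃* DihedralGroup n)) (t : G) (ht : orderOf t = 2)
    (htS : t ∈ (S : Subgroup G))
    (htZ : ∀ s ∈ (S : Subgroup G), s * t = t * s) (O : Subgroup G)
    (hO : O = (Cfsg.oddCore (Subgroup.centralizer ({t} : Set G))).map (Subgroup.centralizer ({t} : Set G)).subtype)
    (ha : O ≠ ⊥ → IsCyclic ((S : Subgroup G) ⊓ Subgroup.centralizer (O : Set G) : Subgroup G) ∧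
      ((S : Subgroup G) ⊓ Subgroup.centralizer (O : Set G)).relIndex (S : Subgroup G) = 2)
    (hb : ∀ s ∈ (S : Subgroup G), s ∉ Subgroup.centralizer (O : Set G) → ∀ y ∈ O, s * y * s⁻¹ = y⁻¹)
    (hc : ∀ Y : Subgroup G, Y ≤ O → Y ≠ ⊥ → Subgroup.normalizer (Y : Set G) ≤ Subgroup.centralizer ({t} : Set G)) :
    ∃ (F : Type) (_ : Field F) (_ : Fintype F), Odd (Fintype.card F) ∧ Nonempty (G ≃* Matrix.ProjectiveSpecialLinearGroup (Fin 2) F) := by
  classical
  haveI : Fact (Nat.Prime 2) := ⟨Nat.prime_two⟩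
  obtain ⟨hOodd, hOC, hOS⟩ := Cfsg.Agent.Helper29.bswd_cent S n hn hS t ht htZ O hO
  have hconj := Cfsg.Agent.Helper29.bswd_one_class S n hn hS
  obtain ⟨hR0, hRall⟩ := Cfsg.Agent.Helper81.bswd_dih S n hn hS t ht htS htZ
  -- the cyclic subgroup `R` and the involution `s`
  obtain ⟨R, hRS, hRc, hRi, htR, hRO, hbR⟩ : ∃ R : Subgroup G, R ≤ (S : Subgroup G) ∧ IsCyclic R ∧
      R.relIndex (S : Subgroup G) = 2 ∧ t ∈ R ∧ R ≤ Subgroup.centralizer (O : Set G) ∧
      ∀ s ∈ (S : Subgroup G), s ∉ R → ∀ y ∈ O, s * y * s⁻¹ = y⁻¹ := by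
    by_cases hO1 : O = ⊥
    · obtain ⟨R, hRS, hRc, hRi, htR⟩ := hR0
      refine ⟨R, hRS, hRc, hRi, htR, ?_, ?_⟩
      · rw [hO1]
        intro x _
        rw [Subgroup.mem_centralizer_iff]
        intro y hy
        have hy1 : y = 1 := by simpa using hy
        rw [hy1, one_mul, mul_one]
      · intro s _ _ y hy
        rw [hO1] at hy
        have hy1 : y = 1 := by simpa using hy
        rw [hy1]
        group
    · obtain ⟨hc1, hc2⟩ := ha hO1
      refine ⟨(S : Subgroup G) ⊓ Subgroup.centralizer (O : Set G), inf_le_left, hc1, hc2, ?_,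
        inf_le_right, ?_⟩
      · refine Subgroup.mem_inf.mpr ⟨htS, ?_⟩
        rw [Subgroup.mem_centralizer_iff]
        intro y hy
        have h1 := hOC hy
        rw [Subgroup.mem_centralizer_iff] at h1
        exact (h1 t rfl).symm
      · intro s hsS hsR y hy
        apply hb s hsS _ y hy
        intro hsC
        exact hsR (Subgroup.mem_inf.mpr ⟨hsS, hsC⟩)
  obtain ⟨⟨s, hsS, hsR⟩, hsall⟩ := hRall R hRS hRc hRi
  obtain ⟨hs, hsinvR⟩ := hsall s hsS hsR
  have hsinvO := hbR s hsS hsR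
  obtain ⟨hKab, hKH, htK, hsH, hsK, hH, hCK, hinv, hinvol, hodd⟩ :=
    Cfsg.Agent.Helper46.bswd_hypA t ht (S : Subgroup G) O R S.isPGroup' hOodd hOC hOS hRS hRc hRi htR hRO s hsS hsR hs
      hsinvR hsinvO
  have hTI := Cfsg.Agent.Helper46.bswd_hypB t ht O (O ⊔ R) s hs hKab htK hH hinv hinvol hodd hc
  -- Brauer–Suzuki–Wall
  obtain ⟨Q, D, hord, hQ, -, hDq, hQD, hN, -⟩ :=
    Cfsg.Agent.S3282.result t ht (O ⊔ R) hKab hKH htK s hs hsH hsK hH hCK hinv hTI hconj
  obtain ⟨hQab, hcardN, hsemi⟩ := Cfsg.Agent.Helper28.bswd_zas1 Q D hQ hDq hQD hN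
  have hDpos : 0 < Nat.card ↥D := Nat.card_pos
  have hGpos : 0 < Nat.card G := Nat.card_pos
  -- `|Q| ≥ 5`
  have hq5 : 5 ≤ Nat.card ↥Q := by
    by_contra hlt
    have hq3 : Nat.card ↥Q = 3 := by omega
    rw [hq3] at hord
    have h12 : Nat.card G = 12 := by omega
    haveI : Group.IsSolvable G := Cfsg.Agent.Helper2.isSolvable_of_card_dvd_twelve (by rw [h12])
    have hcomm : ∀ a b : G, a * b = b * a := IsSimpleGroup.comm_iff_isSolvable.mpr inferInstance
    letI : CommGroup G := { (inferInstance : Group G) with mul_comm := hcomm }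
    have hprime := IsSimpleGroup.prime_card (α := G)
    rw [h12] at hprime
    norm_num at hprime
  obtain ⟨hcardΩ, hreg, h2⟩ := Cfsg.Agent.Helper28.bswd_zas2 Q hcardN hord (by omega) hsemi
  have hZ := Cfsg.Agent.Helper34.bswd_zas3 Q hQ hcardN hq5 hcardΩ hreg h2
  have hstab : MulAction.stabilizer G
      ((QuotientGroup.mk 1 : G ⧸ Subgroup.normalizer (Q : Set G))) = Subgroup.normalizer (Q : Set G) :=
    MulAction.stabilizer_quotient _
  have hFle : Q ≤ MulAction.stabilizer G
      ((QuotientGroup.mk 1 : G ⧸ Subgroup.normalizer (Q : Set G))) := by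
    rw [hstab]
    exact Subgroup.le_normalizer
  have hFn : (Q.subgroupOf (MulAction.stabilizer G
      ((QuotientGroup.mk 1 : G ⧸ Subgroup.normalizer (Q : Set G))))).Normal := by
    rw [hstab]
    exact Subgroup.normal_in_normalizer
  rcases Cfsg.Agent.S0731.result hZ (QuotientGroup.mk 1) Q hFle hFn hQab hreg with ⟨h3, h3s⟩ | hK
  · exfalso
    have hc3 := Cfsg.Agent.Helper28.bswd_sharp3_card (by rw [hcardΩ]; omega) h3 h3s
    rw [hcardΩ] at hc3
    have e1 : Nat.card ↥Q + 1 - 1 = Nat.card ↥Q := by omega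
    have e2 : Nat.card ↥Q + 1 - 2 = Nat.card ↥Q - 1 := by omega
    rw [e1, e2] at hc3
    have h4 : 2 * Nat.card G = Nat.card G := by
      rw [hord, hc3]
      ring
    omega
  · obtain ⟨K, instF, instFin, hchar, hiso⟩ := hK
    refine ⟨K, instF, instFin, ?_, hiso⟩
    haveI : Fact (ringChar K).Prime := ⟨CharP.char_is_prime K (ringChar K)⟩
    obtain ⟨k, -, hk⟩ := FiniteField.card K (ringChar K)
    rw [hk]
    exact ((Nat.Prime.eq_two_or_odd' (Fact.out : (ringChar K).Prime)).resolve_left hchar).pow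

end Cfsg.Agent.S0508
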