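import Cfsg.Statements.S0536
import Cfsg.Agent.Helper70.Schmidt

set_option autoImplicit false
open Cfsg

namespace Cfsg.Agent.S0536

open Subgroup Cfsg.Agent.Helper70

/-- Structure of minimal non-nilpotent groups: if a finite group is not nilpotent but all its proper subgroups are, then there are distinct primes p and q, a cyclic Sylow p-subgroup P and a normal Sylow q-subgroup Q with G generated by P and Q. -/
theorem result {G : Type*} [Group G] [Finite G] (hG : Cfsg.IsMinimalNonNilpotent G) : ∃ p q : ℕ, p.Prime ∧ q.Prime ∧ p ≠ q ∧ ∃ (P : Sylow p G) (Q : Sylow q G), IsCyclic P ∧ (Q : Subgroup G).Normal ∧ (P : Subgroup G) ⊔ Q = ⊤ := by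
  obtain ⟨p, q, hp, hq, hpq, g, Q₀, k, hg, hQ₀, hQ₀n, htop, hgC⟩ :=
    exists_schmidt_datum hG.1 hG.2
  have : Fact p.Prime := ⟨hp⟩
  have : Fact q.Prime := ⟨hq⟩
  refine ⟨p, q, hp, hq, hpq, ?_⟩
  have hzp : IsPGroup p (zpowers g) := IsPGroup.of_card (n := k) (by rw [Nat.card_zpowers, hg])
  obtain ⟨P, hP⟩ := hzp.exists_le_sylow
  obtain ⟨Q⟩ : Nonempty (Sylow q G) := inferInstance
  have hPeq := sylow_eq_zpowers_of_schmidt_datum hpq g Q₀ k hg hQ₀ htop P hP
  have hidx : Q₀.index.Coprime q := by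
    have h3 : Q₀.index ∣ orderOf g := index_dvd_orderOf_of_sup_zpowers_eq_top Q₀ g htop
    rw [hg] at h3
    exact Nat.Coprime.coprime_dvd_left h3
      (Nat.Coprime.pow_left k ((Nat.coprime_primes hp hq).mpr hpq))
  have hQeq := sylow_eq_of_normal_of_coprime_index Q₀ hQ₀ hidx Q
  refine ⟨P, Q, ?_, ?_, ?_⟩
  · show IsCyclic ↥(P : Subgroup G)
    rw [hPeq]; infer_instance
  · rw [hQeq]; exact hQ₀n
  · rw [hPeq, hQeq, sup_comm]; exact htop

end Cfsg.Agent.S0536
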