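import Cfsg.Statements.S0579
import Mathlib
import Cfsg.Agent.Helper70.Huppert2
import Cfsg.Agent.Helper9.Supersolvable3

set_option autoImplicit false
open Cfsg

namespace Cfsg.Agent.S0579

universe u

theorem aux (n : ℕ) : ∀ (G : Type u) [Group G] [Finite G], Nat.card G = n →
    (∀ M : Subgroup G, IsCoatom M → M.index.Prime) → Cfsg.IsSupersolvable G := by
  induction n using Nat.strong_induction_on with
  | _ n ih =>
  intro G _ _ hn h
  by_cases hG : Nat.card G = 1
  · have : Subsingleton G := (Nat.card_eq_one_iff_unique.mp hG).1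
    exact Cfsg.Agent.Helper9.ss_of_isCyclic
  have hnt : Nontrivial G := by
    rw [← Finite.one_lt_card_iff_nontrivial]
    have := Nat.card_pos (α := G)
    omega
  obtain ⟨N, hNn, hNp⟩ := Cfsg.Agent.Helper70.exists_normal_prime_of_coatoms h
    (fun Q _ _ hlt hQ => ih (Nat.card Q) (hn ▸ hlt) Q rfl hQ)
  have : Fact (Nat.card N).Prime := ⟨hNp⟩
  have hNc : IsCyclic N := isCyclic_of_prime_card rfl
  have hcard : Nat.card (G ⧸ N) < n := by
    have h1 := Subgroup.card_eq_card_quotient_mul_card_subgroup N
    have h2 : 1 < Nat.card N := hNp.one_lt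
    have h3 : 0 < Nat.card (G ⧸ N) := Nat.card_pos
    rw [← hn, h1]
    nlinarith
  have hq : Cfsg.IsSupersolvable (G ⧸ N) := by
    refine ih _ hcard (G ⧸ N) rfl ?_
    intro M hM
    have hc := Subgroup.isCoatom_comap_of_surjective (QuotientGroup.mk'_surjective N) hM
    have := h _ hc
    rwa [Subgroup.index_comap_of_surjective _ (QuotientGroup.mk'_surjective N)] at this
  exact Cfsg.Agent.Helper9.ss_of_cyclic_of_quotient N hq

/-- Huppert's supersolvability criterion: if every maximal subgroup of a finite group has prime index, then the group is supersolvable. -/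
theorem result {G : Type*} [Group G] [Finite G] (h : ∀ M : Subgroup G, IsCoatom M → M.index.Prime) : Cfsg.IsSupersolvable G := by
  exact aux (Nat.card G) G rfl h

end Cfsg.Agent.S0579
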