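import Cfsg.Statements.S0581
import Mathlib
import Cfsg.Agent.S0536
import Cfsg.Agent.Helper25.CN
import Cfsg.Agent.Helper2.SylowLe
import Cfsg.Agent.Helper10.Conj

set_option autoImplicit false
open Pointwise
open Cfsg

namespace Cfsg.Agent.S0581

open Pointwise

theorem index_conj_smul {G : Type*} [Group G] [Finite G] (x : G) (H : Subgroup G) :
    (MulAut.conj x • H).index = H.index := by
  have h1 := Subgroup.card_mul_index (MulAut.conj x • H)
  have h2 := Subgroup.card_mul_index H
  rw [Helper10.card_conj_smul, ← h2] at h1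
  exact Nat.eq_of_mul_eq_mul_left Nat.card_pos h1

theorem orderOf_coprime_of_isPGroup {G : Type*} [Group G] {p : ℕ} [hp : Fact p.Prime] {S : Subgroup G}
    (hS : IsPGroup p S) {s l : G} (hs : s ∈ S) (hl : (orderOf l).Coprime p) :
    (orderOf s).Coprime (orderOf l) := by
  obtain ⟨k, hk⟩ := hS ⟨s, hs⟩
  have h1 : s ^ p ^ k = 1 := by
    have := congrArg Subtype.val hk
    simpa using this
  obtain ⟨j, -, hj⟩ := (Nat.dvd_prime_pow hp.out).mp (orderOf_dvd_of_pow_eq_one h1)
  rw [hj]
  exact (Nat.Coprime.pow_right j hl).symm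

/-- The key conjugation step: a `p`-subgroup `P` normalizing a `p'`-subgroup `L` of the nilpotent
subgroup `H₁` whose index is prime to `p` can be moved into `H₁` by an element normalizing `L`. -/
theorem key_step {G : Type*} [Group G] [Finite G] (H₁ : Subgroup G) (hH : Group.IsNilpotent H₁)
    (p : ℕ) [hp : Fact p.Prime] (hpidx : ¬ p ∣ H₁.index) (L P : Subgroup G) (hL : L ≤ H₁)
    (hLp : ∀ l ∈ L, (orderOf l).Coprime p) (hP : IsPGroup p P)
    (hPL : P ≤ Subgroup.normalizer (L : Set G)) :
    ∃ n : G, P ⊔ L ≤ MulAut.conj n • H₁ := by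
  let S : Sylow p ↥H₁ := default
  have hS'p : IsPGroup p ((S : Subgroup ↥H₁).map H₁.subtype) := S.2.map _
  have hS'idx : ¬ p ∣ ((S : Subgroup ↥H₁).map H₁.subtype).index := by
    rw [Subgroup.index_map_subtype]
    intro h
    rcases (Nat.Prime.dvd_mul hp.out).mp h with h | h
    · exact S.not_dvd_index h
    · exact hpidx h
  have hS'H : (S : Subgroup ↥H₁).map H₁.subtype ≤ H₁ := Subgroup.map_subtype_le _
  have hS'C : (S : Subgroup ↥H₁).map H₁.subtype ≤ Subgroup.centralizer (L : Set G) := by
    intro s hs l hl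
    exact (Helper25.commute_of_coprime_of_mem_nilpotent H₁ hH (hS'H hs) (hL hl)
      (orderOf_coprime_of_isPGroup hS'p hs (hLp l hl))).eq.symm
  have hS'N : (S : Subgroup ↥H₁).map H₁.subtype ≤ Subgroup.normalizer (L : Set G) :=
    hS'C.trans (Subgroup.centralizer_le_normalizer _)
  have hTN : ((hS'p.toSylow hS'idx : Sylow p G) : Subgroup G) ≤ Subgroup.normalizer (L : Set G) := by
    rw [IsPGroup.toSylow_coe]; exact hS'N
  obtain ⟨R, hR⟩ := (hP.comap_subtype (K := Subgroup.normalizer (L : Set G))).exists_le_sylow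
  obtain ⟨n, hn⟩ := MulAction.exists_smul_eq ↥(Subgroup.normalizer (L : Set G))
    ((hS'p.toSylow hS'idx).subtype hTN) R
  have hPn : ∀ u ∈ P, (n : G)⁻¹ * u * n ∈ H₁ := by
    intro u hu
    have h1 : (⟨u, hPL hu⟩ : ↥(Subgroup.normalizer (L : Set G))) ∈ (R : Subgroup _) := hR hu
    rw [← hn, Helper2.mem_smul_sylow_iff, Sylow.coe_subtype, Subgroup.mem_subgroupOf,
      IsPGroup.toSylow_coe] at h1
    have h2 : ((n⁻¹ * (⟨u, hPL hu⟩ : ↥(Subgroup.normalizer (L : Set G))) * n :
        ↥(Subgroup.normalizer (L : Set G))) : G) = (n : G)⁻¹ * u * n := by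
      simp
    rw [h2] at h1
    exact hS'H h1
  refine ⟨n, sup_le ?_ ?_⟩
  · intro u hu
    rw [Helper10.mem_conj_smul_iff]
    exact hPn u hu
  · intro l hl
    rw [Helper10.mem_conj_smul_iff]
    have hn' : (n : G)⁻¹ ∈ Subgroup.normalizer (L : Set G) := Subgroup.inv_mem _ n.2
    have := (Subgroup.mem_normalizer_iff.mp hn' l).mp hl
    rw [inv_inv] at this
    exact hL this

/-- Structure of a finite group all of whose proper subgroups are nilpotent (via Schmidt). -/
theorem struct_type (X : Type*) [Group X] [Finite X]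
    (hprop : ∀ M : Subgroup X, M ≠ ⊤ → Group.IsNilpotent M) :
    Subsingleton X ∨ ∃ (p : ℕ) (_ : Fact p.Prime) (P L : Subgroup X), p ∣ Nat.card X ∧
      IsPGroup p P ∧ L ≠ ⊤ ∧ (∀ l ∈ L, (orderOf l).Coprime p) ∧
      P ≤ Subgroup.normalizer (L : Set X) ∧ P ⊔ L = ⊤ := by
  by_cases htriv : Subsingleton X
  · exact Or.inl htriv
  right
  have hqgroup : ∀ (q : ℕ) [Fact q.Prime] (Q : Sylow q X), (Q : Subgroup X) = ⊤ →
      Group.IsNilpotent X := by
    intro q _ Q hQ
    have h1 : IsPGroup q (⊤ : Subgroup X) := hQ ▸ Q.2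
    exact (h1.of_equiv Subgroup.topEquiv).isNilpotent
  by_cases hnil : Group.IsNilpotent X
  · have hcard : Nat.card X ≠ 1 := by
      intro h
      exact htriv ((Nat.card_eq_one_iff_unique.mp h).1)
    haveI hp : Fact (Nat.card X).minFac.Prime := ⟨Nat.minFac_prime hcard⟩
    let P : Sylow (Nat.card X).minFac X := default
    have h3 : ∀ (p : ℕ) (_hp : Fact p.Prime) (P : Sylow p X), (P : Subgroup X).Normal :=
      ((Group.isNilpotent_of_finite_tfae (G := X)).out 0 3).mp hnil
    have hPn : (P : Subgroup X).Normal := h3 _ hp P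
    obtain ⟨L, hL⟩ := Subgroup.exists_right_complement'_of_coprime P.card_coprime_index
    have hdvd : (Nat.card X).minFac ∣ Nat.card X := Nat.minFac_dvd _
    have hLcard : Nat.card L = (P : Subgroup X).index := by
      have h1 := hL.card_mul_card
      have h2 := Subgroup.card_mul_index (P : Subgroup X)
      exact Nat.eq_of_mul_eq_mul_left Nat.card_pos (h1.trans h2.symm)
    have hLcop : (Nat.card L).Coprime (Nat.card X).minFac := by
      rw [hLcard]
      exact ((Nat.Prime.coprime_iff_not_dvd hp.out).mpr P.not_dvd_index).symm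
    refine ⟨(Nat.card X).minFac, hp, P, L, hdvd, P.2, ?_, ?_, ?_, hL.sup_eq_top⟩
    · intro hLtop
      rw [hLtop, Subgroup.card_top] at hLcop
      exact (Nat.Prime.coprime_iff_not_dvd hp.out).mp hLcop.symm hdvd
    · intro l hl
      have h1 : orderOf l ∣ Nat.card L := by
        rw [← Subgroup.orderOf_mk l hl]
        exact orderOf_dvd_natCard _
      exact Nat.Coprime.coprime_dvd_left h1 hLcop
    · refine le_trans ?_ (Subgroup.centralizer_le_normalizer _)
      intro u hu l hl
      have h1 : orderOf l ∣ Nat.card L := by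
        rw [← Subgroup.orderOf_mk l hl]
        exact orderOf_dvd_natCard _
      have h2 : (orderOf l).Coprime (Nat.card X).minFac := Nat.Coprime.coprime_dvd_left h1 hLcop
      exact ((Helper25.commute_of_coprime_orderOf_of_isNilpotent X u l
        (orderOf_coprime_of_isPGroup P.2 hu h2))).eq.symm
  · obtain ⟨p, q, hp, hq, hpq, P, Q, -, hQn, hsup⟩ := S0536.result (G := X) ⟨hnil, hprop⟩
    haveI : Fact p.Prime := ⟨hp⟩
    haveI : Fact q.Prime := ⟨hq⟩
    have hQtop : (Q : Subgroup X) ≠ ⊤ := fun h => hnil (hqgroup q Q h)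
    refine ⟨p, ⟨hp⟩, P, Q, ?_, P.2, hQtop, ?_, ?_, hsup⟩
    · by_contra hnd
      have hPbot : (P : Subgroup X) = ⊥ := by
        obtain ⟨k, hk⟩ := IsPGroup.iff_card.mp P.2
        have h1 : Nat.card (P : Subgroup X) ∣ Nat.card X := Subgroup.card_subgroup_dvd_card _
        rcases Nat.eq_zero_or_pos k with rfl | hk0
        · rw [pow_zero] at hk
          exact Subgroup.card_eq_one.mp hk
        · exact absurd (dvd_trans (hk ▸ dvd_pow_self p hk0.ne') h1) hnd
      rw [hPbot, bot_sup_eq] at hsup
      exact hQtop hsup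
    · intro l hl
      obtain ⟨k, hk⟩ := Q.2 ⟨l, hl⟩
      have h1 : l ^ q ^ k = 1 := by
        have := congrArg Subtype.val hk
        simpa using this
      obtain ⟨j, -, hj⟩ := (Nat.dvd_prime_pow hq).mp (orderOf_dvd_of_pow_eq_one h1)
      rw [hj]
      exact Nat.Coprime.pow_left j ((Nat.coprime_primes hq hp).mpr hpq.symm)
    · rw [Subgroup.normalizer_eq_top]
      exact le_top

theorem isNilpotent_of_le_conj {G : Type*} [Group G] (H : Subgroup G) (hH : Group.IsNilpotent H)
    (x : G) (M : Subgroup G) (hM : M ≤ MulAut.conj x • H) : Group.IsNilpotent M := by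
  haveI := hH
  haveI h1 : Group.IsNilpotent ↥(MulAut.conj x • H) :=
    Group.nilpotent_of_mulEquiv (Subgroup.equivSMul (MulAut.conj x) H)
  exact Group.nilpotent_of_mulEquiv (Subgroup.subgroupOfEquivOfLe hM)

theorem main {G : Type*} [Group G] [Finite G] (H : Subgroup G) (hH : Group.IsNilpotent H)
    (hHall : (Nat.card H).Coprime H.index) :
    ∀ (n : ℕ) (K : Subgroup G), Nat.card K = n →
      (∀ p : ℕ, p.Prime → p ∣ Nat.card K → p ∣ Nat.card H) → ∃ x : G, K ≤ MulAut.conj x • H := by
  intro n
  induction n using Nat.strong_induction_on with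
  | _ n ih =>
    intro K hKn hK
    have hlt : ∀ M : Subgroup G, M < K → ∃ x : G, M ≤ MulAut.conj x • H := by
      intro M hM
      have h1 : Nat.card M < n := by
        rw [← hKn]
        exact Set.Finite.card_lt_card (Set.toFinite _) (SetLike.coe_ssubset_coe.mpr hM)
      exact ih _ h1 M rfl
        (fun q hq hqM => hK q hq (hqM.trans (Subgroup.card_dvd_of_le hM.le)))
    have hmaplt : ∀ M : Subgroup ↥K, M ≠ ⊤ → M.map K.subtype < K := by
      intro M hM
      have h1 : M.map K.subtype < (⊤ : Subgroup ↥K).map K.subtype :=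
        Subgroup.map_subtype_lt_map_subtype.mpr (lt_top_iff_ne_top.mpr hM)
      rwa [← MonoidHom.range_eq_map, Subgroup.range_subtype] at h1
    have hprop : ∀ M : Subgroup ↥K, M ≠ ⊤ → Group.IsNilpotent M := by
      intro M hM
      obtain ⟨x, hx⟩ := hlt _ (hmaplt M hM)
      haveI := isNilpotent_of_le_conj H hH x _ hx
      exact Group.nilpotent_of_mulEquiv
        (M.equivMapOfInjective K.subtype (Subgroup.subtype_injective K)).symm
    rcases struct_type ↥K hprop with htriv | ⟨p, hp, P₀, L₀, hpK, hP₀, hL₀, hLp, hPL, hsup⟩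
    · have : K = ⊥ := Subgroup.eq_bot_of_subsingleton K
      exact ⟨1, this ▸ bot_le⟩
    · obtain ⟨x, hx⟩ := hlt _ (hmaplt L₀ hL₀)
      have hH₁ : Group.IsNilpotent ↥(MulAut.conj x • H) := isNilpotent_of_le_conj H hH x _ le_rfl
      have hidx : ¬ p ∣ (MulAut.conj x • H).index := by
        rw [index_conj_smul]
        intro h
        have h1 : p ∣ Nat.card H := hK p hp.out hpK
        have h2 := Nat.dvd_gcd h1 h
        rw [Nat.Coprime.gcd_eq_one hHall] at h2
        exact hp.out.one_lt.ne' (Nat.dvd_one.mp h2)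
      have hLp' : ∀ l ∈ L₀.map K.subtype, (orderOf l).Coprime p := by
        rintro _ ⟨l, hl, rfl⟩
        rw [Subgroup.coe_subtype, Subgroup.orderOf_coe]
        exact hLp l hl
      have hPL' : P₀.map K.subtype ≤ Subgroup.normalizer ((L₀.map K.subtype : Subgroup G) : Set G) := by
        rintro _ ⟨u, hu, rfl⟩
        apply Helper10.mem_normalizer_of_conj_smul_eq
        apply Helper10.conj_smul_eq_of_ge
        intro y hy
        rw [Helper10.mem_conj_smul_iff] at hy
        obtain ⟨l, hl, hly⟩ := hy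
        have hul : u * l * u⁻¹ ∈ L₀ := (Subgroup.mem_normalizer_iff.mp (hPL hu) l).mp hl
        refine ⟨u * l * u⁻¹, hul, ?_⟩
        simp only [Subgroup.coe_subtype, Subgroup.coe_mul, InvMemClass.coe_inv] at hly ⊢
        rw [hly]; group
      obtain ⟨m, hm⟩ := key_step (MulAut.conj x • H) hH₁ p hidx (L₀.map K.subtype)
        (P₀.map K.subtype) hx hLp' (hP₀.map _) hPL'
      refine ⟨m * x, ?_⟩
      rw [← Helper10.conj_smul_smul]
      refine le_trans ?_ hm
      rw [← Subgroup.map_sup, hsup, ← MonoidHom.range_eq_map, Subgroup.range_subtype]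

/-- Let H be a nilpotent subgroup of a finite group G whose order is coprime to its index, and K a subgroup every prime divisor of whose order divides the order of H. Then K lies in some conjugate of H. -/
theorem result {G : Type*} [Group G] [Finite G] (H K : Subgroup G) (hH : Group.IsNilpotent H) (hHall : (Nat.card H).Coprime H.index) (hK : ∀ p : ℕ, p.Prime → p ∣ Nat.card K → p ∣ Nat.card H) : ∃ x : G, K ≤ MulAut.conj x • H := by
  exact main H hH hHall _ K rfl hK

end Cfsg.Agent.S0581
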