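import Cfsg.Statements.S0629
import Cfsg.Agent.Helper54.PConstrained
import Cfsg.Agent.Helper32.HallHigman

set_option autoImplicit false
open Cfsg

namespace Cfsg.Agent.S0629

/-- A group in which the centralizer of a Sylow p-subgroup of O_{p',p}(G) is p-solvable is p-constrained. -/
theorem result {G : Type*} [Group G] [Finite G] {p : ℕ} [Fact p.Prime] (P : Sylow p ↥(Cfsg.pPrimePCore p G)) (hsol : Cfsg.IsPSolvable p ↥(Subgroup.centralizer (((P : Subgroup ↥(Cfsg.pPrimePCore p G)).map (Cfsg.pPrimePCore p G).subtype : Subgroup G) : Set G))) : Cfsg.IsPConstrained p G := by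
  have hp : p.Prime := Fact.out
  have hc := Cfsg.Agent.Helper22.card_pPrimeCore_coprime p G
  have hb := Cfsg.Agent.Helper55.pPrimeCore_quotient_eq_bot p G
  have h1 := Cfsg.Agent.Helper54.isPConstrained_iff_of_surjective (QuotientGroup.mk' (pPrimeCore p G))
    (QuotientGroup.mk'_surjective _) (by rw [QuotientGroup.ker_mk']; exact hc) hb
  apply h1.mpr
  have hQp : IsPGroup p (pCore p (G ⧸ pPrimeCore p G)) := Cfsg.Agent.Helper22.pCore_isPGroup p _
  obtain ⟨P₀, hP₀⟩ : ∃ P₀ : Subgroup G,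
      P₀ = (P : Subgroup ↥(pPrimePCore p G)).map (pPrimePCore p G).subtype := ⟨_, rfl⟩
  rw [← hP₀] at hsol
  have hP₀p : IsPGroup p P₀ := by rw [hP₀]; exact P.2.map _
  have hmapP : P₀.map (QuotientGroup.mk' (pPrimeCore p G)) = pCore p (G ⧸ pPrimeCore p G) := by
    rw [hP₀]
    exact Cfsg.Agent.Helper54.sylow_map_eq (QuotientGroup.mk' (pPrimeCore p G))
      (QuotientGroup.mk'_surjective _) _ hQp (pPrimePCore p G) rfl P
  obtain ⟨-, hC⟩ := Cfsg.Agent.S3800.result (pPrimeCore p G) hc P₀ hP₀p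
  rw [hmapP] at hC
  -- the centralizer of `O_p` of the quotient is `p`-solvable
  have hDsol : IsPSolvable p
      ↥(Subgroup.centralizer ((pCore p (G ⧸ pPrimeCore p G) : Subgroup (G ⧸ pPrimeCore p G)) :
        Set (G ⧸ pPrimeCore p G))) := by
    rw [hC]
    have hsurj := (QuotientGroup.mk' (pPrimeCore p G)).subgroupMap_surjective
      (Subgroup.centralizer (P₀ : Set G))
    exact Cfsg.Agent.Helper32.isPSolvable_of_equiv
      (QuotientGroup.quotientKerEquivOfSurjective _ hsurj)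
      (Cfsg.Agent.Helper32.isPSolvable_quotient hp hsol _)
  have hDn : (Subgroup.centralizer ((pCore p (G ⧸ pPrimeCore p G) : Subgroup (G ⧸ pPrimeCore p G)) :
        Set (G ⧸ pPrimeCore p G))).Normal := inferInstance
  have hDs := hDn.isSubnormal
  have hD1 : pPrimeCore p ↥(Subgroup.centralizer
      ((pCore p (G ⧸ pPrimeCore p G) : Subgroup (G ⧸ pPrimeCore p G)) :
        Set (G ⧸ pPrimeCore p G))) = ⊥ := by
    have h2 := Cfsg.Agent.Helper22.pPrimeCore_map_subtype_le p hDs
    rw [hb, le_bot_iff, Subgroup.map_eq_bot_iff_of_injective _ (Subgroup.subtype_injective _)] at h2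
    exact h2
  have hHH := Cfsg.Agent.Helper32.centralizer_pCore_le_of_isPSolvable hDsol hD1
  have h3 := Cfsg.Agent.Helper22.pCore_map_subtype_le p hDs
  intro d hd
  have h4 : (⟨d, hd⟩ : ↥(Subgroup.centralizer
      ((pCore p (G ⧸ pPrimeCore p G) : Subgroup (G ⧸ pPrimeCore p G)) :
        Set (G ⧸ pPrimeCore p G)))) ∈ pCore p ↥(Subgroup.centralizer
      ((pCore p (G ⧸ pPrimeCore p G) : Subgroup (G ⧸ pPrimeCore p G)) :
        Set (G ⧸ pPrimeCore p G))) := by
    apply hHH
    rw [Subgroup.mem_centralizer_iff]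
    intro y hy
    have hy' : (y : G ⧸ pPrimeCore p G) ∈ pCore p (G ⧸ pPrimeCore p G) := h3 ⟨y, hy, rfl⟩
    have h5 := (Subgroup.mem_centralizer_iff.mp hd) _ hy'
    exact Subtype.ext h5
  exact h3 ⟨⟨d, hd⟩, h4, rfl⟩

end Cfsg.Agent.S0629
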