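import Mathlib
import Cfsg.Statements.S0638
import Cfsg.Agent.S0126
import Cfsg.Agent.S3771
import Cfsg.Agent.S3918

set_option autoImplicit false
open Cfsg

namespace Cfsg.Agent.S0638

open Cfsg.Agent.S0126

/-- a finite cyclic group of exponent dividing `p` has order at most `p`. -/
theorem card_le_of_cyclic_exp {H : Type*} [Group H] [Finite H] [hc : IsCyclic H] {p : ℕ} (hp : 0 < p)
    (h : ∀ x : H, x ^ p = 1) : Nat.card H ≤ p := by
  obtain ⟨g, hg⟩ := hc.exists_generator
  have h1 : orderOf g = Nat.card H := orderOf_eq_card_of_forall_mem_zpowers hg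
  have h3 := orderOf_dvd_of_pow_eq_one (h g)
  rw [h1] at h3
  exact Nat.le_of_dvd hp h3

/-- In an odd `p`-group, a normal elementary abelian subgroup of order `p^2` together with any
element of order dividing `p` lies in a subgroup of exponent `p`. -/
theorem exists_exp_p_subgroup {R : Type*} [Group R] [Finite R] {p : ℕ} [Fact p.Prime] (hp : p ≠ 2)
    (hR : IsPGroup p R) (A : Subgroup R) [hAn : A.Normal] (hAp : ∀ a ∈ A, a ^ p = 1)
    (hAcard : Nat.card A = p ^ 2) (x : R) (hx : x ^ p = 1) :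
    ∃ Om : Subgroup R, A ≤ Om ∧ x ∈ Om ∧ ∀ u ∈ Om, u ^ p = 1 := by
  obtain ⟨z, hzA, hzc, hzo, hPA, -⟩ := Cfsg.Agent.S3918.normal_p_sq_struct hR A hAcard
  obtain ⟨Z, hZdef⟩ : ∃ Z : Subgroup R, Z = Subgroup.zpowers z := ⟨_, rfl⟩
  rw [← hZdef] at hPA
  have hZc : Z ≤ Subgroup.center R := by rw [hZdef]; exact Subgroup.zpowers_le.mpr hzc
  have hZA : Z ≤ A := by rw [hZdef]; exact Subgroup.zpowers_le.mpr hzA
  have hZn : Z.Normal := by
    constructor
    intro x hx g
    have := Subgroup.mem_center_iff.mp (hZc hx) g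
    rw [this]; simpa using hx
  have hmk1 : ∀ x : R, (QuotientGroup.mk' Z x = 1) ↔ x ∈ Z := fun x => by
    rw [QuotientGroup.mk'_apply, QuotientGroup.eq_one_iff]
  have hcentral : ∀ a ∈ A, ∀ q : R ⧸ Z, q * QuotientGroup.mk' Z a = QuotientGroup.mk' Z a * q := by
    intro a ha q
    obtain ⟨g, rfl⟩ := QuotientGroup.mk'_surjective Z q
    have h1 := hPA a ha g
    rw [← hmk1] at h1
    simp only [map_mul, map_inv] at h1
    calc QuotientGroup.mk' Z g * QuotientGroup.mk' Z a
        = (QuotientGroup.mk' Z g * QuotientGroup.mk' Z a * (QuotientGroup.mk' Z g)⁻¹ *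
            (QuotientGroup.mk' Z a)⁻¹) * QuotientGroup.mk' Z a * QuotientGroup.mk' Z g := by group
      _ = QuotientGroup.mk' Z a * QuotientGroup.mk' Z g := by rw [h1, one_mul]
  obtain ⟨D, hDc, hD⟩ := Cfsg.Agent.S3771.exists_comm_subgroup
    ((A.map (QuotientGroup.mk' Z) : Set (R ⧸ Z)) ∪ {QuotientGroup.mk' Z x}) (by
      rintro a' (ha' | ha') b' (hb' | hb')
      · obtain ⟨b, hb, rfl⟩ := hb'
        exact hcentral b hb a'
      · obtain ⟨a, ha, rfl⟩ := ha'
        rw [Set.mem_singleton_iff] at hb'; rw [hb']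
        exact (hcentral a ha _).symm
      · obtain ⟨b, hb, rfl⟩ := hb'
        exact hcentral b hb a'
      · rw [Set.mem_singleton_iff] at ha' hb'; rw [ha', hb'])
  let Om : Subgroup R :=
    { carrier := {u | QuotientGroup.mk' Z u ∈ D ∧ u ^ p = 1}
      mul_mem' := by
        rintro u v ⟨huD, hu⟩ ⟨hvD, hv⟩
        refine ⟨by rw [map_mul]; exact D.mul_mem huD hvD, ?_⟩
        obtain ⟨c, hc⟩ : ∃ c, c = v * u * v⁻¹ * u⁻¹ := ⟨_, rfl⟩
        have hcZ : c ∈ Z := by
          rw [← hmk1, hc, map_mul, map_mul, map_mul, map_inv, map_inv]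
          have h1 := congrArg Subtype.val (hDc.is_comm.comm ⟨_, hvD⟩ ⟨_, huD⟩)
          simp only [Subgroup.coe_mul] at h1
          rw [h1]; group
        have hcc := Subgroup.mem_center_iff.mp (hZc hcZ)
        have hvu : v * u = c * u * v := by rw [hc]; group
        rw [mul_pow_class_two u v c (hcc u).symm (hcc v).symm hvu p]
        obtain ⟨k, hk⟩ := p_dvd_sum_range (p := p) hp
        rw [hk, pow_mul, hAp c (hZA hcZ), one_pow, mul_one, hu, hv, one_mul]
      one_mem' := ⟨by rw [map_one]; exact D.one_mem, one_pow p⟩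
      inv_mem' := by
        rintro u ⟨huD, hu⟩
        exact ⟨by rw [map_inv]; exact D.inv_mem huD, by rw [inv_pow, hu, inv_one]⟩ }
  refine ⟨Om, ?_, ?_, ?_⟩
  · intro a ha
    exact ⟨hD (Or.inl ⟨a, ha, rfl⟩), hAp a ha⟩
  · exact ⟨hD (Or.inr rfl), hx⟩
  · intro u hu
    exact hu.2

/-- For odd p, in a non-cyclic metacyclic p-group the elements of order dividing p generate an elementary abelian subgroup of order p². -/
theorem result {R : Type*} [Group R] [Finite R] {p : ℕ} [Fact p.Prime] (hp : p ≠ 2) (hR : IsPGroup p R) (hm : Cfsg.IsMetacyclic R) (hnc : ¬ IsCyclic R) : Cfsg.IsElementaryAbelian p (Cfsg.omegaOne p (⊤ : Subgroup R)) ∧ Nat.card ↥(Cfsg.omegaOne p (⊤ : Subgroup R)) = p ^ 2 := by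
  have hpp : p.Prime := Fact.out
  obtain ⟨N, hNn, hNc, hQc⟩ := hm
  obtain ⟨A, hAn, ⟨hAc, hAp⟩, hAcard⟩ := Cfsg.Agent.S0126.result hp hR hnc
  have key : ∀ x : R, x ^ p = 1 → x ∈ A := by
    intro x hx
    by_contra hxA
    obtain ⟨Om, hAOm, hxOm, hOmp⟩ := exists_exp_p_subgroup hp hR A hAp hAcard x hx
    -- restricted quotient map
    let g : Om →* R ⧸ N := (QuotientGroup.mk' N).comp Om.subtype
    have hrange : Nat.card g.range ≤ p := by
      apply card_le_of_cyclic_exp hpp.pos
      rintro ⟨y, u, rfl⟩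
      apply Subtype.ext
      simp only [Subgroup.coe_pow, Subgroup.coe_one]
      rw [← map_pow]
      have : u ^ p = 1 := Subtype.ext (by simpa using hOmp u.1 u.2)
      rw [this, map_one]
    have hkerN : ∀ u : g.ker, ((u : Om) : R) ∈ N := by
      intro u
      have h1 : g u.1 = 1 := u.2
      have h2 : QuotientGroup.mk' N ((u : Om) : R) = 1 := h1
      rw [QuotientGroup.mk'_apply, QuotientGroup.eq_one_iff] at h2
      exact h2
    let f : g.ker →* N := (Om.subtype.comp g.ker.subtype).codRestrict N hkerN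
    have hf : Function.Injective f := by
      intro u v huv
      have h1 : ((f u : N) : R) = ((f v : N) : R) := congrArg Subtype.val huv
      exact Subtype.ext (Subtype.ext h1)
    have hkc : IsCyclic g.ker := isCyclic_of_injective f hf
    have hker : Nat.card g.ker ≤ p := by
      apply card_le_of_cyclic_exp hpp.pos
      intro u
      apply Subtype.ext
      apply Subtype.ext
      simp only [Subgroup.coe_pow, Subgroup.coe_one]
      exact hOmp u.1.1 u.1.2
    have h1 := Subgroup.card_mul_index g.ker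
    rw [Subgroup.index_ker] at h1
    have h2 : Nat.card Om ≤ p * p := by
      rw [← h1]; exact Nat.mul_le_mul hker hrange
    have h7 : A = Om := Subgroup.eq_of_le_of_card_ge hAOm (by rw [hAcard, pow_two]; exact h2)
    exact hxA (h7 ▸ hxOm)
  have hcl : Cfsg.omegaOne p (⊤ : Subgroup R) = A := by
    unfold Cfsg.omegaOne
    apply le_antisymm
    · rw [Subgroup.closure_le]
      intro x hx
      exact key x hx.2
    · intro a ha
      exact Subgroup.subset_closure ⟨Subgroup.mem_top a, hAp a ha⟩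
  rw [hcl]
  exact ⟨⟨hAc, hAp⟩, hAcard⟩

end Cfsg.Agent.S0638
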