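import Cfsg.Statements.S0640
import Cfsg.Agent.Helper32.RankTwoC

set_option autoImplicit false
open Cfsg

namespace Cfsg.Agent.S0640

/-- For odd p, a prime q ≠ p dividing the order of the automorphism group of a p-group of rank at most 2 divides p² - 1 and is less than p. -/
theorem result {R : Type*} [Group R] [Finite R] {p : ℕ} [Fact p.Prime] (hp : p ≠ 2) (hR : IsPGroup p R) (hrk : Cfsg.PRankLE p 2 R) (q : ℕ) (hq : q.Prime) (hqp : q ≠ p) (hdvd : q ∣ Nat.card (MulAut R)) : q ∣ p ^ 2 - 1 ∧ q < p := by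
  have hp' : p.Prime := Fact.out
  haveI : Fact q.Prime := ⟨hq⟩
  obtain ⟨α, hα⟩ := exists_prime_orderOf_dvd_card' q hdvd
  have hαq : α ^ q = 1 := by rw [← hα]; exact pow_orderOf_eq_one α
  have hα1 : α ≠ 1 := by
    rintro rfl
    rw [orderOf_one] at hα
    exact hq.one_lt.ne hα
  have h1 := Cfsg.Agent.Helper32.r2_prime_dvd hp hqp hR hrk α hαq hα1
  refine ⟨h1, ?_⟩
  rw [← Cfsg.Agent.Helper32.r2_sq_sub_one p hp'.one_le] at h1
  have hp1 := hp'.one_lt
  rcases (Nat.Prime.dvd_mul hq).mp h1 with h | h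
  · have := Nat.le_of_dvd (by omega) h
    omega
  · have hle := Nat.le_of_dvd (by omega) h
    have hne : q ≠ p + 1 := by
      intro he
      have hodd : Odd p := hp'.odd_of_ne_two hp
      have heven : Even q := by rw [he]; exact hodd.add_one
      have := (Nat.Prime.even_iff hq).mp heven
      omega
    omega

end Cfsg.Agent.S0640
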