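import Cfsg.Statements.S0679
import Cfsg.Agent.Helper59.Deg11C
import Cfsg.Agent.Helper69.Deg11J
import Cfsg.Agent.Helper71.Deg11L
import Cfsg.Agent.Helper71.Deg11H
import Cfsg.Agent.Helper53.Deg11T
import Cfsg.Agent.Helper53.Deg11ES
import Cfsg.Agent.Helper81.Deg11N

set_option autoImplicit false
open Cfsg

namespace Cfsg.Agent.S0679

open MulAction Cfsg.Agent.Helper59

/-- A non-solvable transitive permutation group on 11 points that does not contain the alternating group is either sharply 4-transitive (of order 7920) or isomorphic to the projective special linear group of degree 2 over the field with 11 elements. -/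
theorem result {α : Type*} [Fintype α] [DecidableEq α] (hα : Fintype.card α = 11) (G : Subgroup (Equiv.Perm α)) [MulAction.IsPretransitive G α] (hG : ¬ Group.IsSolvable G) (hA : ¬ alternatingGroup α ≤ G) : (MulAction.IsMultiplyPretransitive G α 4 ∧ ∀ x : Fin 4 ↪ α, MulAction.stabilizer G x = ⊥) ∨ Nonempty (G ≃* Matrix.ProjectiveSpecialLinearGroup (Fin 2) (ZMod 11)) := by
  haveI : Fact (Nat.Prime 11) := ⟨by norm_num⟩
  have h2 : IsMultiplyPretransitive G α 2 :=
    (Cfsg.Agent.Helper58.burnside_prime_degree hα G).resolve_left hG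
  have D : D11 G α := Cfsg.Agent.Helper69.d11_of_perm hα G h2 hA
  exact deg11_main hα G hG h2 D
    (fun h3 a b c z hab hac hbc hz ha hb hc =>
      Cfsg.Agent.Helper81.d11_no_three D h3 hab hac hbc hz ha hb hc)
    (fun h3 a b c hab hac hbc hK e g hea heb hec ha hb hc he =>
      Cfsg.Agent.Helper53.d11_stab_eight D h3 hab hac hbc hK ha hb hc hea heb hec he)
    (fun h3 a b c hab hac hbc hK => Cfsg.Agent.Helper53.d11_stab_sixteen D h3 hab hac hbc hK)
    (fun hnt a b hab hH => Cfsg.Agent.Helper71.Deg11H.d11_stab_seventy_two D hab hH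
      (fun T hT hcard => Cfsg.Agent.Helper53.d11_nine_six D hnt hab T hT hcard))
    (fun h660 => Cfsg.Agent.Helper71.Deg11L.deg11_card660 hα G h660)

end Cfsg.Agent.S0679
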