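import Mathlib
import Cfsg.Statements.S0690
import Cfsg.Agent.Helper56.ZEnd
import Cfsg.Agent.Helper71.FpfRing

set_option autoImplicit false
open Cfsg

namespace Cfsg.Agent.S0690

/-- Zassenhaus: a perfect non-trivial group of fixed-point-free automorphisms of a finite group is isomorphic to `SL(2,5)`. -/
theorem result {K : Type*} [Group K] [Finite K] (G : Subgroup (MulAut K)) (hfpf : ∀ φ ∈ G, φ ≠ 1 → ∀ k : K, φ k = k → k = 1) (hperf : commutator G = ⊤) (hne : G ≠ ⊥) : Nonempty (G ≃* Matrix.SpecialLinearGroup (Fin 2) (ZMod 5)) := by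
  obtain ⟨R, _, _, ρ, hρ⟩ := Cfsg.Agent.Helper71.exists_fpf_ring G hfpf hperf hne
  have hntG : Nontrivial G := (Subgroup.nontrivial_iff_ne_bot G).mpr hne
  have hfinA : Finite (MulAut K) :=
    Finite.of_injective (fun e : MulAut K => (e : K → K)) DFunLike.coe_injective
  exact Cfsg.Agent.Helper56.zassenhaus_ring hρ hperf

end Cfsg.Agent.S0690
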