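import Cfsg.Statements.S0802
import Cfsg.Agent.Helper40.PSL2Sub

set_option autoImplicit false
open Cfsg

namespace Cfsg.Agent.S0802

/-- PSL_2(p^n) has a subgroup isomorphic to A_4 if and only if it is not the case that p = 2 and n is odd. -/
theorem result {F : Type*} [Field F] [Fintype F] (p n : ℕ) [Fact p.Prime] [CharP F p] (hF : Fintype.card F = p ^ n) : (∃ H : Subgroup (Matrix.ProjectiveSpecialLinearGroup (Fin 2) F), Nonempty (H ≃* alternatingGroup (Fin 4))) ↔ ¬ (p = 2 ∧ Odd n) := by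
  constructor
  · rintro ⟨H, ⟨e⟩⟩ ⟨rfl, hn⟩
    have h2 : (2 : F) = 0 := by exact_mod_cast CharP.cast_eq_zero F 2
    exact Cfsg.Agent.Helper40.PSL2Sub.no_A4_of_two h2
      (Cfsg.Agent.Helper40.PSL2Sub.no_omega h2 n hF hn) H e
  · intro h
    apply Cfsg.Agent.Helper40.PSL2Sub.exists_A4
    by_cases hp : p = 2
    · right
      subst hp
      exact Cfsg.Agent.Helper40.PSL2Sub.exists_omega n hF
        (Nat.not_odd_iff_even.1 (fun ho => h ⟨rfl, ho⟩))
    · left
      rw [hF]
      exact Nat.odd_iff.1 (Odd.pow ((Fact.out : p.Prime).odd_of_ne_two hp))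

end Cfsg.Agent.S0802
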