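import Cfsg.Statements.S0803
import Cfsg.Agent.Helper40.PSL2Sub

set_option autoImplicit false
open Cfsg

namespace Cfsg.Agent.S0803

/-- PSL_2(q) has a subgroup isomorphic to S_4 iff q² ≡ 1 (mod 16). -/
theorem result {F : Type*} [Field F] [Fintype F] {q : ℕ} (hF : Fintype.card F = q) : (∃ H : Subgroup (Matrix.ProjectiveSpecialLinearGroup (Fin 2) F), Nonempty (H ≃* Equiv.Perm (Fin 4))) ↔ q ^ 2 % 16 = 1 := by
  subst hF
  constructor
  · rintro ⟨H, ⟨e⟩⟩
    by_cases h2 : (2 : F) = 0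
    · exact (Cfsg.Agent.Helper40.PSL2Sub.no_S4_of_two h2 H e).elim
    · apply Cfsg.Agent.Helper40.PSL2Sub.sq_mod_sixteen h2
      have h1 : Nat.card H = 24 := by
        rw [Nat.card_congr e.toEquiv, Cfsg.Agent.Helper40.PresSmall.s4_card]
      exact h1 ▸ Subgroup.card_subgroup_dvd_card H
  · exact Cfsg.Agent.Helper40.PSL2Sub.exists_S4

end Cfsg.Agent.S0803
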