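import Cfsg.Statements.S0822
import Cfsg.Agent.Helper57.U4Data
import Cfsg.Agent.Helper57.SpCongr
import Cfsg.Agent.Helper57.SUCongr
import Cfsg.Agent.Helper5.SympSimple
import Cfsg.Agent.Helper5.SympCard
import Cfsg.Agent.Helper5.UnitPSU

set_option autoImplicit false
open Cfsg

namespace Cfsg.Agent.S0822

open Cfsg.Agent.Helper57 Cfsg.Agent.Helper5 Cfsg.Agent.Helper98 Matrix

/-- the symplectic group over the field with three elements -/
abbrev Sp3 : Type := Matrix.symplecticGroup (Fin 2) (ZMod 3)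
/-- the vectors over the field with three elements -/
abbrev V3 : Type := Fin 2 ⊕ Fin 2 → ZMod 3
/-- the special unitary group over the concrete field with four elements -/
abbrev A4 : Type := ↥(Cfsg.SU 4 F4 2)
/-- the vectors over the field with four elements -/
abbrev S4 : Type := Fin 4 → F4

/-- the action on sets of vectors -/
def rho (m : Sp3) (W : Set V3) : Set V3 :=
  (fun x => (m : Matrix (Fin 2 ⊕ Fin 2) (Fin 2 ⊕ Fin 2) (ZMod 3)) *ᵥ x) '' W

/-- the action of the unitary group -/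
def tau (a : A4) (s : S4) : S4 :=
  ((a : SpecialLinearGroup (Fin 4) F4) : Matrix (Fin 4) (Fin 4) F4) *ᵥ s

/-- a point of the projective space, as the set of the two vectors spanning it -/
def ptSet (q : Fin 41) : Set V3 := {u4P q, -u4P q}

/-- the family of points -/
def fam (s : S4) : Set V3 := ptSet (u4Idx s)

theorem rho_one (W : Set V3) : rho 1 W = W := by
  simp [rho]

theorem rho_mul (m m' : Sp3) (W : Set V3) : rho (m * m') W = rho m (rho m' W) := by
  simp only [rho, Set.image_image, sp_mul_mulVec]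

theorem tau_one (s : S4) : tau 1 s = s := by simp [tau]

theorem tau_mul (a a' : A4) (s : S4) : tau (a * a') s = tau a (tau a' s) := by
  simp [tau, Matrix.mulVec_mulVec]

/-! ### The generators -/

/-- the four transvections -/
def gen (i : Fin 4) : Sp3 := spTv 2 (u4Gen i) 1

theorem gen_mulVec (i : Fin 4) (x : V3) :
    (gen i : Matrix (Fin 2 ⊕ Fin 2) (Fin 2 ⊕ Fin 2) (ZMod 3)) *ᵥ x = u4Tv (u4Gen i) x := by
  rw [gen, spTv_mulVec, one_mul, Helper13.sympForm_apply, Fin.sum_univ_two]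
  funext k
  simp only [u4Tv, Pi.add_apply, Pi.smul_apply, smul_eq_mul]

theorem rho_gen (i : Fin 4) (q : Fin 41) : rho (gen i) (ptSet q) = ptSet (u4Pi i q) := by
  rw [rho, ptSet, Set.image_pair, Matrix.mulVec_neg, gen_mulVec]
  rcases u4_tv i q with h | h
  · rw [h]
    rfl
  · rw [h, neg_neg, ptSet, Set.pair_comm]

instance fact_two : Fact (Nat.Prime 2) := ⟨Nat.prime_two⟩

instance charP_F4 : CharP F4 2 :=
  charP_of_card_eq_prime_pow (p := 2) (f := 2) (by rw [F4.card_eq]; norm_num)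

theorem mem_su (A : Matrix (Fin 4) (Fin 4) F4) (hdet : A.det = 1)
    (hU : Aᵀ * A.map (fun x => x * x) = 1) :
    (⟨A, hdet⟩ : SpecialLinearGroup (Fin 4) F4) ∈ Cfsg.SU 4 F4 2 := by
  have hU' : Aᵀ * A.map (· ^ 2) = 1 := by
    have h1 : A.map (· ^ 2) = A.map (fun x => x * x) := by
      apply Matrix.ext
      intro i j
      simp [pow_two]
    rw [h1, hU]
  intro u v
  exact hermForm_mulVec_of_unitary' 2 4 A hU' u v

/-- the unitary matrices of the four transvections -/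
def aU (i : Fin 4) : A4 := ⟨⟨u4A i, u4_det i⟩, mem_su (u4A i) (u4_det i) (u4_unitary i)⟩

theorem u4Mv_eq (B : Matrix (Fin 4) (Fin 4) F4) (s : S4) : B *ᵥ s = u4Mv B s := by
  funext i
  simp [Matrix.mulVec, dotProduct, Fin.sum_univ_four, u4Mv]

theorem u4S_eta (s : S4) : s = u4S (s 0) (s 1) (s 2) (s 3) := by
  funext i
  fin_cases i <;> rfl

theorem tau_aU (i : Fin 4) (s : S4) : tau (aU i) s = u4Mv (u4A i) s := u4Mv_eq (u4A i) s

theorem gen_fam (i : Fin 4) (s : S4) : rho (gen i) (fam s) = fam (tau (aU i) s) := by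
  rw [fam, rho_gen, fam, tau_aU]
  have h := u4_act i (s 0) (s 1) (s 2) (s 3)
  rw [← u4S_eta s] at h
  rw [h]

theorem ptSet_inj (q q' : Fin 41) (h : ptSet q = ptSet q') : q = q' := by
  apply u4P_inj
  have h1 : u4P q ∈ ptSet q' := by
    rw [← h]
    exact Set.mem_insert _ _
  rcases h1 with h2 | h2
  · exact Or.inl h2
  · exact Or.inr h2

theorem hA (a : A4) (h : ∀ s, fam (tau a s) = fam s) : a = 1 := by
  have hidx : ∀ s, u4Idx (tau a s) = u4Idx s := fun s => ptSet_inj _ _ (h s)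
  set A : Matrix (Fin 4) (Fin 4) F4 := ((a : SpecialLinearGroup (Fin 4) F4) :
    Matrix (Fin 4) (Fin 4) F4) with hAdef
  have htau : ∀ s, tau a s = u4Mv A s := fun s => u4Mv_eq A s
  have e0 : u4Mv A (u4S 1 0 0 0) = u4S (A 0 0) (A 1 0) (A 2 0) (A 3 0) := by
    funext i
    fin_cases i <;> simp [u4Mv, u4S]
  have e1 : u4Mv A (u4S 0 1 0 0) = u4S (A 0 1) (A 1 1) (A 2 1) (A 3 1) := by
    funext i
    fin_cases i <;> simp [u4Mv, u4S]
  have e2 : u4Mv A (u4S 0 0 1 0) = u4S (A 0 2) (A 1 2) (A 2 2) (A 3 2) := by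
    funext i
    fin_cases i <;> simp [u4Mv, u4S]
  have e3 : u4Mv A (u4S 0 0 0 1) = u4S (A 0 3) (A 1 3) (A 2 3) (A 3 3) := by
    funext i
    fin_cases i <;> simp [u4Mv, u4S]
  obtain ⟨a10, a20, a30⟩ := (u4_fix (A 0 0) (A 1 0) (A 2 0) (A 3 0)).1
    (by rw [← e0, ← htau]; exact hidx _)
  obtain ⟨a01, a21, a31⟩ := (u4_fix (A 0 1) (A 1 1) (A 2 1) (A 3 1)).2.1
    (by rw [← e1, ← htau]; exact hidx _)
  obtain ⟨a02, a12, a32⟩ := (u4_fix (A 0 2) (A 1 2) (A 2 2) (A 3 2)).2.2.1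
    (by rw [← e2, ← htau]; exact hidx _)
  obtain ⟨a03, a13, a23⟩ := (u4_fix (A 0 3) (A 1 3) (A 2 3) (A 3 3)).2.2.2.1
    (by rw [← e3, ← htau]; exact hidx _)
  have e123 : u4Mv A (u4S 1 1 1 0) = u4S (A 0 0) (A 1 1) (A 2 2) 0 := by
    funext i
    fin_cases i <;> simp [u4Mv, u4S, a10, a20, a30, a01, a21, a31, a02, a12, a32]
  have e234 : u4Mv A (u4S 0 1 1 1) = u4S 0 (A 1 1) (A 2 2) (A 3 3) := by
    funext i
    fin_cases i <;> simp [u4Mv, u4S, a01, a21, a31, a02, a12, a32, a03, a13, a23]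
  obtain ⟨d01, d12⟩ := (u4_fix (A 0 0) (A 1 1) (A 2 2) 0).2.2.2.2.1
    (by rw [← e123, ← htau]; exact hidx _)
  obtain ⟨_, d23⟩ := (u4_fix 0 (A 1 1) (A 2 2) (A 3 3)).2.2.2.2.2
    (by rw [← e234, ← htau]; exact hidx _)
  have hsc : A = (A 0 0) • (1 : Matrix (Fin 4) (Fin 4) F4) := by
    ext i j
    fin_cases i <;> fin_cases j <;>
      simp [a10, a20, a30, a01, a21, a31, a02, a12, a32, a03, a13, a23, ← d01, ← d12, ← d23]
  obtain ⟨l, hl⟩ : ∃ l : F4, A = l • (1 : Matrix (Fin 4) (Fin 4) F4) := ⟨A 0 0, hsc⟩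
  have hdet : A.det = 1 := (a : SpecialLinearGroup (Fin 4) F4).2
  rw [hl, Matrix.det_smul, Matrix.det_one, Fintype.card_fin, mul_one] at hdet
  have hl1 : l = 1 := u4_fourth l (by rw [← hdet]; ring)
  rw [hl1, one_smul] at hl
  apply Subtype.ext
  apply Subtype.ext
  exact hl

/-! ### Generation -/

/-- the product of a word in the four transvections -/
def wSp (w : List (Fin 4)) : Sp3 := (w.map gen).prod

theorem wSp_mulVec (w : List (Fin 4)) (x : V3) :
    (wSp w : Matrix (Fin 2 ⊕ Fin 2) (Fin 2 ⊕ Fin 2) (ZMod 3)) *ᵥ x = u4Act w x := by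
  induction w with
  | nil => simp [wSp, u4Act]
  | cons i w ih =>
    have h1 : wSp (i :: w) = gen i * wSp w := by simp [wSp]
    rw [h1, sp_mul_mulVec, ih, gen_mulVec]
    rfl

theorem wSp_mem (w : List (Fin 4)) : wSp w ∈ Subgroup.closure (Set.range gen) := by
  apply Subgroup.list_prod_mem
  intro x hx
  obtain ⟨i, _, rfl⟩ := List.mem_map.1 hx
  exact Subgroup.subset_closure ⟨i, rfl⟩

theorem u4V_eta (u : V3) :
    u = u4V (u (Sum.inl 0)) (u (Sum.inl 1)) (u (Sum.inr 0)) (u (Sum.inr 1)) := by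
  funext k
  rcases k with i | i <;> fin_cases i <;> rfl

theorem closure_eq_top : Subgroup.closure (Set.range gen) = ⊤ := by
  apply sp_closure_eq_top (by decide) (Subgroup.closure (Set.range gen)) (u4Gen 0)
    (Subgroup.subset_closure ⟨0, rfl⟩)
  intro u hu
  rw [u4V_eta u] at hu ⊢
  refine ⟨wSp (u4Word (u (Sum.inl 0)) (u (Sum.inl 1)) (u (Sum.inr 0)) (u (Sum.inr 1))),
    wSp_mem _, ?_⟩
  rw [wSp_mulVec]
  rcases u4_trans (u (Sum.inl 0)) (u (Sum.inl 1)) (u (Sum.inr 0)) (u (Sum.inr 1)) with h | h | h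
  · exact absurd h hu
  · exact Or.inl h
  · exact Or.inr h

/-! ### The homomorphism -/

theorem exists_hom : ∃ θ : Sp3 →* A4, ∀ (g : Sp3) (a : A4),
    θ g = a ↔ ∀ s, rho g (fam s) = fam (tau a s) := by
  obtain ⟨θ, hθ⟩ := hom_of_equivariant_family rho rho_one rho_mul tau tau_one tau_mul fam hA
    (Set.range gen) (by
      rintro m ⟨i, rfl⟩
      exact ⟨aU i, gen_fam i⟩)
  have hmem : ∀ g : Sp3, g ∈ Subgroup.closure (Set.range gen) := fun g => by
    rw [closure_eq_top]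
    trivial
  refine ⟨θ.comp ((MonoidHom.id Sp3).codRestrict _ hmem), fun g a => ?_⟩
  exact hθ ⟨g, hmem g⟩ a

theorem card_psp : Nat.card (Cfsg.PSp 2 (ZMod 3)) = 25920 := by
  have h1 := Subgroup.card_eq_card_quotient_mul_card_subgroup (Subgroup.center Sp3)
  rw [card_sp, card_sp_center (by norm_num)] at h1
  simp [Finset.prod_range_succ, ZMod.card] at h1
  show Nat.card (Sp3 ⧸ Subgroup.center Sp3) = 25920
  omega

theorem card_su : Nat.card A4 = 25920 := by
  have h1 := card_SU_mul (F := F4) (q := 2) (n := 4) (by rw [F4.card_eq]; norm_num) (by norm_num)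
  rw [card_GU (F := F4) (q := 2) (by rw [F4.card_eq]; norm_num) 4] at h1
  have h2 : (2 : ℕ) ^ (4 * (4 - 1) / 2) *
      ∏ i ∈ Finset.range 4, (if Even i then 2 ^ (i + 1) + 1 else 2 ^ (i + 1) - 1) = 77760 := by
    decide
  rw [h2] at h1
  show Nat.card ↥(Cfsg.SU 4 F4 2) = 25920
  omega

theorem psp_iso : Nonempty (Cfsg.PSp 2 (ZMod 3) ≃* A4) := by
  obtain ⟨θ, hθ⟩ := exists_hom
  have hle : Subgroup.center Sp3 ≤ θ.ker := by
    intro z hz
    rw [MonoidHom.mem_ker, hθ]
    intro s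
    rw [tau_one]
    rcases (sp_mem_center_iff z).1 hz with h | h
    · rw [rho, h]
      simp
    · rw [rho, h, fam, ptSet]
      simp [Set.image_pair, Matrix.neg_mulVec, Set.pair_comm]
  let φ : Cfsg.PSp 2 (ZMod 3) →* A4 := QuotientGroup.lift (Subgroup.center Sp3) θ hle
  have hsimple : IsSimpleGroup (Cfsg.PSp 2 (ZMod 3)) :=
    isSimpleGroup_PSp (by norm_num) (fun _ => by rw [ZMod.card])
  have hker : φ.ker = ⊥ := by
    rcases (φ.normal_ker).eq_bot_or_eq_top with h | h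
    · exact h
    · exfalso
      have h1 : φ (QuotientGroup.mk (gen 0)) = 1 := by
        rw [← MonoidHom.mem_ker, h]
        trivial
      have h2 : θ (gen 0) = aU 0 := (hθ _ _).2 (gen_fam 0)
      have h3 : aU 0 = 1 := by
        rw [← h2]
        exact h1
      have h4 : u4A 0 0 1 = (1 : Matrix (Fin 4) (Fin 4) F4) 0 1 := congrArg (fun a : A4 =>
        ((a : SpecialLinearGroup (Fin 4) F4) : Matrix (Fin 4) (Fin 4) F4) 0 1) h3
      exact u4A_ne (by simpa using h4)
  have hinj : Function.Injective φ := (MonoidHom.ker_eq_bot_iff φ).1 hker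
  have hfin : Finite A4 := Nat.finite_of_card_ne_zero (by rw [card_su]; norm_num)
  have hbij : Function.Bijective φ :=
    hinj.bijective_of_nat_card_le (by rw [card_su, card_psp])
  exact ⟨MulEquiv.ofBijective φ hbij⟩

/-- PSU_4(2) ≅ PSp_4(3): with |F| = 4 and |K| = 3, the projective special unitary group of the standard Hermitian form on F^4 is isomorphic to PSp_4(K). -/
theorem result {F K : Type*} [Field F] [Fintype F] [Field K] [Fintype K] (hF : Fintype.card F = 4) (hK : Fintype.card K = 3) : Nonempty (Cfsg.PSU 4 F 2 ≃* Cfsg.PSp 2 K) := by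
  have : Fact (Nat.Prime 3) := ⟨Nat.prime_three⟩
  have eK : ZMod 3 ≃+* K := ZMod.ringEquivOfPrime K Nat.prime_three hK
  have eF : F ≃+* F4 := FiniteField.ringEquivOfCardEq (by rw [hF, F4.card_eq])
  obtain ⟨e1⟩ := psp_iso
  have hc : Subgroup.center (Cfsg.SU 4 F 2) = ⊥ := by
    apply Subgroup.eq_bot_of_card_eq
    rw [card_center_SU (F := F) (q := 2) (by rw [hF]; norm_num) 4 (by norm_num)]
    rfl
  exact ⟨((QuotientGroup.quotientMulEquivOfEq hc).trans QuotientGroup.quotientBot).trans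
    ((suCongr 4 eF 2).trans (e1.symm.trans (pspCongr 2 eK)))⟩

end Cfsg.Agent.S0822
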