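import Cfsg.Statements.S0914
import Cfsg.Agent.Helper81.BlockDefect

set_option autoImplicit false
open Cfsg

namespace Cfsg.Agent.S0914

open Cfsg.Agent.Helper81 in
/-- Let χ be an irreducible character of the finite group G, p a prime and M a maximal ideal of the algebraic integers containing p. Then p does not divide the integer (Nat.card G) / χ(1) if and only if the block of χ relative to M consists of χ alone. -/
theorem result {G : Type*} [Group G] [Finite G] (p : ℕ) [Fact p.Prime] (M : Ideal Cfsg.AlgInt) (hM : Cfsg.IsPModular p M) (χ : Cfsg.IrrCharacter G) : ¬ p ∣ Nat.card G / Cfsg.charDegree (χ : G → ℂ) ↔ Cfsg.blockOf M (χ : G → ℂ) = {χ} := by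
  classical
  have := Fintype.ofFinite G
  have hp : p.Prime := Fact.out
  have hP : M.IsPrime := isPrime_of_isPModular hM
  have hMtop := ne_top_of_isPModular hM
  obtain ⟨m, hm⟩ := charDegree_dvd_card χ
  have hd0 : Cfsg.charDegree (χ : G → ℂ) ≠ 0 := (charDegree_pos χ).ne'
  have hdiv : Nat.card G / Cfsg.charDegree (χ : G → ℂ) = m := by
    rw [hm, Nat.mul_div_cancel_left _ (Nat.pos_of_ne_zero hd0)]
  rw [hdiv]
  have hG0 : Nat.card G ≠ 0 := Nat.card_pos.ne'
  have hm0 : m ≠ 0 := by
    rintro rfl
    rw [mul_zero] at hm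
    exact hG0 hm
  have hcoef : ∀ g : G, Cfsg.blockCoeff ({χ} : Set (Cfsg.IrrCharacter G)) g
      = (m : ℂ)⁻¹ * (χ : G → ℂ) g⁻¹ := by
    intro g
    rw [Cfsg.blockCoeff, finsum_mem_singleton, irr_one_eq_charDegree, hm,
      ← Helper77.irr_inv]
    have h1 : ((Cfsg.charDegree (χ : G → ℂ) : ℕ) : ℂ) ≠ 0 := by exact_mod_cast hd0
    have h2 : (m : ℂ) ≠ 0 := by exact_mod_cast hm0
    push_cast
    field_simp
  constructor
  · intro h
    apply Set.Subset.antisymm
    · apply Helper77.blockOf_subset_of_memLocalRing hM.2.1 _ (Set.mem_singleton χ)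
      intro g
      rw [hcoef]
      exact memLocalRing_mul
        (memLocalRing_inv (memLocalRing_natCast hMtop m) (not_memLocalIdeal_natCast hM h))
        (memLocalRing_of_isIntegral hMtop (irr_isIntegral χ g⁻¹))
    · rw [Set.singleton_subset_iff]
      exact mem_blockOf_self χ
  · intro hB hpm
    have hblock : Cfsg.IsPBlock M ({χ} : Set (Cfsg.IrrCharacter G)) := ⟨χ, hB.symm⟩
    -- χ vanishes at p-singular elements
    have hvan : ∀ y : G, p ∣ orderOf y → (χ : G → ℂ) y = 0 := by
      intro y hy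
      have hy' : p ∣ orderOf y⁻¹ := by rwa [orderOf_inv]
      have h1 := Helper77.blockCoeff_eq_zero_of_dvd_orderOf hM hblock hy'
      rw [hcoef, inv_inv] at h1
      have h2 : (m : ℂ) ≠ 0 := by exact_mod_cast hm0
      rcases mul_eq_zero.mp h1 with h3 | h3
      · exact absurd (inv_eq_zero.mp h3) h2
      · exact h3
    obtain ⟨P⟩ : Nonempty (Sylow p G) := inferInstance
    have hPcard : Nat.card (P : Subgroup G) = p ^ (Nat.card G).factorization p :=
      Sylow.card_eq_multiplicity P
    obtain ⟨n, hn⟩ := irr_sum_subgroup (P : Subgroup G) χ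
    have hsum : ∑ x : (P : Subgroup G), (χ : G → ℂ) x = (χ : G → ℂ) 1 := by
      rw [Finset.sum_eq_single (1 : (P : Subgroup G))]
      · simp
      · intro u _ hu
        apply hvan
        obtain ⟨k₀, hk₀⟩ := P.isPGroup' u
        obtain ⟨k, -, hk⟩ := (Nat.dvd_prime_pow hp).mp (orderOf_dvd_of_pow_eq_one hk₀)
        rw [Subgroup.orderOf_coe, hk]
        have hk0 : k ≠ 0 := by
          rintro rfl
          rw [pow_zero, orderOf_eq_one_iff] at hk
          exact hu hk
        exact dvd_pow_self p hk0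
      · intro h; exact absurd (Finset.mem_univ _) h
    rw [hsum, irr_one_eq_charDegree, hPcard] at hn
    have hn' : Cfsg.charDegree (χ : G → ℂ) = p ^ (Nat.card G).factorization p * n := by
      exact_mod_cast hn
    obtain ⟨m', rfl⟩ := hpm
    have hnot := Nat.pow_succ_factorization_not_dvd hG0 hp
    obtain ⟨a, ha⟩ : ∃ a : ℕ, a = (Nat.card G).factorization p := ⟨_, rfl⟩
    rw [← ha] at hnot hn'
    apply hnot
    rw [hm, hn']
    exact ⟨n * m', by ring⟩

end Cfsg.Agent.S0914
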