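import Cfsg.Statements.S0955
import Cfsg.Agent.Helper16.BrauerCorr

set_option autoImplicit false
open Cfsg

namespace Cfsg.Agent.S0955

/-- Let D be a defect group of a block of the finite group G relative to a maximal ideal M of the algebraic integers containing the prime p. Then D is the largest normal p-subgroup of its own normalizer: O_p(N_G(D)) = D. -/
theorem result {G : Type*} [Group G] [Finite G] (p : ℕ) [Fact p.Prime] (M : Ideal Cfsg.AlgInt) (hM : Cfsg.IsPModular p M) (B : Set (Cfsg.IrrCharacter G)) (hB : Cfsg.IsPBlock M B) (D : Subgroup G) (hD : Cfsg.IsDefectGroup p M B D) : (Cfsg.pCore p (Subgroup.normalizer (D : Set G))).map (Subgroup.normalizer (D : Set G)).subtype = D := by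
  classical
  haveI := Fintype.ofFinite G
  have hMm := hM.2.1
  set N : Subgroup G := Subgroup.normalizer (D : Set G) with hN
  haveI : Fintype N := Fintype.ofFinite _
  obtain ⟨-, -, -, -, hDp⟩ := Helper16.isDefectGroup_exists_data hD
  have hDN : D ≤ N := Subgroup.le_normalizer
  have hCN : Subgroup.centralizer (D : Set G) ≤ N := Subgroup.centralizer_le_normalizer _
  obtain ⟨b, hind⟩ := Helper16.exists_isInducedBlock_of_conjLE hM D N hDp hDN hCN le_rfl hB hD
    (Helper16.ConjLE.of_le le_rfl)
  obtain ⟨Db, hDb⟩ := Helper16.exists_isDefectGroup (p := p) hMm hind.1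
  haveI hQn : (Cfsg.pCore p N).Normal := Subgroup.sSup_normal _ (fun _ h => h.1)
  have hQp : IsPGroup p (Cfsg.pCore p N) :=
    Sylow.sSup_of_normal _ (fun _ h => h.2) (fun _ h => h.1)
  have hQDb : Cfsg.pCore p N ≤ Db :=
    Helper16.normal_pSubgroup_le_defectGroup hM (Cfsg.pCore p N) hQp hind.1 hDb
  have hD'Q : D.subgroupOf N ≤ Cfsg.pCore p N :=
    le_sSup ⟨Subgroup.normal_subgroupOf_of_le_normalizer le_rfl, hDp.comap_subtype⟩
  have h2 := Helper16.induced_defect_conjLE hM N hind hDb hD
  have hcard : Nat.card (Cfsg.pCore p N) ≤ Nat.card (D.subgroupOf N) := by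
    calc Nat.card (Cfsg.pCore p N) ≤ Nat.card Db := Subgroup.card_le_of_le hQDb
      _ = Nat.card (Db.map N.subtype) :=
        (Subgroup.card_map_of_injective N.subtype_injective).symm
      _ ≤ Nat.card D := h2.card_le
      _ = Nat.card (D.subgroupOf N) :=
        (Nat.card_congr (Subgroup.subgroupOfEquivOfLe hDN).toEquiv).symm
  have h3 : D.subgroupOf N = Cfsg.pCore p N := Subgroup.eq_of_le_of_card_ge hD'Q hcard
  rw [← h3]
  exact Subgroup.map_subgroupOf_eq_of_le hDN

end Cfsg.Agent.S0955
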