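import Cfsg.Statements.S0975
import Cfsg.Agent.Helper9.BrauerP

set_option autoImplicit false
set_option maxHeartbeats 1000000
set_option linter.style.haveILetI false
open Cfsg

namespace Cfsg.Agent.S0975

open Subgroup Cfsg.Agent.Helper9.OrdTools Cfsg.Agent.Helper9.BrauerP

theorem arith_sylow : ∀ d, d ∣ 288 → d % 13 = 1 → d = 1 ∨ d = 144 := by
  intro d hd
  have hle : d ≤ 288 := Nat.le_of_dvd (by norm_num) hd
  revert hd
  have key : ∀ d ≤ 288, d ∣ 288 → d % 13 = 1 → d = 1 ∨ d = 144 := by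
    decide +kernel
  exact key d hle

theorem arith_factor {e c : ℕ} (he : 1 < e) (h : e * c = 2) : e = 2 ∧ c = 1 := by
  have hc0 : 0 < c := by
    rcases Nat.eq_zero_or_pos c with h0 | h0
    · rw [h0] at h; simp at h
    · exact h0
  have hele : e ≤ 2 := by nlinarith
  have hcle : c ≤ 2 := by nlinarith
  interval_cases e <;> interval_cases c <;> simp_all

theorem arith_final : ∀ f ≤ 61, ∀ D ≤ 24, ¬ (2 ≤ f ∧ f ∣ 3744 ∧ 2 ≤ D ∧ D ∣ 3744 ∧
    1 + f ^ 2 + 6 * D ^ 2 ≤ 3744 ∧
    ((f % 13 = 1 ∧ D = f + 1) ∨ ((f + 1) % 13 = 0 ∧ D + 1 = f))) := by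
  decide +kernel


/-- No finite simple group has order 3744 = 2^5 * 3^2 * 13. -/
theorem result {G : Type*} [Group G] [Finite G] [IsSimpleGroup G] : Nat.card G ≠ 3744 := by
  intro h
  haveI : Fact (Nat.Prime 13) := ⟨by norm_num⟩
  obtain ⟨P⟩ : Nonempty (Sylow 13 G) := inferInstance
  have hP : Nat.card (P : Subgroup G) = 13 := by
    have := sylow_card 1 288 (h.trans (by norm_num)) (by norm_num) P
    simpa using this
  obtain ⟨hd, hm, hne, hN⟩ := sylow_num P (by rw [hP]; norm_num) (by rw [hP, h]; norm_num)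
  have hidxP : (P : Subgroup G).index = 288 := by
    have := (P : Subgroup G).card_mul_index
    rw [hP, h] at this
    omega
  rw [hidxP] at hd
  have hn : Nat.card (Sylow 13 G) = 144 := by
    rcases arith_sylow _ hd hm with h1 | h1
    · exact absurd h1 hne
    · exact h1
  obtain ⟨e, he, he1, hNe, ⟨c, hc⟩⟩ := normalizer_centralizer_prime P hP (by rw [h]; norm_num)
  rw [hn, h] at hN
  have hec : e * c = 2 := by
    rw [hc] at hNe
    rw [hNe] at hN
    nlinarith
  obtain ⟨he2, hc1⟩ := arith_factor he1 hec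
  rw [he2] at hNe
  obtain ⟨f, D, hf2, hfd, hD2, hDd, hsq, hcases⟩ :=
    brauer_two P hP (by rw [h]; norm_num) (by norm_num) hNe
  rw [h] at hfd hDd hsq
  norm_num at hsq
  have hf60 : f ≤ 61 := by nlinarith
  have hD20 : D ≤ 24 := by nlinarith
  exact arith_final f hf60 D hD20 ⟨hf2, hfd, hD2, hDd, hsq, hcases⟩

end Cfsg.Agent.S0975
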