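import Cfsg.Statements.S0976
import Cfsg.Agent.Helper8.Ord4032A
import Cfsg.Agent.Helper8.Ord4032Char
import Cfsg.Agent.Helper41.Ord4032B
import Cfsg.Agent.Helper41.Ord4032F
import Cfsg.Agent.Helper61.Ord4032C
import Cfsg.Agent.Helper61.Ord4032E

set_option autoImplicit false
set_option maxHeartbeats 1000000
set_option linter.style.haveILetI false
open Cfsg

namespace Cfsg.Agent.S0976

/-- No finite simple group has order 4032 = 2^6 * 3^2 * 7. -/
theorem result {G : Type*} [Group G] [Finite G] [IsSimpleGroup G] : Nat.card G ≠ 4032 := by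
  intro h
  haveI : Fact (Nat.Prime 7) := ⟨by norm_num⟩
  obtain ⟨P⟩ : Nonempty (Sylow 7 G) := inferInstance
  have hP : Nat.card (P : Subgroup G) = 7 := by
    have := Cfsg.Agent.Helper9.OrdTools.sylow_card 1 576 (h.trans (by norm_num))
      (by norm_num) P
    simpa using this
  obtain ⟨hd, hm, hne, hN⟩ := Cfsg.Agent.Helper9.OrdTools.sylow_num P (by rw [hP]; norm_num)
    (by rw [hP, h]; norm_num)
  have hidxP : (P : Subgroup G).index = 576 := by
    have := (P : Subgroup G).card_mul_index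
    rw [hP, h] at this
    omega
  rw [hidxP] at hd
  obtain ⟨e, he, he1, hNe, ⟨c, hc⟩⟩ :=
    Cfsg.Agent.Helper9.OrdTools.normalizer_centralizer_prime P hP (by rw [h]; norm_num)
  have he6 : e ≤ 6 := Nat.le_of_dvd (by norm_num) he
  rw [h] at hN
  have hna : ∃ a b : G, a * b ≠ b * a :=
    Cfsg.Agent.Helper8.Ord459.exists_not_comm' P (by rw [hP]; norm_num) (by rw [hP, h]; norm_num)
  rcases Cfsg.Agent.Helper8.Ord4032.arith_sylow _ hd hm with h1 | h1 | h1 | h1 | h1
  · exact hne h1
  · -- `n_7 = 8`: an involution centralizes `P`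
    rw [h1] at hN
    have h2 : 2 ∣ Nat.card (Subgroup.centralizer ((P : Subgroup G) : Set G)) := by
      rw [hc] at hNe ⊢
      rw [hNe] at hN
      have hec : e * c = 72 := by nlinarith
      have h2c : 2 ∣ c := by
        interval_cases e <;> omega
      exact Dvd.dvd.mul_left h2c 7
    haveI : Fact (Nat.Prime 2) := ⟨Nat.prime_two⟩
    obtain ⟨x, hx⟩ := exists_prime_orderOf_dvd_card' 2 h2
    refine Cfsg.Agent.Helper8.Ord459.no_commuting_prime (p := 7) (q := 2) (by norm_num)
      (by norm_num) P hP (x : G) x.2 ?_ ?_ ?_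
    · rw [Subgroup.orderOf_coe]; exact hx
    · rw [h1]; norm_num
    · rw [h1]; norm_num
  · -- `n_7 = 36` (helper41)
    exact Cfsg.Agent.Helper41.ord4032_n7_ne_36 h h1
  · -- `n_7 = 64` (helper61)
    exact Cfsg.Agent.Helper61.ord4032_n7_ne_64 h (Cfsg.Agent.Helper8.Ord4032.index_ne_8 h) h1
  · -- `n_7 = 288`: dihedral Sylow `7`-normalizer, a subgroup of index `21`, characters
    rw [h1] at hN
    have hN14 : Nat.card (Subgroup.normalizer ((P : Subgroup G) : Set G)) = 14 := by omega
    obtain ⟨M, hM⟩ := Cfsg.Agent.Helper41.ord4032_exists_index21 h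
      (Cfsg.Agent.Helper61.ord4032_n2_ne_9 h) h1
    obtain ⟨x, t, hx, -, hcent, hnorm, ht⟩ := Cfsg.Agent.Helper8.Ord4032.dihedral_data h P hN14
    refine Cfsg.Agent.Helper8.Ord4032.char_contra h ?_ x t hx hcent hnorm ht M hM
    intro f g
    exact Cfsg.Agent.Helper9.OrdTools.hom_trivial hna f g

end Cfsg.Agent.S0976
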