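-- Statement S0978: no finite simple group has order 5040 (CALL S0978, assembled by helper8).
import Cfsg.Statements.S0978
import Cfsg.Agent.Helper8.O5040Main
import Cfsg.Agent.Helper19.O5040E15
import Cfsg.Agent.Helper93.O5040E21
import Cfsg.Agent.Helper4.O5040E2
import Cfsg.Agent.Helper81.O5040E3

set_option autoImplicit false
set_option linter.style.haveILetI false
set_option maxHeartbeats 1000000
open Cfsg

namespace Cfsg.Agent.S0978

open Subgroup Cfsg.Agent.Helper9.OrdTools Cfsg.Agent.Helper8 Cfsg.Agent.Helper19 Cfsg.Agent.Helper93 Cfsg.Agent.Helper4 Cfsg.Agent.Helper81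

/-- No finite simple group has order 5040 = 2^4 * 3^2 * 5 * 7. -/
theorem result {G : Type*} [Group G] [Finite G] [IsSimpleGroup G] : Nat.card G ≠ 5040 := by
  intro hG
  haveI : Fact (Nat.Prime 7) := ⟨by norm_num⟩
  haveI : Fact (Nat.Prime 2) := ⟨Nat.prime_two⟩
  obtain ⟨P⟩ : Nonempty (Sylow 7 G) := inferInstance
  have hS : ∀ P : Sylow 7 G, Nat.card (P : Subgroup G) = 7 := fun P => by
    have := sylow_card (p := 7) 1 720 (hG.trans (by norm_num)) (by norm_num) P
    simpa using this
  have hP := hS P
  obtain ⟨hd, hm, hne, hN⟩ := sylow_num P (by rw [hP]; norm_num) (by rw [hP, hG]; norm_num)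
  have hidxP : (P : Subgroup G).index = 720 := by
    have := (P : Subgroup G).card_mul_index
    rw [hP, hG] at this
    omega
  rw [hidxP] at hd
  rw [hG] at hN
  obtain ⟨e, he6, he1, hNC, h7C⟩ := normalizer_centralizer_prime P hP (by rw [hG]; norm_num)
  have he : e = 2 ∨ e = 3 ∨ e = 6 := by
    have hle : e ≤ 6 := Nat.le_of_dvd (by norm_num) he6
    interval_cases e <;> simp_all
  -- an involution of `C(P)` when `|C(P)|` is even
  have hinv : 2 ∣ Nat.card (centralizer ((P : Subgroup G) : Set G)) →
      ∃ c : G, orderOf c = 2 ∧ c ∈ centralizer ((P : Subgroup G) : Set G) := by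
    intro h2
    obtain ⟨c, hc⟩ := exists_prime_orderOf_dvd_card' (G := centralizer ((P : Subgroup G) : Set G))
      2 h2
    exact ⟨c, by rw [Subgroup.orderOf_coe, hc], c.2⟩
  rcases Ord5040.arith_sylow _ hd hm with h1 | h1 | h1 | h1 | h1
  · exact hne h1
  · -- `n_7 = 8`
    rw [h1] at hN
    have hNtop : normalizer ((P : Subgroup G) : Set G) ≠ ⊤ := by
      intro h
      rw [h, Subgroup.card_top, hG] at hN
      omega
    have h9 := o5040_index_ge_9 hG _ hNtop
    have h2 := (normalizer ((P : Subgroup G) : Set G)).card_mul_index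
    rw [hG] at h2
    have h3 : Nat.card (normalizer ((P : Subgroup G) : Set G)) = 630 := by omega
    rw [h3] at h2
    omega
  · exact o5040_n7_ne_15 hG h1
  · -- `n_7 = 36`
    rw [h1] at hN
    have hN140 : Nat.card (normalizer ((P : Subgroup G) : Set G)) = 140 := by omega
    rw [hN140] at hNC
    have he2 : e = 2 := by
      rcases he with rfl | rfl | rfl
      · rfl
      · omega
      · omega
    subst he2
    have hq := Helper9.BrauerP.relIndex_of_card (P : Subgroup G) (hN140.trans hNC)
    obtain ⟨c, hc, hcP⟩ := hinv (by omega)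
    exact o5040_e2 hG (o5040_index_ge_9 hG) P hq c hc hcP
  · -- `n_7 = 120`
    rw [h1] at hN
    have hN42 : Nat.card (normalizer ((P : Subgroup G) : Set G)) = 42 := by omega
    rw [hN42] at hNC
    rcases he with rfl | rfl | rfl
    · exact o5040_c21 hG (o5040_index_ge_9 hG) h1 P (by omega)
    · have hq := Helper9.BrauerP.relIndex_of_card (P : Subgroup G) (hN42.trans hNC)
      obtain ⟨c, hc, hcP⟩ := hinv (by omega)
      exact o5040_e3 hG P hq c hc hcP
    · have hC7 : ∀ P' : Sylow 7 G,
          Nat.card (centralizer ((P' : Subgroup G) : Set G)) = 7 := by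
        intro P'
        rw [card_centralizer_sylow_eq P' P]
        omega
      have hN7 : ∀ P' : Sylow 7 G,
          Nat.card (normalizer ((P' : Subgroup G) : Set G)) = 42 := by
        intro P'
        obtain ⟨-, -, -, hN'⟩ := sylow_num P' (by rw [hS P']; norm_num)
          (by rw [hS P', hG]; norm_num)
        rw [h1, hG] at hN'
        omega
      exact Ord5040.case_c hG hN7 hC7

end Cfsg.Agent.S0978
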