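import Cfsg.Statements.S0979
import Cfsg.Agent.Helper9.BrauerP

set_option autoImplicit false
set_option maxHeartbeats 1000000
set_option linter.style.haveILetI false
open Cfsg

namespace Cfsg.Agent.S0979

open Subgroup Cfsg.Agent.Helper9.OrdTools Cfsg.Agent.Helper9.BrauerP

theorem arith_sylow : ∀ d, d ∣ 288 → d % 19 = 1 → d = 1 ∨ d = 96 := by
  intro d hd
  have hle : d ≤ 288 := Nat.le_of_dvd (by norm_num) hd
  revert hd
  have key : ∀ d ≤ 288, d ∣ 288 → d % 19 = 1 → d = 1 ∨ d = 96 := by
    decide +kernel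
  exact key d hle

theorem arith_factor {e c : ℕ} (he : 1 < e) (h : e * c = 3) : e = 3 ∧ c = 1 := by
  have hc0 : 0 < c := by
    rcases Nat.eq_zero_or_pos c with h0 | h0
    · rw [h0] at h; simp at h
    · exact h0
  have hele : e ≤ 3 := by nlinarith
  have hcle : c ≤ 3 := by nlinarith
  interval_cases e <;> interval_cases c <;> simp_all

theorem arith_deg : ∀ f ≤ 73, 2 ≤ f → f ∣ 5472 → (f % 19 = 1 ∨ (f + 1) % 19 = 0) → f = 18 := by
  decide +kernel


/-- No finite simple group has order 5472 = 2^5 * 3^2 * 19. -/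
theorem result {G : Type*} [Group G] [Finite G] [IsSimpleGroup G] : Nat.card G ≠ 5472 := by
  intro h
  haveI : Fact (Nat.Prime 19) := ⟨by norm_num⟩
  obtain ⟨P⟩ : Nonempty (Sylow 19 G) := inferInstance
  have hP : Nat.card (P : Subgroup G) = 19 := by
    have := sylow_card 1 288 (h.trans (by norm_num)) (by norm_num) P
    simpa using this
  obtain ⟨hd, hm, hne, hN⟩ := sylow_num P (by rw [hP]; norm_num) (by rw [hP, h]; norm_num)
  have hidxP : (P : Subgroup G).index = 288 := by
    have := (P : Subgroup G).card_mul_index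
    rw [hP, h] at this
    omega
  rw [hidxP] at hd
  have hn : Nat.card (Sylow 19 G) = 96 := by
    rcases arith_sylow _ hd hm with h1 | h1
    · exact absurd h1 hne
    · exact h1
  obtain ⟨e, he, he1, hNe, ⟨c, hc⟩⟩ := normalizer_centralizer_prime P hP (by rw [h]; norm_num)
  rw [hn, h] at hN
  have hec : e * c = 3 := by
    rw [hc] at hNe
    rw [hNe] at hN
    nlinarith
  obtain ⟨he2, hc1⟩ := arith_factor he1 hec
  rw [he2] at hNe
  obtain ⟨f₂, f₃, D, hf2, hfd, hg2, hgd, hD2, hDd, hsq, hcases⟩ :=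
    brauer_three P hP (by rw [h]; norm_num) (by norm_num) hNe
  rw [h] at hfd hgd hDd hsq
  norm_num at hsq
  have hf73 : f₂ ≤ 73 := by nlinarith
  have hg73 : f₃ ≤ 73 := by nlinarith
  have hf18 : f₂ = 18 := arith_deg f₂ hf73 hf2 hfd (by
    rcases hcases with h1 | h1 | h1 | h1
    · exact Or.inl h1.1
    · exact Or.inl h1.1
    · exact Or.inr h1.1
    · exact Or.inr h1.1)
  have hg18 : f₃ = 18 := arith_deg f₃ hg73 hg2 hgd (by
    rcases hcases with h1 | h1 | h1 | h1
    · exact Or.inl h1.2.1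
    · exact Or.inr h1.2.1
    · exact Or.inl h1.2.1
    · exact Or.inr h1.2.1)
  subst hf18 hg18
  have hD35 : D = 35 := by
    rcases hcases with h1 | h1 | h1 | h1
    · omega
    · omega
    · omega
    · omega
  rw [hD35] at hDd
  norm_num at hDd

end Cfsg.Agent.S0979
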