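import Cfsg.Statements.S0980
import Cfsg.Agent.Helper8.Ord5760A
import Cfsg.Agent.Helper8.Ord5760Char
import Cfsg.Agent.Helper8.Ord459C
import Cfsg.Agent.Helper52.Ord5760B36
import Cfsg.Agent.Helper41.Ord5760N96a1
import Cfsg.Agent.Helper55.Ord5760N96a2
import Cfsg.Agent.Helper20.Ord5760N96b2
import Cfsg.Agent.Helper76.Ord5760PLANE

set_option autoImplicit false
set_option maxHeartbeats 1000000
set_option linter.style.haveILetI false
open Cfsg

namespace Cfsg.Agent.S0980

open Cfsg.Agent.Helper52 Cfsg.Agent.Helper41 Cfsg.Agent.Helper55 Cfsg.Agent.Helper20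
  Cfsg.Agent.Helper76

/-- No finite simple group has order 5760 = 2^7 * 3^2 * 5. -/
theorem result {G : Type*} [Group G] [Finite G] [IsSimpleGroup G] : Nat.card G ≠ 5760 := by
  intro h
  haveI : Fact (Nat.Prime 5) := ⟨by norm_num⟩
  obtain ⟨P⟩ : Nonempty (Sylow 5 G) := inferInstance
  have hP : Nat.card (P : Subgroup G) = 5 := by
    have := Cfsg.Agent.Helper9.OrdTools.sylow_card 1 1152 (h.trans (by norm_num))
      (by norm_num) P
    simpa using this
  obtain ⟨hd, hm, hne, hN⟩ := Cfsg.Agent.Helper9.OrdTools.sylow_num P (by rw [hP]; norm_num)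
    (by rw [hP, h]; norm_num)
  have hidxP : (P : Subgroup G).index = 1152 := by
    have := (P : Subgroup G).card_mul_index
    rw [hP, h] at this
    omega
  rw [hidxP] at hd
  rw [h] at hN
  have hna : ∃ a b : G, a * b ≠ b * a :=
    Cfsg.Agent.Helper8.Ord459.exists_not_comm' P (by rw [hP]; norm_num) (by rw [hP, h]; norm_num)
  rcases Cfsg.Agent.Helper8.Ord5760.arith_sylow _ hd hm with h1 | h1 | h1 | h1 | h1 | h1
  · exact hne h1
  · exact Cfsg.Agent.Helper8.Ord5760.n5_ne_6 h h1
  · exact Cfsg.Agent.Helper8.Ord5760.n5_ne_16 h h1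
  · -- `n_5 = 36`
    exact ord5760_n5_ne_36 h h1
  · -- `n_5 = 96`: the affine plane of order `4`
    obtain ⟨P', s, H, hs, hH, hidx, hPH, hPfix⟩ := ord5760_n96_H h h1
    obtain ⟨h4, hfix, htr⟩ := ord5760_n96_trans h P' s H hs hH hidx hPH hPfix
    obtain ⟨L, hL, hex, huniq⟩ := ord5760_n96_lines h s H hs hH hidx h4 hfix htr
    obtain ⟨K, hK, hK5⟩ := plane16 (G := G) (Ω := G ⧸ H)
      (by rw [← Subgroup.index_eq_card]; exact hidx) L hL hex huniq
    have := Cfsg.Agent.Helper8.Ord5760.index_ge_8 h K hK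
    omega
  · -- `n_5 = 576`: dihedral Sylow `5`-normalizer, characters
    rw [h1] at hN
    have hN10 : Nat.card (Subgroup.normalizer ((P : Subgroup G) : Set G)) = 10 := by omega
    obtain ⟨x, t, hx, -, hcent, hnorm, ht⟩ := Cfsg.Agent.Helper8.Ord5760.dihedral_data h P hN10
    haveI : Fact (Nat.Prime 2) := ⟨Nat.prime_two⟩
    obtain ⟨S⟩ : Nonempty (Sylow 2 G) := inferInstance
    have hS : Nat.card (S : Subgroup G) = 2 ^ (6 + 1) :=
      Cfsg.Agent.Helper9.OrdTools.sylow_card 7 45 (h.trans (by norm_num)) (by norm_num) S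
    obtain ⟨z, hzS, hz1, hzz, hzc⟩ :=
      Cfsg.Agent.Helper8.Ord459.exists_central_involution (S : Subgroup G) 6 hS
    have hz2 : orderOf z = 2 := orderOf_eq_prime (by rw [pow_two]; exact hzz) hz1
    have hCz : 128 ∣ Nat.card (Subgroup.centralizer ({z} : Set G)) := by
      have hle : (S : Subgroup G) ≤ Subgroup.centralizer ({z} : Set G) := by
        intro g hg
        rw [Subgroup.mem_centralizer_iff]
        intro w hw
        rw [Set.mem_singleton_iff.mp hw]
        exact (hzc g hg).symm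
      have := Subgroup.card_dvd_of_le hle
      rw [hS] at this
      exact this
    exact Cfsg.Agent.Helper8.Ord5760.char_contra h
      (fun f g => Cfsg.Agent.Helper9.OrdTools.hom_trivial hna f g) x t hx hcent hnorm ht z hz2 hCz


end Cfsg.Agent.S0980
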