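import Cfsg.Statements.S0981
import Cfsg.Agent.Helper9.PSL2Even
import Cfsg.Agent.Helper9.OrdTools2

set_option autoImplicit false
set_option maxHeartbeats 1000000
set_option linter.style.haveILetI false
open Cfsg

namespace Cfsg.Agent.S0981

open Subgroup Cfsg.Agent.Helper9.OrdTools

theorem arith17 : ∀ d, d ∣ 240 → d % 17 = 1 → d = 1 ∨ d = 120 := by
  intro d hd
  have hle : d ≤ 240 := Nat.le_of_dvd (by norm_num) hd
  revert hd
  have key : ∀ d ≤ 240, d ∣ 240 → d % 17 = 1 → d = 1 ∨ d = 120 := by
    decide +kernel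
  exact key d hle

theorem arith5 : ∀ d, d ∣ 816 → d % 5 = 1 →
    d = 1 ∨ d = 6 ∨ d = 16 ∨ d = 51 ∨ d = 136 ∨ d = 816 := by
  intro d hd
  have hle : d ≤ 816 := Nat.le_of_dvd (by norm_num) hd
  revert hd
  have key : ∀ d ≤ 816, d ∣ 816 → d % 5 = 1 →
      d = 1 ∨ d = 6 ∨ d = 16 ∨ d = 51 ∨ d = 136 ∨ d = 816 := by
    decide +kernel
  exact key d hle

theorem two_factor {e c : ℕ} (he : 1 < e) (h : e * c = 2) : c = 1 := by
  rcases c with _ | _ | c
  · simp at h
  · rfl
  · nlinarith

theorem orderOf_dvd_card_of_mem {G : Type*} [Group G] [Finite G] {H : Subgroup G} {g : G}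
    (hg : g ∈ H) : orderOf g ∣ Nat.card H := by
  have := orderOf_dvd_natCard (⟨g, hg⟩ : H)
  rwa [Subgroup.orderOf_mk] at this

theorem eq_of_fifteen {G : Type*} [Group G] [Finite G] {X Y : Subgroup G} (hYX : Y ≤ X)
    (hX : Nat.card X = 15) (h3 : 3 ∣ Nat.card Y) (h5 : 5 ∣ Nat.card Y) : Y = X := by
  have h15 : 15 ∣ Nat.card Y :=
    Nat.Coprime.mul_dvd_of_dvd_of_dvd (by norm_num : Nat.Coprime 3 5) h3 h5
  have hle : 15 ≤ Nat.card Y := Nat.le_of_dvd Nat.card_pos h15
  exact Subgroup.eq_of_le_of_card_ge hYX (by rw [hX]; exact hle)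

/-- the centralizer of a Sylow `3`-subgroup cannot have order 60 when the Sylow
`5`-subgroups have cyclic centralizers of order 15 and normalizers of order 30. -/
theorem no_sixty {G : Type*} [Group G] [Finite G] [Fact (Nat.Prime 5)]
    (h5card : ∀ P : Sylow 5 G, Nat.card (P : Subgroup G) = 5)
    (hC5 : ∀ P : Sylow 5 G, Nat.card (centralizer ((P : Subgroup G) : Set G)) = 15)
    (hN5 : ∀ P : Sylow 5 G, Nat.card (normalizer ((P : Subgroup G) : Set G)) = 30)
    (M : Subgroup G) {b : G} (hbM : ∀ x ∈ M, x * b = b * x) (hbMem : b ∈ M)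
    (hbo : orderOf b = 3) (h60 : Nat.card M = 60) : False := by
  classical
  obtain ⟨Q⟩ : Nonempty (Sylow 5 M) := inferInstance
  have hQcard : Nat.card (Q : Subgroup M) = 5 := by
    have := sylow_card (G := M) 1 12
      (h60.trans (by norm_num)) (by norm_num) Q
    simpa using this
  have hQ'card : Nat.card ((Q : Subgroup M).map
      (M).subtype) = 5 := by
    rw [Subgroup.card_map_of_injective (Subgroup.subtype_injective _), hQcard]
  obtain ⟨R, hR⟩ := sylow_of_card h5card _ hQ'card
  have hRM : (R : Subgroup G) ≤ M := by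
    rw [hR]
    rintro x ⟨y, -, rfl⟩
    exact y.2
  have hCR := hC5 R
  have hNR := hN5 R
  have hCM : centralizer ((R : Subgroup G) : Set G) ≤ M := by
    have hRY : (R : Subgroup G) ≤ centralizer ((R : Subgroup G) : Set G) ⊓
        M :=
      le_inf (le_centralizer_of_prime R (h5card R)) hRM
    have hbY : b ∈ centralizer ((R : Subgroup G) : Set G) ⊓
        M := by
      refine Subgroup.mem_inf.mpr ⟨?_, hbMem⟩
      rw [Subgroup.mem_centralizer_iff]
      intro x hx
      exact hbM x (hRM hx)
    have h5Y : 5 ∣ Nat.card (centralizer ((R : Subgroup G) : Set G) ⊓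
        M : Subgroup G) := by
      have := Subgroup.card_dvd_of_le hRY
      rwa [h5card R] at this
    have h3Y : 3 ∣ Nat.card (centralizer ((R : Subgroup G) : Set G) ⊓
        M : Subgroup G) := by
      have := orderOf_dvd_card_of_mem hbY
      rwa [hbo] at this
    have e1 := eq_of_fifteen inf_le_left hCR h3Y h5Y
    rw [← e1]
    exact inf_le_right
  have hXle : (centralizer ((R : Subgroup G) : Set G)).subgroupOf
      (M) ≤
      normalizer ((Q : Subgroup M) : Set M) := by
    intro x hx
    rw [Subgroup.mem_subgroupOf] at hx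
    have hcomm : ∀ q : M,
        q ∈ (Q : Subgroup M) → x * q = q * x := by
      intro q hq
      have hqR : (q : G) ∈ (R : Subgroup G) := by
        rw [hR]
        exact ⟨q, hq, rfl⟩
      have := Subgroup.mem_centralizer_iff.mp hx _ hqR
      exact Subtype.ext this.symm
    refine mem_normalizer_of_conj (fun q hq => ?_) (fun q hq => ?_)
    · rw [hcomm q hq, mul_inv_cancel_right]; exact hq
    · rw [mul_assoc, ← hcomm q hq, inv_mul_cancel_left]; exact hq
  have hXcard : Nat.card ((centralizer ((R : Subgroup G) : Set G)).subgroupOf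
      (M)) = 15 := by
    rw [Nat.card_congr (Subgroup.subgroupOfEquivOfLe hCM).toEquiv, hCR]
  have h15N : 15 ∣ Nat.card (normalizer
      ((Q : Subgroup M) : Set M)) := by
    have := Subgroup.card_dvd_of_le hXle
    rwa [hXcard] at this
  have hnQ : Nat.card (Sylow 5 M) =
      (normalizer ((Q : Subgroup M) : Set M)).index :=
    Sylow.card_eq_index_normalizer Q
  have hmodQ : Nat.card (Sylow 5 M) % 5 = 1 := by
    have := card_sylow_modEq_one 5 (M)
    rw [Nat.ModEq] at this
    exact this
  have hmul := (normalizer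
    ((Q : Subgroup M) : Set M)).card_mul_index
  rw [← hnQ, h60] at hmul
  obtain ⟨k, hk⟩ := h15N
  rw [hk] at hmul
  have hkn : k * Nat.card (Sylow 5 M) = 4 := by
    nlinarith
  have hn1 : Nat.card (Sylow 5 M) = 1 := by
    have hd : Nat.card (Sylow 5 M) ∣ 4 :=
      ⟨k, by rw [mul_comm]; exact hkn.symm⟩
    have hle := Nat.le_of_dvd (by norm_num) hd
    omega
  haveI : Subsingleton (Sylow 5 M) :=
    (Nat.card_eq_one_iff_unique.mp hn1).1
  have hQn : (Q : Subgroup M).Normal :=
    Sylow.normal_of_subsingleton Q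
  have hMN : M ≤ normalizer ((R : Subgroup G) : Set G) := by
    have hconj : ∀ y : G, y ∈ M →
        ∀ q ∈ (R : Subgroup G), y * q * y⁻¹ ∈ (R : Subgroup G) := by
      intro y hy q hq
      rw [hR] at hq ⊢
      obtain ⟨q0, hq0, rfl⟩ := hq
      exact ⟨⟨y, hy⟩ * q0 * ⟨y, hy⟩⁻¹, hQn.conj_mem q0 hq0 ⟨y, hy⟩, rfl⟩
    intro x hx
    refine mem_normalizer_of_conj (hconj x hx) (fun q hq => ?_)
    have := hconj x⁻¹ (inv_mem hx) q hq
    simpa using this
  have := Subgroup.card_dvd_of_le hMN
  rw [h60, hNR] at this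
  norm_num at this

/-- A simple group of order 4080 is isomorphic to the projective special linear group of dimension 2 over the field with 16 elements. -/
theorem result {G : Type*} [Group G] [Finite G] [IsSimpleGroup G] (h : Nat.card G = 4080) {F : Type*} [Field F] [Fintype F] (hF : Fintype.card F = 16) : Nonempty (G ≃* Matrix.ProjectiveSpecialLinearGroup (Fin 2) F) := by
  classical
  haveI : Fact (Nat.Prime 2) := ⟨by norm_num⟩
  haveI : Fact (Nat.Prime 3) := ⟨by norm_num⟩
  haveI : Fact (Nat.Prime 5) := ⟨by norm_num⟩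
  haveI : Fact (Nat.Prime 17) := ⟨by norm_num⟩
  -- Sylow orders
  have h17card : ∀ P : Sylow 17 G, Nat.card (P : Subgroup G) = 17 := fun P => by
    have := sylow_card 1 240 (h.trans (by norm_num)) (by norm_num) P
    simpa using this
  have h5card : ∀ P : Sylow 5 G, Nat.card (P : Subgroup G) = 5 := fun P => by
    have := sylow_card 1 816 (h.trans (by norm_num)) (by norm_num) P
    simpa using this
  have h3card : ∀ P : Sylow 3 G, Nat.card (P : Subgroup G) = 3 := fun P => by
    have := sylow_card 1 1360 (h.trans (by norm_num)) (by norm_num) P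
    simpa using this
  have h2card : ∀ P : Sylow 2 G, Nat.card (P : Subgroup G) = 16 := fun P => by
    have := sylow_card 4 255 (h.trans (by norm_num)) (by norm_num) P
    simpa using this
  -- no proper subgroup of index `< 17`
  have hidx : ∀ H : Subgroup G, H.index ≠ 1 → 17 ≤ H.index := by
    intro H h1
    have hH : H ≠ ⊤ := fun ht => h1 (ht ▸ Subgroup.index_top)
    have hd := card_dvd_factorial_index H hH
    rw [h] at hd
    exact (Nat.Prime.dvd_factorial (by norm_num)).mp ((by norm_num : 17 ∣ 4080).trans hd)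
  -- Sylow 17
  have hn17 : Nat.card (Sylow 17 G) = 120 := by
    obtain ⟨P⟩ : Nonempty (Sylow 17 G) := inferInstance
    obtain ⟨hd, hm, hne, hN⟩ :=
      sylow_num P (by rw [h17card]; norm_num) (by rw [h17card, h]; norm_num)
    have hidxP : (P : Subgroup G).index = 240 := by
      have := (P : Subgroup G).card_mul_index
      rw [h17card, h] at this
      omega
    rw [hidxP] at hd
    rcases arith17 _ hd hm with h1 | h120
    · exact absurd h1 hne
    · exact h120
  have hC17 : ∀ P : Sylow 17 G, Nat.card (centralizer ((P : Subgroup G) : Set G)) = 17 := by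
    intro P
    obtain ⟨-, -, -, hN⟩ :=
      sylow_num P (by rw [h17card]; norm_num) (by rw [h17card, h]; norm_num)
    obtain ⟨e, he, he1, hNe, h17C⟩ :=
      normalizer_centralizer_prime P (h17card P) (by rw [h]; norm_num)
    rw [hn17, h] at hN
    obtain ⟨c, hc⟩ := h17C
    rw [hc] at hNe ⊢
    have h34 : e * (17 * c) = 34 := by omega
    have hec : e * c = 2 := by nlinarith
    have hc1 : c = 1 := two_factor he1 hec
    rw [hc1]
  have hcent17 : ∀ u : G, orderOf u = 17 → ∀ c ∈ centralizer ({u} : Set G), c ^ 17 = 1 := by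
    intro u hu c hc
    obtain ⟨P, hP⟩ := exists_sylow_of_orderOf h17card hu
    rw [centralizer_singleton_eq hP] at hc
    have := pow_card_subgroup hc
    rwa [hC17 P] at this
  -- Sylow 5
  have hn5 : Nat.card (Sylow 5 G) = 51 ∨ Nat.card (Sylow 5 G) = 136 := by
    obtain ⟨P⟩ : Nonempty (Sylow 5 G) := inferInstance
    obtain ⟨hd, hm, hne, hN⟩ :=
      sylow_num P (by rw [h5card]; norm_num) (by rw [h5card, h]; norm_num)
    have hidxP : (P : Subgroup G).index = 816 := by
      have := (P : Subgroup G).card_mul_index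
      rw [h5card, h] at this
      omega
    rw [hidxP] at hd
    have hNi : Nat.card (Sylow 5 G) = (normalizer ((P : Subgroup G) : Set G)).index :=
      Sylow.card_eq_index_normalizer P
    rcases arith5 _ hd hm with h1 | h6 | h16 | h51 | h136 | h816
    · exact absurd h1 hne
    · exfalso
      have := hidx (normalizer ((P : Subgroup G) : Set G)) (by rw [← hNi, h6]; norm_num)
      rw [← hNi, h6] at this
      omega
    · exfalso
      have := hidx (normalizer ((P : Subgroup G) : Set G)) (by rw [← hNi, h16]; norm_num)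
      rw [← hNi, h16] at this
      omega
    · exact Or.inl h51
    · exact Or.inr h136
    · exfalso
      obtain ⟨e, he, he1, hNe, h5C⟩ :=
        normalizer_centralizer_prime P (h5card P) (by rw [h]; norm_num)
      rw [h816, h] at hN
      obtain ⟨c, hc⟩ := h5C
      rw [hc] at hNe
      have hc0 : 0 < c := by
        have : 0 < Nat.card (centralizer ((P : Subgroup G) : Set G)) := Nat.card_pos
        omega
      nlinarith
  -- counting elements of order divisible by 3, 5, 17
  obtain ⟨P3₀⟩ : Nonempty (Sylow 3 G) := inferInstance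
  obtain ⟨P5₀⟩ : Nonempty (Sylow 5 G) := inferInstance
  have hD17 : 1920 ≤ Nat.card {g : G // 17 ∣ orderOf g} := by
    have := card_psing_ge h17card 17 hC17
    rw [hn17] at this
    norm_num at this
    exact this
  have hD3 : 1360 ≤ Nat.card {g : G // 3 ∣ orderOf g} := by
    have h0 := card_psing_ge h3card _ (fun P => card_centralizer_sylow_eq P P3₀)
    obtain ⟨-, -, -, hN⟩ :=
      sylow_num P3₀ (by rw [h3card]; norm_num) (by rw [h3card, h]; norm_num)
    obtain ⟨e, he, he1, hNe, ⟨c, hc⟩⟩ :=
      normalizer_centralizer_prime P3₀ (h3card P3₀) (by rw [h]; norm_num)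
    have he2 : e = 2 := by
      have := Nat.le_of_dvd (by norm_num) he
      omega
    rw [hc] at h0 hNe
    rw [hNe, he2, h] at hN
    have h1 : 3 * c - 3 * c / 3 = 2 * c := by omega
    rw [h1] at h0
    nlinarith
  have hD5 : 816 ≤ Nat.card {g : G // 5 ∣ orderOf g} := by
    have h0 := card_psing_ge h5card _ (fun P => card_centralizer_sylow_eq P P5₀)
    obtain ⟨-, -, -, hN⟩ :=
      sylow_num P5₀ (by rw [h5card]; norm_num) (by rw [h5card, h]; norm_num)
    obtain ⟨e, he, he1, hNe, ⟨c, hc⟩⟩ :=
      normalizer_centralizer_prime P5₀ (h5card P5₀) (by rw [h]; norm_num)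
    have he4 : e ≤ 4 := Nat.le_of_dvd (by norm_num) he
    rw [hc] at h0 hNe
    rw [hNe, h] at hN
    have h1 : 5 * c - 5 * c / 5 = 4 * c := by omega
    rw [h1] at h0
    have h2 : 4 * (5 * c) * Nat.card (Sylow 5 G) ≥ 4080 := by
      rw [← hN]
      exact Nat.mul_le_mul_right _ (Nat.mul_le_mul_right _ he4)
    nlinarith
  -- an element of order divisible by 15
  have hex : ∃ g : G, 3 ∣ orderOf g ∧ 5 ∣ orderOf g := by
    by_contra hcon
    push Not at hcon
    have h17x : ∀ g : G, 17 ∣ orderOf g → ∀ r, r = 3 ∨ r = 5 → ¬ r ∣ orderOf g := by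
      intro g h17 r hr hrg
      have hwo : orderOf (g ^ (orderOf g / 17)) = 17 :=
        orderOf_pow_orderOf_div (orderOf_pos g).ne' h17
      have hgw : g ∈ centralizer ({g ^ (orderOf g / 17)} : Set G) := by
        rw [Subgroup.mem_centralizer_iff]
        intro x hx
        rw [Set.mem_singleton_iff] at hx
        subst hx
        exact pow_mul_comm' g _
      have h1 := hcent17 _ hwo g hgw
      have h2 : orderOf g ∣ 17 := orderOf_dvd_of_pow_eq_one h1
      have h3 : r ∣ 17 := hrg.trans h2
      rcases hr with rfl | rfl <;> norm_num at h3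
    have e1 := card_or (fun g : G => 17 ∣ orderOf g) (fun g : G => 3 ∣ orderOf g)
      (fun g h17 h3 => h17x g h17 3 (Or.inl rfl) h3)
    have e2 := card_or (fun g : G => 17 ∣ orderOf g ∨ 3 ∣ orderOf g)
      (fun g : G => 5 ∣ orderOf g) (fun g hg h5 => by
        rcases hg with h17 | h3
        · exact h17x g h17 5 (Or.inr rfl) h5
        · exact hcon g h3 h5)
    have e3 := card_mono (fun g : G => (17 ∣ orderOf g ∨ 3 ∣ orderOf g) ∨ 5 ∣ orderOf g)
      (fun g : G => g ≠ 1) (fun g hg => by
        rintro rfl
        rw [orderOf_one] at hg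
        norm_num at hg)
    rw [card_ne_one_eq, h] at e3
    omega
  obtain ⟨g, hg3, hg5⟩ := hex
  have hao : orderOf (g ^ (orderOf g / 5)) = 5 := orderOf_pow_orderOf_div (orderOf_pos g).ne' hg5
  have hbo : orderOf (g ^ (orderOf g / 3)) = 3 := orderOf_pow_orderOf_div (orderOf_pos g).ne' hg3
  have hcomm : g ^ (orderOf g / 5) * g ^ (orderOf g / 3) =
      g ^ (orderOf g / 3) * g ^ (orderOf g / 5) := by
    rw [← pow_add, ← pow_add, add_comm]
  generalize g ^ (orderOf g / 5) = a at hao hcomm
  generalize g ^ (orderOf g / 3) = b at hbo hcomm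
  obtain ⟨P5, hP5⟩ := exists_sylow_of_orderOf h5card hao
  obtain ⟨P3, hP3⟩ := exists_sylow_of_orderOf h3card hbo
  have hbC5 : b ∈ centralizer ((P5 : Subgroup G) : Set G) := by
    rw [← centralizer_singleton_eq hP5, Subgroup.mem_centralizer_iff]
    intro x hx
    rw [Set.mem_singleton_iff] at hx
    subst hx
    exact hcomm
  have haC3 : a ∈ centralizer ((P3 : Subgroup G) : Set G) := by
    rw [← centralizer_singleton_eq hP3, Subgroup.mem_centralizer_iff]
    intro x hx
    rw [Set.mem_singleton_iff] at hx
    subst hx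
    exact hcomm.symm
  have h3C5 : 3 ∣ Nat.card (centralizer ((P5 : Subgroup G) : Set G)) := by
    have := orderOf_dvd_card_of_mem hbC5
    rwa [hbo] at this
  have h5C3 : 5 ∣ Nat.card (centralizer ((P3 : Subgroup G) : Set G)) := by
    have := orderOf_dvd_card_of_mem haC3
    rwa [hao] at this
  -- the Sylow 5-subgroups
  have hP5data : Nat.card (centralizer ((P5 : Subgroup G) : Set G)) = 15 ∧
      Nat.card (Sylow 5 G) = 136 := by
    obtain ⟨-, -, -, hN⟩ :=
      sylow_num P5 (by rw [h5card]; norm_num) (by rw [h5card, h]; norm_num)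
    obtain ⟨e, he, he1, hNe, h5C⟩ :=
      normalizer_centralizer_prime P5 (h5card P5) (by rw [h]; norm_num)
    have h15 : 15 ∣ Nat.card (centralizer ((P5 : Subgroup G) : Set G)) :=
      Nat.Coprime.mul_dvd_of_dvd_of_dvd (by norm_num : Nat.Coprime 3 5) h3C5 h5C
    obtain ⟨j, hj⟩ := h15
    rw [hj] at hNe
    rw [hNe, h] at hN
    rcases hn5 with h51 | h136
    · exfalso
      rw [h51] at hN
      have h1 : 765 * (e * j) = 4080 := by nlinarith
      omega
    · rw [h136] at hN
      have hej : e * j = 2 := by nlinarith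
      have hj1 := two_factor he1 hej
      refine ⟨?_, h136⟩
      rw [hj, hj1]
  have hn5' := hP5data.2
  have hC5 : ∀ P : Sylow 5 G, Nat.card (centralizer ((P : Subgroup G) : Set G)) = 15 :=
    fun P => (card_centralizer_sylow_eq P P5).trans hP5data.1
  have hN5 : ∀ P : Sylow 5 G, Nat.card (normalizer ((P : Subgroup G) : Set G)) = 30 := by
    intro P
    obtain ⟨-, -, -, hN⟩ :=
      sylow_num P (by rw [h5card]; norm_num) (by rw [h5card, h]; norm_num)
    rw [hn5', h] at hN
    omega
  -- the centralizer of `P3` does not have order 60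
  have hno60 : Nat.card (centralizer ((P3 : Subgroup G) : Set G)) ≠ 60 := by
    intro h60
    have hbP3 : b ∈ (P3 : Subgroup G) := hP3 ▸ Subgroup.mem_zpowers b
    exact no_sixty h5card hC5 hN5 (centralizer ((P3 : Subgroup G) : Set G))
      (fun x hx => (Subgroup.mem_centralizer_iff.mp hx b hbP3).symm)
      (le_centralizer_of_prime P3 (h3card P3) hbP3) hbo h60
  -- the centralizer of `P3` has order 15
  have hC3₁ : Nat.card (centralizer ((P3 : Subgroup G) : Set G)) = 15 := by
    obtain ⟨hd3, hm3, hne3, hN⟩ :=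
      sylow_num P3 (by rw [h3card]; norm_num) (by rw [h3card, h]; norm_num)
    obtain ⟨e, he, he1, hNe, h3C⟩ :=
      normalizer_centralizer_prime P3 (h3card P3) (by rw [h]; norm_num)
    have he2 : e = 2 := by
      have := Nat.le_of_dvd (by norm_num) he
      omega
    have h15 : 15 ∣ Nat.card (centralizer ((P3 : Subgroup G) : Set G)) :=
      Nat.Coprime.mul_dvd_of_dvd_of_dvd (by norm_num : Nat.Coprime 3 5) h3C h5C3
    obtain ⟨m, hm⟩ := h15
    have hNi : Nat.card (Sylow 3 G) = (normalizer ((P3 : Subgroup G) : Set G)).index :=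
      Sylow.card_eq_index_normalizer P3
    have hn17' : 17 ≤ Nat.card (Sylow 3 G) := by
      have := hidx (normalizer ((P3 : Subgroup G) : Set G)) (by rw [← hNi]; exact hne3)
      rwa [← hNi] at this
    rw [hm] at hNe hno60 ⊢
    rw [hNe, he2, h] at hN
    have hmn : m * Nat.card (Sylow 3 G) = 136 := by nlinarith
    have hm8 : m ≤ 8 := by nlinarith
    interval_cases m
    · omega
    · rfl
    · omega
    · omega
    · exact absurd rfl hno60
    · omega
    · omega
    · omega
    · omega
  have hC3 : ∀ P : Sylow 3 G, Nat.card (centralizer ((P : Subgroup G) : Set G)) = 15 :=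
    fun P => (card_centralizer_sylow_eq P P3).trans hC3₁
  -- the cyclic subgroups of order 15 have pairwise trivial intersections
  have hTI : ∀ P Q : Sylow 5 G, P ≠ Q → ∀ x, x ∈ centralizer ((P : Subgroup G) : Set G) →
      x ∈ centralizer ((Q : Subgroup G) : Set G) → x = 1 := by
    intro P Q hPQ x hxP hxQ
    by_contra hx1
    have hx15 : x ^ 15 = 1 := by
      have := pow_card_subgroup hxP
      rwa [hC5 P] at this
    have hord : orderOf x ∣ 3 * 5 := orderOf_dvd_of_pow_eq_one hx15
    by_cases h5 : 5 ∣ orderOf x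
    · exact hPQ (Sylow.ext ((zpowers_pow_eq_of_mem_centralizer h5card P hxP h5).symm.trans
        (zpowers_pow_eq_of_mem_centralizer h5card Q hxQ h5)))
    · have ho3 : orderOf x = 3 := by
        have hcop : Nat.Coprime (orderOf x) 5 :=
          ((Nat.Prime.coprime_iff_not_dvd (by norm_num)).mpr h5).symm
        have h3 : orderOf x ∣ 3 := hcop.dvd_of_dvd_mul_right hord
        rcases (Nat.dvd_prime (by norm_num)).mp h3 with h1 | h3
        · exact absurd (orderOf_eq_one_iff.mp h1) hx1
        · exact h3
      obtain ⟨S, hS⟩ := exists_sylow_of_orderOf h3card ho3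
      have key : ∀ R : Sylow 5 G, x ∈ centralizer ((R : Subgroup G) : Set G) →
          centralizer ((R : Subgroup G) : Set G) = centralizer ((S : Subgroup G) : Set G) := by
        intro R hxR
        have hRY : (R : Subgroup G) ≤ centralizer ((R : Subgroup G) : Set G) ⊓
            centralizer ((S : Subgroup G) : Set G) := by
          refine le_inf (le_centralizer_of_prime R (h5card R)) ?_
          rw [← centralizer_singleton_eq hS]
          intro y hy
          rw [Subgroup.mem_centralizer_iff]
          intro w hw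
          rw [Set.mem_singleton_iff] at hw
          subst hw
          exact (Subgroup.mem_centralizer_iff.mp hxR y hy).symm
        have hxY : x ∈ centralizer ((R : Subgroup G) : Set G) ⊓
            centralizer ((S : Subgroup G) : Set G) := by
          refine Subgroup.mem_inf.mpr ⟨hxR, ?_⟩
          rw [← centralizer_singleton_eq hS, Subgroup.mem_centralizer_iff]
          intro w hw
          rw [Set.mem_singleton_iff] at hw
          rw [hw]
        have h5Y : 5 ∣ Nat.card (centralizer ((R : Subgroup G) : Set G) ⊓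
            centralizer ((S : Subgroup G) : Set G) : Subgroup G) := by
          have := Subgroup.card_dvd_of_le hRY
          rwa [h5card R] at this
        have h3Y : 3 ∣ Nat.card (centralizer ((R : Subgroup G) : Set G) ⊓
            centralizer ((S : Subgroup G) : Set G) : Subgroup G) := by
          have := orderOf_dvd_card_of_mem hxY
          rwa [ho3] at this
        have e1 := eq_of_fifteen inf_le_left (hC5 R) h3Y h5Y
        have e2 := eq_of_fifteen inf_le_right (hC3 S) h3Y h5Y
        exact e1.symm.trans e2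
      have hQP : (Q : Subgroup G) ≤ (P : Subgroup G) := by
        apply mem_sylow_of_mem_normalizer P Q.isPGroup'
        calc (Q : Subgroup G) ≤ centralizer ((Q : Subgroup G) : Set G) :=
              le_centralizer_of_prime Q (h5card Q)
          _ = centralizer ((P : Subgroup G) : Set G) := (key Q hxQ).trans (key P hxP).symm
          _ ≤ normalizer ((P : Subgroup G) : Set G) := Subgroup.centralizer_le_normalizer _
      exact hPQ (Sylow.ext (Subgroup.eq_of_le_of_card_ge hQP (by rw [h5card, h5card]))).symm
  -- counting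
  have hU17 : 1920 ≤ Nat.card {g : G // g ≠ 1 ∧ ∃ P : Sylow 17 G, g ∈ (P : Subgroup G)} := by
    have := card_ti_ge (fun P : Sylow 17 G => (P : Subgroup G)) 17 h17card ?_
    · rwa [hn17] at this
    · intro P Q hPQ x hxP hxQ
      by_contra hx1
      exact hPQ (Sylow.ext ((zpowers_eq_sylow P (h17card P) hxP hx1).symm.trans
        (zpowers_eq_sylow Q (h17card Q) hxQ hx1)))
  have hU15 : 1904 ≤ Nat.card {g : G // g ≠ 1 ∧
      ∃ P : Sylow 5 G, g ∈ centralizer ((P : Subgroup G) : Set G)} := by
    have := card_ti_ge (fun P : Sylow 5 G => centralizer ((P : Subgroup G) : Set G)) 15 hC5 hTI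
    rwa [hn5'] at this
  obtain ⟨T⟩ : Nonempty (Sylow 2 G) := inferInstance
  have hT16 := h2card T
  have hTidx : (T : Subgroup G).index = 255 := by
    have := (T : Subgroup G).card_mul_index
    rw [hT16, h] at this
    omega
  have h17pow : ∀ x : G, (∃ P : Sylow 17 G, x ∈ (P : Subgroup G)) → x ^ 17 = 1 := by
    rintro x ⟨P, hP⟩
    have := pow_card_subgroup hP
    rwa [h17card P] at this
  have h15pow : ∀ x : G, (∃ P : Sylow 5 G, x ∈ centralizer ((P : Subgroup G) : Set G)) →
      x ^ 15 = 1 := by
    rintro x ⟨P, hP⟩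
    have := pow_card_subgroup hP
    rwa [hC5 P] at this
  have hcount : Nat.card {g : G // g ≠ 1 ∧ g ^ Nat.card (T : Subgroup G) = 1} ≤
      (T : Subgroup G).index := by
    rw [hT16, hTidx]
    have h1 := card_or (fun g : G => g ≠ 1 ∧ g ^ 16 = 1)
      (fun g : G => g ≠ 1 ∧ ∃ P : Sylow 17 G, g ∈ (P : Subgroup G))
      (fun g hA hB => hA.1 (eq_one_of_pow_coprime (by norm_num : Nat.Coprime 16 17) hA.2
        (h17pow g hB.2)))
    have h2 := card_or (fun g : G => (g ≠ 1 ∧ g ^ 16 = 1) ∨
        (g ≠ 1 ∧ ∃ P : Sylow 17 G, g ∈ (P : Subgroup G)))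
      (fun g : G => g ≠ 1 ∧ ∃ P : Sylow 5 G, g ∈ centralizer ((P : Subgroup G) : Set G))
      (fun g hAB hC => by
        rcases hAB with hA | hB
        · exact hA.1 (eq_one_of_pow_coprime (by norm_num : Nat.Coprime 16 15) hA.2
            (h15pow g hC.2))
        · exact hB.1 (eq_one_of_pow_coprime (by norm_num : Nat.Coprime 17 15) (h17pow g hB.2)
            (h15pow g hC.2)))
    have h3 := card_mono (fun g : G => ((g ≠ 1 ∧ g ^ 16 = 1) ∨
        (g ≠ 1 ∧ ∃ P : Sylow 17 G, g ∈ (P : Subgroup G))) ∨
        (g ≠ 1 ∧ ∃ P : Sylow 5 G, g ∈ centralizer ((P : Subgroup G) : Set G)))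
      (fun g : G => g ≠ 1)
      (fun g hg => by
        rcases hg with (hA | hB) | hC
        · exact hA.1
        · exact hB.1
        · exact hC.1)
    rw [card_ne_one_eq, h] at h3
    omega
  have hC : ∀ z : G, orderOf z = 2 → ∀ c ∈ centralizer ({z} : Set G),
      c ^ Nat.card (T : Subgroup G) = 1 := by
    intro z hz c hc
    rw [hT16]
    have hco : orderOf c ∣ 4080 := h ▸ orderOf_dvd_natCard c
    have hz2 : z ^ 2 = 1 := by rw [← hz, pow_orderOf_eq_one]
    have hz1 : z ≠ 1 := by
      intro h0
      rw [h0, orderOf_one] at hz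
      norm_num at hz
    have hcop : Nat.Coprime (orderOf c) 255 := by
      by_contra hnc
      obtain ⟨r, hr, hrd⟩ := Nat.exists_prime_and_dvd hnc
      have hr1 : r ∣ orderOf c := hrd.trans (Nat.gcd_dvd_left _ _)
      have hr2 : r ∣ 3 * 5 * 17 := hrd.trans (Nat.gcd_dvd_right _ _)
      have hr357 : r = 3 ∨ r = 5 ∨ r = 17 := by
        rcases (Nat.Prime.dvd_mul hr).mp hr2 with h1 | h1
        · rcases (Nat.Prime.dvd_mul hr).mp h1 with h2 | h2
          · left; exact (Nat.prime_dvd_prime_iff_eq hr (by norm_num)).mp h2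
          · right; left; exact (Nat.prime_dvd_prime_iff_eq hr (by norm_num)).mp h2
        · right; right; exact (Nat.prime_dvd_prime_iff_eq hr (by norm_num)).mp h1
      have hwo : orderOf (c ^ (orderOf c / r)) = r :=
        orderOf_pow_orderOf_div (orderOf_pos c).ne' hr1
      have hzw : z ∈ centralizer ({c ^ (orderOf c / r)} : Set G) := by
        rw [Subgroup.mem_centralizer_iff]
        intro x hx
        rw [Set.mem_singleton_iff] at hx
        subst hx
        have : Commute z c := Subgroup.mem_centralizer_iff.mp hc z rfl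
        exact (this.pow_right _).eq.symm
      generalize c ^ (orderOf c / r) = w at hwo hzw
      rcases hr357 with rfl | rfl | rfl
      · obtain ⟨P, hP⟩ := exists_sylow_of_orderOf h3card hwo
        rw [centralizer_singleton_eq hP] at hzw
        have h15 := pow_card_subgroup hzw
        rw [hC3 P] at h15
        exact hz1 (eq_one_of_pow_coprime (by norm_num : Nat.Coprime 2 15) hz2 h15)
      · obtain ⟨P, hP⟩ := exists_sylow_of_orderOf h5card hwo
        rw [centralizer_singleton_eq hP] at hzw
        have h15 := pow_card_subgroup hzw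
        rw [hC5 P] at h15
        exact hz1 (eq_one_of_pow_coprime (by norm_num : Nat.Coprime 2 15) hz2 h15)
      · have h17 := hcent17 w hwo z hzw
        exact hz1 (eq_one_of_pow_coprime (by norm_num : Nat.Coprime 2 17) hz2 h17)
    have h16 : orderOf c ∣ 16 := by
      have : orderOf c ∣ 16 * 255 := hco
      exact hcop.dvd_of_dvd_mul_right this
    exact orderOf_dvd_iff_pow_eq_one.mp h16
  have hnn : ¬ (T : Subgroup G).Normal := by
    intro hn
    rcases hn.eq_bot_or_eq_top with h1 | h1
    · rw [h1, Subgroup.card_bot] at hT16; omega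
    · rw [h1, Subgroup.card_top, h] at hT16; omega
  exact iso_psl_of_count T (by rw [hT16]; norm_num) hnn hcount hC (by rw [hF, hT16])

end Cfsg.Agent.S0981
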