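import Cfsg.Statements.S0984
import Cfsg.Agent.Helper82.A7Defs
import Cfsg.Agent.Helper9.OrdTools
import Cfsg.Agent.Helper8.O5040Tools
import Cfsg.Agent.Helper81.CharBasic
import Cfsg.Agent.Helper81.Blocks
import Cfsg.Agent.Helper11.A7CASE1
import Cfsg.Agent.Helper11.A7W2
import Cfsg.Agent.Helper93.A7KJ
import Cfsg.Agent.Helper57.A7KJ10
import Cfsg.Agent.Helper11.A7CN
import Cfsg.Agent.Helper83.A7CHK
import Cfsg.Agent.Helper83.A7CHA2
import Cfsg.Agent.Helper91.A7CHP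
import Cfsg.Agent.Helper83.A7CHA3
import Cfsg.Agent.Helper93.A7BC
import Cfsg.Agent.Helper31.A7T1B
import Cfsg.Agent.Helper91.A7T1A
import Cfsg.Agent.Helper76.A7DEG6
import Cfsg.Agent.Helper59.A7FUS
import Cfsg.Agent.Helper31.A7IDX
import Cfsg.Agent.Helper70.A7INT
import Cfsg.Agent.Helper11.A7INV
import Cfsg.Agent.Helper53.A7TT
import Cfsg.Agent.Helper33.A7K4
import Cfsg.Agent.Helper82.A7MAINL
import Cfsg.Agent.Helper27.A7N3
import Cfsg.Agent.Helper20.A7N3A
import Cfsg.Agent.Helper88.A7S7A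
import Cfsg.Agent.Helper88.A7S7B
import Cfsg.Agent.Helper27.A7NO252
import Cfsg.Agent.Helper31.A7FIN
import Cfsg.Agent.Helper33.A7OVG
import Cfsg.Agent.Helper93.A7U4
import Cfsg.Agent.Helper27.A7S7
import Cfsg.Agent.Helper31.A7T2E
import Cfsg.Agent.Helper93.A7V4S

set_option autoImplicit false
set_option linter.style.haveILetI false
open Cfsg

universe u

namespace Cfsg.Agent.S0984

open Subgroup in
/-- A simple group of order 2520 has a subgroup of index 7 (assembly of the pieces of CALL S0984). -/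
theorem a7_index7 {G : Type u} [Group G] [Finite G] [IsSimpleGroup G]
    (h : Nat.card G = 2520) : ∃ H : Subgroup G, H.index = 7 := by
  classical
  haveI : Fact (Nat.Prime 3) := ⟨by norm_num⟩
  haveI : Fact (Nat.Prime 7) := ⟨by norm_num⟩
  have hidx := Cfsg.Agent.Helper31.a7_index h
  have hS7 := Cfsg.Agent.Helper27.a7_syl7 h (Cfsg.Agent.Helper88.a7_n7_ne_15 h) (Cfsg.Agent.Helper88.a7_n7_ne_36 h)
  have hC7 : ∀ P : Sylow 7 G, Nat.card (centralizer ((P : Subgroup G) : Set G)) = 7 :=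
    fun P => (hS7 P).1
  have hN7 : ∀ P : Sylow 7 G, Nat.card (normalizer ((P : Subgroup G) : Set G)) = 21 :=
    fun P => (hS7 P).2
  obtain ⟨P⟩ : Nonempty (Sylow 3 G) := inferInstance
  have hP9 : Nat.card (P : Subgroup G) = 9 := by
    have := Cfsg.Agent.Helper9.OrdTools.sylow_card (p := 3) 2 280 (h.trans (by norm_num))
      (by norm_num) P
    simpa using this
  have hnum := Cfsg.Agent.Helper9.OrdTools.sylow_num P (by rw [hP9]; norm_num)
    (by rw [hP9, h]; norm_num)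
  rcases Cfsg.Agent.Helper27.a7_n3 h hC7 (Cfsg.Agent.Helper20.a7_n3_ne_28 h) with h7 | h70
  · refine ⟨normalizer ((P : Subgroup G) : Set G), ?_⟩
    have h1 := hnum.2.2.2
    have h2 := Subgroup.card_mul_index (normalizer ((P : Subgroup G) : Set G))
    rw [h7] at h1
    rw [h] at h1 h2
    have h3 : Nat.card (normalizer ((P : Subgroup G) : Set G)) = 360 := by omega
    rw [h3] at h2
    omega
  have hN36 : Nat.card (normalizer ((P : Subgroup G) : Set G)) = 36 := by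
    have h1 := hnum.2.2.2
    rw [h70, h] at h1
    omega
  have h252 := Cfsg.Agent.Helper27.a7_no_252 h hC7 hN7
  have hOV := fun H => Cfsg.Agent.Helper33.a7_overgroup h h70 h252 P H
  have hTT := Cfsg.Agent.Helper53.a7_invol_cent h
  obtain ⟨Q, hQ, x, hxP, hxQ, hx⟩ := Cfsg.Agent.Helper70.a7_inter h h70 P
  by_cases hnorm : ∀ n ∈ normalizer ((P : Subgroup G) : Set G), n * x * n⁻¹ ∈ zpowers x
  · exact Cfsg.Agent.Helper11.a7_case1 h P Q hOV hQ x hxP hxQ hx hnorm
  push Not at hnorm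
  obtain ⟨n, hn, hnx⟩ := hnorm
  by_cases hCP : Nat.card (centralizer ((P : Subgroup G) : Set G)) = 9
  swap
  · exact Cfsg.Agent.Helper11.a7_cent9 h h70 P hOV hTT hCP
  have hcent : ∀ m ∈ normalizer ((P : Subgroup G) : Set G), m * x = x * m →
      m ∈ (P : Subgroup G) :=
    fun m hm hmx => Cfsg.Agent.Helper11.a7_cent_norm h h70 P hCP x hxP hx n hn hnx m hm hmx
  obtain ⟨t, htN, ht, htinv⟩ := Cfsg.Agent.Helper11.a7_invert h h70 P hCP
  obtain ⟨L, hL, hLn, hLc⟩ := Cfsg.Agent.Helper93.a7_complement P hP9 x hxP hcent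
  rcases Cfsg.Agent.Helper93.a7_cent_card h hC7 hidx P Q hQ x hxP hxQ hx hcent with h36 | h90 | h360
  rotate_left
  · exact (Cfsg.Agent.Helper57.a7_cent_ne_90 P hP9 x hxP hcent L hL hLn (by omega)).elim
  · refine ⟨centralizer ({x} : Set G), ?_⟩
    have h2 := Subgroup.card_mul_index (centralizer ({x} : Set G))
    rw [h360, h] at h2
    omega
  have hL4 : Nat.card L = 4 := by omega
  obtain ⟨hKall, hKfix⟩ := Cfsg.Agent.Helper33.a7_klein P hP9 x hxP hx hcent L hL hLn hL4 h36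
  have hx2P : n * x * n⁻¹ ∈ (P : Subgroup G) := (Subgroup.mem_normalizer_iff.mp hn x).mp hxP
  have hKx : ∀ k ∈ L, k * x = x * k := fun k hk =>
    (Subgroup.mem_centralizer_iff.mp (hL hk) x (Set.mem_singleton x)).symm
  have cfg : Helper82.A7Cfg P x (n * x * n⁻¹) t L :=
    { hP9 := hP9, hxP := hxP, hx := hx, hx2P := hx2P, hx2 := hnx,
      hconj := isConj_iff.mpr ⟨n, rfl⟩, ht := ht, htinv := htinv, hK4 := hL4, hKx := hKx,
      hKall := hKall, hKfix := hKfix }
  obtain ⟨z, k, hzK, hkK, hz, hk, hkz, hzk, hzt, htk⟩ := Cfsg.Agent.Helper91.a7_d8_elts P x _ t L cfg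
  have hall : ∀ g : G, orderOf g = 2 → IsConj g z :=
    fun g hg => Cfsg.Agent.Helper31.a7_d8_conj h z k t hz hk ht hkz hzk hzt htk g hg
  by_cases h4 : ∃ u ∈ normalizer ((P : Subgroup G) : Set G), orderOf u = 4
  swap
  · push Not at h4
    obtain ⟨s, hsN, hs, y, hyP, hy1, hsy⟩ := Cfsg.Agent.Helper93.a7_v4_fixed h h70 P hCP h4
    exact (Cfsg.Agent.Helper59.A7FUS.a7_fusion h P hCP x hxP hx hcent z hz (hKx z hzK) hall s hs hsN y hyP hy1 hsy).elim
  obtain ⟨u, huN, hu⟩ := h4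
  have huinv := Cfsg.Agent.Helper93.a7_sq_invert P hP9 hCP u huN hu
  obtain ⟨T, hT8, huT, hTinv⟩ := Cfsg.Agent.Helper31.a7_sylow2 h z k t hz hk ht hkz hzk hzt htk u hu
  obtain ⟨χ, hχ6⟩ := Cfsg.Agent.Helper76.a7_deg6 h hC7 hN7
  have hχ1 : (χ : G → ℂ) 1 = 6 := by
    rw [Cfsg.Agent.Helper81.irr_one_eq_charDegree, hχ6]; norm_num
  have hχne : χ ≠ Cfsg.Agent.Helper81.trivIrr G := by
    intro heq
    rw [heq, Cfsg.Agent.Helper81.trivIrr_apply] at hχ1
    norm_num at hχ1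
  have hker : ∀ g : G, (χ : G → ℂ) g = (χ : G → ℂ) 1 → g = 1 :=
    fun g hg => Cfsg.Agent.Helper8.o5040_ker χ hχne g hg
  have hz1 : z ≠ 1 := by
    intro h1
    rw [h1, orderOf_one] at hz
    norm_num at hz
  have hcz : (χ : G → ℂ) z = 2 := by
    rcases Cfsg.Agent.Helper83.a7_chi_klein P x _ t L cfg χ hχ1 hker z hzK hz1 with h2 | h2
    · exact h2
    · exact (Cfsg.Agent.Helper83.a7_chi_neg P x _ t L cfg χ hχ1 hker z hzK hz1 h2).elim
  have ha : (χ : G → ℂ) x = 3 := Cfsg.Agent.Helper83.a7_chi_three P x _ t L cfg χ hχ1 hker z hzK hz1 hcz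
  have hPs := Cfsg.Agent.Helper91.a7_chi_sylow P x _ t L cfg χ hχ1 hker ha
  have h2 : ∀ g : G, orderOf g = 2 → (χ : G → ℂ) g = 2 := by
    intro g hg
    obtain ⟨c, hc⟩ := isConj_iff.mp (hall g hg)
    rw [← hcz, ← hc]
    exact (Cfsg.Agent.Helper81.irr_isClassFunction χ g c).symm
  exact Cfsg.Agent.Helper82.a7_mainline P hP9 hN36 hOV χ hχ1 hPs h2 u huN hu huinv T hT8 huT hTinv

/-- A simple group of order 2520 is isomorphic to the alternating group of degree 7. -/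
theorem result {G : Type*} [Group G] [Finite G] [IsSimpleGroup G] (h : Nat.card G = 2520) : Nonempty (G ≃* alternatingGroup (Fin 7)) := by
  obtain ⟨H, hH⟩ := a7_index7 h
  exact Cfsg.Agent.Helper31.a7_of_index h H hH

end Cfsg.Agent.S0984
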