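import Cfsg.Statements.S1011
import Cfsg.Agent.Helper9.PSL2Even

set_option autoImplicit false
set_option maxHeartbeats 1000000
set_option linter.style.haveILetI false
open Cfsg

namespace Cfsg.Agent.S1011

open Subgroup Cfsg.Agent.Helper9.OrdTools

theorem arith7 : ∀ d, d ∣ 72 → d % 7 = 1 → d = 1 ∨ d = 8 ∨ d = 36 := by
  intro d hd
  have hle : d ≤ 72 := Nat.le_of_dvd (by norm_num) hd
  revert hd
  have key : ∀ d ≤ 72, d ∣ 72 → d % 7 = 1 → d = 1 ∨ d = 8 ∨ d = 36 := by
    decide +kernel
  exact key d hle

theorem arith3 : ∀ d, d ∣ 56 → d % 3 = 1 → d = 1 ∨ d = 4 ∨ d = 7 ∨ d = 28 := by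
  intro d hd
  have hle : d ≤ 56 := Nat.le_of_dvd (by norm_num) hd
  revert hd
  have key : ∀ d ≤ 56, d ∣ 56 → d % 3 = 1 → d = 1 ∨ d = 4 ∨ d = 7 ∨ d = 28 := by
    decide +kernel
  exact key d hle

theorem two_factor {e c : ℕ} (he : 1 < e) (h : e * c = 2) : c = 1 := by
  rcases c with _ | _ | c
  · simp at h
  · rfl
  · nlinarith

/-- A simple group of order 504 is isomorphic to the projective special linear group of dimension 2 over the field with 8 elements. -/
theorem result {G : Type*} [Group G] [Finite G] [IsSimpleGroup G] (h : Nat.card G = 504) {F : Type*} [Field F] [Fintype F] (hF : Fintype.card F = 8) : Nonempty (G ≃* Matrix.ProjectiveSpecialLinearGroup (Fin 2) F) := by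
  classical
  haveI : Fact (Nat.Prime 2) := ⟨by norm_num⟩
  haveI : Fact (Nat.Prime 3) := ⟨by norm_num⟩
  haveI : Fact (Nat.Prime 7) := ⟨by norm_num⟩
  -- Sylow orders
  have h7card : ∀ P : Sylow 7 G, Nat.card (P : Subgroup G) = 7 := fun P => by
    have := sylow_card 1 72 (h.trans (by norm_num)) (by norm_num) P
    simpa using this
  have h3card : ∀ P : Sylow 3 G, Nat.card (P : Subgroup G) = 9 := fun P => by
    have := sylow_card 2 56 (h.trans (by norm_num)) (by norm_num) P
    simpa using this
  have h2card : ∀ P : Sylow 2 G, Nat.card (P : Subgroup G) = 8 := fun P => by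
    have := sylow_card 3 63 (h.trans (by norm_num)) (by norm_num) P
    simpa using this
  -- `G` is not abelian
  have hna : ∃ a b : G, a * b ≠ b * a := by
    by_contra hcon
    push Not at hcon
    obtain ⟨P⟩ : Nonempty (Sylow 7 G) := inferInstance
    have hn : (P : Subgroup G).Normal :=
      ⟨fun n hn g => by rw [hcon g n, mul_inv_cancel_right]; exact hn⟩
    have h7 := h7card P
    rcases hn.eq_bot_or_eq_top with h1 | h1
    · rw [h1, Subgroup.card_bot] at h7; omega
    · rw [h1, Subgroup.card_top, h] at h7; omega
  -- no proper subgroup of index `< 8`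
  have hidx : ∀ H : Subgroup G, H.index ≠ 1 → 8 ≤ H.index := by
    intro H h1
    have hH : H ≠ ⊤ := fun ht => h1 (ht ▸ Subgroup.index_top)
    have hd := card_dvd_factorial_index H hH
    rw [h] at hd
    by_contra hlt
    push Not at hlt
    have h0 : H.index ≠ 0 := Subgroup.index_ne_zero_of_finite
    have h7 : H.index = 7 := by
      interval_cases hi : H.index
      · exact absurd rfl h0
      · exact absurd rfl h1
      · revert hd; decide
      · revert hd; decide
      · revert hd; decide
      · revert hd; decide
      · revert hd; decide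
      · rfl
    obtain ⟨k, hk, hk'⟩ := alt_index hna H (by omega)
    rw [h7, h] at hk
    have hk5 : k = 5 := by
      have : Nat.factorial 7 = 5040 := by decide
      omega
    rw [hk5, h] at hk'
    revert hk'
    decide
  -- abelian Sylow 3-subgroups
  have hab3 : ∀ P : Sylow 3 G, ∀ a ∈ (P : Subgroup G), ∀ b ∈ (P : Subgroup G), a * b = b * a := by
    intro P a ha b hb
    have := IsPGroup.commutative_of_card_eq_prime_sq (p := 3) (G := (P : Subgroup G))
      (by rw [h3card P]; norm_num) ⟨a, ha⟩ ⟨b, hb⟩
    exact congrArg Subtype.val this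
  -- Sylow 7
  have hn7 : Nat.card (Sylow 7 G) = 36 := by
    obtain ⟨P⟩ : Nonempty (Sylow 7 G) := inferInstance
    obtain ⟨hd, hm, hne, hN⟩ :=
      sylow_num P (by rw [h7card]; norm_num) (by rw [h7card, h]; norm_num)
    have hidxP : (P : Subgroup G).index = 72 := by
      have := (P : Subgroup G).card_mul_index
      rw [h7card, h] at this
      omega
    rw [hidxP] at hd
    rcases arith7 _ hd hm with h1 | h8 | h36
    · exact absurd h1 hne
    · exfalso
      have hC := card_centralizer_of_num P (h7card P) h8
      obtain ⟨e, he, he1, hNe, -⟩ :=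
        normalizer_centralizer_prime P (h7card P) (by rw [h]; norm_num)
      rw [h8, h] at hN
      rw [hC] at hNe
      have he9 : e = 9 := by omega
      rw [he9] at he
      norm_num at he
    · exact h36
  have hC7 : ∀ P : Sylow 7 G, Nat.card (centralizer ((P : Subgroup G) : Set G)) = 7 := by
    intro P
    obtain ⟨-, -, -, hN⟩ :=
      sylow_num P (by rw [h7card]; norm_num) (by rw [h7card, h]; norm_num)
    obtain ⟨e, he, he1, hNe, h7C⟩ :=
      normalizer_centralizer_prime P (h7card P) (by rw [h]; norm_num)
    rw [hn7, h] at hN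
    obtain ⟨c, hc⟩ := h7C
    rw [hc] at hNe ⊢
    have h14 : e * (7 * c) = 14 := by omega
    have hec : e * c = 2 := by nlinarith
    have hc1 : c = 1 := two_factor he1 hec
    rw [hc1]
  have hcent7 : ∀ u : G, orderOf u = 7 → ∀ c ∈ centralizer ({u} : Set G), c ^ 7 = 1 := by
    intro u hu c hc
    obtain ⟨P, hP⟩ := exists_sylow_of_orderOf h7card hu
    rw [centralizer_singleton_eq hP] at hc
    have := pow_card_subgroup hc
    rwa [hC7 P] at this
  -- Sylow 3
  have hn3 : Nat.card (Sylow 3 G) = 28 := by
    obtain ⟨P⟩ : Nonempty (Sylow 3 G) := inferInstance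
    obtain ⟨hd, hm, hne, hN⟩ :=
      sylow_num P (by rw [h3card]; norm_num) (by rw [h3card, h]; norm_num)
    have hidxP : (P : Subgroup G).index = 56 := by
      have := (P : Subgroup G).card_mul_index
      rw [h3card, h] at this
      omega
    rw [hidxP] at hd
    have hNi : Nat.card (Sylow 3 G) = (normalizer ((P : Subgroup G) : Set G)).index :=
      Sylow.card_eq_index_normalizer P
    rcases arith3 _ hd hm with h1 | h4 | h7 | h28
    · exact absurd h1 hne
    · exfalso
      have := hidx (normalizer ((P : Subgroup G) : Set G)) (by rw [← hNi, h4]; norm_num)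
      rw [← hNi, h4] at this
      omega
    · exfalso
      have := hidx (normalizer ((P : Subgroup G) : Set G)) (by rw [← hNi, h7]; norm_num)
      rw [← hNi, h7] at this
      omega
    · exact h28
  -- centralizers of `3`-elements
  have key3 : ∀ P : Sylow 3 G, ∀ y ∈ (P : Subgroup G), y ≠ 1 →
      ∀ c ∈ centralizer ({y} : Set G), c ∈ (P : Subgroup G) := by
    intro P y hy hy1
    have hab := hab3 P
    obtain ⟨-, -, -, hN⟩ :=
      sylow_num P (by rw [h3card]; norm_num) (by rw [h3card, h]; norm_num)
    have hN18 : Nat.card (normalizer ((P : Subgroup G) : Set G)) = 18 := by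
      rw [hn3, h] at hN; omega
    obtain ⟨t0, ht0⟩ := exists_prime_orderOf_dvd_card'
      (G := normalizer ((P : Subgroup G) : Set G)) 2 (by rw [hN18]; norm_num)
    have hto : orderOf (t0 : G) = 2 := by rw [Subgroup.orderOf_coe]; exact ht0
    have htN : (t0 : G) ∈ normalizer ((P : Subgroup G) : Set G) := t0.2
    generalize (t0 : G) = t at hto htN
    have htP : t ∉ (P : Subgroup G) := by
      intro htP
      have := orderOf_dvd_natCard (⟨t, htP⟩ : (P : Subgroup G))
      rw [h3card P, ← Subgroup.orderOf_coe, hto] at this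
      norm_num at this
    have ht2 : t * t = 1 := by rw [← sq, ← hto, pow_orderOf_eq_one]
    have htinv : t⁻¹ = t := inv_eq_of_mul_eq_one_left ht2
    have hNX : ∀ X : Subgroup G, (P : Subgroup G) ≤ X → t ∈ X →
        normalizer ((P : Subgroup G) : Set G) ≤ X := by
      intro X hPX htX
      have hPY : (P : Subgroup G) ≤ X ⊓ normalizer ((P : Subgroup G) : Set G) :=
        le_inf hPX Subgroup.le_normalizer
      have hYN : X ⊓ normalizer ((P : Subgroup G) : Set G) ≤
          normalizer ((P : Subgroup G) : Set G) := inf_le_right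
      have h1 : 9 ∣ Nat.card (X ⊓ normalizer ((P : Subgroup G) : Set G) : Subgroup G) := by
        have := Subgroup.card_dvd_of_le hPY
        rwa [h3card P] at this
      have h2 : Nat.card (X ⊓ normalizer ((P : Subgroup G) : Set G) : Subgroup G) ∣ 18 := by
        have := Subgroup.card_dvd_of_le hYN
        rwa [hN18] at this
      have h3 : Nat.card (X ⊓ normalizer ((P : Subgroup G) : Set G) : Subgroup G) ≠ 9 := by
        intro h9
        have : (P : Subgroup G) = X ⊓ normalizer ((P : Subgroup G) : Set G) :=
          Subgroup.eq_of_le_of_card_ge hPY (by rw [h9, h3card P])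
        exact htP (this ▸ ⟨htX, htN⟩)
      have h4 : Nat.card (X ⊓ normalizer ((P : Subgroup G) : Set G) : Subgroup G) = 18 := by
        obtain ⟨m, hm⟩ := h1
        rw [hm] at h2 h3 ⊢
        have hm2 : m ≤ 2 := by
          have := Nat.le_of_dvd (by norm_num) h2
          omega
        interval_cases m
        · norm_num at h2
        · exact absurd rfl h3
        · rfl
      have : X ⊓ normalizer ((P : Subgroup G) : Set G) = normalizer ((P : Subgroup G) : Set G) :=
        Subgroup.eq_of_le_of_card_ge hYN (by rw [h4, hN18])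
      rw [← this]
      exact inf_le_left
    have htinvP : ∀ a ∈ (P : Subgroup G), t * a * t⁻¹ = a⁻¹ := by
      intro a ha
      have hta : t * a * t⁻¹ ∈ (P : Subgroup G) := (Subgroup.mem_normalizer_iff.mp htN a).mp ha
      have hw : a * (t * a * t⁻¹) = 1 := by
        apply eq_one_of_commute_normalizer hna P hab _ (mul_mem ha hta)
        have hle := hNX (centralizer ({a * (t * a * t⁻¹)} : Set G)) ?_ ?_
        · intro n hn
          exact (Subgroup.mem_centralizer_iff.mp (hle hn) _ rfl).symm
        · intro b hb
          rw [Subgroup.mem_centralizer_iff]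
          intro w hw
          rw [Set.mem_singleton_iff] at hw
          subst hw
          exact hab _ (mul_mem ha hta) b hb
        · rw [Subgroup.mem_centralizer_iff]
          intro w hw
          rw [Set.mem_singleton_iff] at hw
          subst hw
          calc (a * (t * a * t⁻¹)) * t = a * t * a := by group
            _ = (t * t) * a * t⁻¹ * a := by rw [ht2, one_mul, htinv]
            _ = t * ((t * a * t⁻¹) * a) := by group
            _ = t * (a * (t * a * t⁻¹)) := by rw [hab _ hta a ha]
      exact eq_inv_of_mul_eq_one_right hw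
    have hy9 : y ^ 9 = 1 := by
      have := pow_card_subgroup hy
      rwa [h3card P] at this
    intro c hc
    have hPC' : (P : Subgroup G) ≤ centralizer ({y} : Set G) := by
      intro b hb
      rw [Subgroup.mem_centralizer_iff]
      intro w hw
      rw [Set.mem_singleton_iff] at hw
      subst hw
      exact hab w hy b hb
    have htC : t ∉ centralizer ({y} : Set G) := by
      intro htC
      have h1 : y * t = t * y := Subgroup.mem_centralizer_iff.mp htC y rfl
      have h2 := htinvP y hy
      rw [← h1, mul_inv_cancel_right] at h2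
      have h3 : y ^ 2 = 1 := by
        rw [sq]
        nth_rewrite 2 [h2]
        exact mul_inv_cancel y
      exact hy1 (eq_one_of_pow_coprime (by norm_num : Nat.Coprime 2 9) h3 hy9)
    have h9C : 9 ∣ Nat.card (centralizer ({y} : Set G)) := by
      have := Subgroup.card_dvd_of_le hPC'
      rwa [h3card P] at this
    have hC504 : Nat.card (centralizer ({y} : Set G)) ∣ 504 :=
      h ▸ Subgroup.card_subgroup_dvd_card _
    have hCM : centralizer ({y} : Set G) ≤ normalizer ((zpowers y : Subgroup G) : Set G) := by
      intro d hd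
      have hcomm : ∀ w ∈ zpowers y, d * w = w * d := by
        intro w hw
        obtain ⟨k, rfl⟩ := Subgroup.mem_zpowers_iff.mp hw
        have : Commute y d := Subgroup.mem_centralizer_iff.mp hd y rfl
        exact (this.zpow_left k).eq.symm
      refine mem_normalizer_of_conj (fun w hw => ?_) (fun w hw => ?_)
      · rw [hcomm w hw, mul_inv_cancel_right]; exact hw
      · rw [mul_assoc, ← hcomm w hw, inv_mul_cancel_left]; exact hw
    have htM : t ∈ normalizer ((zpowers y : Subgroup G) : Set G) := by
      have hconj : ∀ w ∈ zpowers y, t * w * t⁻¹ ∈ zpowers y := by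
        intro w hw
        obtain ⟨k, rfl⟩ := Subgroup.mem_zpowers_iff.mp hw
        have hyk : y ^ k ∈ (P : Subgroup G) := zpow_mem hy k
        rw [htinvP _ hyk]
        exact inv_mem (Subgroup.zpow_mem_zpowers y k)
      refine mem_normalizer_of_conj hconj (fun w hw => ?_)
      have := hconj w hw
      rwa [htinv] at this ⊢
    have hMidx : 8 ≤ (normalizer ((zpowers y : Subgroup G) : Set G)).index := by
      apply hidx
      intro h1
      have hn : (zpowers y).Normal :=
        Subgroup.normalizer_eq_top_iff.mp (Subgroup.index_eq_one.mp h1)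
      rcases hn.eq_bot_or_eq_top with h2 | h2
      · exact hy1 (Subgroup.zpowers_eq_bot.mp h2)
      · have h3 : Nat.card (zpowers y) ≤ 9 := by
          have := Subgroup.card_le_of_le ((Subgroup.zpowers_le).mpr hy)
          rwa [h3card P] at this
        rw [h2, Subgroup.card_top, h] at h3
        omega
    have hM63 : Nat.card (normalizer ((zpowers y : Subgroup G) : Set G)) ≤ 63 := by
      have := (normalizer ((zpowers y : Subgroup G) : Set G)).card_mul_index
      rw [h] at this
      nlinarith
    have hCM2 : 2 * Nat.card (centralizer ({y} : Set G)) ≤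
        Nat.card (normalizer ((zpowers y : Subgroup G) : Set G)) := by
      obtain ⟨j, hj⟩ := Subgroup.card_dvd_of_le hCM
      have hC0 : 0 < Nat.card (centralizer ({y} : Set G)) := Nat.card_pos
      have hM0 : 0 < Nat.card (normalizer ((zpowers y : Subgroup G) : Set G)) := Nat.card_pos
      rcases Nat.lt_or_ge j 2 with hj2 | hj2
      · exfalso
        interval_cases j
        · omega
        · have : centralizer ({y} : Set G) = normalizer ((zpowers y : Subgroup G) : Set G) :=
            Subgroup.eq_of_le_of_card_ge hCM (by rw [hj, mul_one])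
          exact htC (this ▸ htM)
      · nlinarith
    have hC9 : Nat.card (centralizer ({y} : Set G)) = 9 := by
      obtain ⟨m, hm⟩ := h9C
      rw [hm] at hC504 hCM2 ⊢
      have hm3 : m ≤ 3 := by omega
      interval_cases m
      · have : 0 < Nat.card (centralizer ({y} : Set G)) := Nat.card_pos
        omega
      · rfl
      · exfalso
        have hle := le_normalizer_of_card_two_mul hPC' (by rw [hm, h3card P])
        have : centralizer ({y} : Set G) = normalizer ((P : Subgroup G) : Set G) :=
          Subgroup.eq_of_le_of_card_ge hle (by rw [hm, hN18])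
        exact htC (this ▸ htN)
      · norm_num at hC504
    have : (P : Subgroup G) = centralizer ({y} : Set G) :=
      Subgroup.eq_of_le_of_card_ge hPC' (by rw [hC9, h3card P])
    rw [this]
    exact hc
  -- counting
  have hU7 : 216 ≤ Nat.card {g : G // g ≠ 1 ∧ ∃ P : Sylow 7 G, g ∈ (P : Subgroup G)} := by
    have := card_ti_ge (fun P : Sylow 7 G => (P : Subgroup G)) 7 h7card ?_
    · rwa [hn7] at this
    · intro P Q hPQ g hgP hgQ
      by_contra hg1
      exact hPQ (Sylow.ext ((zpowers_eq_sylow P (h7card P) hgP hg1).symm.trans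
        (zpowers_eq_sylow Q (h7card Q) hgQ hg1)))
  have hU3 : 224 ≤ Nat.card {g : G // g ≠ 1 ∧ ∃ P : Sylow 3 G, g ∈ (P : Subgroup G)} := by
    have := card_ti_ge (fun P : Sylow 3 G => (P : Subgroup G)) 9 h3card ?_
    · rwa [hn3] at this
    · intro P Q hPQ g hgP hgQ
      by_contra hg1
      have hQP : (Q : Subgroup G) ≤ (P : Subgroup G) := by
        intro b hb
        apply key3 P g hgP hg1
        rw [Subgroup.mem_centralizer_iff]
        intro w hw
        rw [Set.mem_singleton_iff] at hw
        subst hw
        exact hab3 Q w hgQ b hb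
      exact hPQ (Sylow.ext (Subgroup.eq_of_le_of_card_ge hQP (by rw [h3card, h3card]))).symm
  obtain ⟨T⟩ : Nonempty (Sylow 2 G) := inferInstance
  have hT8 := h2card T
  have hTidx : (T : Subgroup G).index = 63 := by
    have := (T : Subgroup G).card_mul_index
    rw [hT8, h] at this
    omega
  have h7pow : ∀ g : G, (∃ P : Sylow 7 G, g ∈ (P : Subgroup G)) → g ^ 7 = 1 := by
    rintro g ⟨P, hP⟩
    have := pow_card_subgroup hP
    rwa [h7card P] at this
  have h9pow : ∀ g : G, (∃ P : Sylow 3 G, g ∈ (P : Subgroup G)) → g ^ 9 = 1 := by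
    rintro g ⟨P, hP⟩
    have := pow_card_subgroup hP
    rwa [h3card P] at this
  have hcount : Nat.card {g : G // g ≠ 1 ∧ g ^ Nat.card (T : Subgroup G) = 1} ≤
      (T : Subgroup G).index := by
    rw [hT8, hTidx]
    have h1 := card_or (fun g : G => g ≠ 1 ∧ g ^ 8 = 1)
      (fun g : G => g ≠ 1 ∧ ∃ P : Sylow 7 G, g ∈ (P : Subgroup G))
      (fun g hA hB => hA.1 (eq_one_of_pow_coprime (by norm_num : Nat.Coprime 8 7) hA.2
        (h7pow g hB.2)))
    have h2 := card_or (fun g : G => (g ≠ 1 ∧ g ^ 8 = 1) ∨
        (g ≠ 1 ∧ ∃ P : Sylow 7 G, g ∈ (P : Subgroup G)))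
      (fun g : G => g ≠ 1 ∧ ∃ P : Sylow 3 G, g ∈ (P : Subgroup G))
      (fun g hAB hC => by
        rcases hAB with hA | hB
        · exact hA.1 (eq_one_of_pow_coprime (by norm_num : Nat.Coprime 8 9) hA.2
            (h9pow g hC.2))
        · exact hB.1 (eq_one_of_pow_coprime (by norm_num : Nat.Coprime 7 9) (h7pow g hB.2)
            (h9pow g hC.2)))
    have h3 := card_mono (fun g : G => ((g ≠ 1 ∧ g ^ 8 = 1) ∨
        (g ≠ 1 ∧ ∃ P : Sylow 7 G, g ∈ (P : Subgroup G))) ∨
        (g ≠ 1 ∧ ∃ P : Sylow 3 G, g ∈ (P : Subgroup G))) (fun g : G => g ≠ 1)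
      (fun g hg => by
        rcases hg with (hA | hB) | hC
        · exact hA.1
        · exact hB.1
        · exact hC.1)
    rw [card_ne_one_eq, h] at h3
    omega
  have hC : ∀ z : G, orderOf z = 2 → ∀ c ∈ centralizer ({z} : Set G),
      c ^ Nat.card (T : Subgroup G) = 1 := by
    intro z hz c hc
    rw [hT8]
    have hco : orderOf c ∣ 504 := h ▸ orderOf_dvd_natCard c
    have hz2 : z ^ 2 = 1 := by rw [← hz, pow_orderOf_eq_one]
    have hz1 : z ≠ 1 := by
      intro h0
      rw [h0, orderOf_one] at hz
      norm_num at hz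
    have hcop : Nat.Coprime (orderOf c) 63 := by
      by_contra hnc
      obtain ⟨r, hr, hrd⟩ := Nat.exists_prime_and_dvd hnc
      have hr1 : r ∣ orderOf c := hrd.trans (Nat.gcd_dvd_left _ _)
      have hr2 : r ∣ 3 * 3 * 7 := hrd.trans (Nat.gcd_dvd_right _ _)
      have hr37 : r = 3 ∨ r = 7 := by
        rcases (Nat.Prime.dvd_mul hr).mp hr2 with h1 | h1
        · rcases (Nat.Prime.dvd_mul hr).mp h1 with h2 | h2
          · left; exact (Nat.prime_dvd_prime_iff_eq hr (by norm_num)).mp h2
          · left; exact (Nat.prime_dvd_prime_iff_eq hr (by norm_num)).mp h2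
        · right; exact (Nat.prime_dvd_prime_iff_eq hr (by norm_num)).mp h1
      have hwo : orderOf (c ^ (orderOf c / r)) = r :=
        orderOf_pow_orderOf_div (orderOf_pos c).ne' hr1
      have hzw : z ∈ centralizer ({c ^ (orderOf c / r)} : Set G) := by
        rw [Subgroup.mem_centralizer_iff]
        intro x hx
        rw [Set.mem_singleton_iff] at hx
        subst hx
        have : Commute z c := Subgroup.mem_centralizer_iff.mp hc z rfl
        exact (this.pow_right _).eq.symm
      generalize c ^ (orderOf c / r) = w at hwo hzw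
      rcases hr37 with rfl | rfl
      · have hzp : IsPGroup 3 (zpowers w) :=
          IsPGroup.of_card (n := 1) (by rw [Nat.card_zpowers, hwo, pow_one])
        obtain ⟨P, hP⟩ := hzp.exists_le_sylow
        have hwP : w ∈ (P : Subgroup G) := hP (Subgroup.mem_zpowers w)
        have hw1 : w ≠ 1 := by
          intro h0
          rw [h0, orderOf_one] at hwo
          norm_num at hwo
        have hzP := key3 P w hwP hw1 z hzw
        exact hz1 (eq_one_of_pow_coprime (by norm_num : Nat.Coprime 2 9) hz2 (h9pow z ⟨P, hzP⟩))
      · have h7 := hcent7 w hwo z hzw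
        exact hz1 (eq_one_of_pow_coprime (by norm_num : Nat.Coprime 2 7) hz2 h7)
    have h8 : orderOf c ∣ 8 := by
      have : orderOf c ∣ 8 * 63 := hco
      exact hcop.dvd_of_dvd_mul_right this
    exact orderOf_dvd_iff_pow_eq_one.mp h8
  have hnn : ¬ (T : Subgroup G).Normal := by
    intro hn
    rcases hn.eq_bot_or_eq_top with h1 | h1
    · rw [h1, Subgroup.card_bot] at hT8; omega
    · rw [h1, Subgroup.card_top, h] at hT8; omega
  exact iso_psl_of_count T (by rw [hT8]; norm_num) hnn hcount hC (by rw [hF, hT8])

end Cfsg.Agent.S1011
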