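import Cfsg.Statements.S1088
import Cfsg.Agent.Helper17.TwD4U
import Cfsg.Agent.Helper17.TwField
import Cfsg.Agent.Helper18.GAut2

set_option autoImplicit false
open Cfsg

namespace Cfsg.Agent.S1088

open Cfsg.Lie Cfsg.Agent.Helper17 Cfsg.Agent.Helper36 Cfsg.Agent.Helper18

/-- |U¹| = |G¹ ∩ U| = q ^ 12 for ³D₄(q). -/
theorem result {K : Type*} [Field K] [Fintype K] {q : ℕ} (hq : IsPrimePow q) (hK : Fintype.card K = q ^ 3) :
    Nat.card ↥(Cfsg.Lie.chevD4.posUnipotent K ⊓ Cfsg.Lie.twistedD4 K q) = q ^ 12 := by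
  have hq1 : 1 < q := hq.one_lt
  obtain ⟨φ, hφ⟩ := exists_frob hq (by norm_num) hK
  have hφ3 : ∀ t : K, φ (φ (φ t)) = t := by
    intro t
    rw [hφ, hφ, hφ]
    have : ((t ^ q) ^ q) ^ q = t ^ (q ^ 3) := by ring
    rw [this, ← hK, FiniteField.pow_card]
  obtain ⟨α, hα⟩ := exists_graph_aut_of_checks (F := K) hD_D4 gautP_D4a gautQ_D4a [2, 1, 3, 0] [3, 1, 0, 2]
    gaut_chk_D4a
  have hshift : ∀ o ∈ orbsD4, ∀ t : K, (o.length = 1 → φ t = t) → ∀ i ∈ o,
      φ (coef φ eD4 t i) = coef φ eD4 t (lD4.getD i 0) := by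
    intro o ho t ht i hi
    simp only [orbsD4, List.mem_cons, List.not_mem_nil, or_false] at ho
    rcases ho with rfl | rfl
    · simp only [List.mem_cons, List.not_mem_nil, or_false] at hi
      subst hi
      exact ht rfl
    · simp only [List.mem_cons, List.not_mem_nil, or_false] at hi
      rcases hi with rfl | rfl | rfl
      · rfl
      · rfl
      · exact hφ3 t
  have hcard := card_twisted_unipotent hD_D4 φ eD4 lD4 orbsD4 rowsD4 coordWD4
    (rootCoords_of_OK chainPackOK_D4 coordOK_D4) twTab_D4 orbOK_D4 (symActOK_D4 _ (by decide)) (by decide) α hα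
    (by decide) hshift
  rw [twistedD4_eq q φ hφ (bRel_of_mem hD_D4).xadd, hcard]
  have e1 : (rowsD4.map fun row => Nat.card (RowPar φ orbsD4 row)) =
      rowsD4.map fun row => if (rowO orbsD4 row).length = 1 then q else q ^ 3 :=
    List.map_congr_left fun row _ => card_rowPar hφ hq1 (by norm_num) hK orbsD4 row
  rw [e1, prod_ite_pow]
  congr 1

end Cfsg.Agent.S1088
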