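import Cfsg.Statements.S1162
import Cfsg.Agent.Helper60.SzSimple

set_option autoImplicit false
open Cfsg

namespace Cfsg.Agent.S1162

open Cfsg.Agent.Helper60

/-- For the Suzuki group Sz(q), q = 2^(2m+1) ≥ 8, realised as the elements g of Sp₄(F) with g* = g^θ (θ the 2^(m+1)-th power map, so that θ² is squaring): `Sz(q)` is a simple group. -/
theorem result {F : Type*} [Field F] [Fintype F] {m : ℕ} (hm : 1 ≤ m) (hF : Fintype.card F = 2 ^ (2 * m + 1)) :
    IsSimpleGroup ↥(Cfsg.Lie.Sz F (2 ^ (m + 1))) := by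
  classical
  have : Fact (Nat.Prime 2) := ⟨Nat.prime_two⟩
  have : CharP F 2 := charP_of_card_eq_prime_pow hF
  have : SzField F (m + 1) := szField_of_card hF
  have hex : ∃ a : Fˣ, a ≠ 1 := by
    have h1 : 1 < Nat.card Fˣ := by
      rw [Nat.card_units, Nat.card_eq_fintype_card, hF]
      have : 2 ^ 3 ≤ 2 ^ (2 * m + 1) := Nat.pow_le_pow_right (by norm_num) (by omega)
      omega
    have := Finite.one_lt_card_iff_nontrivial.mp h1
    exact exists_ne (1 : Fˣ)
  exact isSimple_Sz hex

end Cfsg.Agent.S1162
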