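import Cfsg.Statements.S1163
import Cfsg.Agent.Helper60.SzGroup

set_option autoImplicit false
open Cfsg

namespace Cfsg.Agent.S1163

open Cfsg.Agent.Helper60

theorem odd_part (m : ℕ) :
    ¬ 2 ∣ (2 ^ (2 * m + 1) - 1) * ((2 ^ (2 * m + 1)) ^ 2 + 1) := by
  have h1 : 2 ^ (2 * m + 1) = 2 * 2 ^ (2 * m) := by ring
  have hpos : 0 < 2 ^ (2 * m) := by positivity
  intro h
  rcases (Nat.Prime.dvd_mul Nat.prime_two).mp h with h | h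
  · rw [h1] at h
    omega
  · have h2 : (2 ^ (2 * m + 1)) ^ 2 + 1 = 2 * (2 * (2 ^ (2 * m)) ^ 2) + 1 := by
      rw [h1]
      ring
    rw [h2] at h
    omega

/-- For the Suzuki group Sz(q), q = 2^(2m+1) ≥ 8, realised as the elements g of Sp₄(F) with g* = g^θ (θ the 2^(m+1)-th power map, so that θ² is squaring): `|Sz(q)| = q² (q - 1) (q² + 1)`, and there is a Sylow 2-subgroup `S` whose normaliser `H` has order `q²(q-1)` and index `q² + 1`, the action of `Sz(q)` on the cosets of `H` is doubly transitive, and `S` acts regularly on the cosets other than `H` itself. -/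
theorem result {F : Type*} [Field F] [Fintype F] {m : ℕ} (hm : 1 ≤ m) (hF : Fintype.card F = 2 ^ (2 * m + 1)) :
    Nat.card ↥(Cfsg.Lie.Sz F (2 ^ (m + 1))) = (2 ^ (2 * m + 1)) ^ 2 * (2 ^ (2 * m + 1) - 1) * ((2 ^ (2 * m + 1)) ^ 2 + 1) ∧
    ∃ S : Sylow 2 ↥(Cfsg.Lie.Sz F (2 ^ (m + 1))),
      Nat.card (Subgroup.normalizer ((S : Subgroup ↥(Cfsg.Lie.Sz F (2 ^ (m + 1)))) : Set ↥(Cfsg.Lie.Sz F (2 ^ (m + 1))))) = (2 ^ (2 * m + 1)) ^ 2 * (2 ^ (2 * m + 1) - 1) ∧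
      (Subgroup.normalizer ((S : Subgroup ↥(Cfsg.Lie.Sz F (2 ^ (m + 1)))) : Set ↥(Cfsg.Lie.Sz F (2 ^ (m + 1))))).index = (2 ^ (2 * m + 1)) ^ 2 + 1 ∧
      MulAction.IsMultiplyPretransitive ↥(Cfsg.Lie.Sz F (2 ^ (m + 1))) (↥(Cfsg.Lie.Sz F (2 ^ (m + 1))) ⧸ Subgroup.normalizer ((S : Subgroup ↥(Cfsg.Lie.Sz F (2 ^ (m + 1)))) : Set ↥(Cfsg.Lie.Sz F (2 ^ (m + 1))))) 2 ∧
      ∀ x y : ↥(Cfsg.Lie.Sz F (2 ^ (m + 1))) ⧸ Subgroup.normalizer ((S : Subgroup ↥(Cfsg.Lie.Sz F (2 ^ (m + 1)))) : Set ↥(Cfsg.Lie.Sz F (2 ^ (m + 1)))),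
        x ≠ (QuotientGroup.mk 1) → y ≠ (QuotientGroup.mk 1) → ∃! s : ↥(S : Subgroup ↥(Cfsg.Lie.Sz F (2 ^ (m + 1)))), (s : ↥(Cfsg.Lie.Sz F (2 ^ (m + 1)))) • x = y := by
  classical
  have : Fact (Nat.Prime 2) := ⟨Nat.prime_two⟩
  have : CharP F 2 := charP_of_card_eq_prime_pow hF
  have : SzField F (m + 1) := szField_of_card hF
  have hcard : Nat.card ↥(Cfsg.Lie.Sz F (2 ^ (m + 1))) =
      (2 ^ (2 * m + 1)) ^ 2 * (2 ^ (2 * m + 1) - 1) * ((2 ^ (2 * m + 1)) ^ 2 + 1) := by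
    rw [card_Sz, hF]
  refine ⟨hcard, ?_⟩
  have hc : Nat.card (Usub F (m + 1)) =
      2 ^ (Nat.card ↥(Cfsg.Lie.Sz F (2 ^ (m + 1)))).factorization 2 := by
    have e : (2 ^ (2 * m + 1)) ^ 2 * (2 ^ (2 * m + 1) - 1) * ((2 ^ (2 * m + 1)) ^ 2 + 1) =
        2 ^ ((2 * m + 1) * 2) * ((2 ^ (2 * m + 1) - 1) * ((2 ^ (2 * m + 1)) ^ 2 + 1)) := by
      rw [mul_assoc, pow_mul]
    rw [hcard, e, factorization_two_pow_mul _ _ (odd_part m), card_Usub, hF, pow_mul]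
  refine ⟨Sylow.ofCard (Usub F (m + 1)) hc, ?_⟩
  have h := borel_package (F := F) (n := m + 1)
    (Subgroup.normalizer (((Sylow.ofCard (Usub F (m + 1)) hc : Sylow 2 ↥(Cfsg.Lie.Sz F (2 ^ (m + 1)))) :
      Subgroup ↥(Cfsg.Lie.Sz F (2 ^ (m + 1)))) : Set ↥(Cfsg.Lie.Sz F (2 ^ (m + 1)))))
    ((Sylow.ofCard (Usub F (m + 1)) hc : Sylow 2 ↥(Cfsg.Lie.Sz F (2 ^ (m + 1)))) :
      Subgroup ↥(Cfsg.Lie.Sz F (2 ^ (m + 1))))
    (by rw [Sylow.coe_ofCard]; exact normalizer_Usub) (Sylow.coe_ofCard _ _)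
  rw [hF] at h
  exact h

end Cfsg.Agent.S1163
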