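import Cfsg.Statements.S1302
import Cfsg.Agent.Helper34.SigCore
import Cfsg.Agent.Helper34.PCons1

set_option autoImplicit false
open Cfsg

namespace Cfsg.Agent.S1302

/-- Let X be a finite p-constrained group, p an odd prime, and A an abelian p-subgroup of X containing every element of order p of C_X(A). Then every subgroup of X of order prime to p that is normalized by A lies in O_{p'}(X). -/
theorem result {X : Type*} [Group X] [Finite X] (p : ℕ) [Fact p.Prime] (hp : p ≠ 2) (hX : Cfsg.IsPConstrained p X) (A : Subgroup X) (hA : IsMulCommutative ↥A) (hAp : IsPGroup p ↥A) (hΩ : ∀ x ∈ Subgroup.centralizer (A : Set X), orderOf x = p → x ∈ A) (Q : Subgroup X) (hQ : ¬ p ∣ Nat.card ↥Q) (hAQ : A ≤ Subgroup.normalizer (Q : Set X)) : Q ≤ Cfsg.pPrimeCore p X := by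
  have hpp : p.Prime := Fact.out
  have hAab : ∀ a ∈ A, ∀ b ∈ A, a * b = b * a := fun a ha b hb =>
    congrArg Subtype.val (hA.is_comm.comm (⟨a, ha⟩ : ↥A) ⟨b, hb⟩)
  have hNcop : (Nat.card (pPrimeCore p X)).Coprime p :=
    Cfsg.Agent.Helper22.card_pPrimeCore_coprime p X
  have hQbar : IsPGroup p (pCore p (X ⧸ pPrimeCore p X)) :=
    Cfsg.Agent.Helper22.pCore_isPGroup p _
  have hQn := Cfsg.Agent.Helper34.pCore_normal' p (X ⧸ pPrimeCore p X)
  have hC := (Cfsg.Agent.Helper34.isPConstrained_iff_centralizer_pCore_le p X).mp hX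
  have hAbar_ab : ∀ a ∈ A.map (QuotientGroup.mk' (pPrimeCore p X)),
      ∀ b ∈ A.map (QuotientGroup.mk' (pPrimeCore p X)), a * b = b * a := by
    rintro _ ⟨a, ha, rfl⟩ _ ⟨b, hb, rfl⟩
    rw [← map_mul, ← map_mul, hAab a ha b hb]
  have hAbar_p : IsPGroup p (A.map (QuotientGroup.mk' (pPrimeCore p X))) := hAp.map _
  have hKbar : (Nat.card (Q.map (QuotientGroup.mk' (pPrimeCore p X)))).Coprime p := by
    have h1 : Nat.card (Q.map (QuotientGroup.mk' (pPrimeCore p X))) ∣ Nat.card Q :=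
      Subgroup.card_map_dvd Q _
    exact Nat.Coprime.coprime_dvd_left h1
      ((Nat.coprime_comm).mp ((Nat.Prime.coprime_iff_not_dvd hpp).mpr hQ))
  have hAKbar : A.map (QuotientGroup.mk' (pPrimeCore p X)) ≤
      Subgroup.normalizer ((Q.map (QuotientGroup.mk' (pPrimeCore p X)) : Subgroup _) : Set _) :=
    (Subgroup.map_mono hAQ).trans (Subgroup.le_normalizer_map _)
  have hΩbar : ∀ x ∈ pCore p (X ⧸ pPrimeCore p X), x ^ p = 1 →
      (∀ a ∈ A.map (QuotientGroup.mk' (pPrimeCore p X)), a * x = x * a) →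
      x ∈ A.map (QuotientGroup.mk' (pPrimeCore p X)) := by
    intro xb _ hxp hcomm
    obtain ⟨x, rfl⟩ := QuotientGroup.mk'_surjective (pPrimeCore p X) xb
    have hAN : A ≤ Subgroup.normalizer ((pPrimeCore p X : Subgroup X) : Set X) := by
      rw [Subgroup.normalizer_eq_top (pPrimeCore p X)]; exact le_top
    have hcopAN : (Nat.card A).Coprime (Nat.card (pPrimeCore p X)) := by
      obtain ⟨e, he⟩ := IsPGroup.iff_card.mp hAp
      rw [he]; exact (Nat.Coprime.pow_right e hNcop).symm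
    have hx : ∀ a ∈ A, x⁻¹ * a * x * a⁻¹ ∈ pPrimeCore p X := by
      intro a ha
      have h1 := hcomm (QuotientGroup.mk' (pPrimeCore p X) a) ⟨a, ha, rfl⟩
      have h2 : QuotientGroup.mk' (pPrimeCore p X) (x⁻¹ * a * x * a⁻¹) = 1 := by
        rw [map_mul, map_mul, map_mul, map_inv, map_inv, mul_assoc _ _ (QuotientGroup.mk' (pPrimeCore p X) x),
          h1]
        group
      exact (QuotientGroup.eq_one_iff _).mp h2
    obtain ⟨c, hcA, hcN⟩ := Cfsg.Agent.Helper35.exists_fixed_in_coset hAN hcopAN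
      (Or.inl (Cfsg.Agent.Helper35.isSolvable_of_forall_comm hAab)) x hx
    have hπc : QuotientGroup.mk' (pPrimeCore p X) c = QuotientGroup.mk' (pPrimeCore p X) x := by
      have h : QuotientGroup.mk' (pPrimeCore p X) (x⁻¹ * c) = 1 := (QuotientGroup.eq_one_iff _).mpr hcN
      rw [map_mul, map_inv] at h
      exact (inv_mul_eq_one.mp h).symm
    obtain ⟨s, -, hs⟩ := Nat.exists_mul_mod_eq_one_of_coprime hNcop hpp.one_lt
    have hmdiv : Nat.card (pPrimeCore p X) * s = p * (Nat.card (pPrimeCore p X) * s / p) + 1 := by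
      have := Nat.div_add_mod (Nat.card (pPrimeCore p X) * s) p
      omega
    have hc'π : QuotientGroup.mk' (pPrimeCore p X) (c ^ (Nat.card (pPrimeCore p X) * s)) =
        QuotientGroup.mk' (pPrimeCore p X) x := by
      rw [map_pow, hπc, hmdiv, pow_succ, pow_mul, hxp, one_pow, one_mul]
    have hcpN : c ^ p ∈ pPrimeCore p X := by
      apply (QuotientGroup.eq_one_iff _).mp
      have : QuotientGroup.mk' (pPrimeCore p X) (c ^ p) = 1 := by rw [map_pow, hπc, hxp]
      exact this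
    have hc'p : (c ^ (Nat.card (pPrimeCore p X) * s)) ^ p = 1 := by
      rw [← pow_mul, mul_comm, pow_mul, pow_mul,
        Cfsg.Agent.Helper24.pow_card_eq_one_of_mem hcpN, one_pow]
    have hc'C : c ^ (Nat.card (pPrimeCore p X) * s) ∈ Subgroup.centralizer (A : Set X) :=
      Subgroup.pow_mem _ hcA _
    have hc'A : c ^ (Nat.card (pPrimeCore p X) * s) ∈ A := by
      have hdvd : orderOf (c ^ (Nat.card (pPrimeCore p X) * s)) ∣ p := orderOf_dvd_of_pow_eq_one hc'p
      rcases (Nat.dvd_prime hpp).mp hdvd with h1 | h1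
      · rw [orderOf_eq_one_iff.mp h1]; exact A.one_mem
      · exact hΩ _ hc'C h1
    exact ⟨_, hc'A, hc'π⟩
  have hbot := Cfsg.Agent.Helper34.sig_core hp (pCore p (X ⧸ pPrimeCore p X)) hQbar hC
    (A.map (QuotientGroup.mk' (pPrimeCore p X))) hAbar_ab hAbar_p hΩbar
    (Q.map (QuotientGroup.mk' (pPrimeCore p X))) hKbar hAKbar
  intro q hq
  have hq' : QuotientGroup.mk' (pPrimeCore p X) q ∈ Q.map (QuotientGroup.mk' (pPrimeCore p X)) :=
    ⟨q, hq, rfl⟩
  rw [hbot, Subgroup.mem_bot] at hq'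
  exact (QuotientGroup.eq_one_iff q).mp hq'

end Cfsg.Agent.S1302
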