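import Cfsg.Statements.S1312
import Cfsg.Agent.Helper34.Bender1

set_option autoImplicit false
open Cfsg

namespace Cfsg.Agent.S1312

/-- Let G be a non-abelian finite simple group and M ≠ N maximal subgroups of G with F*(M) ≤ N and F*(N) ≤ M. Then there is a prime p such that F*(M) and F*(N) are both p-groups. -/
theorem result {G : Type*} [Group G] [Finite G] [IsSimpleGroup G] (hna : ¬ IsMulCommutative G) (M N : Subgroup G) (hM : IsCoatom M) (hN : IsCoatom N) (hMN : M ≠ N) (h1 : (Cfsg.generalizedFittingSubgroup ↥M).map M.subtype ≤ N) (h2 : (Cfsg.generalizedFittingSubgroup ↥N).map N.subtype ≤ M) : ∃ p : ℕ, p.Prime ∧ IsPGroup p ↥(Cfsg.generalizedFittingSubgroup ↥M) ∧ IsPGroup p ↥(Cfsg.generalizedFittingSubgroup ↥N) := by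
  classical
  -- distinct maximal subgroups generate `G`
  have hsup : M ⊔ N = ⊤ := by
    apply hM.2
    refine lt_of_le_of_ne le_sup_left ?_
    intro h
    have hNM : N ≤ M := by rw [h]; exact le_sup_right
    rcases lt_or_eq_of_le hNM with h' | h'
    · exact hM.1 (hN.2 M h')
    · exact hMN h'.symm
  have key : ∀ X : Subgroup G, X ≤ M → M ≤ Subgroup.normalizer (X : Set G) →
      N ≤ Subgroup.normalizer (X : Set G) → X = ⊥ := by
    intro X hXM h1 h2
    have htop : Subgroup.normalizer (X : Set G) = ⊤ := by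
      rw [eq_top_iff, ← hsup]; exact sup_le h1 h2
    have hXn : X.Normal := Subgroup.normalizer_eq_top_iff.mp htop
    rcases hXn.eq_bot_or_eq_top with h | h
    · exact h
    · exact absurd (top_le_iff.mp (h ▸ hXM)) hM.1
  -- the layers are trivial
  have hEeq : (layer ↥M).map M.subtype = (layer ↥N).map N.subtype :=
    le_antisymm (Cfsg.Agent.Helper34.layer_map_le_of_fstar_le h1 h2)
      (Cfsg.Agent.Helper34.layer_map_le_of_fstar_le h2 h1)
  have hcharM := Cfsg.Agent.Helper22.layer_characteristic ↥M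
  have hcharN := Cfsg.Agent.Helper22.layer_characteristic ↥N
  have hEM : layer ↥M = ⊥ := by
    have h := key _ (Subgroup.map_subtype_le _)
      (Subgroup.le_normalizer.trans
        (Cfsg.Agent.Helper22.normalizer_le_normalizer_map_subtype M (layer ↥M)))
      (by
        rw [hEeq]
        exact Subgroup.le_normalizer.trans
          (Cfsg.Agent.Helper22.normalizer_le_normalizer_map_subtype N (layer ↥N)))
    exact (Subgroup.map_eq_bot_iff_of_injective _ M.subtype_injective).mp h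
  have hEN : layer ↥N = ⊥ := by
    rw [hEM, Subgroup.map_bot] at hEeq
    exact (Subgroup.map_eq_bot_iff_of_injective _ N.subtype_injective).mp hEeq.symm
  have hFsM : generalizedFittingSubgroup ↥M = fittingSubgroup ↥M := by
    unfold generalizedFittingSubgroup; rw [hEM, bot_sup_eq]
  have hFsN : generalizedFittingSubgroup ↥N = fittingSubgroup ↥N := by
    unfold generalizedFittingSubgroup; rw [hEN, bot_sup_eq]
  have hFM : (fittingSubgroup ↥M).map M.subtype ≤ N := by rw [← hFsM]; exact h1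
  have hFN : (fittingSubgroup ↥N).map N.subtype ≤ M := by rw [← hFsN]; exact h2
  -- a prime `p` with `O_p(N) ≠ 1`
  obtain ⟨p, hpN⟩ : ∃ p : Nat.Primes, pCore (p : ℕ) ↥N ≠ ⊥ := by
    by_contra hno
    push Not at hno
    have hF0 : fittingSubgroup ↥N = ⊥ := by
      rw [Cfsg.Agent.Helper22.fittingSubgroup_eq_iSup_pCore]
      simp [hno]
    have hc := Cfsg.Agent.Helper22.centralizer_generalizedFittingSubgroup_le ↥N
    rw [hFsN, hF0] at hc
    have hNbot : N = ⊥ := by
      rw [eq_bot_iff]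
      intro n hn
      have h0 : (⟨n, hn⟩ : ↥N) ∈ Subgroup.centralizer (((⊥ : Subgroup ↥N) : Subgroup ↥N) : Set ↥N) := by
        rw [Subgroup.mem_centralizer_iff]
        intro z hz
        have hz1 : z = 1 := Subgroup.mem_bot.mp hz
        rw [hz1, one_mul, mul_one]
      have h3 := hc h0
      rw [Subgroup.mem_bot] at h3 ⊢
      exact congrArg Subtype.val h3
    have hMtop : M = ⊤ :=
      hN.2 M (by rw [hNbot]; exact bot_lt_iff_ne_bot.mpr (fun h => hMN (h.trans hNbot.symm)))
    exact hM.1 hMtop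
  have hpF : Fact (p : ℕ).Prime := ⟨p.2⟩
  -- centralizers of `O_p` lie in the maximal subgroup
  have hcent : ∀ N' : Subgroup G, IsCoatom N' → pCore (p : ℕ) ↥N' ≠ ⊥ → ∀ g : G,
      (∀ y ∈ (pCore (p : ℕ) ↥N').map N'.subtype, g * y = y * g) → g ∈ N' := by
    intro N' hN' hp' g hg
    have hPne : (pCore (p : ℕ) ↥N').map N'.subtype ≠ ⊥ := fun h =>
      hp' ((Subgroup.map_eq_bot_iff_of_injective _ N'.subtype_injective).mp h)
    have hPN' : (pCore (p : ℕ) ↥N').map N'.subtype ≤ N' := Subgroup.map_subtype_le _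
    have hPn : (pCore (p : ℕ) ↥N').Normal := Cfsg.pCore_normal _ _
    have hnorm : N' ≤ Subgroup.normalizer
        (((pCore (p : ℕ) ↥N').map N'.subtype : Subgroup G) : Set G) :=
      Cfsg.Agent.Helper34.le_normalizer_map_subtype_of_normal N' _
    have hne_top : Subgroup.normalizer
        (((pCore (p : ℕ) ↥N').map N'.subtype : Subgroup G) : Set G) ≠ ⊤ := by
      intro htop
      have hPnorm : ((pCore (p : ℕ) ↥N').map N'.subtype).Normal :=
        Subgroup.normalizer_eq_top_iff.mp htop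
      rcases hPnorm.eq_bot_or_eq_top with h | h
      · exact hPne h
      · exact hN'.1 (top_le_iff.mp (h ▸ hPN'))
    have heq : Subgroup.normalizer
        (((pCore (p : ℕ) ↥N').map N'.subtype : Subgroup G) : Set G) = N' := by
      by_contra hne
      exact hne_top (hN'.2 _ (lt_of_le_of_ne hnorm (Ne.symm hne)))
    rw [← heq]
    apply Subgroup.centralizer_le_normalizer
    rw [Subgroup.mem_centralizer_iff]
    intro y hy
    exact (hg y hy).symm
  -- `O_p(M) ≠ 1`
  have hpM : pCore (p : ℕ) ↥M ≠ ⊥ := by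
    intro hPM
    apply hpN
    rw [eq_bot_iff]
    intro z hz
    have hy : ((z : ↥N) : G) ∈ (pCore (p : ℕ) ↥N).map N.subtype := ⟨z, hz, rfl⟩
    have hyM : ((z : ↥N) : G) ∈ M :=
      hFN (Subgroup.map_mono (Cfsg.Agent.Helper34.pCore_le_fittingSubgroup (p : ℕ) ↥N) hy)
    have hcen := Cfsg.Agent.Helper34.centralizes_pPrime_of_mem_pCore (p : ℕ) hFM ⟨_, hyM⟩ hy
    have hF : fittingSubgroup ↥M ≤ pPrimeCore (p : ℕ) ↥M ⊓ fittingSubgroup ↥M := by
      have h0 := Cfsg.Agent.Helper34.fittingSubgroup_le_pCore_sup (p : ℕ) ↥M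
      rwa [hPM, bot_sup_eq] at h0
    have hmem : (⟨_, hyM⟩ : ↥M) ∈ Subgroup.centralizer (fittingSubgroup ↥M : Set ↥M) := by
      rw [Subgroup.mem_centralizer_iff]
      intro r hr
      exact (hcen r (hF hr)).symm
    have hc := Cfsg.Agent.Helper22.centralizer_generalizedFittingSubgroup_le ↥M
    rw [hFsM] at hc
    have h3 := (hF (hc hmem)).1
    obtain ⟨k, hk⟩ := (Cfsg.Agent.Helper22.pCore_isPGroup (p : ℕ) ↥N) ⟨z, hz⟩
    have hzk : ((z : ↥N) : G) ^ (p : ℕ) ^ k = 1 := by
      have h4 := congrArg Subtype.val (congrArg Subtype.val hk)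
      simpa using h4
    have hyk : (⟨_, hyM⟩ : ↥M) ^ (p : ℕ) ^ k = 1 := Subtype.ext (by simpa using hzk)
    have ho : (orderOf (⟨_, hyM⟩ : ↥M)).Coprime p :=
      Nat.Coprime.coprime_dvd_left (Subgroup.orderOf_dvd_natCard _ h3)
        (Cfsg.Agent.Helper22.card_pPrimeCore_coprime _ _)
    have h5 := Cfsg.Agent.Helper54.eq_one_of_pow_of_coprime hyk ho
    have h6 : ((z : ↥N) : G) = 1 := congrArg Subtype.val h5
    rw [Subgroup.mem_bot]
    exact Subtype.ext h6
  have hX1 := Cfsg.Agent.Helper34.pRegCentGen_le_of (p : ℕ) hFM hFN hEM (hcent N hN hpN)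
  have hX2 := Cfsg.Agent.Helper34.pRegCentGen_le_of (p : ℕ) hFN hFM hEN (hcent M hM hpM)
  have hXeq := le_antisymm hX1 hX2
  have hX0 : Cfsg.Agent.Helper34.pRegCentGen (p : ℕ) M = ⊥ :=
    key _ (Cfsg.Agent.Helper34.pRegCentGen_le (p : ℕ) M)
      (Cfsg.Agent.Helper34.le_normalizer_pRegCentGen (p : ℕ) M)
      (by rw [hXeq]; exact Cfsg.Agent.Helper34.le_normalizer_pRegCentGen (p : ℕ) N)
  have hX0N : Cfsg.Agent.Helper34.pRegCentGen (p : ℕ) N = ⊥ := by rw [← hXeq]; exact hX0
  exact ⟨p, p.2, Cfsg.Agent.Helper34.isPGroup_fstar_of_pRegCentGen_eq_bot (p : ℕ) hEM hX0,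
    Cfsg.Agent.Helper34.isPGroup_fstar_of_pRegCentGen_eq_bot (p : ℕ) hEN hX0N⟩

end Cfsg.Agent.S1312
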