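import Cfsg.Statements.S1313
import Cfsg.Agent.Helper22.Bender

set_option autoImplicit false
open Cfsg

namespace Cfsg.Agent.S1313

open Subgroup Cfsg.Agent.Helper22

/-- For a finite group H: |H| ≤ |F*(H)|!. -/
theorem result {H : Type*} [Group H] [Finite H] : Nat.card H ≤ Nat.factorial (Nat.card ↥(Cfsg.generalizedFittingSubgroup H)) := by
  have := generalizedFittingSubgroup_normal H
  let φ : H →* Equiv.Perm (Cfsg.generalizedFittingSubgroup H) :=
    (MulAut.toPerm (Cfsg.generalizedFittingSubgroup H)).comp MulAut.conjNormal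
  have hφ : ∀ (h : H) (x : Cfsg.generalizedFittingSubgroup H), ((φ h x : Cfsg.generalizedFittingSubgroup H) : H) = h * x * h⁻¹ := by
    intro h x
    rfl
  have hker : ∀ h ∈ φ.ker, h ∈ Cfsg.generalizedFittingSubgroup H := by
    intro h hh
    apply centralizer_generalizedFittingSubgroup_le H
    rw [mem_centralizer_iff]
    intro x hx
    have h1 : φ h = 1 := MonoidHom.mem_ker.mp hh
    have h2 : ((φ h ⟨x, hx⟩ : Cfsg.generalizedFittingSubgroup H) : H) = x := by rw [h1]; rfl
    rw [hφ] at h2
    have h3 : h * x * h⁻¹ = x := h2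
    calc x * h = (h * x * h⁻¹) * h := by rw [h3]
      _ = h * x := by group
  have hcard : Nat.card H = Nat.card φ.ker * Nat.card φ.range := by
    rw [← Subgroup.index_ker, Subgroup.card_mul_index]
  let ι : φ.ker × φ.range → Equiv.Perm (Cfsg.generalizedFittingSubgroup H) :=
    fun zσ => Equiv.mulLeft (⟨zσ.1.1, hker _ zσ.1.2⟩ : Cfsg.generalizedFittingSubgroup H) * zσ.2.1
  have hone : ∀ σ : φ.range, (σ : Equiv.Perm (Cfsg.generalizedFittingSubgroup H)) 1 = 1 := by
    rintro ⟨_, h, rfl⟩
    apply Subtype.ext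
    rw [hφ]
    simp
  have hinj : Function.Injective ι := by
    rintro ⟨z, σ⟩ ⟨z', σ'⟩ h
    have h1 := congrArg (fun τ : Equiv.Perm (Cfsg.generalizedFittingSubgroup H) => ((τ 1 : Cfsg.generalizedFittingSubgroup H) : H)) h
    simp only [ι, Equiv.Perm.coe_mul, Function.comp_apply, Equiv.coe_mulLeft, hone, mul_one] at h1
    have hz : z = z' := Subtype.ext h1
    subst hz
    have h2 : (σ : Equiv.Perm (Cfsg.generalizedFittingSubgroup H)) = σ' := mul_left_cancel h
    rw [Subtype.ext h2]
  have hle := Nat.card_le_card_of_injective ι hinj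
  rw [Nat.card_prod, Nat.card_perm] at hle
  rw [hcard]
  exact hle

end Cfsg.Agent.S1313
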