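import Cfsg.Statements.S1349
-- import your own Cfsg.Agent.* helpers here

set_option autoImplicit false
open Cfsg
open scoped commutatorElement

namespace Cfsg.Agent.S1349

variable {G : Type*} [Group G]

/-- An element of a subgroup of odd order whose square is trivial is trivial. -/
theorem eq_one_of_sq_of_odd (L : Subgroup G) (hodd : Odd (Nat.card L)) {c : G} (hc : c ∈ L)
    (h : c ^ 2 = 1) : c = 1 := by
  have h1 : orderOf c ∣ 2 := orderOf_dvd_of_pow_eq_one h
  have h2 : orderOf c ∣ Nat.card L := Subgroup.orderOf_dvd_natCard L hc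
  have h3 : Nat.Coprime 2 (Nat.card L) := (Nat.coprime_two_left).2 hodd
  have h4 : orderOf c = 1 := Nat.eq_one_of_dvd_coprimes h3 h1 h2
  exact orderOf_eq_one_iff.1 h4

/-- Conjugation by commuting elements commutes. -/
theorem conj_conj_comm {a b : G} (hab : a * b = b * a) (x : G) :
    b * (a * x * a⁻¹) * b⁻¹ = a * (b * x * b⁻¹) * a⁻¹ := by
  have h' : a⁻¹ * b⁻¹ = b⁻¹ * a⁻¹ := by
    rw [← mul_inv_rev, ← mul_inv_rev, hab]
  calc b * (a * x * a⁻¹) * b⁻¹ = (b * a) * x * (a⁻¹ * b⁻¹) := by group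
    _ = (a * b) * x * (b⁻¹ * a⁻¹) := by rw [hab, h']
    _ = a * (b * x * b⁻¹) * a⁻¹ := by group

/-- An involution is its own inverse. -/
theorem inv_eq_self_of_sq {a : G} (h : a ^ 2 = 1) : a⁻¹ = a := by
  rw [inv_eq_iff_mul_eq_one, ← pow_two]; exact h

/-- Conjugating twice by an involution. -/
theorem conj_conj_of_sq {a : G} (h : a ^ 2 = 1) (x : G) : a * (a * x * a⁻¹) * a⁻¹ = x := by
  have h1 : a * a = 1 := by rw [← pow_two]; exact h
  have h2 : a⁻¹ * a⁻¹ = 1 := by rw [← mul_inv_rev, h1, inv_one]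
  calc a * (a * x * a⁻¹) * a⁻¹ = (a * a) * x * (a⁻¹ * a⁻¹) := by group
    _ = x := by rw [h1, h2]; group

/-- If `A` normalizes `L` and `W` then it normalizes `C_L(W)`. -/
theorem conj_mem_inf_centralizer (A L W : Subgroup G)
    (hAL : ∀ a ∈ A, ∀ x ∈ L, a * x * a⁻¹ ∈ L) (hAW : ∀ a ∈ A, ∀ x ∈ W, a * x * a⁻¹ ∈ W) :
    ∀ a ∈ A, ∀ x ∈ L ⊓ Subgroup.centralizer (W : Set G),
      a * x * a⁻¹ ∈ L ⊓ Subgroup.centralizer (W : Set G) := by
  intro a ha x hx
  refine Subgroup.mem_inf.2 ⟨hAL a ha x (Subgroup.mem_inf.1 hx).1, ?_⟩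
  rw [Subgroup.mem_centralizer_iff]
  intro w hw
  have hw' : a⁻¹ * w * a ∈ W := by simpa using hAW a⁻¹ (inv_mem ha) w hw
  have hcomm := Subgroup.mem_centralizer_iff.1 (Subgroup.mem_inf.1 hx).2 _ hw'
  calc w * (a * x * a⁻¹) = a * ((a⁻¹ * w * a) * x) * a⁻¹ := by group
    _ = a * (x * (a⁻¹ * w * a)) * a⁻¹ := by rw [hcomm]
    _ = a * x * a⁻¹ * w := by group

/-- Strict inclusion of finite subgroups gives strict inequality of orders. -/
theorem card_lt_of_le_of_ne [Finite G] {H K : Subgroup G} (hle : H ≤ K) (hne : H ≠ K) :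
    Nat.card H < Nat.card K := by
  by_contra hcon
  exact hne (Subgroup.eq_of_le_of_card_ge hle (not_lt.1 hcon))

/-- Simultaneous eigenvector modulo a central subgroup `Z` of `L` containing the commutators of `L`,
for an elementary abelian 2-group `A` acting on `L`. -/
theorem exists_weight_mod [Finite G] (A L Z : Subgroup G)
    (hA2 : ∀ a ∈ A, a ^ 2 = 1) (hAc : ∀ a ∈ A, ∀ b ∈ A, a * b = b * a)
    (hZc : ∀ z ∈ Z, ∀ x ∈ L, z * x = x * z)
    (hcl : ∀ x ∈ L, ∀ y ∈ L, x⁻¹ * y⁻¹ * x * y ∈ Z)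
    (hAZ : ∀ a ∈ A, ∀ z ∈ Z, a * z * a⁻¹ ∈ Z) :
    ∀ (k : ℕ) (N : Subgroup G), Nat.card N ≤ k → Z ≤ N → N ≤ L →
      (∀ a ∈ A, ∀ x ∈ N, a * x * a⁻¹ ∈ N) → N ≠ Z →
      ∃ x ∈ N, x ∉ Z ∧ ∀ a ∈ A, x⁻¹ * (a * x * a⁻¹) ∈ Z ∨ x * (a * x * a⁻¹) ∈ Z := by
  intro k
  induction k with
  | zero =>
    intro N hk
    have := Nat.card_pos (α := N)
    omega
  | succ k ih =>
    intro N hk hZN hNL hAN hNZ
    by_cases hcase : ∀ a ∈ A, (∀ x ∈ N, x⁻¹ * (a * x * a⁻¹) ∈ Z) ∨ (∀ x ∈ N, x * (a * x * a⁻¹) ∈ Z)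
    · have hex : ∃ x ∈ N, x ∉ Z := by
        by_contra hcon
        push Not at hcon
        exact hNZ (le_antisymm hcon hZN)
      obtain ⟨x, hxN, hxZ⟩ := hex
      refine ⟨x, hxN, hxZ, fun a ha => ?_⟩
      rcases hcase a ha with h | h
      · exact Or.inl (h x hxN)
      · exact Or.inr (h x hxN)
    · push Not at hcase
      obtain ⟨b, hb, ⟨x1, hx1N, hx1⟩, ⟨x2, hx2N, hx2⟩⟩ := hcase
      let N' : Subgroup G :=
        { carrier := {x | x ∈ N ∧ x⁻¹ * (b * x * b⁻¹) ∈ Z}
          mul_mem' := by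
            rintro x y ⟨hx, hzx⟩ ⟨hy, hzy⟩
            refine ⟨mul_mem hx hy, ?_⟩
            have e : (x * y)⁻¹ * (b * (x * y) * b⁻¹)
                = y⁻¹ * (x⁻¹ * (b * x * b⁻¹)) * (b * y * b⁻¹) := by group
            rw [e, ← hZc _ hzx y⁻¹ (hNL (inv_mem hy)), mul_assoc]
            exact mul_mem hzx hzy
          one_mem' := by
            refine ⟨one_mem _, ?_⟩
            simp
          inv_mem' := by
            rintro x ⟨hx, hzx⟩
            refine ⟨inv_mem hx, ?_⟩
            have e : x⁻¹⁻¹ * (b * x⁻¹ * b⁻¹) = x * (x⁻¹ * (b * x * b⁻¹))⁻¹ * x⁻¹ := by group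
            rw [e, ← hZc _ (inv_mem hzx) x (hNL hx)]
            simpa using inv_mem hzx }
      have hN'N : N' ≤ N := fun x hx => hx.1
      have hZN' : Z ≤ N' := fun z hz => ⟨hZN hz, mul_mem (inv_mem hz) (hAZ b hb z hz)⟩
      have hN'ne : N' ≠ N := by
        intro h
        have : x1 ∈ N' := h ▸ hx1N
        exact hx1 this.2
      have hcard : Nat.card N' ≤ k := by
        have := card_lt_of_le_of_ne hN'N hN'ne
        omega
      have hAN' : ∀ a ∈ A, ∀ x ∈ N', a * x * a⁻¹ ∈ N' := by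
        rintro c hc x ⟨hx, hzx⟩
        refine ⟨hAN c hc x hx, ?_⟩
        have e : (c * x * c⁻¹)⁻¹ * (b * (c * x * c⁻¹) * b⁻¹) = c * (x⁻¹ * (b * x * b⁻¹)) * c⁻¹ := by
          rw [conj_conj_comm (hAc c hc b hb) x]; group
        rw [e]
        exact hAZ c hc _ hzx
      have hN'Z : N' ≠ Z := by
        intro h
        apply hx2
        rw [← h]
        refine ⟨mul_mem hx2N (hAN b hb x2 hx2N), ?_⟩
        have e : (x2 * (b * x2 * b⁻¹))⁻¹ * (b * (x2 * (b * x2 * b⁻¹)) * b⁻¹)
            = (b * x2 * b⁻¹)⁻¹ * x2⁻¹ * (b * x2 * b⁻¹) * x2 := by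
          have e1 : b * (x2 * (b * x2 * b⁻¹)) * b⁻¹ = (b * x2 * b⁻¹) * (b * (b * x2 * b⁻¹) * b⁻¹) := by
            group
          rw [e1, conj_conj_of_sq (hA2 b hb)]; group
        rw [e]
        exact hcl _ (hNL (hAN b hb x2 hx2N)) _ (hNL hx2N)
      obtain ⟨x, hxN', hxZ, hx⟩ := ih N' hcard hZN' (hN'N.trans hNL) hAN' hN'Z
      exact ⟨x, hN'N hxN', hxZ, hx⟩

/-- A subgroup is closed under commutators. -/
theorem commutator_self_le (U : Subgroup G) : ⁅U, U⁆ ≤ U := by
  rw [Subgroup.commutator_le]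
  intro g₁ h₁ g₂ h₂
  rw [commutatorElement_def]
  exact mul_mem (mul_mem (mul_mem h₁ h₂) (inv_mem h₁)) (inv_mem h₂)

/-- Conjugation invariance passes to the commutator subgroup. -/
theorem conj_mem_commutator (L : Subgroup G) (g : G) (h : ∀ x ∈ L, g * x * g⁻¹ ∈ L) :
    ∀ w ∈ ⁅L, L⁆, g * w * g⁻¹ ∈ ⁅L, L⁆ := by
  intro w hw
  have h1 : L.map (MulAut.conj g).toMonoidHom ≤ L := by
    rintro _ ⟨x, hx, rfl⟩
    simpa using h x hx
  have h2 : (⁅L, L⁆).map (MulAut.conj g).toMonoidHom ≤ ⁅L, L⁆ := by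
    rw [Subgroup.map_commutator]
    exact Subgroup.commutator_mono h1 h1
  have h3 : (MulAut.conj g).toMonoidHom w ∈ (⁅L, L⁆).map (MulAut.conj g).toMonoidHom := ⟨w, hw, rfl⟩
  simpa using h2 h3

/-- A nontrivial solvable subgroup is not perfect. -/
theorem commutator_ne_self_of_solvable (L : Subgroup G) (hs : Group.IsSolvable L) (hL : L ≠ ⊥) :
    ⁅L, L⁆ ≠ L := by
  intro h
  have hnt : Nontrivial L := (Subgroup.nontrivial_iff_ne_bot L).2 hL
  have h1 := Group.IsSolvable.commutator_lt_top_of_nontrivial (G := L)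
  have h2 : (commutator L).map L.subtype = ⁅L, L⁆ := by
    rw [commutator_def, Subgroup.map_commutator, ← MonoidHom.range_eq_map, Subgroup.range_subtype]
  have h3 : (commutator L).map L.subtype = (⊤ : Subgroup L).map L.subtype := by
    rw [h2, h, ← MonoidHom.range_eq_map, Subgroup.range_subtype]
  have h4 := Subgroup.map_injective L.subtype_injective h3
  exact (ne_of_lt h1) h4

/-- An elementary abelian 2-group `A` acting on a solvable group `L` of odd order: some `A`-invariant abelian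
subgroup `M` of `L` detects the kernel of the action. -/
theorem exists_abelian_faithful [Finite G] (A : Subgroup G)
    (hA2 : ∀ a ∈ A, a ^ 2 = 1) (hAc : ∀ a ∈ A, ∀ b ∈ A, a * b = b * a) :
    ∀ (k : ℕ) (L : Subgroup G), Nat.card L ≤ k → Group.IsSolvable L → Odd (Nat.card L) →
      (∀ a ∈ A, ∀ x ∈ L, a * x * a⁻¹ ∈ L) →
      ∃ M : Subgroup G, M ≤ L ∧ (∀ x ∈ M, ∀ y ∈ M, x * y = y * x) ∧
        (∀ a ∈ A, ∀ x ∈ M, a * x * a⁻¹ ∈ M) ∧
        ∀ a ∈ A, (∀ x ∈ M, a * x * a⁻¹ = x) → ∀ x ∈ L, a * x * a⁻¹ = x := by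
  intro k
  induction k with
  | zero =>
    intro L hk
    have := Nat.card_pos (α := L)
    omega
  | succ k ih =>
    intro L hk hsol hodd hAL
    by_cases hab : ∀ x ∈ L, ∀ y ∈ L, x * y = y * x
    · exact ⟨L, le_rfl, hab, hAL, fun a _ h => h⟩
    by_cases hW : ∃ W : Subgroup G, W ≤ L ∧ W ≠ L ∧ (∀ a ∈ A, ∀ x ∈ W, a * x * a⁻¹ ∈ W) ∧
        (∀ y ∈ L, ∀ w ∈ W, y * w * y⁻¹ ∈ W) ∧ ¬ (∀ w ∈ W, ∀ y ∈ L, w * y = y * w)
    · obtain ⟨W, hWL, hWne, hAW, hLW, hWnc⟩ := hW
      have hC₂L : L ⊓ Subgroup.centralizer (W : Set G) ≤ L := inf_le_left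
      have hC₂ne : L ⊓ Subgroup.centralizer (W : Set G) ≠ L := by
        intro h
        apply hWnc
        intro w hw y hy
        have hy' : y ∈ L ⊓ Subgroup.centralizer (W : Set G) := by rw [h]; exact hy
        exact Subgroup.mem_centralizer_iff.1 (Subgroup.mem_inf.1 hy').2 w hw
      have hAC₂ := conj_mem_inf_centralizer A L W hAL hAW
      have hcardC₂ : Nat.card ↥(L ⊓ Subgroup.centralizer (W : Set G)) ≤ k := by
        have := card_lt_of_le_of_ne hC₂L hC₂ne
        omega
      have hcardW : Nat.card W ≤ k := by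
        have := card_lt_of_le_of_ne hWL hWne
        omega
      have hsolC₂ : Group.IsSolvable ↥(L ⊓ Subgroup.centralizer (W : Set G)) :=
        Group.isSolvable_of_isSolvable_injective (Subgroup.inclusion_injective hC₂L)
      have hsolW : Group.IsSolvable W :=
        Group.isSolvable_of_isSolvable_injective (Subgroup.inclusion_injective hWL)
      have hoddC₂ : Odd (Nat.card ↥(L ⊓ Subgroup.centralizer (W : Set G))) :=
        Odd.of_dvd_nat hodd (Subgroup.card_dvd_of_le hC₂L)
      have hoddW : Odd (Nat.card W) := Odd.of_dvd_nat hodd (Subgroup.card_dvd_of_le hWL)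
      obtain ⟨M₁, hM₁C, hM₁c, hAM₁, hM₁f⟩ := ih _ hcardC₂ hsolC₂ hoddC₂ hAC₂
      obtain ⟨M₂, hM₂W, hM₂c, hAM₂, hM₂f⟩ := ih W hcardW hsolW hoddW hAW
      have h12 : ∀ x ∈ M₁, ∀ y ∈ M₂, x * y = y * x := by
        intro x hx y hy
        exact (Subgroup.mem_centralizer_iff.1 (Subgroup.mem_inf.1 (hM₁C hx)).2 y (hM₂W hy)).symm
      refine ⟨M₁ ⊔ M₂, sup_le (hM₁C.trans hC₂L) (hM₂W.trans hWL), ?_, ?_, ?_⟩
      · have key : M₁ ⊔ M₂ ≤ Subgroup.centralizer ((M₁ ⊔ M₂ : Subgroup G) : Set G) := by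
          apply sup_le
          · intro x hx
            have h1 : M₁ ⊔ M₂ ≤ Subgroup.centralizer ({x} : Set G) := by
              apply sup_le
              · intro y hy
                rw [Subgroup.mem_centralizer_iff]
                intro z hz
                rw [Set.mem_singleton_iff] at hz
                subst hz
                exact hM₁c z hx y hy
              · intro y hy
                rw [Subgroup.mem_centralizer_iff]
                intro z hz
                rw [Set.mem_singleton_iff] at hz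
                subst hz
                exact h12 z hx y hy
            rw [Subgroup.mem_centralizer_iff]
            intro h hh
            exact (Subgroup.mem_centralizer_iff.1 (h1 hh) x rfl).symm
          · intro x hx
            have h1 : M₁ ⊔ M₂ ≤ Subgroup.centralizer ({x} : Set G) := by
              apply sup_le
              · intro y hy
                rw [Subgroup.mem_centralizer_iff]
                intro z hz
                rw [Set.mem_singleton_iff] at hz
                subst hz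
                exact (h12 y hy z hx).symm
              · intro y hy
                rw [Subgroup.mem_centralizer_iff]
                intro z hz
                rw [Set.mem_singleton_iff] at hz
                subst hz
                exact hM₂c z hx y hy
            rw [Subgroup.mem_centralizer_iff]
            intro h hh
            exact (Subgroup.mem_centralizer_iff.1 (h1 hh) x rfl).symm
        intro x hx y hy
        exact Subgroup.mem_centralizer_iff.1 (key hy) x hx
      · intro a ha x hx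
        have h1 : M₁ ⊔ M₂ ≤ (M₁ ⊔ M₂).comap (MulAut.conj a).toMonoidHom := by
          apply sup_le
          · intro y hy
            rw [Subgroup.mem_comap]
            simpa using (le_sup_left : M₁ ≤ M₁ ⊔ M₂) (hAM₁ a ha y hy)
          · intro y hy
            rw [Subgroup.mem_comap]
            simpa using (le_sup_right : M₂ ≤ M₁ ⊔ M₂) (hAM₂ a ha y hy)
        simpa using h1 hx
      · intro a ha hcent x hx
        have h1 : ∀ y ∈ L ⊓ Subgroup.centralizer (W : Set G), a * y * a⁻¹ = y :=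
          hM₁f a ha (fun y hy => hcent y ((le_sup_left : M₁ ≤ M₁ ⊔ M₂) hy))
        have h2 : ∀ w ∈ W, a * w * a⁻¹ = w :=
          hM₂f a ha (fun y hy => hcent y ((le_sup_right : M₂ ≤ M₁ ⊔ M₂) hy))
        have hcL : x⁻¹ * (a * x * a⁻¹) ∈ L := mul_mem (inv_mem hx) (hAL a ha x hx)
        have hcC : x⁻¹ * (a * x * a⁻¹) ∈ Subgroup.centralizer (W : Set G) := by
          rw [Subgroup.mem_centralizer_iff]
          intro w hw
          have hw1 : a⁻¹ * w * a = w := by
            have h3 := h2 w hw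
            calc a⁻¹ * w * a = a⁻¹ * (a * w * a⁻¹) * a := by rw [h3]
              _ = w := by group
          have hw2 : x * w * x⁻¹ ∈ W := hLW x hx w hw
          have hw3 : a * (x * w * x⁻¹) * a⁻¹ = x * w * x⁻¹ := h2 _ hw2
          have h4 : (x⁻¹ * (a * x * a⁻¹)) * w * (x⁻¹ * (a * x * a⁻¹))⁻¹ = w := by
            calc (x⁻¹ * (a * x * a⁻¹)) * w * (x⁻¹ * (a * x * a⁻¹))⁻¹
                = x⁻¹ * (a * (x * (a⁻¹ * w * a) * x⁻¹) * a⁻¹) * x := by group
              _ = x⁻¹ * (a * (x * w * x⁻¹) * a⁻¹) * x := by rw [hw1]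
              _ = x⁻¹ * (x * w * x⁻¹) * x := by rw [hw3]
              _ = w := by group
          calc w * (x⁻¹ * (a * x * a⁻¹))
              = ((x⁻¹ * (a * x * a⁻¹)) * w * (x⁻¹ * (a * x * a⁻¹))⁻¹) * (x⁻¹ * (a * x * a⁻¹)) := by
                rw [h4]
            _ = (x⁻¹ * (a * x * a⁻¹)) * w := by group
        have hca : a * (x⁻¹ * (a * x * a⁻¹)) * a⁻¹ = x⁻¹ * (a * x * a⁻¹) :=
          h1 _ (Subgroup.mem_inf.2 ⟨hcL, hcC⟩)
        have e : a * (x⁻¹ * (a * x * a⁻¹)) * a⁻¹ = (x⁻¹ * (a * x * a⁻¹))⁻¹ := by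
          have e1 : a * (x⁻¹ * (a * x * a⁻¹)) * a⁻¹
              = (a * x * a⁻¹)⁻¹ * (a * (a * x * a⁻¹) * a⁻¹) := by group
          rw [e1, conj_conj_of_sq (hA2 a ha)]
          group
        have hc2 : (x⁻¹ * (a * x * a⁻¹)) ^ 2 = 1 := by
          rw [pow_two, mul_eq_one_iff_eq_inv, ← e, hca]
        have hc1 := eq_one_of_sq_of_odd L hodd hcL hc2
        exact (inv_mul_eq_one.1 hc1).symm
    · exfalso
      push Not at hW
      have hLbot : L ≠ ⊥ := by
        rintro rfl
        apply hab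
        intro x hx y hy
        rw [Subgroup.mem_bot] at hx hy
        rw [hx, hy]
      have hZL : L ⊓ Subgroup.centralizer (L : Set G) ≤ L := inf_le_left
      have hZc : ∀ z ∈ L ⊓ Subgroup.centralizer (L : Set G), ∀ x ∈ L, z * x = x * z := by
        intro z hz x hx
        exact (Subgroup.mem_centralizer_iff.1 (Subgroup.mem_inf.1 hz).2 x hx).symm
      have hmemZ : ∀ z ∈ L, (∀ x ∈ L, z * x = x * z) → z ∈ L ⊓ Subgroup.centralizer (L : Set G) := by
        intro z hz h
        refine Subgroup.mem_inf.2 ⟨hz, ?_⟩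
        rw [Subgroup.mem_centralizer_iff]
        intro x hx
        exact (h x hx).symm
      have hDL : ⁅L, L⁆ ≤ L := commutator_self_le L
      have hDne : ⁅L, L⁆ ≠ L := commutator_ne_self_of_solvable L hsol hLbot
      have hDc := hW ⁅L, L⁆ hDL hDne (fun a ha => conj_mem_commutator L a (hAL a ha))
        (fun y hy => conj_mem_commutator L y (fun x hx => mul_mem (mul_mem hy hx) (inv_mem hy)))
      have hDZ : ⁅L, L⁆ ≤ L ⊓ Subgroup.centralizer (L : Set G) :=
        fun w hw => hmemZ w (hDL hw) (hDc w hw)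
      have hcl : ∀ x ∈ L, ∀ y ∈ L, x⁻¹ * y⁻¹ * x * y ∈ L ⊓ Subgroup.centralizer (L : Set G) := by
        intro x hx y hy
        have h1 : ⁅x⁻¹, y⁻¹⁆ ∈ ⁅L, L⁆ := Subgroup.commutator_mem_commutator (inv_mem hx) (inv_mem hy)
        rw [commutatorElement_def, inv_inv, inv_inv] at h1
        exact hDZ h1
      have hAZ : ∀ a ∈ A, ∀ z ∈ L ⊓ Subgroup.centralizer (L : Set G),
          a * z * a⁻¹ ∈ L ⊓ Subgroup.centralizer (L : Set G) :=
        conj_mem_inf_centralizer A L L hAL hAL
      have hLZ : L ≠ L ⊓ Subgroup.centralizer (L : Set G) := by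
        intro h
        apply hab
        intro x hx y hy
        have hx' : x ∈ L ⊓ Subgroup.centralizer (L : Set G) := by rw [← h]; exact hx
        exact hZc x hx' y hy
      obtain ⟨x, hxL, hxZ, hx⟩ := exists_weight_mod A L _ hA2 hAc hZc hcl hAZ (Nat.card L) L le_rfl
        hZL le_rfl hAL hLZ
      have hxc : ∀ y ∈ L ⊓ Subgroup.centralizer (L : Set G) ⊔ Subgroup.zpowers x, x * y = y * x := by
        have h1 : L ⊓ Subgroup.centralizer (L : Set G) ⊔ Subgroup.zpowers x
            ≤ Subgroup.centralizer ({x} : Set G) := by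
          apply sup_le
          · intro z hz
            rw [Subgroup.mem_centralizer_iff]
            intro w hw
            rw [Set.mem_singleton_iff] at hw
            subst hw
            exact (hZc z hz w hxL).symm
          · rw [Subgroup.zpowers_le, Subgroup.mem_centralizer_iff]
            intro w hw
            rw [Set.mem_singleton_iff] at hw
            subst hw
            rfl
        intro y hy
        exact Subgroup.mem_centralizer_iff.1 (h1 hy) x rfl
      have hxm : x ∈ L ⊓ Subgroup.centralizer (L : Set G) ⊔ Subgroup.zpowers x :=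
        (le_sup_right : Subgroup.zpowers x ≤ _) (Subgroup.mem_zpowers x)
      have hN₁L : L ⊓ Subgroup.centralizer (L : Set G) ⊔ Subgroup.zpowers x ≤ L :=
        sup_le hZL (Subgroup.zpowers_le.2 hxL)
      by_cases hN₁ : L ⊓ Subgroup.centralizer (L : Set G) ⊔ Subgroup.zpowers x = L
      · apply hxZ
        apply hmemZ x hxL
        intro y hy
        rw [← hN₁] at hy
        exact hxc y hy
      · have hAN₁ : ∀ a ∈ A, ∀ n ∈ L ⊓ Subgroup.centralizer (L : Set G) ⊔ Subgroup.zpowers x,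
            a * n * a⁻¹ ∈ L ⊓ Subgroup.centralizer (L : Set G) ⊔ Subgroup.zpowers x := by
          intro a ha n hn
          have h1 : L ⊓ Subgroup.centralizer (L : Set G) ⊔ Subgroup.zpowers x ≤
              (L ⊓ Subgroup.centralizer (L : Set G) ⊔ Subgroup.zpowers x).comap
                (MulAut.conj a).toMonoidHom := by
            apply sup_le
            · intro z hz
              rw [Subgroup.mem_comap]
              simpa using (le_sup_left : L ⊓ Subgroup.centralizer (L : Set G) ≤ _) (hAZ a ha z hz)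
            · rw [Subgroup.zpowers_le, Subgroup.mem_comap]
              have h2 : a * x * a⁻¹ ∈ L ⊓ Subgroup.centralizer (L : Set G) ⊔ Subgroup.zpowers x := by
                rcases hx a ha with h | h
                · have e : a * x * a⁻¹ = x * (x⁻¹ * (a * x * a⁻¹)) := by group
                  rw [e]
                  exact mul_mem hxm ((le_sup_left : L ⊓ Subgroup.centralizer (L : Set G) ≤ _) h)
                · have e : a * x * a⁻¹ = x⁻¹ * (x * (a * x * a⁻¹)) := by group
                  rw [e]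
                  exact mul_mem (inv_mem hxm)
                    ((le_sup_left : L ⊓ Subgroup.centralizer (L : Set G) ≤ _) h)
              simpa using h2
          simpa using h1 hn
        have hLN₁ : ∀ y ∈ L, ∀ n ∈ L ⊓ Subgroup.centralizer (L : Set G) ⊔ Subgroup.zpowers x,
            y * n * y⁻¹ ∈ L ⊓ Subgroup.centralizer (L : Set G) ⊔ Subgroup.zpowers x := by
          intro y hy n hn
          have e : y * n * y⁻¹ = ⁅y, n⁆ * n := by rw [commutatorElement_def]; group
          rw [e]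
          exact mul_mem ((le_sup_left : L ⊓ Subgroup.centralizer (L : Set G) ≤ _)
            (hDZ (Subgroup.commutator_mem_commutator hy (hN₁L hn)))) hn
        have h5 := hW _ hN₁L hN₁ hAN₁ hLN₁ x hxm
        exact hxZ (hmemZ x hxL h5)

/-- The abelian case of the Thompson dihedral lemma: a dual pair of bases. -/
theorem abelian_case [Finite G] (M : Subgroup G) (hMc : ∀ x ∈ M, ∀ y ∈ M, x * y = y * x)
    (hMo : Odd (Nat.card M)) :
    ∀ (d : ℕ) (A : Subgroup G), (∀ a ∈ A, a ^ 2 = 1) → (∀ a ∈ A, ∀ b ∈ A, a * b = b * a) →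
      Nat.card A = 2 ^ d → (∀ a ∈ A, ∀ x ∈ M, a * x * a⁻¹ ∈ M) →
      (∀ a ∈ A, (∀ x ∈ M, a * x * a⁻¹ = x) → a = 1) →
      ∃ (a x : Fin d → G), (∀ i, a i ∈ A ∧ x i ∈ M ∧ x i ≠ 1 ∧ a i * x i * (a i)⁻¹ = (x i)⁻¹ ∧
          ∀ j, j ≠ i → a j * x i * (a j)⁻¹ = x i) ∧ (⨆ i, Subgroup.zpowers (a i)) = A := by
  intro d
  induction d with
  | zero =>
    intro A hA2 hAc hcard hAM hfaith
    refine ⟨Fin.elim0, Fin.elim0, fun i => i.elim0, ?_⟩
    have hA : A = ⊥ := Subgroup.card_eq_one.1 (by simpa using hcard)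
    rw [hA]
    simp
  | succ d ih =>
    intro A hA2 hAc hcard hAM hfaith
    have hAne : A ≠ ⊥ := by
      rintro rfl
      rw [Subgroup.card_bot] at hcard
      have : 1 < 2 ^ (d + 1) := Nat.one_lt_two_pow (by omega)
      omega
    obtain ⟨⟨a₀, ha₀A⟩, ha₀1'⟩ := (Subgroup.ne_bot_iff_exists_ne_one).1 hAne
    have ha₀1 : a₀ ≠ 1 := fun h => ha₀1' (Subtype.ext h)
    obtain ⟨y₀, hy₀M, hy₀⟩ : ∃ y ∈ M, a₀ * y * a₀⁻¹ ≠ y := by
      by_contra h
      push Not at h
      exact ha₀1 (hfaith a₀ ha₀A h)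
    let N : Subgroup G :=
      { carrier := {x | x ∈ M ∧ a₀ * x * a₀⁻¹ = x⁻¹}
        mul_mem' := by
          rintro x y ⟨hx, hix⟩ ⟨hy, hiy⟩
          refine ⟨mul_mem hx hy, ?_⟩
          have e : a₀ * (x * y) * a₀⁻¹ = (a₀ * x * a₀⁻¹) * (a₀ * y * a₀⁻¹) := by group
          rw [e, hix, hiy, ← mul_inv_rev, hMc y hy x hx]
        one_mem' := ⟨one_mem _, by simp⟩
        inv_mem' := by
          rintro x ⟨hx, hix⟩
          refine ⟨inv_mem hx, ?_⟩
          have e : a₀ * x⁻¹ * a₀⁻¹ = (a₀ * x * a₀⁻¹)⁻¹ := by group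
          rw [e, hix] }
    have hNM : N ≤ M := fun x hx => hx.1
    have hNc : ∀ x ∈ N, ∀ y ∈ N, x * y = y * x := fun x hx y hy => hMc x hx.1 y hy.1
    have hAN : ∀ c ∈ A, ∀ x ∈ N, c * x * c⁻¹ ∈ N := by
      rintro c hc x ⟨hx, hix⟩
      refine ⟨hAM c hc x hx, ?_⟩
      rw [conj_conj_comm (hAc c hc a₀ ha₀A) x, hix]
      group
    have hNne : N ≠ ⊥ := by
      intro h
      have hmem : y₀⁻¹ * (a₀ * y₀ * a₀⁻¹) ∈ N := by
        refine ⟨mul_mem (inv_mem hy₀M) (hAM a₀ ha₀A y₀ hy₀M), ?_⟩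
        have e : a₀ * (y₀⁻¹ * (a₀ * y₀ * a₀⁻¹)) * a₀⁻¹
            = (a₀ * y₀ * a₀⁻¹)⁻¹ * (a₀ * (a₀ * y₀ * a₀⁻¹) * a₀⁻¹) := by group
        rw [e, conj_conj_of_sq (hA2 a₀ ha₀A)]
        group
      rw [h, Subgroup.mem_bot] at hmem
      exact hy₀ (inv_mul_eq_one.1 hmem).symm
    obtain ⟨x₀, hx₀N, hx₀1', hx₀⟩ := exists_weight_mod A N ⊥ hA2 hAc
      (by intro z hz x _; rw [Subgroup.mem_bot] at hz; rw [hz]; simp)
      (by
        intro x hx y hy
        rw [Subgroup.mem_bot]
        calc x⁻¹ * y⁻¹ * x * y = x⁻¹ * y⁻¹ * (x * y) := by group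
          _ = x⁻¹ * y⁻¹ * (y * x) := by rw [hNc x hx y hy]
          _ = 1 := by group)
      (by intro a _ z hz; rw [Subgroup.mem_bot] at hz ⊢; rw [hz]; simp)
      (Nat.card N) N le_rfl bot_le le_rfl hAN hNne
    have hx₀1 : x₀ ≠ 1 := fun h => hx₀1' (by rw [h]; exact one_mem _)
    have hx₀M : x₀ ∈ M := hNM hx₀N
    have hx₀' : ∀ a ∈ A, a * x₀ * a⁻¹ = x₀ ∨ a * x₀ * a⁻¹ = x₀⁻¹ := by
      intro a ha
      rcases hx₀ a ha with h | h
      · left
        rw [Subgroup.mem_bot] at h
        exact (inv_mul_eq_one.1 h).symm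
      · right
        rw [Subgroup.mem_bot] at h
        exact eq_inv_of_mul_eq_one_right h
    have hx₀ne : x₀⁻¹ ≠ x₀ := by
      intro h
      apply hx₀1
      apply eq_one_of_sq_of_odd M hMo hx₀M
      rw [pow_two]
      nth_rewrite 1 [← h]
      simp
    have ha₀x₀ : a₀ * x₀ * a₀⁻¹ = x₀⁻¹ := hx₀N.2
    -- the hyperplane `B = C_A(x₀)`
    have hBmem : ∀ b, b ∈ A ⊓ Subgroup.centralizer ({x₀} : Set G) ↔ b ∈ A ∧ b * x₀ * b⁻¹ = x₀ := by
      intro b
      rw [Subgroup.mem_inf, Subgroup.mem_centralizer_iff]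
      constructor
      · rintro ⟨hb, h⟩
        refine ⟨hb, ?_⟩
        rw [← h x₀ rfl]
        group
      · rintro ⟨hb, h⟩
        refine ⟨hb, ?_⟩
        intro z hz
        rw [Set.mem_singleton_iff] at hz
        subst hz
        nth_rewrite 1 [← h]
        group
    have hidx : ((A ⊓ Subgroup.centralizer ({x₀} : Set G)).subgroupOf A).index = 2 := by
      rw [Subgroup.index_eq_two_iff]
      refine ⟨⟨a₀, ha₀A⟩, fun b => ?_⟩
      rw [Subgroup.mem_subgroupOf, Subgroup.mem_subgroupOf]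
      have e : ((b * ⟨a₀, ha₀A⟩ : ↥A) : G) * x₀ * ((b * ⟨a₀, ha₀A⟩ : ↥A) : G)⁻¹
          = (b : G) * (a₀ * x₀ * a₀⁻¹) * (b : G)⁻¹ := by
        simp only [Subgroup.coe_mul]
        group
      have e2 : (b : G) * x₀⁻¹ * (b : G)⁻¹ = ((b : G) * x₀ * (b : G)⁻¹)⁻¹ := by group
      rcases hx₀' b b.2 with h | h
      · refine Or.inr ⟨(hBmem _).2 ⟨b.2, h⟩, fun hcon => ?_⟩
        have h3 := ((hBmem _).1 hcon).2
        rw [e, ha₀x₀, e2, h] at h3
        exact hx₀ne h3
      · refine Or.inl ⟨(hBmem _).2 ⟨(b * ⟨a₀, ha₀A⟩ : ↥A).2, ?_⟩, fun hcon => ?_⟩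
        · rw [e, ha₀x₀, e2, h, inv_inv]
        · have h3 := ((hBmem _).1 hcon).2
          rw [h] at h3
          exact hx₀ne h3
    have hcardB : Nat.card ↥(A ⊓ Subgroup.centralizer ({x₀} : Set G)) = 2 ^ d := by
      have h1 : Nat.card ↥(A ⊓ Subgroup.centralizer ({x₀} : Set G))
          * (A ⊓ Subgroup.centralizer ({x₀} : Set G)).relIndex A = Nat.card A := by
        simpa using Subgroup.relIndex_mul_relIndex (⊥ : Subgroup G)
          (A ⊓ Subgroup.centralizer ({x₀} : Set G)) A bot_le inf_le_left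
      have h2 : (A ⊓ Subgroup.centralizer ({x₀} : Set G)).relIndex A = 2 := hidx
      rw [h2, hcard, pow_succ] at h1
      exact Nat.eq_of_mul_eq_mul_right (by norm_num) h1
    obtain ⟨b, y, hby, hbsup⟩ := ih (A ⊓ Subgroup.centralizer ({x₀} : Set G))
      (fun a ha => hA2 a (Subgroup.mem_inf.1 ha).1)
      (fun a ha c hc => hAc a (Subgroup.mem_inf.1 ha).1 c (Subgroup.mem_inf.1 hc).1) hcardB
      (fun a ha => hAM a (Subgroup.mem_inf.1 ha).1) (fun a ha => hfaith a (Subgroup.mem_inf.1 ha).1)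
    have hbA : ∀ j, b j ∈ A := fun j => (Subgroup.mem_inf.1 (hby j).1).1
    have hy' : ∀ j : Fin d, ∃ y' : G, y' ∈ M ∧ y' ≠ 1 ∧ b j * y' * (b j)⁻¹ = y'⁻¹ ∧
        (∀ i, i ≠ j → b i * y' * (b i)⁻¹ = y') ∧
        (a₀ * y' * a₀⁻¹ = y' ∨ a₀ * y' * a₀⁻¹ = y'⁻¹) := by
      intro j
      obtain ⟨hbjB, hyjM, hyj1, hinv, hcen⟩ := hby j
      by_cases h : a₀ * y j * a₀⁻¹ = y j
      · exact ⟨y j, hyjM, hyj1, hinv, hcen, Or.inl h⟩
      · refine ⟨(y j)⁻¹ * (a₀ * y j * a₀⁻¹), mul_mem (inv_mem hyjM) (hAM a₀ ha₀A _ hyjM),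
          ?_, ?_, ?_, Or.inr ?_⟩
        · intro h1
          exact h (inv_mul_eq_one.1 h1).symm
        · have hcomm : a₀ * b j = b j * a₀ := hAc a₀ ha₀A (b j) (hbA j)
          have e : b j * ((y j)⁻¹ * (a₀ * y j * a₀⁻¹)) * (b j)⁻¹
              = (b j * y j * (b j)⁻¹)⁻¹ * (b j * (a₀ * y j * a₀⁻¹) * (b j)⁻¹) := by group
          rw [e, conj_conj_comm hcomm, hinv]
          have e3 : ((y j)⁻¹ * (a₀ * y j * a₀⁻¹))⁻¹ = (a₀ * y j * a₀⁻¹)⁻¹ * y j := by group
          have e4 : (y j)⁻¹⁻¹ * (a₀ * (y j)⁻¹ * a₀⁻¹) = y j * (a₀ * y j * a₀⁻¹)⁻¹ := by group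
          rw [e3, e4]
          exact hMc _ hyjM _ (inv_mem (hAM a₀ ha₀A _ hyjM))
        · intro i hi
          have hcomm : a₀ * b i = b i * a₀ := hAc a₀ ha₀A (b i) (hbA i)
          have e : b i * ((y j)⁻¹ * (a₀ * y j * a₀⁻¹)) * (b i)⁻¹
              = (b i * y j * (b i)⁻¹)⁻¹ * (b i * (a₀ * y j * a₀⁻¹) * (b i)⁻¹) := by group
          rw [e, conj_conj_comm hcomm, hcen i hi]
        · have e : a₀ * ((y j)⁻¹ * (a₀ * y j * a₀⁻¹)) * a₀⁻¹
              = (a₀ * y j * a₀⁻¹)⁻¹ * (a₀ * (a₀ * y j * a₀⁻¹) * a₀⁻¹) := by group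
          rw [e, conj_conj_of_sq (hA2 a₀ ha₀A)]
          group
    choose y' hy'M hy'1 hy'inv hy'cen hy'a₀ using hy'
    have hc : ∀ J : Finset (Fin d), ∃ c ∈ A ⊓ Subgroup.centralizer ({x₀} : Set G),
        ∀ j, (j ∈ J → c * y' j * c⁻¹ = (y' j)⁻¹) ∧ (j ∉ J → c * y' j * c⁻¹ = y' j) := by
      classical
      intro J
      induction J using Finset.induction_on with
      | empty =>
        exact ⟨1, one_mem _, fun j => ⟨fun h => absurd h (Finset.notMem_empty j), fun _ => by simp⟩⟩
      | insert k J hk ih =>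
        obtain ⟨c, hcB, hc⟩ := ih
        refine ⟨b k * c, mul_mem (hby k).1 hcB, fun j => ?_⟩
        have e : (b k * c) * y' j * (b k * c)⁻¹ = b k * (c * y' j * c⁻¹) * (b k)⁻¹ := by group
        rw [e]
        by_cases hjk : j = k
        · subst hjk
          refine ⟨fun _ => ?_, fun h => absurd (Finset.mem_insert_self _ _) h⟩
          rw [(hc j).2 hk]
          exact hy'inv j
        · by_cases hjJ : j ∈ J
          · refine ⟨fun _ => ?_, fun h => absurd (Finset.mem_insert_of_mem hjJ) h⟩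
            rw [(hc j).1 hjJ]
            have e2 : b k * (y' j)⁻¹ * (b k)⁻¹ = (b k * y' j * (b k)⁻¹)⁻¹ := by group
            rw [e2, hy'cen j k (Ne.symm hjk)]
          · refine ⟨fun h => ?_, fun _ => ?_⟩
            · rcases Finset.mem_insert.1 h with h | h
              · exact absurd h hjk
              · exact absurd h hjJ
            · rw [(hc j).2 hjJ]
              exact hy'cen j k (Ne.symm hjk)
    classical
    obtain ⟨c, hcB, hc⟩ := hc (Finset.univ.filter (fun j => a₀ * y' j * a₀⁻¹ = (y' j)⁻¹))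
    have hcA : c ∈ A := (Subgroup.mem_inf.1 hcB).1
    have hcx₀ : c * x₀ * c⁻¹ = x₀ := ((hBmem c).1 hcB).2
    refine ⟨Fin.cons (a₀ * c) b, Fin.cons x₀ y', ?_, ?_⟩
    · intro i
      refine Fin.cases ?_ (fun k => ?_) i
      · simp only [Fin.cons_zero]
        refine ⟨mul_mem ha₀A hcA, hx₀M, hx₀1, ?_, ?_⟩
        · have e : (a₀ * c) * x₀ * (a₀ * c)⁻¹ = a₀ * (c * x₀ * c⁻¹) * a₀⁻¹ := by group
          rw [e, hcx₀, ha₀x₀]
        · intro j
          refine Fin.cases ?_ (fun l => ?_) j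
          · intro h
            exact absurd rfl h
          · intro _
            simp only [Fin.cons_succ]
            exact ((hBmem (b l)).1 (hby l).1).2
      · simp only [Fin.cons_succ]
        refine ⟨hbA k, hy'M k, hy'1 k, hy'inv k, ?_⟩
        intro j
        refine Fin.cases ?_ (fun l => ?_) j
        · intro _
          simp only [Fin.cons_zero]
          have e : (a₀ * c) * y' k * (a₀ * c)⁻¹ = a₀ * (c * y' k * c⁻¹) * a₀⁻¹ := by group
          rw [e]
          by_cases hk : a₀ * y' k * a₀⁻¹ = (y' k)⁻¹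
          · rw [(hc k).1 (by simp [hk])]
            have e2 : a₀ * (y' k)⁻¹ * a₀⁻¹ = (a₀ * y' k * a₀⁻¹)⁻¹ := by group
            rw [e2, hk, inv_inv]
          · rw [(hc k).2 (by simp [hk])]
            rcases hy'a₀ k with h | h
            · exact h
            · exact absurd h hk
        · intro hne
          simp only [Fin.cons_succ]
          exact hy'cen k l (fun h => hne (by rw [h]))
    · apply le_antisymm
      · apply iSup_le
        intro i
        rw [Subgroup.zpowers_le]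
        refine Fin.cases ?_ (fun k => ?_) i
        · simp only [Fin.cons_zero]
          exact mul_mem ha₀A hcA
        · simp only [Fin.cons_succ]
          exact hbA k
      · intro g hg
        have hBle : A ⊓ Subgroup.centralizer ({x₀} : Set G)
            ≤ ⨆ i, Subgroup.zpowers ((Fin.cons (a₀ * c) b : Fin (d + 1) → G) i) := by
          rw [← hbsup]
          apply iSup_le
          intro k
          have h1 := le_iSup (fun i => Subgroup.zpowers ((Fin.cons (a₀ * c) b : Fin (d + 1) → G) i))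
            k.succ
          simpa using h1
        have ha' : a₀ * c ∈ ⨆ i, Subgroup.zpowers ((Fin.cons (a₀ * c) b : Fin (d + 1) → G) i) := by
          have h1 := le_iSup (fun i => Subgroup.zpowers ((Fin.cons (a₀ * c) b : Fin (d + 1) → G) i)) 0
          exact h1 (by simp)
        rcases hx₀' g hg with h | h
        · exact hBle ((hBmem g).2 ⟨hg, h⟩)
        · have hmem : g * (a₀ * c) ∈ A ⊓ Subgroup.centralizer ({x₀} : Set G) := by
            refine (hBmem _).2 ⟨mul_mem hg (mul_mem ha₀A hcA), ?_⟩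
            have e : (g * (a₀ * c)) * x₀ * (g * (a₀ * c))⁻¹
                = g * (a₀ * (c * x₀ * c⁻¹) * a₀⁻¹) * g⁻¹ := by group
            rw [e, hcx₀, ha₀x₀]
            have e2 : g * x₀⁻¹ * g⁻¹ = (g * x₀ * g⁻¹)⁻¹ := by group
            rw [e2, h, inv_inv]
          have e : g = (g * (a₀ * c)) * (a₀ * c)⁻¹ := by group
          rw [e]
          exact mul_mem (hBle hmem) (inv_mem ha')

/-- The subgroup generated by an involution `a` and an element `x` of odd order inverted by `a` is dihedral. -/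
theorem nonempty_mulEquiv_dihedral (a x : G) (ha2 : a ^ 2 = 1) (hinv : a * x * a⁻¹ = x⁻¹)
    (hn : Odd (orderOf x)) (hx : x ≠ 1) :
    Nonempty (↥(Subgroup.zpowers a ⊔ Subgroup.zpowers x) ≃* DihedralGroup (orderOf x)) := by
  have hn0 : orderOf x ≠ 0 := hn.pos.ne'
  have : NeZero (orderOf x) := ⟨hn0⟩
  have hainv : a⁻¹ = a := inv_eq_self_of_sq ha2
  have haa : a * a = 1 := by rw [← pow_two]; exact ha2
  have he_add : ∀ i j : ZMod (orderOf x), x ^ (i + j).val = x ^ i.val * x ^ j.val := by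
    intro i j
    rw [← pow_add, ZMod.val_add]
    exact pow_mod_orderOf x _
  have he_sub : ∀ i j : ZMod (orderOf x), x ^ (j - i).val = (x ^ i.val)⁻¹ * x ^ j.val := by
    intro i j
    have h := he_add (j - i) i
    rw [sub_add_cancel] at h
    have hc : x ^ (j - i).val * x ^ i.val = x ^ i.val * x ^ (j - i).val :=
      ((Commute.refl x).pow_pow _ _).eq
    rw [h, hc, inv_mul_cancel_left]
  have hconj : ∀ k : ℕ, a * x ^ k * a⁻¹ = (x ^ k)⁻¹ := by
    intro k
    rw [← conj_pow, hinv, inv_pow]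
  have hea : ∀ k : ℕ, x ^ k * a = a * (x ^ k)⁻¹ := by
    intro k
    rw [← hconj k]
    calc x ^ k * a = (a * a) * x ^ k * a⁻¹ := by rw [haa, one_mul, hainv]
      _ = a * (a * x ^ k * a⁻¹) := by group
  let φ : DihedralGroup (orderOf x) → G := fun g =>
    match g with
    | DihedralGroup.r i => x ^ i.val
    | DihedralGroup.sr i => a * x ^ i.val
  have hφmul : ∀ g h, φ (g * h) = φ g * φ h := by
    rintro (i | i) (j | j)
    · rw [DihedralGroup.r_mul_r]
      exact he_add i j
    · rw [DihedralGroup.r_mul_sr]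
      show a * x ^ (j - i).val = x ^ i.val * (a * x ^ j.val)
      rw [he_sub, ← mul_assoc (x ^ i.val), hea]
      group
    · rw [DihedralGroup.sr_mul_r]
      show a * x ^ (i + j).val = a * x ^ i.val * x ^ j.val
      rw [he_add, mul_assoc]
    · rw [DihedralGroup.sr_mul_sr]
      show x ^ (j - i).val = a * x ^ i.val * (a * x ^ j.val)
      rw [he_sub]
      calc (x ^ i.val)⁻¹ * x ^ j.val = (a * a) * (x ^ i.val)⁻¹ * x ^ j.val := by rw [haa, one_mul]
        _ = a * (a * (x ^ i.val)⁻¹) * x ^ j.val := by group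
        _ = a * (x ^ i.val * a) * x ^ j.val := by rw [hea]
        _ = a * x ^ i.val * (a * x ^ j.val) := by group
  have hinj : Function.Injective (MonoidHom.mk' φ hφmul) := by
    rw [injective_iff_map_eq_one]
    rintro (i | i) h
    · have h' : x ^ i.val = 1 := h
      have hdvd : orderOf x ∣ i.val := orderOf_dvd_of_pow_eq_one h'
      have hlt : i.val < orderOf x := ZMod.val_lt i
      have h0 : i.val = 0 := Nat.eq_zero_of_dvd_of_lt hdvd hlt
      have hi : i = 0 := (ZMod.val_eq_zero i).1 h0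
      rw [hi]
      rfl
    · exfalso
      have h' : a * x ^ i.val = 1 := h
      have ha : a = (x ^ i.val)⁻¹ := eq_inv_of_mul_eq_one_left h'
      have hcomm : a * x = x * a := by
        rw [ha]
        exact (((Commute.refl x).pow_left i.val).inv_left).eq
      have hxx : x = x⁻¹ := by
        rw [← hinv, hcomm, mul_inv_cancel_right]
      have hx2 : x ^ 2 = 1 := by
        rw [pow_two]
        nth_rewrite 1 [hxx]
        simp
      have h1 : orderOf x ∣ 2 := orderOf_dvd_of_pow_eq_one hx2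
      have h2 : orderOf x = 1 := by
        rcases (Nat.dvd_prime Nat.prime_two).1 h1 with h | h
        · exact h
        · rw [h] at hn
          exact absurd hn (by decide)
      exact hx (orderOf_eq_one_iff.1 h2)
  have hrange : (MonoidHom.mk' φ hφmul).range = Subgroup.zpowers a ⊔ Subgroup.zpowers x := by
    apply le_antisymm
    · rintro _ ⟨g, rfl⟩
      rcases g with i | i
      · exact (le_sup_right : Subgroup.zpowers x ≤ _) (Subgroup.npow_mem_zpowers x _)
      · exact mul_mem ((le_sup_left : Subgroup.zpowers a ≤ _) (Subgroup.mem_zpowers a))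
          ((le_sup_right : Subgroup.zpowers x ≤ _) (Subgroup.npow_mem_zpowers x _))
    · apply sup_le
      · rw [Subgroup.zpowers_le]
        refine ⟨DihedralGroup.sr 0, ?_⟩
        show a * x ^ (0 : ZMod (orderOf x)).val = a
        simp
      · rw [Subgroup.zpowers_le]
        refine ⟨DihedralGroup.r 1, ?_⟩
        show x ^ (1 : ZMod (orderOf x)).val = x
        rw [ZMod.val_one_eq_one_mod, pow_mod_orderOf, pow_one]
  exact ⟨(MulEquiv.subgroupCongr hrange.symm).trans (MonoidHom.ofInjective hinj).symm⟩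

/-- Let G be finite, L ≤ G solvable of odd order, and A an elementary abelian 2-subgroup of order 2^d (d ≥ 1) normalizing L with C_A(L) = 1. Then there are subgroups A_1, …, A_d of A of order 2 generating A and subgroups L_1, …, L_d of L such that each A_i ⊔ L_i is dihedral of order 2 n_i with n_i odd and at least 3, and A_i ⊔ L_i commutes elementwise with A_j ⊔ L_j for i ≠ j. -/
theorem result {G : Type*} [Group G] [Finite G] (L A : Subgroup G) (hLs : Group.IsSolvable ↥L) (hLodd : Odd (Nat.card ↥L)) (hA : Cfsg.IsElementaryAbelian 2 A) (d : ℕ) (hd : 1 ≤ d) (hAd : Nat.card ↥A = 2 ^ d) (hAL : A ≤ Subgroup.normalizer (L : Set G)) (hfaith : A ⊓ Subgroup.centralizer (L : Set G) = ⊥) : ∃ (Ai : Fin d → Subgroup G) (Li : Fin d → Subgroup G) (n : Fin d → ℕ), (∀ i, Ai i ≤ A ∧ Nat.card ↥(Ai i) = 2 ∧ Li i ≤ L ∧ Odd (n i) ∧ 3 ≤ n i ∧ Nonempty (↥(Ai i ⊔ Li i) ≃* DihedralGroup (n i))) ∧ (⨆ i, Ai i) = A ∧ ∀ i j, i ≠ j → ∀ x ∈ Ai i ⊔ Li i, ∀ y ∈ Ai j ⊔ Li j, x * y = y * x := by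
  obtain ⟨hAcomm, hA2⟩ := hA
  have hAc : ∀ a ∈ A, ∀ b ∈ A, a * b = b * a := by
    intro a ha b hb
    have h := hAcomm.is_comm.comm (⟨a, ha⟩ : ↥A) ⟨b, hb⟩
    exact congrArg Subtype.val h
  have hAL' : ∀ a ∈ A, ∀ x ∈ L, a * x * a⁻¹ ∈ L :=
    fun a ha x hx => (Subgroup.mem_normalizer_iff.1 (hAL ha) x).1 hx
  have hfaith' : ∀ a ∈ A, (∀ x ∈ L, a * x * a⁻¹ = x) → a = 1 := by
    intro a ha h
    have hmem : a ∈ A ⊓ Subgroup.centralizer (L : Set G) := by
      refine Subgroup.mem_inf.2 ⟨ha, ?_⟩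
      rw [Subgroup.mem_centralizer_iff]
      intro x hx
      have h1 := h x hx
      nth_rewrite 1 [← h1]
      group
    rw [hfaith, Subgroup.mem_bot] at hmem
    exact hmem
  obtain ⟨M, hML, hMc, hAM, hMf⟩ :=
    exists_abelian_faithful A hA2 hAc (Nat.card L) L le_rfl hLs hLodd hAL'
  have hMo : Odd (Nat.card M) := Odd.of_dvd_nat hLodd (Subgroup.card_dvd_of_le hML)
  obtain ⟨a, x, hax, hsup⟩ := abelian_case M hMc hMo d A hA2 hAc hAd hAM
    (fun a ha h => hfaith' a ha (hMf a ha h))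
  refine ⟨fun i => Subgroup.zpowers (a i), fun i => Subgroup.zpowers (x i), fun i => orderOf (x i),
    ?_, hsup, ?_⟩
  · intro i
    obtain ⟨haA, hxM, hx1, hinv, hcen⟩ := hax i
    have hxo : Odd (orderOf (x i)) := Odd.of_dvd_nat hMo (Subgroup.orderOf_dvd_natCard M hxM)
    have ha2 := hA2 _ haA
    have ha1 : a i ≠ 1 := by
      intro h
      rw [h] at hinv
      have h2 : x i = (x i)⁻¹ := by simpa using hinv
      apply hx1
      apply eq_one_of_sq_of_odd M hMo hxM
      rw [pow_two]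
      nth_rewrite 1 [h2]
      simp
    refine ⟨Subgroup.zpowers_le.2 haA, ?_, (Subgroup.zpowers_le.2 hxM).trans hML, hxo, ?_,
      nonempty_mulEquiv_dihedral _ _ ha2 hinv hxo hx1⟩
    · rw [Nat.card_zpowers]
      exact orderOf_eq_prime ha2 ha1
    · have h1 : orderOf (x i) ≠ 1 := fun h => hx1 (orderOf_eq_one_iff.1 h)
      obtain ⟨m, hm⟩ := hxo
      show 3 ≤ orderOf (x i)
      omega
  · intro i j hij u hu v hv
    obtain ⟨haiA, hxiM, -, -, hceni⟩ := hax i
    obtain ⟨hajA, hxjM, -, -, hcenj⟩ := hax j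
    have h1 : a i * a j = a j * a i := hAc _ haiA _ hajA
    have h2 : a i * x j = x j * a i := by
      have h := hcenj i hij
      nth_rewrite 2 [← h]
      group
    have h3 : a j * x i = x i * a j := by
      have h := hceni j (Ne.symm hij)
      nth_rewrite 2 [← h]
      group
    have h4 : x i * x j = x j * x i := hMc _ hxiM _ hxjM
    have key : Subgroup.zpowers (a i) ⊔ Subgroup.zpowers (x i) ≤
        Subgroup.centralizer ((Subgroup.zpowers (a j) ⊔ Subgroup.zpowers (x j) : Subgroup G) : Set G) := by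
      apply sup_le
      · rw [Subgroup.zpowers_le, Subgroup.mem_centralizer_iff]
        have h5 : Subgroup.zpowers (a j) ⊔ Subgroup.zpowers (x j) ≤
            Subgroup.centralizer ({a i} : Set G) := by
          apply sup_le
          · rw [Subgroup.zpowers_le, Subgroup.mem_centralizer_iff]
            intro z hz
            rw [Set.mem_singleton_iff] at hz
            subst hz
            exact h1
          · rw [Subgroup.zpowers_le, Subgroup.mem_centralizer_iff]
            intro z hz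
            rw [Set.mem_singleton_iff] at hz
            subst hz
            exact h2
        intro h hh
        exact (Subgroup.mem_centralizer_iff.1 (h5 hh) (a i) rfl).symm
      · rw [Subgroup.zpowers_le, Subgroup.mem_centralizer_iff]
        have h5 : Subgroup.zpowers (a j) ⊔ Subgroup.zpowers (x j) ≤
            Subgroup.centralizer ({x i} : Set G) := by
          apply sup_le
          · rw [Subgroup.zpowers_le, Subgroup.mem_centralizer_iff]
            intro z hz
            rw [Set.mem_singleton_iff] at hz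
            subst hz
            exact h3.symm
          · rw [Subgroup.zpowers_le, Subgroup.mem_centralizer_iff]
            intro z hz
            rw [Set.mem_singleton_iff] at hz
            subst hz
            exact h4
        intro h hh
        exact (Subgroup.mem_centralizer_iff.1 (h5 hh) (x i) rfl).symm
    exact (Subgroup.mem_centralizer_iff.1 (key hu) v hv).symm

end Cfsg.Agent.S1349
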