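import Cfsg.Statements.S1455
import Cfsg.Agent.Helper62.Narrow
import Cfsg.Agent.Helper23.Rank2Sol
import Cfsg.Agent.Helper21.PRank

set_option autoImplicit false
open Cfsg

namespace Cfsg.Agent.S1455

/-- The two facts about `G / O_{p'}(G)` from which the statement follows (as in B&G 4.18). -/
theorem key {G : Type*} [Group G] [Finite G] [Group.IsSolvable G] (hodd : Odd (Nat.card G))
    (p : ℕ) [Fact p.Prime] (hp2 : p ≠ 2) (S : Sylow p G)
    (hS : Cfsg.IsNarrow p ↥(S : Subgroup G))
    (hpl : ¬ Cfsg.PRankLE p 2 ↥(S : Subgroup G) → Cfsg.PLengthLE p 1 G) :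
    commutator (G ⧸ pPrimeCore p G) ≤ pCore p (G ⧸ pPrimeCore p G) ∧
      ∀ x : G ⧸ pPrimeCore p G, ∀ q : ℕ, q.Prime → p < q → x ^ q = 1 → x = 1 := by
  have hp' : p.Prime := Fact.out
  by_cases hr : Cfsg.PRankLE p 2 ↥(S : Subgroup G)
  · -- rank at most two
    have hrG : Cfsg.PRankLE p 2 G := by
      intro A hAc hAp
      have hApg : IsPGroup p A := fun a => ⟨1, by
        rw [pow_one]
        exact Subtype.ext (by simpa using hAp a a.2)⟩
      obtain ⟨Q, hQ⟩ := hApg.exists_le_sylow
      have hrQ : Cfsg.PRankLE p 2 ↥(Q : Subgroup G) :=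
        Cfsg.Agent.Helper21.pRankLE_of_injective (Sylow.equiv Q S).toMonoidHom
          (Sylow.equiv Q S).injective hr
      exact Cfsg.Agent.Helper23.pRank_internal hrQ A hQ
        (fun x hx y hy => congrArg Subtype.val (hAc.is_comm.comm (⟨x, hx⟩ : A) ⟨y, hy⟩)) hAp
    exact Cfsg.Agent.Helper23.rank2_solvable p hp2 hodd hrG
  · -- narrow of rank at least three, `p`-length one
    have hpl1 := hpl hr
    have hK : (Nat.card (pPrimeCore p G)).Coprime p := Cfsg.Agent.Helper24.coprime_card_pPrimeCore p
    have hSN : (S : Subgroup G) ⊓ pPrimeCore p G = ⊥ :=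
      Cfsg.Agent.Helper24.inf_eq_bot_of_isPGroup_of_coprime S.isPGroup' hK
    obtain ⟨π, hπdef⟩ : ∃ π : G →* G ⧸ pPrimeCore p G, π = QuotientGroup.mk' (pPrimeCore p G) :=
      ⟨_, rfl⟩
    have hπsurj : Function.Surjective π := by rw [hπdef]; exact QuotientGroup.mk'_surjective _
    have hπker : ∀ g : G, π g = 1 → g ∈ pPrimeCore p G := by
      intro g hg
      rw [hπdef] at hg
      exact (QuotientGroup.eq_one_iff g).mp hg
    obtain ⟨f, hfdef⟩ : ∃ f : ↥(S : Subgroup G) →* G ⧸ pPrimeCore p G,
        f = π.comp (S : Subgroup G).subtype := ⟨_, rfl⟩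
    have hfapp : ∀ y : ↥(S : Subgroup G), f y = π (y : G) := fun y => by rw [hfdef]; rfl
    have hf : Function.Injective f := by
      rw [injective_iff_map_eq_one]
      intro y hy
      rw [hfapp] at hy
      have h1 : (y : G) ∈ (S : Subgroup G) ⊓ pPrimeCore p G := ⟨y.2, hπker _ hy⟩
      rw [hSN, Subgroup.mem_bot] at h1
      exact Subtype.ext h1
    obtain ⟨Rb, hRbdef⟩ : ∃ Rb : Subgroup (G ⧸ pPrimeCore p G), Rb = (S : Subgroup G).map π :=
      ⟨_, rfl⟩
    have hfR : ∀ y : ↥(S : Subgroup G), f y ∈ Rb := by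
      intro y
      rw [hfapp, hRbdef]
      exact Subgroup.mem_map_of_mem π y.2
    have hRbp : IsPGroup p Rb := by rw [hRbdef]; exact S.isPGroup'.map π
    -- `Rb` is normal
    have hAn : (⊤ : Subgroup (G ⧸ pPrimeCore p G)) ≤ Subgroup.normalizer (Rb : Set _) := by
      have h1 := Cfsg.Agent.Helper24.normalizer_sup_pPrimeCore_eq_top p hpl1 S
      have h2 : (Subgroup.normalizer ((S : Subgroup G) : Set G)).map π = ⊤ := by
        have h3 : (Subgroup.normalizer ((S : Subgroup G) : Set G) ⊔ pPrimeCore p G).map π = ⊤ := by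
          rw [h1]
          exact Subgroup.map_top_of_surjective π hπsurj
        rw [Subgroup.map_sup] at h3
        have h4 : (pPrimeCore p G).map π = ⊥ := by
          rw [hπdef]; exact QuotientGroup.map_mk'_self _
        rwa [h4, sup_bot_eq] at h3
      rw [← h2, hRbdef]
      exact Subgroup.le_normalizer_map π
    haveI hRbn : Rb.Normal := Subgroup.normalizer_eq_top_iff.mp (top_le_iff.mp hAn)
    -- the narrowness data
    obtain ⟨x, E, hxE, hE2, hEp, hmax⟩ :=
      Cfsg.Agent.Helper62.Narrow.narrow_data (P := ↥(S : Subgroup G)) p S.isPGroup' hS hr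
    have hrb : ¬ Cfsg.PRankLE p 2 ↥Rb := by
      intro h
      apply hr
      exact Cfsg.Agent.Helper21.pRankLE_of_injective (f.codRestrict Rb hfR)
        (fun a b hab => hf (congrArg Subtype.val hab)) h
    obtain ⟨hA, hB⟩ := Cfsg.Agent.Helper62.Narrow.narrow_core_data p hp2 Rb ⊤ hRbp (f x) (E.map f)
      (by
        rintro _ ⟨e, -, rfl⟩
        exact hfR e)
      (Subgroup.mem_map_of_mem f hxE)
      (by rw [Subgroup.card_map_of_injective hf]; exact hE2)
      (by
        rintro _ ⟨e, he, rfl⟩
        rw [← map_pow, hEp e he, map_one])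
      (by
        intro yb hyb hyp hyx
        rw [hRbdef] at hyb
        obtain ⟨y, hy, rfl⟩ := hyb
        have e1 : π y = f ⟨y, hy⟩ := (hfapp ⟨y, hy⟩).symm
        rw [e1] at hyp hyx ⊢
        refine Subgroup.mem_map_of_mem f (hmax ⟨y, hy⟩ ?_ ?_)
        · apply hf
          rw [map_pow, hyp, map_one]
        · apply hf
          rw [map_mul, map_mul, hyx])
      hrb hAn
    -- the centralizer of `Rb` is a `p`-group
    have hbot := Cfsg.Agent.Helper34.pPrimeCore_quotient_eq_bot p G
    have hcore : ∀ D : Subgroup (G ⧸ pPrimeCore p G), D.Normal → (Nat.card D).Coprime p →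
        D = ⊥ := by
      intro D hD hDc
      have := Cfsg.Agent.Helper24.le_pPrimeCore hD hDc
      rw [hbot] at this
      exact le_bot_iff.mp this
    have hcent := Cfsg.Agent.Helper24.centralizer_pCore_le (G := G ⧸ pPrimeCore p G) p hcore
    have hCp : IsPGroup p (pCore p (G ⧸ pPrimeCore p G)) := Cfsg.Agent.Helper24.isPGroup_pCore p _
    have hcoreR : pCore p (G ⧸ pPrimeCore p G) ≤ Rb := by
      have := Cfsg.Agent.Helper24.normal_isPGroup_le_sylow
        (inferInstance : (pCore p (G ⧸ pPrimeCore p G)).Normal) hCp (S.mapSurjective hπsurj)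
      rwa [Sylow.coe_mapSurjective, ← hRbdef] at this
    have hcentR : Subgroup.centralizer (Rb : Set (G ⧸ pPrimeCore p G)) ≤
        pCore p (G ⧸ pPrimeCore p G) :=
      (Subgroup.centralizer_le (by exact_mod_cast hcoreR)).trans hcent
    refine ⟨?_, ?_⟩
    · -- the commutator subgroup is a `p`-group
      have hkey : ∀ q : ℕ, q.Prime → q ∣ Nat.card ↥(commutator (G ⧸ pPrimeCore p G)) → q = p := by
        intro q hq hdvd
        by_contra hne
        haveI : Fact q.Prime := ⟨hq⟩
        obtain ⟨g, hg⟩ := exists_prime_orderOf_dvd_card'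
          (G := ↥(commutator (G ⧸ pPrimeCore p G))) q hdvd
        have hcop : (Nat.card (Subgroup.zpowers (g : G ⧸ pPrimeCore p G))).Coprime p := by
          rw [Nat.card_zpowers, Subgroup.orderOf_coe, hg]
          exact (Nat.coprime_primes hq hp').mpr hne
        have h2 := hA (Subgroup.zpowers (g : G ⧸ pPrimeCore p G))
          (Subgroup.zpowers_le.mpr
            (show (g : G ⧸ pPrimeCore p G) ∈ (⁅⊤, ⊤⁆ : Subgroup (G ⧸ pPrimeCore p G)) from g.2))
          hcop
        have h3 : (g : G ⧸ pPrimeCore p G) ∈ pCore p (G ⧸ pPrimeCore p G) :=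
          hcentR (h2 (Subgroup.mem_zpowers _))
        obtain ⟨k, hk⟩ := hCp ⟨_, h3⟩
        have hk' : (g : G ⧸ pPrimeCore p G) ^ p ^ k = 1 := by
          have := congrArg Subtype.val hk
          simpa using this
        have h4 : q ∣ p ^ k := by
          rw [← hg, ← Subgroup.orderOf_coe]
          exact orderOf_dvd_of_pow_eq_one hk'
        exact hne ((Nat.prime_dvd_prime_iff_eq hq hp').mp (hq.dvd_of_dvd_pow h4))
      have hcard := Nat.eq_prime_pow_of_unique_prime_dvd
        (Nat.card_pos (α := ↥(commutator (G ⧸ pPrimeCore p G)))).ne'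
        (fun {d} hd hdvd => hkey d hd hdvd)
      exact Cfsg.Agent.Helper24.le_pCore inferInstance (IsPGroup.of_card hcard)
    · intro xb q hq hpq hxq
      have hcop : (orderOf xb).Coprime p := by
        have h1 : orderOf xb ∣ q := orderOf_dvd_of_pow_eq_one hxq
        have h2 : q.Coprime p := (Nat.coprime_primes hq hp').mpr (by omega)
        exact Nat.Coprime.coprime_dvd_left h1 h2
      have h3 : xb ^ (p - 1) ∈ pCore p (G ⧸ pPrimeCore p G) :=
        hcentR (hB xb (Subgroup.mem_top xb) hcop)
      obtain ⟨k, hk⟩ := hCp ⟨_, h3⟩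
      have hk' : (xb ^ (p - 1)) ^ p ^ k = 1 := by
        have := congrArg Subtype.val hk
        simpa using this
      have h4 : (xb ^ (p - 1)) ^ q = 1 := by rw [← pow_mul, mul_comm, pow_mul, hxq, one_pow]
      have h5 : xb ^ (p - 1) = 1 := by
        have h6 : orderOf (xb ^ (p - 1)) ∣ Nat.gcd q (p ^ k) :=
          Nat.dvd_gcd (orderOf_dvd_of_pow_eq_one h4) (orderOf_dvd_of_pow_eq_one hk')
        have h7 : Nat.gcd q (p ^ k) = 1 :=
          Nat.Coprime.pow_right k ((Nat.coprime_primes hq hp').mpr (by omega))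
        rw [h7, Nat.dvd_one] at h6
        exact orderOf_eq_one_iff.mp h6
      have h8 : orderOf xb ∣ Nat.gcd q (p - 1) :=
        Nat.dvd_gcd (orderOf_dvd_of_pow_eq_one hxq) (orderOf_dvd_of_pow_eq_one h5)
      have h9 : Nat.Coprime q (p - 1) := by
        rw [Nat.Prime.coprime_iff_not_dvd hq]
        intro hdvd
        have := Nat.le_of_dvd (by have := hp'.two_le; omega) hdvd
        omega
      rw [Nat.Coprime.gcd_eq_one h9, Nat.dvd_one] at h8
      exact orderOf_eq_one_iff.mp h8

/-- Let G be a solvable group of odd order, p a prime dividing its order, and S a Sylow p-subgroup of G that is narrow; if S has an elementary abelian subgroup of order p ^ 3 assume also G = O_{p',p,p'}(G). Then every prime dividing the index of O_{p'}(G) is at most p; if p = 3 or p is the smallest prime divisor of #G then G has a normal p-complement; G' has a normal p-complement; every subgroup of G' of order coprime to p lies in O_{p'}(G'); and G' ≤ O_{p',p}(G) with the index of O_{p',p}(G) coprime to p. -/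
theorem result {G : Type*} [Group G] [Finite G] [Group.IsSolvable G] (hodd : Odd (Nat.card G)) (p : ℕ) [Fact p.Prime] (hpG : p ∣ Nat.card G) (S : Sylow p G) (hS : Cfsg.IsNarrow p ↥(S : Subgroup G))
    (hpl : ¬ Cfsg.PRankLE p 2 ↥(S : Subgroup G) → Cfsg.PLengthLE p 1 G) :
    (∀ q : ℕ, q.Prime → q ∣ (Cfsg.pPrimeCore p G).index → q ≤ p) ∧
      ((p = 3 ∨ ∀ q : ℕ, q.Prime → q ∣ Nat.card G → p ≤ q) → Cfsg.HasNormalPComplement p G) ∧
      Cfsg.HasNormalPComplement p ↥(commutator G) ∧
      (∀ L : Subgroup ↥(commutator G), (Nat.card L).Coprime p → L ≤ Cfsg.pPrimeCore p ↥(commutator G)) ∧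
      commutator G ≤ Cfsg.pPrimePCore p G ∧ ((Cfsg.pPrimePCore p G).index).Coprime p := by
  have hp' : p.Prime := Fact.out
  have hp2 : p ≠ 2 := by
    rintro rfl
    exact (Nat.not_even_iff_odd.mpr hodd) (even_iff_two_dvd.mpr hpG)
  have hK : (Nat.card (pPrimeCore p G)).Coprime p := Cfsg.Agent.Helper24.coprime_card_pPrimeCore p
  obtain ⟨hA, hB⟩ := key hodd p hp2 S hS hpl
  have hsurj := QuotientGroup.mk'_surjective (pPrimeCore p G)
  -- (a)
  have ha : ∀ q : ℕ, q.Prime → q ∣ (pPrimeCore p G).index → q ≤ p := by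
    intro q hq hdvd
    by_contra hlt
    push Not at hlt
    haveI : Fact q.Prime := ⟨hq⟩
    rw [Subgroup.index_eq_card] at hdvd
    obtain ⟨x, hx⟩ := exists_prime_orderOf_dvd_card' (G := G ⧸ pPrimeCore p G) q hdvd
    have h1 := hB x q hq hlt (by rw [← hx]; exact pow_orderOf_eq_one x)
    rw [h1, orderOf_one] at hx
    exact hq.one_lt.ne hx
  have hcomm : ∀ g ∈ commutator G,
      (QuotientGroup.mk' (pPrimeCore p G)) g ∈ pCore p (G ⧸ pPrimeCore p G) := by
    intro g hg
    apply hA
    rw [commutator_def] at hg ⊢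
    have h1 : (QuotientGroup.mk' (pPrimeCore p G)) g ∈
        Subgroup.map (QuotientGroup.mk' (pPrimeCore p G)) ⁅(⊤ : Subgroup G), (⊤ : Subgroup G)⁆ :=
      Subgroup.mem_map_of_mem _ hg
    rw [Subgroup.map_commutator] at h1
    exact Subgroup.commutator_mono le_top le_top h1
  have hRp : IsPGroup p (pCore p (G ⧸ pPrimeCore p G)) := Cfsg.Agent.Helper24.isPGroup_pCore p _
  -- (e)
  have he1 : commutator G ≤ pPrimePCore p G := fun g hg => hcomm g hg
  have he2 : ((pPrimePCore p G).index).Coprime p := by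
    have h1 : (pPrimePCore p G).index = (pCore p (G ⧸ pPrimeCore p G)).index :=
      Subgroup.index_comap_of_surjective _ hsurj
    rw [h1]
    let P : Sylow p (G ⧸ pPrimeCore p G) := default
    have h2 : pCore p (G ⧸ pPrimeCore p G) ≤ (P : Subgroup (G ⧸ pPrimeCore p G)) :=
      Cfsg.Agent.Helper24.normal_isPGroup_le_sylow inferInstance hRp P
    have h3 : (P : Subgroup (G ⧸ pPrimeCore p G)).Normal :=
      Subgroup.Normal.of_commutator_le _ (hA.trans h2)
    have h4 : (P : Subgroup (G ⧸ pPrimeCore p G)) ≤ pCore p (G ⧸ pPrimeCore p G) :=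
      Cfsg.Agent.Helper24.le_pCore h3 P.isPGroup'
    have h5 : pCore p (G ⧸ pPrimeCore p G) = P := le_antisymm h2 h4
    rw [h5, Nat.coprime_comm, hp'.coprime_iff_not_dvd]
    exact P.not_dvd_index
  -- (b)
  have hb : (p = 3 ∨ ∀ q : ℕ, q.Prime → q ∣ Nat.card G → p ≤ q) → HasNormalPComplement p G := by
    intro hcase
    have key' : ∀ q : ℕ, q.Prime → q ∣ (pPrimeCore p G).index → q = p := by
      intro q hq hdvd
      have h1 := ha q hq hdvd
      have hqG : q ∣ Nat.card G := hdvd.trans (Subgroup.index_dvd_card _)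
      rcases hcase with h3 | hmin
      · have hq2 : q ≠ 2 := by
          rintro rfl
          exact (Nat.not_even_iff_odd.mpr hodd) (even_iff_two_dvd.mpr hqG)
        have := hq.two_le
        omega
      · exact le_antisymm h1 (hmin q hq hqG)
    have hidx := Nat.eq_prime_pow_of_unique_prime_dvd
      (Subgroup.index_ne_zero_of_finite (H := pPrimeCore p G))
      (fun {d} hd hdvd => key' d hd hdvd)
    let P : Sylow p G := default
    have hcardG : Nat.card G =
        Nat.card (pPrimeCore p G) * p ^ (pPrimeCore p G).index.primeFactorsList.length := by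
      rw [← hidx]
      exact (Subgroup.card_mul_index _).symm
    have hP := Cfsg.Agent.Helper23.sylow_card_of_card_eq P hcardG hK
    exact ⟨P, pPrimeCore p G, inferInstance,
      Subgroup.isComplement'_of_coprime (by rw [hP, ← hcardG]) (by rw [hP]; exact hK.pow_right _)⟩
  -- (c), (d)
  have hker : ((QuotientGroup.mk' (pPrimeCore p G)).comp (commutator G).subtype).ker =
      (pPrimeCore p G).subgroupOf (commutator G) := by
    ext x
    rw [MonoidHom.mem_ker, Subgroup.mem_subgroupOf, MonoidHom.comp_apply, QuotientGroup.mk'_apply,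
      QuotientGroup.eq_one_iff]
    rfl
  have hrange : ((QuotientGroup.mk' (pPrimeCore p G)).comp (commutator G).subtype).range ≤
      pCore p (G ⧸ pPrimeCore p G) := by
    rintro _ ⟨x, rfl⟩
    exact hcomm x x.2
  have hrange_p := hRp.to_le hrange
  obtain ⟨m, hm⟩ := IsPGroup.iff_card.mp hrange_p
  have hN'card : (Nat.card ((pPrimeCore p G).subgroupOf (commutator G))).Coprime p := by
    have h1 : Nat.card ((pPrimeCore p G).subgroupOf (commutator G)) ∣ Nat.card (pPrimeCore p G) := by
      rw [← Subgroup.card_map_of_injective (commutator G).subtype_injective,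
        Subgroup.subgroupOf_map_subtype]
      exact Subgroup.card_dvd_of_le inf_le_left
    exact Nat.Coprime.coprime_dvd_left h1 hK
  have hcardG' : Nat.card ↥(commutator G) =
      Nat.card ((pPrimeCore p G).subgroupOf (commutator G)) * p ^ m := by
    rw [← hm, ← Subgroup.index_ker, hker]
    exact (Subgroup.card_mul_index _).symm
  have hc : HasNormalPComplement p ↥(commutator G) := by
    let P : Sylow p ↥(commutator G) := default
    have hP := Cfsg.Agent.Helper23.sylow_card_of_card_eq P hcardG' hN'card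
    exact ⟨P, (pPrimeCore p G).subgroupOf (commutator G), inferInstance,
      Subgroup.isComplement'_of_coprime (by rw [hP, ← hcardG'])
        (by rw [hP]; exact hN'card.pow_right m)⟩
  have hd : ∀ L : Subgroup ↥(commutator G), (Nat.card L).Coprime p →
      L ≤ pPrimeCore p ↥(commutator G) := by
    intro L hL
    have h1 : L ≤ (pPrimeCore p G).subgroupOf (commutator G) := by
      intro l hl
      rw [← hker, MonoidHom.mem_ker]
      obtain ⟨k, hk⟩ := hrange_p ⟨_, ⟨l, rfl⟩⟩
      have hk' : (((QuotientGroup.mk' (pPrimeCore p G)).comp (commutator G).subtype) l) ^ p ^ k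
          = 1 := by
        have := congrArg Subtype.val hk
        simpa using this
      have h2 := orderOf_dvd_of_pow_eq_one hk'
      have h3 : orderOf (((QuotientGroup.mk' (pPrimeCore p G)).comp (commutator G).subtype) l) ∣
          Nat.card L := by
        have h4 := orderOf_map_dvd
          ((QuotientGroup.mk' (pPrimeCore p G)).comp (commutator G).subtype) l
        have h5 := orderOf_dvd_natCard (⟨l, hl⟩ : L)
        rw [Subgroup.orderOf_mk] at h5
        exact h4.trans h5
      exact orderOf_eq_one_iff.mp (Nat.eq_one_of_dvd_coprimes (hL.pow_right k) h3 h2)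
    exact h1.trans (Cfsg.Agent.Helper24.le_pPrimeCore inferInstance hN'card)
  exact ⟨ha, hb, hc, hd, he1, he2⟩

end Cfsg.Agent.S1455
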