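import Cfsg.Statements.S1892
import Cfsg.Agent.Helper32.HallHigman

set_option autoImplicit false
open Cfsg
open scoped commutatorElement

namespace Cfsg.Agent.S1892

theorem conj_mem_commutator {G : Type*} [Group G] (H K : Subgroup G) (g : G)
    (hH : ∀ x ∈ H, g * x * g⁻¹ ∈ H) (hK : ∀ x ∈ K, g * x * g⁻¹ ∈ K) :
    ∀ z ∈ ⁅H, K⁆, g * z * g⁻¹ ∈ ⁅H, K⁆ := by
  have hle : ⁅H, K⁆ ≤ (⁅H, K⁆).comap (MulAut.conj g).toMonoidHom := by
    rw [Subgroup.commutator_le]
    intro h hh k hk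
    rw [Subgroup.mem_comap, map_commutatorElement]
    exact Subgroup.commutator_mem_commutator (hH h hh) (hK k hk)
  intro z hz
  exact hle hz

/-- Let S be a finite p-solvable group with no nontrivial normal subgroup of order prime to p, A a p-subgroup of S, and Q a nontrivial A-invariant subgroup of order prime to p with [A, Q] = Q. Then the commutator [O_p(S), A, Q] is nontrivial. -/
theorem result {S : Type*} [Group S] [Finite S] {p : ℕ} [Fact p.Prime]
    (hS : Cfsg.IsPSolvable p S) (hred : Cfsg.pPrimeCore p S = ⊥)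
    (A Q : Subgroup S) (hA : IsPGroup p A) (hQ : ¬ p ∣ Nat.card Q) (hQ1 : Q ≠ ⊥)
    (hinv : ∀ a ∈ A, ∀ x ∈ Q, a * x * a⁻¹ ∈ Q) (hAQ : ⁅A, Q⁆ = Q) :
    ⁅⁅Cfsg.pCore p S, A⁆, Q⁆ ≠ ⊥ := by
  intro h
  have hp : p.Prime := Fact.out
  set P := Cfsg.pCore p S with hPdef
  have hPn : P.Normal := inferInstance
  have hPp : IsPGroup p P := Cfsg.Agent.Helper32.pCore_isPGroup' p S
  set P₁ : Subgroup S := ⁅P, A⁆ with hP₁
  have hP₁P : P₁ ≤ P := Subgroup.commutator_le_left P A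
  -- Step 1: Q centralizes P₁
  have hP₁Q : ∀ y ∈ P₁, ∀ q ∈ Q, q * y = y * q := by
    intro y hy q hq
    have := (Subgroup.commutator_eq_bot_iff_le_centralizer.1 h) hy
    exact Subgroup.mem_centralizer_iff.1 this q hq
  have hQnorm : Q ≤ Subgroup.normalizer (P₁ : Set S) := by
    intro q hq
    apply Subgroup.centralizer_le_normalizer
    rw [Subgroup.mem_centralizer_iff]
    intro y hy
    exact (hP₁Q y hy q hq).symm
  -- Step 2: the subgroup T of elements acting trivially on P / P₁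
  let T : Subgroup S :=
    { carrier := {g | g ∈ Subgroup.normalizer (P₁ : Set S) ∧ ∀ y ∈ P, y * g * y⁻¹ * g⁻¹ ∈ P₁}
      one_mem' := by
        refine ⟨Subgroup.one_mem _, ?_⟩
        intro y _
        simp
      mul_mem' := by
        rintro g k ⟨hg1, hg2⟩ ⟨hk1, hk2⟩
        refine ⟨Subgroup.mul_mem _ hg1 hk1, ?_⟩
        intro y hy
        have e : y * (g * k) * y⁻¹ * (g * k)⁻¹ = (y * g * y⁻¹ * g⁻¹) * (g * (y * k * y⁻¹ * k⁻¹) * g⁻¹) := by
          group
        rw [e]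
        exact P₁.mul_mem (hg2 y hy) ((Subgroup.mem_normalizer_iff.1 hg1 _).1 (hk2 y hy))
      inv_mem' := by
        rintro g ⟨hg1, hg2⟩
        have hginv := Subgroup.inv_mem _ hg1
        refine ⟨hginv, ?_⟩
        intro y hy
        have e : y * g⁻¹ * y⁻¹ * g⁻¹⁻¹ = g⁻¹ * (y * g * y⁻¹ * g⁻¹)⁻¹ * g⁻¹⁻¹ := by group
        rw [e]
        exact (Subgroup.mem_normalizer_iff.1 hginv _).1 (P₁.inv_mem (hg2 y hy)) }
  have hTmem : ∀ g, g ∈ T ↔ (g ∈ Subgroup.normalizer (P₁ : Set S) ∧ ∀ y ∈ P, y * g * y⁻¹ * g⁻¹ ∈ P₁) :=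
    fun g => Iff.rfl
  have hAT : A ≤ T := by
    intro a ha
    rw [hTmem]
    constructor
    · rw [Subgroup.mem_normalizer_iff]
      intro z
      constructor
      · intro hz
        exact conj_mem_commutator P A a (fun x hx => hPn.conj_mem x hx a)
          (fun x hx => A.mul_mem (A.mul_mem ha hx) (A.inv_mem ha)) z hz
      · intro hz
        have := conj_mem_commutator P A a⁻¹ (fun x hx => hPn.conj_mem x hx a⁻¹)
          (fun x hx => A.mul_mem (A.mul_mem (A.inv_mem ha) hx) (A.inv_mem (A.inv_mem ha))) _ hz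
        have e : a⁻¹ * (a * z * a⁻¹) * a⁻¹⁻¹ = z := by group
        rwa [e] at this
    · intro y hy
      exact Subgroup.commutator_mem_commutator hy ha
  have hQT : ∀ q ∈ Q, ∀ g ∈ T, q * g * q⁻¹ ∈ T := by
    intro q hq g hg
    rw [hTmem] at hg ⊢
    obtain ⟨hg1, hg2⟩ := hg
    have hqn := hQnorm hq
    refine ⟨Subgroup.mul_mem _ (Subgroup.mul_mem _ hqn hg1) (Subgroup.inv_mem _ hqn), ?_⟩
    intro y hy
    have hy' : q⁻¹ * y * q ∈ P := by
      have := hPn.conj_mem y hy q⁻¹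
      simpa using this
    have e : y * (q * g * q⁻¹) * y⁻¹ * (q * g * q⁻¹)⁻¹ =
        q * ((q⁻¹ * y * q) * g * (q⁻¹ * y * q)⁻¹ * g⁻¹) * q⁻¹ := by group
    rw [e]
    exact (Subgroup.mem_normalizer_iff.1 hqn _).1 (hg2 _ hy')
  have hQleT : Q ≤ T := by
    rw [← hAQ, Subgroup.commutator_le]
    intro a ha q hq
    have e : ⁅a, q⁆ = a * (q * a⁻¹ * q⁻¹) := by rw [commutatorElement_def]; group
    rw [e]
    exact T.mul_mem (hAT ha) (hQT q hq _ (T.inv_mem (hAT ha)))
  -- Step 3: Q centralizes P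
  have hQP : Q ≤ Subgroup.centralizer (P : Set S) := by
    intro q hq
    rw [Subgroup.mem_centralizer_iff]
    intro y hy
    have hc : y * q * y⁻¹ * q⁻¹ ∈ P₁ := ((hTmem q).1 (hQleT hq)).2 y hy
    set c : S := q * y * q⁻¹ * y⁻¹ with hcdef
    have hc' : c ∈ P₁ := by
      have : c = (y * q * y⁻¹ * q⁻¹)⁻¹ := by rw [hcdef]; group
      rw [this]
      exact P₁.inv_mem hc
    have h1 : q * y = c * y * q := by rw [hcdef]; group
    have h2 : q * c = c * q := hP₁Q c hc' q hq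
    have hqpow : q ^ Nat.card Q = 1 := by
      have : (⟨q, hq⟩ : Q) ^ Nat.card Q = 1 := pow_card_eq_one'
      exact congrArg Subtype.val this
    obtain ⟨i, hi⟩ := hPp ⟨c, hP₁P hc'⟩
    have hi' : c ^ (p ^ i) = 1 := congrArg Subtype.val hi
    have hcop : Nat.Coprime (Nat.card Q) (p ^ i) :=
      Nat.Coprime.pow_right i ((Nat.Prime.coprime_iff_not_dvd hp).2 hQ).symm
    exact (Cfsg.Agent.Helper32.commute_of_stab h1 h2 hqpow hi' hcop).symm
  -- Step 4: Hall–Higman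
  have hQleP : Q ≤ P :=
    le_trans hQP (Cfsg.Agent.Helper32.centralizer_pCore_le_of_isPSolvable hS hred)
  obtain ⟨q, hq1⟩ := (Subgroup.ne_bot_iff_exists_ne_one).1 hQ1
  apply hq1
  have hqpow : (q : S) ^ Nat.card Q = 1 := by
    have : q ^ Nat.card Q = 1 := pow_card_eq_one'
    exact_mod_cast congrArg Subtype.val this
  obtain ⟨i, hi⟩ := hPp ⟨q, hQleP q.2⟩
  have hi' : (q : S) ^ (p ^ i) = 1 := congrArg Subtype.val hi
  have hcop : Nat.Coprime (Nat.card Q) (p ^ i) :=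
    Nat.Coprime.pow_right i ((Nat.Prime.coprime_iff_not_dvd hp).2 hQ).symm
  exact Subtype.ext (Cfsg.Agent.Helper32.eq_one_of_pow_coprime hqpow hi' hcop)

end Cfsg.Agent.S1892
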