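import Cfsg.Statements.S1894
import Cfsg.Agent.Helper32.Basic

set_option autoImplicit false
open Cfsg

namespace Cfsg.Agent.S1894

/-- Let P be a finite p-group, A a normal subgroup of P and B an abelian subgroup of A that is normal in P. Then some subgroup C of A containing B is normal in P and is self-centralizing and normal in A (C ∈ SCN(A)). -/
theorem result {P : Type*} [Group P] [Finite P] {p : ℕ} [Fact p.Prime] (hP : IsPGroup p P)
    (A : Subgroup P) [A.Normal] (B : Subgroup P) [B.Normal] (hBA : B ≤ A) (hB : IsMulCommutative B) :
    ∃ C : Subgroup P, C.Normal ∧ B ≤ C ∧ Cfsg.IsSCN A C := by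
  classical
  -- the family of normal abelian subgroups of A containing B
  let 𝒮 : Set (Subgroup P) := {C | C.Normal ∧ B ≤ C ∧ C ≤ A ∧ IsMulCommutative C}
  have hB𝒮 : B ∈ 𝒮 := ⟨inferInstance, le_refl B, hBA, hB⟩
  obtain ⟨C, hBC, hCmax⟩ := (Set.toFinite 𝒮).exists_le_maximal hB𝒮
  obtain ⟨hCn, hBC', hCA, hCab⟩ := hCmax.prop
  have : C.Normal := hCn
  refine ⟨C, hCn, hBC', hCA, ?_, ?_⟩
  · intro a _
    have : (⊤ : Subgroup P) ≤ Subgroup.normalizer (C : Set P) := by
      rw [Subgroup.normalizer_eq_top]
    exact this (Subgroup.mem_top a)
  · apply le_antisymm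
    · -- the hard inclusion
      by_contra hcon
      set D : Subgroup P := A ⊓ Subgroup.centralizer (C : Set P) with hD
      have : D.Normal := Subgroup.normal_inf_normal A (Subgroup.centralizer (C : Set P))
      -- pass to the quotient by C
      let π := QuotientGroup.mk' C
      have hπsurj : Function.Surjective π := QuotientGroup.mk'_surjective C
      have : (D.map π).Normal := Subgroup.Normal.map inferInstance π hπsurj
      have hDne : D.map π ≠ ⊥ := by
        intro h
        rw [Subgroup.map_eq_bot_iff, QuotientGroup.ker_mk'] at h
        exact hcon h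
      have hPq : IsPGroup p (P ⧸ C) := hP.to_quotient C
      obtain ⟨z, hzD, hz1, hzc⟩ :=
        Cfsg.Agent.Helper32.exists_ne_one_mem_center_of_normal hPq (D.map π) hDne
      obtain ⟨x, hxD, hxz⟩ := Subgroup.mem_map.1 hzD
      have hxC : x ∉ C := by
        intro hx
        apply hz1
        rw [← hxz]
        exact (QuotientGroup.eq_one_iff x).2 hx
      have hxA : x ∈ A := (Subgroup.mem_inf.1 hxD).1
      have hxcent : ∀ c ∈ C, c * x = x * c := by
        intro c hc
        exact (Subgroup.mem_centralizer_iff.1 (Subgroup.mem_inf.1 hxD).2) c hc
      -- commutators of x land in C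
      have hcomm : ∀ g : P, g * x * g⁻¹ * x⁻¹ ∈ C := by
        intro g
        rw [← QuotientGroup.eq_one_iff]
        have h1 : (π g) * z = z * (π g) := (Subgroup.mem_center_iff.1 hzc) (π g)
        change π (g * x * g⁻¹ * x⁻¹) = 1
        rw [map_mul, map_mul, map_mul, map_inv, map_inv, hxz, h1]
        group
      -- the bigger subgroup
      set E : Subgroup P := C ⊔ Subgroup.zpowers x with hE
      have hCE : C ≤ E := le_sup_left
      have hxE : x ∈ E := (le_sup_right : Subgroup.zpowers x ≤ E) (Subgroup.mem_zpowers x)
      have hEn : E.Normal := by
        constructor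
        intro n hn g
        have hle : E ≤ E.comap (MulAut.conj g).toMonoidHom := by
          apply sup_le
          · intro c hc
            rw [Subgroup.mem_comap]
            exact hCE (hCn.conj_mem c hc g)
          · rw [Subgroup.zpowers_le, Subgroup.mem_comap]
            have : g * x * g⁻¹ = (g * x * g⁻¹ * x⁻¹) * x := by group
            change g * x * g⁻¹ ∈ E
            rw [this]
            exact E.mul_mem (hCE (hcomm g)) hxE
        exact hle hn
      have hEA : E ≤ A := sup_le hCA ((Subgroup.zpowers_le).2 hxA)
      -- E is abelian
      have hcentC : ∀ c ∈ C, E ≤ Subgroup.centralizer ({c} : Set P) := by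
        intro c hc
        apply sup_le
        · intro c' hc'
          rw [Subgroup.mem_centralizer_singleton_iff]
          exact setLike_mul_comm hc' hc
        · rw [Subgroup.zpowers_le, Subgroup.mem_centralizer_singleton_iff]
          exact (hxcent c hc).symm
      have hcentx : E ≤ Subgroup.centralizer ({x} : Set P) := by
        apply sup_le
        · intro c hc
          rw [Subgroup.mem_centralizer_singleton_iff]
          exact hxcent c hc
        · rw [Subgroup.zpowers_le, Subgroup.mem_centralizer_singleton_iff]
      have hEab : IsMulCommutative E := by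
        rw [← Subgroup.le_centralizer_iff_isMulCommutative]
        intro e he
        rw [Subgroup.mem_centralizer_iff]
        intro e' he'
        have : E ≤ Subgroup.centralizer ({e} : Set P) := by
          apply sup_le
          · intro c hc
            rw [Subgroup.mem_centralizer_singleton_iff]
            have := hcentC c hc he
            rw [Subgroup.mem_centralizer_singleton_iff] at this
            exact this.symm
          · rw [Subgroup.zpowers_le, Subgroup.mem_centralizer_singleton_iff]
            have := hcentx he
            rw [Subgroup.mem_centralizer_singleton_iff] at this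
            exact this.symm
        have h2 := this he'
        rw [Subgroup.mem_centralizer_singleton_iff] at h2
        exact h2
      have hE𝒮 : E ∈ 𝒮 := ⟨hEn, le_trans hBC' hCE, hEA, hEab⟩
      exact hxC (hCmax.le_of_ge hE𝒮 hCE hxE)
    · intro c hc
      rw [Subgroup.mem_inf]
      refine ⟨hCA hc, ?_⟩
      have := (Subgroup.le_centralizer_iff_isMulCommutative).2 hCab
      exact this hc

end Cfsg.Agent.S1894
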