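import Cfsg.Statements.S1897
import Cfsg.Agent.Helper57.Psl27U
import Cfsg.Agent.S0255

set_option autoImplicit false
open Cfsg

namespace Cfsg.Agent.S1897

open Cfsg.Agent.Helper57 Matrix
open Cfsg.Agent.S0255 (G7 tT tT' transv_pow tT_eq tT'_eq)

/-- `SL(3, K9)` -/
abbrev U9 : Type := SpecialLinearGroup (Fin 3) K9

/-- The coercion to pairs of matrices, as a monoid hom. -/
def coe73 : G7 × U9 →* Matrix (Fin 2) (Fin 2) (ZMod 7) × Matrix (Fin 3) (Fin 3) K9 where
  toFun g := (g.1.1, g.2.1)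
  map_one' := rfl
  map_mul' _ _ := rfl

theorem coe73_injective : Function.Injective coe73 := by
  intro x y h
  have h1 := congrArg Prod.fst h
  have h2 := congrArg Prod.snd h
  exact Prod.ext (Subtype.ext h1) (Subtype.ext h2)

/-- decoding of a pair of codes -/
def dec73 (x : C73) : Matrix (Fin 2) (Fin 2) (ZMod 7) × Matrix (Fin 3) (Fin 3) K9 :=
  (Q2.toMat x.1, Q3.toMat x.2)

theorem dec73_mul (x y : C73) : dec73 (c73mul x y) = dec73 x * dec73 y := by
  simp [dec73, c73mul, Q2.toMat_mul, Q3.toMat_mul]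

/-- the image `A` of `T` -/
def uA : U9 := ⟨Q3.toMat g73A.2, by rw [Q3.det_toMat]; decide +kernel⟩
/-- the image `B` of `T'` -/
def uB : U9 := ⟨Q3.toMat g73B.2, by rw [Q3.det_toMat]; decide +kernel⟩

theorem uA_unitary : (uA.1)ᵀ * (uA.1).map (fun x => x * x * x) = 1 := by
  show (Q3.toMat g73A.2)ᵀ * (Q3.toMat g73A.2).map (fun x => x * x * x) = 1
  decide

theorem uB_unitary : (uB.1)ᵀ * (uB.1).map (fun x => x * x * x) = 1 := by
  show (Q3.toMat g73B.2)ᵀ * (Q3.toMat g73B.2).map (fun x => x * x * x) = 1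
  decide

/-- The graph of the homomorphism. -/
def Γ : Subgroup (G7 × U9) := Subgroup.closure {(tT, uA), (tT', uB)}

theorem Γ_sub : ∀ g ∈ Γ, ∃ x ∈ g73L, dec73 x = coe73 g :=
  closure_pair_subset_codes coe73 coe73_injective dec73 c73mul dec73_mul (tT, uA) (tT', uB)
    g73A g73B (Q2.one, Q3.one) rfl rfl (Prod.ext Q2.toMat_one Q3.toMat_one) g73L g73L_one
    g73L_mulA g73L_mulB

theorem Γ_inj : ∀ h : U9, ((1 : G7), h) ∈ Γ → h = 1 := by
  intro h hh
  obtain ⟨x, hx, hxg⟩ := Γ_sub _ hh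
  have h1 : Q2.toMat x.1 = 1 := congrArg Prod.fst hxg
  have h2 : Q3.toMat x.2 = h.1 := congrArg Prod.snd hxg
  have h3 : x.1 = Q2.one := Q2.toMat_injective (h1.trans Q2.toMat_one.symm)
  have h4 := g73L_fst_one x hx h3
  apply Subtype.ext
  rw [← h2, h4, Q3.toMat_one]
  rfl

theorem Γ_surj (S : Subgroup U9) (hA : uA ∈ S) (hB : uB ∈ S) :
    ∀ g : G7, ∃ h : U9, (g, h) ∈ Γ ∧ h ∈ S := by
  have hpowT : ∀ n : ℕ, ∃ h : U9, (tT ^ n, h) ∈ Γ ∧ h ∈ S := fun n =>
    ⟨uA ^ n, by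
      have : ((tT, uA) : G7 × U9) ^ n ∈ Γ := Γ.pow_mem (Subgroup.subset_closure (by simp)) n
      simpa using this, S.pow_mem hA n⟩
  have hpowT' : ∀ n : ℕ, ∃ h : U9, (tT' ^ n, h) ∈ Γ ∧ h ∈ S := fun n =>
    ⟨uB ^ n, by
      have : ((tT', uB) : G7 × U9) ^ n ∈ Γ := Γ.pow_mem (Subgroup.subset_closure (by simp)) n
      simpa using this, S.pow_mem hB n⟩
  intro g
  refine Helper5.SL_transvection_induction (fun g : G7 => ∃ h : U9, (g, h) ∈ Γ ∧ h ∈ S) ?_ ?_ g
  · intro i j hij a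
    have ha : a = ((a.val : ℕ) : ZMod 7) := (ZMod.natCast_zmod_val a).symm
    rw [ha, transv_pow]
    fin_cases i <;> fin_cases j
    · exact absurd rfl hij
    · have := hpowT a.val
      rwa [← tT_eq] at this
    · have := hpowT' a.val
      rwa [← tT'_eq] at this
    · exact absurd rfl hij
  · rintro A B ⟨h, hh, hS⟩ ⟨h', hh', hS'⟩
    exact ⟨h * h', by simpa using Γ.mul_mem hh hh', S.mul_mem hS hS'⟩

theorem exists_hom (S : Subgroup U9) (hA : uA ∈ S) (hB : uB ∈ S) :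
    ∃ φ : G7 →* U9, φ tT = uA ∧ φ tT' = uB ∧ (∀ g, φ g ∈ S) ∧
      ∀ z ∈ Subgroup.center G7, φ z = 1 := by
  obtain ⟨φ, hφ⟩ := exists_hom_of_graph Γ
    (fun g => (Γ_surj S hA hB g).imp (fun h hh => hh.1)) Γ_inj
  refine ⟨φ, (hφ _ _).1 (Subgroup.subset_closure (by simp)),
    (hφ _ _).1 (Subgroup.subset_closure (by simp)), ?_, ?_⟩
  · intro g
    obtain ⟨h, hh, hS⟩ := Γ_surj S hA hB g
    rw [(hφ g h).1 hh]
    exact hS
  intro z hz
  rw [Matrix.SpecialLinearGroup.mem_center_iff] at hz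
  obtain ⟨r, hr, hrz⟩ := hz
  simp only [Fintype.card_fin] at hr
  have h0 : (r - 1) * (r + 1) = 0 := by linear_combination hr
  rcases mul_eq_zero.1 h0 with h | h
  · have hr1 : r = 1 := by linear_combination h
    have hz1 : z = 1 := by
      apply Subtype.ext
      rw [← hrz, hr1]
      simp
    rw [hz1, map_one]
  · have hr1 : r = -1 := by linear_combination h
    have hmem : (z, φ z) ∈ Γ := (hφ z (φ z)).2 rfl
    obtain ⟨x, hx, hxg⟩ := Γ_sub _ hmem
    have h1 : Q2.toMat x.1 = z.1 := congrArg Prod.fst hxg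
    have h2 : Q3.toMat x.2 = (φ z).1 := congrArg Prod.snd hxg
    have h3 : x.1 = ⟨6, 0, 0, 6⟩ := by
      apply Q2.toMat_injective
      rw [h1, ← hrz, hr1]
      have h6 : (6 : ZMod 7) = -1 := by decide
      ext i j
      fin_cases i <;> fin_cases j <;> simp [Q2.toMat, h6]
    have h4 := g73L_fst_neg_one x hx h3
    apply Subtype.ext
    rw [← h2, h4, Q3.toMat_one]
    rfl

theorem uA_uB_noncomm : uA * uB ≠ uB * uA := by
  intro h
  have h1 : Q3.toMat g73A.2 * Q3.toMat g73B.2 = Q3.toMat g73B.2 * Q3.toMat g73A.2 :=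
    congrArg Subtype.val h
  rw [← Q3.toMat_mul, ← Q3.toMat_mul] at h1
  exact g73_noncomm (Q3.toMat_injective h1)

theorem map_mem_SU {F : Type*} [Field F] [Fintype F] (hF : Fintype.card F = 9) (e : K9 ≃+* F)
    (g : U9) (hU : (g.1)ᵀ * (g.1).map (fun x => x * x * x) = 1) :
    slCongr e g ∈ Cfsg.SU 3 F 3 := by
  have hchar : CharP F 3 := by
    have : Fact (Nat.Prime 3) := ⟨Nat.prime_three⟩
    exact charP_of_card_eq_prime_pow (p := 3) (f := 2) (by rw [hF]; norm_num)
  have : Fact (Nat.Prime 3) := ⟨Nat.prime_three⟩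
  set f : K9 →+* F := (e : K9 →+* F) with hf
  have hU' : (f.mapMatrix g.1)ᵀ * (f.mapMatrix g.1).map (· ^ 3) = 1 := by
    have h1 : (f.mapMatrix g.1).map (· ^ 3) = f.mapMatrix (g.1.map (fun x => x * x * x)) := by
      apply Matrix.ext
      intro i j
      simp [pow_succ]
    have h2 : (f.mapMatrix g.1)ᵀ = f.mapMatrix (g.1)ᵀ := by
      apply Matrix.ext
      intro i j
      simp
    rw [h1, h2, ← map_mul, hU, map_one]
  intro u v
  exact hermForm_mulVec_of_unitary 3 (f.mapMatrix g.1) hU' u v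

/-- The projective special unitary group PSU₃(3) (realised over the field with 9 elements) has a subgroup isomorphic to PSL₂(7). -/
theorem result {F : Type*} [Field F] [Fintype F] (hF : Fintype.card F = 9)
    {K : Type*} [Field K] [Fintype K] (hK : Fintype.card K = 7) :
    ∃ H : Subgroup (Cfsg.PSU 3 F 3), Nonempty (H ≃* Matrix.ProjectiveSpecialLinearGroup (Fin 2) K) := by
  classical
  have e : K9 ≃+* F := FiniteField.ringEquivOfCardEq (K := K9) (K' := F) (by rw [card_K9, hF])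
  have e7 : ZMod 7 ≃+* K := ZMod.ringEquivOfPrime K (by norm_num) hK
  let S : Subgroup U9 := (Cfsg.SU 3 F 3).comap (slCongr e).toMonoidHom
  have hA : uA ∈ S := map_mem_SU hF e uA uA_unitary
  have hB : uB ∈ S := map_mem_SU hF e uB uB_unitary
  obtain ⟨φ, hφT, hφT', hφS, hφz⟩ := exists_hom S hA hB
  let ψ : G7 →* Cfsg.SU 3 F 3 :=
    ((slCongr e).toMonoidHom.comp φ).codRestrict (Cfsg.SU 3 F 3) (fun g => hφS g)
  have hker : Subgroup.center G7 ≤ ψ.ker := by
    intro z hz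
    rw [MonoidHom.mem_ker]
    apply Subtype.ext
    show (slCongr e) (φ z) = 1
    rw [hφz z hz, map_one]
  let ψ' : ProjectiveSpecialLinearGroup (Fin 2) (ZMod 7) →* Cfsg.SU 3 F 3 :=
    QuotientGroup.lift (Subgroup.center G7) ψ hker
  let χ : ProjectiveSpecialLinearGroup (Fin 2) (ZMod 7) →* Cfsg.PSU 3 F 3 :=
    (QuotientGroup.mk' (Subgroup.center (Cfsg.SU 3 F 3))).comp ψ'
  have hsimple : IsSimpleGroup (ProjectiveSpecialLinearGroup (Fin 2) (ZMod 7)) :=
    Matrix.ProjectiveSpecialLinearGroup.rank_two_simple (by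
      rw [Nat.card_eq_fintype_card, ZMod.card]; norm_num)
  have hχ : Function.Injective χ := by
    rw [← MonoidHom.ker_eq_bot_iff]
    rcases (MonoidHom.normal_ker χ).eq_bot_or_eq_top with h | h
    · exact h
    · exfalso
      have hcen : ∀ g : G7, ψ g ∈ Subgroup.center (Cfsg.SU 3 F 3) := by
        intro g
        have hg : (QuotientGroup.mk g : ProjectiveSpecialLinearGroup (Fin 2) (ZMod 7)) ∈ χ.ker := by
          rw [h]; trivial
        have h1 : (QuotientGroup.mk' (Subgroup.center (Cfsg.SU 3 F 3))) (ψ g) = 1 := hg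
        exact (QuotientGroup.eq_one_iff _).1 h1
      have hcomm : ψ tT * ψ tT' = ψ tT' * ψ tT :=
        (Subgroup.mem_center_iff.1 (hcen tT') (ψ tT))
      have h2 : (slCongr e) (φ tT * φ tT') = (slCongr e) (φ tT' * φ tT) := by
        have := congrArg Subtype.val hcomm
        simpa [ψ] using this
      have h3 := (slCongr e).injective h2
      rw [hφT, hφT'] at h3
      exact uA_uB_noncomm h3
  exact ⟨χ.range, ⟨(MonoidHom.ofInjective hχ).symm.trans (pslCongr e7)⟩⟩

end Cfsg.Agent.S1897
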