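import Cfsg.Statements.S1898

set_option autoImplicit false
open Cfsg
open scoped commutatorElement

namespace Cfsg.Agent.S1898

/-- Let X be a finite 2-group whose derived subgroup is elementary abelian and central. Then the subgroup generated by the elements of order dividing 4 has exponent dividing 4, and every automorphism of X fixing each element of order dividing 4 has 2-power order. -/
theorem result {X : Type*} [Group X] [Finite X] (hX : IsPGroup 2 X)
    (hel : Cfsg.IsElementaryAbelian 2 (commutator X)) (hcen : commutator X ≤ Subgroup.center X) :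
    (∀ x ∈ Subgroup.closure {g : X | g ^ 4 = 1}, x ^ 4 = 1) ∧
      ∀ φ : MulAut X, (∀ g : X, g ^ 4 = 1 → φ g = g) → ∃ k : ℕ, φ ^ (2 ^ k) = 1 := by
  -- commutators are central involutions (or trivial)
  have hcomm_mem : ∀ x y : X, ⁅x, y⁆ ∈ commutator X := by
    intro x y
    rw [commutator_def]
    exact Subgroup.commutator_mem_commutator (Subgroup.mem_top x) (Subgroup.mem_top y)
  have hc2 : ∀ x y : X, ⁅x, y⁆ ^ 2 = 1 := fun x y => hel.2 _ (hcomm_mem x y)
  have hcc : ∀ x y z : X, ⁅x, y⁆ * z = z * ⁅x, y⁆ := by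
    intro x y z
    exact ((Subgroup.mem_center_iff.1 (hcen (hcomm_mem x y))) z).symm
  have hyx : ∀ x y : X, y * x = ⁅y, x⁆ * x * y := by
    intro x y
    rw [commutatorElement_def]; group
  -- (x y)^2 = [y,x] x^2 y^2
  have hsq : ∀ x y : X, (x * y) ^ 2 = ⁅y, x⁆ * (x ^ 2 * y ^ 2) := by
    intro x y
    calc (x * y) ^ 2 = x * (y * x) * y := by rw [pow_two]; group
      _ = x * (⁅y, x⁆ * x * y) * y := by rw [← hyx]
      _ = (x * ⁅y, x⁆) * x * y * y := by group
      _ = (⁅y, x⁆ * x) * x * y * y := by rw [hcc y x x]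
      _ = ⁅y, x⁆ * (x ^ 2 * y ^ 2) := by rw [pow_two, pow_two]; group
  -- squares are central
  have hsqc : ∀ x z : X, x ^ 2 * z = z * x ^ 2 := by
    intro x z
    have h1 : x * z = ⁅x, z⁆ * z * x := hyx z x
    calc x ^ 2 * z = x * (x * z) := by rw [pow_two]; group
      _ = x * (⁅x, z⁆ * z * x) := by rw [← h1]
      _ = (x * ⁅x, z⁆) * z * x := by group
      _ = (⁅x, z⁆ * x) * z * x := by rw [hcc x z x]
      _ = ⁅x, z⁆ * (x * z) * x := by group
      _ = ⁅x, z⁆ * (⁅x, z⁆ * z * x) * x := by rw [← h1]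
      _ = ⁅x, z⁆ ^ 2 * (z * x ^ 2) := by rw [pow_two, pow_two]; group
      _ = z * x ^ 2 := by rw [hc2, one_mul]
  -- fourth power is multiplicative
  have h4 : ∀ x y : X, (x * y) ^ 4 = x ^ 4 * y ^ 4 := by
    intro x y
    have hcomm1 : Commute (⁅y, x⁆) (x ^ 2 * y ^ 2) := hcc y x _
    have hcomm2 : Commute (x ^ 2) (y ^ 2) := hsqc x _
    calc (x * y) ^ 4 = ((x * y) ^ 2) ^ 2 := by rw [← pow_mul]
      _ = (⁅y, x⁆ * (x ^ 2 * y ^ 2)) ^ 2 := by rw [hsq]
      _ = ⁅y, x⁆ ^ 2 * (x ^ 2 * y ^ 2) ^ 2 := hcomm1.mul_pow 2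
      _ = (x ^ 2 * y ^ 2) ^ 2 := by rw [hc2, one_mul]
      _ = (x ^ 2) ^ 2 * (y ^ 2) ^ 2 := hcomm2.mul_pow 2
      _ = x ^ 4 * y ^ 4 := by rw [← pow_mul, ← pow_mul]
  refine ⟨?_, ?_⟩
  · intro x hx
    induction hx using Subgroup.closure_induction with
    | mem x hx => exact hx
    | one => exact one_pow 4
    | mul x y _ _ hx hy => rw [h4, hx, hy, one_mul]
    | inv x _ hx => rw [inv_pow, hx, inv_one]
  · intro φ hφ
    -- key claim: an automorphism of odd order fixing all elements of order dividing 4 is trivial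
    have key : ∀ (ψ : MulAut X) (m : ℕ), Odd m → ψ ^ m = 1 → (∀ g : X, g ^ 4 = 1 → ψ g = g) →
        ∀ x : X, ψ x = x := by
      intro ψ m hm hψm hψ
      have hP : ∀ n : ℕ, ∀ x : X, x ^ (2 ^ (n + 2)) = 1 → ψ x = x := by
        intro n
        induction n with
        | zero => intro x hx; exact hψ x (by simpa using hx)
        | succ n ih =>
          intro x hx
          have hx2 : ψ (x ^ 2) = x ^ 2 := by
            apply ih
            rw [← pow_mul, ← pow_succ']
            exact hx
          set y := x⁻¹ * ψ x with hy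
          have hψx : ψ x = x * y := by rw [hy]; group
          have h1 : (x * y) ^ 2 = x ^ 2 := by rw [← hψx, ← map_pow, hx2]
          have h2 : ⁅y, x⁆ * y ^ 2 = 1 := by
            have h3 := hsq x y
            rw [h1] at h3
            -- x^2 = [y,x] * (x^2 * y^2)
            have h4' : x ^ 2 * (⁅y, x⁆ * y ^ 2) = x ^ 2 * 1 := by
              calc x ^ 2 * (⁅y, x⁆ * y ^ 2) = (x ^ 2 * ⁅y, x⁆) * y ^ 2 := by group
                _ = (⁅y, x⁆ * x ^ 2) * y ^ 2 := by rw [hcc y x (x ^ 2)]
                _ = ⁅y, x⁆ * (x ^ 2 * y ^ 2) := by group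
                _ = x ^ 2 := h3.symm
                _ = x ^ 2 * 1 := by rw [mul_one]
            exact mul_left_cancel h4'
          have hy2 : y ^ 2 = ⁅y, x⁆ := by
            have : y ^ 2 = ⁅y, x⁆⁻¹ := eq_inv_of_mul_eq_one_right h2
            rw [this]
            exact inv_eq_of_mul_eq_one_left (by rw [← pow_two]; exact hc2 y x)
          have hy4 : y ^ 4 = 1 := by
            calc y ^ 4 = (y ^ 2) ^ 2 := by rw [← pow_mul]
              _ = 1 := by rw [hy2, hc2]
          have hψy : ψ y = y := hψ y hy4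
          have hiter : ∀ j : ℕ, (ψ ^ j) x = x * y ^ j := by
            intro j
            induction j with
            | zero => simp
            | succ j ihj =>
              rw [pow_succ', MulAut.mul_apply, ihj, map_mul, map_pow, hψx, hψy, pow_succ']
              group
          have h5 : x * y ^ m = x := by
            rw [← hiter m, hψm]; rfl
          have hym : y ^ m = 1 := by
            have : x * y ^ m = x * 1 := by rw [h5, mul_one]
            exact mul_left_cancel this
          have hy1 : y = 1 := by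
            have hgcd : Nat.gcd m 4 = 1 := by
              have : Nat.Coprime m (2 ^ 2) := Nat.Coprime.pow_right 2 (Nat.coprime_two_right.2 hm)
              simpa using this
            have := pow_gcd_eq_one.2 ⟨hym, hy4⟩
            rwa [hgcd, pow_one] at this
          rw [hψx, hy1, mul_one]
      intro x
      obtain ⟨k, hk⟩ := hX x
      apply hP k
      rw [pow_add, pow_mul, hk, one_pow]
    -- decompose the order of φ
    have hpos : 0 < orderOf φ := orderOf_pos φ
    obtain ⟨k, m, hm, hkm⟩ := Nat.exists_eq_two_pow_mul_odd (Nat.pos_iff_ne_zero.1 hpos)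
    refine ⟨k, ?_⟩
    have hψm : (φ ^ (2 ^ k)) ^ m = 1 := by
      rw [← pow_mul, ← hkm, pow_orderOf_eq_one]
    have hfix : ∀ j : ℕ, ∀ g : X, g ^ 4 = 1 → (φ ^ j) g = g := by
      intro j
      induction j with
      | zero => intro g _; simp
      | succ j ih => intro g hg; rw [pow_succ', MulAut.mul_apply, ih g hg, hφ g hg]
    have := key (φ ^ (2 ^ k)) m hm hψm (hfix (2 ^ k))
    ext x
    rw [this x]; rfl

end Cfsg.Agent.S1898
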