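import Cfsg.Statements.S1899

set_option autoImplicit false
open Cfsg

namespace Cfsg.Agent.S1899

/-- Let a dihedral group of order 2n, n odd and n > 1, act on a finite abelian 2-group A through automorphisms d and t with d^n = 1, t² = 1 and t d t⁻¹ = d⁻¹, and suppose that d fixes only the identity. Then A is the internal direct product of C_A(t) and its image under d. -/
theorem result {A : Type*} [CommGroup A] [Finite A] (hA : IsPGroup 2 A)
    {n : ℕ} (hn : Odd n) (hn1 : 1 < n) (d t : MulAut A) (hd : d ^ n = 1) (ht : t ^ 2 = 1) (hdt : t * d * t⁻¹ = d⁻¹)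
    (hfix : ∀ a : A, d a = a → a = 1) :
    (MulEquiv.toMonoidHom t).eqLocus (MonoidHom.id A) ⊓ ((MulEquiv.toMonoidHom t).eqLocus (MonoidHom.id A)).map d.toMonoidHom = ⊥ ∧
      (MulEquiv.toMonoidHom t).eqLocus (MonoidHom.id A) ⊔ ((MulEquiv.toMonoidHom t).eqLocus (MonoidHom.id A)).map d.toMonoidHom = ⊤ := by
  -- basic relations
  have htt : ∀ a : A, t (t a) = a := by
    intro a
    have : (t ^ 2) a = a := by rw [ht]; rfl
    simpa [pow_two, MulAut.mul_apply] using this
  have h1 : t * d = d⁻¹ * t := by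
    calc t * d = t * d * t⁻¹ * t := by group
      _ = d⁻¹ * t := by rw [hdt]
  have h2 : t * d⁻¹ = d * t := by
    calc t * d⁻¹ = d * (d⁻¹ * t) * d⁻¹ := by group
      _ = d * (t * d) * d⁻¹ := by rw [h1]
      _ = d * t := by group
  have htd : ∀ a : A, t (d a) = d⁻¹ (t a) := by
    intro a
    have := congrArg (fun f : MulAut A => f a) h1
    simpa [MulAut.mul_apply] using this
  have htd' : ∀ a : A, t (d⁻¹ a) = d (t a) := by
    intro a
    have := congrArg (fun f : MulAut A => f a) h2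
    simpa [MulAut.mul_apply] using this
  have hdd : ∀ a : A, d (d⁻¹ a) = a := by
    intro a
    have : (d * d⁻¹) a = a := by rw [mul_inv_cancel]; rfl
    simpa [MulAut.mul_apply] using this
  have hdd' : ∀ a : A, d⁻¹ (d a) = a := by
    intro a
    have : (d⁻¹ * d) a = a := by rw [inv_mul_cancel]; rfl
    simpa [MulAut.mul_apply] using this
  -- fixed points of d^2 are fixed points of d, hence trivial
  have hfix2 : ∀ a : A, d (d a) = a → a = 1 := by
    intro a ha
    apply hfix
    have hpow : ∀ j : ℕ, (d ^ (2 * j)) a = a := by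
      intro j
      induction j with
      | zero => simp
      | succ j ih =>
        have : d ^ (2 * (j + 1)) = d ^ (2 * j) * (d * d) := by
          rw [mul_add, pow_add, mul_one, pow_two]
        rw [this, MulAut.mul_apply, MulAut.mul_apply, ha, ih]
    obtain ⟨k, hk⟩ := hn
    have h3 : d ^ (2 * (k + 1)) = d := by
      have : 2 * (k + 1) = n + 1 := by omega
      rw [this, pow_succ, hd, one_mul]
    have := hpow (k + 1)
    rwa [h3] at this
  -- the endomorphism δ = d / d⁻¹
  let δ : A →* A :=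
    { toFun := fun a => d a * (d⁻¹ a)⁻¹
      map_one' := by simp
      map_mul' := by
        intro a b
        simp only [map_mul, mul_inv]
        exact mul_mul_mul_comm _ _ _ _ }
  have hδ : ∀ a : A, δ a = d a * (d⁻¹ a)⁻¹ := fun a => rfl
  have hδinj : Function.Injective δ := by
    rw [injective_iff_map_eq_one]
    intro a ha
    rw [hδ] at ha
    have h3 : d a = d⁻¹ a := by
      have := mul_inv_eq_one.1 ha
      exact this
    apply hfix2
    rw [h3, hdd]
  have hδsurj : Function.Surjective δ := Finite.injective_iff_surjective.1 hδinj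
  have hmem : ∀ x : A, x ∈ (MulEquiv.toMonoidHom t).eqLocus (MonoidHom.id A) ↔ t x = x := by
    intro x
    exact Iff.rfl
  refine ⟨?_, ?_⟩
  · rw [eq_bot_iff]
    intro x hx
    rw [Subgroup.mem_inf] at hx
    obtain ⟨hx1, hx2⟩ := hx
    rw [hmem] at hx1
    rw [Subgroup.mem_map] at hx2
    obtain ⟨c, hc, hcx⟩ := hx2
    rw [hmem] at hc
    have hcx' : d c = x := hcx
    have h3 : d⁻¹ c = d c := by
      have := htd c
      rw [hc, hcx', hx1] at this
      rw [hcx', this]
    have hc1 : c = 1 := by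
      apply hfix2
      rw [← h3, hdd]
    rw [Subgroup.mem_bot, ← hcx', hc1, map_one]
  · rw [eq_top_iff]
    intro a _
    obtain ⟨c₂, hc₂⟩ := hδsurj (a * (t a)⁻¹)
    have htc₂ : t c₂ = c₂ := by
      apply hδinj
      rw [hδ, hδ]
      have e1 : d (t c₂) = t (d⁻¹ c₂) := (htd' c₂).symm
      have e2 : d⁻¹ (t c₂) = t (d c₂) := (htd c₂).symm
      rw [e1, e2, ← map_inv, ← map_mul]
      have e3 : d⁻¹ c₂ * (d c₂)⁻¹ = (δ c₂)⁻¹ := by
        rw [hδ, mul_inv, inv_inv, mul_comm]
      rw [e3, hc₂, map_inv, map_mul, map_inv, htt, mul_inv, inv_inv, mul_comm, ← hδ, hc₂]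
    have hc₁ : t (a * (d c₂)⁻¹) = a * (d c₂)⁻¹ := by
      rw [map_mul, map_inv, htd, htc₂]
      have e4 : a * (t a)⁻¹ = d c₂ * (d⁻¹ c₂)⁻¹ := by rw [← hδ, hc₂]
      -- t a * (d⁻¹ c₂)⁻¹ = a * (d c₂)⁻¹
      have e5 : a = d c₂ * (d⁻¹ c₂)⁻¹ * t a := by
        rw [← e4]; simp
      calc t a * (d⁻¹ c₂)⁻¹ = (d c₂ * (d⁻¹ c₂)⁻¹ * t a) * (d c₂)⁻¹ := by
            rw [mul_comm (d c₂ * (d⁻¹ c₂)⁻¹) (t a), mul_assoc, mul_assoc, mul_comm (d c₂), mul_assoc,
              inv_mul_cancel, mul_one]
        _ = a * (d c₂)⁻¹ := by rw [← e5]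
    have : a = (a * (d c₂)⁻¹) * d c₂ := by simp
    rw [this]
    apply Subgroup.mul_mem_sup
    · rw [hmem]; exact hc₁
    · rw [Subgroup.mem_map]
      exact ⟨c₂, (hmem c₂).2 htc₂, rfl⟩

end Cfsg.Agent.S1899
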