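import Cfsg.Statements.S1900
import Cfsg.Agent.Helper35.CoprimeGen2

set_option autoImplicit false
open Cfsg

namespace Cfsg.Agent.S1900

universe u
open Subgroup Cfsg.Agent.Helper35
open scoped commutatorElement

theorem key_step {S : Type u} [Group S] {P₁ P₂ X₁ : Subgroup S}
    (hc : ∀ w ∈ ⁅P₁, P₂⁆, ∀ h ∈ P₂, w * h = h * w)
    (hX₁P₁ : ∀ x ∈ X₁, ∀ g ∈ P₁, x * g = g * x)
    (hX₁P₂ : X₁ ≤ normalizer (P₂ : Set S))
    (hgen : P₂ ≤ ⁅P₂, X₁⁆) : ⁅P₁, P₂⁆ ≤ ⁅⁅P₁, P₂⁆, X₁⁆ := by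
  rw [Subgroup.commutator_le]
  intro g hg h hh
  -- the subgroup T of those h ∈ P₂ with ⁅g, h⁆ ∈ ⁅W, X₁⁆
  have hW : ∀ k ∈ P₂, ⁅g, k⁆ ∈ ⁅P₁, P₂⁆ := fun k hk => Subgroup.commutator_mem_commutator hg hk
  let T : Subgroup S :=
    { carrier := {h | h ∈ P₂ ∧ ⁅g, h⁆ ∈ ⁅⁅P₁, P₂⁆, X₁⁆}
      one_mem' := ⟨P₂.one_mem, by rw [commutatorElement_one_right]; exact Subgroup.one_mem _⟩
      mul_mem' := by
        rintro a b ⟨ha, ha'⟩ ⟨hb, hb'⟩
        refine ⟨P₂.mul_mem ha hb, ?_⟩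
        have e1 : ⁅g, a * b⁆ = ⁅g, a⁆ * (a * ⁅g, b⁆ * a⁻¹) := by
          simp only [commutatorElement_def]; group
        have e2 : a * ⁅g, b⁆ * a⁻¹ = ⁅g, b⁆ := by
          rw [← hc _ (hW b hb) a ha]; group
        rw [e1, e2]
        exact Subgroup.mul_mem _ ha' hb'
      inv_mem' := by
        rintro a ⟨ha, ha'⟩
        refine ⟨P₂.inv_mem ha, ?_⟩
        have e1 : ⁅g, a⁻¹⁆ = a⁻¹ * ⁅g, a⁆⁻¹ * a := by
          simp only [commutatorElement_def]; group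
        have e2 : a⁻¹ * ⁅g, a⁆⁻¹ * a = ⁅g, a⁆⁻¹ := by
          have h3 := hc _ (hW a ha) a ha
          have h4 : ⁅g, a⁆⁻¹ * a = a * ⁅g, a⁆⁻¹ := by
            have : ⁅g, a⁆⁻¹ * a = ⁅g, a⁆⁻¹ * (a * ⁅g, a⁆) * ⁅g, a⁆⁻¹ := by group
            rw [this, ← h3]; group
          rw [mul_assoc, h4]; group
        rw [e1, e2]
        exact Subgroup.inv_mem _ ha' }
  have hT : ⁅P₂, X₁⁆ ≤ T := by
    rw [Subgroup.commutator_le]
    intro h' hh' x hx
    have hk : x * h'⁻¹ * x⁻¹ ∈ P₂ :=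
      (Subgroup.mem_normalizer_iff.mp (hX₁P₂ hx) h'⁻¹).mp (P₂.inv_mem hh')
    have hmem : ⁅h', x⁆ ∈ P₂ := by
      rw [commutatorElement_def]
      have : h' * x * h'⁻¹ * x⁻¹ = h' * (x * h'⁻¹ * x⁻¹) := by group
      rw [this]; exact P₂.mul_mem hh' hk
    refine ⟨hmem, ?_⟩
    have hxg : x * g = g * x := hX₁P₁ x hx g hg
    have e0 : ⁅h', x⁆ = h' * (x * h'⁻¹ * x⁻¹) := by
      simp only [commutatorElement_def]; group
    have e1 : ⁅g, h' * (x * h'⁻¹ * x⁻¹)⁆ = ⁅g, h'⁆ * (h' * ⁅g, x * h'⁻¹ * x⁻¹⁆ * h'⁻¹) := by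
      simp only [commutatorElement_def]; group
    have e2 : h' * ⁅g, x * h'⁻¹ * x⁻¹⁆ * h'⁻¹ = ⁅g, x * h'⁻¹ * x⁻¹⁆ := by
      rw [← hc _ (hW _ hk) h' hh']; group
    have e3 : ⁅g, x * h'⁻¹ * x⁻¹⁆ = x * ⁅g, h'⁻¹⁆ * x⁻¹ := by
      calc ⁅g, x * h'⁻¹ * x⁻¹⁆ = (g * x) * h'⁻¹ * (g * x)⁻¹ * x * h' * x⁻¹ := by
            simp only [commutatorElement_def]; group
        _ = (x * g) * h'⁻¹ * (x * g)⁻¹ * x * h' * x⁻¹ := by rw [hxg]
        _ = x * ⁅g, h'⁻¹⁆ * x⁻¹ := by simp only [commutatorElement_def]; group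
    have e4 : ⁅g, h'⁻¹⁆ = ⁅g, h'⁆⁻¹ := by
      have e41 : ⁅g, h'⁻¹⁆ = h'⁻¹ * ⁅g, h'⁆⁻¹ * h' := by
        simp only [commutatorElement_def]; group
      have h3 := hc _ (hW h' hh') h' hh'
      have h4 : ⁅g, h'⁆⁻¹ * h' = h' * ⁅g, h'⁆⁻¹ := by
        have : ⁅g, h'⁆⁻¹ * h' = ⁅g, h'⁆⁻¹ * (h' * ⁅g, h'⁆) * ⁅g, h'⁆⁻¹ := by group
        rw [this, ← h3]; group
      rw [e41, mul_assoc, h4]; group
    have e5 : ⁅g, ⁅h', x⁆⁆ = ⁅⁅g, h'⁆, x⁆ := by
      rw [e0, e1, e2, e3, e4]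
      simp only [commutatorElement_def]; group
    rw [e5]
    exact Subgroup.commutator_mem_commutator (hW h' hh') hx
  exact (hT (hgen hh)).2

theorem card_map_mk_mul {S : Type u} [Group S] [Finite S] (Z P : Subgroup S) [Z.Normal]
    (hZP : Z ≤ P) :
    Nat.card P = Nat.card (P.map (QuotientGroup.mk' Z)) * Nat.card Z := by
  have hcomap : (P.map (QuotientGroup.mk' Z)).comap (QuotientGroup.mk' Z) = P := by
    rw [QuotientGroup.comap_map_mk']; exact sup_eq_right.mpr hZP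
  have hidx : P.index = (P.map (QuotientGroup.mk' Z)).index := by
    conv_lhs => rw [← hcomap]
    exact Subgroup.index_comap_of_surjective _ (QuotientGroup.mk'_surjective Z)
  have h1 := Subgroup.card_mul_index P
  have h2 := Subgroup.card_mul_index (P.map (QuotientGroup.mk' Z))
  have h3 : Nat.card S = Nat.card (S ⧸ Z) * Nat.card Z :=
    Subgroup.card_eq_card_quotient_mul_card_subgroup Z
  have hpos : 0 < P.index := Nat.pos_of_ne_zero Subgroup.index_ne_zero_of_finite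
  have : Nat.card P * P.index =
      Nat.card (P.map (QuotientGroup.mk' Z)) * Nat.card Z * P.index := by
    rw [h1, h3, ← h2, hidx]; ring
  exact Nat.eq_of_mul_eq_mul_right hpos this

theorem cent_B {S : Type u} [Group S] {P Q X₁ X₂ : Subgroup S}
    (hX₁min : ∀ x ∈ X₁, x ≠ 1 → X₁ ≤ zpowers x) (hX₂min : ∀ x ∈ X₂, x ≠ 1 → X₂ ≤ zpowers x)
    (hfree : ∀ x ∈ Q, x ∉ X₁ → x ∉ X₂ → ∀ u ∈ P, u * x = x * u → u = 1)
    (B : Subgroup S) (hBQ : B ≤ Q) (hBne : B ≠ ⊥) :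
    P ⊓ centralizer (B : Set S) ≤ P ⊓ centralizer (X₁ : Set S) ∨
    P ⊓ centralizer (B : Set S) ≤ P ⊓ centralizer (X₂ : Set S) ∨
    P ⊓ centralizer (B : Set S) = ⊥ := by
  by_cases hB : ∃ x ∈ B, x ∉ X₁ ∧ x ∉ X₂
  · obtain ⟨x, hxB, hx1, hx2⟩ := hB
    right; right
    rw [eq_bot_iff]
    intro u hu
    have : u = 1 := hfree x (hBQ hxB) hx1 hx2 u hu.1
      ((Subgroup.mem_centralizer_iff.mp hu.2) x hxB).symm
    rw [this]; exact Subgroup.one_mem _
  · have hB' : ∀ x ∈ B, x ∈ X₁ ∨ x ∈ X₂ := by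
      intro x hx
      by_contra hcon
      exact hB ⟨x, hx, fun h => hcon (Or.inl h), fun h => hcon (Or.inr h)⟩
    have hB'' : B ≤ X₁ ∨ B ≤ X₂ := by
      by_contra hcon
      have h1 : ¬ B ≤ X₁ := fun h => hcon (Or.inl h)
      have h2 : ¬ B ≤ X₂ := fun h => hcon (Or.inr h)
      obtain ⟨b₁, hb₁, hb₁'⟩ := SetLike.not_le_iff_exists.mp h1
      obtain ⟨b₂, hb₂, hb₂'⟩ := SetLike.not_le_iff_exists.mp h2
      have hb₁X₂ : b₁ ∈ X₂ := (hB' b₁ hb₁).resolve_left hb₁'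
      have hb₂X₁ : b₂ ∈ X₁ := (hB' b₂ hb₂).resolve_right hb₂'
      rcases hB' (b₁ * b₂) (B.mul_mem hb₁ hb₂) with h | h
      · apply hb₁'
        have := X₁.mul_mem h (X₁.inv_mem hb₂X₁)
        simpa using this
      · apply hb₂'
        have := X₂.mul_mem (X₂.inv_mem hb₁X₂) h
        simpa using this
    obtain ⟨b, hb, hb1⟩ : ∃ b ∈ B, b ≠ 1 := by
      by_contra hcon
      apply hBne
      rw [eq_bot_iff]
      intro x hx
      by_contra hx1
      exact hcon ⟨x, hx, fun h => hx1 (h ▸ Subgroup.one_mem _)⟩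
    rcases hB'' with h | h
    · left
      have hXB : X₁ ≤ B := (hX₁min b (h hb) hb1).trans (zpowers_le.mpr hb)
      exact inf_le_inf_left _ (Subgroup.centralizer_le (fun x hx => hXB hx))
    · right; left
      have hXB : X₂ ≤ B := (hX₂min b (h hb) hb1).trans (zpowers_le.mpr hb)
      exact inf_le_inf_left _ (Subgroup.centralizer_le (fun x hx => hXB hx))

theorem inter_aux {S : Type u} [Group S] {P Q X₁ X₂ : Subgroup S} (hX₁Q : X₁ ≤ Q)
    (hX₂Q : X₂ ≤ Q) (hex : ∃ x₁ ∈ X₁, ∃ x₂ ∈ X₂, x₁ ∉ X₂ ∧ x₂ ∉ X₁)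
    (hfree : ∀ x ∈ Q, x ∉ X₁ → x ∉ X₂ → ∀ u ∈ P, u * x = x * u → u = 1) :
    (P ⊓ centralizer (X₁ : Set S)) ⊓ (P ⊓ centralizer (X₂ : Set S)) = ⊥ := by
  obtain ⟨x₁, hx₁, x₂, hx₂, h12, h21⟩ := hex
  rw [eq_bot_iff]
  intro u hu
  have hu1 := (Subgroup.mem_centralizer_iff.mp hu.1.2) x₁ hx₁
  have hu2 := (Subgroup.mem_centralizer_iff.mp hu.2.2) x₂ hx₂
  have : u = 1 := hfree (x₁ * x₂) (Q.mul_mem (hX₁Q hx₁) (hX₂Q hx₂))
    (fun h => h21 (by have := X₁.mul_mem (X₁.inv_mem hx₁) h; simpa using this))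
    (fun h => h12 (by have := X₂.mul_mem h (X₂.inv_mem hx₂); simpa using this)) u hu.1.1
    (by rw [← mul_assoc, ← hu1, mul_assoc, ← hu2, mul_assoc])
  rw [this]; exact Subgroup.one_mem _

theorem comm_aux (p : ℕ) (hp : p.Prime) (n : ℕ) :
    ∀ (S : Type u) [Group S] [Finite S] (P Q X₁ X₂ : Subgroup S), P.Normal → Nat.card P ≤ n →
      IsPGroup p P → (∀ a ∈ Q, ∀ b ∈ Q, a * b = b * a) → (Nat.card Q).Coprime p →
      (¬ ∃ a ∈ Q, zpowers a = Q) → X₁ ≤ Q → X₂ ≤ Q →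
      (∀ x ∈ X₁, x ≠ 1 → X₁ ≤ zpowers x) → (∀ x ∈ X₂, x ≠ 1 → X₂ ≤ zpowers x) →
      (∃ x₁ ∈ X₁, ∃ x₂ ∈ X₂, x₁ ∉ X₂ ∧ x₂ ∉ X₁) →
      (∀ x ∈ Q, x ∉ X₁ → x ∉ X₂ → ∀ u ∈ P, u * x = x * u → u = 1) →
      ⁅P ⊓ centralizer (X₁ : Set S), P ⊓ centralizer (X₂ : Set S)⁆ = ⊥ := by
  have : Fact p.Prime := ⟨hp⟩
  induction n with
  | zero =>
    intro S _ _ P Q X₁ X₂ _ hcard
    exact absurd hcard (by have := Nat.card_pos (α := P); omega)
  | succ n ih =>
    intro S _ _ P Q X₁ X₂ hPn hcard hP hQab hQcop hQnc hX₁Q hX₂Q hX₁min hX₂min hex hfree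
    obtain ⟨k, hk⟩ := hP.exists_card_eq
    have hcopQP : (Nat.card Q).Coprime (Nat.card P) := by
      rw [hk]; exact Nat.Coprime.pow_right k hQcop
    have hQP : Q ⊓ P = ⊥ := disjoint_iff.mp (Subgroup.disjoint_of_coprime_natCard hcopQP)
    have hnormP : ∀ H : Subgroup S, H ≤ normalizer (P : Set S) := fun H => by
      rw [normalizer_eq_top_iff.mpr hPn]; exact le_top
    have hZn : (P ⊓ centralizer (P : Set S)).Normal := by
      have : (centralizer (P : Set S)).Normal := Subgroup.normal_centralizer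
      exact Subgroup.normal_inf_normal _ _
    have hZP : P ⊓ centralizer (P : Set S) ≤ P := inf_le_left
    have hWZ : ⁅P ⊓ centralizer (X₁ : Set S), P ⊓ centralizer (X₂ : Set S)⁆ ≤
        P ⊓ centralizer (P : Set S) := by
      by_cases hPbot : P = ⊥
      · have h1 : ⁅P ⊓ centralizer (X₁ : Set S), P ⊓ centralizer (X₂ : Set S)⁆ ≤ ⁅P, P⁆ :=
          Subgroup.commutator_mono inf_le_left inf_le_left
        have h2 : ⁅P, P⁆ = ⊥ := by rw [hPbot, Subgroup.commutator_bot_left]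
        exact (h1.trans h2.le).trans bot_le
      · set Z : Subgroup S := P ⊓ centralizer (P : Set S) with hZ
        have hZne : Z ≠ ⊥ := by
          have hnt : Nontrivial ↥P := (Subgroup.nontrivial_iff_ne_bot P).mpr hPbot
          have hcn : Nontrivial (Subgroup.center ↥P) := hP.center_nontrivial
          obtain ⟨z, hz⟩ := exists_ne (1 : Subgroup.center ↥P)
          intro hZbot
          have hzZ : ((z : ↥P) : S) ∈ Z := by
            refine ⟨(z : ↥P).2, Subgroup.mem_centralizer_iff.mpr ?_⟩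
            intro h hh
            have := (Subgroup.mem_center_iff.mp z.2) ⟨h, hh⟩
            exact congrArg Subtype.val this
          rw [hZbot, Subgroup.mem_bot] at hzZ
          apply hz
          apply Subtype.ext; apply Subtype.ext; exact hzZ
        have hcardZ : 1 < Nat.card Z := by
          rcases Nat.lt_or_ge 1 (Nat.card Z) with h | h
          · exact h
          · exact absurd (Subgroup.card_eq_one.mp (le_antisymm h Nat.card_pos)) hZne
        set π := QuotientGroup.mk' Z with hπ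
        have hker : ∀ a : S, π a = 1 ↔ a ∈ Z := fun a => QuotientGroup.eq_one_iff a
        have hcardP' : Nat.card (P.map π) ≤ n := by
          have h1 := card_map_mk_mul Z P hZP
          have h2 := Nat.card_pos (α := (P.map π : Subgroup (S ⧸ Z)))
          nlinarith
        have hinj : ∀ a ∈ Q, ∀ b ∈ Q, π a = π b → a = b := by
          intro a ha b hb hab
          have h1 : a⁻¹ * b ∈ Z := by
            rw [← hker, map_mul, map_inv, hab, inv_mul_cancel]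
          have h2 : a⁻¹ * b ∈ Q ⊓ P := ⟨Q.mul_mem (Q.inv_mem ha) hb, hZP h1⟩
          rw [hQP, Subgroup.mem_bot] at h2
          exact inv_mul_eq_one.mp h2
        have hQab' : ∀ a ∈ Q.map π, ∀ b ∈ Q.map π, a * b = b * a := by
          rintro _ ⟨a, ha, rfl⟩ _ ⟨b, hb, rfl⟩
          rw [← map_mul, ← map_mul, hQab a ha b hb]
        have hQcop' : (Nat.card (Q.map π)).Coprime p :=
          Nat.Coprime.coprime_dvd_left (Subgroup.card_map_dvd _ _) hQcop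
        have hQnc' : ¬ ∃ a ∈ Q.map π, zpowers a = Q.map π := by
          rintro ⟨_, ⟨a, ha, rfl⟩, hgen⟩
          apply hQnc
          refine ⟨a, ha, le_antisymm (zpowers_le.mpr ha) ?_⟩
          intro b hb
          have h1 : π b ∈ zpowers (π a) := by rw [hgen]; exact Subgroup.mem_map_of_mem π hb
          obtain ⟨j, hj⟩ := Subgroup.mem_zpowers_iff.mp h1
          have h2 : a ^ j = b := hinj _ (Q.zpow_mem ha j) _ hb (by rw [map_zpow, hj])
          rw [← h2]; exact Subgroup.zpow_mem_zpowers a j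
        have hXmin' : ∀ X : Subgroup S, (∀ x ∈ X, x ≠ 1 → X ≤ zpowers x) →
            ∀ x ∈ X.map π, x ≠ 1 → X.map π ≤ zpowers x := by
          intro X hX
          rintro _ ⟨x, hx, rfl⟩ hx1
          have hxne : x ≠ 1 := fun h => hx1 (by rw [h, map_one])
          have h1 := Subgroup.map_mono (f := π) (hX x hx hxne)
          rwa [MonoidHom.map_zpowers] at h1
        have hex' : ∃ x₁ ∈ X₁.map π, ∃ x₂ ∈ X₂.map π, x₁ ∉ X₂.map π ∧ x₂ ∉ X₁.map π := by
          obtain ⟨x₁, hx₁, x₂, hx₂, h12, h21⟩ := hex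
          refine ⟨π x₁, Subgroup.mem_map_of_mem π hx₁, π x₂, Subgroup.mem_map_of_mem π hx₂,
            ?_, ?_⟩
          · rintro ⟨y, hy, hyx⟩
            exact h12 ((hinj y (hX₂Q hy) x₁ (hX₁Q hx₁) hyx) ▸ hy)
          · rintro ⟨y, hy, hyx⟩
            exact h21 ((hinj y (hX₁Q hy) x₂ (hX₂Q hx₂) hyx) ▸ hy)
        have hsolvZ : Group.IsSolvable Z := by
          have := (hP.to_le hZP).isNilpotent
          infer_instance
        have hfree' : ∀ x ∈ Q.map π, x ∉ X₁.map π → x ∉ X₂.map π →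
            ∀ u ∈ P.map π, u * x = x * u → u = 1 := by
          rintro _ ⟨x, hx, rfl⟩ hx1 hx2 _ ⟨u, hu, rfl⟩ hux
          have hx1' : x ∉ X₁ := fun h => hx1 (Subgroup.mem_map_of_mem π h)
          have hx2' : x ∉ X₂ := fun h => hx2 (Subgroup.mem_map_of_mem π h)
          have hcopx : (Nat.card (zpowers x)).Coprime (Nat.card Z) :=
            Nat.Coprime.coprime_dvd_left (Subgroup.card_dvd_of_le (zpowers_le.mpr hx))
              (Nat.Coprime.coprime_dvd_right (Subgroup.card_dvd_of_le hZP) hcopQP)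
          obtain ⟨c, hc, hcZ⟩ := exists_fixed_in_coset (A := zpowers x) (N := Z)
            (by rw [normalizer_eq_top_iff.mpr hZn]; exact le_top) hcopx (Or.inr hsolvZ) u (by
              intro a ha
              obtain ⟨j, rfl⟩ := Subgroup.mem_zpowers_iff.mp ha
              rw [← hker]
              have hcomm : π u * π x ^ j = π x ^ j * π u :=
                (Commute.zpow_right (show Commute (π u) (π x) from hux) j).eq
              have e : π (u⁻¹ * x ^ j * u * (x ^ j)⁻¹) =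
                  (π u)⁻¹ * ((π x) ^ j * π u) * ((π x) ^ j)⁻¹ := by
                simp only [map_mul, map_inv, map_zpow, mul_assoc]
              rw [e, ← hcomm]; group)
          have hcP : c ∈ P := by
            have e : c = u * (u⁻¹ * c) := by group
            rw [e]; exact P.mul_mem hu (hZP hcZ)
          have hcx : c * x = x * c :=
            ((Subgroup.mem_centralizer_iff.mp hc) x (Subgroup.mem_zpowers x)).symm
          have hc1 : c = 1 := hfree x hx hx1' hx2' c hcP hcx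
          rw [hc1, mul_one] at hcZ
          have h3 := (hker u⁻¹).mpr hcZ
          rw [map_inv, inv_eq_one] at h3
          exact h3
        have key := ih (S ⧸ Z) (P.map π) (Q.map π) (X₁.map π) (X₂.map π)
          (hPn.map π (QuotientGroup.mk'_surjective Z)) hcardP' (hP.map π) hQab' hQcop' hQnc'
          (Subgroup.map_mono hX₁Q) (Subgroup.map_mono hX₂Q) (hXmin' X₁ hX₁min)
          (hXmin' X₂ hX₂min) hex' hfree'
        have hmap_le : ∀ X : Subgroup S, (P ⊓ centralizer (X : Set S)).map π ≤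
            P.map π ⊓ centralizer ((X.map π : Subgroup (S ⧸ Z)) : Set (S ⧸ Z)) := by
          intro X
          rintro _ ⟨u, ⟨huP, huC⟩, rfl⟩
          refine ⟨Subgroup.mem_map_of_mem π huP, Subgroup.mem_centralizer_iff.mpr ?_⟩
          rintro _ ⟨x, hx, rfl⟩
          rw [← map_mul, ← map_mul, (Subgroup.mem_centralizer_iff.mp huC) x hx]
        have h1 : (⁅P ⊓ centralizer (X₁ : Set S), P ⊓ centralizer (X₂ : Set S)⁆).map π = ⊥ := by
          rw [Subgroup.map_commutator, eq_bot_iff, ← key]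
          exact Subgroup.commutator_mono (hmap_le X₁) (hmap_le X₂)
        rw [Subgroup.map_eq_bot_iff, QuotientGroup.ker_mk'] at h1
        exact h1
    set P₁ : Subgroup S := P ⊓ centralizer (X₁ : Set S) with hP₁
    set P₂ : Subgroup S := P ⊓ centralizer (X₂ : Set S) with hP₂
    have hWc : ∀ w ∈ ⁅P₁, P₂⁆, ∀ h ∈ P, w * h = h * w := by
      intro w hw h hh
      exact ((Subgroup.mem_centralizer_iff.mp (hWZ hw).2) h hh).symm
    have hQnP₁ : Q ≤ normalizer (P₁ : Set S) :=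
      le_normalizer_inf_centralizer hQab (hnormP Q) hX₁Q
    have hQnP₂ : Q ≤ normalizer (P₂ : Set S) :=
      le_normalizer_inf_centralizer hQab (hnormP Q) hX₂Q
    have hP₁₂ : P₁ ⊓ P₂ = ⊥ := inter_aux hX₁Q hX₂Q hex hfree
    have hcopX : ∀ X : Subgroup S, X ≤ Q → ∀ R : Subgroup S, R ≤ P →
        (Nat.card X).Coprime (Nat.card R) := fun X hX R hR =>
      Nat.Coprime.coprime_dvd_left (Subgroup.card_dvd_of_le hX)
        (Nat.Coprime.coprime_dvd_right (Subgroup.card_dvd_of_le hR) hcopQP)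
    have hsolvP : ∀ R : Subgroup S, R ≤ P → Group.IsSolvable R := fun R hR => by
      have := (hP.to_le hR).isNilpotent
      infer_instance
    have hgen₂ : P₂ ≤ ⁅P₂, X₁⁆ := by
      intro h hh
      obtain ⟨m, hm, c, hc, rfl⟩ := exists_commutator_mul_fixed (hX₁Q.trans hQnP₂)
        (hcopX X₁ hX₁Q P₂ inf_le_left) (Or.inr (hsolvP P₂ inf_le_left)) hh
      have hc1 : c ∈ P₁ ⊓ P₂ := ⟨⟨hc.1.1, hc.2⟩, hc.1⟩
      rw [hP₁₂, Subgroup.mem_bot] at hc1
      rw [hc1, mul_one]; exact hm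
    have hgen₁ : P₁ ≤ ⁅P₁, X₂⁆ := by
      intro h hh
      obtain ⟨m, hm, c, hc, rfl⟩ := exists_commutator_mul_fixed (hX₂Q.trans hQnP₁)
        (hcopX X₂ hX₂Q P₁ inf_le_left) (Or.inr (hsolvP P₁ inf_le_left)) hh
      have hc1 : c ∈ P₁ ⊓ P₂ := ⟨hc.1, ⟨hc.1.1, hc.2⟩⟩
      rw [hP₁₂, Subgroup.mem_bot] at hc1
      rw [hc1, mul_one]; exact hm
    have hW₁ : ⁅P₁, P₂⁆ ≤ ⁅⁅P₁, P₂⁆, X₁⁆ :=
      key_step (fun w hw h hh => hWc w hw h hh.1)
        (fun x hx g hg => (Subgroup.mem_centralizer_iff.mp hg.2) x hx) (hX₁Q.trans hQnP₂) hgen₂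
    have hW₂ : ⁅P₁, P₂⁆ ≤ ⁅⁅P₁, P₂⁆, X₂⁆ := by
      have h1 := key_step (P₁ := P₂) (P₂ := P₁) (X₁ := X₂)
        (fun w hw h hh => hWc w (by rwa [Subgroup.commutator_comm] at hw) h hh.1)
        (fun x hx g hg => (Subgroup.mem_centralizer_iff.mp hg.2) x hx) (hX₂Q.trans hQnP₁) hgen₁
      rwa [Subgroup.commutator_comm P₂ P₁] at h1
    have hWP : ⁅P₁, P₂⁆ ≤ P := hWZ.trans hZP
    have hWab : ∀ a ∈ ⁅P₁, P₂⁆, ∀ b ∈ ⁅P₁, P₂⁆, a * b = b * a :=
      fun a ha b hb => hWc a ha b (hWP hb)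
    have hQnW : Q ≤ normalizer ((⁅P₁, P₂⁆ : Subgroup S) : Set S) :=
      le_normalizer_commutator' hQnP₁ hQnP₂
    have hWC₁ : ⁅P₁, P₂⁆ ⊓ centralizer (X₁ : Set S) = ⊥ := by
      have h1 := commutator_inf_centralizer_eq_bot_of_comm (hX₁Q.trans hQnW)
        (hcopX X₁ hX₁Q _ hWP) hWab
      rw [eq_bot_iff, ← h1]
      exact inf_le_inf_right _ hW₁
    have hWC₂ : ⁅P₁, P₂⁆ ⊓ centralizer (X₂ : Set S) = ⊥ := by
      have h1 := commutator_inf_centralizer_eq_bot_of_comm (hX₂Q.trans hQnW)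
        (hcopX X₂ hX₂Q _ hWP) hWab
      rw [eq_bot_iff, ← h1]
      exact inf_le_inf_right _ hW₂
    have hgenW := coprime_gen_nonidentity hQab hQnc hQnW (hcopX Q le_rfl _ hWP)
    rw [eq_bot_iff, hgenW]
    apply iSup₂_le
    rintro B ⟨hBQ, hBne⟩
    intro u hu
    have huP : u ∈ P ⊓ centralizer (B : Set S) := ⟨hWP hu.1, hu.2⟩
    rcases cent_B hX₁min hX₂min hfree B hBQ hBne with h | h | h
    · have : u ∈ ⁅P₁, P₂⁆ ⊓ centralizer (X₁ : Set S) := ⟨hu.1, (h huP).2⟩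
      rw [hWC₁] at this; exact this
    · have : u ∈ ⁅P₁, P₂⁆ ⊓ centralizer (X₂ : Set S) := ⟨hu.1, (h huP).2⟩
      rw [hWC₂] at this; exact this
    · rw [h] at huP; exact huP

theorem main {S : Type u} [Group S] [Finite S] {p q : ℕ} [Fact p.Prime] [Fact q.Prime]
    (hpq : p ≠ q) (P : Sylow p S) [hPn : (P : Subgroup S).Normal] (Q : Subgroup S)
    (hQ : Cfsg.IsElementaryAbelian q Q) (hQc : Nat.card Q = q ^ 2)
    (X₁ X₂ : Subgroup S) (h₁ : X₁ ≤ Q) (h₂ : X₂ ≤ Q) (h₁₂ : X₁ ≠ X₂) (hc₁ : Nat.card X₁ = q)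
    (hc₂ : Nat.card X₂ = q)
    (honly : ∀ X : Subgroup S, X ≤ Q → Nat.card X = q →
      (P : Subgroup S) ⊓ Subgroup.centralizer (X : Set S) ≠ ⊥ → X = X₁ ∨ X = X₂) :
    ⁅(P : Subgroup S) ⊓ Subgroup.centralizer (X₁ : Set S), (P : Subgroup S) ⊓ Subgroup.centralizer (X₂ : Set S)⁆ = ⊥ ∧
      ((P : Subgroup S) ⊓ Subgroup.centralizer (X₁ : Set S)) ⊓ ((P : Subgroup S) ⊓ Subgroup.centralizer (X₂ : Set S)) = ⊥ ∧
      ((P : Subgroup S) ⊓ Subgroup.centralizer (X₁ : Set S)) ⊔ ((P : Subgroup S) ⊓ Subgroup.centralizer (X₂ : Set S)) = P := by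
  have hp : p.Prime := Fact.out
  have hq : q.Prime := Fact.out
  obtain ⟨hQcomm, hQexp⟩ := hQ
  have hQab : ∀ a ∈ Q, ∀ b ∈ Q, a * b = b * a := by
    intro a ha b hb
    have := hQcomm.is_comm.comm (⟨a, ha⟩ : ↥Q) ⟨b, hb⟩
    exact congrArg Subtype.val this
  have hQcop : (Nat.card Q).Coprime p := by
    rw [hQc]; exact Nat.Coprime.pow_left 2 ((Nat.coprime_primes hq hp).mpr (Ne.symm hpq))
  have hord : ∀ x ∈ Q, x ≠ 1 → orderOf x = q :=
    fun x hx hx1 => orderOf_eq_prime (hQexp x hx) hx1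
  have hzp : ∀ x ∈ Q, x ≠ 1 → Nat.card (zpowers x) = q :=
    fun x hx hx1 => by rw [Nat.card_zpowers, hord x hx hx1]
  have hQnc : ¬ ∃ a ∈ Q, zpowers a = Q := by
    rintro ⟨a, ha, hgen⟩
    have h1 : Nat.card (zpowers a) = q ^ 2 := by rw [hgen, hQc]
    rw [Nat.card_zpowers] at h1
    have h2 : orderOf a ∣ q := orderOf_dvd_of_pow_eq_one (hQexp a ha)
    have h3 := Nat.le_of_dvd hq.pos h2
    have h4 : q < q ^ 2 := by nlinarith [hq.two_le]
    omega
  have hXmin : ∀ X : Subgroup S, X ≤ Q → Nat.card X = q → ∀ x ∈ X, x ≠ 1 → X ≤ zpowers x := by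
    intro X hX hXc x hx hx1
    have h1 : zpowers x = X := Subgroup.eq_of_le_of_card_ge (zpowers_le.mpr hx)
      (by rw [hzp x (hX hx) hx1, hXc])
    rw [h1]
  have hnt : ∀ X : Subgroup S, Nat.card X = q → ∃ x ∈ X, x ≠ 1 := by
    intro X hXc
    by_contra hcon
    have h1 : X = ⊥ := by
      rw [eq_bot_iff]; intro x hx
      by_contra hx1
      exact hcon ⟨x, hx, fun h => hx1 (h ▸ Subgroup.one_mem _)⟩
    rw [h1, Subgroup.card_bot] at hXc
    exact hq.one_lt.ne hXc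
  have hex : ∃ x₁ ∈ X₁, ∃ x₂ ∈ X₂, x₁ ∉ X₂ ∧ x₂ ∉ X₁ := by
    obtain ⟨x₁, hx₁, hx₁1⟩ := hnt X₁ hc₁
    obtain ⟨x₂, hx₂, hx₂1⟩ := hnt X₂ hc₂
    refine ⟨x₁, hx₁, x₂, hx₂, ?_, ?_⟩
    · intro h
      apply h₁₂
      have e1 : zpowers x₁ = X₁ := Subgroup.eq_of_le_of_card_ge (zpowers_le.mpr hx₁)
        (by rw [hzp x₁ (h₁ hx₁) hx₁1, hc₁])
      have e2 : zpowers x₁ = X₂ := Subgroup.eq_of_le_of_card_ge (zpowers_le.mpr h)
        (by rw [hzp x₁ (h₁ hx₁) hx₁1, hc₂])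
      rw [← e1, e2]
    · intro h
      apply h₁₂
      have e1 : zpowers x₂ = X₂ := Subgroup.eq_of_le_of_card_ge (zpowers_le.mpr hx₂)
        (by rw [hzp x₂ (h₂ hx₂) hx₂1, hc₂])
      have e2 : zpowers x₂ = X₁ := Subgroup.eq_of_le_of_card_ge (zpowers_le.mpr h)
        (by rw [hzp x₂ (h₂ hx₂) hx₂1, hc₁])
      rw [← e2, e1]
  have hfree : ∀ x ∈ Q, x ∉ X₁ → x ∉ X₂ → ∀ u ∈ (P : Subgroup S), u * x = x * u → u = 1 := by
    intro x hx hx1 hx2 u hu hux
    have hxne : x ≠ 1 := fun h => hx1 (h ▸ X₁.one_mem)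
    have hbot : (P : Subgroup S) ⊓ centralizer ((zpowers x : Subgroup S) : Set S) = ⊥ := by
      by_contra hne
      rcases honly (zpowers x) (zpowers_le.mpr hx) (hzp x hx hxne) hne with h | h
      · exact hx1 (h ▸ Subgroup.mem_zpowers x)
      · exact hx2 (h ▸ Subgroup.mem_zpowers x)
    have h1 : u ∈ (P : Subgroup S) ⊓ centralizer ((zpowers x : Subgroup S) : Set S) := by
      refine ⟨hu, Subgroup.mem_centralizer_iff.mpr ?_⟩
      intro y hy
      obtain ⟨j, rfl⟩ := Subgroup.mem_zpowers_iff.mp hy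
      exact ((Commute.zpow_right (show Commute u x from hux) j).eq).symm
    rw [hbot, Subgroup.mem_bot] at h1
    exact h1
  have hcomm := comm_aux p hp (Nat.card (P : Subgroup S)) S P Q X₁ X₂ hPn le_rfl P.isPGroup'
    hQab hQcop hQnc h₁ h₂ (hXmin X₁ h₁ hc₁) (hXmin X₂ h₂ hc₂) hex hfree
  refine ⟨hcomm, inter_aux h₁ h₂ hex hfree, ?_⟩
  apply le_antisymm (sup_le inf_le_left inf_le_left)
  obtain ⟨k, hk⟩ := P.isPGroup'.exists_card_eq
  have hQnP : Q ≤ normalizer ((P : Subgroup S) : Set S) := by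
    rw [normalizer_eq_top_iff.mpr hPn]; exact le_top
  have hgen := coprime_gen_nonidentity hQab hQnc hQnP
    (by rw [hk]; exact Nat.Coprime.pow_right k hQcop)
  calc (P : Subgroup S) = ⨆ B ∈ {B : Subgroup S | B ≤ Q ∧ B ≠ ⊥},
        (P : Subgroup S) ⊓ centralizer (B : Set S) := hgen
    _ ≤ _ := by
      apply iSup₂_le
      rintro B ⟨hBQ, hBne⟩
      rcases cent_B (hXmin X₁ h₁ hc₁) (hXmin X₂ h₂ hc₂) hfree B hBQ hBne with h | h | h
      · exact h.trans le_sup_left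
      · exact h.trans le_sup_right
      · rw [h]; exact bot_le

/-- Let S = PQ be a finite group with P a normal Sylow p-subgroup and Q elementary abelian of order q², q a prime different from p. If exactly two subgroups X₁, X₂ of order q in Q have a nontrivial centralizer in P, then P is the internal direct product of C_P(X₁) and C_P(X₂): they commute elementwise, meet trivially and generate P. -/
theorem result {S : Type*} [Group S] [Finite S] {p q : ℕ} [Fact p.Prime] [Fact q.Prime] (hpq : p ≠ q)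
    (P : Sylow p S) [(P : Subgroup S).Normal] (Q : Subgroup S) (hQ : Cfsg.IsElementaryAbelian q Q) (hQc : Nat.card Q = q ^ 2)
    (hS : (P : Subgroup S) ⊔ Q = ⊤)
    (X₁ X₂ : Subgroup S) (h₁ : X₁ ≤ Q) (h₂ : X₂ ≤ Q) (h₁₂ : X₁ ≠ X₂) (hc₁ : Nat.card X₁ = q) (hc₂ : Nat.card X₂ = q)
    (hf₁ : (P : Subgroup S) ⊓ Subgroup.centralizer (X₁ : Set S) ≠ ⊥)
    (hf₂ : (P : Subgroup S) ⊓ Subgroup.centralizer (X₂ : Set S) ≠ ⊥)
    (honly : ∀ X : Subgroup S, X ≤ Q → Nat.card X = q →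
      (P : Subgroup S) ⊓ Subgroup.centralizer (X : Set S) ≠ ⊥ → X = X₁ ∨ X = X₂) :
    ⁅(P : Subgroup S) ⊓ Subgroup.centralizer (X₁ : Set S), (P : Subgroup S) ⊓ Subgroup.centralizer (X₂ : Set S)⁆ = ⊥ ∧
      ((P : Subgroup S) ⊓ Subgroup.centralizer (X₁ : Set S)) ⊓ ((P : Subgroup S) ⊓ Subgroup.centralizer (X₂ : Set S)) = ⊥ ∧
      ((P : Subgroup S) ⊓ Subgroup.centralizer (X₁ : Set S)) ⊔ ((P : Subgroup S) ⊓ Subgroup.centralizer (X₂ : Set S)) = P := by
  exact main hpq P Q hQ hQc X₁ X₂ h₁ h₂ h₁₂ hc₁ hc₂ honly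

end Cfsg.Agent.S1900
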