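import Cfsg.Statements.S1901
import Cfsg.Agent.Helper32.Basic
import Cfsg.Agent.Helper32.PSolvable

set_option autoImplicit false
open Cfsg

namespace Cfsg.Agent.S1901

universe u

theorem eq_one_of_pow_coprime {G : Type*} [Group G] {x : G} {m n : ℕ} (hm : x ^ m = 1) (hn : x ^ n = 1)
    (h : Nat.Coprime m n) : x = 1 := by
  have := pow_gcd_eq_one.2 ⟨hm, hn⟩
  rwa [h, pow_one] at this

/-- In a `p`-solvable group, a `p`-element normalizing a `p'`-subgroup `Q` which itself normalizes a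
"Sylow" `p`-subgroup `P` must centralize `Q`. -/
theorem key {p : ℕ} [hp : Fact p.Prime] : ∀ (n : ℕ) (G : Type u) [Group G] [Finite G], Nat.card G = n →
    Cfsg.IsPSolvable p G →
    ∀ (P Q : Subgroup G) (x : G), IsPGroup p P → ¬ p ∣ P.index → ¬ p ∣ Nat.card Q →
      Q ≤ Subgroup.normalizer (P : Set G) → x ∈ Subgroup.normalizer (Q : Set G) →
      (∃ k : ℕ, x ^ (p ^ k) = 1) → ∀ q ∈ Q, x * q = q * x := by
  intro n
  induction n using Nat.strong_induction_on with
  | _ n ih =>
  intro G _ _ hn hG P Q x hP hPi hQ hQP hx hxp q hq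
  rcases subsingleton_or_nontrivial G with hsub | hnt
  · exact Subsingleton.elim _ _
  obtain ⟨N, hNn, -, hNne, hN⟩ :=
    Cfsg.Agent.Helper32.exists_normal_le_of_isPSolvable hp.out hG (⊤ : Subgroup G) top_ne_bot
  -- the quotient is smaller
  have hlt : Nat.card (G ⧸ N) < n := by
    have h1 := Subgroup.card_eq_card_quotient_mul_card_subgroup N
    have h2 : 1 < Nat.card N := (Subgroup.one_lt_card_iff_ne_bot N).2 hNne
    have h3 : 0 < Nat.card (G ⧸ N) := Nat.card_pos
    rw [← hn, h1]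
    nlinarith
  let π := QuotientGroup.mk' N
  have hπ : Function.Surjective π := QuotientGroup.mk'_surjective N
  obtain ⟨k, hk⟩ := hxp
  have hquot := ih (Nat.card (G ⧸ N)) hlt (G ⧸ N) rfl
    (Cfsg.Agent.Helper32.isPSolvable_quotient hp.out hG N) (P.map π) (Q.map π) (π x)
    (hP.map π)
    (fun h => hPi (dvd_trans h (Subgroup.index_map_dvd P hπ)))
    (fun h => hQ (dvd_trans h (Subgroup.card_map_dvd Q π)))
    (le_trans (Subgroup.map_mono hQP) (Subgroup.le_normalizer_map π))
    (Subgroup.le_normalizer_map π (Subgroup.mem_map_of_mem π hx))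
    ⟨k, by rw [← map_pow, hk, map_one]⟩
  -- the commutator c = [x, q]
  set c : G := x * q * x⁻¹ * q⁻¹ with hc
  have hxq : x * q * x⁻¹ ∈ Q := (Subgroup.mem_normalizer_iff.1 hx q).1 hq
  have hcQ : c ∈ Q := Q.mul_mem hxq (Q.inv_mem hq)
  have hcN : c ∈ N := by
    rw [← QuotientGroup.eq_one_iff]
    have h1 := hquot (π q) (Subgroup.mem_map_of_mem π hq)
    change π (x * q * x⁻¹ * q⁻¹) = 1
    rw [map_mul, map_mul, map_mul, map_inv, map_inv, h1]
    group
  have hcQpow : c ^ Nat.card Q = 1 := by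
    have : (⟨c, hcQ⟩ : Q) ^ Nat.card Q = 1 := pow_card_eq_one'
    exact congrArg Subtype.val this
  have hcopQ : ∀ j : ℕ, Nat.Coprime (p ^ j) (Nat.card Q) :=
    fun j => Nat.Coprime.pow_left j ((Nat.Prime.coprime_iff_not_dvd hp.out).2 hQ)
  suffices hc1 : c = 1 by
    have : x * q = c * q * x := by rw [hc]; group
    rw [this, hc1, one_mul]
  rcases hN with hNp | hNp'
  · -- N is a p-group
    obtain ⟨j, hj⟩ := hNp ⟨c, hcN⟩
    have hj' : c ^ (p ^ j) = 1 := congrArg Subtype.val hj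
    exact eq_one_of_pow_coprime hj' hcQpow (hcopQ j)
  · -- N is a p'-group
    set Q₁ : Subgroup G := Q ⊓ N with hQ₁
    -- P centralizes Q₁
    have hPQ₁ : ∀ y ∈ P, ∀ q₁ ∈ Q₁, q₁ * y = y * q₁ := by
      intro y hy q₁ hq₁
      have hq₁Q : q₁ ∈ Q := (Subgroup.mem_inf.1 hq₁).1
      have hq₁N : q₁ ∈ N := (Subgroup.mem_inf.1 hq₁).2
      set d : G := q₁ * y * q₁⁻¹ * y⁻¹ with hd
      have hdP : d ∈ P :=
        P.mul_mem ((Subgroup.mem_normalizer_iff.1 (hQP hq₁Q) y).1 hy) (P.inv_mem hy)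
      have hdN : d ∈ N := by
        have : d = q₁ * (y * q₁⁻¹ * y⁻¹) := by rw [hd]; group
        rw [this]
        exact N.mul_mem hq₁N (hNn.conj_mem _ (N.inv_mem hq₁N) y)
      obtain ⟨j, hj⟩ := hP ⟨d, hdP⟩
      have hj' : d ^ (p ^ j) = 1 := congrArg Subtype.val hj
      have hdN' : d ^ Nat.card N = 1 := by
        have : (⟨d, hdN⟩ : N) ^ Nat.card N = 1 := pow_card_eq_one'
        exact congrArg Subtype.val this
      have hd1 : d = 1 := eq_one_of_pow_coprime hj' hdN' (Nat.Coprime.pow_left j hNp'.symm)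
      have : q₁ * y = d * y * q₁ := by rw [hd]; group
      rw [this, hd1, one_mul]
    set M₁ : Subgroup G := Subgroup.normalizer (Q₁ : Set G) with hM₁
    have hPM₁ : P ≤ M₁ := by
      intro y hy
      apply Subgroup.centralizer_le_normalizer
      rw [Subgroup.mem_centralizer_iff]
      intro q₁ hq₁
      exact hPQ₁ y hy q₁ hq₁
    have hxM₁ : x ∈ M₁ := by
      rw [hM₁, Subgroup.mem_normalizer_iff]
      intro h
      rw [hQ₁, Subgroup.mem_inf, Subgroup.mem_inf, ← (Subgroup.mem_normalizer_iff.1 hx) h]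
      constructor
      · rintro ⟨h1, h2⟩
        exact ⟨h1, hNn.conj_mem h h2 x⟩
      · rintro ⟨h1, h2⟩
        refine ⟨h1, ?_⟩
        have := hNn.conj_mem _ h2 x⁻¹
        simpa [mul_assoc] using this
    have hzp : IsPGroup p (Subgroup.zpowers x) := by
      rintro ⟨y, hy⟩
      obtain ⟨i, rfl⟩ := Subgroup.mem_zpowers_iff.1 hy
      refine ⟨k, Subtype.ext ?_⟩
      change (x ^ i) ^ (p ^ k) = 1
      rw [← zpow_natCast, ← zpow_mul, mul_comm, zpow_mul, zpow_natCast, hk, one_zpow]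
    let S : Sylow p G := hP.toSylow hPi
    have hS : (S : Subgroup G) = P := IsPGroup.toSylow_coe hP hPi
    obtain ⟨c₀, hc₀M, hc₀⟩ := Cfsg.Agent.Helper32.exists_conj_mem_sylow_of_le S M₁ (hS ▸ hPM₁)
      (Subgroup.zpowers x) hzp ((Subgroup.zpowers_le).2 hxM₁)
    have hx' : c₀⁻¹ * x * c₀ ∈ P := hS ▸ hc₀ x (Subgroup.mem_zpowers x)
    -- x centralizes Q₁
    have hxQ₁ : ∀ q₁ ∈ Q₁, x * q₁ = q₁ * x := by
      intro q₁ hq₁
      have hq₁' : c₀⁻¹ * q₁ * c₀ ∈ Q₁ := by
        have := (Subgroup.mem_normalizer_iff.1 (M₁.inv_mem hc₀M) q₁).1 hq₁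
        simpa using this
      have h1 := hPQ₁ _ hx' _ hq₁'
      have h2 := congrArg (fun t => c₀ * t * c₀⁻¹) h1
      simp only [mul_assoc, mul_inv_cancel_left, mul_inv_cancel, mul_one] at h2
      exact h2.symm
    have hcQ₁ : c ∈ Q₁ := Subgroup.mem_inf.2 ⟨hcQ, hcN⟩
    have hxc : x * c = c * x := hxQ₁ c hcQ₁
    have hxcj : ∀ j : ℕ, x * c ^ j = c ^ j * x := fun j => (Commute.pow_right hxc j).eq
    have hxqc : x * q = c * q * x := by rw [hc]; group
    have hiter : ∀ j : ℕ, x ^ j * q = c ^ j * q * x ^ j := by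
      intro j
      induction j with
      | zero => simp
      | succ j ihj =>
        calc x ^ (j + 1) * q = x * (x ^ j * q) := by rw [pow_succ']; group
          _ = x * (c ^ j * q * x ^ j) := by rw [ihj]
          _ = (x * c ^ j) * q * x ^ j := by group
          _ = (c ^ j * x) * q * x ^ j := by rw [hxcj]
          _ = c ^ j * (x * q) * x ^ j := by group
          _ = c ^ j * (c * q * x) * x ^ j := by rw [hxqc]
          _ = c ^ (j + 1) * q * x ^ (j + 1) := by rw [pow_succ, pow_succ']; group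
    have h6 := hiter (p ^ k)
    rw [hk, one_mul, mul_one] at h6
    have h7 : c ^ (p ^ k) = 1 := by
      have : 1 * q = c ^ (p ^ k) * q := by rw [one_mul]; exact h6
      exact (mul_right_cancel this).symm
    exact eq_one_of_pow_coprime h7 hcQpow (hcopQ k)

/-- Let G be a finite p-solvable group and Q a subgroup of order prime to p such that p divides the index of C_G(Q) in N_G(Q). Then Q normalizes no Sylow p-subgroup of G. -/
theorem result {G : Type*} [Group G] [Finite G] {p : ℕ} [Fact p.Prime]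
    (hG : Cfsg.IsPSolvable p G) (Q : Subgroup G) (hQ : ¬ p ∣ Nat.card Q)
    (hA : p ∣ (Subgroup.centralizer (Q : Set G)).relIndex (Subgroup.normalizer (Q : Set G)))
    (P : Sylow p G) : ¬ Q ≤ Subgroup.normalizer ((P : Subgroup G) : Set G) := by
  intro hQP
  let X : Sylow p ↥(Subgroup.normalizer (Q : Set G)) := default
  have hXle : (X : Subgroup ↥(Subgroup.normalizer (Q : Set G))) ≤
      (Subgroup.centralizer (Q : Set G)).subgroupOf (Subgroup.normalizer (Q : Set G)) := by
    intro y hy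
    rw [Subgroup.mem_subgroupOf, Subgroup.mem_centralizer_iff]
    intro q hq
    obtain ⟨k, hk⟩ := X.isPGroup' ⟨y, hy⟩
    have hk' : (y : G) ^ (p ^ k) = 1 := by
      have := congrArg Subtype.val hk
      have h2 := congrArg Subtype.val this
      simpa using h2
    exact (key (Nat.card G) G rfl hG (P : Subgroup G) Q (y : G) P.isPGroup' P.not_dvd_index hQ hQP y.2
      ⟨k, hk'⟩ q hq).symm
  have h1 := Subgroup.index_dvd_of_le hXle
  exact X.not_dvd_index (dvd_trans hA h1)

end Cfsg.Agent.S1901
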