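import Cfsg.Statements.S1902
import Cfsg.Agent.S0629
import Cfsg.Agent.S1302
import Cfsg.Agent.Helper32.PSolvable

set_option autoImplicit false
open Cfsg

namespace Cfsg.Agent.S1902

/-- Let p be an odd prime, G a finite p-solvable group, and B an elementary abelian subgroup of order p² such that B is the subgroup generated by the elements of order p of some Sylow p-subgroup of C_G(b₀), for some nontrivial b₀ ∈ B. Then every B-invariant subgroup of G of order prime to p lies in O_{p'}(G). -/
theorem result {G : Type*} [Group G] [Finite G] {p : ℕ} [Fact p.Prime] (hp : p ≠ 2)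
    (hG : Cfsg.IsPSolvable p G) (B : Subgroup G) (hB : Cfsg.IsElementaryAbelian p B) (hBc : Nat.card B = p ^ 2)
    (b₀ : G) (hb₀ : b₀ ∈ B) (hb₁ : b₀ ≠ 1) (P : Sylow p ↥(Subgroup.centralizer ({b₀} : Set G)))
    (hBP : B = Subgroup.closure {x : G | x ∈ ((P : Subgroup ↥(Subgroup.centralizer ({b₀} : Set G))).map
      (Subgroup.centralizer ({b₀} : Set G)).subtype : Subgroup G) ∧ orderOf x = p})
    (Q : Subgroup G) (hQ : ¬ p ∣ Nat.card Q) (hinv : ∀ b ∈ B, ∀ x ∈ Q, b * x * b⁻¹ ∈ Q) :
    Q ≤ Cfsg.pPrimeCore p G := by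
  classical
  have hpp : p.Prime := Fact.out
  -- G is p-constrained
  have hcons : Cfsg.IsPConstrained p G := by
    have P₀ : Sylow p ↥(Cfsg.pPrimePCore p G) := default
    exact Cfsg.Agent.S0629.result P₀ (Cfsg.Agent.Helper32.isPSolvable_subgroup hpp hG _)
  obtain ⟨hBcomm, hBexp⟩ := hB
  have hBab : ∀ a ∈ B, ∀ b ∈ B, a * b = b * a := by
    intro a ha b hb
    have := hBcomm.is_comm.comm (⟨a, ha⟩ : B) ⟨b, hb⟩
    exact congrArg Subtype.val this
  have hB2 : IsPGroup p B := by
    intro b
    refine ⟨1, ?_⟩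
    rw [pow_one]
    exact Subtype.ext (hBexp b.1 b.2)
  have hBC : B ≤ (Subgroup.centralizer ({b₀} : Set G)) := by
    intro b hb
    rw [Subgroup.mem_centralizer_singleton_iff]
    exact hBab b hb b₀ hb₀
  apply Cfsg.Agent.S1302.result p hp hcons B hBcomm hB2 ?_ Q hQ ?_
  · -- Ω₁ condition
    intro x hx hxo
    have hxC : x ∈ (Subgroup.centralizer ({b₀} : Set G)) := by
      rw [Subgroup.mem_centralizer_singleton_iff]
      exact (hx b₀ hb₀).symm
    have hZ2 : IsPGroup p (Subgroup.zpowers x) := by
      rw [IsPGroup.iff_card]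
      refine ⟨1, ?_⟩
      rw [Nat.card_zpowers, hxo, pow_one]
    have hZN : Subgroup.zpowers x ≤ Subgroup.normalizer (B : Set G) := by
      rw [Subgroup.zpowers_le]
      rw [Subgroup.mem_normalizer_iff]
      intro b
      have hcomm : ∀ b' ∈ B, x * b' * x⁻¹ = b' := by
        intro b' hb'
        rw [← hx b' hb', mul_inv_cancel_right]
      constructor
      · intro hb
        rw [hcomm b hb]; exact hb
      · intro hb
        have hb' := hx _ hb
        rw [inv_mul_cancel_right] at hb'
        have h3 : b = x * b * x⁻¹ := by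
          have h4 : x * b = x * (x * b * x⁻¹) := hb'
          exact mul_left_cancel h4
        rw [h3]; exact hb
    set E : Subgroup G := B ⊔ Subgroup.zpowers x with hE
    have hE2 : IsPGroup p E := IsPGroup.to_sup_of_normal_left' hB2 hZ2 hZN
    have hEC : E ≤ (Subgroup.centralizer ({b₀} : Set G)) := sup_le hBC (by rw [Subgroup.zpowers_le]; exact hxC)
    have hE' : IsPGroup p (E.subgroupOf (Subgroup.centralizer ({b₀} : Set G))) := hE2.comap_subtype
    obtain ⟨Q', hQ'⟩ := hE'.exists_le_sylow
    obtain ⟨c, hc⟩ := MulAction.exists_smul_eq (Subgroup.centralizer ({b₀} : Set G)) P Q'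
    have hconj : ∀ r ∈ E, (c : G)⁻¹ * r * c ∈
        ((P : Subgroup (Subgroup.centralizer ({b₀} : Set G))).map (Subgroup.centralizer ({b₀} : Set G)).subtype : Subgroup G) := by
      intro r hr
      have h1 : (⟨r, hEC hr⟩ : (Subgroup.centralizer ({b₀} : Set G))) ∈ (Q' : Subgroup (Subgroup.centralizer ({b₀} : Set G))) :=
        hQ' (by simpa [Subgroup.mem_subgroupOf] using hr)
      rw [← hc, Sylow.smul_def] at h1
      have h2 := (Subgroup.mem_pointwise_smul_iff_inv_smul_mem).1 h1
      have h2' : c⁻¹ * ⟨r, hEC hr⟩ * c ∈ (P : Subgroup (Subgroup.centralizer ({b₀} : Set G))) := by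
        simpa using h2
      exact ⟨c⁻¹ * ⟨r, hEC hr⟩ * c, h2', by simp⟩
    have hord : ∀ r ∈ E, orderOf r = p → (c : G)⁻¹ * r * c ∈ B := by
      intro r hr hro
      have h1 := hconj r hr
      have h2 : orderOf ((c : G)⁻¹ * r * c) = p := by
        have : (c : G)⁻¹ * r * c = MulAut.conj (c : G)⁻¹ r := by simp
        rw [this, MulEquiv.orderOf_eq, hro]
      rw [hBP]
      exact Subgroup.subset_closure ⟨h1, h2⟩
    have hBB : ∀ b ∈ B, (c : G)⁻¹ * b * c ∈ B := by
      intro b hb
      by_cases hb1 : b = 1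
      · rw [hb1]; simp
      · exact hord b (Subgroup.mem_sup_left hb) (orderOf_eq_prime (hBexp b hb) hb1)
    let f : B → B := fun b => ⟨(c : G)⁻¹ * b * c, hBB b b.2⟩
    have hfinj : Function.Injective f := by
      intro b b' h
      have h1 : (c : G)⁻¹ * b * c = (c : G)⁻¹ * b' * c := congrArg Subtype.val h
      have h2 : (b : G) = b' := by
        have := mul_right_cancel h1
        exact mul_left_cancel this
      exact Subtype.ext h2
    have hfsurj : Function.Surjective f := Finite.injective_iff_surjective.1 hfinj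
    have hxE : x ∈ E := Subgroup.mem_sup_right (Subgroup.mem_zpowers x)
    obtain ⟨b, hb⟩ := hfsurj ⟨(c : G)⁻¹ * x * c, hord x hxE hxo⟩
    have h1 : (c : G)⁻¹ * b * c = (c : G)⁻¹ * x * c := congrArg Subtype.val hb
    have h2 : (b : G) = x := mul_left_cancel (mul_right_cancel h1)
    rw [← h2]; exact b.2
  · intro b hb
    rw [Subgroup.mem_normalizer_iff]
    intro x
    constructor
    · intro hx
      exact hinv b hb x hx
    · intro hx
      have h1 := hinv b⁻¹ (B.inv_mem hb) _ hx
      simpa [mul_assoc] using h1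

end Cfsg.Agent.S1902
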