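import Cfsg.Statements.S1905
import Cfsg.Agent.Helper32.Dihedral
import Cfsg.Agent.Helper32.PPrimeFusion

set_option autoImplicit false
open Cfsg

namespace Cfsg.Agent.S1905

open Cfsg.Agent.Helper32

theorem orderOf_conj' {S : Type*} [Group S] (y h : S) : orderOf (h * y * h⁻¹) = orderOf y :=
  orderOf_injective (MulAut.conj h).toMonoidHom (MulAut.conj h).injective y

/-- If `M` contains the centralizers of its involutions and the normalizer of a Sylow
`2`-subgroup `X'` of `M` (with a central involution `z`), then `M` is strongly embedded: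
`t, g t g⁻¹ ∈ M` for an involution `t` forces `g ∈ M`. -/
theorem strongly_embedded_aux {S : Type*} [Group S] [Finite S] (M : Subgroup S)
    (hC : ∀ i ∈ M, orderOf i = 2 → Subgroup.centralizer ({i} : Set S) ≤ M)
    (X' : Subgroup S) (hX'p : IsPGroup 2 X') (hidx : ¬ 2 ∣ X'.relIndex M)
    (z : S) (hz2 : orderOf z = 2) (hzc : ∀ x ∈ X', z * x = x * z)
    (hN : Subgroup.normalizer (X' : Set S) ≤ M)
    (t : S) (ht : t ∈ M) (ht2 : orderOf t = 2) (g : S) (hg : g * t * g⁻¹ ∈ M) : g ∈ M := by
  have h2 : Fact (Nat.Prime 2) := ⟨Nat.prime_two⟩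
  have htp : IsPGroup 2 (Subgroup.zpowers t) :=
    isPGroup_zpowers_of_pow (k := 1) (by rw [pow_one, ← ht2]; exact pow_orderOf_eq_one t)
  obtain ⟨m₁, hm₁, hm₁t⟩ := exists_conj_mem_of_relIndex X' M hX'p hidx (Subgroup.zpowers t) htp
    (by rw [Subgroup.zpowers_le]; exact ht)
  have ht' : m₁⁻¹ * t * m₁ ∈ X' := hm₁t t (Subgroup.mem_zpowers t)
  set c := g * m₁ with hc
  have hz₂s : c * z * c⁻¹ ∈ Subgroup.centralizer ({g * t * g⁻¹} : Set S) := by
    rw [Subgroup.mem_centralizer_iff]
    intro y hy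
    rw [Set.mem_singleton_iff] at hy
    subst hy
    have := hzc _ ht'
    calc g * t * g⁻¹ * (c * z * c⁻¹) = c * ((m₁⁻¹ * t * m₁) * z) * c⁻¹ := by rw [hc]; group
      _ = c * (z * (m₁⁻¹ * t * m₁)) * c⁻¹ := by rw [this]
      _ = c * z * c⁻¹ * (g * t * g⁻¹) := by rw [hc]; group
  have hz₂M : c * z * c⁻¹ ∈ M := hC _ hg (by rw [orderOf_conj']; exact ht2) hz₂s
  have hz₂2 : orderOf (c * z * c⁻¹) = 2 := by rw [orderOf_conj']; exact hz2
  have hcX : ∀ x ∈ X', c * x * c⁻¹ ∈ M := by
    intro x hx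
    apply hC _ hz₂M hz₂2
    rw [Subgroup.mem_centralizer_iff]
    intro y hy
    rw [Set.mem_singleton_iff] at hy
    subst hy
    have := hzc x hx
    calc c * z * c⁻¹ * (c * x * c⁻¹) = c * (z * x) * c⁻¹ := by group
      _ = c * (x * z) * c⁻¹ := by rw [this]
      _ = c * x * c⁻¹ * (c * z * c⁻¹) := by group
  have hR₂p : IsPGroup 2 (X'.map (MulAut.conj c).toMonoidHom) := hX'p.map _
  have hR₂M : X'.map (MulAut.conj c).toMonoidHom ≤ M := by
    rintro _ ⟨x, hx, rfl⟩
    exact hcX x hx
  obtain ⟨m₂, hm₂, hm₂r⟩ := exists_conj_mem_of_relIndex X' M hX'p hidx _ hR₂p hR₂M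
  have hn : m₂⁻¹ * c ∈ Subgroup.normalizer (X' : Set S) := by
    apply Subgroup.mem_normalizer_fintype
    intro x hx
    have := hm₂r (c * x * c⁻¹) ⟨x, hx, rfl⟩
    have e : m₂⁻¹ * c * x * (m₂⁻¹ * c)⁻¹ = m₂⁻¹ * (c * x * c⁻¹) * m₂ := by group
    rw [e]
    exact this
  have hnM := hN hn
  have e : g = m₂ * (m₂⁻¹ * c) * m₁⁻¹ := by rw [hc]; group
  rw [e]
  exact mul_mem (mul_mem hm₂ hnM) (inv_mem hm₁)

/-- Let M be a subgroup of even order of a finite group S such that M contains the centralizer in S of each of its involutions and the normal core of M in S has odd order. Then all involutions of S are conjugate. If moreover N_S(X) ≤ M for a Sylow 2-subgroup X of M and I is an involution in the centre of X, then all involutions of M are conjugate in M and M = M₀ C_M(I) for some subgroup M₀ of M of odd order. -/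
theorem result {S : Type*} [Group S] [Finite S] (M : Subgroup S) (hM : Even (Nat.card M))
    (hC : ∀ i ∈ M, orderOf i = 2 → Subgroup.centralizer ({i} : Set S) ≤ M) (hcore : Odd (Nat.card M.normalCore)) :
    (∀ x y : S, orderOf x = 2 → orderOf y = 2 → IsConj x y) ∧
      ∀ (X : Sylow 2 M) (I : M), I ∈ (Subgroup.center ↥(X : Subgroup ↥M)).map (X : Subgroup ↥M).subtype → orderOf I = 2 →
        Subgroup.normalizer (((X : Subgroup M).map M.subtype : Subgroup S) : Set S) ≤ M →
        (∀ x y : M, orderOf x = 2 → orderOf y = 2 → IsConj x y) ∧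
          ∃ M₀ : Subgroup M, Odd (Nat.card M₀) ∧
            ∀ m : M, ∃ a ∈ M₀, ∃ c ∈ Subgroup.centralizer ({I} : Set M), m = a * c := by
  have h2 : Fact (Nat.Prime 2) := ⟨Nat.prime_two⟩
  have hsq : ∀ x : S, orderOf x = 2 → x * x = 1 := fun x hx => by
    rw [← pow_two, ← hx]
    exact pow_orderOf_eq_one x
  have hcent : ∀ a b : S, a * b = b * a → b ∈ Subgroup.centralizer ({a} : Set S) := by
    intro a b hab
    rw [Subgroup.mem_centralizer_iff]
    intro y hy
    rw [Set.mem_singleton_iff] at hy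
    subst hy
    exact hab
  have hP : ∀ i ∈ M, orderOf i = 2 → ∀ j, orderOf j = 2 → ¬ IsConj i j → j ∈ M := by
    intro i hi hi2 j hj2 hnc
    rcases dihedral_involutions i j (hsq i hi2) (hsq j hj2) with ⟨u, hu, huij⟩ | ⟨z, hz2, hzi, hzj⟩
    · exfalso
      apply hnc
      rw [isConj_iff]
      refine ⟨u, ?_⟩
      have : u⁻¹ = u := inv_eq_of_mul_eq_one_left hu
      rw [this]
      exact huij
    · have hzM : z ∈ M := hC i hi hi2 (hcent i z hzi.symm)
      exact hC z hzM hz2 (hcent z j hzj)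
  obtain ⟨i₀, hi₀M, hi₀2⟩ : ∃ i₀ ∈ M, orderOf i₀ = 2 := by
    obtain ⟨x, hx⟩ := exists_prime_orderOf_dvd_card' (G := M) 2 hM.two_dvd
    exact ⟨x, x.2, by rw [← hx]; exact (Subgroup.orderOf_coe x)⟩
  have hL1 : ∃ w, orderOf w = 2 ∧ w ∉ M := by
    by_contra hcon
    push_neg at hcon
    have hcore_mem : i₀ ∈ M.normalCore := by
      intro g
      exact hcon _ (by rw [orderOf_conj']; exact hi₀2)
    have hdvd : 2 ∣ Nat.card M.normalCore := by
      have := orderOf_dvd_natCard (⟨i₀, hcore_mem⟩ : M.normalCore)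
      rwa [Subgroup.orderOf_mk, hi₀2] at this
    exact (Nat.not_even_iff_odd.2 hcore) (even_iff_two_dvd.2 hdvd)
  have hL2 : ∀ x y : S, orderOf x = 2 → orderOf y = 2 → IsConj x y := by
    intro x y hx hy
    by_contra hxy
    obtain ⟨w, hw2, hwM⟩ := hL1
    apply hwM
    by_cases h1 : IsConj i₀ w
    · have : ∃ x', x' ∈ M ∧ orderOf x' = 2 ∧ ¬ IsConj i₀ x' := by
        by_cases hx' : IsConj i₀ x
        · have hy' : ¬ IsConj i₀ y := fun hy' => hxy (hx'.symm.trans hy')
          exact ⟨y, hP i₀ hi₀M hi₀2 y hy hy', hy, hy'⟩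
        · exact ⟨x, hP i₀ hi₀M hi₀2 x hx hx', hx, hx'⟩
      obtain ⟨x', hx'M, hx'2, hx'c⟩ := this
      exact hP x' hx'M hx'2 w hw2 (fun h => hx'c (h1.trans h.symm))
    · exact hP i₀ hi₀M hi₀2 w hw2 h1
  refine ⟨hL2, ?_⟩
  intro X I hI hI2 hN
  set X' : Subgroup S := (X : Subgroup M).map M.subtype with hX'
  have hX'p : IsPGroup 2 X' := X.isPGroup'.map _
  have hidx : ¬ 2 ∣ X'.relIndex M := by
    have : X'.subgroupOf M = (X : Subgroup M) :=
      Subgroup.comap_map_eq_self_of_injective M.subtype_injective _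
    show ¬ 2 ∣ (X'.subgroupOf M).index
    rw [this]
    exact X.not_dvd_index
  obtain ⟨c₀, hc₀, hc₀I⟩ := hI
  have hz2 : orderOf (I : S) = 2 := by rw [Subgroup.orderOf_coe]; exact hI2
  have hzc : ∀ x ∈ X', (I : S) * x = x * (I : S) := by
    rintro _ ⟨x, hx, rfl⟩
    have h1 := Subgroup.mem_center_iff.1 hc₀ ⟨x, hx⟩
    have h2 : ((⟨x, hx⟩ * c₀ : (X : Subgroup M)) : M) = ((c₀ * ⟨x, hx⟩ : (X : Subgroup M)) : M) :=
      congrArg Subtype.val h1
    have h3 : x * I = I * x := by
      rw [← hc₀I]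
      exact h2
    exact (congrArg Subtype.val h3).symm
  have hSE : ∀ t ∈ M, orderOf t = 2 → ∀ g : S, g * t * g⁻¹ ∈ M → g ∈ M :=
    fun t ht ht2 g hg => strongly_embedded_aux M hC X' hX'p hidx (I : S) hz2 hzc hN t ht ht2 g hg
  constructor
  · intro x y hx hy
    have hx' : orderOf (x : S) = 2 := by rw [Subgroup.orderOf_coe]; exact hx
    have hy' : orderOf (y : S) = 2 := by rw [Subgroup.orderOf_coe]; exact hy
    obtain ⟨g, hg⟩ := isConj_iff.1 (hL2 x y hx' hy')
    have hgM : g ∈ M := hSE x x.2 hx' g (by rw [hg]; exact y.2)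
    exact isConj_iff.2 ⟨⟨g, hgM⟩, Subtype.ext hg⟩
  · obtain ⟨w, hw2, hwM⟩ := hL1
    have hww : w * w = 1 := hsq w hw2
    have hwinv : w⁻¹ = w := inv_eq_of_mul_eq_one_left hww
    set K : Subgroup S := M ⊓ M.comap (MulAut.conj w).toMonoidHom with hK
    have hKmem : ∀ x, x ∈ K ↔ x ∈ M ∧ w * x * w⁻¹ ∈ M := fun x => Iff.rfl
    refine ⟨K.subgroupOf M, ?_, ?_⟩
    · rw [← Nat.not_even_iff_odd]
      intro hev
      obtain ⟨k, hk⟩ := exists_prime_orderOf_dvd_card' (G := K.subgroupOf M) 2 hev.two_dvd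
      have hk' : orderOf ((k : M) : S) = 2 := by
        rw [Subgroup.orderOf_coe, Subgroup.orderOf_coe]
        exact hk
      have hkK : ((k : M) : S) ∈ K := Subgroup.mem_subgroupOf.1 k.2
      exact hwM (hSE _ ((hKmem _).1 hkK).1 hk' w ((hKmem _).1 hkK).2)
    · intro m
      set t : S := (I : S) with ht
      set s : S := w * t * w with hs
      set t' : S := m * t * (m : S)⁻¹ with ht'
      have ht'M : t' ∈ M := mul_mem (mul_mem m.2 I.2) (inv_mem m.2)
      have ht'2 : orderOf t' = 2 := by rw [ht', orderOf_conj']; exact hz2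
      have hs2 : orderOf s = 2 := by
        have := orderOf_conj' t w
        rw [hwinv] at this
        rw [hs, this]
        exact hz2
      have hsM : s ∉ M := fun h => hwM (hSE t I.2 hz2 w (by rw [hwinv]; exact h))
      rcases dihedral_involutions t' s (hsq t' ht'2) (hsq s hs2) with
        ⟨u, hu, hut⟩ | ⟨z, hz2', hzt, hzs⟩
      · have huinv : u⁻¹ = u := inv_eq_of_mul_eq_one_left hu
        have h1 : (w * u) * t' * (w * u)⁻¹ = t := by
          rw [mul_inv_rev, huinv, hwinv]
          calc w * u * t' * (u * w) = w * (u * t' * u) * w := by group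
            _ = w * s * w := by rw [hut]
            _ = (w * w) * t * (w * w) := by rw [hs]; group
            _ = t := by rw [hww]; group
        have hwuM : w * u ∈ M := hSE t' ht'M ht'2 (w * u) (by rw [h1]; exact I.2)
        have huwM : u * w ∈ M := by
          have := inv_mem hwuM
          rwa [mul_inv_rev, huinv, hwinv] at this
        have huwK : u * w ∈ K := by
          rw [hKmem]
          refine ⟨huwM, ?_⟩
          have e : w * (u * w) * w⁻¹ = w * u := by
            rw [hwinv]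
            calc w * (u * w) * w = w * u * (w * w) := by group
              _ = w * u := by rw [hww, mul_one]
          rw [e]
          exact hwuM
        have h2 : t' = (u * w) * t * (u * w)⁻¹ := by
          rw [mul_inv_rev, huinv, hwinv]
          calc t' = (u * u) * t' * (u * u) := by rw [hu]; group
            _ = u * (u * t' * u) * u := by group
            _ = u * s * u := by rw [hut]
            _ = u * w * t * (w * u) := by rw [hs]; group
        refine ⟨⟨u * w, huwM⟩, Subgroup.mem_subgroupOf.2 huwK, (⟨u * w, huwM⟩ : M)⁻¹ * m, ?_,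
          by group⟩
        rw [Subgroup.mem_centralizer_iff]
        intro y hy
        rw [Set.mem_singleton_iff] at hy
        subst hy
        apply Subtype.ext
        show t * ((u * w)⁻¹ * (m : S)) = (u * w)⁻¹ * (m : S) * t
        have h3 : (u * w)⁻¹ * (m * t * (m : S)⁻¹) * (u * w) = t := by
          rw [← ht', h2]
          group
        calc t * ((u * w)⁻¹ * (m : S))
            = ((u * w)⁻¹ * (m * t * (m : S)⁻¹) * (u * w)) * ((u * w)⁻¹ * (m : S)) := by rw [h3]
          _ = (u * w)⁻¹ * (m : S) * t := by group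
      · exfalso
        have hzM : z ∈ M := hC t' ht'M ht'2 (hcent t' z hzt.symm)
        exact hsM (hC z hzM hz2' (hcent z s hzs))

end Cfsg.Agent.S1905
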