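-- S1906 (helper14): assembly of CALL S1906 (pieces by helper11, helper19, helper20, helper46,
-- helper59, helper61, helper78, helper82, helper83, helper97 and others; glue in Helper14/S1906Glue).
import Cfsg.Statements.S1906
import Cfsg.Agent.Helper14.S1906Glue

set_option autoImplicit false
open Cfsg

namespace Cfsg.Agent.S1906

open Cfsg.Agent.Helper14.S1906G

/-- Let G be a finite group with no subgroup of index 2 whose Sylow 2-subgroup X embeds in GL₃(F) for a finite field F of odd order. If X contains an elementary abelian subgroup of order 8, then X is abelian. -/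
theorem result {G : Type*} [Group G] [Finite G] (hG : ∀ H : Subgroup G, H.index ≠ 2) (X : Sylow 2 G)
    {F : Type*} [Field F] [Fintype F] (hF : Odd (Fintype.card F))
    (f : ↥(X : Subgroup G) →* GL (Fin 3) F) (hf : Function.Injective f)
    (E : Subgroup G) (hE : E ≤ (X : Subgroup G)) (hEa : Cfsg.IsElementaryAbelian 2 E) (hE8 : Nat.card E = 8) :
    IsMulCommutative (X : Subgroup G) := by
  by_contra hnab
  have hnab' : ¬ ∀ x y : ↥(X : Subgroup G), x * y = y * x := by
    intro h
    exact hnab ⟨⟨h⟩⟩
  have hP : IsPGroup 2 ↥(X : Subgroup G) := X.isPGroup'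
  let ρ : Representation F ↥(X : Subgroup G) (Fin 3 → F) :=
    (Matrix.toLinAlgEquiv' (R := F) (n := Fin 3)).toAlgHom.toMonoidHom.comp
      ((Units.coeHom _).comp f)
  have hfaith : ∀ x : ↥(X : Subgroup G), (∀ v : Fin 3 → F, ρ x v = v) → x = 1 := by
    intro x hx
    apply hf
    rw [map_one]
    apply Units.ext
    have h1 : Matrix.toLinAlgEquiv' (R := F) (n := Fin 3)
        ((f x : GL (Fin 3) F) : Matrix (Fin 3) (Fin 3) F) = 1 := LinearMap.ext hx
    exact (Matrix.toLinAlgEquiv' (R := F) (n := Fin 3)).injective (h1.trans (map_one _).symm)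
  have hab : ∀ a ∈ E.subgroupOf (X : Subgroup G), ∀ a' ∈ E.subgroupOf (X : Subgroup G),
      a * a' = a' * a := by
    intro a ha a' ha'
    have h1 := hEa.1.is_comm.comm ⟨(a : G), ha⟩ ⟨(a' : G), ha'⟩
    have h6 : (a : G) * (a' : G) = (a' : G) * (a : G) := congrArg (fun z : ↥E => (z : G)) h1
    apply Subtype.ext
    exact h6
  have hsq : ∀ a ∈ E.subgroupOf (X : Subgroup G), a * a = 1 := by
    intro a ha
    have h1 := hEa.2 (a : G) ha
    apply Subtype.ext
    rw [pow_two] at h1
    exact h1
  have hcard : Nat.card (E.subgroupOf (X : Subgroup G)) = 8 := by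
    rw [← hE8]
    exact Nat.card_congr (Subgroup.subgroupOfEquivOfLe hE).toEquiv
  obtain ⟨u, lam, hu2, huc, hα⟩ := s1906_core hF hP (Module.finrank_fin_fun F) ρ hfaith
    (E.subgroupOf (X : Subgroup G)) hab hsq hcard hnab'
  have h2 : (2 : F) ≠ 0 := Cfsg.Agent.Helper19.S1906P.s1906_two hF
  apply s1906_T hG X lam (u : G) u.2 (congrArg Subtype.val hu2) ?_ (-1 : Fˣ) ?_ ?_
  · intro x hx
    exact congrArg Subtype.val (huc ⟨x, hx⟩)
  · intro h
    have h3 := congrArg Units.val h
    rw [Units.val_neg, Units.val_one] at h3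
    apply h2
    have h4 : (2 : F) = 1 - (-1) := by ring
    rw [h4, h3, sub_self]
  · intro h hh hm
    let α : ↥(X : Subgroup G) →* ↥(X : Subgroup G) :=
      { toFun := fun x => ⟨h⁻¹ * x * h, hh x x.2⟩
        map_one' := by
          apply Subtype.ext
          simp
        map_mul' := by
          intro x y
          apply Subtype.ext
          simp only [Subgroup.coe_mul]
          group }
    have hαinj : Function.Injective α := by
      intro x y hxy
      have h5 : h⁻¹ * (x : G) * h = h⁻¹ * (y : G) * h := congrArg Subtype.val hxy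
      apply Subtype.ext
      exact mul_left_cancel (mul_right_cancel h5)
    exact hα α hαinj

end Cfsg.Agent.S1906
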