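import Cfsg.Statements.S1924
import Cfsg.Agent.Helper32.SignTransfer
import Cfsg.Agent.Helper32.PPrime

set_option autoImplicit false
open Cfsg

namespace Cfsg.Agent.S1924

open Cfsg.Agent.Helper32 Subgroup

/-- The sign character of a dihedral group: rotations to `1`, reflections to `-1`. -/
def dihSign (n : ℕ) : DihedralGroup n →* ℤˣ :=
  MonoidHom.mk' (fun a => match a with
    | DihedralGroup.r _ => 1
    | DihedralGroup.sr _ => -1) (by
      rintro (i | i) (j | j) <;> simp)

theorem sq_eq_one_of_not_mem_cyclic {D₀ : Type*} [Group D₀] [Finite D₀] (n : ℕ) (hn : 2 ≤ n)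
    (e : D₀ ≃* DihedralGroup n) (C₀ : Subgroup D₀) [hC : IsCyclic C₀] (hidx : C₀.index = 2)
    (y : D₀) (hy : y ∉ C₀) : y * y = 1 := by
  obtain ⟨g₀, hg₀⟩ := hC.exists_generator
  have hcardD : Nat.card D₀ = 2 * n := by rw [Nat.card_congr e.toEquiv, DihedralGroup.nat_card]
  have hcardC : Nat.card C₀ * 2 = Nat.card D₀ := by rw [← hidx]; exact C₀.card_mul_index
  rcases h : e (g₀ : D₀) with i | i
  · let f : D₀ →* ℤˣ := (dihSign n).comp e.toMonoidHom
    have hC₀ : C₀ ≤ f.ker := by
      intro x hx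
      obtain ⟨z, hz⟩ := Subgroup.mem_zpowers_iff.1 (hg₀ ⟨x, hx⟩)
      have hx' : x = (g₀ : D₀) ^ z := by
        have := congrArg Subtype.val hz
        simpa using this.symm
      rw [MonoidHom.mem_ker, hx', map_zpow]
      have h1 : f (g₀ : D₀) = 1 := by
        show dihSign n (e (g₀ : D₀)) = 1
        rw [h]; rfl
      rw [h1, one_zpow]
    have hker2 : f.ker.index = 2 := by
      rw [Subgroup.index_ker]
      have htop : f.range = ⊤ := by
        rw [eq_top_iff]
        intro x _
        rcases Int.units_eq_one_or x with hx | hx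
        · rw [hx]; exact one_mem _
        · refine ⟨e.symm (DihedralGroup.sr 0), ?_⟩
          show dihSign n (e (e.symm (DihedralGroup.sr 0))) = x
          rw [MulEquiv.apply_symm_apply, hx]; rfl
      rw [htop, Subgroup.card_top, Nat.card_eq_fintype_card, Fintype.card_units_int]
    have heq : C₀ = f.ker := by
      apply Subgroup.eq_of_le_of_card_ge hC₀
      have h1 := f.ker.card_mul_index
      rw [hker2] at h1
      omega
    have hy' : f y ≠ 1 := fun h1 => hy (by rw [heq]; exact MonoidHom.mem_ker.2 h1)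
    rcases h2 : e y with j | j
    · exfalso; apply hy'
      show dihSign n (e y) = 1
      rw [h2]; rfl
    · have h3 : e (y * y) = 1 := by rw [map_mul, h2, DihedralGroup.sr_mul_self]
      exact (map_eq_one_iff e e.injective).1 h3
  · have hg2 : (g₀ : D₀) * (g₀ : D₀) = 1 := by
      have h3 : e ((g₀ : D₀) * g₀) = 1 := by rw [map_mul, h, DihedralGroup.sr_mul_self]
      exact (map_eq_one_iff e e.injective).1 h3
    have hord : orderOf g₀ ∣ 2 := by
      apply orderOf_dvd_of_pow_eq_one
      apply Subtype.ext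
      rw [pow_two]; exact hg2
    have hcard : Nat.card C₀ ≤ 2 := by
      rw [← orderOf_eq_card_of_forall_mem_zpowers hg₀]
      exact Nat.le_of_dvd (by norm_num) hord
    have hn2 : n = 2 := by omega
    subst hn2
    have hall : ∀ a : DihedralGroup 2, a * a = 1 := by decide
    have h3 : e (y * y) = 1 := by rw [map_mul]; exact hall _
    exact (map_eq_one_iff e e.injective).1 h3

theorem card_mul_le_of_inf_eq_bot {G : Type*} [Group G] [Finite G] (A B S : Subgroup G)
    (hA : A ≤ S) (hB : B ≤ S) (h : A ⊓ B = ⊥) : Nat.card A * Nat.card B ≤ Nat.card S := by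
  rw [← Nat.card_prod]
  refine Nat.card_le_card_of_injective
    (fun ab : A × B => (⟨(ab.1 : G) * (ab.2 : G), S.mul_mem (hA ab.1.2) (hB ab.2.2)⟩ : S)) ?_
  rintro ⟨a, b⟩ ⟨a', b'⟩ hab
  have h1 : (a : G) * (b : G) = (a' : G) * (b' : G) := congrArg Subtype.val hab
  have h2 : (a' : G)⁻¹ * (a : G) = (b' : G) * (b : G)⁻¹ := by
    rw [inv_mul_eq_iff_eq_mul, ← mul_assoc, ← h1, mul_inv_cancel_right]
  have h3 : (a' : G)⁻¹ * (a : G) ∈ A ⊓ B :=
    Subgroup.mem_inf.2 ⟨A.mul_mem (A.inv_mem a'.2) a.2, h2 ▸ B.mul_mem b'.2 (B.inv_mem b.2)⟩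
  rw [h, Subgroup.mem_bot] at h3
  have h4 : (b' : G) * (b : G)⁻¹ = 1 := by rw [← h2, h3]
  have ha : a = a' := Subtype.ext (inv_mul_eq_one.1 h3).symm
  have hb : b = b' := Subtype.ext (mul_inv_eq_one.1 h4).symm
  rw [ha, hb]

theorem card_mul_relIndex32 {G : Type*} [Group G] {A B : Subgroup G} (h : A ≤ B) :
    Nat.card A * A.relIndex B = Nat.card B := by
  have := Subgroup.relIndex_mul_relIndex ⊥ A B bot_le h
  rwa [Subgroup.relIndex_bot_left, Subgroup.relIndex_bot_left] at this

theorem map_pResidual_le32 {A B : Type*} [Group A] [Group B] (f : A →* B) :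
    (Cfsg.pResidual 2 A).map f ≤ Cfsg.pResidual 2 B := by
  rw [Cfsg.pResidual, MonoidHom.map_closure, Subgroup.closure_le]
  rintro _ ⟨s, hs, rfl⟩
  apply Subgroup.subset_closure
  have hs' : Nat.Coprime (orderOf s) 2 := hs
  exact Nat.Coprime.coprime_dvd_left (orderOf_map_dvd f s) hs'

/-- A consequence of Thompson's transfer lemma. Let G be a finite group, L a subgroup with O²(L) = L, T a Sylow 2-subgroup of L and S a Sylow 2-subgroup of G containing T. Suppose D ≤ S is a dihedral subgroup of order at least 4 (the four-group counts) with D ∩ T = 1 and S = TD as a set of products (so |S| = |T|·|D|), and C ≤ D is cyclic of index 2 in D. If no involution of D outside C is G-conjugate to an involution of the subgroup generated by T and C, and the involution of C is not G-conjugate to any involution of T, then G has a normal subgroup K, containing every Sylow 2-subgroup of L as a Sylow 2-subgroup, with G = KD. -/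
theorem result {G : Type*} [Group G] [Finite G] (L T S D C : Subgroup G) (hL : Cfsg.pResidual 2 ↥L = ⊤)
    (hTL : T ≤ L) (hT2 : IsPGroup 2 T) (hTsyl : ¬ 2 ∣ T.relIndex L)
    (hS2 : IsPGroup 2 S) (hSsyl : ¬ 2 ∣ S.index) (hTS : T ≤ S)
    (hDS : D ≤ S) (hDih : ∃ n : ℕ, 2 ≤ n ∧ Nonempty (↥D ≃* DihedralGroup n)) (hDT : D ⊓ T = ⊥) (hTD : T ⊔ D = S) (hTDc : Nat.card T * Nat.card D = Nat.card S)
    (hCD : C ≤ D) (hC : IsCyclic ↥C) (hCi : C.relIndex D = 2)
    (h1 : ∀ x ∈ D, x ∉ C → orderOf x = 2 → ∀ g : G, g * x * g⁻¹ ∈ T ⊔ C → False)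
    (h2 : ∀ c ∈ C, orderOf c = 2 → ∀ g : G, g * c * g⁻¹ ∈ T → False) :
    ∃ K : Subgroup G, K.Normal ∧ K ⊔ D = ⊤ ∧
      ∀ T' : Subgroup G, T' ≤ L → IsPGroup 2 T' → ¬ 2 ∣ T'.relIndex L → T' ≤ K ∧ ¬ 2 ∣ T'.relIndex K := by
  classical
  have hp2 : Fact (Nat.Prime 2) := ⟨Nat.prime_two⟩
  set K : Subgroup G := Cfsg.pResidual 2 G with hKdef
  have hKn : K.Normal := Cfsg.Agent.Helper2.pResidual_normal 2 G
  -- `L ≤ K`
  have hLK : L ≤ K := by
    intro l hl
    have h1 : (⟨l, hl⟩ : L) ∈ Cfsg.pResidual 2 L := by rw [hL]; exact Subgroup.mem_top _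
    exact map_pResidual_le32 L.subtype ⟨⟨l, hl⟩, h1, rfl⟩
  have hTK : T ≤ K := hTL.trans hLK
  -- the dihedral structure
  obtain ⟨n, hn, ⟨e⟩⟩ := hDih
  have hCcyc : IsCyclic (C.subgroupOf D) :=
    (Subgroup.subgroupOfEquivOfLe hCD).isCyclic.2 hC
  have hinv : ∀ x ∈ D, x ∉ C → x * x = 1 := by
    intro x hx hxC
    have h3 := sq_eq_one_of_not_mem_cyclic n hn e (C.subgroupOf D) hCi ⟨x, hx⟩
      (fun h => hxC (mem_subgroupOf.1 h))
    exact congrArg Subtype.val h3
  have hord2 : ∀ x ∈ D, x ∉ C → orderOf x = 2 := by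
    intro x hx hxC
    apply orderOf_eq_prime
    · rw [pow_two]; exact hinv x hx hxC
    · intro h; exact hxC (h ▸ C.one_mem)
  obtain ⟨x₀, hx₀D, hx₀C⟩ : ∃ x₀ ∈ D, x₀ ∉ C := by
    by_contra hcon
    push_neg at hcon
    have : C.relIndex D = 1 := Subgroup.relIndex_eq_one.2 hcon
    omega
  -- cardinalities
  have hcardD : Nat.card C * 2 = Nat.card D := by
    have := card_mul_relIndex32 hCD
    rwa [hCi] at this
  have hTC : T ⊓ C = ⊥ := by
    rw [eq_bot_iff, ← hDT]
    exact le_inf (inf_le_right.trans hCD) inf_le_left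
  set M : Subgroup G := T ⊔ C with hMdef
  have hMS : M ≤ S := sup_le hTS (hCD.trans hDS)
  have hx₀M : x₀ ∉ M := by
    intro h
    apply h1 x₀ hx₀D hx₀C (hord2 x₀ hx₀D hx₀C) 1
    simpa using h
  have hMcard : Nat.card M * 2 = Nat.card S := by
    have hlow : Nat.card T * Nat.card C ≤ Nat.card M :=
      card_mul_le_of_inf_eq_bot T C M le_sup_left le_sup_right hTC
    have hMne : M ≠ S := fun h => hx₀M (h ▸ hDS hx₀D)
    have hrel := card_mul_relIndex32 hMS
    have hne1 : M.relIndex S ≠ 1 := fun h => hMne (le_antisymm hMS (Subgroup.relIndex_eq_one.1 h))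
    have hpos : 0 < M.relIndex S := by
      rcases Nat.eq_zero_or_pos (M.relIndex S) with h | h
      · rw [h, mul_zero] at hrel
        have := Nat.card_pos (α := S)
        omega
      · exact h
    have h2le : 2 ≤ M.relIndex S := by omega
    have hup : Nat.card M * 2 ≤ Nat.card S := by
      rw [← hrel]; exact Nat.mul_le_mul_left _ h2le
    have h3 : Nat.card T * (Nat.card C * 2) = Nat.card S := by rw [hcardD]; exact hTDc
    nlinarith
  have hMidx : M.index = 2 ^ 1 * S.index := by
    have h3 := Subgroup.relIndex_mul_index hMS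
    have h4 := card_mul_relIndex32 hMS
    have h5 : M.relIndex S = 2 := by
      have hpos : 0 < Nat.card M := Nat.card_pos
      have : Nat.card M * M.relIndex S = Nat.card M * 2 := by rw [h4, hMcard]
      exact Nat.eq_of_mul_eq_mul_left hpos this
    rw [← h3, h5, pow_one]
  have hSodd : Odd S.index := Nat.odd_iff.2 (by omega)
  -- the first sign character
  have hsign : ∀ x ∈ D, x ∉ C → cosetSign M x = -1 := by
    intro x hx hxC
    apply cosetSign_eq_neg_one M x 1 S.index le_rfl
    · rw [pow_one, pow_two]; exact hinv x hx hxC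
    · intro g hg
      apply h1 x hx hxC (hord2 x hx hxC) g⁻¹
      simpa using hg
    · exact hMidx
    · exact hSodd
  set G₁ : Subgroup G := (cosetSign M).ker with hG₁def
  have hKG₁ : K ≤ G₁ := pResidual_le_ker_units _
  have hG₁idx : G₁.index = 2 := cosetSign_ker_index M x₀ (hsign x₀ hx₀D hx₀C)
  have hCG₁ : C ≤ G₁ := by
    intro c hc
    have hcx : c * x₀ ∉ C := by
      intro h
      apply hx₀C
      have e1 : x₀ = c⁻¹ * (c * x₀) := by group
      rw [e1]; exact C.mul_mem (C.inv_mem hc) h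
    have h3 := hsign (c * x₀) (D.mul_mem (hCD hc) hx₀D) hcx
    rw [map_mul, hsign x₀ hx₀D hx₀C] at h3
    rw [hG₁def, MonoidHom.mem_ker]
    have h4 : cosetSign M c * -1 * -1 = -1 * -1 := by rw [h3]
    simpa using h4
  -- `D ∩ K = 1`
  have hDK : D ⊓ K = ⊥ := by
    rw [eq_bot_iff]
    intro z hz
    obtain ⟨hzD, hzK⟩ := Subgroup.mem_inf.1 hz
    rw [Subgroup.mem_bot]
    by_cases hzC : z ∈ C
    swap
    · exfalso
      have h3 := hsign z hzD hzC
      have h4 : cosetSign M z = 1 := MonoidHom.mem_ker.1 (hKG₁ hzK)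
      rw [h4] at h3
      exact absurd h3 (by decide)
    obtain ⟨g, hg⟩ := hC.exists_generator
    have hCS2 : IsPGroup 2 C := hS2.to_le (hCD.trans hDS)
    obtain ⟨k, hk⟩ := (IsPGroup.iff_card).1 hCS2
    have hgord : orderOf (g : G) = 2 ^ k := by
      rw [Subgroup.orderOf_coe, orderOf_eq_card_of_forall_mem_zpowers hg, hk]
    obtain ⟨j, hj⟩ : ∃ j : ℕ, (g : G) ^ j = z := by
      have h3 : (⟨z, hzC⟩ : C) ∈ Submonoid.powers g :=
        (mem_powers_iff_mem_zpowers).2 (hg ⟨z, hzC⟩)
      obtain ⟨j, hj⟩ := (Submonoid.mem_powers_iff _ _).1 h3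
      exact ⟨j, congrArg Subtype.val hj⟩
    rcases Nat.eq_zero_or_pos k with hk0 | hkpos
    · rw [hk0, pow_zero, orderOf_eq_one_iff] at hgord
      rw [← hj, hgord, one_pow]
    have hgG₁ : (g : G) ∈ G₁ := hCG₁ g.2
    have hgpow : (g : G) ^ (2 ^ k) = 1 := by rw [← hgord]; exact pow_orderOf_eq_one _
    have hc₀ord : orderOf ((g : G) ^ (2 ^ (k - 1))) = 2 := by
      apply orderOf_eq_prime
      · rw [← pow_mul, ← pow_succ, Nat.sub_add_cancel hkpos]; exact hgpow
      · apply pow_ne_one_of_lt_orderOf (by positivity)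
        rw [hgord]
        exact Nat.pow_lt_pow_right (by norm_num) (by omega)
    have hTidx : (T.subgroupOf G₁).index = 2 ^ k * S.index := by
      have h3 := Subgroup.relIndex_mul_index (hTK.trans hKG₁)
      have h4 := Subgroup.relIndex_mul_index hTS
      have h5 := card_mul_relIndex32 hTS
      have h6 : T.relIndex S = 2 ^ k * 2 := by
        have hpos : 0 < Nat.card T := Nat.card_pos
        have : Nat.card T * T.relIndex S = Nat.card T * (2 ^ k * 2) := by
          rw [h5, ← hTDc, ← hcardD, hk]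
        exact Nat.eq_of_mul_eq_mul_left hpos this
      rw [hG₁idx, ← h4, h6] at h3
      have h7 : T.relIndex G₁ * 2 = 2 ^ k * S.index * 2 := by rw [h3]; ring
      exact Nat.eq_of_mul_eq_mul_right (by norm_num) h7
    have hchain := pow_eq_one_of_mem_pResidual k hkpos G₁ (T.subgroupOf G₁) ⟨(g : G), hgG₁⟩
      S.index (Subtype.ext hgpow)
      (by
        intro y hy
        rw [mem_subgroupOf] at hy
        apply h2 _ (C.pow_mem g.2 _) hc₀ord (y : G)⁻¹
        simpa using hy)
      hTidx hSodd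
      (by
        intro t ht
        exact mem_pResidual_subtype G₁ hKG₁ (hTK (mem_subgroupOf.1 ht)))
      j
      (by
        have h3 := mem_pResidual_subtype G₁ hKG₁ hzK
        have h4 : (⟨(g : G), hgG₁⟩ : G₁) ^ j = ⟨z, hKG₁ hzK⟩ := Subtype.ext hj
        rw [h4]; exact h3)
    rw [← hj]
    exact congrArg Subtype.val hchain
  -- `S ∩ K = T`
  have hSK : S ⊓ K = T := by
    symm
    apply Subgroup.eq_of_le_of_card_ge (le_inf hTS hTK)
    have h3 : (S ⊓ K) ⊓ D = ⊥ := by
      rw [eq_bot_iff, ← hDK]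
      exact le_inf inf_le_right (inf_le_left.trans inf_le_right)
    have h4 := card_mul_le_of_inf_eq_bot (S ⊓ K) D S inf_le_left hDS h3
    rw [← hTDc] at h4
    exact Nat.le_of_mul_le_mul_right h4 Nat.card_pos
  have hTsylK : ¬ 2 ∣ T.relIndex K := by
    have h3 := not_dvd_relIndex_sylow_inf_normal (hS2.toSylow hSsyl) K
    have h4 : ((hS2.toSylow hSsyl : Sylow 2 G) : Subgroup G) ⊓ K = T := hSK
    rwa [h4] at h3
  refine ⟨K, hKn, ?_, ?_⟩
  · have h3 := Cfsg.Agent.Helper2.sylow_sup_pResidual (hS2.toSylow hSsyl)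
    have h4 : S ⊔ K = ⊤ := h3
    rw [eq_top_iff, ← h4, ← hTD]
    exact sup_le (sup_le (hTK.trans le_sup_left) le_sup_right) le_sup_left
  · intro T' hT'L hT'2 hT'syl
    have hT'K : T' ≤ K := hT'L.trans hLK
    refine ⟨hT'K, ?_⟩
    have hcardeq : Nat.card T' = Nat.card T := by
      have h3 := card_mul_relIndex32 hTL
      have h4 := card_mul_relIndex32 hT'L
      obtain ⟨a, ha⟩ := (IsPGroup.iff_card).1 hT2
      obtain ⟨b, hb⟩ := (IsPGroup.iff_card).1 hT'2
      have hc1 : Nat.Coprime (Nat.card T) (T'.relIndex L) := by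
        rw [ha]
        exact Nat.Coprime.pow_left a ((Nat.Prime.coprime_iff_not_dvd Nat.prime_two).2 hT'syl)
      have hc2 : Nat.Coprime (Nat.card T') (T.relIndex L) := by
        rw [hb]
        exact Nat.Coprime.pow_left b ((Nat.Prime.coprime_iff_not_dvd Nat.prime_two).2 hTsyl)
      have hd1 : Nat.card T ∣ Nat.card T' := by
        apply hc1.dvd_of_dvd_mul_right
        rw [h4, ← h3]; exact dvd_mul_right _ _
      have hd2 : Nat.card T' ∣ Nat.card T := by
        apply hc2.dvd_of_dvd_mul_right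
        rw [h3, ← h4]; exact dvd_mul_right _ _
      exact Nat.dvd_antisymm hd2 hd1
    have h5 := card_mul_relIndex32 hTK
    have h6 := card_mul_relIndex32 hT'K
    have h7 : T'.relIndex K = T.relIndex K := by
      have hpos : 0 < Nat.card T := Nat.card_pos
      have : Nat.card T * T'.relIndex K = Nat.card T * T.relIndex K := by
        rw [h5, ← hcardeq, h6]
      exact Nat.eq_of_mul_eq_mul_left hpos this
    rw [h7]; exact hTsylK

end Cfsg.Agent.S1924
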