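import Cfsg.Statements.S1939
import Cfsg.Agent.Helper32.Basic

set_option autoImplicit false
open Cfsg

namespace Cfsg.Agent.S1939

/-- Let S be a Sylow p-subgroup of the finite group G and a an element of S that is the only G-conjugate of a lying in S. Then every power of a has the same property: for every n, the only G-conjugate of a^n lying in S is a^n. -/
theorem result {G : Type*} [Group G] [Finite G] {p : ℕ} [Fact p.Prime] (S : Sylow p G) (a : G)
    (haS : a ∈ (S : Subgroup G)) (hwc : ∀ g : G, g * a * g⁻¹ ∈ (S : Subgroup G) → g * a * g⁻¹ = a) (n : ℕ) :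
    ∀ g : G, g * a ^ n * g⁻¹ ∈ (S : Subgroup G) → g * a ^ n * g⁻¹ = a ^ n := by
  intro g hg
  -- `a` is central in `S`
  have haZ : ∀ s ∈ (S : Subgroup G), s * a = a * s := by
    intro s hs
    have h := hwc s ((S : Subgroup G).mul_mem ((S : Subgroup G).mul_mem hs haS) ((S : Subgroup G).inv_mem hs))
    calc s * a = s * a * s⁻¹ * s := by group
      _ = a * s := by rw [h]
  have haZn : ∀ s ∈ (S : Subgroup G), s * a ^ n = a ^ n * s := by
    intro s hs
    exact ((Commute.pow_right (haZ s hs) n) : Commute s (a ^ n)).eq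
  set b' := g * a ^ n * g⁻¹ with hb'
  set C := Subgroup.centralizer ({b'} : Set G) with hC
  have hmemC : ∀ y : G, y ∈ C ↔ y * b' = b' * y := by
    intro y
    rw [hC, Subgroup.mem_centralizer_iff]
    constructor
    · intro h; exact (h b' rfl).symm
    · intro h x hx; rw [Set.mem_singleton_iff.1 hx]; exact h.symm
  have hS'C : ((g • S : Sylow p G) : Subgroup G) ≤ C := by
    intro y hy
    rw [Sylow.smul_def, Sylow.pointwise_smul_def, Subgroup.mem_pointwise_smul_iff_inv_smul_mem] at hy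
    have hy' : g⁻¹ * y * g ∈ (S : Subgroup G) := by simpa [MulAut.smul_def] using hy
    have h := haZn _ hy'
    rw [hmemC, hb']
    have : y = g * (g⁻¹ * y * g) * g⁻¹ := by group
    rw [this]
    calc g * (g⁻¹ * y * g) * g⁻¹ * (g * a ^ n * g⁻¹) = g * ((g⁻¹ * y * g) * a ^ n) * g⁻¹ := by group
      _ = g * (a ^ n * (g⁻¹ * y * g)) * g⁻¹ := by rw [h]
      _ = g * a ^ n * g⁻¹ * (g * (g⁻¹ * y * g) * g⁻¹) := by group
  have haC : Subgroup.zpowers a ≤ C := by
    rw [Subgroup.zpowers_le, hmemC]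
    exact (haZ b' hg).symm
  have hpa : IsPGroup p (Subgroup.zpowers a) :=
    (S.isPGroup').to_le ((Subgroup.zpowers_le).2 haS)
  obtain ⟨c, hcC, hc⟩ := Cfsg.Agent.Helper32.exists_conj_mem_sylow_of_le (g • S) C hS'C
    (Subgroup.zpowers a) hpa haC
  have h1 : c⁻¹ * a * c ∈ ((g • S : Sylow p G) : Subgroup G) := hc a (Subgroup.mem_zpowers a)
  rw [Sylow.smul_def, Sylow.pointwise_smul_def, Subgroup.mem_pointwise_smul_iff_inv_smul_mem] at h1
  have h1' : (c * g)⁻¹ * a * (c * g)⁻¹⁻¹ ∈ (S : Subgroup G) := by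
    simpa [MulAut.smul_def, mul_assoc] using h1
  have h2 := hwc (c * g)⁻¹ h1'
  -- `c * g` commutes with `a`
  have h3 : Commute (c * g) a := by
    have : (c * g) * a = a * (c * g) := by
      calc (c * g) * a = (c * g) * ((c * g)⁻¹ * a * (c * g)⁻¹⁻¹) := by rw [h2]
        _ = a * (c * g) := by group
    exact this
  have h4 : (c * g) * a ^ n = a ^ n * (c * g) := (h3.pow_right n).eq
  have h5 : c * b' = b' * c := (hmemC c).1 hcC
  -- conclude
  have h6 : c * b' * c⁻¹ = a ^ n := by
    calc c * b' * c⁻¹ = (c * g) * a ^ n * (c * g)⁻¹ := by rw [hb']; group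
      _ = a ^ n := by rw [h4]; group
  calc b' = b' * c * c⁻¹ := by group
    _ = c * b' * c⁻¹ := by rw [h5]
    _ = a ^ n := h6

end Cfsg.Agent.S1939
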