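import Cfsg.Statements.S1940

set_option autoImplicit false
open Cfsg

namespace Cfsg.Agent.S1940

/-- Let the finite group L act by automorphisms on the finite abelian group M, and let N be an L-invariant subgroup of M such that M/N is a p-group on which L acts trivially (every l • m lies in the coset mN). If every element of M is a product of an element of N and an element fixed by a Sylow p-subgroup T of L, then every element of M is a product of an element of N and an element fixed by all of L. -/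
theorem result {L : Type*} [Group L] [Finite L] {M : Type*} [CommGroup M] [Finite M] [MulDistribMulAction L M]
    {p : ℕ} [Fact p.Prime] (N : Subgroup M) (hN : ∀ (l : L) (m : M), m ∈ N → l • m ∈ N)
    (hquot : IsPGroup p (M ⧸ N)) (htriv : ∀ (l : L) (m : M), (l • m) * m⁻¹ ∈ N) (T : Sylow p L)
    (hT : ∀ m : M, ∃ n ∈ N, ∃ c : M, (∀ t ∈ (T : Subgroup L), t • c = c) ∧ m = n * c) :
    ∀ m : M, ∃ n ∈ N, ∃ c : M, (∀ l : L, l • c = c) ∧ m = n * c := by
  classical
  intro m
  obtain ⟨n₀, hn₀, c, hc, hm⟩ := hT m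
  letI : Fintype (L ⧸ (T : Subgroup L)) := Fintype.ofFinite _
  set c' : M := ∏ q : L ⧸ (T : Subgroup L), (q.out • c) with hc'
  have hout : ∀ g : L, (QuotientGroup.mk g : L ⧸ (T : Subgroup L)).out • c = g • c := by
    intro g
    obtain ⟨h, hh⟩ := QuotientGroup.mk_out_eq_mul (T : Subgroup L) g
    rw [hh, mul_smul, hc h h.2]
  -- c' is fixed by L
  have hfix : ∀ l : L, l • c' = c' := by
    intro l
    rw [hc', Finset.smul_prod']
    have h1 : ∀ q : L ⧸ (T : Subgroup L), l • (q.out • c) = (l • q).out • c := by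
      intro q
      have : l • q = (QuotientGroup.mk (l * q.out) : L ⧸ (T : Subgroup L)) := by
        conv_lhs => rw [← QuotientGroup.out_eq' q]
        rfl
      rw [this, hout, mul_smul]
    simp_rw [h1]
    exact Fintype.prod_equiv (MulAction.toPerm l) _ _ (fun q => rfl)
  -- c' ≡ c ^ k mod N, where k is the index of T
  set k : ℕ := Fintype.card (L ⧸ (T : Subgroup L)) with hk
  have hck : c' * (c ^ k)⁻¹ ∈ N := by
    have h2 : ∏ q : L ⧸ (T : Subgroup L), ((q.out • c) * c⁻¹) = c' * (c ^ k)⁻¹ := by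
      rw [Finset.prod_mul_distrib, Finset.prod_const, Finset.card_univ, inv_pow]
    rw [← h2]
    exact Subgroup.prod_mem N (fun q _ => htriv q.out c)
  -- k is coprime to p
  have hkp : ¬ p ∣ k := by
    have := T.not_dvd_index
    rwa [Subgroup.index_eq_card, Nat.card_eq_fintype_card] at this
  -- c ^ (p ^ e) ∈ N
  obtain ⟨e, he⟩ := hquot (QuotientGroup.mk c)
  have hcpe : c ^ (p ^ e) ∈ N := by
    rw [← QuotientGroup.mk_pow] at he
    exact (QuotientGroup.eq_one_iff _).1 he
  -- Bezout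
  have hcop : Nat.Coprime k (p ^ e) := by
    apply Nat.Coprime.pow_right
    exact (Nat.Coprime.symm ((Nat.Prime.coprime_iff_not_dvd (Fact.out)).2 hkp))
  have hbez : (k : ℤ) * Nat.gcdA k (p ^ e) + ((p ^ e : ℕ) : ℤ) * Nat.gcdB k (p ^ e) = 1 := by
    have := Nat.gcd_eq_gcd_ab k (p ^ e)
    rw [hcop] at this
    exact_mod_cast this.symm
  set a : ℤ := Nat.gcdA k (p ^ e) with ha
  set b : ℤ := Nat.gcdB k (p ^ e) with hb
  -- c = (c^k)^a * (c^(p^e))^b
  have hcdecomp : c = (c ^ k) ^ a * (c ^ (p ^ e)) ^ b := by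
    rw [← zpow_natCast c k, ← zpow_natCast c (p ^ e), ← zpow_mul, ← zpow_mul, ← zpow_add, hbez, zpow_one]
  have h3 : c * (c' ^ a)⁻¹ ∈ N := by
    have h4 : (c ^ k) ^ a * (c' ^ a)⁻¹ ∈ N := by
      have h5 : (c ^ k) ^ a * (c' ^ a)⁻¹ = ((c' * (c ^ k)⁻¹) ^ a)⁻¹ := by
        rw [mul_zpow, inv_zpow, mul_inv, inv_inv, mul_comm]
      rw [h5]
      exact N.inv_mem (N.zpow_mem hck a)
    have h6 : c * (c' ^ a)⁻¹ = ((c ^ k) ^ a * (c' ^ a)⁻¹) * (c ^ (p ^ e)) ^ b := by
      conv_lhs => rw [hcdecomp]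
      rw [mul_assoc, mul_assoc, mul_comm ((c ^ (p ^ e)) ^ b)]
    rw [h6]
    exact N.mul_mem h4 (N.zpow_mem hcpe b)
  refine ⟨n₀ * (c * (c' ^ a)⁻¹), N.mul_mem hn₀ h3, c' ^ a, ?_, ?_⟩
  · intro l
    rw [smul_zpow', hfix]
  · rw [hm, mul_assoc, mul_assoc, inv_mul_cancel, mul_one]

end Cfsg.Agent.S1940
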