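import Cfsg.Statements.S1941
import Cfsg.Agent.Helper22.Bender
import Cfsg.Agent.Helper32.HallHigman

set_option autoImplicit false
open Cfsg

namespace Cfsg.Agent.S1941

open Cfsg.Agent.Helper32

/-- If `O_{p'}(G) = 1`, every normal nilpotent subgroup of `G` lies in each Sylow `p`-subgroup. -/
theorem normal_nilpotent_le_sylow {G : Type*} [Group G] [Finite G] {p : ℕ} [hp : Fact p.Prime]
    (hcore : Cfsg.pPrimeCore p G = ⊥) (T : Sylow p G) (N : Subgroup G) [hN : N.Normal]
    (hnil : Group.IsNilpotent N) : N ≤ T := by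
  have hNp : IsPGroup p N := by
    rw [IsPGroup.iff_card]
    refine ⟨_, Nat.eq_prime_pow_of_unique_prime_dvd Nat.card_pos.ne' ?_⟩
    intro q hq hqdvd
    by_contra hqp
    have hqf : Fact q.Prime := ⟨hq⟩
    obtain ⟨Q⟩ : Nonempty (Sylow q N) := inferInstance
    have hQn : (Q : Subgroup N).Normal := inferInstance
    have hQc : (Q : Subgroup N).Characteristic := Sylow.characteristic_of_normal Q hQn
    have hQG : ((Q : Subgroup N).map N.subtype).Normal :=
      ConjAct.normal_of_characteristic_of_normal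
    have hcard : (Nat.card ((Q : Subgroup N).map N.subtype)).Coprime p := by
      rw [Subgroup.card_map_of_injective N.subtype_injective]
      obtain ⟨k, hk⟩ := (IsPGroup.iff_card).1 Q.isPGroup'
      rw [hk]
      exact Nat.Coprime.pow_left k ((Nat.coprime_primes hq hp.out).2 hqp)
    have hle := le_pPrimeCore' _ hcard
    rw [hcore, le_bot_iff] at hle
    have hQbot : (Q : Subgroup N) = ⊥ := by
      rwa [Subgroup.map_eq_bot_iff_of_injective _ N.subtype_injective] at hle
    have := Q.not_dvd_index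
    rw [hQbot, Subgroup.index_bot] at this
    exact this hqdvd
  exact hNp.le_sylow_of_normal T

open scoped IsMulCommutative in
/-- Let G be a finite group with no nontrivial normal subgroup of order prime to p, T a Sylow p-subgroup of G and E(G) the layer of G (the subgroup generated by its components). An automorphism of G of p-power order that fixes T and E(G) elementwise is inner. -/
theorem result {G : Type*} [Group G] [Finite G] {p : ℕ} [Fact p.Prime] (hcore : Cfsg.pPrimeCore p G = ⊥)
    (T : Sylow p G) (α : MulAut G) (hα : ∃ j : ℕ, orderOf α = p ^ j) (hfixT : ∀ x ∈ (T : Subgroup G), α x = x)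
    (hfixE : ∀ x ∈ Cfsg.layer G, α x = x) : ∃ g : G, ∀ x : G, α x = g * x * g⁻¹ := by
  classical
  have hp : p.Prime := Fact.out
  set Fs := Cfsg.generalizedFittingSubgroup G with hFs
  have hFsn : Fs.Normal := Cfsg.Agent.Helper22.generalizedFittingSubgroup_normal G
  let Fix : Subgroup G :=
    { carrier := {x | α x = x}
      mul_mem' := fun {a b} ha hb => by
        show α (a * b) = a * b
        rw [map_mul, show α a = a from ha, show α b = b from hb]
      one_mem' := map_one α
      inv_mem' := fun {a} ha => by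
        show α a⁻¹ = a⁻¹
        rw [map_inv, show α a = a from ha] }
  have hFitT : Cfsg.fittingSubgroup G ≤ T := sSup_le (fun N hN => by
    have := hN.1
    exact normal_nilpotent_le_sylow hcore T N hN.2)
  have hfixF : ∀ x ∈ Fs, α x = x := by
    have : Fs ≤ Fix := sup_le (fun x hx => hfixE x hx) (fun x hx => hfixT x (hFitT hx))
    exact fun x hx => this hx
  set Z : Subgroup G := Fs ⊓ Subgroup.centralizer (Fs : Set G) with hZ
  have hZn : Z.Normal := inferInstance
  have hZc : IsMulCommutative Z := ⟨⟨fun a b => Subtype.ext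
    (Subgroup.mem_centralizer_iff.1 (Subgroup.mem_inf.1 b.2).2 a (Subgroup.mem_inf.1 a.2).1)⟩⟩
  have hZT : Z ≤ T := by
    have hnil : Group.IsNilpotent Z := inferInstance
    exact normal_nilpotent_le_sylow hcore T Z hnil
  have hZp : IsPGroup p Z := T.isPGroup'.to_le hZT
  have heZ : ∀ g : G, α g * g⁻¹ ∈ Z := by
    intro g
    have hc : α g * g⁻¹ ∈ Subgroup.centralizer (Fs : Set G) := by
      rw [Subgroup.mem_centralizer_iff]
      intro y hy
      have hx : g⁻¹ * y * g ∈ Fs := by simpa using hFsn.conj_mem y hy g⁻¹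
      have h1 : α (g * (g⁻¹ * y * g) * g⁻¹) = α g * (g⁻¹ * y * g) * (α g)⁻¹ := by
        rw [map_mul, map_mul, map_inv, hfixF _ hx]
      have h2 : g * (g⁻¹ * y * g) * g⁻¹ = y := by group
      rw [h2, hfixF y hy] at h1
      calc y * (α g * g⁻¹) = (α g * (g⁻¹ * y * g) * (α g)⁻¹) * (α g * g⁻¹) := by rw [← h1]
        _ = α g * g⁻¹ * y := by group
    exact Subgroup.mem_inf.2
      ⟨Cfsg.Agent.Helper22.centralizer_generalizedFittingSubgroup_le G hc, hc⟩
  let e : G → Z := fun g => ⟨α g * g⁻¹, heZ g⟩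
  let cj : G → (Z →* Z) := fun h =>
    { toFun := fun v => ⟨h * v * h⁻¹, hZn.conj_mem v v.2 h⟩
      map_one' := by ext; simp
      map_mul' := fun a b => by ext; simp }
  have he : ∀ g : G, ((e g : Z) : G) = α g * g⁻¹ := fun g => rfl
  have hcj : ∀ (h : G) (v : Z), ((cj h v : Z) : G) = h * v * h⁻¹ := fun h v => rfl
  have he_mul : ∀ h g : G, e (h * g) = e h * cj h (e g) := by
    intro h g
    apply Subtype.ext
    show α (h * g) * (h * g)⁻¹ = (α h * h⁻¹) * (h * (α g * g⁻¹) * h⁻¹)
    rw [map_mul]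
    group
  have he_T : ∀ g : G, ∀ t ∈ (T : Subgroup G), e (g * t) = e g := by
    intro g t ht
    apply Subtype.ext
    show α (g * t) * (g * t)⁻¹ = α g * g⁻¹
    rw [map_mul, hfixT t ht]
    group
  letI : Fintype (G ⧸ (T : Subgroup G)) := Fintype.ofFinite _
  have hout : ∀ g : G, e (QuotientGroup.mk g : G ⧸ (T : Subgroup G)).out = e g := by
    intro g
    obtain ⟨t, ht⟩ := QuotientGroup.mk_out_eq_mul (T : Subgroup G) g
    rw [ht]
    exact he_T g t t.2
  set m : ℕ := Fintype.card (G ⧸ (T : Subgroup G)) with hm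
  have hmp : ¬ p ∣ m := by
    have := T.not_dvd_index
    rwa [Subgroup.index_eq_card, Nat.card_eq_fintype_card] at this
  set w : Z := ∏ q : G ⧸ (T : Subgroup G), e q.out with hw
  have hwh : ∀ h : G, w = (e h) ^ m * cj h w := by
    intro h
    have h1 : ∀ q : G ⧸ (T : Subgroup G), e (h • q).out = e h * cj h (e q.out) := by
      intro q
      have h2 : h • q = (QuotientGroup.mk (h * q.out) : G ⧸ (T : Subgroup G)) := by
        conv_lhs => rw [← QuotientGroup.out_eq' q]
        rfl
      rw [h2, hout, he_mul]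
    have h3 : w = ∏ q : G ⧸ (T : Subgroup G), e (h • q).out :=
      (Fintype.prod_equiv (MulAction.toPerm h)
        (fun q : G ⧸ (T : Subgroup G) => e (h • q).out)
        (fun q : G ⧸ (T : Subgroup G) => e q.out) (fun q => rfl)).symm
    have h4 : ∏ q : G ⧸ (T : Subgroup G), e (h • q).out = (e h) ^ m * cj h w := by
      simp_rw [h1]
      rw [Finset.prod_mul_distrib, Finset.prod_const, Finset.card_univ, hw, map_prod]
    exact h3.trans h4
  obtain ⟨k, hk⟩ := (IsPGroup.iff_card).1 hZp
  have hcop : Nat.Coprime m (p ^ k) :=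
    Nat.Coprime.pow_right k ((Nat.Prime.coprime_iff_not_dvd hp).2 hmp).symm
  have hbez : (m : ℤ) * Nat.gcdA m (p ^ k) + ((p ^ k : ℕ) : ℤ) * Nat.gcdB m (p ^ k) = 1 := by
    have := Nat.gcd_eq_gcd_ab m (p ^ k)
    rw [hcop] at this
    exact_mod_cast this.symm
  set a : ℤ := Nat.gcdA m (p ^ k) with ha
  set b : ℤ := Nat.gcdB m (p ^ k) with hb
  have hpowZ : ∀ y : Z, y ^ (p ^ k) = 1 := by
    intro y
    rw [← hk]
    exact pow_card_eq_one'
  refine ⟨((w ^ a : Z) : G), fun x => ?_⟩
  have h1 : (e x) ^ m = w * (cj x w)⁻¹ := eq_mul_inv_of_mul_eq (hwh x).symm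
  have h2 : e x = w ^ a * (cj x (w ^ a))⁻¹ := by
    have h3 : e x = ((e x) ^ m) ^ a * ((e x) ^ (p ^ k)) ^ b := by
      rw [← zpow_natCast (e x) m, ← zpow_natCast (e x) (p ^ k), ← zpow_mul, ← zpow_mul,
        ← zpow_add, hbez, zpow_one]
    rw [hpowZ, one_zpow, mul_one, h1, mul_zpow, inv_zpow, ← map_zpow] at h3
    exact h3
  have h4 : α x * x⁻¹ = ((w ^ a : Z) : G) * (x * ((w ^ a : Z) : G) * x⁻¹)⁻¹ := by
    have := congrArg Subtype.val h2
    exact this
  calc α x = (α x * x⁻¹) * x := by group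
    _ = ((w ^ a : Z) : G) * (x * ((w ^ a : Z) : G) * x⁻¹)⁻¹ * x := by rw [h4]
    _ = ((w ^ a : Z) : G) * x * ((w ^ a : Z) : G)⁻¹ := by group

end Cfsg.Agent.S1941
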