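import Cfsg.Statements.S1944
import Cfsg.Agent.Helper32.PPrimeFusion
import Cfsg.Agent.Helper32.Trace

set_option autoImplicit false
open Cfsg

namespace Cfsg.Agent.S1944

open Cfsg.Agent.Helper32

/-- Let S be a Sylow p-subgroup of the finite group G and suppose that the centre Z(S) lies in O_{p',p}(G). The elements of S each of which is its only G-conjugate in S form a subgroup W of Z(S); W is then a direct factor of Z(S): there is a subgroup K of Z(S) with W ∩ K = 1 and WK = Z(S). -/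
theorem result {G : Type*} [Group G] [Finite G] {p : ℕ} [Fact p.Prime] (S : Sylow p G)
    (hZ : ((S : Subgroup G) ⊓ Subgroup.centralizer ((S : Subgroup G) : Set G)) ≤ Cfsg.pPrimePCore p G) :
    ∃ W K : Subgroup G, (∀ x : G, x ∈ W ↔ (x ∈ (S : Subgroup G) ∧ ∀ g : G, g * x * g⁻¹ ∈ (S : Subgroup G) → g * x * g⁻¹ = x)) ∧
      K ≤ ((S : Subgroup G) ⊓ Subgroup.centralizer ((S : Subgroup G) : Set G)) ∧ W ⊓ K = ⊥ ∧ W ⊔ K = ((S : Subgroup G) ⊓ Subgroup.centralizer ((S : Subgroup G) : Set G)) := by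
  have hp : p.Prime := Fact.out
  have hOn : (Cfsg.pPrimePCore p G).Normal := pPrimePCore_normal' p G
  set H : Subgroup G := (S : Subgroup G) ⊓ Cfsg.pPrimePCore p G with hH
  set N : Subgroup G := Subgroup.normalizer (H : Set G) with hN
  set V : Subgroup G := H ⊓ Subgroup.centralizer (H : Set G) with hV
  have hVc : IsMulCommutative V := ⟨⟨fun a b => Subtype.ext
    ((Subgroup.mem_centralizer_iff.1 (Subgroup.mem_inf.1 b.2).2 a (Subgroup.mem_inf.1 a.2).1))⟩⟩
  have hSN : (S : Subgroup G) ≤ N := sylow_le_normalizer_inf_normal S (Cfsg.pPrimePCore p G)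
  have hVS : V ≤ (S : Subgroup G) := le_trans inf_le_left inf_le_left
  have hVp : IsPGroup p V := S.isPGroup'.to_le hVS
  have hidx : ¬ p ∣ (S : Subgroup G).relIndex N := fun h =>
    S.not_dvd_index (dvd_trans h (Subgroup.relIndex_dvd_index_of_le hSN))
  have hNV : ∀ n ∈ N, ∀ v ∈ V, n * v * n⁻¹ ∈ V := by
    intro n hn v hv
    obtain ⟨hv1, hv2⟩ := Subgroup.mem_inf.1 hv
    refine Subgroup.mem_inf.2 ⟨(Subgroup.mem_normalizer_iff.1 hn v).1 hv1, ?_⟩
    rw [Subgroup.mem_centralizer_iff]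
    intro h hh
    have h1 : n⁻¹ * h * n ∈ H := (Subgroup.mem_normalizer_iff''.1 hn h).1 hh
    have h2 := Subgroup.mem_centralizer_iff.1 hv2 _ h1
    calc h * (n * v * n⁻¹) = n * ((n⁻¹ * h * n) * v) * n⁻¹ := by group
      _ = n * (v * (n⁻¹ * h * n)) * n⁻¹ := by rw [h2]
      _ = n * v * n⁻¹ * h := by group
  obtain ⟨K, hK1, hK2, hK3⟩ := exists_complement_of_trace N (S : Subgroup G) V hSN hidx hVp hNV
  have hZV : (S : Subgroup G) ⊓ Subgroup.centralizer ((S : Subgroup G) : Set G) =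
      V ⊓ Subgroup.centralizer ((S : Subgroup G) : Set G) := by
    apply le_antisymm
    · intro x hx
      obtain ⟨hx1, hx2⟩ := Subgroup.mem_inf.1 hx
      refine Subgroup.mem_inf.2 ⟨Subgroup.mem_inf.2 ⟨Subgroup.mem_inf.2 ⟨hx1, hZ hx⟩, ?_⟩, hx2⟩
      exact Subgroup.centralizer_le (inf_le_left : H ≤ (S : Subgroup G)) hx2
    · exact inf_le_inf_right _ hVS
  refine ⟨V ⊓ Subgroup.centralizer (N : Set G), K, ?_, hZV ▸ hK1, hK2, hZV ▸ hK3⟩
  intro x
  constructor
  · intro hx
    obtain ⟨hxV, hxN⟩ := Subgroup.mem_inf.1 hx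
    refine ⟨hVS hxV, fun g hg => ?_⟩
    obtain ⟨n, hn, hnx⟩ := pPrime_fusion_control S x g (hVS hxV) hg
    rw [← hnx]
    have := Subgroup.mem_centralizer_iff.1 hxN n hn
    rw [this]
    group
  · rintro ⟨hxS, hx⟩
    have hxC : x ∈ Subgroup.centralizer ((S : Subgroup G) : Set G) := by
      rw [Subgroup.mem_centralizer_iff]
      intro s hs
      have := hx s (mul_mem (mul_mem hs hxS) (inv_mem hs))
      calc s * x = s * x * s⁻¹ * s := by group
        _ = x * s := by rw [this]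
    have hxV : x ∈ V := by
      have : x ∈ V ⊓ Subgroup.centralizer ((S : Subgroup G) : Set G) :=
        hZV ▸ Subgroup.mem_inf.2 ⟨hxS, hxC⟩
      exact (Subgroup.mem_inf.1 this).1
    refine Subgroup.mem_inf.2 ⟨hxV, ?_⟩
    rw [Subgroup.mem_centralizer_iff]
    intro n hn
    have := hx n (hVS (hNV n hn x hxV))
    calc n * x = n * x * n⁻¹ * n := by group
      _ = x * n := by rw [this]

end Cfsg.Agent.S1944
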