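import Cfsg.Statements.S1947
import Cfsg.Agent.Helper32.OmegaDetect

set_option autoImplicit false
open Cfsg

namespace Cfsg.Agent.S1947

/-- Let G be a finite group and p a prime. If every element of G of order dividing p (dividing 4 when p = 2) lies in some fixed term Z_n(G) of the upper central series, then G has a normal p-complement. -/
theorem result {G : Type*} [Group G] [Finite G] {p : ℕ} [Fact p.Prime] (n : ℕ)
    (h : ∀ a : G, (a ^ p = 1 ∨ (p = 2 ∧ a ^ 4 = 1)) → a ∈ Subgroup.upperCentralSeries G n) : Cfsg.HasNormalPComplement p G := by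
  classical
  obtain ⟨P⟩ : Nonempty (Sylow p G) := inferInstance
  rw [Cfsg.Agent.Helper33.hasNormalPComplement_iff_p']
  refine Cfsg.Agent.Helper33.frobenius_p' (Nat.card G) G rfl P ?_
  intro Q hQP g hgQ hcop
  have hQ : IsPGroup p Q := P.isPGroup'.to_le hQP
  rw [Subgroup.mem_centralizer_iff]
  intro x hx
  refine (Cfsg.Agent.Helper32.centralizes_of_small g hcop (Nat.card Q) Q le_rfl hQ hgQ ?_ x hx).symm
  intro Q₁ hQ₁ hg₁ hsm
  have hQ₁p : IsPGroup p Q₁ := hQ.to_le hQ₁
  have key : ∀ i : ℕ, ∀ a ∈ Q₁, a ∈ Subgroup.upperCentralSeries G i → g * a = a * g := by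
    intro i
    induction i with
    | zero =>
      intro a _ ha
      rw [Subgroup.upperCentralSeries_zero, Subgroup.mem_bot] at ha
      rw [ha, mul_one, one_mul]
    | succ i ih =>
      intro a ha haZ
      apply Cfsg.Agent.Helper32.commute_of_commutator_commute hQ₁p hg₁ hcop ha
      apply ih
      · exact Q₁.mul_mem ((Subgroup.mem_normalizer_iff.1 hg₁ a).1 ha) (Q₁.inv_mem ha)
      · have h1 : a * g * a⁻¹ * g⁻¹ ∈ Subgroup.upperCentralSeries G i :=
          Subgroup.mem_upperCentralSeries_succ_iff.1 haZ g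
        have e : g * a * g⁻¹ * a⁻¹ = (a * g * a⁻¹ * g⁻¹)⁻¹ := by group
        rw [e]; exact inv_mem h1
  intro a ha
  exact key n a ha (h a (hsm a ha))

end Cfsg.Agent.S1947
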