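import Cfsg.Statements.S1948
import Cfsg.Agent.Helper32.PConstrained

set_option autoImplicit false
open Cfsg

namespace Cfsg.Agent.S1948

open Cfsg.Agent.Helper32

/-- Let S be a Sylow p-subgroup of the finite group G. Then G = N_G(S)·O_{p'}(G) if and only if G is p-constrained and N_G(S) controls fusion in S, in the sense that whenever a subgroup Q of S has a conjugate g Q g⁻¹ inside S, the element g is a product n c with n normalizing S and c centralizing Q. -/
theorem result {G : Type*} [Group G] [Finite G] {p : ℕ} [Fact p.Prime] (S : Sylow p G) :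
    Subgroup.normalizer ((S : Subgroup G) : Set G) ⊔ Cfsg.pPrimeCore p G = ⊤ ↔
      (Cfsg.IsPConstrained p G ∧
        ∀ Q : Subgroup G, Q ≤ (S : Subgroup G) → ∀ g : G, Q.map (MulAut.conj g).toMonoidHom ≤ (S : Subgroup G) →
          ∃ n ∈ Subgroup.normalizer ((S : Subgroup G) : Set G), ∃ c ∈ Subgroup.centralizer (Q : Set G), g = n * c) := by
  have hp : p.Prime := Fact.out
  have hDn : (Cfsg.pPrimeCore p G).Normal := Cfsg.pPrimeCore_normal p G
  have hWn : (Cfsg.pPrimePCore p G).Normal := pPrimePCore_normal' p G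
  constructor
  · intro h
    obtain ⟨hSW, hCW⟩ := sylow_le_pPrimePCore_of_sup_eq_top S h
    have hdec : ∀ g : G, ∃ n ∈ Subgroup.normalizer ((S : Subgroup G) : Set G),
        ∃ d ∈ Cfsg.pPrimeCore p G, g = n * d := by
      intro g
      have hg : g ∈ ((Subgroup.normalizer ((S : Subgroup G) : Set G) ⊔ Cfsg.pPrimeCore p G :
          Subgroup G) : Set G) := by
        rw [h]
        trivial
      rw [Subgroup.mul_normal] at hg
      obtain ⟨n, hn, d, hd, rfl⟩ := hg
      exact ⟨n, hn, d, hd, rfl⟩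
    constructor
    · intro P
      have hS' : IsPGroup p ((S : Subgroup G).subgroupOf (Cfsg.pPrimePCore p G)) :=
        S.isPGroup'.comap_subtype
      obtain ⟨Q, hQ⟩ := hS'.exists_le_sylow
      obtain ⟨w, hw⟩ := MulAction.exists_smul_eq (Cfsg.pPrimePCore p G) P Q
      have hconj : ∀ s ∈ (S : Subgroup G), (w : G)⁻¹ * s * w ∈
          (P : Subgroup (Cfsg.pPrimePCore p G)).map (Cfsg.pPrimePCore p G).subtype := by
        intro s hs
        have h1 : (⟨s, hSW hs⟩ : Cfsg.pPrimePCore p G) ∈ (Q : Subgroup _) :=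
          hQ (by simpa [Subgroup.mem_subgroupOf] using hs)
        rw [← hw, Sylow.smul_def] at h1
        have h2 := (Subgroup.mem_pointwise_smul_iff_inv_smul_mem).1 h1
        have h2' : w⁻¹ * ⟨s, hSW hs⟩ * w ∈ (P : Subgroup (Cfsg.pPrimePCore p G)) := by
          simpa using h2
        exact ⟨w⁻¹ * ⟨s, hSW hs⟩ * w, h2', by simp⟩
      intro x hx
      have h3 : (w : G) * x * (w : G)⁻¹ ∈ Subgroup.centralizer ((S : Subgroup G) : Set G) := by
        rw [Subgroup.mem_centralizer_iff]
        intro s hs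
        have := Subgroup.mem_centralizer_iff.1 hx _ (hconj s hs)
        calc s * ((w : G) * x * (w : G)⁻¹)
            = (w : G) * (((w : G)⁻¹ * s * (w : G)) * x) * (w : G)⁻¹ := by group
          _ = (w : G) * (x * ((w : G)⁻¹ * s * (w : G))) * (w : G)⁻¹ := by rw [this]
          _ = (w : G) * x * (w : G)⁻¹ * s := by group
      have h4 := hCW h3
      have h5 := hWn.conj_mem _ h4 (w : G)⁻¹
      have e : (w : G)⁻¹ * ((w : G) * x * (w : G)⁻¹) * ((w : G)⁻¹)⁻¹ = x := by group
      rw [e] at h5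
      exact h5
    · intro Q hQS g hg
      obtain ⟨n, hn, d, hd, rfl⟩ := hdec g
      refine ⟨n, hn, d, ?_, rfl⟩
      rw [Subgroup.mem_centralizer_iff]
      intro q hq
      have h1 : n * d * q * (n * d)⁻¹ ∈ (S : Subgroup G) := hg ⟨q, hq, rfl⟩
      have h2 : d * q * d⁻¹ ∈ (S : Subgroup G) := by
        have := (Subgroup.mem_normalizer_iff''.1 hn _).1 h1
        have e : n⁻¹ * (n * d * q * (n * d)⁻¹) * n = d * q * d⁻¹ := by group
        rwa [e] at this
      have h3 : q⁻¹ * (d * q * d⁻¹) = 1 := by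
        apply eq_one_of_mem_pGroup_of_mem_pPrimeCore S.isPGroup' (mul_mem (inv_mem (hQS hq)) h2)
        have e : q⁻¹ * (d * q * d⁻¹) = (q⁻¹ * d * q⁻¹⁻¹) * d⁻¹ := by group
        rw [e]
        exact mul_mem (hDn.conj_mem d hd _) (inv_mem hd)
      calc q * d = q * (q⁻¹ * (d * q * d⁻¹)) * d := by rw [h3, mul_one]
        _ = d * q := by group
  · rintro ⟨hcon, hfus⟩
    rw [eq_top_iff]
    intro g _
    obtain ⟨m, hm, d, hd, rfl⟩ := exists_mul_of_frattini S g
    have hmH : ((S : Subgroup G) ⊓ Cfsg.pPrimePCore p G).map (MulAut.conj m).toMonoidHom ≤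
        (S : Subgroup G) := by
      rintro _ ⟨h, hh, rfl⟩
      exact (Subgroup.mem_inf.1 ((Subgroup.mem_normalizer_iff.1 hm h).1 hh)).1
    obtain ⟨n, hn, c, hc, rfl⟩ := hfus _ inf_le_left m hmH
    have hHp : IsPGroup p ((S : Subgroup G) ⊓ Cfsg.pPrimePCore p G : Subgroup G) :=
      S.isPGroup'.to_le inf_le_left
    have hidx := not_dvd_relIndex_sylow_inf_normal S (Cfsg.pPrimePCore p G)
    have hH' : IsPGroup p (((S : Subgroup G) ⊓ Cfsg.pPrimePCore p G).subgroupOf
        (Cfsg.pPrimePCore p G)) := hHp.comap_subtype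
    have hcW : c ∈ Cfsg.pPrimePCore p G := by
      have := hcon (hH'.toSylow hidx)
      apply this
      have e : ((hH'.toSylow hidx : Sylow p _) : Subgroup _).map (Cfsg.pPrimePCore p G).subtype
          = (S : Subgroup G) ⊓ Cfsg.pPrimePCore p G :=
        Subgroup.map_subgroupOf_eq_of_le inf_le_right
      rw [e]
      exact hc
    rw [pPrimePCore_eq_sup S] at hcW
    have hcW' : c ∈ ((Cfsg.pPrimeCore p G ⊔ ((S : Subgroup G) ⊓ Cfsg.pPrimePCore p G) :
        Subgroup G) : Set G) := hcW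
    rw [Subgroup.normal_mul] at hcW'
    obtain ⟨d₀, hd₀, h₀, hh₀, rfl⟩ := hcW'
    have e : n * (d₀ * h₀) * d = (n * h₀) * ((h₀⁻¹ * d₀ * h₀⁻¹⁻¹) * d) := by group
    rw [e]
    exact mul_mem (Subgroup.mem_sup_left (mul_mem hn
      (Subgroup.le_normalizer (Subgroup.mem_inf.1 hh₀).1)))
      (Subgroup.mem_sup_right (mul_mem (hDn.conj_mem d₀ hd₀ _) hd))

end Cfsg.Agent.S1948
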