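import Mathlib
import Cfsg.Statements.S1954

set_option autoImplicit false
open Cfsg
open scoped Pointwise

namespace Cfsg.Agent.S1954

section basic

variable {G : Type*} [Group G]

theorem mem_conj_smul {g x : G} {H : Subgroup G} :
    x ∈ MulAut.conj g • H ↔ g⁻¹ * x * g ∈ H := by
  rw [Subgroup.mem_pointwise_smul_iff_inv_smul_mem]
  simp [MulAut.smul_def]

theorem conj_mem_conj_smul {g x : G} {H : Subgroup G} (hx : x ∈ H) :
    g * x * g⁻¹ ∈ MulAut.conj g • H := by
  rw [mem_conj_smul]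
  have h : g⁻¹ * (g * x * g⁻¹) * g = x := by group
  rw [h]
  exact hx

theorem conj_smul_smul (g h : G) (H : Subgroup G) :
    MulAut.conj g • MulAut.conj h • H = MulAut.conj (g * h) • H := by
  rw [map_mul, mul_smul]

theorem conj_inv_smul_smul (g : G) (H : Subgroup G) :
    MulAut.conj g⁻¹ • MulAut.conj g • H = H := by
  rw [conj_smul_smul, inv_mul_cancel, map_one, one_smul]

theorem conj_smul_inv_smul (g : G) (H : Subgroup G) :
    MulAut.conj g • MulAut.conj g⁻¹ • H = H := by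
  rw [conj_smul_smul, mul_inv_cancel, map_one, one_smul]

theorem norm_iff {H : Subgroup G} {g : G} :
    g ∈ Subgroup.normalizer (H : Set G) ↔ MulAut.conj g • H = H :=
  Subgroup.mem_normalizer_iff_map_conj_eq

theorem smul_mono {A B : Subgroup G} (h : A ≤ B) (g : G) :
    MulAut.conj g • A ≤ MulAut.conj g • B :=
  Subgroup.pointwise_smul_le_pointwise_smul_iff.mpr h

theorem smul_le_of_le_inv_smul {A B : Subgroup G} {g : G} (h : A ≤ MulAut.conj g⁻¹ • B) :
    MulAut.conj g • A ≤ B := by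
  have := smul_mono h g
  rwa [conj_smul_inv_smul] at this

theorem le_inv_smul_of_smul_le {A B : Subgroup G} {g : G} (h : MulAut.conj g • A ≤ B) :
    A ≤ MulAut.conj g⁻¹ • B := by
  have := smul_mono h g⁻¹
  rwa [conj_inv_smul_smul] at this

theorem smul_le_normalizer {A W : Subgroup G} (h : A ≤ Subgroup.normalizer (W : Set G)) (g : G) :
    MulAut.conj g • A ≤ Subgroup.normalizer ((MulAut.conj g • W : Subgroup G) : Set G) := by
  intro x hx
  rw [mem_conj_smul] at hx
  have h1 := norm_iff.mp (h hx)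
  rw [norm_iff]
  have h2 : x * g = g * (g⁻¹ * x * g) := by group
  rw [conj_smul_smul, h2, ← conj_smul_smul, h1]

theorem cent_smul_eq {B : Subgroup G} {c : G} (hc : c ∈ Subgroup.centralizer (B : Set G)) :
    MulAut.conj c • B = B := by
  rw [Subgroup.mem_centralizer_iff] at hc
  ext x
  rw [mem_conj_smul]
  constructor
  · intro h
    have h1 := hc _ h
    -- (c⁻¹ x c) * c = c * (c⁻¹ x c)
    have h2 : x = c⁻¹ * x * c := by
      have : c⁻¹ * x * c * c = x * c := by rw [h1]; group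
      exact (mul_right_cancel this).symm
    rw [h2]
    exact h
  · intro h
    have h1 := hc _ h
    have h2 : c⁻¹ * x * c = x := by rw [mul_assoc, h1, inv_mul_cancel_left]
    rw [h2]
    exact h

theorem conj_mem_centralizer {B : Subgroup G} {c : G} (hc : c ∈ Subgroup.centralizer (B : Set G))
    (g : G) : g * c * g⁻¹ ∈ Subgroup.centralizer ((MulAut.conj g • B : Subgroup G) : Set G) := by
  rw [Subgroup.mem_centralizer_iff] at hc ⊢
  intro x hx
  have hx' : g⁻¹ * x * g ∈ B := mem_conj_smul.mp hx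
  have h1 := hc _ hx'
  calc x * (g * c * g⁻¹) = g * ((g⁻¹ * x * g) * c) * g⁻¹ := by group
    _ = g * (c * (g⁻¹ * x * g)) * g⁻¹ := by rw [h1]
    _ = g * c * g⁻¹ * x := by group

theorem card_smul (g : G) (H : Subgroup G) :
    Nat.card (MulAut.conj g • H : Subgroup G) = Nat.card H :=
  (Nat.card_congr (Subgroup.equivSMul (MulAut.conj g) H).toEquiv).symm

theorem isPGroup_smul {p : ℕ} {H : Subgroup G} (hH : IsPGroup p H) (g : G) :
    IsPGroup p (MulAut.conj g • H : Subgroup G) :=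
  hH.map (MulAut.conj g).toMonoidHom

theorem smul_eq_of_le [Finite G] {A : Subgroup G} {g : G} (h : MulAut.conj g • A ≤ A) :
    MulAut.conj g • A = A :=
  Subgroup.eq_of_le_of_card_ge h (card_smul g A).ge

/-- Sylow subgroups of a subgroup, stated inside the ambient group. -/
theorem exists_sylow_in [Finite G] {p : ℕ} [Fact p.Prime] (M D : Subgroup G) (hD : IsPGroup p D)
    (hDM : D ≤ M) :
    ∃ S : Subgroup G, S ≤ M ∧ IsPGroup p S ∧ D ≤ S ∧
      ∀ D' : Subgroup G, IsPGroup p D' → D' ≤ M → ∃ y ∈ M, MulAut.conj y • D' ≤ S := by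
  obtain ⟨S₀, hS₀⟩ := (hD.comap_subtype (K := M)).exists_le_sylow
  refine ⟨(S₀ : Subgroup M).map M.subtype, Subgroup.map_subtype_le _, S₀.2.map _, ?_, ?_⟩
  · intro d hd
    exact ⟨⟨d, hDM hd⟩, hS₀ (show (⟨d, hDM hd⟩ : M) ∈ D.subgroupOf M from hd), rfl⟩
  · intro D' hD' hD'M
    obtain ⟨S₁, hS₁⟩ := (hD'.comap_subtype (K := M)).exists_le_sylow
    obtain ⟨m, hm⟩ := MulAction.exists_smul_eq M S₁ S₀
    refine ⟨m, m.2, ?_⟩
    intro x hx
    rw [mem_conj_smul] at hx
    have h1 : (⟨(m : G)⁻¹ * x * m, hD'M hx⟩ : M) ∈ (S₁ : Subgroup M) :=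
      hS₁ (show (⟨(m : G)⁻¹ * x * m, hD'M hx⟩ : M) ∈ D'.subgroupOf M from hx)
    have h2 : m * ⟨(m : G)⁻¹ * x * m, hD'M hx⟩ * m⁻¹ ∈ ((m • S₁ : Sylow p M) : Subgroup M) := by
      rw [Sylow.coe_subgroup_smul]
      exact conj_mem_conj_smul h1
    rw [hm] at h2
    refine ⟨_, h2, ?_⟩
    show (m : G) * ((m : G)⁻¹ * x * m) * (m : G)⁻¹ = x
    group

/-- In a finite `p`-group a proper subgroup is properly contained in its normalizer. -/
theorem lt_inf_normalizer [Finite G] {p : ℕ} [Fact p.Prime] {A P₁ : Subgroup G}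
    (hP₁ : IsPGroup p P₁) (h : A < P₁) : A < P₁ ⊓ Subgroup.normalizer (A : Set G) := by
  have : Group.IsNilpotent P₁ := hP₁.isNilpotent
  have hnc := Group.normalizerCondition_of_isNilpotent (G := P₁)
  have hlt : A.subgroupOf P₁ < ⊤ := by
    rw [lt_top_iff_ne_top, Ne, Subgroup.subgroupOf_eq_top]
    exact not_le_of_gt h
  have h2 := hnc _ hlt
  obtain ⟨x, hx, hxA⟩ := SetLike.exists_of_lt h2
  refine lt_of_le_of_ne (le_inf h.le Subgroup.le_normalizer) ?_
  intro heq
  apply hxA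
  have hxn : (x : G) ∈ Subgroup.normalizer (A : Set G) := by
    rw [Subgroup.mem_normalizer_iff] at hx ⊢
    intro a
    constructor
    · intro ha
      exact (hx ⟨a, h.le ha⟩).mp ha
    · intro ha
      have haP : a ∈ P₁ := by
        have h3 : (x : G)⁻¹ * ((x : G) * a * (x : G)⁻¹) * (x : G) ∈ P₁ :=
          P₁.mul_mem (P₁.mul_mem (P₁.inv_mem x.2) (h.le ha)) x.2
        have h4 : (x : G)⁻¹ * ((x : G) * a * (x : G)⁻¹) * (x : G) = a := by group
        rwa [h4] at h3
      exact (hx ⟨a, haP⟩).mpr ha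
  have hmem : (x : G) ∈ P₁ ⊓ Subgroup.normalizer (A : Set G) := ⟨x.2, hxn⟩
  rw [← heq] at hmem
  exact hmem

end basic


section sylow

variable {G : Type*} [Group G] [Finite G] {p : ℕ} [Fact p.Prime]

/-- A Sylow subgroup of `G` meets a normal subgroup `N` in a subgroup of index prime to `p`. -/
theorem not_dvd_relIndex_of_normal (P : Sylow p G) (N : Subgroup G) [N.Normal] :
    ¬ p ∣ (P : Subgroup G).relIndex N := by
  obtain ⟨Q, hQ⟩ := Sylow.exists_comap_subtype_eq (default : Sylow p N)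
  obtain ⟨g, rfl⟩ := MulAction.exists_smul_eq G Q P
  have h1 : ((g • Q : Sylow p G) : Subgroup G).relIndex N = (Q : Subgroup G).relIndex N := by
    rw [Sylow.coe_subgroup_smul]
    conv_lhs => rw [← Subgroup.Normal.conj_smul_eq_self g N]
    exact Subgroup.relIndex_pointwise_smul _ _ _
  rw [h1]
  have h2 : (Q : Subgroup G).relIndex N = ((default : Sylow p N) : Subgroup N).index := by
    rw [← hQ]; rfl
  rw [h2]
  exact Sylow.not_dvd_index _

/-- Frattini argument for the Sylow subgroup `P ⊓ N` of the normal subgroup `N`. -/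
theorem frattini (P : Sylow p G) (N : Subgroup G) [N.Normal] (g : G) :
    ∃ n ∈ N, ∃ x ∈ Subgroup.normalizer (((P : Subgroup G) ⊓ N : Subgroup G) : Set G),
      g = n * x := by
  let Q : Sylow p N :=
    (P.isPGroup'.comap_subtype (K := N)).toSylow (not_dvd_relIndex_of_normal P N)
  have h := Sylow.normalizer_sup_eq_top Q
  have hQ : (Q : Subgroup N).map N.subtype = (P : Subgroup G) ⊓ N := by
    show ((P : Subgroup G).subgroupOf N).map N.subtype = _
    rw [Subgroup.subgroupOf_map_subtype]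
  rw [hQ] at h
  have hg : g ∈ (↑(N ⊔ Subgroup.normalizer (((P : Subgroup G) ⊓ N : Subgroup G) : Set G)) :
      Set G) := by
    rw [sup_comm, h]
    exact Subgroup.mem_top g
  rw [Subgroup.normal_mul] at hg
  obtain ⟨n, hn, x, hx, rfl⟩ := Set.mem_mul.mp hg
  exact ⟨n, hn, x, hx, rfl⟩

/-- If `Y / C` is a `p`-group then `Y = S C` for a `p`-subgroup `S` of `Y`. -/
theorem pquot (Y C : Subgroup G) (hn : ∀ y ∈ Y, ∀ c ∈ C, y * c * y⁻¹ ∈ C)
    (hp : ∀ y ∈ Y, ∃ j : ℕ, y ^ p ^ j ∈ C) :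
    ∃ S : Subgroup G, S ≤ Y ∧ IsPGroup p S ∧ ∀ y ∈ Y, ∃ s ∈ S, ∃ c ∈ C, y = s * c := by
  have hnorm : (C.subgroupOf Y).Normal := by
    refine ⟨fun c hc y => ?_⟩
    rw [Subgroup.mem_subgroupOf] at hc ⊢
    exact hn y y.2 c hc
  have hpq : IsPGroup p (Y ⧸ C.subgroupOf Y) := by
    intro q
    induction q using QuotientGroup.induction_on with
    | H y =>
      obtain ⟨j, hj⟩ := hp y y.2
      refine ⟨j, ?_⟩
      rw [← QuotientGroup.mk_pow, QuotientGroup.eq_one_iff, Subgroup.mem_subgroupOf]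
      exact hj
  let S₀ : Sylow p Y := default
  have hsurj := QuotientGroup.mk'_surjective (C.subgroupOf Y)
  have htop : ((S₀.mapSurjective hsurj : Sylow p (Y ⧸ C.subgroupOf Y)) :
      Subgroup (Y ⧸ C.subgroupOf Y)) = ⊤ := by
    have hpt : IsPGroup p (⊤ : Subgroup (Y ⧸ C.subgroupOf Y)) := IsPGroup.to_subgroup hpq ⊤
    exact ((S₀.mapSurjective hsurj).is_maximal' hpt le_top).symm
  refine ⟨(S₀ : Subgroup Y).map Y.subtype, Subgroup.map_subtype_le _, S₀.2.map _, ?_⟩
  intro y hy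
  have hmem : (QuotientGroup.mk' (C.subgroupOf Y) ⟨y, hy⟩) ∈
      ((S₀.mapSurjective hsurj : Sylow p (Y ⧸ C.subgroupOf Y)) :
        Subgroup (Y ⧸ C.subgroupOf Y)) := htop ▸ Subgroup.mem_top _
  obtain ⟨s, hs, hsy⟩ := hmem
  have h1 : s⁻¹ * ⟨y, hy⟩ ∈ C.subgroupOf Y := by
    rw [← QuotientGroup.eq]
    exact hsy
  rw [Subgroup.mem_subgroupOf] at h1
  refine ⟨s, ⟨s, hs, rfl⟩, _, h1, ?_⟩
  show y = (s : G) * ((s : G)⁻¹ * y)
  group

end sylow

section stab

variable {G : Type*} [Group G]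

/-- An element normalizing `A` and centralizing `A ⊓ N` (for `N` normal, the element in `N`)
has a power (the order of `A ⊓ N`) centralizing `A`. -/
theorem pow_card_mem_centralizer [Finite G] (N A : Subgroup G) [hN : N.Normal] {y : G} (hyN : y ∈ N)
    (hyB : y ∈ Subgroup.centralizer ((A ⊓ N : Subgroup G) : Set G))
    (hyA : y ∈ Subgroup.normalizer (A : Set G)) :
    y ^ Nat.card (A ⊓ N : Subgroup G) ∈ Subgroup.centralizer (A : Set G) := by
  rw [Subgroup.mem_centralizer_iff]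
  intro a ha
  -- β = a⁻¹ * y * a * y⁻¹
  have hβA : a⁻¹ * (y * a * y⁻¹) ∈ A :=
    A.mul_mem (A.inv_mem ha) ((Subgroup.mem_normalizer_iff.mp hyA a).mp ha)
  have hβN : a⁻¹ * (y * a * y⁻¹) ∈ N := by
    have h1 : a⁻¹ * y * a⁻¹⁻¹ ∈ N := hN.conj_mem y hyN a⁻¹
    have h2 : a⁻¹ * (y * a * y⁻¹) = (a⁻¹ * y * a⁻¹⁻¹) * y⁻¹ := by group
    rw [h2]
    exact N.mul_mem h1 (N.inv_mem hyN)
  have hβ : a⁻¹ * (y * a * y⁻¹) ∈ (A ⊓ N : Subgroup G) := ⟨hβA, hβN⟩
  have hcomm : (a⁻¹ * (y * a * y⁻¹)) * y = y * (a⁻¹ * (y * a * y⁻¹)) :=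
    (Subgroup.mem_centralizer_iff.mp hyB) _ hβ
  have hya : y * a = a * (a⁻¹ * (y * a * y⁻¹)) * y := by group
  have hone : (a⁻¹ * (y * a * y⁻¹)) ^ Nat.card (A ⊓ N : Subgroup G) = 1 :=
    orderOf_dvd_iff_pow_eq_one.mp (Subgroup.orderOf_dvd_natCard _ hβ)
  generalize a⁻¹ * (y * a * y⁻¹) = b at hcomm hya hone
  have key : ∀ j : ℕ, y ^ j * a = a * b ^ j * y ^ j := by
    intro j
    induction j with
    | zero => simp
    | succ j ih =>
      have hc2 : y * b ^ j = b ^ j * y :=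
        ((Commute.pow_right (show Commute y b from hcomm.symm) j)).eq
      calc y ^ (j + 1) * a = y * (y ^ j * a) := by rw [pow_succ', mul_assoc]
        _ = y * (a * b ^ j * y ^ j) := by rw [ih]
        _ = (y * a) * (b ^ j * y ^ j) := by simp only [mul_assoc]
        _ = (a * b * y) * (b ^ j * y ^ j) := by rw [hya]
        _ = a * b * ((y * b ^ j) * y ^ j) := by simp only [mul_assoc]
        _ = a * b * ((b ^ j * y) * y ^ j) := by rw [hc2]
        _ = a * (b * b ^ j) * (y * y ^ j) := by simp only [mul_assoc]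
        _ = a * b ^ (j + 1) * y ^ (j + 1) := by rw [← pow_succ', ← pow_succ']
  have := key (Nat.card (A ⊓ N : Subgroup G))
  rw [hone, mul_one] at this
  exact this.symm

end stab


theorem core {G : Type*} [Group G] [Finite G] {p : ℕ} [Fact p.Prime] (N : Subgroup G) [hNn : N.Normal]
    (P : Sylow p G) (W : Subgroup G) (hWQ : W ≤ (P : Subgroup G) ⊓ N)
    (hQW : Subgroup.normalizer (((P : Subgroup G) ⊓ N : Subgroup G) : Set G) ≤
      Subgroup.normalizer (W : Set G))
    (hctrl : ∀ B : Subgroup G, B ≤ (P : Subgroup G) ⊓ N → ∀ n ∈ N,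
      MulAut.conj n • B ≤ (P : Subgroup G) ⊓ N →
      ∃ h ∈ N ⊓ Subgroup.normalizer (W : Set G), ∃ c ∈ N ⊓ Subgroup.centralizer (B : Set G),
        n = h * c) :
    ∀ A : Subgroup G, A ≤ (P : Subgroup G) → ∀ g : G, MulAut.conj g • A ≤ (P : Subgroup G) →
      ∃ h ∈ Subgroup.normalizer (W : Set G), ∃ c ∈ Subgroup.centralizer (A : Set G),
        g = h * c := by
  have hPQ : (P : Subgroup G) ≤
      Subgroup.normalizer (((P : Subgroup G) ⊓ N : Subgroup G) : Set G) := by
    intro x hx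
    rw [norm_iff, Subgroup.smul_inf, Subgroup.conj_smul_eq_self_of_mem hx,
      Subgroup.Normal.conj_smul_eq_self x N]
  have hPW : (P : Subgroup G) ≤ Subgroup.normalizer (W : Set G) := hPQ.trans hQW
  have hWp : IsPGroup p W := P.isPGroup'.to_le (hWQ.trans inf_le_left)
  let Om : Subgroup G → Prop := fun W' => ∃ n ∈ N, W' = MulAut.conj n • W
  have om_smul : ∀ W', Om W' → ∀ g : G, Om (MulAut.conj g • W') := by
    rintro W' ⟨n, hn, rfl⟩ g
    obtain ⟨n', hn', x, hx, hgn⟩ := frattini P N (g * n)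
    refine ⟨n', hn', ?_⟩
    rw [conj_smul_smul, hgn, ← conj_smul_smul, norm_iff.mp (hQW hx)]
  have om_W : Om W := ⟨1, N.one_mem, by rw [map_one, one_smul]⟩
  have exists_om : ∀ Ã : Subgroup G, IsPGroup p Ã →
      ∃ W', Om W' ∧ Ã ≤ Subgroup.normalizer (W' : Set G) := by
    intro Ã hÃ
    obtain ⟨P', hP'⟩ := hÃ.exists_le_sylow
    obtain ⟨g, rfl⟩ := MulAction.exists_smul_eq G P P'
    refine ⟨MulAut.conj g • W, om_smul W om_W g, hP'.trans ?_⟩
    rw [Sylow.coe_subgroup_smul]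
    exact smul_le_normalizer hPW g
  have conj_le_Q : ∀ B : Subgroup G, B ≤ N → IsPGroup p B →
      ∃ m ∈ N, B ≤ MulAut.conj m • ((P : Subgroup G) ⊓ N) := by
    intro B hBN hB
    obtain ⟨P', hP'⟩ := hB.exists_le_sylow
    obtain ⟨g, rfl⟩ := MulAction.exists_smul_eq G P P'
    obtain ⟨m, hm, x, hx, hg⟩ := frattini P N g
    refine ⟨m, hm, ?_⟩
    have h1 : MulAut.conj m • ((P : Subgroup G) ⊓ N) =
        MulAut.conj g • ((P : Subgroup G) ⊓ N) := by
      rw [hg, ← conj_smul_smul, norm_iff.mp hx]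
    rw [h1, Subgroup.smul_inf, Subgroup.Normal.conj_smul_eq_self g N]
    exact le_inf (by rw [← Sylow.coe_subgroup_smul]; exact hP') hBN
  have wc : ∀ m ∈ N, MulAut.conj m • W ≤ (P : Subgroup G) ⊓ N → MulAut.conj m • W = W := by
    intro m hm hle
    obtain ⟨h, hh, c, hc, rfl⟩ := hctrl W hWQ m hm hle
    rw [← conj_smul_smul, cent_smul_eq hc.2, norm_iff.mp hh.2]
  have normalize : ∀ B : Subgroup G, B ≤ N → IsPGroup p B → ∀ W', Om W' →
      B ≤ Subgroup.normalizer (W' : Set G) →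
      ∃ n ∈ N, W' = MulAut.conj n • W ∧ MulAut.conj n⁻¹ • B ≤ (P : Subgroup G) ⊓ N := by
    rintro B hBN hB W' ⟨n, hn, rfl⟩ hBW
    have hB'W : MulAut.conj n⁻¹ • B ≤ Subgroup.normalizer (W : Set G) := by
      have := smul_le_normalizer hBW n⁻¹
      rwa [conj_inv_smul_smul] at this
    have hB'N : MulAut.conj n⁻¹ • B ≤ N := by
      have := smul_mono hBN n⁻¹
      rwa [Subgroup.Normal.conj_smul_eq_self n⁻¹ N] at this
    have hsup : IsPGroup p (MulAut.conj n⁻¹ • B ⊔ W : Subgroup G) :=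
      IsPGroup.to_sup_of_normal_right' (isPGroup_smul hB n⁻¹) hWp hB'W
    obtain ⟨m, hm, hle⟩ := conj_le_Q _ (sup_le hB'N (hWQ.trans inf_le_right)) hsup
    have hWm : MulAut.conj m⁻¹ • W = W := wc m⁻¹ (N.inv_mem hm)
      (smul_le_of_le_inv_smul (by rw [inv_inv]; exact le_sup_right.trans hle))
    have hWm' : MulAut.conj m • W = W := by
      conv_lhs => rw [← hWm]
      exact conj_smul_inv_smul m W
    refine ⟨n * m, N.mul_mem hn hm, ?_, ?_⟩
    · rw [← conj_smul_smul, hWm']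
    · rw [mul_inv_rev, ← conj_smul_smul]
      exact smul_le_of_le_inv_smul (by rw [inv_inv]; exact le_sup_left.trans hle)
  have c0 : ∀ B : Subgroup G, B ≤ N → IsPGroup p B → ∀ W₁ W₂, Om W₁ → Om W₂ →
      B ≤ Subgroup.normalizer (W₁ : Set G) → B ≤ Subgroup.normalizer (W₂ : Set G) →
      ∃ c ∈ N ⊓ Subgroup.centralizer (B : Set G), MulAut.conj c • W₁ = W₂ := by
    intro B hBN hB W₁ W₂ h1 h2 hB1 hB2
    obtain ⟨n₁, hn₁, rfl, hle₁⟩ := normalize B hBN hB W₁ h1 hB1
    obtain ⟨n₂, hn₂, rfl, hle₂⟩ := normalize B hBN hB W₂ h2 hB2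
    have hle : MulAut.conj (n₂⁻¹ * n₁) • (MulAut.conj n₁⁻¹ • B) ≤ (P : Subgroup G) ⊓ N := by
      rw [conj_smul_smul, mul_assoc, mul_inv_cancel, mul_one]; exact hle₂
    obtain ⟨h, hh, c, hc, hnc⟩ := hctrl _ hle₁ (n₂⁻¹ * n₁) (N.mul_mem (N.inv_mem hn₂) hn₁) hle
    have hc' : n₁ * c⁻¹ * n₁⁻¹ ∈ Subgroup.centralizer (B : Set G) := by
      have := conj_mem_centralizer (Subgroup.inv_mem _ hc.2) n₁
      rwa [conj_smul_inv_smul] at this
    refine ⟨n₁ * c⁻¹ * n₁⁻¹, ⟨?_, hc'⟩, ?_⟩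
    · exact N.mul_mem (N.mul_mem hn₁ (N.inv_mem hc.1)) (N.inv_mem hn₁)
    · have hn₂eq : n₂ = n₁ * c⁻¹ * h⁻¹ := by
        have h3 : n₁ = n₂ * (h * c) := by rw [← hnc]; group
        rw [h3]; group
      rw [conj_smul_smul]
      have e1 : n₁ * c⁻¹ * n₁⁻¹ * n₁ = n₁ * c⁻¹ := by group
      rw [e1]
      conv_rhs => rw [hn₂eq, ← conj_smul_smul (n₁ * c⁻¹) h⁻¹,
        norm_iff.mp (Subgroup.inv_mem _ hh.2)]
  have main : ∀ k : ℕ, ∀ A : Subgroup G, IsPGroup p A → Nat.card G - Nat.card A = k →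
      ∀ W₁ W₂ : Subgroup G, Om W₁ → Om W₂ → A ≤ Subgroup.normalizer (W₁ : Set G) →
      A ≤ Subgroup.normalizer (W₂ : Set G) →
      ∃ c ∈ N ⊓ Subgroup.centralizer (A : Set G), MulAut.conj c • W₁ = W₂ := by
    intro k
    induction k using Nat.strong_induction_on with
    | _ k ih =>
      intro A hA hk
      have hBp : IsPGroup p (A ⊓ N : Subgroup G) := hA.to_le inf_le_left
      have hAK : A ≤ Subgroup.normalizer
          ((N ⊓ Subgroup.centralizer ((A ⊓ N : Subgroup G) : Set G) : Subgroup G) : Set G) := by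
        intro a ha
        rw [norm_iff]
        apply smul_eq_of_le
        intro x hx
        rw [mem_conj_smul] at hx
        have e : a * (a⁻¹ * x * a) * a⁻¹ = x := by group
        refine ⟨?_, ?_⟩
        · have := hNn.conj_mem _ hx.1 a
          rwa [e] at this
        · have h1 := conj_mem_centralizer hx.2 a
          rw [e] at h1
          have hB : MulAut.conj a • (A ⊓ N) = A ⊓ N := by
            rw [Subgroup.smul_inf, Subgroup.conj_smul_eq_self_of_mem ha,
              Subgroup.Normal.conj_smul_eq_self a N]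
          rwa [hB] at h1
      have hCK : N ⊓ Subgroup.centralizer (A : Set G) ≤
          N ⊓ Subgroup.centralizer ((A ⊓ N : Subgroup G) : Set G) :=
        inf_le_inf_left N (Subgroup.centralizer_le (by
          intro x hx; exact hx.1))
      generalize hKdef : (N ⊓ Subgroup.centralizer ((A ⊓ N : Subgroup G) : Set G) : Subgroup G) = K
        at hAK hCK
      have hΓ : ∀ z ∈ A ⊔ K, ∃ a ∈ A, ∃ k ∈ K, z = a * k := by
        intro z hz
        have hz' : z ∈ (↑(A ⊔ K) : Set G) := hz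
        rw [Subgroup.coe_mul_of_left_le_normalizer_right A K hAK] at hz'
        obtain ⟨a, ha, k, hk, rfl⟩ := Set.mem_mul.mp hz'
        exact ⟨a, ha, k, hk, rfl⟩
      have hAM : A ≤ (A ⊔ K) ⊓ Subgroup.normalizer (A : Set G) :=
        le_inf le_sup_left Subgroup.le_normalizer
      have hCM : N ⊓ Subgroup.centralizer (A : Set G) ≤
          (A ⊔ K) ⊓ Subgroup.normalizer (A : Set G) :=
        le_inf (hCK.trans le_sup_right) (inf_le_right.trans (Subgroup.centralizer_le_normalizer _))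
      obtain ⟨Abar, hAbM, hAbp, hAAb, hAbsyl⟩ := exists_sylow_in _ A hA hAM
      obtain ⟨Ws, hWs, hAbWs⟩ := exists_om Abar hAbp
      have step1 : ∀ W₁ : Subgroup G, Om W₁ → A ≤ Subgroup.normalizer (W₁ : Set G) →
          ∃ z ∈ (A ⊔ K) ⊓ Subgroup.normalizer (A : Set G), MulAut.conj z • W₁ = Ws := by
        intro W₁ hW₁ hAW₁
        obtain ⟨P₁, hP₁le, hP₁p, hAP₁, hP₁syl⟩ :=
          exists_sylow_in ((A ⊔ K) ⊓ Subgroup.normalizer (W₁ : Set G)) A hA
            (le_inf le_sup_left hAW₁)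
        rcases eq_or_lt_of_le hAP₁ with heq | hlt
        · subst heq
          obtain ⟨c₀, hc₀, hc₀W⟩ := c0 (A ⊓ N) inf_le_right hBp W₁ Ws hW₁ hWs
            (inf_le_left.trans hAW₁) (inf_le_left.trans (hAAb.trans hAbWs))
          rw [hKdef] at hc₀
          have hc₀Γ : c₀ ∈ A ⊔ K := (le_sup_right : K ≤ A ⊔ K) hc₀
          have hD : MulAut.conj c₀⁻¹ • A ≤ (A ⊔ K) ⊓ Subgroup.normalizer (W₁ : Set G) := by
            refine le_inf ?_ ?_
            · intro x hx
              rw [mem_conj_smul, inv_inv] at hx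
              have h1 : c₀⁻¹ * (c₀ * x * c₀⁻¹) * c₀ ∈ A ⊔ K :=
                (A ⊔ K).mul_mem ((A ⊔ K).mul_mem ((A ⊔ K).inv_mem hc₀Γ)
                  ((le_sup_left : A ≤ A ⊔ K) hx)) hc₀Γ
              have e : c₀⁻¹ * (c₀ * x * c₀⁻¹) * c₀ = x := by group
              rwa [e] at h1
            · have h1 := smul_le_normalizer (hAAb.trans hAbWs) c₀⁻¹
              rwa [← hc₀W, conj_inv_smul_smul] at h1
          obtain ⟨y, hy, hyD⟩ := hP₁syl _ (isPGroup_smul hA c₀⁻¹) hD
          rw [conj_smul_smul] at hyD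
          have hyA : MulAut.conj (y * c₀⁻¹) • A = A := smul_eq_of_le hyD
          refine ⟨c₀ * y⁻¹, ⟨?_, ?_⟩, ?_⟩
          · exact (A ⊔ K).mul_mem hc₀Γ ((A ⊔ K).inv_mem hy.1)
          · have h1 : y * c₀⁻¹ ∈ Subgroup.normalizer (A : Set G) := norm_iff.mpr hyA
            have h2 := Subgroup.inv_mem _ h1
            rwa [mul_inv_rev, inv_inv] at h2
          · rw [← conj_smul_smul, norm_iff.mp (Subgroup.inv_mem _ hy.2), hc₀W]
        · have hnc := lt_inf_normalizer hP₁p hlt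
          have hA₁M : P₁ ⊓ Subgroup.normalizer (A : Set G) ≤
              (A ⊔ K) ⊓ Subgroup.normalizer (A : Set G) :=
            inf_le_inf_right _ (hP₁le.trans inf_le_left)
          obtain ⟨y, hyM, hyA₁⟩ := hAbsyl _ (hP₁p.to_le inf_le_left) hA₁M
          have hcard : Nat.card A <
              Nat.card (MulAut.conj y • (P₁ ⊓ Subgroup.normalizer (A : Set G)) : Subgroup G) := by
            rw [card_smul]
            by_contra hcon
            push Not at hcon
            exact hnc.ne (Subgroup.eq_of_le_of_card_ge hnc.le hcon)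
          have hle : Nat.card (MulAut.conj y • (P₁ ⊓ Subgroup.normalizer (A : Set G)) :
              Subgroup G) ≤ Nat.card G := Subgroup.card_le_card_group _
          have hAsub : A ≤ MulAut.conj y • (P₁ ⊓ Subgroup.normalizer (A : Set G)) := by
            have h1 := smul_mono hnc.le y
            rwa [norm_iff.mp hyM.2] at h1
          obtain ⟨c, hc, hcW⟩ := ih _ (by omega)
            (MulAut.conj y • (P₁ ⊓ Subgroup.normalizer (A : Set G)))
            (isPGroup_smul (hP₁p.to_le inf_le_left) y) rfl (MulAut.conj y • W₁) Ws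
            (om_smul W₁ hW₁ y) hWs
            (smul_le_normalizer (inf_le_left.trans (hP₁le.trans inf_le_right)) y)
            (hyA₁.trans hAbWs)
          have hcC : c ∈ N ⊓ Subgroup.centralizer (A : Set G) :=
            ⟨hc.1, Subgroup.centralizer_le hAsub hc.2⟩
          refine ⟨c * y, Subgroup.mul_mem _ (hCM hcC) hyM, ?_⟩
          rw [← conj_smul_smul]
          exact hcW
      have step3 : ∀ W₁ W₂ : Subgroup G, Om W₁ → Om W₂ → A ≤ Subgroup.normalizer (W₁ : Set G) →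
          A ≤ Subgroup.normalizer (W₂ : Set G) →
          ∃ k ∈ K ⊓ Subgroup.normalizer (A : Set G), MulAut.conj k • W₁ = W₂ := by
        intro W₁ W₂ h1 h2 hA1 hA2
        obtain ⟨z₁, hz₁, e₁⟩ := step1 W₁ h1 hA1
        obtain ⟨z₂, hz₂, e₂⟩ := step1 W₂ h2 hA2
        have hz : z₂⁻¹ * z₁ ∈ (A ⊔ K) ⊓ Subgroup.normalizer (A : Set G) :=
          Subgroup.mul_mem _ (Subgroup.inv_mem _ hz₂) hz₁
        have ez : MulAut.conj (z₂⁻¹ * z₁) • W₁ = W₂ := by
          rw [← conj_smul_smul, e₁, ← e₂, conj_inv_smul_smul]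
        obtain ⟨a, ha, k, hk, hzk⟩ := hΓ _ hz.1
        have hk' : k = a⁻¹ * (z₂⁻¹ * z₁) := by rw [hzk]; group
        refine ⟨k, ⟨hk, ?_⟩, ?_⟩
        · rw [hk']
          exact Subgroup.mul_mem _ (Subgroup.inv_mem _ (Subgroup.le_normalizer ha)) hz.2
        · rw [hk', ← conj_smul_smul, ez, norm_iff.mp (hA2 (A.inv_mem ha))]
      -- final step: `K ⊓ N_G(A)` is `C_N(A)` times a `p`-subgroup
      have hn : ∀ y ∈ K ⊓ Subgroup.normalizer (A : Set G),
          ∀ c ∈ N ⊓ Subgroup.centralizer (A : Set G),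
          y * c * y⁻¹ ∈ N ⊓ Subgroup.centralizer (A : Set G) := by
        intro y hy c hc
        refine ⟨hNn.conj_mem c hc.1 y, ?_⟩
        have h1 := conj_mem_centralizer hc.2 y
        rwa [norm_iff.mp hy.2] at h1
      have hpow : ∀ y ∈ K ⊓ Subgroup.normalizer (A : Set G),
          ∃ j : ℕ, y ^ p ^ j ∈ N ⊓ Subgroup.centralizer (A : Set G) := by
        intro y hy
        obtain ⟨j, hj⟩ := IsPGroup.iff_card.mp hBp
        refine ⟨j, ?_⟩
        have hyK := hy.1
        rw [← hKdef] at hyK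
        refine ⟨N.pow_mem hyK.1 _, ?_⟩
        rw [← hj]
        exact pow_card_mem_centralizer N A hyK.1 hyK.2 hy.2
      obtain ⟨S, hSY, hSp, hSdec⟩ := pquot (K ⊓ Subgroup.normalizer (A : Set G))
        (N ⊓ Subgroup.centralizer (A : Set G)) hn hpow
      have hSA : IsPGroup p (S ⊔ A : Subgroup G) :=
        IsPGroup.to_sup_of_normal_right' hSp hA (hSY.trans inf_le_right)
      obtain ⟨W', hW', hSAW'⟩ := exists_om _ hSA
      have toW' : ∀ W₁ : Subgroup G, Om W₁ → A ≤ Subgroup.normalizer (W₁ : Set G) →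
          ∃ c ∈ N ⊓ Subgroup.centralizer (A : Set G), W₁ = MulAut.conj c • W' := by
        intro W₁ h1 hA1
        obtain ⟨k, hk, ek⟩ := step3 W' W₁ hW' h1 (le_sup_right.trans hSAW') hA1
        obtain ⟨s, hs, c, hc, hsc⟩ := hSdec k⁻¹ (Subgroup.inv_mem _ hk)
        have hk' : k = c⁻¹ * s⁻¹ := by
          have : k = (k⁻¹)⁻¹ := (inv_inv k).symm
          rw [this, hsc]; group
        refine ⟨c⁻¹, Subgroup.inv_mem _ hc, ?_⟩
        rw [← ek, hk', ← conj_smul_smul,
          norm_iff.mp (Subgroup.inv_mem _ ((le_sup_left.trans hSAW') hs))]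
      intro W₁ W₂ h1 h2 hA1 hA2
      obtain ⟨c₁, hc₁, e₁⟩ := toW' W₁ h1 hA1
      obtain ⟨c₂, hc₂, e₂⟩ := toW' W₂ h2 hA2
      refine ⟨c₂ * c₁⁻¹, Subgroup.mul_mem _ hc₂ (Subgroup.inv_mem _ hc₁), ?_⟩
      rw [e₁, e₂, conj_smul_smul, inv_mul_cancel_right]
  intro A hAP g hgA
  have hA : IsPGroup p A := P.isPGroup'.to_le hAP
  have hAW : A ≤ Subgroup.normalizer (W : Set G) := hAP.trans hPW
  have hAW' : A ≤ Subgroup.normalizer ((MulAut.conj g⁻¹ • W : Subgroup G) : Set G) := by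
    have h1 := smul_le_normalizer (hgA.trans hPW) g⁻¹
    rwa [conj_inv_smul_smul] at h1
  obtain ⟨c, hc, hcW⟩ := main _ A hA rfl W (MulAut.conj g⁻¹ • W) om_W (om_smul W om_W g⁻¹)
    hAW hAW'
  refine ⟨g * c, ?_, c⁻¹, Subgroup.inv_mem _ hc.2, by group⟩
  rw [norm_iff, ← conj_smul_smul, hcW, conj_smul_inv_smul]


/-- Let N be a normal subgroup of the finite group G, P a Sylow p-subgroup of G, and V a subgroup of P ∩ N normal in P ∩ N such that N_N(V) controls strong fusion in P ∩ N with respect to N (whenever a subgroup A of P ∩ N has n A n⁻¹ ≤ P ∩ N for some n in N, then n = h c with h in N_N(V) and c in C_N(A)). Let W be the subgroup generated by the conjugates of V under N_G(P ∩ N). Then N_G(W) controls strong fusion in P with respect to G. -/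
theorem result {G : Type*} [Group G] [Finite G] {p : ℕ} [Fact p.Prime] (N : Subgroup G) [N.Normal] (P : Sylow p G) (V : Subgroup G)
    (hV : V ≤ (P : Subgroup G) ⊓ N) (hVn : ∀ x ∈ (P : Subgroup G) ⊓ N, V.map (MulAut.conj x).toMonoidHom = V)
    (hctrl : ∀ A : Subgroup G, A ≤ (P : Subgroup G) ⊓ N → ∀ n ∈ N, A.map (MulAut.conj n).toMonoidHom ≤ (P : Subgroup G) ⊓ N →
      ∃ h ∈ N ⊓ Subgroup.normalizer (V : Set G), ∃ c ∈ N ⊓ Subgroup.centralizer (A : Set G), n = h * c)
    (W : Subgroup G) (hW : W = Subgroup.closure (⋃ x ∈ Subgroup.normalizer (((P : Subgroup G) ⊓ N : Subgroup G) : Set G),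
      ((V.map (MulAut.conj x).toMonoidHom : Subgroup G) : Set G))) :
    ∀ A : Subgroup G, A ≤ (P : Subgroup G) → ∀ g : G, A.map (MulAut.conj g).toMonoidHom ≤ (P : Subgroup G) →
        ∃ h ∈ Subgroup.normalizer (W : Set G), ∃ c ∈ Subgroup.centralizer (A : Set G), g = h * c := by
  have hNn : N.Normal := inferInstance
  have _hVn := hVn
  have hctrl' : ∀ B : Subgroup G, B ≤ (P : Subgroup G) ⊓ N → ∀ n ∈ N,
      MulAut.conj n • B ≤ (P : Subgroup G) ⊓ N →
      ∃ h ∈ N ⊓ Subgroup.normalizer (V : Set G), ∃ c ∈ N ⊓ Subgroup.centralizer (B : Set G),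
        n = h * c := hctrl
  have hW' : W = Subgroup.closure (⋃ x ∈ Subgroup.normalizer
      (((P : Subgroup G) ⊓ N : Subgroup G) : Set G), ((MulAut.conj x • V : Subgroup G) : Set G)) :=
    hW
  have hVx : ∀ x ∈ Subgroup.normalizer (((P : Subgroup G) ⊓ N : Subgroup G) : Set G),
      MulAut.conj x • V ≤ (P : Subgroup G) ⊓ N := by
    intro x hx
    have := smul_mono hV x
    rwa [norm_iff.mp hx] at this
  have hWQ : W ≤ (P : Subgroup G) ⊓ N := by
    rw [hW', Subgroup.closure_le]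
    intro s hs
    obtain ⟨x, hx, hs⟩ := Set.mem_iUnion₂.mp hs
    exact hVx x hx hs
  have hVW : ∀ x ∈ Subgroup.normalizer (((P : Subgroup G) ⊓ N : Subgroup G) : Set G),
      MulAut.conj x • V ≤ W := by
    intro x hx s hs
    rw [hW']
    apply Subgroup.subset_closure
    exact Set.mem_iUnion₂.mpr ⟨x, hx, hs⟩
  have hnormW : ∀ h : G, (∀ x ∈ Subgroup.normalizer
      (((P : Subgroup G) ⊓ N : Subgroup G) : Set G),
      MulAut.conj h • MulAut.conj x • V = MulAut.conj x • V) →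
      h ∈ Subgroup.normalizer (W : Set G) := by
    intro h hh
    rw [norm_iff]
    apply smul_eq_of_le
    apply smul_le_of_le_inv_smul
    conv_lhs => rw [hW']
    rw [Subgroup.closure_le]
    intro s hs
    obtain ⟨x, hx, hs⟩ := Set.mem_iUnion₂.mp hs
    rw [SetLike.mem_coe, mem_conj_smul, inv_inv]
    apply hVW x hx
    rw [← hh x hx]
    exact conj_mem_conj_smul hs
  have hQW : Subgroup.normalizer (((P : Subgroup G) ⊓ N : Subgroup G) : Set G) ≤
      Subgroup.normalizer (W : Set G) := by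
    intro y hy
    rw [norm_iff]
    apply smul_eq_of_le
    apply smul_le_of_le_inv_smul
    conv_lhs => rw [hW']
    rw [Subgroup.closure_le]
    intro s hs
    obtain ⟨x, hx, hs⟩ := Set.mem_iUnion₂.mp hs
    rw [SetLike.mem_coe, mem_conj_smul, inv_inv]
    apply hVW (y * x) (Subgroup.mul_mem _ hy hx)
    rw [← conj_smul_smul]
    exact conj_mem_conj_smul hs
  have hctrlx : ∀ x ∈ Subgroup.normalizer (((P : Subgroup G) ⊓ N : Subgroup G) : Set G),
      ∀ B : Subgroup G, B ≤ (P : Subgroup G) ⊓ N → ∀ n ∈ N,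
      MulAut.conj n • B ≤ (P : Subgroup G) ⊓ N →
      ∃ h ∈ N, MulAut.conj h • MulAut.conj x • V = MulAut.conj x • V ∧
        ∃ c ∈ N ⊓ Subgroup.centralizer (B : Set G), n = h * c := by
    intro x hx B hB n hn hnB
    have hx' : x⁻¹ ∈ Subgroup.normalizer (((P : Subgroup G) ⊓ N : Subgroup G) : Set G) :=
      Subgroup.inv_mem _ hx
    have hB' : MulAut.conj x⁻¹ • B ≤ (P : Subgroup G) ⊓ N := by
      have := smul_mono hB x⁻¹
      rwa [norm_iff.mp hx'] at this
    have hn' : x⁻¹ * n * x ∈ N := by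
      have := hNn.conj_mem n hn x⁻¹
      rwa [inv_inv] at this
    have hnB' : MulAut.conj (x⁻¹ * n * x) • MulAut.conj x⁻¹ • B ≤ (P : Subgroup G) ⊓ N := by
      rw [conj_smul_smul]
      have e : x⁻¹ * n * x * x⁻¹ = x⁻¹ * n := by group
      rw [e, ← conj_smul_smul]
      have := smul_mono hnB x⁻¹
      rwa [norm_iff.mp hx'] at this
    obtain ⟨h, hh, c, hc, hnhc⟩ := hctrl' _ hB' _ hn' hnB'
    refine ⟨x * h * x⁻¹, hNn.conj_mem h hh.1 x, ?_, x * c * x⁻¹, ⟨hNn.conj_mem c hc.1 x, ?_⟩, ?_⟩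
    · rw [conj_smul_smul]
      have e : x * h * x⁻¹ * x = x * h := by group
      rw [e, ← conj_smul_smul, norm_iff.mp hh.2]
    · have := conj_mem_centralizer hc.2 x
      rwa [conj_smul_inv_smul] at this
    · have e : n = x * (x⁻¹ * n * x) * x⁻¹ := by group
      rw [e, hnhc]; group
  have hWctrl : ∀ B : Subgroup G, B ≤ (P : Subgroup G) ⊓ N → ∀ n ∈ N,
      MulAut.conj n • B ≤ (P : Subgroup G) ⊓ N →
      ∃ h ∈ N ⊓ Subgroup.normalizer (W : Set G), ∃ c ∈ N ⊓ Subgroup.centralizer (B : Set G),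
        n = h * c := by
    intro B hB n hn hnB
    classical
    have key : ∀ s : Finset G,
        (∀ x ∈ s, x ∈ Subgroup.normalizer (((P : Subgroup G) ⊓ N : Subgroup G) : Set G)) →
        ∃ h ∈ N, (∀ x ∈ s, MulAut.conj h • MulAut.conj x • V = MulAut.conj x • V) ∧
          ∃ c ∈ N ⊓ Subgroup.centralizer (B : Set G), n = h * c := by
      intro s
      induction s using Finset.induction_on with
      | empty =>
        intro _
        exact ⟨n, hn, by simp, 1, Subgroup.one_mem _, by simp⟩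
      | insert x₀ s hx₀ ih =>
        intro hs
        obtain ⟨h, hh, hhs, c, hc, hnhc⟩ := ih (fun x hx => hs x (Finset.mem_insert_of_mem hx))
        have hx₀Q := hs x₀ (Finset.mem_insert_self _ _)
        have hB'Q : B ⊔ ⨆ x ∈ s, MulAut.conj x • V ≤ (P : Subgroup G) ⊓ N :=
          sup_le hB (iSup₂_le fun x hx => hVx x (hs x (Finset.mem_insert_of_mem hx)))
        have hhB : MulAut.conj h • B = MulAut.conj n • B := by
          rw [hnhc, ← conj_smul_smul, cent_smul_eq hc.2]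
        have hhB' : MulAut.conj h • (B ⊔ ⨆ x ∈ s, MulAut.conj x • V) ≤ (P : Subgroup G) ⊓ N := by
          apply smul_le_of_le_inv_smul
          refine sup_le (le_inv_smul_of_smul_le (hhB ▸ hnB))
            (iSup₂_le fun x hx => le_inv_smul_of_smul_le ?_)
          rw [hhs x hx]
          exact hVx x (hs x (Finset.mem_insert_of_mem hx))
        obtain ⟨h', hh', hh'V, c', hc', hhh'⟩ := hctrlx x₀ hx₀Q _ hB'Q h hh hhB'
        have hc'B : c' ∈ Subgroup.centralizer (B : Set G) :=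
          Subgroup.centralizer_le (le_sup_left : B ≤ B ⊔ ⨆ x ∈ s, MulAut.conj x • V) hc'.2
        refine ⟨h', hh', ?_, c' * c, ⟨N.mul_mem hc'.1 hc.1, Subgroup.mul_mem _ hc'B hc.2⟩, ?_⟩
        · intro x hx
          rcases Finset.mem_insert.mp hx with rfl | hxs
          · exact hh'V
          · have hle : MulAut.conj x • V ≤ B ⊔ ⨆ x ∈ s, MulAut.conj x • V :=
              le_sup_of_le_right (le_biSup (fun x => MulAut.conj x • V) hxs)
            have hc'V : c'⁻¹ ∈ Subgroup.centralizer ((MulAut.conj x • V : Subgroup G) : Set G) :=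
              Subgroup.inv_mem _ (Subgroup.centralizer_le hle hc'.2)
            have e : h' = h * c'⁻¹ := by rw [hhh']; group
            rw [e, ← conj_smul_smul, cent_smul_eq hc'V, hhs x hxs]
        · rw [hnhc, hhh']; group
    obtain ⟨h, hh, hhs, c, hc, hnhc⟩ := key
      (Set.Finite.toFinset (Set.toFinite
        (Subgroup.normalizer (((P : Subgroup G) ⊓ N : Subgroup G) : Set G) : Set G)))
      (by intro x hx; simpa using hx)
    exact ⟨h, ⟨hh, hnormW h (fun x hx => hhs x (by simpa using hx))⟩, c, hc, hnhc⟩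
  exact core N P W hWQ hQW hWctrl

end Cfsg.Agent.S1954
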