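import Cfsg.Statements.S2010
import Mathlib
import Cfsg.Agent.Helper11.S4FreeClassTwo
import Cfsg.Agent.Helper1.PPrimeCore
import Cfsg.Agent.Helper33.ThompsonNPC
import Cfsg.Agent.Helper33.IndFunctor
import Cfsg.Agent.Helper46.Involves
import Cfsg.Agent.S0603

set_option autoImplicit false
open Cfsg

namespace Cfsg.Agent.S2010

open scoped commutatorElement

/-- Let G be a finite solvable group with no section isomorphic to the symmetric group of degree 4, whose Sylow 2-subgroup S has nilpotency class at most 2. Then G = N_G(J_e(S)) · O_{2'}(G), where J_e(S) is the subgroup generated by the elementary abelian subgroups of S of largest order. -/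
theorem result {G : Type*} [Group G] [Finite G]
    [Group.IsSolvable G] (hS4 : ¬ Cfsg.Involves (Equiv.Perm (Fin 4)) G) (S : Sylow 2 G)
    (hcl : Subgroup.lowerCentralSeries (S : Subgroup G) 2 = ⊥) :
    Subgroup.normalizer ((Cfsg.thompsonSubgroupOf 2 (S : Subgroup G)) : Set G) ⊔ Cfsg.pPrimeCore 2 G = ⊤ := by
  haveI : Fact (Nat.Prime 2) := ⟨Nat.prime_two⟩
  haveI hKn : (Cfsg.pPrimeCore 2 G).Normal := Helper1.pPrimeCore_normal 2
  have hKc : (Nat.card (Cfsg.pPrimeCore 2 G)).Coprime 2 := Helper1.pPrimeCore_coprime 2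
  have hπs : Function.Surjective (QuotientGroup.mk' (Cfsg.pPrimeCore 2 G)) :=
    QuotientGroup.mk'_surjective _
  -- class two, elementwise
  have hcl' : ∀ a ∈ (S : Subgroup G), ∀ b ∈ (S : Subgroup G), ∀ c ∈ (S : Subgroup G),
      (a * b * a⁻¹ * b⁻¹) * c = c * (a * b * a⁻¹ * b⁻¹) := by
    intro a ha b hb c hc
    have h1 : ⁅⁅a, b⁆, c⁆ ∈ Subgroup.lowerCentralSeries (S : Subgroup G) 2 := by
      rw [Subgroup.lowerCentralSeries_succ, Subgroup.lowerCentralSeries_succ,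
        Subgroup.lowerCentralSeries_zero]
      exact Subgroup.commutator_mem_commutator (Subgroup.commutator_mem_commutator ha hb) hc
    rw [hcl, Subgroup.mem_bot, commutatorElement_eq_one_iff_mul_comm, commutatorElement_def] at h1
    exact h1
  -- the quotient by `O_{2'}(G)`
  have hS4' : ¬ Cfsg.Involves (Equiv.Perm (Fin 4)) (G ⧸ Cfsg.pPrimeCore 2 G) :=
    fun h => hS4 (Helper46.involves_of_quotient _ h)
  have hred : Cfsg.pPrimeCore 2 (G ⧸ Cfsg.pPrimeCore 2 G) = ⊥ :=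
    Helper1.pPrimeCore_quotient_eq_bot 2
  have hTc : ((S.mapSurjective hπs : Sylow 2 (G ⧸ Cfsg.pPrimeCore 2 G)) :
      Subgroup (G ⧸ Cfsg.pPrimeCore 2 G)) =
      (S : Subgroup G).map (QuotientGroup.mk' (Cfsg.pPrimeCore 2 G)) :=
    Sylow.coe_mapSurjective hπs S
  have hclT : ∀ a ∈ ((S.mapSurjective hπs : Sylow 2 (G ⧸ Cfsg.pPrimeCore 2 G)) :
        Subgroup (G ⧸ Cfsg.pPrimeCore 2 G)),
      ∀ b ∈ ((S.mapSurjective hπs : Sylow 2 (G ⧸ Cfsg.pPrimeCore 2 G)) :
        Subgroup (G ⧸ Cfsg.pPrimeCore 2 G)),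
      ∀ c ∈ ((S.mapSurjective hπs : Sylow 2 (G ⧸ Cfsg.pPrimeCore 2 G)) :
        Subgroup (G ⧸ Cfsg.pPrimeCore 2 G)),
      (a * b * a⁻¹ * b⁻¹) * c = c * (a * b * a⁻¹ * b⁻¹) := by
    intro a ha b hb c hc
    rw [hTc] at ha hb hc
    obtain ⟨a, ha, rfl⟩ := ha
    obtain ⟨b, hb, rfl⟩ := hb
    obtain ⟨c, hc, rfl⟩ := hc
    have h := congrArg (QuotientGroup.mk' (Cfsg.pPrimeCore 2 G)) (hcl' a ha b hb c hc)
    simpa only [map_mul, map_inv] using h
  have hJ := Helper11.s4free_class_two_thompson_le_pCore hS4' hred (S.mapSurjective hπs) hclT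
  have hJT := hJ.trans (Helper10.pCore_le_sylow (S.mapSurjective hπs))
  have hJe := Cfsg.Agent.S0603.result _ hJT
  have hSp : IsPGroup 2 (S : Subgroup G) := S.isPGroup'
  have hinj : ∀ x ∈ (S : Subgroup G), QuotientGroup.mk' (Cfsg.pPrimeCore 2 G) x = 1 → x = 1 := by
    intro x hx hx1
    have hxK : x ∈ Cfsg.pPrimeCore 2 G := by
      rw [QuotientGroup.mk'_apply, QuotientGroup.eq_one_iff] at hx1
      exact hx1
    have hdisj : (S : Subgroup G) ⊓ Cfsg.pPrimeCore 2 G = ⊥ := by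
      apply Disjoint.eq_bot
      apply Subgroup.disjoint_of_coprime_natCard
      obtain ⟨n, hn⟩ := IsPGroup.iff_card.mp hSp
      rw [hn]
      exact Nat.Coprime.pow_left n hKc.symm
    have hmem : x ∈ (S : Subgroup G) ⊓ Cfsg.pPrimeCore 2 G := ⟨hx, hxK⟩
    rw [hdisj, Subgroup.mem_bot] at hmem
    exact hmem
  have hmap : Cfsg.thompsonSubgroupOf 2 ((S : Subgroup G).map (QuotientGroup.mk' (Cfsg.pPrimeCore 2 G))) =
      (Cfsg.thompsonSubgroupOf 2 (S : Subgroup G)).map (QuotientGroup.mk' (Cfsg.pPrimeCore 2 G)) :=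
    Helper33.inducedFunctor_map (Helper11.thompsonSubgroup_isCharPFunctor 2)
      (QuotientGroup.mk' (Cfsg.pPrimeCore 2 G)) (S : Subgroup G) hSp hinj
  rw [hTc, hmap] at hJe
  have hchar : (Cfsg.thompsonSubgroup 2 (G ⧸ Cfsg.pPrimeCore 2 G)).Characteristic :=
    (Cfsg.Agent.S0602.result (G := G ⧸ Cfsg.pPrimeCore 2 G) (p := 2)).1
  have hnorm : ((Cfsg.thompsonSubgroupOf 2 (S : Subgroup G)).map
      (QuotientGroup.mk' (Cfsg.pPrimeCore 2 G))).Normal := by
    rw [hJe]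
    exact Subgroup.normal_of_characteristic _
  have hUp : IsPGroup 2 (Cfsg.thompsonSubgroupOf 2 (S : Subgroup G)) := by
    apply hSp.to_le
    rintro _ ⟨x, _, rfl⟩
    exact x.2
  have hle := Helper33.normalizer_map_mk'_le (Cfsg.pPrimeCore 2 G) hKc
    (Cfsg.thompsonSubgroupOf 2 (S : Subgroup G)) hUp
  rw [Subgroup.normalizer_eq_top] at hle
  have h2 : (Subgroup.normalizer ((Cfsg.thompsonSubgroupOf 2 (S : Subgroup G)) : Set G)).map
      (QuotientGroup.mk' (Cfsg.pPrimeCore 2 G)) = ⊤ := top_le_iff.mp hle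
  have h3 := congrArg (Subgroup.comap (QuotientGroup.mk' (Cfsg.pPrimeCore 2 G))) h2
  rw [Subgroup.comap_map_eq, Subgroup.comap_top, QuotientGroup.ker_mk'] at h3
  exact h3

end Cfsg.Agent.S2010
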