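import Cfsg.Statements.S2015
import Cfsg.Agent.S1984
import Cfsg.Agent.S1978
import Cfsg.Agent.Helper33.KIso
import Cfsg.Agent.Helper33.IndFunctor
import Cfsg.Agent.Helper33.TransferControl

set_option autoImplicit false
universe u
open Cfsg

namespace Cfsg.Agent.S2015

/-- For p ≥ 5, every finite p-group P has a characteristic subgroup K containing Z(P), depending only on P, whose normalizer controls transfer wherever P is a Sylow subgroup: for every finite group G and every embedding ι of P onto a Sylow p-subgroup of G, the intersection of ι(P) with the derived subgroup of G equals its intersection with the derived subgroup of N_G(ι(K)). -/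
theorem result (p : ℕ) [Fact p.Prime] (hp : 5 ≤ p) (P : Type u) [Group P] [Finite P] (hP : IsPGroup p P) : ∃ K : Subgroup P, K.Characteristic ∧ Subgroup.center P ≤ K ∧ ∀ (G : Type u) [Group G] [Finite G] (ι : P →* G), Function.Injective ι → (∃ T : Sylow p G, (T : Subgroup G) = ι.range) → ι.range ⊓ commutator G = ι.range ⊓ (commutator ↥(Subgroup.normalizer ((K.map ι : Subgroup G) : Set G))).map (Subgroup.normalizer ((K.map ι : Subgroup G) : Set G)).subtype := by
  classical
  refine ⟨Cfsg.kInfLower P, ?_, ?_, ?_⟩
  · rw [Subgroup.characteristic_iff_map_eq]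
    intro ϕ
    exact Cfsg.Agent.Helper33.kInfLower_map_equiv ϕ
  · obtain ⟨h1, h2, -, -⟩ := Cfsg.Agent.S1978.result hP
    exact h2.trans h1
  · intro G _ _ ι hι hT
    obtain ⟨T, hTeq⟩ := hT
    have hW : Cfsg.IsConjugacyFunctor p (Cfsg.inducedFunctor (G := G) Cfsg.kInfLower) :=
      Cfsg.Agent.Helper33.isConjugacyFunctor_inducedFunctor
        (Cfsg.Agent.Helper33.isCharPFunctor_kInfLower p) G
    have hctl : Cfsg.ControlsTransferIn p (Cfsg.inducedFunctor (G := G) Cfsg.kInfLower) ⊤ :=
      Cfsg.Agent.S1984.result hp
    have hTp : IsPGroup p ↥ι.range := by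
      rw [← hTeq]
      exact T.isPGroup'
    have hidx : ¬ p ∣ ι.range.relIndex ⊤ := by
      rw [Subgroup.relIndex_top_right, ← hTeq]
      exact T.not_dvd_index
    have key := Cfsg.Agent.Helper33.controlsTransfer_of hW hctl (T' := ι.range) le_top hTp hidx
    have hWT : Cfsg.inducedFunctor (G := G) Cfsg.kInfLower ι.range = (Cfsg.kInfLower P).map ι := by
      unfold Cfsg.inducedFunctor
      have e := Cfsg.Agent.Helper33.kInfLower_map_equiv (MonoidHom.ofInjective hι)
      rw [← e, Subgroup.map_map]
      rfl
    rw [hWT, top_inf_eq] at key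
    rw [Subgroup.map_subtype_commutator]
    exact key

end Cfsg.Agent.S2015
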