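import Cfsg.Statements.S2111
import Cfsg.Agent.Helper35.SzStem
import Cfsg.Agent.Helper60.SzBridge
import Cfsg.Agent.Helper66.Schur

set_option autoImplicit false
open Cfsg

namespace Cfsg.Agent.S2111

/-- Schur multipliers of the Suzuki groups: for q = 2^(2m+1) with m ≥ 2 the Schur multiplier of Sz(q) is trivial (here the Schur multiplier is described through stem extensions, as in the definitions); q = 8 is exceptional. -/
theorem result {F : Type*} [Field F] [Fintype F] {m : ℕ} (hm : 2 ≤ m) (hF : Fintype.card F = 2 ^ (2 * m + 1)) : Cfsg.HasCyclicSchurMultiplier ↥(Cfsg.Lie.Sz F (2 ^ (m + 1))) 1 := by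
  classical
  have : CharP F 2 := Cfsg.Agent.Helper6.sz_charP hF
  apply Cfsg.Agent.Helper66.hasCyclicSchurMultiplier_one_of_forall_ker
  intro Γ _ _ σ₀ hσ₀
  -- transport along the isomorphism with the ovoid model
  obtain ⟨e⟩ : Nonempty (↥(Cfsg.Lie.Sz F (2 ^ (m + 1))) ≃* ↥(Cfsg.Sz F m)) :=
    ⟨Cfsg.Agent.Helper60.szBridge (by omega : 1 ≤ m) hF⟩
  have hk : (e.toMonoidHom.comp σ₀).ker = σ₀.ker := by
    ext x
    simp [MonoidHom.mem_ker]
  have hσ' : Cfsg.IsStemExtension (e.toMonoidHom.comp σ₀) :=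
    ⟨e.surjective.comp hσ₀.1, by rw [hk]; exact hσ₀.2.1, by rw [hk]; exact hσ₀.2.2⟩
  rw [← hk]
  obtain ⟨σ, hσdef⟩ : ∃ σ : Γ →* ↥(Cfsg.Sz F m), σ = e.toMonoidHom.comp σ₀ := ⟨_, rfl⟩
  rw [← hσdef] at hσ' ⊢
  by_contra hne
  obtain ⟨ℓ, z, hℓ, hzk, hzo⟩ := Cfsg.Agent.Helper35.stem_exists_prime_order σ hne
  have hℓfact : Fact ℓ.Prime := ⟨hℓ⟩
  by_cases hℓ2 : ℓ = 2
  · subst hℓ2
    exact Cfsg.Agent.Helper35.szstem_two_part hm hF σ hσ' z hzk hzo
  · have hzp : IsPGroup ℓ (Subgroup.zpowers z) := by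
      apply IsPGroup.of_card (n := 1)
      rw [Nat.card_zpowers, hzo, pow_one]
    obtain ⟨L, hL⟩ := hzp.exists_le_sylow
    have hzL : z ∈ (L : Subgroup Γ) := hL (Subgroup.mem_zpowers z)
    have hst := Cfsg.Agent.Helper35.stem_subgroupMap_sylow σ hσ' ℓ L
    have hP : IsPGroup ℓ ((L : Subgroup Γ).map σ) := L.isPGroup'.map σ
    obtain ⟨Q, hQ⟩ := hP.exists_le_sylow
    have hQc : IsCyclic Q := Cfsg.Agent.Helper6.sz_sylow_odd_cyclic (by omega) hF hℓ2 Q
    have hPc : IsCyclic ((L : Subgroup Γ).map σ) :=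
      isCyclic_of_injective (Subgroup.inclusion hQ) (Subgroup.inclusion_injective hQ)
    have hker : (σ.subgroupMap (L : Subgroup Γ)).ker = ⊥ :=
      Cfsg.Agent.Helper35.stem_ker_eq_bot_of_isCyclic _ hst
    have hz1 : (⟨z, hzL⟩ : (L : Subgroup Γ)) ∈ (σ.subgroupMap (L : Subgroup Γ)).ker := by
      rw [MonoidHom.mem_ker]
      apply Subtype.ext
      exact MonoidHom.mem_ker.mp hzk
    rw [hker, Subgroup.mem_bot] at hz1
    have hz2 : z = 1 := congrArg Subtype.val hz1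
    rw [hz2, orderOf_one] at hzo
    exact hℓ.one_lt.ne hzo

end Cfsg.Agent.S2111
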