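import Cfsg.Statements.S2162
import Cfsg.Agent.Helper36.SqZeroConj
import Cfsg.Agent.Helper36.SwapMat

set_option autoImplicit false
open Cfsg

namespace Cfsg.Agent.S2162

open Cfsg.Agent.Helper36

/-- Conjugacy of involutions in the special linear group over a finite field of characteristic two, in dimension at least 3: two elements of order 2 of SL_n(F) are conjugate in SL_n(F) exactly when the matrices a − 1 and b − 1 have the same rank (the rank of a − 1 is the dimension of the commutator space [V, a]). -/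
theorem result {F : Type*} [Field F] [Fintype F] [CharP F 2] {n : ℕ} (hn : 3 ≤ n) (a b : Matrix.SpecialLinearGroup (Fin n) F) (ha : orderOf a = 2) (hb : orderOf b = 2) :
    IsConj a b ↔ ((a : Matrix (Fin n) (Fin n) F) - 1).rank = ((b : Matrix (Fin n) (Fin n) F) - 1).rank := by
  have hsq : ∀ c : Matrix.SpecialLinearGroup (Fin n) F, orderOf c = 2 →
      ((c : Matrix (Fin n) (Fin n) F) - 1) * ((c : Matrix (Fin n) (Fin n) F) - 1) = 0 := by
    intro c hc
    have h2 : c ^ 2 = 1 := by rw [← hc]; exact pow_orderOf_eq_one c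
    have h2' : (c : Matrix (Fin n) (Fin n) F) * (c : Matrix (Fin n) (Fin n) F) = 1 := by
      have := congrArg (fun x : Matrix.SpecialLinearGroup (Fin n) F =>
        (x : Matrix (Fin n) (Fin n) F)) h2
      simpa [pow_two] using this
    rw [mul_sub, sub_mul, sub_mul, h2', mul_one, one_mul, one_mul]
    have e1 := mat_add_self (c : Matrix (Fin n) (Fin n) F)
    have e2 := mat_add_self (1 : Matrix (Fin n) (Fin n) F)
    calc (1 : Matrix (Fin n) (Fin n) F) - ↑c - (↑c - 1) = (1 + 1) - (↑c + ↑c) := by abel
      _ = 0 := by rw [e1, e2, sub_zero]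
  constructor
  · intro h
    rw [isConj_iff] at h
    obtain ⟨c, hc⟩ := h
    have hc' : c * a = b * c := by rw [← hc]; group
    have hm : (c : Matrix (Fin n) (Fin n) F) * (a : Matrix (Fin n) (Fin n) F)
        = (b : Matrix (Fin n) (Fin n) F) * (c : Matrix (Fin n) (Fin n) F) := by
      have := congrArg (fun x : Matrix.SpecialLinearGroup (Fin n) F =>
        (x : Matrix (Fin n) (Fin n) F)) hc'
      simpa using this
    have hm' : (c : Matrix (Fin n) (Fin n) F) * ((a : Matrix (Fin n) (Fin n) F) - 1)
        = ((b : Matrix (Fin n) (Fin n) F) - 1) * (c : Matrix (Fin n) (Fin n) F) := by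
      rw [mul_sub, sub_mul, hm, mul_one, one_mul]
    have hu : IsUnit (c : Matrix (Fin n) (Fin n) F).det := by
      rw [c.det_coe]; exact isUnit_one
    rw [← Matrix.rank_mul_eq_right_of_isUnit_det _ _ hu, hm',
      Matrix.rank_mul_eq_left_of_isUnit_det _ _ hu]
  · intro h
    have hne : (a : Matrix (Fin n) (Fin n) F) ≠ 1 := by
      intro h1
      have : a = 1 := Subtype.ext h1
      rw [this, orderOf_one] at ha
      omega
    obtain ⟨G, hG, hGA⟩ := exists_det_one_conj _ _ (hsq a ha) (hsq b hb) hne h
    obtain ⟨g, hg⟩ : ∃ g : Matrix.SpecialLinearGroup (Fin n) F,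
        (g : Matrix (Fin n) (Fin n) F) = G := ⟨⟨G, hG⟩, rfl⟩
    rw [isConj_iff]
    refine ⟨g, ?_⟩
    rw [mul_inv_eq_iff_eq_mul]
    apply Subtype.ext
    rw [Matrix.SpecialLinearGroup.coe_mul, Matrix.SpecialLinearGroup.coe_mul, hg]
    exact hGA

end Cfsg.Agent.S2162
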