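import Cfsg.Statements.S2163
import Cfsg.Agent.Helper36.SwapMat

set_option autoImplicit false
open Cfsg

namespace Cfsg.Agent.S2163

open Cfsg.Agent.Helper36

/-- Over a finite field of characteristic two and for n ≥ 3: for every ℓ with 1 ≤ ℓ and 2ℓ ≤ n, the matrix j_ℓ that is the identity plus the entries 1 in positions (n − ℓ + i, i) for i < ℓ (an identity block of size ℓ in the lower left corner) lies in SL_n(F), has order 2, and j_ℓ − 1 has rank ℓ. Together with the conjugacy criterion by rank, these matrices represent the conjugacy classes of involutions of SL_n(F). -/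
theorem result {F : Type*} [Field F] [Fintype F] [CharP F 2] {n : ℕ} (hn : 3 ≤ n) (ℓ : ℕ) (h1 : 1 ≤ ℓ) (h2 : 2 * ℓ ≤ n) :
    ∃ a : Matrix.SpecialLinearGroup (Fin n) F, (a : Matrix (Fin n) (Fin n) F) = 1 + Matrix.of (fun i j : Fin n => if j.val < ℓ ∧ i.val = j.val + (n - ℓ) then (1 : F) else 0) ∧ orderOf a = 2 ∧ ((a : Matrix (Fin n) (Fin n) F) - 1).rank = ℓ := by
  obtain ⟨a, ha⟩ : ∃ a : Matrix.SpecialLinearGroup (Fin n) F,
      (a : Matrix (Fin n) (Fin n) F) = 1 + lowE F n ℓ :=
    ⟨⟨1 + lowE F n ℓ, det_one_add_lowE h1 h2⟩, rfl⟩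
  refine ⟨a, ha, ?_, ?_⟩
  · haveI : Fact (Nat.Prime 2) := ⟨Nat.prime_two⟩
    apply orderOf_eq_prime
    · apply Subtype.ext
      rw [Matrix.SpecialLinearGroup.coe_pow, pow_two, ha]
      exact one_add_lowE_mul_self h1 h2
    · intro h
      rw [h, Matrix.SpecialLinearGroup.coe_one] at ha
      exact lowE_ne_zero (F := F) h1 h2 (by simpa using ha.symm)
  · rw [ha, add_sub_cancel_left]
    exact rank_lowE h2

end Cfsg.Agent.S2163
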