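import Cfsg.Statements.S2164
import Cfsg.Agent.Helper36.UnitInv
import Cfsg.Agent.S2162

set_option autoImplicit false
open Cfsg

namespace Cfsg.Agent.S2164

open Cfsg.Agent.Helper36 Matrix

/-- Conjugacy of involutions in the special unitary group SU_n(q), q even, n ≥ 3, realised over the field F with q² elements as the matrices of determinant 1 preserving the form Σ u_i v_i^q: for two elements of order 2 of SU_n(q) the following are equivalent — they are conjugate in SU_n(q); they are conjugate in SL_n(F); the matrices a − 1 and b − 1 have the same rank. -/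
theorem result {F : Type*} [Field F] [Fintype F] [CharP F 2] {n q : ℕ} (hF : Fintype.card F = q ^ 2) (hn : 3 ≤ n) (a b : ↥(Cfsg.SU n F q)) (ha : orderOf a = 2) (hb : orderOf b = 2) :
    (IsConj a b ↔ IsConj (a : Matrix.SpecialLinearGroup (Fin n) F) (b : Matrix.SpecialLinearGroup (Fin n) F)) ∧
    (IsConj a b ↔ (((a : Matrix.SpecialLinearGroup (Fin n) F) : Matrix (Fin n) (Fin n) F) - 1).rank = (((b : Matrix.SpecialLinearGroup (Fin n) F) : Matrix (Fin n) (Fin n) F) - 1).rank) := by
  have hsq : ∀ c : ↥(Cfsg.SU n F q), orderOf c = 2 →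
      (((c : Matrix.SpecialLinearGroup (Fin n) F) : Matrix (Fin n) (Fin n) F))
        * (((c : Matrix.SpecialLinearGroup (Fin n) F) : Matrix (Fin n) (Fin n) F)) = 1 := by
    intro c hc
    have h2 : c ^ 2 = 1 := by rw [← hc]; exact pow_orderOf_eq_one c
    have := congrArg (fun x : ↥(Cfsg.SU n F q) =>
      ((x : Matrix.SpecialLinearGroup (Fin n) F) : Matrix (Fin n) (Fin n) F)) h2
    simpa [pow_two] using this
  have hpres : ∀ c : ↥(Cfsg.SU n F q), ∀ u v : Fin n → F,
      Cfsg.hermForm n F q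
        (((c : Matrix.SpecialLinearGroup (Fin n) F) : Matrix (Fin n) (Fin n) F) *ᵥ u)
        (((c : Matrix.SpecialLinearGroup (Fin n) F) : Matrix (Fin n) (Fin n) F) *ᵥ v)
        = Cfsg.hermForm n F q u v := fun c => c.2
  have hrank : (((a : Matrix.SpecialLinearGroup (Fin n) F) : Matrix (Fin n) (Fin n) F) - 1).rank
      = (((b : Matrix.SpecialLinearGroup (Fin n) F) : Matrix (Fin n) (Fin n) F) - 1).rank →
      IsConj a b := by
    intro hrk
    obtain ⟨G, hGd, hGf, hGA⟩ := unit_conj_of_rank hF (by omega) _ _ (hpres a) (hsq a ha)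
      (hpres b) (hsq b hb) hrk
    have hg : (⟨G, hGd⟩ : Matrix.SpecialLinearGroup (Fin n) F) ∈ Cfsg.SU n F q := hGf
    rw [isConj_iff]
    refine ⟨⟨⟨G, hGd⟩, hg⟩, ?_⟩
    rw [mul_inv_eq_iff_eq_mul]
    apply Subtype.ext
    apply Subtype.ext
    exact hGA
  have hSL := Cfsg.Agent.S2162.result hn (a : Matrix.SpecialLinearGroup (Fin n) F)
    (b : Matrix.SpecialLinearGroup (Fin n) F) (by rw [Subgroup.orderOf_coe]; exact ha)
    (by rw [Subgroup.orderOf_coe]; exact hb)
  have hmap : IsConj a b →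
      IsConj (a : Matrix.SpecialLinearGroup (Fin n) F) (b : Matrix.SpecialLinearGroup (Fin n) F) := by
    intro h
    rw [isConj_iff] at h ⊢
    obtain ⟨c, hc⟩ := h
    exact ⟨c, by rw [← hc]; rfl⟩
  exact ⟨⟨hmap, fun h => hrank (hSL.1 h)⟩, ⟨fun h => hSL.1 (hmap h), hrank⟩⟩

end Cfsg.Agent.S2164
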