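import Cfsg.Statements.S2165
import Cfsg.Agent.Helper36.SwapRank

set_option autoImplicit false
open Cfsg

namespace Cfsg.Agent.S2165

open Cfsg.Agent.Helper36

/-- In SU_n(q), q even, n ≥ 3 (matrices of determinant 1 over the field with q² elements preserving Σ u_i v_i^q): for every ℓ with 1 ≤ ℓ and 2ℓ ≤ n, the permutation matrix of the involution of {0, …, n−1} exchanging i and n − ℓ + i for each i < ℓ lies in SU_n(q), has order 2, and differs from the identity by a matrix of rank ℓ. So every rank between 1 and n/2 occurs for involutions of SU_n(q). -/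
theorem result {F : Type*} [Field F] [Fintype F] [CharP F 2] {n q : ℕ} (hF : Fintype.card F = q ^ 2) (hn : 3 ≤ n) (ℓ : ℕ) (h1 : 1 ≤ ℓ) (h2 : 2 * ℓ ≤ n) :
    ∃ a : ↥(Cfsg.SU n F q), (((a : Matrix.SpecialLinearGroup (Fin n) F) : Matrix (Fin n) (Fin n) F) = Matrix.of (fun i j : Fin n => if (j.val < ℓ ∧ i.val = j.val + (n - ℓ)) ∨ (i.val < ℓ ∧ j.val = i.val + (n - ℓ)) ∨ (i = j ∧ ℓ ≤ i.val ∧ i.val < n - ℓ) then (1 : F) else 0)) ∧ orderOf a = 2 ∧ ((((a : Matrix.SpecialLinearGroup (Fin n) F) : Matrix (Fin n) (Fin n) F)) - 1).rank = ℓ := by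
  obtain ⟨s, hs⟩ : ∃ s : Matrix.SpecialLinearGroup (Fin n) F,
      (s : Matrix (Fin n) (Fin n) F) = swapMat F n ℓ := ⟨⟨swapMat F n ℓ, det_swapMat h2⟩, rfl⟩
  have hmem : s ∈ Cfsg.SU n F q := by
    intro u v
    have e : (slToMat n F) s = swapMat F n ℓ := by
      rw [← hs]; rfl
    rw [e, swapMat_mulVec h2, swapMat_mulVec h2]
    unfold hermForm
    exact Equiv.sum_comp (swapPerm n ℓ) (fun i => u i * v i ^ q)
  refine ⟨⟨s, hmem⟩, hs, ?_, ?_⟩
  · have : Fact (Nat.Prime 2) := ⟨Nat.prime_two⟩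
    apply orderOf_eq_prime
    · apply Subtype.ext
      apply Subtype.ext
      show ((s ^ 2 : Matrix.SpecialLinearGroup (Fin n) F) : Matrix (Fin n) (Fin n) F) = 1
      rw [Matrix.SpecialLinearGroup.coe_pow, pow_two, hs]
      exact swapMat_mul_self h2
    · intro h
      have h' : s = 1 := congrArg Subtype.val h
      rw [h', Matrix.SpecialLinearGroup.coe_one] at hs
      exact swapMat_ne_one (F := F) h1 h2 hs.symm
  · show ((s : Matrix (Fin n) (Fin n) F) - 1).rank = ℓ
    rw [hs]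
    exact rank_swapMat_sub_one h2

end Cfsg.Agent.S2165
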