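import Cfsg.Statements.S2167
import Cfsg.Agent.Helper36.SympForm
import Cfsg.Agent.Helper36.AltEven

set_option autoImplicit false
open Cfsg

namespace Cfsg.Agent.S2167

open Cfsg.Agent.Helper36 Matrix Module

theorem q_add {F : Type*} [Field F] {m : ℕ} (A : Matrix (Fin m ⊕ Fin m) (Fin m ⊕ Fin m) F)
    (hA : A ∈ Matrix.symplecticGroup (Fin m) F) (hAA : A * A = 1) (u v : Fin m ⊕ Fin m → F) :
    Cfsg.sympForm m F (u + v) (A *ᵥ (u + v))
      = Cfsg.sympForm m F u (A *ᵥ u) + Cfsg.sympForm m F v (A *ᵥ v) := by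
  rw [Matrix.mulVec_add, sympForm_add_left, sympForm_add_right, sympForm_add_right]
  have h1 : Cfsg.sympForm m F v (A *ᵥ u) = - Cfsg.sympForm m F u (A *ᵥ v) := by
    rw [← sympForm_mulVec hA v (A *ᵥ u), Matrix.mulVec_mulVec, hAA, Matrix.one_mulVec,
      sympForm_skew]
  rw [h1]; ring

theorem q_smul {F : Type*} [Field F] {m : ℕ} (A : Matrix (Fin m ⊕ Fin m) (Fin m ⊕ Fin m) F)
    (c : F) (v : Fin m ⊕ Fin m → F) :
    Cfsg.sympForm m F (c • v) (A *ᵥ (c • v)) = c * c * Cfsg.sympForm m F v (A *ᵥ v) := by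
  rw [Matrix.mulVec_smul, sympForm_smul_left, sympForm_smul_right]; ring

/-- The linear functional `v ↦ √(f(v, A v))`. -/
noncomputable def qLin {F : Type*} [Field F] [Finite F] [CharP F 2] {m : ℕ}
    (A : Matrix (Fin m ⊕ Fin m) (Fin m ⊕ Fin m) F)
    (hA : A ∈ Matrix.symplecticGroup (Fin m) F) (hAA : A * A = 1) :
    (Fin m ⊕ Fin m → F) →ₗ[F] F :=
  haveI : ExpChar F 2 := ExpChar.prime Nat.prime_two
  { toFun := fun v => (frobeniusEquiv F 2).symm (Cfsg.sympForm m F v (A *ᵥ v))
    map_add' := fun u v => by rw [q_add A hA hAA, map_add]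
    map_smul' := fun c v => by
      rw [q_smul, map_mul, RingHom.id_apply, smul_eq_mul]
      congr 1
      rw [← pow_two, ← frobenius_def, frobeniusEquiv_symm_apply_frobenius] }

theorem qLin_eq_zero_iff {F : Type*} [Field F] [Finite F] [CharP F 2] {m : ℕ}
    (A : Matrix (Fin m ⊕ Fin m) (Fin m ⊕ Fin m) F)
    (hA : A ∈ Matrix.symplecticGroup (Fin m) F) (hAA : A * A = 1) (v : Fin m ⊕ Fin m → F) :
    qLin A hA hAA v = 0 ↔ Cfsg.sympForm m F v (A *ᵥ v) = 0 := by
  haveI : ExpChar F 2 := ExpChar.prime Nat.prime_two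
  show (frobeniusEquiv F 2).symm (Cfsg.sympForm m F v (A *ᵥ v)) = 0 ↔ _
  exact EmbeddingLike.map_eq_zero_iff

/-- For an involution t of the symplectic group Sp_{2m}(F), m ≥ 2, F a finite field of characteristic two (matrices A with A J Aᵀ = J acting on column vectors, alternating form f(u, v) = u ⬝ (J v)): the set V(t) of vectors v with f(v, t v) = 0 has either q^{2m} or q^{2m−1} elements, q the order of F (it is a subspace of codimension at most 1), and if it is the whole space then t − 1 has even rank. -/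
theorem result {F : Type*} [Field F] [Fintype F] [CharP F 2] {m : ℕ} (hm : 2 ≤ m) (a : ↥(Matrix.symplecticGroup (Fin m) F)) (ha : orderOf a = 2) :
    (Nat.card {v : Fin m ⊕ Fin m → F // Cfsg.sympForm m F v (Matrix.mulVec ((a : ↥(Matrix.symplecticGroup (Fin m) F)) : Matrix (Fin m ⊕ Fin m) (Fin m ⊕ Fin m) F) v) = 0} = Fintype.card F ^ (2 * m) ∨ Nat.card {v : Fin m ⊕ Fin m → F // Cfsg.sympForm m F v (Matrix.mulVec ((a : ↥(Matrix.symplecticGroup (Fin m) F)) : Matrix (Fin m ⊕ Fin m) (Fin m ⊕ Fin m) F) v) = 0} * Fintype.card F = Fintype.card F ^ (2 * m)) ∧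
    ((∀ v : Fin m ⊕ Fin m → F, Cfsg.sympForm m F v (Matrix.mulVec ((a : ↥(Matrix.symplecticGroup (Fin m) F)) : Matrix (Fin m ⊕ Fin m) (Fin m ⊕ Fin m) F) v) = 0) → Even (((a : ↥(Matrix.symplecticGroup (Fin m) F)) : Matrix (Fin m ⊕ Fin m) (Fin m ⊕ Fin m) F) - 1).rank) := by
  obtain ⟨A, hA⟩ := a
  have hAA : A * A = 1 := by
    have h2 : (⟨A, hA⟩ : ↥(Matrix.symplecticGroup (Fin m) F)) ^ 2 = 1 := by
      rw [← ha]; exact pow_orderOf_eq_one _
    have := congrArg Subtype.val h2
    simpa [pow_two] using this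
  show (Nat.card {v : Fin m ⊕ Fin m → F // Cfsg.sympForm m F v (A *ᵥ v) = 0} = Fintype.card F ^ (2 * m) ∨
      Nat.card {v : Fin m ⊕ Fin m → F // Cfsg.sympForm m F v (A *ᵥ v) = 0} * Fintype.card F = Fintype.card F ^ (2 * m)) ∧
    ((∀ v : Fin m ⊕ Fin m → F, Cfsg.sympForm m F v (A *ᵥ v) = 0) → Even (A - 1).rank)
  have hdimV : finrank F (Fin m ⊕ Fin m → F) = 2 * m := by
    rw [Module.finrank_fintype_fun_eq_card, Fintype.card_sum, Fintype.card_fin]; ring
  constructor
  · have hcard : Nat.card {v : Fin m ⊕ Fin m → F // Cfsg.sympForm m F v (A *ᵥ v) = 0}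
        = Fintype.card F ^ finrank F (LinearMap.ker (qLin A hA hAA)) := by
      rw [← Nat.card_eq_fintype_card, ← Module.natCard_eq_pow_finrank (K := F)]
      apply Nat.card_congr
      apply Equiv.subtypeEquivRight
      intro v
      rw [LinearMap.mem_ker, qLin_eq_zero_iff]
    have h1 := LinearMap.finrank_range_add_finrank_ker (qLin A hA hAA)
    have h2 : finrank F (LinearMap.range (qLin A hA hAA)) ≤ 1 := by
      have := Submodule.finrank_le (LinearMap.range (qLin A hA hAA))
      rwa [Module.finrank_self] at this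
    rw [hdimV] at h1
    rw [hcard]
    rcases Nat.lt_or_ge (finrank F (LinearMap.range (qLin A hA hAA))) 1 with h3 | h3
    · left
      have : finrank F (LinearMap.ker (qLin A hA hAA)) = 2 * m := by omega
      rw [this]
    · right
      have : finrank F (LinearMap.ker (qLin A hA hAA)) + 1 = 2 * m := by omega
      rw [← this, pow_succ]
  · intro hQ
    -- the alternating form β(u, v) = f(u, (A - 1) v)
    have hself : ∀ x w : Fin m ⊕ Fin m → F,
        Cfsg.sympForm m F x ((A - 1) *ᵥ w) = Cfsg.sympForm m F ((A - 1) *ᵥ x) w := by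
      intro x w
      rw [Matrix.sub_mulVec, Matrix.sub_mulVec, Matrix.one_mulVec, Matrix.one_mulVec,
        sympForm_sub_right]
      have e1 : Cfsg.sympForm m F x (A *ᵥ w) = Cfsg.sympForm m F (A *ᵥ x) w := by
        rw [← sympForm_mulVec hA x (A *ᵥ w), Matrix.mulVec_mulVec, hAA, Matrix.one_mulVec]
      rw [e1, sympForm_skew (A *ᵥ x - x) w, sympForm_sub_right, sympForm_skew w (A *ᵥ x),
        sympForm_skew w x]
      ring
    let B : (Fin m ⊕ Fin m → F) →ₗ[F] (Fin m ⊕ Fin m → F) →ₗ[F] F :=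
      LinearMap.mk₂ F (fun u v => Cfsg.sympForm m F u ((A - 1) *ᵥ v))
        (fun u u' v => sympForm_add_left u u' _)
        (fun c u v => by rw [sympForm_smul_left, smul_eq_mul])
        (fun u v v' => by rw [Matrix.mulVec_add, sympForm_add_right])
        (fun c u v => by rw [Matrix.mulVec_smul, sympForm_smul_right, smul_eq_mul])
    have hB : ∀ u v, B u v = Cfsg.sympForm m F u ((A - 1) *ᵥ v) := fun u v => rfl
    obtain ⟨C, hC⟩ := Submodule.exists_isCompl (LinearMap.ker (Matrix.toLin' (A - 1)))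
    let B' : C →ₗ[F] C →ₗ[F] F := B.compl₁₂ C.subtype C.subtype
    have hB' : ∀ x y : C, B' x y = Cfsg.sympForm m F (x : Fin m ⊕ Fin m → F)
        ((A - 1) *ᵥ (y : Fin m ⊕ Fin m → F)) := fun x y => rfl
    have hrank : finrank F C = (A - 1).rank := by
      have h1 := LinearMap.finrank_range_add_finrank_ker (Matrix.toLin' (A - 1))
      have h2 := Submodule.finrank_add_eq_of_isCompl hC
      have h3 : (A - 1).rank = finrank F (LinearMap.range (Matrix.toLin' (A - 1))) := rfl
      omega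
    rw [← hrank]
    refine even_finrank_of_alt (finrank F C) C B' ?_ ?_ rfl
    · intro x
      rw [hB', Matrix.sub_mulVec, Matrix.one_mulVec, sympForm_sub_right, hQ, sympForm_self,
        sub_zero]
    · intro x hx
      have hall : ∀ w : Fin m ⊕ Fin m → F,
          Cfsg.sympForm m F (x : Fin m ⊕ Fin m → F) ((A - 1) *ᵥ w) = 0 := by
        intro w
        have hw : w ∈ LinearMap.ker (Matrix.toLin' (A - 1)) ⊔ C := by
          rw [hC.sup_eq_top]; exact Submodule.mem_top
        obtain ⟨k, hk, y, hy, rfl⟩ := Submodule.mem_sup.1 hw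
        have hk0 : (A - 1) *ᵥ k = 0 := by
          have := LinearMap.mem_ker.1 hk
          rwa [Matrix.toLin'_apply] at this
        rw [Matrix.mulVec_add, hk0, zero_add]
        exact hx ⟨y, hy⟩
      have hNx : (A - 1) *ᵥ (x : Fin m ⊕ Fin m → F) = 0 := by
        apply sympForm_nondeg_left
        intro w
        rw [← hself]
        exact hall w
      have hxK : (x : Fin m ⊕ Fin m → F) ∈ LinearMap.ker (Matrix.toLin' (A - 1)) := by
        rw [LinearMap.mem_ker, Matrix.toLin'_apply]; exact hNx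
      exact Subtype.ext ((Submodule.disjoint_def.1 hC.disjoint) _ hxK x.2)

end Cfsg.Agent.S2167
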