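import Cfsg.Statements.S2166
import Cfsg.Agent.Helper36.SympInv
import Cfsg.Agent.S2167

set_option autoImplicit false
open Cfsg

namespace Cfsg.Agent.S2166

open Cfsg.Agent.Helper36 Matrix Module

/-- Conjugacy of involutions in the symplectic group Sp_{2m}(F), F a finite field of characteristic two, m ≥ 2 (Sp taken as the matrices A with A J Aᵀ = J, acting on column vectors, with the alternating form f(u, v) = u ⬝ (J v)). For an involution t write V(t) for the set of vectors v with f(v, t v) = 0 (a subspace). Two involutions a, b are conjugate in Sp_{2m}(F) exactly when a − 1 and b − 1 have the same rank and, in case that rank is even, V(a) and V(b) have the same number of elements. -/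
theorem result {F : Type*} [Field F] [Fintype F] [CharP F 2] {m : ℕ} (hm : 2 ≤ m) (a b : ↥(Matrix.symplecticGroup (Fin m) F)) (ha : orderOf a = 2) (hb : orderOf b = 2) :
    IsConj a b ↔ ((((a : ↥(Matrix.symplecticGroup (Fin m) F)) : Matrix (Fin m ⊕ Fin m) (Fin m ⊕ Fin m) F) - 1).rank = (((b : ↥(Matrix.symplecticGroup (Fin m) F)) : Matrix (Fin m ⊕ Fin m) (Fin m ⊕ Fin m) F) - 1).rank ∧
      (Even (((a : ↥(Matrix.symplecticGroup (Fin m) F)) : Matrix (Fin m ⊕ Fin m) (Fin m ⊕ Fin m) F) - 1).rank → Nat.card {v : Fin m ⊕ Fin m → F // Cfsg.sympForm m F v (Matrix.mulVec ((a : ↥(Matrix.symplecticGroup (Fin m) F)) : Matrix (Fin m ⊕ Fin m) (Fin m ⊕ Fin m) F) v) = 0} = Nat.card {v : Fin m ⊕ Fin m → F // Cfsg.sympForm m F v (Matrix.mulVec ((b : ↥(Matrix.symplecticGroup (Fin m) F)) : Matrix (Fin m ⊕ Fin m) (Fin m ⊕ Fin m) F) v) = 0})) := by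
  obtain ⟨A, hA⟩ := a
  obtain ⟨B, hB⟩ := b
  have hsq : ∀ (M : Matrix (Fin m ⊕ Fin m) (Fin m ⊕ Fin m) F)
      (hM : M ∈ Matrix.symplecticGroup (Fin m) F),
      orderOf (⟨M, hM⟩ : ↥(Matrix.symplecticGroup (Fin m) F)) = 2 → M * M = 1 := by
    intro M hM ho
    have h2 : (⟨M, hM⟩ : ↥(Matrix.symplecticGroup (Fin m) F)) ^ 2 = 1 := by
      rw [← ho]; exact pow_orderOf_eq_one _
    have := congrArg Subtype.val h2
    simpa [pow_two] using this
  have hAA : A * A = 1 := hsq A hA ha
  have hBB : B * B = 1 := hsq B hB hb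
  show IsConj (⟨A, hA⟩ : ↥(Matrix.symplecticGroup (Fin m) F)) ⟨B, hB⟩ ↔
    ((A - 1).rank = (B - 1).rank ∧ (Even (A - 1).rank →
      Nat.card {v : Fin m ⊕ Fin m → F // Cfsg.sympForm m F v (A *ᵥ v) = 0}
        = Nat.card {v : Fin m ⊕ Fin m → F // Cfsg.sympForm m F v (B *ᵥ v) = 0}))
  constructor
  · intro h
    rw [isConj_iff] at h
    obtain ⟨⟨C, hC⟩, hc⟩ := h
    have hc' : (⟨C, hC⟩ : ↥(Matrix.symplecticGroup (Fin m) F)) * ⟨A, hA⟩ = ⟨B, hB⟩ * ⟨C, hC⟩ := by
      rw [← hc]; group
    have hmat : C * A = B * C := congrArg Subtype.val hc'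
    have hmat' : C * (A - 1) = (B - 1) * C := by
      rw [mul_sub, sub_mul, hmat, mul_one, one_mul]
    have hu : IsUnit C.det := SymplecticGroup.symplectic_det hC
    constructor
    · rw [← Matrix.rank_mul_eq_right_of_isUnit_det _ _ hu, hmat',
        Matrix.rank_mul_eq_left_of_isUnit_det _ _ hu]
    · intro _
      have hCinv : C⁻¹ * C = 1 := Matrix.nonsing_inv_mul _ hu
      have hCinv' : C * C⁻¹ = 1 := Matrix.mul_nonsing_inv _ hu
      let E : (Fin m ⊕ Fin m → F) ≃ (Fin m ⊕ Fin m → F) :=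
        { toFun := fun v => C *ᵥ v
          invFun := fun v => C⁻¹ *ᵥ v
          left_inv := fun v => by
            show C⁻¹ *ᵥ (C *ᵥ v) = v
            rw [Matrix.mulVec_mulVec, hCinv, Matrix.one_mulVec]
          right_inv := fun v => by
            show C *ᵥ (C⁻¹ *ᵥ v) = v
            rw [Matrix.mulVec_mulVec, hCinv', Matrix.one_mulVec] }
      exact Nat.card_congr (E.subtypeEquiv (fun v => by
        show _ = 0 ↔ Cfsg.sympForm m F (C *ᵥ v) (B *ᵥ (C *ᵥ v)) = 0
        rw [Matrix.mulVec_mulVec, ← hmat, ← Matrix.mulVec_mulVec, sympForm_mulVec hC]))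
  · rintro ⟨hrk, hcard⟩
    have halt : (∀ v, Cfsg.sympForm m F v (A *ᵥ v) = 0) ↔
        (∀ v, Cfsg.sympForm m F v (B *ᵥ v) = 0) := by
      by_cases hev : Even (A - 1).rank
      · have hc := hcard hev
        have key : ∀ M : Matrix (Fin m ⊕ Fin m) (Fin m ⊕ Fin m) F,
            (∀ v, Cfsg.sympForm m F v (M *ᵥ v) = 0) ↔
              Nat.card {v : Fin m ⊕ Fin m → F // Cfsg.sympForm m F v (M *ᵥ v) = 0}
                = Nat.card (Fin m ⊕ Fin m → F) := by
          intro M
          constructor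
          · intro h
            exact Nat.card_congr (Equiv.subtypeUnivEquiv h)
          · intro h v
            have hb := Function.Injective.bijective_of_nat_card_le
              (f := (Subtype.val : {v : Fin m ⊕ Fin m → F // Cfsg.sympForm m F v (M *ᵥ v) = 0}
                → (Fin m ⊕ Fin m → F))) Subtype.val_injective (le_of_eq h.symm)
            obtain ⟨⟨w, hw⟩, rfl⟩ := hb.2 v
            exact hw
        rw [key A, key B, hc]
      · have h1 := (Cfsg.Agent.S2167.result hm ⟨A, hA⟩ ha).2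
        have h2 := (Cfsg.Agent.S2167.result hm ⟨B, hB⟩ hb).2
        constructor
        · intro h
          exact absurd (h1 h) hev
        · intro h
          have := h2 h
          rw [← hrk] at this
          exact absurd this hev
    obtain ⟨G, hG, hGA⟩ := symp_conj_of_invariants A B hA hAA hB hBB hrk halt
    rw [isConj_iff]
    refine ⟨⟨G, hG⟩, ?_⟩
    rw [mul_inv_eq_iff_eq_mul]
    exact Subtype.ext hGA

end Cfsg.Agent.S2166
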