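import Cfsg.Statements.S2174
import Cfsg.Agent.Helper38.F4IMain
import Cfsg.Agent.Helper38.F4INC
import Cfsg.Agent.Helper38.F4IOS
import Cfsg.Agent.Helper18.RSubCoc

set_option autoImplicit false
open Cfsg

namespace Cfsg.Agent.S2174

/-- Conjugacy classes of involutions in the Chevalley group of type F₄ over a finite field F of characteristic two (the matrix group generated by the root elements x_r(t)). In this problem's root numbering for type F₄ (the Chevalley data module; fundamental roots p₁, p₂ short and p₃, p₄ long; roots indexed by their coefficient vectors in increasing order) let r = 47 be the highest root (2,4,3,2), s = 44 the highest short root (2,3,2,1), and α = 39 = (1,2,2,1), β = 45 = (2,4,2,1), an orthogonal short/long pair; consider the four elements x_r(1), x_s(1), x_r(1)x_s(1), x_α(1)x_β(1). Then: each invertible matrix equal to one of these four products lies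 in the group and has order 2; every element of order 2 of the group is conjugate in the group to one of them; and no two of them are conjugate in the group (so, the four matrices being distinct, the group has exactly four conjugacy classes of involutions). -/
theorem result {F : Type*} [Field F] [Fintype F] [CharP F 2] :
    (∀ y : GL Cfsg.Lie.chevF4.Idx F, ((y : GL Cfsg.Lie.chevF4.Idx F) : Matrix Cfsg.Lie.chevF4.Idx Cfsg.Lie.chevF4.Idx F) ∈ [Cfsg.Lie.chevF4.x F 47 1, Cfsg.Lie.chevF4.x F 44 1, Cfsg.Lie.chevF4.x F 47 1 * Cfsg.Lie.chevF4.x F 44 1, Cfsg.Lie.chevF4.x F 39 1 * Cfsg.Lie.chevF4.x F 45 1] → y ∈ Cfsg.Lie.chevF4.group F ∧ orderOf y = 2) ∧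
    (∀ g ∈ Cfsg.Lie.chevF4.group F, orderOf g = 2 → ∃ y ∈ Cfsg.Lie.chevF4.group F, ((y : GL Cfsg.Lie.chevF4.Idx F) : Matrix Cfsg.Lie.chevF4.Idx Cfsg.Lie.chevF4.Idx F) ∈ [Cfsg.Lie.chevF4.x F 47 1, Cfsg.Lie.chevF4.x F 44 1, Cfsg.Lie.chevF4.x F 47 1 * Cfsg.Lie.chevF4.x F 44 1, Cfsg.Lie.chevF4.x F 39 1 * Cfsg.Lie.chevF4.x F 45 1] ∧ ∃ h ∈ Cfsg.Lie.chevF4.group F, h * g * h⁻¹ = y) ∧
    (∀ y₁ ∈ Cfsg.Lie.chevF4.group F, ∀ y₂ ∈ Cfsg.Lie.chevF4.group F, ((y₁ : GL Cfsg.Lie.chevF4.Idx F) : Matrix Cfsg.Lie.chevF4.Idx Cfsg.Lie.chevF4.Idx F) ∈ [Cfsg.Lie.chevF4.x F 47 1, Cfsg.Lie.chevF4.x F 44 1, Cfsg.Lie.chevF4.x F 47 1 * Cfsg.Lie.chevF4.x F 44 1, Cfsg.Lie.chevF4.x F 39 1 * Cfsg.Lie.chevF4.x F 45 1] → ((y₂ : GL Cfsg.Lie.chevF4.Idx F) : Matrix Cfsg.Lie.chevF4.Idx Cfsg.Lie.chevF4.Idx F) ∈ [Cfsg.Lie.chevF4.x F 47 1, Cfsg.Lie.chevF4.x F 44 1, Cfsg.Lie.chevF4.x F 47 1 * Cfsg.Lie.chevF4.x F 44 1,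 Cfsg.Lie.chevF4.x F 39 1 * Cfsg.Lie.chevF4.x F 45 1] →
      (∃ h ∈ Cfsg.Lie.chevF4.group F, h * y₁ * h⁻¹ = y₂) → ((y₁ : GL Cfsg.Lie.chevF4.Idx F) : Matrix Cfsg.Lie.chevF4.Idx Cfsg.Lie.chevF4.Idx F) = ((y₂ : GL Cfsg.Lie.chevF4.Idx F) : Matrix Cfsg.Lie.chevF4.Idx Cfsg.Lie.chevF4.Idx F)) := by
  have hD7 : Cfsg.Lie.chevF4 ∈ [Cfsg.Lie.chevG2, Cfsg.Lie.chevB2, Cfsg.Lie.chevD4, Cfsg.Lie.chevF4,
      Cfsg.Lie.chevE6, Cfsg.Lie.chevE7, Cfsg.Lie.chevE8] := by simp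
  have R := Cfsg.Agent.Helper36.bRel_of_mem (F := F) hD7
  have hW := Cfsg.Agent.Helper17.wtFacts_of_wtOK Cfsg.Agent.Helper17.chainPackOK_F4
    Cfsg.Agent.Helper17.wtOK_F4
  have hE : Cfsg.Agent.Helper17.RootElts Cfsg.Lie.chevF4 F := Cfsg.Agent.Helper17.rootElts_of_mem hD7
  have hL : Cfsg.Agent.Helper38.F4LowS R := fun A J h u hu hu1 =>
    Cfsg.Agent.Helper18.RSub.lower_simple R hW hE A J h hu hu1
  have hC : Cfsg.Agent.Helper38.F4CocS R := fun p Fix S hp hS a ha u1 hu1 hinv =>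
    Cfsg.Agent.Helper18.RSub.invol_cocycle R hW hE p Fix S hp hS a ha u1 hu1 hinv
  have hord := Cfsg.Agent.Helper38.f4os_order R
  refine ⟨?_, ?_, ?_⟩
  · intro y hy
    rcases Cfsg.Agent.Helper38.f4i_rep_of_mem R hy with rfl | rfl | rfl | rfl
    · exact ⟨Cfsg.Agent.Helper36.xGL_mem_group R.xadd 47 1, hord.1⟩
    · exact ⟨Cfsg.Agent.Helper36.xGL_mem_group R.xadd 44 1, hord.2.1⟩
    · exact ⟨mul_mem (Cfsg.Agent.Helper36.xGL_mem_group R.xadd 47 1)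
        (Cfsg.Agent.Helper36.xGL_mem_group R.xadd 44 1), hord.2.2.1⟩
    · exact ⟨mul_mem (Cfsg.Agent.Helper36.xGL_mem_group R.xadd 39 1)
        (Cfsg.Agent.Helper36.xGL_mem_group R.xadd 45 1), hord.2.2.2⟩
  · intro g hg hg2
    obtain ⟨h, hh, hrep⟩ := Cfsg.Agent.Helper38.f4i_invol R hL hC
      (fun g hg hg2 => Cfsg.Agent.Helper38.f4os_sylow hg hg2) hg hg2
    have hm := Cfsg.Agent.Helper38.f4i_mem_of_rep R hrep
    exact ⟨h * g * h⁻¹, hm.1, hm.2, h, hh, rfl⟩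
  · intro y₁ _ y₂ _ hm₁ hm₂ hc
    have e := Cfsg.Agent.Helper38.f4i_distinct R
      (fun h hh a b a' b' => Cfsg.Agent.Helper38.f4nc_main R hh a b a' b')
      (Cfsg.Agent.Helper38.f4i_rep_of_mem R hm₁) (Cfsg.Agent.Helper38.f4i_rep_of_mem R hm₂) hc
    rw [e]

end Cfsg.Agent.S2174
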