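import Cfsg.Statements.S2175
import Cfsg.Agent.Helper18.E6IMain
import Cfsg.Agent.Helper18.RSubCoc
import Cfsg.Agent.Helper17.E6ISYL
import Cfsg.Agent.Helper17.E6INC

set_option autoImplicit false
open Cfsg

namespace Cfsg.Agent.S2175

/-- Conjugacy classes of involutions in the Chevalley group of type E₆ over a finite field F of characteristic two (the matrix group generated by the root elements x_r(t)). In this problem's root numbering for type E₆ (the Chevalley data module; fundamental roots numbered so that p₁–p₃–p₄–p₅–p₆ is the long chain of the diagram and p₂ is joined to p₄; roots indexed by their coefficient vectors in increasing order) let r = 71 be the highest root (1,2,2,3,2,1), α = 68 = (1,1,2,2,1,1), β = 66 = (1,1,1,2,2,1), γ = 55 = (0,1,1,2,2,1), δ = 65 = (1,1,1,2,1,1), ε = 67 = (1,1,2,2,1,0) (α ⊥ β and γ, δ, ε pairwise orthogonal); consider x_r(1), x_α(1)x_β(1)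 and x_γ(1)x_δ(1)x_ε(1). Then: each invertible matrix equal to one of these three products lies in the group and has order 2; every element of order 2 of the group is conjugate in the group to one of them; and no two of them are conjugate in the group (so, the three matrices being distinct, the group has exactly three conjugacy classes of involutions). -/
theorem result {F : Type*} [Field F] [Fintype F] [CharP F 2] :
    (∀ y : GL Cfsg.Lie.chevE6.Idx F, ((y : GL Cfsg.Lie.chevE6.Idx F) : Matrix Cfsg.Lie.chevE6.Idx Cfsg.Lie.chevE6.Idx F) ∈ [Cfsg.Lie.chevE6.x F 71 1, Cfsg.Lie.chevE6.x F 68 1 * Cfsg.Lie.chevE6.x F 66 1, Cfsg.Lie.chevE6.x F 55 1 * Cfsg.Lie.chevE6.x F 65 1 * Cfsg.Lie.chevE6.x F 67 1] → y ∈ Cfsg.Lie.chevE6.group F ∧ orderOf y = 2) ∧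
    (∀ g ∈ Cfsg.Lie.chevE6.group F, orderOf g = 2 → ∃ y ∈ Cfsg.Lie.chevE6.group F, ((y : GL Cfsg.Lie.chevE6.Idx F) : Matrix Cfsg.Lie.chevE6.Idx Cfsg.Lie.chevE6.Idx F) ∈ [Cfsg.Lie.chevE6.x F 71 1, Cfsg.Lie.chevE6.x F 68 1 * Cfsg.Lie.chevE6.x F 66 1, Cfsg.Lie.chevE6.x F 55 1 * Cfsg.Lie.chevE6.x F 65 1 * Cfsg.Lie.chevE6.x F 67 1] ∧ ∃ h ∈ Cfsg.Lie.chevE6.group F, h * g * h⁻¹ = y) ∧
    (∀ y₁ ∈ Cfsg.Lie.chevE6.group F, ∀ y₂ ∈ Cfsg.Lie.chevE6.group F, ((y₁ : GL Cfsg.Lie.chevE6.Idx F) : Matrix Cfsg.Lie.chevE6.Idx Cfsg.Lie.chevE6.Idx F) ∈ [Cfsg.Lie.chevE6.x F 71 1, Cfsg.Lie.chevE6.x F 68 1 * Cfsg.Lie.chevE6.x F 66 1, Cfsg.Lie.chevE6.x F 55 1 * Cfsg.Lie.chevE6.x F 65 1 * Cfsg.Lie.chevE6.x F 67 1] → ((y₂ : GL Cfsg.Lie.chevE6.Idx F) : Matrix Cfsg.Lie.chevE6.Idx Cfsg.Lie.chevE6.Idx F) ∈ [Cfsg.Lie.chevE6.x F 71 1, Cfsg.Lie.chevE6.x F 68 1 * Cfsg.Lie.chevE6.x F 66 1, Cfsg.Lie.chevE6.x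 F 55 1 * Cfsg.Lie.chevE6.x F 65 1 * Cfsg.Lie.chevE6.x F 67 1] →
      (∃ h ∈ Cfsg.Lie.chevE6.group F, h * y₁ * h⁻¹ = y₂) → ((y₁ : GL Cfsg.Lie.chevE6.Idx F) : Matrix Cfsg.Lie.chevE6.Idx Cfsg.Lie.chevE6.Idx F) = ((y₂ : GL Cfsg.Lie.chevE6.Idx F) : Matrix Cfsg.Lie.chevE6.Idx Cfsg.Lie.chevE6.Idx F)) := by
  have hD7 : Cfsg.Lie.chevE6 ∈ [Cfsg.Lie.chevG2, Cfsg.Lie.chevB2, Cfsg.Lie.chevD4, Cfsg.Lie.chevF4,
      Cfsg.Lie.chevE6, Cfsg.Lie.chevE7, Cfsg.Lie.chevE8] := by simp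
  have R := Cfsg.Agent.Helper36.bRel_of_mem (F := F) hD7
  have hW := Cfsg.Agent.Helper17.wtFacts_of_wtOK Cfsg.Agent.Helper17.chainPackOK_E6
    Cfsg.Agent.Helper17.wtOK_E6
  have hE : Cfsg.Agent.Helper17.RootElts Cfsg.Lie.chevE6 F := Cfsg.Agent.Helper17.rootElts_of_mem hD7
  have hL : Cfsg.Agent.Helper18.E6I.E6LowS R := fun A J h u hu hu1 =>
    Cfsg.Agent.Helper18.RSub.lower_simple R hW hE A J h hu hu1
  have hC : Cfsg.Agent.Helper18.E6I.E6CocS R := fun p Fix S hp hS a ha u1 hu1 hinv =>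
    Cfsg.Agent.Helper18.RSub.invol_cocycle R hW hE p Fix S hp hS a ha u1 hu1 hinv
  have hord := Cfsg.Agent.Helper18.e6i_order R
  refine ⟨?_, ?_, ?_⟩
  · intro y hy
    rcases Cfsg.Agent.Helper18.E6I.e6i_rep_of_mem R hy with rfl | rfl | rfl
    · exact ⟨Cfsg.Agent.Helper36.xGL_mem_group R.xadd 71 1, hord.1⟩
    · exact ⟨mul_mem (Cfsg.Agent.Helper36.xGL_mem_group R.xadd 68 1)
        (Cfsg.Agent.Helper36.xGL_mem_group R.xadd 66 1), hord.2.1⟩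
    · exact ⟨mul_mem (mul_mem (Cfsg.Agent.Helper36.xGL_mem_group R.xadd 55 1)
        (Cfsg.Agent.Helper36.xGL_mem_group R.xadd 65 1))
        (Cfsg.Agent.Helper36.xGL_mem_group R.xadd 67 1), hord.2.2⟩
  · intro g hg hg2
    obtain ⟨h, hh, hrep⟩ := Cfsg.Agent.Helper18.E6I.e6i_invol R hL hC
      (fun g hg hg2 => Cfsg.Agent.Helper18.e6i_sylow hg hg2) hg hg2
    have hm := Cfsg.Agent.Helper18.E6I.e6i_mem_of_rep R hrep
    exact ⟨h * g * h⁻¹, hm.1, hm.2, h, hh, rfl⟩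
  · intro y₁ _ y₂ _ hm₁ hm₂ hc
    have e := Cfsg.Agent.Helper18.E6I.e6i_distinct R
      (fun h hh => Cfsg.Agent.Helper18.e6i_noconj R hh)
      (Cfsg.Agent.Helper18.E6I.e6i_rep_of_mem R hm₁) (Cfsg.Agent.Helper18.E6I.e6i_rep_of_mem R hm₂) hc
    rw [e]

end Cfsg.Agent.S2175
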