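import Cfsg.Statements.S2177
import Cfsg.Agent.Helper38.G2Inv3

set_option autoImplicit false
open Cfsg

namespace Cfsg.Agent.S2177

/-- Conjugacy classes of involutions in the Chevalley group of type G₂ over a finite field F of characteristic two with at least four elements (the matrix group generated by the root elements x_r(t)). In this problem's root numbering for type G₂ (the Chevalley data module; p₁ = a short, p₂ = b long; roots indexed by coefficient vectors in increasing order) let 11 be the highest root 3a + 2b (long) and 9 the short root 2a + b; consider x_{3a+2b}(1) and x_{2a+b}(1). Then: each invertible matrix equal to one of these two products lies in the group and has order 2; every element of order 2 of the group is conjugate in the group to one of them; and no two of them are conjugate in the group (so, the two matrices being distinct, the group has exactly two conjugacy classes of involutions).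 -/
theorem result {F : Type*} [Field F] [Fintype F] [CharP F 2] (hF : 4 ≤ Fintype.card F) :
    (∀ y : GL Cfsg.Lie.chevG2.Idx F, ((y : GL Cfsg.Lie.chevG2.Idx F) : Matrix Cfsg.Lie.chevG2.Idx Cfsg.Lie.chevG2.Idx F) ∈ [Cfsg.Lie.chevG2.x F 11 1, Cfsg.Lie.chevG2.x F 9 1] → y ∈ Cfsg.Lie.chevG2.group F ∧ orderOf y = 2) ∧
    (∀ g ∈ Cfsg.Lie.chevG2.group F, orderOf g = 2 → ∃ y ∈ Cfsg.Lie.chevG2.group F, ((y : GL Cfsg.Lie.chevG2.Idx F) : Matrix Cfsg.Lie.chevG2.Idx Cfsg.Lie.chevG2.Idx F) ∈ [Cfsg.Lie.chevG2.x F 11 1, Cfsg.Lie.chevG2.x F 9 1] ∧ ∃ h ∈ Cfsg.Lie.chevG2.group F, h * g * h⁻¹ = y) ∧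
    (∀ y₁ ∈ Cfsg.Lie.chevG2.group F, ∀ y₂ ∈ Cfsg.Lie.chevG2.group F, ((y₁ : GL Cfsg.Lie.chevG2.Idx F) : Matrix Cfsg.Lie.chevG2.Idx Cfsg.Lie.chevG2.Idx F) ∈ [Cfsg.Lie.chevG2.x F 11 1, Cfsg.Lie.chevG2.x F 9 1] → ((y₂ : GL Cfsg.Lie.chevG2.Idx F) : Matrix Cfsg.Lie.chevG2.Idx Cfsg.Lie.chevG2.Idx F) ∈ [Cfsg.Lie.chevG2.x F 11 1, Cfsg.Lie.chevG2.x F 9 1] →
      (∃ h ∈ Cfsg.Lie.chevG2.group F, h * y₁ * h⁻¹ = y₂) → ((y₁ : GL Cfsg.Lie.chevG2.Idx F) : Matrix Cfsg.Lie.chevG2.Idx Cfsg.Lie.chevG2.Idx F) = ((y₂ : GL Cfsg.Lie.chevG2.Idx F) : Matrix Cfsg.Lie.chevG2.Idx Cfsg.Lie.chevG2.Idx F)) := by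
  have hD7 : Cfsg.Lie.chevG2 ∈ [Cfsg.Lie.chevG2, Cfsg.Lie.chevB2, Cfsg.Lie.chevD4, Cfsg.Lie.chevF4,
      Cfsg.Lie.chevE6, Cfsg.Lie.chevE7, Cfsg.Lie.chevE8] := by simp
  have R := Cfsg.Agent.Helper36.bRel_of_mem (F := F) hD7
  have key : ∀ y : GL Cfsg.Lie.chevG2.Idx F,
      ((y : GL Cfsg.Lie.chevG2.Idx F) : Matrix Cfsg.Lie.chevG2.Idx Cfsg.Lie.chevG2.Idx F) ∈
        [Cfsg.Lie.chevG2.x F 11 1, Cfsg.Lie.chevG2.x F 9 1] →
      y = Cfsg.Agent.Helper36.xGL R.xadd 11 1 ∨ y = Cfsg.Agent.Helper36.xGL R.xadd 9 1 := by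
    intro y hy
    simp only [List.mem_cons, List.not_mem_nil, or_false] at hy
    rcases hy with hy | hy
    · exact Or.inl (Cfsg.Agent.Helper36.eq_xGL R.xadd hy)
    · exact Or.inr (Cfsg.Agent.Helper36.eq_xGL R.xadd hy)
  refine ⟨?_, ?_, ?_⟩
  · intro y hy
    rcases key y hy with rfl | rfl
    · exact ⟨Cfsg.Agent.Helper36.xGL_mem_group R.xadd 11 1, Cfsg.Agent.Helper38.g2i_order R (by decide)⟩
    · exact ⟨Cfsg.Agent.Helper36.xGL_mem_group R.xadd 9 1, Cfsg.Agent.Helper38.g2i_order R (by decide)⟩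
  · intro g hg hord
    obtain ⟨h, hh, H⟩ := Cfsg.Agent.Helper38.g2i_invol R hg hord
    rcases H with H | H
    · refine ⟨Cfsg.Agent.Helper36.xGL R.xadd 11 1, Cfsg.Agent.Helper36.xGL_mem_group R.xadd 11 1, ?_,
        h, hh, H⟩
      rw [Cfsg.Agent.Helper36.xGL_val]
      exact List.mem_cons_self
    · refine ⟨Cfsg.Agent.Helper36.xGL R.xadd 9 1, Cfsg.Agent.Helper36.xGL_mem_group R.xadd 9 1, ?_,
        h, hh, H⟩
      rw [Cfsg.Agent.Helper36.xGL_val]
      exact List.mem_cons_of_mem _ List.mem_cons_self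
  · intro y₁ _ y₂ _ hm₁ hm₂ hc
    obtain ⟨h, hh, hconj⟩ := hc
    rcases key y₁ hm₁ with rfl | rfl <;> rcases key y₂ hm₂ with rfl | rfl
    · rfl
    · exfalso
      apply Cfsg.Agent.Helper38.g2i_noconj R (inv_mem hh)
      rw [← hconj]
      group
    · exfalso
      exact Cfsg.Agent.Helper38.g2i_noconj R hh hconj
    · rfl

end Cfsg.Agent.S2177
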