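import Cfsg.Statements.S2183
import Cfsg.Agent.Helper38.D4Inv3
import Cfsg.Agent.Helper38.D4Fix
import Cfsg.Agent.Helper38.D4NC
import Cfsg.Agent.Helper38.D4BWX
import Cfsg.Agent.Helper38.D4SYL

set_option autoImplicit false
open Cfsg

namespace Cfsg.Agent.S2183

/-- The twisted group ³D₄(q), q even, realised inside the Chevalley group of type D₄ over the field K with q³ elements, has exactly two conjugacy classes of elements of order 2. -/
theorem result {K : Type*} [Field K] [Fintype K] [CharP K 2] (q : ℕ) (hK : Fintype.card K = q ^ 3) :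
    (ConjClasses.mk '' {g : ↥(Cfsg.Lie.twistedD4 K q) | orderOf g = 2}).ncard = 2 := by
  have hinj := Cfsg.Agent.Helper38.d4s_bw_inj (Cfsg.Agent.Helper18.d4R K)
  exact Cfsg.Agent.Helper38.d4i_main q hK hinj
    (fun g hg hg2 => Cfsg.Agent.Helper38.d4s_sylow hK hg hg2)
    (fun h hh a1 a2 a3 h1 h2 h3 =>
      Cfsg.Agent.Helper38.d4s_noconj (Cfsg.Agent.Helper18.d4R K) hinj hh h1 h2 h3)
    (fun f hf3 u hu hfix => Cfsg.Agent.Helper38.d4s_tw_exists (Cfsg.Agent.Helper18.d4R K) f hf3
      (Cfsg.Agent.Helper38.d4s_bw_exists (Cfsg.Agent.Helper18.d4R K)) hinj hu hfix)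

end Cfsg.Agent.S2183
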