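import Cfsg.Statements.S2185
import Cfsg.Agent.Helper56.Tits.InvolM

set_option autoImplicit false
open Cfsg

namespace Cfsg.Agent.S2185

open Cfsg.Agent.Helper56.J3 Cfsg.Agent.Helper56.Tits

/-- In the group ²F₄(2) (realised inside the Chevalley group of type F₄ over the field with two elements, θ the identity) every element of order 2 lies in the commutator subgroup (the Tits group, of index 2): there are no involutions outside it. -/
theorem result (g : ↥(Cfsg.Lie.twistedF4 (ZMod 2) 1)) (hg : orderOf g = 2) :
    g ∈ commutator ↥(Cfsg.Lie.twistedF4 (ZMod 2) 1) := by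
  have h2 : g * g = 1 := by
    have h := pow_orderOf_eq_one g
    rw [hg, pow_two] at h
    exact h
  have h2' : g.1 * g.1 = 1 := by
    have h := congrArg Subtype.val h2
    rw [Subgroup.coe_mul, Subgroup.coe_one] at h
    exact h
  have hmem := invol_mem g.1 g.2 h2'
  rw [← tits_key.2] at hmem
  obtain ⟨x, hx, hxe⟩ := hmem
  have hxg : x = g := Subtype.ext hxe
  rw [← hxg]
  exact hx

end Cfsg.Agent.S2185
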