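import Cfsg.Statements.S2202
import Cfsg.Agent.Helper3.AicMain
import Cfsg.Agent.Helper88.AicP4b
import Cfsg.Agent.Helper61.AicFinal

set_option autoImplicit false
open Cfsg

namespace Cfsg.Agent.S2202

/-- Finite groups in which the centralizer of every involution is abelian. Let G be a finite group of even order in which the centralizer of every element of order 2 is abelian. Then the Sylow 2-subgroups of G are cyclic, or a Sylow 2-subgroup of G is normal, or G is isomorphic to the direct product of SL₂(F) for a finite field F of characteristic two and an abelian group of odd order. -/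
theorem result {G : Type*} [Group G] [Finite G] (heven : Even (Nat.card G)) (h : ∀ t : G, orderOf t = 2 → IsMulCommutative ↥(Subgroup.centralizer ({t} : Set G))) :
    (∀ P : Sylow 2 G, IsCyclic ↥P) ∨ (∀ P : Sylow 2 G, (P : Subgroup G).Normal) ∨
    (∃ (F : Type) (_ : Field F) (_ : Fintype F) (A : Type) (_ : CommGroup A) (_ : Finite A), CharP F 2 ∧ Odd (Nat.card A) ∧ Nonempty (G ≃* Matrix.SpecialLinearGroup (Fin 2) F × A)) := by
  by_cases hc : ∀ P : Sylow 2 G, IsCyclic ↥P
  · exact Or.inl hc
  by_cases hn : ∀ P : Sylow 2 G, (P : Subgroup G).Normal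
  · exact Or.inr (Or.inl hn)
  right; right
  obtain ⟨P, hP⟩ := not_forall.mp hc
  obtain ⟨Q, hQ⟩ := not_forall.mp hn
  have hP1 : ¬ IsCyclic (P : Subgroup G) := hP
  have hPn : ¬ (P : Subgroup G).Normal := Cfsg.Agent.Helper3.aic_not_normal_all Q hQ P
  have hcl := Cfsg.Agent.Helper3.aic_main_of
    (fun X _ _ hX R hR1 hR2 hd h3 => Cfsg.Agent.Helper88.aic_semiregular_case hX R hR1 hR2 hd h3)
    (Nat.card G) G rfl h P hP1 hPn
  exact Cfsg.Agent.Helper61.aic_final h P hP1 hPn hcl

end Cfsg.Agent.S2202
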