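import Cfsg.Statements.S2214
import Cfsg.Agent.Helper36.SfB

set_option autoImplicit false
open Cfsg

namespace Cfsg.Agent.S2214

/-- Let k be an algebraically closed field of prime characteristic p, G the adjoint Chevalley group of type G₂, B₂, D₄, F₄, E₆, E₇ or E₈ over k (the matrix group generated by the root elements x_s(t), t ∈ k, acting on the Lie algebra), q = p^a with a ≥ 1, and K a subgroup of G containing every root element x_s(t) with t^q = t and consisting of matrices all of whose entries c satisfy c^q = c. Then the centralizer of K in G is trivial, and the normalizer of K in G is exactly the set of elements of G all of whose entries c satisfy c^q = c. -/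
theorem result {k : Type*} [Field k] [IsAlgClosed k] (p : ℕ) [Fact p.Prime] [CharP k p] (D : Cfsg.Lie.ChevalleyDatum) (hD : D ∈ [Cfsg.Lie.chevG2, Cfsg.Lie.chevB2, Cfsg.Lie.chevD4, Cfsg.Lie.chevF4, Cfsg.Lie.chevE6, Cfsg.Lie.chevE7, Cfsg.Lie.chevE8]) (a : ℕ) (ha : 1 ≤ a) (K : Subgroup (GL D.Idx k)) (hKG : K ≤ D.group k)
    (hLK : Subgroup.closure {g : GL D.Idx k | ∃ (s : ℕ) (t : k), t ^ (p ^ a) = t ∧ (g : Matrix D.Idx D.Idx k) = D.x k s t} ≤ K)
    (hKfix : ∀ g ∈ K, ∀ i j : D.Idx, ((g : Matrix D.Idx D.Idx k) i j) ^ (p ^ a) = (g : Matrix D.Idx D.Idx k) i j) :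
    D.group k ⊓ Subgroup.centralizer (K : Set (GL D.Idx k)) = ⊥ ∧
    ∀ g : GL D.Idx k, g ∈ D.group k → (g ∈ Subgroup.normalizer (K : Set (GL D.Idx k)) ↔ ∀ i j : D.Idx, ((g : Matrix D.Idx D.Idx k) i j) ^ (p ^ a) = (g : Matrix D.Idx D.Idx k) i j) := by
  have R : Cfsg.Agent.Helper36.BRel D k (Cfsg.Agent.Helper18.etaN D) :=
    Cfsg.Agent.Helper36.bRel_of_mem hD
  obtain ⟨L₀, hLv, hLn⟩ := Cfsg.Agent.Helper36.sf_long_exists hD
  have hU := (Cfsg.Agent.Helper17.posUnipotent_unique_product_of_mem (F := k) hD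
    (fun r s hr hs h1 h2 => Cfsg.Agent.Helper36.CF_of_mem hD r hr s hs h1 h2)).1
  have hC : ∀ x ∈ D.diagonalSubgroup k, ∀ y ∈ D.diagonalSubgroup k, x * y = y * x := by
    intro x hx y hy
    have hle := Cfsg.Agent.Helper17.diagonalSubgroup_le_torus
      (Cfsg.Agent.Helper17.hDiag_of_mem (F := k) hD)
    obtain ⟨z, hz⟩ := Cfsg.Agent.Helper17.mem_torus.mp (hle hx)
    obtain ⟨z', hz'⟩ := Cfsg.Agent.Helper17.mem_torus.mp (hle hy)
    apply Units.ext
    rw [Units.val_mul, Units.val_mul, hz, hz', Cfsg.Agent.Helper17.charDiag_mul,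
      Cfsg.Agent.Helper17.charDiag_mul]
    congr 1
    funext s
    rw [mul_comm]
  have hgl : ∀ g : GL D.Idx k, Cfsg.Agent.Helper18.glMap D (iterateFrobenius k p a) g = g ↔
      ∀ i j : D.Idx, ((g : Matrix D.Idx D.Idx k) i j) ^ (p ^ a) = (g : Matrix D.Idx D.Idx k) i j := by
    intro g
    constructor
    · intro h i j
      have h1 := congrArg (fun x : GL D.Idx k => (x : Matrix D.Idx D.Idx k) i j) h
      simp only [Cfsg.Agent.Helper18.glMap_val, Matrix.map_apply, iterateFrobenius_def] at h1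
      exact h1
    · intro h
      apply Units.ext
      ext i j
      rw [Cfsg.Agent.Helper18.glMap_val, Matrix.map_apply, iterateFrobenius_def]
      exact h i j
  have hLK' : Cfsg.Agent.Helper36.sfL D k (iterateFrobenius k p a) ≤ K := by
    unfold Cfsg.Agent.Helper36.sfL
    rw [Subgroup.closure_le]
    rintro g ⟨s, t, ht, hg⟩
    rw [iterateFrobenius_def] at ht
    exact hLK (Subgroup.subset_closure ⟨s, t, ht, hg⟩)
  obtain ⟨h1, h2⟩ := R.sf_main (iterateFrobenius k p a) hLv hLn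
    (Cfsg.Agent.Helper36.sf_torus_faithful hD R) hU hC K hKG hLK'
    (fun y hy => (hgl y).mpr (hKfix y hy))
  refine ⟨h1, fun g hg => ?_⟩
  rw [h2 g hg, hgl g]

end Cfsg.Agent.S2214
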