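import Cfsg.Statements.S2222
import Cfsg.Agent.Helper37.Pronorm
-- import your own Cfsg.Agent.* helpers here

set_option autoImplicit false
open Cfsg

namespace Cfsg.Agent.S2222

/-- In the alternating group of degree n ≥ 5 every subgroup H of odd index is pronormal: for every element g, the subgroups H and gHg⁻¹ are conjugate by an element of the subgroup they generate. -/
theorem result (n : ℕ) (hn : 5 ≤ n)
    (H : Subgroup (alternatingGroup (Fin n))) (hH : Odd H.index) : Cfsg.IsPronormal H := by
  haveI : Fact (Nat.Prime 2) := ⟨Nat.prime_two⟩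
  haveI : Nontrivial (Fin n) := Fin.nontrivial_iff_two_le.mpr (by omega)
  have hcard : Nat.card (alternatingGroup (Fin n)) * 2 = n.factorial := by
    rw [mul_comm, two_mul_nat_card_alternatingGroup, Nat.card_perm, Nat.card_fin]
  obtain ⟨S, hSH⟩ := Cfsg.Agent.Helper37.exists_sylow_le_of_odd_index H hH
  by_cases h6 : 6 ≤ n
  · apply Cfsg.Agent.Helper37.isPronormal_of_sylow_le S H hSH
    intro γ hγ h hh'
    suffices hmem : γ ∈ (S : Subgroup (alternatingGroup (Fin n))) from
      H.mul_mem (H.mul_mem (hSH hmem) hh') (H.inv_mem (hSH hmem))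
    have hQ : Cfsg.Agent.Helper37.FullA
        ((S : Subgroup (alternatingGroup (Fin n))).map (alternatingGroup (Fin n)).subtype) := by
      refine ⟨S.isPGroup'.map _, ?_, ?_⟩
      · rintro _ ⟨y, -, rfl⟩
        rw [Cfsg.Agent.Helper37.altS_eq]
        exact y.2
      · rw [Subgroup.card_map_of_injective (Subgroup.subtype_injective _),
          Sylow.card_eq_multiplicity, Nat.card_fin]
        have h1 : (Nat.card (alternatingGroup (Fin n))).factorization 2 + 1 =
            Cfsg.Agent.Helper37.hh n := by
          have h2 := congrArg (fun m : ℕ => m.factorization 2) hcard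
          rw [Nat.factorization_mul Nat.card_pos.ne' (by norm_num)] at h2
          simp only [Finsupp.coe_add, Pi.add_apply,
            Nat.Prime.factorization_self Nat.prime_two] at h2
          rw [h2]
          unfold Cfsg.Agent.Helper37.hh
          exact Nat.factorization_def _ Nat.prime_two
        rw [← pow_succ, h1]
    have hres := Cfsg.Agent.Helper37.alt_norm n h6 (Fin n) (Nat.card_fin n) _ hQ γ.1
      (by rw [Cfsg.Agent.Helper37.altS_eq]; exact γ.2) (by
        rintro _ ⟨y, hy, rfl⟩
        exact ⟨γ * y * γ⁻¹, hγ y hy, rfl⟩)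
    obtain ⟨y, hy, hyγ⟩ := hres
    have hyeq : y = γ := Subtype.ext hyγ
    rw [← hyeq]
    exact hy
  · have h5 : n = 5 := by omega
    subst h5
    have hG : Nat.card (alternatingGroup (Fin 5)) = 60 := by
      have hf : (5 : ℕ).factorial = 120 := by decide
      omega
    have hdvd : H.index ∣ 60 := hG ▸ Subgroup.index_dvd_card H
    have hcases : H.index = 1 ∨ H.index = 3 ∨ H.index = 5 ∨ H.index = 15 := by
      have key : ∀ i ≤ 60, i ∣ 60 → Odd i → i = 1 ∨ i = 3 ∨ i = 5 ∨ i = 15 := by decide
      exact key _ (Nat.le_of_dvd (by norm_num) hdvd) hdvd hH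
    rcases hcases with h | h | h | h
    · exact Cfsg.Agent.Helper37.isPronormal_of_index_one H h
    · exact Cfsg.Agent.Helper37.isPronormal_of_index_prime H (by rw [h]; norm_num)
    · exact Cfsg.Agent.Helper37.isPronormal_of_index_prime H (by rw [h]; norm_num)
    · have hH4 : Nat.card H = 4 := by
        have h1 := Subgroup.card_mul_index H
        rw [h, hG] at h1
        omega
      have hS4 : Nat.card (S : Subgroup (alternatingGroup (Fin 5))) = 4 := by
        rw [Sylow.card_eq_multiplicity, hG]
        have h60 : (60 : ℕ) = 2 ^ 2 * 15 := by norm_num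
        rw [h60, Nat.factorization_mul (by norm_num) (by norm_num), Nat.factorization_pow]
        simp [Nat.factorization_eq_zero_of_not_dvd (show ¬ 2 ∣ 15 by norm_num),
          Nat.Prime.factorization_self Nat.prime_two]
      have hSeq : (S : Subgroup (alternatingGroup (Fin 5))) = H :=
        Subgroup.eq_of_le_of_card_ge hSH (by rw [hH4, hS4])
      apply Cfsg.Agent.Helper37.isPronormal_of_sylow_le S H hSH
      intro γ hγ h hh'
      rw [← hSeq] at hh' ⊢
      exact hγ h hh'

end Cfsg.Agent.S2222
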