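import Cfsg.Statements.S2231
-- import your own Cfsg.Agent.* helpers here

set_option autoImplicit false
open Cfsg

namespace Cfsg.Agent.S2231


theorem sl2_param {K : Type*} [Field K] (g : Matrix.SpecialLinearGroup (Fin 2) K)
    (v : Fin 2 → K) (hg : g • v = v) (hx : v 0 ≠ 0) :
    g.1 0 0 = 1 - g.1 0 1 * (v 1 / v 0) ∧ g.1 1 0 = - g.1 0 1 * (v 1 / v 0) ^ 2 ∧
      g.1 1 1 = 1 + g.1 0 1 * (v 1 / v 0) := by
  have hg0 : g.1 0 0 * v 0 + g.1 0 1 * v 1 = v 0 := by
    have := congrFun hg 0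
    simpa [Matrix.SpecialLinearGroup.smul_def, Matrix.mulVec, dotProduct, Fin.sum_univ_two] using this
  have hg1 : g.1 1 0 * v 0 + g.1 1 1 * v 1 = v 1 := by
    have := congrFun hg 1
    simpa [Matrix.SpecialLinearGroup.smul_def, Matrix.mulVec, dotProduct, Fin.sum_univ_two] using this
  have dg : g.1 0 0 * g.1 1 1 - g.1 0 1 * g.1 1 0 = 1 := by
    have := g.2
    rwa [Matrix.det_fin_two] at this
  have h1 : g.1 0 0 = 1 - g.1 0 1 * (v 1 / v 0) := by
    field_simp
    linear_combination hg0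
  have h2 : g.1 1 0 = (v 1 / v 0) * (1 - g.1 1 1) := by
    field_simp
    linear_combination hg1
  have h3 : g.1 1 1 = 1 + g.1 0 1 * (v 1 / v 0) := by
    rw [h1, h2] at dg
    linear_combination dg
  refine ⟨h1, ?_, h3⟩
  rw [h2, h3]; ring

theorem sl2_param' {K : Type*} [Field K] (g : Matrix.SpecialLinearGroup (Fin 2) K)
    (v : Fin 2 → K) (hg : g • v = v) (hx : v 0 = 0) (hy : v 1 ≠ 0) :
    g.1 0 0 = 1 ∧ g.1 0 1 = 0 ∧ g.1 1 1 = 1 := by
  have hg0 : g.1 0 0 * v 0 + g.1 0 1 * v 1 = v 0 := by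
    have := congrFun hg 0
    simpa [Matrix.SpecialLinearGroup.smul_def, Matrix.mulVec, dotProduct, Fin.sum_univ_two] using this
  have hg1 : g.1 1 0 * v 0 + g.1 1 1 * v 1 = v 1 := by
    have := congrFun hg 1
    simpa [Matrix.SpecialLinearGroup.smul_def, Matrix.mulVec, dotProduct, Fin.sum_univ_two] using this
  have dg : g.1 0 0 * g.1 1 1 - g.1 0 1 * g.1 1 0 = 1 := by
    have := g.2
    rwa [Matrix.det_fin_two] at this
  rw [hx] at hg0 hg1
  have h2 : g.1 0 1 = 0 := by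
    simpa [hy] using hg0
  have h3 : g.1 1 1 = 1 := by
    have : (g.1 1 1 - 1) * v 1 = 0 := by linear_combination hg1
    rcases mul_eq_zero.mp this with h | h
    · linear_combination h
    · exact absurd h hy
  refine ⟨?_, h2, h3⟩
  rw [h2, h3] at dg
  linear_combination dg

theorem sl2_comm_of_fix {K : Type*} [Field K] (g h : Matrix.SpecialLinearGroup (Fin 2) K)
    (v : Fin 2 → K) (hv : v ≠ 0) (hg : g • v = v) (hh : h • v = v) : g * h = h * g := by
  by_cases hx : v 0 = 0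
  · have hy : v 1 ≠ 0 := by
      intro hy
      apply hv
      funext i
      fin_cases i
      · exact hx
      · exact hy
    obtain ⟨g1, g2, g3⟩ := sl2_param' g v hg hx hy
    obtain ⟨h1, h2, h3⟩ := sl2_param' h v hh hx hy
    ext i j
    fin_cases i <;> fin_cases j <;>
      simp [Matrix.mul_apply, Fin.sum_univ_two, g1, g2, g3, h1, h2, h3] <;> ring
  · obtain ⟨g1, g2, g3⟩ := sl2_param g v hg hx
    obtain ⟨h1, h2, h3⟩ := sl2_param h v hh hx
    ext i j
    fin_cases i <;> fin_cases j <;>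
      simp [Matrix.mul_apply, Fin.sum_univ_two, g1, g2, g3, h1, h2, h3] <;> ring

theorem pgroup_sl2_comm {p : ℕ} [Fact p.Prime] {K : Type*} [Field K] [Fintype K] [CharP K p]
    (P : Subgroup (Matrix.SpecialLinearGroup (Fin 2) K)) (hP : IsPGroup p P)
    (g h : Matrix.SpecialLinearGroup (Fin 2) K) (hg : g ∈ P) (hh : h ∈ P) : g * h = h * g := by
  have hcard : p ∣ Nat.card (Fin 2 → K) := by
    obtain ⟨n, hn, hc⟩ := FiniteField.card K p
    rw [Nat.card_eq_fintype_card, Fintype.card_fun, hc]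
    simp only [Fintype.card_fin]
    exact dvd_pow (dvd_pow_self p n.ne_zero) (by norm_num)
  have h0 : (0 : Fin 2 → K) ∈ MulAction.fixedPoints P (Fin 2 → K) := by
    intro m
    exact smul_zero m
  obtain ⟨v, hv, hne⟩ := hP.exists_fixed_point_of_prime_dvd_card_of_fixed_point (Fin 2 → K) hcard h0
  have hg' : g • v = v := hv ⟨g, hg⟩
  have hh' : h • v = v := hv ⟨h, hh⟩
  exact sl2_comm_of_fix g h v (Ne.symm hne) hg' hh'

/-- upper unitriangular 3x3 matrices -/
def IsUT {R : Type*} [CommRing R] (M : Matrix (Fin 3) (Fin 3) R) : Prop :=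
  M 0 0 = 1 ∧ M 1 1 = 1 ∧ M 2 2 = 1 ∧ M 1 0 = 0 ∧ M 2 0 = 0 ∧ M 2 1 = 0

theorem isUT_one {R : Type*} [CommRing R] : IsUT (1 : Matrix (Fin 3) (Fin 3) R) := by
  simp [IsUT]

theorem isUT_mul {R : Type*} [CommRing R] {M N : Matrix (Fin 3) (Fin 3) R} (hM : IsUT M)
    (hN : IsUT N) : IsUT (M * N) := by
  obtain ⟨m1, m2, m3, m4, m5, m6⟩ := hM
  obtain ⟨n1, n2, n3, n4, n5, n6⟩ := hN
  simp [IsUT, Matrix.mul_apply, Fin.sum_univ_three, m1, m2, m3, m4, m5, m6, n1, n2, n3, n4, n5, n6]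

theorem isUT_pow {R : Type*} [CommRing R] {M : Matrix (Fin 3) (Fin 3) R} (hM : IsUT M) (k : ℕ) :
    IsUT (M ^ k) := by
  induction k with
  | zero => simpa using isUT_one
  | succ k ih => rw [pow_succ]; exact isUT_mul ih hM

theorem isUT_sub_one_cube {R : Type*} [CommRing R] {M : Matrix (Fin 3) (Fin 3) R} (hM : IsUT M) :
    (M - 1) ^ 3 = 0 := by
  obtain ⟨m1, m2, m3, m4, m5, m6⟩ := hM
  ext i j
  fin_cases i <;> fin_cases j <;>
    simp [pow_succ, Matrix.mul_apply, Fin.sum_univ_three, m1, m2, m3, m4, m5, m6, Matrix.one_apply]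

theorem isUT_pow_char {p : ℕ} [Fact p.Prime] {M : Matrix (Fin 3) (Fin 3) (ZMod p)} (hM : IsUT M) :
    M ^ (p ^ 2) = 1 := by
  have h1 : M = (M - 1) + 1 := by abel
  have h2 : Commute (M - 1) 1 := Commute.one_right _
  rw [h1, add_pow_char_pow_of_commute _ _ h2, one_pow]
  have h3 : 3 ≤ p ^ 2 := by
    have := (Fact.out : p.Prime).two_le
    nlinarith
  have h4 : (M - 1) ^ (p ^ 2) = 0 := by
    obtain ⟨k, hk⟩ := Nat.exists_eq_add_of_le h3
    rw [hk, pow_add, isUT_sub_one_cube hM, zero_mul]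
  rw [h4, zero_add]

/-- the group of upper unitriangular matrices in `SL₃(ZMod p)` -/
def UT (p : ℕ) [Fact p.Prime] : Subgroup (Matrix.SpecialLinearGroup (Fin 3) (ZMod p)) where
  carrier := {M | IsUT M.1}
  mul_mem' {a b} ha hb := by
    show IsUT (a * b).1
    rw [Matrix.SpecialLinearGroup.coe_mul]
    exact isUT_mul ha hb
  one_mem' := by
    show IsUT (1 : Matrix.SpecialLinearGroup (Fin 3) (ZMod p)).1
    rw [Matrix.SpecialLinearGroup.coe_one]
    exact isUT_one
  inv_mem' {a} ha := by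
    show IsUT (a⁻¹).1
    have h1 : a ^ (p ^ 2) = 1 := by
      apply Subtype.ext
      rw [Matrix.SpecialLinearGroup.coe_pow]
      exact isUT_pow_char ha
    have h2 : a⁻¹ = a ^ (p ^ 2 - 1) := by
      apply inv_eq_of_mul_eq_one_right
      rw [← pow_succ', Nat.sub_add_cancel (Nat.one_le_pow _ _ (Fact.out : p.Prime).pos), h1]
    rw [h2, Matrix.SpecialLinearGroup.coe_pow]
    exact isUT_pow ha _

theorem UT_isPGroup (p : ℕ) [Fact p.Prime] : IsPGroup p (UT p) := by
  intro ⟨a, ha⟩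
  refine ⟨2, ?_⟩
  apply Subtype.ext
  apply Subtype.ext
  show (a ^ (p ^ 2)).1 = 1
  rw [Matrix.SpecialLinearGroup.coe_pow]
  exact isUT_pow_char ha

/-- two non-commuting unitriangular elements of `qd p` -/
def xmat (p : ℕ) : Matrix (Fin 3) (Fin 3) (ZMod p) := !![1, 1, 0; 0, 1, 0; 0, 0, 1]
def ymat (p : ℕ) : Matrix (Fin 3) (Fin 3) (ZMod p) := !![1, 0, 0; 0, 1, 1; 0, 0, 1]

theorem det_xmat (p : ℕ) : (xmat p).det = 1 := by
  simp [xmat, Matrix.det_fin_three]

theorem det_ymat (p : ℕ) : (ymat p).det = 1 := by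
  simp [ymat, Matrix.det_fin_three]

def xel (p : ℕ) : Matrix.SpecialLinearGroup (Fin 3) (ZMod p) := ⟨xmat p, det_xmat p⟩
def yel (p : ℕ) : Matrix.SpecialLinearGroup (Fin 3) (ZMod p) := ⟨ymat p, det_ymat p⟩

theorem xel_mem_qd (p : ℕ) : xel p ∈ Cfsg.qd p := by
  apply Subgroup.subset_closure
  show (xmat p) 2 0 = 0 ∧ (xmat p) 2 1 = 0 ∧ (xmat p) 2 2 = 1
  simp [xmat]

theorem yel_mem_qd (p : ℕ) : yel p ∈ Cfsg.qd p := by
  apply Subgroup.subset_closure
  show (ymat p) 2 0 = 0 ∧ (ymat p) 2 1 = 0 ∧ (ymat p) 2 2 = 1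
  simp [ymat]

theorem xel_mem_UT (p : ℕ) [Fact p.Prime] : xel p ∈ UT p := by
  show IsUT (xmat p)
  simp [IsUT, xmat]

theorem yel_mem_UT (p : ℕ) [Fact p.Prime] : yel p ∈ UT p := by
  show IsUT (ymat p)
  simp [IsUT, ymat]

theorem xy_ne (p : ℕ) [Fact p.Prime] : xel p * yel p ≠ yel p * xel p := by
  intro h
  have h1 := congrArg (fun M : Matrix.SpecialLinearGroup (Fin 3) (ZMod p) => M.1 0 2) h
  simp only [Matrix.SpecialLinearGroup.coe_mul] at h1
  simp [xel, yel, xmat, ymat, Matrix.mul_apply, Fin.sum_univ_three] at h1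

/-- Let p be an odd prime and K a finite field of characteristic p. Then Qd(p) (the natural semidirect product of an elementary abelian group of order p² by SL₂(p)) is not involved in the projective special linear group PSL₂(K). -/
theorem result {p : ℕ} [Fact p.Prime] (hp : p ≠ 2) {K : Type*} [Field K] [Fintype K] [CharP K p] : ¬ Cfsg.Involves ↥(Cfsg.qd p) (Matrix.ProjectiveSpecialLinearGroup (Fin 2) K) := by
  classical
  rintro ⟨K₀, R, hN, ⟨e⟩⟩
  let π : Matrix.SpecialLinearGroup (Fin 2) K →* Matrix.ProjectiveSpecialLinearGroup (Fin 2) K :=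
    QuotientGroup.mk' _
  have hπ : Function.Surjective π := QuotientGroup.mk'_surjective _
  let H : Subgroup (Matrix.SpecialLinearGroup (Fin 2) K) := K₀.comap π
  let φ : H →* K₀ := π.subgroupComap K₀
  have hφ : Function.Surjective φ := π.subgroupComap_surjective_of_surjective K₀ hπ
  let ψ : K₀ →* Cfsg.qd p := e.toMonoidHom.comp (QuotientGroup.mk' (R.subgroupOf K₀))
  have hψ : Function.Surjective ψ := e.surjective.comp (QuotientGroup.mk'_surjective _)
  let θ : H →* Cfsg.qd p := ψ.comp φ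
  have hθ : Function.Surjective θ := hψ.comp hφ
  let T : Subgroup (Cfsg.qd p) := (UT p).subgroupOf (Cfsg.qd p)
  have hT : IsPGroup p T := (UT_isPGroup p).comap_of_injective (Cfsg.qd p).subtype Subtype.coe_injective
  let H₁ : Subgroup H := T.comap θ
  let θ₁ : H₁ →* T := θ.subgroupComap T
  have hθ₁ : Function.Surjective θ₁ := θ.subgroupComap_surjective_of_surjective T hθ
  let S : Sylow p H₁ := default
  have hS : (S : Subgroup H₁).map θ₁ = ⊤ := by
    have h1 : ((S : Subgroup H₁).map θ₁).index ∣ (S : Subgroup H₁).index :=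
      Subgroup.index_map_dvd _ hθ₁
    have h2 : ¬ p ∣ (S : Subgroup H₁).index := S.not_dvd_index
    obtain ⟨n, hn⟩ := hT.index ((S : Subgroup H₁).map θ₁)
    rw [hn] at h1
    rcases Nat.eq_zero_or_pos n with h0 | h0
    · rw [h0, pow_zero] at hn
      exact Subgroup.index_eq_one.mp hn
    · exact absurd (dvd_trans (dvd_pow_self p h0.ne') h1) h2
  let ι : H₁ →* Matrix.SpecialLinearGroup (Fin 2) K := H.subtype.comp H₁.subtype
  have hι : Function.Injective ι := fun a b hab => Subtype.ext (Subtype.ext hab)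
  have hP : IsPGroup p ((S : Subgroup H₁).map ι) := S.isPGroup'.map ι
  have hScomm : ∀ a b : H₁, a ∈ S → b ∈ S → a * b = b * a := by
    intro a b ha hb
    apply hι
    rw [map_mul, map_mul]
    exact pgroup_sl2_comm _ hP (ι a) (ι b) (Subgroup.mem_map_of_mem ι ha) (Subgroup.mem_map_of_mem ι hb)
  let x' : T := ⟨⟨xel p, xel_mem_qd p⟩, Subgroup.mem_subgroupOf.mpr (xel_mem_UT p)⟩
  let y' : T := ⟨⟨yel p, yel_mem_qd p⟩, Subgroup.mem_subgroupOf.mpr (yel_mem_UT p)⟩
  have hx : x' ∈ (S : Subgroup H₁).map θ₁ := by rw [hS]; trivial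
  have hy : y' ∈ (S : Subgroup H₁).map θ₁ := by rw [hS]; trivial
  obtain ⟨a, ha, hax⟩ := hx
  obtain ⟨b, hb, hby⟩ := hy
  have hab := congrArg θ₁ (hScomm a b ha hb)
  rw [map_mul, map_mul, hax, hby] at hab
  have := congrArg (fun t : T => ((t : Cfsg.qd p) : Matrix.SpecialLinearGroup (Fin 3) (ZMod p))) hab
  exact xy_ne p this

end Cfsg.Agent.S2231
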