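import Cfsg.Statements.S2232
import Cfsg.Agent.S2231

set_option autoImplicit false
open Cfsg

namespace Cfsg.Agent.S2232

open Matrix
open scoped commutatorElement

variable {K : Type*} [Field K]

/-- a vector whose cross product with a nonzero vector vanishes is a multiple of it -/
theorem par {c x : Fin 3 → K} (hc : c ≠ 0) (h : crossProduct x c = 0) : ∃ α : K, x = α • c := by
  rw [cross_apply] at h
  have h0 : x 1 * c 2 - x 2 * c 1 = 0 := by simpa using congrFun h 0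
  have h1 : x 2 * c 0 - x 0 * c 2 = 0 := by simpa using congrFun h 1
  have h2 : x 0 * c 1 - x 1 * c 0 = 0 := by simpa using congrFun h 2
  by_cases c0 : c 0 = 0
  · by_cases c1 : c 1 = 0
    · have c2 : c 2 ≠ 0 := by
        intro c2
        apply hc
        funext i
        fin_cases i <;> simp [c0, c1, c2]
      refine ⟨x 2 / c 2, ?_⟩
      funext i
      fin_cases i
      · simp only [Fin.zero_eta, Pi.smul_apply, smul_eq_mul]
        field_simp
        linear_combination -h1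
      · simp only [Fin.mk_one, Pi.smul_apply, smul_eq_mul]
        field_simp
        linear_combination h0
      · simp only [Fin.reduceFinMk, Pi.smul_apply, smul_eq_mul]
        field_simp
    · refine ⟨x 1 / c 1, ?_⟩
      funext i
      fin_cases i
      · simp only [Fin.zero_eta, Pi.smul_apply, smul_eq_mul]
        field_simp
        linear_combination h2
      · simp only [Fin.mk_one, Pi.smul_apply, smul_eq_mul]
        field_simp
      · simp only [Fin.reduceFinMk, Pi.smul_apply, smul_eq_mul]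
        field_simp
        linear_combination -h0
  · refine ⟨x 0 / c 0, ?_⟩
    funext i
    fin_cases i
    · simp only [Fin.zero_eta, Pi.smul_apply, smul_eq_mul]
      field_simp
    · simp only [Fin.mk_one, Pi.smul_apply, smul_eq_mul]
      field_simp
      linear_combination -h2
    · simp only [Fin.reduceFinMk, Pi.smul_apply, smul_eq_mul]
      field_simp
      linear_combination h1

/-- triple products are invariant under matrices of determinant one -/
theorem triple_mulVec (g : Matrix (Fin 3) (Fin 3) K) (hg : g.det = 1) (a b c : Fin 3 → K) :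
    (g *ᵥ a) ⬝ᵥ crossProduct (g *ᵥ b) (g *ᵥ c) = a ⬝ᵥ crossProduct b c := by
  rw [triple_product_eq_det, triple_product_eq_det]
  have h : (Matrix.of ![g *ᵥ a, g *ᵥ b, g *ᵥ c] : Matrix (Fin 3) (Fin 3) K) =
      (Matrix.of ![a, b, c] : Matrix (Fin 3) (Fin 3) K) * gᵀ := by
    ext i k
    fin_cases i <;> simp [Matrix.mul_apply, Matrix.mulVec, dotProduct, mul_comm]
  show Matrix.det (Matrix.of ![g *ᵥ a, g *ᵥ b, g *ᵥ c] : Matrix (Fin 3) (Fin 3) K) =
    Matrix.det (Matrix.of ![a, b, c] : Matrix (Fin 3) (Fin 3) K)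
  rw [h, Matrix.det_mul, Matrix.det_transpose, hg, mul_one]

/-- componentwise power -/
def vbar (q : ℕ) (v : Fin 3 → K) : Fin 3 → K := fun i => v i ^ q

theorem vbar_eq_zero {q : ℕ} (hq : q ≠ 0) {v : Fin 3 → K} (h : vbar q v = 0) : v = 0 := by
  funext i
  have := congrFun h i
  simp only [vbar, Pi.zero_apply] at this
  exact (pow_eq_zero_iff hq).mp this

theorem vbar_ne_zero {q : ℕ} (hq : q ≠ 0) {v : Fin 3 → K} (h : v ≠ 0) : vbar q v ≠ 0 :=
  fun h' => h (vbar_eq_zero hq h')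

theorem vbar_cross (p n : ℕ) [Fact p.Prime] [CharP K p] (a b : Fin 3 → K) :
    vbar (p ^ n) (crossProduct a b) = crossProduct (vbar (p ^ n) a) (vbar (p ^ n) b) := by
  rw [cross_apply, cross_apply]
  funext i
  fin_cases i <;> simp [vbar, sub_pow_char_pow, mul_pow]

/-- a totally isotropic subspace has dimension at most one -/
theorem ti_dim (p n : ℕ) [Fact p.Prime] [CharP K p] {a b : Fin 3 → K} (ha : a ≠ 0)
    (haa : a ⬝ᵥ vbar (p ^ n) a = 0) (hab : a ⬝ᵥ vbar (p ^ n) b = 0)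
    (hba : b ⬝ᵥ vbar (p ^ n) a = 0) (hbb : b ⬝ᵥ vbar (p ^ n) b = 0) : ∃ c : K, b = c • a := by
  have hq : p ^ n ≠ 0 := pow_ne_zero _ (Fact.out : p.Prime).ne_zero
  have h1 : crossProduct (vbar (p ^ n) a) (crossProduct a b) = 0 := by
    rw [cross_cross_eq_smul_sub_smul', dotProduct_comm, hba, haa]
    simp
  have h2 : crossProduct (vbar (p ^ n) b) (crossProduct a b) = 0 := by
    rw [cross_cross_eq_smul_sub_smul', dotProduct_comm, hbb, hab]
    simp
  by_cases hc : crossProduct a b = 0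
  · have : crossProduct b a = 0 := by rw [← cross_anticomm, hc, neg_zero]
    exact par ha this
  · exfalso
    obtain ⟨α, hα⟩ := par hc h1
    obtain ⟨β, hβ⟩ := par hc h2
    have h3 : crossProduct (vbar (p ^ n) a) (vbar (p ^ n) b) = 0 := by
      rw [hα, hβ]
      simp [cross_self]
    rw [← vbar_cross] at h3
    exact hc (vbar_eq_zero hq h3)

/-- an isometry of determinant one fixing a nonzero isotropic vector is unipotent -/
theorem unip (q : ℕ) (hq : q ≠ 0) {g : Matrix (Fin 3) (Fin 3) K} (hdet : g.det = 1)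
    (hpres : ∀ u v, (g *ᵥ u) ⬝ᵥ vbar q (g *ᵥ v) = u ⬝ᵥ vbar q v) {e : Fin 3 → K}
    (he : e ≠ 0) (hee : e ⬝ᵥ vbar q e = 0) (hge : g *ᵥ e = e) : (g - 1) ^ 3 = 0 := by
  have La : ∀ v, (g *ᵥ v) ⬝ᵥ vbar q e = v ⬝ᵥ vbar q e := fun v => by
    have := hpres v e
    rwa [hge] at this
  have hē : vbar q e ≠ 0 := vbar_ne_zero hq he
  obtain ⟨j, hj⟩ := Function.ne_iff.mp hē
  have hj' : vbar q e j ≠ 0 := hj
  have Lb : ∀ w, w ⬝ᵥ vbar q e = 0 → ∃ α : K, g *ᵥ w - w = α • e := by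
    intro w hw
    have hw' : (g *ᵥ w) ⬝ᵥ vbar q e = 0 := by rw [La, hw]
    have hc : crossProduct (crossProduct w e) (vbar q e) = 0 := by
      rw [← cross_anticomm, cross_cross_eq_smul_sub_smul', hw, dotProduct_comm, hee]
      simp
    have hc' : crossProduct (crossProduct (g *ᵥ w) e) (vbar q e) = 0 := by
      rw [← cross_anticomm, cross_cross_eq_smul_sub_smul', hw', dotProduct_comm, hee]
      simp
    obtain ⟨s, hs⟩ := par hē hc
    obtain ⟨s', hs'⟩ := par hē hc'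
    have ht := triple_mulVec g hdet (Pi.single j 1) w e
    rw [hge, hs, hs', dotProduct_smul, dotProduct_smul, La, single_one_dotProduct] at ht
    have hss : s' = s := by
      have : (s' - s) * vbar q e j = 0 := by
        simp only [smul_eq_mul] at ht
        linear_combination ht
      rcases mul_eq_zero.mp this with h | h
      · exact sub_eq_zero.mp h
      · exact absurd h hj'
    have hcc : crossProduct (g *ᵥ w - w) e = 0 := by
      rw [map_sub, LinearMap.sub_apply, hs, hs', hss, sub_self]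
    exact par he hcc
  rw [Matrix.ext_iff_mulVec]
  intro v
  rw [Matrix.zero_mulVec, pow_succ, pow_two, ← Matrix.mulVec_mulVec, ← Matrix.mulVec_mulVec]
  have e1 : ∀ x, (g - 1) *ᵥ x = g *ᵥ x - x := fun x => by
    rw [Matrix.sub_mulVec, Matrix.one_mulVec]
  rw [e1 v]
  have h1 : (g *ᵥ v - v) ⬝ᵥ vbar q e = 0 := by
    rw [sub_dotProduct, La, sub_self]
  obtain ⟨α, hα⟩ := Lb _ h1
  rw [e1 (g *ᵥ v - v), hα, e1, Matrix.mulVec_smul, hge, sub_self]

theorem pow_char_sq_of_cube {p : ℕ} [Fact p.Prime] [CharP K p] {g : Matrix (Fin 3) (Fin 3) K}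
    (h : (g - 1) ^ 3 = 0) : g ^ (p ^ 2) = 1 := by
  have h1 : g = (g - 1) + 1 := by abel
  have h2 : Commute (g - 1) 1 := Commute.one_right _
  rw [h1, add_pow_char_pow_of_commute _ _ h2, one_pow]
  have h3 : 3 ≤ p ^ 2 := by
    have := (Fact.out : p.Prime).two_le
    nlinarith
  have h4 : (g - 1) ^ (p ^ 2) = 0 := by
    obtain ⟨k, hk⟩ := Nat.exists_eq_add_of_le h3
    rw [hk, pow_add, h, zero_mul]
  rw [h4, zero_add]

theorem key {p n : ℕ} [Fact p.Prime] [Fintype K] [CharP K p]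
    {Γ : Type*} [Group Γ] [Finite Γ] (ι : Γ →* Matrix.SpecialLinearGroup (Fin 3) K)
    (hι : Function.Injective ι)
    (hSU : ∀ γ u v, ((ι γ).1 *ᵥ u) ⬝ᵥ vbar (p ^ n) ((ι γ).1 *ᵥ v) = u ⬝ᵥ vbar (p ^ n) v)
    (S : Subgroup Γ) (hS : IsPGroup p S) (hS1 : S ≠ ⊥) :
    IsPGroup p ↥⁅Subgroup.normalizer (S : Set Γ), Subgroup.normalizer (S : Set Γ)⁆ := by
  classical
  have hq0 : p ^ n ≠ 0 := pow_ne_zero _ (Fact.out : p.Prime).ne_zero
  set q := p ^ n with hqdef
  have act_mul : ∀ (γ γ' : Γ) (v : Fin 3 → K),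
      (ι (γ * γ')).1 *ᵥ v = (ι γ).1 *ᵥ ((ι γ').1 *ᵥ v) := by
    intro γ γ' v
    rw [map_mul, Matrix.SpecialLinearGroup.coe_mul, Matrix.mulVec_mulVec]
  have act_one : ∀ v : Fin 3 → K, (ι (1 : Γ)).1 *ᵥ v = v := by
    intro v
    rw [map_one, Matrix.SpecialLinearGroup.coe_one, Matrix.one_mulVec]
  have act_inv : ∀ (γ : Γ) (v : Fin 3 → K), (ι γ⁻¹).1 *ᵥ ((ι γ).1 *ᵥ v) = v := by
    intro γ v
    rw [← act_mul, inv_mul_cancel, act_one]
  have act_inv' : ∀ (γ : Γ) (v : Fin 3 → K), (ι γ).1 *ᵥ ((ι γ⁻¹).1 *ᵥ v) = v := by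
    intro γ v
    rw [← act_mul, mul_inv_cancel, act_one]
  let Fix : Submodule K (Fin 3 → K) :=
    { carrier := {v | ∀ γ ∈ S, (ι γ).1 *ᵥ v = v}
      add_mem' := fun {a b} ha hb γ hγ => by rw [Matrix.mulVec_add, ha γ hγ, hb γ hγ]
      zero_mem' := fun γ _ => Matrix.mulVec_zero _
      smul_mem' := fun c v hv γ hγ => by rw [Matrix.mulVec_smul, hv γ hγ] }
  let Perp : Submodule K (Fin 3 → K) :=
    { carrier := {u | ∀ w ∈ Fix, u ⬝ᵥ vbar q w = 0}
      add_mem' := fun {a b} ha hb w hw => by rw [add_dotProduct, ha w hw, hb w hw, add_zero]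
      zero_mem' := fun w _ => zero_dotProduct _
      smul_mem' := fun c v hv w hw => by rw [smul_dotProduct, hv w hw, smul_zero] }
  -- `Fix` is a proper subspace
  have hFix_ne : Fix ≠ ⊤ := by
    obtain ⟨⟨γ, hγ⟩, hγ1⟩ := (Subgroup.ne_bot_iff_exists_ne_one).mp hS1
    have hγ1' : γ ≠ 1 := fun h => hγ1 (Subtype.ext h)
    intro htop
    apply hγ1'
    apply hι
    rw [map_one]
    apply Subtype.ext
    rw [Matrix.SpecialLinearGroup.coe_one, Matrix.ext_iff_mulVec]
    intro v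
    rw [Matrix.one_mulVec]
    have hv : v ∈ Fix := by rw [htop]; trivial
    exact hv γ hγ
  -- so `Perp` is nonzero
  have hPerp_ne : Perp ≠ ⊥ := by
    obtain ⟨f, hf0, hf⟩ := Submodule.exists_dual_map_eq_bot_of_lt_top
      (lt_top_iff_ne_top.mpr hFix_ne) inferInstance
    have hfw : ∀ w ∈ Fix, f w = 0 := by
      intro w hw
      have h0 : f w ∈ Fix.map f := Submodule.mem_map_of_mem hw
      have h0' : f w ∈ (⊥ : Submodule K K) := hf ▸ h0
      exact (Submodule.mem_bot K).mp h0'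
    let u : Fin 3 → K := fun i => (f (fun j => if i = j then 1 else 0)) ^ q
    have hu : u ∈ Perp := by
      intro w hw
      have h1 := hfw w hw
      rw [LinearMap.pi_apply_eq_sum_univ] at h1
      have h2 : u ⬝ᵥ vbar q w = (∑ i, w i • f (fun j => if i = j then 1 else 0)) ^ q := by
        rw [hqdef, sum_pow_char_pow]
        simp only [dotProduct, u, vbar, smul_eq_mul, mul_pow, hqdef]
        exact Finset.sum_congr rfl (fun i _ => mul_comm _ _)
      rw [h2, h1, zero_pow hq0]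
    intro hbot
    have hu0 : u = 0 := by
      have : u ∈ (⊥ : Submodule K (Fin 3 → K)) := by rw [← hbot]; exact hu
      simpa using this
    apply hf0
    apply LinearMap.ext
    intro w
    rw [LinearMap.pi_apply_eq_sum_univ, LinearMap.zero_apply]
    apply Finset.sum_eq_zero
    intro i _
    have := congrFun hu0 i
    simp only [u, Pi.zero_apply] at this
    rw [(pow_eq_zero_iff hq0).mp this, smul_zero]
  -- the p-group `S` acts on `Perp`
  let actS : MulAction S Perp :=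
    { smul := fun γ u => ⟨(ι γ.1).1 *ᵥ u.1, fun w hw => by
        have h1 := hSU γ.1 u.1 w
        rw [hw γ.1 γ.2] at h1
        rw [h1]
        exact u.2 w hw⟩
      one_smul := fun u => Subtype.ext (act_one u.1)
      mul_smul := fun γ γ' u => Subtype.ext (act_mul γ.1 γ'.1 u.1) }
  have hsmul : ∀ (γ : S) (u : Perp), ((γ • u : Perp) : Fin 3 → K) = (ι γ.1).1 *ᵥ u.1 :=
    fun _ _ => rfl
  have hcard : p ∣ Nat.card Perp := by
    have hnt : Nontrivial Perp := (Submodule.nontrivial_iff_ne_bot).mpr hPerp_ne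
    have hpos : 0 < Module.finrank K Perp := Module.finrank_pos
    obtain ⟨m, hm, hc⟩ := FiniteField.card K p
    rw [Nat.card_eq_fintype_card, Module.card_eq_pow_finrank (K := K), hc]
    exact dvd_pow (dvd_pow_self p m.ne_zero) hpos.ne'
  have h0 : (0 : Perp) ∈ MulAction.fixedPoints S Perp := by
    intro γ
    apply Subtype.ext
    rw [hsmul]
    exact Matrix.mulVec_zero _
  obtain ⟨b, hb, hb0⟩ := hS.exists_fixed_point_of_prime_dvd_card_of_fixed_point Perp hcard h0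
  have he : (b : Fin 3 → K) ≠ 0 := fun h => hb0 (Subtype.ext h.symm)
  have heFix : (b : Fin 3 → K) ∈ Fix := by
    intro γ hγ
    have := hb ⟨γ, hγ⟩
    have h2 := congrArg Subtype.val this
    rwa [hsmul] at h2
  have hePerp : (b : Fin 3 → K) ∈ Perp := b.2
  have hee : (b : Fin 3 → K) ⬝ᵥ vbar q (b : Fin 3 → K) = 0 := hePerp _ heFix
  -- the normalizer preserves `Fix` and `Perp`
  have hfix_m : ∀ m ∈ Subgroup.normalizer (S : Set Γ), ∀ w ∈ Fix, (ι m).1 *ᵥ w ∈ Fix := by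
    intro m hm w hw γ hγ
    have h1 : m⁻¹ * γ * m ∈ S := (Subgroup.mem_set_normalizer_iff''.mp hm γ).mp hγ
    have h2 := hw _ h1
    have h3 : γ * m = m * (m⁻¹ * γ * m) := by group
    rw [← act_mul, h3, act_mul, h2]
  have hperp_m : ∀ m ∈ Subgroup.normalizer (S : Set Γ), ∀ u ∈ Perp, (ι m).1 *ᵥ u ∈ Perp := by
    intro m hm u hu w hw
    have hw' : (ι m⁻¹).1 *ᵥ w ∈ Fix := hfix_m m⁻¹ (inv_mem hm) w hw
    have h1 := hSU m u ((ι m⁻¹).1 *ᵥ w)
    rw [act_inv'] at h1
    rw [h1]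
    exact hu _ hw'
  have hnorm : ∀ m ∈ Subgroup.normalizer (S : Set Γ), ∃ c : K,
      (ι m).1 *ᵥ (b : Fin 3 → K) = c • (b : Fin 3 → K) := by
    intro m hm
    have h1 := hfix_m m hm _ heFix
    have h2 := hperp_m m hm _ hePerp
    exact ti_dim p n he hee (hePerp _ h1) (h2 _ heFix) (h2 _ h1)
  let St : Subgroup Γ :=
    { carrier := {γ | (ι γ).1 *ᵥ (b : Fin 3 → K) = (b : Fin 3 → K)}
      mul_mem' := fun {x y} hx hy => by
        show (ι (x * y)).1 *ᵥ (b : Fin 3 → K) = (b : Fin 3 → K)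
        rw [act_mul, show (ι y).1 *ᵥ (b : Fin 3 → K) = (b : Fin 3 → K) from hy]
        exact hx
      one_mem' := act_one _
      inv_mem' := fun {x} hx => by
        show (ι x⁻¹).1 *ᵥ (b : Fin 3 → K) = (b : Fin 3 → K)
        have := act_inv x (b : Fin 3 → K)
        rwa [show (ι x).1 *ᵥ (b : Fin 3 → K) = (b : Fin 3 → K) from hx] at this }
  have hinvc : ∀ (m : Γ) (c : K), (ι m).1 *ᵥ (b : Fin 3 → K) = c • (b : Fin 3 → K) →
      c ≠ 0 ∧ (ι m⁻¹).1 *ᵥ (b : Fin 3 → K) = c⁻¹ • (b : Fin 3 → K) := by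
    intro m c hc
    have h1 := act_inv m (b : Fin 3 → K)
    rw [hc, Matrix.mulVec_smul] at h1
    have hc0 : c ≠ 0 := by
      intro h
      rw [h, zero_smul] at h1
      exact he h1.symm
    refine ⟨hc0, ?_⟩
    calc (ι m⁻¹).1 *ᵥ (b : Fin 3 → K)
        = c⁻¹ • (c • ((ι m⁻¹).1 *ᵥ (b : Fin 3 → K))) := by
          rw [smul_smul, inv_mul_cancel₀ hc0, one_smul]
      _ = c⁻¹ • (b : Fin 3 → K) := by rw [h1]
  have hcomm : ⁅Subgroup.normalizer (S : Set Γ), Subgroup.normalizer (S : Set Γ)⁆ ≤ St := by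
    rw [Subgroup.commutator_le]
    intro m hm m' hm'
    obtain ⟨c, hc⟩ := hnorm m hm
    obtain ⟨c', hc'⟩ := hnorm m' hm'
    obtain ⟨hc0, hci⟩ := hinvc m c hc
    obtain ⟨hc0', hci'⟩ := hinvc m' c' hc'
    show (ι ⁅m, m'⁆).1 *ᵥ (b : Fin 3 → K) = (b : Fin 3 → K)
    have step : ∀ (γ : Γ) (c d : K), (ι γ).1 *ᵥ (b : Fin 3 → K) = c • (b : Fin 3 → K) →
        (ι γ).1 *ᵥ (d • (b : Fin 3 → K)) = (d * c) • (b : Fin 3 → K) := by
      intro γ c d h
      rw [Matrix.mulVec_smul, h, smul_smul]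
    rw [commutatorElement_def, act_mul, act_mul, act_mul, hci', step _ _ _ hci,
      step _ _ _ hc', step _ _ _ hc]
    have : c'⁻¹ * c⁻¹ * c' * c = 1 := by field_simp
    rw [this, one_smul]
  have hSt : IsPGroup p St := by
    rintro ⟨γ, hγ⟩
    refine ⟨2, ?_⟩
    apply Subtype.ext
    apply hι
    rw [Subgroup.coe_pow, Subgroup.coe_one, map_pow, map_one]
    apply Subtype.ext
    rw [Matrix.SpecialLinearGroup.coe_pow, Matrix.SpecialLinearGroup.coe_one]
    exact pow_char_sq_of_cube (unip q hq0 (ι γ).2 (hSU γ) he hee hγ)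
  exact hSt.to_le hcomm

/-- elements of `qd p` preserve the last coordinate -/
theorem qd_last {p : ℕ} (h : Matrix.SpecialLinearGroup (Fin 3) (ZMod p)) (hh : h ∈ Cfsg.qd p)
    (v : Fin 3 → ZMod p) : (h.1 *ᵥ v) 2 = v 2 := by
  unfold Cfsg.qd at hh
  induction hh using Subgroup.closure_induction generalizing v with
  | mem x hx =>
    obtain ⟨h0, h1, h2⟩ := hx
    simp [Matrix.mulVec, dotProduct, Fin.sum_univ_three, h0, h1, h2]
  | one => simp
  | mul x y _ _ hx hy =>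
    rw [Matrix.SpecialLinearGroup.coe_mul, ← Matrix.mulVec_mulVec, hx, hy]
  | inv x _ hx =>
    have h1 := hx (x⁻¹.1 *ᵥ v)
    rw [Matrix.mulVec_mulVec, ← Matrix.SpecialLinearGroup.coe_mul, mul_inv_cancel,
      Matrix.SpecialLinearGroup.coe_one, Matrix.one_mulVec] at h1
    exact h1.symm

/-- the translation subgroup of `qd p` -/
def V0 (p : ℕ) : Subgroup (Cfsg.qd p) where
  carrier := {g | ∀ v : Fin 3 → ZMod p, v 2 = 0 → g.1.1 *ᵥ v = v}
  mul_mem' {a b} ha hb v hv := by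
    show (a * b).1.1 *ᵥ v = v
    rw [Subgroup.coe_mul, Matrix.SpecialLinearGroup.coe_mul, ← Matrix.mulVec_mulVec, hb v hv,
      ha v hv]
  one_mem' v _ := by
    show (1 : Cfsg.qd p).1.1 *ᵥ v = v
    rw [Subgroup.coe_one, Matrix.SpecialLinearGroup.coe_one, Matrix.one_mulVec]
  inv_mem' {a} ha v hv := by
    show (a⁻¹).1.1 *ᵥ v = v
    have h1 := ha v hv
    have h2 : (a⁻¹).1.1 *ᵥ (a.1.1 *ᵥ v) = v := by
      rw [Matrix.mulVec_mulVec, Subgroup.coe_inv, ← Matrix.SpecialLinearGroup.coe_mul,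
        inv_mul_cancel, Matrix.SpecialLinearGroup.coe_one, Matrix.one_mulVec]
    rwa [h1] at h2

instance V0_normal (p : ℕ) : (V0 p).Normal := by
  constructor
  intro n hn g v hv
  show (g * n * g⁻¹).1.1 *ᵥ v = v
  have h1 : ((g⁻¹).1.1 *ᵥ v) 2 = 0 := by
    rw [qd_last _ (g⁻¹).2, hv]
  have h2 := hn _ h1
  rw [Subgroup.coe_mul, Subgroup.coe_mul, Matrix.SpecialLinearGroup.coe_mul,
    Matrix.SpecialLinearGroup.coe_mul, ← Matrix.mulVec_mulVec, ← Matrix.mulVec_mulVec, h2,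
    Matrix.mulVec_mulVec, ← Matrix.SpecialLinearGroup.coe_mul, ← Subgroup.coe_mul, mul_inv_cancel,
    Subgroup.coe_one, Matrix.SpecialLinearGroup.coe_one, Matrix.one_mulVec]

def wmat (p : ℕ) : Matrix (Fin 3) (Fin 3) (ZMod p) := !![0, 1, 0; -1, 0, 0; 0, 0, 1]
def bmat (p : ℕ) (x y : ZMod p) : Matrix (Fin 3) (Fin 3) (ZMod p) := !![x, y, 0; y, -x, 0; 0, 0, 1]
def zmat (p : ℕ) : Matrix (Fin 3) (Fin 3) (ZMod p) := !![-1, 0, 0; 0, -1, 0; 0, 0, 1]

theorem det_wmat (p : ℕ) : (wmat p).det = 1 := by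
  simp [wmat, Matrix.det_fin_three]

theorem det_bmat (p : ℕ) (x y : ZMod p) (h : x ^ 2 + y ^ 2 = -1) : (bmat p x y).det = 1 := by
  simp [bmat, Matrix.det_fin_three]
  linear_combination -h

theorem det_zmat (p : ℕ) : (zmat p).det = 1 := by
  simp [zmat, Matrix.det_fin_three]

def wel (p : ℕ) : Cfsg.qd p := ⟨⟨wmat p, det_wmat p⟩, Subgroup.subset_closure (by
  show (wmat p) 2 0 = 0 ∧ (wmat p) 2 1 = 0 ∧ (wmat p) 2 2 = 1
  simp [wmat])⟩

def bel (p : ℕ) (x y : ZMod p) (h : x ^ 2 + y ^ 2 = -1) : Cfsg.qd p :=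
  ⟨⟨bmat p x y, det_bmat p x y h⟩, Subgroup.subset_closure (by
    show (bmat p x y) 2 0 = 0 ∧ (bmat p x y) 2 1 = 0 ∧ (bmat p x y) 2 2 = 1
    simp [bmat])⟩

def zel (p : ℕ) : Cfsg.qd p := ⟨⟨zmat p, det_zmat p⟩, Subgroup.subset_closure (by
  show (zmat p) 2 0 = 0 ∧ (zmat p) 2 1 = 0 ∧ (zmat p) 2 2 = 1
  simp [zmat])⟩

theorem zel_eq (p : ℕ) (x y : ZMod p) (h : x ^ 2 + y ^ 2 = -1) :
    zel p = ⁅wel p, bel p x y h⁆ := by
  rw [commutatorElement_def, eq_mul_inv_iff_mul_eq, eq_mul_inv_iff_mul_eq]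
  apply Subtype.ext
  apply Subtype.ext
  show zmat p * bmat p x y * wmat p = wmat p * bmat p x y
  ext i j
  fin_cases i <;> fin_cases j <;>
    simp [zmat, bmat, wmat, Matrix.mul_apply, Fin.sum_univ_three]

theorem zel_sq (p : ℕ) : zel p * zel p = 1 := by
  apply Subtype.ext
  apply Subtype.ext
  show zmat p * zmat p = 1
  ext i j
  fin_cases i <;> fin_cases j <;>
    simp [zmat, Matrix.mul_apply, Fin.sum_univ_three]

theorem zel_not_mem (p : ℕ) [Fact p.Prime] (hp : p ≠ 2) : zel p ∉ V0 p := by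
  intro h
  have h1 := h (Pi.single 0 1) (by simp)
  have h2 := congrFun h1 0
  simp [zel, zmat, Matrix.mulVec, dotProduct, Fin.sum_univ_three] at h2
  -- h2 : -1 = 1 in ZMod p
  have h3 : (2 : ZMod p) = 0 := by linear_combination -h2
  have h4 : ((2 : ℕ) : ZMod p) = 0 := by exact_mod_cast h3
  rw [ZMod.natCast_eq_zero_iff] at h4
  have := (Nat.prime_dvd_prime_iff_eq (Fact.out : p.Prime) Nat.prime_two).mp h4
  exact hp this

/-- the element `yel` of S2231 as an element of `V0` -/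
theorem yel_mem_V0 (p : ℕ) :
    (⟨Cfsg.Agent.S2231.yel p, Cfsg.Agent.S2231.yel_mem_qd p⟩ : Cfsg.qd p) ∈ V0 p := by
  intro v hv
  show (Cfsg.Agent.S2231.ymat p) *ᵥ v = v
  funext i
  fin_cases i <;>
    simp [Cfsg.Agent.S2231.ymat, Matrix.mulVec, dotProduct, Fin.sum_univ_three, hv]

/-- Let p be an odd prime, q a power of p and K a finite field with q² elements. Then Qd(p) (the natural semidirect product of an elementary abelian group of order p² by SL₂(p)) is not involved in the projective special unitary group PSU₃(q) realised over K. -/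
theorem result {p : ℕ} [Fact p.Prime] (hp : p ≠ 2) {K : Type*} [Field K] [Fintype K] [CharP K p] (n : ℕ) (hn : 1 ≤ n) (hK : Fintype.card K = (p ^ n) ^ 2) : ¬ Cfsg.Involves ↥(Cfsg.qd p) (Cfsg.PSU 3 K (p ^ n)) := by
  classical
  rintro ⟨K₀, R, hN, ⟨e⟩⟩
  let π : ↥(Cfsg.SU 3 K (p ^ n)) →* Cfsg.PSU 3 K (p ^ n) := QuotientGroup.mk' _
  have hπ : Function.Surjective π := QuotientGroup.mk'_surjective _
  let H : Subgroup ↥(Cfsg.SU 3 K (p ^ n)) := K₀.comap π
  let φ : H →* K₀ := π.subgroupComap K₀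
  have hφ : Function.Surjective φ := π.subgroupComap_surjective_of_surjective K₀ hπ
  let ψ : K₀ →* Cfsg.qd p := e.toMonoidHom.comp (QuotientGroup.mk' (R.subgroupOf K₀))
  have hψ : Function.Surjective ψ := e.surjective.comp (QuotientGroup.mk'_surjective _)
  let θ : H →* Cfsg.qd p := ψ.comp φ
  have hθ : Function.Surjective θ := hψ.comp hφ
  let θ' : H →* (Cfsg.qd p ⧸ V0 p) := (QuotientGroup.mk' (V0 p)).comp θ
  have hθ' : Function.Surjective θ' := (QuotientGroup.mk'_surjective _).comp hθ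
  let H₁ : Subgroup H := θ'.ker
  let S₁ : Sylow p H₁ := default
  have hfr := Sylow.normalizer_sup_eq_top S₁
  let S' : Subgroup H := (S₁ : Subgroup H₁).map H₁.subtype
  let M : Subgroup H := Subgroup.normalizer (S' : Set H)
  have hM : M.map θ' = ⊤ := by
    have h1 := congrArg (Subgroup.map θ') hfr
    rw [Subgroup.map_sup, (Subgroup.map_eq_bot_iff (f := θ') (H := H₁)).mpr le_rfl, sup_bot_eq,
      Subgroup.map_top_of_surjective θ' hθ'] at h1
    exact h1
  -- `S'` is nontrivial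
  have hS' : S' ≠ ⊥ := by
    obtain ⟨h, hh⟩ := hθ ⟨Cfsg.Agent.S2231.yel p, Cfsg.Agent.S2231.yel_mem_qd p⟩
    have hmem : h ∈ H₁ := by
      show θ' h = 1
      show QuotientGroup.mk' (V0 p) (θ h) = 1
      rw [hh]
      exact (QuotientGroup.eq_one_iff _).mpr (yel_mem_V0 p)
    have hy1 : (⟨Cfsg.Agent.S2231.yel p, Cfsg.Agent.S2231.yel_mem_qd p⟩ : Cfsg.qd p) ≠ 1 := by
      intro h1
      have h2 := congrArg (fun t : Cfsg.qd p => (t : Matrix.SpecialLinearGroup (Fin 3) (ZMod p))) h1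
      have h3 := Cfsg.Agent.S2231.xy_ne p
      apply h3
      show Cfsg.Agent.S2231.xel p * Cfsg.Agent.S2231.yel p =
        Cfsg.Agent.S2231.yel p * Cfsg.Agent.S2231.xel p
      have h4 : Cfsg.Agent.S2231.yel p = 1 := h2
      rw [h4, mul_one, one_mul]
    have hy2 : (⟨Cfsg.Agent.S2231.yel p, Cfsg.Agent.S2231.yel_mem_qd p⟩ : Cfsg.qd p) ^ (p ^ 2)
        = 1 := by
      have h5 := Cfsg.Agent.S2231.UT_isPGroup p
      have h6 : (⟨Cfsg.Agent.S2231.yel p, Cfsg.Agent.S2231.yel_mem_UT p⟩ :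
          Cfsg.Agent.S2231.UT p) ^ (p ^ 2) = 1 := by
        apply Subtype.ext
        apply Subtype.ext
        show ((Cfsg.Agent.S2231.yel p) ^ (p ^ 2)).1 = 1
        rw [Matrix.SpecialLinearGroup.coe_pow]
        exact Cfsg.Agent.S2231.isUT_pow_char (Cfsg.Agent.S2231.yel_mem_UT p)
      apply Subtype.ext
      have h7 := congrArg (fun t : Cfsg.Agent.S2231.UT p =>
        (t : Matrix.SpecialLinearGroup (Fin 3) (ZMod p))) h6
      exact h7
    have hpdvd : p ∣ orderOf (⟨Cfsg.Agent.S2231.yel p, Cfsg.Agent.S2231.yel_mem_qd p⟩ :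
        Cfsg.qd p) := by
      have h8 := orderOf_dvd_of_pow_eq_one hy2
      obtain ⟨k, hk, hk2⟩ := (Nat.dvd_prime_pow (Fact.out : p.Prime)).mp h8
      rw [hk2]
      rcases Nat.eq_zero_or_pos k with h0 | h0
      · exfalso
        rw [h0, pow_zero] at hk2
        exact hy1 (orderOf_eq_one_iff.mp hk2)
      · exact dvd_pow_self p h0.ne'
    have hcard : p ∣ Nat.card H₁ := by
      have h9 : orderOf (θ h) ∣ orderOf h := orderOf_map_dvd θ h
      rw [hh] at h9
      have h10 : orderOf (⟨h, hmem⟩ : H₁) = orderOf h := Subgroup.orderOf_mk _ _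
      have h11 := orderOf_dvd_natCard (⟨h, hmem⟩ : H₁)
      rw [h10] at h11
      exact dvd_trans (dvd_trans hpdvd h9) h11
    have h12 : (S₁ : Subgroup H₁) ≠ ⊥ := S₁.ne_bot_of_dvd_card hcard
    intro h13
    apply h12
    exact (Subgroup.map_eq_bot_iff_of_injective _ H₁.subtype_injective).mp h13
  -- the key lemma
  let ι : H →* Matrix.SpecialLinearGroup (Fin 3) K := (Cfsg.SU 3 K (p ^ n)).subtype.comp H.subtype
  have hι : Function.Injective ι := fun a b hab => Subtype.ext (Subtype.ext hab)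
  have hSU : ∀ (γ : H) (u v : Fin 3 → K),
      ((ι γ).1 *ᵥ u) ⬝ᵥ vbar (p ^ n) ((ι γ).1 *ᵥ v) = u ⬝ᵥ vbar (p ^ n) v := by
    intro γ u v
    exact γ.1.2 u v
  have hS'p : IsPGroup p S' := S₁.isPGroup'.map H₁.subtype
  have hkey : IsPGroup p ↥⁅M, M⁆ := key ι hι hSU S' hS'p hS'
  have hQ : IsPGroup p ↥(commutator (Cfsg.qd p ⧸ V0 p)) := by
    have h1 : commutator (Cfsg.qd p ⧸ V0 p) = (⁅M, M⁆).map θ' := by
      rw [Subgroup.map_commutator, hM, commutator_def]
    rw [h1]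
    exact hkey.map θ'
  obtain ⟨x, y, hxy⟩ := ZMod.sq_add_sq p (-1)
  have hZ : (QuotientGroup.mk' (V0 p) (zel p)) ∈ commutator (Cfsg.qd p ⧸ V0 p) := by
    rw [zel_eq p x y hxy, map_commutatorElement, commutator_def]
    exact Subgroup.commutator_mem_commutator (Subgroup.mem_top _) (Subgroup.mem_top _)
  obtain ⟨k, hk⟩ := hQ ⟨_, hZ⟩
  have hk' : (QuotientGroup.mk' (V0 p) (zel p)) ^ (p ^ k) = 1 := congrArg Subtype.val hk
  rw [← map_pow] at hk'
  have hmem : zel p ^ (p ^ k) ∈ V0 p := (QuotientGroup.eq_one_iff _).mp hk'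
  have hodd : Odd (p ^ k) := Odd.pow ((Fact.out : p.Prime).odd_of_ne_two hp)
  obtain ⟨t, ht⟩ := hodd
  have hz : zel p ^ (p ^ k) = zel p := by
    rw [ht, pow_succ, pow_mul, pow_two, zel_sq, one_pow, one_mul]
  rw [hz] at hmem
  exact zel_not_mem p hp hmem

end Cfsg.Agent.S2232
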