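import Cfsg.Statements.S2239
import Cfsg.Agent.Helper60.SzSub

set_option autoImplicit false
open Cfsg

namespace Cfsg.Agent.S2239

open Cfsg.Agent.Helper6 Cfsg.Agent.Helper60 in
/-- Subfield subgroups of the Suzuki group: let q = 2^(2m+1) and s = 2^(2k+1) with m, k ≥ 1 and 2k+1 dividing 2m+1 (so q is a power of s), both groups realised as stabilisers in SL₄ of the Suzuki–Tits ovoid. Then Sz(q) has a subgroup isomorphic to Sz(s), and any two subgroups of Sz(q) isomorphic to Sz(s) are conjugate. -/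
theorem result {F : Type*} [Field F] [Fintype F] {m : ℕ} (hm : 1 ≤ m) (hF : Fintype.card F = 2 ^ (2 * m + 1)) {K : Type*} [Field K] [Fintype K] {k : ℕ} (hk : 1 ≤ k) (hK : Fintype.card K = 2 ^ (2 * k + 1)) (hdiv : 2 * k + 1 ∣ 2 * m + 1) :
    (∃ S : Subgroup ↥(Cfsg.Sz F m), Nonempty (↥S ≃* ↥(Cfsg.Sz K k))) ∧
    ∀ S₁ S₂ : Subgroup ↥(Cfsg.Sz F m), Nonempty (↥S₁ ≃* ↥(Cfsg.Sz K k)) → Nonempty (↥S₂ ≃* ↥(Cfsg.Sz K k)) →
      ∃ g : ↥(Cfsg.Sz F m), S₂ = S₁.map (MulAut.conj g).toMonoidHom := by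
  have := sz_charP hF
  have := sz_charP hK
  constructor
  · obtain ⟨ψ⟩ := exists_field_emb hF hK hdiv
    exact ⟨(szEmb hF hK hk hdiv ψ).range,
      ⟨(MonoidHom.ofInjective (szEmb_injective hF hK hk hdiv ψ)).symm⟩⟩
  · intro S₁ S₂ h₁ h₂
    obtain ⟨c₁, hc₁⟩ := sub_conj_std hF hK hm hk hdiv S₁ h₁
    obtain ⟨c₂, hc₂⟩ := sub_conj_std hF hK hm hk hdiv S₂ h₂
    refine ⟨c₂⁻¹ * c₁, ?_⟩
    have e : (MulAut.conj (c₂⁻¹ * c₁)).toMonoidHom =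
        (MulAut.conj c₂⁻¹).toMonoidHom.comp (MulAut.conj c₁).toMonoidHom := by
      apply MonoidHom.ext
      intro x
      show c₂⁻¹ * c₁ * x * (c₂⁻¹ * c₁)⁻¹ = c₂⁻¹ * (c₁ * x * c₁⁻¹) * c₂⁻¹⁻¹
      group
    rw [e, ← Subgroup.map_map, hc₁, ← hc₂, Subgroup.map_map]
    have e2 : (MulAut.conj c₂⁻¹).toMonoidHom.comp (MulAut.conj c₂).toMonoidHom =
        MonoidHom.id _ := by
      apply MonoidHom.ext
      intro x
      show c₂⁻¹ * (c₂ * x * c₂⁻¹) * c₂⁻¹⁻¹ = x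
      group
    rw [e2, Subgroup.map_id]

end Cfsg.Agent.S2239
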