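import Cfsg.Statements.S2240
import Cfsg.Agent.Helper60.SzOvoid3

set_option autoImplicit false
open Cfsg

namespace Cfsg.Agent.S2240

open Cfsg.Agent.Helper6 Cfsg.Agent.Helper60

section
variable {F : Type*} [Field F] [Fintype F] {m : ℕ} [CharP F 2]

theorem forward (hm : 1 ≤ m) (hF : Fintype.card F = 2 ^ (2 * m + 1)) (n : ℕ) (hn : 2 ≤ n)
    (E : Subgroup ↥(Cfsg.Sz F m)) (hE : ∀ a ∈ E, a ^ 2 = 1) (hcard : Nat.card ↥E = 2 ^ n)
    (hTI : ∀ x : ↥(Cfsg.Sz F m), E ⊓ E.map (MulAut.conj x).toMonoidHom ≠ ⊥ →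
      x ∈ Subgroup.normalizer (E : Set ↥(Cfsg.Sz F m))) : n ∣ 2 * m + 1 := by
  have h2 : (2 : F) = 0 := sz_two
  have hpE : IsPGroup 2 E := IsPGroup.of_card hcard
  obtain ⟨Q, hQ⟩ := hpE.exists_le_sylow
  obtain ⟨c, hcQ⟩ := MulAction.exists_smul_eq ↥(Cfsg.Sz F m) (UoSylow hF hm) Q
  subst hcQ
  -- every element of `E` is a conjugate of a central translation
  have hform : ∀ e ∈ E, ∃ b : F, e = c * tG hF 0 b * c⁻¹ := by
    intro e he
    have h1 := hQ he
    rw [Sylow.coe_subgroup_smul, coe_UoSylow, Subgroup.mem_pointwise_smul_iff_inv_smul_mem] at h1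
    obtain ⟨a, b, hab⟩ := h1
    have hu : c⁻¹ * e * c = tG hF a b := by
      rw [← hab]
      simp [MulAut.smul_def]
    have hsq : tG hF a b * tG hF a b = 1 := by
      rw [← hu]
      have : c⁻¹ * e * c * (c⁻¹ * e * c) = c⁻¹ * (e ^ 2) * c := by rw [pow_two]; group
      rw [this, hE e he]; group
    have ha := tG_involution hF hsq
    subst ha
    exact ⟨b, by rw [← hu]; group⟩
  have hmulc : ∀ b b' : F, c * tG hF 0 (b + b') * c⁻¹ =
      (c * tG hF 0 b * c⁻¹) * (c * tG hF 0 b' * c⁻¹) := by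
    intro b b'
    have : tG hF 0 b * tG hF 0 b' = tG hF 0 (b + b') := by
      rw [tG_mul]
      congr 1
      · ring
      · rw [map_zero]; ring
    rw [← this]; group
  let A : AddSubgroup F :=
    { carrier := {b | c * tG hF 0 b * c⁻¹ ∈ E}
      add_mem' := fun {b b'} hb hb' => by
        show c * tG hF 0 (b + b') * c⁻¹ ∈ E
        rw [hmulc]; exact mul_mem hb hb'
      zero_mem' := by
        show c * tG hF 0 0 * c⁻¹ ∈ E
        rw [tG_zero]
        simp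
      neg_mem' := fun {b} hb => by
        show c * tG hF 0 (-b) * c⁻¹ ∈ E
        have : -b = b := by linear_combination (-b) * h2
        rw [this]; exact hb }
  have hAmem : ∀ b : F, b ∈ A ↔ c * tG hF 0 b * c⁻¹ ∈ E := fun b => Iff.rfl
  have hcardA : Nat.card A = 2 ^ n := by
    rw [← hcard]
    refine Nat.card_congr (Equiv.ofBijective
      (fun b : A => (⟨c * tG hF 0 b.1 * c⁻¹, b.2⟩ : E)) ⟨?_, ?_⟩)
    · intro b b' h
      have h1 : c * tG hF 0 b.1 * c⁻¹ = c * tG hF 0 b'.1 * c⁻¹ := congrArg Subtype.val h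
      have h3 : tG hF 0 b.1 = tG hF 0 b'.1 := by
        have : tG hF 0 b.1 = c⁻¹ * (c * tG hF 0 b.1 * c⁻¹) * c := by group
        rw [this, h1]; group
      exact Subtype.ext (tG_inj hF h3).2
    · rintro ⟨e, he⟩
      obtain ⟨b, hb⟩ := hform e he
      exact ⟨⟨b, (hAmem b).2 (hb ▸ he)⟩, Subtype.ext hb.symm⟩
  refine ov_dvd_of_TI hF A hcardA (by omega) ?_
  rintro μ hμ ⟨b, hbA, hb0, hμb⟩ b' hb'
  obtain ⟨t, ht⟩ := ov_mu_surj hF hμ
  have hconj : ∀ y : F, (c * dG hF t * c⁻¹) * (c * tG hF 0 y * c⁻¹) * (c * dG hF t * c⁻¹)⁻¹ =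
      c * tG hF 0 (μ * y) * c⁻¹ := by
    intro y
    have e1 : (c * dG hF t * c⁻¹) * (c * tG hF 0 y * c⁻¹) * (c * dG hF t * c⁻¹)⁻¹ =
        c * (dG hF t * tG hF 0 y * (dG hF t)⁻¹) * c⁻¹ := by group
    rw [e1, dG_conj_tG, mul_zero, ht]
  have hx : c * dG hF t * c⁻¹ ∈ Subgroup.normalizer (E : Set ↥(Cfsg.Sz F m)) := by
    apply hTI
    rw [Subgroup.ne_bot_iff_exists_ne_one]
    refine ⟨⟨c * tG hF 0 (μ * b) * c⁻¹, ?_⟩, ?_⟩
    · rw [Subgroup.mem_inf]
      refine ⟨hμb, ?_⟩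
      rw [Subgroup.mem_map]
      refine ⟨c * tG hF 0 b * c⁻¹, hbA, ?_⟩
      show MulAut.conj (c * dG hF t * c⁻¹) (c * tG hF 0 b * c⁻¹) = _
      rw [MulAut.conj_apply, hconj]
    · intro h
      have h1 : c * tG hF 0 (μ * b) * c⁻¹ = 1 := congrArg Subtype.val h
      have h3 : tG hF 0 (μ * b) = 1 := by
        have : tG hF 0 (μ * b) = c⁻¹ * (c * tG hF 0 (μ * b) * c⁻¹) * c := by group
        rw [this, h1]
        simp
      exact (mul_ne_zero hμ hb0) ((tG_eq_one_iff hF).1 h3).2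
  rw [Subgroup.mem_normalizer_iff] at hx
  have := (hx (c * tG hF 0 b' * c⁻¹)).1 hb'
  rw [hconj] at this
  exact this

end

/-- statement S2240 -/
theorem result {F : Type*} [Field F] [Fintype F] {m : ℕ} (hm : 1 ≤ m) (hF : Fintype.card F = 2 ^ (2 * m + 1)) (n : ℕ) (hn : 2 ≤ n) :
    (∃ E : Subgroup ↥(Cfsg.Sz F m), Cfsg.IsElementaryAbelian 2 E ∧ Nat.card ↥E = 2 ^ n ∧
      ∀ x : ↥(Cfsg.Sz F m), E ⊓ E.map (MulAut.conj x).toMonoidHom ≠ ⊥ → x ∈ Subgroup.normalizer (E : Set ↥(Cfsg.Sz F m))) ↔ n ∣ 2 * m + 1 := by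
  have := sz_charP hF
  have h2 : (2 : F) = 0 := sz_two
  constructor
  · rintro ⟨E, hE, hcard, hTI⟩
    exact forward hm hF n hn E hE.2 hcard hTI
  · intro hdvd
    obtain ⟨K, hK⟩ := ov_exists_subfield hF (by omega : n ≠ 0) hdvd
    have hmul : ∀ b b' : F, tG hF 0 b * tG hF 0 b' = tG hF 0 (b + b') := by
      intro b b'
      rw [tG_mul]
      congr 1
      · ring
      · rw [map_zero]; ring
    let E : Subgroup ↥(Cfsg.Sz F m) :=
      { carrier := {g | ∃ b ∈ K, g = tG hF 0 b}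
        mul_mem' := by
          rintro g h ⟨b, hb, rfl⟩ ⟨b', hb', rfl⟩
          exact ⟨b + b', K.add_mem hb hb', hmul b b'⟩
        one_mem' := ⟨0, K.zero_mem, (tG_zero hF).symm⟩
        inv_mem' := by
          rintro g ⟨b, hb, rfl⟩
          refine ⟨b, hb, ?_⟩
          rw [tG_inv, map_zero, zero_mul, add_zero] }
    have hEmem : ∀ g, g ∈ E ↔ ∃ b ∈ K, g = tG hF 0 b := fun g => Iff.rfl
    refine ⟨E, ⟨⟨⟨?_⟩⟩, ?_⟩, ?_, ?_⟩
    · rintro ⟨g, b, hb, rfl⟩ ⟨h, b', hb', rfl⟩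
      apply Subtype.ext
      show tG hF 0 b * tG hF 0 b' = tG hF 0 b' * tG hF 0 b
      rw [hmul, hmul, add_comm]
    · rintro g ⟨b, hb, rfl⟩
      rw [pow_two, hmul, ← tG_zero hF]
      congr 1
      linear_combination b * h2
    · rw [← hK]
      symm
      refine Nat.card_congr (Equiv.ofBijective
        (fun b : K => (⟨tG hF 0 b.1, ⟨b.1, b.2, rfl⟩⟩ : E)) ⟨?_, ?_⟩)
      · intro b b' h
        exact Subtype.ext (tG_inj hF (congrArg Subtype.val h)).2
      · rintro ⟨g, b, hb, rfl⟩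
        exact ⟨⟨b, hb⟩, rfl⟩
    · intro x hx
      rw [Subgroup.ne_bot_iff_exists_ne_one] at hx
      obtain ⟨⟨e, he⟩, he1⟩ := hx
      rw [Subgroup.mem_inf, Subgroup.mem_map] at he
      obtain ⟨⟨b, hb, rfl⟩, e', ⟨b', hb', rfl⟩, he'⟩ := he
      have he'' : tG hF 0 b = x * tG hF 0 b' * x⁻¹ := he'.symm
      have hb0 : b ≠ 0 := by
        rintro rfl
        apply he1
        exact Subtype.ext (tG_zero hF)
      have hxB : x ∈ Bo F m := Uo_TI hF (fun h => hb0 h.2) he''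
      obtain ⟨c, d, t, rfl⟩ := (mem_Bo_iff hF hm).1 hxB
      rw [Bo_conj_center] at he''
      have hb'0 : b' ≠ 0 := by
        rintro rfl
        rw [mul_zero] at he''
        exact hb0 (tG_inj hF he'').2
      have hμ : szS F m t ^ 2 * (t : F) ^ 2 ∈ K := by
        have : szS F m t ^ 2 * (t : F) ^ 2 = b * b'⁻¹ := by
          rw [(tG_inj hF he'').2]
          field_simp
        rw [this]
        exact K.mul_mem hb (K.inv_mem hb')
      rw [Subgroup.mem_normalizer_iff]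
      intro h
      constructor
      · rintro ⟨y, hy, rfl⟩
        rw [Bo_conj_center]
        exact ⟨_, K.mul_mem hμ hy, rfl⟩
      · rintro ⟨y, hy, hh⟩
        have : h = (tG hF c d * dG hF t)⁻¹ * tG hF 0 y * (tG hF c d * dG hF t) := by
          rw [← hh]; group
        rw [this, Bo_conj_center']
        exact ⟨_, K.mul_mem (K.inv_mem hμ) hy, rfl⟩

end Cfsg.Agent.S2240
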