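import Cfsg.Statements.S2241
import Cfsg.Agent.Helper60.SzOvoid

set_option autoImplicit false
open Cfsg

namespace Cfsg.Agent.S2241

open Cfsg.Agent.Helper6 Cfsg.Agent.Helper60 in
/-- Real 2-elements of the Suzuki group: with q = 2^(2m+1), m ≥ 1, and the group realised as the stabiliser in SL₄ of the Suzuki–Tits ovoid, a non-identity element of a Sylow 2-subgroup is conjugate to its inverse if and only if it is an involution; in particular no element of order 4 is conjugate to its inverse. -/
theorem result {F : Type*} [Field F] [Fintype F] {m : ℕ} (hm : 1 ≤ m) (hF : Fintype.card F = 2 ^ (2 * m + 1)) (P : Sylow 2 ↥(Cfsg.Sz F m)) (g : ↥(Cfsg.Sz F m)) (hg : g ∈ (P : Subgroup ↥(Cfsg.Sz F m))) (h1 : g ≠ 1) :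
    IsConj g g⁻¹ ↔ orderOf g = 2 := by
  haveI := sz_charP hF
  constructor
  · intro hc
    obtain ⟨c, hcP⟩ := MulAction.exists_smul_eq ↥(Cfsg.Sz F m) (UoSylow hF hm) P
    subst hcP
    rw [Sylow.coe_subgroup_smul, coe_UoSylow, Subgroup.mem_pointwise_smul_iff_inv_smul_mem] at hg
    obtain ⟨a, b, hab⟩ := hg
    have hu : c⁻¹ * g * c = tG hF a b := by
      rw [← hab]
      simp [MulAut.smul_def]
    have hgu : g = c * tG hF a b * c⁻¹ := by rw [← hu]; group
    obtain ⟨k, hk⟩ := isConj_iff.1 hc
    have hne : ¬ (a = 0 ∧ b = 0) := by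
      rintro ⟨rfl, rfl⟩
      rw [tG_zero] at hgu
      apply h1
      rw [hgu]; group
    have hconj : (c⁻¹ * k * c) * tG hF a b * (c⁻¹ * k * c)⁻¹ = (tG hF a b)⁻¹ := by
      rw [← hu]
      have : c⁻¹ * k * c * (c⁻¹ * g * c) * (c⁻¹ * k * c)⁻¹ = c⁻¹ * (k * g * k⁻¹) * c := by group
      rw [this, hk]; group
    have ha := ov_real hF hm hconj hne
    subst ha
    have hsq : g ^ 2 = 1 := by
      have h2 : (2 : F) = 0 := sz_two
      have : tG hF (0 : F) b * tG hF 0 b = 1 := by
        rw [tG_mul, ← tG_zero hF]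
        congr 1
        · simp
        · rw [map_zero]; linear_combination b * h2
      rw [hgu, pow_two]
      have e : c * tG hF 0 b * c⁻¹ * (c * tG hF 0 b * c⁻¹) = c * (tG hF 0 b * tG hF 0 b) * c⁻¹ := by
        group
      rw [e, this]; group
    exact orderOf_eq_prime hsq h1
  · intro h
    have hsq : g * g = 1 := by
      have := pow_orderOf_eq_one g
      rw [h, pow_two] at this
      exact this
    rw [inv_eq_of_mul_eq_one_right hsq]

end Cfsg.Agent.S2241
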