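import Cfsg.Statements.S2249
import Cfsg.Agent.Helper21.N2RMain

set_option autoImplicit false
open Cfsg

namespace Cfsg.Agent.S2249

/-- The normal 2-rank of the general linear group over a finite field of odd order q: for n ≥ 1 and S a Sylow 2-subgroup of GL_n(F), the largest rank of an elementary abelian subgroup of S that is normal in S equals n when q ≡ 1 (mod 4) and ⌊(n + 1)/2⌋ when q ≡ 3 (mod 4). -/
theorem result {F : Type*} [Field F] [Fintype F] {q : ℕ} (hF : Fintype.card F = q) (hodd : Odd q) (n : ℕ) (hn : 1 ≤ n) (S : Sylow 2 (Matrix.GeneralLinearGroup (Fin n) F)) :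
    (q % 4 = 1 → ((∃ E : Subgroup ↥(S : Subgroup (Matrix.GeneralLinearGroup (Fin n) F)), E.Normal ∧ Cfsg.IsElementaryAbelian 2 E ∧ 2 ^ (n) ≤ Nat.card ↥E) ∧
      ∀ E : Subgroup ↥(S : Subgroup (Matrix.GeneralLinearGroup (Fin n) F)), E.Normal → Cfsg.IsElementaryAbelian 2 E → Nat.card ↥E ≤ 2 ^ (n))) ∧
    (q % 4 = 3 → ((∃ E : Subgroup ↥(S : Subgroup (Matrix.GeneralLinearGroup (Fin n) F)), E.Normal ∧ Cfsg.IsElementaryAbelian 2 E ∧ 2 ^ ((n + 1) / 2) ≤ Nat.card ↥E) ∧
      ∀ E : Subgroup ↥(S : Subgroup (Matrix.GeneralLinearGroup (Fin n) F)), E.Normal → Cfsg.IsElementaryAbelian 2 E → Nat.card ↥E ≤ 2 ^ ((n + 1) / 2))) := by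
  have h2 : (2 : F) ≠ 0 := by
    apply Ring.two_ne_zero
    intro hc
    have h := FiniteField.even_card_iff_char_two.mp hc
    rw [hF] at h
    obtain ⟨k, hk⟩ := hodd
    omega
  refine ⟨fun hq1 => ?_, fun hq3 => ?_⟩
  · obtain ⟨y, hy⟩ : IsSquare (-1 : F) :=
      FiniteField.isSquare_neg_one_iff.mpr (by rw [hF]; omega)
    have hy0 : y ≠ 0 := by
      rintro rfl
      simp at hy
    have hι : (Units.mk0 y hy0) ^ 2 = -1 := by
      apply Units.ext
      simp only [Units.val_pow_eq_pow_val, Units.val_mk0, Units.val_neg, Units.val_one]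
      rw [sq]
      exact hy.symm
    exact Cfsg.Agent.Helper21.N2R.case1 h2 (Units.mk0 y hy0) hι n S
  · have hns : ∀ y : F, y * y ≠ -1 := by
      intro y hy
      exact (FiniteField.isSquare_neg_one_iff (F := F)).mp ⟨y, hy.symm⟩ (by rw [hF]; exact hq3)
    obtain ⟨x, hx⟩ := Cfsg.Agent.Helper31.N2RX.exists_four_mul_pow_four (F := F)
      (by rw [hF]; exact hq3)
    exact Cfsg.Agent.Helper21.N2R.case3 h2 hns x hx n S

end Cfsg.Agent.S2249
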