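import Cfsg.Statements.S2254
import Cfsg.Agent.Helper37.NilSym2
-- import your own Cfsg.Agent.* helpers here

set_option autoImplicit false
open Cfsg

namespace Cfsg.Agent.S2254

/-- Let n ≡ 3 (mod 4). Then every nilpotent subgroup of the symmetric group on n letters has order at most 3 times the order of a Sylow 2-subgroup of the symmetric group on n − 3 letters; the bound is attained by a nilpotent subgroup isomorphic to the direct product of such a Sylow 2-subgroup with a cyclic group of order 3; and any two nilpotent subgroups attaining the bound are conjugate. -/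
theorem result  (n : ℕ) (hn : n % 4 = 3)
    (P : Sylow 2 (Equiv.Perm (Fin (n - 3)))) :
    (∀ N : Subgroup (Equiv.Perm (Fin n)), Group.IsNilpotent N → Nat.card N ≤ 3 * Nat.card P) ∧
    (∃ M : Subgroup (Equiv.Perm (Fin n)), Group.IsNilpotent M ∧ Nat.card M = 3 * Nat.card P ∧
      Nonempty (M ≃* (↥(P : Subgroup (Equiv.Perm (Fin (n - 3)))) × Multiplicative (ZMod 3)))) ∧
    (∀ N₁ N₂ : Subgroup (Equiv.Perm (Fin n)), Group.IsNilpotent N₁ → Group.IsNilpotent N₂ →
      Nat.card N₁ = 3 * Nat.card P → Nat.card N₂ = 3 * Nat.card P →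
      ∃ g : Equiv.Perm (Fin n), N₂ = N₁.map (MulAut.conj g).toMonoidHom) := by
  haveI : Fact (Nat.Prime 2) := ⟨Nat.prime_two⟩
  haveI : Fact (Nat.Prime 3) := ⟨Nat.prime_three⟩
  have hcardP : Nat.card P = 2 ^ Cfsg.Agent.Helper37.hh (n - 3) := by
    rw [Sylow.card_eq_multiplicity P, Nat.card_perm, Nat.card_fin,
      Nat.factorization_def _ Nat.prime_two]
    rfl
  have hgg : Cfsg.Agent.Helper37.gg n = 3 * 2 ^ Cfsg.Agent.Helper37.hh (n - 3) := by
    unfold Cfsg.Agent.Helper37.gg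
    rw [hn]
    have h1 := Cfsg.Agent.Helper37.hh_four (n - 3)
    have h2 : (n - 3) / 4 = n / 4 := by omega
    have h3 : (n - 3) % 4 = 0 := by omega
    rw [h2, h3] at h1
    simp only [show ¬ (2 ≤ 0) by norm_num, if_false, add_zero] at h1
    rw [h1]
    rfl
  have hstep : 6 ≤ n → Cfsg.Agent.Helper37.hh (n - 4) < Cfsg.Agent.Helper37.hh (n - 3) := by
    intro h6
    have h1 := Cfsg.Agent.Helper37.hh_pred (n := n - 3) (by omega)
    have h2 : n - 3 - 1 = n - 4 := by omega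
    rw [h2] at h1
    have h3 : 1 ≤ padicValNat 2 (n - 3) :=
      one_le_padicValNat_of_dvd (by omega) (by omega)
    omega
  refine ⟨?_, ?_, ?_⟩
  · intro N hN
    have h1 := Cfsg.Agent.Helper37.nilpotent_card_le n (Fin n) (by simp) N hN
    rw [hgg] at h1
    rw [hcardP]
    exact h1
  · have hn3 : n - 3 + 3 = n := by omega
    let e : Fin (n - 3) ⊕ Fin 3 ≃ Fin n := finSumFinEquiv.trans (finCongr hn3)
    let Ψ : Equiv.Perm (Fin (n - 3)) × Equiv.Perm (Fin 3) →* Equiv.Perm (Fin n) :=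
      (e.permCongrHom.toMonoidHom).comp (Equiv.Perm.sumCongrHom (Fin (n - 3)) (Fin 3))
    have hΨ : Function.Injective Ψ :=
      e.permCongrHom.injective.comp Equiv.Perm.sumCongrHom_injective
    let c₀ : Equiv.Perm (Fin 3) := finRotate 3
    have hc₀ : orderOf c₀ = 3 := by
      apply orderOf_eq_prime
      · decide
      · decide
    let M₀ : Subgroup (Equiv.Perm (Fin (n - 3)) × Equiv.Perm (Fin 3)) :=
      (P : Subgroup (Equiv.Perm (Fin (n - 3)))).prod (Subgroup.zpowers c₀)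
    have hz3 : Nat.card (Subgroup.zpowers c₀) = 3 := by
      rw [Nat.card_zpowers, hc₀]
    have iso3 : ↥(Subgroup.zpowers c₀) ≃* Multiplicative (ZMod 3) :=
      mulEquivOfCyclicCardEq (by
        rw [hz3]
        simp)
    have iso : ↥(M₀.map Ψ) ≃* (↥(P : Subgroup (Equiv.Perm (Fin (n - 3)))) ×
        Multiplicative (ZMod 3)) :=
      ((M₀.equivMapOfInjective Ψ hΨ).symm.trans (Subgroup.prodEquiv _ _)).trans
        (MulEquiv.prodCongr (MulEquiv.refl _) iso3)
    refine ⟨M₀.map Ψ, ?_, ?_, ⟨iso⟩⟩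
    · haveI : Group.IsNilpotent ↥(P : Subgroup (Equiv.Perm (Fin (n - 3)))) :=
        IsPGroup.isNilpotent P.isPGroup'
      haveI : Group.IsNilpotent (Multiplicative (ZMod 3)) := CommGroup.isNilpotent
      exact Group.nilpotent_of_mulEquiv iso.symm
    · rw [Nat.card_congr iso.toEquiv, Nat.card_prod]
      simp [mul_comm]
  · intro N₁ N₂ hN₁ hN₂ hc₁ hc₂
    haveI := hN₁
    haveI := hN₂
    rw [hcardP] at hc₁ hc₂
    obtain ⟨A₁, c₁, -, -, hA₁, hcA₁, ho₁, hcomm₁, hsup₁⟩ :=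
      Cfsg.Agent.Helper37.nil_normal_form N₁ _ hc₁
    obtain ⟨A₂, c₂, -, -, hA₂, hcA₂, ho₂, hcomm₂, hsup₂⟩ :=
      Cfsg.Agent.Helper37.nil_normal_form N₂ _ hc₂
    have h3c₁ := Cfsg.Agent.Helper37.isThreeCycle_of_centralizer c₁ ho₁ A₁ _ hcA₁ hstep hcomm₁
    have h3c₂ := Cfsg.Agent.Helper37.isThreeCycle_of_centralizer c₂ ho₂ A₂ _ hcA₂ hstep hcomm₂
    have hf₁ : ∀ x ∈ A₁, ∀ y, c₁ y ≠ y → x y = y := by
      intro x hx y hy
      obtain ⟨k, hk⟩ := hA₁ ⟨x, hx⟩
      have hk' : x ^ (2 ^ k) = 1 := congrArg Subtype.val hk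
      exact Cfsg.Agent.Helper37.fixes_support_of_commute c₁ h3c₁ x k hk' (hcomm₁ x hx) y hy
    have hf₂ : ∀ x ∈ A₂, ∀ y, c₂ y ≠ y → x y = y := by
      intro x hx y hy
      obtain ⟨k, hk⟩ := hA₂ ⟨x, hx⟩
      have hk' : x ^ (2 ^ k) = 1 := congrArg Subtype.val hk
      exact Cfsg.Agent.Helper37.fixes_support_of_commute c₂ h3c₂ x k hk' (hcomm₂ x hx) y hy
    obtain ⟨g, hg, hgc⟩ := Cfsg.Agent.Helper37.conj_of_pairs A₁ A₂ c₁ c₂ h3c₁ h3c₂ hA₁ hA₂
      hcA₁ hcA₂ hf₁ hf₂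
    refine ⟨g, ?_⟩
    rw [hsup₂, hsup₁, Subgroup.map_sup, ← hg, MonoidHom.map_zpowers]
    congr 2
    exact hgc.symm

end Cfsg.Agent.S2254
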