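import Cfsg.Statements.S2255
import Cfsg.Agent.Helper37.NilAlt
-- import your own Cfsg.Agent.* helpers here

set_option autoImplicit false
open Cfsg

namespace Cfsg.Agent.S2255

/-- Let n be a natural number not congruent to 3 modulo 4, with n ∉ {5, 6, 9}. Then every nilpotent subgroup of the alternating group on n letters has order at most the order of a Sylow 2-subgroup of the alternating group (so the nilpotent subgroups of largest order are exactly the Sylow 2-subgroups). -/
theorem result  (n : ℕ) (hn : n % 4 ≠ 3)
    (h5 : n ≠ 5) (h6 : n ≠ 6) (h9 : n ≠ 9)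
    (N : Subgroup (alternatingGroup (Fin n))) (hN : Group.IsNilpotent N)
    (P : Sylow 2 (alternatingGroup (Fin n))) :
    Nat.card N ≤ Nat.card P := by
  have h1 := Cfsg.Agent.Helper37.alt_subgroup_card_le n N hN
  refine h1.trans ?_
  by_cases hn1 : n ≤ 1
  · have : Cfsg.Agent.Helper37.ga n = 1 := by
      unfold Cfsg.Agent.Helper37.ga
      rw [if_pos hn1]
    rw [this]
    exact Nat.card_pos
  · have h2 : 2 ≤ n := by omega
    have h3 : n ≠ 3 := by
      rintro rfl
      exact hn (by norm_num)
    have e1 := Cfsg.Agent.Helper37.two_mul_ga h2 h3 h5 h6 h9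
    have e2 := Cfsg.Agent.Helper37.gg_eq_of_ne hn
    have e3 := Cfsg.Agent.Helper37.card_sylow_alt n h2 P
    omega

end Cfsg.Agent.S2255
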