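import Cfsg.Statements.S2256
import Cfsg.Agent.Helper37.NilAlt2
-- import your own Cfsg.Agent.* helpers here

set_option autoImplicit false
open Cfsg

namespace Cfsg.Agent.S2256

/-- Let n ≡ 3 (mod 4) with n ≥ 7. Then every nilpotent subgroup of the alternating group on n letters has order at most 3 times the order of a Sylow 2-subgroup of the alternating group on n − 3 letters; the bound is attained by a nilpotent subgroup isomorphic to the direct product of such a Sylow 2-subgroup with a cyclic group of order 3; and any two nilpotent subgroups of the alternating group attaining the bound are conjugate in it. -/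
theorem result  (n : ℕ) (hn : n % 4 = 3) (h7 : 7 ≤ n)
    (P : Sylow 2 (alternatingGroup (Fin (n - 3)))) :
    (∀ N : Subgroup (alternatingGroup (Fin n)), Group.IsNilpotent N → Nat.card N ≤ 3 * Nat.card P) ∧
    (∃ M : Subgroup (alternatingGroup (Fin n)), Group.IsNilpotent M ∧ Nat.card M = 3 * Nat.card P ∧
      Nonempty (M ≃* (↥(P : Subgroup (alternatingGroup (Fin (n - 3)))) × Multiplicative (ZMod 3)))) ∧
    (∀ N₁ N₂ : Subgroup (alternatingGroup (Fin n)), Group.IsNilpotent N₁ → Group.IsNilpotent N₂ →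
      Nat.card N₁ = 3 * Nat.card P → Nat.card N₂ = 3 * Nat.card P →
      ∃ g : alternatingGroup (Fin n), N₂ = N₁.map (MulAut.conj g).toMonoidHom) := by
  haveI : Fact (Nat.Prime 2) := ⟨Nat.prime_two⟩
  haveI : Fact (Nat.Prime 3) := ⟨Nat.prime_three⟩
  have hcardP2 := Cfsg.Agent.Helper37.card_sylow_alt (n - 3) (by omega) P
  have hgg : Cfsg.Agent.Helper37.gg n = 3 * 2 ^ Cfsg.Agent.Helper37.hh (n - 3) := by
    unfold Cfsg.Agent.Helper37.gg
    rw [hn]
    have h1 := Cfsg.Agent.Helper37.hh_four (n - 3)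
    have h2 : (n - 3) / 4 = n / 4 := by omega
    have h3 : (n - 3) % 4 = 0 := by omega
    rw [h2, h3] at h1
    simp only [show ¬ (2 ≤ 0) by norm_num, if_false, add_zero] at h1
    rw [h1]
    rfl
  have hpv : 2 ≤ padicValNat 2 (n - 3) := by
    have h4 : 2 ^ 2 ∣ n - 3 := by
      norm_num
      omega
    exact (padicValNat_dvd_iff_le (by omega)).mp h4
  have hpred := Cfsg.Agent.Helper37.hh_pred (n := n - 3) (by omega)
  have h2' : n - 3 - 1 = n - 4 := by omega
  rw [h2'] at hpred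
  obtain ⟨a, ha⟩ : ∃ a, Cfsg.Agent.Helper37.hh (n - 3) = a + 1 :=
    ⟨Cfsg.Agent.Helper37.hh (n - 3) - 1, by omega⟩
  have hcardP : Nat.card P = 2 ^ a := by
    rw [ha, pow_succ] at hcardP2
    exact Nat.eq_of_mul_eq_mul_right (by norm_num) hcardP2
  have hstep : 6 ≤ n → Cfsg.Agent.Helper37.hh (n - 4) < a := by
    intro _
    omega
  refine ⟨?_, ?_, ?_⟩
  · intro N hN
    have h1 := Cfsg.Agent.Helper37.alt_subgroup_card_le n N hN
    have e1 := Cfsg.Agent.Helper37.two_mul_ga (n := n) (by omega) (by omega) (by omega)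
      (by omega) (by omega)
    rw [hgg, ha, pow_succ] at e1
    rw [hcardP]
    omega
  · have hn3 : n - 3 + 3 = n := by omega
    let e : Fin (n - 3) ⊕ Fin 3 ≃ Fin n := finSumFinEquiv.trans (finCongr hn3)
    let Ψ : Equiv.Perm (Fin (n - 3)) × Equiv.Perm (Fin 3) →* Equiv.Perm (Fin n) :=
      (e.permCongrHom.toMonoidHom).comp (Equiv.Perm.sumCongrHom (Fin (n - 3)) (Fin 3))
    have hΨ : Function.Injective Ψ :=
      e.permCongrHom.injective.comp Equiv.Perm.sumCongrHom_injective
    let c₀ : Equiv.Perm (Fin 3) := finRotate 3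
    have hc₀ : orderOf c₀ = 3 := by
      apply orderOf_eq_prime
      · decide
      · decide
    let P' : Subgroup (Equiv.Perm (Fin (n - 3))) :=
      (P : Subgroup (alternatingGroup (Fin (n - 3)))).map
        (alternatingGroup (Fin (n - 3))).subtype
    let M₀ : Subgroup (Equiv.Perm (Fin (n - 3)) × Equiv.Perm (Fin 3)) :=
      P'.prod (Subgroup.zpowers c₀)
    have hz3 : Nat.card (Subgroup.zpowers c₀) = 3 := by
      rw [Nat.card_zpowers, hc₀]
    have iso3 : ↥(Subgroup.zpowers c₀) ≃* Multiplicative (ZMod 3) :=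
      mulEquivOfCyclicCardEq (by
        rw [hz3]
        simp)
    have isoP : ↥P' ≃* ↥(P : Subgroup (alternatingGroup (Fin (n - 3)))) :=
      ((P : Subgroup (alternatingGroup (Fin (n - 3)))).equivMapOfInjective _
        (Subgroup.subtype_injective _)).symm
    have hle : M₀.map Ψ ≤ alternatingGroup (Fin n) := by
      rintro _ ⟨⟨x, y⟩, hxy, rfl⟩
      obtain ⟨hx, hy⟩ := Subgroup.mem_prod.mp hxy
      obtain ⟨x', -, rfl⟩ := hx
      rw [Equiv.Perm.mem_alternatingGroup]
      have hy' : Equiv.Perm.sign y = 1 := by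
        have h3 : Subgroup.zpowers c₀ ≤ alternatingGroup (Fin 3) := by
          rw [Subgroup.zpowers_le, Equiv.Perm.mem_alternatingGroup]
          show Equiv.Perm.sign (finRotate 3) = 1
          decide
        exact Equiv.Perm.mem_alternatingGroup.mp (h3 hy)
      have hx' : Equiv.Perm.sign x'.1 = 1 := Equiv.Perm.mem_alternatingGroup.mp x'.2
      show Equiv.Perm.sign (e.permCongr (Equiv.Perm.sumCongr x'.1 y)) = 1
      rw [Equiv.Perm.sign_permCongr, Equiv.Perm.sign_sumCongr, hx', hy', mul_one]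
    have iso : ↥((M₀.map Ψ).subgroupOf (alternatingGroup (Fin n))) ≃*
        (↥(P : Subgroup (alternatingGroup (Fin (n - 3)))) × Multiplicative (ZMod 3)) :=
      (((Subgroup.subgroupOfEquivOfLe hle).trans (M₀.equivMapOfInjective Ψ hΨ).symm).trans
        (Subgroup.prodEquiv _ _)).trans (MulEquiv.prodCongr isoP iso3)
    refine ⟨(M₀.map Ψ).subgroupOf (alternatingGroup (Fin n)), ?_, ?_, ⟨iso⟩⟩
    · haveI : Group.IsNilpotent ↥(P : Subgroup (alternatingGroup (Fin (n - 3)))) :=
        IsPGroup.isNilpotent P.isPGroup'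
      haveI : Group.IsNilpotent (Multiplicative (ZMod 3)) := CommGroup.isNilpotent
      exact Group.nilpotent_of_mulEquiv iso.symm
    · rw [Nat.card_congr iso.toEquiv, Nat.card_prod]
      simp [mul_comm]
  · intro N₁ N₂ hN₁ hN₂ hc₁ hc₂
    haveI := hN₁
    haveI := hN₂
    rw [hcardP] at hc₁ hc₂
    have hinj := Subgroup.subtype_injective (alternatingGroup (Fin n))
    haveI : Group.IsNilpotent (N₁.map (alternatingGroup (Fin n)).subtype) :=
      Group.nilpotent_of_mulEquiv (N₁.equivMapOfInjective _ hinj)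
    haveI : Group.IsNilpotent (N₂.map (alternatingGroup (Fin n)).subtype) :=
      Group.nilpotent_of_mulEquiv (N₂.equivMapOfInjective _ hinj)
    have hc₁' : Nat.card (N₁.map (alternatingGroup (Fin n)).subtype) = 3 * 2 ^ a := by
      rw [Subgroup.card_map_of_injective hinj, hc₁]
    have hc₂' : Nat.card (N₂.map (alternatingGroup (Fin n)).subtype) = 3 * 2 ^ a := by
      rw [Subgroup.card_map_of_injective hinj, hc₂]
    obtain ⟨A₁, c₁, hAN₁, -, hA₁, hcA₁, ho₁, hcomm₁, hsup₁⟩ :=
      Cfsg.Agent.Helper37.nil_normal_form (N₁.map (alternatingGroup (Fin n)).subtype) _ hc₁'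
    obtain ⟨A₂, c₂, hAN₂, -, hA₂, hcA₂, ho₂, hcomm₂, hsup₂⟩ :=
      Cfsg.Agent.Helper37.nil_normal_form (N₂.map (alternatingGroup (Fin n)).subtype) _ hc₂'
    have h3c₁ := Cfsg.Agent.Helper37.isThreeCycle_of_centralizer c₁ ho₁ A₁ _ hcA₁ hstep hcomm₁
    have h3c₂ := Cfsg.Agent.Helper37.isThreeCycle_of_centralizer c₂ ho₂ A₂ _ hcA₂ hstep hcomm₂
    have hf₁ : ∀ x ∈ A₁, ∀ y, c₁ y ≠ y → x y = y := by
      intro x hx y hy
      obtain ⟨k, hk⟩ := hA₁ ⟨x, hx⟩
      have hk' : x ^ (2 ^ k) = 1 := congrArg Subtype.val hk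
      exact Cfsg.Agent.Helper37.fixes_support_of_commute c₁ h3c₁ x k hk' (hcomm₁ x hx) y hy
    have hf₂ : ∀ x ∈ A₂, ∀ y, c₂ y ≠ y → x y = y := by
      intro x hx y hy
      obtain ⟨k, hk⟩ := hA₂ ⟨x, hx⟩
      have hk' : x ^ (2 ^ k) = 1 := congrArg Subtype.val hk
      exact Cfsg.Agent.Helper37.fixes_support_of_commute c₂ h3c₂ x k hk' (hcomm₂ x hx) y hy
    have hK : ∀ N : Subgroup (alternatingGroup (Fin n)),
        N.map (alternatingGroup (Fin n)).subtype ≤ alternatingGroup (Fin n) := by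
      rintro N _ ⟨y, -, rfl⟩
      exact y.2
    obtain ⟨g, hgK, hg, hgc⟩ := Cfsg.Agent.Helper37.conj_of_pairs_alt (by omega) A₁ A₂ c₁ c₂
      h3c₁ h3c₂ hA₁ hA₂ (hAN₁.trans (hK N₁)) (hAN₂.trans (hK N₂))
      (by rw [hcA₁, ha, pow_succ]) (by rw [hcA₂, ha, pow_succ]) hf₁ hf₂
    refine ⟨⟨g, hgK⟩, Cfsg.Agent.Helper37.conj_of_map_subtype _ N₁ N₂ g hgK ?_⟩
    rw [hsup₂, hsup₁, Subgroup.map_sup, ← hg, MonoidHom.map_zpowers]
    congr 2
    exact hgc.symm

end Cfsg.Agent.S2256
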