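import Cfsg.Statements.S2257
import Cfsg.Agent.Helper40.SolEven

set_option autoImplicit false
open Cfsg

namespace Cfsg.Agent.S2257

/-- Let G = PSL_2(F) with F a field of order q = 2^p, p prime, and for x ∈ G call the solubilizer of x the set of y ∈ G such that x and y generate a solvable subgroup. Then the solubilizer of an involution has 3q(q − 1) elements; that of a non-identity element of order dividing q − 1 has 2q(q − 1) elements; and that of a non-identity element of order dividing q + 1 has 2(q + 1) elements. -/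
theorem result (p : ℕ) (hp : p.Prime) {F : Type*} [Field F] [Fintype F]
    (hF : Fintype.card F = 2 ^ p) (x : Matrix.ProjectiveSpecialLinearGroup (Fin 2) F) :
    (orderOf x = 2 → Nat.card {y : Matrix.ProjectiveSpecialLinearGroup (Fin 2) F // Group.IsSolvable ↥(Subgroup.closure ({x, y} : Set (Matrix.ProjectiveSpecialLinearGroup (Fin 2) F)))} = 3 * 2 ^ p * (2 ^ p - 1)) ∧
    (x ≠ 1 → orderOf x ∣ 2 ^ p - 1 → Nat.card {y : Matrix.ProjectiveSpecialLinearGroup (Fin 2) F // Group.IsSolvable ↥(Subgroup.closure ({x, y} : Set (Matrix.ProjectiveSpecialLinearGroup (Fin 2) F)))} = 2 * 2 ^ p * (2 ^ p - 1)) ∧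
    (x ≠ 1 → orderOf x ∣ 2 ^ p + 1 → Nat.card {y : Matrix.ProjectiveSpecialLinearGroup (Fin 2) F // Group.IsSolvable ↥(Subgroup.closure ({x, y} : Set (Matrix.ProjectiveSpecialLinearGroup (Fin 2) F)))} = 2 * (2 ^ p + 1)) := by
  classical
  have h2 : (2 : F) = 0 := by
    apply Cfsg.Agent.Helper40.PSL2Sub.two_eq_zero_of_ringChar
    rw [FiniteField.even_card_iff_char_two]
    obtain ⟨k, -, hk2⟩ := Cfsg.Agent.Helper40.SolEven.two_pow_split p hp
    rw [hF, hk2]
    exact Nat.mul_mod_right 2 k
  have hinj := Cfsg.Agent.Helper40.PSL2Sub.pr_injective_of_two h2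
  have hsurj : Function.Surjective (Cfsg.Agent.Helper44.pr (F := F)) :=
    Cfsg.Agent.Helper44.pr_surjective
  obtain ⟨e, -⟩ : ∃ e : Matrix.SpecialLinearGroup (Fin 2) F ≃*
      Matrix.ProjectiveSpecialLinearGroup (Fin 2) F, ∀ g, e g = Cfsg.Agent.Helper44.pr g :=
    ⟨MulEquiv.ofBijective Cfsg.Agent.Helper44.pr ⟨hinj, hsurj⟩, fun g => rfl⟩
  have key := Cfsg.Agent.Helper40.SolEven.sol_count h2 p hp hF (e.symm x)
  have hc := Cfsg.Agent.Helper40.SolEven.sol_card_equiv e.symm x
  have ho : orderOf (e.symm x) = orderOf x := MulEquiv.orderOf_eq e.symm x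
  have h1 : e.symm x = 1 ↔ x = 1 := by
    constructor
    · intro h
      have := congrArg e h
      rwa [MulEquiv.apply_symm_apply, map_one] at this
    · rintro rfl
      exact map_one _
  rw [hc]
  rw [ho] at key
  exact ⟨key.1, fun hx => key.2.1 (fun h => hx (h1.mp h)), fun hx => key.2.2 (fun h => hx (h1.mp h))⟩

end Cfsg.Agent.S2257
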