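import Cfsg.Statements.S2268

set_option autoImplicit false
open Cfsg

namespace Cfsg.Agent.S2268

open Subgroup in
theorem frattini_aux {G : Type*} [Group G] [Finite G] {p : ℕ} [Fact p.Prime]
    (P : Sylow p G) (hP : IsMulCommutative (P : Subgroup G)) (Q : Subgroup G) (hQ : Q ≤ (P : Subgroup G))
    (g : G) (hg : g ∈ normalizer (Q : Set G)) :
    ∃ c ∈ centralizer (Q : Set G), c * g ∈ normalizer ((P : Subgroup G) : Set G) := by
  have hPC : (P : Subgroup G) ≤ centralizer (Q : Set G) := by
    intro x hx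
    rw [mem_centralizer_iff]
    intro y hy
    have := hP.is_comm.comm (⟨y, hQ hy⟩ : (P : Subgroup G)) ⟨x, hx⟩
    exact congrArg Subtype.val this
  have h2 : ↑(g • P) ≤ centralizer (Q : Set G) := by
    intro x hx
    rw [Sylow.smul_def, Sylow.pointwise_smul_def] at hx
    obtain ⟨z, hz, rfl⟩ := hx
    rw [mem_centralizer_iff]
    intro y hy
    -- y ∈ Q, want y * (g z g⁻¹) = (g z g⁻¹) * y
    have hy' : g⁻¹ * y * g ∈ Q := by
      have := (mem_normalizer_iff''.mp hg) y
      exact this.mp hy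
    have hz' := (mem_centralizer_iff.mp (hPC hz)) (g⁻¹ * y * g) hy'
    simp only [MulAut.smul_def, MulAut.conj_apply, MulDistribMulAction.toMonoidEnd_apply,
      MulDistribMulAction.toMonoidHom_apply]
    calc y * (g * z * g⁻¹) = g * ((g⁻¹ * y * g) * z) * g⁻¹ := by group
      _ = g * (z * (g⁻¹ * y * g)) * g⁻¹ := by rw [hz']
      _ = g * z * g⁻¹ * y := by group
  obtain ⟨h, hh⟩ :=
    MulAction.exists_smul_eq (centralizer (Q : Set G)) ((g • P).subtype h2) (P.subtype hPC)
  simp_rw [Sylow.smul_subtype, Subgroup.smul_def, smul_smul] at hh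
  exact ⟨h, h.2, Sylow.smul_eq_iff_mem_normalizer.mp (Sylow.subtype_injective hh)⟩

/-- Let G be a finite group with an abelian Sylow p-subgroup P and let Q ≤ P. Then N_G(Q) = (N_G(Q) ∩ N_G(P))·C_G(Q), so that N_G(Q)/C_G(Q) is a homomorphic image of the subgroup (N_G(Q) ∩ N_G(P))/C_G(P) of N_G(P)/C_G(P); in particular the order of N_G(Q)/C_G(Q) divides the order of N_G(P)/C_G(P). -/
theorem result {G : Type*} [Group G] [Finite G] {p : ℕ} [Fact p.Prime]
    (P : Sylow p G) (hP : IsMulCommutative (P : Subgroup G)) (Q : Subgroup G) (hQ : Q ≤ (P : Subgroup G)) :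
    Subgroup.normalizer (Q : Set G) =
      (Subgroup.normalizer (Q : Set G) ⊓ Subgroup.normalizer ((P : Subgroup G) : Set G)) ⊔ Subgroup.centralizer (Q : Set G) ∧
    ((Subgroup.centralizer (Q : Set G)).subgroupOf (Subgroup.normalizer (Q : Set G))).index ∣ ((Subgroup.centralizer ((P : Subgroup G) : Set G)).subgroupOf (Subgroup.normalizer ((P : Subgroup G) : Set G))).index := by
  set NQ := Subgroup.normalizer (Q : Set G) with hNQ
  set NP := Subgroup.normalizer ((P : Subgroup G) : Set G) with hNP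
  set CQ := Subgroup.centralizer (Q : Set G) with hCQ
  set CP := Subgroup.centralizer ((P : Subgroup G) : Set G) with hCP
  have hCQN : CQ ≤ NQ := Subgroup.centralizer_le_normalizer _
  have hCPN : CP ≤ NP := Subgroup.centralizer_le_normalizer _
  have hCPQ : CP ≤ CQ := Subgroup.centralizer_le hQ
  have h1 : NQ = (NQ ⊓ NP) ⊔ CQ := by
    apply le_antisymm
    · intro g hg
      obtain ⟨c, hc, hcg⟩ := frattini_aux P hP Q hQ g hg
      have : g = c⁻¹ * (c * g) := by group
      rw [this, sup_comm]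
      apply Subgroup.mul_mem_sup (CQ.inv_mem hc)
      exact ⟨NQ.mul_mem (hCQN hc) hg, hcg⟩
    · exact sup_le inf_le_left hCQN
  refine ⟨h1, ?_⟩
  set A := NQ ⊓ NP with hA
  have hANQ : A ≤ NQ := inf_le_left
  have hANP : A ≤ NP := inf_le_right
  -- step 1
  have s1 : (CQ.subgroupOf NQ).index = CQ.relIndex A := by
    have e1 : (A.subgroupOf NQ) ⊔ (CQ.subgroupOf NQ) = ⊤ := by
      rw [← Subgroup.subgroupOf_sup hANQ hCQN, ← h1, Subgroup.subgroupOf_self]
    have e2 := Subgroup.relIndex_sup_right (H := A.subgroupOf NQ) (K := CQ.subgroupOf NQ)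
    rw [e1, Subgroup.relIndex_top_right] at e2
    rw [e2, Subgroup.relIndex_subgroupOf hANQ]
  have s2 : CQ.relIndex A ∣ CP.relIndex A := Subgroup.relIndex_dvd_of_le_left A hCPQ
  have s3 : CP.relIndex A ∣ (CP.subgroupOf NP).index := by
    have := Subgroup.relIndex_dvd_index_of_normal (H := CP.subgroupOf NP) (K := A.subgroupOf NP)
    rwa [Subgroup.relIndex_subgroupOf hANP] at this
  rw [s1]
  exact s2.trans s3

end Cfsg.Agent.S2268
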