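import Cfsg.Statements.S2269

set_option autoImplicit false
open Cfsg

namespace Cfsg.Agent.S2269

open Equiv


open Subgroup in
/-- General: if `P` is an abelian Sylow `p`-subgroup, `x ∈ P`, `x` conjugate to `x⁻¹` in `G`, and `x^2 ≠ 1`,
then `N(P)/C(P)` has even order. -/
theorem even_index_of_conj_inv {G : Type*} [Group G] [Finite G] {p : ℕ} [Fact p.Prime]
    (P : Sylow p G) (hP : IsMulCommutative (P : Subgroup G)) (x : G) (hx : x ∈ (P : Subgroup G))
    (hconj : IsConj x x⁻¹) (hx2 : x ^ 2 ≠ 1) :
    2 ∣ ((centralizer ((P : Subgroup G) : Set G)).subgroupOf (normalizer ((P : Subgroup G) : Set G))).index := by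
  obtain ⟨g, hg⟩ := isConj_iff.mp hconj
  have hy : (g⁻¹)⁻¹ * x * g⁻¹ ∈ (P : Subgroup G) := by
    rw [inv_inv, hg]; exact inv_mem hx
  obtain ⟨n, hn, hn'⟩ := Sylow.conj_eq_normalizer_conj_of_mem P x g⁻¹ hx hy
  rw [inv_inv, hg] at hn'
  have hpow : ∀ k : ℕ, (n ^ k)⁻¹ * x * n ^ k = if Even k then x else x⁻¹ := by
    intro k
    induction k with
    | zero => simp
    | succ k ih =>
      have : (n ^ (k + 1))⁻¹ * x * n ^ (k + 1) = n⁻¹ * ((n ^ k)⁻¹ * x * n ^ k) * n := by
        rw [pow_succ]; group
      rw [this, ih]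
      by_cases hk : Even k
      · have hk' : ¬ Even (k + 1) := by
          rw [Nat.even_add_one]; simpa using hk
        simp [hk, hk', ← hn']
      · have hk' : Even (k + 1) := by
          rw [Nat.even_add_one]; exact hk
        simp only [hk, hk', if_false, if_true]
        have : n⁻¹ * x⁻¹ * n = (n⁻¹ * x * n)⁻¹ := by group
        rw [this, ← hn', inv_inv]
  set N := normalizer ((P : Subgroup G) : Set G) with hN
  set C := (centralizer ((P : Subgroup G) : Set G)).subgroupOf N with hC
  let q : N ⧸ C := QuotientGroup.mk (⟨n, hn⟩ : N)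
  have hdvd : orderOf q ∣ C.index := by
    rw [Subgroup.index_eq_card]
    exact orderOf_dvd_natCard q
  refine dvd_trans ?_ hdvd
  by_contra hodd
  have hk : ¬ Even (orderOf q) := fun h => hodd h.two_dvd
  have h1 : q ^ orderOf q = 1 := pow_orderOf_eq_one q
  have h2 : (⟨n, hn⟩ : N) ^ orderOf q ∈ C := by
    rw [← QuotientGroup.eq_one_iff, QuotientGroup.mk_pow]
    exact h1
  have h3 : n ^ orderOf q ∈ centralizer ((P : Subgroup G) : Set G) := by
    have h2' : (((⟨n, hn⟩ : N) ^ orderOf q : N) : G) ∈ centralizer ((P : Subgroup G) : Set G) :=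
      Subgroup.mem_subgroupOf.mp h2
    simpa using h2'
  have h4 := (mem_centralizer_iff.mp h3) x hx
  have h5 := hpow (orderOf q)
  simp only [hk, if_false] at h5
  have h6 : (n ^ orderOf q)⁻¹ * x * n ^ orderOf q = x := by
    rw [mul_assoc, h4, ← mul_assoc, inv_mul_cancel, one_mul]
  rw [h6] at h5
  apply hx2
  calc x ^ 2 = x * x := pow_two x
    _ = x * x⁻¹ := by rw [← h5]
    _ = 1 := mul_inv_cancel x

open Equiv in
/-- If the centralizer of `x` in `S_n` is not contained in `A_n`, then `x ∈ A_n` is conjugate in `A_n` to its inverse. -/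
theorem isConj_inv_of_centralizer {n : ℕ} (x : alternatingGroup (Fin n))
    (hc : ¬ Subgroup.centralizer ({(x : Perm (Fin n))} : Set (Perm (Fin n))) ≤ alternatingGroup (Fin n)) :
    IsConj x x⁻¹ := by
  have h1 : IsConj (x : Perm (Fin n)) (x : Perm (Fin n))⁻¹ := by
    rw [Equiv.Perm.isConj_iff_cycleType_eq, Equiv.Perm.cycleType_inv]
  obtain ⟨g, hg⟩ := isConj_iff.mp h1
  rw [SetLike.not_le_iff_exists] at hc
  obtain ⟨τ, hτ, hτ'⟩ := hc
  rw [Equiv.Perm.mem_alternatingGroup] at hτ'
  have hτs : Perm.sign τ = -1 := (Int.units_eq_one_or _).resolve_left hτ'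
  rw [Subgroup.mem_centralizer_singleton_iff] at hτ
  rw [isConj_iff]
  rcases Int.units_eq_one_or (Perm.sign g) with hs | hs
  · refine ⟨⟨g, Equiv.Perm.mem_alternatingGroup.mpr hs⟩, ?_⟩
    apply Subtype.ext
    show g * (x : Perm (Fin n)) * g⁻¹ = (x : Perm (Fin n))⁻¹
    exact hg
  · refine ⟨⟨g * τ, Equiv.Perm.mem_alternatingGroup.mpr (by rw [map_mul, hs, hτs]; simp)⟩, ?_⟩
    apply Subtype.ext
    have : g * τ * (x : Perm (Fin n)) * (g * τ)⁻¹ = g * (x : Perm (Fin n)) * g⁻¹ := by
      rw [mul_assoc g τ, hτ]; group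
    show g * τ * (x : Perm (Fin n)) * (g * τ)⁻¹ = (x : Perm (Fin n))⁻¹
    rw [this, hg]

open Equiv in
theorem centralizer_not_le (n p : ℕ) (hp : p.Prime) (hn : p + 2 ≤ n) (x : Perm (Fin n))
    (hx : orderOf x = p) :
    ¬ Subgroup.centralizer ({x} : Set (Perm (Fin n))) ≤ alternatingGroup (Fin n) := by
  intro h
  rw [Equiv.Perm.centralizer_le_alternating_iff] at h
  obtain ⟨-, h2, h3⟩ := h
  obtain ⟨k, hk⟩ := Equiv.Perm.cycleType_prime_order (σ := x) (by rw [hx]; exact hp)
  rw [hx] at hk
  have h4 := h3 p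
  rw [hk, Multiset.count_replicate_self] at h4
  have hk0 : k = 0 := by omega
  rw [hk, hk0] at h2
  simp at h2
  omega

theorem sq_not_dvd_factorial (n p : ℕ) (hp : p.Prime) (hn : n < 2 * p) : ¬ p ^ 2 ∣ n.factorial := by
  have h2 : 2 ≤ p := hp.two_le
  have hlog : Nat.log p n < 2 := by
    rcases Nat.eq_zero_or_pos n with h0 | h0
    · subst h0; simp
    · apply Nat.log_lt_of_lt_pow (by omega)
      nlinarith
  rw [hp.pow_dvd_factorial_iff hlog]
  have hI : Finset.Ico 1 2 = {1} := by decide
  rw [hI, Finset.sum_singleton, pow_one, not_le]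
  exact Nat.div_lt_of_lt_mul (by omega)




/-- an element of order 4 in `A_6` -/
def r0 : Perm (Fin 6) := swap 0 1 * swap 1 2 * swap 2 3 * swap 4 5
/-- an involution in `A_6` inverting `r0` -/
def s0 : Perm (Fin 6) := swap 0 2 * swap 4 5

theorem r0_sign : Perm.sign r0 = 1 := by decide
theorem s0_sign : Perm.sign s0 = 1 := by decide
theorem s0_r0 : s0 * r0 * s0⁻¹ = r0⁻¹ := by decide
theorem r0_pow : r0 ^ 4 = 1 := by decide
theorem s0_pow : s0 ^ 2 = 1 := by decide
theorem r0_s0 : r0 * s0 ≠ s0 * r0 := by decide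

theorem zpowers_isPGroup {G : Type*} [Group G] (p k : ℕ) (x : G) (hx : x ^ (p ^ k) = 1) :
    IsPGroup p (Subgroup.zpowers x) := by
  rintro ⟨g, hg⟩
  obtain ⟨j, rfl⟩ := Subgroup.mem_zpowers_iff.mp hg
  refine ⟨k, Subtype.ext ?_⟩
  show (x ^ j) ^ (p ^ k) = 1
  rw [← zpow_natCast, ← zpow_mul, mul_comm, zpow_mul, zpow_natCast, hx, one_zpow]

theorem not_comm_two (n : ℕ) (hn : 6 ≤ n) (P : Sylow 2 (alternatingGroup (Fin n)))
    (hP : IsMulCommutative (P : Subgroup (alternatingGroup (Fin n)))) : False := by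
  let φ : Perm (Fin 6) →* Perm (Fin n) := Equiv.Perm.extendDomainHom (Fin.castLEEmb hn).toEquivRange
  have hφinj : Function.Injective φ := Equiv.Perm.extendDomainHom_injective _
  have hφsign : ∀ σ : Perm (Fin 6), Perm.sign (φ σ) = Perm.sign σ := by
    intro σ
    exact Equiv.Perm.sign_extendDomain σ _
  let r : alternatingGroup (Fin n) := ⟨φ r0, Equiv.Perm.mem_alternatingGroup.mpr (by rw [hφsign, r0_sign])⟩
  let s : alternatingGroup (Fin n) := ⟨φ s0, Equiv.Perm.mem_alternatingGroup.mpr (by rw [hφsign, s0_sign])⟩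
  have hsr : s * r * s⁻¹ = r⁻¹ := by
    apply Subtype.ext
    show φ s0 * φ r0 * (φ s0)⁻¹ = (φ r0)⁻¹
    rw [← map_inv, ← map_mul, ← map_mul, s0_r0, map_inv]
  have hr4 : r ^ (2 ^ 2) = 1 := by
    apply Subtype.ext
    show (φ r0) ^ (2 ^ 2) = 1
    rw [← map_pow]
    have : r0 ^ (2 ^ 2) = 1 := r0_pow
    rw [this, map_one]
  have hs2 : s ^ (2 ^ 1) = 1 := by
    apply Subtype.ext
    show (φ s0) ^ (2 ^ 1) = 1
    rw [← map_pow]
    have : s0 ^ (2 ^ 1) = 1 := s0_pow
    rw [this, map_one]
  have hrs : r * s ≠ s * r := by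
    intro h
    have h1 := congrArg Subtype.val h
    have h2 : φ (r0 * s0) = φ (s0 * r0) := by
      rw [map_mul, map_mul]; exact h1
    exact r0_s0 (hφinj h2)
  have hH : IsPGroup 2 (Subgroup.zpowers s) := zpowers_isPGroup 2 1 s hs2
  have hK : IsPGroup 2 (Subgroup.zpowers r) := zpowers_isPGroup 2 2 r hr4
  have hsinv : s⁻¹ = s := by
    have : s * s = 1 := by simpa [pow_two] using hs2
    exact inv_eq_of_mul_eq_one_left this
  have hconj : ∀ y ∈ Subgroup.zpowers r, s * y * s⁻¹ ∈ Subgroup.zpowers r := by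
    intro y hy
    obtain ⟨j, rfl⟩ := Subgroup.mem_zpowers_iff.mp hy
    have : s * r ^ j * s⁻¹ = (s * r * s⁻¹) ^ j := by
      rw [conj_zpow]
    rw [this, hsr]
    exact Subgroup.zpow_mem _ (Subgroup.inv_mem _ (Subgroup.mem_zpowers r)) j
  have hnorm : Subgroup.zpowers s ≤ Subgroup.normalizer (Subgroup.zpowers r : Set (alternatingGroup (Fin n))) := by
    rw [Subgroup.zpowers_le, Subgroup.mem_normalizer_iff]
    intro y
    constructor
    · exact hconj y
    · intro hy
      have := hconj _ hy
      rw [hsinv] at this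
      have e : s * (s * y * s) * s = y := by
        have hss : s * s = 1 := by simpa [pow_two] using hs2
        calc s * (s * y * s) * s = (s * s) * y * (s * s) := by group
          _ = y := by rw [hss]; group
      rw [hsinv] at hy
      rw [e] at this
      exact this
  have hQ : IsPGroup 2 (Subgroup.zpowers s ⊔ Subgroup.zpowers r : Subgroup (alternatingGroup (Fin n))) :=
    IsPGroup.to_sup_of_normal_right' hH hK hnorm
  obtain ⟨Q', hQ'⟩ := hQ.exists_le_sylow
  obtain ⟨g, hg⟩ := MulAction.exists_smul_eq (alternatingGroup (Fin n)) P Q'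
  have hr : r ∈ (Q' : Subgroup (alternatingGroup (Fin n))) :=
    hQ' (Subgroup.mem_sup_right (Subgroup.mem_zpowers r))
  have hs : s ∈ (Q' : Subgroup (alternatingGroup (Fin n))) :=
    hQ' (Subgroup.mem_sup_left (Subgroup.mem_zpowers s))
  rw [← hg, Sylow.smul_def, Sylow.pointwise_smul_def, Subgroup.mem_pointwise_smul_iff_inv_smul_mem] at hr hs
  simp only [MulAut.smul_def, ← map_inv, MulAut.conj_apply, inv_inv] at hr hs
  have hc := hP.is_comm.comm (⟨_, hr⟩ : (P : Subgroup (alternatingGroup (Fin n)))) ⟨_, hs⟩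
  have hc' : g⁻¹ * r * g * (g⁻¹ * s * g) = g⁻¹ * s * g * (g⁻¹ * r * g) := congrArg Subtype.val hc
  apply hrs
  have e1 : r * s = g * (g⁻¹ * r * g * (g⁻¹ * s * g)) * g⁻¹ := by group
  have e2 : s * r = g * (g⁻¹ * s * g * (g⁻¹ * r * g)) * g⁻¹ := by group
  rw [e1, e2, hc']




set_option maxRecDepth 100000 in
theorem a5_no_order4 : ∀ σ : Perm (Fin 5), Perm.sign σ = 1 → σ ^ 4 = 1 → σ ^ 2 = 1 := by decide

set_option maxRecDepth 100000 in
theorem a5_no_order10 : ∀ σ : Perm (Fin 5), Perm.sign σ = 1 → σ ^ 10 = 1 → σ ^ 2 = 1 ∨ σ ^ 5 = 1 := by decide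

theorem card_a5 : Nat.card (alternatingGroup (Fin 5)) = 60 := by
  have h := two_mul_nat_card_alternatingGroup (α := Fin 5)
  rw [Nat.card_perm, Nat.card_fin] at h
  have : (5 : ℕ).factorial = 120 := by decide
  omega

theorem card_sylow2_a5 (P : Sylow 2 (alternatingGroup (Fin 5))) :
    Nat.card (P : Subgroup (alternatingGroup (Fin 5))) = 4 := by
  have : Fact (Nat.Prime 2) := ⟨Nat.prime_two⟩
  obtain ⟨k, hk⟩ := IsPGroup.iff_card.mp P.isPGroup'
  have h1 := Subgroup.card_mul_index (P : Subgroup (alternatingGroup (Fin 5)))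
  rw [card_a5, hk] at h1
  have h2 := P.not_dvd_index
  have hk3 : k < 3 := by
    by_contra hk3
    have : 2 ^ 3 ∣ 2 ^ k := pow_dvd_pow 2 (by omega)
    have : 2 ^ 3 ∣ 60 := by rw [← h1]; exact Dvd.dvd.mul_right this _
    omega
  rw [hk]
  interval_cases k
  · exfalso; apply h2; omega
  · exfalso; apply h2; omega
  · rfl

theorem no_order5_normalizer (P : Sylow 2 (alternatingGroup (Fin 5)))
    (y : alternatingGroup (Fin 5)) (hy : y ∈ Subgroup.normalizer ((P : Subgroup (alternatingGroup (Fin 5))) : Set (alternatingGroup (Fin 5))))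
    (hy5 : orderOf y = 5) : False := by
  have : Fact (Nat.Prime 2) := ⟨Nat.prime_two⟩
  have hcard := card_sylow2_a5 P
  -- y centralizes P
  have hcent : ∀ x ∈ (P : Subgroup (alternatingGroup (Fin 5))), y * x = x * y := by
    intro x hx
    have hmem : ∀ i : ℕ, y ^ i * x * (y ^ i)⁻¹ ∈ (P : Subgroup (alternatingGroup (Fin 5))) := by
      intro i
      have := Subgroup.pow_mem _ hy i
      exact (Subgroup.mem_normalizer_iff.mp this x).mp hx
    let f : Fin 5 → (P : Subgroup (alternatingGroup (Fin 5))) := fun i => ⟨_, hmem i⟩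
    have hninj : ¬ Function.Injective f := by
      intro hinj
      have := Nat.card_le_card_of_injective f hinj
      rw [Nat.card_fin, hcard] at this
      omega
    rw [Function.Injective] at hninj
    push Not at hninj
    obtain ⟨i, j, hij, hne⟩ := hninj
    have hij' : y ^ (i : ℕ) * x * (y ^ (i : ℕ))⁻¹ = y ^ (j : ℕ) * x * (y ^ (j : ℕ))⁻¹ :=
      congrArg Subtype.val hij
    -- wlog i < j
    have key : ∀ a b : ℕ, a < b → b < 5 → y ^ a * x * (y ^ a)⁻¹ = y ^ b * x * (y ^ b)⁻¹ → y * x = x * y := by
      intro a b hab hb h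
      have h1 : y ^ (b - a) * x = x * y ^ (b - a) := by
        have hb' : y ^ b = y ^ a * y ^ (b - a) := by rw [← pow_add]; congr 1; omega
        rw [hb'] at h
        have : x = y ^ (b - a) * x * (y ^ (b - a))⁻¹ := by
          have := congrArg (fun w => (y ^ a)⁻¹ * w * y ^ a) h
          calc x = (y ^ a)⁻¹ * (y ^ a * x * (y ^ a)⁻¹) * y ^ a := by group
            _ = (y ^ a)⁻¹ * (y ^ a * y ^ (b - a) * x * (y ^ a * y ^ (b - a))⁻¹) * y ^ a := this
            _ = y ^ (b - a) * x * (y ^ (b - a))⁻¹ := by group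
        calc y ^ (b - a) * x = y ^ (b - a) * x * (y ^ (b - a))⁻¹ * y ^ (b - a) := by group
          _ = x * y ^ (b - a) := by rw [← this]
      have hcop : (b - a).Coprime (orderOf y) := by
        rw [hy5]
        apply Nat.Coprime.symm
        rw [Nat.Prime.coprime_iff_not_dvd (by norm_num)]
        intro hdvd
        have := Nat.le_of_dvd (by omega) hdvd
        omega
      obtain ⟨m, hm⟩ := exists_pow_eq_self_of_coprime hcop
      have h2 : Commute (y ^ (b - a)) x := h1
      have h3 : Commute ((y ^ (b - a)) ^ m) x := h2.pow_left m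
      rw [hm] at h3
      exact h3
    rcases Nat.lt_or_gt_of_ne (fun h => hne (Fin.ext h)) with h | h
    · exact key i j h j.2 hij'
    · exact key j i h i.2 hij'.symm
  -- an involution in P
  have h2 : 2 ∣ Nat.card (P : Subgroup (alternatingGroup (Fin 5))) := by rw [hcard]; norm_num
  obtain ⟨t, ht⟩ := exists_prime_orderOf_dvd_card' (G := (P : Subgroup (alternatingGroup (Fin 5)))) 2 h2
  have ht2 : (t : alternatingGroup (Fin 5)) ^ 2 = 1 := by
    have := pow_orderOf_eq_one t
    rw [ht] at this
    exact_mod_cast congrArg Subtype.val this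
  have ht1 : (t : alternatingGroup (Fin 5)) ≠ 1 := by
    intro h
    have : t = 1 := Subtype.ext h
    rw [this, orderOf_one] at ht
    omega
  have hc := hcent t t.2
  have hy5' : y ^ 5 = 1 := by
    have := pow_orderOf_eq_one y
    rwa [hy5] at this
  have hy1 : y ≠ 1 := by
    intro h
    rw [h, orderOf_one] at hy5
    omega
  set w := (t : alternatingGroup (Fin 5)) * y with hw
  have hcomm : Commute (t : alternatingGroup (Fin 5)) y := hc.symm
  have hw10 : w ^ 10 = 1 := by
    rw [hw, hcomm.mul_pow]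
    have e1 : (t : alternatingGroup (Fin 5)) ^ 10 = 1 := by
      have : (10 : ℕ) = 2 * 5 := by norm_num
      rw [this, pow_mul, ht2, one_pow]
    have e2 : y ^ 10 = 1 := by
      have : (10 : ℕ) = 5 * 2 := by norm_num
      rw [this, pow_mul, hy5', one_pow]
    rw [e1, e2, one_mul]
  have hw2 : w ^ 2 ≠ 1 := by
    rw [hw, hcomm.mul_pow, ht2, one_mul]
    intro h
    apply hy1
    have : y = y ^ 5 * ((y ^ 2) ^ 2)⁻¹ := by group
    rw [this, hy5', h]
    simp
  have hw5 : w ^ 5 ≠ 1 := by
    rw [hw, hcomm.mul_pow, hy5', mul_one]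
    have : (t : alternatingGroup (Fin 5)) ^ 5 = t := by
      have : (t : alternatingGroup (Fin 5)) ^ 5 = ((t : alternatingGroup (Fin 5)) ^ 2) ^ 2 * t := by group
      rw [this, ht2]; simp
    rw [this]
    exact ht1
  have hsign : Perm.sign (w : Perm (Fin 5)) = 1 := Equiv.Perm.mem_alternatingGroup.mp w.2
  have h10 : (w : Perm (Fin 5)) ^ 10 = 1 := by
    have := congrArg Subtype.val hw10
    simpa using this
  rcases a5_no_order10 (w : Perm (Fin 5)) hsign h10 with h | h
  · apply hw2
    apply Subtype.ext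
    simpa using h
  · apply hw5
    apply Subtype.ext
    simpa using h


theorem nat_aux (I : ℕ) (h15 : I ∣ 15) (h5 : ¬ 5 ∣ I) (h1 : I ≠ 1) : I = 3 := by
  have hle : I ≤ 15 := Nat.le_of_dvd (by norm_num) h15
  interval_cases I <;> omega

theorem part2 (P : Sylow 2 (alternatingGroup (Fin 5)))
    (hP : IsMulCommutative (P : Subgroup (alternatingGroup (Fin 5)))) :
    ((Subgroup.centralizer ((P : Subgroup (alternatingGroup (Fin 5))) : Set (alternatingGroup (Fin 5)))).subgroupOf (Subgroup.normalizer ((P : Subgroup (alternatingGroup (Fin 5))) : Set (alternatingGroup (Fin 5))))).index = 3 ∧ IsKleinFour (P : Subgroup (alternatingGroup (Fin 5))) := by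
  have : Fact (Nat.Prime 2) := ⟨Nat.prime_two⟩
  have hcard := card_sylow2_a5 P
  constructor
  · set N := Subgroup.normalizer ((P : Subgroup (alternatingGroup (Fin 5))) : Set (alternatingGroup (Fin 5))) with hN
    set C := Subgroup.centralizer ((P : Subgroup (alternatingGroup (Fin 5))) : Set (alternatingGroup (Fin 5))) with hC
    have hCN : C ≤ N := Subgroup.centralizer_le_normalizer _
    have hPC : (P : Subgroup (alternatingGroup (Fin 5))) ≤ C := by
      intro x hx
      rw [hC, Subgroup.mem_centralizer_iff]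
      intro y hy
      have := hP.is_comm.comm (⟨y, hy⟩ : (P : Subgroup (alternatingGroup (Fin 5)))) ⟨x, hx⟩
      exact congrArg Subtype.val this
    set I := (C.subgroupOf N).index with hI
    have h1 : Nat.card C * I = Nat.card N := by
      have := Subgroup.card_mul_index (C.subgroupOf N)
      rw [Nat.card_congr (Subgroup.subgroupOfEquivOfLe hCN).toEquiv] at this
      exact this
    have h4 : 4 ∣ Nat.card C := by
      rw [← hcard]; exact Subgroup.card_dvd_of_le hPC
    have hN60 : Nat.card N ∣ 60 := by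
      rw [← card_a5]; exact Subgroup.card_subgroup_dvd_card N
    have hI15 : I ∣ 15 := by
      obtain ⟨m, hm⟩ := h4
      rw [hm] at h1
      have : 4 * (m * I) ∣ 60 := by
        rw [← mul_assoc, h1]; exact hN60
      have h5 : m * I ∣ 15 := by
        have : 4 * (m * I) ∣ 4 * 15 := this
        exact Nat.dvd_of_mul_dvd_mul_left (by norm_num) this
      exact Dvd.dvd.trans (Dvd.intro_left m rfl) h5
    have h5N : ¬ 5 ∣ Nat.card N := by
      intro h5
      have : Fact (Nat.Prime 5) := ⟨by norm_num⟩
      obtain ⟨y, hy⟩ := exists_prime_orderOf_dvd_card' (G := N) 5 h5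
      have hy' : orderOf (y : alternatingGroup (Fin 5)) = 5 := by
        rw [Subgroup.orderOf_coe]; exact hy
      exact no_order5_normalizer P (y : alternatingGroup (Fin 5)) y.2 hy'
    have h5I : ¬ 5 ∣ I := by
      intro h
      apply h5N
      rw [← h1]
      exact Dvd.dvd.mul_left h _
    have hI1 : I ≠ 1 := by
      intro hI1
      have hNC : N ≤ C := Subgroup.relIndex_eq_one.mp hI1
      have hcomp := MonoidHom.ker_transferSylow_isComplement' P hNC
      have hcm := hcomp.card_mul_card
      rw [hcard, card_a5] at hcm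
      have hK15 : Nat.card (MonoidHom.transferSylow P hNC).ker = 15 := by omega
      rcases Subgroup.Normal.eq_bot_or_eq_top (MonoidHom.normal_ker (MonoidHom.transferSylow P hNC)) with h | h
      · rw [h, Subgroup.card_bot] at hK15
        omega
      · rw [h, Subgroup.card_top, card_a5] at hK15
        omega
    exact nat_aux I hI15 h5I hI1
  · have hnt : Nontrivial (P : Subgroup (alternatingGroup (Fin 5))) := by
      rw [← Finite.one_lt_card_iff_nontrivial, hcard]
      norm_num
    refine ⟨hcard, ?_⟩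
    rw [Monoid.exponent_eq_prime_iff Nat.prime_two]
    intro g hg
    apply orderOf_eq_prime
    · have h4 : g ^ 4 = 1 := by
        have := pow_card_eq_one' (G := (P : Subgroup (alternatingGroup (Fin 5)))) (x := g)
        rwa [hcard] at this
      have h4' : ((g : alternatingGroup (Fin 5)) : Perm (Fin 5)) ^ 4 = 1 := by
        have := congrArg (fun w : (P : Subgroup (alternatingGroup (Fin 5))) => ((w : alternatingGroup (Fin 5)) : Perm (Fin 5))) h4
        simpa using this
      have hsign : Perm.sign ((g : alternatingGroup (Fin 5)) : Perm (Fin 5)) = 1 :=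
        Equiv.Perm.mem_alternatingGroup.mp (g : alternatingGroup (Fin 5)).2
      have h2 := a5_no_order4 _ hsign h4'
      apply Subtype.ext
      apply Subtype.ext
      simpa using h2
    · exact hg

/-- Let n ≥ 5 and let P be an abelian Sylow p-subgroup of the alternating group A_n. Then N(P)/C(P) (taken in A_n) has even order, or P is cyclic, except when n = 5 and p = 2, where P is a four-group and N(P)/C(P) has order 3. -/
theorem result (n : ℕ) (hn : 5 ≤ n) {p : ℕ} [Fact p.Prime]
    (P : Sylow p (alternatingGroup (Fin n))) (hP : IsMulCommutative (P : Subgroup (alternatingGroup (Fin n)))) :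
    (¬ (n = 5 ∧ p = 2) → 2 ∣ ((Subgroup.centralizer ((P : Subgroup (alternatingGroup (Fin n))) : Set (alternatingGroup (Fin n)))).subgroupOf (Subgroup.normalizer ((P : Subgroup (alternatingGroup (Fin n))) : Set (alternatingGroup (Fin n))))).index ∨ IsCyclic (P : Subgroup (alternatingGroup (Fin n)))) ∧
    ((n = 5 ∧ p = 2) → ((Subgroup.centralizer ((P : Subgroup (alternatingGroup (Fin n))) : Set (alternatingGroup (Fin n)))).subgroupOf (Subgroup.normalizer ((P : Subgroup (alternatingGroup (Fin n))) : Set (alternatingGroup (Fin n))))).index = 3 ∧ IsKleinFour (P : Subgroup (alternatingGroup (Fin n)))) := by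
  have hpp : p.Prime := Fact.out
  constructor
  · intro hne
    by_cases hp2 : p = 2
    · subst hp2
      exfalso
      have hn6 : 6 ≤ n := by
        rcases Nat.lt_or_ge n 6 with h | h
        · exact absurd ⟨by omega, rfl⟩ hne
        · exact h
      exact not_comm_two n hn6 P hP
    · have hp3 : 3 ≤ p := by
        have := hpp.two_le
        omega
      have : Nontrivial (Fin n) := Fin.nontrivial_iff_two_le.mpr (by omega)
      have hcardG : 2 * Nat.card (alternatingGroup (Fin n)) = n.factorial := by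
        have h := two_mul_nat_card_alternatingGroup (α := Fin n)
        rwa [Nat.card_perm, Nat.card_fin] at h
      by_cases hpn : p + 2 ≤ n
      · left
        have hdvd : p ∣ Nat.card (alternatingGroup (Fin n)) := by
          have h1 : p ∣ 2 * Nat.card (alternatingGroup (Fin n)) := by
            rw [hcardG]; exact Nat.dvd_factorial hpp.pos (by omega)
          rcases (Nat.Prime.dvd_mul hpp).mp h1 with h | h
          · exact absurd ((Nat.prime_dvd_prime_iff_eq hpp Nat.prime_two).mp h) hp2
          · exact h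
        have hP' : p ∣ Nat.card (P : Subgroup (alternatingGroup (Fin n))) := P.dvd_card_of_dvd_card hdvd
        obtain ⟨y, hy⟩ := exists_prime_orderOf_dvd_card' (G := (P : Subgroup (alternatingGroup (Fin n)))) p hP'
        have hx : orderOf (y : alternatingGroup (Fin n)) = p := by
          rw [Subgroup.orderOf_coe]; exact hy
        have hx' : orderOf ((y : alternatingGroup (Fin n)) : Perm (Fin n)) = p := by
          rw [Subgroup.orderOf_coe]; exact hx
        apply even_index_of_conj_inv P hP (y : alternatingGroup (Fin n)) y.2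
        · exact isConj_inv_of_centralizer _ (centralizer_not_le n p hpp hpn _ hx')
        · intro h2
          have := orderOf_dvd_of_pow_eq_one h2
          rw [hx] at this
          exact hp2 ((Nat.prime_dvd_prime_iff_eq hpp Nat.prime_two).mp this)
      · right
        obtain ⟨k, hk⟩ := IsPGroup.iff_card.mp P.isPGroup'
        have hdiv : Nat.card (P : Subgroup (alternatingGroup (Fin n))) ∣ n.factorial := by
          rw [← hcardG]
          exact Dvd.dvd.mul_left (Subgroup.card_subgroup_dvd_card _) 2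
        have hk1 : k ≤ 1 := by
          by_contra hk1
          have h2 : p ^ 2 ∣ p ^ k := pow_dvd_pow p (by omega)
          rw [← hk] at h2
          exact sq_not_dvd_factorial n p hpp (by omega) (h2.trans hdiv)
        interval_cases k
        · rw [pow_zero] at hk
          have : Subsingleton (P : Subgroup (alternatingGroup (Fin n))) := by
            rw [← Finite.card_le_one_iff_subsingleton, hk]
          exact isCyclic_of_subsingleton
        · rw [pow_one] at hk
          exact isCyclic_of_prime_card hk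
  · rintro ⟨rfl, rfl⟩
    exact part2 P hP

end Cfsg.Agent.S2269
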