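import Cfsg.Statements.S2270

set_option autoImplicit false
open Cfsg

namespace Cfsg.Agent.S2270

open Subgroup in
/-- General: if `P` is an abelian Sylow `p`-subgroup, `x ∈ P`, `x` conjugate to `x⁻¹` in `G`, and `x^2 ≠ 1`,
then `N(P)/C(P)` has even order. -/
theorem even_index_of_conj_inv {G : Type*} [Group G] [Finite G] {p : ℕ} [Fact p.Prime]
    (P : Sylow p G) (hP : IsMulCommutative (P : Subgroup G)) (x : G) (hx : x ∈ (P : Subgroup G))
    (hconj : IsConj x x⁻¹) (hx2 : x ^ 2 ≠ 1) :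
    2 ∣ ((centralizer ((P : Subgroup G) : Set G)).subgroupOf (normalizer ((P : Subgroup G) : Set G))).index := by
  obtain ⟨g, hg⟩ := isConj_iff.mp hconj
  -- hg : g * x * g⁻¹ = x⁻¹
  have hy : (g⁻¹)⁻¹ * x * g⁻¹ ∈ (P : Subgroup G) := by
    rw [inv_inv, hg]; exact inv_mem hx
  obtain ⟨n, hn, hn'⟩ := Sylow.conj_eq_normalizer_conj_of_mem P x g⁻¹ hx hy
  rw [inv_inv, hg] at hn'
  -- hn' : x⁻¹ = n⁻¹ * x * n
  have hpow : ∀ k : ℕ, (n ^ k)⁻¹ * x * n ^ k = if Even k then x else x⁻¹ := by
    intro k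
    induction k with
    | zero => simp
    | succ k ih =>
      have : (n ^ (k + 1))⁻¹ * x * n ^ (k + 1) = n⁻¹ * ((n ^ k)⁻¹ * x * n ^ k) * n := by
        rw [pow_succ]; group
      rw [this, ih]
      by_cases hk : Even k
      · have hk' : ¬ Even (k + 1) := by
          rw [Nat.even_add_one]; simpa using hk
        simp [hk, hk', ← hn']
      · have hk' : Even (k + 1) := by
          rw [Nat.even_add_one]; exact hk
        simp only [hk, hk', if_false, if_true]
        have : n⁻¹ * x⁻¹ * n = (n⁻¹ * x * n)⁻¹ := by group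
        rw [this, ← hn', inv_inv]
  set N := normalizer ((P : Subgroup G) : Set G) with hN
  set C := (centralizer ((P : Subgroup G) : Set G)).subgroupOf N with hC
  let q : N ⧸ C := QuotientGroup.mk (⟨n, hn⟩ : N)
  have hdvd : orderOf q ∣ C.index := by
    rw [Subgroup.index_eq_card]
    exact orderOf_dvd_natCard q
  refine dvd_trans ?_ hdvd
  by_contra hodd
  have hk : ¬ Even (orderOf q) := fun h => hodd h.two_dvd
  have h1 : q ^ orderOf q = 1 := pow_orderOf_eq_one q
  have h2 : (⟨n, hn⟩ : N) ^ orderOf q ∈ C := by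
    rw [← QuotientGroup.eq_one_iff, QuotientGroup.mk_pow]
    exact h1
  have h3 : n ^ orderOf q ∈ centralizer ((P : Subgroup G) : Set G) := by
    have h2' : (((⟨n, hn⟩ : N) ^ orderOf q : N) : G) ∈ centralizer ((P : Subgroup G) : Set G) :=
      Subgroup.mem_subgroupOf.mp h2
    simpa using h2'
  have h4 := (mem_centralizer_iff.mp h3) x hx
  have h5 := hpow (orderOf q)
  simp only [hk, if_false] at h5
  -- (n^k)⁻¹ * x * n^k = x⁻¹, and x * n^k = n^k * x
  have h6 : (n ^ orderOf q)⁻¹ * x * n ^ orderOf q = x := by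
    rw [mul_assoc, h4, ← mul_assoc, inv_mul_cancel, one_mul]
  rw [h6] at h5
  apply hx2
  calc x ^ 2 = x * x := pow_two x
    _ = x * x⁻¹ := by rw [← h5]
    _ = 1 := mul_inv_cancel x

/-- Let n ≥ 3, p an odd prime, and P an abelian Sylow p-subgroup of the symmetric group S_n (with p dividing n!, so that P ≠ 1). Then N(P)/C(P) has even order. -/
theorem result (n : ℕ) (hn : 3 ≤ n) {p : ℕ} [Fact p.Prime] (hp : p ≠ 2) (hpn : p ≤ n)
    (P : Sylow p (Equiv.Perm (Fin n))) (hP : IsMulCommutative (P : Subgroup (Equiv.Perm (Fin n)))) :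
    2 ∣ ((Subgroup.centralizer ((P : Subgroup (Equiv.Perm (Fin n))) : Set (Equiv.Perm (Fin n)))).subgroupOf (Subgroup.normalizer ((P : Subgroup (Equiv.Perm (Fin n))) : Set (Equiv.Perm (Fin n))))).index := by
  have hpp : p.Prime := Fact.out
  have hcard : p ∣ Nat.card (Equiv.Perm (Fin n)) := by
    rw [Nat.card_eq_fintype_card, Fintype.card_perm, Fintype.card_fin]
    exact Nat.dvd_factorial hpp.pos hpn
  have hP' : p ∣ Nat.card (P : Subgroup (Equiv.Perm (Fin n))) := P.dvd_card_of_dvd_card hcard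
  obtain ⟨y, hy⟩ := exists_prime_orderOf_dvd_card' (G := (P : Subgroup (Equiv.Perm (Fin n)))) p hP'
  have hx : orderOf (y : Equiv.Perm (Fin n)) = p := by
    rw [Subgroup.orderOf_coe]; exact hy
  apply even_index_of_conj_inv P hP (y : Equiv.Perm (Fin n)) y.2
  · rw [Equiv.Perm.isConj_iff_cycleType_eq, Equiv.Perm.cycleType_inv]
  · intro h2
    have := orderOf_dvd_of_pow_eq_one h2
    rw [hx] at this
    exact hp ((Nat.prime_dvd_prime_iff_eq hpp Nat.prime_two).mp this)

end Cfsg.Agent.S2270
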