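import Cfsg.Statements.S2282
-- import your own Cfsg.Agent.* helpers here
import Cfsg.Agent.Helper13.SuAsm
import Cfsg.Agent.Helper99.Su3I
import Cfsg.Agent.Helper99.Su5E

set_option autoImplicit false
open Cfsg

namespace Cfsg.Agent.S2282

/-- Let F be a field with q² elements, n ≥ 3 odd with (n, q) ≠ (3, 2), and SU_n(q) the special unitary group of the standard Hermitian form Σ u_i v_i^q. Then SU_n(q) is generated by three conjugate regular unipotent elements: there are u ∈ SU_n(q) with u − 1 nilpotent and (u − 1)^(n−1) ≠ 0, and g, h ∈ SU_n(q), such that u, g u g⁻¹ and h u h⁻¹ generate SU_n(q). -/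
theorem result {F : Type*} [Field F] [Fintype F] (q : ℕ) (hF : Fintype.card F = q ^ 2) (n : ℕ) (hn : 3 ≤ n) (hodd : Odd n) (h32 : ¬ (n = 3 ∧ q = 2)) :
    ∃ u g h : ↥(Cfsg.SU n F q), (IsNilpotent (((u : Matrix.SpecialLinearGroup (Fin n) F) : Matrix (Fin n) (Fin n) F) - 1) ∧ (((u : Matrix.SpecialLinearGroup (Fin n) F) : Matrix (Fin n) (Fin n) F) - 1) ^ (n - 1) ≠ 0) ∧
      Subgroup.closure ({u, g * u * g⁻¹, h * u * h⁻¹} : Set ↥(Cfsg.SU n F q)) = ⊤ := by
  obtain ⟨m, rfl⟩ := hodd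
  rcases Nat.lt_or_ge m 2 with hm | hm
  · -- `n = 3`
    have hm1 : m = 1 := by omega
    subst hm1
    have hq2 := Cfsg.Agent.Helper99.su_two_le_q hF
    have hq : 3 ≤ q := by
      by_contra hh
      exact h32 ⟨rfl, by omega⟩
    obtain ⟨u, g, hu, hgen⟩ := Cfsg.Agent.Helper99.su3_two_conj_unip hq hF
    refine ⟨u, g, 1, hu, ?_⟩
    apply top_le_iff.1
    rw [← hgen]
    apply Subgroup.closure_mono
    intro x hx
    rcases hx with hx | hx
    · exact Set.mem_insert_iff.2 (Or.inl hx)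
    · exact Set.mem_insert_of_mem _ (Set.mem_insert_iff.2 (Or.inl hx))
  · rcases Nat.lt_or_ge m 3 with hm3 | hm3
    · -- `n = 5`
      have hm2 : m = 2 := by omega
      subst hm2
      exact Cfsg.Agent.Helper99.su5_three_conj_unip hF
    · -- `n ≥ 7`
      obtain ⟨N, rfl⟩ : ∃ N, m = N + 1 := ⟨m - 1, by omega⟩
      obtain ⟨u, g, h, ⟨hnil, hreg⟩, hgen⟩ := Cfsg.Agent.Helper13.su_three_m3 hF N (by omega)
      exact Cfsg.Agent.Helper99.su_transport_three hF (2 * (N + 1) + 1) u g h hnil hreg hgen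

end Cfsg.Agent.S2282
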