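import Cfsg.Statements.S2332
import Cfsg.Agent.Helper90.MDMain
import Cfsg.Agent.Helper64.MDBR
import Cfsg.Agent.Helper64.MDEX2

set_option autoImplicit false
open Cfsg

namespace Cfsg.Agent.S2332

/-- Smallest degree of a non-linear irreducible complex representation of SL_n over a finite field with q elements, for n ≥ 3 and (n, q) not one of (3, 2), (3, 4), (4, 2), (4, 3): every irreducible complex representation of SL_n(F) of degree at least 2 has degree at least (q^n − q)/(q − 1), and there is an irreducible complex representation of exactly that degree. -/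
theorem result {F : Type*} [Field F] [Fintype F] [DecidableEq F] (n : ℕ) (hn : 3 ≤ n)
    (hex : (n, Fintype.card F) ≠ (3, 2) ∧ (n, Fintype.card F) ≠ (3, 4) ∧ (n, Fintype.card F) ≠ (4, 2) ∧ (n, Fintype.card F) ≠ (4, 3)) :
    (∀ (k : ℕ) (ρ : Representation ℂ (Matrix.SpecialLinearGroup (Fin n) F) (Fin k → ℂ)), ρ.IsIrreducible → 2 ≤ k → (Fintype.card F ^ n - Fintype.card F) / (Fintype.card F - 1) ≤ k) ∧
    (∃ ρ : Representation ℂ (Matrix.SpecialLinearGroup (Fin n) F) (Fin ((Fintype.card F ^ n - Fintype.card F) / (Fintype.card F - 1)) → ℂ), ρ.IsIrreducible) := by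
  have hex' : ¬ (n = 3 ∧ Nat.card F = 2) ∧ ¬ (n = 3 ∧ Nat.card F = 4) ∧
      ¬ (n = 4 ∧ Nat.card F = 2) ∧ ¬ (n = 4 ∧ Nat.card F = 3) := by
    rw [Nat.card_eq_fintype_card]
    refine ⟨?_, ?_, ?_, ?_⟩
    · rintro ⟨h1, h2⟩
      exact hex.1 (by rw [h1, h2])
    · rintro ⟨h1, h2⟩
      exact hex.2.1 (by rw [h1, h2])
    · rintro ⟨h1, h2⟩
      exact hex.2.2.1 (by rw [h1, h2])
    · rintro ⟨h1, h2⟩
      exact hex.2.2.2 (by rw [h1, h2])
  refine ⟨Cfsg.Agent.Helper64.sl_transfer n _ (fun W _ _ _ ρ hirr hnt => ?_),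
    Cfsg.Agent.Helper64.exists_irr_sl n hn⟩
  have h := Cfsg.Agent.Helper90.MD.minDeg_main (F := F) n hn hex' (Fin n → F)
    (Module.finrank_fin_fun F) W ρ hirr hnt
  rwa [Nat.card_eq_fintype_card] at h

end Cfsg.Agent.S2332
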