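import Cfsg.Statements.S2333
import Cfsg.Agent.Helper60.Sp2Min

set_option autoImplicit false
open Cfsg

namespace Cfsg.Agent.S2333

open Cfsg.Agent.Helper60.Sp2 in
/-- For a finite field F of even order q and n ≥ 2 with (n, q) ≠ (2, 2), every irreducible complex representation of the symplectic group Sp_{2n}(F) of degree at least 2 has degree at least (q^n − 1)(q^n − q)/(2(q + 1)). -/
theorem result {F : Type*} [Field F] [Fintype F] [DecidableEq F] (n : ℕ) (hn : 2 ≤ n) (heven : Even (Fintype.card F)) (hex : (n, Fintype.card F) ≠ (2, 2)) :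
    (∀ (k : ℕ) (ρ : Representation ℂ (Matrix.symplecticGroup (Fin n) F) (Fin k → ℂ)), ρ.IsIrreducible → 2 ≤ k → (Fintype.card F ^ n - 1) * (Fintype.card F ^ n - Fintype.card F) / (2 * (Fintype.card F + 1)) ≤ k) := by
  intro k ρ hirr hk
  obtain ⟨m, rfl⟩ : ∃ m, n = m + 2 := ⟨n - 2, by omega⟩
  have hnt : ∃ g, ρ g ≠ 1 := by
    by_contra hcon
    push Not at hcon
    let σ : Subrepresentation ρ :=
      ⟨Submodule.span ℂ {Pi.single (⟨0, by omega⟩ : Fin k) (1 : ℂ)}, by
        intro g v hv
        rw [hcon g]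
        exact hv⟩
    rcases hirr.eq_bot_or_eq_top σ with hb | ht
    · have h3 : Pi.single (⟨0, by omega⟩ : Fin k) (1 : ℂ) ∈ σ.toSubmodule :=
        Submodule.subset_span rfl
      rw [hb] at h3
      have h4 : Pi.single (⟨0, by omega⟩ : Fin k) (1 : ℂ) = 0 :=
        (Submodule.mem_bot ℂ).1 (show _ ∈ (⊥ : Submodule ℂ (Fin k → ℂ)) from h3)
      have h5 := congrFun h4 ⟨0, by omega⟩
      simp at h5
    · have h3 : Pi.single (⟨1, by omega⟩ : Fin k) (1 : ℂ) ∈ σ.toSubmodule := by
        rw [ht]
        exact Submodule.mem_top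
      obtain ⟨c, hc⟩ := Submodule.mem_span_singleton.1 h3
      have h5 := congrFun hc ⟨1, by omega⟩
      simp at h5
  have h2 : (2 : F) = 0 := by
    have hchar : ringChar F = 2 := (FiniteField.even_card_iff_char_two).2 (Nat.even_iff.1 heven)
    have : CharP F 2 := hchar ▸ ringChar.charP F
    exact CharTwo.two_eq_zero
  have hq2 : 2 ≤ Fintype.card F := Fintype.one_lt_card
  have hperf : commutator (Matrix.symplecticGroup (Fin (m + 2)) F) = ⊤ := by
    apply Cfsg.Agent.Helper5.commutator_sp_eq_top
    by_cases hm : m = 0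
    · right
      right
      obtain ⟨c, hc⟩ := heven
      have hne : Fintype.card F ≠ 2 := by
        intro h
        apply hex
        rw [hm, h]
      omega
    · left
      omega
  have h6 := sp_even_min_degree h2 hperf ρ hnt
  rw [Module.finrank_fin_fun] at h6
  exact Nat.div_le_of_le_mul h6

end Cfsg.Agent.S2333
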