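import Cfsg.Statements.S2334
import Cfsg.Agent.Helper60.SUMin3

set_option autoImplicit false
open Cfsg

namespace Cfsg.Agent.S2334

open Cfsg.Agent.Helper60.SUMin in
/-- For odd n ≥ 3 and a finite field F with q² elements, (n, q) ≠ (3, 2), every irreducible complex representation of the special unitary group SU_n(q) (the determinant-one isometries of the standard Hermitian form over F) of degree at least 2 has degree at least (q^n − q)/(q + 1). -/
theorem result {F : Type*} [Field F] [Fintype F] [DecidableEq F] (n q : ℕ) (hn : 3 ≤ n) (hodd : Odd n) (hF : Fintype.card F = q ^ 2) (hex : (n, q) ≠ (3, 2)) :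
    (∀ (k : ℕ) (ρ : Representation ℂ (Cfsg.SU n F q) (Fin k → ℂ)), ρ.IsIrreducible → 2 ≤ k → (q ^ n - q) / (q + 1) ≤ k) := by
  intro k ρ hirr hk
  obtain ⟨m, rfl⟩ : ∃ m, n = m + 1 + 1 := ⟨n - 2, by omega⟩
  have h32 : ¬ (m + 1 + 1 = 3 ∧ q = 2) := by
    rintro ⟨h1, h2⟩
    exact hex (by rw [h1, h2])
  have hnt : ∃ g, ρ g ≠ 1 := by
    by_contra hcon
    push Not at hcon
    let σ : Subrepresentation ρ :=
      ⟨Submodule.span ℂ {Pi.single (⟨0, by omega⟩ : Fin k) (1 : ℂ)}, by
        intro g v hv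
        rw [hcon g]
        exact hv⟩
    rcases hirr.eq_bot_or_eq_top σ with hb | ht
    · have h3 : Pi.single (⟨0, by omega⟩ : Fin k) (1 : ℂ) ∈ σ.toSubmodule :=
        Submodule.subset_span rfl
      rw [hb] at h3
      have h4 : Pi.single (⟨0, by omega⟩ : Fin k) (1 : ℂ) = 0 :=
        (Submodule.mem_bot ℂ).1 (show _ ∈ (⊥ : Submodule ℂ (Fin k → ℂ)) from h3)
      have h5 := congrFun h4 ⟨0, by omega⟩
      simp at h5
    · have h3 : Pi.single (⟨1, by omega⟩ : Fin k) (1 : ℂ) ∈ σ.toSubmodule := by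
        rw [ht]
        exact Submodule.mem_top
      obtain ⟨c, hc⟩ := Submodule.mem_span_singleton.1 h3
      have h5 := congrFun hc ⟨1, by omega⟩
      simp at h5
  have hq := Cfsg.Agent.Helper5.herm_two_le hF
  have h6 := su_min_degree hF m (by omega) h32 (Fin k → ℂ) ρ hnt
  rw [Module.finrank_fin_fun] at h6
  have hcl := bnd_closed q (by omega) m
  have hpar : ¬ Even m := by
    intro he
    have h7 : Even (m + 1 + 1) := by
      rw [add_assoc]
      exact he.add (by decide)
    exact (Nat.not_even_iff_odd.2 hodd) h7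
  rw [if_neg hpar] at hcl
  have h8 : (q ^ (m + 1 + 1) - q) / (q + 1) = bnd q m := by
    have h7 : q ^ (m + 1 + 1) - q = (q + 1) * bnd q m := by
      have h9 : q ^ (m + 1 + 1) = q ^ (m + 2) := rfl
      omega
    rw [h7, Nat.mul_div_cancel_left _ (by omega : 0 < q + 1)]
  rw [h8]
  exact h6

end Cfsg.Agent.S2334
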