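import Cfsg.Statements.S2347
import Cfsg.Agent.Helper60.SpMin
import Cfsg.Agent.Helper60.SpWeil3

set_option autoImplicit false
open Cfsg

namespace Cfsg.Agent.S2347

/-- Smallest degree of a non-linear irreducible complex representation of the symplectic group Sp_{2n} over a finite field of odd order q, n ≥ 2: every irreducible complex representation of degree at least 2 has degree at least (q^n − 1)/2, and there is an irreducible complex representation of exactly that degree (a Weil representation). -/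
theorem result {F : Type*} [Field F] [Fintype F] [DecidableEq F] (n : ℕ) (hn : 2 ≤ n) (hodd : Odd (Fintype.card F)) :
    (∀ (k : ℕ) (ρ : Representation ℂ (Matrix.symplecticGroup (Fin n) F) (Fin k → ℂ)), ρ.IsIrreducible → 2 ≤ k → (Fintype.card F ^ n - 1) / 2 ≤ k) ∧
    (∃ ρ : Representation ℂ (Matrix.symplecticGroup (Fin n) F) (Fin ((Fintype.card F ^ n - 1) / 2) → ℂ), ρ.IsIrreducible) := by
  obtain ⟨m, rfl⟩ : ∃ m, n = m + 1 := ⟨n - 1, by omega⟩
  have hq : Fintype.card F % 2 = 1 := Nat.odd_iff.1 hodd
  refine ⟨?_, Cfsg.Agent.Helper60.SpWeil.exists_weil hq m⟩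
  intro k ρ hirr hk
  have hnt : ∃ g, ρ g ≠ 1 := by
    by_contra hcon
    push Not at hcon
    let σ : Subrepresentation ρ :=
      ⟨Submodule.span ℂ {Pi.single (⟨0, by omega⟩ : Fin k) (1 : ℂ)}, by
        intro g v hv
        rw [hcon g]
        exact hv⟩
    rcases hirr.eq_bot_or_eq_top σ with hb | ht
    · have h3 : Pi.single (⟨0, by omega⟩ : Fin k) (1 : ℂ) ∈ σ.toSubmodule :=
        Submodule.subset_span rfl
      rw [hb] at h3
      have h4 : Pi.single (⟨0, by omega⟩ : Fin k) (1 : ℂ) = 0 :=
        (Submodule.mem_bot ℂ).1 (show _ ∈ (⊥ : Submodule ℂ (Fin k → ℂ)) from h3)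
      have h5 := congrFun h4 ⟨0, by omega⟩
      simp at h5
    · have h3 : Pi.single (⟨1, by omega⟩ : Fin k) (1 : ℂ) ∈ σ.toSubmodule := by
        rw [ht]
        exact Submodule.mem_top
      obtain ⟨c, hc⟩ := Submodule.mem_span_singleton.1 h3
      have h5 := congrFun hc ⟨1, by omega⟩
      simp at h5
  have h6 := Cfsg.Agent.Helper60.SpMin.sp_min_degree hq ρ hnt
  rw [Module.finrank_fin_fun] at h6
  omega

end Cfsg.Agent.S2347
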