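import Cfsg.Statements.S2363
import Cfsg.Agent.Helper21.LieBound
import Cfsg.Agent.Helper5.SympCenter
import Cfsg.Agent.S0243
import Cfsg.Agent.S0245
import Cfsg.Agent.S0280
import Cfsg.Agent.S0292
import Cfsg.Agent.S0293
import Cfsg.Agent.S0294
import Cfsg.Agent.S1059
import Cfsg.Agent.S1062
import Cfsg.Agent.S1063
import Cfsg.Agent.S1064
import Cfsg.Agent.S1065
import Cfsg.Agent.S1066
import Cfsg.Agent.S1067
import Cfsg.Agent.S1068
import Cfsg.Agent.S1069
import Cfsg.Agent.S1163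

set_option autoImplicit false
open Cfsg

namespace Cfsg.Agent.S2363

/-- Let G be a finite simple group of Lie type in characteristic p and let p^k be the exact power of p dividing the order of G. Then the order of G is less than p^(3k); and unless G is isomorphic to PSL(2, F) for the field F with p^k elements, the cube of the order of G is less than p^(8k) (that is, the order is below p^(8k/3)). -/
theorem result {G : Type*} [Group G] [Finite G] (p : ℕ) (hp : p.Prime) (hG : Cfsg.IsLieTypeChar p G) :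
    Nat.card G < p ^ (3 * (Nat.card G).factorization p) ∧
      ((¬ ∃ (F : Type) (_ : Field F) (_ : Fintype F), Fintype.card F = p ^ (Nat.card G).factorization p ∧
          Nonempty (G ≃* Matrix.ProjectiveSpecialLinearGroup (Fin 2) F)) →
        Nat.card G ^ 3 < p ^ (8 * (Nat.card G).factorization p)) := by
  rcases hG with hG | hG | hG | hG | hG | hG | hG | hG | hG | hG | hG
  · -- PSL_n
    obtain ⟨F, _, _, _, n, hn, _, ⟨e⟩⟩ := hG
    obtain ⟨f, hf, hF⟩ := Cfsg.Agent.Helper21.LieBound.card_field (F := F) p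
    have hord := Cfsg.Agent.S0243.result hF n hn
    rcases Nat.lt_or_ge n 3 with h3 | h3
    · have hn' : n = 2 := by omega
      subst hn'
      obtain ⟨hk, hlt⟩ := Cfsg.Agent.Helper21.LieBound.fam_psl2 hp hf hord
      have hc : Nat.card G = Nat.card (Matrix.ProjectiveSpecialLinearGroup (Fin 2) F) :=
        Nat.card_congr e.toEquiv
      rw [hc, hk]
      exact ⟨hlt, fun hno => absurd ⟨F, inferInstance, inferInstance, hF, ⟨e⟩⟩ hno⟩
    · exact Cfsg.Agent.Helper21.LieBound.finish_card hp (Nat.card_congr e.toEquiv)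
        (Cfsg.Agent.Helper21.LieBound.fam_psl hp hf h3 hord) _
  · -- PSp_2m
    obtain ⟨F, _, _, _, m, hm, _, ⟨e⟩⟩ := hG
    obtain ⟨f, hf, hF⟩ := Cfsg.Agent.Helper21.LieBound.card_field (F := F) p
    have hord := Cfsg.Agent.S0245.result hF m
    have hcen := Cfsg.Agent.Helper5.card_sp_center (F := F) (m := m) (by omega)
    have hq := Subgroup.card_eq_card_quotient_mul_card_subgroup
      (Subgroup.center (Matrix.symplecticGroup (Fin m) F))
    rw [hord, hcen, hF] at hq
    have h2 : 2 ≤ p ^ f := Cfsg.Agent.Helper21.LieBound.two_le_pow hp hf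
    exact Cfsg.Agent.Helper21.LieBound.finish_card hp (Nat.card_congr e.toEquiv)
      (Cfsg.Agent.Helper21.LieBound.fam_sp hp hf hm (Nat.gcd_pos_of_pos_left _ (by norm_num))
        (Cfsg.Agent.Helper21.LieBound.cop_of_dvd_pred hp
          (Cfsg.Agent.Helper21.LieBound.dvd_pf hf) (by omega) (Nat.gcd_dvd_right _ _))
        ((mul_comm _ _).trans hq.symm)) _
  · -- PSU_n
    obtain ⟨F, _, _, _, n, q, hFq, hn, _, ⟨e⟩⟩ := hG
    obtain ⟨f, hf, hF⟩ := Cfsg.Agent.Helper21.LieBound.card_field (F := F) p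
    obtain ⟨j, hj, rfl⟩ := Cfsg.Agent.Helper21.LieBound.root_of_pow hp hf (k := 2) (by norm_num)
      (hF.symm.trans hFq)
    have hord := Cfsg.Agent.S0280.result hFq n (by omega)
    exact Cfsg.Agent.Helper21.LieBound.finish_card hp (Nat.card_congr e.toEquiv)
      (Cfsg.Agent.Helper21.LieBound.fam_psu hp hj hn hord) _
  · -- POmega odd
    obtain ⟨F, _, _, _, m, hm, hodd, ⟨e⟩⟩ := hG
    obtain ⟨f, hf, hF⟩ := Cfsg.Agent.Helper21.LieBound.card_field (F := F) p
    rw [hF] at hodd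
    have hord := Cfsg.Agent.S0292.result hF hodd m hm
    have hp2 : Nat.Coprime p 2 := by
      rw [Nat.coprime_primes hp Nat.prime_two]
      rintro rfl
      exact (Nat.not_even_iff_odd.2 hodd) (Nat.even_pow.2 ⟨even_two, by omega⟩)
    exact Cfsg.Agent.Helper21.LieBound.finish_card hp (Nat.card_congr e.toEquiv)
      (Cfsg.Agent.Helper21.LieBound.fam_sp hp hf (by omega) (by norm_num) hp2 hord) _
  · -- POmega plus
    obtain ⟨F, _, _, _, m, hm, ⟨e⟩⟩ := hG
    obtain ⟨f, hf, hF⟩ := Cfsg.Agent.Helper21.LieBound.card_field (F := F) p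
    exact Cfsg.Agent.Helper21.LieBound.finish_card hp (Nat.card_congr e.toEquiv)
      (Cfsg.Agent.Helper21.LieBound.fam_oplus hp hf hm (Cfsg.Agent.S0293.result hF m hm)) _
  · -- POmega minus
    obtain ⟨F, _, _, _, m, a, b, hm, hab, ⟨e⟩⟩ := hG
    obtain ⟨f, hf, hF⟩ := Cfsg.Agent.Helper21.LieBound.card_field (F := F) p
    exact Cfsg.Agent.Helper21.LieBound.finish_card hp (Nat.card_congr e.toEquiv)
      (Cfsg.Agent.Helper21.LieBound.fam_ominus hp hf hm
        (Cfsg.Agent.S0294.result hF m hm a b hab)) _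
  · -- G2, F4, E6, E7, E8
    obtain ⟨F, _, _, _, hG⟩ := hG
    obtain ⟨f, hf, hF⟩ := Cfsg.Agent.Helper21.LieBound.card_field (F := F) p
    rcases hG with ⟨_, ⟨e⟩⟩ | ⟨⟨e⟩⟩ | ⟨⟨e⟩⟩ | ⟨⟨e⟩⟩ | ⟨⟨e⟩⟩
    · exact Cfsg.Agent.Helper21.LieBound.finish_card hp (Nat.card_congr e.toEquiv)
        (Cfsg.Agent.Helper21.LieBound.fam_g2 hp hf (Cfsg.Agent.S1059.result hF)) _
    · exact Cfsg.Agent.Helper21.LieBound.finish_card hp (Nat.card_congr e.toEquiv)
        (Cfsg.Agent.Helper21.LieBound.fam_f4 hp hf (Cfsg.Agent.S1062.result hF)) _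
    · exact Cfsg.Agent.Helper21.LieBound.finish_card hp (Nat.card_congr e.toEquiv)
        (Cfsg.Agent.Helper21.LieBound.fam_e6 hp hf (Cfsg.Agent.S1063.result hF)) _
    · exact Cfsg.Agent.Helper21.LieBound.finish_card hp (Nat.card_congr e.toEquiv)
        (Cfsg.Agent.Helper21.LieBound.fam_e7 hp hf (Cfsg.Agent.S1064.result hF)) _
    · exact Cfsg.Agent.Helper21.LieBound.finish_card hp (Nat.card_congr e.toEquiv)
        (Cfsg.Agent.Helper21.LieBound.fam_e8 hp hf (Cfsg.Agent.S1065.result hF)) _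
  · -- 2E6, 3D4
    obtain ⟨K, _, _, _, q, hq, hG⟩ := hG
    obtain ⟨f, hf, hF⟩ := Cfsg.Agent.Helper21.LieBound.card_field (F := K) p
    rcases hG with ⟨hK, ⟨e⟩⟩ | ⟨hK, ⟨e⟩⟩
    · obtain ⟨j, hj, rfl⟩ := Cfsg.Agent.Helper21.LieBound.root_of_pow hp hf (k := 2)
        (by norm_num) (hF.symm.trans hK)
      exact Cfsg.Agent.Helper21.LieBound.finish_card hp (Nat.card_congr e.toEquiv)
        (Cfsg.Agent.Helper21.LieBound.fam_2e6 hp hj (Cfsg.Agent.S1066.result hq hK)) _
    · obtain ⟨j, hj, rfl⟩ := Cfsg.Agent.Helper21.LieBound.root_of_pow hp hf (k := 3)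
        (by norm_num) (hF.symm.trans hK)
      exact Cfsg.Agent.Helper21.LieBound.finish_card hp (Nat.card_congr e.toEquiv)
        (Cfsg.Agent.Helper21.LieBound.fam_3d4 hp hj (Cfsg.Agent.S1067.result hq hK)) _
  · -- Suzuki
    obtain ⟨rfl, F, _, _, m, hm, hF, ⟨e⟩⟩ := hG
    exact Cfsg.Agent.Helper21.LieBound.finish_card hp (Nat.card_congr e.toEquiv)
      (Cfsg.Agent.Helper21.LieBound.fam_ree hp (f := 2 * m + 1) (by omega) (a := 2) (by norm_num)
        (Cfsg.Agent.S1163.result hm hF).1) _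
  · -- 2F4
    obtain ⟨rfl, K, _, _, m, hm, hK, ⟨e⟩⟩ := hG
    exact Cfsg.Agent.Helper21.LieBound.finish_card hp (Nat.card_congr e.toEquiv)
      (Cfsg.Agent.Helper21.LieBound.fam_2f4 hp (f := 2 * m + 1) (by omega)
        (Cfsg.Agent.S1068.result hK)) _
  · -- Ree
    obtain ⟨rfl, K, _, _, m, hm, hK, ⟨e⟩⟩ := hG
    exact Cfsg.Agent.Helper21.LieBound.finish_card hp (Nat.card_congr e.toEquiv)
      (Cfsg.Agent.Helper21.LieBound.fam_ree hp (f := 2 * m + 1) (by omega) (a := 3) (by norm_num)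
        (Cfsg.Agent.S1069.result hK)) _

end Cfsg.Agent.S2363
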