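import Cfsg.Statements.S2366
import Mathlib
import Cfsg.Agent.S2514
import Cfsg.Agent.Helper42.U3Lower

set_option autoImplicit false
open Cfsg

namespace Cfsg.Agent.S2366

/-- The set of element orders of PSU(3, q) for an odd prime power q = p^n: writing d = gcd(3, q + 1), a positive integer is the order of some element exactly when it divides one of q + 1, p(q + 1)/d, (q² − 1)/d, (q² − q + 1)/d. -/
theorem result {F : Type*} [Field F] [Fintype F] (p : ℕ) [Fact p.Prime] [CharP F p] (hp : p ≠ 2) (q : ℕ) (hF : Fintype.card F = q ^ 2) :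
    Set.range (orderOf : Cfsg.PSU 3 F q → ℕ) =
      {s : ℕ | s ∣ q + 1} ∪ {s : ℕ | s ∣ p * (q + 1) / Nat.gcd 3 (q + 1)} ∪
        {s : ℕ | s ∣ (q ^ 2 - 1) / Nat.gcd 3 (q + 1)} ∪ {s : ℕ | s ∣ (q ^ 2 - q + 1) / Nat.gcd 3 (q + 1)} := by
  classical
  have hpp : p.Prime := Fact.out
  obtain ⟨a, rfl⟩ : ∃ a, q = p ^ a := by
    obtain ⟨k, -, hk⟩ := FiniteField.card F p
    have h1 : q ∣ p ^ (k : ℕ) := by
      rw [← hk, hF]
      exact dvd_pow_self q two_ne_zero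
    obtain ⟨a, -, ha⟩ := (Nat.dvd_prime_pow hpp).mp h1
    exact ⟨a, ha⟩
  have ha : 1 ≤ a := by
    by_contra h
    have h0 : a = 0 := by omega
    rw [h0, pow_zero, one_pow] at hF
    have := Fintype.one_lt_card (α := F)
    omega
  have hq2 := Helper42.SpecPSU.two_le_q p a ha
  have hupper := Helper42.U3Upper.upper p a ha hp hF
  obtain ⟨x₁, hx₁⟩ := Helper42.U3Lower.exists_order1 p a ha hF
  obtain ⟨x₂, hx₂⟩ := Helper42.U3Lower.exists_order2 p a ha hF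
  obtain ⟨x₃, hx₃⟩ := Helper42.U3Lower.exists_order3 p a ha hF
  obtain ⟨x₄, hx₄⟩ := Helper42.U3Lower.exists_order4 p a ha hF
  have hdB := Helper42.U3Lemmas.gcd_dvd_B (p ^ a) hq2
  have hdQ := Helper42.U3Lemmas.gcd_dvd_sq_sub_one (p ^ a) (by omega)
  have hcop : Nat.Coprime p (p ^ a + 1) := by
    rw [Nat.Prime.coprime_iff_not_dvd hpp]
    intro h
    have h1 : p ∣ p ^ a := dvd_pow_self p (by omega)
    have h2 : p ∣ 1 := (Nat.dvd_add_right h1).mp h
    exact hpp.one_lt.ne' (Nat.dvd_one.mp h2)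
  obtain ⟨d, hd⟩ : ∃ d, d = Nat.gcd 3 (p ^ a + 1) := ⟨_, rfl⟩
  rw [← hd] at hupper hx₄ hdB hdQ ⊢
  have hdq : d ∣ p ^ a + 1 := by rw [hd]; exact Nat.gcd_dvd_right _ _
  have hdpos : 0 < d := by
    rw [hd]
    exact Nat.gcd_pos_of_pos_left _ (by norm_num)
  have hmul : p * (p ^ a + 1) / d = p * ((p ^ a + 1) / d) := Nat.mul_div_assoc p hdq
  rw [hmul]
  apply Set.eq_of_subset_of_subset
  · rintro _ ⟨x, rfl⟩
    have h := hupper x
    simp only [Set.mem_union, Set.mem_ofPred_eq]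
    tauto
  · intro s hs
    simp only [Set.mem_union, Set.mem_ofPred_eq] at hs
    have key : ∀ (x : Cfsg.PSU 3 F (p ^ a)) (n : ℕ), (∀ k, x ^ k = 1 → n ∣ k) → s ∣ n →
        s ∈ Set.range (orderOf : Cfsg.PSU 3 F (p ^ a) → ℕ) := by
      intro x n hx hsn
      exact S2514.dvd_closed (G := Cfsg.PSU 3 F (p ^ a)) ⟨x, rfl⟩
        (hsn.trans (hx _ (pow_orderOf_eq_one x)))
    rcases hs with ((hs | hs) | hs) | hs
    · exact key x₁ _ hx₁ hs
    · refine key x₂ _ (fun k hk => ?_) hs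
      obtain ⟨h1, h2⟩ := hx₂ k hk
      have h3 : p ^ a + 1 ∣ d * k := by
        rw [hd, ← Nat.gcd_mul_right]
        exact Nat.dvd_gcd h2 (dvd_mul_right _ _)
      have h4 : (p ^ a + 1) / d ∣ k := (Nat.div_dvd_iff_dvd_mul hdq hdpos).mpr h3
      exact Nat.Coprime.mul_dvd_of_dvd_of_dvd
        (Nat.Coprime.coprime_dvd_right (Nat.div_dvd_of_dvd hdq) hcop) h1 h4
    · refine key x₃ _ (fun k hk => ?_) hs
      obtain ⟨h1, h2⟩ := hx₃ k hk
      have h3 : (p ^ a) ^ 2 - 1 ∣ d * k := by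
        rw [hd, ← Nat.gcd_mul_right]
        exact Nat.dvd_gcd h1 h2
      exact (Nat.div_dvd_iff_dvd_mul hdQ hdpos).mpr h3
    · refine key x₄ _ (fun k hk => ?_) hs
      exact (Nat.div_dvd_iff_dvd_mul hdB hdpos).mpr (hx₄ k hk)

end Cfsg.Agent.S2366
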