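import Cfsg.Statements.S2394
import Mathlib
import Cfsg.Agent.S2904
import Cfsg.Agent.Helper5.SympCard

set_option autoImplicit false
open scoped MatrixGroups
open Cfsg

namespace Cfsg.Agent.S2394

theorem prime_dvd_GL {q d r : ℕ} (hr : r.Prime) (hq : ¬ r ∣ q)
    (h : r ∣ ∏ i : Fin d, (q ^ d - q ^ (i : ℕ))) : ∃ k, 0 < k ∧ k ≤ d ∧ r ∣ q ^ k - 1 := by
  obtain ⟨i, -, hi⟩ := (Nat.Prime.prime hr).exists_mem_finset_dvd h
  have hid : (i : ℕ) < d := i.2
  have e : q ^ d - q ^ (i : ℕ) = q ^ (i : ℕ) * (q ^ (d - (i : ℕ)) - 1) := by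
    rw [Nat.mul_sub, mul_one, ← pow_add]
    congr 2
    omega
  rw [e] at hi
  rcases (Nat.Prime.dvd_mul hr).mp hi with h1 | h1
  · exact absurd (hr.dvd_of_dvd_pow h1) hq
  · exact ⟨d - (i : ℕ), by omega, by omega, h1⟩

/-- The smallest degree of a faithful representation of the symplectic group `Sp_{2n}(q)` over its own field `F_q` is `2n`: every injective homomorphism from `Sp_{2n}(F)` to `GL_d(F)`, `F` the field with `q` elements, has `d ≥ 2n`. -/
theorem result {F : Type*} [Field F] [Fintype F] (n : ℕ) {d : ℕ}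
    (ρ : ↥(Matrix.symplecticGroup (Fin n) F) →* GL (Fin d) F) (hρ : Function.Injective ρ) : 2 * n ≤ d := by
  classical
  by_contra hlt
  push Not at hlt
  have hdvd : Nat.card ↥(Matrix.symplecticGroup (Fin n) F) ∣ Nat.card (GL (Fin d) F) :=
    Subgroup.card_dvd_of_injective ρ hρ
  rw [Cfsg.Agent.Helper5.card_sp, Matrix.card_GL_field] at hdvd
  have hq1 : 1 < Fintype.card F := Fintype.one_lt_card
  generalize Fintype.card F = q at hdvd hq1
  have hn1 : 1 ≤ n := by omega
  rcases Nat.lt_or_ge n 2 with hn2 | hn2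
  · -- n = 1
    have hn : n = 1 := by omega
    subst hn
    have hd1 : d = 0 ∨ d = 1 := by omega
    have hbig : q - 1 < q ^ (1 ^ 2) * ∏ i ∈ Finset.range 1, (q ^ (2 * (i + 1)) - 1) := by
      simp only [one_pow, pow_one, Finset.prod_range_one, zero_add, mul_one]
      have h3 : 3 ≤ q ^ 2 - 1 := by
        have : 2 * 2 ≤ q * q := Nat.mul_le_mul hq1 hq1
        have : q ^ 2 = q * q := by ring
        omega
      calc q - 1 < q * 1 := by omega
        _ ≤ q * (q ^ 2 - 1) := Nat.mul_le_mul_left q (by omega)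
    rcases hd1 with rfl | rfl
    · simp only [Finset.univ_eq_empty, Finset.prod_empty] at hdvd
      have := Nat.le_of_dvd (by norm_num) hdvd
      omega
    · simp only [Fin.prod_univ_one, Fin.val_zero, pow_one, pow_zero] at hdvd
      have := Nat.le_of_dvd (by omega) hdvd
      omega
  · by_cases hex : q = 2 ∧ 2 * n = 6
    · obtain ⟨rfl, hn3⟩ := hex
      have hn : n = 3 := by omega
      subst hn
      have hd5 : d ≤ 5 := by omega
      interval_cases d <;>
        simp [Finset.prod_range_succ, Fin.prod_univ_succ] at hdvd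
    · obtain ⟨r, hr, hr1, hr2⟩ := Cfsg.Agent.S2904.result q (2 * n) hq1 (by omega) hex
        (by rintro ⟨h, -⟩; omega)
      have hrq : ¬ r ∣ q := by
        intro h
        have h1 : r ∣ q ^ (2 * n) := dvd_pow h (by omega)
        have h2 : 1 ≤ q ^ (2 * n) := Nat.one_le_pow _ _ (by omega)
        have h3 : r ∣ 1 := by
          have := Nat.dvd_sub h1 hr1
          rwa [Nat.sub_sub_self h2] at this
        exact hr.one_lt.ne' (Nat.dvd_one.mp h3)
      have h4 : r ∣ q ^ (n ^ 2) * ∏ i ∈ Finset.range n, (q ^ (2 * (i + 1)) - 1) := by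
        apply Dvd.dvd.mul_left
        have hmem : n - 1 ∈ Finset.range n := Finset.mem_range.mpr (by omega)
        have h5 : q ^ (2 * (n - 1 + 1)) - 1 = q ^ (2 * n) - 1 := by
          congr 3; omega
        exact (h5 ▸ hr1).trans (Finset.dvd_prod_of_mem _ hmem)
      obtain ⟨k, hk0, hkd, hk⟩ := prime_dvd_GL hr hrq (h4.trans hdvd)
      exact hr2 k hk0 (by omega) hk

end Cfsg.Agent.S2394
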