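import Cfsg.Statements.S2450
import Cfsg.Agent.Helper41.SL2b

set_option autoImplicit false
open Cfsg

namespace Cfsg.Agent.S2450

open Cfsg.Agent.Helper41

theorem quad_card_le_two {F : Type*} [Field F] [Fintype F] [DecidableEq F] (c0 c1 c2 τ : F)
    (hc2 : c2 ≠ 0) :
    (Finset.univ.filter (fun x : F => c0 + c1 * x + c2 * x ^ 2 = τ)).card ≤ 2 := by
  by_contra hcon
  push Not at hcon
  obtain ⟨x1, x2, x3, h1, h2, h3, h12, h13, h23⟩ := Finset.two_lt_card_iff.mp hcon
  simp only [Finset.mem_filter, Finset.mem_univ, true_and] at h1 h2 h3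
  have e12 : (x1 - x2) * (c1 + c2 * (x1 + x2)) = 0 := by linear_combination h1 - h2
  have e13 : (x1 - x3) * (c1 + c2 * (x1 + x3)) = 0 := by linear_combination h1 - h3
  have f12 : c1 + c2 * (x1 + x2) = 0 := by
    rcases mul_eq_zero.mp e12 with h | h
    · exact absurd (sub_eq_zero.mp h) h12
    · exact h
  have f13 : c1 + c2 * (x1 + x3) = 0 := by
    rcases mul_eq_zero.mp e13 with h | h
    · exact absurd (sub_eq_zero.mp h) h13
    · exact h
  have : c2 * (x2 - x3) = 0 := by linear_combination f12 - f13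
  rcases mul_eq_zero.mp this with h | h
  · exact hc2 h
  · exact h23 (sub_eq_zero.mp h)

theorem quad_contra {F : Type*} [Field F] [Fintype F] (h4 : 4 ≤ Fintype.card F) (c0 c1 c2 τ : F)
    (hc2 : c2 ≠ 0)
    (h : ∀ x : F, c0 + c1 * x + c2 * x ^ 2 = τ ∨ c0 + c1 * x + c2 * x ^ 2 = -τ) : False := by
  classical
  have hS1 := quad_card_le_two c0 c1 c2 τ hc2
  have hS2 := quad_card_le_two c0 c1 c2 (-τ) hc2
  have huniv : (Finset.univ : Finset F) =
      (Finset.univ.filter (fun x : F => c0 + c1 * x + c2 * x ^ 2 = τ)) ∪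
      (Finset.univ.filter (fun x : F => c0 + c1 * x + c2 * x ^ 2 = -τ)) := by
    ext x
    simp only [Finset.mem_univ, Finset.mem_union, Finset.mem_filter, true_and, true_iff]
    exact h x
  have hcard : Fintype.card F ≤ 4 := by
    rw [← Finset.card_univ, huniv]
    exact le_trans (Finset.card_union_le _ _) (by omega)
  have hcard4 : Fintype.card F = 4 := le_antisymm hcard h4
  have h40 : ((4 : ℕ) : F) = 0 := by rw [← hcard4]; exact Nat.cast_card_eq_zero F
  have h20 : (2 : F) = 0 := by
    have : (2 : F) * 2 = 0 := by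
      have : ((4 : ℕ) : F) = 2 * 2 := by norm_num
      rw [← this]; exact h40
    rcases mul_eq_zero.mp this with h | h <;> exact h
  have hτ : -τ = τ := by linear_combination (-τ) * h20
  rw [hτ] at huniv
  have : Fintype.card F ≤ 2 := by
    rw [← Finset.card_univ, huniv, Finset.union_self]
    exact hS1
  omega

/-- The Arad–Herzog conjecture for PSL(2,q): let F be a finite field with q ≥ 4 elements. For any two non-identity elements a, b of PSL(2,F), the set of products of a conjugate of a with a conjugate of b is not a single conjugacy class. -/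
theorem result {F : Type*} [Field F] [Fintype F] (h4 : 4 ≤ Fintype.card F)
    (a b : Matrix.ProjectiveSpecialLinearGroup (Fin 2) F) (ha : a ≠ 1) (hb : b ≠ 1) (c : Matrix.ProjectiveSpecialLinearGroup (Fin 2) F) :
    {g : Matrix.ProjectiveSpecialLinearGroup (Fin 2) F | ∃ u v : Matrix.ProjectiveSpecialLinearGroup (Fin 2) F, g = (u * a * u⁻¹) * (v * b * v⁻¹)} ≠ {g | IsConj c g} := by
  intro hset
  obtain ⟨A0, rfl⟩ := pmk_surjective a
  obtain ⟨B0, rfl⟩ := pmk_surjective b
  obtain ⟨C, rfl⟩ := pmk_surjective c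
  obtain ⟨P, hP⟩ := exists_conj_lower_ne_zero A0 ha
  obtain ⟨R, hR⟩ := exists_conj_lower_ne_zero B0 hb
  set A := P * A0 * P⁻¹ with hA
  set B := R * B0 * R⁻¹ with hB
  have key : ∀ x : F,
      ((A * (Ux x * B * (Ux x)⁻¹) : Matrix.SpecialLinearGroup (Fin 2) F) :
        Matrix (Fin 2) (Fin 2) F).trace = (C : Matrix (Fin 2) (Fin 2) F).trace ∨
      ((A * (Ux x * B * (Ux x)⁻¹) : Matrix.SpecialLinearGroup (Fin 2) F) :
        Matrix (Fin 2) (Fin 2) F).trace = -(C : Matrix (Fin 2) (Fin 2) F).trace := by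
    intro x
    have hmem : pmk (A * (Ux x * B * (Ux x)⁻¹)) ∈
        {g : Matrix.ProjectiveSpecialLinearGroup (Fin 2) F | ∃ u v : Matrix.ProjectiveSpecialLinearGroup (Fin 2) F, g = (u * pmk A0 * u⁻¹) * (v * pmk B0 * v⁻¹)} := by
      refine ⟨pmk P, pmk (Ux x * R), ?_⟩
      rw [hA, hB]
      simp only [pmk, QuotientGroup.mk_mul, QuotientGroup.mk_inv]
      group
    rw [hset] at hmem
    obtain ⟨w, hw⟩ := isConj_iff.mp hmem
    obtain ⟨W, rfl⟩ := pmk_surjective w
    have hw' : pmk (W * C * W⁻¹) = pmk (A * (Ux x * B * (Ux x)⁻¹)) := by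
      rw [← hw]
      simp only [pmk, QuotientGroup.mk_mul, QuotientGroup.mk_inv]
    rcases (pmk_eq_iff _ _).mp hw' with h | h
    · left
      rw [← h, trace_conj]
    · right
      have := congrArg Matrix.trace h
      rw [trace_conj, Matrix.trace_neg] at this
      rw [this]; simp
  simp only [trace_mul_conj_Ux] at key
  refine quad_contra h4 _ _ _ _ ?_ key
  exact neg_ne_zero.mpr (mul_ne_zero hP hR)

end Cfsg.Agent.S2450
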