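import Cfsg.Statements.S2455
import Cfsg.Agent.Helper41.SL2c

set_option autoImplicit false
open Cfsg

namespace Cfsg.Agent.S2455

open Cfsg.Agent.Helper41

theorem comm_unip {S : Type*} [CommRing S] (p : ℕ) [Fact p.Prime] [CharP S p] (x e : S)
    (he : e ^ 2 = 1) (hx : x ^ 2 = 2 * e * x - 1) : x ^ p = e ^ p := by
  have hpp : p.Prime := Fact.out
  have h1 : (x - e) ^ 2 = 0 := by linear_combination hx + he
  have h2 : (x - e) ^ p = 0 := by
    have : p = 2 + (p - 2) := by have := hpp.two_le; omega
    rw [this, pow_add, h1, zero_mul]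
  have : x = e + (x - e) := by ring
  conv_lhs => rw [this]
  rw [add_pow_char, h2, add_zero]

theorem unip_pow {F : Type*} [Field F] (p : ℕ) [Fact p.Prime] [CharP F p]
    (X : Matrix.SpecialLinearGroup (Fin 2) F) (e : F) (he : e ^ 2 = 1)
    (ht : (X : Matrix (Fin 2) (Fin 2) F).trace = 2 * e) :
    (X : Matrix (Fin 2) (Fin 2) F) ^ p = (e ^ p) • (1 : Matrix (Fin 2) (Fin 2) F) := by
  have hnt : Nontrivial (MatAlg (X : Matrix (Fin 2) (Fin 2) F)) := MatAlg.nontrivial _
  have hchar : CharP (MatAlg (X : Matrix (Fin 2) (Fin 2) F)) p :=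
    charP_of_injective_algebraMap (algebraMap F _).injective p
  have hx : (MatAlg.gen (X : Matrix (Fin 2) (Fin 2) F)) ^ 2 =
      2 * algebraMap F _ e * MatAlg.gen (X : Matrix (Fin 2) (Fin 2) F) - 1 := by
    apply MatAlg.lift_injective
    rw [map_pow, map_sub, map_mul, map_mul, map_one, MatAlg.lift_gen, MatAlg.lift_algebraMap,
      pow_two, sl2_sq, ht, map_ofNat]
    simp [two_mul, add_smul]
  have h := comm_unip p _ _ (by rw [← map_pow, he, map_one]) hx
  have h' := congrArg (MatAlg.lift (X : Matrix (Fin 2) (Fin 2) F)) h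
  rw [map_pow, MatAlg.lift_gen, ← map_pow, MatAlg.lift_algebraMap] at h'
  exact h'

/-- A strong covering result in the direction of Thompson's conjecture (non-identity elements) for PSL(2,q), q odd: let F be a finite field of odd characteristic p with at least 5 elements and let x ∈ PSL(2,F) have order greater than 2 and not divisible by p (so x is not unipotent). Then every non-identity element of PSL(2,F) is a product of two conjugates of x. -/
theorem result {F : Type*} [Field F] [Fintype F] (p : ℕ) [Fact p.Prime] [CharP F p] (hp : p ≠ 2) (h5 : 5 ≤ Fintype.card F)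
    (x : Matrix.ProjectiveSpecialLinearGroup (Fin 2) F) (hx2 : 2 < orderOf x) (hxp : ¬ p ∣ orderOf x) : ∀ g : Matrix.ProjectiveSpecialLinearGroup (Fin 2) F, g ≠ 1 → ∃ u v : Matrix.ProjectiveSpecialLinearGroup (Fin 2) F, g = (u * x * u⁻¹) * (v * x * v⁻¹) := by
  obtain ⟨X, rfl⟩ := pmk_surjective x
  have hpp : p.Prime := Fact.out
  have hodd : Fintype.card F % 2 = 1 := by
    apply FiniteField.odd_card_of_char_ne_two
    rw [ringChar.eq F p]; exact hp
  have h2 := two_ne_zero_of_odd_card hodd
  have h4 : (4 : F) ≠ 0 := by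
    have : (4 : F) = 2 * 2 := by norm_num
    rw [this]; exact mul_ne_zero h2 h2
  have ht0 : (X : Matrix (Fin 2) (Fin 2) F).trace ≠ 0 := by
    intro h0
    have : pmk X ^ 2 = 1 := by
      rw [pmk_pow_eq_one_iff]; right
      rw [pow_two, sl2_sq, h0]; simp
    have := orderOf_dvd_of_pow_eq_one this
    have := Nat.le_of_dvd (by norm_num) this
    omega
  have ht4 : (X : Matrix (Fin 2) (Fin 2) F).trace ^ 2 ≠ 4 := by
    intro h4
    have hcases : (X : Matrix (Fin 2) (Fin 2) F).trace = 2 * 1 ∨
        (X : Matrix (Fin 2) (Fin 2) F).trace = 2 * (-1) := by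
      have : ((X : Matrix (Fin 2) (Fin 2) F).trace - 2) *
          ((X : Matrix (Fin 2) (Fin 2) F).trace + 2) = 0 := by linear_combination h4
      rcases mul_eq_zero.mp this with h | h
      · left; linear_combination h
      · right; linear_combination h
    have hXp : pmk X ^ p = 1 := by
      rw [pmk_pow_eq_one_iff]
      rcases hcases with h | h
      · left
        rw [unip_pow p X 1 (by ring) h]; simp
      · right
        rw [unip_pow p X (-1) (by ring) h, (hpp.odd_of_ne_two hp).neg_one_pow]; simp
    have hdvd := orderOf_dvd_of_pow_eq_one hXp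
    rcases (Nat.dvd_prime hpp).mp hdvd with h | h
    · omega
    · exact hxp (by rw [h])
  apply cover_of_conic X
  · intro M hM h1
    rw [pmk_eq_one_iff] at h1
    apply ht4
    rcases h1 with h1 | h1
    · have : (X : Matrix (Fin 2) (Fin 2) F).trace = 2 := by
        rw [← hM, h1]; simp [Matrix.trace]
      rw [this]; norm_num
    · have : (X : Matrix (Fin 2) (Fin 2) F).trace = -2 := by
        rw [← hM, h1]; simp [Matrix.trace]
      rw [this]; norm_num
  · intro c _
    exact norm_univ_odd hodd _ ht4 c
  · intro s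
    by_cases hs : s = 2
    · right
      apply conic_odd hodd _ (-s) ht0
      rw [hs]
      intro h
      apply h4
      linear_combination (-1 : F) * h
    · left
      exact conic_odd hodd _ s ht0 hs

end Cfsg.Agent.S2455
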