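import Cfsg.Statements.S2456
import Cfsg.Agent.Helper41.SL2c

set_option autoImplicit false
open Cfsg

namespace Cfsg.Agent.S2456

open Cfsg.Agent.Helper41

/-- A strong covering result in the direction of Thompson's conjecture (non-identity elements) for PSL(2,q), q even: let F be a finite field of characteristic 2 with q ≥ 4 elements and let x ∈ PSL(2,F) have order greater than 2 and not dividing q + 1. Then every non-identity element of PSL(2,F) is a product of two conjugates of x. -/
theorem result {F : Type*} [Field F] [Fintype F] [CharP F 2] (h4 : 4 ≤ Fintype.card F)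
    (x : Matrix.ProjectiveSpecialLinearGroup (Fin 2) F) (hx2 : 2 < orderOf x) (hxq : ¬ orderOf x ∣ Fintype.card F + 1) : ∀ g : Matrix.ProjectiveSpecialLinearGroup (Fin 2) F, g ≠ 1 → ∃ u v : Matrix.ProjectiveSpecialLinearGroup (Fin 2) F, g = (u * x * u⁻¹) * (v * x * v⁻¹) := by
  obtain ⟨X, rfl⟩ := pmk_surjective x
  have h2 : (2 : F) = 0 := CharTwo.two_eq_zero
  have ht0 : (X : Matrix (Fin 2) (Fin 2) F).trace ≠ 0 := by
    intro h0
    have : pmk X ^ 2 = 1 := by
      rw [pmk_pow_eq_one_iff]; right
      rw [pow_two, sl2_sq, h0]; simp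
    have := orderOf_dvd_of_pow_eq_one this
    have := Nat.le_of_dvd (by norm_num) this
    omega
  have hroot : ∃ l : F, l ^ 2 - (X : Matrix (Fin 2) (Fin 2) F).trace * l + 1 = 0 := by
    by_contra hcon
    push Not at hcon
    apply hxq
    apply orderOf_dvd_of_pow_eq_one
    rw [pmk_pow_eq_one_iff]
    left
    exact (nonsplit_pow X hcon).1
  obtain ⟨l, hl⟩ := hroot
  apply cover_of_conic X
  · intro M hM h1
    rw [pmk_eq_one_iff] at h1
    apply ht0
    rcases h1 with h1 | h1
    · rw [← hM, h1]; simp [Matrix.trace]; exact h2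
    · rw [← hM, h1]; simp [Matrix.trace]; exact h2
  · intro c _
    exact norm_univ_char_two _ c
  · intro s
    left
    exact ⟨l, 0, by linear_combination hl⟩

end Cfsg.Agent.S2456
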