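import Cfsg.Statements.S2466
import Mathlib

set_option autoImplicit false
open Cfsg

namespace Cfsg.Agent.S2466

theorem prime_dvd_multiset_lcm {p : ℕ} (hp : p.Prime) (m : Multiset ℕ) (h : p ∣ m.lcm) :
    ∃ a ∈ m, p ∣ a := by
  induction m using Multiset.induction_on with
  | empty =>
    simp at h
    exact absurd h hp.one_lt.ne'
  | cons a m ih =>
    rw [Multiset.lcm_cons] at h
    have h2 : p ∣ a * m.lcm := dvd_trans h (Nat.lcm_dvd_mul a m.lcm)
    rcases (Nat.Prime.dvd_mul hp).mp h2 with h3 | h3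
    · exact ⟨a, Multiset.mem_cons_self a m, h3⟩
    · obtain ⟨b, hb, hb2⟩ := ih h3
      exact ⟨b, Multiset.mem_cons_of_mem hb, hb2⟩

theorem add_le_sum_of_mem_of_ne {m : Multiset ℕ} {a b : ℕ} (ha : a ∈ m) (hb : b ∈ m) (hab : a ≠ b) :
    a + b ≤ m.sum := by
  obtain ⟨m', rfl⟩ := Multiset.exists_cons_of_mem ha
  have hb' : b ∈ m' := by
    rcases Multiset.mem_cons.mp hb with h | h
    · exact absurd h.symm hab
    · exact h
  obtain ⟨m'', rfl⟩ := Multiset.exists_cons_of_mem hb'
  simp only [Multiset.sum_cons]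
  omega

/-- Adjacency of odd primes in the prime graph of the alternating groups: let r ≠ s be odd primes at most n. The alternating group of degree n has an element of order r·s if and only if r + s ≤ n. -/
theorem result (n r s : ℕ) (hr : r.Prime) (hs : s.Prime) (hr2 : r ≠ 2) (hs2 : s ≠ 2) (hrs : r ≠ s) (hrn : r ≤ n) (hsn : s ≤ n) :
    (r * s ∈ Set.range (orderOf : alternatingGroup (Fin n) → ℕ)) ↔ r + s ≤ n := by
  have hr3 : 3 ≤ r := by
    have := hr.two_le
    omega
  have hs3 : 3 ≤ s := by
    have := hs.two_le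
    omega
  constructor
  · rintro ⟨g, hg⟩
    have h1 : orderOf (g : Equiv.Perm (Fin n)) = r * s := by
      rw [← hg]; exact Subgroup.orderOf_coe g
    rw [← Equiv.Perm.lcm_cycleType] at h1
    have hsum : (g : Equiv.Perm (Fin n)).cycleType.sum ≤ n := by
      have := Equiv.Perm.sum_cycleType_le (g : Equiv.Perm (Fin n))
      simpa using this
    obtain ⟨a, ha, hra⟩ := prime_dvd_multiset_lcm hr _ (h1 ▸ Dvd.intro _ rfl)
    obtain ⟨b, hb, hsb⟩ := prime_dvd_multiset_lcm hs _ (h1 ▸ Dvd.intro_left _ rfl)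
    have ha2 := Equiv.Perm.two_le_of_mem_cycleType ha
    have hb2 := Equiv.Perm.two_le_of_mem_cycleType hb
    by_cases hab : a = b
    · subst hab
      have hrsa : r * s ∣ a :=
        Nat.Coprime.mul_dvd_of_dvd_of_dvd ((Nat.coprime_primes hr hs).mpr hrs) hra hsb
      have h3 : r * s ≤ a := Nat.le_of_dvd (by omega) hrsa
      have h4 : a ≤ (g : Equiv.Perm (Fin n)).cycleType.sum := Multiset.single_le_sum (by simp) _ ha
      have h5 : r + s ≤ r * s := by nlinarith
      omega
    · have h3 := add_le_sum_of_mem_of_ne ha hb hab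
      have h4 : r ≤ a := Nat.le_of_dvd (by omega) hra
      have h5 : s ≤ b := Nat.le_of_dvd (by omega) hsb
      omega
  · intro h
    obtain ⟨g, hg⟩ := (Equiv.Perm.exists_with_cycleType_iff (α := Fin n) (m := {r, s})).mpr
      ⟨by simpa using h, by
        intro a ha
        simp at ha
        rcases ha with rfl | rfl <;> omega⟩
    have hsign : Equiv.Perm.sign g = 1 := by
      rw [Equiv.Perm.sign_of_cycleType, hg]
      have hro : Odd r := hr.odd_of_ne_two hr2
      have hso : Odd s := hs.odd_of_ne_two hs2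
      simp
      apply Even.neg_one_pow
      have := hro.add_odd hso
      exact this.add (by decide)
    refine ⟨⟨g, Equiv.Perm.mem_alternatingGroup.mpr hsign⟩, ?_⟩
    rw [← Subgroup.orderOf_coe]
    simp only
    rw [← Equiv.Perm.lcm_cycleType, hg]
    have : ({r, s} : Multiset ℕ) = r ::ₘ {s} := rfl
    rw [this, Multiset.lcm_cons, Multiset.lcm_singleton]
    simp
    exact ((Nat.coprime_primes hr hs).mpr hrs).lcm_eq_mul

end Cfsg.Agent.S2466
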