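import Cfsg.Statements.S2467
import Mathlib

set_option autoImplicit false
open Cfsg

namespace Cfsg.Agent.S2467

theorem prime_dvd_multiset_lcm {p : ℕ} (hp : p.Prime) (m : Multiset ℕ) (h : p ∣ m.lcm) :
    ∃ a ∈ m, p ∣ a := by
  induction m using Multiset.induction_on with
  | empty =>
    simp at h
    exact absurd h hp.one_lt.ne'
  | cons a m ih =>
    rw [Multiset.lcm_cons] at h
    have h2 : p ∣ a * m.lcm := dvd_trans h (Nat.lcm_dvd_mul a m.lcm)
    rcases (Nat.Prime.dvd_mul hp).mp h2 with h3 | h3
    · exact ⟨a, Multiset.mem_cons_self a m, h3⟩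
    · obtain ⟨b, hb, hb2⟩ := ih h3
      exact ⟨b, Multiset.mem_cons_of_mem hb, hb2⟩

theorem even_sum_add_card_of_odd (m : Multiset ℕ) (h : ∀ x ∈ m, Odd x) :
    Even (m.sum + m.card) := by
  induction m using Multiset.induction_on with
  | empty => simp
  | cons a m ih =>
    have h1 := ih (fun x hx => h x (Multiset.mem_cons_of_mem hx))
    have h2 := h a (Multiset.mem_cons_self a m)
    rw [Multiset.sum_cons, Multiset.card_cons]
    have : a + m.sum + (m.card + 1) = (a + 1) + (m.sum + m.card) := by ring
    rw [this]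
    exact (h2.add_odd odd_one).add h1

/-- Adjacency of 2 and an odd prime in the prime graph of the alternating groups: let r be an odd prime at most n, with n ≥ 4. The alternating group of degree n has an element of order 2r if and only if r + 4 ≤ n. -/
theorem result (n r : ℕ) (hn : 4 ≤ n) (hr : r.Prime) (hr2 : r ≠ 2) (hrn : r ≤ n) :
    (2 * r ∈ Set.range (orderOf : alternatingGroup (Fin n) → ℕ)) ↔ r + 4 ≤ n := by
  have hr3 : 3 ≤ r := by
    have := hr.two_le
    omega
  have hro : Odd r := hr.odd_of_ne_two hr2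
  constructor
  · rintro ⟨g, hg⟩
    have h1 : orderOf (g : Equiv.Perm (Fin n)) = 2 * r := by
      rw [← hg]; exact Subgroup.orderOf_coe g
    rw [← Equiv.Perm.lcm_cycleType] at h1
    have hsum : (g : Equiv.Perm (Fin n)).cycleType.sum ≤ n := by
      have := Equiv.Perm.sum_cycleType_le (g : Equiv.Perm (Fin n))
      simpa using this
    have hsign : Equiv.Perm.sign (g : Equiv.Perm (Fin n)) = 1 :=
      Equiv.Perm.mem_alternatingGroup.mp g.2
    rw [Equiv.Perm.sign_of_cycleType] at hsign
    have h2le : ∀ x ∈ (g : Equiv.Perm (Fin n)).cycleType, 2 ≤ x :=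
      fun x hx => Equiv.Perm.two_le_of_mem_cycleType hx
    generalize (g : Equiv.Perm (Fin n)).cycleType = m at h1 hsum hsign h2le
    obtain ⟨a, ha, hra⟩ := prime_dvd_multiset_lcm hr _ (h1 ▸ Dvd.intro_left _ rfl)
    obtain ⟨b, hb, h2b⟩ := prime_dvd_multiset_lcm Nat.prime_two _ (h1 ▸ Dvd.intro _ rfl)
    obtain ⟨m', rfl⟩ := Multiset.exists_cons_of_mem hb
    have hbe : Even b := even_iff_two_dvd.mpr h2b
    have hm' : ¬ ∀ x ∈ m', Odd x := by
      intro hall
      have h3 := even_sum_add_card_of_odd m' hall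
      have h4 : Odd ((b ::ₘ m').sum + (b ::ₘ m').card) := by
        rw [Multiset.sum_cons, Multiset.card_cons]
        have : b + m'.sum + (m'.card + 1) = (b + (m'.sum + m'.card)) + 1 := by ring
        rw [this]
        exact (hbe.add h3).add_one
      rw [h4.neg_one_pow] at hsign
      exact absurd hsign (by decide)
    push Not at hm'
    obtain ⟨b', hb', hb'e⟩ := hm'
    rw [Nat.not_odd_iff_even] at hb'e
    obtain ⟨m'', rfl⟩ := Multiset.exists_cons_of_mem hb'
    have hb2 : 2 ≤ b := h2le b (by simp)
    have hb'2 : 2 ≤ b' := h2le b' (by simp)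
    simp only [Multiset.sum_cons] at hsum
    have h2r : ∀ c, Even c → r ∣ c → 0 < c → 2 * r ≤ c := by
      intro c hce hrc hc
      have : 2 * r ∣ c := Nat.Coprime.mul_dvd_of_dvd_of_dvd
        ((Nat.coprime_primes Nat.prime_two hr).mpr (Ne.symm hr2)) (even_iff_two_dvd.mp hce) hrc
      exact Nat.le_of_dvd hc this
    simp only [Multiset.mem_cons] at ha
    rcases ha with rfl | rfl | ha
    · have := h2r a hbe hra (by omega)
      omega
    · have := h2r a hb'e hra (by omega)
      omega
    · have h4 : a ≤ m''.sum := Multiset.single_le_sum (by simp) _ ha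
      have h5 : r ≤ a := Nat.le_of_dvd (by have := h2le a (by simp [ha]); omega) hra
      omega
  · intro h
    obtain ⟨g, hg⟩ := (Equiv.Perm.exists_with_cycleType_iff (α := Fin n) (m := {r, 2, 2})).mpr
      ⟨by simpa using (by omega : r + (2 + 2) ≤ n), by
        intro a ha
        simp at ha
        rcases ha with rfl | rfl <;> omega⟩
    have hsign : Equiv.Perm.sign g = 1 := by
      rw [Equiv.Perm.sign_of_cycleType, hg]
      simp
      apply Even.neg_one_pow
      have : r + 4 + 3 = (r + 1) + 6 := by ring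
      rw [this]
      exact (hro.add_odd odd_one).add (by decide)
    refine ⟨⟨g, Equiv.Perm.mem_alternatingGroup.mpr hsign⟩, ?_⟩
    rw [← Subgroup.orderOf_coe]
    simp only
    rw [← Equiv.Perm.lcm_cycleType, hg]
    have : ({r, 2, 2} : Multiset ℕ) = r ::ₘ 2 ::ₘ {2} := rfl
    rw [this, Multiset.lcm_cons, Multiset.lcm_cons, Multiset.lcm_singleton]
    simp
    have := ((Nat.coprime_primes hr Nat.prime_two).mpr hr2).lcm_eq_mul
    rw [mul_comm] at this
    exact this

end Cfsg.Agent.S2467
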