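import Cfsg.Statements.S2471
import Cfsg.Agent.Helper41.SL2

set_option autoImplicit false
open Cfsg

namespace Cfsg.Agent.S2471

open Cfsg.Agent.Helper41

theorem comm_key {F S : Type*} [Field F] [CommRing S] [Algebra F S] [Nontrivial S]
    (p : ℕ) [Fact p.Prime] [CharP F p] (hp : p ≠ 2)
    (x : S) (t : F) (hx : x ^ 2 = algebraMap F S t * x - 1)
    (h : x ^ (2 * p) = 1 ∨ x ^ (2 * p) = -1) :
    (x ^ p = 1 ∨ x ^ p = -1) ∨ (x ^ 2 = 1 ∨ x ^ 2 = -1) := by
  have hpp : p.Prime := Fact.out
  have hinj : Function.Injective (algebraMap F S) := (algebraMap F S).injective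
  have : CharP S p := charP_of_injective_algebraMap hinj p
  have h2 : (2 : F) ≠ 0 := by
    intro h0
    have : ((2 : ℕ) : F) = 0 := by exact_mod_cast h0
    rw [CharP.cast_eq_zero_iff F p] at this
    exact hp ((Nat.prime_dvd_prime_iff_eq hpp Nat.prime_two).mp this)
  obtain ⟨k, hk⟩ : ∃ k, p = 2 * k + 1 := (hpp.odd_of_ne_two hp)
  have hk1 : k ≠ 0 := by
    rintro rfl
    exact hpp.one_lt.ne' (by simpa using hk)
  set τ : F := t / 2 with hτ
  have ht : t = 2 * τ := by rw [hτ]; field_simp
  set a := algebraMap F S with ha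
  set n : S := x - a τ with hn
  set δ : F := τ ^ 2 - 1 with hδ
  have hn2 : n ^ 2 = a δ := by
    rw [hn, hδ, map_sub, map_pow, map_one]
    have : a t = 2 * a τ := by rw [ht, map_mul, map_ofNat]
    rw [this] at hx
    linear_combination hx
  have hxp : x ^ p = a (τ ^ p) + a (δ ^ k) * n := by
    have h1 : x = a τ + n := by rw [hn]; ring
    have h3 : n ^ p = a (δ ^ k) * n := by
      rw [hk, pow_succ, pow_mul, hn2, map_pow]
    conv_lhs => rw [h1]
    rw [add_pow_char, h3]
    simp only [map_pow]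
  -- the constant c
  obtain ⟨c, hc, hxc⟩ : ∃ c : F, (c = 1 ∨ c = -1) ∧ x ^ (2 * p) = a c := by
    rcases h with h | h
    · exact ⟨1, Or.inl rfl, by rw [h, map_one]⟩
    · exact ⟨-1, Or.inr rfl, by rw [h, map_neg, map_one]⟩
  have hcp : c ^ p = c := by
    rcases hc with rfl | rfl
    · simp
    · exact (hpp.odd_of_ne_two hp).neg_one_pow
  have hx2p : x ^ (2 * p) = a (τ ^ (2 * p) + δ ^ p) + a (2 * τ ^ p * δ ^ k) * n := by
    have : x ^ (2 * p) = (x ^ p) ^ 2 := by rw [mul_comm, pow_mul]
    rw [this, hxp]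
    have e1 : (a (τ ^ p) + a (δ ^ k) * n) ^ 2 = a (τ ^ p) ^ 2 + 2 * a (τ ^ p) * a (δ ^ k) * n + a (δ ^ k) ^ 2 * n ^ 2 := by ring
    rw [e1, hn2]
    simp only [map_add, map_mul, map_pow, map_ofNat]
    have e2 : a δ ^ p = (a δ ^ k) ^ 2 * a δ := by rw [hk, pow_succ, mul_comm 2 k, pow_mul]
    rw [e2]
    ring
  by_cases hu : 2 * τ ^ p * δ ^ k = 0
  · rcases mul_eq_zero.mp hu with hu | hu
    · rcases mul_eq_zero.mp hu with hu | hu
      · exact absurd hu h2
      · have hτ0 : τ = 0 := pow_eq_zero_iff (hpp.ne_zero) |>.mp hu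
        right; right
        rw [hx, ht, hτ0]
        simp
    · have hδ0 : δ = 0 := pow_eq_zero_iff hk1 |>.mp hu
      left
      rw [hxp, hδ0, zero_pow hk1, map_zero, zero_mul, add_zero]
      have : τ ^ 2 = 1 := by rw [hδ] at hδ0; linear_combination hδ0
      have hτ1 : τ = 1 ∨ τ = -1 := by
        have : (τ - 1) * (τ + 1) = 0 := by linear_combination this
        rcases mul_eq_zero.mp this with h | h
        · left; linear_combination h
        · right; linear_combination h
      rcases hτ1 with h | h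
      · left; rw [h]; simp
      · right; rw [h, (hpp.odd_of_ne_two hp).neg_one_pow]; simp
  · -- n is scalar
    right
    have hn' : n = a ((c - τ ^ (2 * p) - δ ^ p) / (2 * τ ^ p * δ ^ k)) := by
      have e : a (2 * τ ^ p * δ ^ k) * n = a (c - τ ^ (2 * p) - δ ^ p) := by
        rw [map_sub, map_sub]
        rw [hx2p, map_add] at hxc
        linear_combination hxc
      rw [div_eq_inv_mul, map_mul, ← e, ← mul_assoc, ← map_mul, inv_mul_cancel₀ hu, map_one, one_mul]
    set lam : F := τ + (c - τ ^ (2 * p) - δ ^ p) / (2 * τ ^ p * δ ^ k) with hlam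
    have hxl : x = a lam := by
      rw [hlam, map_add, ← hn', hn]; ring
    have h5 : lam ^ (2 * p) = c := by
      apply hinj
      rw [map_pow, ← hxl, hxc]
    have h6 : lam ^ 2 = c := by
      have : (lam ^ 2 - c) ^ p = 0 := by
        rw [sub_pow_char, hcp, ← pow_mul, h5, sub_self]
      have := pow_eq_zero_iff (hpp.ne_zero) |>.mp this
      linear_combination this
    rw [hxl, ← map_pow, h6]
    rcases hc with rfl | rfl
    · left; simp
    · right; simp

/-- In PSL(2,q) with q odd, the characteristic p is isolated from 2 in the prime graph: for F a finite field of odd characteristic p with at least 5 elements, PSL(2,F) has no element of order 2p. -/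
theorem result {F : Type*} [Field F] [Fintype F] (p : ℕ) [Fact p.Prime] [CharP F p] (hp : p ≠ 2) (h5 : 5 ≤ Fintype.card F) (g : Matrix.ProjectiveSpecialLinearGroup (Fin 2) F) :
    orderOf g ≠ 2 * p := by
  intro hord
  have hpp : p.Prime := Fact.out
  obtain ⟨A, rfl⟩ := pmk_surjective g
  have hpow : pmk A ^ (2 * p) = 1 := by rw [← hord]; exact pow_orderOf_eq_one _
  rw [pmk_pow_eq_one_iff] at hpow
  have hnt : Nontrivial (MatAlg (A : Matrix (Fin 2) (Fin 2) F)) := MatAlg.nontrivial _
  have hx : (MatAlg.gen (A : Matrix (Fin 2) (Fin 2) F)) ^ 2 =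
      algebraMap F _ (A : Matrix (Fin 2) (Fin 2) F).trace * MatAlg.gen (A : Matrix (Fin 2) (Fin 2) F) - 1 := by
    apply MatAlg.lift_injective
    rw [map_pow, map_sub, map_mul, map_one, MatAlg.lift_gen, MatAlg.lift_algebraMap, pow_two, sl2_sq]
    simp
  have h' : (MatAlg.gen (A : Matrix (Fin 2) (Fin 2) F)) ^ (2 * p) = 1 ∨
      (MatAlg.gen (A : Matrix (Fin 2) (Fin 2) F)) ^ (2 * p) = -1 := by
    rcases hpow with h | h
    · left; apply MatAlg.lift_injective; rw [map_pow, MatAlg.lift_gen, map_one, h]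
    · right; apply MatAlg.lift_injective; rw [map_pow, MatAlg.lift_gen, map_neg, map_one, h]
  have hback : ∀ m : ℕ, ((MatAlg.gen (A : Matrix (Fin 2) (Fin 2) F)) ^ m = 1 ∨
      (MatAlg.gen (A : Matrix (Fin 2) (Fin 2) F)) ^ m = -1) → pmk A ^ m = 1 := by
    intro m hm
    rw [pmk_pow_eq_one_iff]
    rcases hm with h | h
    · left
      have := congrArg (MatAlg.lift (A : Matrix (Fin 2) (Fin 2) F)) h
      rwa [map_pow, MatAlg.lift_gen, map_one] at this
    · right
      have := congrArg (MatAlg.lift (A : Matrix (Fin 2) (Fin 2) F)) h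
      rwa [map_pow, MatAlg.lift_gen, map_neg, map_one] at this
  have h2p : 2 ≤ p := hpp.two_le
  rcases comm_key p hp _ _ hx h' with h | h
  · have := orderOf_dvd_of_pow_eq_one (hback p h)
    rw [hord] at this
    have := Nat.le_of_dvd (by omega) this
    omega
  · have := orderOf_dvd_of_pow_eq_one (hback 2 h)
    rw [hord] at this
    have := Nat.le_of_dvd (by omega) this
    omega

end Cfsg.Agent.S2471
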