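import Cfsg.Statements.S2485
import Mathlib

set_option autoImplicit false
open scoped Pointwise
open Cfsg

namespace Cfsg.Agent.S2485

theorem sylow_inter_ne_bot {G : Type*} [Group G] [Finite G] (p : ℕ) [Fact p.Prime] (P : Subgroup G)
    (hP : IsPGroup p P)
    (hkey : ∀ y : G, ∃ m m' : G, m ∈ P ∧ m' ∈ P ∧ m ≠ 1 ∧ m = y * m' * y⁻¹)
    (H : Sylow p G) (x : G) : (H : Subgroup G) ⊓ MulAut.conj x • (H : Subgroup G) ≠ ⊥ := by
  obtain ⟨Q, hQ⟩ := hP.exists_le_sylow
  obtain ⟨g, rfl⟩ := MulAction.exists_smul_eq G Q H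
  obtain ⟨m, m', hm, hm', hm1, hmm⟩ := hkey (g⁻¹ * x * g)
  intro hbot
  have hmem : ∀ z : G, z ∈ P → g * z * g⁻¹ ∈ ((g • Q : Sylow p G) : Subgroup G) := by
    intro z hz
    rw [Sylow.coe_subgroup_smul, Subgroup.mem_smul_pointwise_iff_exists]
    exact ⟨z, hQ hz, by simp [MulAut.smul_def]⟩
  have h1 : g * m * g⁻¹ ∈ ((g • Q : Sylow p G) : Subgroup G) := hmem m hm
  have h2 : g * m * g⁻¹ ∈ MulAut.conj x • ((g • Q : Sylow p G) : Subgroup G) := by
    rw [Subgroup.mem_smul_pointwise_iff_exists]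
    refine ⟨g * m' * g⁻¹, hmem m' hm', ?_⟩
    rw [hmm]
    simp [MulAut.smul_def]
    group
  have h3 : g * m * g⁻¹ ∈ (⊥ : Subgroup G) := by
    rw [← hbot]
    exact ⟨h1, h2⟩
  rw [Subgroup.mem_bot] at h3
  apply hm1
  have : m = g⁻¹ * (g * m * g⁻¹) * g := by group
  rw [this, h3]
  group

open Matrix

variable {q : ℕ} [Fact q.Prime]

/-- similitudes of the form `x² + y²`. -/
def GO (q : ℕ) [Fact q.Prime] : Subgroup (GL (Fin 2) (ZMod q)) where
  carrier := {M | ∃ l : ZMod q, (M.val)ᵀ * M.val = l • (1 : Matrix (Fin 2) (Fin 2) (ZMod q))}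
  mul_mem' := by
    rintro M N ⟨l, hl⟩ ⟨l', hl'⟩
    refine ⟨l * l', ?_⟩
    rw [Units.val_mul, Matrix.transpose_mul]
    calc N.valᵀ * M.valᵀ * (M.val * N.val) = N.valᵀ * (M.valᵀ * M.val) * N.val := by
          simp only [Matrix.mul_assoc]
      _ = l • (N.valᵀ * N.val) := by rw [hl]; simp
      _ = (l * l') • 1 := by rw [hl', smul_smul]
  one_mem' := ⟨1, by simp⟩
  inv_mem' := by
    rintro M ⟨l, hl⟩
    have h1 : (M⁻¹).valᵀ * (M.valᵀ * M.val) * (M⁻¹).val = 1 := by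
      have e1 : (M⁻¹).valᵀ * (M.valᵀ * M.val) * (M⁻¹).val
          = (M.val * (M⁻¹).val)ᵀ * (M.val * (M⁻¹).val) := by
        rw [Matrix.transpose_mul]; simp only [Matrix.mul_assoc]
      rw [e1, ← Units.val_mul]; simp
    rw [hl] at h1
    have h2 : l • ((M⁻¹).valᵀ * (M⁻¹).val) = 1 := by
      rw [← h1]; simp
    have hl0 : l ≠ 0 := by
      rintro rfl
      rw [zero_smul] at h2
      exact zero_ne_one h2
    refine ⟨l⁻¹, ?_⟩
    rw [← h2, smul_smul, inv_mul_cancel₀ hl0, one_smul]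

theorem det_ne_zero' (M : GL (Fin 2) (ZMod q)) : M.val 0 0 * M.val 1 1 - M.val 0 1 * M.val 1 0 ≠ 0 := by
  have := ((Matrix.isUnit_iff_isUnit_det M.val).mp M.isUnit).ne_zero
  rwa [Matrix.det_fin_two] at this

theorem GO_entries {M : GL (Fin 2) (ZMod q)} (hM : M ∈ GO q) :
    (M.val 0 0 = M.val 1 1 ∧ M.val 1 0 = -M.val 0 1) ∨
      (M.val 0 0 = -M.val 1 1 ∧ M.val 1 0 = M.val 0 1) := by
  obtain ⟨l, hl⟩ := hM
  have hdet := det_ne_zero' M
  have h00 := congrFun (congrFun hl 0) 0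
  have h01 := congrFun (congrFun hl 0) 1
  have h11 := congrFun (congrFun hl 1) 1
  simp [Matrix.mul_apply, Fin.sum_univ_two] at h00 h01 h11
  set a := M.val 0 0
  set b := M.val 0 1
  set c := M.val 1 0
  set d := M.val 1 1
  have hsq : (l - (a * d - b * c)) * (l + (a * d - b * c)) = 0 := by
    have : l * l = (a * b + c * d) ^ 2 + (a * d - b * c) ^ 2 := by
      nth_rewrite 1 [← h00]
      rw [← h11]; ring
    rw [h01] at this
    linear_combination this
  have e1 : (a * d - b * c) * a = l * d := by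
    linear_combination (-c) * h01 + d * h00
  have e2 : (a * d - b * c) * c = -l * b := by
    linear_combination a * h01 - b * h00
  rcases mul_eq_zero.mp hsq with h | h
  · left
    have hl' : l = a * d - b * c := by linear_combination h
    rw [hl'] at e1 e2
    constructor
    · exact mul_left_cancel₀ hdet e1
    · apply mul_left_cancel₀ hdet; rw [e2]; ring
  · right
    have hl' : l = -(a * d - b * c) := by linear_combination h
    rw [hl'] at e1 e2
    constructor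
    · apply mul_left_cancel₀ hdet; rw [e1]; ring
    · apply mul_left_cancel₀ hdet; rw [e2]; ring

theorem pow_scalar {k : ℕ} (hk : q + 1 = 2 ^ k) (hq : 7 ≤ q) {M : GL (Fin 2) (ZMod q)}
    (hM : M ∈ GO q) :
    ∃ s : ZMod q, M.val ^ (2 ^ k) = s • (1 : Matrix (Fin 2) (Fin 2) (ZMod q)) := by
  have hk3 : 3 ≤ k := by
    by_contra hlt
    have : k ≤ 2 := by omega
    have : 2 ^ k ≤ 2 ^ 2 := Nat.pow_le_pow_right (by norm_num) this
    omega
  obtain ⟨j, rfl⟩ : ∃ j, k = j + 3 := ⟨k - 3, by omega⟩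
  rcases GO_entries hM with ⟨h1, h2⟩ | ⟨h1, h2⟩
  · -- rotation type
    set a := M.val 0 0
    set b := M.val 0 1
    set J : Matrix (Fin 2) (Fin 2) (ZMod q) := !![0, 1; -1, 0] with hJdef
    have hJ : J * J = -1 := by
      ext i j
      fin_cases i <;> fin_cases j <;> simp [J, Matrix.mul_apply, Fin.sum_univ_two]
    have hMval : M.val = a • (1 : Matrix (Fin 2) (Fin 2) (ZMod q)) + b • J := by
      ext i j
      fin_cases i <;> fin_cases j <;> simp [J, a, b, h2] <;> exact h1.symm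
    have hq4 : q = 2 * (2 * (2 ^ j) - 1 + 2 ^ j * 2 - 1 + 1) + 1 := by
      have : 2 ^ (j + 3) = 8 * 2 ^ j := by ring
      have : 1 ≤ 2 ^ j := Nat.one_le_two_pow
      omega
    have hJq : J ^ q = -J := by
      have hqq := congrArg (fun e : ℕ => J ^ e) hq4
      rw [hqq, pow_succ, pow_mul, pow_two, hJ]
      have hodd : Odd (2 * (2 ^ j) - 1 + 2 ^ j * 2 - 1 + 1) := by
        have : 1 ≤ 2 ^ j := Nat.one_le_two_pow
        refine ⟨2 * (2 ^ j) - 1, by omega⟩
      rw [hodd.neg_one_pow]; simp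
    have hcomm : Commute (a • (1 : Matrix (Fin 2) (Fin 2) (ZMod q))) (b • J) :=
      ((Commute.one_left J).smul_left a).smul_right b
    have hMq : M.val ^ q = a • (1 : Matrix (Fin 2) (Fin 2) (ZMod q)) - b • J := by
      rw [hMval, add_pow_char_of_commute _ hcomm, smul_pow, smul_pow, one_pow, hJq,
        ZMod.pow_card, ZMod.pow_card]
      simp [sub_eq_add_neg]
    refine ⟨a ^ 2 + b ^ 2, ?_⟩
    rw [← hk, pow_succ, hMq, hMval]
    ext i j
    fin_cases i <;> fin_cases j <;> simp [J, Matrix.mul_apply, Fin.sum_univ_two] <;> ring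
  · -- reflection type
    set a := M.val 0 0
    set b := M.val 0 1
    have hsq : M.val ^ 2 = (a ^ 2 + b ^ 2) • (1 : Matrix (Fin 2) (Fin 2) (ZMod q)) := by
      rw [pow_two]
      ext i j
      have h1' : M.val 1 1 = -a := by rw [h1]; simp
      fin_cases i <;> fin_cases j <;> simp [Matrix.mul_apply, Fin.sum_univ_two, h2, h1'] <;> ring
    refine ⟨(a ^ 2 + b ^ 2) ^ (2 ^ (j + 2)), ?_⟩
    have : 2 ^ (j + 3) = 2 * 2 ^ (j + 2) := by ring
    rw [this, pow_mul, hsq, smul_pow, one_pow]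

/-- the image of `GO` in `PGL₂`. -/
def PGO (q : ℕ) [Fact q.Prime] :
    Subgroup (GL (Fin 2) (ZMod q) ⧸ Subgroup.center (GL (Fin 2) (ZMod q))) :=
  (GO q).map (QuotientGroup.mk' (Subgroup.center (GL (Fin 2) (ZMod q))))

theorem mk_eq_one_of_scalar (M : GL (Fin 2) (ZMod q)) (s : ZMod q)
    (h : M.val = s • (1 : Matrix (Fin 2) (Fin 2) (ZMod q))) :
    (QuotientGroup.mk' (Subgroup.center (GL (Fin 2) (ZMod q)))) M = 1 := by
  rw [QuotientGroup.mk'_apply, QuotientGroup.eq_one_iff,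
    Matrix.GeneralLinearGroup.mem_center_iff_val_mem_range_scalar]
  refine ⟨s, ?_⟩
  rw [h]
  simp [Matrix.smul_one_eq_diagonal]

theorem scalar_of_mk_eq_one (M : GL (Fin 2) (ZMod q))
    (h : (QuotientGroup.mk' (Subgroup.center (GL (Fin 2) (ZMod q)))) M = 1) :
    ∃ s : ZMod q, M.val = s • (1 : Matrix (Fin 2) (Fin 2) (ZMod q)) := by
  rw [QuotientGroup.mk'_apply, QuotientGroup.eq_one_iff,
    Matrix.GeneralLinearGroup.mem_center_iff_val_mem_range_scalar] at h
  obtain ⟨s, hs⟩ := h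
  refine ⟨s, ?_⟩
  rw [← hs]
  simp [Matrix.smul_one_eq_diagonal]

theorem PGO_isPGroup {k : ℕ} (hk : q + 1 = 2 ^ k) (hq : 7 ≤ q) : IsPGroup 2 (PGO q) := by
  rintro ⟨g, hg⟩
  obtain ⟨M, hM, rfl⟩ := Subgroup.mem_map.mp hg
  refine ⟨k, ?_⟩
  apply Subtype.ext
  simp only [Subgroup.coe_pow, Subgroup.coe_one]
  rw [← map_pow]
  obtain ⟨s, hs⟩ := pow_scalar hk hq hM
  exact mk_eq_one_of_scalar _ s (by rw [Units.val_pow_eq_pow_val, hs])

theorem sum_sq_eq_zero {k : ℕ} (hk : q + 1 = 2 ^ k) (hq : 7 ≤ q) (u v : ZMod q)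
    (h : u ^ 2 + v ^ 2 = 0) : u = 0 ∧ v = 0 := by
  have hk3 : 3 ≤ k := by
    by_contra hlt
    have : k ≤ 2 := by omega
    have : 2 ^ k ≤ 2 ^ 2 := Nat.pow_le_pow_right (by norm_num) this
    omega
  obtain ⟨j, rfl⟩ : ∃ j, k = j + 3 := ⟨k - 3, by omega⟩
  have hq4 : q % 4 = 3 := by
    have : 2 ^ (j + 3) = 8 * 2 ^ j := by ring
    omega
  have hns : ¬ IsSquare (-1 : ZMod q) := by
    rw [ZMod.exists_sq_eq_neg_one_iff]
    simp [hq4]
  by_cases hv : v = 0
  · subst hv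
    simp at h
    exact ⟨h, rfl⟩
  · exfalso
    apply hns
    refine ⟨u / v, ?_⟩
    field_simp
    linear_combination -h

/-- the symmetric traceless matrix. -/
def symMat (u v : ZMod q) : Matrix (Fin 2) (Fin 2) (ZMod q) := !![u, v; v, -u]

theorem symMat_sq (u v : ZMod q) :
    symMat u v * symMat u v = (u ^ 2 + v ^ 2) • (1 : Matrix (Fin 2) (Fin 2) (ZMod q)) := by
  ext i j
  fin_cases i <;> fin_cases j <;> simp [symMat, Matrix.mul_apply, Fin.sum_univ_two] <;> ring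

theorem symMat_transpose (u v : ZMod q) : (symMat u v)ᵀ = symMat u v := by
  ext i j
  fin_cases i <;> fin_cases j <;> simp [symMat]

/-- the corresponding element of `GL₂`. -/
def symEl (u v : ZMod q) (h : u ^ 2 + v ^ 2 ≠ 0) : GL (Fin 2) (ZMod q) where
  val := symMat u v
  inv := (u ^ 2 + v ^ 2)⁻¹ • symMat u v
  val_inv := by
    rw [Matrix.mul_smul, symMat_sq, smul_smul, inv_mul_cancel₀ h, one_smul]
  inv_val := by
    rw [Matrix.smul_mul, symMat_sq, smul_smul, inv_mul_cancel₀ h, one_smul]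

theorem symEl_mem_GO (u v : ZMod q) (h : u ^ 2 + v ^ 2 ≠ 0) : symEl u v h ∈ GO q :=
  ⟨u ^ 2 + v ^ 2, by
    show (symMat u v)ᵀ * symMat u v = _
    rw [symMat_transpose, symMat_sq]⟩

theorem two_ne_zero' (hq : 7 ≤ q) : (2 : ZMod q) ≠ 0 := by
  intro h0
  have : ((2 : ℕ) : ZMod q) = 0 := by exact_mod_cast h0
  rw [ZMod.natCast_eq_zero_iff] at this
  have := Nat.le_of_dvd (by norm_num) this
  omega

theorem symEl_mk_ne_one (hq : 7 ≤ q) (u v : ZMod q) (h : u ^ 2 + v ^ 2 ≠ 0) :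
    (QuotientGroup.mk' (Subgroup.center (GL (Fin 2) (ZMod q)))) (symEl u v h) ≠ 1 := by
  intro h1
  obtain ⟨s, hs⟩ := scalar_of_mk_eq_one _ h1
  have h00 := congrFun (congrFun hs 0) 0
  have h01 := congrFun (congrFun hs 0) 1
  have h11 := congrFun (congrFun hs 1) 1
  simp [symEl, symMat] at h00 h01 h11
  have h2 := two_ne_zero' hq
  have hu : u = 0 := by
    have : 2 * u = 0 := by linear_combination h00 - h11
    rcases mul_eq_zero.mp this with h | h
    · exact absurd h h2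
    · exact h
  apply h
  rw [hu, h01]; ring

theorem key (hq : 7 ≤ q) {k : ℕ} (hk : q + 1 = 2 ^ k) (X : GL (Fin 2) (ZMod q)) :
    ∃ (u v : ZMod q) (h : u ^ 2 + v ^ 2 ≠ 0), X * symEl u v h * X⁻¹ ∈ GO q := by
  set x00 := X.val 0 0 with hx00
  set x01 := X.val 0 1 with hx01
  set x10 := X.val 1 0 with hx10
  set x11 := X.val 1 1 with hx11
  set u' := (x00 ^ 2 + x10 ^ 2) - (x01 ^ 2 + x11 ^ 2) with hu'
  set v' := 2 * (x00 * x01 + x10 * x11) with hv'
  set u := (x00 ^ 2 + x01 ^ 2) - (x10 ^ 2 + x11 ^ 2) with hu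
  set v := 2 * (x00 * x10 + x01 * x11) with hv
  have hrel : X.val * symMat u' v' = symMat u v * X.val := by
    ext i j
    fin_cases i <;> fin_cases j <;>
      simp [symMat, Matrix.mul_apply, Fin.sum_univ_two] <;> ring
  by_cases h0 : u' ^ 2 + v' ^ 2 = 0
  · -- X itself lies in GO
    obtain ⟨hu0, hv0⟩ := sum_sq_eq_zero hk hq u' v' h0
    have h2 := two_ne_zero' hq
    have hXGO : X ∈ GO q := by
      refine ⟨x00 ^ 2 + x10 ^ 2, ?_⟩
      have hv0' : x00 * x01 + x10 * x11 = 0 := by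
        rcases mul_eq_zero.mp hv0 with h | h
        · exact absurd h h2
        · exact h
      ext i j
      fin_cases i <;> fin_cases j <;>
        simp [Matrix.mul_apply, Fin.sum_univ_two]
      · ring
      · linear_combination hv0'
      · linear_combination hv0'
      · linear_combination (-1 : ZMod q) * hu0
    have h10 : (1 : ZMod q) ^ 2 + 0 ^ 2 ≠ 0 := by simp
    exact ⟨1, 0, h10, (GO q).mul_mem ((GO q).mul_mem hXGO (symEl_mem_GO 1 0 h10))
      ((GO q).inv_mem hXGO)⟩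
  · refine ⟨u', v', h0, u ^ 2 + v ^ 2, ?_⟩
    have hval : (X * symEl u' v' h0 * X⁻¹).val = symMat u v := by
      rw [Units.val_mul, Units.val_mul]
      show X.val * symMat u' v' * (X⁻¹).val = _
      rw [hrel, Matrix.mul_assoc, ← Units.val_mul]
      simp
    rw [hval, symMat_transpose, symMat_sq]

/-- Let q = 2^k − 1 ≥ 7 be a prime and let G = PGL(2,q), the general linear group of degree 2 over the field with q elements modulo its centre. Then any two Sylow 2-subgroups of G have a non-trivial intersection: for a Sylow 2-subgroup H and every x ∈ G, H ∩ H^x ≠ 1. -/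
theorem result {q k : ℕ} [Fact q.Prime] (hk : q + 1 = 2 ^ k) (hq : 7 ≤ q)
    (H : Sylow 2 (GL (Fin 2) (ZMod q) ⧸ Subgroup.center (GL (Fin 2) (ZMod q))))
    (x : GL (Fin 2) (ZMod q) ⧸ Subgroup.center (GL (Fin 2) (ZMod q))) :
    (H : Subgroup (GL (Fin 2) (ZMod q) ⧸ Subgroup.center (GL (Fin 2) (ZMod q)))) ⊓ MulAut.conj x • (H : Subgroup _) ≠ ⊥ := by
  apply sylow_inter_ne_bot 2 (PGO q) (PGO_isPGroup hk hq)
  intro y
  obtain ⟨X, rfl⟩ := QuotientGroup.mk'_surjective (Subgroup.center (GL (Fin 2) (ZMod q))) y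
  obtain ⟨u, v, h, hmem⟩ := key hq hk X
  refine ⟨(QuotientGroup.mk' (Subgroup.center (GL (Fin 2) (ZMod q)))) (X * symEl u v h * X⁻¹),
    (QuotientGroup.mk' (Subgroup.center (GL (Fin 2) (ZMod q)))) (symEl u v h),
    Subgroup.mem_map_of_mem _ hmem, Subgroup.mem_map_of_mem _ (symEl_mem_GO u v h), ?_, ?_⟩
  · intro h1
    apply symEl_mk_ne_one hq u v h
    rw [map_mul, map_mul, map_inv] at h1
    have h2 := congrArg (fun z => ((QuotientGroup.mk' (Subgroup.center (GL (Fin 2) (ZMod q)))) X)⁻¹ * z *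
      ((QuotientGroup.mk' (Subgroup.center (GL (Fin 2) (ZMod q)))) X)) h1
    simp only [mul_one, inv_mul_cancel] at h2
    rw [← h2]
    group
  · rw [map_mul, map_mul, map_inv]

end Cfsg.Agent.S2485
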