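import Cfsg.Statements.S2486
import Cfsg.Agent.S2690
import Cfsg.Agent.Helper40.Bruhat

set_option autoImplicit false
open scoped Pointwise
open Cfsg

namespace Cfsg.Agent.S2486

section aux
open Matrix Cfsg.Agent.Helper40

variable {n : ℕ}

/-- inverse transpose on `GL_n(F_2)` -/
def itGL (g : GL (Fin n) (ZMod 2)) : GL (Fin n) (ZMod 2) :=
  ⟨((g⁻¹ : GL (Fin n) (ZMod 2)) : Matrix (Fin n) (Fin n) (ZMod 2))ᵀ,
   (g : Matrix (Fin n) (Fin n) (ZMod 2))ᵀ,
   by rw [← Matrix.transpose_mul]; simp, by rw [← Matrix.transpose_mul]; simp⟩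

theorem itGL_val (g : GL (Fin n) (ZMod 2)) :
    ((itGL g : GL (Fin n) (ZMod 2)) : Matrix (Fin n) (Fin n) (ZMod 2)) =
      ((g⁻¹ : GL (Fin n) (ZMod 2)) : Matrix (Fin n) (Fin n) (ZMod 2))ᵀ := rfl

theorem itGL_mul (a b : GL (Fin n) (ZMod 2)) : itGL (a * b) = itGL a * itGL b := by
  apply Units.ext
  rw [itGL_val, _root_.mul_inv_rev, Units.val_mul, Matrix.transpose_mul, Units.val_mul, itGL_val, itGL_val]

theorem itGL_one : itGL (1 : GL (Fin n) (ZMod 2)) = 1 := by
  apply Units.ext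
  simp [itGL_val]

theorem itGL_inv (a : GL (Fin n) (ZMod 2)) : itGL a⁻¹ = (itGL a)⁻¹ := by
  apply eq_inv_of_mul_eq_one_left
  rw [← itGL_mul, inv_mul_cancel, itGL_one]

theorem itGL_itGL (a : GL (Fin n) (ZMod 2)) : itGL (itGL a) = a := by
  have h : (itGL a)⁻¹ = ⟨(a : Matrix (Fin n) (Fin n) (ZMod 2))ᵀ,
      ((a⁻¹ : GL (Fin n) (ZMod 2)) : Matrix (Fin n) (Fin n) (ZMod 2))ᵀ,
      by rw [← Matrix.transpose_mul]; simp, by rw [← Matrix.transpose_mul]; simp⟩ := rfl
  apply Units.ext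
  rw [itGL_val, h]
  simp

theorem itGL_PmGL (w : Equiv.Perm (Fin n)) :
    itGL (PmGL w : GL (Fin n) (ZMod 2)) = PmGL w := by
  apply Units.ext
  rw [itGL_val, ← map_inv, PmGL_coe, PmGL_coe]
  ext i j
  simp only [Matrix.transpose_apply, Pm_apply]
  by_cases h : i = w j
  · subst h; simp
  · have : ¬ j = w.symm i := by
      rintro rfl
      exact h (by simp)
    simp [h, this]


theorem zmod2_eq_one {x : ZMod 2} (hx : x ≠ 0) : x = 1 := by
  revert hx; revert x; decide

/-- upper triangular invertible matrices over `F_2` have 2-power order -/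
theorem pow_eq_one_of_upper {g : GL (Fin n) (ZMod 2)} (hg : g ∈ Cfsg.upperTriangularGL n (ZMod 2)) :
    g ^ 2 ^ n = 1 := by
  rcases isEmpty_or_nonempty (Fin n) with hE | hE
  · apply Units.ext
    apply Subsingleton.elim
  have hM : (g : Matrix (Fin n) (Fin n) (ZMod 2)).BlockTriangular id := hg
  set M : Matrix (Fin n) (Fin n) (ZMod 2) := (g : Matrix (Fin n) (Fin n) (ZMod 2)) with hMdef
  have hdet : M.det ≠ 0 := (Matrix.isUnits_det_units g).ne_zero
  have hdiag : ∀ i, M i i = 1 := by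
    intro i
    apply zmod2_eq_one
    intro h0
    apply hdet
    rw [Matrix.det_of_isUpperTriangular hM]
    exact Finset.prod_eq_zero (Finset.mem_univ i) h0
  have hcp : M.charpoly = (Polynomial.X - Polynomial.C (1 : ZMod 2)) ^ n := by
    rw [Matrix.charpoly_of_isUpperTriangular M hM]
    simp [hdiag]
  have hnil : (M - 1) ^ n = 0 := by
    have h := Matrix.aeval_self_charpoly M
    rw [hcp] at h
    simpa using h
  have hnil2 : (M - 1) ^ 2 ^ n = 0 := by
    have hle : n ≤ 2 ^ n := Nat.lt_two_pow_self.le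
    exact pow_eq_zero_of_le hle hnil
  have : Fact (Nat.Prime 2) := ⟨Nat.prime_two⟩
  have hsub := sub_pow_char_pow_of_commute (R := Matrix (Fin n) (Fin n) (ZMod 2)) 2 n (Commute.one_right M)
  rw [hnil2, one_pow] at hsub
  apply Units.ext
  rw [Units.val_pow_eq_pow_val, Units.val_one]
  exact (sub_eq_zero.mp hsub.symm)

theorem isPGroup_upper : IsPGroup 2 (Cfsg.upperTriangularGL n (ZMod 2)) := by
  intro g
  refine ⟨n, ?_⟩
  apply Subtype.ext
  rw [Subgroup.coe_pow]
  exact pow_eq_one_of_upper g.2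

/-- conjugating the inverse transpose of an upper triangular matrix by the reversal permutation matrix -/
theorem rev_itGL_mem {b : GL (Fin n) (ZMod 2)} (hb : b ∈ Cfsg.upperTriangularGL n (ZMod 2)) :
    PmGL Fin.revPerm * itGL b * (PmGL Fin.revPerm)⁻¹ ∈ Cfsg.upperTriangularGL n (ZMod 2) := by
  have hb' : ((b⁻¹ : GL (Fin n) (ZMod 2)) : Matrix (Fin n) (Fin n) (ZMod 2)).BlockTriangular id :=
    (Cfsg.upperTriangularGL n (ZMod 2)).inv_mem hb
  change ((PmGL Fin.revPerm * itGL b * (PmGL Fin.revPerm)⁻¹ : GL (Fin n) (ZMod 2)) :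
    Matrix (Fin n) (Fin n) (ZMod 2)).BlockTriangular id
  intro i j hji
  rw [← map_inv, Units.val_mul, Units.val_mul, PmGL_coe, PmGL_coe, mul_Pm, Pm_mul, itGL_val,
    Matrix.transpose_apply]
  apply hb'
  simp only [id]
  simp only [id] at hji
  simpa using hji

/-- the elementary transvection `1 + E_{ab}` as an element of `GL_n(F_2)` -/
def tGL (a b : Fin n) (hab : a ≠ b) : GL (Fin n) (ZMod 2) :=
  ⟨Matrix.transvection a b 1, Matrix.transvection a b 1,
   by rw [Matrix.transvection_mul_transvection_same _ _ hab]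
      have : (1 : ZMod 2) + 1 = 0 := by decide
      rw [this, Matrix.transvection_zero],
   by rw [Matrix.transvection_mul_transvection_same _ _ hab]
      have : (1 : ZMod 2) + 1 = 0 := by decide
      rw [this, Matrix.transvection_zero]⟩

theorem tGL_val (a b : Fin n) (hab : a ≠ b) (i j : Fin n) :
    ((tGL a b hab : GL (Fin n) (ZMod 2)) : Matrix (Fin n) (Fin n) (ZMod 2)) i j =
      (if i = j then 1 else 0) + (if a = i ∧ b = j then 1 else 0) := by
  change Matrix.transvection a b (1 : ZMod 2) i j = _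
  simp [Matrix.transvection, Matrix.one_apply, Matrix.single_apply]

theorem tGL_ne_one (a b : Fin n) (hab : a ≠ b) : tGL a b hab ≠ 1 := by
  intro h
  have h1 := tGL_val a b hab a b
  rw [h] at h1
  simp [hab] at h1

theorem tGL_mem (a b : Fin n) (hab : a < b) :
    tGL a b hab.ne ∈ Cfsg.upperTriangularGL n (ZMod 2) := by
  change ((tGL a b hab.ne : GL (Fin n) (ZMod 2)) : Matrix (Fin n) (Fin n) (ZMod 2)).BlockTriangular id
  intro i j hji
  simp only [id] at hji
  rw [tGL_val]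
  have h1 : ¬ i = j := hji.ne'
  have h2 : ¬ (a = i ∧ b = j) := by
    rintro ⟨rfl, rfl⟩
    exact lt_asymm hab hji
  simp [h1, h2]

theorem conj_tGL_mem (w : Equiv.Perm (Fin n)) (a b : Fin n) (hab : a ≠ b) (h : w⁻¹ a < w⁻¹ b) :
    (PmGL w)⁻¹ * tGL a b hab * PmGL w ∈ Cfsg.upperTriangularGL n (ZMod 2) := by
  change (((PmGL w)⁻¹ * tGL a b hab * PmGL w : GL (Fin n) (ZMod 2)) :
    Matrix (Fin n) (Fin n) (ZMod 2)).BlockTriangular id
  intro i j hji
  simp only [id] at hji
  rw [← map_inv, Units.val_mul, Units.val_mul, PmGL_coe, PmGL_coe, mul_Pm, Pm_mul, tGL_val]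
  have h1 : ¬ i = j := hji.ne'
  have h2 : ¬ (a = w i ∧ b = w j) := by
    rintro ⟨rfl, rfl⟩
    simp only [Equiv.Perm.coe_inv, Equiv.symm_apply_apply] at h
    exact lt_asymm h hji
  simp [h1, h2]

theorem exists_noninversion (w : Equiv.Perm (Fin n)) (hw : w ≠ Fin.revPerm) :
    ∃ a b : Fin n, a < b ∧ w⁻¹ a < w⁻¹ b := by
  by_contra hcon
  push Not at hcon
  apply hw
  have hanti : StrictMono (fun i => Fin.rev (w⁻¹ i)) := by
    intro a b hab
    have h1 := hcon a b hab
    have h2 : w⁻¹ a ≠ w⁻¹ b := fun h => hab.ne ((w⁻¹).injective h)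
    have h3 : w⁻¹ b < w⁻¹ a := lt_of_le_of_ne h1 (Ne.symm h2)
    exact Fin.rev_lt_rev.mpr h3
  have hid := hanti.eq_id
  ext i
  have h4 := congrFun hid (w i)
  simp only [Equiv.Perm.coe_inv, Equiv.symm_apply_apply, id] at h4
  rw [Fin.revPerm_apply, ← h4]


theorem mem_conj_smul_iff {G : Type*} [Group G] (a : G) (K : Subgroup G) (z : G) :
    z ∈ MulAut.conj a • K ↔ a⁻¹ * z * a ∈ K := by
  rw [Subgroup.mem_pointwise_smul_iff_inv_smul_mem]
  simp [MulAut.smul_def]

theorem main_abstract {G : Type*} [Group G] [Finite G]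
    (j : GL (Fin n) (ZMod 2) →* G) (hj : Function.Injective j)
    (hidx : j.range.index = 2) (τ : G) (hτN : τ ∉ j.range)
    (hτ : ∀ g : GL (Fin n) (ZMod 2), τ * j g * τ⁻¹ = j (itGL g)) (hτ2 : τ * τ = 1)
    (H : Sylow 2 G) (x : G) :
    (H : Subgroup G) ⊓ MulAut.conj x • (H : Subgroup G) ≠ ⊥ := by
  classical
  set B := Cfsg.upperTriangularGL n (ZMod 2) with hB
  set w0 : GL (Fin n) (ZMod 2) := PmGL Fin.revPerm with hw0
  set γ : G := j w0 * τ with hγ
  have hw0sq : w0 * w0 = 1 := by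
    rw [hw0, ← map_mul]
    have : (Fin.revPerm : Equiv.Perm (Fin n)) * Fin.revPerm = 1 := by
      ext i; simp
    rw [this, map_one]
  have hτw0 : τ * j w0 = j w0 * τ := by
    have h := hτ w0
    rw [hw0, itGL_PmGL, ← hw0] at h
    calc τ * j w0 = (τ * j w0 * τ⁻¹) * τ := by group
      _ = j w0 * τ := by rw [h]
  have hγsq : γ * γ = 1 := by
    calc γ * γ = j w0 * (τ * j w0) * τ := by rw [hγ]; group
      _ = j w0 * (j w0 * τ) * τ := by rw [hτw0]
      _ = j (w0 * w0) * (τ * τ) := by rw [map_mul]; group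
      _ = 1 := by rw [hw0sq, hτ2, map_one, one_mul]
  have hγinv : γ⁻¹ = γ := inv_eq_of_mul_eq_one_left hγsq
  have hγN : γ ∉ j.range := by
    intro h
    apply hτN
    have h1 : τ = (j w0)⁻¹ * γ := by rw [hγ]; group
    rw [h1]
    exact j.range.mul_mem (j.range.inv_mem ⟨w0, rfl⟩) h
  have hγ1 : γ ≠ 1 := fun h => hγN (h ▸ j.range.one_mem)
  have hγconj : ∀ g, γ * j g * γ⁻¹ = j (w0 * itGL g * w0⁻¹) := by
    intro g
    calc γ * j g * γ⁻¹ = j w0 * (τ * j g * τ⁻¹) * (j w0)⁻¹ := by rw [hγ]; group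
      _ = j (w0 * itGL g * w0⁻¹) := by rw [hτ g]; simp [map_mul, map_inv]
  set U : Subgroup G := B.map j with hU
  have hUp : IsPGroup 2 U := isPGroup_upper.map j
  have hγU : ∀ u ∈ U, γ * u * γ⁻¹ ∈ U := by
    rintro _ ⟨b, hb, rfl⟩
    rw [hγconj]
    exact ⟨_, rev_itGL_mem hb, rfl⟩
  have hnorm : Subgroup.zpowers γ ≤ Subgroup.normalizer U := by
    rw [Subgroup.zpowers_le, Subgroup.mem_normalizer_iff]
    intro u
    constructor
    · exact hγU u
    · intro h
      have h1 := hγU _ h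
      have h2 : γ * (γ * u * γ⁻¹) * γ⁻¹ = u := by
        rw [hγinv]
        calc γ * (γ * u * γ) * γ = (γ * γ) * u * (γ * γ) := by group
          _ = u := by rw [hγsq, one_mul, mul_one]
      rwa [h2] at h1
  have hZp : IsPGroup 2 (Subgroup.zpowers γ) := by
    rintro ⟨g, hg⟩
    obtain ⟨k, rfl⟩ := Subgroup.mem_zpowers_iff.mp hg
    refine ⟨1, ?_⟩
    apply Subtype.ext
    simp only [Subgroup.coe_pow, Subgroup.coe_one, pow_one]
    rw [← zpow_natCast, ← _root_.zpow_mul, mul_comm, _root_.zpow_mul, zpow_natCast, pow_two, hγsq, _root_.one_zpow]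
  set P : Subgroup G := U ⊔ Subgroup.zpowers γ with hP
  have hPp : IsPGroup 2 P := IsPGroup.to_sup_of_normal_left' hUp hZp hnorm
  have hUP : U ≤ P := le_sup_left
  have hγP : γ ∈ P := (le_sup_right : Subgroup.zpowers γ ≤ P) (Subgroup.mem_zpowers γ)
  have key1 : ∀ m : GL (Fin n) (ZMod 2), ∃ y : G, y ≠ 1 ∧ y ∈ P ∧ (j m)⁻¹ * y * j m ∈ P := by
    intro m
    obtain ⟨b₁, hb₁, b₂, hb₂, w, hm⟩ := bruhat_GL m
    by_cases hw : w = Fin.revPerm
    · subst hw
      rw [← hw0] at hm
      refine ⟨j b₁ * γ * (j b₁)⁻¹, ?_, ?_, ?_⟩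
      · intro h
        apply hγ1
        have h1 : γ = (j b₁)⁻¹ * (j b₁ * γ * (j b₁)⁻¹) * j b₁ := by group
        rw [h1, h]; group
      · exact P.mul_mem (P.mul_mem (hUP ⟨b₁, hb₁, rfl⟩) hγP) (P.inv_mem (hUP ⟨b₁, hb₁, rfl⟩))
      · have h1 : (j w0)⁻¹ * γ * j w0 = γ := by
          calc (j w0)⁻¹ * γ * j w0 = (j w0)⁻¹ * j w0 * (τ * j w0) := by rw [hγ]; group
            _ = γ := by rw [hτw0, hγ]; group
        have h2 : (j m)⁻¹ * (j b₁ * γ * (j b₁)⁻¹) * j m
            = (j b₂)⁻¹ * ((j w0)⁻¹ * γ * j w0) * j b₂ := by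
          rw [hm]; simp only [map_mul]; group
        rw [h2, h1]
        exact P.mul_mem (P.mul_mem (P.inv_mem (hUP ⟨b₂, hb₂, rfl⟩)) hγP) (hUP ⟨b₂, hb₂, rfl⟩)
    · obtain ⟨a, b, hab, hwab⟩ := exists_noninversion w hw
      refine ⟨j (b₁ * tGL a b hab.ne * b₁⁻¹), ?_, ?_, ?_⟩
      · intro h
        have h1 : b₁ * tGL a b hab.ne * b₁⁻¹ = 1 := hj (by rw [h, map_one])
        apply tGL_ne_one a b hab.ne
        have h2 : tGL a b hab.ne = b₁⁻¹ * (b₁ * tGL a b hab.ne * b₁⁻¹) * b₁ := by group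
        rw [h2, h1]; group
      · exact hUP ⟨_, B.mul_mem (B.mul_mem hb₁ (tGL_mem a b hab)) (B.inv_mem hb₁), rfl⟩
      · have h2 : (j m)⁻¹ * j (b₁ * tGL a b hab.ne * b₁⁻¹) * j m
            = j (b₂⁻¹ * ((PmGL w)⁻¹ * tGL a b hab.ne * PmGL w) * b₂) := by
          rw [hm]; simp only [map_mul, map_inv]; group
        rw [h2]
        exact hUP ⟨_, B.mul_mem (B.mul_mem (B.inv_mem hb₂) (conj_tGL_mem w a b hab.ne hwab)) hb₂, rfl⟩
  have key : ∀ c : G, ∃ y : G, y ≠ 1 ∧ y ∈ P ∧ c⁻¹ * y * c ∈ P := by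
    intro c
    by_cases hc : c ∈ j.range
    · obtain ⟨m, rfl⟩ := hc
      exact key1 m
    · have hcγ : c * γ⁻¹ ∈ j.range := by
        rw [Subgroup.mul_mem_iff_of_index_two hidx]
        constructor
        · intro h; exact absurd h hc
        · intro h; exact absurd (j.range.inv_mem_iff.mp h) hγN
      obtain ⟨m, hm⟩ := hcγ
      obtain ⟨y, hy1, hyP, hy⟩ := key1 m
      refine ⟨y, hy1, hyP, ?_⟩
      have h1 : c⁻¹ * y * c = γ⁻¹ * ((j m)⁻¹ * y * j m) * γ := by
        rw [hm]; group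
      rw [h1]
      exact P.mul_mem (P.mul_mem (P.inv_mem hγP) hy) hγP
  obtain ⟨Q, hQ⟩ := hPp.exists_le_sylow
  obtain ⟨a, ha⟩ := MulAction.exists_smul_eq G H Q
  obtain ⟨y, hy1, hyP, hy⟩ := key (a * x * a⁻¹)
  have hQa : ∀ z ∈ P, a⁻¹ * z * a ∈ (H : Subgroup G) := by
    intro z hz
    have h1 : z ∈ (Q : Subgroup G) := hQ hz
    rw [← ha, Sylow.coe_subgroup_smul] at h1
    exact (mem_conj_smul_iff a _ z).mp h1
  intro hbot
  have hmem : a⁻¹ * y * a ∈ (H : Subgroup G) ⊓ MulAut.conj x • (H : Subgroup G) := by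
    refine Subgroup.mem_inf.mpr ⟨hQa y hyP, ?_⟩
    rw [mem_conj_smul_iff]
    have h1 := hQa _ hy
    have h2 : a⁻¹ * ((a * x * a⁻¹)⁻¹ * y * (a * x * a⁻¹)) * a = x⁻¹ * (a⁻¹ * y * a) * x := by group
    rwa [h2] at h1
  rw [hbot, Subgroup.mem_bot] at hmem
  apply hy1
  have h3 : y = a * (a⁻¹ * y * a) * a⁻¹ := by group
  rw [h3, hmem]; group


theorem zmod2_eq_one' {x : ZMod 2} (hx : x ≠ 0) : x = 1 := by
  revert hx; revert x; decide

/-- over `F_2` every invertible matrix has determinant one -/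
def glToSl : GL (Fin n) (ZMod 2) →* Matrix.SpecialLinearGroup (Fin n) (ZMod 2) where
  toFun g := ⟨(g : Matrix (Fin n) (Fin n) (ZMod 2)),
    zmod2_eq_one' (Matrix.isUnits_det_units g).ne_zero⟩
  map_one' := by apply Subtype.ext; rfl
  map_mul' a b := by apply Subtype.ext; rfl

theorem glToSl_val (g : GL (Fin n) (ZMod 2)) :
    ((glToSl g : Matrix.SpecialLinearGroup (Fin n) (ZMod 2)) : Matrix (Fin n) (Fin n) (ZMod 2)) =
      (g : Matrix (Fin n) (Fin n) (ZMod 2)) := rfl

theorem glToSl_injective : Function.Injective (glToSl : GL (Fin n) (ZMod 2) → _) := by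
  intro a b h
  apply Units.ext
  have := congrArg (fun s : Matrix.SpecialLinearGroup (Fin n) (ZMod 2) =>
    (s : Matrix (Fin n) (Fin n) (ZMod 2))) h
  exact this

theorem glToSl_surjective : Function.Surjective (glToSl : GL (Fin n) (ZMod 2) → _) := by
  intro s
  refine ⟨Matrix.GeneralLinearGroup.mkOfDetNeZero (s : Matrix (Fin n) (Fin n) (ZMod 2))
    (by rw [s.2]; exact one_ne_zero), ?_⟩
  apply Subtype.ext
  rfl

theorem center_sl2_eq_bot (hn : 1 ≤ n) :
    Subgroup.center (Matrix.SpecialLinearGroup (Fin n) (ZMod 2)) = ⊥ := by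
  rw [eq_bot_iff]
  intro A hA
  rw [Matrix.SpecialLinearGroup.mem_center_iff] at hA
  obtain ⟨r, hr, hA⟩ := hA
  rw [Subgroup.mem_bot]
  have hr1 : r = 1 := by
    apply zmod2_eq_one'
    rintro rfl
    rw [Fintype.card_fin, zero_pow (by omega)] at hr
    exact zero_ne_one hr
  subst hr1
  apply Subtype.ext
  rw [← hA]
  simp


/-- the graph automorphism: an element of `G` outside `N` inducing inverse-transpose on `N ≅ SL_n(2)` -/
theorem exists_tau {G : Type*} [Group G] (hn : 4 ≤ n) (N : Subgroup G) [N.Normal]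
    (e : N ≃* Matrix.SpecialLinearGroup (Fin n) (ZMod 2)) (hidx : N.index = 2)
    (hC : Subgroup.centralizer (N : Set G) = ⊥) :
    ∃ τ : G, τ ∉ N ∧ ∀ x : N, e (MulAut.conjNormal τ x) = ((e x)⁻¹).transpose := by
  classical
  have hcen := center_sl2_eq_bot (n := n) (by omega)
  set mkP : Matrix.SpecialLinearGroup (Fin n) (ZMod 2) →*
      Matrix.ProjectiveSpecialLinearGroup (Fin n) (ZMod 2) :=
    QuotientGroup.mk' (Subgroup.center (Matrix.SpecialLinearGroup (Fin n) (ZMod 2))) with hmkP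
  have hmk_inj : Function.Injective mkP := by
    rw [← MonoidHom.ker_eq_bot_iff, hmkP, QuotientGroup.ker_mk', hcen]
  have hmk_surj : Function.Surjective mkP := QuotientGroup.mk'_surjective _
  set ψ : N ≃* Matrix.ProjectiveSpecialLinearGroup (Fin n) (ZMod 2) :=
    e.trans (MulEquiv.ofBijective mkP ⟨hmk_inj, hmk_surj⟩) with hψ
  have hψ_apply : ∀ x : N, ψ x = mkP (e x) := fun x => rfl
  have hψ_symm : ∀ s, ψ.symm (mkP s) = e.symm s := by
    intro s
    rw [MulEquiv.symm_apply_eq, hψ_apply, MulEquiv.apply_symm_apply]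
  -- an element outside N
  have hNtop : N ≠ ⊤ := by
    intro h
    rw [h, Subgroup.index_top] at hidx
    omega
  obtain ⟨g, hg⟩ : ∃ g : G, g ∉ N := by
    by_contra hcon
    push Not at hcon
    exact hNtop (eq_top_iff.mpr fun x _ => hcon x)
  set β : MulAut (Matrix.ProjectiveSpecialLinearGroup (Fin n) (ZMod 2)) :=
    ψ.symm.trans ((MulAut.conjNormal g : MulAut N).trans ψ) with hβ
  have hβ_apply : ∀ s, β (mkP s) = mkP (e (MulAut.conjNormal g (e.symm s))) := by
    intro s
    change ψ (MulAut.conjNormal g (ψ.symm (mkP s))) = _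
    rw [hψ_symm, hψ_apply]
  have : Fact (Nat.Prime 2) := ⟨Nat.prime_two⟩
  obtain ⟨δ, φ, γ, σ, hδ, hφ, hγ, hβe⟩ :=
    Cfsg.Agent.S2690.result (F := ZMod 2) (p := 2) (f := 1) (by simp [ZMod.card]) le_rfl
      (show 2 ≤ n by omega) (fun h => by omega) β
  obtain ⟨d, hd⟩ := hδ
  have hσ : σ = RingEquiv.refl (ZMod 2) := Subsingleton.elim _ _
  subst hσ
  have hφ1 : ∀ t, φ (mkP t) = mkP t := by
    intro t
    apply hφ t t
    ext i j
    simp
  have hδ1 : ∀ t, δ (mkP t) = mkP (glToSl d * t * (glToSl d)⁻¹) := by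
    intro t
    apply hd t
    rw [← map_inv]
    rfl
  -- the centralizer argument
  have hcent : ∀ y : G, (∀ x : N, y * (x : G) = (x : G) * y) → y = 1 := by
    intro y hy
    have : y ∈ Subgroup.centralizer (N : Set G) := by
      rw [Subgroup.mem_centralizer_iff]
      intro h hh
      exact (hy ⟨h, hh⟩).symm
    rw [hC, Subgroup.mem_bot] at this
    exact this
  set D := glToSl d with hD
  set dN : N := e.symm D with hdN
  rcases hγ with hγ1 | hγit
  · -- inner: contradiction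
    exfalso
    have hconj : ∀ x : N, MulAut.conjNormal g x = dN * x * dN⁻¹ := by
      intro x
      apply e.injective
      have h1 := hβ_apply (e x)
      rw [hβe, hγ1, mul_one, MulAut.mul_apply, hφ1, hδ1, MulEquiv.symm_apply_apply] at h1
      have h2 := hmk_inj h1
      rw [← h2, map_mul, map_mul, map_inv, hdN, MulEquiv.apply_symm_apply]
    have h3 : (dN : G)⁻¹ * g = 1 := by
      apply hcent
      intro x
      have h4 := congrArg (fun z : N => (z : G)) (hconj x)
      simp only [MulAut.conjNormal_apply, Subgroup.coe_mul, Subgroup.coe_inv] at h4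
      calc (dN : G)⁻¹ * g * x = (dN : G)⁻¹ * (g * x * g⁻¹) * g := by group
        _ = (dN : G)⁻¹ * (dN * x * (dN : G)⁻¹) * g := by rw [h4]
        _ = x * ((dN : G)⁻¹ * g) := by group
    apply hg
    have h5 : g = dN := by
      calc g = dN * ((dN : G)⁻¹ * g) := by group
        _ = dN := by rw [h3, mul_one]
    rw [h5]
    exact dN.2
  · refine ⟨(dN : G)⁻¹ * g, ?_, ?_⟩
    · intro h
      apply hg
      have h5 : g = dN * ((dN : G)⁻¹ * g) := by group
      rw [h5]
      exact N.mul_mem dN.2 h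
    · intro x
      have h1 := hβ_apply (e x)
      have h6 : γ (mkP (e x)) = mkP ((e x)⁻¹).transpose := by
        apply hγit
        rfl
      rw [hβe, MulAut.mul_apply, MulAut.mul_apply, h6, hφ1, hδ1, MulEquiv.symm_apply_apply] at h1
      have h2 := hmk_inj h1
      have h7 : MulAut.conjNormal ((dN : G)⁻¹ * g) x = dN⁻¹ * MulAut.conjNormal g x * dN := by
        apply Subtype.ext
        simp only [MulAut.conjNormal_apply, Subgroup.coe_mul, Subgroup.coe_inv]
        group
      rw [h7, map_mul, map_mul, map_inv, ← h2, hdN, MulEquiv.apply_symm_apply]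
      group


end aux

/-- Let n ≥ 4 and let G be a finite group with a normal subgroup N of index 2 isomorphic to SL(n,2) and with trivial centralizer in G (so G is the extension of the simple group L_n(2) by its inverse-transpose automorphism, its full automorphism group). Then any two Sylow 2-subgroups of G have a non-trivial intersection: for a Sylow 2-subgroup H and every x ∈ G, H ∩ H^x ≠ 1. -/
theorem result {G : Type*} [Group G] [Finite G] {n : ℕ} (hn : 4 ≤ n) (N : Subgroup G) [N.Normal]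
    (e : N ≃* Matrix.SpecialLinearGroup (Fin n) (ZMod 2)) (hidx : N.index = 2)
    (hC : Subgroup.centralizer (N : Set G) = ⊥)
    (H : Sylow 2 G) (x : G) :
    (H : Subgroup G) ⊓ MulAut.conj x • (H : Subgroup G) ≠ ⊥ := by
  obtain ⟨τ, hτN, hτ⟩ := exists_tau hn N e hidx hC
  set j : GL (Fin n) (ZMod 2) →* G := N.subtype.comp (e.symm.toMonoidHom.comp glToSl) with hj
  have hj_apply : ∀ g, j g = (e.symm (glToSl g) : G) := fun g => rfl
  have hjinj : Function.Injective j := by
    intro a b hab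
    apply glToSl_injective
    apply e.symm.injective
    exact Subtype.ext hab
  have hrange : j.range = N := by
    ext y
    constructor
    · rintro ⟨g, rfl⟩
      exact (e.symm (glToSl g)).2
    · intro hy
      obtain ⟨g, hg⟩ := glToSl_surjective (e ⟨y, hy⟩)
      refine ⟨g, ?_⟩
      rw [hj_apply, hg, MulEquiv.symm_apply_apply]
  have hτj : ∀ g, τ * j g * τ⁻¹ = j (itGL g) := by
    intro g
    have h1 := hτ (e.symm (glToSl g))
    rw [MulEquiv.apply_symm_apply] at h1
    have h2 : ((glToSl g)⁻¹).transpose = glToSl (itGL g) := by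
      apply Subtype.ext
      rw [Matrix.SpecialLinearGroup.coe_transpose, ← map_inv]
      rfl
    rw [h2] at h1
    have h3 : MulAut.conjNormal τ (e.symm (glToSl g)) = e.symm (glToSl (itGL g)) := by
      rw [← h1, MulEquiv.symm_apply_apply]
    have h4 := congrArg (fun z : N => (z : G)) h3
    simp only [MulAut.conjNormal_apply] at h4
    exact h4
  have hτ2 : τ * τ = 1 := by
    have hmem : τ * τ ∈ Subgroup.centralizer (N : Set G) := by
      rw [Subgroup.mem_centralizer_iff]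
      intro h hh
      have hh' : h ∈ j.range := by rw [hrange]; exact hh
      obtain ⟨g, rfl⟩ := hh'
      have h1 : τ * τ * j g * (τ * τ)⁻¹ = j g := by
        calc τ * τ * j g * (τ * τ)⁻¹ = τ * (τ * j g * τ⁻¹) * τ⁻¹ := by group
          _ = j g := by rw [hτj, hτj, itGL_itGL]
      calc j g * (τ * τ) = (τ * τ * j g * (τ * τ)⁻¹) * (τ * τ) := by rw [h1]
        _ = τ * τ * j g := by group
    rw [hC, Subgroup.mem_bot] at hmem
    exact hmem
  exact main_abstract j hjinj (by rw [hrange]; exact hidx) τ (by rw [hrange]; exact hτN) hτj hτ2 H x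

end Cfsg.Agent.S2486
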