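import Cfsg.Statements.S2487
import Mathlib

set_option autoImplicit false
open scoped Pointwise
open Cfsg

namespace Cfsg.Agent.S2487

theorem sylow_inter_ne_bot {G : Type*} [Group G] [Finite G] (p : ℕ) [Fact p.Prime] (P : Subgroup G)
    (hP : IsPGroup p P)
    (hkey : ∀ y : G, ∃ m m' : G, m ∈ P ∧ m' ∈ P ∧ m ≠ 1 ∧ m = y * m' * y⁻¹)
    (H : Sylow p G) (x : G) : (H : Subgroup G) ⊓ MulAut.conj x • (H : Subgroup G) ≠ ⊥ := by
  obtain ⟨Q, hQ⟩ := hP.exists_le_sylow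
  obtain ⟨g, rfl⟩ := MulAction.exists_smul_eq G Q H
  obtain ⟨m, m', hm, hm', hm1, hmm⟩ := hkey (g⁻¹ * x * g)
  intro hbot
  have hmem : ∀ z : G, z ∈ P → g * z * g⁻¹ ∈ ((g • Q : Sylow p G) : Subgroup G) := by
    intro z hz
    rw [Sylow.coe_subgroup_smul, Subgroup.mem_smul_pointwise_iff_exists]
    exact ⟨z, hQ hz, by simp [MulAut.smul_def]⟩
  have h1 : g * m * g⁻¹ ∈ ((g • Q : Sylow p G) : Subgroup G) := hmem m hm
  have h2 : g * m * g⁻¹ ∈ MulAut.conj x • ((g • Q : Sylow p G) : Subgroup G) := by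
    rw [Subgroup.mem_smul_pointwise_iff_exists]
    refine ⟨g * m' * g⁻¹, hmem m' hm', ?_⟩
    rw [hmm]
    simp [MulAut.smul_def]
    group
  have h3 : g * m * g⁻¹ ∈ (⊥ : Subgroup G) := by
    rw [← hbot]
    exact ⟨h1, h2⟩
  rw [Subgroup.mem_bot] at h3
  apply hm1
  have : m = g⁻¹ * (g * m * g⁻¹) * g := by group
  rw [this, h3]
  group

open Matrix

section geom
variable {F : Type*} [Field F] {m : ℕ}

/-- swap the two halves -/
def sw (v : Fin m ⊕ Fin m → F) : Fin m ⊕ Fin m → F := fun j => v j.swap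

/-- polar form of the hyperbolic quadratic form -/
def Bf (u v : Fin m ⊕ Fin m → F) : F := sw v ⬝ᵥ u

theorem Bf_eq (u v : Fin m ⊕ Fin m → F) :
    Bf u v = ∑ i : Fin m, (u (.inl i) * v (.inr i) + u (.inr i) * v (.inl i)) := by
  simp only [Bf, dotProduct, sw, Fintype.sum_sum_type, Sum.swap_inl, Sum.swap_inr,
    Finset.sum_add_distrib]
  congr 1 <;> exact Finset.sum_congr rfl fun i _ => mul_comm _ _

theorem Q_add (u v : Fin m ⊕ Fin m → F) :
    quadFormPlus m F (u + v) = quadFormPlus m F u + quadFormPlus m F v + Bf u v := by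
  rw [Bf_eq]
  simp only [quadFormPlus, Pi.add_apply, ← Finset.sum_add_distrib]
  exact Finset.sum_congr rfl fun i _ => by ring

theorem Q_smul (c : F) (u : Fin m ⊕ Fin m → F) :
    quadFormPlus m F (c • u) = c * c * quadFormPlus m F u := by
  simp only [quadFormPlus, Pi.smul_apply, smul_eq_mul, Finset.mul_sum]
  exact Finset.sum_congr rfl fun i _ => by ring

theorem Bf_comm (u v : Fin m ⊕ Fin m → F) : Bf u v = Bf v u := by
  rw [Bf_eq, Bf_eq]
  exact Finset.sum_congr rfl fun i _ => by ring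

theorem Bf_add_left (u u' v : Fin m ⊕ Fin m → F) : Bf (u + u') v = Bf u v + Bf u' v :=
  dotProduct_add _ _ _

theorem Bf_sub_left (u u' v : Fin m ⊕ Fin m → F) : Bf (u - u') v = Bf u v - Bf u' v :=
  dotProduct_sub _ _ _

theorem Bf_smul_left (c : F) (u v : Fin m ⊕ Fin m → F) : Bf (c • u) v = c * Bf u v := by
  unfold Bf
  rw [dotProduct_smul, smul_eq_mul]

theorem Bf_add_right (u v v' : Fin m ⊕ Fin m → F) : Bf u (v + v') = Bf u v + Bf u v' := by
  rw [Bf_comm, Bf_add_left, Bf_comm v, Bf_comm v']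

theorem Bf_smul_right (c : F) (u v : Fin m ⊕ Fin m → F) : Bf u (c • v) = c * Bf u v := by
  rw [Bf_comm, Bf_smul_left, Bf_comm]

theorem Bf_self (u : Fin m ⊕ Fin m → F) : Bf u u = 2 * quadFormPlus m F u := by
  rw [Bf_eq, quadFormPlus, Finset.mul_sum]
  exact Finset.sum_congr rfl fun i _ => by ring

theorem Bf_single_inl (x : Fin m ⊕ Fin m → F) (i : Fin m) :
    Bf x (Pi.single (Sum.inl i) 1) = x (Sum.inr i) := by
  rw [Bf_eq]
  simp [Pi.single_apply]

theorem Bf_single_inr (x : Fin m ⊕ Fin m → F) (i : Fin m) :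
    Bf x (Pi.single (Sum.inr i) 1) = x (Sum.inl i) := by
  rw [Bf_eq]
  simp [Pi.single_apply]

theorem iso_Bf (M : Matrix (Fin m ⊕ Fin m) (Fin m ⊕ Fin m) F)
    (hM : ∀ u, quadFormPlus m F (M *ᵥ u) = quadFormPlus m F u) (u v : Fin m ⊕ Fin m → F) :
    Bf (M *ᵥ u) (M *ᵥ v) = Bf u v := by
  have h := hM (u + v)
  rw [mulVec_add, Q_add, Q_add, hM, hM] at h
  exact add_left_cancel h

theorem mulVec_ext' (M N : Matrix (Fin m ⊕ Fin m) (Fin m ⊕ Fin m) F)
    (h : ∀ v : Fin m ⊕ Fin m → F, M *ᵥ v = N *ᵥ v) : M = N := by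
  ext i j
  have := congrFun (h (Pi.single j 1)) i
  simpa using this

variable [Fintype F]

theorem eq_zero_or_one (hF : Fintype.card F = 2) (x : F) : x = 0 ∨ x = 1 := by
  classical
  by_contra hcon
  push Not at hcon
  have h3 : ({0, 1, x} : Finset F).card = 3 := by
    rw [Finset.card_insert_of_notMem, Finset.card_insert_of_notMem, Finset.card_singleton]
    · simpa using hcon.2.symm
    · simp only [Finset.mem_insert, Finset.mem_singleton, not_or]
      exact ⟨zero_ne_one, hcon.1.symm⟩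
  have := Finset.card_le_univ ({0, 1, x} : Finset F)
  omega

theorem two_eq_zero (hF : Fintype.card F = 2) : (2 : F) = 0 := by
  rcases eq_zero_or_one hF (2 : F) with h | h
  · exact h
  · exfalso
    have : (1 : F) = 0 := by linear_combination h
    exact one_ne_zero this

theorem add_self_vec (hF : Fintype.card F = 2) (v : Fin m ⊕ Fin m → F) : v + v = 0 := by
  rw [← two_smul F v, two_eq_zero hF, zero_smul]

theorem exists_Bf_eq_one (hF : Fintype.card F = 2) (v : Fin m ⊕ Fin m → F) (hv : v ≠ 0) :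
    ∃ x : Fin m ⊕ Fin m → F, Bf x v = 1 := by
  have : ∃ j, v j ≠ 0 := by
    by_contra hcon
    push Not at hcon
    exact hv (funext hcon)
  obtain ⟨j, hj⟩ := this
  have hj1 : v j = 1 := (eq_zero_or_one hF (v j)).resolve_left hj
  rcases j with j | j
  · exact ⟨Pi.single (Sum.inr j) 1, by rw [Bf_comm, Bf_single_inr, hj1]⟩
  · exact ⟨Pi.single (Sum.inl j) 1, by rw [Bf_comm, Bf_single_inl, hj1]⟩

/-- the key computation: an isometry fixing a totally singular `(m-1)`-space pointwise has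
order dividing 4. -/
theorem pow_four (hF : Fintype.card F = 2) (l : Fin m)
    (M : Matrix (Fin m ⊕ Fin m) (Fin m ⊕ Fin m) F)
    (hM : ∀ u, quadFormPlus m F (M *ᵥ u) = quadFormPlus m F u)
    (hfix : ∀ i : Fin m, i ≠ l →
      M *ᵥ Pi.single (Sum.inl i) (1 : F) = Pi.single (Sum.inl i) 1)
    (x : Fin m ⊕ Fin m → F) : M *ᵥ (M *ᵥ (M *ᵥ (M *ᵥ x))) = x := by
  have ha : ∀ (x : Fin m ⊕ Fin m → F) (i : Fin m), i ≠ l → (M *ᵥ x) (Sum.inr i) = x (Sum.inr i) := by
    intro x i hi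
    have := iso_Bf M hM x (Pi.single (Sum.inl i) 1)
    rw [hfix i hi, Bf_single_inl, Bf_single_inl] at this
    exact this
  have hb : ∀ a : Fin m ⊕ Fin m → F, (∀ i, a (Sum.inr i) = 0) → a (Sum.inl l) = 0 →
      M *ᵥ a = a := by
    intro a ha1 ha2
    have ha' : a = ∑ i : Fin m, a (Sum.inl i) • Pi.single (Sum.inl i) (1 : F) := by
      ext j
      rcases j with j | j
      · simp [Finset.sum_apply, Pi.single_apply]
      · simp [Finset.sum_apply, ha1]
    conv_lhs => rw [ha']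
    conv_rhs => rw [ha']
    rw [mulVec_sum]
    refine Finset.sum_congr rfl fun i _ => ?_
    rw [mulVec_smul]
    by_cases hi : i = l
    · subst hi; rw [ha2]; simp
    · rw [hfix i hi]
  set E := M *ᵥ Pi.single (Sum.inl l) (1 : F) with hEdef
  set E' := M *ᵥ Pi.single (Sum.inr l) (1 : F) with hE'def
  have hE : ∀ i, i ≠ l → E (Sum.inr i) = 0 := by
    intro i hi
    rw [hEdef, ha _ i hi]; simp
  have hE' : ∀ i, i ≠ l → E' (Sum.inr i) = 0 := by
    intro i hi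
    rw [hE'def, ha _ i hi]; simp [hi]
  have hQE : E (Sum.inl l) * E (Sum.inr l) = 0 := by
    have h1 := hM (Pi.single (Sum.inl l) (1 : F))
    rw [← hEdef] at h1
    have h2 : quadFormPlus m F E = E (Sum.inl l) * E (Sum.inr l) := by
      unfold quadFormPlus
      apply Finset.sum_eq_single l
      · intro i _ hi; rw [hE i hi, mul_zero]
      · intro h; exact absurd (Finset.mem_univ l) h
    rw [← h2, h1]
    simp [quadFormPlus]
  have hQE' : E' (Sum.inl l) * E' (Sum.inr l) = 0 := by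
    have h1 := hM (Pi.single (Sum.inr l) (1 : F))
    rw [← hE'def] at h1
    have h2 : quadFormPlus m F E' = E' (Sum.inl l) * E' (Sum.inr l) := by
      unfold quadFormPlus
      apply Finset.sum_eq_single l
      · intro i _ hi; rw [hE' i hi, mul_zero]
      · intro h; exact absurd (Finset.mem_univ l) h
    rw [← h2, h1]
    simp [quadFormPlus]
  have hBE : E (Sum.inl l) * E' (Sum.inr l) + E (Sum.inr l) * E' (Sum.inl l) = 1 := by
    have h1 := iso_Bf M hM (Pi.single (Sum.inl l) (1 : F)) (Pi.single (Sum.inr l) (1 : F))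
    rw [← hEdef, ← hE'def, Bf_single_inr, Pi.single_eq_same] at h1
    rw [← h1, Bf_eq]
    symm
    apply Finset.sum_eq_single l
    · intro i _ hi; rw [hE i hi, hE' i hi]; simp
    · intro h; exact absurd (Finset.mem_univ l) h
  -- action on vectors of A^⊥
  have hd : ∀ z : Fin m ⊕ Fin m → F, (∀ i, i ≠ l → z (Sum.inr i) = 0) →
      (M *ᵥ z) (Sum.inl l) = z (Sum.inl l) * E (Sum.inl l) + z (Sum.inr l) * E' (Sum.inl l) ∧
      (M *ᵥ z) (Sum.inr l) = z (Sum.inl l) * E (Sum.inr l) + z (Sum.inr l) * E' (Sum.inr l) := by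
    intro z hz
    set z₀ := z - z (Sum.inl l) • Pi.single (Sum.inl l) (1 : F)
      - z (Sum.inr l) • Pi.single (Sum.inr l) (1 : F) with hz₀
    have hz' : z = z₀ + z (Sum.inl l) • Pi.single (Sum.inl l) (1 : F)
        + z (Sum.inr l) • Pi.single (Sum.inr l) (1 : F) := by
      rw [hz₀]; abel
    have h0 : M *ᵥ z₀ = z₀ := by
      apply hb
      · intro i
        by_cases hi : i = l
        · subst hi; simp [hz₀]
        · simp [hz₀, hz i hi, hi]
      · simp [hz₀]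
    have h1 : M *ᵥ z = z₀ + z (Sum.inl l) • E + z (Sum.inr l) • E' := by
      conv_lhs => rw [hz']
      rw [mulVec_add, mulVec_add, mulVec_smul, mulVec_smul, h0]
    have h2 : z₀ (Sum.inl l) = 0 := by simp [hz₀]
    have h3 : z₀ (Sum.inr l) = 0 := by simp [hz₀]
    constructor
    · rw [h1]; simp [h2]
    · rw [h1]; simp [h3]
  have hcase : E (Sum.inl l) * E (Sum.inl l) + E (Sum.inr l) * E' (Sum.inl l) = 1 ∧
      E' (Sum.inl l) * (E (Sum.inl l) + E' (Sum.inr l)) = 0 ∧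
      E (Sum.inr l) * (E (Sum.inl l) + E' (Sum.inr l)) = 0 ∧
      E' (Sum.inl l) * E (Sum.inr l) + E' (Sum.inr l) * E' (Sum.inr l) = 1 := by
    have h2 := two_eq_zero hF
    rcases eq_zero_or_one hF (E (Sum.inl l)) with h1 | h1 <;>
    rcases eq_zero_or_one hF (E (Sum.inr l)) with h2 | h2 <;>
    rcases eq_zero_or_one hF (E' (Sum.inl l)) with h3 | h3 <;>
    rcases eq_zero_or_one hF (E' (Sum.inr l)) with h4 | h4 <;>
    simp only [h1, h2, h3, h4] at hQE hQE' hBE ⊢ <;> simp_all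
  have hkey : ∀ z : Fin m ⊕ Fin m → F, (∀ i, i ≠ l → z (Sum.inr i) = 0) →
      (M *ᵥ (M *ᵥ z)) (Sum.inl l) = z (Sum.inl l) ∧
      (M *ᵥ (M *ᵥ z)) (Sum.inr l) = z (Sum.inr l) := by
    intro z hz
    have hz2 : ∀ i, i ≠ l → (M *ᵥ z) (Sum.inr i) = 0 := fun i hi => by rw [ha z i hi, hz i hi]
    obtain ⟨e1, e2⟩ := hd z hz
    obtain ⟨e3, e4⟩ := hd (M *ᵥ z) hz2
    obtain ⟨c1, c2, c3, c4⟩ := hcase
    constructor
    · rw [e3, e1, e2]
      linear_combination z (Sum.inl l) * c1 + z (Sum.inr l) * c2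
    · rw [e4, e1, e2]
      linear_combination z (Sum.inl l) * c3 + z (Sum.inr l) * c4
  have hf : ∀ z : Fin m ⊕ Fin m → F, (∀ i, i ≠ l → z (Sum.inr i) = 0) →
      M *ᵥ (M *ᵥ (M *ᵥ z)) - M *ᵥ z = M *ᵥ (M *ᵥ z) - z := by
    intro z hz
    rw [← mulVec_sub]
    apply hb
    · intro i
      by_cases hi : i = l
      · subst hi
        rw [Pi.sub_apply, (hkey z hz).2, sub_self]
      · rw [Pi.sub_apply, ha _ i hi, ha _ i hi, hz i hi, sub_self]
    · rw [Pi.sub_apply, (hkey z hz).1, sub_self]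
  have hx := hf (M *ᵥ x - x) (fun i hi => by rw [Pi.sub_apply, ha x i hi, sub_self])
  simp only [mulVec_sub] at hx
  have e1 := add_self_vec hF (M *ᵥ (M *ᵥ (M *ᵥ x)))
  have e2 := add_self_vec hF (M *ᵥ x)
  have : M *ᵥ (M *ᵥ (M *ᵥ (M *ᵥ x))) - x
      = (M *ᵥ (M *ᵥ (M *ᵥ x)) + M *ᵥ (M *ᵥ (M *ᵥ x))) - (M *ᵥ x + M *ᵥ x) := by
    have hx' := sub_eq_zero.mpr hx
    rw [← sub_eq_zero]
    rw [← hx']
    abel
  rw [e1, e2, sub_zero, sub_eq_zero] at this
  exact this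

/-- reflection (orthogonal transvection) in a non-singular vector. -/
theorem refl_exists (hF : Fintype.card F = 2) (v : Fin m ⊕ Fin m → F)
    (hv : quadFormPlus m F v ≠ 0) :
    ∃ R : Matrix (Fin m ⊕ Fin m) (Fin m ⊕ Fin m) F, R * R = 1 ∧
      (∀ u, quadFormPlus m F (R *ᵥ u) = quadFormPlus m F u) ∧ R ≠ 1 ∧
      ∀ w, Bf w v = 0 → R *ᵥ w = w := by
  have h2 := two_eq_zero hF
  have hv1 : quadFormPlus m F v = 1 := (eq_zero_or_one hF _).resolve_left hv
  have hvv : Bf v v = 0 := by rw [Bf_self, h2, zero_mul]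
  have hR : ∀ x, (1 + vecMulVec v (sw v)) *ᵥ x = x + Bf x v • v := by
    intro x
    rw [add_mulVec, one_mulVec, vecMulVec_mulVec, op_smul_eq_smul]
    rfl
  refine ⟨1 + vecMulVec v (sw v), ?_, ?_, ?_, ?_⟩
  · apply mulVec_ext'
    intro x
    rw [← mulVec_mulVec, hR x, hR, Bf_add_left, Bf_smul_left, hvv, mul_zero, add_zero, one_mulVec,
      add_assoc, add_self_vec hF, add_zero]
  · intro x
    rw [hR, Q_add, Q_smul, Bf_smul_right, hv1]
    linear_combination (Bf x v * Bf x v) * h2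
  · intro h1
    have hv0 : v ≠ 0 := by
      rintro rfl
      apply hv
      simp [quadFormPlus]
    obtain ⟨x, hx⟩ := exists_Bf_eq_one hF v hv0
    have := hR x
    rw [h1, one_mulVec, hx, one_smul] at this
    exact hv0 (by simpa using this)
  · intro w hw
    rw [hR, hw, zero_smul, add_zero]

/-- Siegel element for a totally singular pair. -/
theorem siegel_exists (hF : Fintype.card F = 2) (u1 u2 : Fin m ⊕ Fin m → F)
    (h1 : quadFormPlus m F u1 = 0) (h2 : quadFormPlus m F u2 = 0) (h12 : Bf u1 u2 = 0)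
    (hu1 : u1 ≠ 0) (hu2 : u2 ≠ 0) (hne : u1 ≠ u2) :
    ∃ R : Matrix (Fin m ⊕ Fin m) (Fin m ⊕ Fin m) F, R * R = 1 ∧
      (∀ u, quadFormPlus m F (R *ᵥ u) = quadFormPlus m F u) ∧ R ≠ 1 ∧
      ∀ w, Bf w u1 = 0 → Bf w u2 = 0 → R *ᵥ w = w := by
  have h20 := two_eq_zero hF
  have h11 : Bf u1 u1 = 0 := by rw [Bf_self, h1, mul_zero]
  have h22 : Bf u2 u2 = 0 := by rw [Bf_self, h2, mul_zero]
  have h21 : Bf u2 u1 = 0 := by rw [Bf_comm, h12]
  have hR : ∀ x, (1 + vecMulVec u2 (sw u1) + vecMulVec u1 (sw u2)) *ᵥ x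
      = x + (Bf x u1 • u2 + Bf x u2 • u1) := by
    intro x
    rw [add_mulVec, add_mulVec, one_mulVec, vecMulVec_mulVec, vecMulVec_mulVec, add_assoc,
      op_smul_eq_smul, op_smul_eq_smul]
    rfl
  refine ⟨1 + vecMulVec u2 (sw u1) + vecMulVec u1 (sw u2), ?_, ?_, ?_, ?_⟩
  · apply mulVec_ext'
    intro x
    rw [← mulVec_mulVec, hR x, hR]
    simp only [Bf_add_left, Bf_smul_left, h11, h22, h12, h21, mul_zero, add_zero, one_mulVec]
    rw [add_assoc, add_self_vec hF, add_zero]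
  · intro x
    rw [hR, Q_add, Q_add, Q_smul, Q_smul, h1, h2, Bf_add_right, Bf_smul_right, Bf_smul_right,
      Bf_smul_left, Bf_smul_right, h21]
    linear_combination (Bf x u1 * Bf x u2) * h20
  · intro hone
    obtain ⟨x, hx⟩ := exists_Bf_eq_one hF u1 hu1
    have := hR x
    rw [hone, one_mulVec, hx, one_smul] at this
    have h3 : u2 + Bf x u2 • u1 = 0 := by simpa using this.symm
    rcases eq_zero_or_one hF (Bf x u2) with h4 | h4
    · rw [h4, zero_smul, add_zero] at h3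
      exact hu2 h3
    · rw [h4, one_smul] at h3
      apply hne
      have := add_self_vec hF u2
      have h5 : u1 - u2 = (u2 + u1) - (u2 + u2) := by abel
      rw [h3, this, sub_zero, sub_eq_zero] at h5
      exact h5
  · intro w hw1 hw2
    rw [hR, hw1, hw2, zero_smul, zero_smul, add_zero, add_zero]

/-- For every matrix `N` there is a non-trivial involutory isometry fixing the `e_i` and the
`N e_i`, `i ≠ l`. -/
theorem key (hF : Fintype.card F = 2) (hm : 1 ≤ m) (l : Fin m)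
    (N : Matrix (Fin m ⊕ Fin m) (Fin m ⊕ Fin m) F) :
    ∃ R : Matrix (Fin m ⊕ Fin m) (Fin m ⊕ Fin m) F, R * R = 1 ∧
      (∀ u, quadFormPlus m F (R *ᵥ u) = quadFormPlus m F u) ∧ R ≠ 1 ∧
      ∀ i : Fin m, i ≠ l → R *ᵥ Pi.single (Sum.inl i) (1 : F) = Pi.single (Sum.inl i) 1 ∧
        R *ᵥ (N *ᵥ Pi.single (Sum.inl i) (1 : F)) = N *ᵥ Pi.single (Sum.inl i) (1 : F) := by
  classical
  -- pigeonhole
  let f : (Fin m ⊕ Fin m → F) → ({i : Fin m // i ≠ l} ⊕ {i : Fin m // i ≠ l} → F) :=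
    fun v => Sum.elim (fun i => Bf v (Pi.single (Sum.inl i.1) (1 : F)))
      (fun i => Bf v (N *ᵥ Pi.single (Sum.inl i.1) (1 : F)))
  have hcard1 : Fintype.card (Fin m ⊕ Fin m → F) = 2 ^ (2 * m) := by
    rw [Fintype.card_fun, hF, Fintype.card_sum, Fintype.card_fin, two_mul]
  have hcard2 : Fintype.card ({i : Fin m // i ≠ l} ⊕ {i : Fin m // i ≠ l} → F)
      = 2 ^ (2 * (m - 1)) := by
    rw [Fintype.card_fun, hF, Fintype.card_sum, Fintype.card_subtype_compl,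
      Fintype.card_subtype_eq, Fintype.card_fin, two_mul]
  have hlt : Fintype.card ({i : Fin m // i ≠ l} ⊕ {i : Fin m // i ≠ l} → F) * 2
      < Fintype.card (Fin m ⊕ Fin m → F) := by
    rw [hcard1, hcard2]
    have : 2 * m = 2 * (m - 1) + 2 := by omega
    rw [this, pow_add]
    have : 0 < 2 ^ (2 * (m - 1)) := by positivity
    omega
  obtain ⟨y, hy⟩ := Fintype.exists_lt_card_fiber_of_mul_lt_card f hlt
  obtain ⟨a, b, c, ha, hb, hc, hab, hac, hbc⟩ := Finset.two_lt_card_iff.mp hy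
  simp only [Finset.mem_filter, Finset.mem_univ, true_and] at ha hb hc
  have hK : ∀ a b : Fin m ⊕ Fin m → F, f a = y → f b = y → ∀ i : Fin m, i ≠ l →
      Bf (a - b) (Pi.single (Sum.inl i) (1 : F)) = 0 ∧
      Bf (a - b) (N *ᵥ Pi.single (Sum.inl i) (1 : F)) = 0 := by
    intro a b ha hb i hi
    have e1 := congrFun (ha.trans hb.symm) (Sum.inl ⟨i, hi⟩)
    have e2 := congrFun (ha.trans hb.symm) (Sum.inr ⟨i, hi⟩)
    simp only [f, Sum.elim_inl, Sum.elim_inr] at e1 e2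
    rw [Bf_sub_left, Bf_sub_left, e1, e2, sub_self, sub_self]
    exact ⟨rfl, rfl⟩
  have fin : ∀ (R : Matrix (Fin m ⊕ Fin m) (Fin m ⊕ Fin m) F) (w : Fin m ⊕ Fin m → F),
      (∀ i : Fin m, i ≠ l → Bf w (Pi.single (Sum.inl i) (1 : F)) = 0 ∧
        Bf w (N *ᵥ Pi.single (Sum.inl i) (1 : F)) = 0) →
      (∀ z, Bf z w = 0 → R *ᵥ z = z) →
      ∀ i : Fin m, i ≠ l → R *ᵥ Pi.single (Sum.inl i) (1 : F) = Pi.single (Sum.inl i) 1 ∧
        R *ᵥ (N *ᵥ Pi.single (Sum.inl i) (1 : F)) = N *ᵥ Pi.single (Sum.inl i) (1 : F) := by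
    intro R w hw hR i hi
    exact ⟨hR _ (by rw [Bf_comm]; exact (hw i hi).1), hR _ (by rw [Bf_comm]; exact (hw i hi).2)⟩
  have k1 := hK a b ha hb
  have k2 := hK a c ha hc
  by_cases q1 : quadFormPlus m F (a - b) = 0
  swap
  · obtain ⟨R, r1, r2, r3, r4⟩ := refl_exists hF (a - b) q1
    exact ⟨R, r1, r2, r3, fin R (a - b) k1 r4⟩
  by_cases q2 : quadFormPlus m F (a - c) = 0
  swap
  · obtain ⟨R, r1, r2, r3, r4⟩ := refl_exists hF (a - c) q2
    exact ⟨R, r1, r2, r3, fin R (a - c) k2 r4⟩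
  by_cases q3 : Bf (a - b) (a - c) = 0
  swap
  · have q4 : quadFormPlus m F ((a - b) + (a - c)) ≠ 0 := by
      rw [Q_add, q1, q2, zero_add, zero_add]; exact q3
    obtain ⟨R, r1, r2, r3, r4⟩ := refl_exists hF ((a - b) + (a - c)) q4
    refine ⟨R, r1, r2, r3, fin R _ ?_ r4⟩
    intro i hi
    rw [Bf_add_left, Bf_add_left, (k1 i hi).1, (k1 i hi).2, (k2 i hi).1, (k2 i hi).2]
    simp
  obtain ⟨R, r1, r2, r3, r4⟩ := siegel_exists hF (a - b) (a - c) q1 q2 q3
    (sub_ne_zero.mpr hab) (sub_ne_zero.mpr hac) (fun h => hbc (by simpa using h))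
  refine ⟨R, r1, r2, r3, ?_⟩
  intro i hi
  exact ⟨r4 _ (by rw [Bf_comm]; exact (k1 i hi).1) (by rw [Bf_comm]; exact (k2 i hi).1),
    r4 _ (by rw [Bf_comm]; exact (k1 i hi).2) (by rw [Bf_comm]; exact (k2 i hi).2)⟩

/-- the pointwise stabiliser of the totally singular space spanned by `e_i`, `i ≠ l`. -/
def Pl (l : Fin m) : Subgroup (Cfsg.isometryGroup F (Cfsg.quadFormPlus m F)) where
  carrier := {g | ∀ i : Fin m, i ≠ l →
    (g.1.1 : Matrix (Fin m ⊕ Fin m) (Fin m ⊕ Fin m) F) *ᵥ Pi.single (Sum.inl i) (1 : F)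
      = Pi.single (Sum.inl i) 1}
  mul_mem' := by
    intro a b ha hb i hi
    show (a.1.1 * b.1.1) *ᵥ _ = _
    rw [← mulVec_mulVec, hb i hi, ha i hi]
  one_mem' := by
    intro i hi
    show (1 : Matrix (Fin m ⊕ Fin m) (Fin m ⊕ Fin m) F) *ᵥ _ = _
    rw [one_mulVec]
  inv_mem' := by
    intro a ha i hi
    have h1 := ha i hi
    have h2 : ((a⁻¹).1.1 : Matrix (Fin m ⊕ Fin m) (Fin m ⊕ Fin m) F) * a.1.1 = 1 := by
      rw [← Units.val_mul, ← Subgroup.coe_mul, inv_mul_cancel]; rfl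
    show ((a⁻¹).1.1 : Matrix (Fin m ⊕ Fin m) (Fin m ⊕ Fin m) F) *ᵥ _ = _
    conv_lhs => rw [← h1]
    rw [mulVec_mulVec, h2, one_mulVec]

theorem Pl_isPGroup (hF : Fintype.card F = 2) (l : Fin m) : IsPGroup 2 (Pl (F := F) l) := by
  intro g
  refine ⟨2, ?_⟩
  apply Subtype.ext
  apply Subtype.ext
  apply Units.ext
  show (g.1.1.1 : Matrix (Fin m ⊕ Fin m) (Fin m ⊕ Fin m) F) ^ (2 ^ 2) = 1
  apply mulVec_ext'
  intro x
  have hM : ∀ u, quadFormPlus m F ((g.1.1.1 : Matrix (Fin m ⊕ Fin m) (Fin m ⊕ Fin m) F) *ᵥ u)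
      = quadFormPlus m F u := fun u => g.1.2 u u
  have := pow_four hF l (g.1.1.1 : Matrix (Fin m ⊕ Fin m) (Fin m ⊕ Fin m) F) hM g.2 x
  rw [one_mulVec]
  rw [show (2 : ℕ) ^ 2 = 1 + 1 + 1 + 1 from rfl, pow_add, pow_add, pow_add, pow_one,
    ← mulVec_mulVec, ← mulVec_mulVec, ← mulVec_mulVec]
  exact this

theorem hkey (hF : Fintype.card F = 2) (hm : 1 ≤ m) (l : Fin m)
    (y : Cfsg.isometryGroup F (Cfsg.quadFormPlus m F)) :
    ∃ p p' : Cfsg.isometryGroup F (Cfsg.quadFormPlus m F),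
      p ∈ Pl (F := F) l ∧ p' ∈ Pl (F := F) l ∧ p ≠ 1 ∧ p = y * p' * y⁻¹ := by
  obtain ⟨R, r1, r2, r3, r4⟩ := key hF hm l (y.1.1 : Matrix (Fin m ⊕ Fin m) (Fin m ⊕ Fin m) F)
  let p : Cfsg.isometryGroup F (Cfsg.quadFormPlus m F) := ⟨⟨R, R, r1, r1⟩, fun u _ => r2 u⟩
  have hp : p ∈ Pl (F := F) l := fun i hi => (r4 i hi).1
  refine ⟨p, y⁻¹ * p * y, hp, ?_, ?_, by group⟩
  · intro i hi
    have h2 : ((y⁻¹).1.1 : Matrix (Fin m ⊕ Fin m) (Fin m ⊕ Fin m) F) * y.1.1 = 1 := by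
      rw [← Units.val_mul, ← Subgroup.coe_mul, inv_mul_cancel]; rfl
    show (((y⁻¹).1.1 : Matrix (Fin m ⊕ Fin m) (Fin m ⊕ Fin m) F) * R * y.1.1) *ᵥ _ = _
    rw [← mulVec_mulVec, ← mulVec_mulVec, (r4 i hi).2, mulVec_mulVec, h2, one_mulVec]
  · intro h
    apply r3
    have := congrArg (fun g : Cfsg.isometryGroup F (Cfsg.quadFormPlus m F) =>
      (g.1.1 : Matrix (Fin m ⊕ Fin m) (Fin m ⊕ Fin m) F)) h
    exact this

end geom

/-- Let m ≥ 4 and let G be the full isometry group of the hyperbolic quadratic form x₁y₁ + ⋯ + x_m y_m on the 2m-dimensional space over the field with 2 elements (the orthogonal group O⁺(2m,2), which contains Ω⁺(2m,2) with index 2). Then any two Sylow 2-subgroups of G have a non-trivial intersection: for a Sylow 2-subgroup H and every x ∈ G, H ∩ H^x ≠ 1. -/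
theorem result {F : Type*} [Field F] [Fintype F] (hF : Fintype.card F = 2) {m : ℕ} (hm : 4 ≤ m)
    (H : Sylow 2 (Cfsg.isometryGroup F (Cfsg.quadFormPlus m F)))
    (x : Cfsg.isometryGroup F (Cfsg.quadFormPlus m F)) :
    (H : Subgroup (Cfsg.isometryGroup F (Cfsg.quadFormPlus m F))) ⊓ MulAut.conj x • (H : Subgroup _) ≠ ⊥ := by
  have hm1 : 1 ≤ m := by omega
  have : Fact (Nat.Prime 2) := ⟨Nat.prime_two⟩
  let l : Fin m := ⟨0, by omega⟩
  exact sylow_inter_ne_bot 2 (Pl (F := F) l) (Pl_isPGroup hF l) (fun y => hkey hF hm1 l y) H x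

end Cfsg.Agent.S2487
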