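import Cfsg.Statements.S5057

set_option autoImplicit false
open Cfsg

namespace Cfsg.Agent.S5057

open Equiv Equiv.Perm

set_option maxRecDepth 100000 in
theorem F1 : ∀ g : Equiv.Perm (Fin 6), Equiv.Perm.sign g = 1 →
    g ^ 2 = 1 ∨ g ^ 3 = 1 ∨ g ^ 4 = 1 ∨ g ^ 5 = 1 := by decide +kernel

set_option maxRecDepth 100000 in
theorem F2 : ∀ a : Equiv.Perm (Fin 6), Equiv.Perm.sign a = 1 → a ^ 2 = 1 → a ≠ 1 →
    a.support.card = 4 ∧ ∃ x y : Fin 6, x ≠ y ∧ a x = x ∧ a y = y := by decide +kernel

theorem order_le (g : ↥(alternatingGroup (Fin 6))) : orderOf g ≤ 5 := by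
  have hs : Equiv.Perm.sign (g : Equiv.Perm (Fin 6)) = 1 := Equiv.Perm.mem_alternatingGroup.mp g.2
  have hco : orderOf (g : Equiv.Perm (Fin 6)) = orderOf g := Subgroup.orderOf_coe g
  rw [← hco]
  rcases F1 _ hs with h | h | h | h
  · exact (Nat.le_of_dvd (by norm_num) (orderOf_dvd_of_pow_eq_one h)).trans (by norm_num)
  · exact (Nat.le_of_dvd (by norm_num) (orderOf_dvd_of_pow_eq_one h)).trans (by norm_num)
  · exact (Nat.le_of_dvd (by norm_num) (orderOf_dvd_of_pow_eq_one h)).trans (by norm_num)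
  · exact (Nat.le_of_dvd (by norm_num) (orderOf_dvd_of_pow_eq_one h))

theorem sq_one {g : ↥(alternatingGroup (Fin 6))} (h : orderOf g = 2) : g * g = 1 := by
  have := pow_orderOf_eq_one g
  rw [h, pow_two] at this
  exact this

theorem cycleType_eq {a : Equiv.Perm (Fin 6)} (hs : Equiv.Perm.sign a = 1) (ho : orderOf a = 2) :
    a.cycleType = Multiset.replicate 2 2 := by
  have h2 : a ^ 2 = 1 := by rw [← ho]; exact pow_orderOf_eq_one a
  have h1 : a ≠ 1 := by
    intro h
    rw [h, orderOf_one] at ho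
    exact absurd ho (by norm_num)
  obtain ⟨hc, -⟩ := F2 a hs h2 h1
  obtain ⟨n, hn⟩ := Equiv.Perm.cycleType_prime_order (σ := a) (by rw [ho]; exact Nat.prime_two)
  rw [ho] at hn
  have hsum := Equiv.Perm.sum_cycleType a
  rw [hn, hc, Multiset.sum_replicate, smul_eq_mul] at hsum
  have : n = 1 := by omega
  rw [hn, this]

/-- The involutions of the alternating group of degree 6 form a class of root involutions (a single conjugacy class of involutions generating the group, any two of which commute, have product of odd order, or have product of order 4 whose square is again an involution of the class), and the product of any two of them has order at most 5. -/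
theorem result :
    Cfsg.IsRootInvolutionClass {g : ↥(alternatingGroup (Fin 6)) | orderOf g = 2} ∧
    ∀ d ∈ {g : ↥(alternatingGroup (Fin 6)) | orderOf g = 2}, ∀ e ∈ {g : ↥(alternatingGroup (Fin 6)) | orderOf g = 2},
      orderOf (d * e) ≤ 5 := by
  have hsimple : IsSimpleGroup ↥(alternatingGroup (Fin 6)) :=
    alternatingGroup.isSimpleGroup (by simp)
  have hconj : ∀ d ∈ {g : ↥(alternatingGroup (Fin 6)) | orderOf g = 2}, ∀ g : ↥(alternatingGroup (Fin 6)),
      g * d * g⁻¹ ∈ {g : ↥(alternatingGroup (Fin 6)) | orderOf g = 2} := by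
    intro d hd g
    have h1 : g * d * g⁻¹ = MulAut.conj g d := by simp [MulAut.conj_apply]
    show orderOf (g * d * g⁻¹) = 2
    rw [h1, MulEquiv.orderOf_eq]
    exact hd
  -- an explicit involution
  have ha₀mem : (Equiv.swap (0 : Fin 6) 1 * Equiv.swap 2 3) ∈ alternatingGroup (Fin 6) := by
    rw [Equiv.Perm.mem_alternatingGroup]; decide
  have ha₀ : orderOf (⟨Equiv.swap (0 : Fin 6) 1 * Equiv.swap 2 3, ha₀mem⟩ : ↥(alternatingGroup (Fin 6))) = 2 := by
    rw [← Subgroup.orderOf_coe]
    apply orderOf_eq_prime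
    · show (Equiv.swap (0 : Fin 6) 1 * Equiv.swap 2 3) ^ 2 = 1
      decide
    · show (Equiv.swap (0 : Fin 6) 1 * Equiv.swap 2 3) ≠ 1
      decide
  refine ⟨⟨⟨fun d hd => hd, ?_, hconj, ?_⟩, ⟨_, ha₀⟩, ?_⟩, ?_⟩
  · -- generation
    have hN : (Subgroup.closure {g : ↥(alternatingGroup (Fin 6)) | orderOf g = 2}).Normal := by
      have h1 : Subgroup.closure {g : ↥(alternatingGroup (Fin 6)) | orderOf g = 2} =
          Subgroup.normalClosure {g : ↥(alternatingGroup (Fin 6)) | orderOf g = 2} := by
        apply le_antisymm Subgroup.closure_le_normalClosure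
        unfold Subgroup.normalClosure
        apply Subgroup.closure_mono
        intro x hx
        rw [Group.mem_conjugatesOfSet_iff] at hx
        obtain ⟨d, hd, hdx⟩ := hx
        obtain ⟨c, rfl⟩ := isConj_iff.mp hdx
        exact hconj d hd c
      rw [h1]; infer_instance
    rcases hN.eq_bot_or_eq_top with h | h
    · exfalso
      have h1 : (⟨Equiv.swap (0 : Fin 6) 1 * Equiv.swap 2 3, ha₀mem⟩ : ↥(alternatingGroup (Fin 6))) ∈
          Subgroup.closure {g : ↥(alternatingGroup (Fin 6)) | orderOf g = 2} := Subgroup.subset_closure ha₀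
      rw [h, Subgroup.mem_bot] at h1
      rw [h1, orderOf_one] at ha₀
      exact absurd ha₀ (by norm_num)
    · exact h
  · -- pairs
    intro a ha b hb
    have ha2 := sq_one ha
    have hb2 := sq_one hb
    have hle := order_le (a * b)
    have hpos : 0 < orderOf (a * b) := orderOf_pos (a * b)
    have hcases : orderOf (a * b) = 1 ∨ orderOf (a * b) = 2 ∨ orderOf (a * b) = 3 ∨ orderOf (a * b) = 4 ∨
        orderOf (a * b) = 5 := by omega
    rcases hcases with h | h | h | h | h
    · left
      rw [orderOf_eq_one_iff] at h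
      have : a = b⁻¹ := eq_inv_of_mul_eq_one_left h
      rw [this]; simp
    · left
      have h1 := pow_orderOf_eq_one (a * b)
      rw [h, pow_two] at h1
      calc a * b = a * b * ((a * b) * (a * b))⁻¹ := by rw [h1]; simp
        _ = b⁻¹ * a⁻¹ := by group
        _ = b * a := by rw [inv_eq_of_mul_eq_one_left hb2, inv_eq_of_mul_eq_one_left ha2]
    · right; left; rw [h]; decide
    · right; right
      refine ⟨h, ?_⟩
      show orderOf ((a * b) ^ 2) = 2
      rw [orderOf_pow' _ (by norm_num), h]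
      rfl
    · right; left; rw [h]; decide
  · -- one conjugacy class
    intro a ha b hb
    have hsa : Equiv.Perm.sign (a : Equiv.Perm (Fin 6)) = 1 := Equiv.Perm.mem_alternatingGroup.mp a.2
    have hsb : Equiv.Perm.sign (b : Equiv.Perm (Fin 6)) = 1 := Equiv.Perm.mem_alternatingGroup.mp b.2
    have hoa : orderOf (a : Equiv.Perm (Fin 6)) = 2 := by rw [Subgroup.orderOf_coe]; exact ha
    have hob : orderOf (b : Equiv.Perm (Fin 6)) = 2 := by rw [Subgroup.orderOf_coe]; exact hb
    have hct : (a : Equiv.Perm (Fin 6)).cycleType = (b : Equiv.Perm (Fin 6)).cycleType := by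
      rw [cycleType_eq hsa hoa, cycleType_eq hsb hob]
    obtain ⟨π, hπ⟩ := isConj_iff.mp (Equiv.Perm.isConj_iff_cycleType_eq.mpr hct)
    rcases Int.units_eq_one_or (Equiv.Perm.sign π) with hs | hs
    · refine ⟨⟨π, Equiv.Perm.mem_alternatingGroup.mpr hs⟩, ?_⟩
      apply Subtype.ext
      exact hπ.symm
    · have h2 : (a : Equiv.Perm (Fin 6)) ^ 2 = 1 := by rw [← hoa]; exact pow_orderOf_eq_one _
      have h1 : (a : Equiv.Perm (Fin 6)) ≠ 1 := by
        intro h
        rw [h, orderOf_one] at hoa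
        exact absurd hoa (by norm_num)
      obtain ⟨-, x, y, hxy, hx, hy⟩ := F2 _ hsa h2 h1
      have hcomm : (a : Equiv.Perm (Fin 6)) * Equiv.swap x y = Equiv.swap x y * (a : Equiv.Perm (Fin 6)) := by
        rw [Equiv.mul_swap_eq_swap_mul, hx, hy]
      have hsign : Equiv.Perm.sign (π * Equiv.swap x y) = 1 := by
        rw [map_mul, hs, Equiv.Perm.sign_swap hxy]; decide
      refine ⟨⟨π * Equiv.swap x y, Equiv.Perm.mem_alternatingGroup.mpr hsign⟩, ?_⟩
      apply Subtype.ext
      show (b : Equiv.Perm (Fin 6)) = (π * Equiv.swap x y) * (a : Equiv.Perm (Fin 6)) * (π * Equiv.swap x y)⁻¹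
      rw [← hπ]
      calc π * (a : Equiv.Perm (Fin 6)) * π⁻¹
          = π * ((a : Equiv.Perm (Fin 6)) * Equiv.swap x y) * (Equiv.swap x y)⁻¹ * π⁻¹ := by group
        _ = π * (Equiv.swap x y * (a : Equiv.Perm (Fin 6))) * (Equiv.swap x y)⁻¹ * π⁻¹ := by rw [hcomm]
        _ = _ := by group
  · intro d _ e _
    exact order_le (d * e)

end Cfsg.Agent.S5057
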