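import Cfsg.Statements.S2488
import Cfsg.Agent.S5057

set_option autoImplicit false
open scoped Pointwise
open Cfsg

namespace Cfsg.Agent.S2488

section aux

open Equiv Equiv.Perm
open scoped Nat

/-- centraliser order of a permutation of `Fin 6` of cycle type `m^K`. -/
theorem card_cent_replicate {g : Perm (Fin 6)} (K m : ℕ) (hK : 0 < K)
    (hg : g.cycleType = Multiset.replicate K m) :
    Nat.card (Subgroup.centralizer ({g} : Set (Perm (Fin 6)))) = (6 - K * m)! * m ^ K * K ! := by
  rw [Equiv.Perm.nat_card_centralizer, hg]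
  have hK' : K ≠ 0 := by omega
  simp [Multiset.toFinset_replicate, hK', mul_comm]

/-- number of permutations of `Fin 6` of cycle type `m^K`. -/
theorem card_type_replicate (K m : ℕ) (hK : 0 < K) (hm : 2 ≤ m) (hKm : K * m ≤ 6) :
    (Finset.univ.filter fun g : Perm (Fin 6) => g.cycleType = Multiset.replicate K m).card =
      720 / ((6 - K * m)! * m ^ K * K !) := by
  rw [Equiv.Perm.card_of_cycleType]
  have hK' : K ≠ 0 := by omega
  rw [if_pos]
  · simp [Multiset.toFinset_replicate, hK', mul_comm, Nat.factorial]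
  · refine ⟨by simpa [mul_comm] using hKm, ?_⟩
    intro a ha
    rw [Multiset.eq_of_mem_replicate ha]; exact hm

theorem ct_three {σ : Perm (Fin 6)} (ho : orderOf σ = 3) :
    σ.cycleType = Multiset.replicate 1 3 ∨ σ.cycleType = Multiset.replicate 2 3 := by
  obtain ⟨n, hn⟩ := Equiv.Perm.cycleType_prime_order (σ := σ) (by rw [ho]; norm_num)
  rw [ho] at hn
  have hsum := Equiv.Perm.sum_cycleType σ
  rw [hn, Multiset.sum_replicate, smul_eq_mul] at hsum
  have h' := Finset.card_le_univ σ.support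
  rw [Fintype.card_fin] at h'
  have hn' : n = 0 ∨ n = 1 := by omega
  rcases hn' with rfl | rfl
  · left; exact hn
  · right; exact hn

theorem ct_five {σ : Perm (Fin 6)} (ho : orderOf σ = 5) :
    σ.cycleType = Multiset.replicate 1 5 := by
  obtain ⟨n, hn⟩ := Equiv.Perm.cycleType_prime_order (σ := σ) (by rw [ho]; norm_num)
  rw [ho] at hn
  have hsum := Equiv.Perm.sum_cycleType σ
  rw [hn, Multiset.sum_replicate, smul_eq_mul] at hsum
  have h' := Finset.card_le_univ σ.support
  rw [Fintype.card_fin] at h'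
  have hn' : n = 0 := by omega
  subst hn'
  exact hn

/-- the class of `v` injects into any set containing all conjugates of `v`. -/
theorem index_centralizer_le {G : Type*} [Group G] [Finite G] (v : G) (S : Set G)
    (hS : ∀ g : G, g * v * g⁻¹ ∈ S) :
    (Subgroup.centralizer ({v} : Set G)).index ≤ Nat.card S := by
  classical
  have hwd : ∀ a b : G, QuotientGroup.leftRel (Subgroup.centralizer ({v} : Set G)) a b →
      (⟨a * v * a⁻¹, hS a⟩ : S) = ⟨b * v * b⁻¹, hS b⟩ := by
    intro a b hab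
    rw [QuotientGroup.leftRel_apply] at hab
    have h1 := Subgroup.mem_centralizer_iff.mp hab v rfl
    apply Subtype.ext
    show a * v * a⁻¹ = b * v * b⁻¹
    have h2 : b * v * b⁻¹ = a * ((a⁻¹ * b) * v) * (a⁻¹ * b)⁻¹ * a⁻¹ := by group
    rw [h2, ← h1]; group
  let F : G ⧸ Subgroup.centralizer ({v} : Set G) → S := fun q =>
    Quotient.liftOn' q (fun g => (⟨g * v * g⁻¹, hS g⟩ : S)) hwd
  apply Nat.card_le_card_of_injective F
  intro q1 q2 h
  induction q1 using QuotientGroup.induction_on with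
  | H a =>
    induction q2 using QuotientGroup.induction_on with
    | H b =>
      have h1 : a * v * a⁻¹ = b * v * b⁻¹ := congrArg Subtype.val h
      apply QuotientGroup.eq.mpr
      rw [Subgroup.mem_centralizer_iff]
      intro w hw
      rw [Set.mem_singleton_iff] at hw
      rw [hw]
      have h2 : v * (a⁻¹ * b) = a⁻¹ * (a * v * a⁻¹) * b := by group
      rw [h2, h1]; group

/-- an involution normalising a subgroup of even order centralises a non-identity element. -/
theorem exists_fixed_of_even {G : Type*} [Group G] [Finite G] (C : Subgroup G) (z : G)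
    (hz : z * z = 1) (hC : ∀ c ∈ C, z * c * z⁻¹ ∈ C) (hev : 2 ∣ Nat.card C) :
    ∃ s ∈ C, s ≠ 1 ∧ z * s = s * z := by
  classical
  letI : Fintype C := Fintype.ofFinite C
  have hzinv : z⁻¹ = z := inv_eq_of_mul_eq_one_left hz
  let σ : Equiv.Perm C :=
    { toFun := fun c => ⟨z * c * z⁻¹, hC c c.2⟩
      invFun := fun c => ⟨z * c * z⁻¹, hC c c.2⟩
      left_inv := by
        intro c
        apply Subtype.ext
        show z * (z * c * z⁻¹) * z⁻¹ = c
        rw [hzinv]
        have : z * (z * (c : G) * z) * z = (z * z) * c * (z * z) := by group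
        rw [this, hz, one_mul, mul_one]
      right_inv := by
        intro c
        apply Subtype.ext
        show z * (z * c * z⁻¹) * z⁻¹ = c
        rw [hzinv]
        have : z * (z * (c : G) * z) * z = (z * z) * c * (z * z) := by group
        rw [this, hz, one_mul, mul_one] }
  have hσ : σ ^ 2 ^ 1 = 1 := by
    ext c
    show ((σ ^ 2 ^ 1) c : G) = c
    rw [pow_one, pow_two, Equiv.Perm.mul_apply]
    show z * (z * c * z⁻¹) * z⁻¹ = c
    rw [hzinv]
    have : z * (z * (c : G) * z) * z = (z * z) * c * (z * z) := by group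
    rw [this, hz, one_mul, mul_one]
  have hcard : 2 ∣ Fintype.card C := by rwa [← Nat.card_eq_fintype_card]
  have h1 : σ 1 = 1 := by
    apply Subtype.ext
    show z * 1 * z⁻¹ = 1
    group
  obtain ⟨b, hb, hb1⟩ := Equiv.Perm.exists_fixed_point_of_prime' (p := 2) (n := 1) hcard hσ h1
  refine ⟨b, b.2, fun h => hb1 (Subtype.ext h), ?_⟩
  have h2 : z * b * z⁻¹ = b := congrArg Subtype.val hb
  calc z * b = (z * b * z⁻¹) * z := by group
    _ = b * z := by rw [h2]

end aux

section main

open Equiv Equiv.Perm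
open scoped Nat

variable {G : Type*} [Group G] [Finite G] {N : Subgroup G} [hN : N.Normal]
  (e : N ≃* alternatingGroup (Fin 6))

/-- the embedding of `N` into `Perm (Fin 6)`. -/
def psi (w : N) : Perm (Fin 6) := ((e w : alternatingGroup (Fin 6)) : Perm (Fin 6))

theorem psi_mul (a b : N) : psi e (a * b) = psi e a * psi e b := by simp [psi]

theorem psi_one : psi e 1 = 1 := by simp [psi]

theorem psi_pow (a : N) (n : ℕ) : psi e (a ^ n) = psi e a ^ n := by simp [psi]

theorem psi_injective : Function.Injective (psi e) :=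
  fun _ _ h => e.injective (Subtype.ext h)

theorem psi_sign (w : N) : Perm.sign (psi e w) = 1 := Perm.mem_alternatingGroup.mp (e w).2

theorem orderOf_psi (w : N) : orderOf (psi e w) = orderOf (w : G) := by
  unfold psi
  rw [Subgroup.orderOf_coe, MulEquiv.orderOf_eq, Subgroup.orderOf_coe]

include e

theorem card_N : Nat.card N = 360 := by
  rw [Nat.card_congr e.toEquiv, nat_card_alternatingGroup]
  simp [Nat.factorial]

theorem card_G (hidx : N.index = 4) : Nat.card G = 1440 := by
  have h1 := Subgroup.card_mul_index N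
  rw [card_N e, hidx] at h1
  omega

theorem index_le_card (v : G) (hv : v ∈ N) (T : Finset (Perm (Fin 6)))
    (hT : ∀ σ : Perm (Fin 6), Perm.sign σ = 1 → orderOf σ = orderOf v → σ ∈ T) :
    (Subgroup.centralizer ({v} : Set G)).index ≤ T.card := by
  classical
  have hS : ∀ g : G, g * v * g⁻¹ ∈ ({w | w ∈ N ∧ orderOf w = orderOf v} : Set G) := by
    intro g
    refine ⟨hN.conj_mem v hv g, ?_⟩
    have h1 := (MulAut.conj g).orderOf_eq v
    rwa [MulAut.conj_apply] at h1
  refine (index_centralizer_le v _ hS).trans ?_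
  have hmem : ∀ w : ({w | w ∈ N ∧ orderOf w = orderOf v} : Set G),
      psi e ⟨w.1, w.2.1⟩ ∈ T := by
    intro w
    apply hT _ (psi_sign e _)
    rw [orderOf_psi]; exact w.2.2
  have hinj : Function.Injective
      (fun w : ({w | w ∈ N ∧ orderOf w = orderOf v} : Set G) =>
        (⟨psi e ⟨w.1, w.2.1⟩, hmem w⟩ : T)) := by
    intro a b h
    have h1 : psi e ⟨a.1, a.2.1⟩ = psi e ⟨b.1, b.2.1⟩ := Subtype.mk.inj h
    have h2 := psi_injective e h1
    have h4 : (a : G) = b := Subtype.mk.inj h2
    exact Subtype.ext h4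
  have h3 := Nat.card_le_card_of_injective _ hinj
  rwa [Nat.card_eq_fintype_card (α := T), Fintype.card_coe] at h3

theorem psi_mem_cent (c v : G) (hc : c ∈ N) (hv : v ∈ N) (hcomm : c * v = v * c) :
    psi e ⟨c, hc⟩ ∈ Subgroup.centralizer ({psi e ⟨v, hv⟩} : Set (Perm (Fin 6))) := by
  rw [Subgroup.mem_centralizer_iff]
  intro w hw
  rw [Set.mem_singleton_iff] at hw
  rw [hw, ← psi_mul, ← psi_mul]
  congr 1
  exact Subtype.ext hcomm.symm

theorem card_le_cent (C : Subgroup G) (hCN : C ≤ N) (v : G) (hv : v ∈ N)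
    (hcomm : ∀ c ∈ C, c * v = v * c) :
    Nat.card C ≤ Nat.card (Subgroup.centralizer ({psi e ⟨v, hv⟩} : Set (Perm (Fin 6)))) := by
  apply Nat.card_le_card_of_injective (fun c : C =>
    (⟨_, psi_mem_cent e c.1 v (hCN c.2) hv (hcomm c.1 c.2)⟩ :
      Subgroup.centralizer ({psi e ⟨v, hv⟩} : Set (Perm (Fin 6)))))
  intro a b h
  have h1 : psi e ⟨a.1, hCN a.2⟩ = psi e ⟨b.1, hCN b.2⟩ := Subtype.mk.inj h
  have h2 : (a : G) = b := Subtype.mk.inj (psi_injective e h1)
  exact Subtype.ext h2

theorem isPGroup_cent (hidx : N.index = 4) (z : G) (hz : z ∈ N) (hz2 : orderOf z = 2) :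
    IsPGroup 2 (Subgroup.centralizer ({z} : Set G)) := by
  have hct := Cfsg.Agent.S5057.cycleType_eq (psi_sign e ⟨z, hz⟩)
    (by rw [orderOf_psi]; exact hz2)
  have h16 : Nat.card (Subgroup.centralizer ({psi e ⟨z, hz⟩} : Set (Perm (Fin 6)))) = 16 := by
    rw [card_cent_replicate 2 2 (by norm_num) hct]; decide
  rintro ⟨g, hg⟩
  refine ⟨6, Subtype.ext ?_⟩
  show g ^ 2 ^ 6 = 1
  have hg4 : g ^ 4 ∈ N := by
    have h1 := Subgroup.pow_index_mem N g
    rwa [hidx] at h1
  have hcomm : (g ^ 4) * z = z * (g ^ 4) := by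
    have h1 : Commute g z := (Subgroup.mem_centralizer_iff.mp hg z rfl).symm
    exact h1.pow_left 4
  have hmem := psi_mem_cent e (g ^ 4) z hg4 hz hcomm
  have hpow : (psi e ⟨g ^ 4, hg4⟩) ^ 16 = 1 := by
    have h1 := pow_card_eq_one'
      (G := Subgroup.centralizer ({psi e ⟨z, hz⟩} : Set (Perm (Fin 6)))) (x := ⟨_, hmem⟩)
    rw [h16] at h1
    have h2 := congrArg Subtype.val h1
    simpa using h2
  rw [← psi_pow, ← psi_one e] at hpow
  have h3 := psi_injective e hpow
  have h4 : (g ^ 4) ^ 16 = 1 := by simpa using congrArg Subtype.val h3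
  rw [← pow_mul] at h4
  exact h4

theorem card_cent_invol (hidx : N.index = 4) (z : G) (hz : z ∈ N) (hz2 : orderOf z = 2) :
    Nat.card (Subgroup.centralizer ({z} : Set G)) = 32 := by
  classical
  have hG := card_G e hidx
  have hP := isPGroup_cent e hidx z hz hz2
  obtain ⟨k, hk⟩ := IsPGroup.iff_card.mp hP
  have hidxle : (Subgroup.centralizer ({z} : Set G)).index ≤ 45 := by
    have h1 := index_le_card e z hz
      (Finset.univ.filter fun g : Perm (Fin 6) => g.cycleType = Multiset.replicate 2 2) (by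
        intro σ hs ho
        rw [Finset.mem_filter]
        exact ⟨Finset.mem_univ _, Cfsg.Agent.S5057.cycleType_eq hs (by rw [ho, hz2])⟩)
    rw [card_type_replicate 2 2 (by norm_num) (by norm_num) (by norm_num)] at h1
    exact h1.trans (by decide)
  have hmul := Subgroup.card_mul_index (Subgroup.centralizer ({z} : Set G))
  rw [hG, hk] at hmul
  rw [hk]
  have hk5 : k ≤ 5 := by
    by_contra hk6
    have h64 : 64 ∣ 2 ^ k := by
      have h1 := pow_dvd_pow 2 (show 6 ≤ k by omega)
      simpa using h1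
    have h2 : 64 ∣ 1440 := h64.trans ⟨_, hmul.symm⟩
    omega
  interval_cases k <;> simp at hmul ⊢ <;> omega

theorem exists_invol_cent_le (hidx : N.index = 4) (H : Sylow 2 G) :
    ∃ z : G, z ∈ N ∧ orderOf z = 2 ∧ ∀ s : G, s * z = z * s → s ∈ H := by
  classical
  have hG := card_G e hidx
  obtain ⟨z0', hz0'⟩ := exists_prime_orderOf_dvd_card' (G := N) 2 (by rw [card_N e]; norm_num)
  obtain ⟨z0, hz0⟩ : ∃ z0 : G, z0 = (z0' : G) := ⟨_, rfl⟩
  have hz0N : z0 ∈ N := by rw [hz0]; exact z0'.2
  have hz02 : orderOf z0 = 2 := by rw [hz0, Subgroup.orderOf_coe]; exact hz0'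
  have hP := isPGroup_cent e hidx z0 hz0N hz02
  obtain ⟨S0, hS0⟩ := hP.exists_le_sylow
  have hc32 := card_cent_invol e hidx z0 hz0N hz02
  obtain ⟨j, hj⟩ := IsPGroup.iff_card.mp S0.isPGroup'
  have hj5 : j ≤ 5 := by
    by_contra hj6
    have h64 : 64 ∣ 2 ^ j := by
      have h1 := pow_dvd_pow 2 (show 6 ≤ j by omega)
      simpa using h1
    have hdvd : Nat.card (S0 : Subgroup G) ∣ Nat.card G := Subgroup.card_subgroup_dvd_card _
    rw [hj, hG] at hdvd
    have h2 : 64 ∣ 1440 := h64.trans hdvd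
    omega
  have hS0le : Nat.card (S0 : Subgroup G) ≤ 32 := by
    rw [hj]
    calc 2 ^ j ≤ 2 ^ 5 := Nat.pow_le_pow_right (by norm_num) hj5
      _ = 32 := by norm_num
  have heq : Subgroup.centralizer ({z0} : Set G) = (S0 : Subgroup G) :=
    Subgroup.eq_of_le_of_card_ge hS0 (by rw [hc32]; exact hS0le)
  obtain ⟨g, hg⟩ := MulAction.exists_smul_eq G S0 H
  refine ⟨g * z0 * g⁻¹, hN.conj_mem z0 hz0N g, ?_, ?_⟩
  · have h1 := (MulAut.conj g).orderOf_eq z0
    rw [MulAut.conj_apply] at h1
    rw [h1, hz02]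
  · intro s hs
    rw [← hg]
    show s ∈ MulAut.conj g • (S0 : Subgroup G)
    rw [Subgroup.mem_smul_pointwise_iff_exists]
    refine ⟨g⁻¹ * s * g, ?_, ?_⟩
    · rw [← heq, Subgroup.mem_centralizer_iff]
      intro w hw
      rw [Set.mem_singleton_iff] at hw
      rw [hw]
      have h1 : z0 * (g⁻¹ * s * g) = g⁻¹ * ((g * z0 * g⁻¹) * s) * g := by group
      rw [h1, ← hs]; group
    · show g * (g⁻¹ * s * g) * g⁻¹ = s
      group

theorem even_card_cent (hidx : N.index = 4) (u : G) (huN : u ∈ N)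
    (ho : orderOf u = 3 ∨ orderOf u = 5) :
    2 ∣ Nat.card (Subgroup.centralizer ({u} : Set G)) := by
  classical
  by_contra hodd
  have hG := card_G e hidx
  obtain ⟨C, hC⟩ : ∃ C : Subgroup G, C = Subgroup.centralizer ({u} : Set G) := ⟨_, rfl⟩
  rw [← hC] at hodd
  have hCN : C ≤ N := by
    intro c hc
    have hc4 : c ^ 4 ∈ N := by
      have h1 := Subgroup.pow_index_mem N c
      rwa [hidx] at h1
    have hord : orderOf c ∣ Nat.card C := by
      have h1 := orderOf_dvd_natCard (⟨c, hc⟩ : C)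
      rwa [Subgroup.orderOf_mk] at h1
    have hcop : Nat.Coprime 4 (orderOf c) := by
      have h2 : ¬ 2 ∣ orderOf c := fun h => hodd (h.trans hord)
      have h3 : Nat.Coprime 2 (orderOf c) := (Nat.Prime.coprime_iff_not_dvd Nat.prime_two).mpr h2
      exact Nat.Coprime.pow_left 2 h3
    obtain ⟨m, hm⟩ := exists_pow_eq_self_of_coprime hcop
    rw [← hm]; exact pow_mem hc4 m
  have hcomm : ∀ c ∈ C, c * u = u * c := by
    intro c hc
    rw [hC] at hc
    exact (Subgroup.mem_centralizer_iff.mp hc u rfl).symm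
  have hle := card_le_cent e C hCN u huN hcomm
  have hmul := Subgroup.card_mul_index C
  rw [hG] at hmul
  rcases ho with ho | ho
  · have hcent : Nat.card (Subgroup.centralizer ({psi e ⟨u, huN⟩} : Set (Perm (Fin 6)))) = 18 := by
      rcases ct_three (σ := psi e ⟨u, huN⟩) (by rw [orderOf_psi]; exact ho) with h | h
      · rw [card_cent_replicate 1 3 (by norm_num) h]; decide
      · rw [card_cent_replicate 2 3 (by norm_num) h]; decide
    have hidx' : C.index ≤ 80 := by
      have h1 := index_le_card e u huN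
        ((Finset.univ.filter fun g : Perm (Fin 6) => g.cycleType = Multiset.replicate 1 3) ∪
          (Finset.univ.filter fun g : Perm (Fin 6) => g.cycleType = Multiset.replicate 2 3)) (by
        intro σ hs hoσ
        rw [Finset.mem_union, Finset.mem_filter, Finset.mem_filter]
        rcases ct_three (σ := σ) (by rw [hoσ, ho]) with h | h
        · left; exact ⟨Finset.mem_univ _, h⟩
        · right; exact ⟨Finset.mem_univ _, h⟩)
      rw [← hC] at h1
      refine h1.trans ((Finset.card_union_le _ _).trans ?_)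
      rw [card_type_replicate 1 3 (by norm_num) (by norm_num) (by norm_num),
        card_type_replicate 2 3 (by norm_num) (by norm_num) (by norm_num)]
      decide
    rw [hcent] at hle
    have hC17 : Nat.card C ≤ 17 := by
      rcases Nat.lt_or_ge (Nat.card C) 18 with h | h
      · omega
      · have h18 : Nat.card C = 18 := le_antisymm hle h
        exact absurd (by rw [h18]; norm_num : 2 ∣ Nat.card C) hodd
    have h3 : Nat.card C * C.index ≤ 17 * 80 := Nat.mul_le_mul hC17 hidx'
    omega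
  · have hcent : Nat.card (Subgroup.centralizer ({psi e ⟨u, huN⟩} : Set (Perm (Fin 6)))) = 5 := by
      rw [card_cent_replicate 1 5 (by norm_num)
        (ct_five (σ := psi e ⟨u, huN⟩) (by rw [orderOf_psi]; exact ho))]
      decide
    have hidx' : C.index ≤ 144 := by
      have h1 := index_le_card e u huN
        (Finset.univ.filter fun g : Perm (Fin 6) => g.cycleType = Multiset.replicate 1 5) (by
        intro σ hs hoσ
        rw [Finset.mem_filter]
        exact ⟨Finset.mem_univ _, ct_five (by rw [hoσ, ho])⟩)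
      rw [← hC, card_type_replicate 1 5 (by norm_num) (by norm_num) (by norm_num)] at h1
      exact h1.trans (by decide)
    rw [hcent] at hle
    have h3 : Nat.card C * C.index ≤ 5 * 144 := Nat.mul_le_mul hle hidx'
    omega

theorem exists_common (hidx : N.index = 4) (z z' : G) (hz : z ∈ N) (hz' : z' ∈ N)
    (hz2 : orderOf z = 2) (hz'2 : orderOf z' = 2) :
    ∃ s : G, s ≠ 1 ∧ s * z = z * s ∧ s * z' = z' * s := by
  classical
  have hzz : z * z = 1 := by
    have h1 := pow_orderOf_eq_one z
    rwa [hz2, pow_two] at h1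
  have hzz' : z' * z' = 1 := by
    have h1 := pow_orderOf_eq_one z'
    rwa [hz'2, pow_two] at h1
  have hz1 : z ≠ 1 := by
    intro h
    rw [h, orderOf_one] at hz2
    omega
  have hzinv : z⁻¹ = z := inv_eq_of_mul_eq_one_left hzz
  have hz'inv : z'⁻¹ = z' := inv_eq_of_mul_eq_one_left hzz'
  obtain ⟨u, hu⟩ : ∃ u : G, u = z * z' := ⟨_, rfl⟩
  have huN : u ∈ N := by rw [hu]; exact mul_mem hz hz'
  have hconj : z * u * z⁻¹ = u⁻¹ := by
    rw [hu, hzinv, mul_inv_rev, hzinv, hz'inv]
    calc z * (z * z') * z = (z * z) * z' * z := by group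
      _ = z' * z := by rw [hzz, one_mul]
  suffices h : ∃ s : G, s ≠ 1 ∧ s * z = z * s ∧ s * u = u * s by
    obtain ⟨s, hs1, hsz, hsu⟩ := h
    refine ⟨s, hs1, hsz, ?_⟩
    have hz'eq : z' = z * u := by rw [hu, ← mul_assoc, hzz, one_mul]
    rw [hz'eq, ← mul_assoc, hsz, mul_assoc, hsu, mul_assoc]
  have hzu : z * u = u⁻¹ * z := by rw [← hconj]; group
  have hpow : ∀ n : ℕ, z * u ^ n = (u⁻¹) ^ n * z := by
    intro n
    induction n with
    | zero => simp
    | succ n ih => rw [pow_succ, ← mul_assoc, ih, mul_assoc, hzu, ← mul_assoc, ← pow_succ]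
  have hF := Cfsg.Agent.S5057.F1 (psi e ⟨u, huN⟩) (psi_sign e _)
  have hpw : ∀ n : ℕ, psi e ⟨u, huN⟩ ^ n = 1 → u ^ n = 1 := by
    intro n h
    rw [← psi_pow, ← psi_one e] at h
    have h1 := psi_injective e h
    have h2 := congrArg Subtype.val h1
    simpa using h2
  have caseA : u ^ 2 = 1 → ∃ s : G, s ≠ 1 ∧ s * z = z * s ∧ s * u = u * s := by
    intro h2
    by_cases hu1 : u = 1
    · exact ⟨z, hz1, rfl, by rw [hu1, mul_one, one_mul]⟩
    · refine ⟨u, hu1, ?_, rfl⟩
      have huinv : u⁻¹ = u := inv_eq_of_mul_eq_one_left (by rw [← pow_two]; exact h2)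
      rw [hzu, huinv]
  have caseP : (orderOf u = 3 ∨ orderOf u = 5) →
      ∃ s : G, s ≠ 1 ∧ s * z = z * s ∧ s * u = u * s := by
    intro ho
    have hev := even_card_cent e hidx u huN ho
    have hu' : z * u⁻¹ * z⁻¹ = u := by
      calc z * u⁻¹ * z⁻¹ = (z * u * z⁻¹)⁻¹ := by group
        _ = u := by rw [hconj, inv_inv]
    have hCn : ∀ c ∈ Subgroup.centralizer ({u} : Set G),
        z * c * z⁻¹ ∈ Subgroup.centralizer ({u} : Set G) := by
      intro c hc
      have h1 : u * c = c * u := Subgroup.mem_centralizer_iff.mp hc u rfl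
      rw [Subgroup.mem_centralizer_iff]
      intro w hw
      rw [Set.mem_singleton_iff] at hw
      rw [hw]
      have h2 : u⁻¹ * c = c * u⁻¹ := by
        calc u⁻¹ * c = u⁻¹ * (c * u) * u⁻¹ := by group
          _ = u⁻¹ * (u * c) * u⁻¹ := by rw [h1]
          _ = c * u⁻¹ := by group
      calc u * (z * c * z⁻¹) = (z * u⁻¹ * z⁻¹) * (z * c * z⁻¹) := by rw [hu']
        _ = z * (u⁻¹ * c) * z⁻¹ := by group
        _ = z * (c * u⁻¹) * z⁻¹ := by rw [h2]
        _ = (z * c * z⁻¹) * (z * u⁻¹ * z⁻¹) := by group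
        _ = (z * c * z⁻¹) * u := by rw [hu']
    obtain ⟨s, hsC, hs1, hzs⟩ := exists_fixed_of_even _ z hzz hCn hev
    exact ⟨s, hs1, hzs.symm, (Subgroup.mem_centralizer_iff.mp hsC u rfl).symm⟩
  rcases hF with h | h | h | h
  · exact caseA (hpw 2 h)
  · by_cases hu1 : u = 1
    · exact caseA (by rw [hu1]; simp)
    · exact caseP (Or.inl (orderOf_eq_prime (hpw 3 h) hu1))
  · have h4 := hpw 4 h
    by_cases h2 : u ^ 2 = 1
    · exact caseA h2
    · refine ⟨u ^ 2, h2, ?_, ?_⟩
      · have h5 : (u⁻¹) ^ 2 = u ^ 2 := by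
          rw [inv_pow]
          apply inv_eq_of_mul_eq_one_left
          rw [← pow_add]; exact h4
        rw [hpow 2, h5]
      · rw [← pow_succ, ← pow_succ']
  · by_cases hu1 : u = 1
    · exact caseA (by rw [hu1]; simp)
    · haveI : Fact (Nat.Prime 5) := ⟨by norm_num⟩
      exact caseP (Or.inr (orderOf_eq_prime (hpw 5 h) hu1))

end main

/-- Let G be a finite group with a normal subgroup N of index 4 isomorphic to the alternating group of degree 6 and with trivial centralizer in G (so G is the full automorphism group of A₆). Then any two Sylow 2-subgroups of G have a non-trivial intersection: for a Sylow 2-subgroup H and every x ∈ G, H ∩ H^x ≠ 1. -/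
theorem result {G : Type*} [Group G] [Finite G] (N : Subgroup G) [N.Normal]
    (e : N ≃* alternatingGroup (Fin 6)) (hidx : N.index = 4)
    (hC : Subgroup.centralizer (N : Set G) = ⊥)
    (H : Sylow 2 G) (x : G) :
    (H : Subgroup G) ⊓ MulAut.conj x • (H : Subgroup G) ≠ ⊥ := by
  classical
  have hN : N.Normal := inferInstance
  obtain ⟨z, hzN, hz2, hzH⟩ := exists_invol_cent_le e hidx H
  have hz'N : x * z * x⁻¹ ∈ N := hN.conj_mem z hzN x
  have hz'2 : orderOf (x * z * x⁻¹) = 2 := by
    have h1 := (MulAut.conj x).orderOf_eq z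
    rw [MulAut.conj_apply] at h1
    rw [h1, hz2]
  obtain ⟨s, hs1, hsz, hsz'⟩ := exists_common e hidx z (x * z * x⁻¹) hzN hz'N hz2 hz'2
  intro hbot
  apply hs1
  have hmem : s ∈ (H : Subgroup G) ⊓ MulAut.conj x • (H : Subgroup G) := by
    rw [Subgroup.mem_inf]
    refine ⟨hzH s hsz, ?_⟩
    rw [Subgroup.mem_smul_pointwise_iff_exists]
    refine ⟨x⁻¹ * s * x, hzH _ ?_, ?_⟩
    · have h1 : x⁻¹ * s * x * z = x⁻¹ * (s * (x * z * x⁻¹)) * x := by group
      rw [h1, hsz']; group
    · show x * (x⁻¹ * s * x) * x⁻¹ = s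
      group
  rw [hbot] at hmem
  exact Subgroup.mem_bot.mp hmem

end Cfsg.Agent.S2488
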