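import Cfsg.Statements.S2503
import Mathlib

set_option autoImplicit false
open Cfsg

namespace Cfsg.Agent.S2503

open Matrix

section
variable {F : Type*} [Field F]

theorem det_eq (g : Matrix.SpecialLinearGroup (Fin 2) F) :
    g.1 0 0 * g.1 1 1 - g.1 0 1 * g.1 1 0 = 1 := by
  have := g.2
  rwa [Matrix.det_fin_two] at this

theorem sl_ext (g h : Matrix.SpecialLinearGroup (Fin 2) F) (h00 : g.1 0 0 = h.1 0 0)
    (h01 : g.1 0 1 = h.1 0 1) (h10 : g.1 1 0 = h.1 1 0) (h11 : g.1 1 1 = h.1 1 1) : g = h := by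
  apply Subtype.ext
  ext i j
  fin_cases i <;> fin_cases j <;> assumption

/-- the norm form -/
def Nm (c a b : F) : F := a ^ 2 + a * b - c * b ^ 2

theorem Nm_aniso (c : F) (hc : ∀ x : F, x ^ 2 - x ≠ c) (a b : F) (h : Nm c a b = 0) :
    a = 0 ∧ b = 0 := by
  by_cases hb : b = 0
  · subst hb
    simp [Nm] at h
    exact ⟨h, rfl⟩
  · exfalso
    apply hc (-a / b)
    have : (-a / b) ^ 2 - (-a / b) - c = Nm c a b / b ^ 2 := by
      unfold Nm; field_simp; ring
    rw [h, zero_div] at this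
    linear_combination this

/-- the nonsplit torus -/
def Asub (c : F) : Subgroup (Matrix.SpecialLinearGroup (Fin 2) F) where
  carrier := {g | g.1 1 1 = g.1 0 0 + g.1 1 0 ∧ g.1 0 1 = c * g.1 1 0}
  mul_mem' := by
    rintro g h ⟨hg1, hg2⟩ ⟨hh1, hh2⟩
    simp only [Set.mem_ofPred_eq, Matrix.SpecialLinearGroup.coe_mul, Matrix.mul_apply, Fin.sum_univ_two]
    constructor
    · rw [hg1, hg2, hh1, hh2]; ring
    · rw [hg1, hg2, hh1, hh2]; ring
  one_mem' := by simp
  inv_mem' := by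
    rintro g ⟨hg1, hg2⟩
    simp only [Set.mem_ofPred_eq, Matrix.SpecialLinearGroup.coe_inv, Matrix.adjugate_fin_two]
    simp [hg1, hg2]

theorem mem_Asub (c : F) (g : Matrix.SpecialLinearGroup (Fin 2) F) :
    g ∈ Asub c ↔ (g.1 1 1 = g.1 0 0 + g.1 1 0 ∧ g.1 0 1 = c * g.1 1 0) := Iff.rfl

theorem Nm_of_mem (c : F) (g : Matrix.SpecialLinearGroup (Fin 2) F) (hg : g ∈ Asub c) :
    Nm c (g.1 0 0) (g.1 1 0) = 1 := by
  have := det_eq g
  rw [hg.1, hg.2] at this
  unfold Nm; linear_combination this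

/-- element of the torus from its first column -/
def Amk (c a b : F) (h : Nm c a b = 1) : Matrix.SpecialLinearGroup (Fin 2) F :=
  ⟨!![a, c * b; b, a + b], by rw [Matrix.det_fin_two_of]; unfold Nm at h; linear_combination h⟩

theorem Amk_mem (c a b : F) (h : Nm c a b = 1) : Amk c a b h ∈ Asub c := by
  rw [mem_Asub]; simp [Amk]

/-- the unitriangular group -/
def Bsub : Subgroup (Matrix.SpecialLinearGroup (Fin 2) F) where
  carrier := {g | g.1 0 0 = 1 ∧ g.1 1 0 = 0 ∧ g.1 1 1 = 1}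
  mul_mem' := by
    rintro g h ⟨hg1, hg2, hg3⟩ ⟨hh1, hh2, hh3⟩
    simp only [Set.mem_ofPred_eq, Matrix.SpecialLinearGroup.coe_mul, Matrix.mul_apply, Fin.sum_univ_two]
    simp [hg1, hg2, hg3, hh1, hh2, hh3]
  one_mem' := by simp
  inv_mem' := by
    rintro g ⟨hg1, hg2, hg3⟩
    simp only [Set.mem_ofPred_eq, Matrix.SpecialLinearGroup.coe_inv, Matrix.adjugate_fin_two]
    simp [hg1, hg2, hg3]

theorem mem_Bsub (g : Matrix.SpecialLinearGroup (Fin 2) F) :
    g ∈ (Bsub : Subgroup (Matrix.SpecialLinearGroup (Fin 2) F)) ↔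
      (g.1 0 0 = 1 ∧ g.1 1 0 = 0 ∧ g.1 1 1 = 1) := Iff.rfl

theorem mem_Bsub_of_col (b : Matrix.SpecialLinearGroup (Fin 2) F) (h0 : b.1 0 0 = 1) (h1 : b.1 1 0 = 0) :
    b ∈ (Bsub : Subgroup (Matrix.SpecialLinearGroup (Fin 2) F)) := by
  refine ⟨h0, h1, ?_⟩
  have := det_eq b
  rw [h0, h1] at this
  linear_combination this

theorem col_lemma (g α β : Matrix.SpecialLinearGroup (Fin 2) F) (h0 : (g * α).1 0 0 = β.1 0 0)
    (h1 : (g * α).1 1 0 = β.1 1 0) : β⁻¹ * (g * α) ∈ (Bsub : Subgroup (Matrix.SpecialLinearGroup (Fin 2) F)) := by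
  apply mem_Bsub_of_col
  · rw [Matrix.SpecialLinearGroup.coe_mul, Matrix.mul_apply, Fin.sum_univ_two, h0, h1,
      Matrix.SpecialLinearGroup.coe_inv, Matrix.adjugate_fin_two]
    simp only [Matrix.of_apply, Matrix.cons_val', Matrix.cons_val_zero, Matrix.cons_val_one,
      Matrix.cons_val_fin_one]
    linear_combination det_eq β
  · rw [Matrix.SpecialLinearGroup.coe_mul, Matrix.mul_apply, Fin.sum_univ_two, h0, h1,
      Matrix.SpecialLinearGroup.coe_inv, Matrix.adjugate_fin_two]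
    simp only [Matrix.of_apply, Matrix.cons_val', Matrix.cons_val_zero, Matrix.cons_val_one,
      Matrix.cons_val_fin_one]
    ring

theorem Asub_isCyclic [Finite F] (c : F) (hc : ∀ x : F, x ^ 2 - x ≠ c) :
    IsCyclic (Asub c) := by
  obtain ⟨θ, hθ⟩ : ∃ θ : AlgebraicClosure F, θ ^ 2 = θ + algebraMap F (AlgebraicClosure F) c := by
    obtain ⟨θ, hθ⟩ := IsAlgClosed.exists_root
      (Polynomial.X ^ 2 - Polynomial.X - Polynomial.C (algebraMap F (AlgebraicClosure F) c))
      (by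
        have : (Polynomial.X ^ 2 - Polynomial.X -
            Polynomial.C (algebraMap F (AlgebraicClosure F) c)).degree = 2 := by
          compute_degree!
        rw [this]; norm_num)
    refine ⟨θ, ?_⟩
    simp only [Polynomial.IsRoot, Polynomial.eval_sub, Polynomial.eval_pow, Polynomial.eval_X,
      Polynomial.eval_C] at hθ
    linear_combination hθ
  let φ : (Asub c) →* AlgebraicClosure F :=
    { toFun := fun g => algebraMap F (AlgebraicClosure F) (g.1.1 0 0) +
        algebraMap F (AlgebraicClosure F) (g.1.1 1 0) * θ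
      map_one' := by simp
      map_mul' := by
        rintro ⟨g, hg1, hg2⟩ ⟨h, hh1, hh2⟩
        simp only [Subgroup.coe_mul, Matrix.SpecialLinearGroup.coe_mul, Matrix.mul_apply,
          Fin.sum_univ_two, MulMemClass.mk_mul_mk]
        rw [hg1, hg2]
        simp only [map_add, map_mul]
        linear_combination
          (-(algebraMap F (AlgebraicClosure F) (g.1 1 0) *
            algebraMap F (AlgebraicClosure F) (h.1 1 0))) * hθ }
  have hφ : Function.Injective φ := by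
    rintro ⟨g, hg1, hg2⟩ ⟨h, hh1, hh2⟩ hgh
    have hgh' : algebraMap F (AlgebraicClosure F) (g.1 0 0) +
        algebraMap F (AlgebraicClosure F) (g.1 1 0) * θ =
        algebraMap F (AlgebraicClosure F) (h.1 0 0) +
        algebraMap F (AlgebraicClosure F) (h.1 1 0) * θ := hgh
    have hb : g.1 1 0 = h.1 1 0 := by
      by_contra hne
      have hne' : g.1 1 0 - h.1 1 0 ≠ 0 := sub_ne_zero.2 hne
      apply hc ((h.1 0 0 - g.1 0 0) / (g.1 1 0 - h.1 1 0))
      have h1 : θ = algebraMap F (AlgebraicClosure F)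
          ((h.1 0 0 - g.1 0 0) / (g.1 1 0 - h.1 1 0)) := by
        rw [map_div₀, eq_div_iff (by rwa [Ne, map_eq_zero])]
        simp only [map_sub]
        linear_combination hgh'
      rw [h1, ← map_pow, ← map_add] at hθ
      have := (algebraMap F (AlgebraicClosure F)).injective hθ
      linear_combination this
    have ha : g.1 0 0 = h.1 0 0 := by
      rw [hb] at hgh'
      exact (algebraMap F (AlgebraicClosure F)).injective (add_right_cancel hgh')
    apply Subtype.ext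
    apply sl_ext _ _ ha _ hb
    · rw [hg1, hh1, ha, hb]
    · rw [hg2, hh2, hb]
  exact isCyclic_of_injective_ringHom φ hφ

/-- In characteristic 2 squaring is injective. -/
theorem sq_inj (h2 : (2 : F) = 0) {a b : F} (h : a ^ 2 = b ^ 2) : a = b := by
  have : (a - b) ^ 2 = 0 := by linear_combination h + (b ^ 2 - a * b) * h2
  have := pow_eq_zero_iff (n := 2) (by norm_num) |>.1 this
  linear_combination this

theorem exists_sqrt [Finite F] (h2 : (2 : F) = 0) (a : F) : ∃ b : F, b ^ 2 = a := by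
  have hinj : Function.Injective (fun b : F => b ^ 2) := fun x y h => sq_inj h2 h
  exact (Finite.injective_iff_surjective.1 hinj) a

theorem exists_c [Finite F] : ∃ c : F, ∀ x : F, x ^ 2 - x ≠ c := by
  by_contra hcon
  push Not at hcon
  have hsurj : Function.Surjective (fun x : F => x ^ 2 - x) := hcon
  have hinj := Finite.injective_iff_surjective.2 hsurj
  have : (0 : F) = 1 := hinj (by simp)
  exact zero_ne_one this

/-- Key existence of a vector. -/
theorem exists_vec [Finite F] (h2 : (2 : F) = 0) (c : F) (hc : ∀ x : F, x ^ 2 - x ≠ c)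
    (p q r s : F) (hdet : p * s - q * r = 1) :
    ∃ x₁ x₂ : F, Nm c x₁ x₂ = 1 ∧ Nm c (p * x₁ + q * x₂) (r * x₁ + s * x₂) = 1 := by
  obtain ⟨α, hα⟩ := exists_sqrt h2 (Nm c p r - 1)
  obtain ⟨β, hβ⟩ := exists_sqrt h2 (Nm c q s + c)
  obtain ⟨u₁, u₂, hu, hz⟩ : ∃ u₁ u₂ : F, ¬ (u₁ = 0 ∧ u₂ = 0) ∧ α * u₁ + β * u₂ = 0 := by
    by_cases h : β = 0 ∧ α = 0
    · exact ⟨1, 0, by simp, by simp [h.2]⟩
    · exact ⟨β, α, h, by linear_combination (α * β) * h2⟩
  have hNu : Nm c u₁ u₂ ≠ 0 := fun h => hu (Nm_aniso c hc u₁ u₂ h)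
  obtain ⟨l, hl⟩ := exists_sqrt h2 (Nm c u₁ u₂)⁻¹
  have hNx : Nm c (l * u₁) (l * u₂) = 1 := by
    have : Nm c (l * u₁) (l * u₂) = l ^ 2 * Nm c u₁ u₂ := by unfold Nm; ring
    rw [this, hl, inv_mul_cancel₀ hNu]
  have hz' : α * (l * u₁) + β * (l * u₂) = 0 := by linear_combination l * hz
  refine ⟨l * u₁, l * u₂, hNx, ?_⟩
  generalize l * u₁ = x₁ at hNx hz' ⊢
  generalize l * u₂ = x₂ at hNx hz' ⊢
  unfold Nm at hα hβ hNx ⊢
  linear_combination hNx - x₁ ^ 2 * hα - x₂ ^ 2 * hβ + x₁ * x₂ * hdet + (α * x₁ + β * x₂) * hz' +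
    (p * q + q * r - c * r * s - α * β) * x₁ * x₂ * h2

/-- The factorisation in `SL₂`. -/
theorem factor [Finite F] (h2 : (2 : F) = 0) (c : F) (hc : ∀ x : F, x ^ 2 - x ≠ c)
    (g : Matrix.SpecialLinearGroup (Fin 2) F) :
    ∃ a ∈ Asub c, ∃ b ∈ (Bsub : Subgroup (Matrix.SpecialLinearGroup (Fin 2) F)), ∃ a' ∈ Asub c,
      g = a * b * a' := by
  obtain ⟨x₁, x₂, hx, hy⟩ := exists_vec h2 c hc (g.1 0 0) (g.1 0 1) (g.1 1 0) (g.1 1 1) (det_eq g)
  refine ⟨Amk c _ _ hy, Amk_mem c _ _ hy, (Amk c _ _ hy)⁻¹ * (g * Amk c _ _ hx), ?_,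
    (Amk c _ _ hx)⁻¹, (Asub c).inv_mem (Amk_mem c _ _ hx), by group⟩
  apply col_lemma
  · rw [Matrix.SpecialLinearGroup.coe_mul, Matrix.mul_apply, Fin.sum_univ_two]
    simp [Amk]
  · rw [Matrix.SpecialLinearGroup.coe_mul, Matrix.mul_apply, Fin.sum_univ_two]
    simp [Amk]

theorem Nm_smul (c l a b : F) : Nm c (l * a) (l * b) = l ^ 2 * Nm c a b := by
  unfold Nm; ring

theorem card_Asub [Fintype F] (h2 : (2 : F) = 0) (c : F) (hc : ∀ x : F, x ^ 2 - x ≠ c) :
    Nat.card (Asub c) = Fintype.card F + 1 := by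
  classical
  have : Fintype (Asub c) := Fintype.ofFinite _
  let m : (Asub c) × Fˣ → F × F := fun w => ((w.2 : F) * w.1.1.1 0 0, (w.2 : F) * w.1.1.1 1 0)
  have hm : Function.Injective m := by
    rintro ⟨⟨g, hg⟩, l⟩ ⟨⟨g', hg'⟩, l'⟩ h
    have h1 : (l : F) * g.1 0 0 = (l' : F) * g'.1 0 0 := congrArg Prod.fst h
    have h2' : (l : F) * g.1 1 0 = (l' : F) * g'.1 1 0 := congrArg Prod.snd h
    have hl : (l : F) = (l' : F) := by
      apply sq_inj h2
      have e1 := Nm_smul c (l : F) (g.1 0 0) (g.1 1 0)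
      have e2 := Nm_smul c (l' : F) (g'.1 0 0) (g'.1 1 0)
      rw [Nm_of_mem c g hg, mul_one] at e1
      rw [Nm_of_mem c g' hg', mul_one] at e2
      rw [← e1, ← e2, h1, h2']
    have hl0 : (l' : F) ≠ 0 := l'.ne_zero
    rw [hl] at h1 h2'
    have ha : g.1 0 0 = g'.1 0 0 := mul_left_cancel₀ hl0 h1
    have hb : g.1 1 0 = g'.1 1 0 := mul_left_cancel₀ hl0 h2'
    have hgg : g = g' := by
      apply sl_ext _ _ ha _ hb
      · rw [hg.1, hg'.1, ha, hb]
      · rw [hg.2, hg'.2, hb]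
    subst hgg
    have : l = l' := Units.ext hl
    subst this
    rfl
  have himg : (Finset.univ : Finset ((Asub c) × Fˣ)).image m = Finset.univ.erase (0 : F × F) := by
    ext v
    simp only [Finset.mem_image, Finset.mem_univ, true_and, Finset.mem_erase, and_true]
    constructor
    · rintro ⟨⟨⟨g, hg⟩, l⟩, rfl⟩ h0
      have h1 : (l : F) * g.1 0 0 = 0 := congrArg Prod.fst h0
      have h2' : (l : F) * g.1 1 0 = 0 := congrArg Prod.snd h0
      have ha : g.1 0 0 = 0 := (mul_eq_zero.1 h1).resolve_left l.ne_zero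
      have hb : g.1 1 0 = 0 := (mul_eq_zero.1 h2').resolve_left l.ne_zero
      have := Nm_of_mem c g hg
      rw [ha, hb] at this
      simp [Nm] at this
    · intro hv
      have hN : Nm c v.1 v.2 ≠ 0 := fun h => hv (Prod.ext (Nm_aniso c hc _ _ h).1 (Nm_aniso c hc _ _ h).2)
      obtain ⟨s, hs⟩ := exists_sqrt h2 (Nm c v.1 v.2)
      have hs0 : s ≠ 0 := by
        rintro rfl
        apply hN
        rw [← hs]; simp
      have hT : Nm c (s⁻¹ * v.1) (s⁻¹ * v.2) = 1 := by
        rw [Nm_smul, ← hs]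
        field_simp
      refine ⟨⟨⟨Amk c _ _ hT, Amk_mem c _ _ hT⟩, Units.mk0 s hs0⟩, ?_⟩
      apply Prod.ext
      · simp [m, Amk, hs0]
      · simp [m, Amk, hs0]
  have hcard := Finset.card_image_of_injective (Finset.univ : Finset ((Asub c) × Fˣ)) hm
  rw [himg, Finset.card_erase_of_mem (Finset.mem_univ _), Finset.card_univ, Finset.card_univ,
    Fintype.card_prod, Fintype.card_prod, Fintype.card_units] at hcard
  rw [Nat.card_eq_fintype_card]
  have hq : 1 < Fintype.card F := Fintype.one_lt_card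
  obtain ⟨k, hk⟩ : ∃ k, Fintype.card F = k + 2 := ⟨Fintype.card F - 2, by omega⟩
  rw [hk] at hcard ⊢
  have e : (k + 2) * (k + 2) - 1 = (k + 2 + 1) * (k + 2 - 1) := by
    have : k + 2 - 1 = k + 1 := by omega
    rw [this]
    have : (k + 2) * (k + 2) = (k + 2 + 1) * (k + 1) + 1 := by ring
    omega
  rw [e] at hcard
  exact (Nat.eq_of_mul_eq_mul_right (by omega) hcard).symm

theorem Bsub_comm (x y : Matrix.SpecialLinearGroup (Fin 2) F)
    (hx : x ∈ (Bsub : Subgroup (Matrix.SpecialLinearGroup (Fin 2) F)))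
    (hy : y ∈ (Bsub : Subgroup (Matrix.SpecialLinearGroup (Fin 2) F))) : x * y = y * x := by
  obtain ⟨hx1, hx2, hx3⟩ := hx
  obtain ⟨hy1, hy2, hy3⟩ := hy
  apply sl_ext <;>
  · simp only [Matrix.SpecialLinearGroup.coe_mul, Matrix.mul_apply, Fin.sum_univ_two,
      hx1, hx2, hx3, hy1, hy2, hy3]
    try ring

theorem Bsub_sq (h2 : (2 : F) = 0) (x : Matrix.SpecialLinearGroup (Fin 2) F)
    (hx : x ∈ (Bsub : Subgroup (Matrix.SpecialLinearGroup (Fin 2) F))) : x * x = 1 := by
  obtain ⟨hx1, hx2, hx3⟩ := hx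
  apply sl_ext
  · simp [Matrix.mul_apply, Fin.sum_univ_two, hx1, hx2, hx3]
  · simp only [Matrix.SpecialLinearGroup.coe_mul, Matrix.mul_apply, Fin.sum_univ_two,
      Matrix.SpecialLinearGroup.coe_one, hx1, hx2, hx3]
    simp only [Matrix.one_apply]
    simp
    linear_combination (x.1 0 1) * h2
  · simp [Matrix.mul_apply, Fin.sum_univ_two, hx1, hx2, hx3]
  · simp [Matrix.mul_apply, Fin.sum_univ_two, hx1, hx2, hx3]

/-- unitriangular element -/
def Bmk (t : F) : Matrix.SpecialLinearGroup (Fin 2) F :=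
  ⟨!![1, t; 0, 1], by simp [Matrix.det_fin_two_of]⟩

theorem Bmk_mem (t : F) : Bmk t ∈ (Bsub : Subgroup (Matrix.SpecialLinearGroup (Fin 2) F)) := by
  rw [mem_Bsub]; simp [Bmk]

theorem card_Bsub [Fintype F] :
    Nat.card (Bsub : Subgroup (Matrix.SpecialLinearGroup (Fin 2) F)) = Fintype.card F := by
  rw [← Nat.card_eq_fintype_card]
  symm
  refine Nat.card_congr
    { toFun := fun t => ⟨Bmk t, Bmk_mem t⟩
      invFun := fun b => b.1.1 0 1
      left_inv := fun t => by simp [Bmk]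
      right_inv := fun b => by
        obtain ⟨b, hb1, hb2, hb3⟩ := b
        apply Subtype.ext
        apply sl_ext <;> simp [Bmk, hb1, hb2, hb3] }

theorem two_eq_zero_of_dvd [Fintype F] (h : 2 ∣ Fintype.card F) : (2 : F) = 0 := by
  obtain ⟨n, hp, hcard⟩ := FiniteField.card F (ringChar F)
  rw [hcard] at h
  have h' := (Nat.prime_dvd_prime_iff_eq Nat.prime_two hp).1 (Nat.prime_two.dvd_of_dvd_pow h)
  have := CharP.cast_eq_zero F (ringChar F)
  rw [← h'] at this
  exact_mod_cast this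

theorem center_eq_bot (h2 : (2 : F) = 0) :
    Subgroup.center (Matrix.SpecialLinearGroup (Fin 2) F) = ⊥ := by
  rw [eq_bot_iff]
  intro A hA
  rw [Matrix.SpecialLinearGroup.mem_center_iff] at hA
  obtain ⟨r, hr, hrA⟩ := hA
  rw [Subgroup.mem_bot]
  have hr1 : r = 1 := by
    simp only [Fintype.card_fin] at hr
    exact sq_inj h2 (by rw [hr]; simp)
  apply Subtype.ext
  rw [← hrA, hr1]
  simp

end

/-- Let F be a finite field with q = 2^t ≥ 4 elements and L = PSL(2,F). Then L has a cyclic subgroup A of order q + 1 and an elementary abelian 2-subgroup B of order q such that L = ABA: every element of L is a product a·b·a' with a, a' ∈ A and b ∈ B. -/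
theorem result {F : Type*} [Field F] [Fintype F]
    (h2 : 2 ∣ Fintype.card F) (h4 : 4 ≤ Fintype.card F) :
    ∃ A B : Subgroup (Matrix.ProjectiveSpecialLinearGroup (Fin 2) F),
      IsCyclic A ∧ Nat.card A = Fintype.card F + 1 ∧ IsMulCommutative B ∧ (∀ b ∈ B, b * b = 1) ∧
        Nat.card B = Fintype.card F ∧
        ∀ g : Matrix.ProjectiveSpecialLinearGroup (Fin 2) F, ∃ a ∈ A, ∃ b ∈ B, ∃ c ∈ A, g = a * b * c := by
  have h2F : (2 : F) = 0 := two_eq_zero_of_dvd h2
  obtain ⟨c, hc⟩ := exists_c (F := F)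
  have hcen : Subgroup.center (Matrix.SpecialLinearGroup (Fin 2) F) = ⊥ := center_eq_bot h2F
  let π : Matrix.SpecialLinearGroup (Fin 2) F →* Matrix.ProjectiveSpecialLinearGroup (Fin 2) F :=
    QuotientGroup.mk' _
  have hπs : Function.Surjective π := QuotientGroup.mk'_surjective _
  have hπi : Function.Injective π := by
    rw [← MonoidHom.ker_eq_bot_iff, QuotientGroup.ker_mk', hcen]
  have hcyc := Asub_isCyclic c hc
  have hBc : IsMulCommutative (Bsub : Subgroup (Matrix.SpecialLinearGroup (Fin 2) F)) :=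
    ⟨⟨fun x y => Subtype.ext (Bsub_comm x.1 y.1 x.2 y.2)⟩⟩
  refine ⟨(Asub c).map π, Bsub.map π, ?_, ?_, inferInstance, ?_, ?_, ?_⟩
  · exact isCyclic_of_surjective (π.subgroupMap (Asub c)) (π.subgroupMap_surjective (Asub c))
  · rw [Subgroup.card_map_of_injective hπi, card_Asub h2F c hc]
  · rintro _ ⟨b, hb, rfl⟩
    rw [← map_mul, Bsub_sq h2F b hb, map_one]
  · rw [Subgroup.card_map_of_injective hπi, card_Bsub]
  · intro g
    obtain ⟨g', rfl⟩ := hπs g
    obtain ⟨a, ha, b, hb, a', ha', rfl⟩ := factor h2F c hc g'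
    exact ⟨π a, Subgroup.mem_map_of_mem π ha, π b, Subgroup.mem_map_of_mem π hb, π a',
      Subgroup.mem_map_of_mem π ha', by simp⟩

end Cfsg.Agent.S2503
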