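import Cfsg.Statements.S2504
import Cfsg.Agent.Helper42.AbelPerm

set_option autoImplicit false
open Cfsg

namespace Cfsg.Agent.S2504

open Cfsg.Agent.Helper42

theorem isGreatest_of {n c : ℕ} (h : HasAb true n c)
    (hg : ∀ A : Subgroup (alternatingGroup (Fin n)), IsMulCommutative A → Nat.card A ≤ c) :
    IsGreatest {c : ℕ | ∃ A : Subgroup (alternatingGroup (Fin n)), IsMulCommutative A ∧
      Nat.card A = c} c := by
  constructor
  · exact exists_alt_of_hasAb h
  · rintro _ ⟨A, hA, rfl⟩
    exact hg A hA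

/-- The largest order of an abelian subgroup of the alternating group of degree n is 3^k when n = 3k, 4·3^(k−1) when n = 3k + 1, and 16·3^(k−2) when n = 3k + 2, for every k ≥ 2 (so for all degrees n ≥ 6). -/
theorem result (k : ℕ) (hk : 2 ≤ k) :
    IsGreatest {c : ℕ | ∃ A : Subgroup (alternatingGroup (Fin (3 * k))), IsMulCommutative A ∧ Nat.card A = c} (3 ^ k) ∧
    IsGreatest {c : ℕ | ∃ A : Subgroup (alternatingGroup (Fin (3 * k + 1))), IsMulCommutative A ∧ Nat.card A = c}
      (4 * 3 ^ (k - 1)) ∧
    IsGreatest {c : ℕ | ∃ A : Subgroup (alternatingGroup (Fin (3 * k + 2))), IsMulCommutative A ∧ Nat.card A = c}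
      (16 * 3 ^ (k - 2)) := by
  obtain ⟨j, rfl⟩ : ∃ j, k = j + 2 := ⟨k - 2, by omega⟩
  refine ⟨isGreatest_of (hasAb_three_mul (j + 2)) ?_, ?_, ?_⟩
  · intro A hA
    have h := (alt_card_le _ A hA).1
    rwa [gmax_three_mul] at h
  · have h := isGreatest_of (hasAb_three_mul_add_one (j + 1)) (by
      intro A hA
      have h := (alt_card_le _ A hA).1
      rwa [gmax_three_mul_add_one] at h)
    simpa using h
  · have h := isGreatest_of (hasAb_three_mul_add_two_even j) (by
      intro A hA
      rcases (alt_card_le _ A hA).2 with h | h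
      · rwa [gmax2_three_mul_add_two] at h
      · rw [show 3 * (j + 2) + 2 - 2 = 3 * (j + 2) by omega, gmax_three_mul] at h
        have : 3 ^ (j + 2) = 9 * 3 ^ j := by rw [pow_add]; ring
        omega)
    simpa using h

end Cfsg.Agent.S2504
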