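import Cfsg.Statements.S2505
import Cfsg.Agent.Helper42.AbelPerm

set_option autoImplicit false
open Cfsg

namespace Cfsg.Agent.S2505

open Cfsg.Agent.Helper42

theorem isGreatest_of {n c : ℕ} (h : HasAb false n c) (hg : gmax n = c) :
    IsGreatest {c : ℕ | ∃ A : Subgroup (Equiv.Perm (Fin n)), IsMulCommutative A ∧ Nat.card A = c}
      c := by
  constructor
  · obtain ⟨A, h1, _, h3⟩ := h
    exact ⟨A, h1, h3⟩
  · rintro _ ⟨A, hA, rfl⟩
    rw [← hg]
    exact card_le_gmax n A hA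

/-- The largest order of an abelian subgroup of the symmetric group of degree n is 3^k when n = 3k, 4·3^(k−1) when n = 3k + 1, and 2·3^k when n = 3k + 2, for every k ≥ 1. -/
theorem result (k : ℕ) (hk : 1 ≤ k) :
    IsGreatest {c : ℕ | ∃ A : Subgroup (Equiv.Perm (Fin (3 * k))), IsMulCommutative A ∧ Nat.card A = c} (3 ^ k) ∧
    IsGreatest {c : ℕ | ∃ A : Subgroup (Equiv.Perm (Fin (3 * k + 1))), IsMulCommutative A ∧ Nat.card A = c}
      (4 * 3 ^ (k - 1)) ∧
    IsGreatest {c : ℕ | ∃ A : Subgroup (Equiv.Perm (Fin (3 * k + 2))), IsMulCommutative A ∧ Nat.card A = c}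
      (2 * 3 ^ k) := by
  obtain ⟨j, rfl⟩ : ∃ j, k = j + 1 := ⟨k - 1, by omega⟩
  refine ⟨isGreatest_of (hasAb_three_mul (j + 1)).weaken (gmax_three_mul (j + 1)), ?_, ?_⟩
  · have h := isGreatest_of (hasAb_three_mul_add_one j).weaken (gmax_three_mul_add_one j)
    simpa using h
  · exact isGreatest_of (hasAb_three_mul_add_two (j + 1)) (gmax_three_mul_add_two (j + 1))

end Cfsg.Agent.S2505
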