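import Cfsg.Statements.S2506
import Cfsg.Agent.Helper12.AMDefs
import Cfsg.Agent.Helper12.AMSURG3
import Cfsg.Agent.Helper12.AMS1
import Cfsg.Agent.Helper12.AMFP
import Cfsg.Agent.Helper12.AMFIVE
import Cfsg.Agent.Helper12.AMINV4
import Cfsg.Agent.Helper12.AMCONJ
import Cfsg.Agent.Helper12.AMXF1
import Cfsg.Agent.Helper12.AMXF2
import Cfsg.Agent.Helper34.AMC2
import Cfsg.Agent.Helper49.AMWMUL
import Cfsg.Agent.Helper80.AMW3
import Cfsg.Agent.Helper80.AMW4
import Cfsg.Agent.Helper80.AMW5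
import Cfsg.Agent.Helper80.AMSMALL
import Cfsg.Agent.Helper10.AMSYL5

set_option autoImplicit false
open scoped Pointwise
open Cfsg

namespace Cfsg.Agent.S2506

open Cfsg.Agent.Helper12.AM Cfsg.Agent.Helper12 Cfsg.Agent.Helper34 Cfsg.Agent.Helper49
  Cfsg.Agent.Helper80 Cfsg.Agent.Helper10

theorem wits {α : Type*} [Fintype α] [DecidableEq α] : Wits α where
  w3 := AMW3.wit_three
  w4 := AMW4.wit_four
  w5 := AMW5.wit_five
  w6 := AMWMUL.wit_mul AMW3.wit_three AMW3.wit_three
  w7 := AMWMUL.wit_mul AMW3.wit_three AMW4.wit_four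
  w8 := AMWMUL.wit_mul AMW4.wit_four AMW4.wit_four
  w9 := AMWMUL.wit_mul (AMWMUL.wit_mul AMW3.wit_three AMW3.wit_three) AMW3.wit_three
  w10 := wit_mono (AMWMUL.wit_mul (AMWMUL.wit_mul AMW3.wit_three AMW3.wit_three)
    AMW3.wit_three) (by norm_num) le_rfl
  w12 := AMWMUL.wit_mul (AMWMUL.wit_mul AMW3.wit_three AMW3.wit_three)
    (AMWMUL.wit_mul AMW3.wit_three AMW3.wit_three)
  pow := by
    intro j
    induction j with
    | zero => exact wit_zero
    | succ j ih =>
      have h := AMWMUL.wit_mul ih (AMW3.wit_three (α := α))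
      have e1 : 3 * j + 3 = 3 * (j + 1) := by ring
      have e2 : 3 ^ j * 3 = 3 ^ (j + 1) := by ring
      rw [e1, e2] at h
      exact h

theorem no_three_four {α : Type*} [Fintype α] [DecidableEq α] (A : Subgroup (Equiv.Perm α))
    (hA : MaxAb A) (x y z : α)
    (hx : osz A x = 4) (hy : osz A y = 4) (hz : osz A z = 4) :
    y ∈ orb A x ∨ z ∈ orb A x ∨ z ∈ orb A y := by
  by_contra hcon
  push Not at hcon
  obtain ⟨h1, h2, h3⟩ := hcon
  have h := AMSURG3.surg_three A hA x y z h1 h2 h3 81 (by rw [hx, hy, hz]; exact wits.w12)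
  rw [hx, hy, hz] at h
  omega

theorem classify {α : Type*} [Fintype α] [DecidableEq α] (A : Subgroup (Equiv.Perm α))
    (hA : MaxAb A) :
    Fintype.card α ≤ 2 ∨ (Fintype.card α = 5 ∧ Nat.card A = 5) ∨ Good A := by
  by_cases h1 : ∃ x, osz A x = 1
  · obtain ⟨x, hx⟩ := h1
    exact Or.inl (AMFP.card_le_two_of_fixed A hA wits x hx)
  by_cases h5 : ∃ x, osz A x = 5
  · obtain ⟨x, hx⟩ := h5
    exact Or.inr (Or.inl (AMFIVE.five_of_osz_five A hA wits x hx))
  push Not at h1 h5
  have hsz : ∀ z, osz A z = 3 ∨ osz A z = 4 := by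
    intro z
    have a1 := osz_pos A z
    have a2 := AMS1.osz_le_five A hA wits z
    have a3 := h1 z
    have a4 := h5 z
    have a5 := AMC2.osz_ne_two A hA wits z
    omega
  exact Or.inr (Or.inr ⟨hsz, fun a ha x hx =>
    AMINV4.inv_of_four A hA wits hsz (no_three_four A hA) a ha x hx, no_three_four A hA⟩)

theorem main {α : Type*} [Fintype α] [DecidableEq α] (A B : Subgroup (Equiv.Perm α))
    (hA : MaxAb A) (hB : MaxAb B) :
    ∃ g ∈ alternatingGroup α, B = A.map (MulAut.conj g).toMonoidHom := by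
  have hcard : Nat.card A = Nat.card B :=
    le_antisymm (hB.max A hA.le_alt hA.comm) (hA.max B hB.le_alt hB.comm)
  rcases classify A hA with h | ⟨h5, hA5⟩ | gA
  · exact AMSMALL.small_case A B hA.le_alt hB.le_alt h
  · exact AMSYL5.sylow_five A B hA.le_alt hB.le_alt h5 hA5 (hcard ▸ hA5)
  · rcases classify B hB with h | ⟨h5, hB5⟩ | gB
    · exact AMSMALL.small_case A B hA.le_alt hB.le_alt h
    · exact AMSYL5.sylow_five A B hA.le_alt hB.le_alt h5 (hcard ▸ hB5) hB5
    · exact AMCONJ.conj_of_good A B hA gA hB gB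

/-- In the alternating group of any degree, any two abelian subgroups of the largest possible order (among abelian subgroups) are conjugate. -/
theorem result (n : ℕ)
    (A B : Subgroup (alternatingGroup (Fin n))) (hA : IsMulCommutative A) (hB : IsMulCommutative B)
    (hAmax : ∀ C : Subgroup (alternatingGroup (Fin n)), IsMulCommutative C → Nat.card C ≤ Nat.card A)
    (hBmax : ∀ C : Subgroup (alternatingGroup (Fin n)), IsMulCommutative C → Nat.card C ≤ Nat.card B) :
    ∃ g : alternatingGroup (Fin n), B = MulAut.conj g • A := by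
  obtain ⟨g, hg, h⟩ := main _ _ (AMXF1.maxab_map n A hA hAmax) (AMXF1.maxab_map n B hB hBmax)
  exact ⟨⟨g, hg⟩, AMXF2.conj_back n A B g hg h⟩

end Cfsg.Agent.S2506
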