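import Cfsg.Statements.S2507
import Cfsg.Agent.Helper42.SL2

set_option autoImplicit false
open Cfsg

namespace Cfsg.Agent.S2507

open Cfsg.Agent.Helper42.SL2

section
variable {F : Type*} [Field F]

/-- In characteristic 2 squaring is injective. -/
theorem sq_inj (h2 : (2 : F) = 0) {a b : F} (h : a ^ 2 = b ^ 2) : a = b := by
  have : (a - b) ^ 2 = 0 := by linear_combination h + (b ^ 2 - a * b) * h2
  have := pow_eq_zero_iff (n := 2) (by norm_num) |>.1 this
  linear_combination this

theorem exists_sqrt [Finite F] (h2 : (2 : F) = 0) (a : F) : ∃ b : F, b ^ 2 = a := by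
  have hinj : Function.Injective (fun b : F => b ^ 2) := fun x y h => sq_inj h2 h
  exact (Finite.injective_iff_surjective.1 hinj) a

theorem exists_c [Finite F] : ∃ c : F, ∀ x : F, x ^ 2 - x ≠ c := by
  by_contra hcon
  push Not at hcon
  have hsurj : Function.Surjective (fun x : F => x ^ 2 - x) := hcon
  have hinj := Finite.injective_iff_surjective.2 hsurj
  have : (0 : F) = 1 := hinj (by simp)
  exact zero_ne_one this

theorem two_eq_zero_of_dvd [Fintype F] (h : 2 ∣ Fintype.card F) : (2 : F) = 0 := by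
  obtain ⟨n, hp, hcard⟩ := FiniteField.card F (ringChar F)
  rw [hcard] at h
  have h' := (Nat.prime_dvd_prime_iff_eq Nat.prime_two hp).1 (Nat.prime_two.dvd_of_dvd_pow h)
  have := CharP.cast_eq_zero F (ringChar F)
  rw [← h'] at this
  exact_mod_cast this

theorem center_eq_bot (h2 : (2 : F) = 0) :
    Subgroup.center (Matrix.SpecialLinearGroup (Fin 2) F) = ⊥ := by
  rw [eq_bot_iff]
  intro A hA
  rw [Matrix.SpecialLinearGroup.mem_center_iff] at hA
  obtain ⟨r, hr, hrA⟩ := hA
  rw [Subgroup.mem_bot]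
  have hr1 : r = 1 := by
    simp only [Fintype.card_fin] at hr
    exact sq_inj h2 (by rw [hr]; simp)
  apply Subtype.ext
  rw [← hrA, hr1]
  simp

/-- the quadratic form -/
def Q (t a b : F) : F := a ^ 2 + t * a * b + b ^ 2

theorem Q_smul (t l a b : F) : Q t (l * a) (l * b) = l ^ 2 * Q t a b := by
  unfold Q; ring

/-- count when `t = 0` -/
theorem count_zero [Fintype F] (h2 : (2 : F) = 0) :
    Nat.card {v : F × F // Q 0 v.1 v.2 = 1} = Fintype.card F := by
  rw [← Nat.card_eq_fintype_card]
  refine Nat.card_congr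
    { toFun := fun v => v.1.1
      invFun := fun a => ⟨(a, a + 1), by unfold Q; linear_combination (a ^ 2 + a) * h2⟩
      left_inv := ?_
      right_inv := fun a => rfl }
  rintro ⟨⟨a, b⟩, hv⟩
  have hv' : a ^ 2 + 0 * a * b + b ^ 2 = 1 := hv
  have h1 : a + b = 1 := by
    apply sq_inj h2
    linear_combination hv' + a * b * h2
  apply Subtype.ext
  apply Prod.ext
  · rfl
  · show a + 1 = b
    linear_combination -h1 + a * h2

/-- count in the split case -/
theorem count_split [Fintype F] (h2 : (2 : F) = 0) (t l : F) (ht : t ≠ 0)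
    (hl : l ^ 2 + t * l + 1 = 0) :
    Nat.card {v : F × F // Q t v.1 v.2 = 1} = Fintype.card F - 1 := by
  rw [← Nat.card_eq_fintype_card, ← Nat.card_units]
  refine Nat.card_congr
    { toFun := fun v => ⟨v.1.1 + l * v.1.2, v.1.1 + (l + t) * v.1.2, ?_, ?_⟩
      invFun := fun u => ⟨((u : F) + l * (((u : F) + ((u⁻¹ : Fˣ) : F)) / t),
        ((u : F) + ((u⁻¹ : Fˣ) : F)) / t), ?_⟩
      left_inv := ?_
      right_inv := ?_ }
  · have hv : v.1.1 ^ 2 + t * v.1.1 * v.1.2 + v.1.2 ^ 2 = 1 := v.2
    linear_combination hv + (l * v.1.1 * v.1.2 - v.1.2 ^ 2) * h2 + v.1.2 ^ 2 * hl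
  · have hv : v.1.1 ^ 2 + t * v.1.1 * v.1.2 + v.1.2 ^ 2 = 1 := v.2
    linear_combination hv + (l * v.1.1 * v.1.2 - v.1.2 ^ 2) * h2 + v.1.2 ^ 2 * hl
  · have huw : (u : F) * ((u⁻¹ : Fˣ) : F) = 1 := Units.mul_inv u
    have hb : t * (((u : F) + ((u⁻¹ : Fˣ) : F)) / t) = (u : F) + ((u⁻¹ : Fˣ) : F) :=
      mul_div_cancel₀ _ ht
    generalize ((u : F) + ((u⁻¹ : Fˣ) : F)) / t = b at hb
    generalize ((u⁻¹ : Fˣ) : F) = w at huw hb
    generalize (u : F) = u at huw hb
    unfold Q
    linear_combination u * hb + huw + b ^ 2 * hl + (u ^ 2 + l * u * b) * h2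
  · rintro ⟨⟨a, b⟩, hv⟩
    have hb : (a + l * b + (a + (l + t) * b)) / t = b := by
      rw [div_eq_iff ht]
      linear_combination (a + l * b) * h2
    apply Subtype.ext
    apply Prod.ext
    · show a + l * b + l * ((a + l * b + (a + (l + t) * b)) / t) = a
      rw [hb]
      linear_combination (l * b) * h2
    · exact hb
  · intro u
    apply Units.ext
    show (u : F) + l * (((u : F) + ((u⁻¹ : Fˣ) : F)) / t) +
      l * (((u : F) + ((u⁻¹ : Fˣ) : F)) / t) = (u : F)
    linear_combination (l * (((u : F) + ((u⁻¹ : Fˣ) : F)) / t)) * h2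

theorem Q_aniso (t : F) (ht : ∀ x : F, x ^ 2 + t * x + 1 ≠ 0) (a b : F) (h : Q t a b = 0) :
    a = 0 ∧ b = 0 := by
  by_cases hb : b = 0
  · subst hb
    simp [Q] at h
    exact ⟨h, rfl⟩
  · exfalso
    apply ht (a / b)
    have : (a / b) ^ 2 + t * (a / b) + 1 = Q t a b / b ^ 2 := by
      unfold Q; field_simp
    rw [h, zero_div] at this
    exact this

/-- count in the nonsplit case -/
theorem count_nonsplit [Fintype F] (h2 : (2 : F) = 0) (t : F)
    (ht : ∀ x : F, x ^ 2 + t * x + 1 ≠ 0) :
    Nat.card {v : F × F // Q t v.1 v.2 = 1} = Fintype.card F + 1 := by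
  classical
  have : Fintype {v : F × F // Q t v.1 v.2 = 1} := Fintype.ofFinite _
  let m : {v : F × F // Q t v.1 v.2 = 1} × Fˣ → F × F :=
    fun w => ((w.2 : F) * w.1.1.1, (w.2 : F) * w.1.1.2)
  have hm : Function.Injective m := by
    rintro ⟨⟨⟨a, b⟩, hv⟩, l⟩ ⟨⟨⟨a', b'⟩, hv'⟩, l'⟩ h
    have h1 : (l : F) * a = (l' : F) * a' := congrArg Prod.fst h
    have h2' : (l : F) * b = (l' : F) * b' := congrArg Prod.snd h
    have hv1 : Q t a b = 1 := hv
    have hv1' : Q t a' b' = 1 := hv'
    have hl : (l : F) = (l' : F) := by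
      apply sq_inj h2
      have e1 := Q_smul t (l : F) a b
      have e2 := Q_smul t (l' : F) a' b'
      rw [hv1, mul_one] at e1
      rw [hv1', mul_one] at e2
      rw [← e1, ← e2, h1, h2']
    have hl0 : (l' : F) ≠ 0 := l'.ne_zero
    rw [hl] at h1 h2'
    have ha : a = a' := mul_left_cancel₀ hl0 h1
    have hb : b = b' := mul_left_cancel₀ hl0 h2'
    subst ha
    subst hb
    have : l = l' := Units.ext hl
    subst this
    rfl
  have himg : (Finset.univ : Finset ({v : F × F // Q t v.1 v.2 = 1} × Fˣ)).image m =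
      Finset.univ.erase (0 : F × F) := by
    ext v
    simp only [Finset.mem_image, Finset.mem_univ, true_and, Finset.mem_erase, and_true]
    constructor
    · rintro ⟨⟨⟨⟨a, b⟩, hv⟩, l⟩, rfl⟩ h0
      have h1 : (l : F) * a = 0 := congrArg Prod.fst h0
      have h2' : (l : F) * b = 0 := congrArg Prod.snd h0
      have ha : a = 0 := (mul_eq_zero.1 h1).resolve_left l.ne_zero
      have hb : b = 0 := (mul_eq_zero.1 h2').resolve_left l.ne_zero
      have hv1 : Q t a b = 1 := hv
      rw [ha, hb] at hv1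
      simp [Q] at hv1
    · intro hv
      have hN : Q t v.1 v.2 ≠ 0 := fun h =>
        hv (Prod.ext (Q_aniso t ht _ _ h).1 (Q_aniso t ht _ _ h).2)
      obtain ⟨s, hs⟩ := exists_sqrt h2 (Q t v.1 v.2)
      have hs0 : s ≠ 0 := by
        rintro rfl
        apply hN
        rw [← hs]; simp
      have hT : Q t (s⁻¹ * v.1) (s⁻¹ * v.2) = 1 := by
        rw [Q_smul, ← hs]
        field_simp
      refine ⟨⟨⟨(s⁻¹ * v.1, s⁻¹ * v.2), hT⟩, Units.mk0 s hs0⟩, ?_⟩
      apply Prod.ext
      · simp [m, hs0]
      · simp [m, hs0]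
  have hcard := Finset.card_image_of_injective
    (Finset.univ : Finset ({v : F × F // Q t v.1 v.2 = 1} × Fˣ)) hm
  rw [himg, Finset.card_erase_of_mem (Finset.mem_univ _), Finset.card_univ, Finset.card_univ,
    Fintype.card_prod, Fintype.card_prod, Fintype.card_units] at hcard
  rw [Nat.card_eq_fintype_card]
  have hq : 1 < Fintype.card F := Fintype.one_lt_card
  obtain ⟨k, hk⟩ : ∃ k, Fintype.card F = k + 2 := ⟨Fintype.card F - 2, by omega⟩
  rw [hk] at hcard ⊢
  have e : (k + 2) * (k + 2) - 1 = (k + 2 + 1) * (k + 2 - 1) := by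
    have : k + 2 - 1 = k + 1 := by omega
    rw [this]
    have : (k + 2) * (k + 2) = (k + 2 + 1) * (k + 1) + 1 := by ring
    omega
  rw [e] at hcard
  exact (Nat.eq_of_mul_eq_mul_right (by omega) hcard).symm

theorem nonscalar_of_ne_one (h2 : (2 : F) = 0) (g : Matrix.SpecialLinearGroup (Fin 2) F)
    (hg : g ≠ 1) : NonScalar g.1 := by
  rintro ⟨hq, hr, hps⟩
  apply hg
  have hd := det_eq g
  rw [hq, ← hps] at hd
  have hp : g.1 0 0 = 1 := sq_inj h2 (by linear_combination hd)
  apply sl_ext
  · simp [hp]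
  · simp [hq]
  · simp [hr]
  · simp [← hps, hp]

theorem card_centralizer_Q (g : Matrix.SpecialLinearGroup (Fin 2) F) (hg : NonScalar g.1) :
    Nat.card (Subgroup.centralizer ({g} : Set (Matrix.SpecialLinearGroup (Fin 2) F))) =
      Nat.card {v : F × F // Q (g.1 0 0 + g.1 1 1) v.1 v.2 = 1} :=
  card_centralizer g hg

theorem index_centralizer_map {G G' : Type*} [Group G] [Group G'] (f : G →* G')
    (hf : Function.Bijective f) (g : G) :
    (Subgroup.centralizer ({f g} : Set G')).index =
      (Subgroup.centralizer ({g} : Set G)).index := by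
  have : Subgroup.centralizer ({f g} : Set G') = (Subgroup.centralizer ({g} : Set G)).map f := by
    ext x
    obtain ⟨y, rfl⟩ := hf.2 x
    rw [Subgroup.mem_map_iff_mem hf.1]
    simp only [Subgroup.mem_centralizer_iff, Set.mem_singleton_iff, forall_eq]
    rw [← map_mul, ← map_mul, hf.1.eq_iff]
  rw [this, Subgroup.index_map_of_bijective hf]

/-- explicit element of `SL₂` -/
def mkSL (a b c d : F) (h : a * d - b * c = 1) : Matrix.SpecialLinearGroup (Fin 2) F :=
  ⟨!![a, b; c, d], by rw [Matrix.det_fin_two_of]; exact h⟩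

theorem mkSL_apply (a b c d : F) (h : a * d - b * c = 1) :
    (mkSL a b c d h).1 0 0 = a ∧ (mkSL a b c d h).1 0 1 = b ∧ (mkSL a b c d h).1 1 0 = c ∧
      (mkSL a b c d h).1 1 1 = d := by
  simp [mkSL]

theorem exists_ne_zero_one [Fintype F] (h4 : 4 ≤ Fintype.card F) : ∃ l : F, l ≠ 0 ∧ l ≠ 1 := by
  classical
  have h1 : 0 < ((Finset.univ : Finset F) \ {0, 1}).card := by
    have h3 := Finset.le_card_sdiff ({0, 1} : Finset F) Finset.univ
    have h5 : ({0, 1} : Finset F).card ≤ 2 := Finset.card_le_two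
    rw [Finset.card_univ] at h3
    omega
  obtain ⟨l, hl⟩ := Finset.card_pos.1 h1
  simp only [Finset.mem_sdiff, Finset.mem_univ, Finset.mem_insert, Finset.mem_singleton,
    true_and, not_or] at hl
  exact ⟨l, hl⟩

end

/-- Let F be a finite field with q = 2^f ≥ 4 elements. The conjugacy class sizes of PSL(2,F) are exactly 1, q(q − 1), q² − 1 and q(q + 1). -/
theorem result {F : Type*} [Field F] [Fintype F]
    (h2 : 2 ∣ Fintype.card F) (h4 : 4 ≤ Fintype.card F) :
    Set.range (fun g : (Matrix.ProjectiveSpecialLinearGroup (Fin 2) F) => (Subgroup.centralizer ({g} : Set (Matrix.ProjectiveSpecialLinearGroup (Fin 2) F))).index) =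
      {1, Fintype.card F * (Fintype.card F - 1), Fintype.card F ^ 2 - 1, Fintype.card F * (Fintype.card F + 1)} := by
  have h2F : (2 : F) = 0 := two_eq_zero_of_dvd h2
  have hcen : Subgroup.center (Matrix.SpecialLinearGroup (Fin 2) F) = ⊥ := center_eq_bot h2F
  let π : Matrix.SpecialLinearGroup (Fin 2) F →* Matrix.ProjectiveSpecialLinearGroup (Fin 2) F :=
    QuotientGroup.mk' _
  have hπs : Function.Surjective π := QuotientGroup.mk'_surjective _
  have hπi : Function.Injective π := by
    rw [← MonoidHom.ker_eq_bot_iff, QuotientGroup.ker_mk', hcen]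
  have hπ : Function.Bijective π := ⟨hπi, hπs⟩
  have hrange : Set.range (fun g : (Matrix.ProjectiveSpecialLinearGroup (Fin 2) F) =>
      (Subgroup.centralizer ({g} : Set (Matrix.ProjectiveSpecialLinearGroup (Fin 2) F))).index) =
      Set.range (fun g : (Matrix.SpecialLinearGroup (Fin 2) F) =>
      (Subgroup.centralizer ({g} : Set (Matrix.SpecialLinearGroup (Fin 2) F))).index) := by
    ext n
    constructor
    · rintro ⟨g, rfl⟩
      obtain ⟨g', rfl⟩ := hπs g
      exact ⟨g', (index_centralizer_map π hπ g').symm⟩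
    · rintro ⟨g', rfl⟩
      exact ⟨π g', index_centralizer_map π hπ g'⟩
  rw [hrange]
  have hq0 : 0 < Fintype.card F := by omega
  have hfac : Fintype.card F ^ 2 - 1 = (Fintype.card F + 1) * (Fintype.card F - 1) := by
    have := Nat.sq_sub_sq (Fintype.card F) 1
    simpa using this
  have hG : ∀ g : Matrix.SpecialLinearGroup (Fin 2) F,
      (Subgroup.centralizer ({g} : Set (Matrix.SpecialLinearGroup (Fin 2) F))).index *
        Nat.card (Subgroup.centralizer ({g} : Set (Matrix.SpecialLinearGroup (Fin 2) F))) =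
        Fintype.card F * (Fintype.card F ^ 2 - 1) := fun g => by
    rw [Subgroup.index_mul_card, card_SL2]
  have case0 : ∀ g : Matrix.SpecialLinearGroup (Fin 2) F, g ≠ 1 → g.1 0 0 + g.1 1 1 = 0 →
      (Subgroup.centralizer ({g} : Set (Matrix.SpecialLinearGroup (Fin 2) F))).index =
        Fintype.card F ^ 2 - 1 := by
    intro g hg ht
    have h := hG g
    rw [card_centralizer_Q g (nonscalar_of_ne_one h2F g hg), ht, count_zero h2F] at h
    exact Nat.eq_of_mul_eq_mul_right hq0 (by rw [h, mul_comm])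
  have case1 : ∀ g : Matrix.SpecialLinearGroup (Fin 2) F, g ≠ 1 → g.1 0 0 + g.1 1 1 ≠ 0 →
      (∃ l : F, l ^ 2 + (g.1 0 0 + g.1 1 1) * l + 1 = 0) →
      (Subgroup.centralizer ({g} : Set (Matrix.SpecialLinearGroup (Fin 2) F))).index =
        Fintype.card F * (Fintype.card F + 1) := by
    rintro g hg ht ⟨l, hl⟩
    have h := hG g
    rw [card_centralizer_Q g (nonscalar_of_ne_one h2F g hg), count_split h2F _ l ht hl] at h
    refine Nat.eq_of_mul_eq_mul_right (show 0 < Fintype.card F - 1 by omega) ?_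
    rw [h, hfac, mul_assoc]
  have case2 : ∀ g : Matrix.SpecialLinearGroup (Fin 2) F, g ≠ 1 →
      (∀ x : F, x ^ 2 + (g.1 0 0 + g.1 1 1) * x + 1 ≠ 0) →
      (Subgroup.centralizer ({g} : Set (Matrix.SpecialLinearGroup (Fin 2) F))).index =
        Fintype.card F * (Fintype.card F - 1) := by
    intro g hg ht
    have h := hG g
    rw [card_centralizer_Q g (nonscalar_of_ne_one h2F g hg), count_nonsplit h2F _ ht] at h
    refine Nat.eq_of_mul_eq_mul_right (show 0 < Fintype.card F + 1 by omega) ?_
    rw [h, hfac]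
    ring
  ext n
  simp only [Set.mem_range, Set.mem_insert_iff, Set.mem_singleton_iff]
  constructor
  · rintro ⟨g, rfl⟩
    by_cases hg : g = 1
    · left
      subst hg
      rw [Subgroup.centralizer_eq_top_iff_subset.2
        (Set.singleton_subset_iff.2 (Subgroup.one_mem _)), Subgroup.index_top]
    · by_cases ht : g.1 0 0 + g.1 1 1 = 0
      · right; right; left
        exact case0 g hg ht
      · by_cases hl : ∃ l : F, l ^ 2 + (g.1 0 0 + g.1 1 1) * l + 1 = 0
        · right; right; right
          exact case1 g hg ht hl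
        · right; left
          push Not at hl
          exact case2 g hg hl
  · rintro (rfl | rfl | rfl | rfl)
    · refine ⟨1, ?_⟩
      rw [Subgroup.centralizer_eq_top_iff_subset.2
        (Set.singleton_subset_iff.2 (Subgroup.one_mem _)), Subgroup.index_top]
    · obtain ⟨c, hc⟩ := exists_c (F := F)
      obtain ⟨s, hs⟩ := exists_sqrt h2F c
      have hs0 : s ≠ 0 := by
        rintro rfl
        apply hc 0
        rw [← hs]; ring
      have hdet : (0 : F) * s⁻¹ - 1 * 1 = 1 := by linear_combination (-1 : F) * h2F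
      obtain ⟨e00, e01, e10, e11⟩ := mkSL_apply 0 1 1 s⁻¹ hdet
      refine ⟨mkSL 0 1 1 s⁻¹ hdet, case2 _ ?_ ?_⟩
      · intro h
        have := congrArg (fun x : Matrix.SpecialLinearGroup (Fin 2) F => x.1 0 0) h
        simp only [e00] at this
        simp at this
      · intro x hx
        rw [e00, e11] at hx
        apply hc (s * x)
        have h1 : s ^ 2 * x ^ 2 + s * x + s ^ 2 = s ^ 2 * (x ^ 2 + (0 + s⁻¹) * x + 1) := by
          field_simp
          ring
        rw [hx, mul_zero] at h1
        linear_combination h1 - (s * x + s ^ 2) * h2F + hs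
    · have hdet : (1 : F) * 1 - 1 * 0 = 1 := by ring
      obtain ⟨e00, e01, e10, e11⟩ := mkSL_apply 1 1 0 1 hdet
      refine ⟨mkSL 1 1 0 1 hdet, case0 _ ?_ ?_⟩
      · intro h
        have := congrArg (fun x : Matrix.SpecialLinearGroup (Fin 2) F => x.1 0 1) h
        simp only [e01] at this
        simp at this
      · rw [e00, e11]
        linear_combination h2F
    · obtain ⟨l, hl0, hl1⟩ := exists_ne_zero_one h4
      have hll : l⁻¹ * l = 1 := inv_mul_cancel₀ hl0
      have hdet : l * l⁻¹ - 0 * 0 = 1 := by linear_combination hll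
      obtain ⟨e00, e01, e10, e11⟩ := mkSL_apply l 0 0 l⁻¹ hdet
      refine ⟨mkSL l 0 0 l⁻¹ hdet, case1 _ ?_ ?_ ⟨l, ?_⟩⟩
      · intro h
        have := congrArg (fun x : Matrix.SpecialLinearGroup (Fin 2) F => x.1 0 0) h
        simp only [e00] at this
        exact hl1 (by simpa using this)
      · rw [e00, e11]
        intro h
        apply hl1
        apply sq_inj h2F
        linear_combination l * h - hll - h2F
      · rw [e00, e11]
        linear_combination hll + (l ^ 2 + 1) * h2F

end Cfsg.Agent.S2507
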