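import Cfsg.Statements.S2508
import Cfsg.Agent.Helper42.SL2Odd

set_option autoImplicit false
open Cfsg

namespace Cfsg.Agent.S2508

open Cfsg.Agent.Helper42.SL2

/-! ### arithmetic -/

theorem arith0 (j : ℕ) : (2 * j + 1) ^ 2 - 1 = 4 * j * (j + 1) := by
  have : (2 * j + 1) ^ 2 = 4 * j * (j + 1) + 1 := by ring
  omega

theorem arithA (q i : ℕ) (hq : q % 2 = 1) (h : i * (2 * q) = q * (q ^ 2 - 1)) :
    i = (q ^ 2 - 1) / 2 := by
  obtain ⟨j, rfl⟩ : ∃ j, q = 2 * j + 1 := ⟨q / 2, by omega⟩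
  rw [arith0] at h ⊢
  have e : 4 * j * (j + 1) = 2 * (2 * j * (j + 1)) := by ring
  rw [e, Nat.mul_div_cancel_left _ (by norm_num)]
  refine Nat.eq_of_mul_eq_mul_right (show 0 < 2 * (2 * j + 1) by omega) ?_
  rw [h]; ring

theorem arithB (q i : ℕ) (hq : q % 2 = 1) (hq1 : 1 < q) (h : i * (q - 1) = q * (q ^ 2 - 1)) :
    i = q * (q + 1) := by
  obtain ⟨j, rfl⟩ : ∃ j, q = 2 * j + 1 := ⟨q / 2, by omega⟩
  rw [arith0] at h
  have e : 2 * j + 1 - 1 = 2 * j := by omega
  rw [e] at h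
  refine Nat.eq_of_mul_eq_mul_right (show 0 < 2 * j by omega) ?_
  rw [h]; ring

theorem arithC (q i : ℕ) (hq : q % 2 = 1) (h : i * (q + 1) = q * (q ^ 2 - 1)) :
    i = q * (q - 1) := by
  obtain ⟨j, rfl⟩ : ∃ j, q = 2 * j + 1 := ⟨q / 2, by omega⟩
  rw [arith0] at h
  have e : 2 * j + 1 - 1 = 2 * j := by omega
  rw [e]
  refine Nat.eq_of_mul_eq_mul_right (show 0 < 2 * j + 1 + 1 by omega) ?_
  rw [h]; ring

theorem arithD (q i : ℕ) (hq : q % 2 = 1) (hq1 : 1 < q)
    (h : i * (2 * (q - 1)) = q * (q ^ 2 - 1)) : i = q * (q + 1) / 2 := by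
  obtain ⟨j, rfl⟩ : ∃ j, q = 2 * j + 1 := ⟨q / 2, by omega⟩
  rw [arith0] at h
  have e : 2 * j + 1 - 1 = 2 * j := by omega
  rw [e] at h
  have e2 : (2 * j + 1) * (2 * j + 1 + 1) = 2 * ((2 * j + 1) * (j + 1)) := by ring
  rw [e2, Nat.mul_div_cancel_left _ (by norm_num)]
  refine Nat.eq_of_mul_eq_mul_right (show 0 < 2 * (2 * j) by omega) ?_
  rw [h]; ring

theorem arithE (q i : ℕ) (hq : q % 2 = 1)
    (h : i * (2 * (q + 1)) = q * (q ^ 2 - 1)) : i = q * (q - 1) / 2 := by
  obtain ⟨j, rfl⟩ : ∃ j, q = 2 * j + 1 := ⟨q / 2, by omega⟩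
  rw [arith0] at h
  have e : 2 * j + 1 - 1 = 2 * j := by omega
  rw [e]
  have e2 : (2 * j + 1) * (2 * j) = 2 * ((2 * j + 1) * j) := by ring
  rw [e2, Nat.mul_div_cancel_left _ (by norm_num)]
  refine Nat.eq_of_mul_eq_mul_right (show 0 < 2 * (2 * j + 1 + 1) by omega) ?_
  rw [h]; ring

section
variable {F : Type*} [Field F] [Fintype F]

/-- the class size of the image of `g` in `PSL₂` -/
noncomputable def idx (g : Matrix.SpecialLinearGroup (Fin 2) F) : ℕ :=
  (Subgroup.centralizer ({(QuotientGroup.mk g : Matrix.ProjectiveSpecialLinearGroup (Fin 2) F)} :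
      Set (Matrix.ProjectiveSpecialLinearGroup (Fin 2) F))).index

theorem two_ne_zero_of_odd (hodd : ¬ 2 ∣ Fintype.card F) : (2 : F) ≠ 0 := by
  intro h
  have := CharTwo.of_one_ne_zero_of_two_eq_zero (one_ne_zero (α := F)) h
  have h3 := FiniteField.even_card_of_char_two (ringChar.eq F 2)
  exact hodd (Nat.dvd_of_mod_eq_zero h3)

omit [Fintype F] in
theorem idx_scalar (g : Matrix.SpecialLinearGroup (Fin 2) F) (hg : g.1 = 1 ∨ g.1 = -1) :
    idx g = 1 := by
  have : (QuotientGroup.mk g : Matrix.ProjectiveSpecialLinearGroup (Fin 2) F) = 1 := by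
    rw [← QuotientGroup.mk_one, psl_mk_eq_iff]
    simpa using hg
  unfold idx
  rw [this, Subgroup.centralizer_eq_top_iff_subset.2
    (Set.singleton_subset_iff.2 (Subgroup.one_mem _)), Subgroup.index_top]

omit [Fintype F] in
theorem nonscalar_of (g : Matrix.SpecialLinearGroup (Fin 2) F) (hg : ¬ (g.1 = 1 ∨ g.1 = -1)) :
    NonScalar g.1 := by
  rintro ⟨hq, hr, hps⟩
  apply hg
  have hd := det_eq g
  rw [hq, ← hps] at hd
  have hp : g.1 0 0 = 1 ∨ g.1 0 0 = -1 := by
    rw [← sq_eq_one_iff]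
    linear_combination hd
  rcases hp with hp | hp
  · left
    apply mat_ext <;> simp [hp, hq, hr, ← hps]
  · right
    apply mat_ext <;> simp [hp, hq, hr, ← hps]

theorem idx_of_nonscalar (hodd : ¬ 2 ∣ Fintype.card F) (h7 : 7 ≤ Fintype.card F)
    (g : Matrix.SpecialLinearGroup (Fin 2) F) (hg : NonScalar g.1) (s : F)
    (hs : g.1 0 0 + g.1 1 1 = 2 * s) :
    (s ≠ 0 → s ^ 2 = 1 → idx g = (Fintype.card F ^ 2 - 1) / 2) ∧
    (s ≠ 0 → ∀ d : F, d ≠ 0 → s ^ 2 - 1 = d ^ 2 →
      idx g = Fintype.card F * (Fintype.card F + 1)) ∧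
    (s ≠ 0 → ¬ IsSquare (s ^ 2 - 1) → idx g = Fintype.card F * (Fintype.card F - 1)) ∧
    (s = 0 → ∀ d : F, -1 = d ^ 2 → idx g = Fintype.card F * (Fintype.card F + 1) / 2) ∧
    (s = 0 → ¬ IsSquare (-1 : F) → idx g = Fintype.card F * (Fintype.card F - 1) / 2) := by
  have h2F := two_ne_zero_of_odd hodd
  have hq : Fintype.card F % 2 = 1 := by omega
  obtain ⟨cA, cB, cC⟩ := card_centralizer_odd h2F g hg s hs
  have hI : idx g * Nat.card (Ctilde g) = Fintype.card F * (Fintype.card F ^ 2 - 1) :=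
    index_psl g
  have hne : s ≠ 0 → idx g * Nat.card (Subgroup.centralizer
      ({g} : Set (Matrix.SpecialLinearGroup (Fin 2) F))) =
      Fintype.card F * (Fintype.card F ^ 2 - 1) := by
    intro hs0
    rw [← ctilde_card_of_trace_ne h2F g (by rw [hs]; exact mul_ne_zero h2F hs0)]
    exact hI
  have hz : s = 0 → idx g * (2 * Nat.card (Subgroup.centralizer
      ({g} : Set (Matrix.SpecialLinearGroup (Fin 2) F)))) =
      Fintype.card F * (Fintype.card F ^ 2 - 1) := by
    intro hs0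
    obtain ⟨h₀, h₀a⟩ := exists_anticomm hq h2F g (by rw [hs, hs0]; ring)
    rw [← ctilde_card_of_anticomm h2F g h₀ h₀a]
    exact hI
  refine ⟨fun hs0 h1 => ?_, fun hs0 d hd h1 => ?_, fun hs0 h1 => ?_, fun hs0 d hd => ?_,
    fun hs0 h1 => ?_⟩
  · have h := hne hs0
    rw [cA h1] at h
    exact arithA _ _ hq h
  · have h := hne hs0
    rw [cB d hd h1] at h
    exact arithB _ _ hq (by omega) h
  · have h := hne hs0
    rw [cC h1] at h
    exact arithC _ _ hq h
  · have h := hz hs0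
    have hd0 : d ≠ 0 := by
      rintro rfl
      simp at hd
    rw [cB d hd0 (by rw [hs0]; linear_combination hd)] at h
    exact arithD _ _ hq (by omega) h
  · have h := hz hs0
    have e : s ^ 2 - 1 = -1 := by rw [hs0]; ring
    rw [cC (by rw [e]; exact h1)] at h
    exact arithE _ _ hq h

theorem idx_cases (hodd : ¬ 2 ∣ Fintype.card F) (h7 : 7 ≤ Fintype.card F)
    (g : Matrix.SpecialLinearGroup (Fin 2) F) :
    idx g = 1 ∨ idx g = (Fintype.card F ^ 2 - 1) / 2 ∨
    idx g = Fintype.card F * (Fintype.card F + 1) ∨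
    idx g = Fintype.card F * (Fintype.card F - 1) ∨
    (IsSquare (-1 : F) ∧ idx g = Fintype.card F * (Fintype.card F + 1) / 2) ∨
    (¬ IsSquare (-1 : F) ∧ idx g = Fintype.card F * (Fintype.card F - 1) / 2) := by
  have h2F := two_ne_zero_of_odd hodd
  by_cases hg : g.1 = 1 ∨ g.1 = -1
  · left
    exact idx_scalar g hg
  · have hns := nonscalar_of g hg
    have hs : g.1 0 0 + g.1 1 1 = 2 * ((g.1 0 0 + g.1 1 1) / 2) := by
      field_simp
    obtain ⟨iA, iB, iC, iD, iE⟩ := idx_of_nonscalar hodd h7 g hns _ hs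
    generalize (g.1 0 0 + g.1 1 1) / 2 = s at *
    by_cases hs0 : s = 0
    · by_cases hm : IsSquare (-1 : F)
      · obtain ⟨d, hd⟩ := hm
        right; right; right; right; left
        exact ⟨⟨d, hd⟩, iD hs0 d (by rw [hd]; ring)⟩
      · right; right; right; right; right
        exact ⟨hm, iE hs0 hm⟩
    · by_cases h1 : s ^ 2 = 1
      · right; left
        exact iA hs0 h1
      · by_cases hsq : IsSquare (s ^ 2 - 1)
        · obtain ⟨d, hd⟩ := hsq
          have hd0 : d ≠ 0 := by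
            rintro rfl
            apply h1
            linear_combination hd
          right; right; left
          exact iB hs0 d hd0 (by rw [hd]; ring)
        · right; right; right; left
          exact iC hs0 hsq

omit [Fintype F] in
theorem ex_one : ∃ g : Matrix.SpecialLinearGroup (Fin 2) F, idx g = 1 :=
  ⟨1, idx_scalar 1 (Or.inl rfl)⟩

theorem ex_unip (hodd : ¬ 2 ∣ Fintype.card F) (h7 : 7 ≤ Fintype.card F) :
    ∃ g : Matrix.SpecialLinearGroup (Fin 2) F, idx g = (Fintype.card F ^ 2 - 1) / 2 := by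
  have hdet : (1 : F) * 1 - 1 * 0 = 1 := by ring
  obtain ⟨e00, e01, e10, e11⟩ := mkSL_apply 1 1 0 1 hdet
  have hns : NonScalar (mkSL 1 1 0 1 hdet).1 := by
    rintro ⟨h1, -, -⟩
    rw [e01] at h1
    exact one_ne_zero h1
  obtain ⟨iA, -, -, -, -⟩ := idx_of_nonscalar hodd h7 _ hns 1 (by rw [e00, e11]; ring)
  exact ⟨_, iA one_ne_zero (by ring)⟩

theorem ex_invol (hodd : ¬ 2 ∣ Fintype.card F) (h7 : 7 ≤ Fintype.card F) :
    (IsSquare (-1 : F) → ∃ g : Matrix.SpecialLinearGroup (Fin 2) F,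
      idx g = Fintype.card F * (Fintype.card F + 1) / 2) ∧
    (¬ IsSquare (-1 : F) → ∃ g : Matrix.SpecialLinearGroup (Fin 2) F,
      idx g = Fintype.card F * (Fintype.card F - 1) / 2) := by
  have hdet : (0 : F) * 0 - (-1) * 1 = 1 := by ring
  obtain ⟨e00, e01, e10, e11⟩ := mkSL_apply 0 (-1) 1 0 hdet
  have hns : NonScalar (mkSL 0 (-1) 1 0 hdet).1 := by
    rintro ⟨h1, -, -⟩
    rw [e01] at h1
    simp at h1
  obtain ⟨-, -, -, iD, iE⟩ := idx_of_nonscalar hodd h7 _ hns 0 (by rw [e00, e11]; ring)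
  refine ⟨?_, fun h => ⟨_, iE rfl h⟩⟩
  rintro ⟨d, hd⟩
  exact ⟨_, iD rfl d (by rw [hd]; ring)⟩

theorem exists_gen (h7 : 7 ≤ Fintype.card F) : ∃ l : F, l ≠ 0 ∧ l ^ 4 ≠ 1 := by
  obtain ⟨u, hu⟩ := IsCyclic.exists_generator (α := Fˣ)
  have ho : orderOf u = Fintype.card F - 1 := by
    rw [orderOf_eq_card_of_forall_mem_zpowers hu, Nat.card_units, Nat.card_eq_fintype_card]
  refine ⟨(u : F), u.ne_zero, fun h => ?_⟩
  have h4 : u ^ 4 = 1 := Units.ext (by simpa using h)
  have := Nat.le_of_dvd (by norm_num) (orderOf_dvd_of_pow_eq_one h4)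
  omega

theorem ex_split (hodd : ¬ 2 ∣ Fintype.card F) (h7 : 7 ≤ Fintype.card F) :
    ∃ g : Matrix.SpecialLinearGroup (Fin 2) F,
      idx g = Fintype.card F * (Fintype.card F + 1) := by
  have h2F := two_ne_zero_of_odd hodd
  obtain ⟨l, hl0, hl4⟩ := exists_gen h7
  have hll : l * l⁻¹ = 1 := mul_inv_cancel₀ hl0
  have hdet : l * l⁻¹ - 0 * 0 = 1 := by linear_combination hll
  obtain ⟨e00, e01, e10, e11⟩ := mkSL_apply l 0 0 l⁻¹ hdet
  have hne1 : l - l⁻¹ ≠ 0 := by
    intro h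
    apply hl4
    have h1 : l ^ 2 = 1 := by linear_combination l * h + hll
    calc l ^ 4 = (l ^ 2) ^ 2 := by ring
      _ = 1 := by rw [h1]; ring
  have hne2 : l + l⁻¹ ≠ 0 := by
    intro h
    apply hl4
    have h1 : l ^ 2 = -1 := by linear_combination l * h - hll
    calc l ^ 4 = (l ^ 2) ^ 2 := by ring
      _ = 1 := by rw [h1]; ring
  have hns : NonScalar (mkSL l 0 0 l⁻¹ hdet).1 := by
    rintro ⟨-, -, h1⟩
    rw [e00, e11] at h1
    exact hne1 (sub_eq_zero.2 h1)
  obtain ⟨-, iB, -, -, -⟩ := idx_of_nonscalar hodd h7 _ hns ((l + l⁻¹) / 2)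
    (by rw [e00, e11]; field_simp)
  refine ⟨_, iB (div_ne_zero hne2 h2F) ((l - l⁻¹) / 2) (div_ne_zero hne1 h2F) ?_⟩
  field_simp
  ring

theorem ex_nonsplit (hodd : ¬ 2 ∣ Fintype.card F) (h7 : 7 ≤ Fintype.card F) :
    ∃ g : Matrix.SpecialLinearGroup (Fin 2) F,
      idx g = Fintype.card F * (Fintype.card F - 1) := by
  have h2F := two_ne_zero_of_odd hodd
  have hchar : ringChar F ≠ 2 := by
    intro h
    apply h2F
    have := CharP.cast_eq_zero F (ringChar F)
    rw [h] at this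
    exact_mod_cast this
  obtain ⟨n, hn⟩ := FiniteField.exists_nonsquare hchar
  obtain ⟨l, hl0, hl4⟩ := exists_gen h7
  obtain ⟨m, hm0, hmn⟩ : ∃ m : F, m ≠ 0 ∧ m ^ 2 ≠ -n := by
    by_cases h : l ^ 2 = -n
    · refine ⟨l ^ 2, pow_ne_zero 2 hl0, fun h' => ?_⟩
      apply hl4
      have h1 : l ^ 2 * (l ^ 2 - 1) = 0 := by linear_combination h' - h
      rcases mul_eq_zero.1 h1 with h3 | h3
      · exact absurd h3 (pow_ne_zero 2 hl0)
      · have h5 : l ^ 2 = 1 := by linear_combination h3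
        calc l ^ 4 = (l ^ 2) ^ 2 := by ring
          _ = 1 := by rw [h5]; ring
    · exact ⟨l, hl0, h⟩
  have hmn' : m ^ 2 ≠ n := fun h => hn ⟨m, by rw [← h]; ring⟩
  obtain ⟨hy, hx⟩ := conicPt_spec n ⟨m, hmn'⟩
  have hxy : (conicPt n ⟨m, hmn'⟩).1.1 ^ 2 - n * (conicPt n ⟨m, hmn'⟩).1.2 ^ 2 = 1 :=
    (conicPt n ⟨m, hmn'⟩).2
  generalize (conicPt n ⟨m, hmn'⟩).1.1 = x at hx hxy
  generalize (conicPt n ⟨m, hmn'⟩).1.2 = y at hx hxy hy
  have hy' : (m ^ 2 - n) * y = -2 * m := hy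
  have hy0 : y ≠ 0 := by
    rintro rfl
    have : (2 : F) * m = 0 := by linear_combination hy'
    rcases mul_eq_zero.1 this with h | h
    · exact h2F h
    · exact hm0 h
  have hx0 : x ≠ 0 := by
    rintro rfl
    apply hmn
    have h1 : m * y = -1 := by linear_combination -hx
    have h3 : (m ^ 2 - n) * (m * y) = -2 * m ^ 2 := by linear_combination m * hy'
    rw [h1] at h3
    linear_combination h3
  have hdet : (0 : F) * (2 * x) - (-1) * 1 = 1 := by ring
  obtain ⟨e00, e01, e10, e11⟩ := mkSL_apply 0 (-1) 1 (2 * x) hdet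
  have hns : NonScalar (mkSL 0 (-1) 1 (2 * x) hdet).1 := by
    rintro ⟨h1, -, -⟩
    rw [e01] at h1
    simp at h1
  obtain ⟨-, -, iC, -, -⟩ := idx_of_nonscalar hodd h7 _ hns x (by rw [e00, e11]; ring)
  refine ⟨_, iC hx0 ?_⟩
  rintro ⟨e, he⟩
  apply hn
  refine ⟨e / y, ?_⟩
  field_simp
  linear_combination he - hxy

end

/-- Let F be a finite field with q elements, q odd and q ≥ 7. If q ≡ 1 (mod 4) the conjugacy class sizes of PSL(2,F) are exactly 1, (q² − 1)/2, q(q + 1)/2, q(q − 1) and q(q + 1); if q ≡ 3 (mod 4) they are exactly 1, (q² − 1)/2, q(q − 1)/2, q(q + 1) and q(q − 1). -/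
theorem result {F : Type*} [Field F] [Fintype F]
    (hodd : ¬ 2 ∣ Fintype.card F) (h7 : 7 ≤ Fintype.card F) :
    (Fintype.card F % 4 = 1 →
      Set.range (fun g : (Matrix.ProjectiveSpecialLinearGroup (Fin 2) F) => (Subgroup.centralizer ({g} : Set (Matrix.ProjectiveSpecialLinearGroup (Fin 2) F))).index) =
        {1, (Fintype.card F ^ 2 - 1) / 2, Fintype.card F * (Fintype.card F + 1) / 2,
          Fintype.card F * (Fintype.card F - 1), Fintype.card F * (Fintype.card F + 1)}) ∧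
    (Fintype.card F % 4 = 3 →
      Set.range (fun g : (Matrix.ProjectiveSpecialLinearGroup (Fin 2) F) => (Subgroup.centralizer ({g} : Set (Matrix.ProjectiveSpecialLinearGroup (Fin 2) F))).index) =
        {1, (Fintype.card F ^ 2 - 1) / 2, Fintype.card F * (Fintype.card F - 1) / 2,
          Fintype.card F * (Fintype.card F + 1), Fintype.card F * (Fintype.card F - 1)}) := by
  have hrange : Set.range (fun g : (Matrix.ProjectiveSpecialLinearGroup (Fin 2) F) =>
      (Subgroup.centralizer ({g} : Set (Matrix.ProjectiveSpecialLinearGroup (Fin 2) F))).index) =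
      Set.range (fun g : Matrix.SpecialLinearGroup (Fin 2) F => idx g) := by
    ext n
    constructor
    · rintro ⟨g, rfl⟩
      obtain ⟨g', rfl⟩ := QuotientGroup.mk_surjective g
      exact ⟨g', rfl⟩
    · rintro ⟨g', rfl⟩
      exact ⟨QuotientGroup.mk g', rfl⟩
  rw [hrange]
  obtain ⟨iD, iE⟩ := ex_invol hodd h7
  constructor
  · intro h4
    have hsq : IsSquare (-1 : F) := FiniteField.isSquare_neg_one_iff.2 (by omega)
    ext n
    simp only [Set.mem_range, Set.mem_insert_iff, Set.mem_singleton_iff]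
    constructor
    · rintro ⟨g, rfl⟩
      rcases idx_cases hodd h7 g with h | h | h | h | ⟨-, h⟩ | ⟨h', -⟩
      · exact Or.inl h
      · exact Or.inr (Or.inl h)
      · exact Or.inr (Or.inr (Or.inr (Or.inr h)))
      · exact Or.inr (Or.inr (Or.inr (Or.inl h)))
      · exact Or.inr (Or.inr (Or.inl h))
      · exact absurd hsq h'
    · rintro (rfl | rfl | rfl | rfl | rfl)
      · exact ex_one
      · exact ex_unip hodd h7
      · exact iD hsq
      · exact ex_nonsplit hodd h7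
      · exact ex_split hodd h7
  · intro h4
    have hsq : ¬ IsSquare (-1 : F) := fun h => FiniteField.isSquare_neg_one_iff.1 h h4
    ext n
    simp only [Set.mem_range, Set.mem_insert_iff, Set.mem_singleton_iff]
    constructor
    · rintro ⟨g, rfl⟩
      rcases idx_cases hodd h7 g with h | h | h | h | ⟨h', -⟩ | ⟨-, h⟩
      · exact Or.inl h
      · exact Or.inr (Or.inl h)
      · exact Or.inr (Or.inr (Or.inr (Or.inl h)))
      · exact Or.inr (Or.inr (Or.inr (Or.inr h)))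
      · exact absurd h' hsq
      · exact Or.inr (Or.inr (Or.inl h))
    · rintro (rfl | rfl | rfl | rfl | rfl)
      · exact ex_one
      · exact ex_unip hodd h7
      · exact iE hsq
      · exact ex_split hodd h7
      · exact ex_nonsplit hodd h7

end Cfsg.Agent.S2508
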