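import Cfsg.Statements.S2513
import Mathlib

set_option autoImplicit false
open Cfsg

namespace Cfsg.Agent.S2513


theorem dvd_card_of_minimalPeriod {α : Type*} [Fintype α] (σ : Equiv.Perm α) (m : ℕ)
    (h : ∀ a, Function.minimalPeriod σ a = m) : m ∣ Fintype.card α := by
  classical
  have e := MulAction.selfEquivSigmaOrbits' (Subgroup.zpowers σ) α
  rw [Fintype.card_congr e, Fintype.card_sigma]
  apply Finset.dvd_sum
  intro ω _
  induction ω using Quotient.inductionOn' with
  | h a =>
    have h1 := MulAction.minimalPeriod_eq_card (a := σ) (b := a)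
    have h2 : Function.minimalPeriod (σ • ·) a = m := h a
    rw [h2] at h1
    rw [h1]
    exact dvd_of_eq (Fintype.card_congr (Equiv.refl _))

theorem sl_eq_one_of_smul {F : Type*} [Field F] (n : ℕ)
    (g : Matrix.SpecialLinearGroup (Fin n) F) (h : ∀ v : Fin n → F, g • v = v) : g = 1 := by
  apply Subtype.ext
  ext i j
  have := congrFun (h (Pi.single j 1)) i
  rw [Matrix.SpecialLinearGroup.smul_def, Matrix.smul_eq_mulVec, Matrix.mulVec_single_one] at this
  simpa [Matrix.one_apply, Pi.single_apply, eq_comm] using this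

/-- An element of odd prime power order `s^e` in `SL_n(F_2)` forces `s^e ∣ 2^d - 1` for some
`1 ≤ d ≤ n`. -/
theorem odd_prime_pow_dvd {F : Type*} [Field F] [Fintype F] (hF : Fintype.card F = 2) (n : ℕ)
    (g : Matrix.SpecialLinearGroup (Fin n) F) (s e : ℕ) (hs : s.Prime) (hs2 : s ≠ 2) (he : 1 ≤ e)
    (hg : orderOf g = s ^ e) : ∃ d, 1 ≤ d ∧ d ≤ n ∧ s ^ e ∣ 2 ^ d - 1 := by
  classical
  have : Fact s.Prime := ⟨hs⟩
  obtain ⟨e', rfl⟩ : ∃ e', e = e' + 1 := ⟨e - 1, by omega⟩
  set g₀ := g ^ (s ^ e') with hg₀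
  have hg₀ne : g₀ ≠ 1 := by
    intro h1
    have := orderOf_dvd_of_pow_eq_one h1
    rw [hg] at this
    have h2 := Nat.le_of_dvd (pow_pos hs.pos _) this
    have h3 : s ^ e' < s ^ (e' + 1) := Nat.pow_lt_pow_right hs.one_lt (by omega)
    omega
  have hcomm : g₀ * g = g * g₀ := by
    rw [hg₀, ← pow_succ, ← pow_succ']
  let W : Submodule F (Fin n → F) :=
    { carrier := {v | g₀ • v = v}
      add_mem' := by
        intro a b ha hb
        simp only [Set.mem_ofPred_eq] at *
        rw [smul_add, ha, hb]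
      zero_mem' := smul_zero _
      smul_mem' := by
        intro c v hv
        simp only [Set.mem_ofPred_eq] at *
        rw [smul_comm, hv] }
  have hWmem : ∀ v, v ∈ W ↔ g₀ • v = v := fun v => Iff.rfl
  have hW : W ≠ ⊤ := by
    intro h
    apply hg₀ne
    apply sl_eq_one_of_smul
    intro v
    have : v ∈ W := by rw [h]; trivial
    exact this
  have hlt : Module.finrank F W < n := by
    have := Submodule.finrank_lt hW
    simpa using this
  have hcardW : Fintype.card W = 2 ^ Module.finrank F W := by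
    rw [Module.card_eq_pow_finrank (K := F) (V := W), hF]
  have hcardV : Fintype.card (Fin n → F) = 2 ^ n := by
    simp [hF]
  have hcardΩ : Fintype.card {v : Fin n → F // v ∉ W} = 2 ^ n - 2 ^ Module.finrank F W := by
    rw [Fintype.card_subtype_compl, hcardV, ← hcardW]
  -- the permutation
  have hinv : ∀ v : Fin n → F, v ∉ W ↔ (MulAction.toPerm g v) ∉ W := by
    intro v
    rw [hWmem, hWmem, MulAction.toPerm_apply, ← mul_smul, hcomm, mul_smul]
    constructor
    · intro h1 h2
      exact h1 (smul_left_cancel g h2)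
    · intro h1 h2
      exact h1 (by rw [h2])
  let σ : Equiv.Perm {v : Fin n → F // v ∉ W} := (MulAction.toPerm g).subtypeEquiv hinv
  have hσ : ∀ (k : ℕ) (ω : {v : Fin n → F // v ∉ W}), ((σ^[k]) ω).1 = g ^ k • ω.1 := by
    intro k
    induction k with
    | zero => intro ω; simp
    | succ k ih =>
      intro ω
      rw [Function.iterate_succ_apply', pow_succ', mul_smul, ← ih]
      rfl
  have hper : ∀ ω, Function.minimalPeriod σ ω = s ^ (e' + 1) := by
    intro ω
    apply Function.minimalPeriod_eq_prime_pow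
    · intro h
      have h1 : ((σ^[s ^ e']) ω).1 = ω.1 := congrArg Subtype.val h
      rw [hσ] at h1
      exact ω.2 h1
    · apply Subtype.ext
      rw [hσ, ← hg, pow_orderOf_eq_one, one_smul]
  have hdvd := dvd_card_of_minimalPeriod σ _ hper
  rw [hcardΩ] at hdvd
  refine ⟨n - Module.finrank F W, by omega, by omega, ?_⟩
  have h2 : 2 ^ n - 2 ^ Module.finrank F W = 2 ^ Module.finrank F W * (2 ^ (n - Module.finrank F W) - 1) := by
    rw [Nat.mul_sub, mul_one, ← pow_add]
    congr 2
    omega
  rw [h2] at hdvd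
  have hcop : Nat.Coprime (s ^ (e' + 1)) (2 ^ Module.finrank F W) := by
    apply Nat.Coprime.pow
    rw [Nat.coprime_primes hs Nat.prime_two]
    exact hs2
  exact hcop.dvd_of_dvd_mul_left hdvd



theorem eq_zero_or_one {F : Type*} [Field F] [Fintype F] (hF : Fintype.card F = 2) (x : F) :
    x = 0 ∨ x = 1 := by
  classical
  by_contra h
  push Not at h
  have h1 : ({0, 1, x} : Finset F).card = 3 := by
    rw [Finset.card_insert_of_notMem, Finset.card_insert_of_notMem, Finset.card_singleton]
    · simp [Ne.symm h.2]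
    · simp [Ne.symm h.1]
  have h2 := Finset.card_le_univ ({0, 1, x} : Finset F)
  omega

theorem exists_singer {F : Type*} [Field F] [Fintype F] (hF : Fintype.card F = 2) (n D b : ℕ)
    (hD1 : 1 ≤ D) (hDn : D ≤ n) (hb : b ∣ 2 ^ D - 1) :
    ∃ x : Matrix.SpecialLinearGroup (Fin n) F, orderOf x = b := by
  classical
  let e : ZMod 2 ≃+* F := ZMod.ringEquivOfPrime F Nat.prime_two hF
  let K := GaloisField 2 D
  let _ : Algebra F K := ((algebraMap (ZMod 2) K).comp e.symm.toRingHom).toAlgebra
  have : Fintype K := Fintype.ofFinite K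
  have hcardK : Fintype.card K = 2 ^ D := by
    rw [← Nat.card_eq_fintype_card]; exact GaloisField.card 2 D (by omega)
  have hfin : Module.finrank F K = D := by
    have := Module.card_eq_pow_finrank (K := F) (V := K)
    rw [hcardK, hF] at this
    exact (Nat.pow_right_injective (le_refl 2) this).symm
  -- ζ
  obtain ⟨γ, hγ⟩ := IsCyclic.exists_ofOrder_eq_natCard (α := Kˣ)
  have hcardU : Nat.card Kˣ = 2 ^ D - 1 := by
    rw [Nat.card_units, Nat.card_eq_fintype_card, hcardK]
  rw [hcardU] at hγ
  have hpos : 2 ^ D - 1 ≠ 0 := by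
    have := Nat.one_lt_two_pow (n := D) (by omega)
    omega
  set ζ : Kˣ := γ ^ ((2 ^ D - 1) / b) with hζ
  have hζo : orderOf ζ = b := by
    rw [hζ, ← hγ]
    exact orderOf_pow_orderOf_div (by rw [hγ]; exact hpos) (by rw [hγ]; exact hb)
  -- linear iso
  have hrank : Module.finrank F (K × (Fin (n - D) → F)) = Module.finrank F (Fin n → F) := by
    rw [Module.finrank_prod, hfin]
    simp
    omega
  let φ : (K × (Fin (n - D) → F)) ≃ₗ[F] (Fin n → F) := LinearEquiv.ofFinrankEq _ _ hrank
  -- monoid hom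
  let Ψ : K →* Module.End F (Fin n → F) :=
    { toFun := fun a => φ.toLinearMap ∘ₗ
        (LinearMap.prodMap (LinearMap.mulLeft F a) LinearMap.id) ∘ₗ φ.symm.toLinearMap
      map_one' := by
        apply LinearMap.ext
        intro v
        simp
      map_mul' := by
        intro a b
        apply LinearMap.ext
        intro v
        simp }
  have hΨinj : Function.Injective Ψ := by
    intro a b hab
    have h1 := congrArg (fun f => φ.symm (f (φ (1, 0)))) hab
    simp [Ψ] at h1
    exact h1
  let Θ : K →* Matrix (Fin n) (Fin n) F :=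
    (LinearMap.toMatrixAlgEquiv' : Module.End F (Fin n → F) ≃ₐ[F] Matrix (Fin n) (Fin n) F).toMonoidHom.comp Ψ
  have hΘinj : Function.Injective Θ := by
    intro a b hab
    apply hΨinj
    exact (LinearMap.toMatrixAlgEquiv' : Module.End F (Fin n → F) ≃ₐ[F] Matrix (Fin n) (Fin n) F).injective hab
  have hord : orderOf (Θ (ζ : K)) = b := by
    rw [orderOf_injective Θ hΘinj, orderOf_units, hζo]
  have hunit : Θ (ζ : K) * Θ ((ζ⁻¹ : Kˣ) : K) = 1 := by
    rw [← map_mul, Units.mul_inv, map_one]
  have hdet : (Θ (ζ : K)).det = 1 := by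
    have h1 := congrArg Matrix.det hunit
    rw [Matrix.det_mul, Matrix.det_one] at h1
    rcases eq_zero_or_one hF (Θ (ζ : K)).det with h0 | h0
    · rw [h0, zero_mul] at h1
      exact absurd h1 zero_ne_one
    · exact h0
  let x : Matrix.SpecialLinearGroup (Fin n) F := ⟨Θ (ζ : K), hdet⟩
  refine ⟨x, ?_⟩
  rw [← hord]
  apply orderOf_eq_orderOf_iff.mpr
  intro k
  have hc : (x ^ k).1 = Θ (ζ : K) ^ k := Matrix.SpecialLinearGroup.coe_pow _ _
  constructor
  · intro h
    rw [← hc, h]
    rfl
  · intro h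
    apply Subtype.ext
    rw [hc, h]
    rfl


theorem center_eq_bot {F : Type*} [Field F] [Fintype F] (hF : Fintype.card F = 2) (n : ℕ) :
    Subgroup.center (Matrix.SpecialLinearGroup (Fin n) F) = ⊥ := by
  rw [eq_bot_iff]
  intro A hA
  rw [Matrix.SpecialLinearGroup.mem_center_iff] at hA
  obtain ⟨r, hr, hA⟩ := hA
  rw [Subgroup.mem_bot]
  rcases eq_zero_or_one hF r with h | h
  · rcases Nat.eq_zero_or_pos n with hn | hn
    · subst hn
      apply Subtype.ext
      ext i
      exact i.elim0
    · rw [h, zero_pow (by simp; omega)] at hr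
      exact absurd hr zero_ne_one
  · subst h
    apply Subtype.ext
    rw [← hA]
    simp

theorem mk_injective {F : Type*} [Field F] [Fintype F] (hF : Fintype.card F = 2) (n : ℕ) :
    Function.Injective (QuotientGroup.mk' (Subgroup.center (Matrix.SpecialLinearGroup (Fin n) F))) := by
  rw [← MonoidHom.ker_eq_bot_iff, QuotientGroup.ker_mk', center_eq_bot hF]

theorem pack {L : Type*} [Group L] [Finite L] (n : ℕ) (hn : 2 ≤ n)
    (P1 : ∀ (y : L) (s e : ℕ), s.Prime → s ≠ 2 → 1 ≤ e → orderOf y = s ^ e →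
      ∃ d, 1 ≤ d ∧ d ≤ n ∧ s ^ e ∣ 2 ^ d - 1)
    (P2 : ∀ D b : ℕ, 1 ≤ D → D ≤ n → b ∣ 2 ^ D - 1 → ∃ y : L, orderOf y = b)
    (k : ℕ) (f : Fin k → L) : ∃ h : Fin ((n + 3) / 2) → L, orderOf h = orderOf f := by
  classical
  set N := orderOf f with hN
  have hN0 : N ≠ 0 := (orderOf_pos f).ne'
  have hfi : ∀ i, orderOf (f i) ∣ N := by
    intro i
    apply orderOf_dvd_of_pow_eq_one
    have := pow_orderOf_eq_one f
    exact congrFun this i
  have hmin : ∀ m, (∀ i, orderOf (f i) ∣ m) → N ∣ m := by
    intro m hm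
    apply orderOf_dvd_of_pow_eq_one
    funext i
    exact orderOf_dvd_iff_pow_eq_one.mp (hm i)
  have claim1 : ∀ s, s.Prime → s ∣ N → ∃ i, s ^ (N.factorization s) ∣ orderOf (f i) := by
    intro s hs hsN
    by_contra hcon
    push Not at hcon
    have he1 : 1 ≤ N.factorization s := hs.factorization_pos_of_dvd hN0 hsN
    obtain ⟨M, hM⟩ := hsN
    have hM0 : M ≠ 0 := by
      rintro rfl
      exact hN0 (by rw [hM, mul_zero])
    have hfac : N.factorization = Finsupp.single s 1 + M.factorization := by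
      rw [hM, Nat.factorization_mul hs.ne_zero hM0, hs.factorization]
    have hall : ∀ i, orderOf (f i) ∣ M := by
      intro i
      have ha0 : orderOf (f i) ≠ 0 := (orderOf_pos (f i)).ne'
      rw [← Nat.factorization_le_iff_dvd ha0 hM0]
      intro p
      have h1 : (orderOf (f i)).factorization p ≤ N.factorization p :=
        (Nat.factorization_le_iff_dvd ha0 hN0).mpr (hfi i) p
      by_cases hp : p = s
      · subst hp
        have h2 := hcon i
        rw [hs.pow_dvd_iff_le_factorization ha0] at h2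
        have h3 : N.factorization p = 1 + M.factorization p := by
          rw [hfac]; simp
        omega
      · have h3 : N.factorization p = M.factorization p := by
          rw [hfac]; simp [Ne.symm hp]
        omega
    have h2 := hmin M hall
    rw [hM] at h2
    have h3 := Nat.le_of_dvd (Nat.pos_of_ne_zero hM0) h2
    have h4 : 2 * M ≤ s * M := Nat.mul_le_mul_right M hs.two_le
    omega
  have claim2 : ∀ s, s.Prime → s ∣ N → ∃ y : L, orderOf y = s ^ (N.factorization s) := by
    intro s hs hsN
    obtain ⟨i, hi⟩ := claim1 s hs hsN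
    exact ⟨f i ^ (orderOf (f i) / s ^ (N.factorization s)),
      orderOf_pow_orderOf_div (orderOf_pos (f i)).ne' hi⟩
  have claim3 : ∀ s, s.Prime → s ≠ 2 → s ∣ N →
      ∃ D, D ≤ n ∧ n < 2 * D ∧ s ^ (N.factorization s) ∣ 2 ^ D - 1 := by
    intro s hs hs2 hsN
    obtain ⟨y, hy⟩ := claim2 s hs hsN
    obtain ⟨d, hd1, hdn, hdvd⟩ := P1 y s _ hs hs2 (hs.factorization_pos_of_dvd hN0 hsN) hy
    refine ⟨(n / d) * d, Nat.div_mul_le_self n d, ?_, ?_⟩
    · have h1 := Nat.div_add_mod n d
      have h2 := Nat.mod_lt n (show d > 0 by omega)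
      have h3 : 1 ≤ n / d := Nat.div_pos hdn (by omega)
      have h4 : d ≤ (n / d) * d := Nat.le_mul_of_pos_left d h3
      have h5 : d * (n / d) = (n / d) * d := mul_comm _ _
      omega
    · refine hdvd.trans ?_
      exact Nat.pow_sub_one_dvd_pow_sub_one 2 (Dvd.intro_left (n / d) rfl)
  let b : Fin ((n + 3) / 2) → ℕ := fun j =>
    if (j : ℕ) = 0 then 2 ^ (N.factorization 2) else Nat.gcd N (2 ^ (n + 1 - (j : ℕ)) - 1)
  have hb : ∀ j, ∃ y : L, orderOf y = b j := by
    intro j
    by_cases hj : (j : ℕ) = 0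
    · simp only [b, if_pos hj]
      by_cases h2 : 2 ∣ N
      · exact claim2 2 Nat.prime_two h2
      · refine ⟨1, ?_⟩
        rw [Nat.factorization_eq_zero_of_not_dvd h2, pow_zero, orderOf_one]
    · simp only [b, if_neg hj]
      have hj2 := j.2
      exact P2 (n + 1 - (j : ℕ)) _ (by omega) (by omega) (Nat.gcd_dvd_right _ _)
  choose h hh using hb
  refine ⟨h, ?_⟩
  rw [orderOf_eq_orderOf_iff]
  intro m
  have e1 : h ^ m = 1 ↔ ∀ j, b j ∣ m := by
    rw [funext_iff]
    refine forall_congr' fun j => ?_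
    rw [← hh j, orderOf_dvd_iff_pow_eq_one]
    rfl
  have e2 : f ^ m = 1 ↔ N ∣ m := orderOf_dvd_iff_pow_eq_one.symm
  rw [e1, e2]
  constructor
  · intro hall
    rcases Nat.eq_zero_or_pos m with rfl | hm
    · exact dvd_zero _
    rw [← Nat.factorization_le_iff_dvd hN0 hm.ne']
    intro s
    by_cases hsp : s.Prime
    swap
    · rw [Nat.factorization_eq_zero_of_not_prime _ hsp]
      exact Nat.zero_le _
    by_cases hsN : s ∣ N
    swap
    · rw [Nat.factorization_eq_zero_of_not_dvd hsN]
      exact Nat.zero_le _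
    rw [← hsp.pow_dvd_iff_le_factorization hm.ne']
    by_cases hs2 : s = 2
    · subst hs2
      have h0 : 0 < (n + 3) / 2 := by omega
      have := hall ⟨0, h0⟩
      simpa [b] using this
    · obtain ⟨D, hDn, hnD, hdvd⟩ := claim3 s hsp hs2 hsN
      have hj : n + 1 - D < (n + 3) / 2 := by omega
      have := hall ⟨n + 1 - D, hj⟩
      have hb' : b ⟨n + 1 - D, hj⟩ = Nat.gcd N (2 ^ D - 1) := by
        simp only [b]
        rw [if_neg (by omega)]
        congr 3
        omega
      rw [hb'] at this
      exact (Nat.dvd_gcd (Nat.ordProj_dvd N s) hdvd).trans this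
  · intro hNm j
    refine Dvd.dvd.trans ?_ hNm
    simp only [b]
    split_ifs
    · exact Nat.ordProj_dvd N 2
    · exact Nat.gcd_dvd_left _ _

/-- Let F be the field with two elements, n ≥ 2, L = PSL(n, F) and k₀ = ⌊(n + 3)/2⌋. Then for every k ≥ k₀ the direct product of k copies of L has the same set of element orders as the direct product of k₀ copies of L. -/
theorem result {F : Type*} [Field F] [Fintype F] (hF : Fintype.card F = 2) (n k : ℕ) (hn : 2 ≤ n) (hk : (n + 3) / 2 ≤ k) :
    Set.range (orderOf : (Fin k → Matrix.ProjectiveSpecialLinearGroup (Fin n) F) → ℕ) = Set.range (orderOf : (Fin ((n + 3) / 2) → Matrix.ProjectiveSpecialLinearGroup (Fin n) F) → ℕ) := by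
  classical
  have hinj := mk_injective hF n
  apply Set.eq_of_subset_of_subset
  · rintro _ ⟨f, rfl⟩
    obtain ⟨h, hh⟩ := pack (L := Matrix.ProjectiveSpecialLinearGroup (Fin n) F) n hn
      (by
        intro y s e hs hs2 he hy
        obtain ⟨g, rfl⟩ := QuotientGroup.mk'_surjective _ y
        rw [orderOf_injective _ hinj] at hy
        exact odd_prime_pow_dvd hF n g s e hs hs2 he hy)
      (by
        intro D b hD1 hDn hb
        obtain ⟨x, hx⟩ := exists_singer hF n D b hD1 hDn hb
        exact ⟨QuotientGroup.mk' _ x, by rw [orderOf_injective _ hinj, hx]⟩)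
      k f
    exact ⟨h, hh⟩
  · rintro _ ⟨h, rfl⟩
    refine ⟨fun i => if hi : (i : ℕ) < (n + 3) / 2 then h ⟨i, hi⟩ else 1, ?_⟩
    rw [orderOf_eq_orderOf_iff]
    intro m
    constructor
    · intro hm
      funext j
      have := congrFun hm ⟨j, by omega⟩
      simpa using this
    · intro hm
      funext i
      simp only [Pi.pow_apply, Pi.one_apply]
      split_ifs with hi
      · exact congrFun hm ⟨i, hi⟩
      · exact one_pow _

end Cfsg.Agent.S2513
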