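import Cfsg.Statements.S2516

set_option autoImplicit false
open Cfsg

namespace Cfsg.Agent.S2516

section aux

variable {F : Type*} [Field F] {V : Type*} [AddCommGroup V] [Module F V]
    {G : Type*} [Group G] (ρ : Representation F G V)

/-- the action hom used in the statement -/
noncomputable abbrev phi : G →* MulAut (Multiplicative V) :=
  (MulAutMultiplicative V).symm.toMonoidHom.comp
        ((DistribMulAction.toAddAut ((V →ₗ[F] V)ˣ) V).comp ρ.asGroupHom)

theorem phi_apply (g : G) (v : V) :
    phi ρ g (Multiplicative.ofAdd v) = Multiplicative.ofAdd (ρ g v) := by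
  simp [phi]
  rfl

theorem pow_eq (g : G) (v : V) (n : ℕ) :
    (⟨Multiplicative.ofAdd v, g⟩ : Multiplicative V ⋊[phi ρ] G) ^ n =
      ⟨Multiplicative.ofAdd ((∑ i ∈ Finset.range n, (ρ g) ^ i) v), g ^ n⟩ := by
  induction n with
  | zero => simp
  | succ n ih =>
    rw [pow_succ, ih]
    refine SemidirectProduct.ext ?_ ?_
    · simp only [SemidirectProduct.mul_left]
      rw [phi_apply, ← ofAdd_add, Finset.sum_range_succ, LinearMap.add_apply, map_pow]
    · simp only [SemidirectProduct.mul_right, pow_succ]

theorem pow_eq_one (w : V) (n : ℕ) :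
    (⟨Multiplicative.ofAdd w, 1⟩ : Multiplicative V ⋊[phi ρ] G) ^ n =
      ⟨Multiplicative.ofAdd (n • w), 1⟩ := by
  rw [pow_eq]
  refine SemidirectProduct.ext ?_ ?_
  · simp
  · simp

end aux

/-- Let F be a field of characteristic p > 0, V a non-zero finite-dimensional F-vector space, G a finite group and ρ a representation of G on V; form the semidirect product V ⋊ G. For g ∈ G of order k, the coset Vg contains an element of order pk if and only if the minimal polynomial of ρ(g) does not divide 1 + X + ⋯ + X^(k−1). -/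
theorem result {F : Type*} [Field F] (p : ℕ) [Fact p.Prime] [CharP F p] {V : Type*} [AddCommGroup V] [Module F V] [FiniteDimensional F V] [Nontrivial V]
    {G : Type*} [Group G] [Finite G] (ρ : Representation F G V) (g : G) :
    (∃ x : Multiplicative V ⋊[(MulAutMultiplicative V).symm.toMonoidHom.comp
        ((DistribMulAction.toAddAut ((V →ₗ[F] V)ˣ) V).comp ρ.asGroupHom)] G,
        x.right = g ∧ orderOf x = p * orderOf g) ↔
      ¬ (minpoly F (ρ g) ∣ ∑ i ∈ Finset.range (orderOf g), (Polynomial.X : Polynomial F) ^ i) := by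
  classical
  have hp : p.Prime := Fact.out
  have hk : 0 < orderOf g := orderOf_pos g
  set k := orderOf g with hkdef
  set N : V →ₗ[F] V := ∑ i ∈ Finset.range k, (ρ g) ^ i with hN
  have hNaeval : Polynomial.aeval (ρ g) (∑ i ∈ Finset.range k, (Polynomial.X : Polynomial F) ^ i) = N := by
    simp [hN]
  rw [minpoly.dvd_iff, hNaeval]
  -- order of an element in the coset
  have key : ∀ v : V, orderOf (⟨Multiplicative.ofAdd v, g⟩ : Multiplicative V ⋊[phi ρ] G) =
      k * orderOf (⟨Multiplicative.ofAdd (N v), 1⟩ : Multiplicative V ⋊[phi ρ] G) := by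
    intro v
    set x : Multiplicative V ⋊[phi ρ] G := ⟨Multiplicative.ofAdd v, g⟩ with hx
    have h1 : x ^ k = ⟨Multiplicative.ofAdd (N v), 1⟩ := by
      rw [hx, pow_eq, hkdef, pow_orderOf_eq_one]
    have h2 : k ∣ orderOf x := by
      have := orderOf_map_dvd (SemidirectProduct.rightHom (N := Multiplicative V) (G := G) (φ := phi ρ)) x
      simpa [hx] using this
    rw [← h1, orderOf_pow' x hk.ne', Nat.gcd_eq_right h2, Nat.mul_div_cancel' h2]
  have key2 : ∀ w : V, orderOf (⟨Multiplicative.ofAdd w, 1⟩ : Multiplicative V ⋊[phi ρ] G) =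
      if w = 0 then 1 else p := by
    intro w
    split_ifs with hw
    · subst hw
      rw [orderOf_eq_one_iff]
      rfl
    · apply orderOf_eq_prime
      · rw [pow_eq_one]
        have : (p : F) = 0 := CharP.cast_eq_zero F p
        have h0 : p • w = 0 := by
          rw [← Nat.cast_smul_eq_nsmul F, this, zero_smul]
        rw [h0]
        rfl
      · intro h
        apply hw
        have := congrArg SemidirectProduct.left h
        simpa using this
  constructor
  · rintro ⟨x, hxg, hxo⟩ hN0
    obtain ⟨l, r⟩ := x
    simp only at hxg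
    subst hxg
    have := key (Multiplicative.toAdd l)
    simp only [ofAdd_toAdd] at this
    rw [this, hN0, LinearMap.zero_apply, key2 0, if_pos rfl, mul_one] at hxo
    have hp2 := hp.two_le
    nlinarith
  · intro hN0
    obtain ⟨v, hv⟩ : ∃ v, N v ≠ 0 := by
      by_contra hcon
      push Not at hcon
      exact hN0 (LinearMap.ext hcon)
    refine ⟨⟨Multiplicative.ofAdd v, g⟩, rfl, ?_⟩
    rw [key v, key2 (N v), if_neg hv, mul_comm]

end Cfsg.Agent.S2516
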