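import Cfsg.Statements.S2518
import Cfsg.Agent.S1059
import Cfsg.Agent.Helper57.G3Main
import Cfsg.Agent.Helper57.ChevMap
import Cfsg.Agent.Helper78.G3P1
import Cfsg.Agent.Helper29.G3P12

set_option autoImplicit false
open Cfsg

namespace Cfsg.Agent.S2518

/-- Let F₃ be the field with 3 elements and F₁₃ the field with 13 elements. The Chevalley group G₂(F₃) and PSL(2, F₁₃) have the same prime graph: the same prime divisors of their orders, and for distinct primes r, s an element of order rs in one iff in the other. -/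
theorem result {F : Type*} [Field F] [Fintype F] (hF : Fintype.card F = 3) {E : Type*} [Field E] [Fintype E] (hE : Fintype.card E = 13) :
    ((∀ r : ℕ, r.Prime → (r ∣ Nat.card ↥(Cfsg.Lie.chevG2.group F) ↔ r ∣ Nat.card (Matrix.ProjectiveSpecialLinearGroup (Fin 2) E))) ∧
      (∀ r s : ℕ, r.Prime → s.Prime → r ≠ s → ((∃ x : ↥(Cfsg.Lie.chevG2.group F), orderOf x = r * s) ↔ (∃ y : (Matrix.ProjectiveSpecialLinearGroup (Fin 2) E), orderOf y = r * s)))) := by
  classical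
  obtain ⟨hcardE, hspecE, y6, hy6⟩ := Cfsg.Agent.Helper78.psl2_13_spec hE
  have hcardF : Nat.card ↥(Cfsg.Lie.chevG2.group F) = 4245696 := by
    rw [Cfsg.Agent.S1059.result hF]
    norm_num
  have hF' : Fintype.card F = 3 := hF
  let e : ZMod 3 ≃+* F := ZMod.ringEquivOfPrime F Nat.prime_three hF'
  let ψ : ↥(Cfsg.Lie.chevG2.group (ZMod 3)) ≃* ↥(Cfsg.Lie.chevG2.group F) :=
    Cfsg.Agent.Helper57.chevGroupCongr Cfsg.Lie.chevG2 e
  obtain ⟨θ, hθ, hgood⟩ := Cfsg.Agent.Helper57.g3_hom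
  have hR : Nat.card θ.range = 4245696 := by
    rw [← Nat.card_congr (MonoidHom.ofInjective hθ).toEquiv, Nat.card_congr ψ.toEquiv, hcardF]
  obtain ⟨hspec, σ6, hσ6, hord6⟩ := Cfsg.Agent.Helper57.g3_perm_main θ.range hgood hR
  have key1 : ∀ x : ↥(Cfsg.Lie.chevG2.group F), ∀ r s : ℕ, r.Prime → s.Prime → r ≠ s →
      orderOf x = r * s → r * s = 6 := by
    intro x r s hr hs hrs hx
    have h1 : orderOf (θ (ψ.symm x)) = r * s := by
      rw [orderOf_injective θ hθ, MulEquiv.orderOf_eq, hx]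
    obtain ⟨L, hL, hpow⟩ := hspec (θ (ψ.symm x)) ⟨ψ.symm x, rfl⟩
    have hd : r * s ∣ L := by
      rw [← h1]
      exact orderOf_dvd_of_pow_eq_one hpow
    exact Cfsg.Agent.Helper29.g3_ok_spec L r s hL hr hs hrs hd
  have key2 : ∃ x : ↥(Cfsg.Lie.chevG2.group F), orderOf x = 6 := by
    obtain ⟨x', hx'⟩ := hσ6
    refine ⟨ψ x', ?_⟩
    rw [MulEquiv.orderOf_eq, ← orderOf_injective θ hθ, hx', hord6]
  have key3 : ∀ y : Matrix.ProjectiveSpecialLinearGroup (Fin 2) E, ∀ r s : ℕ, r.Prime → s.Prime →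
      r ≠ s → orderOf y = r * s → r * s = 6 := by
    intro y r s hr hs hrs hy
    rcases hspecE y with h | h | h
    · exact Cfsg.Agent.Helper29.g3_ok_spec 6 r s (by decide) hr hs hrs
        (hy ▸ orderOf_dvd_of_pow_eq_one h)
    · exact Cfsg.Agent.Helper29.g3_ok_spec 7 r s (by decide) hr hs hrs
        (hy ▸ orderOf_dvd_of_pow_eq_one h)
    · exact Cfsg.Agent.Helper29.g3_ok_spec 13 r s (by decide) hr hs hrs
        (hy ▸ orderOf_dvd_of_pow_eq_one h)
  refine ⟨?_, ?_⟩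
  · intro r hr
    rw [hcardF, hcardE]
    have e1 : (4245696 : ℕ) = 2 ^ 6 * 3 ^ 6 * 7 * 13 := by norm_num
    have e2 : (1092 : ℕ) = 2 ^ 2 * 3 * 7 * 13 := by norm_num
    rw [e1, e2]
    simp only [hr.dvd_mul, hr.prime.dvd_pow_iff_dvd (by norm_num : (6 : ℕ) ≠ 0),
      hr.prime.dvd_pow_iff_dvd (by norm_num : (2 : ℕ) ≠ 0)]
  · intro r s hr hs hrs
    constructor
    · rintro ⟨x, hx⟩
      have h6 := key1 x r s hr hs hrs hx
      exact ⟨y6, by rw [hy6, h6]⟩
    · rintro ⟨y, hy⟩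
      have h6 := key3 y r s hr hs hrs hy
      obtain ⟨x, hx⟩ := key2
      exact ⟨x, by rw [hx, h6]⟩

end Cfsg.Agent.S2518
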