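import Cfsg.Statements.S2550
import Mathlib
import Cfsg.Agent.S2513
import Cfsg.Agent.Helper42.SL2

set_option autoImplicit false
open Cfsg

namespace Cfsg.Agent.S2550

section lemmaX

variable {K R : Type*} [Field K] [Fintype K] [CommRing R] [Algebra K R]

omit [CommRing R] [Algebra K R] in
theorem two_eq_zero (hK : Fintype.card K = 4) : (2 : K) = 0 := by
  have h4 : (4 : K) = 0 := by
    have := card_nsmul_eq_zero (G := K) (x := 1)
    rw [hK] at this
    simpa using this
  have : (2 : K) * 2 = 0 := by rw [← h4]; norm_num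
  exact mul_self_eq_zero.mp this

theorem lemmaX (hK : Fintype.card K = 4) (x : R) (τ σ c : K)
    (h1 : x ^ 3 = algebraMap K R τ * x ^ 2 + algebraMap K R σ * x + 1)
    (h2 : x ^ 6 = algebraMap K R c) :
    ∃ e : K, x ^ 2 = algebraMap K R e ∨ x ^ 3 = algebraMap K R e := by
  have hK2 : (2 : K) = 0 := two_eq_zero hK
  have h20 : (2 : R) = 0 := by
    have h : algebraMap K R 2 = 0 := by rw [hK2, map_zero]
    rwa [map_ofNat] at h
  have hτ4 : τ ^ 4 = τ := by
    have := FiniteField.pow_card τ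
    rwa [hK] at this
  have S1 : algebraMap K R (τ ^ 4 + τ ^ 2 * σ + σ ^ 2) * x ^ 2
      + algebraMap K R (τ ^ 3 * σ + τ ^ 2) * x + algebraMap K R (τ ^ 3 + 1 + c) = 0 := by
    simp only [map_add, map_mul, map_pow, map_one]
    linear_combination h2 - (x ^ 3 + algebraMap K R τ * x ^ 2
      + (algebraMap K R τ ^ 2 + algebraMap K R σ) * x
      + (algebraMap K R τ ^ 3 + 2 * algebraMap K R τ * algebraMap K R σ + 1)) * h1
      + (algebraMap K R c - (algebraMap K R τ ^ 2 * algebraMap K R σ + algebraMap K R τ) * x ^ 2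
        - (algebraMap K R τ * algebraMap K R σ ^ 2 + algebraMap K R σ) * x
        - algebraMap K R τ * algebraMap K R σ) * h20
  by_cases hA0 : τ ^ 4 + τ ^ 2 * σ + σ ^ 2 = 0
  · rw [hA0, map_zero, zero_mul, zero_add] at S1
    by_cases hB0 : τ ^ 3 * σ + τ ^ 2 = 0
    · by_cases hτ0 : τ = 0
      · have hσ0 : σ = 0 := by
          have : σ ^ 2 = 0 := by rw [← hA0, hτ0]; ring
          exact pow_eq_zero_iff (two_ne_zero) |>.mp this
        refine ⟨1, Or.inr ?_⟩
        rw [h1, hτ0, hσ0]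
        simp
      · exfalso
        have h3 : τ * σ = -1 := by
          have : τ ^ 2 * (τ * σ + 1) = 0 := by rw [← hB0]; ring
          rcases mul_eq_zero.mp this with h | h
          · exact absurd (pow_eq_zero_iff (two_ne_zero) |>.mp h) hτ0
          · linear_combination h
        have hσ0 : σ = 0 := by
          have : σ ^ 2 = 0 := by
            have : τ ^ 4 + τ ^ 2 * σ + σ ^ 2 = σ ^ 2 := by rw [hτ4]; linear_combination τ * h3
            rw [← this, hA0]
          exact pow_eq_zero_iff (two_ne_zero) |>.mp this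
        rw [hσ0, mul_zero] at h3
        have : (1 : K) = 0 := by linear_combination h3
        exact one_ne_zero this
    · refine ⟨(-(τ ^ 3 + 1 + c) / (τ ^ 3 * σ + τ ^ 2)) ^ 2, Or.inl ?_⟩
      have hBinv : algebraMap K R (τ ^ 3 * σ + τ ^ 2)⁻¹ * algebraMap K R (τ ^ 3 * σ + τ ^ 2) = 1 := by
        rw [← map_mul, inv_mul_cancel₀ hB0, map_one]
      have hx : x = algebraMap K R (-(τ ^ 3 + 1 + c) / (τ ^ 3 * σ + τ ^ 2)) := by
        rw [div_eq_mul_inv, map_mul, map_neg]
        linear_combination (algebraMap K R (τ ^ 3 * σ + τ ^ 2)⁻¹) * S1 - x * hBinv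
      rw [map_pow, ← hx]
  · have hAinv : algebraMap K R (τ ^ 4 + τ ^ 2 * σ + σ ^ 2)⁻¹ * algebraMap K R (τ ^ 4 + τ ^ 2 * σ + σ ^ 2) = 1 := by
      rw [← map_mul, inv_mul_cancel₀ hA0, map_one]
    obtain ⟨b, hb⟩ : ∃ b : K, b = (τ ^ 4 + τ ^ 2 * σ + σ ^ 2)⁻¹ * (τ ^ 3 * σ + τ ^ 2) := ⟨_, rfl⟩
    obtain ⟨e₀, he₀⟩ : ∃ e₀ : K, e₀ = (τ ^ 4 + τ ^ 2 * σ + σ ^ 2)⁻¹ * (τ ^ 3 + 1 + c) := ⟨_, rfl⟩
    have S2 : x ^ 2 + algebraMap K R b * x + algebraMap K R e₀ = 0 := by
      rw [hb, he₀, map_mul, map_mul]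
      linear_combination algebraMap K R (τ ^ 4 + τ ^ 2 * σ + σ ^ 2)⁻¹ * S1 - x ^ 2 * hAinv
    by_cases hb0 : b = 0
    · refine ⟨-e₀, Or.inl ?_⟩
      rw [hb0, map_zero, zero_mul, add_zero] at S2
      rw [map_neg]
      linear_combination S2
    · obtain ⟨bb, hbb⟩ : ∃ bb : R, bb = algebraMap K R b := ⟨_, rfl⟩
      obtain ⟨ee, hee⟩ : ∃ ee : R, ee = algebraMap K R e₀ := ⟨_, rfl⟩
      obtain ⟨C, hC⟩ : ∃ C : R, C = algebraMap K R c := ⟨_, rfl⟩
      rw [← hbb, ← hee] at S2
      rw [← hC] at h2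
      have S3 : x ^ 3 = (bb ^ 2 - ee) * x + bb * ee := by linear_combination (x - bb) * S2
      have S5 : bb * (bb ^ 2 - ee) ^ 2 * x = -C - (bb ^ 2 - ee) ^ 2 * ee + bb ^ 2 * ee ^ 2 := by
        linear_combination (x ^ 3 + (bb ^ 2 - ee) * x + bb * ee) * S3 + (bb ^ 2 - ee) ^ 2 * S2
          + ((bb ^ 2 - ee) * bb * ee * x) * h20 - h2
      by_cases hw0 : b * (b ^ 2 - e₀) ^ 2 = 0
      · have hu : b ^ 2 - e₀ = 0 := by
          rcases mul_eq_zero.mp hw0 with h | h
          · exact absurd h hb0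
          · exact pow_eq_zero_iff (two_ne_zero) |>.mp h
        refine ⟨b * e₀, Or.inr ?_⟩
        have hu' : bb ^ 2 - ee = 0 := by
          have := congrArg (algebraMap K R) hu
          simpa [hbb, hee] using this
        rw [S3, hu', zero_mul, zero_add, map_mul, hbb, hee]
      · refine ⟨((b * (b ^ 2 - e₀) ^ 2)⁻¹ * (-c - (b ^ 2 - e₀) ^ 2 * e₀ + b ^ 2 * e₀ ^ 2)) ^ 2, Or.inl ?_⟩
        have hwinv : algebraMap K R (b * (b ^ 2 - e₀) ^ 2)⁻¹ * (bb * (bb ^ 2 - ee) ^ 2) = 1 := by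
          have : bb * (bb ^ 2 - ee) ^ 2 = algebraMap K R (b * (b ^ 2 - e₀) ^ 2) := by
            simp [hbb, hee]
          rw [this, ← map_mul, inv_mul_cancel₀ hw0, map_one]
        have hx : x = algebraMap K R ((b * (b ^ 2 - e₀) ^ 2)⁻¹ * (-c - (b ^ 2 - e₀) ^ 2 * e₀ + b ^ 2 * e₀ ^ 2)) := by
          have h5 : algebraMap K R (-c - (b ^ 2 - e₀) ^ 2 * e₀ + b ^ 2 * e₀ ^ 2)
              = -C - (bb ^ 2 - ee) ^ 2 * ee + bb ^ 2 * ee ^ 2 := by
            simp [hbb, hee, hC]
          rw [map_mul, h5]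
          linear_combination (algebraMap K R (b * (b ^ 2 - e₀) ^ 2)⁻¹) * S5 - x * hwinv
        rw [map_pow, ← hx]

end lemmaX

section main

/-- Second elementary symmetric function of the eigenvalues of a 3×3 matrix. -/
def e2 {K : Type*} [CommRing K] (M : Matrix (Fin 3) (Fin 3) K) : K :=
  M 0 0 * M 1 1 - M 0 1 * M 1 0 + M 0 0 * M 2 2 - M 0 2 * M 2 0 + M 1 1 * M 2 2 - M 1 2 * M 2 1

theorem cayley3 {K : Type*} [CommRing K] (M : Matrix (Fin 3) (Fin 3) K) :
    M ^ 3 = M.trace • M ^ 2 - e2 M • M + M.det • (1 : Matrix (Fin 3) (Fin 3) K) := by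
  ext i j
  fin_cases i <;> fin_cases j <;>
    simp [pow_succ, Matrix.mul_apply, Fin.sum_univ_three, Matrix.det_fin_three,
      Matrix.trace_fin_three, e2, Matrix.one_apply] <;> ring

variable {K : Type*} [Field K] [Fintype K]

omit [Fintype K] in
theorem scalar_pow_mem_center (g : Matrix.SpecialLinearGroup (Fin 3) K) (k : ℕ) (e : K)
    (h : g.1 ^ k = algebraMap K (Matrix (Fin 3) (Fin 3) K) e) :
    g ^ k ∈ Subgroup.center (Matrix.SpecialLinearGroup (Fin 3) K) := by
  rw [Matrix.SpecialLinearGroup.mem_center_iff]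
  have hc : (g ^ k).1 = g.1 ^ k := Matrix.SpecialLinearGroup.coe_pow _ _
  refine ⟨e, ?_, ?_⟩
  · have hdet : (g ^ k).1.det = 1 := (g ^ k).2
    rw [hc, h, Matrix.algebraMap_eq_diagonal, Matrix.det_diagonal] at hdet
    simpa using hdet
  · rw [hc, h]
    rfl

theorem psl3_prop (hK : Fintype.card K = 4) (y : Matrix.ProjectiveSpecialLinearGroup (Fin 3) K)
    (hy : y ^ 6 = 1) : y ^ 2 = 1 ∨ y ^ 3 = 1 := by
  obtain ⟨g, rfl⟩ := QuotientGroup.mk_surjective y
  rw [← QuotientGroup.mk_pow, QuotientGroup.eq_one_iff] at hy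
  obtain ⟨r, hr, hsc⟩ := Matrix.SpecialLinearGroup.mem_center_iff.mp hy
  have hM6 : g.1 ^ 6 = algebraMap K (Matrix (Fin 3) (Fin 3) K) r := by
    rw [← Matrix.SpecialLinearGroup.coe_pow, ← hsc]
    rfl
  have hCH := cayley3 g.1
  rw [g.2, one_smul] at hCH
  let R := Algebra.adjoin K ({g.1} : Set (Matrix (Fin 3) (Fin 3) K))
  letI : CommRing R := Algebra.adjoinCommRingOfComm K (by simp)
  let x : R := ⟨g.1, Algebra.subset_adjoin (Set.mem_singleton _)⟩
  have h1 : x ^ 3 = algebraMap K R (g.1.trace) * x ^ 2 + algebraMap K R (-e2 g.1) * x + 1 := by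
    apply Subtype.ext
    show g.1 ^ 3 = algebraMap K (Matrix (Fin 3) (Fin 3) K) (g.1.trace) * g.1 ^ 2
      + algebraMap K (Matrix (Fin 3) (Fin 3) K) (-e2 g.1) * g.1 + 1
    rw [hCH, Algebra.smul_def, Algebra.smul_def, map_neg, neg_mul, sub_eq_add_neg]
  have h2 : x ^ 6 = algebraMap K R r := Subtype.ext hM6
  obtain ⟨e, he | he⟩ := lemmaX hK x _ _ _ h1 h2
  · left
    rw [← QuotientGroup.mk_pow, QuotientGroup.eq_one_iff]
    exact scalar_pow_mem_center g 2 e (congrArg Subtype.val he)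
  · right
    rw [← QuotientGroup.mk_pow, QuotientGroup.eq_one_iff]
    exact scalar_pow_mem_center g 3 e (congrArg Subtype.val he)

variable {F : Type*} [Field F] [Fintype F]

/-- An element of order 6 in `SL₄(F₂)`. -/
def M4 (F : Type*) [Field F] : Matrix (Fin 4) (Fin 4) F :=
  !![0, 1, 0, 0; 1, 1, 0, 0; 0, 0, 1, 1; 0, 0, 0, 1]

omit [Fintype F] in
theorem M4_sq (h2 : (2 : F) = 0) :
    M4 F * M4 F = !![1, 1, 0, 0; 1, 0, 0, 0; 0, 0, 1, 0; 0, 0, 0, 1] := by
  ext i j
  fin_cases i <;> fin_cases j <;>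
    simp [M4, Matrix.mul_apply, Fin.sum_univ_four, one_add_one_eq_two, h2]

omit [Fintype F] in
theorem M4_cube (h2 : (2 : F) = 0) :
    M4 F * M4 F * M4 F = !![1, 0, 0, 0; 0, 1, 0, 0; 0, 0, 1, 1; 0, 0, 0, 1] := by
  rw [M4_sq h2]
  ext i j
  fin_cases i <;> fin_cases j <;>
    simp [M4, Matrix.mul_apply, Fin.sum_univ_four, one_add_one_eq_two, h2]

omit [Fintype F] in
theorem M4_six (h2 : (2 : F) = 0) : (M4 F * M4 F * M4 F) * (M4 F * M4 F * M4 F) = 1 := by
  rw [M4_cube h2]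
  ext i j
  fin_cases i <;> fin_cases j <;>
    simp [Matrix.mul_apply, Fin.sum_univ_four, one_add_one_eq_two, h2, Matrix.one_apply]

theorem psl4_not_prop (hF : Fintype.card F = 2) :
    ∃ y : Matrix.ProjectiveSpecialLinearGroup (Fin 4) F, y ^ 6 = 1 ∧ y ^ 2 ≠ 1 ∧ y ^ 3 ≠ 1 := by
  have h2 : (2 : F) = 0 := by
    rcases S2513.eq_zero_or_one hF (2 : F) with h | h
    · exact h
    · exfalso
      have : (1 : F) = 0 := by linear_combination h
      exact one_ne_zero this
  have h6 : M4 F ^ 6 = 1 := by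
    have := M4_six h2
    rw [← this]
    simp [pow_succ, mul_assoc]
  have hdet : (M4 F).det = 1 := by
    have h1 := congrArg Matrix.det h6
    rw [Matrix.det_pow, Matrix.det_one] at h1
    rcases S2513.eq_zero_or_one hF (M4 F).det with h0 | h0
    · rw [h0, zero_pow (by norm_num)] at h1
      exact absurd h1 zero_ne_one
    · exact h0
  let x : Matrix.SpecialLinearGroup (Fin 4) F := ⟨M4 F, hdet⟩
  have hinj := S2513.mk_injective hF 4
  have hcoe : ∀ k, (x ^ k).1 = M4 F ^ k := fun k => Matrix.SpecialLinearGroup.coe_pow _ _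
  refine ⟨QuotientGroup.mk' _ x, ?_, ?_, ?_⟩
  · rw [← map_pow]
    have : x ^ 6 = 1 := Subtype.ext (by rw [hcoe]; exact h6)
    rw [this, map_one]
  · rw [← map_pow]
    intro h
    have h' := hinj (h.trans (map_one _).symm)
    have h'' : M4 F ^ 2 = 1 := by
      rw [← hcoe, h']
      rfl
    rw [pow_two, M4_sq h2] at h''
    have := congrFun (congrFun h'' 0) 1
    simp at this
  · rw [← map_pow]
    intro h
    have h' := hinj (h.trans (map_one _).symm)
    have h'' : M4 F ^ 3 = 1 := by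
      rw [← hcoe, h']
      rfl
    rw [pow_succ, pow_two, M4_cube h2] at h''
    have := congrFun (congrFun h'' 2) 3
    simp at this

theorem card_psl4 (hF : Fintype.card F = 2) :
    Nat.card (Matrix.ProjectiveSpecialLinearGroup (Fin 4) F) = 20160 := by
  have hinj := S2513.mk_injective hF 4
  have h1 : Nat.card (Matrix.ProjectiveSpecialLinearGroup (Fin 4) F)
      = Nat.card (Matrix.SpecialLinearGroup (Fin 4) F) :=
    (Nat.card_congr (Equiv.ofBijective _ ⟨hinj, QuotientGroup.mk'_surjective _⟩)).symm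
  have h2 := Helper42.SL2.card_SL_mul (F := F) (Fin 4)
  have h3 := Matrix.card_GL_field (𝔽 := F) 4
  rw [h1]
  rw [h3, hF] at h2
  simp [Fin.prod_univ_four] at h2
  omega

theorem card_center3 (hK : Fintype.card K = 4) :
    Nat.card (Subgroup.center (Matrix.SpecialLinearGroup (Fin 3) K)) = 3 := by
  have e := Matrix.SpecialLinearGroup.center_equiv_rootsOfUnity' (R := K) (0 : Fin 3)
  rw [Nat.card_congr e.toEquiv]
  have key : ∀ k, k = 3 → Nat.card (rootsOfUnity k K) = 3 := by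
    rintro k rfl
    have hcard : Nat.card Kˣ = 3 := by rw [Nat.card_units, Nat.card_eq_fintype_card, hK]
    have htop : rootsOfUnity 3 K = ⊤ := by
      rw [eq_top_iff]
      intro u _
      rw [mem_rootsOfUnity]
      have := pow_card_eq_one' (x := u)
      rwa [hcard] at this
    rw [htop, Subgroup.card_top, hcard]
  exact key _ (Fintype.card_fin 3)

theorem card_psl3 (hK : Fintype.card K = 4) :
    Nat.card (Matrix.ProjectiveSpecialLinearGroup (Fin 3) K) = 20160 := by
  have h0 := Subgroup.card_eq_card_quotient_mul_card_subgroup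
    (Subgroup.center (Matrix.SpecialLinearGroup (Fin 3) K))
  rw [card_center3 hK] at h0
  have h2 := Helper42.SL2.card_SL_mul (F := K) (Fin 3)
  have h3 := Matrix.card_GL_field (𝔽 := K) 3
  rw [h3, hK, h0] at h2
  simp [Fin.prod_univ_three] at h2
  show Nat.card (Matrix.SpecialLinearGroup (Fin 3) K ⧸ Subgroup.center (Matrix.SpecialLinearGroup (Fin 3) K)) = 20160
  omega

end main

/-- Let F be a field with 2 elements and K a field with 4 elements. PSL_4(F) and PSL_3(K) have the same order (20160) but are not isomorphic. -/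
theorem result {F K : Type*} [Field F] [Fintype F] [Field K] [Fintype K] (hF : Fintype.card F = 2) (hK : Fintype.card K = 4) : Nat.card (Matrix.ProjectiveSpecialLinearGroup (Fin 4) F) = Nat.card (Matrix.ProjectiveSpecialLinearGroup (Fin 3) K) ∧ ¬ Nonempty (Matrix.ProjectiveSpecialLinearGroup (Fin 4) F ≃* Matrix.ProjectiveSpecialLinearGroup (Fin 3) K) := by
  refine ⟨by rw [card_psl4 hF, card_psl3 hK], ?_⟩
  rintro ⟨e⟩
  obtain ⟨y, h6, h2, h3⟩ := psl4_not_prop hF
  rcases psl3_prop hK (e y) (by rw [← map_pow, h6, map_one]) with h | h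
  · apply h2
    apply e.injective
    rw [map_pow, h, map_one]
  · apply h3
    apply e.injective
    rw [map_pow, h, map_one]

end Cfsg.Agent.S2550
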