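import Cfsg.Statements.S2553
import Mathlib
import Cfsg.Agent.Helper65.G42Main
import Cfsg.Agent.Helper51.AutElem2

set_option autoImplicit false
open Cfsg

namespace Cfsg.Agent.S2553

/-- Let H be a nontrivial subgroup of GL(4,2) (a group isomorphic to the alternating group of degree 8) whose largest normal 2-subgroup and largest normal subgroup of odd order are both trivial. Then H is isomorphic to an alternating group of degree n for some 5 ≤ n ≤ 8, to the symmetric group of degree 5 or 6, or to GL(3,2). -/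
theorem result (H : Subgroup (GL (Fin 4) (ZMod 2))) (hH : H ≠ ⊥) (hO : Cfsg.pPrimeCore 2 ↥H = ⊥) (hO2 : Cfsg.pCore 2 ↥H = ⊥) :
    (∃ n : ℕ, 5 ≤ n ∧ n ≤ 8 ∧ Nonempty (↥H ≃* alternatingGroup (Fin n))) ∨
    Nonempty (↥H ≃* Equiv.Perm (Fin 5)) ∨ Nonempty (↥H ≃* Equiv.Perm (Fin 6)) ∨ Nonempty (↥H ≃* GL (Fin 3) (ZMod 2)) := by
  obtain ⟨f, hf⟩ := Cfsg.Agent.Helper51.ae2_sl_embed
  let ρ : H →* Equiv.Perm (Fin 8) :=
    (alternatingGroup (Fin 8)).subtype.comp
      (f.comp (Cfsg.Agent.Helper51.ae2_glToSl.comp H.subtype))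
  have hρ : Function.Injective ρ :=
    (Subgroup.subtype_injective _).comp
      (hf.comp (Cfsg.Agent.Helper51.ae2_glToSl_injective.comp (Subgroup.subtype_injective _)))
  have hsign : ∀ g, Equiv.Perm.sign (ρ g) = 1 := fun g =>
    Equiv.Perm.mem_alternatingGroup.mp (f (Cfsg.Agent.Helper51.ae2_glToSl (g : GL (Fin 4) (ZMod 2)))).2
  haveI : Nontrivial H := (Subgroup.nontrivial_iff_ne_bot H).mpr hH
  refine Cfsg.Agent.Helper65.g42_main ρ hρ hsign H.subtype (Subgroup.subtype_injective _)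
    inferInstance ?_ ?_
  · intro K hK hp
    have h1 : K ≤ Cfsg.pCore 2 H := le_sSup ⟨hK, hp⟩
    rw [hO2] at h1
    exact le_bot_iff.mp h1
  · intro K hK ho
    have h1 : K ≤ Cfsg.pPrimeCore 2 H := le_sSup ⟨hK, Nat.coprime_two_right.mpr ho⟩
    rw [hO] at h1
    exact le_bot_iff.mp h1

end Cfsg.Agent.S2553
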