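import Cfsg.Statements.S2896
import Cfsg.Agent.Helper48.CharPLocal

set_option autoImplicit false
open Cfsg

namespace Cfsg.Agent.S2896

/-- Let p be a prime dividing the order of the finite group G, S a Sylow p-subgroup of G and X a subgroup of S. (i) If some nontrivial element z of the centre of X has F*(C_G(z)) = O_p(C_G(z)), then F*(N_G(X)) = O_p(N_G(X)). (ii) G has parabolic characteristic p if and only if F*(C_G(z)) = O_p(C_G(z)) for every nontrivial z ∈ Ω₁(Z(S)). (iii) If F*(C_G(z)) = O_p(C_G(z)) for every element z of S of order p, then G has local characteristic p. -/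
theorem result {G : Type*} [Group G] [Finite G] {p : ℕ} [Fact p.Prime] (hdiv : p ∣ Nat.card G) (S : Sylow p G) (X : Subgroup G) (hX : X ≤ (S : Subgroup G)) : (∀ z : G, z ≠ 1 → z ∈ X → (∀ x ∈ X, x * z = z * x) → Cfsg.generalizedFittingSubgroup ↥(Subgroup.centralizer ({z} : Set G)) = Cfsg.pCore p ↥(Subgroup.centralizer ({z} : Set G)) → Cfsg.generalizedFittingSubgroup ↥(Subgroup.normalizer (X : Set G)) = Cfsg.pCore p ↥(Subgroup.normalizer (X : Set G))) ∧ (Cfsg.IsOfParabolicCharacteristic p G ↔ ∀ z : G, z ≠ 1 → z ∈ Cfsg.omegaOne p ((S : Subgroup G) ⊓ Subgroup.centralizer ((S : Subgroup G) : Set G)) → Cfsg.generalizedFittingSubgroup ↥(Subgroup.centralizer ({z} : Set G)) = Cfsg.pCore p ↥(Subgroup.centralizer ({z} : Set G))) ∧ ((∀ z : G, z ∈ (S : Subgroup G) → orderOf z = p → Cfsg.generalizedFittingSubgroup ↥(Subgroup.centralizer ({z} : Set G)) = Cfsg.pCore p ↥(Subgroup.centralizer ({z} : Set G))) → Cfsg.IsOfLocalCharacteristic p G) := by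
  have hXp : IsPGroup p ↥X := S.isPGroup'.to_le hX
  have homega : Cfsg.omegaOne p ((S : Subgroup G) ⊓ Subgroup.centralizer ((S : Subgroup G) : Set G)) ≤
      (S : Subgroup G) ⊓ Subgroup.centralizer ((S : Subgroup G) : Set G) := by
    unfold Cfsg.omegaOne
    rw [Subgroup.closure_le]
    intro x hx
    exact hx.1
  refine ⟨?_, ⟨?_, ?_⟩, ?_⟩
  · intro z _ hzX _ hF
    exact Cfsg.Agent.Helper48.generalizedFittingSubgroup_eq_pCore_iff.mpr
      (Cfsg.Agent.Helper48.coreProps_normalizer_of_mem hXp hzX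
        (Cfsg.Agent.Helper48.generalizedFittingSubgroup_eq_pCore_iff.mp hF))
  · intro hG z hz1 hz
    have hz' := homega hz
    exact Cfsg.Agent.Helper48.generalizedFittingSubgroup_eq_pCore_iff.mpr
      (Cfsg.Agent.Helper48.coreProps_centralizer_of_parabolic hG S hz1 hz'.1 hz'.2)
  · intro h R hR hR1 hpar
    obtain ⟨T, hT⟩ := hpar
    exact (Cfsg.Agent.Helper48.coreProps_normalizer_of_sylow S (fun z hz1 hzS hzC hzp =>
      Cfsg.Agent.Helper48.generalizedFittingSubgroup_eq_pCore_iff.mp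
        (h z hz1 (Subgroup.subset_closure ⟨⟨hzS, hzC⟩, hzp⟩))) R hR hR1 T hT).2
  · intro h
    refine ⟨hdiv, fun T hT hT1 => ?_⟩
    exact (Cfsg.Agent.Helper48.coreProps_normalizer_of_local S (fun z hzS hzp =>
      Cfsg.Agent.Helper48.generalizedFittingSubgroup_eq_pCore_iff.mp (h z hzS hzp)) T hT hT1).2

end Cfsg.Agent.S2896
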