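import Cfsg.Statements.S2898
import Cfsg.Agent.Helper48.PGroupLemmas
import Cfsg.Agent.Helper48.Cores

set_option autoImplicit false
open Cfsg

namespace Cfsg.Agent.S2898

open Subgroup Cfsg.Agent.Helper48
open scoped Pointwise

/-- Let G be a finite group of even order with parabolic characteristic 2. If the centre of G ⧸ O(G) is trivial, then O(G) = 1. -/
theorem result {G : Type*} [Group G] [Finite G] (h2 : 2 ∣ Nat.card G) (hG : Cfsg.IsOfParabolicCharacteristic 2 G) [hN : (Cfsg.oddCore G).Normal] (hZ : Subgroup.center (G ⧸ Cfsg.oddCore G) = ⊥) : Cfsg.oddCore G = ⊥ := by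
  have : Fact (Nat.Prime 2) := ⟨Nat.prime_two⟩
  obtain ⟨S⟩ := (inferInstance : Nonempty (Sylow 2 G))
  have hSne : (S : Subgroup G) ≠ ⊥ := S.ne_bot_of_dvd_card h2
  have hKc : (Nat.card (oddCore G)).Coprime 2 := coprime_card_pPrimeCore 2
  -- Lemma A: central involutions of `S` invert `O(G)`
  have hA : ∀ z : G, z ∈ (S : Subgroup G) → orderOf z = 2 → (∀ s ∈ (S : Subgroup G), s * z = z * s) →
      ∀ k ∈ oddCore G, z * k * z⁻¹ = k⁻¹ := by
    intro z hzS hz2 hzc
    have hR := hG (zpowers z) (isPGroup_zpowers_of_orderOf_eq hz2) (zpowers_ne_bot_of_orderOf_eq hz2)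
      ⟨S, fun s hs => mem_normalizer_zpowers_of_commute (hzc s hs)⟩
    -- claim 1: `C_K(z) = 1`
    have hC1 : ∀ k ∈ oddCore G, k * z = z * k → k = 1 := by
      intro k hk hkz
      have hkN : k ∈ normalizer ((zpowers z : Subgroup G) : Set G) :=
        mem_normalizer_zpowers_of_commute hkz
      have hmem : (⟨k, hkN⟩ : normalizer ((zpowers z : Subgroup G) : Set G)) ∈
          pCore 2 (normalizer ((zpowers z : Subgroup G) : Set G)) := by
        apply hR
        rw [mem_centralizer_iff]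
        intro y hy
        apply Subtype.ext
        have hc1 : k * (y : G) * k⁻¹ * (y : G)⁻¹ ∈ oddCore G := by
          have : k * (y : G) * k⁻¹ * (y : G)⁻¹ = k * ((y : G) * k⁻¹ * (y : G)⁻¹) := by group
          rw [this]
          exact (oddCore G).mul_mem hk (hN.conj_mem _ ((oddCore G).inv_mem hk) _)
        have hc2 : ((⟨k, hkN⟩ : normalizer ((zpowers z : Subgroup G) : Set G)) * y *
            (⟨k, hkN⟩ : normalizer ((zpowers z : Subgroup G) : Set G))⁻¹ * y⁻¹) ∈
            pCore 2 (normalizer ((zpowers z : Subgroup G) : Set G)) :=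
          Subgroup.mul_mem _ ((pCore_normal 2 _).conj_mem y hy _) (Subgroup.inv_mem _ hy)
        have hc3 : k * (y : G) * k⁻¹ * (y : G)⁻¹ = 1 := eq_one_of_mem_isPGroup_of_mem_coprime
          (A := (pCore 2 (normalizer ((zpowers z : Subgroup G) : Set G))).map
            (normalizer ((zpowers z : Subgroup G) : Set G)).subtype)
          ((isPGroup_pCore 2 _).map _) hKc ⟨_, hc2, rfl⟩ hc1
        show (y : G) * k = k * (y : G)
        calc (y : G) * k = (k * (y : G) * k⁻¹ * (y : G)⁻¹)⁻¹ * (k * (y : G)) := by group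
          _ = k * (y : G) := by rw [hc3]; group
      exact eq_one_of_mem_isPGroup_of_mem_coprime
        (A := (pCore 2 (normalizer ((zpowers z : Subgroup G) : Set G))).map
          (normalizer ((zpowers z : Subgroup G) : Set G)).subtype)
        ((isPGroup_pCore 2 _).map _) hKc ⟨_, hmem, rfl⟩ hk
    -- claim 2: `z` inverts `K`
    intro k hk
    let f : oddCore G → oddCore G := fun a =>
      ⟨(a : G)⁻¹ * (z * a * z⁻¹), (oddCore G).mul_mem ((oddCore G).inv_mem a.2) (hN.conj_mem _ a.2 _)⟩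
    have hf : Function.Injective f := by
      intro a b hab
      have h1 : (a : G)⁻¹ * (z * a * z⁻¹) = (b : G)⁻¹ * (z * b * z⁻¹) := congrArg Subtype.val hab
      have h3 : ((b : G) * (a : G)⁻¹) * z = z * ((b : G) * (a : G)⁻¹) := by
        calc ((b : G) * (a : G)⁻¹) * z
            = (b : G) * ((a : G)⁻¹ * (z * a * z⁻¹)) * z * (a : G)⁻¹ := by group
          _ = (b : G) * ((b : G)⁻¹ * (z * b * z⁻¹)) * z * (a : G)⁻¹ := by rw [h1]
          _ = z * ((b : G) * (a : G)⁻¹) := by group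
      have h4 := hC1 _ ((oddCore G).mul_mem b.2 ((oddCore G).inv_mem a.2)) h3
      apply Subtype.ext
      have : (b : G) = ((b : G) * (a : G)⁻¹) * a := by group
      rw [this, h4, one_mul]
    obtain ⟨a, ha⟩ := (Finite.injective_iff_surjective.mp hf) ⟨k, hk⟩
    have ha' : (a : G)⁻¹ * (z * a * z⁻¹) = k := congrArg Subtype.val ha
    have hzz : z * z = 1 := by rw [← pow_two, ← hz2, pow_orderOf_eq_one]
    have hzz' : z⁻¹ * z⁻¹ = 1 := by
      rw [← mul_inv_rev, hzz, inv_one]
    apply eq_inv_of_mul_eq_one_left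
    rw [← ha']
    calc z * ((a : G)⁻¹ * (z * a * z⁻¹)) * z⁻¹ * ((a : G)⁻¹ * (z * a * z⁻¹))
        = z * (a : G)⁻¹ * z * a * (z⁻¹ * z⁻¹) * (a : G)⁻¹ * z * a * z⁻¹ := by group
      _ = z * (a : G)⁻¹ * (z * z) * a * z⁻¹ := by rw [hzz']; group
      _ = 1 := by rw [hzz]; group
  -- a central involution of `S`
  obtain ⟨z, hzS, hz2, hzc⟩ := exists_central_orderOf_eq S.isPGroup' hSne
  have hDn : (centralizer (oddCore G : Set G)).Normal := normal_centralizer
  have hsq : ∀ k ∈ oddCore G, k * k = 1 → k = 1 := by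
    intro k hk hkk
    exact eq_one_of_pow_eq_one_of_mem_coprime (k := 1) hKc (by rw [pow_one, pow_two]; exact hkk) hk
  by_cases hD : ∃ t ∈ centralizer (oddCore G : Set G), orderOf t = 2
  · obtain ⟨t, htD, ht2⟩ := hD
    obtain ⟨g, hg⟩ : ∃ g : G, g * t * g⁻¹ ∈ (S : Subgroup G) := by
      obtain ⟨Q, hQ⟩ := (isPGroup_zpowers_of_orderOf_eq ht2).exists_le_sylow
      obtain ⟨g, hg⟩ := MulAction.exists_smul_eq G Q S
      refine ⟨g, ?_⟩
      rw [← hg, Sylow.coe_subgroup_smul]
      exact ⟨t, hQ (mem_zpowers t), rfl⟩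
    have hne : (S : Subgroup G) ⊓ centralizer (oddCore G : Set G) ≠ ⊥ := by
      intro h
      have h1 : g * t * g⁻¹ ∈ (S : Subgroup G) ⊓ centralizer (oddCore G : Set G) :=
        ⟨hg, hDn.conj_mem t htD g⟩
      rw [h, mem_bot] at h1
      have h3 : orderOf (g * t * g⁻¹) = 2 := by rw [orderOf_conj_eq]; exact ht2
      rw [h1, orderOf_one] at h3
      exact absurd h3 (by norm_num)
    have hSn : (S : Subgroup G) ≤ normalizer ((centralizer (oddCore G : Set G) : Subgroup G) : Set G) := by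
      rw [normalizer_eq_top]; exact le_top
    obtain ⟨z₀, hz₀, hz₀2, hz₀c⟩ := exists_central_orderOf_eq_of_inf_ne_bot S.isPGroup' hSn hne
    rw [eq_bot_iff]
    intro k hk
    rw [mem_bot]
    have h1 := hA z₀ hz₀.1 hz₀2 hz₀c k hk
    have h2 : k * z₀ = z₀ * k := hz₀.2 k hk
    apply hsq k hk
    have h3 : z₀ * k * z₀⁻¹ = k := by rw [← h2]; group
    have h4 : k = k⁻¹ := h3.symm.trans h1
    calc k * k = k * k⁻¹ := by rw [← h4]
      _ = 1 := mul_inv_cancel k
  · exfalso
    have hDodd : (Nat.card (centralizer (oddCore G : Set G))).Coprime 2 := by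
      rw [Nat.coprime_comm, Nat.Prime.coprime_iff_not_dvd Nat.prime_two]
      intro hdvd
      obtain ⟨t, ht⟩ := exists_prime_orderOf_dvd_card' 2 hdvd
      exact hD ⟨t, t.2, (Subgroup.orderOf_coe t).trans ht⟩
    have hDK : centralizer (oddCore G : Set G) ≤ oddCore G := le_pPrimeCore hDn hDodd
    have hI1 := hA z hzS hz2 hzc
    have hI2 : ∀ k ∈ oddCore G, z⁻¹ * k⁻¹ * z = k := by
      intro k hk
      have := hI1 k hk
      calc z⁻¹ * k⁻¹ * z = z⁻¹ * (z * k * z⁻¹) * z := by rw [this]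
        _ = k := by group
    have hzcen : (QuotientGroup.mk z : G ⧸ oddCore G) ∈ center (G ⧸ oddCore G) := by
      rw [mem_center_iff]
      intro q
      obtain ⟨g, rfl⟩ := QuotientGroup.mk_surjective q
      rw [← QuotientGroup.mk_mul, ← QuotientGroup.mk_mul, QuotientGroup.eq]
      apply hDK
      rw [mem_centralizer_iff]
      intro k hk
      have e1 : z * (g * k * g⁻¹) * z⁻¹ = (g * k * g⁻¹)⁻¹ := hI1 _ (hN.conj_mem k hk g)
      have e2 := hI2 k hk
      have e3 : ((g * z)⁻¹ * (z * g)) * k * ((g * z)⁻¹ * (z * g))⁻¹ = k := by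
        calc ((g * z)⁻¹ * (z * g)) * k * ((g * z)⁻¹ * (z * g))⁻¹
            = z⁻¹ * g⁻¹ * (z * (g * k * g⁻¹) * z⁻¹) * g * z := by group
          _ = z⁻¹ * g⁻¹ * (g * k * g⁻¹)⁻¹ * g * z := by rw [e1]
          _ = z⁻¹ * k⁻¹ * z := by group
          _ = k := e2
      calc k * ((g * z)⁻¹ * (z * g))
          = (((g * z)⁻¹ * (z * g)) * k * ((g * z)⁻¹ * (z * g))⁻¹) * ((g * z)⁻¹ * (z * g)) := by
            rw [e3]
        _ = (g * z)⁻¹ * (z * g) * k := by group
    rw [hZ, mem_bot, QuotientGroup.eq_one_iff] at hzcen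
    have hz1 : z = 1 := eq_one_of_pow_eq_one_of_mem_coprime (k := 1) hKc
      (by rw [pow_one, ← hz2, pow_orderOf_eq_one]) hzcen
    rw [hz1, orderOf_one] at hz2
    exact absurd hz2 (by norm_num)

end Cfsg.Agent.S2898
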