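import Cfsg.Statements.S2906
import Cfsg.Agent.Helper48.PMinimal2

set_option autoImplicit false
open Cfsg

namespace Cfsg.Agent.S2906

/-- Let P be a finite p-minimal group with O_p(P) = 1, S a Sylow p-subgroup of P and K a component of P. Then O^p(P) = F*(P) = E(P) is generated by the S-conjugates of K, and the subgroup K·N_S(K) is again p-minimal. -/
theorem result {P : Type*} [Group P] [Finite P] {p : ℕ} [Fact p.Prime] (hP : Cfsg.IsPMinimal p P) (hOp : Cfsg.pCore p P = ⊥) (S : Sylow p P) (K : Subgroup P) (hK : Cfsg.IsComponent K) : Cfsg.pResidual p P = Cfsg.generalizedFittingSubgroup P ∧ Cfsg.generalizedFittingSubgroup P = Cfsg.layer P ∧ Cfsg.layer P = ⨆ s : ↥(S : Subgroup P), K.map (MulAut.conj (s : P)).toMonoidHom ∧ Cfsg.IsPMinimal p ↥(K ⊔ ((S : Subgroup P) ⊓ Subgroup.normalizer (K : Set P))) := by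
  obtain ⟨-, M, ⟨hM, hSM⟩, -⟩ := hP S
  obtain ⟨h1, h2, h3⟩ := Cfsg.Agent.Helper48.pMinimal_pResidual_eq_layer hP hOp S hM hSM hK
  exact ⟨h1, h2, h3, Cfsg.Agent.Helper48.pMinimal_sup_normalizer hP hOp S hM hSM hK⟩

end Cfsg.Agent.S2906
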