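import Cfsg.Statements.S2907
import Cfsg.Agent.Helper48.Extraspecial2

set_option autoImplicit false
open Cfsg

namespace Cfsg.Agent.S2907

open Subgroup Cfsg.Agent.Helper48

/-- Let X be a finite semi-extraspecial p-group and x an element of X outside the centre. Then the index of C_X(x) in X equals the order of Z(X), and the commutators [x, y], y ∈ X, form exactly the centre Z(X). -/
theorem result {X : Type*} [Group X] [Finite X] {p : ℕ} [Fact p.Prime] (hX : Cfsg.IsSemiExtraspecial p X) (x : X) (hx : x ∉ Subgroup.center X) : (Subgroup.centralizer ({x} : Set X)).index = Nat.card ↥(Subgroup.center X) ∧ {z : X | ∃ y : X, z = x * y * x⁻¹ * y⁻¹} = (Subgroup.center X : Set X) := by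
  obtain ⟨⟨hp, hfrat, hcomm⟩, hsemi⟩ := hX
  have hc : ∀ x y : X, x * y * x⁻¹ * y⁻¹ ∈ center X := by
    intro x y
    rw [← hcomm]
    have := Subgroup.commutator_mem_commutator (Subgroup.mem_top x) (Subgroup.mem_top y)
    rwa [commutatorElement_def] at this
  -- the commutator homomorphism is surjective
  have hsurj : (commHom hc x).range = ⊤ := by
    rcases IsCoatomic.eq_top_or_exists_le_coatom (commHom hc x).range with h | ⟨M, hM, hIM⟩
    · exact h
    · exfalso
      -- `Y`: `M` viewed in `X`
      have hYle : M.map (center X).subtype ≤ center X := by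
        rintro _ ⟨z, -, rfl⟩; exact z.2
      have hYsub : (M.map (center X).subtype).subgroupOf (center X) = M := by
        ext z
        rw [mem_subgroupOf]
        constructor
        · rintro ⟨w, hw, hwz⟩
          have : w = z := Subtype.ext hwz
          rwa [← this]
        · intro hz
          exact ⟨z, hz, rfl⟩
      obtain ⟨hYn, hYE⟩ := hsemi (M.map (center X).subtype) hYle (by rw [hYsub]; exact hM)
      have hcardZ : Nat.card (center (X ⧸ M.map (center X).subtype)) = p := hYE.2
      -- `x` is central modulo `Y`
      have hxc : (QuotientGroup.mk x : X ⧸ M.map (center X).subtype) ∈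
          center (X ⧸ M.map (center X).subtype) := by
        rw [Subgroup.mem_center_iff]
        intro q
        obtain ⟨y, rfl⟩ := QuotientGroup.mk_surjective q
        rw [← QuotientGroup.mk_mul, ← QuotientGroup.mk_mul, QuotientGroup.eq]
        have h1 : commHom hc x (x⁻¹ * y⁻¹) ∈ M := hIM ⟨_, rfl⟩
        have h2 : (y * x)⁻¹ * (x * y) = ((commHom hc x (x⁻¹ * y⁻¹) : center X) : X) := by
          rw [commHom_apply_coe]; group
        rw [h2]
        exact ⟨_, h1, rfl⟩
      -- the image of the centre is the whole centre of the quotient
      have hprime : Fact (Nat.card (center (X ⧸ M.map (center X).subtype))).Prime := by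
        rw [hcardZ]; infer_instance
      obtain ⟨z, hzM⟩ : ∃ z : center X, z ∉ M := by
        by_contra hall
        push Not at hall
        exact hM.1 (eq_top_iff.mpr (fun z _ => hall z))
      have hzc : (QuotientGroup.mk (z : X) : X ⧸ M.map (center X).subtype) ∈
          center (X ⧸ M.map (center X).subtype) := by
        rw [Subgroup.mem_center_iff]
        intro q
        obtain ⟨y, rfl⟩ := QuotientGroup.mk_surjective q
        rw [← QuotientGroup.mk_mul, ← QuotientGroup.mk_mul]
        congr 1
        exact Subgroup.mem_center_iff.mp z.2 y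
      have hz1 : (QuotientGroup.mk (z : X) : X ⧸ M.map (center X).subtype) ≠ 1 := by
        intro h
        rw [QuotientGroup.eq_one_iff] at h
        obtain ⟨w, hw, hwz⟩ := h
        have : w = z := Subtype.ext hwz
        exact hzM (this ▸ hw)
      -- the subgroup generated by the image of `z` is everything
      have hzp : zpowers (⟨QuotientGroup.mk (z : X), hzc⟩ :
          center (X ⧸ M.map (center X).subtype)) = ⊤ := by
        rcases Subgroup.eq_bot_or_eq_top_of_prime_card (zpowers (⟨QuotientGroup.mk (z : X), hzc⟩ :
          center (X ⧸ M.map (center X).subtype))) with h | h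
        · exfalso
          apply hz1
          have := (zpowers_eq_bot.mp h)
          exact congrArg Subtype.val this
        · exact h
      have hxz : (⟨QuotientGroup.mk x, hxc⟩ : center (X ⧸ M.map (center X).subtype)) ∈
          zpowers (⟨QuotientGroup.mk (z : X), hzc⟩ : center (X ⧸ M.map (center X).subtype)) := by
        rw [hzp]; exact mem_top _
      obtain ⟨k, hk⟩ := mem_zpowers_iff.mp hxz
      have hk' : (QuotientGroup.mk ((z : X) ^ k) : X ⧸ M.map (center X).subtype) =
          QuotientGroup.mk x := by
        have := congrArg Subtype.val hk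
        simpa using this
      rw [QuotientGroup.eq] at hk'
      apply hx
      have h3 : x = (z : X) ^ k * (((z : X) ^ k)⁻¹ * x) := by group
      rw [h3]
      exact (center X).mul_mem ((center X).zpow_mem z.2 k) (hYle hk')
  have hker : (commHom hc x).ker = centralizer ({x} : Set X) := by
    ext b
    rw [MonoidHom.mem_ker, commHom_eq_one_iff, mem_centralizer_singleton_iff]
  constructor
  · rw [← hker, Subgroup.index_ker, hsurj, Subgroup.card_top]
  · ext z
    constructor
    · rintro ⟨y, rfl⟩
      exact hc x y
    · intro hz
      have hz' : z⁻¹ ∈ center X := (center X).inv_mem hz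
      have : (⟨z⁻¹, hz'⟩ : center X) ∈ (commHom hc x).range := by rw [hsurj]; exact mem_top _
      obtain ⟨y, hy⟩ := this
      refine ⟨y, ?_⟩
      have h4 : y * x * y⁻¹ * x⁻¹ = z⁻¹ := congrArg Subtype.val hy
      calc z = (z⁻¹)⁻¹ := (inv_inv z).symm
        _ = (y * x * y⁻¹ * x⁻¹)⁻¹ := by rw [h4]
        _ = x * y * x⁻¹ * y⁻¹ := by group

end Cfsg.Agent.S2907
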