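import Mathlib
import Cfsg.Statements.S2908
import Cfsg.Agent.Helper35.CoprimeGen
import Cfsg.Agent.Helper24.Coprime
-- import your own Cfsg.Agent.* helpers here

set_option autoImplicit false
open Cfsg

namespace Cfsg.Agent.S2908

open scoped commutatorElement

/-- Let P be a p-subgroup of a finite group, normalized by a p-subgroup A and by a subgroup B of order prime to p that commutes elementwise with A. If [P, B] ≤ [P, A], then B centralizes P. -/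
theorem result {G : Type*} [Group G] [Finite G] {p : ℕ} [Fact p.Prime] (P A B : Subgroup G) (hP : IsPGroup p ↥P) (hA : IsPGroup p ↥A) (hB : ¬ p ∣ Nat.card ↥B) (hnA : A ≤ Subgroup.normalizer (P : Set G)) (hnB : B ≤ Subgroup.normalizer (P : Set G)) (hAB : ⁅A, B⁆ = ⊥) (hcomm : ⁅P, B⁆ ≤ ⁅P, A⁆) : ⁅P, B⁆ = ⊥ := by
  by_contra hne
  have hcop : (Nat.card B).Coprime (Nat.card P) := by
    obtain ⟨n, hn⟩ := IsPGroup.iff_card.mp hP
    rw [hn]
    exact Nat.Coprime.pow_right n ((Nat.Prime.coprime_iff_not_dvd Fact.out).2 hB).symm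
  have hnil : Group.IsNilpotent P := hP.isNilpotent
  have hsolv : Group.IsSolvable B ∨ Group.IsSolvable P := Or.inr inferInstance
  have hQP : ⁅P, B⁆ ≤ P := Cfsg.Agent.Helper35.commutator_le_of_le_normalizer hnB
  have hRp : IsPGroup p (P ⊔ A : Subgroup G) := IsPGroup.to_sup_of_normal_left' hP hA hnA
  have hBA : B ≤ Subgroup.normalizer (A : Set G) := by
    rw [Subgroup.le_normalizer_iff_commutator_le_left, hAB]; exact bot_le
  have hAB' : A ≤ Subgroup.normalizer (B : Set G) := by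
    rw [Subgroup.le_normalizer_iff_commutator_le_right, hAB]; exact bot_le
  have hAcB : A ≤ Subgroup.centralizer (B : Set G) :=
    Subgroup.commutator_eq_bot_iff_le_centralizer.1 hAB
  have hPQ : P ≤ Subgroup.normalizer ((⁅P, B⁆ : Subgroup G) : Set G) :=
    Subgroup.normalizer_commutator_ge_left P B
  have hAQ : A ≤ Subgroup.normalizer ((⁅P, B⁆ : Subgroup G) : Set G) :=
    Cfsg.Agent.Helper35.le_normalizer_commutator' hnA hAB'
  have hBQ : B ≤ Subgroup.normalizer ((⁅P, B⁆ : Subgroup G) : Set G) :=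
    Subgroup.normalizer_commutator_ge_right P B
  have hRQ : P ⊔ A ≤ Subgroup.normalizer ((⁅P, B⁆ : Subgroup G) : Set G) := sup_le hPQ hAQ
  have hQp : IsPGroup p (⁅P, B⁆ : Subgroup G) := hP.to_le hQP
  have hN : ⁅⁅P, B⁆, P ⊔ A⁆ < ⁅P, B⁆ :=
    Cfsg.Agent.Helper24.commutator_lt_of_isPGroup hQp hRp hRQ hne
  have hPR : P ≤ Subgroup.normalizer ((P ⊔ A : Subgroup G) : Set G) :=
    le_sup_left.trans Subgroup.le_normalizer
  have hBR : B ≤ Subgroup.normalizer ((P ⊔ A : Subgroup G) : Set G) :=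
    Cfsg.Agent.Helper35.le_normalizer_sup hnB hBA
  have hCN : P ⊓ Subgroup.centralizer (B : Set G) ≤
      Subgroup.normalizer ((⁅⁅P, B⁆, P ⊔ A⁆ : Subgroup G) : Set G) :=
    inf_le_left.trans (Cfsg.Agent.Helper35.le_normalizer_commutator' hPQ hPR)
  have hBN : B ≤ Subgroup.normalizer ((⁅⁅P, B⁆, P ⊔ A⁆ : Subgroup G) : Set G) :=
    Cfsg.Agent.Helper35.le_normalizer_commutator' hBQ hBR
  have h1 : ⁅P, A⁆ ≤ ⁅⁅P, B⁆, P ⊔ A⁆ ⊔ (P ⊓ Subgroup.centralizer (B : Set G)) := by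
    rw [Subgroup.commutator_le]
    intro x hx a ha
    obtain ⟨q, hq, c, hc, rfl⟩ := Cfsg.Agent.Helper35.exists_commutator_mul_fixed hnB hcop hsolv hx
    have e : ⁅q * c, a⁆ = ⁅q, ⁅c, a⁆⁆ * ⁅c, a⁆ * ⁅q, a⁆ := by
      simp only [commutatorElement_def]; group
    rw [e]
    have hcaP : ⁅c, a⁆ ∈ P := by
      have e2 : ⁅c, a⁆ = c * (a * c⁻¹ * a⁻¹) := by rw [commutatorElement_def]; group
      rw [e2]
      exact mul_mem hc.1 ((Subgroup.mem_normalizer_iff.1 (hnA ha) c⁻¹).1 (inv_mem hc.1))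
    have hcaC : ⁅c, a⁆ ∈ Subgroup.centralizer (B : Set G) := by
      rw [commutatorElement_def]
      exact mul_mem (mul_mem (mul_mem hc.2 (hAcB ha)) (inv_mem hc.2)) (inv_mem (hAcB ha))
    refine mul_mem (mul_mem ?_ ?_) ?_
    · exact (le_sup_left : ⁅⁅P, B⁆, P ⊔ A⁆ ≤ _)
        (Subgroup.commutator_mem_commutator hq ((le_sup_left : P ≤ P ⊔ A) hcaP))
    · exact (le_sup_right : P ⊓ Subgroup.centralizer (B : Set G) ≤ _) ⟨hcaP, hcaC⟩
    · exact (le_sup_left : ⁅⁅P, B⁆, P ⊔ A⁆ ≤ _)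
        (Subgroup.commutator_mem_commutator hq ((le_sup_right : A ≤ P ⊔ A) ha))
  have h2 : ⁅⁅⁅P, B⁆, P ⊔ A⁆ ⊔ (P ⊓ Subgroup.centralizer (B : Set G)), B⁆ ≤ ⁅⁅P, B⁆, P ⊔ A⁆ := by
    rw [Subgroup.commutator_le]
    intro m hm b hb
    obtain ⟨n, hn, c, hc, rfl⟩ :=
      Cfsg.Agent.Helper35.exists_mul_of_mem_sup_of_le_normalizer hCN hm
    have hcb : c * b = b * c := ((Subgroup.mem_centralizer_iff.1 hc.2) b hb).symm
    have e : ⁅n * c, b⁆ = n * (b * n⁻¹ * b⁻¹) := by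
      rw [commutatorElement_def]
      calc n * c * b * (n * c)⁻¹ * b⁻¹ = n * (c * b) * c⁻¹ * n⁻¹ * b⁻¹ := by group
        _ = n * (b * c) * c⁻¹ * n⁻¹ * b⁻¹ := by rw [hcb]
        _ = n * (b * n⁻¹ * b⁻¹) := by group
    rw [e]
    exact mul_mem hn ((Subgroup.mem_normalizer_iff.1 (hBN hb) n⁻¹).1 (inv_mem hn))
  have h3 : ⁅P, B⁆ ≤ ⁅⁅P, B⁆, P ⊔ A⁆ := by
    calc ⁅P, B⁆ = ⁅⁅P, B⁆, B⁆ :=
          (Cfsg.Agent.Helper35.commutator_commutator_eq_of_coprime hnB hcop hsolv).symm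
      _ ≤ ⁅⁅⁅P, B⁆, P ⊔ A⁆ ⊔ (P ⊓ Subgroup.centralizer (B : Set G)), B⁆ :=
          Subgroup.commutator_mono (hcomm.trans h1) le_rfl
      _ ≤ ⁅⁅P, B⁆, P ⊔ A⁆ := h2
  exact absurd h3 (not_le_of_gt hN)

end Cfsg.Agent.S2908
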