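import Cfsg.Statements.S2909
import Cfsg.Agent.Helper48.ThompsonAB
import Cfsg.Agent.Helper48.CoprimeGen3

set_option autoImplicit false
open Cfsg

namespace Cfsg.Agent.S2909

open Subgroup
open scoped commutatorElement

/-- The elements `g` with `[g, U] ⊆ C`, for a normal subgroup `C`. -/
def commStab {G : Type*} [Group G] (C : Subgroup G) [hC : C.Normal] (U : Subgroup G) : Subgroup G where
  carrier := {g | ∀ t ∈ U, g * t * g⁻¹ * t⁻¹ ∈ C}
  one_mem' := by
    intro t _
    have e : (1 : G) * t * (1 : G)⁻¹ * t⁻¹ = 1 := by group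
    rw [e]; exact C.one_mem
  mul_mem' := by
    intro g h hg hh t ht
    have e : g * h * t * (g * h)⁻¹ * t⁻¹ = g * (h * t * h⁻¹ * t⁻¹) * g⁻¹ * (g * t * g⁻¹ * t⁻¹) := by
      group
    rw [e]
    exact C.mul_mem (hC.conj_mem _ (hh t ht) g) (hg t ht)
  inv_mem' := by
    intro g hg t ht
    have e : g⁻¹ * t * g⁻¹⁻¹ * t⁻¹ = g⁻¹ * (g * t * g⁻¹ * t⁻¹)⁻¹ * g⁻¹⁻¹ := by group
    rw [e]
    exact hC.conj_mem _ (C.inv_mem (hg t ht)) g⁻¹

/-- The elements of the normalizer of `N₀` acting trivially on `E` modulo `N₀`. -/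
def actKer {G : Type*} [Group G] (E N₀ : Subgroup G) : Subgroup G where
  carrier := {g | g ∈ normalizer (N₀ : Set G) ∧ ∀ e ∈ E, e * g * e⁻¹ * g⁻¹ ∈ N₀}
  one_mem' := by
    refine ⟨one_mem _, ?_⟩
    intro e _
    have h : e * 1 * e⁻¹ * (1 : G)⁻¹ = 1 := by group
    rw [h]; exact N₀.one_mem
  mul_mem' := by
    rintro g h ⟨hg1, hg2⟩ ⟨hh1, hh2⟩
    refine ⟨mul_mem hg1 hh1, ?_⟩
    intro e he
    have h0 : e * (g * h) * e⁻¹ * (g * h)⁻¹ = (e * g * e⁻¹ * g⁻¹) * (g * (e * h * e⁻¹ * h⁻¹) * g⁻¹) := by
      group
    rw [h0]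
    exact N₀.mul_mem (hg2 e he) ((mem_normalizer_iff.mp hg1 _).mp (hh2 e he))
  inv_mem' := by
    rintro g ⟨hg1, hg2⟩
    refine ⟨inv_mem hg1, ?_⟩
    intro e he
    have h0 : e * g⁻¹ * e⁻¹ * g⁻¹⁻¹ = g⁻¹ * (e * g * e⁻¹ * g⁻¹)⁻¹ * g⁻¹⁻¹ := by group
    rw [h0]
    exact (mem_normalizer_iff.mp (inv_mem hg1) _).mp (N₀.inv_mem (hg2 e he))

/-- Let p be a prime, E a normal p-subgroup of the finite group G, and U a non-cyclic elementary abelian p-subgroup of G such that either C_E(U) = C_E(u) for every nontrivial u ∈ U, or [E, U] = [E, ⟨u⟩] for every nontrivial u ∈ U. If R is a subgroup of order prime to p normalized by U, then [R, U] centralizes E. -/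
theorem result {G : Type*} [Group G] [Finite G] {p : ℕ} [Fact p.Prime] (E : Subgroup G) [E.Normal] (hE : IsPGroup p ↥E) (U : Subgroup G) (hU : Cfsg.IsElementaryAbelian p U) (hnc : ¬ IsCyclic ↥U) (hcond : (∀ u ∈ U, u ≠ 1 → E ⊓ Subgroup.centralizer (U : Set G) = E ⊓ Subgroup.centralizer ({u} : Set G)) ∨ (∀ u ∈ U, u ≠ 1 → ⁅E, U⁆ = ⁅E, Subgroup.zpowers u⁆)) (R : Subgroup G) (hR : ¬ p ∣ Nat.card ↥R) (hRU : U ≤ Subgroup.normalizer (R : Set G)) : ⁅R, U⁆ ≤ Subgroup.centralizer (E : Set G) := by
  have hp : p.Prime := Fact.out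
  obtain ⟨hUcomm, hUp⟩ := hU
  have hUc : ∀ x ∈ U, ∀ y ∈ U, x * y = y * x := by
    intro x hx y hy
    have := (isMulCommutative_iff.mp hUcomm) ⟨x, hx⟩ ⟨y, hy⟩
    exact congrArg Subtype.val this
  have hUpg : IsPGroup p U := fun ⟨x, hx⟩ => ⟨1, Subtype.ext (by simpa using hUp x hx)⟩
  have hUcard : p ^ 2 ≤ Nat.card U := by
    obtain ⟨n, hn⟩ := IsPGroup.iff_card.mp hUpg
    rw [hn]
    apply Nat.pow_le_pow_right hp.pos
    by_contra hlt
    push Not at hlt
    apply hnc
    rcases Nat.lt_succ_iff.mp hlt with h1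
    interval_cases n
    · have : Subsingleton U := by
        rw [← Finite.card_le_one_iff_subsingleton, hn, pow_zero]
      exact isCyclic_of_subsingleton
    · rw [pow_one] at hn
      exact isCyclic_of_prime_card hn
  have hCn : (centralizer (E : Set G)).Normal := Subgroup.normal_centralizer
  -- it suffices to show `R ≤ commStab`
  suffices hRS : R ≤ commStab (centralizer (E : Set G)) U by
    rw [commutator_le]
    intro r hr t ht
    have := hRS hr t ht
    rw [commutatorElement_def]
    exact this
  apply Cfsg.Agent.Helper48.le_of_inf_centralizer_le_of_noncyclic R hR U hRU hUc hUp hUcard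
  · intro t' ht' t ht
    have e : t' * t * t'⁻¹ * t⁻¹ = 1 := by rw [hUc t' ht' t ht]; group
    rw [e]; exact one_mem _
  · intro u hu hu1
    -- `B = [C_R(u), U]` centralizes `E`
    have hEn : ∀ K : Subgroup G, K ≤ normalizer (E : Set G) := fun K => le_normalizer_of_normal
    have hUnRu : U ≤ normalizer ((R ⊓ centralizer ({u} : Set G) : Subgroup G) : Set G) := by
      intro t ht
      apply inf_normalizer_le_normalizer_inf
      refine ⟨hRU ht, ?_⟩
      apply le_normalizer
      rw [mem_centralizer_singleton_iff]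
      exact hUc t ht u hu
    have hBle : (⁅R ⊓ centralizer ({u} : Set G), U⁆ : Subgroup G) ≤ R ⊓ centralizer ({u} : Set G) :=
      le_normalizer_iff_commutator_le_left.mp hUnRu
    have hBp : ¬ p ∣ Nat.card (⁅R ⊓ centralizer ({u} : Set G), U⁆ : Subgroup G) := by
      intro h
      exact hR (h.trans (Subgroup.card_dvd_of_le (hBle.trans inf_le_left)))
    have hA : IsPGroup p (zpowers u) := by
      rintro ⟨x, hx⟩
      obtain ⟨k, rfl⟩ := mem_zpowers_iff.mp hx
      refine ⟨1, Subtype.ext ?_⟩
      show (u ^ k) ^ p ^ 1 = 1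
      rw [pow_one, ← zpow_natCast, ← zpow_mul, mul_comm, zpow_mul, zpow_natCast, hUp u hu, one_zpow]
    have hAB : ⁅zpowers u, (⁅R ⊓ centralizer ({u} : Set G), U⁆ : Subgroup G)⁆ = ⊥ := by
      rw [commutator_eq_bot_iff_le_centralizer, zpowers_le, mem_centralizer_iff]
      intro β hβ
      exact mem_centralizer_singleton_iff.mp (hBle hβ).2
    have hBE : (⁅R ⊓ centralizer ({u} : Set G), U⁆ : Subgroup G) ≤ centralizer (E : Set G) := by
      rcases hcond with h1 | h2
      · -- first case: Thompson's `A × B` lemma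
        have hC0 : E ⊓ centralizer ((zpowers u : Subgroup G) : Set G)
            ≤ centralizer ((⁅R ⊓ centralizer ({u} : Set G), U⁆ : Subgroup G) : Set G) := by
          have hC0eq : E ⊓ centralizer ((zpowers u : Subgroup G) : Set G) ≤ E ⊓ centralizer (U : Set G) := by
            rw [h1 u hu hu1]
            intro x hx
            exact ⟨hx.1, mem_centralizer_singleton_iff.mpr
              (mem_centralizer_iff.mp hx.2 u (mem_zpowers u)).symm⟩
          refine hC0eq.trans ?_
          rw [← commutator_eq_bot_iff_le_centralizer, commutator_comm]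
          apply commutator_commutator_eq_bot_of_rotate
          · have : ⁅U, E ⊓ centralizer (U : Set G)⁆ = ⊥ := by
              rw [commutator_comm, commutator_eq_bot_iff_le_centralizer]
              exact inf_le_right
            rw [this, commutator_bot_left]
          · have hnorm : R ⊓ centralizer ({u} : Set G)
                ≤ normalizer ((E ⊓ centralizer (U : Set G) : Subgroup G) : Set G) := by
              rw [h1 u hu hu1]
              intro r hr
              apply inf_normalizer_le_normalizer_inf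
              exact ⟨hEn _ hr, le_normalizer hr.2⟩
            have h3 : ⁅E ⊓ centralizer (U : Set G), R ⊓ centralizer ({u} : Set G)⁆
                ≤ E ⊓ centralizer (U : Set G) := le_normalizer_iff_commutator_le_left.mp hnorm
            have h4 : ⁅E ⊓ centralizer (U : Set G), U⁆ = ⊥ := by
              rw [commutator_eq_bot_iff_le_centralizer]
              exact inf_le_right
            rw [eq_bot_iff, ← h4]
            exact commutator_mono h3 le_rfl
        have h5 := Cfsg.Agent.Helper48.thompson_AxB E (zpowers u) _ hE hA hBp hAB (hEn _) (hEn _) hC0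
        rw [← commutator_eq_bot_iff_le_centralizer, commutator_comm,
          commutator_eq_bot_iff_le_centralizer]
        exact h5
      · -- second case: `[E, B] ≤ [E, U] = [E, ⟨u⟩]`
        have hN0 : ⁅E, U⁆ = ⁅E, zpowers u⁆ := h2 u hu hu1
        have hUact : U ≤ actKer E ⁅E, U⁆ := by
          intro t ht
          refine ⟨Cfsg.Agent.Helper48.mem_normalizer_commutator (hEn U ht) (le_normalizer ht), ?_⟩
          intro e he
          have := commutator_mem_commutator he ht
          rwa [commutatorElement_def] at this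
        have hRuN : R ⊓ centralizer ({u} : Set G) ≤ normalizer ((⁅E, U⁆ : Subgroup G) : Set G) := by
          rw [hN0]
          intro r hr
          apply Cfsg.Agent.Helper48.mem_normalizer_commutator (hEn _ hr)
          apply centralizer_le_normalizer
          rw [mem_centralizer_iff]
          intro y hy
          obtain ⟨k, rfl⟩ := mem_zpowers_iff.mp hy
          have hru : r * u = u * r := mem_centralizer_singleton_iff.mp hr.2
          exact ((Commute.zpow_right (show Commute r u from hru) k).eq).symm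
        have hBact : (⁅R ⊓ centralizer ({u} : Set G), U⁆ : Subgroup G) ≤ actKer E ⁅E, U⁆ := by
          rw [commutator_le]
          intro r hr t ht
          have e1 : ⁅r, t⁆ = (r * t * r⁻¹) * t⁻¹ := by rw [commutatorElement_def]
          rw [e1]
          apply mul_mem _ (inv_mem (hUact ht))
          refine ⟨mul_mem (mul_mem (hRuN hr) (hUact ht).1) (inv_mem (hRuN hr)), ?_⟩
          intro e he
          have he' : r⁻¹ * e * r ∈ E := by
            have := (inferInstance : E.Normal).conj_mem e he r⁻¹
            rwa [inv_inv] at this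
          have h6 := (hUact ht).2 _ he'
          have e2 : e * (r * t * r⁻¹) * e⁻¹ * (r * t * r⁻¹)⁻¹
              = r * ((r⁻¹ * e * r) * t * (r⁻¹ * e * r)⁻¹ * t⁻¹) * r⁻¹ := by group
          rw [e2]
          exact (mem_normalizer_iff.mp (hRuN hr) _).mp h6
        have hcomm : ⁅E, (⁅R ⊓ centralizer ({u} : Set G), U⁆ : Subgroup G)⁆ ≤ ⁅E, zpowers u⁆ := by
          rw [← hN0, commutator_le]
          intro e he β hβ
          have := (hBact hβ).2 e he
          rwa [commutatorElement_def]
        have h7 := Cfsg.Agent.Helper48.commutator_eq_bot_of_commutator_le E (zpowers u) _ hE hA hBp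
          (hEn _) (hEn _) hAB hcomm
        rw [← commutator_eq_bot_iff_le_centralizer, commutator_comm]
        exact h7
    intro r hr t ht
    have := hBE (commutator_mem_commutator hr ht)
    rwa [commutatorElement_def] at this

end Cfsg.Agent.S2909
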