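import Cfsg.Statements.S2910
import Cfsg.Agent.Helper70.FrobComp2
import Cfsg.Agent.Helper24.Coprime
import Cfsg.Agent.Helper34.PCons2

set_option autoImplicit false
open Cfsg

namespace Cfsg.Agent.S2910

/-- Let p be an odd prime dividing the order of the finite group G and P a Sylow p-subgroup of G. If Ω₁(P) (generated by the elements of order dividing p) is contained in the centre of G, then G has a normal p-complement. In particular, if G is quasisimple then Ω₁(P) is not central in G. -/
theorem result {G : Type*} [Group G] [Finite G] {p : ℕ} [Fact p.Prime] (hp : p ≠ 2) (hdiv : p ∣ Nat.card G) (P : Sylow p G) (hZ : Cfsg.omegaOne p (P : Subgroup G) ≤ Subgroup.center G) : Cfsg.HasNormalPComplement p G ∧ ¬ Cfsg.IsQuasisimple G := by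
  have hF : Cfsg.Agent.Helper70.FrobCond p G := by
    apply Cfsg.Agent.Helper70.frobCond_of_sylow P
    intro Q hQP g hg hcop
    have hA : (Nat.card ↥(Subgroup.zpowers g)).Coprime p := by
      rw [Nat.card_zpowers]; exact hcop
    have hAn : Subgroup.zpowers g ≤ Subgroup.normalizer (Q : Set G) := Subgroup.zpowers_le.mpr hg
    have key := Cfsg.Agent.Helper24.le_centralizer_of_odd_of_centralizes_omega hp
      (Subgroup.zpowers g) hA (Nat.card ↥Q) Q le_rfl (P.isPGroup'.to_le hQP) hAn
      (by
        intro x hx hxp a _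
        have hxZ : x ∈ Subgroup.center G := hZ (Subgroup.subset_closure ⟨hQP hx, hxp⟩)
        exact Subgroup.mem_center_iff.mp hxZ a)
    rw [Subgroup.mem_centralizer_iff]
    intro x hx
    have := Subgroup.mem_centralizer_iff.mp (key hx) g (Subgroup.mem_zpowers g)
    exact this.symm
  refine ⟨Cfsg.Agent.Helper70.hasNormalPComplement_iff_frobCond.mpr hF, ?_⟩
  intro hqs
  obtain ⟨K, hKn, hKc, k, hKi⟩ := hF.hasNPC
  have hperf : Group.IsPerfect G := hqs.1
  have hquot : IsPGroup p (G ⧸ K) := by
    apply IsPGroup.of_card (n := k)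
    rw [← Subgroup.index_eq_card]; exact hKi
  have htop : K = ⊤ := Cfsg.Agent.Helper34.perfect_eq_top_of_isPGroup_quotient K hquot
  rw [htop, Subgroup.card_top] at hKc
  exact (Fact.out : p.Prime).one_lt.ne' (Nat.Coprime.eq_one_of_dvd hKc.symm hdiv)

end Cfsg.Agent.S2910
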