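import Cfsg.Statements.S2911
import Cfsg.Agent.Helper48.Transfer2
import Cfsg.Agent.Helper48.SylowNorm

set_option autoImplicit false
open Cfsg

namespace Cfsg.Agent.S2911

/-- The model group `C₂ × D₈`. -/
abbrev D := Multiplicative (ZMod 2) × DihedralGroup 4

/-- The generator of the cyclic factor. -/
def t : D := (Multiplicative.ofAdd 1, 1)
/-- The central involution of the dihedral factor. -/
def c : D := (1, DihedralGroup.r 2)
/-- A rotation of order four. -/
def x0 : D := (1, DihedralGroup.r 1)
/-- A reflection. -/
def y0 : D := (1, DihedralGroup.sr 0)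

theorem center_cases :
    ∀ d : D, (∀ y : D, y * d = d * y) → d = 1 ∨ d = t ∨ d = c ∨ d = t * c := by decide
theorem comm_cases : ∀ x y : D, x * y * x⁻¹ * y⁻¹ = 1 ∨ x * y * x⁻¹ * y⁻¹ = c := by decide
theorem t_central : ∀ y : D, y * t = t * y := by decide
theorem tc_central : ∀ y : D, y * (t * c) = t * c * y := by decide
theorem c_ne_one : c ≠ 1 := by decide
theorem t_ne_one : t ≠ 1 := by decide
theorem t_ne_c : t ≠ c := by decide
theorem tc_ne_one : t * c ≠ 1 := by decide
theorem tc_ne_c : t * c ≠ c := by decide
theorem t_ne_tc : t ≠ t * c := by decide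
theorem c_eq_comm : c = x0 * y0 * x0⁻¹ * y0⁻¹ := by decide
theorem t_sq : t ^ 2 = 1 := by decide

/-- The sign character of the cyclic group of order two. -/
def sgn2 : Multiplicative (ZMod 2) →* ℤˣ where
  toFun := fun a => if a = 1 then 1 else -1
  map_one' := by decide
  map_mul' := by decide

theorem sgn2_t : sgn2 t.1 = -1 := by decide

theorem aut_c (β : MulAut D) : β c = c := by
  have h := comm_cases (β x0) (β y0)
  have hc : β c = β x0 * β y0 * (β x0)⁻¹ * (β y0)⁻¹ := by
    rw [c_eq_comm, map_mul, map_mul, map_mul, map_inv, map_inv]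
  rw [← hc] at h
  rcases h with h | h
  · exfalso
    exact c_ne_one ((map_eq_one_iff β β.injective).mp h)
  · exact h

theorem aut_central (β : MulAut D) (d : D) (hd : ∀ y, y * d = d * y) :
    ∀ y, y * β d = β d * y := by
  intro y
  have h1 := hd (β.symm y)
  have h2 := congrArg β h1
  rw [map_mul, map_mul, MulEquiv.apply_symm_apply] at h2
  exact h2

theorem aut_t_cases (β : MulAut D) (d : D) (hd : d = t ∨ d = t * c) :
    β d = t ∨ β d = t * c := by
  have hcen : ∀ y, y * d = d * y := by
    rcases hd with rfl | rfl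
    · exact t_central
    · exact tc_central
  have hd1 : d ≠ 1 := by
    rcases hd with rfl | rfl
    · exact t_ne_one
    · exact tc_ne_one
  have hdc : d ≠ c := by
    rcases hd with rfl | rfl
    · exact t_ne_c
    · exact tc_ne_c
  have h1 := center_cases (β d) (aut_central β d hcen)
  have hne1 : β d ≠ 1 := fun h => hd1 ((map_eq_one_iff β β.injective).mp h)
  have hnec : β d ≠ c := by
    rw [← aut_c β]
    intro h
    exact hdc (β.injective h)
  rcases h1 with h | h | h | h
  · exact absurd h hne1
  · exact Or.inl h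
  · exact absurd h hnec
  · exact Or.inr h

theorem aut_fix_t (β : MulAut D) (n : ℕ) (hn : ¬ 2 ∣ n) (h : (β ^ n) t = t) : β t = t := by
  rcases aut_t_cases β t (Or.inl rfl) with h1 | h1
  · exact h1
  · exfalso
    have h2 : β (t * c) = t := by
      rcases aut_t_cases β (t * c) (Or.inr rfl) with h2 | h2
      · exact h2
      · exfalso
        have h3 : β (t * c) = β t := h2.trans h1.symm
        exact t_ne_tc (β.injective h3).symm
    have hodd : ∀ k : ℕ, (β ^ (2 * k + 1)) t = t * c := by
      intro k
      induction k with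
      | zero => simpa using h1
      | succ k ih =>
        have e1 : 2 * (k + 1) + 1 = 2 + (2 * k + 1) := by ring
        rw [e1, pow_add, MulAut.mul_apply, ih, pow_two, MulAut.mul_apply, h2, h1]
    obtain ⟨k, hk⟩ : ∃ k, n = 2 * k + 1 := by
      have : Odd n := Nat.odd_iff.mpr (by omega)
      exact this
    rw [hk, hodd k] at h
    exact t_ne_tc h.symm

/-- A finite group whose Sylow 2-subgroups are isomorphic to the direct product of a group of order 2 and a dihedral group of order 8 has a subgroup of index two. -/
theorem result {G : Type*} [Group G] [Finite G] (S : Sylow 2 G) (hS : Nonempty (↥(S : Subgroup G) ≃* Multiplicative (ZMod 2) × DihedralGroup 4)) : ∃ H : Subgroup G, H.index = 2 := by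
  obtain ⟨e⟩ := hS
  have : Fact (Nat.Prime 2) := ⟨Nat.prime_two⟩
  let ϕ : (S : Subgroup G) →* ℤˣ := (sgn2.comp (MonoidHom.fst _ _)).comp e.toMonoidHom
  let z' : (S : Subgroup G) := e.symm t
  have hϕ : ϕ z' = -1 := by
    show sgn2 (e (e.symm t)).1 = -1
    rw [e.apply_symm_apply]; exact sgn2_t
  have hzc' : ∀ s : (S : Subgroup G), s * z' = z' * s := by
    intro s
    apply e.injective
    rw [map_mul, map_mul, e.apply_symm_apply]
    exact t_central (e s)
  have hz2' : z' ^ 2 = 1 := by
    apply e.injective
    rw [map_pow, e.apply_symm_apply, map_one]; exact t_sq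
  have hN : ∀ g ∈ Subgroup.normalizer ((S : Subgroup G) : Set G),
      g * (z' : G) * g⁻¹ = (z' : G) := by
    intro g hg
    obtain ⟨n, hn, hgn⟩ := Cfsg.Agent.Helper48.exists_pow_mem_sylow_of_mem_normalizer S hg
    let g' : Subgroup.normalizer ((S : Subgroup G) : Set G) := ⟨g, hg⟩
    let β : MulAut D := MulAut.congr e ((S : Subgroup G).normalizerMonoidHom g')
    have hβn : (β ^ n) t = t := by
      have e1 : β ^ n = MulAut.congr e ((S : Subgroup G).normalizerMonoidHom (g' ^ n)) := by
        rw [map_pow, map_pow]
      rw [e1]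
      show e (((S : Subgroup G).normalizerMonoidHom (g' ^ n)) (e.symm t)) = t
      have e2 : ((S : Subgroup G).normalizerMonoidHom (g' ^ n)) z' = z' := by
        apply Subtype.ext
        show ((g' ^ n : Subgroup.normalizer ((S : Subgroup G) : Set G)) : G) * (z' : G) *
          ((g' ^ n : Subgroup.normalizer ((S : Subgroup G) : Set G)) : G)⁻¹ = z'
        have h1 := hzc' ⟨g ^ n, hgn⟩
        have h2 : g ^ n * (z' : G) = (z' : G) * g ^ n := congrArg Subtype.val h1
        have h3 : ((g' ^ n : Subgroup.normalizer ((S : Subgroup G) : Set G)) : G) = g ^ n := rfl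
        rw [h3, h2, mul_inv_cancel_right]
      rw [e2, e.apply_symm_apply]
    have hβ : β t = t := aut_fix_t β n hn hβn
    have e3 : ((S : Subgroup G).normalizerMonoidHom g') z' = z' := by
      apply e.injective
      rw [e.apply_symm_apply]
      exact hβ
    exact congrArg Subtype.val e3
  have hz2 : (z' : G) ^ 2 = 1 := by
    have := congrArg Subtype.val hz2'
    simpa using this
  have htr := Cfsg.Agent.Helper48.transfer_involution_eq_neg_one S ϕ (z' : G) z'.2
    (fun s hs => congrArg Subtype.val (hzc' ⟨s, hs⟩)) hz2 hϕ hN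
  exact ⟨_, Cfsg.Agent.Helper48.index_ker_eq_two_of_apply_eq_neg_one _ _ htr⟩

end Cfsg.Agent.S2911
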