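import Cfsg.Statements.S2912
import Cfsg.Agent.Helper48.ExtraPAct

set_option autoImplicit false
open Cfsg

namespace Cfsg.Agent.S2912

/-- Let p and r be distinct primes, let E be an extraspecial subgroup of order p^(2w+1) of a finite group, and let A be an elementary abelian r-subgroup normalized by E on which E acts faithfully (C_E(A) = 1). If n ≥ 1 is least with p dividing rⁿ − 1 (the smallest dimension of a faithful representation of a group of order p over the field with r elements), then the order of A is at least r^(n·p^w). -/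
theorem result {G : Type*} [Group G] [Finite G] {p r : ℕ} [Fact p.Prime] [hr : Fact r.Prime] (hpr : p ≠ r) (E A : Subgroup G) (w : ℕ) (hE : Cfsg.IsExtraspecial p ↥E) (hEcard : Nat.card ↥E = p ^ (2 * w + 1)) (hA : Cfsg.IsElementaryAbelian r A) (hnorm : E ≤ Subgroup.normalizer (A : Set G)) (hfaith : E ⊓ Subgroup.centralizer (A : Set G) = ⊥) (n : ℕ) (hn : 1 ≤ n) (hdiv : p ∣ r ^ n - 1) (hmin : ∀ k : ℕ, 1 ≤ k → p ∣ r ^ k - 1 → n ≤ k) : r ^ (n * p ^ w) ≤ Nat.card ↥A := by
  let _ : CommGroup ↥A :=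
    { (inferInstance : Group ↥A) with
      mul_comm := fun a b => hA.1.is_comm.comm a b }
  have hrA : ∀ a : ↥A, a ^ r = 1 := fun a => Subtype.ext (by simpa using hA.2 a a.2)
  obtain ⟨ρ, hρ⟩ : ∃ ρ : ↥E →* MulAut ↥A, ρ = (A.normalizerMonoidHom).comp (Subgroup.inclusion hnorm) :=
    ⟨_, rfl⟩
  have hρapp : ∀ (e : ↥E) (a : ↥A), ((ρ e a : ↥A) : G) = (e : G) * a * (e : G)⁻¹ := by
    intro e a
    rw [hρ]
    rfl
  refine Cfsg.Agent.Helper48.extraspecial_faithful_card_ge hpr hE w hEcard ρ ?_ hrA n hn hmin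
  intro z _ hz1 hρz
  apply hz1
  have h1 : (z : G) ∈ E ⊓ Subgroup.centralizer (A : Set G) := by
    refine Subgroup.mem_inf.mpr ⟨z.2, ?_⟩
    rw [Subgroup.mem_centralizer_iff]
    intro a ha
    have h2 := hρapp z ⟨a, ha⟩
    rw [hρz] at h2
    have h3 : a = (z : G) * a * (z : G)⁻¹ := h2
    calc a * (z : G) = ((z : G) * a * (z : G)⁻¹) * (z : G) := by rw [← h3]
      _ = (z : G) * a := by group
  rw [hfaith, Subgroup.mem_bot] at h1
  exact Subtype.ext h1

end Cfsg.Agent.S2912
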