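import Cfsg.Statements.S2922
import Cfsg.Agent.Helper48.CharPLocal

set_option autoImplicit false
open Cfsg

namespace Cfsg.Agent.S2922

/-- Let p be a prime, X a finite group, B a p-subgroup of X and C a normal subgroup of B. If N_X(C) has characteristic p (its generalized Fitting subgroup is O_p(N_X(C))), then N_X(B) and C_X(B) have characteristic p. -/
theorem result {X : Type*} [Group X] [Finite X] {p : ℕ} [Fact p.Prime] (B C : Subgroup X) (hB : IsPGroup p ↥B) (hCB : C ≤ B) (hCn : (C.subgroupOf B).Normal) (hC : Cfsg.generalizedFittingSubgroup ↥(Subgroup.normalizer (C : Set X)) = Cfsg.pCore p ↥(Subgroup.normalizer (C : Set X))) : Cfsg.generalizedFittingSubgroup ↥(Subgroup.normalizer (B : Set X)) = Cfsg.pCore p ↥(Subgroup.normalizer (B : Set X)) ∧ Cfsg.generalizedFittingSubgroup ↥(Subgroup.centralizer (B : Set X)) = Cfsg.pCore p ↥(Subgroup.centralizer (B : Set X)) := by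
  have hBN : B ≤ Subgroup.normalizer (C : Set X) := by
    intro b hb
    rw [Subgroup.mem_normalizer_iff]
    intro c
    constructor
    · intro hc
      have h1 := hCn.conj_mem ⟨c, hCB hc⟩ (Subgroup.mem_subgroupOf.mpr hc) ⟨b, hb⟩
      exact Subgroup.mem_subgroupOf.mp h1
    · intro hc
      have h1 := hCn.conj_mem ⟨b * c * b⁻¹, B.mul_mem (B.mul_mem hb (hCB (by
        have h2 := hCn.conj_mem ⟨b * c * b⁻¹, ?_⟩ (Subgroup.mem_subgroupOf.mpr hc) ⟨b⁻¹, B.inv_mem hb⟩
        · have h3 : b⁻¹ * (b * c * b⁻¹) * b⁻¹⁻¹ ∈ C := Subgroup.mem_subgroupOf.mp h2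
          have h4 : b⁻¹ * (b * c * b⁻¹) * b⁻¹⁻¹ = c := by group
          rw [h4] at h3; exact h3
        · exact hCB hc))) (B.inv_mem hb)⟩ (Subgroup.mem_subgroupOf.mpr hc) ⟨b⁻¹, B.inv_mem hb⟩
      have h3 : b⁻¹ * (b * c * b⁻¹) * b⁻¹⁻¹ ∈ C := Subgroup.mem_subgroupOf.mp h1
      have h4 : b⁻¹ * (b * c * b⁻¹) * b⁻¹⁻¹ = c := by group
      rw [h4] at h3; exact h3
  have hN := Cfsg.Agent.Helper48.generalizedFittingSubgroup_eq_pCore_iff.mp hC
  have hCB' := Cfsg.Agent.Helper48.coreProps_centralizer_of_normalizer hB hCB hBN hN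
  exact ⟨Cfsg.Agent.Helper48.generalizedFittingSubgroup_eq_pCore_iff.mpr
      (Cfsg.Agent.Helper34.core_props_normalizer_of_centralizer hB hCB'),
    Cfsg.Agent.Helper48.generalizedFittingSubgroup_eq_pCore_iff.mpr hCB'⟩

end Cfsg.Agent.S2922
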