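import Cfsg.Statements.S2925
import Cfsg.Agent.Helper22.Basic
import Cfsg.Agent.S0542

set_option autoImplicit false
open Cfsg

namespace Cfsg.Agent.S2925

/-- Let K be a component of the finite group X and T a Sylow 2-subgroup of X. If some abelian normal subgroup Y of T does not normalize K, then K ⧸ Z(K) has abelian Sylow 2-subgroups. -/
theorem result {X : Type*} [Group X] [Finite X] (K : Subgroup X) (hK : Cfsg.IsComponent K) (T : Sylow 2 X) (Y : Subgroup X) (hYT : Y ≤ (T : Subgroup X)) (hYn : (Y.subgroupOf (T : Subgroup X)).Normal) (hYab : IsMulCommutative ↥Y) (hnot : ¬ Y ≤ Subgroup.normalizer (K : Set X)) (P : Sylow 2 (↥K ⧸ Subgroup.center ↥K)) : IsMulCommutative ↥(P : Subgroup (↥K ⧸ Subgroup.center ↥K)) := by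
  obtain ⟨y, hyY, hyN⟩ := SetLike.not_le_iff_exists.mp hnot
  obtain ⟨K', hK'⟩ : ∃ K' : Subgroup X, K' = K.map (MulAut.conj y).toMonoidHom := ⟨_, rfl⟩
  have hK'c : Cfsg.IsComponent K' := by
    rw [hK']; exact Cfsg.Agent.Helper22.isComponent_conj hK y
  have hmemK' : ∀ k ∈ K, y * k * y⁻¹ ∈ K' := by
    intro k hk
    rw [hK']
    exact ⟨k, hk, rfl⟩
  have hne : K ≠ K' := by
    intro h
    apply hyN
    rw [Subgroup.mem_normalizer_iff]
    intro n
    constructor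
    · intro hn
      have := hmemK' n hn
      rw [← h] at this
      exact this
    · intro hn
      rw [h, hK'] at hn
      obtain ⟨k, hk, hkn⟩ := hn
      have h2 : y * k * y⁻¹ = y * n * y⁻¹ := hkn
      have h3 : k = n := mul_left_cancel (mul_right_cancel h2)
      rw [← h3]; exact hk
  have hcomm : ⁅K, K'⁆ = ⊥ := Cfsg.Agent.Helper22.components_commute hK hK'c hne
  have hcomm' : ∀ k ∈ K, ∀ k' ∈ K', k * k' = k' * k := by
    intro k hk k' hk'
    have h1 : K ≤ Subgroup.centralizer (K' : Set X) :=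
      Subgroup.commutator_eq_bot_iff_le_centralizer.mp hcomm
    exact ((Subgroup.mem_centralizer_iff.mp (h1 hk)) k' hk').symm
  have key : ∀ a b : X, a ∈ K → b ∈ K → a ∈ (T : Subgroup X) → b ∈ (T : Subgroup X) →
      ∀ k ∈ K, (a⁻¹ * b⁻¹ * a * b) * k = k * (a⁻¹ * b⁻¹ * a * b) := by
    intro a b haK hbK haT hbT
    have hconjY : ∀ t ∈ (T : Subgroup X), t * y * t⁻¹ * y⁻¹ ∈ Y := by
      intro t ht
      have h1 := hYn.conj_mem ⟨y, hYT hyY⟩ (Subgroup.mem_subgroupOf.mpr hyY) ⟨t, ht⟩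
      have h2 : t * y * t⁻¹ ∈ Y := Subgroup.mem_subgroupOf.mp h1
      exact Y.mul_mem h2 (Y.inv_mem hyY)
    have hu := hconjY a haT
    have hv := hconjY b hbT
    have huv : (a * y * a⁻¹ * y⁻¹) * (b * y * b⁻¹ * y⁻¹) =
        (b * y * b⁻¹ * y⁻¹) * (a * y * a⁻¹ * y⁻¹) := by
      have := hYab.is_comm.comm ⟨_, hu⟩ ⟨_, hv⟩
      exact congrArg Subtype.val this
    obtain ⟨a', ha', hau⟩ : ∃ a' ∈ K', a * y * a⁻¹ * y⁻¹ = a * a' :=
      ⟨y * a⁻¹ * y⁻¹, hmemK' _ (K.inv_mem haK), by group⟩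
    obtain ⟨b', hb', hbv⟩ : ∃ b' ∈ K', b * y * b⁻¹ * y⁻¹ = b * b' :=
      ⟨y * b⁻¹ * y⁻¹, hmemK' _ (K.inv_mem hbK), by group⟩
    rw [hau, hbv] at huv
    have h1 : b * a' = a' * b := hcomm' b hbK a' ha'
    have h2 : a * b' = b' * a := hcomm' a haK b' hb'
    have E : a * b * a' * b' = b * a * b' * a' := by
      calc a * b * a' * b' = a * (b * a') * b' := by group
        _ = a * (a' * b) * b' := by rw [h1]
        _ = a * a' * (b * b') := by group
        _ = b * b' * (a * a') := huv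
        _ = b * (b' * a) * a' := by group
        _ = b * (a * b') * a' := by rw [h2]
        _ = b * a * b' * a' := by group
    have hc : a⁻¹ * b⁻¹ * a * b = b' * a' * b'⁻¹ * a'⁻¹ := by
      calc a⁻¹ * b⁻¹ * a * b = (b * a)⁻¹ * (a * b * a' * b') * (a' * b')⁻¹ := by group
        _ = (b * a)⁻¹ * (b * a * b' * a') * (a' * b')⁻¹ := by rw [E]
        _ = b' * a' * b'⁻¹ * a'⁻¹ := by group
    have hcK' : a⁻¹ * b⁻¹ * a * b ∈ K' := by
      rw [hc]
      exact K'.mul_mem (K'.mul_mem (K'.mul_mem hb' ha') (K'.inv_mem hb')) (K'.inv_mem ha')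
    intro k hk
    exact (hcomm' k hk _ hcK').symm
  obtain ⟨Q, hQ⟩ := Cfsg.Agent.S0542.result 2 K hK.1 T
  obtain ⟨Q', hQ'⟩ := Sylow.mapSurjective_surjective
    (QuotientGroup.mk'_surjective (Subgroup.center ↥K)) 2 P
  obtain ⟨g, hg⟩ := MulAction.exists_smul_eq ↥K Q Q'
  have hQ'mem : ∀ x ∈ (Q' : Subgroup ↥K), g⁻¹ * x * g ∈ (Q : Subgroup ↥K) := by
    intro x hx
    rw [← hg, Sylow.coe_subgroup_smul, Subgroup.mem_pointwise_smul_iff_inv_smul_mem] at hx
    simpa [MulAut.smul_def] using hx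
  have hcent : ∀ a b : ↥K, a ∈ (Q' : Subgroup ↥K) → b ∈ (Q' : Subgroup ↥K) →
      a⁻¹ * b⁻¹ * a * b ∈ Subgroup.center ↥K := by
    intro a b ha hb
    have ha' := hQ'mem a ha
    have hb' := hQ'mem b hb
    rw [hQ, Subgroup.mem_subgroupOf] at ha' hb'
    have h0 : (g⁻¹ * a * g)⁻¹ * (g⁻¹ * b * g)⁻¹ * (g⁻¹ * a * g) * (g⁻¹ * b * g) ∈
        Subgroup.center ↥K := by
      rw [Subgroup.mem_center_iff]
      intro k
      apply Subtype.ext
      have := key _ _ (g⁻¹ * a * g).2 (g⁻¹ * b * g).2 ha' hb' k k.2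
      exact this.symm
    have h1 : a⁻¹ * b⁻¹ * a * b =
        g * ((g⁻¹ * a * g)⁻¹ * (g⁻¹ * b * g)⁻¹ * (g⁻¹ * a * g) * (g⁻¹ * b * g)) * g⁻¹ := by group
    rw [h1]
    exact (inferInstance : (Subgroup.center ↥K).Normal).conj_mem _ h0 g
  rw [isMulCommutative_iff]
  rintro ⟨x, hx⟩ ⟨z, hz⟩
  apply Subtype.ext
  rw [← hQ', Sylow.coe_mapSurjective] at hx hz
  obtain ⟨a, ha, rfl⟩ := hx
  obtain ⟨b, hb, rfl⟩ := hz
  show (QuotientGroup.mk a : ↥K ⧸ Subgroup.center ↥K) * QuotientGroup.mk b =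
    QuotientGroup.mk b * QuotientGroup.mk a
  rw [← QuotientGroup.mk_mul, ← QuotientGroup.mk_mul, QuotientGroup.eq]
  have h2 := hcent b a hb ha
  have h3 : (a * b)⁻¹ * (b * a) = b⁻¹ * a⁻¹ * b * a := by group
  rw [h3]; exact h2

end Cfsg.Agent.S2925
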