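import Cfsg.Statements.S2931
import Cfsg.Agent.S0822
import Cfsg.Agent.Helper57.Syl8Data
import Cfsg.Agent.Helper57.PermList
import Cfsg.Agent.Helper5.OrthMinus

set_option autoImplicit false
open Cfsg

namespace Cfsg.Agent.S2931

open Cfsg.Agent.Helper57 Cfsg.Agent.Helper5 Matrix

/-! ### Subsets of `Fin 8` -/

/-- the action of the permutations on the subsets -/
def tau (a : Equiv.Perm (Fin 8)) (B : Finset (Fin 8)) : Finset (Fin 8) := B.image a

theorem tau_one (B : Finset (Fin 8)) : tau 1 B = B := by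
  simp [tau]

theorem tau_mul (a a' : Equiv.Perm (Fin 8)) (B : Finset (Fin 8)) :
    tau (a * a') B = tau a (tau a' B) := by
  simp [tau, Finset.image_image]

/-! ### The symplectic group -/

/-- the symplectic group over the field with three elements -/
abbrev Sp3 : Type := Matrix.symplecticGroup (Fin 2) (ZMod 3)
/-- the vectors over the field with three elements -/
abbrev V3 : Type := Fin 2 ⊕ Fin 2 → ZMod 3

/-- the family of points -/
def fam1 (B : Finset (Fin 8)) : Set V3 := S0822.ptSet (s8Idx B)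

theorem rho_word (w : List (Fin 4)) (q : Fin 41) :
    S0822.rho (S0822.wSp w) (S0822.ptSet q) = S0822.ptSet (s8WPi w q) := by
  induction w with
  | nil => simp [S0822.wSp, s8WPi, S0822.rho_one]
  | cons i w ih =>
    have h1 : S0822.wSp (i :: w) = S0822.gen i * S0822.wSp w := by simp [S0822.wSp]
    rw [h1, S0822.rho_mul, ih, S0822.rho_gen]
    rfl

theorem image_s8A (j : Fin 4) (B : Finset (Fin 8)) : tau (s8A j) B = B.image (s8AT j) := by
  have h : (⇑(s8A j) : Fin 8 → Fin 8) = s8AT j := funext (s8_at j)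
  rw [tau, h]

theorem gen_fam1 (j : Fin 4) (B : Finset (Fin 8)) :
    S0822.rho (S0822.wSp (s8W j)) (fam1 B) = fam1 (tau (s8A j) B) := by
  rw [fam1, rho_word, s8_act, fam1, image_s8A]

theorem hA1 (a : Equiv.Perm (Fin 8)) (h : ∀ B, fam1 (tau a B) = fam1 B) : a = 1 := by
  have hidx : ∀ B, s8Idx (tau a B) = s8Idx B := fun B => S0822.ptSet_inj _ _ (h B)
  have hfix : ∀ B, s8Idx B ≠ 0 → tau a B = B := by
    intro B hB
    have h1 := s8_msk B hB
    have h2 := s8_msk (tau a B) (by rw [hidx]; exact hB)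
    rw [hidx, h1] at h2
    rw [← y8_set_mask (tau a B), ← h2, y8_set_mask]
  apply Equiv.ext
  intro i
  by_contra hne
  have hne' : i ≠ a i := fun h => hne (by rw [← h]; rfl)
  obtain ⟨B, hB, hi, hj⟩ := s8_sep i (a i) hne'
  have hmem : a i ∈ tau a B := Finset.mem_image_of_mem _ hi
  rw [hfix B hB] at hmem
  exact hj hmem

/-- the generators of the 2-subgroup -/
def gens1 : Set Sp3 := Set.range (fun j : Fin 4 => S0822.wSp (s8W j))

/-- the 2-subgroup -/
abbrev S1 : Subgroup Sp3 := Subgroup.closure gens1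

theorem exists_hom1 : ∃ θ : S1 →* Equiv.Perm (Fin 8), ∀ (h : S1) (a : Equiv.Perm (Fin 8)),
    θ h = a ↔ ∀ B, S0822.rho h.1 (fam1 B) = fam1 (tau a B) :=
  hom_of_equivariant_family S0822.rho S0822.rho_one S0822.rho_mul tau tau_one tau_mul fam1 hA1 gens1
    (by
      rintro m ⟨j, rfl⟩
      exact ⟨s8A j, gen_fam1 j⟩)

theorem scalar_of_frame (A : Matrix (Fin 2 ⊕ Fin 2) (Fin 2 ⊕ Fin 2) (ZMod 3))
    (h : ∀ u ∈ [u4V 1 0 0 0, u4V 0 1 0 0, u4V 0 0 1 0, u4V 0 0 0 1, u4V 1 1 0 0, u4V 0 1 1 0,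
      u4V 0 0 1 1], A *ᵥ u = u ∨ A *ᵥ u = -u) : A = 1 ∨ A = -1 := by
  have key : ∀ u ∈ [u4V 1 0 0 0, u4V 0 1 0 0, u4V 0 0 1 0, u4V 0 0 0 1, u4V 1 1 0 0, u4V 0 1 1 0,
      u4V 0 0 1 1], ∃ c : ZMod 3, (c = 1 ∨ c = -1) ∧ A *ᵥ u = c • u := by
    intro u hu
    rcases h u hu with h1 | h1
    · exact ⟨1, Or.inl rfl, by rw [h1, one_smul]⟩
    · exact ⟨-1, Or.inr rfl, by rw [h1, neg_smul, one_smul]⟩
  obtain ⟨c1, hc1, h1⟩ := key (u4V 1 0 0 0) (by simp)
  obtain ⟨c2, _, h2⟩ := key (u4V 0 1 0 0) (by simp)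
  obtain ⟨c3, _, h3⟩ := key (u4V 0 0 1 0) (by simp)
  obtain ⟨c4, _, h4⟩ := key (u4V 0 0 0 1) (by simp)
  obtain ⟨d12, _, h12⟩ := key (u4V 1 1 0 0) (by simp)
  obtain ⟨d23, _, h23⟩ := key (u4V 0 1 1 0) (by simp)
  obtain ⟨d34, _, h34⟩ := key (u4V 0 0 1 1) (by simp)
  have e12 : u4V 1 1 0 0 = u4V 1 0 0 0 + u4V 0 1 0 0 := by decide
  have e23 : u4V 0 1 1 0 = u4V 0 1 0 0 + u4V 0 0 1 0 := by decide
  have e34 : u4V 0 0 1 1 = u4V 0 0 1 0 + u4V 0 0 0 1 := by decide
  rw [e12, Matrix.mulVec_add, h1, h2] at h12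
  rw [e23, Matrix.mulVec_add, h2, h3] at h23
  rw [e34, Matrix.mulVec_add, h3, h4] at h34
  have a1 : c1 = d12 := by simpa [u4V] using congrFun h12 (Sum.inl 0)
  have a2 : c2 = d12 := by simpa [u4V] using congrFun h12 (Sum.inl 1)
  have a3 : c2 = d23 := by simpa [u4V] using congrFun h23 (Sum.inl 1)
  have a4 : c3 = d23 := by simpa [u4V] using congrFun h23 (Sum.inr 0)
  have a5 : c3 = d34 := by simpa [u4V] using congrFun h34 (Sum.inr 0)
  have a6 : c4 = d34 := by simpa [u4V] using congrFun h34 (Sum.inr 1)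
  have b2 : c2 = c1 := by rw [a2, a1]
  have b3 : c3 = c1 := by rw [a4, ← a3, b2]
  have b4 : c4 = c1 := by rw [a6, ← a5, b3]
  rw [b2] at h2
  rw [b3] at h3
  rw [b4] at h4
  have s1 : u4V 1 0 0 0 = Pi.single (Sum.inl 0) 1 := by decide
  have s2 : u4V 0 1 0 0 = Pi.single (Sum.inl 1) 1 := by decide
  have s3 : u4V 0 0 1 0 = Pi.single (Sum.inr 0) 1 := by decide
  have s4 : u4V 0 0 0 1 = Pi.single (Sum.inr 1) 1 := by decide
  rw [s1] at h1
  rw [s2] at h2
  rw [s3] at h3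
  rw [s4] at h4
  have hA : A = c1 • (1 : Matrix (Fin 2 ⊕ Fin 2) (Fin 2 ⊕ Fin 2) (ZMod 3)) := by
    ext i k
    have hk : A *ᵥ Pi.single k 1 = c1 • Pi.single k 1 := by
      rcases k with k | k <;> fin_cases k
      · exact h1
      · exact h2
      · exact h3
      · exact h4
    have := congrFun hk i
    rw [Matrix.mulVec_single_one] at this
    simpa [Matrix.one_apply, Pi.single_apply, eq_comm] using this
  rcases hc1 with hc | hc
  · left
    rw [hA, hc, one_smul]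
  · right
    rw [hA, hc, neg_smul, one_smul]

theorem ker1 (θ : S1 →* Equiv.Perm (Fin 8)) (hθ : ∀ (h : S1) (a : Equiv.Perm (Fin 8)),
    θ h = a ↔ ∀ B, S0822.rho h.1 (fam1 B) = fam1 (tau a B)) :
    θ.ker = (Subgroup.center Sp3).subgroupOf S1 := by
  ext h
  rw [MonoidHom.mem_ker, hθ, Subgroup.mem_subgroupOf, sp_mem_center_iff]
  constructor
  · intro hfix
    have hpm : ∀ B : Finset (Fin 8),
        (h.1 : Matrix (Fin 2 ⊕ Fin 2) (Fin 2 ⊕ Fin 2) (ZMod 3)) *ᵥ u4P (s8Idx B) = u4P (s8Idx B) ∨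
        (h.1 : Matrix (Fin 2 ⊕ Fin 2) (Fin 2 ⊕ Fin 2) (ZMod 3)) *ᵥ u4P (s8Idx B) = -u4P (s8Idx B) := by
      intro B
      have h1 := hfix B
      rw [tau_one] at h1
      have h2 : (h.1 : Matrix (Fin 2 ⊕ Fin 2) (Fin 2 ⊕ Fin 2) (ZMod 3)) *ᵥ u4P (s8Idx B) ∈
          S0822.rho h.1 (fam1 B) := Set.mem_image_of_mem _ (Set.mem_insert _ _)
      rw [h1] at h2
      exact h2
    obtain ⟨f1, f2, f3, f4, f5, f6, f7⟩ := s8_frame
    apply scalar_of_frame
    intro u hu
    simp only [List.mem_cons, List.not_mem_nil, or_false] at hu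
    rcases hu with rfl | rfl | rfl | rfl | rfl | rfl | rfl
    · rw [← f1]; exact hpm _
    · rw [← f2]; exact hpm _
    · rw [← f3]; exact hpm _
    · rw [← f4]; exact hpm _
    · rw [← f5]; exact hpm _
    · rw [← f6]; exact hpm _
    · rw [← f7]; exact hpm _
  · intro hz B
    rw [tau_one]
    rcases hz with h1 | h1
    · rw [S0822.rho, h1]
      simp
    · rw [S0822.rho, h1, fam1, S0822.ptSet]
      simp [Set.image_pair, Matrix.neg_mulVec, Set.pair_comm]

theorem range1 (θ : S1 →* Equiv.Perm (Fin 8)) (hθ : ∀ (h : S1) (a : Equiv.Perm (Fin 8)),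
    θ h = a ↔ ∀ B, S0822.rho h.1 (fam1 B) = fam1 (tau a B)) :
    θ.range = Subgroup.closure (Set.range s8A) := by
  rw [MonoidHom.range_eq_map, ← Subgroup.closure_closure_coe_preimage (k := gens1),
    MonoidHom.map_closure]
  congr 1
  ext a
  constructor
  · rintro ⟨⟨m, hm⟩, ⟨j, hj⟩, rfl⟩
    refine ⟨j, ((hθ _ _).2 ?_).symm⟩
    intro B
    have hj' : S0822.wSp (s8W j) = m := hj
    show S0822.rho m (fam1 B) = _
    rw [← hj']
    exact gen_fam1 j B
  · rintro ⟨j, rfl⟩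
    exact ⟨⟨_, Subgroup.subset_closure ⟨j, rfl⟩⟩, ⟨j, rfl⟩, (hθ _ _).2 (gen_fam1 j)⟩

/-- the 2-subgroup of the alternating group -/
abbrev P1 : Subgroup (Equiv.Perm (Fin 8)) := Subgroup.closure (Set.range s8A)

theorem card_P1 : Nat.card P1 = 64 :=
  pl_card_closure s8A s8L 0 s8_one s8Nxt (fun i j x => by rw [s8_at]; exact s8_nxt i j x) s8Par s8Let
    s8_par s8_inj

theorem P1_le : P1 ≤ alternatingGroup (Fin 8) := by
  rw [Subgroup.closure_le]
  rintro _ ⟨j, rfl⟩
  rw [SetLike.mem_coe, Equiv.Perm.mem_alternatingGroup]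
  fin_cases j <;> simp [s8A, Equiv.Perm.sign_mul, Equiv.Perm.sign_swap']

theorem part1 (F : Type) [Field F] [Fintype F] (hF : Fintype.card F = 3)
    (P : Sylow 2 ↥(alternatingGroup (Fin 8))) (Q : Sylow 2 (Cfsg.PSp 2 F)) :
    Nonempty (↥(P : Subgroup ↥(alternatingGroup (Fin 8))) ≃* ↥(Q : Subgroup (Cfsg.PSp 2 F))) := by
  obtain ⟨θ, hθ⟩ := exists_hom1
  have hker := ker1 θ hθ
  have hrange := range1 θ hθ
  let ψ : S1 →* Cfsg.PSp 2 (ZMod 3) := (QuotientGroup.mk' (Subgroup.center Sp3)).comp S1.subtype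
  have hψker : ψ.ker = θ.ker := by
    rw [hker]
    ext h
    rw [MonoidHom.mem_ker, Subgroup.mem_subgroupOf]
    exact QuotientGroup.eq_one_iff _
  have e1 : P1 ≃* ψ.range :=
    ((MulEquiv.subgroupCongr hrange.symm).trans (QuotientGroup.quotientKerEquivRange θ).symm).trans
      ((QuotientGroup.quotientMulEquivOfEq hψker.symm).trans (QuotientGroup.quotientKerEquivRange ψ))
  have : Fact (Nat.Prime 3) := ⟨Nat.prime_three⟩
  have eK : ZMod 3 ≃+* F := ZMod.ringEquivOfPrime F Nat.prime_three hF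
  let f2 : P1 →* Cfsg.PSp 2 F :=
    ((pspCongr 2 eK).toMonoidHom.comp ψ.range.subtype).comp e1.toMonoidHom
  have hf2 : Function.Injective f2 :=
    ((pspCongr 2 eK).injective.comp Subtype.val_injective).comp e1.injective
  let f1 : P1 →* alternatingGroup (Fin 8) := Subgroup.inclusion P1_le
  have hf1 : Function.Injective f1 := Subgroup.inclusion_injective P1_le
  have hcA : Nat.card (alternatingGroup (Fin 8)) = 20160 := by
    rw [nat_card_alternatingGroup, Nat.card_eq_fintype_card, Fintype.card_fin]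
    decide
  have hcP : Nat.card (Cfsg.PSp 2 F) = 25920 := by
    rw [← Nat.card_congr (pspCongr 2 eK).toEquiv, S0822.card_psp]
  have : Finite (Cfsg.PSp 2 F) := Nat.finite_of_card_ne_zero (by rw [hcP]; norm_num)
  obtain ⟨eP⟩ := pl_sylow_two_equiv f1 hf1 6 (by rw [card_P1]; norm_num) (by rw [hcA]; norm_num) P
  obtain ⟨eQ⟩ := pl_sylow_two_equiv f2 hf2 6 (by rw [card_P1]; norm_num) (by rw [hcP]; norm_num) Q
  exact ⟨eP.symm.trans eQ⟩

/-! ### The orthogonal group -/

/-- the index set of the coordinates -/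
abbrev I6 : Type := (Fin 2 ⊕ Fin 2) ⊕ Fin 2
/-- the general linear group over the field with two elements -/
abbrev GL2 : Type := Matrix.GeneralLinearGroup I6 (ZMod 2)
/-- the vectors over the field with two elements -/
abbrev V2 : Type := I6 → ZMod 2

/-- the action on the vectors -/
def rho2 (m : GL2) (x : V2) : V2 := (m : Matrix I6 I6 (ZMod 2)) *ᵥ x

theorem rho2_one (x : V2) : rho2 1 x = x := by
  simp [rho2]

theorem rho2_mul (m m' : GL2) (x : V2) : rho2 (m * m') x = rho2 m (rho2 m' x) := by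
  simp [rho2, Matrix.mulVec_mulVec]

theorem t8_mat_vec (j : Fin 5) (c : Fin 64) : t8Mat j *ᵥ t8Vec c.val = t8Vec (t8Tbl j c).val := by
  funext i
  rw [t8_mulVec_apply]
  exact t8_mulVec j c i

theorem t8_vec_surj (x : V2) : ∃ c : Fin 64, t8Vec c.val = x := by
  have hinj : Function.Injective (fun c : Fin 64 => t8Vec c.val) := fun c c' h => t8_vec_inj c c' h
  have hbij : Function.Bijective (fun c : Fin 64 => t8Vec c.val) :=
    (Fintype.bijective_iff_injective_and_card _).2 ⟨hinj, by simp [ZMod.card]⟩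
  exact hbij.2 x

theorem t8_mat_sq (j : Fin 5) : t8Mat j * t8Mat j = 1 := by
  apply Matrix.mulVec_injective
  funext x
  obtain ⟨c, rfl⟩ := t8_vec_surj x
  rw [← Matrix.mulVec_mulVec, t8_mat_vec, t8_mat_vec, t8_sq, Matrix.one_mulVec]

/-- the five involutions -/
def gm (j : Fin 5) : GL2 := ⟨t8Mat j, t8Mat j, t8_mat_sq j, t8_mat_sq j⟩

/-- the generators of the 2-subgroup -/
def gens2 : Set GL2 := Set.range gm

/-- the 2-subgroup -/
abbrev S2 : Subgroup GL2 := Subgroup.closure gens2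

/-- the family of vectors -/
def fam2 (B : Finset (Fin 8)) : V2 := t8Vec (t8Idx B).val

theorem image_t8A (j : Fin 5) (B : Finset (Fin 8)) : tau (t8A j) B = B.image (t8AT j) := by
  have h : (⇑(t8A j) : Fin 8 → Fin 8) = t8AT j := funext (t8_at j)
  rw [tau, h]

theorem gen_fam2 (j : Fin 5) (B : Finset (Fin 8)) :
    rho2 (gm j) (fam2 B) = fam2 (tau (t8A j) B) := by
  rw [fam2, fam2, image_t8A, ← t8_act]
  exact t8_mat_vec j _

theorem hA2 (a : Equiv.Perm (Fin 8)) (h : ∀ B, fam2 (tau a B) = fam2 B) : a = 1 := by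
  apply Equiv.ext
  intro i
  have h1 := h {i}
  rw [tau, Finset.image_singleton] at h1
  exact t8_single i (a i) (t8_vec_inj _ _ h1)

theorem exists_hom2 : ∃ θ : S2 →* Equiv.Perm (Fin 8), ∀ (h : S2) (a : Equiv.Perm (Fin 8)),
    θ h = a ↔ ∀ B, rho2 h.1 (fam2 B) = fam2 (tau a B) :=
  hom_of_equivariant_family rho2 rho2_one rho2_mul tau tau_one tau_mul fam2 hA2 gens2
    (by
      rintro m ⟨j, rfl⟩
      exact ⟨t8A j, gen_fam2 j⟩)

theorem inj2 (θ : S2 →* Equiv.Perm (Fin 8)) (hθ : ∀ (h : S2) (a : Equiv.Perm (Fin 8)),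
    θ h = a ↔ ∀ B, rho2 h.1 (fam2 B) = fam2 (tau a B)) : Function.Injective θ := by
  rw [injective_iff_map_eq_one]
  intro h hh
  rw [hθ] at hh
  have hfix : ∀ B : Finset (Fin 8),
      ((h.1 : GL2) : Matrix I6 I6 (ZMod 2)) *ᵥ t8Vec (t8Idx B).val = t8Vec (t8Idx B).val := by
    intro B
    have h1 := hh B
    rw [tau_one] at h1
    exact h1
  obtain ⟨b0, b1, b2, b3, b4, b5⟩ := t8_basis
  have hb : ∀ k : I6, ((h.1 : GL2) : Matrix I6 I6 (ZMod 2)) *ᵥ Pi.single k 1 = Pi.single k 1 := by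
    intro k
    rcases k with (k | k) | k <;> fin_cases k
    · show _ *ᵥ Pi.single (Sum.inl (Sum.inl 0)) 1 = Pi.single (Sum.inl (Sum.inl 0)) 1
      rw [b0, Matrix.mulVec_add, hfix, hfix]
    · show _ *ᵥ Pi.single (Sum.inl (Sum.inl 1)) 1 = Pi.single (Sum.inl (Sum.inl 1)) 1
      rw [b1, hfix]
    · show _ *ᵥ Pi.single (Sum.inl (Sum.inr 0)) 1 = Pi.single (Sum.inl (Sum.inr 0)) 1
      rw [b2, hfix]
    · show _ *ᵥ Pi.single (Sum.inl (Sum.inr 1)) 1 = Pi.single (Sum.inl (Sum.inr 1)) 1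
      rw [b3, hfix]
    · show _ *ᵥ Pi.single (Sum.inr 0) 1 = Pi.single (Sum.inr 0) 1
      rw [b4, Matrix.mulVec_add, hfix, hfix]
    · show _ *ᵥ Pi.single (Sum.inr 1) 1 = Pi.single (Sum.inr 1) 1
      rw [b5, Matrix.mulVec_add, hfix, hfix]
  apply Subtype.ext
  apply Units.ext
  show ((h.1 : GL2) : Matrix I6 I6 (ZMod 2)) = 1
  ext i k
  have := congrFun (hb k) i
  rw [Matrix.mulVec_single_one] at this
  simpa [Matrix.one_apply, Pi.single_apply, eq_comm] using this

theorem range2 (θ : S2 →* Equiv.Perm (Fin 8)) (hθ : ∀ (h : S2) (a : Equiv.Perm (Fin 8)),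
    θ h = a ↔ ∀ B, rho2 h.1 (fam2 B) = fam2 (tau a B)) :
    θ.range = Subgroup.closure (Set.range t8A) := by
  rw [MonoidHom.range_eq_map, ← Subgroup.closure_closure_coe_preimage (k := gens2),
    MonoidHom.map_closure]
  congr 1
  ext a
  constructor
  · rintro ⟨⟨m, hm⟩, ⟨j, hj⟩, rfl⟩
    refine ⟨j, ((hθ _ _).2 ?_).symm⟩
    intro B
    have hj' : gm j = m := hj
    show rho2 m (fam2 B) = _
    rw [← hj']
    exact gen_fam2 j B
  · rintro ⟨j, rfl⟩
    exact ⟨⟨_, Subgroup.subset_closure ⟨j, rfl⟩⟩, ⟨j, rfl⟩, (hθ _ _).2 (gen_fam2 j)⟩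

/-- the 2-subgroup of the symmetric group -/
abbrev P2 : Subgroup (Equiv.Perm (Fin 8)) := Subgroup.closure (Set.range t8A)

theorem card_P2 : Nat.card P2 = 128 :=
  pl_card_closure t8A t8L 0 t8_one t8Nxt (fun i j x => by rw [t8_at]; exact t8_nxt i j x) t8Par t8Let
    t8_par t8_inj

section field
variable (K : Type) [Field K] [Fintype K] (hK : Fintype.card K = 2)

include hK in
theorem two_cases (x : K) : x = 0 ∨ x = 1 := by
  classical
  by_contra hne
  rw [not_or] at hne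
  have h3 : ({0, 1, x} : Finset K).card = 3 := by
    rw [Finset.card_insert_of_notMem, Finset.card_insert_of_notMem, Finset.card_singleton]
    · simpa using Ne.symm hne.2
    · simp only [Finset.mem_insert, Finset.mem_singleton, not_or]
      exact ⟨zero_ne_one, Ne.symm hne.1⟩
  have := Finset.card_le_univ ({0, 1, x} : Finset K)
  omega

omit [Fintype K] in
theorem quad_map (φ : ZMod 2 →+* K) (w : V2) :
    Cfsg.quadFormMinus 2 K 1 1 (fun i => φ (w i)) = φ (Cfsg.quadFormMinus 2 (ZMod 2) 1 1 w) := by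
  simp only [Cfsg.quadFormMinus, map_add, map_mul, map_pow, map_sum, map_one]

omit [Fintype K] in
theorem mem_iso (φ : ZMod 2 ≃+* K) (m : GL2) (hm : m ∈ S2) :
    Matrix.GeneralLinearGroup.map (φ : ZMod 2 →+* K) m ∈
      Cfsg.isometryGroup K (Cfsg.quadFormMinus 2 K 1 1) := by
  have hle : S2 ≤ (Cfsg.isometryGroup K (Cfsg.quadFormMinus 2 K 1 1)).comap
      (Matrix.GeneralLinearGroup.map (φ : ZMod 2 →+* K)) := by
    rw [Subgroup.closure_le]
    rintro _ ⟨j, rfl⟩
    rw [SetLike.mem_coe, Subgroup.mem_comap, mem_isometryGroup_iff]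
    intro u
    obtain ⟨c, hc⟩ := t8_vec_surj (fun i => φ.symm (u i))
    have hu : u = fun i => (φ : ZMod 2 →+* K) (t8Vec c.val i) := by
      funext i
      rw [hc]
      simp
    have hmv : ((Matrix.GeneralLinearGroup.map (φ : ZMod 2 →+* K) (gm j) : GL I6 K) :
        Matrix I6 I6 K) *ᵥ u = fun i => (φ : ZMod 2 →+* K) (t8Vec (t8Tbl j c).val i) := by
      funext i
      rw [hu, ← t8_mat_vec]
      exact (RingHom.map_mulVec (φ : ZMod 2 →+* K) (t8Mat j) (t8Vec c.val) i).symm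
    rw [hmv, hu, quad_map, quad_map, t8_quad_apply, t8_quad_apply]
    exact congrArg _ (t8_quad j c)
  exact hle hm

end field

theorem part2 (K : Type) [Field K] [Fintype K] (hK : Fintype.card K = 2) (a b : K)
    (hab : ∀ z₁ z₂ : K, z₁ ^ 2 + a * z₁ * z₂ + b * z₂ ^ 2 = 0 → z₁ = 0 ∧ z₂ = 0)
    (P' : Sylow 2 (Equiv.Perm (Fin 8)))
    (Q' : Sylow 2 ↥(Cfsg.isometryGroup K (Cfsg.quadFormMinus 2 K a b))) :
    Nonempty (↥(P' : Subgroup (Equiv.Perm (Fin 8))) ≃*
      ↥(Q' : Subgroup ↥(Cfsg.isometryGroup K (Cfsg.quadFormMinus 2 K a b)))) := by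
  obtain ⟨θ, hθ⟩ := exists_hom2
  have hinj := inj2 θ hθ
  have hrange := range2 θ hθ
  have : Fact (Nat.Prime 2) := ⟨Nat.prime_two⟩
  have φ : ZMod 2 ≃+* K := ZMod.ringEquivOfPrime K Nat.prime_two hK
  have h2 : (1 : K) + 1 = 0 := by
    rcases two_cases K hK (1 + 1) with h | h
    · exact h
    · exact absurd (by simp at h) (one_ne_zero (α := K))
  have hb : b = 1 := by
    rcases two_cases K hK b with h | h
    · exact absurd (hab 0 1 (by rw [h]; ring)).2 one_ne_zero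
    · exact h
  have ha : a = 1 := by
    rcases two_cases K hK a with h | h
    · exact absurd (hab 1 1 (by rw [h, hb]; linear_combination h2)).1 one_ne_zero
    · exact h
  subst ha hb
  let g0 : S2 →* ↥(Cfsg.isometryGroup K (Cfsg.quadFormMinus 2 K 1 1)) :=
    ((Matrix.GeneralLinearGroup.map (φ : ZMod 2 →+* K)).comp S2.subtype).codRestrict _
      (fun m => mem_iso K φ m.1 m.2)
  have hg0 : Function.Injective g0 := by
    intro m m' h
    have h1 : Matrix.GeneralLinearGroup.map (φ : ZMod 2 →+* K) m.1 =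
        Matrix.GeneralLinearGroup.map (φ : ZMod 2 →+* K) m'.1 := congrArg Subtype.val h
    apply Subtype.ext
    apply Units.ext
    ext i k
    have h2 := congrArg (fun g : GL I6 K => g i k) h1
    simp only [Matrix.GeneralLinearGroup.map_apply] at h2
    exact φ.injective h2
  have e2 : P2 ≃* S2 := (MulEquiv.subgroupCongr hrange.symm).trans (MonoidHom.ofInjective hinj).symm
  let f2 : P2 →* ↥(Cfsg.isometryGroup K (Cfsg.quadFormMinus 2 K 1 1)) := g0.comp e2.toMonoidHom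
  have hf2 : Function.Injective f2 := hg0.comp e2.injective
  have hcO : Nat.card ↥(Cfsg.isometryGroup K (Cfsg.quadFormMinus 2 K 1 1)) = 51840 := by
    have h := card_GO_minus (F := K) 1 1 hab 3 (by norm_num)
    rw [hK] at h
    rw [show (3 - 1 : ℕ) = 2 from rfl] at h
    rw [h]
    decide
  have hcS : Nat.card (Equiv.Perm (Fin 8)) = 40320 := by
    rw [Nat.card_eq_fintype_card, Fintype.card_perm, Fintype.card_fin]
    decide
  obtain ⟨eP⟩ := pl_sylow_two_equiv P2.subtype Subtype.val_injective 7 (by rw [card_P2]; norm_num)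
    (by rw [hcS]; norm_num) P'
  obtain ⟨eQ⟩ := pl_sylow_two_equiv f2 hf2 7 (by rw [card_P2]; norm_num) (by rw [hcO]; norm_num) Q'
  exact ⟨eP.symm.trans eQ⟩

/-- The Sylow 2-subgroups of the alternating group of degree 8 and of PSp₄(3) are isomorphic, and so are the Sylow 2-subgroups of the symmetric group of degree 8 and of the full isometry group of a non-degenerate quadratic form of minus type in dimension 6 over the field with 2 elements. -/
theorem result (F : Type) [Field F] [Fintype F] (hF : Fintype.card F = 3) (K : Type) [Field K] [Fintype K] (hK : Fintype.card K = 2) (a b : K) (hab : ∀ z₁ z₂ : K, z₁ ^ 2 + a * z₁ * z₂ + b * z₂ ^ 2 = 0 → z₁ = 0 ∧ z₂ = 0) (P : Sylow 2 ↥(alternatingGroup (Fin 8))) (Q : Sylow 2 (Cfsg.PSp 2 F)) (P' : Sylow 2 (Equiv.Perm (Fin 8))) (Q' : Sylow 2 ↥(Cfsg.isometryGroup K (Cfsg.quadFormMinus 2 K a b))) : Nonempty (↥(P : Subgroup ↥(alternatingGroup (Fin 8))) ≃* ↥(Q : Subgroup (Cfsg.PSp 2 F))) ∧ Nonempty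 (↥(P' : Subgroup (Equiv.Perm (Fin 8))) ≃* ↥(Q' : Subgroup ↥(Cfsg.isometryGroup K (Cfsg.quadFormMinus 2 K a b)))) :=
  ⟨part1 F hF P Q, part2 K hK a b hab P' Q'⟩

end Cfsg.Agent.S2931
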