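import Cfsg.Statements.S2939
import Cfsg.Agent.Helper49.SylowControl

set_option autoImplicit false
open Cfsg

namespace Cfsg.Agent.S2939

open Cfsg.Agent.Helper49

theorem controls_of_strong {G : Type*} [Group G] [Finite G] {p : ℕ} [Fact p.Prime]
    (𝓕 : Set (Subgroup G)) (h𝓕 : IsNormalSet 𝓕) (h : FamilyStronglyControlsFusion p 𝓕) :
    ControlsSylowIntersections p 𝓕 := by
  intro S T hne hint
  obtain ⟨g, hg⟩ := MulAction.exists_smul_eq G S T
  have hT : (T : Subgroup G) = subgroupConjRight g⁻¹ (S : Subgroup G) := by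
    rw [← hg, coe_smul_sylow]
  set A : Set G := (((S : Subgroup G) ⊓ (T : Subgroup G) : Subgroup G) : Set G) with hA
  have hAS : A ⊆ (S : Set G) := fun a ha => ha.1
  have hA1 : ∃ a ∈ A, a ≠ 1 := by
    by_contra hcon
    push Not at hcon
    apply hint
    rw [eq_bot_iff]
    intro a ha
    exact Subgroup.mem_bot.mpr (hcon a ha)
  have hAg : conjRight g A ⊆ (S : Set G) := by
    intro b hb
    rw [mem_conjRight] at hb
    have hb2 : g * b * g⁻¹ ∈ (T : Subgroup G) := hb.2
    rw [hT, mem_scr] at hb2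
    have : g⁻¹ * (g * b * g⁻¹) * g⁻¹⁻¹ = b := by group
    rw [this] at hb2; exact hb2
  obtain ⟨n, Y, y, y₀, hy₀, hY, hgprod, hAY⟩ := h S A g hAS hA1 hAg
  let w : ℕ → G := fun j => ((List.ofFn y).take j).prod
  have hw0 : w 0 = 1 := by simp [w]
  have hwsucc : ∀ i : Fin n, w (i.val + 1) = w i.val * y i := fun i => prod_take_ofFn_succ y i
  have hwn : w n = (List.ofFn y).prod := prod_take_ofFn_all y
  refine ⟨n, fun j => w j.val • S, fun i => subgroupConjRight (w (i.val + 1))⁻¹ (Y i),
    fun i => w (i.val + 1) * (w i.val)⁻¹, ?_, ?_, ?_⟩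
  · show w 0 • S = S
    rw [hw0, one_smul]
  · show w (Fin.last n).val • S = T
    rw [Fin.val_last, hwn]
    have e1 : (List.ofFn y).prod = g * y₀⁻¹ := by rw [hgprod]; group
    rw [e1, mul_smul]
    have e2 : y₀⁻¹ • S = S := by
      rw [Sylow.smul_eq_iff_mem_normalizer]; exact Subgroup.inv_mem _ hy₀
    rw [e2, hg]
  · intro i
    have hXeq : subgroupConjRight (w (i.val + 1))⁻¹ (Y i) = subgroupConjRight (w i.val)⁻¹ (Y i) := by
      rw [hwsucc i, mul_inv_rev, scr_mul, scr_eq_self_of_mem ((Y i).inv_mem (hY i).2)]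
    refine ⟨?_, ?_, ?_, ?_, ?_⟩
    · show subgroupConjRight (w (i.val + 1))⁻¹ (Y i) ∈
          sylowMembers p 𝓕 ((w i.castSucc.val • S : Sylow p G) : Subgroup G)
      rw [coe_smul_sylow, hXeq, Fin.val_castSucc]
      exact sylowMembers_scr h𝓕 _ (hY i).1
    · show subgroupConjRight (w (i.val + 1))⁻¹ (Y i) ∈
          sylowMembers p 𝓕 ((w i.succ.val • S : Sylow p G) : Subgroup G)
      rw [coe_smul_sylow, Fin.val_succ]
      exact sylowMembers_scr h𝓕 _ (hY i).1
    · show w (i.val + 1) * (w i.val)⁻¹ ∈ subgroupConjRight (w (i.val + 1))⁻¹ (Y i)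
      rw [hXeq, mem_scr, hwsucc i]
      have e : (w i.val)⁻¹ * (w i.val * y i * (w i.val)⁻¹) * (w i.val)⁻¹⁻¹ = y i := by group
      rw [e]; exact (hY i).2
    · show subgroupConjRight (w (i.val + 1) * (w i.val)⁻¹)
          ((w i.succ.val • S : Sylow p G) : Subgroup G) =
          ((w i.castSucc.val • S : Sylow p G) : Subgroup G)
      rw [coe_smul_sylow, coe_smul_sylow, ← scr_mul, Fin.val_succ, Fin.val_castSucc]
      congr 1
      group
    · show (S : Subgroup G) ⊓ (T : Subgroup G) ≤
          ((w i.succ.val • S : Sylow p G) : Subgroup G) ⊓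
            subgroupConjRight (w (i.val + 1))⁻¹ (Y i)
      rw [coe_smul_sylow, Fin.val_succ, ← scr_inf]
      intro a ha
      rw [mem_scr]
      exact hAY i (show (w (i.val + 1))⁻¹ * a * (w (i.val + 1))⁻¹⁻¹ ∈ conjRight (w (i.val + 1)) A
        from ⟨a, ha, by simp⟩)

theorem strong_of_controls {G : Type*} [Group G] [Finite G] {p : ℕ} [Fact p.Prime]
    (𝓕 : Set (Subgroup G)) (h𝓕 : IsNormalSet 𝓕) (h : ControlsSylowIntersections p 𝓕) :
    FamilyStronglyControlsFusion p 𝓕 := by
  intro S A g hAS hA1 hAg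
  by_cases hgS : g ∈ Subgroup.normalizer ((S : Subgroup G) : Set G)
  · exact ⟨0, Fin.elim0, Fin.elim0, g, hgS, fun i => i.elim0, by simp, fun i => i.elim0⟩
  · set T : Sylow p G := g • S with hT
    have hTc : (T : Subgroup G) = subgroupConjRight g⁻¹ (S : Subgroup G) := coe_smul_sylow g S
    have hne : S ≠ T := by
      intro heq
      apply hgS
      have e : g • S = S := heq.symm
      exact Sylow.smul_eq_iff_mem_normalizer.mp e
    have hAT : ∀ a ∈ A, a ∈ (T : Subgroup G) := by
      intro a ha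
      rw [hTc, mem_scr]
      have h0 : g⁻¹ * a * g ∈ (S : Subgroup G) :=
        hAg (show g⁻¹ * a * g ∈ conjRight g A from ⟨a, ha, rfl⟩)
      rw [inv_inv]; exact h0
    have hint : (S : Subgroup G) ⊓ (T : Subgroup G) ≠ ⊥ := by
      obtain ⟨a, ha, ha1⟩ := hA1
      intro hbot
      have hmem : a ∈ (S : Subgroup G) ⊓ (T : Subgroup G) := ⟨hAS ha, hAT a ha⟩
      rw [hbot] at hmem
      exact ha1 (Subgroup.mem_bot.mp hmem)
    obtain ⟨n, c, X, x, hc0, hcn, hstep⟩ := h S T hne hint
    have hcv : ∀ j : Fin (n + 1),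
        ((c j : Sylow p G) : Subgroup G) = subgroupConjRight (revProd x j.val)⁻¹ (S : Subgroup G) := by
      intro j
      induction j using Fin.induction with
      | zero => rw [hc0]; simp [revProd_zero, scr_one]
      | succ i ih =>
        have h1 := (hstep i).2.2.2.1
        rw [Fin.val_succ, revProd_succ x i, mul_inv_rev, scr_mul, ← Fin.val_castSucc i, ← ih, ← h1,
          scr_inv_scr]
    let y : Fin n → G := fun i => (revProd x i.val)⁻¹ * revProd x (i.val + 1)
    have hprod := prod_take_ofFn_telescope (revProd x) y (revProd_zero x) (fun i => rfl)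
    refine ⟨n, fun i => subgroupConjRight (revProd x (i.val + 1)) (X i), y, (revProd x n)⁻¹ * g,
      ?_, ?_, ?_, ?_⟩
    · apply mem_normalizer_of_scr_eq
      rw [scr_mul]
      have e := hcv (Fin.last n)
      rw [Fin.val_last, hcn, hTc] at e
      rw [← e, scr_scr_inv]
    · intro i
      constructor
      · have h2 := (hstep i).2.1
        rw [hcv i.succ, Fin.val_succ] at h2
        have h3 := sylowMembers_scr h𝓕 (revProd x (i.val + 1)) h2
        rwa [scr_scr_inv] at h3
      · show (revProd x i.val)⁻¹ * revProd x (i.val + 1) ∈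
          subgroupConjRight (revProd x (i.val + 1)) (X i)
        rw [mem_scr, revProd_succ x i]
        have e : x i * revProd x i.val * ((revProd x i.val)⁻¹ * (x i * revProd x i.val)) *
            (x i * revProd x i.val)⁻¹ = x i := by group
        rw [e]; exact (hstep i).2.2.1
    · rw [← prod_take_ofFn_all, hprod n le_rfl]; group
    · intro i
      rw [hprod (i.val + 1) (by omega)]
      intro b hb
      rw [mem_conjRight] at hb
      have h5 := (hstep i).2.2.2.2
        (show revProd x (i.val + 1) * b * (revProd x (i.val + 1))⁻¹ ∈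
          (S : Subgroup G) ⊓ (T : Subgroup G) from ⟨hAS hb, hAT _ hb⟩)
      rw [hcv i.succ, Fin.val_succ] at h5
      constructor
      · have h6 : revProd x (i.val + 1) * b * (revProd x (i.val + 1))⁻¹ ∈
            subgroupConjRight (revProd x (i.val + 1))⁻¹ (S : Subgroup G) := h5.1
        rw [mem_scr] at h6
        have e : (revProd x (i.val + 1))⁻¹ *
            (revProd x (i.val + 1) * b * (revProd x (i.val + 1))⁻¹) *
            (revProd x (i.val + 1))⁻¹⁻¹ = b := by group
        rw [e] at h6; exact h6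
      · show b ∈ subgroupConjRight (revProd x (i.val + 1)) (X i)
        rw [mem_scr]; exact h5.2

/-- Let p be a prime dividing the order of the finite group G and 𝓕 a family of subgroups of G closed under conjugation, with conjugates taken as X^g = g⁻¹Xg. Then 𝓕 controls Sylow p-intersections in G (any two distinct Sylow p-subgroups S and T with S ∩ T ≠ 1 are joined by a chain S = S₀, S₁, …, Sₙ = T of Sylow p-subgroups where, for each i, some member Xᵢ of 𝓕 meets both S_{i-1} and Sᵢ in Sylow p-subgroups of Xᵢ, satisfies S ∩ T ≤ Sᵢ ∩ Xᵢ, and contains an element xᵢ with Sᵢ^{xᵢ} = S_{i-1}) if and only if 𝓕 strongly controls p-fusion in G (whenever A is a subset of a Sylow p-subgroup S, A contains an element other than 1, and A^g ⊆ S, the element g factorises as g = y₁⋯yₙy with y ∈ N_G(S) and each yᵢ in a member Yᵢ of 𝓕 that meets S in a Sylow p-subgroup of Yᵢ, with A^{y₁⋯yᵢ} ⊆ S ∩ Yᵢ for each i). -/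
theorem result {G : Type*} [Group G] [Finite G] {p : ℕ} [Fact p.Prime] (hdiv : p ∣ Nat.card G) (𝓕 : Set (Subgroup G)) (h𝓕 : Cfsg.IsNormalSet 𝓕) : Cfsg.ControlsSylowIntersections p 𝓕 ↔ Cfsg.FamilyStronglyControlsFusion p 𝓕 := by
  exact ⟨strong_of_controls 𝓕 h𝓕, controls_of_strong 𝓕 h𝓕⟩

end Cfsg.Agent.S2939
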