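import Cfsg.Statements.S2940

set_option autoImplicit false
open Cfsg

namespace Cfsg.Agent.S2940

open scoped Pointwise

/-- If a subgroup `D` of a finite group contains a Sylow `p`-subgroup of `G`, every `p`-subgroup of `D` lies in a
Sylow `p`-subgroup of `G` contained in `D`. -/
lemma exists_sylow_le_of_le {G : Type*} [Group G] [Finite G] {p : ℕ} [Fact p.Prime] (P : Sylow p G)
    (D : Subgroup G) (hPD : (P : Subgroup G) ≤ D) (A : Subgroup G) (hA : IsPGroup p A) (hAD : A ≤ D) :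
    ∃ U : Sylow p G, A ≤ (U : Subgroup G) ∧ (U : Subgroup G) ≤ D := by
  have hA' : IsPGroup p (A.subgroupOf D) := hA.comap_subtype
  obtain ⟨Q, hQ⟩ := hA'.exists_le_sylow
  obtain ⟨d, hd⟩ := MulAction.exists_smul_eq ↥D (P.subtype hPD) Q
  rw [Sylow.smul_subtype] at hd
  refine ⟨d • P, ?_, Sylow.smul_le hPD d⟩
  intro y hy
  have h1 : (⟨y, hAD hy⟩ : ↥D) ∈ (Q : Subgroup ↥D) := hQ (Subgroup.mem_subgroupOf.mpr hy)
  rw [← hd, Sylow.coe_subtype, Subgroup.mem_subgroupOf] at h1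
  exact h1

/-- Let S be a Sylow p-subgroup of the finite group G and G₁, G₂ subgroups containing S with G = G₁G₂. Then for every g ∈ G there is a Sylow p-subgroup U of G with S ∩ S^g ≤ U ≤ G₁ ∩ G₂^g (conjugates taken as X^g = g⁻¹Xg). -/
theorem result {G : Type*} [Group G] [Finite G] {p : ℕ} [Fact p.Prime] (S : Sylow p G) (G₁ G₂ : Subgroup G) (h1 : (S : Subgroup G) ≤ G₁) (h2 : (S : Subgroup G) ≤ G₂) (hfact : ∀ g : G, ∃ g₁ ∈ G₁, ∃ g₂ ∈ G₂, g = g₁ * g₂) (g : G) : ∃ U : Sylow p G, (S : Subgroup G) ⊓ Cfsg.subgroupConjRight g (S : Subgroup G) ≤ (U : Subgroup G) ∧ (U : Subgroup G) ≤ G₁ ⊓ Cfsg.subgroupConjRight g G₂ := by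
  obtain ⟨a, ha, b, hb, hab⟩ := hfact g⁻¹
  -- the Sylow subgroup `a S a⁻¹` lies in `G₁ ⊓ G₂^g`
  have hPD : ((a • S : Sylow p G) : Subgroup G) ≤ G₁ ⊓ Cfsg.subgroupConjRight g G₂ := by
    rw [Sylow.coe_subgroup_smul]
    intro y hy
    obtain ⟨s, hs, rfl⟩ := (Subgroup.mem_smul_pointwise_iff_exists _ _ _).mp hy
    rw [MulAut.smul_def, MulAut.conj_apply]
    refine Subgroup.mem_inf.mpr ⟨?_, ?_⟩
    · exact G₁.mul_mem (G₁.mul_mem ha (h1 hs)) (G₁.inv_mem ha)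
    · refine ⟨b⁻¹ * s * b, G₂.mul_mem (G₂.mul_mem (G₂.inv_mem hb) (h2 hs)) hb, ?_⟩
      simp only [MulEquiv.toMonoidHom_eq_coe, MonoidHom.coe_coe, MulAut.conj_apply, hab]
      group
  have hA : IsPGroup p ((S : Subgroup G) ⊓ Cfsg.subgroupConjRight g (S : Subgroup G) : Subgroup G) :=
    S.isPGroup'.to_inf_left
  have hAD : (S : Subgroup G) ⊓ Cfsg.subgroupConjRight g (S : Subgroup G)
      ≤ G₁ ⊓ Cfsg.subgroupConjRight g G₂ :=
    inf_le_inf h1 (Subgroup.map_mono h2)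
  exact exists_sylow_le_of_le (a • S) _ hPD _ hA hAD

end Cfsg.Agent.S2940
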