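import Cfsg.Statements.S2955
import Cfsg.Agent.Helper49.SylowControl

set_option autoImplicit false
open Cfsg

namespace Cfsg.Agent.S2955

open Cfsg.Agent.Helper49

/-- Let p be a prime dividing the order of the finite group G and 𝓕 a conjugation-closed family of subgroups that controls Sylow p-intersections in G. Suppose the Sylow p-subgroups of G are chain-connected: any two of them are joined by a chain of Sylow p-subgroups, consecutive ones distinct with nontrivial intersection, all containing the intersection of the two ends (equivalently, the graph on the Sylow p-subgroups whose edges are the distinct pairs meeting nontrivially is connected). Then for every Sylow p-subgroup S, G is generated by N_G(S) together with the members of 𝓕 that meet S in a Sylow p-subgroup of themselves. -/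
theorem result {G : Type*} [Group G] [Finite G] (p : ℕ) [Fact p.Prime] (hdiv : p ∣ Nat.card G)
    (𝓕 : Set (Subgroup G)) (h𝓕 : Cfsg.IsNormalSet 𝓕) (hc : Cfsg.ControlsSylowIntersections p 𝓕)
    (hconn : Cfsg.IsSylowChainConnected p G) (S : Sylow p G) :
    (⨆ X ∈ Cfsg.sylowMembers p 𝓕 (S : Subgroup G), X) ⊔ Subgroup.normalizer ((S : Subgroup G) : Set G) = ⊤ := by
  set H := (⨆ X ∈ Cfsg.sylowMembers p 𝓕 (S : Subgroup G), X) ⊔
    Subgroup.normalizer ((S : Subgroup G) : Set G) with hH
  have step : ∀ (S' T' : Sylow p G) (X : Subgroup G) (x : G),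
      X ∈ sylowMembers p 𝓕 (S' : Subgroup G) → x ∈ X →
      subgroupConjRight x (T' : Subgroup G) = (S' : Subgroup G) →
      (∃ h ∈ H, subgroupConjRight h (S' : Subgroup G) = (S : Subgroup G)) →
      ∃ h ∈ H, subgroupConjRight h (T' : Subgroup G) = (S : Subgroup G) := by
    rintro S' T' X x hX hx hxT ⟨h, hh, hS'⟩
    have hX' : subgroupConjRight h X ∈ sylowMembers p 𝓕 (S : Subgroup G) := by
      have := sylowMembers_scr h𝓕 h hX
      rwa [hS'] at this
    have hXH : subgroupConjRight h X ≤ H :=
      le_sup_of_le_left (le_iSup₂ (f := fun X _ => X) _ hX')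
    have hx' : h⁻¹ * x * h ∈ H := by
      apply hXH
      rw [mem_scr]
      have : h * (h⁻¹ * x * h) * h⁻¹ = x := by group
      rw [this]; exact hx
    refine ⟨x * h, ?_, ?_⟩
    · have : x * h = h * (h⁻¹ * x * h) := by group
      rw [this]; exact H.mul_mem hh hx'
    · rw [scr_mul, hxT, hS']
  have ctrl : ∀ S' T' : Sylow p G, S' ≠ T' → (S' : Subgroup G) ⊓ (T' : Subgroup G) ≠ ⊥ →
      (∃ h ∈ H, subgroupConjRight h (S' : Subgroup G) = (S : Subgroup G)) →
      ∃ h ∈ H, subgroupConjRight h (T' : Subgroup G) = (S : Subgroup G) := by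
    intro S' T' hne hint hS'
    obtain ⟨n, c, X, x, hc0, hcn, hstep⟩ := hc S' T' hne hint
    have key := fin_chain_induction c
      (fun T => ∃ h ∈ H, subgroupConjRight h (T : Subgroup G) = (S : Subgroup G))
      (by rw [hc0]; exact hS')
      (fun i hi => step _ _ (X i) (x i) (hstep i).1 (hstep i).2.2.1 (hstep i).2.2.2.1 hi)
      (Fin.last n)
    rwa [hcn] at key
  have all : ∀ T : Sylow p G, ∃ h ∈ H, subgroupConjRight h (T : Subgroup G) = (S : Subgroup G) := by
    intro T
    obtain ⟨n, c, hc0, hcn, _, hstep⟩ := hconn S T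
    have key := fin_chain_induction c
      (fun T => ∃ h ∈ H, subgroupConjRight h (T : Subgroup G) = (S : Subgroup G))
      (by rw [hc0]; exact ⟨1, H.one_mem, scr_one _⟩)
      (fun i hi => ctrl _ _ (hstep i).1 (hstep i).2 hi)
      (Fin.last n)
    rwa [hcn] at key
  rw [eq_top_iff]
  intro g _
  obtain ⟨h, hh, hS⟩ := all (g • S)
  rw [coe_smul_sylow, ← scr_mul] at hS
  have hn : g⁻¹ * h ∈ H := (le_sup_right : _ ≤ H) (mem_normalizer_of_scr_eq hS)
  have : g = h * (g⁻¹ * h)⁻¹ := by group
  rw [this]; exact H.mul_mem hh (H.inv_mem hn)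

end Cfsg.Agent.S2955
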