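import Cfsg.Statements.S2956
import Mathlib.Data.Set.Finite.Lemmas
import Cfsg.Agent.Helper49.FunctorFamily
import Cfsg.Agent.Helper49.AxB

set_option autoImplicit false
open Cfsg

namespace Cfsg.Agent.S2956

open Cfsg.Agent.Helper49

variable {G : Type*} [Group G] [Finite G] {p : ℕ} [Fact p.Prime]

theorem exists_isSylowIn_ge {A M : Subgroup G} (hA : IsPGroup p A) (hAM : A ≤ M) :
    ∃ R, IsSylowIn p R M ∧ A ≤ R := by
  have hA' : IsPGroup p (A.subgroupOf M) := hA.comap_of_injective M.subtype M.subtype_injective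
  obtain ⟨P, hP⟩ := hA'.exists_le_sylow
  refine ⟨(P : Subgroup ↥M).map M.subtype, (exists_sylow_map_eq_iff p _ M).mp ⟨P, rfl⟩, ?_⟩
  intro a ha
  exact ⟨⟨a, hAM ha⟩, hP (Subgroup.mem_subgroupOf.mpr ha), rfl⟩

theorem eq_of_isSylowIn_le {R A M : Subgroup G} (hR : IsSylowIn p R M) (hA : IsPGroup p A)
    (hAM : A ≤ M) (hRA : R ≤ A) : A = R := by
  have hAs : IsSylowIn p A M := ⟨hAM, hA, fun hd => hR.2.2 (by
    rw [← Subgroup.relIndex_mul_relIndex R A M hRA hAM]; exact hd.mul_left _)⟩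
  exact (Subgroup.eq_of_le_of_card_ge hRA (hAs.card_eq hR).le).symm

theorem exists_sylow_top_ge {A : Subgroup G} (hA : IsPGroup p A) :
    ∃ W : Subgroup G, IsSylowIn p W ⊤ ∧ A ≤ W := by
  obtain ⟨P, hP⟩ := hA.exists_le_sylow
  exact ⟨P, isSylowIn_top_iff.mpr ⟨P, rfl⟩, hP⟩

theorem exists_maximal_pLocal {L : Subgroup G} (hL : IsPLocal p L) :
    ∃ M, IsMaximalPLocal p M ∧ L ≤ M := by
  obtain ⟨M, ⟨hM1, hM2⟩, hmax⟩ := Set.exists_max_image {M : Subgroup G | IsPLocal p M ∧ L ≤ M}
    (fun M => Nat.card M) (Set.toFinite _) ⟨L, hL, le_rfl⟩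
  refine ⟨M, ⟨hM1, ?_⟩, hM2⟩
  intro N hN hMN
  exact (Subgroup.eq_of_le_of_card_ge hMN (hmax N ⟨hN, hM2.trans hMN⟩)).symm

theorem card_lt_card_inf_of_ne {Q W L' : Subgroup G} (hW : IsPGroup p W) (hQW : Q ≤ W)
    (hne : Q ≠ W) (hNL : Subgroup.normalizer (Q : Set G) ≤ L') :
    Nat.card Q < Nat.card (W ⊓ L' : Subgroup G) := by
  obtain ⟨w, hwW, hwN, hwQ⟩ := exists_mem_normalizer_not_mem hW hQW hne
  have hle : Q ≤ W ⊓ L' := le_inf hQW (Subgroup.le_normalizer.trans hNL)
  apply lt_of_le_of_ne (Subgroup.card_le_of_le hle)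
  intro h
  have h2 : Q = W ⊓ L' := Subgroup.eq_of_le_of_card_ge hle h.ge
  apply hwQ
  rw [h2]; exact ⟨hwW, hNL hwN⟩

omit [Finite G] [Fact p.Prime] in
theorem card_scr (g : G) (X : Subgroup G) : Nat.card (subgroupConjRight g X) = Nat.card X :=
  Subgroup.card_map_of_injective (MulAut.conj g⁻¹).injective

theorem mem_f_of_isSylowIn {f : Subgroup G → Set (Subgroup G)} (hf : IsNormalizerFunctor p f)
    {P Q X F : Subgroup G} (hP : IsSylowIn p P X) (hQ : IsSylowIn p Q X)
    (hXF : X ≤ Subgroup.normalizer (F : Set G)) (hF : F ∈ f P) : F ∈ f Q := by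
  obtain ⟨u, huX, hu⟩ := hP.exists_conj hQ
  have h1 := (hf P hP.2.1).2 u⁻¹
  have h2 : subgroupConjRight u F = F := scr_eq_of_mem_normalizer (hXF huX)
  rw [← hu]
  show F ∈ f (P.map (MulAut.conj u⁻¹).toMonoidHom)
  rw [h1]
  exact ⟨F, hF, h2⟩

theorem step_normalizer_top {f : Subgroup G → Set (Subgroup G)} (hf : IsNormalizerFunctor p f)
    {W F D : Subgroup G} {x : G} (hW : IsSylowIn p W ⊤) (hF : F ∈ f W)
    (hx : x ∈ Subgroup.normalizer (F : Set G)) (hDW : D ≤ W) :
    Step p (functorFamily p f ⊤) D (subgroupConjRight x W) W := by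
  have hFW := (hf W hW.2.1).1 F hF
  have hWN : W ≤ ⊤ ⊓ Subgroup.normalizer (F : Set G) :=
    le_inf le_top (Subgroup.le_normalizer.trans hFW.2)
  have hW₀ : IsSylowIn p (subgroupConjRight x W) ⊤ := isSylowIn_scr_self (Subgroup.mem_top x) hW
  have hW₀N : subgroupConjRight x W ≤ ⊤ ⊓ Subgroup.normalizer (F : Set G) := by
    apply le_inf le_top
    calc subgroupConjRight x W ≤ subgroupConjRight x (Subgroup.normalizer (F : Set G)) :=
          scr_mono x (Subgroup.le_normalizer.trans hFW.2)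
      _ = Subgroup.normalizer (F : Set G) := scr_eq_self_of_mem hx
  refine ⟨⊤ ⊓ Subgroup.normalizer (F : Set G), mem_functorFamily_iff.mpr ⟨W, F, hW, hF, rfl⟩, x,
    ⟨Subgroup.mem_top x, hx⟩, ?_, ?_, rfl, le_inf hDW (hDW.trans hWN)⟩
  · rw [inf_eq_left.mpr hW₀N]; exact hW₀.of_le hW₀N le_top
  · rw [inf_eq_left.mpr hWN]; exact hW.of_le hWN le_top

/-- The inductive step: for a `p`-local `L ≥ D` and Sylow subgroups `U, V ≥ D` meeting `L` in at least
`k > |D|` elements, `U` and `V` are linked, given the statement for larger `D` and larger `k`. -/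
theorem core (f : Subgroup G → Set (Subgroup G)) (hf : IsNormalizerFunctor p f)
    (hf1 : ∀ P : Subgroup G, IsPGroup p ↥P → P ≠ ⊥ → ∀ F ∈ f P, F ≠ ⊥)
    (𝓗 : Set (Subgroup G)) (h𝓗1 : functorFamily p f ⊤ ⊆ 𝓗)
    (h𝓗2 : ∀ M, IsMaximalPLocal p M → ¬ IsFunctorRegular p f M → M ∈ 𝓗)
    (D : Subgroup G) (hD0 : D ≠ ⊥) (k : ℕ) (hk : Nat.card D < k)
    (hP : ∀ D' : Subgroup G, IsPGroup p D' → Nat.card D < Nat.card D' → ∀ S T : Subgroup G,
      IsSylowIn p S ⊤ → IsSylowIn p T ⊤ → D' ≤ S → D' ≤ T →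
      Relation.ReflTransGen (Step p 𝓗 D') S T)
    (hC : ∀ L U V : Subgroup G, IsPLocal p L → D ≤ L → IsSylowIn p U ⊤ → IsSylowIn p V ⊤ →
      D ≤ U → D ≤ V → k < Nat.card (U ⊓ L : Subgroup G) → k < Nat.card (V ⊓ L : Subgroup G) →
      Relation.ReflTransGen (Step p 𝓗 D) U V)
    (L U V : Subgroup G) (hL : IsPLocal p L) (hDL : D ≤ L) (hU : IsSylowIn p U ⊤)
    (hV : IsSylowIn p V ⊤) (hDU : D ≤ U) (hDV : D ≤ V)
    (hkU : k ≤ Nat.card (U ⊓ L : Subgroup G)) (hkV : k ≤ Nat.card (V ⊓ L : Subgroup G)) :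
    Relation.ReflTransGen (Step p 𝓗 D) U V := by
  obtain ⟨M, hM, hLM⟩ := exists_maximal_pLocal hL
  have hDM : D ≤ M := hDL.trans hLM
  -- the `U` side
  have hUMp : IsPGroup p (U ⊓ M : Subgroup G) := hU.2.1.to_le inf_le_left
  obtain ⟨R, hR, hUR⟩ := exists_isSylowIn_ge hUMp inf_le_right
  obtain ⟨U', hU', hRU'⟩ := exists_sylow_top_ge hR.2.1
  have hkUM : k ≤ Nat.card (U ⊓ M : Subgroup G) :=
    hkU.trans (Subgroup.card_le_of_le (inf_le_inf_left U hLM))
  have hcardUM : Nat.card D < Nat.card (U ⊓ M : Subgroup G) := lt_of_lt_of_le hk hkUM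
  have c1 : Relation.ReflTransGen (Step p 𝓗 D) U U' :=
    reflTransGen_step_mono (subset_refl _) (le_inf hDU hDM)
      (hP (U ⊓ M) hUMp hcardUM U U' hU hU' inf_le_left (hUR.trans hRU'))
  -- the `V` side
  have hVMp : IsPGroup p (V ⊓ M : Subgroup G) := hV.2.1.to_le inf_le_left
  obtain ⟨R', hR', hVR'⟩ := exists_isSylowIn_ge hVMp inf_le_right
  obtain ⟨V', hV', hR'V'⟩ := exists_sylow_top_ge hR'.2.1
  have hkVM : k ≤ Nat.card (V ⊓ M : Subgroup G) :=
    hkV.trans (Subgroup.card_le_of_le (inf_le_inf_left V hLM))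
  have hcardVM : Nat.card D < Nat.card (V ⊓ M : Subgroup G) := lt_of_lt_of_le hk hkVM
  have c3 : Relation.ReflTransGen (Step p 𝓗 D) V' V :=
    reflTransGen_step_mono (subset_refl _) (le_inf hDV hDM)
      (hP (V ⊓ M) hVMp hcardVM V' V hV' hV (hVR'.trans hR'V') inf_le_left)
  have hDR : D ≤ R := (le_inf hDU hDM).trans hUR
  have hDR' : D ≤ R' := (le_inf hDV hDM).trans hVR'
  have hkR : k ≤ Nat.card R := hkUM.trans (Subgroup.card_le_of_le hUR)
  have hcardR : Nat.card D < Nat.card R := lt_of_lt_of_le hk hkR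
  -- the middle
  have c2 : Relation.ReflTransGen (Step p 𝓗 D) U' V' := by
    by_cases hreg : IsFunctorRegular p f M
    · by_cases hRR' : R = R'
      · exact reflTransGen_step_mono (subset_refl _) hDR
          (hP R hR.2.1 hcardR U' V' hU' hV' hRU' (hRR' ▸ hR'V'))
      · have hint : R ⊓ R' ≠ ⊥ := fun h0 => hD0 (le_bot_iff.mp (h0 ▸ le_inf hDR hDR'))
        have cM := ambient_of_controls functorFamily_le hreg hR hR' hRR' hint
        have key : ∀ Q : Subgroup G,
            Relation.ReflTransGen (Step p (functorFamily p f M) (R ⊓ R')) R Q →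
            IsSylowIn p Q M ∧ D ≤ Q ∧ ∀ W : Subgroup G, IsSylowIn p W ⊤ → Q ≤ W →
              Relation.ReflTransGen (Step p 𝓗 D) U' W := by
          intro Q hQ
          induction hQ with
          | refl =>
            exact ⟨hR, hDR, fun W hW hRW => reflTransGen_step_mono (subset_refl _) hDR
              (hP R hR.2.1 hcardR U' W hU' hW hRU' hRW)⟩
          | @tail Q₀ Q _ hstep ih =>
            obtain ⟨hQ₀, hDQ₀, ihW⟩ := ih
            obtain ⟨X, hX, x, hx, -, hQX, hconj, hDQX⟩ := hstep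
            obtain ⟨P, F, hPs, hF, rfl⟩ := mem_functorFamily_iff.mp hX
            have hxM : x ∈ M := hx.1
            have hxN : x ∈ Subgroup.normalizer (F : Set G) := hx.2
            have hQ : IsSylowIn p Q M := by
              have e : Q = subgroupConjRight x⁻¹ Q₀ := by rw [← hconj, scr_inv_scr]
              rw [e]; exact isSylowIn_scr_self (M.inv_mem hxM) hQ₀
            have hDQ : D ≤ Q := ((le_inf hDR hDR').trans hDQX).trans inf_le_left
            refine ⟨hQ, hDQ, ?_⟩
            intro W hW hQW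
            have hW₀ : IsSylowIn p (subgroupConjRight x W) ⊤ :=
              isSylowIn_scr_self (Subgroup.mem_top x) hW
            have hQ₀W₀ : Q₀ ≤ subgroupConjRight x W := by rw [← hconj]; exact scr_mono x hQW
            have c0 := ihW _ hW₀ hQ₀W₀
            have hFP := (hf P hPs.2.1).1 F hF
            have hPX : P ≤ M ⊓ Subgroup.normalizer (F : Set G) :=
              le_inf hPs.1 (Subgroup.le_normalizer.trans hFP.2)
            have hQle : Q ≤ M ⊓ Subgroup.normalizer (F : Set G) :=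
              le_of_isSylowIn_inf hPs hPX inf_le_left hQ hQX
            have hFQ : F ∈ f Q := mem_f_of_isSylowIn hf (hPs.of_le hPX inf_le_left)
              (hQ.of_le hQle inf_le_left) inf_le_right hF
            have hFQ' := (hf Q hQ.2.1).1 F hFQ
            have hQ0 : Q ≠ ⊥ := fun h0 => hD0 (le_bot_iff.mp (h0 ▸ hDQ))
            have hF0 : F ≠ ⊥ := hf1 Q hQ.2.1 hQ0 F hFQ
            have hFp : IsPGroup p F := hQ.2.1.to_le hFQ'.1
            have hL' : IsPLocal p (Subgroup.normalizer (F : Set G)) := ⟨F, hFp, hF0, rfl⟩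
            have c1 : Relation.ReflTransGen (Step p 𝓗 D) (subgroupConjRight x W) W := by
              by_cases hQWeq : Q = W
              · rw [hQWeq] at hFQ hDQ
                exact Relation.ReflTransGen.single
                  ((step_normalizer_top hf hW hFQ hxN hDQ).mono h𝓗1 le_rfl)
              · have hlt : Nat.card Q <
                    Nat.card (W ⊓ Subgroup.normalizer (F : Set G) : Subgroup G) :=
                  card_lt_card_inf_of_ne hW.2.1 hQW hQWeq hFQ'.2
                have hkQ : k ≤ Nat.card Q := by rw [hQ.card_eq hR]; exact hkR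
                have hlt₀ : Nat.card Q <
                    Nat.card (subgroupConjRight x W ⊓ Subgroup.normalizer (F : Set G) :
                      Subgroup G) := by
                  have e : subgroupConjRight x W ⊓ Subgroup.normalizer (F : Set G) =
                      subgroupConjRight x (W ⊓ Subgroup.normalizer (F : Set G)) := by
                    rw [scr_inf, scr_eq_self_of_mem hxN]
                  rw [e, card_scr]; exact hlt
                exact hC _ _ _ hL' (hDQ.trans (Subgroup.le_normalizer.trans hFQ'.2)) hW₀ hW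
                  (hDQ₀.trans hQ₀W₀) (hDQ.trans hQW) (lt_of_le_of_lt hkQ hlt₀)
                  (lt_of_le_of_lt hkQ hlt)
            exact c0.trans c1
        exact (key R' cM).2.2 V' hV' hR'V'
    · have hM𝓗 : M ∈ 𝓗 := h𝓗2 M hM hreg
      obtain ⟨m, hmM, hm⟩ := hR'.exists_conj hR
      have hV'' : IsSylowIn p (subgroupConjRight m V') ⊤ :=
        isSylowIn_scr_self (Subgroup.mem_top m) hV'
      have hRV'' : R ≤ subgroupConjRight m V' := by rw [← hm]; exact scr_mono m hR'V'
      have c := reflTransGen_step_mono (subset_refl _) hDR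
        (hP R hR.2.1 hcardR U' (subgroupConjRight m V') hU' hV'' hRU' hRV'')
      refine c.tail ⟨M, hM𝓗, m, hmM, ?_, ?_, rfl, ?_⟩
      · have e : subgroupConjRight m V' ⊓ M = R :=
          eq_of_isSylowIn_le hR (hV''.2.1.to_le inf_le_left) inf_le_right (le_inf hRV'' hR.1)
        rw [e]; exact hR
      · have e : V' ⊓ M = R' :=
          eq_of_isSylowIn_le hR' (hV'.2.1.to_le inf_le_left) inf_le_right (le_inf hR'V' hR'.1)
        rw [e]; exact hR'
      · exact le_inf (hDR'.trans hR'V') hDM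
  exact (c1.trans c2).trans c3

theorem P_all (f : Subgroup G → Set (Subgroup G)) (hf : IsNormalizerFunctor p f)
    (hf1 : ∀ P : Subgroup G, IsPGroup p ↥P → P ≠ ⊥ → ∀ F ∈ f P, F ≠ ⊥)
    (𝓗 : Set (Subgroup G)) (h𝓗1 : functorFamily p f ⊤ ⊆ 𝓗)
    (h𝓗2 : ∀ M, IsMaximalPLocal p M → ¬ IsFunctorRegular p f M → M ∈ 𝓗) :
    ∀ (m : ℕ) (D : Subgroup G), Nat.card G - Nat.card D = m → IsPGroup p D → D ≠ ⊥ →
      ∀ S T : Subgroup G, IsSylowIn p S ⊤ → IsSylowIn p T ⊤ → D ≤ S → D ≤ T →
      Relation.ReflTransGen (Step p 𝓗 D) S T := by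
  intro m
  induction m using Nat.strong_induction_on with
  | _ m ihm =>
  intro D hm hD hD0 S T hS hT hDS hDT
  have hP : ∀ D' : Subgroup G, IsPGroup p D' → Nat.card D < Nat.card D' → ∀ S T : Subgroup G,
      IsSylowIn p S ⊤ → IsSylowIn p T ⊤ → D' ≤ S → D' ≤ T →
      Relation.ReflTransGen (Step p 𝓗 D') S T := by
    intro D' hD' hlt S T hS hT hS' hT'
    have hD'0 : D' ≠ ⊥ := by
      rintro rfl
      rw [Subgroup.card_bot] at hlt
      have h0 := Nat.card_pos (α := D)
      omega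
    have hle : Nat.card D' ≤ Nat.card G := Subgroup.card_le_card_group D'
    exact ihm (Nat.card G - Nat.card D') (by omega) D' rfl hD' hD'0 S T hS hT hS' hT'
  have hCall : ∀ (j k : ℕ), Nat.card G - k = j → Nat.card D < k → ∀ L U V : Subgroup G,
      IsPLocal p L → D ≤ L → IsSylowIn p U ⊤ → IsSylowIn p V ⊤ → D ≤ U → D ≤ V →
      k ≤ Nat.card (U ⊓ L : Subgroup G) → k ≤ Nat.card (V ⊓ L : Subgroup G) →
      Relation.ReflTransGen (Step p 𝓗 D) U V := by
    intro j
    induction j using Nat.strong_induction_on with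
    | _ j ihj =>
    intro k hj hk L U V hL hDL hU hV hDU hDV hkU hkV
    apply core f hf hf1 𝓗 h𝓗1 h𝓗2 D hD0 k hk hP _ L U V hL hDL hU hV hDU hDV hkU hkV
    intro L₂ U₂ V₂ hL₂ hDL₂ hU₂ hV₂ hDU₂ hDV₂ hkU₂ hkV₂
    have hle : Nat.card (U₂ ⊓ L₂ : Subgroup G) ≤ Nat.card G := Subgroup.card_le_card_group _
    exact ihj (Nat.card G - (k + 1)) (by omega) (k + 1) rfl (by omega) L₂ U₂ V₂ hL₂ hDL₂ hU₂ hV₂
      hDU₂ hDV₂ hkU₂ hkV₂
  by_cases hDS' : D = S
  · have e : T = S := by
      have h1 : Nat.card T = Nat.card S := hT.card_eq hS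
      rw [← hDS'] at h1 ⊢
      exact (Subgroup.eq_of_le_of_card_ge hDT h1.le).symm
    rw [e]
  · by_cases hDT' : D = T
    · have e : S = T := by
        have h1 : Nat.card S = Nat.card T := hS.card_eq hT
        rw [← hDT'] at h1 ⊢
        exact (Subgroup.eq_of_le_of_card_ge hDS h1.le).symm
      rw [e]
    · have hL : IsPLocal p (Subgroup.normalizer (D : Set G)) := ⟨D, hD, hD0, rfl⟩
      have h1 := card_lt_card_inf_of_ne hS.2.1 hDS hDS' (le_refl (Subgroup.normalizer (D : Set G)))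
      have h2 := card_lt_card_inf_of_ne hT.2.1 hDT hDT' (le_refl (Subgroup.normalizer (D : Set G)))
      exact hCall _ (Nat.card D + 1) rfl (Nat.lt_succ_self _) _ S T hL Subgroup.le_normalizer hS hT
        hDS hDT h1 h2

/-- Let p be a prime dividing the order of the finite group G, and f an assignment to every p-subgroup P of a set f(P) of subgroups of P, each normalized by N_G(P), compatible with conjugation, such that for P ≠ 1 the members of f(P) are nontrivial. Let 𝓕 be the family of the normalizers N_G(F) of the members F of f(S) over the Sylow p-subgroups S of G, and 𝓕' the family of the maximal p-local subgroups M of G that are singular for f (the corresponding family of normalizers inside M does not control Sylow p-intersections in M). Then 𝓕 ∪ 𝓕' controls Sylow p-intersections in G. -/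
theorem result {G : Type*} [Group G] [Finite G] (p : ℕ) [Fact p.Prime] (hdiv : p ∣ Nat.card G)
    (f : Subgroup G → Set (Subgroup G)) (hf : Cfsg.IsNormalizerFunctor p f)
    (hf1 : ∀ P : Subgroup G, IsPGroup p ↥P → P ≠ ⊥ → ∀ F ∈ f P, F ≠ ⊥)
    (𝓕 𝓕' : Set (Subgroup G)) (h𝓕 : 𝓕 = Cfsg.functorFamily p f ⊤)
    (h𝓕' : 𝓕' = {M | Cfsg.IsMaximalPLocal p M ∧ ¬ Cfsg.IsFunctorRegular p f M}) :
    Cfsg.ControlsSylowIntersections p (𝓕 ∪ 𝓕') := by
  subst h𝓕 h𝓕'
  apply controls_of_reflTransGen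
  intro S T hne hint
  exact P_all f hf hf1
    (functorFamily p f ⊤ ∪ {M | IsMaximalPLocal p M ∧ ¬ IsFunctorRegular p f M})
    Set.subset_union_left (fun M hM hreg => Or.inr ⟨hM, hreg⟩) _
    ((S : Subgroup G) ⊓ (T : Subgroup G)) rfl (S.isPGroup'.to_le inf_le_left) hint
    (S : Subgroup G) (T : Subgroup G) (isSylowIn_top_iff.mpr ⟨S, rfl⟩)
    (isSylowIn_top_iff.mpr ⟨T, rfl⟩) inf_le_left inf_le_right

end Cfsg.Agent.S2956
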