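import Cfsg.Statements.S2957
import Cfsg.Agent.Helper49.FunctorFamily
import Cfsg.Agent.Helper49.Isolated

set_option autoImplicit false
open Cfsg

namespace Cfsg.Agent.S2957

open Cfsg.Agent.Helper49

/-- The chain from the fixed Sylow subgroup `S` to any other Sylow subgroup `T`. -/
theorem main_aux {G : Type*} [Group G] [Finite G] (p : ℕ) [Fact p.Prime]
    (f : Subgroup G → Set (Subgroup G)) (hf : Cfsg.IsNormalizerFunctor p f) (S : Sylow p G)
    (G₁ G₂ : Subgroup G) (h₁ : (S : Subgroup G) ≤ G₁) (h₂ : (S : Subgroup G) ≤ G₂)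
    (hprod : ∀ g : G, ∃ g₁ ∈ G₁, ∃ g₂ ∈ G₂, g = g₁ * g₂)
    (hr₁ : Cfsg.IsFunctorRegular p f G₁) (hr₂ : Cfsg.IsFunctorRegular p f G₂)
    (T : Sylow p G) (hint : (S : Subgroup G) ⊓ (T : Subgroup G) ≠ ⊥) :
    Relation.ReflTransGen (Step p (functorFamily p f ⊤) ((S : Subgroup G) ⊓ (T : Subgroup G)))
      (S : Subgroup G) (T : Subgroup G) := by
  obtain ⟨g, hg⟩ := MulAction.exists_smul_eq G S T
  have hT : (T : Subgroup G) = subgroupConjRight g⁻¹ (S : Subgroup G) := by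
    rw [← hg, coe_smul_sylow]
  obtain ⟨g₁, hg₁, g₂, hg₂, rfl⟩ := hprod g
  set D : Subgroup G := (S : Subgroup G) ⊓ (T : Subgroup G) with hD
  have hE1 : subgroupConjRight g₁ D ≤ G₁ := by
    calc subgroupConjRight g₁ D ≤ subgroupConjRight g₁ G₁ := scr_mono g₁ (inf_le_left.trans h₁)
      _ = G₁ := scr_eq_self_of_mem hg₁
  have hE2 : subgroupConjRight g₁ D ≤ G₂ := by
    calc subgroupConjRight g₁ D ≤ subgroupConjRight g₁ (T : Subgroup G) := scr_mono g₁ inf_le_right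
      _ = subgroupConjRight g₂⁻¹ (S : Subgroup G) := by
          rw [hT, ← scr_mul]; congr 1; group
      _ ≤ subgroupConjRight g₂⁻¹ G₂ := scr_mono _ h₂
      _ = G₂ := scr_eq_self_of_mem (G₂.inv_mem hg₂)
  have hEp : IsPGroup p (subgroupConjRight g₁ D) :=
    (S.isPGroup'.to_le (inf_le_left : D ≤ (S : Subgroup G))).map _
  obtain ⟨n, hnI, R, hR, -, hSR, hER⟩ := exists_conj_le_common_pgroup (N := G₁ ⊓ G₂) S.isPGroup' hEp
    (le_inf h₁ h₂) (le_inf hE1 hE2)
  have hRS : R = (S : Subgroup G) := S.is_maximal' hR hSR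
  have hab : g₁ * g₂ = (g₁ * n⁻¹) * (n * g₂) := by group
  have haG : g₁ * n⁻¹ ∈ G₁ := G₁.mul_mem hg₁ (G₁.inv_mem hnI.1)
  have hbG : n * g₂ ∈ G₂ := G₂.mul_mem hnI.2 hg₂
  have hDS₁ : D ≤ subgroupConjRight (g₁ * n⁻¹)⁻¹ (S : Subgroup G) := by
    intro y hy
    rw [mem_scr]
    have h1 : g₁⁻¹ * y * g₁ ∈ subgroupConjRight g₁ D := by
      rw [mem_scr]
      have e : g₁ * (g₁⁻¹ * y * g₁) * g₁⁻¹ = y := by group
      rw [e]; exact hy
    have h2 := hER _ h1
    rw [hRS] at h2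
    have e : (g₁ * n⁻¹)⁻¹ * y * (g₁ * n⁻¹)⁻¹⁻¹ = n * (g₁⁻¹ * y * g₁) * n⁻¹ := by group
    rw [e]; exact h2
  have hTS₂ : (T : Subgroup G) =
      subgroupConjRight (g₁ * n⁻¹)⁻¹ (subgroupConjRight (n * g₂)⁻¹ (S : Subgroup G)) := by
    rw [hT, ← scr_mul]; congr 1; group
  have hSsyl1 : IsSylowIn p (S : Subgroup G) G₁ := isSylowIn_of_sylow_le S h₁
  have hS₁syl : IsSylowIn p (subgroupConjRight (g₁ * n⁻¹)⁻¹ (S : Subgroup G)) G₁ :=
    isSylowIn_scr_self (G₁.inv_mem haG) hSsyl1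
  have hSsyl2 : IsSylowIn p (S : Subgroup G) G₂ := isSylowIn_of_sylow_le S h₂
  have hS₂syl : IsSylowIn p (subgroupConjRight (n * g₂)⁻¹ (S : Subgroup G)) G₂ :=
    isSylowIn_scr_self (G₂.inv_mem hbG) hSsyl2
  have chain1 : Relation.ReflTransGen (Step p (functorFamily p f ⊤) D) (S : Subgroup G)
      (subgroupConjRight (g₁ * n⁻¹)⁻¹ (S : Subgroup G)) := by
    by_cases h1 : (S : Subgroup G) = subgroupConjRight (g₁ * n⁻¹)⁻¹ (S : Subgroup G)
    · rw [← h1]
    · have hint1 : (S : Subgroup G) ⊓ subgroupConjRight (g₁ * n⁻¹)⁻¹ (S : Subgroup G) ≠ ⊥ :=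
        fun h0 => hint (le_bot_iff.mp (h0 ▸ le_inf inf_le_left hDS₁))
      have c1 := ambient_of_controls functorFamily_le hr₁ hSsyl1 hS₁syl h1 hint1
      have c2 := reflTransGen_step_mono (subset_refl _)
        (le_inf inf_le_left hDS₁ : D ≤ (S : Subgroup G) ⊓ _) c1
      exact (reflTransGen_functorFamily_top hf S h₁ hSsyl1 c2).1
  have hD₂ : subgroupConjRight (g₁ * n⁻¹) D ≤
      (S : Subgroup G) ⊓ subgroupConjRight (n * g₂)⁻¹ (S : Subgroup G) := by
    apply le_inf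
    · calc subgroupConjRight (g₁ * n⁻¹) D
          ≤ subgroupConjRight (g₁ * n⁻¹) (subgroupConjRight (g₁ * n⁻¹)⁻¹ (S : Subgroup G)) :=
            scr_mono _ hDS₁
        _ = (S : Subgroup G) := scr_scr_inv _ _
    · calc subgroupConjRight (g₁ * n⁻¹) D
          ≤ subgroupConjRight (g₁ * n⁻¹) (T : Subgroup G) := scr_mono _ inf_le_right
        _ = subgroupConjRight (n * g₂)⁻¹ (S : Subgroup G) := by rw [hTS₂, scr_scr_inv]
  have chain2 : Relation.ReflTransGen (Step p (functorFamily p f ⊤) D)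
      (subgroupConjRight (g₁ * n⁻¹)⁻¹ (S : Subgroup G)) (T : Subgroup G) := by
    by_cases h2 : (S : Subgroup G) = subgroupConjRight (n * g₂)⁻¹ (S : Subgroup G)
    · have e : (T : Subgroup G) = subgroupConjRight (g₁ * n⁻¹)⁻¹ (S : Subgroup G) := by
        rw [hTS₂, ← h2]
      rw [e]
    · have hint2 : (S : Subgroup G) ⊓ subgroupConjRight (n * g₂)⁻¹ (S : Subgroup G) ≠ ⊥ := by
        intro h0
        have h3 : subgroupConjRight (g₁ * n⁻¹) D = ⊥ := le_bot_iff.mp (h0 ▸ hD₂)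
        apply hint
        rw [← scr_inv_scr (g₁ * n⁻¹) D, h3]
        exact scr_bot _
      have c1 := ambient_of_controls functorFamily_le hr₂ hSsyl2 hS₂syl h2 hint2
      have c2 := reflTransGen_step_mono (subset_refl _) hD₂ c1
      have c3 := (reflTransGen_functorFamily_top hf S h₂ hSsyl2 c2).1
      have c4 := reflTransGen_step_scr (functorFamily_top_isNormalSet hf) (g₁ * n⁻¹)⁻¹ c3
      rwa [scr_inv_scr, ← hTS₂] at c4
  exact chain1.trans chain2

/-- Let p be a prime dividing the order of the finite group G, f an equivariant assignment of a set of subgroups f(P) of P to every p-subgroup P, each normalized by N_G(P), and S a Sylow p-subgroup. If G = G₁G₂ for subgroups G₁, G₂ both containing S and both regular for f (in each Gᵢ, the family of normalizers in Gᵢ of the members of f(P), P a Sylow p-subgroup of Gᵢ, controls Sylow p-intersections), then G itself is regular for f. -/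
theorem result {G : Type*} [Group G] [Finite G] (p : ℕ) [Fact p.Prime] (hdiv : p ∣ Nat.card G)
    (f : Subgroup G → Set (Subgroup G)) (hf : Cfsg.IsNormalizerFunctor p f) (S : Sylow p G)
    (G₁ G₂ : Subgroup G) (h₁ : (S : Subgroup G) ≤ G₁) (h₂ : (S : Subgroup G) ≤ G₂)
    (hprod : ∀ g : G, ∃ g₁ ∈ G₁, ∃ g₂ ∈ G₂, g = g₁ * g₂)
    (hr₁ : Cfsg.IsFunctorRegular p f G₁) (hr₂ : Cfsg.IsFunctorRegular p f G₂) :
    Cfsg.IsFunctorRegular p f ⊤ := by
  apply controls_of_ambient (M := ⊤) (fun X _ => le_top)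
  intro S' T' hS' hT' hne hint
  obtain ⟨S₀, rfl⟩ := isSylowIn_top_iff.mp hS'
  obtain ⟨T₀, rfl⟩ := isSylowIn_top_iff.mp hT'
  obtain ⟨k, hk⟩ := MulAction.exists_smul_eq G S S₀
  have hS₀ : (S₀ : Subgroup G) = subgroupConjRight k⁻¹ (S : Subgroup G) := by
    rw [← hk, coe_smul_sylow]
  have hT₁ : ((k⁻¹ • T₀ : Sylow p G) : Subgroup G) = subgroupConjRight k (T₀ : Subgroup G) := by
    rw [coe_smul_sylow, inv_inv]
  have hT₀ : (T₀ : Subgroup G) = subgroupConjRight k⁻¹ ((k⁻¹ • T₀ : Sylow p G) : Subgroup G) := by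
    rw [hT₁, scr_inv_scr]
  have hint1 : (S : Subgroup G) ⊓ ((k⁻¹ • T₀ : Sylow p G) : Subgroup G) ≠ ⊥ := by
    intro h0
    apply hint
    rw [hS₀, hT₀, ← scr_inf, h0]
    exact scr_bot _
  have c := main_aux p f hf S G₁ G₂ h₁ h₂ hprod hr₁ hr₂ (k⁻¹ • T₀) hint1
  have c' := reflTransGen_step_scr (functorFamily_top_isNormalSet hf) k⁻¹ c
  rw [scr_inf, ← hS₀, ← hT₀] at c'
  exact c'

end Cfsg.Agent.S2957
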