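import Cfsg.Statements.S2958

set_option autoImplicit false
open Cfsg

namespace Cfsg.Agent.S2958

lemma conj_map_map {G : Type*} [Group G] (X : Subgroup G) (a h : G) :
    (X.map (MulAut.conj h).toMonoidHom).map (MulAut.conj a).toMonoidHom
      = X.map (MulAut.conj (a * h)).toMonoidHom := by
  rw [Subgroup.map_map]
  congr 1
  ext x
  simp [mul_assoc]

/-- Let X, A, B be subgroups of a group G such that G is generated by the conjugates of X and every conjugate of X is contained in A or in B. Then A = G or B = G. -/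
theorem result {G : Type*} [Group G] (X A B : Subgroup G) (hgen : (⨆ g : G, X.map (MulAut.conj g).toMonoidHom) = ⊤) (hcover : ∀ g : G, X.map (MulAut.conj g).toMonoidHom ≤ A ∨ X.map (MulAut.conj g).toMonoidHom ≤ B) : A = ⊤ ∨ B = ⊤ := by
  by_cases hA : ∀ g : G, X.map (MulAut.conj g).toMonoidHom ≤ A
  · left
    rw [eq_top_iff, ← hgen]
    exact iSup_le hA
  · right
    push Not at hA
    obtain ⟨g₀, hg₀⟩ := hA
    -- B₀ : generated by the conjugates not in A
    set B₀ : Subgroup G := ⨆ g : {g : G // ¬ X.map (MulAut.conj g).toMonoidHom ≤ A},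
      X.map (MulAut.conj (g : G)).toMonoidHom with hB₀
    have hB₀B : B₀ ≤ B := by
      refine iSup_le ?_
      rintro ⟨g, hg⟩
      exact (hcover g).resolve_left hg
    have hmem : ∀ g : G, ¬ X.map (MulAut.conj g).toMonoidHom ≤ A →
        X.map (MulAut.conj g).toMonoidHom ≤ B₀ := fun g hg =>
      le_iSup (fun g : {g : G // ¬ X.map (MulAut.conj g).toMonoidHom ≤ A} =>
        X.map (MulAut.conj (g : G)).toMonoidHom) ⟨g, hg⟩
    -- conjugation by an element of A preserves B₀
    have hconjA : ∀ a ∈ A, B₀.map (MulAut.conj a).toMonoidHom ≤ B₀ := by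
      intro a ha
      rw [hB₀, Subgroup.map_iSup]
      refine iSup_le ?_
      rintro ⟨h, hh⟩
      rw [conj_map_map]
      apply hmem
      intro hah
      apply hh
      have : X.map (MulAut.conj h).toMonoidHom
          = (X.map (MulAut.conj (a * h)).toMonoidHom).map (MulAut.conj a⁻¹).toMonoidHom := by
        rw [conj_map_map]; simp
      rw [this]
      rintro _ ⟨y, hy, rfl⟩
      have hyA : y ∈ A := hah hy
      simp only [MulEquiv.toMonoidHom_eq_coe, MonoidHom.coe_coe, MulAut.conj_apply, inv_inv]
      exact A.mul_mem (A.mul_mem (A.inv_mem ha) hyA) ha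
    -- every conjugate of X normalizes B₀
    have hnorm : ∀ g : G, X.map (MulAut.conj g).toMonoidHom ≤ Subgroup.normalizer (B₀ : Set G) := by
      intro g
      by_cases hg : X.map (MulAut.conj g).toMonoidHom ≤ A
      · rw [Subgroup.le_normalizer_iff]
        intro a ha b hb
        exact hconjA a (hg ha) ⟨b, hb, by simp⟩
      · exact (hmem g hg).trans Subgroup.le_normalizer
    have hN : Subgroup.normalizer (B₀ : Set G) = ⊤ := by
      rw [eq_top_iff, ← hgen]
      exact iSup_le hnorm
    have hall : ∀ g : G, X.map (MulAut.conj g).toMonoidHom ≤ B₀ := by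
      intro g
      have h1 : X.map (MulAut.conj g).toMonoidHom
          = (X.map (MulAut.conj g₀).toMonoidHom).map (MulAut.conj (g * g₀⁻¹)).toMonoidHom := by
        rw [conj_map_map]; simp
      rw [h1]
      rintro _ ⟨y, hy, rfl⟩
      have hyB : y ∈ B₀ := hmem g₀ hg₀ hy
      have hmemN : g * g₀⁻¹ ∈ Subgroup.normalizer (B₀ : Set G) := by rw [hN]; trivial
      exact (Subgroup.mem_normalizer_iff.mp hmemN y).mp hyB
    rw [eq_top_iff, ← hgen]
    exact (iSup_le hall).trans hB₀B

end Cfsg.Agent.S2958
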