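import Cfsg.Statements.S2959
import Cfsg.Agent.Helper49.PCore

set_option autoImplicit false
open Cfsg

namespace Cfsg.Agent.S2959

open Cfsg.Agent.Helper49

/-- Let G be a finite group of characteristic p, that is C_G(O_p(G)) ≤ O_p(G), with p prime, and let L be a subgroup of G normalized by O_p(G). Then L has characteristic p: C_L(O_p(L)) ≤ O_p(L). -/
theorem result {G : Type*} [Group G] [Finite G] {p : ℕ} [Fact p.Prime] (hG : Subgroup.centralizer (Cfsg.pCore p G : Set G) ≤ Cfsg.pCore p G) (L : Subgroup G) (hL : Cfsg.pCore p G ≤ Subgroup.normalizer (L : Set G)) : Subgroup.centralizer (Cfsg.pCore p ↥L : Set ↥L) ≤ Cfsg.pCore p ↥L := by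
  have hPn : (pCore p G).Normal := pCore_normal' p G
  apply centralizer_pCore_le_of_coprime_trivial L (fun g _ => isOfFinOrder_of_finite g)
  intro y hyL hyC hcop
  -- `P ⊓ L` lies in `O_p(L)`
  have hPL : pCore p G ⊓ L ≤ (pCore p ↥L).map L.subtype := by
    apply le_map_pCore inf_le_right
    · rw [Subgroup.le_normalizer_iff]
      intro l hl k hk
      exact ⟨hPn.conj_mem k hk.1 l, L.mul_mem (L.mul_mem hl hk.2) (L.inv_mem hl)⟩
    · exact (pCore_isPGroup p G).to_inf_left
  have hyP : y ∈ Subgroup.centralizer (pCore p G : Set G) := by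
    rw [Subgroup.mem_centralizer_iff]
    intro u hu
    have hdP : y * u * y⁻¹ * u⁻¹ ∈ pCore p G :=
      (pCore p G).mul_mem (hPn.conj_mem u hu y) ((pCore p G).inv_mem hu)
    have hdL : y * u * y⁻¹ * u⁻¹ ∈ L := by
      have h1 : u * y⁻¹ * u⁻¹ ∈ L :=
        (Subgroup.mem_normalizer_iff.mp (hL hu) y⁻¹).mp (L.inv_mem hyL)
      have h2 : y * u * y⁻¹ * u⁻¹ = y * (u * y⁻¹ * u⁻¹) := by group
      rw [h2]
      exact L.mul_mem hyL h1
    have hdR := hPL ⟨hdP, hdL⟩
    have hc : Commute y (y * u * y⁻¹ * u⁻¹) := (Subgroup.mem_centralizer_iff.mp hyC _ hdR).symm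
    have h1 : y * u * y⁻¹ = (y * u * y⁻¹ * u⁻¹) * u := by group
    have hd1 : y * u * y⁻¹ * u⁻¹ = 1 :=
      eq_one_of_conj_eq_mul_left h1 hc (pow_eq_one_of_mem_pCore hdP) hcop
    have h3 : y * u * y⁻¹ = u := by rw [h1, hd1, one_mul]
    calc u * y = (y * u * y⁻¹) * y := by rw [h3]
      _ = y * u := by group
  exact eq_one_of_pPow_of_coprime (pow_eq_one_of_mem_pCore (hG hyP)) hcop

end Cfsg.Agent.S2959
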