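import Cfsg.Statements.S2963

set_option autoImplicit false
open Cfsg

namespace Cfsg.Agent.S2963

/-- The setwise stabilizer of a set, as the permutations `σ` with `σ a ∈ O ↔ a ∈ O`. -/
def setStab {α : Type*} (O : Set α) : Subgroup (Equiv.Perm α) where
  carrier := {σ | ∀ a, σ a ∈ O ↔ a ∈ O}
  one_mem' := fun _ => Iff.rfl
  mul_mem' := by
    intro σ τ hσ hτ a
    rw [Equiv.Perm.mul_apply]
    exact (hσ (τ a)).trans (hτ a)
  inv_mem' := by
    intro σ hσ a
    have := hσ (σ⁻¹ a)
    have e : σ (σ⁻¹ a) = a := by simp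
    rw [e] at this
    exact this.symm

/-- The stabilizer of a point. -/
def ptStab {α : Type*} (x : α) : Subgroup (Equiv.Perm α) where
  carrier := {σ | σ x = x}
  one_mem' := rfl
  mul_mem' := by
    intro σ τ hσ hτ
    show (σ * τ) x = x
    rw [Equiv.Perm.mul_apply, hτ, hσ]
  inv_mem' := by
    intro σ hσ
    show σ⁻¹ x = x
    exact (Equiv.Perm.inv_eq_iff_eq.mpr hσ.symm)

/-- If a point `x` is outside the proper subset `O` of its complement (with `z ∉ O`, `z ≠ x`), the stabilizers of
`x` and of `O` generate the symmetric group. -/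
lemma ptStab_sup_setStab {α : Type*} [DecidableEq α] [Finite α] (x z : α) (O : Set α) (hxO : x ∉ O)
    (hzO : z ∉ O) (hzx : z ≠ x) : ptStab x ⊔ setStab O = ⊤ := by
  rw [eq_top_iff, ← Equiv.Perm.closure_isSwap, Subgroup.closure_le]
  have hxz : Equiv.swap x z ∈ setStab O := by
    intro a
    by_cases hax : a = x
    · subst hax; rw [Equiv.swap_apply_left]; exact ⟨fun h => (hzO h).elim, fun h => (hxO h).elim⟩
    · by_cases haz : a = z
      · subst haz; rw [Equiv.swap_apply_right]; exact ⟨fun h => (hxO h).elim, fun h => (hzO h).elim⟩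
      · rw [Equiv.swap_apply_of_ne_of_ne hax haz]
  -- swaps `swap x b` with `b ≠ x`
  have key : ∀ b : α, b ≠ x → Equiv.swap x b ∈ ptStab x ⊔ setStab O := by
    intro b hbx
    by_cases hbz : b = z
    · subst hbz; exact (le_sup_right : setStab O ≤ _) hxz
    · have h1 : Equiv.swap z b ∈ ptStab x := by
        show Equiv.swap z b x = x
        exact Equiv.swap_apply_of_ne_of_ne hzx.symm (Ne.symm hbx)
      have h2 : Equiv.swap x b = Equiv.swap z b * Equiv.swap x z * (Equiv.swap z b)⁻¹ := by
        rw [← Equiv.swap_apply_apply]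
        congr 1
        · exact (Equiv.swap_apply_of_ne_of_ne hzx.symm (Ne.symm hbx)).symm
        · exact (Equiv.swap_apply_left z b).symm
      rw [h2]
      have h1' := (le_sup_left : ptStab x ≤ ptStab x ⊔ setStab O) h1
      exact Subgroup.mul_mem _ (Subgroup.mul_mem _ h1' ((le_sup_right : setStab O ≤ _) hxz))
        (Subgroup.inv_mem _ h1')
  rintro σ ⟨a, b, hab, rfl⟩
  by_cases hax : a = x
  · subst hax; exact key b (Ne.symm hab)
  · by_cases hbx : b = x
    · subst hbx; rw [Equiv.swap_comm]; exact key a hax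
    · apply (le_sup_left : ptStab x ≤ ptStab x ⊔ setStab O)
      show Equiv.swap a b x = x
      exact Equiv.swap_apply_of_ne_of_ne (Ne.symm hax) (Ne.symm hbx)

/-- Let n be odd. If the symmetric group of degree n is a minimal parabolic group for the prime 2, that is, a Sylow 2-subgroup is not normal and lies in exactly one maximal subgroup, then n = 2^m + 1 for some natural number m. -/
theorem result (n : ℕ) (hn : Odd n) (h : Cfsg.IsPMinimal 2 (Equiv.Perm (Fin n))) : ∃ m : ℕ, n = 2 ^ m + 1 := by
  classical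
  obtain ⟨S⟩ := (Sylow.nonempty : Nonempty (Sylow 2 (Equiv.Perm (Fin n))))
  obtain ⟨hnn, M, ⟨hM, hSM⟩, huniq⟩ := h S
  -- a fixed point of `S`
  have hcard : ¬ 2 ∣ Nat.card (Fin n) := by
    rw [Nat.card_eq_fintype_card, Fintype.card_fin]
    exact hn.not_two_dvd_nat
  obtain ⟨x, hx⟩ := S.isPGroup'.nonempty_fixed_point_of_prime_not_dvd_card (Fin n) hcard
  rw [MulAction.mem_fixedPoints] at hx
  have hx' : ∀ s ∈ (S : Subgroup (Equiv.Perm (Fin n))), s x = x := fun s hs => hx ⟨s, hs⟩
  by_cases hall : ∀ y : Fin n, y = x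
  · -- the group is trivial, so `S` is normal
    exfalso
    apply hnn
    have hsub : ∀ σ : Equiv.Perm (Fin n), σ = 1 := by
      intro σ
      ext a
      rw [hall a, hall (σ x)]
      simp
    refine ⟨fun a ha g => ?_⟩
    rw [hsub g]
    simpa using ha
  · push Not at hall
    obtain ⟨y, hyx⟩ := hall
    set O : Set (Fin n) := MulAction.orbit ↥(S : Subgroup (Equiv.Perm (Fin n))) y with hO
    have hxO : x ∉ O := by
      intro hmem
      obtain ⟨s, hs⟩ := MulAction.mem_orbit_iff.mp hmem
      have h1 : s⁻¹ • x = y := by rw [← hs, inv_smul_smul]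
      have h2 : s⁻¹ • x = x := hx s⁻¹
      exact hyx (h1.symm.trans h2)
    by_cases hcase : ∀ z : Fin n, z ≠ x → z ∈ O
    · -- the orbit is the complement of `x`
      obtain ⟨k, hk⟩ := S.isPGroup'.card_orbit y
      refine ⟨k, ?_⟩
      have hOeq : O = ({x} : Set (Fin n))ᶜ := by
        ext z
        simp only [Set.mem_compl_iff, Set.mem_singleton_iff]
        exact ⟨fun hz hzx => hxO (hzx ▸ hz), fun hz => hcase z hz⟩
      have h1 : Nat.card ↥O = n - 1 := by
        rw [hOeq, Nat.card_coe_set_eq, Set.ncard_compl, Set.ncard_singleton, Nat.card_eq_fintype_card,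
          Fintype.card_fin]
      have h2 : Nat.card ↥O = 2 ^ k := hk
      have hn1 : 1 ≤ n := hn.pos
      omega
    · exfalso
      push Not at hcase
      obtain ⟨z, hzx, hzO⟩ := hcase
      have hyO : y ∈ O := MulAction.mem_orbit_self y
      -- `S` lies in both stabilizers
      have hS1 : (S : Subgroup (Equiv.Perm (Fin n))) ≤ ptStab x := fun s hs => hx' s hs
      have hS2 : (S : Subgroup (Equiv.Perm (Fin n))) ≤ setStab O := by
        intro s hs a
        have h1 : s a = (⟨s, hs⟩ : ↥(S : Subgroup (Equiv.Perm (Fin n)))) • a := rfl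
        rw [h1, hO, MulAction.mem_orbit_iff, MulAction.mem_orbit_iff]
        constructor
        · rintro ⟨t, ht⟩
          exact ⟨(⟨s, hs⟩ : ↥(S : Subgroup (Equiv.Perm (Fin n))))⁻¹ * t, by rw [mul_smul, ht, inv_smul_smul]⟩
        · rintro ⟨t, ht⟩
          exact ⟨(⟨s, hs⟩ : ↥(S : Subgroup (Equiv.Perm (Fin n)))) * t, by rw [mul_smul, ht]⟩
      -- both stabilizers are proper
      have h1top : ptStab x ≠ ⊤ := by
        intro htop
        have : Equiv.swap x y ∈ ptStab x := by rw [htop]; trivial
        have h2 : Equiv.swap x y x = x := this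
        rw [Equiv.swap_apply_left] at h2
        exact hyx h2
      have h2top : setStab O ≠ ⊤ := by
        intro htop
        have : Equiv.swap y z ∈ setStab O := by rw [htop]; trivial
        have h2 := (this y).mpr hyO
        rw [Equiv.swap_apply_left] at h2
        exact hzO h2
      obtain ⟨M₁, hM₁, hle₁⟩ := (eq_top_or_exists_le_coatom (ptStab x)).resolve_left h1top
      obtain ⟨M₂, hM₂, hle₂⟩ := (eq_top_or_exists_le_coatom (setStab O)).resolve_left h2top
      have e1 : M₁ = M := huniq M₁ ⟨hM₁, hS1.trans hle₁⟩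
      have e2 : M₂ = M := huniq M₂ ⟨hM₂, hS2.trans hle₂⟩
      have hsup : ptStab x ⊔ setStab O ≤ M := sup_le (e1 ▸ hle₁) (e2 ▸ hle₂)
      rw [ptStab_sup_setStab x z O hxO hzO hzx] at hsup
      exact hM.1 (top_le_iff.mp hsup)

end Cfsg.Agent.S2963
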