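import Cfsg.Statements.S2998
import Cfsg.Agent.Helper50.Basic

set_option autoImplicit false
open Cfsg

namespace Cfsg.Agent.S2998

open Cfsg.Agent.Helper50
open scoped Pointwise

/-- Let G be a finite group, p a prime, P a Sylow p-subgroup of G and x ∈ P an element such that N_G(R) ≤ C_G(x) for every nontrivial subgroup R of P. Then P ≤ C_G(x); every G-conjugate of x lying in P equals x (so g ∈ C_G(x) whenever g x g⁻¹ ∈ P); and for every normal subgroup N of G, the image of x in G ⧸ N has the same property with respect to the image of P: the normalizer of every nontrivial subgroup of the image of P centralizes the image of x. -/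
theorem result {G : Type*} [Group G] [Finite G] {p : ℕ} [Fact p.Prime] (P : Sylow p G) (x : G) (hxP : x ∈ (P : Subgroup G)) (hlc : ∀ R : Subgroup G, R ≤ (P : Subgroup G) → R ≠ ⊥ → Subgroup.normalizer (R : Set G) ≤ Subgroup.centralizer ({x} : Set G)) : (P : Subgroup G) ≤ Subgroup.centralizer ({x} : Set G) ∧ (∀ g : G, g * x * g⁻¹ ∈ (P : Subgroup G) → g * x * g⁻¹ = x) ∧ ∀ (N : Subgroup G) [N.Normal], ∀ R : Subgroup (G ⧸ N), R ≤ (P : Subgroup G).map (QuotientGroup.mk' N) → R ≠ ⊥ → Subgroup.normalizer (R : Set (G ⧸ N)) ≤ Subgroup.centralizer ({(QuotientGroup.mk x : G ⧸ N)} : Set (G ⧸ N)) := by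
  have memC : ∀ g : G, g ∈ Subgroup.centralizer ({x} : Set G) ↔ x * g = g * x := by
    intro g
    rw [Subgroup.mem_centralizer_iff]
    simp
  -- (1)
  have h1 : (P : Subgroup G) ≤ Subgroup.centralizer ({x} : Set G) := by
    by_cases hP : (P : Subgroup G) = ⊥
    · rw [hP]; exact bot_le
    · exact Subgroup.le_normalizer.trans (hlc _ le_rfl hP)
  refine ⟨h1, ?_, ?_⟩
  · -- (2)
    intro g hg
    by_cases hx1 : x = 1
    · subst hx1; simp
    have hPne : (P : Subgroup G) ≠ ⊥ := by
      intro h
      rw [h, Subgroup.mem_bot] at hxP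
      exact hx1 hxP
    set y := g * x * g⁻¹ with hy
    have hy1 : y ≠ 1 := by
      intro h
      apply hx1
      have : x = g⁻¹ * y * g := by rw [hy]; group
      rw [this, h]; group
    have hzy : Subgroup.zpowers y ≠ ⊥ := by
      intro h
      apply hy1
      have : y ∈ Subgroup.zpowers y := Subgroup.mem_zpowers y
      rwa [h, Subgroup.mem_bot] at this
    have hzyP : Subgroup.zpowers y ≤ (P : Subgroup G) := by
      rw [Subgroup.zpowers_le]; exact hg
    have hCy : ∀ c : G, y * c = c * y → x * c = c * x := by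
      intro c hc
      have hcN : c ∈ Subgroup.normalizer ((Subgroup.zpowers y : Subgroup G) : Set G) := by
        apply mem_normalizer_of_conj_mem
        intro h hh
        obtain ⟨k, rfl⟩ := Subgroup.mem_zpowers_iff.mp hh
        have hcomm : Commute c y := hc.symm
        have : c * y ^ k * c⁻¹ = y ^ k := by
          rw [(hcomm.zpow_right k).eq, mul_assoc, mul_inv_cancel, mul_one]
        rw [this]
        exact Subgroup.zpow_mem_zpowers y k
      exact (memC c).mp (hlc _ hzyP hzy hcN)
    -- g P g⁻¹ ≤ C(x)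
    set C := Subgroup.centralizer ({x} : Set G) with hC
    have hQC : (P : Subgroup G).map (MulAut.conj g).toMonoidHom ≤ C := by
      intro z hz
      obtain ⟨z', hz', rfl⟩ := (mem_map_conj _ g z).mp hz
      rw [hC, memC]
      apply hCy
      have : x * z' = z' * x := (memC z').mp (h1 hz')
      rw [hy]
      calc g * x * g⁻¹ * (g * z' * g⁻¹) = g * (x * z') * g⁻¹ := by group
        _ = g * (z' * x) * g⁻¹ := by rw [this]
        _ = g * z' * g⁻¹ * (g * x * g⁻¹) := by group
    have hQp : IsPGroup p ((P : Subgroup G).map (MulAut.conj g).toMonoidHom) :=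
      P.isPGroup'.map _
    obtain ⟨c, hcC, hc⟩ := exists_conj_mem_sylow_of_le P C h1 _ hQp hQC
    have hcg : c * g ∈ Subgroup.normalizer (((P : Subgroup G)) : Set G) := by
      apply mem_normalizer_of_conj_mem
      intro h hh
      have := hc (g * h * g⁻¹) (conj_mem_map_conj _ g hh)
      have e : c * g * h * (c * g)⁻¹ = c * (g * h * g⁻¹) * c⁻¹ := by group
      rw [e]; exact this
    have hcgC : c * g ∈ C := hlc _ le_rfl hPne hcg
    have hgC : g ∈ C := by
      have : g = c⁻¹ * (c * g) := by group
      rw [this]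
      exact C.mul_mem (C.inv_mem hcC) hcgC
    have := (memC g).mp hgC
    rw [hy, ← this, mul_assoc, mul_inv_cancel, mul_one]
  · -- (3)
    intro N _ R hR hRne gbar hgbar
    obtain ⟨g, rfl⟩ := QuotientGroup.mk_surjective gbar
    set π := QuotientGroup.mk' N with hπ
    set L := R.comap π with hL
    set R₀ := L ⊓ (P : Subgroup G) with hR₀
    have hNL : N ≤ L := by
      intro n hn
      rw [hL, Subgroup.mem_comap]
      have : π n = 1 := (QuotientGroup.eq_one_iff n).mpr hn
      rw [this]; exact R.one_mem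
    have hR₀ne : R₀ ≠ ⊥ := by
      intro hbot
      apply hRne
      rw [eq_bot_iff]
      intro r hr
      obtain ⟨z, hz, rfl⟩ := Subgroup.mem_map.mp (hR hr)
      have hzR₀ : z ∈ R₀ := Subgroup.mem_inf.mpr ⟨by rw [hL, Subgroup.mem_comap]; exact hr, hz⟩
      rw [hbot, Subgroup.mem_bot] at hzR₀
      rw [hzR₀, map_one]; exact Subgroup.mem_bot.mpr rfl
    have hgL : ∀ l ∈ L, g * l * g⁻¹ ∈ L := by
      intro l hl
      rw [hL, Subgroup.mem_comap] at hl ⊢
      have := (Subgroup.mem_normalizer_iff.mp hgbar (π l)).mp hl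
      simpa [hπ] using this
    have hLPN : L ≤ (P : Subgroup G) ⊔ N := by
      intro l hl
      rw [hL, Subgroup.mem_comap] at hl
      obtain ⟨z, hz, hzl⟩ := Subgroup.mem_map.mp (hR hl)
      have hzn : z⁻¹ * l ∈ N := by
        rw [← QuotientGroup.eq_one_iff]
        have : π (z⁻¹ * l) = 1 := by rw [map_mul, map_inv, hzl, inv_mul_cancel]
        exact this
      have : l = z * (z⁻¹ * l) := by group
      rw [this]
      exact Subgroup.mul_mem _ (Subgroup.mem_sup_left hz) (Subgroup.mem_sup_right hzn)
    set Q := R₀.map (MulAut.conj g).toMonoidHom with hQ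
    have hQp : IsPGroup p Q := (P.isPGroup'.to_le (inf_le_right : R₀ ≤ (P : Subgroup G))).map _
    have hQK : Q ≤ (P : Subgroup G) ⊔ N := by
      intro q hq
      obtain ⟨r, hr, rfl⟩ := (mem_map_conj _ g q).mp hq
      exact hLPN (hgL r (Subgroup.mem_inf.mp hr).1)
    obtain ⟨y, hyK, hy⟩ := exists_conj_mem_sylow_of_le P ((P : Subgroup G) ⊔ N) le_sup_left Q hQp hQK
    have hyK' : y ∈ ((P : Subgroup G) : Set G) * (N : Set G) := by
      rw [← Subgroup.mul_normal]; exact hyK
    obtain ⟨a, ha, n, hn, rfl⟩ := Set.mem_mul.mp hyK'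
    have hng : n * g ∈ Subgroup.normalizer ((R₀ : Subgroup G) : Set G) := by
      apply mem_normalizer_of_conj_mem
      intro r hr
      have hrL : r ∈ L := (Subgroup.mem_inf.mp hr).1
      refine Subgroup.mem_inf.mpr ⟨?_, ?_⟩
      · have e : n * g * r * (n * g)⁻¹ = n * (g * r * g⁻¹) * n⁻¹ := by group
        rw [e]
        exact L.mul_mem (L.mul_mem (hNL hn) (hgL r hrL)) (L.inv_mem (hNL hn))
      · have h2 := hy (g * r * g⁻¹) (conj_mem_map_conj _ g hr)
        have e : n * g * r * (n * g)⁻¹ = a⁻¹ * (a * n * (g * r * g⁻¹) * (a * n)⁻¹) * a := by group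
        rw [e]
        exact Subgroup.mul_mem _ (Subgroup.mul_mem _ (Subgroup.inv_mem _ ha) h2) ha
    have hngC := hlc R₀ inf_le_right hR₀ne hng
    have hcomm : x * (n * g) = (n * g) * x := (memC _).mp hngC
    rw [Subgroup.mem_centralizer_iff]
    intro h hh
    rw [Set.mem_singleton_iff] at hh
    subst hh
    have hn1 : π n = 1 := (QuotientGroup.eq_one_iff n).mpr hn
    have := congrArg π hcomm
    rw [map_mul, map_mul, map_mul, map_mul, hn1, one_mul] at this
    exact this

end Cfsg.Agent.S2998
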