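import Cfsg.Statements.S3003
import Cfsg.Agent.Helper50.ElemAbFix

set_option autoImplicit false
open Cfsg

namespace Cfsg.Agent.S3003

theorem part1 {G : Type*} [Group G] [Finite G] {p : ℕ} [Fact p.Prime] (Q : Subgroup G)
    (hQp : IsPGroup p ↥Q) (hlarge : Cfsg.IsLarge Q) (G₁ : Subgroup G) (hQG : Q ≤ G₁)
    (R : Subgroup G) (hR : (Nat.card ↥R).Coprime p)
    (hGR : G₁ ≤ Subgroup.normalizer (R : Set G)) (U : Subgroup G)
    (x : G) (hxU : x ∈ U) (hx1 : x ≠ 1) (g : G) (hg : g ∈ G₁)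
    (hgx : g * x * g⁻¹ ∈ Q ⊓ Subgroup.centralizer (Q : Set G)) :
    R ⊓ Subgroup.centralizer (U : Set G) = ⊥ := by
  -- Q ∩ R = 1
  have hQR : ∀ y ∈ Q, y ∈ R → y = 1 := by
    intro y hyQ hyR
    obtain ⟨k, hk⟩ := hQp ⟨y, hyQ⟩
    have hk' : y ^ (p ^ k) = 1 := congrArg Subtype.val hk
    have h1 : orderOf y ∣ p ^ k := orderOf_dvd_of_pow_eq_one hk'
    have h2 : orderOf y ∣ Nat.card R := by
      have := orderOf_dvd_natCard (⟨y, hyR⟩ : R)
      rwa [Subgroup.orderOf_mk] at this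
    have h3 : orderOf y = 1 := Nat.eq_one_of_dvd_coprimes (Nat.Coprime.pow_right k hR) h2 h1
    exact orderOf_eq_one_iff.mp h3
  obtain ⟨hzQ, hzC⟩ := Subgroup.mem_inf.mp hgx
  set z := g * x * g⁻¹ with hz
  have hz1 : z ≠ 1 := by
    intro h
    apply hx1
    have : x = g⁻¹ * z * g := by rw [hz]; group
    rw [this, h]; group
  -- centralizer of z in R is trivial
  have hcz : ∀ c ∈ R, c * z = z * c → c = 1 := by
    intro c hcR hcz
    have hcN : c ∈ Subgroup.normalizer (Q : Set G) := by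
      have h1 : Subgroup.zpowers z ≤ Subgroup.centralizer (Q : Set G) := by
        rw [Subgroup.zpowers_le]; exact hzC
      have h2 : Subgroup.zpowers z ≠ ⊥ := by
        intro h
        exact hz1 (Subgroup.zpowers_eq_bot.mp h)
      apply hlarge.2 _ h1 h2
      apply Subgroup.centralizer_le_normalizer
      rw [Subgroup.zpowers_eq_closure, Subgroup.centralizer_closure,
        Subgroup.mem_centralizer_singleton_iff]
      exact hcz
    have hcC : c ∈ Subgroup.centralizer (Q : Set G) := by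
      rw [Subgroup.mem_centralizer_iff]
      intro q hq
      have hw1 : q * c * q⁻¹ * c⁻¹ ∈ Q := by
        have h1 : c * q⁻¹ * c⁻¹ ∈ Q := (Subgroup.mem_normalizer_iff.mp hcN q⁻¹).mp (Q.inv_mem hq)
        have : q * c * q⁻¹ * c⁻¹ = q * (c * q⁻¹ * c⁻¹) := by group
        rw [this]
        exact Q.mul_mem hq h1
      have hw2 : q * c * q⁻¹ * c⁻¹ ∈ R := by
        have h1 : q * c * q⁻¹ ∈ R := (Subgroup.mem_normalizer_iff.mp (hGR (hQG hq)) c).mp hcR
        exact R.mul_mem h1 (R.inv_mem hcR)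
      have hw := hQR _ hw1 hw2
      calc q * c = (q * c * q⁻¹ * c⁻¹) * (c * q) := by group
        _ = c * q := by rw [hw, one_mul]
    exact hQR c (hlarge.1 hcC) hcR
  rw [eq_bot_iff]
  intro r hr
  obtain ⟨hrR, hrU⟩ := Subgroup.mem_inf.mp hr
  have hrx : x * r = r * x := Subgroup.mem_centralizer_iff.mp hrU x hxU
  have hc : g * r * g⁻¹ ∈ R := (Subgroup.mem_normalizer_iff.mp (hGR hg) r).mp hrR
  have hcomm : (g * r * g⁻¹) * z = z * (g * r * g⁻¹) := by
    rw [hz]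
    calc g * r * g⁻¹ * (g * x * g⁻¹) = g * (r * x) * g⁻¹ := by group
      _ = g * (x * r) * g⁻¹ := by rw [hrx]
      _ = g * x * g⁻¹ * (g * r * g⁻¹) := by group
  have h1 := hcz _ hc hcomm
  have : r = g⁻¹ * (g * r * g⁻¹) * g := by group
  rw [Subgroup.mem_bot, this, h1]; group

/-- Let G be a finite group, p a prime and Q a large p-subgroup of G: C_G(Q) ≤ Q and N_G(U) ≤ N_G(Q) for every nontrivial subgroup U of C_G(Q). Let Q ≤ G₁ ≤ G, let R be a subgroup of order prime to p normalized by G₁, and let U ≤ G₁ be a p-subgroup. If U contains a nontrivial element which is G₁-conjugate to an element of Z(Q), then C_R(U) = 1. In particular, if U is elementary abelian of order at least p² and every maximal subgroup of U contains a nontrivial element G₁-conjugate into Z(Q), then R = 1. -/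
theorem result {G : Type*} [Group G] [Finite G] {p : ℕ} [Fact p.Prime] (Q : Subgroup G) (hQp : IsPGroup p ↥Q) (hlarge : Cfsg.IsLarge Q) (G₁ : Subgroup G) (hQG : Q ≤ G₁) (R : Subgroup G) (hR : (Nat.card ↥R).Coprime p) (hGR : G₁ ≤ Subgroup.normalizer (R : Set G)) (U : Subgroup G) (hUG : U ≤ G₁) (hUp : IsPGroup p ↥U) : ((∃ x ∈ U, x ≠ 1 ∧ ∃ g ∈ G₁, g * x * g⁻¹ ∈ Q ⊓ Subgroup.centralizer (Q : Set G)) → R ⊓ Subgroup.centralizer (U : Set G) = ⊥) ∧ (Cfsg.IsElementaryAbelian p U → p ^ 2 ≤ Nat.card ↥U → (∀ U₀ : Subgroup G, U₀ ≤ U → IsCoatom (U₀.subgroupOf U) → ∃ x ∈ U₀, x ≠ 1 ∧ ∃ g ∈ G₁, g * x * g⁻¹ ∈ Q ⊓ Subgroup.centralizer (Q : Set G)) → R = ⊥) := by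
  refine ⟨?_, ?_⟩
  · rintro ⟨x, hxU, hx1, g, hg, hgx⟩
    exact part1 Q hQp hlarge G₁ hQG R hR hGR U x hxU hx1 g hg hgx
  · intro hUe hcard hU₀
    apply Cfsg.Agent.Helper50.eq_bot_of_coatoms_fixedPointFree U R hUe.1 hUe.2 hcard hR
      (le_trans hUG hGR)
    intro U₀ hU₀U hco
    obtain ⟨x, hxU, hx1, g, hg, hgx⟩ := hU₀ U₀ hU₀U hco
    exact part1 Q hQp hlarge G₁ hQG R hR hGR U₀ x hxU hx1 g hg hgx

end Cfsg.Agent.S3003
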