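import Cfsg.Statements.S3011
import Cfsg.Agent.Helper53.BaerSuzuki

set_option autoImplicit false
open Cfsg

namespace Cfsg.Agent.S3011

theorem eq_one_of_inv_eq_of_odd {G : Type*} [Group G] {x : G} (ho : Odd (orderOf x))
    (h : x⁻¹ = x) : x = 1 := by
  have h2 : x ^ 2 = 1 := by
    rw [pow_two]
    calc x * x = x⁻¹ * x := by rw [h]
      _ = 1 := inv_mul_cancel x
  have hd : orderOf x ∣ 2 := orderOf_dvd_of_pow_eq_one h2
  have h1 : orderOf x = 1 := by
    rcases (Nat.dvd_prime Nat.prime_two).mp hd with h1 | h1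
    · exact h1
    · rw [h1] at ho; exact absurd ho (by decide)
  exact orderOf_eq_one_iff.mp h1

theorem commute_of_sq_commute {G : Type*} [Group G] {y x : G} (hy : Odd (orderOf y))
    (h : Commute (y ^ 2) x) : Commute y x := by
  obtain ⟨m, hm⟩ := hy
  have h1 : y = (y ^ 2) ^ (m + 1) := by
    rw [← pow_mul]
    have h2 : 2 * (m + 1) = orderOf y + 1 := by omega
    rw [h2, pow_succ, pow_orderOf_eq_one, one_mul]
  rw [h1]
  exact h.pow_left (m + 1)

theorem conj_sq_of_conj_inv {G : Type*} [Group G] {t x : G} (ht : t * x * t⁻¹ = x⁻¹) :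
    (t * t) * x * (t * t)⁻¹ = x := by
  have h1 : t * x⁻¹ * t⁻¹ = x := by
    have h0 : t * x⁻¹ * t⁻¹ = (t * x * t⁻¹)⁻¹ := by group
    rw [h0, ht, inv_inv]
  calc (t * t) * x * (t * t)⁻¹ = t * (t * x * t⁻¹) * t⁻¹ := by group
    _ = t * x⁻¹ * t⁻¹ := by rw [ht]
    _ = x := h1

theorem key {G : Type*} [Group G] (V : Subgroup G) (hS : Cfsg.IsSidkiPair V) (u v : G)
    (hu : u ∈ V) (hv : v ∈ V)
    (hall : ∀ w ∈ V, w ≠ 1 → w = u ∨ w = v ∨ w = u * v)
    (x y : G) (hx : Odd (orderOf x)) (hx1 : x ≠ 1) (hy : Odd (orderOf y)) (hy1 : y ≠ 1)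
    (hux : u * x * u⁻¹ = x⁻¹) (hvx : v * x * v⁻¹ = x) (hvy : v * y * v⁻¹ = y⁻¹)
    (huy : u * y * u⁻¹ = y) : False := by
  have hx' : Odd (orderOf (y * x * y⁻¹)) := by
    have h0 := (MulAut.conj y).orderOf_eq x
    rw [MulAut.conj_apply] at h0
    rwa [h0]
  have hux' : u * (y * x * y⁻¹) * u⁻¹ = (y * x * y⁻¹)⁻¹ := by
    calc u * (y * x * y⁻¹) * u⁻¹ = (u * y * u⁻¹) * (u * x * u⁻¹) * (u * y * u⁻¹)⁻¹ := by group
      _ = y * x⁻¹ * y⁻¹ := by rw [huy, hux]
      _ = (y * x * y⁻¹)⁻¹ := by group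
  obtain ⟨w, hwV, hw1, hwc⟩ := hS _ u hu hx' hux'
  have hcomm_false : Commute y x → False := by
    intro hc
    have hxy : Odd (orderOf (x * y)) :=
      Odd.of_dvd_nat (hx.mul hy) ((hc.symm.orderOf_mul_dvd_lcm).trans (Nat.lcm_dvd_mul _ _))
    have hinv : (u * v) * (x * y) * (u * v)⁻¹ = (x * y)⁻¹ := by
      calc (u * v) * (x * y) * (u * v)⁻¹ = u * ((v * x * v⁻¹) * (v * y * v⁻¹)) * u⁻¹ := by group
        _ = u * (x * y⁻¹) * u⁻¹ := by rw [hvx, hvy]
        _ = (u * x * u⁻¹) * (u * y * u⁻¹)⁻¹ := by group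
        _ = x⁻¹ * y⁻¹ := by rw [hux, huy]
        _ = (x * y)⁻¹ := by rw [mul_inv_rev]; exact hc.inv_inv.eq.symm
    obtain ⟨w', hw'V, hw'1, hw'c⟩ := hS _ (u * v) (V.mul_mem hu hv) hxy hinv
    rcases hall w' hw'V hw'1 with rfl | rfl | rfl
    · apply hx1; apply eq_one_of_inv_eq_of_odd hx
      have h1 : w' * (x * y) * w'⁻¹ = x * y := by rw [hw'c]; group
      have h2 : w' * (x * y) * w'⁻¹ = x⁻¹ * y := by
        calc w' * (x * y) * w'⁻¹ = (w' * x * w'⁻¹) * (w' * y * w'⁻¹) := by group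
          _ = x⁻¹ * y := by rw [hux, huy]
      exact mul_right_cancel (h2.symm.trans h1)
    · apply hy1; apply eq_one_of_inv_eq_of_odd hy
      have h1 : w' * (x * y) * w'⁻¹ = x * y := by rw [hw'c]; group
      have h2 : w' * (x * y) * w'⁻¹ = x * y⁻¹ := by
        calc w' * (x * y) * w'⁻¹ = (w' * x * w'⁻¹) * (w' * y * w'⁻¹) := by group
          _ = x * y⁻¹ := by rw [hvx, hvy]
      exact mul_left_cancel (h2.symm.trans h1)
    · have h1 : (u * v) * (x * y) * (u * v)⁻¹ = x * y := by rw [hw'c]; group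
      have h3 : x * y = 1 := eq_one_of_inv_eq_of_odd hxy (hinv.symm.trans h1)
      have hyx : y = x⁻¹ := (inv_eq_of_mul_eq_one_right h3).symm
      apply hx1; apply eq_one_of_inv_eq_of_odd hx
      rw [hyx] at huy
      have h4 : u * x⁻¹ * u⁻¹ = x := by
        calc u * x⁻¹ * u⁻¹ = (u * x * u⁻¹)⁻¹ := by group
          _ = x := by rw [hux, inv_inv]
      exact huy.symm.trans h4
  rcases hall w hwV hw1 with rfl | rfl | rfl
  · have h1 : w * (y * x * y⁻¹) * w⁻¹ = y * x * y⁻¹ := by rw [hwc]; group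
    have h2 : y * x * y⁻¹ = 1 := eq_one_of_inv_eq_of_odd hx' (hux'.symm.trans h1)
    apply hx1
    have h3 : x = y⁻¹ * (y * x * y⁻¹) * y := by group
    rw [h3, h2]; group
  · have h1 : w * (y * x * y⁻¹) * w⁻¹ = y * x * y⁻¹ := by rw [hwc]; group
    have h2 : w * (y * x * y⁻¹) * w⁻¹ = y⁻¹ * x * y := by
      calc w * (y * x * y⁻¹) * w⁻¹ = (w * y * w⁻¹) * (w * x * w⁻¹) * (w * y * w⁻¹)⁻¹ := by group
        _ = y⁻¹ * x * y := by rw [hvy, hvx, inv_inv]
    have h3 : y⁻¹ * x * y = y * x * y⁻¹ := h2.symm.trans h1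
    apply hcomm_false
    apply commute_of_sq_commute hy
    show y ^ 2 * x = x * y ^ 2
    rw [pow_two]
    calc y * y * x = y * (y * x * y⁻¹) * y := by group
      _ = y * (y⁻¹ * x * y) * y := by rw [h3]
      _ = x * (y * y) := by group
  · have h1 : (u * v) * (y * x * y⁻¹) * (u * v)⁻¹ = y * x * y⁻¹ := by rw [hwc]; group
    have h2 : (u * v) * (y * x * y⁻¹) * (u * v)⁻¹ = y⁻¹ * x⁻¹ * y := by
      calc (u * v) * (y * x * y⁻¹) * (u * v)⁻¹
          = u * ((v * y * v⁻¹) * (v * x * v⁻¹) * (v * y * v⁻¹)⁻¹) * u⁻¹ := by group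
        _ = u * (y⁻¹ * x * y) * u⁻¹ := by rw [hvy, hvx, inv_inv]
        _ = (u * y * u⁻¹)⁻¹ * (u * x * u⁻¹) * (u * y * u⁻¹) := by group
        _ = y⁻¹ * x⁻¹ * y := by rw [huy, hux]
    have h3 : y⁻¹ * x⁻¹ * y = y * x * y⁻¹ := h2.symm.trans h1
    have h4 : (y * y) * x * (y * y)⁻¹ = x⁻¹ := by
      calc (y * y) * x * (y * y)⁻¹ = y * (y * x * y⁻¹) * y⁻¹ := by group
        _ = y * (y⁻¹ * x⁻¹ * y) * y⁻¹ := by rw [h3]
        _ = x⁻¹ := by group
    have h5 : Commute ((y ^ 2) ^ 2) x := by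
      have h6 := conj_sq_of_conj_inv h4
      show (y ^ 2) ^ 2 * x = x * (y ^ 2) ^ 2
      rw [pow_two, pow_two]
      exact mul_inv_eq_iff_eq_mul.mp h6
    have hy2 : Odd (orderOf (y ^ 2)) := Odd.of_dvd_nat hy (orderOf_pow_dvd 2)
    exact hcomm_false (commute_of_sq_commute hy (commute_of_sq_commute hy2 h5))

theorem result {G : Type*} [Group G] [Finite G] (V : Subgroup G) (hV : Cfsg.IsElementaryAbelian 2 V) (hV1 : V ≠ ⊥) (hS : Cfsg.IsSidkiPair V) (h4 : Nat.card V ≤ 4) : V ⊓ Cfsg.pCore 2 G ≠ ⊥ := by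
  intro hbot
  obtain ⟨hcomm, hexp⟩ := hV
  have hinvolution : ∀ v ∈ V, v * v = 1 := fun v hv => by rw [← pow_two]; exact hexp v hv
  have hBS : ∀ v ∈ V, v ≠ 1 → ∃ h : G, Odd (orderOf h) ∧ h ≠ 1 ∧ v * h * v⁻¹ = h⁻¹ := by
    intro v hv hv1
    by_contra hcon
    have hinv : ∀ u : G, Odd (orderOf u) → v * u * v⁻¹ = u⁻¹ → u = 1 := by
      intro u hu huv
      by_contra hu1
      exact hcon ⟨u, hu, hu1, huv⟩
    obtain ⟨N, hN, hNp, hvN⟩ :=
      Cfsg.Agent.Helper53.baer_suzuki_two_of_inverts v (hinvolution v hv) hinv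
    have hmem : v ∈ V ⊓ Cfsg.pCore 2 G :=
      ⟨hv, (le_sSup ⟨hN, hNp⟩ : N ≤ Cfsg.pCore 2 G) hvN⟩
    rw [hbot, Subgroup.mem_bot] at hmem
    exact hv1 hmem
  obtain ⟨⟨a, haV⟩, ha1'⟩ := (Subgroup.ne_bot_iff_exists_ne_one.mp hV1)
  have ha1 : a ≠ 1 := fun h => ha1' (Subtype.ext h)
  obtain ⟨x, hxo, hx1, hax⟩ := hBS a haV ha1
  obtain ⟨b, hbV, hb1, hbx⟩ := hS x a haV hxo hax
  have hbx' : b * x * b⁻¹ = x := by rw [hbx]; group
  have hba : b ≠ a := by
    rintro rfl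
    apply hx1; apply Cfsg.Agent.S3011.eq_one_of_inv_eq_of_odd hxo
    exact hax.symm.trans hbx'
  have hab : a * b = b * a :=
    congrArg Subtype.val (hcomm.is_comm.comm (⟨a, haV⟩ : ↥V) ⟨b, hbV⟩)
  have haa : a * a = 1 := hinvolution a haV
  have hbb : b * b = 1 := hinvolution b hbV
  have hall : ∀ w ∈ V, w ≠ 1 → w = a ∨ w = b ∨ w = a * b := by
    intro w hw hw1
    by_contra hcon
    rw [not_or, not_or] at hcon
    obtain ⟨hwa, hwb, hwab⟩ := hcon
    have hsub : ({w, 1, a, b, a * b} : Set G) ⊆ (V : Set G) := by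
      intro z hz
      simp only [Set.mem_insert_iff, Set.mem_singleton_iff] at hz
      rcases hz with rfl | rfl | rfl | rfl | rfl
      exacts [hw, V.one_mem, haV, hbV, V.mul_mem haV hbV]
    have hab1 : a * b ≠ 1 := by
      intro h
      have : a = b := by
        calc a = a * (b * b) := by rw [hbb, mul_one]
          _ = (a * b) * b := by group
          _ = b := by rw [h, one_mul]
      exact hba this.symm
    have haba : a * b ≠ a := fun h => hb1 (by simpa using h)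
    have habb : a * b ≠ b := fun h => ha1 (by simpa using h)
    have hcard : ({w, 1, a, b, a * b} : Set G).ncard = 5 := by
      rw [Set.ncard_insert_of_notMem, Set.ncard_insert_of_notMem, Set.ncard_insert_of_notMem,
        Set.ncard_pair (Ne.symm habb)]
      · simp only [Set.mem_insert_iff, Set.mem_singleton_iff, not_or]
        exact ⟨fun h => hba h.symm, fun h => haba h.symm⟩
      · simp only [Set.mem_insert_iff, Set.mem_singleton_iff, not_or]
        exact ⟨fun h => ha1 h.symm, fun h => hb1 h.symm, fun h => hab1 h.symm⟩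
      · simp only [Set.mem_insert_iff, Set.mem_singleton_iff, not_or]
        exact ⟨hw1, hwa, hwb, hwab⟩
    have h5 := Set.ncard_le_ncard hsub (Set.toFinite _)
    rw [hcard] at h5
    have h6 : ((V : Set G)).ncard = Nat.card V := (Nat.card_coe_set_eq (V : Set G)).symm
    rw [h6] at h5
    omega
  obtain ⟨y, hyo, hy1, hby⟩ := hBS b hbV hb1
  obtain ⟨w, hwV, hw1, hwy⟩ := hS y b hbV hyo hby
  have hwy' : w * y * w⁻¹ = y := by rw [hwy]; group
  rcases hall w hwV hw1 with rfl | rfl | rfl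
  · exact Cfsg.Agent.S3011.key V hS w b haV hbV hall x y hxo hx1 hyo hy1 hax hbx' hby hwy'
  · apply hy1; apply Cfsg.Agent.S3011.eq_one_of_inv_eq_of_odd hyo
    exact hby.symm.trans hwy'
  · have hall' : ∀ w ∈ V, w ≠ 1 → w = a * b ∨ w = b ∨ w = a * b * b := by
      intro w hw hw1
      rcases hall w hw hw1 with h | h | h
      · right; right; rw [h, mul_assoc, hbb, mul_one]
      · right; left; exact h
      · left; exact h
    have hcx : (a * b) * x * (a * b)⁻¹ = x⁻¹ := by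
      calc (a * b) * x * (a * b)⁻¹ = a * (b * x * b⁻¹) * a⁻¹ := by group
        _ = x⁻¹ := by rw [hbx', hax]
    exact Cfsg.Agent.S3011.key V hS (a * b) b (V.mul_mem haV hbV) hbV hall' x y hxo hx1 hyo hy1
      hcx hbx' hby hwy'

end Cfsg.Agent.S3011
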