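import Cfsg.Statements.S3012

set_option autoImplicit false
open Cfsg

namespace Cfsg.Agent.S3012

theorem commute_of_commute_sq {G : Type*} [Group G] {w x : G} (hx : Odd (orderOf x))
    (h : Commute w (x ^ 2)) : Commute w x := by
  obtain ⟨k, hk⟩ := hx
  have h1 : x = (x ^ 2) ^ (k + 1) := by
    rw [← pow_mul]
    have : 2 * (k + 1) = orderOf x + 1 := by omega
    rw [this, pow_succ, pow_orderOf_eq_one, one_mul]
  rw [h1]
  exact h.pow_right _

theorem commute_of_commute_two_pow {G : Type*} [Group G] {w x : G} (hx : Odd (orderOf x)) :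
    ∀ j : ℕ, Commute w (x ^ (2 ^ j)) → Commute w x := by
  intro j
  induction j with
  | zero => intro h; simpa using h
  | succ j ih =>
    intro h
    apply ih
    have hodd : Odd (orderOf (x ^ (2 ^ j))) := Odd.of_dvd_nat hx (orderOf_pow_dvd _)
    apply commute_of_commute_sq hodd
    rw [← pow_mul, ← pow_succ]
    exact h

/-- Let G be a finite group, V a nontrivial elementary abelian 2-subgroup of G satisfying the Sidki pair condition (every odd-order element inverted by an element of V commutes with a nontrivial element of V), and K a normal subgroup of G with V ∩ K = 1. Then the image of V in G/K satisfies the Sidki pair condition in G/K. -/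
theorem result {G : Type*} [Group G] [Finite G] (V K : Subgroup G) [K.Normal] (hV : Cfsg.IsElementaryAbelian 2 V) (hV1 : V ≠ ⊥) (hS : Cfsg.IsSidkiPair V) (hVK : V ⊓ K = ⊥) : Cfsg.IsSidkiPair (V.map (QuotientGroup.mk' K)) := by
  intro hbar vbar hvbar hodd hinv
  obtain ⟨v, hv, rfl⟩ := Subgroup.mem_map.mp hvbar
  obtain ⟨h, rfl⟩ := QuotientGroup.mk'_surjective K hbar
  have hv2 : v ^ 2 = 1 := hV.2 v hv
  have hvinv : v⁻¹ = v := by
    rw [inv_eq_iff_mul_eq_one, ← pow_two, hv2]
  set π := QuotientGroup.mk' K with hπ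
  -- the element d
  set d : G := (h * v * h⁻¹) * v with hd
  have hdinv : v * d * v⁻¹ = d⁻¹ := by
    have e1 : d⁻¹ = v⁻¹ * (h * v⁻¹ * h⁻¹) := by rw [hd]; group
    rw [e1, hvinv, hd]
    have : v * (h * v * h⁻¹ * v) * v = v * (h * v * h⁻¹) * (v * v) := by group
    rw [this, ← pow_two, hv2, mul_one]
  -- image of d is hbar^2
  have hπd : π d = (π h) ^ 2 := by
    have hπvinv : (π v)⁻¹ = π v := by rw [← map_inv, hvinv]
    have e0 : π v * π h * π v = (π h)⁻¹ := by
      have := hinv
      rw [hπvinv] at this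
      exact this
    have e1 : π v * (π h)⁻¹ * π v = π h := by
      have : π v * (π h)⁻¹ * π v = (π v * π h * π v)⁻¹ := by
        rw [mul_inv_rev, mul_inv_rev, hπvinv, mul_assoc]
      rw [this, e0, inv_inv]
    rw [hd, map_mul, map_mul, map_mul, map_inv, mul_assoc, mul_assoc, ← mul_assoc (π v), e1, pow_two]
  -- odd part
  have hdpos : 0 < orderOf d := orderOf_pos d
  obtain ⟨a, m, hm, hnm⟩ := Nat.exists_eq_two_pow_mul_odd (n := orderOf d) hdpos.ne'
  set d' : G := d ^ (2 ^ a) with hd'
  have hodd' : Odd (orderOf d') := by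
    apply Odd.of_dvd_nat hm
    apply orderOf_dvd_of_pow_eq_one
    rw [hd', ← pow_mul, ← hnm, pow_orderOf_eq_one]
  have hinv' : v * d' * v⁻¹ = d'⁻¹ := by
    rw [hd', ← conj_pow, hdinv, inv_pow]
  obtain ⟨w, hwV, hw1, hwd⟩ := hS d' v hv hodd' hinv'
  refine ⟨π w, Subgroup.mem_map_of_mem _ hwV, ?_, ?_⟩
  · intro h1
    have hwK : w ∈ K := by
      have : (QuotientGroup.mk w : G ⧸ K) = 1 := h1
      exact (QuotientGroup.eq_one_iff w).mp this
    have : w ∈ V ⊓ K := Subgroup.mem_inf.mpr ⟨hwV, hwK⟩
    rw [hVK, Subgroup.mem_bot] at this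
    exact hw1 this
  · have hc : Commute (π w) (π d') := by
      have : π (w * d') = π (d' * w) := by rw [hwd]
      rw [map_mul, map_mul] at this
      exact this
    have hπd' : π d' = (π h) ^ (2 ^ (a + 1)) := by
      rw [hd', map_pow, hπd, ← pow_mul, pow_succ, mul_comm]
    rw [hπd'] at hc
    exact (commute_of_commute_two_pow hodd (a + 1) hc).eq

end Cfsg.Agent.S3012
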