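import Cfsg.Statements.S3013

set_option autoImplicit false
open Cfsg

namespace Cfsg.Agent.S3013

theorem commute_of_commute_sq {G : Type*} [Group G] {w x : G} (hx : Odd (orderOf x))
    (h : Commute w (x ^ 2)) : Commute w x := by
  obtain ⟨k, hk⟩ := hx
  have h1 : x = (x ^ 2) ^ (k + 1) := by
    rw [← pow_mul]
    have : 2 * (k + 1) = orderOf x + 1 := by omega
    rw [this, pow_succ, pow_orderOf_eq_one, one_mul]
  rw [h1]
  exact h.pow_right _

theorem odd_orderOf_mul {G : Type*} [Group G] {x y : G} (hc : Commute x y)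
    (hx : Odd (orderOf x)) (hy : Odd (orderOf y)) : Odd (orderOf (x * y)) := by
  have h1 : orderOf (x * y) ∣ orderOf x * orderOf y :=
    (hc.orderOf_mul_dvd_lcm).trans (Nat.lcm_dvd_mul _ _)
  exact Odd.of_dvd_nat (hx.mul hy) h1

/-- Let G be a finite group and V a nontrivial elementary abelian 2-subgroup of G satisfying the Sidki pair condition. Let v ∈ V and let x be an element of odd order inverted by v, and put C = C_G(v) ∩ C_G(x), the centralizer of the dihedral subgroup generated by v and x. Then C ∩ V is nontrivial and satisfies the Sidki pair condition inside C: every odd-order element of C inverted by an element of C ∩ V commutes with a nontrivial element of C ∩ V. -/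
theorem result {G : Type*} [Group G] [Finite G] (V : Subgroup G) (hV : Cfsg.IsElementaryAbelian 2 V) (hV1 : V ≠ ⊥) (hS : Cfsg.IsSidkiPair V) (v x : G) (hv : v ∈ V) (hx : Odd (orderOf x)) (hinv : v * x * v⁻¹ = x⁻¹) (C : Subgroup G) (hC : C = Subgroup.centralizer ({v} : Set G) ⊓ Subgroup.centralizer ({x} : Set G)) : C ⊓ V ≠ ⊥ ∧ Cfsg.IsSidkiPair ((C ⊓ V).subgroupOf C) := by
  have : IsMulCommutative V := hV.1
  have hcomm : ∀ a ∈ V, ∀ b ∈ V, a * b = b * a := fun a ha b hb => setLike_mul_comm ha hb
  have memC : ∀ g : G, g ∈ C ↔ v * g = g * v ∧ x * g = g * x := by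
    intro g
    rw [hC, Subgroup.mem_inf, Subgroup.mem_centralizer_iff, Subgroup.mem_centralizer_iff]
    simp
  constructor
  · obtain ⟨w, hwV, hw1, hwx⟩ := hS x v hv hx hinv
    intro hbot
    have hw : w ∈ C ⊓ V := by
      refine Subgroup.mem_inf.mpr ⟨(memC w).mpr ⟨hcomm v hv w hwV, hwx.symm⟩, hwV⟩
    rw [hbot, Subgroup.mem_bot] at hw
    exact hw1 hw
  · intro h u hu hodd hinvh
    rw [Subgroup.mem_subgroupOf, Subgroup.mem_inf] at hu
    obtain ⟨huC, huV⟩ := hu
    have hhC : (h : G) ∈ C := h.2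
    obtain ⟨hvh, hxh⟩ := (memC h).mp hhC
    obtain ⟨hvu, hxu⟩ := (memC u).mp huC
    have hodd' : Odd (orderOf (h : G)) := by
      rwa [Subgroup.orderOf_coe]
    have hinv' : (u : G) * (h : G) * (u : G)⁻¹ = (h : G)⁻¹ := by
      have := congrArg (Subtype.val) hinvh
      simpa using this
    -- x and h commute
    have hcxh : Commute x (h : G) := hxh
    have hoddxh : Odd (orderOf (x * (h : G))) := odd_orderOf_mul hcxh hx hodd'
    -- u * v inverts x * h
    have hux : (u : G) * x * (u : G)⁻¹ = x := by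
      rw [← hxu, mul_assoc, mul_inv_cancel, mul_one]
    have hvh' : v * (h : G) * v⁻¹ = (h : G) := by
      rw [hvh, mul_assoc, mul_inv_cancel, mul_one]
    have hinvxh : ((u : G) * v) * (x * (h : G)) * ((u : G) * v)⁻¹ = (x * (h : G))⁻¹ := by
      have e1 : ((u : G) * v) * (x * (h : G)) * ((u : G) * v)⁻¹
          = ((u : G) * (v * x * v⁻¹) * (u : G)⁻¹) * ((u : G) * (v * (h : G) * v⁻¹) * (u : G)⁻¹) := by
        group
      rw [e1, hinv, hvh', hinv']
      have e2 : (u : G) * x⁻¹ * (u : G)⁻¹ = x⁻¹ := by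
        have : (u : G) * x⁻¹ * (u : G)⁻¹ = ((u : G) * x * (u : G)⁻¹)⁻¹ := by group
        rw [this, hux]
      rw [e2, mul_inv_rev]
      exact (hcxh.inv_inv).eq
    obtain ⟨w, hwV, hw1, hwxh⟩ := hS (x * (h : G)) ((u : G) * v) (V.mul_mem huV hv) hoddxh hinvxh
    -- w commutes with u
    have hwu : w * (u : G) = (u : G) * w := hcomm w hwV u huV
    have hc1 : Commute w (x * (h : G)) := hwxh
    -- w commutes with u * (x*h) * u⁻¹ = x * h⁻¹
    have hc2 : Commute w (x * (h : G)⁻¹) := by
      have e : x * (h : G)⁻¹ = (u : G) * (x * (h : G)) * (u : G)⁻¹ := by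
        have : (u : G) * (x * (h : G)) * (u : G)⁻¹
            = ((u : G) * x * (u : G)⁻¹) * ((u : G) * (h : G) * (u : G)⁻¹) := by group
        rw [this, hux, hinv']
      rw [e]
      have hcu : Commute w (u : G) := hwu
      exact (hcu.mul_right hc1).mul_right hcu.inv_right
    have hx2 : Commute w (x ^ 2) := by
      have e : x ^ 2 = (x * (h : G)) * (x * (h : G)⁻¹) := by
        have : (x * (h : G)) * (x * (h : G)⁻¹) = x * ((h : G) * x) * (h : G)⁻¹ := by group
        rw [this, ← hcxh.eq, pow_two]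
        simp [mul_assoc]
      rw [e]
      exact hc1.mul_right hc2
    have hh2 : Commute w ((h : G) ^ 2) := by
      have e : (h : G) ^ 2 = (x * (h : G)) * (x * (h : G)⁻¹)⁻¹ := by
        have : (x * (h : G)) * (x * (h : G)⁻¹)⁻¹ = (x * (h : G)) * (h : G) * x⁻¹ := by group
        rw [this, hcxh.eq, mul_assoc, mul_assoc, ← mul_assoc x, hcxh.eq, pow_two]
        simp [mul_assoc]
      rw [e]
      exact hc1.mul_right hc2.inv_right
    have hwx : Commute w x := commute_of_commute_sq hx hx2
    have hwh : Commute w (h : G) := commute_of_commute_sq hodd' hh2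
    have hwC : w ∈ C := (memC w).mpr ⟨hcomm v hv w hwV, hwx.eq.symm⟩
    refine ⟨⟨w, hwC⟩, ?_, ?_, ?_⟩
    · rw [Subgroup.mem_subgroupOf, Subgroup.mem_inf]
      exact ⟨hwC, hwV⟩
    · intro h1
      apply hw1
      have := congrArg Subtype.val h1
      simpa using this
    · apply Subtype.ext
      simpa using hwh.eq

end Cfsg.Agent.S3013
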