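import Cfsg.Statements.S3014
import Cfsg.Agent.Helper50.TransferFrob
import Cfsg.Agent.Helper50.Basic

set_option autoImplicit false
open Cfsg

namespace Cfsg.Agent.S3014

/-- Let G be a finite group and H ≤ M ≤ G subgroups such that for every g ∈ G the subgroup generated by H and g H g⁻¹ meets M exactly in H. If H is a maximal subgroup of M and M is a maximal subgroup of G, then the normal closure of H in G meets M exactly in H. -/
theorem result {G : Type*} [Group G] [Finite G] (H M : Subgroup G) (hHM : H ≤ M) (hcl : ∀ g : G, (H ⊔ H.map (MulAut.conj g).toMonoidHom) ⊓ M = H) (hmaxH : IsCoatom (H.subgroupOf M)) (hmaxM : IsCoatom M) : Subgroup.normalClosure (H : Set G) ⊓ M = H := by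
  open Cfsg.Agent.Helper50 in
  -- M normalizes H
  have hMN : M ≤ Subgroup.normalizer (H : Set G) := by
    intro g hg
    apply mem_normalizer_of_conj_mem
    intro h hh
    have h1 : H ⊔ H.map (MulAut.conj g).toMonoidHom ≤ M := by
      apply sup_le hHM
      intro y hy
      obtain ⟨h', hh', rfl⟩ := (mem_map_conj H g y).mp hy
      exact M.mul_mem (M.mul_mem hg (hHM hh')) (M.inv_mem hg)
    have h2 := hcl g
    rw [inf_eq_left.mpr h1] at h2
    have h3 : g * h * g⁻¹ ∈ H ⊔ H.map (MulAut.conj g).toMonoidHom :=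
      Subgroup.mem_sup_right (conj_mem_map_conj H g hh)
    exact h2.le h3
  -- maximality of H in M
  have hgen : ∀ J : Subgroup G, H ≤ J → J ≤ M → ∀ x ∈ J, x ∉ H → M ≤ J := by
    intro J hHJ hJM x hxJ hxH
    rw [← Subgroup.subgroupOf_eq_top]
    apply hmaxH.2
    refine lt_of_le_of_ne ?_ ?_
    · intro y hy
      exact Subgroup.mem_subgroupOf.mpr (hHJ (Subgroup.mem_subgroupOf.mp hy))
    · intro he
      apply hxH
      have h1 : (⟨x, hJM hxJ⟩ : M) ∈ J.subgroupOf M := Subgroup.mem_subgroupOf.mpr hxJ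
      rw [← he] at h1
      exact Subgroup.mem_subgroupOf.mp h1
  apply le_antisymm
  swap
  · exact le_inf Subgroup.le_normalClosure hHM
  by_cases hcase : ∃ x : G, x ∉ M ∧ ∃ m ∈ M, x⁻¹ * m * x ∈ M ∧ m ∉ H
  · -- Case I
    obtain ⟨x, hxM, m, hmM, hmx, hmH⟩ := hcase
    have hKM : (H ⊔ H.map (MulAut.conj x).toMonoidHom) ⊓ M = H := hcl x
    have hmHx : m ∉ H.map (MulAut.conj x).toMonoidHom := by
      intro h
      apply hmH
      have h1 : m ∈ (H ⊔ H.map (MulAut.conj x).toMonoidHom) ⊓ M :=
        Subgroup.mem_inf.mpr ⟨Subgroup.mem_sup_right h, hmM⟩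
      exact hKM.le h1
    have hmNH : m ∈ Subgroup.normalizer (H : Set G) := hMN hmM
    have hmNHx : m ∈ Subgroup.normalizer
        ((H.map (MulAut.conj x).toMonoidHom : Subgroup G) : Set G) := by
      apply mem_normalizer_of_conj_mem
      intro y hy
      obtain ⟨h, hh, rfl⟩ := (mem_map_conj H x y).mp hy
      have h1 : (x⁻¹ * m * x) * h * (x⁻¹ * m * x)⁻¹ ∈ H :=
        (Subgroup.mem_normalizer_iff.mp (hMN hmx) h).mp hh
      have h2 : m * (x * h * x⁻¹) * m⁻¹ = x * ((x⁻¹ * m * x) * h * (x⁻¹ * m * x)⁻¹) * x⁻¹ := by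
        group
      rw [h2]
      exact conj_mem_map_conj H x h1
    have hmNK : m ∈ Subgroup.normalizer
        ((H ⊔ H.map (MulAut.conj x).toMonoidHom : Subgroup G) : Set G) := by
      apply mem_normalizer_of_map_conj_eq
      rw [Subgroup.map_sup, map_conj_eq_of_mem_normalizer H m hmNH,
        map_conj_eq_of_mem_normalizer _ m hmNHx]
    have hM_NK : M ≤ Subgroup.normalizer
        ((H ⊔ H.map (MulAut.conj x).toMonoidHom : Subgroup G) : Set G) := by
      have h1 : M ≤ H ⊔ Subgroup.zpowers m :=
        hgen _ le_sup_left (sup_le hHM (Subgroup.zpowers_le.mpr hmM)) m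
          (Subgroup.mem_sup_right (Subgroup.mem_zpowers m)) hmH
      exact le_trans h1 (sup_le (le_trans le_sup_left Subgroup.le_normalizer)
        (Subgroup.zpowers_le.mpr hmNK))
    have hNK_nle : ¬ Subgroup.normalizer
        ((H ⊔ H.map (MulAut.conj x).toMonoidHom : Subgroup G) : Set G) ≤ M := by
      intro hle
      by_cases hMx : M.map (MulAut.conj x).toMonoidHom ≤ M
      · have hHxM : H.map (MulAut.conj x).toMonoidHom ≤ M :=
          le_trans (Subgroup.map_mono hHM) hMx
        have hKle : H ⊔ H.map (MulAut.conj x).toMonoidHom ≤ M := sup_le hHM hHxM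
        have hKH : H ⊔ H.map (MulAut.conj x).toMonoidHom = H := by
          rw [inf_eq_left.mpr hKle] at hKM
          exact hKM
        have hxN : x ∈ Subgroup.normalizer (H : Set G) := by
          apply mem_normalizer_of_conj_mem
          intro h hh
          have h1 : x * h * x⁻¹ ∈ H ⊔ H.map (MulAut.conj x).toMonoidHom :=
            Subgroup.mem_sup_right (conj_mem_map_conj H x hh)
          exact hKH.le h1
        have hxN' : x ∈ Subgroup.normalizer
            ((H ⊔ H.map (MulAut.conj x).toMonoidHom : Subgroup G) : Set G) := by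
          rw [hKH]; exact hxN
        exact hxM (hle hxN')
      · apply hMx
        refine le_trans ?_ hle
        have hm'H : x⁻¹ * m * x ∉ H := by
          intro h
          apply hmHx
          rw [mem_map_conj]
          exact ⟨x⁻¹ * m * x, h, by group⟩
        have h1 : M ≤ H ⊔ Subgroup.zpowers (x⁻¹ * m * x) :=
          hgen _ le_sup_left (sup_le hHM (Subgroup.zpowers_le.mpr hmx)) (x⁻¹ * m * x)
            (Subgroup.mem_sup_right (Subgroup.mem_zpowers _)) hm'H
        have h2 : M.map (MulAut.conj x).toMonoidHom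
            ≤ H.map (MulAut.conj x).toMonoidHom ⊔ Subgroup.zpowers m := by
          refine le_trans (Subgroup.map_mono h1) ?_
          rw [Subgroup.map_sup, MonoidHom.map_zpowers]
          have h3 : (MulAut.conj x).toMonoidHom (x⁻¹ * m * x) = m := by
            simp only [MulEquiv.coe_toMonoidHom, MulAut.conj_apply]
            group
          rw [h3]
        exact le_trans h2 (sup_le (le_trans le_sup_right Subgroup.le_normalizer)
          (Subgroup.zpowers_le.mpr hmNK))
    have hNKtop : Subgroup.normalizer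
        ((H ⊔ H.map (MulAut.conj x).toMonoidHom : Subgroup G) : Set G) = ⊤ := by
      apply hmaxM.2
      refine lt_of_le_of_ne hM_NK ?_
      intro h
      exact hNK_nle h.ge
    have : (H ⊔ H.map (MulAut.conj x).toMonoidHom).Normal :=
      Subgroup.normalizer_eq_top_iff.mp hNKtop
    have hNK : Subgroup.normalClosure (H : Set G) ≤ H ⊔ H.map (MulAut.conj x).toMonoidHom :=
      Subgroup.normalClosure_le_normal
        (SetLike.coe_subset_coe.mpr (le_sup_left : H ≤ H ⊔ H.map (MulAut.conj x).toMonoidHom))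
    calc Subgroup.normalClosure (H : Set G) ⊓ M
        ≤ (H ⊔ H.map (MulAut.conj x).toMonoidHom) ⊓ M := inf_le_inf_right _ hNK
      _ = H := hKM
  · -- Case II: transfer
    have hfrob : ∀ x : G, x ∉ M → ∀ m ∈ M, x⁻¹ * m * x ∈ M → m ∈ H := by
      intro x hx m hm hmx
      by_contra hmH
      exact hcase ⟨x, hx, m, hm, hmx, hmH⟩
    have hex : ∃ m₀ ∈ M, m₀ ∉ H := by
      by_contra hno
      apply hmaxH.1
      rw [Subgroup.subgroupOf_eq_top]
      intro y hy
      by_contra hyH
      exact hno ⟨y, hy, hyH⟩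
    obtain ⟨m₀, hm₀M, hm₀H⟩ := hex
    have hgen' : M ≤ H ⊔ Subgroup.zpowers m₀ :=
      hgen _ le_sup_left (sup_le hHM (Subgroup.zpowers_le.mpr hm₀M)) m₀
        (Subgroup.mem_sup_right (Subgroup.mem_zpowers m₀)) hm₀H
    obtain ⟨N, hN, hNM⟩ := exists_normal_inf_eq_of_frobenius_like H M hHM hMN m₀ hm₀M hgen' hfrob
    have := hN
    have hHN : H ≤ N := by rw [← hNM]; exact inf_le_left
    have hNK : Subgroup.normalClosure (H : Set G) ≤ N :=
      Subgroup.normalClosure_le_normal (SetLike.coe_subset_coe.mpr hHN)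
    calc Subgroup.normalClosure (H : Set G) ⊓ M ≤ N ⊓ M := inf_le_inf_right _ hNK
      _ = H := hNM

end Cfsg.Agent.S3014
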