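import Cfsg.Statements.S3015
import Cfsg.Agent.S3014

set_option autoImplicit false
set_option linter.style.haveILetI false
open Cfsg

namespace Cfsg.Agent.S3015

open Cfsg.Agent.Helper50 in
theorem mem_of_pow_mem_of_coprime {G : Type*} [Group G] {K : Subgroup G} {x : G} {a b : ℕ}
    (hab : a.Coprime b) (ha : x ^ a ∈ K) (hb : x ^ b ∈ K) : x ∈ K := by
  have h := Nat.gcd_eq_gcd_ab a b
  rw [hab.gcd_eq_one, Nat.cast_one] at h
  have e : x = (x ^ a) ^ (a.gcdA b) * (x ^ b) ^ (a.gcdB b) := by
    rw [← zpow_natCast, ← zpow_natCast, ← zpow_mul, ← zpow_mul, ← zpow_add, ← h, zpow_one]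
  rw [e]
  exact K.mul_mem (K.zpow_mem ha _) (K.zpow_mem hb _)

/-- a finite simple non-abelian group is not a `p`-group -/
theorem not_isPGroup {G : Type*} [Group G] [Finite G] [IsSimpleGroup G]
    (hG : ¬ IsMulCommutative G) (r : ℕ) [Fact r.Prime] : ¬ IsPGroup r G := by
  intro hp
  haveI : Nontrivial G := IsSimpleGroup.toNontrivial
  haveI := hp.center_nontrivial
  rcases (inferInstance : (Subgroup.center G).Normal).eq_bot_or_eq_top with h | h
  · exact (Subgroup.nontrivial_iff_ne_bot _).mp inferInstance h
  · exact hG (Subgroup.center_eq_top_iff.mp h)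

/-- a subgroup strictly containing a maximal subgroup, given by an element outside -/
theorem eq_top_of_coatom {G : Type*} [Group G] {M : Subgroup G} (hmaxM : IsCoatom M)
    {N : Subgroup G} (hMN : M ≤ N) {g : G} (hgN : g ∈ N) (hgM : g ∉ M) : N = ⊤ := by
  apply hmaxM.2
  refine lt_of_le_of_ne hMN ?_
  intro h
  exact hgM (h ▸ hgN)

/-- Let G be a finite non-abelian simple group, M a maximal subgroup of G and H a normal subgroup of M of prime index in M. Then G is generated by H together with one of its conjugates. -/
theorem result {G : Type*} [Group G] [Finite G] [IsSimpleGroup G] (hG : ¬ IsMulCommutative G) (M H : Subgroup G) (hmaxM : IsCoatom M) (hHM : H ≤ M) (hHn : (H.subgroupOf M).Normal) (hidx : (H.relIndex M).Prime) : ∃ g : G, H ⊔ H.map (MulAut.conj g).toMonoidHom = ⊤ := by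
  open Cfsg.Agent.Helper50 in
  classical
  have hidx' : ((H.subgroupOf M).index).Prime := hidx
  set r := (H.subgroupOf M).index with hr
  haveI : Fact r.Prime := ⟨hidx'⟩
  have hMN : M ≤ Subgroup.normalizer (H : Set G) :=
    (Subgroup.normal_subgroupOf_iff_le_normalizer hHM).mp hHn
  have hcardH' : Nat.card ↥(H.subgroupOf M) = Nat.card H :=
    Nat.card_congr (Subgroup.subgroupOfEquivOfLe hHM).toEquiv
  have hcardM : Nat.card H * r = Nat.card M := by
    rw [← hcardH']; exact Subgroup.card_mul_index _
  -- H is maximal in M
  have hcoH : IsCoatom (H.subgroupOf M) := by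
    constructor
    · intro h
      rw [← Subgroup.index_eq_one] at h
      exact hidx'.one_lt.ne' h
    · intro J hJ
      have h1 : J.index ∣ r := Subgroup.index_dvd_of_le hJ.le
      rcases (Nat.dvd_prime hidx').mp h1 with h2 | h2
      · exact Subgroup.index_eq_one.mp h2
      · exfalso
        have h3 := Subgroup.card_mul_index J
        have h4 := Subgroup.card_mul_index (H.subgroupOf M)
        rw [h2] at h3
        rw [← hr, ← h3] at h4
        have h5 : Nat.card ↥(H.subgroupOf M) = Nat.card J :=
          Nat.eq_of_mul_eq_mul_right hidx'.pos h4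
        exact hJ.ne (Subgroup.eq_of_le_of_card_ge hJ.le h5.ge)
  have hMtop : M ≠ ⊤ := hmaxM.1
  have hHneM : H ≠ M := by
    intro h
    apply hcoH.1
    rw [Subgroup.subgroupOf_eq_top, h]
  by_cases hH : H = ⊥
  · -- Case A: H = 1, M has prime order
    exfalso
    have hcM : Nat.card M = r := by rw [← hcardM, hH, Subgroup.card_bot, one_mul]
    have hMp : IsPGroup r M := IsPGroup.of_card (n := 1) (by rw [hcM, pow_one])
    obtain ⟨P, hP⟩ := hMp.exists_le_sylow
    have hPtop : (P : Subgroup G) ≠ ⊤ := by
      intro h
      apply not_isPGroup hG r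
      have h1 : IsPGroup r (⊤ : Subgroup G) := h ▸ P.isPGroup'
      exact h1.of_equiv Subgroup.topEquiv
    have hMP : M = P := by
      by_contra hne
      exact hPtop (hmaxM.2 _ (lt_of_le_of_ne hP hne))
    have hMbot : M ≠ ⊥ := by
      intro h
      rw [h, Subgroup.card_bot] at hcM
      exact hidx'.one_lt.ne hcM
    have hMcomm : ∀ a ∈ M, ∀ b ∈ M, a * b = b * a := by
      haveI : IsCyclic ↥M := isCyclic_of_prime_card hcM
      intro a ha b hb
      have := (IsCyclic.commGroup (α := ↥M)).mul_comm ⟨a, ha⟩ ⟨b, hb⟩
      exact congrArg Subtype.val this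
    have hNM : Subgroup.normalizer (M : Set G) ≤ M := by
      intro g hg
      by_contra hgM
      have h1 := eq_top_of_coatom hmaxM Subgroup.le_normalizer hg hgM
      have h2 : M.Normal := Subgroup.normalizer_eq_top_iff.mp h1
      rcases h2.eq_bot_or_eq_top with h | h
      · exact hMbot h
      · exact hMtop h
    have hPN : Subgroup.normalizer ((P : Subgroup G) : Set G)
        ≤ Subgroup.centralizer ((P : Subgroup G) : Set G) := by
      rw [← hMP]
      intro x hx
      rw [Subgroup.mem_centralizer_iff]
      intro y hy
      exact hMcomm y hy x (hNM hx)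
    have hcomp := MonoidHom.ker_transferSylow_isComplement' P hPN
    rcases (inferInstance : (MonoidHom.transferSylow P hPN).ker.Normal).eq_bot_or_eq_top
      with h | h
    · rw [h, Subgroup.isComplement'_bot_left] at hcomp
      exact hPtop hcomp
    · rw [h, Subgroup.isComplement'_top_left] at hcomp
      exact hMbot (hMP.trans hcomp)
  · -- Case B: H ≠ 1
    by_contra hno
    rw [not_exists] at hno
    have hMbot : M ≠ ⊥ := by
      intro h
      apply hH
      rw [eq_bot_iff, ← h]
      exact hHM
    have hNM : Subgroup.normalizer (M : Set G) ≤ M := by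
      intro g hg
      by_contra hgM
      have h1 := eq_top_of_coatom hmaxM Subgroup.le_normalizer hg hgM
      have h2 : M.Normal := Subgroup.normalizer_eq_top_iff.mp h1
      rcases h2.eq_bot_or_eq_top with h | h
      · exact hMbot h
      · exact hMtop h
    -- r'-elements of M lie in H
    have hrH : ∀ x ∈ M, (orderOf x).Coprime r → x ∈ H := by
      intro x hx hcop
      have h1 : (⟨x, hx⟩ : ↥M) ^ r ∈ H.subgroupOf M := Subgroup.pow_index_mem _ _
      have h2 : (⟨x, hx⟩ : ↥M) ^ (orderOf x) ∈ H.subgroupOf M := by
        have : (⟨x, hx⟩ : ↥M) ^ (orderOf x) = 1 := by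
          apply Subtype.ext
          simp [pow_orderOf_eq_one]
        rw [this]; exact Subgroup.one_mem _
      exact Subgroup.mem_subgroupOf.mp (mem_of_pow_mem_of_coprime hcop h2 h1)
    by_cases hcase : ∃ g : G, g ∉ M ∧ H.map (MulAut.conj g).toMonoidHom ≤ M
    · obtain ⟨g, hgM, hHg⟩ := hcase
      -- M^g is not contained in M
      have hMg : ¬ M.map (MulAut.conj g).toMonoidHom ≤ M := by
        intro hle
        apply hgM
        apply hNM
        apply mem_normalizer_of_conj_mem
        intro m hm
        exact hle (conj_mem_map_conj M g hm)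
      -- the subgroup generated by the r'-elements of M
      set O : Subgroup G := Subgroup.closure {x : G | x ∈ M ∧ (orderOf x).Coprime r} with hO
      have hOH : O ≤ H := by
        rw [hO, Subgroup.closure_le]
        rintro x ⟨hxM, hxc⟩
        exact hrH x hxM hxc
      have hconj_order : ∀ (y x : G), orderOf (y * x * y⁻¹) = orderOf x := by
        intro y x
        exact (MulAut.conj y).orderOf_eq x
      have hgO : g ∈ Subgroup.normalizer (O : Set G) := by
        apply mem_normalizer_of_conj_mem
        have hle : O.map (MulAut.conj g).toMonoidHom ≤ O := by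
          rw [hO, MonoidHom.map_closure, Subgroup.closure_le]
          rintro _ ⟨x, ⟨hxM, hxc⟩, rfl⟩
          apply Subgroup.subset_closure
          simp only [MulEquiv.coe_toMonoidHom, MulAut.conj_apply]
          refine ⟨hHg (conj_mem_map_conj H g (hrH x hxM hxc)), ?_⟩
          rw [hconj_order]; exact hxc
        intro o ho
        exact hle (conj_mem_map_conj O g ho)
      have hMO : M ≤ Subgroup.normalizer (O : Set G) := by
        intro m hm
        apply mem_normalizer_of_conj_mem
        have hle : O.map (MulAut.conj m).toMonoidHom ≤ O := by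
          rw [hO, MonoidHom.map_closure, Subgroup.closure_le]
          rintro _ ⟨x, ⟨hxM, hxc⟩, rfl⟩
          apply Subgroup.subset_closure
          simp only [MulEquiv.coe_toMonoidHom, MulAut.conj_apply]
          refine ⟨M.mul_mem (M.mul_mem hm hxM) (M.inv_mem hm), ?_⟩
          rw [hconj_order]; exact hxc
        intro o ho
        exact hle (conj_mem_map_conj O m ho)
      have hOn : O.Normal :=
        Subgroup.normalizer_eq_top_iff.mp (eq_top_of_coatom hmaxM hMO hgO hgM)
      have hObot : O = ⊥ := by
        rcases hOn.eq_bot_or_eq_top with h | h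
        · exact h
        · exfalso
          apply hMtop
          rw [eq_top_iff, ← h]
          exact le_trans hOH hHM
      -- M is an r-group
      have hMp : IsPGroup r M := by
        intro x
        have hne : orderOf (x : G) ≠ 0 := (orderOf_pos (x : G)).ne'
        obtain ⟨e, n', hn', he⟩ := Nat.exists_eq_pow_mul_and_not_dvd hne r hidx'.one_lt.ne'
        refine ⟨e, ?_⟩
        have h1 : ((x : G) ^ (r ^ e)) ^ n' = 1 := by
          rw [← pow_mul, ← he]; exact pow_orderOf_eq_one _
        have h2 : (orderOf ((x : G) ^ (r ^ e))).Coprime r :=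
          Nat.Coprime.coprime_dvd_left (orderOf_dvd_of_pow_eq_one h1)
            ((Nat.Prime.coprime_iff_not_dvd hidx').mpr hn').symm
        have h3 : (x : G) ^ (r ^ e) ∈ O :=
          Subgroup.subset_closure ⟨M.pow_mem x.2 _, h2⟩
        rw [hObot, Subgroup.mem_bot] at h3
        exact Subtype.ext h3
      -- H^g is normal in M
      obtain ⟨k, hk⟩ := IsPGroup.iff_card.mp hMp
      have hk0 : k ≠ 0 := by
        intro h
        rw [h, pow_zero] at hk
        exact hMbot (Subgroup.card_eq_one.mp hk)
      have hHgidx : ((H.map (MulAut.conj g).toMonoidHom).subgroupOf M).index = r := by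
        have h1 := Subgroup.card_mul_index ((H.map (MulAut.conj g).toMonoidHom).subgroupOf M)
        have h2 : Nat.card ↥((H.map (MulAut.conj g).toMonoidHom).subgroupOf M) = Nat.card H := by
          rw [Nat.card_congr (Subgroup.subgroupOfEquivOfLe hHg).toEquiv, card_map_conj]
        rw [h2, ← hcardM] at h1
        exact Nat.eq_of_mul_eq_mul_left Nat.card_pos h1
      have hHgn : ((H.map (MulAut.conj g).toMonoidHom).subgroupOf M).Normal := by
        apply Subgroup.normal_of_index_eq_minFac_card
        rw [hHgidx, hk, Nat.Prime.pow_minFac hidx' hk0]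
      have hM_NHg : M ≤ Subgroup.normalizer
          ((H.map (MulAut.conj g).toMonoidHom : Subgroup G) : Set G) :=
        (Subgroup.normal_subgroupOf_iff_le_normalizer hHg).mp hHgn
      have hMg_NHg : M.map (MulAut.conj g).toMonoidHom ≤ Subgroup.normalizer
          ((H.map (MulAut.conj g).toMonoidHom : Subgroup G) : Set G) := by
        intro y hy
        obtain ⟨m, hm, rfl⟩ := (mem_map_conj M g y).mp hy
        apply mem_normalizer_of_conj_mem
        intro x hx
        obtain ⟨h, hh, rfl⟩ := (mem_map_conj H g x).mp hx
        have h1 : m * h * m⁻¹ ∈ H := (Subgroup.mem_normalizer_iff.mp (hMN hm) h).mp hh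
        have h2 : g * m * g⁻¹ * (g * h * g⁻¹) * (g * m * g⁻¹)⁻¹ = g * (m * h * m⁻¹) * g⁻¹ := by
          group
        rw [h2]
        exact conj_mem_map_conj H g h1
      have hex : ∃ y ∈ M.map (MulAut.conj g).toMonoidHom, y ∉ M := by
        by_contra hno'
        apply hMg
        intro y hy
        by_contra hyM
        exact hno' ⟨y, hy, hyM⟩
      obtain ⟨y, hyMg, hyM⟩ := hex
      have hHgN : (H.map (MulAut.conj g).toMonoidHom).Normal :=
        Subgroup.normalizer_eq_top_iff.mp (eq_top_of_coatom hmaxM hM_NHg (hMg_NHg hyMg) hyM)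
      rcases hHgN.eq_bot_or_eq_top with h | h
      · apply hH
        rw [← Subgroup.card_eq_one, ← card_map_conj H g, h, Subgroup.card_bot]
      · apply hMtop
        rw [eq_top_iff, ← h]
        exact hHg
    · -- the hypothesis of S3014 holds
      have hcase' : ∀ g : G, g ∉ M → ¬ H.map (MulAut.conj g).toMonoidHom ≤ M := by
        intro g hg hle
        exact hcase ⟨g, hg, hle⟩
      have hcl : ∀ g : G, (H ⊔ H.map (MulAut.conj g).toMonoidHom) ⊓ M = H := by
        intro g
        by_cases hg : g ∈ M
        · rw [map_conj_eq_of_mem_normalizer H g (hMN hg), sup_idem]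
          exact inf_eq_left.mpr hHM
        · apply le_antisymm
          · by_contra hnle
            have hex : ∃ x ∈ (H ⊔ H.map (MulAut.conj g).toMonoidHom) ⊓ M, x ∉ H := by
              by_contra hno'
              apply hnle
              intro x hx
              by_contra hxH
              exact hno' ⟨x, hx, hxH⟩
            obtain ⟨x, hx, hxH⟩ := hex
            have h1 : M ≤ (H ⊔ H.map (MulAut.conj g).toMonoidHom) ⊓ M := by
              rw [← Subgroup.subgroupOf_eq_top]
              apply hcoH.2
              refine lt_of_le_of_ne ?_ ?_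
              · intro y hy
                exact Subgroup.mem_subgroupOf.mpr (Subgroup.mem_inf.mpr
                  ⟨Subgroup.mem_sup_left (Subgroup.mem_subgroupOf.mp hy), y.2⟩)
              · intro he
                apply hxH
                have h1 : (⟨x, (Subgroup.mem_inf.mp hx).2⟩ : M)
                    ∈ ((H ⊔ H.map (MulAut.conj g).toMonoidHom) ⊓ M).subgroupOf M :=
                  Subgroup.mem_subgroupOf.mpr hx
                rw [← he] at h1
                exact Subgroup.mem_subgroupOf.mp h1
            have h2 : M ≤ H ⊔ H.map (MulAut.conj g).toMonoidHom := le_trans h1 inf_le_left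
            have h3 : H ⊔ H.map (MulAut.conj g).toMonoidHom = M := by
              by_contra hne
              exact hno g (hmaxM.2 _ (lt_of_le_of_ne h2 (Ne.symm hne)))
            apply hcase' g hg
            rw [← h3]
            exact le_sup_right
          · exact le_inf le_sup_left hHM
      have h14 := Cfsg.Agent.S3014.result H M hHM hcl hcoH hmaxM
      have hnc : Subgroup.normalClosure (H : Set G) = ⊤ := by
        rcases (Subgroup.normalClosure_normal (s := (H : Set G))).eq_bot_or_eq_top with h | h
        · exfalso
          apply hH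
          rw [eq_bot_iff, ← h]
          exact Subgroup.le_normalClosure
        · exact h
      rw [hnc, top_inf_eq] at h14
      exact hHneM h14.symm

end Cfsg.Agent.S3015
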