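import Cfsg.Statements.S3020
import Mathlib.GroupTheory.Transfer

set_option autoImplicit false
open Cfsg

namespace Cfsg.Agent.S3020

/-- a self-normalizing `p`-subgroup has index prime to `p` -/
theorem not_dvd_index_of_normalizer_le {T : Type*} [Group T] [Finite T] {p : ℕ} [Fact p.Prime]
    (H : Subgroup T) (hH : IsPGroup p H) (hN : Subgroup.normalizer (H : Set T) ≤ H) :
    ¬ p ∣ H.index := by
  obtain ⟨n, hn⟩ := hH.exists_card_eq
  have h1 := Sylow.card_quotient_normalizer_modEq_card_quotient (G := T) hn
  have h2 : Nat.card (↥(Subgroup.normalizer (H : Set T)) ⧸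
      H.comap (Subgroup.normalizer (H : Set T)).subtype) = 1 := by
    have : H.comap (Subgroup.normalizer (H : Set T)).subtype = ⊤ := by
      rw [eq_top_iff]
      intro x _
      exact hN x.2
    rw [this, ← Subgroup.index_eq_card, Subgroup.index_top]
  rw [h2, ← Subgroup.index_eq_card] at h1
  intro hdvd
  have h3 : H.index ≡ 0 [MOD p] := (Nat.modEq_zero_iff_dvd).mpr hdvd
  have h4 : 1 ≡ 0 [MOD p] := h1.trans h3
  have h5 : p ∣ 1 := (Nat.modEq_zero_iff_dvd).mp h4
  exact (Fact.out : p.Prime).one_lt.ne' (Nat.dvd_one.mp h5)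

/-- Burnside: a self-normalizing abelian `p`-subgroup `H` has a normal complement `K` of order prime
to `p`, and `K` is the `p'`-core. -/
theorem burnside_core {T : Type*} [Group T] [Finite T] {p : ℕ} [Fact p.Prime]
    (H : Subgroup T) (hH : IsPGroup p H) (hab : IsMulCommutative H)
    (hN : Subgroup.normalizer (H : Set T) ≤ H) :
    H ⊔ Cfsg.pPrimeCore p T = ⊤ ∧ H ⊓ Cfsg.pPrimeCore p T = ⊥ := by
  have hidx := not_dvd_index_of_normalizer_le H hH hN
  set P : Sylow p T := hH.toSylow hidx with hPdef
  have hPH : (P : Subgroup T) = H := rfl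
  have hP : Subgroup.normalizer ((P : Subgroup T) : Set T) ≤ Subgroup.centralizer ((P : Subgroup T) : Set T) := by
    intro x hx
    have hxH : x ∈ H := hN hx
    rw [Subgroup.mem_centralizer_iff]
    intro y hy
    exact setLike_mul_comm (s := H) hy hxH
  have hcomp := MonoidHom.ker_transferSylow_isComplement' P hP
  set K := (MonoidHom.transferSylow P hP).ker with hK
  have hKcard : ¬ p ∣ Nat.card K := MonoidHom.not_dvd_card_ker_transferSylow P hP
  have hKle : K ≤ Cfsg.pPrimeCore p T := by
    apply le_sSup
    refine ⟨inferInstance, ?_⟩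
    exact (Nat.Prime.coprime_iff_not_dvd Fact.out).mpr hKcard |>.symm
  have hleK : Cfsg.pPrimeCore p T ≤ K := by
    apply sSup_le
    rintro N ⟨hNn, hNc⟩
    intro n hn
    rw [hK, MonoidHom.mem_ker]
    -- the image of n has order a power of p and dividing card N
    have h1 : orderOf (MonoidHom.transferSylow P hP n) ∣ orderOf n := orderOf_map_dvd _ n
    have h2 : orderOf n ∣ Nat.card N := by
      have : orderOf (⟨n, hn⟩ : N) ∣ Nat.card N := orderOf_dvd_natCard _
      rwa [Subgroup.orderOf_mk] at this
    obtain ⟨k, hk⟩ := IsPGroup.exists_orderOf_eq_pow P.isPGroup' (MonoidHom.transferSylow P hP n)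
    have h3 : p ^ k ∣ Nat.card N := by rw [← hk]; exact h1.trans h2
    have h4 : k = 0 := by
      by_contra hk0
      have : p ∣ Nat.card N := (dvd_pow_self p hk0).trans h3
      exact (Nat.Prime.coprime_iff_not_dvd Fact.out).mp hNc.symm this
    rw [h4, pow_zero] at hk
    exact orderOf_eq_one_iff.mp hk
  have hKeq : Cfsg.pPrimeCore p T = K := le_antisymm hleK hKle
  rw [hKeq]
  constructor
  · rw [sup_comm]; exact hcomp.sup_eq_top
  · rw [inf_comm]; exact disjoint_iff.mp hcomp.disjoint

/-- Let G be a finite group, p a prime and H an abelian p-subgroup of G that is extremely closed (for every g, the subgroup generated by H and g H g⁻¹ meets N_G(H) exactly in H). Then for every g ∈ G, the subgroup T generated by H and g H g⁻¹ is the product of H with O_{p'}(T), and H meets O_{p'}(T) trivially; that is, O_{p'}(T) is a normal p-complement of H in T. -/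
theorem result {G : Type*} [Group G] [Finite G] {p : ℕ} [Fact p.Prime] (H : Subgroup G) (hHp : IsPGroup p H) (hHab : IsMulCommutative H) (hcl : Cfsg.IsExtremelyClosed H) (g : G) (T : Subgroup G) (hT : T = H ⊔ H.map (MulAut.conj g).toMonoidHom) : H ⊔ (Cfsg.pPrimeCore p ↥T).map T.subtype = T ∧ H ⊓ (Cfsg.pPrimeCore p ↥T).map T.subtype = ⊥ := by
  have hHT : H ≤ T := by rw [hT]; exact le_sup_left
  set H' : Subgroup ↥T := H.subgroupOf T with hH'
  have hH'p : IsPGroup p H' := by
    have e : H' ≃* H := Subgroup.subgroupOfEquivOfLe hHT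
    exact hHp.of_equiv e.symm
  have hH'ab : IsMulCommutative H' := by
    rw [hH']; infer_instance
  have hN : Subgroup.normalizer (H' : Set ↥T) ≤ H' := by
    intro x hx
    rw [hH', Subgroup.mem_subgroupOf]
    have hxN : (x : G) ∈ Subgroup.normalizer (H : Set G) := by
      rw [Subgroup.mem_normalizer_iff]
      intro h
      constructor
      · intro hh
        have := (Subgroup.mem_normalizer_iff.mp hx ⟨h, hHT hh⟩).mp
          (by rw [hH', Subgroup.mem_subgroupOf]; exact hh)
        rw [hH', Subgroup.mem_subgroupOf] at this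
        simpa using this
      · intro hh
        have hhT : h ∈ T := by
          have : h = (x : G)⁻¹ * ((x : G) * h * (x : G)⁻¹) * (x : G) := by group
          rw [this]
          exact T.mul_mem (T.mul_mem (T.inv_mem x.2) (hHT hh)) x.2
        have := (Subgroup.mem_normalizer_iff.mp hx ⟨h, hhT⟩).mpr
          (by rw [hH', Subgroup.mem_subgroupOf]; simpa using hh)
        rw [hH', Subgroup.mem_subgroupOf] at this
        exact this
    have hxT : (x : G) ∈ H ⊔ H.map (MulAut.conj g).toMonoidHom := by rw [← hT]; exact x.2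
    have := hcl g
    rw [← this]
    exact Subgroup.mem_inf.mpr ⟨hxT, hxN⟩
  obtain ⟨h1, h2⟩ := burnside_core H' hH'p hH'ab hN
  have hmapH : H'.map T.subtype = H := by
    rw [hH', Subgroup.subgroupOf_map_subtype, inf_eq_left.mpr hHT]
  constructor
  · have := congrArg (Subgroup.map T.subtype) h1
    rw [Subgroup.map_sup, hmapH] at this
    rw [this, ← MonoidHom.range_eq_map, Subgroup.range_subtype]
  · rw [eq_bot_iff]
    intro x hx
    obtain ⟨hxH, hxK⟩ := Subgroup.mem_inf.mp hx
    obtain ⟨k, hk, rfl⟩ := Subgroup.mem_map.mp hxK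
    have hk' : k ∈ H' ⊓ Cfsg.pPrimeCore p ↥T := by
      refine Subgroup.mem_inf.mpr ⟨?_, hk⟩
      rw [hH', Subgroup.mem_subgroupOf]
      exact hxH
    rw [h2, Subgroup.mem_bot] at hk'
    rw [Subgroup.mem_bot, hk']
    rfl

end Cfsg.Agent.S3020
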