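import Cfsg.Statements.S3021
import Mathlib.GroupTheory.Nilpotent

set_option autoImplicit false
open Cfsg

namespace Cfsg.Agent.S3021

theorem mem_map_conj {G : Type*} [Group G] (H : Subgroup G) (g x : G) :
    x ∈ H.map (MulAut.conj g).toMonoidHom ↔ ∃ h ∈ H, g * h * g⁻¹ = x := by
  simp [Subgroup.mem_map]

theorem card_map_conj {G : Type*} [Group G] (H : Subgroup G) (g : G) :
    Nat.card (H.map (MulAut.conj g).toMonoidHom) = Nat.card H :=
  Subgroup.card_map_of_injective (MulAut.conj g).injective

/-- key consequence of extreme closure: a conjugate inside the normalizer is the subgroup itself -/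
theorem conj_eq_of_le_normalizer {G : Type*} [Group G] [Finite G] (H : Subgroup G)
    (hcl : Cfsg.IsExtremelyClosed H) (g : G)
    (hg : H.map (MulAut.conj g).toMonoidHom ≤ Subgroup.normalizer (H : Set G)) :
    H.map (MulAut.conj g).toMonoidHom = H := by
  have h1 : H ⊔ H.map (MulAut.conj g).toMonoidHom ≤ Subgroup.normalizer (H : Set G) :=
    sup_le Subgroup.le_normalizer hg
  have h2 := hcl g
  rw [inf_eq_left.mpr h1] at h2
  have h3 : H.map (MulAut.conj g).toMonoidHom ≤ H := by
    calc H.map (MulAut.conj g).toMonoidHom ≤ H ⊔ H.map (MulAut.conj g).toMonoidHom := le_sup_right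
      _ = H := h2
  exact Subgroup.eq_of_le_of_card_ge h3 (le_of_eq (card_map_conj H g).symm)

theorem mem_normalizer_of_map_conj_eq {G : Type*} [Group G] (H : Subgroup G) (g : G)
    (hg : H.map (MulAut.conj g).toMonoidHom = H) : g ∈ Subgroup.normalizer (H : Set G) := by
  rw [Subgroup.mem_normalizer_iff]
  intro h
  constructor
  · intro hh
    rw [← hg]
    exact (mem_map_conj H g _).mpr ⟨h, hh, rfl⟩
  · intro hh
    rw [← hg] at hh
    obtain ⟨h', hh', he⟩ := (mem_map_conj H g _).mp hh
    have : h' = h := by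
      have := congrArg (fun t => g⁻¹ * t * g) he
      simpa [mul_assoc] using this
    rwa [← this]

/-- a `p`-subgroup containing an extremely closed subgroup normalizes it -/
theorem le_normalizer_of_pgroup {G : Type*} [Group G] [Finite G] {p : ℕ} [Fact p.Prime]
    (H : Subgroup G) (hcl : Cfsg.IsExtremelyClosed H) (Q : Subgroup G) (hQ : IsPGroup p Q)
    (hHQ : H ≤ Q) : Q ≤ Subgroup.normalizer (H : Set G) := by
  by_contra hcon
  set N : Subgroup G := Q ⊓ Subgroup.normalizer (H : Set G) with hN
  have hHN : H ≤ N := le_inf hHQ Subgroup.le_normalizer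
  have hNQ : N ≤ Q := inf_le_left
  have hnil : Group.IsNilpotent Q := hQ.isNilpotent
  have hnc : NormalizerCondition Q := Group.normalizerCondition_of_isNilpotent
  have hlt : N.subgroupOf Q < ⊤ := by
    rw [lt_top_iff_ne_top]
    intro htop
    rw [Subgroup.subgroupOf_eq_top] at htop
    exact hcon (htop.trans inf_le_right)
  have hlt2 := hnc _ hlt
  obtain ⟨x, hx1, hx2⟩ := SetLike.exists_of_lt hlt2
  -- x normalizes N inside Q
  have hxn : ∀ n ∈ N, (x : G) * n * (x : G)⁻¹ ∈ N := by
    intro n hn
    have h1 := (Subgroup.mem_normalizer_iff.mp hx1 ⟨n, hNQ hn⟩).mp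
      (by rw [Subgroup.mem_subgroupOf]; exact hn)
    rw [Subgroup.mem_subgroupOf] at h1
    simpa using h1
  have hle : H.map (MulAut.conj (x : G)).toMonoidHom ≤ Subgroup.normalizer (H : Set G) := by
    intro y hy
    obtain ⟨h, hh, rfl⟩ := (mem_map_conj H (x : G) y).mp hy
    exact (hxn h (hHN hh)).2
  have heq := conj_eq_of_le_normalizer H hcl (x : G) hle
  have hxN : (x : G) ∈ N := Subgroup.mem_inf.mpr ⟨x.2, mem_normalizer_of_map_conj_eq H (x : G) heq⟩
  exact hx2 (by rw [Subgroup.mem_subgroupOf]; exact hxN)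

/-- Let G be a finite group, p a prime and H a p-subgroup of G that is extremely closed (for every g, the subgroup generated by H and g H g⁻¹ meets N_G(H) exactly in H). Then every p-subgroup Q of G containing H has N_G(Q) ≤ N_G(H); in particular every Sylow p-subgroup P of G containing H normalizes H, and H is strongly closed in P with respect to G. -/
theorem result {G : Type*} [Group G] [Finite G] {p : ℕ} [Fact p.Prime] (H : Subgroup G) (hHp : IsPGroup p H) (hcl : Cfsg.IsExtremelyClosed H) : (∀ Q : Subgroup G, IsPGroup p Q → H ≤ Q → Subgroup.normalizer (Q : Set G) ≤ Subgroup.normalizer (H : Set G)) ∧ ∀ P : Sylow p G, H ≤ (P : Subgroup G) → (P : Subgroup G) ≤ Subgroup.normalizer (H : Set G) ∧ Cfsg.IsStronglyClosed H (P : Subgroup G) := by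
  constructor
  · intro Q hQ hHQ g hg
    have hQN := le_normalizer_of_pgroup H hcl Q hQ hHQ
    apply mem_normalizer_of_map_conj_eq
    apply conj_eq_of_le_normalizer H hcl
    intro y hy
    obtain ⟨h, hh, rfl⟩ := (mem_map_conj H g y).mp hy
    apply hQN
    exact (Subgroup.mem_normalizer_iff.mp hg h).mp (hHQ hh)
  · intro P hHP
    have hPN := le_normalizer_of_pgroup H hcl (P : Subgroup G) P.isPGroup' hHP
    refine ⟨hPN, hHP, ?_⟩
    intro x hx g hgP
    have h1 : g * x * g⁻¹ ∈ (H ⊔ H.map (MulAut.conj g).toMonoidHom) ⊓ Subgroup.normalizer (H : Set G) := by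
      refine Subgroup.mem_inf.mpr ⟨?_, hPN hgP⟩
      exact (le_sup_right : _ ≤ H ⊔ H.map (MulAut.conj g).toMonoidHom)
        ((mem_map_conj H g _).mpr ⟨x, hx, rfl⟩)
    rw [hcl g] at h1
    exact h1

end Cfsg.Agent.S3021
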