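import Cfsg.Statements.S3023
import Cfsg.Agent.Helper50.ParChar

set_option autoImplicit false
open Cfsg

namespace Cfsg.Agent.S3023

/-- Let p be a prime, G a finite group of parabolic characteristic p (every p-local subgroup containing a Sylow p-subgroup of G has characteristic p), S a Sylow p-subgroup of G and G₁ a subnormal subgroup of G. If the centre of S ∩ G₁ is nontrivial and contained in the centre of S, then G₁ has parabolic characteristic p. -/
theorem result {G : Type*} [Group G] [Finite G] {p : ℕ} [Fact p.Prime] (hG : Cfsg.IsOfParabolicCharacteristic p G) (S : Sylow p G) (G₁ : Subgroup G) (hsn : G₁.IsSubnormal) (hne : ((S : Subgroup G) ⊓ G₁) ⊓ Subgroup.centralizer (((S : Subgroup G) ⊓ G₁ : Subgroup G) : Set G) ≠ ⊥) (hle : ((S : Subgroup G) ⊓ G₁) ⊓ Subgroup.centralizer (((S : Subgroup G) ⊓ G₁ : Subgroup G) : Set G) ≤ (S : Subgroup G) ⊓ Subgroup.centralizer ((S : Subgroup G) : Set G)) : Cfsg.IsOfParabolicCharacteristic p ↥G₁ := by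
  intro R₁ hR₁ hR₁ne hpar
  obtain ⟨T₁, hT₁⟩ := hpar
  have hK := Cfsg.Agent.Helper50.charP_centralizer_subnormal hG S G₁ hsn hle R₁ hR₁ hR₁ne T₁ hT₁
  apply Cfsg.Agent.Helper49.centralizer_pCore_le_of_coprime_trivial _
    (fun g _ => isOfFinOrder_of_finite g)
  intro y hyN hyC hcop
  have hRQ : R₁ ≤ (pCore p ↥(Subgroup.normalizer (R₁ : Set ↥G₁))).map
      (Subgroup.normalizer (R₁ : Set ↥G₁)).subtype :=
    Cfsg.Agent.Helper49.le_map_pCore Subgroup.le_normalizer le_rfl hR₁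
  have hyR : y ∈ Subgroup.centralizer (R₁ : Set ↥G₁) := Subgroup.centralizer_le hRQ hyC
  have hKQ : (pCore p ↥(Subgroup.centralizer (R₁ : Set ↥G₁))).map
      (Subgroup.centralizer (R₁ : Set ↥G₁)).subtype ≤
      (pCore p ↥(Subgroup.normalizer (R₁ : Set ↥G₁))).map
        (Subgroup.normalizer (R₁ : Set ↥G₁)).subtype :=
    Cfsg.Agent.Helper49.map_pCore_mono_of_normal p
      (Cfsg.Agent.Helper50.centralizer_le_normalizer' R₁)
      (Cfsg.Agent.Helper49.normalizer_le_normalizer_centralizer R₁)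
  have h1 : (⟨y, hyR⟩ : ↥(Subgroup.centralizer (R₁ : Set ↥G₁))) ∈
      Subgroup.centralizer (pCore p ↥(Subgroup.centralizer (R₁ : Set ↥G₁)) :
        Set ↥(Subgroup.centralizer (R₁ : Set ↥G₁))) :=
    (Cfsg.Agent.Helper49.mem_centralizer_pCore_iff _).mpr (Subgroup.centralizer_le hKQ hyC)
  obtain ⟨k, hk⟩ := Cfsg.Agent.Helper49.pow_eq_one_of_mem_pCore (hK h1)
  exact Cfsg.Agent.Helper49.eq_one_of_pPow_of_coprime ⟨k, congrArg Subtype.val hk⟩ hcop

end Cfsg.Agent.S3023
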