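import Cfsg.Statements.S3025
import Cfsg.Agent.Helper50.Basic
import Cfsg.Agent.Helper49.OddCyclic
import Cfsg.Agent.Helper53.QuatIso

set_option autoImplicit false
open Cfsg

namespace Cfsg.Agent.S3025


/-- the normal closure of `H` is contained in every nontrivial normal subgroup. -/
theorem normalClosure_le_of_normal {F : Type*} [Group F] (H : Subgroup F)
    (hmin : ∀ R : Subgroup F, R ≠ ⊥ → H ≤ Subgroup.normalizer (R : Set F) → H ≤ R)
    (M : Subgroup F) (hM : M.Normal) (hM1 : M ≠ ⊥) : Subgroup.normalClosure (H : Set F) ≤ M := by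
  apply Subgroup.normalClosure_le_normal
  apply hmin M hM1
  rw [Subgroup.normalizer_eq_top]
  exact le_top

/-- a subgroup contained in all of its conjugates is normal. -/
theorem normal_of_le_map_conj {F : Type*} [Group F] (T : Subgroup F)
    (h : ∀ f : F, T ≤ T.map (MulAut.conj f).toMonoidHom) : T.Normal := by
  constructor
  intro t ht f
  obtain ⟨s, hs, hst⟩ := (Helper50.mem_map_conj _ _ _).mp (h f⁻¹ ht)
  have : f * t * f⁻¹ = s := by rw [← hst]; group
  rw [this]; exact hs

theorem isSimpleGroup_normalClosure {F : Type*} [Group F] [Finite F] (H : Subgroup F) (hH : H ≠ ⊥)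
    (hmin : ∀ R : Subgroup F, R ≠ ⊥ → H ≤ Subgroup.normalizer (R : Set F) → H ≤ R) :
    IsSimpleGroup ↥(Subgroup.normalClosure (H : Set F)) := by
  set N := Subgroup.normalClosure (H : Set F) with hN
  have hHN : H ≤ N := Subgroup.le_normalClosure
  have hNn : N.Normal := Subgroup.normalClosure_normal
  have hN1 : N ≠ ⊥ := fun h => hH (le_bot_iff.mp (h ▸ hHN))
  have : Nontrivial ↥N := (Subgroup.nontrivial_iff_ne_bot N).mpr hN1
  refine ⟨fun K hK => ?_⟩
  by_cases hK1 : K = ⊥
  · exact Or.inl hK1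
  right
  -- the family of nontrivial subgroups of `K` normalized by `N`
  let 𝒯 : Set (Subgroup F) := {T | T ≠ ⊥ ∧ T ≤ K.map N.subtype ∧ N ≤ Subgroup.normalizer (T : Set F)}
  have hKmem : K.map N.subtype ∈ 𝒯 := by
    refine ⟨?_, le_rfl, ?_⟩
    · intro h
      apply hK1
      rw [eq_bot_iff]
      intro x hx
      have : (x : F) ∈ K.map N.subtype := ⟨x, hx, rfl⟩
      rw [h, Subgroup.mem_bot] at this
      exact Subtype.ext this
    · rw [Subgroup.le_normalizer_iff]
      rintro n hn _ ⟨k, hk, rfl⟩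
      exact ⟨⟨n, hn⟩ * k * ⟨n, hn⟩⁻¹, hK.conj_mem k hk ⟨n, hn⟩, rfl⟩
  obtain ⟨T, hT, hTmin⟩ := Set.exists_min_image 𝒯 (fun T : Subgroup F => Nat.card T)
    (Set.toFinite _) ⟨_, hKmem⟩
  obtain ⟨hT1, hTK, hTN⟩ := hT
  have hTleN : T ≤ N := hTK.trans (by rintro _ ⟨k, _, rfl⟩; exact k.2)
  have hconj : ∀ f : F, T ≤ T.map (MulAut.conj f).toMonoidHom := by
    intro f
    have h1 : T.map (MulAut.conj f).toMonoidHom ≠ ⊥ := by
      intro h
      apply hT1
      rw [eq_bot_iff]
      intro t ht
      have : f * t * f⁻¹ ∈ T.map (MulAut.conj f).toMonoidHom := Helper50.conj_mem_map_conj _ _ ht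
      rw [h, Subgroup.mem_bot] at this
      rw [Subgroup.mem_bot]
      have h2 : t = f⁻¹ * (f * t * f⁻¹) * f := by group
      rw [h2, this]; group
    have h2 : N ≤ Subgroup.normalizer ((T.map (MulAut.conj f).toMonoidHom : Subgroup F) : Set F) := by
      rw [Subgroup.le_normalizer_iff]
      intro n hn x hx
      obtain ⟨t, ht, rfl⟩ := (Helper50.mem_map_conj _ _ _).mp hx
      have hn' : f⁻¹ * n * f ∈ N := by
        have := hNn.conj_mem n hn f⁻¹
        simpa using this
      have h3 : (f⁻¹ * n * f) * t * (f⁻¹ * n * f)⁻¹ ∈ T :=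
        (Subgroup.le_normalizer_iff.mp hTN) _ hn' t ht
      have h4 : n * (f * t * f⁻¹) * n⁻¹ = f * ((f⁻¹ * n * f) * t * (f⁻¹ * n * f)⁻¹) * f⁻¹ := by group
      rw [h4]
      exact Helper50.conj_mem_map_conj _ _ h3
    have h3 : H ≤ T.map (MulAut.conj f).toMonoidHom := hmin _ h1 (hHN.trans h2)
    have h4 : H ≤ T := hmin _ hT1 (hHN.trans hTN)
    have hmem : T ⊓ T.map (MulAut.conj f).toMonoidHom ∈ 𝒯 := by
      refine ⟨?_, inf_le_left.trans hTK, ?_⟩
      · intro h
        exact hH (le_bot_iff.mp (h ▸ le_inf h4 h3))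
      · exact (le_inf hTN h2).trans Subgroup.inf_normalizer_le_normalizer_inf
    have h5 := hTmin _ hmem
    have h6 : T ⊓ T.map (MulAut.conj f).toMonoidHom = T :=
      Subgroup.eq_of_le_of_card_ge inf_le_left h5
    exact (le_of_eq h6.symm).trans inf_le_right
  have hTn : T.Normal := normal_of_le_map_conj T hconj
  have hNT : N ≤ T := normalClosure_le_of_normal H hmin T hTn hT1
  rw [eq_top_iff]
  intro x _
  obtain ⟨k, hk, hkx⟩ := hTK (hNT x.2)
  have : k = x := Subtype.ext hkx
  rw [← this]; exact hk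

theorem isPGroup_of_forall_le {F : Type*} [Group F] [Finite F] (Z C : Subgroup F) (hp : (Nat.card Z).Prime)
    (h : ∀ R : Subgroup F, R ≠ ⊥ → R ≤ C → Z ≤ R) : IsPGroup (Nat.card Z) ↥C := by
  have : Fact (Nat.card Z).Prime := ⟨hp⟩
  rw [IsPGroup.iff_card]
  refine ⟨(Nat.card C).primeFactorsList.length,
    Nat.eq_prime_pow_of_unique_prime_dvd Nat.card_pos.ne' ?_⟩
  intro q hq hqd
  have : Fact q.Prime := ⟨hq⟩
  obtain ⟨y, hy⟩ := exists_prime_orderOf_dvd_card' q hqd
  have h1 : Subgroup.zpowers (y : F) ≠ ⊥ := by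
    rw [Subgroup.zpowers_ne_bot]
    intro h0
    have : orderOf (y : F) = 1 := by rw [h0, orderOf_one]
    rw [Subgroup.orderOf_coe, hy] at this
    exact hq.one_lt.ne' this
  have h2 := h _ h1 (Subgroup.zpowers_le.mpr y.2)
  have h3 : Nat.card Z ∣ Nat.card (Subgroup.zpowers (y : F)) := Subgroup.card_dvd_of_le h2
  rw [Nat.card_zpowers, Subgroup.orderOf_coe, hy] at h3
  exact ((Nat.prime_dvd_prime_iff_eq hp hq).mp h3).symm

theorem pRankLE_one_of_forall_le {F : Type*} [Group F] [Finite F] (Z C : Subgroup F) (hp : (Nat.card Z).Prime)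
    (h : ∀ R : Subgroup F, R ≠ ⊥ → R ≤ C → Z ≤ R) : PRankLE (Nat.card Z) 1 ↥C := by
  have : Fact (Nat.card Z).Prime := ⟨hp⟩
  intro A _ hA
  have hle : A.map C.subtype ≤ Z := by
    rintro _ ⟨a, ha, rfl⟩
    by_cases ha1 : a = 1
    · rw [ha1]; exact Z.one_mem
    · have hord : orderOf (a : F) = Nat.card Z := by
        rw [Subgroup.orderOf_coe]; exact orderOf_eq_prime (hA a ha) ha1
      have h1 : Subgroup.zpowers (a : F) ≠ ⊥ := by
        rw [Subgroup.zpowers_ne_bot]
        intro h0
        exact ha1 (Subtype.ext h0)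
      have h2 := h _ h1 (Subgroup.zpowers_le.mpr a.2)
      have h3 : Z = Subgroup.zpowers (a : F) :=
        Subgroup.eq_of_le_of_card_ge h2 (by rw [Nat.card_zpowers, hord])
      rw [h3]; exact Subgroup.mem_zpowers _
  calc Nat.card A = Nat.card (A.map C.subtype) :=
        (Subgroup.card_map_of_injective C.subtype_injective).symm
    _ ≤ Nat.card Z := Subgroup.card_le_of_le hle
    _ = Nat.card Z ^ 1 := (pow_one _).symm

theorem quotient_facts {F : Type*} [Group F] [Finite F] (N : Subgroup F) [N.Normal] (hp : (Nat.card N).Prime) :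
    (∃ g : F, Subgroup.centralizer (N : Set F) ⊔ Subgroup.zpowers g = ⊤) ∧
      (Subgroup.centralizer (N : Set F)).index ∣ Nat.card N - 1 := by
  have : Fact (Nat.card N).Prime := ⟨hp⟩
  have : IsCyclic ↥N := isCyclic_of_prime_card rfl
  let φ : F →* MulAut ↥N := MulAut.conjNormal
  have hker : φ.ker = Subgroup.centralizer (N : Set F) := by
    ext f
    rw [MonoidHom.mem_ker, Subgroup.mem_centralizer_iff]
    constructor
    · intro hf n hn
      have h1 : ((φ f ⟨n, hn⟩ : ↥N) : F) = n := by rw [hf]; rfl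
      rw [MulAut.conjNormal_apply] at h1
      calc n * f = (f * n * f⁻¹) * f := by rw [h1]
        _ = f * n := by group
    · intro hf
      ext n
      rw [MulAut.conjNormal_apply, MulAut.one_apply]
      have := hf n n.2
      calc f * (n : F) * f⁻¹ = ((n : F) * f) * f⁻¹ := by rw [this]
        _ = n := by group
  have : IsCyclic (MulAut ↥N) :=
    isCyclic_of_surjective (IsCyclic.mulAutMulEquiv ↥N).symm.toMonoidHom (MulEquiv.surjective _)
  have hcard : Nat.card (MulAut ↥N) = Nat.card N - 1 := by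
    rw [IsCyclic.card_mulAut, Nat.totient_prime hp]
  constructor
  · haveI : IsCyclic ↥φ.range := Subgroup.isCyclic _
    obtain ⟨⟨σ, g, rfl⟩, hσ⟩ := IsCyclic.exists_generator (α := ↥φ.range)
    refine ⟨g, ?_⟩
    rw [eq_top_iff]
    intro f _
    obtain ⟨k, hk⟩ := Subgroup.mem_zpowers_iff.mp (hσ ⟨φ f, f, rfl⟩)
    have hk' : φ g ^ k = φ f := by simpa using congrArg Subtype.val hk
    have h1 : f * (g ^ k)⁻¹ ∈ φ.ker := by
      rw [MonoidHom.mem_ker, map_mul, map_inv, map_zpow, hk', mul_inv_cancel]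
    rw [hker] at h1
    have : f = (f * (g ^ k)⁻¹) * g ^ k := by group
    rw [this]
    exact Subgroup.mul_mem_sup h1 (Subgroup.zpow_mem_zpowers g k)
  · rw [← hker, Subgroup.index_ker, ← hcard]
    exact Subgroup.card_subgroup_dvd_card _

/-- Let F be a finite group and H a nontrivial subgroup of F that is contained in every nontrivial subgroup of F which H normalizes. Then F has a nontrivial normal subgroup N contained in every nontrivial normal subgroup of F (a unique minimal normal subgroup), N is simple, and one of the following holds: C_F(N) = 1; or H = N has prime order p, C_F(N) is cyclic of order a power of p, and F/C_F(N) is cyclic of order dividing p − 1; or H = N has order 2, N is central in F, and F is a generalized quaternion group. -/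
theorem result {F : Type*} [Group F] [Finite F] (H : Subgroup F) (hH : H ≠ ⊥)
    (hmin : ∀ R : Subgroup F, R ≠ ⊥ → H ≤ Subgroup.normalizer (R : Set F) → H ≤ R) :
    ∃ N : Subgroup F, N.Normal ∧ N ≠ ⊥ ∧ (∀ M : Subgroup F, M.Normal → M ≠ ⊥ → N ≤ M) ∧ IsSimpleGroup ↥N ∧
      (Subgroup.centralizer (N : Set F) = ⊥ ∨
       (H = N ∧ (Nat.card N).Prime ∧ IsCyclic ↥(Subgroup.centralizer (N : Set F)) ∧
          (∃ k : ℕ, 1 ≤ k ∧ Nat.card ↥(Subgroup.centralizer (N : Set F)) = Nat.card N ^ k) ∧
          (∃ g : F, Subgroup.centralizer (N : Set F) ⊔ Subgroup.zpowers g = ⊤) ∧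
          (Subgroup.centralizer (N : Set F)).index ∣ Nat.card N - 1) ∨
       (H = N ∧ Nat.card N = 2 ∧ Subgroup.centralizer (N : Set F) = ⊤ ∧
          ∃ k : ℕ, 1 ≤ k ∧ Nonempty (F ≃* QuaternionGroup (2 ^ k)))) := by
  have hHN : H ≤ Subgroup.normalClosure (H : Set F) := Subgroup.le_normalClosure
  have hNn : (Subgroup.normalClosure (H : Set F)).Normal := Subgroup.normalClosure_normal
  have hN1 : Subgroup.normalClosure (H : Set F) ≠ ⊥ := fun h => hH (le_bot_iff.mp (h ▸ hHN))
  have hsimple := isSimpleGroup_normalClosure H hH hmin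
  have hleast := normalClosure_le_of_normal H hmin
  refine ⟨Subgroup.normalClosure (H : Set F), hNn, hN1, hleast, hsimple, ?_⟩
  generalize Subgroup.normalClosure (H : Set F) = N at *
  by_cases hC : Subgroup.centralizer (N : Set F) = ⊥
  · exact Or.inl hC
  right
  have hCn : (Subgroup.centralizer (N : Set F)).Normal := inferInstance
  have hNC : N ≤ Subgroup.centralizer (N : Set F) := hleast _ hCn hC
  have hprime : (Nat.card N).Prime := by
    letI : CommGroup ↥N := { (inferInstance : Group ↥N) with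
      mul_comm := fun a b => Subtype.ext (Subgroup.mem_centralizer_iff.mp (hNC b.2) a a.2) }
    exact IsSimpleGroup.prime_card
  have hHeq : H = N := by
    apply Subgroup.eq_of_le_of_card_ge hHN
    have h1 : Nat.card H ∣ Nat.card N := Subgroup.card_dvd_of_le hHN
    rcases (Nat.dvd_prime hprime).mp h1 with h | h
    · exact absurd (Subgroup.card_eq_one.mp h) hH
    · exact h.ge
  have hkey : ∀ R : Subgroup F, R ≠ ⊥ → R ≤ Subgroup.centralizer (N : Set F) → N ≤ R := by
    intro R hR1 hRC
    have h1 : H ≤ R := by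
      apply hmin R hR1
      rw [hHeq]
      intro n hn
      apply Subgroup.centralizer_le_normalizer (R : Set F)
      rw [Subgroup.mem_centralizer_iff]
      intro r hr
      exact (Subgroup.mem_centralizer_iff.mp (hRC hr) n hn).symm
    rwa [hHeq] at h1
  have hpC := isPGroup_of_forall_le N _ hprime hkey
  have hrk := pRankLE_one_of_forall_le N _ hprime hkey
  obtain ⟨hgen, hidx⟩ := quotient_facts N hprime
  have : Fact (Nat.card N).Prime := ⟨hprime⟩
  obtain ⟨k, hk⟩ := IsPGroup.iff_card.mp hpC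
  have hk1 : 1 ≤ k := by
    by_contra h0
    have : k = 0 := by omega
    rw [this, pow_zero] at hk
    exact hC (Subgroup.card_eq_one.mp hk)
  by_cases hcyc : IsCyclic ↥(Subgroup.centralizer (N : Set F))
  · left
    exact ⟨hHeq, hprime, hcyc, ⟨k, hk1, hk⟩, hgen, hidx⟩
  · right
    have hp2 : Nat.card N = 2 := by
      by_contra h2
      exact hcyc (Helper49.isCyclic_of_pRankLE_one h2 hpC hrk)
    have hCtop : Subgroup.centralizer (N : Set F) = ⊤ := by
      rw [hp2] at hidx
      exact Subgroup.index_eq_one.mp (Nat.dvd_one.mp hidx)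
    refine ⟨hHeq, hp2, hCtop, ?_⟩
    have hF2 : IsPGroup 2 F := by
      intro g
      obtain ⟨k', hk'⟩ := hpC ⟨g, hCtop ▸ Subgroup.mem_top g⟩
      refine ⟨k', ?_⟩
      have h1 := congrArg Subtype.val hk'
      rw [hp2] at h1
      simpa using h1
    have huniq : ∀ H₁ K₁ : Subgroup F, Nat.card H₁ = 2 → Nat.card K₁ = 2 → H₁ = K₁ := by
      have haux : ∀ H₁ : Subgroup F, Nat.card H₁ = 2 → H₁ = N := by
        intro H₁ h1
        have hne : H₁ ≠ ⊥ := by
          intro h0
          rw [h0, Subgroup.card_bot] at h1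
          omega
        have hle : N ≤ H₁ := hkey H₁ hne (hCtop ▸ le_top)
        exact (Subgroup.eq_of_le_of_card_ge hle (by rw [h1, hp2])).symm
      intro H₁ K₁ h1 h2
      rw [haux H₁ h1, haux K₁ h2]
    rcases Cfsg.Agent.Helper53.isCyclic_or_quaternion_of_unique_subgroup hF2 huniq with h | h
    · exfalso
      exact hcyc (Subgroup.isCyclic _)
    · exact h

end Cfsg.Agent.S3025
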