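import Cfsg.Statements.S3027
import Mathlib

set_option autoImplicit false
open Cfsg

namespace Cfsg.Agent.S3027

universe u

theorem exists_mul_of_sup_eq_top {G : Type*} [Group G] (A D : Subgroup G) [D.Normal]
    (h : A ⊔ D = ⊤) (g : G) : ∃ a ∈ A, ∃ d ∈ D, a * d = g := by
  have hg : g ∈ ((A ⊔ D : Subgroup G) : Set G) := by rw [h]; exact Subgroup.mem_top g
  rw [Subgroup.mul_normal] at hg
  exact Set.mem_mul.mp hg

open scoped commutatorElement in
theorem comm_le {G : Type*} [Group G] (A₁ A₂ D E : Subgroup G) [D.Normal] [E.Normal]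
    (h1 : A₁ ⊔ D = ⊤) (h2 : A₂ ⊔ D = ⊤) (hD : D ≤ E) (hA : ⁅A₁, A₂⁆ ≤ E) :
    ⁅(⊤ : Subgroup G), (⊤ : Subgroup G)⁆ ≤ E := by
  rw [Subgroup.commutator_le]
  intro x _ y _
  obtain ⟨a₁, ha₁, d₁, hd₁, rfl⟩ := exists_mul_of_sup_eq_top A₁ D h1 x
  obtain ⟨a₂, ha₂, d₂, hd₂, rfl⟩ := exists_mul_of_sup_eq_top A₂ D h2 y
  rw [← QuotientGroup.eq_one_iff (N := E)]
  have e1 : ((d₁ : G) : G ⧸ E) = 1 := (QuotientGroup.eq_one_iff _).mpr (hD hd₁)
  have e2 : ((d₂ : G) : G ⧸ E) = 1 := (QuotientGroup.eq_one_iff _).mpr (hD hd₂)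
  have e3 : ((⁅a₁, a₂⁆ : G) : G ⧸ E) = 1 :=
    (QuotientGroup.eq_one_iff _).mpr (hA (Subgroup.commutator_mem_commutator ha₁ ha₂))
  rw [commutatorElement_def] at e3 ⊢
  simp only [QuotientGroup.mk_mul, QuotientGroup.mk_inv, e1, e2, mul_one] at e3 ⊢
  exact e3

theorem aux (n : ℕ) : ∀ (G : Type u) [Group G] [Finite G] (D : Subgroup G) [D.Normal],
    Nat.card G = n → ⁅(⊤ : Subgroup G), (⊤ : Subgroup G)⁆ ⊔ D = ⊤ →
    ∃ B : Subgroup G, B.Normal ∧ B ⊔ D = ⊤ ∧
      ∀ B' : Subgroup G, B'.IsSubnormal → B' ⊔ D = ⊤ → B ≤ B' := by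
  induction n using Nat.strong_induction_on with
  | _ n ih =>
  intro G _ _ D _ hn hperf
  -- normal supplements are closed under intersection
  have hinf : ∀ B₁ B₂ : Subgroup G, B₁.Normal → B₂.Normal → B₁ ⊔ D = ⊤ → B₂ ⊔ D = ⊤ →
      (B₁ ⊓ B₂) ⊔ D = ⊤ := by
    intro B₁ B₂ hB₁ hB₂ h1 h2
    have hle := comm_le B₁ B₂ D ((B₁ ⊓ B₂) ⊔ D) h1 h2 le_sup_right
      (le_trans (Subgroup.commutator_le_inf B₁ B₂) le_sup_left)
    rw [eq_top_iff, ← hperf]
    exact sup_le hle le_sup_right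
  -- the least normal supplement
  obtain ⟨R, ⟨hRn, hRD⟩, hRmin⟩ := Set.exists_min_image
    {B : Subgroup G | B.Normal ∧ B ⊔ D = ⊤} (fun B => Nat.card B) (Set.toFinite _)
    ⟨⊤, inferInstance, top_sup_eq _⟩
  have hRle : ∀ B : Subgroup G, B.Normal → B ⊔ D = ⊤ → R ≤ B := by
    intro B hB hBD
    have h1 := hRmin (R ⊓ B) ⟨Subgroup.normal_inf_normal R B, hinf R B hRn hB hRD hBD⟩
    have h2 : R ⊓ B = R := Subgroup.eq_of_le_of_card_ge inf_le_left h1
    exact inf_eq_left.mp h2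
  refine ⟨R, hRn, hRD, ?_⟩
  intro B' hB'sn hB'D
  rcases hB'sn.lt_normal with hB'top | ⟨M, hMn, hB'M, hMtop⟩
  · rw [hB'top]; exact le_top
  · have := hMn
    have hMD : M ⊔ D = ⊤ := by
      rw [eq_top_iff, ← hB'D]
      exact sup_le_sup_right hB'M D
    have hcardM : Nat.card ↥M < n := by
      rw [← hn]
      by_contra hge
      exact hMtop.ne (Subgroup.eq_top_of_le_card M (not_lt.mp hge))
    -- perfectness of M / (D ∩ M)
    have hperfM : ⁅(⊤ : Subgroup ↥M), (⊤ : Subgroup ↥M)⁆ ⊔ D.subgroupOf M = ⊤ := by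
      have hle := comm_le M M D (⁅M, M⁆ ⊔ D) hMD hMD le_sup_right le_sup_left
      have htop : ⁅M, M⁆ ⊔ D = ⊤ := by
        rw [eq_top_iff, ← hperf]
        exact sup_le hle le_sup_right
      rw [eq_top_iff]
      rintro ⟨m, hm⟩ -
      obtain ⟨c, hc, d, hd, hcd⟩ := exists_mul_of_sup_eq_top ⁅M, M⁆ D htop m
      have hcM : c ∈ M := Subgroup.commutator_le_left M M hc
      have hdM : d ∈ M := by
        have : d = c⁻¹ * m := by rw [← hcd]; group
        rw [this]; exact M.mul_mem (M.inv_mem hcM) hm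
      have hc' : (⟨c, hcM⟩ : ↥M) ∈ ⁅(⊤ : Subgroup ↥M), (⊤ : Subgroup ↥M)⁆ := by
        have e : (⁅(⊤ : Subgroup ↥M), (⊤ : Subgroup ↥M)⁆).map M.subtype = ⁅M, M⁆ := by
          rw [Subgroup.map_commutator, ← MonoidHom.range_eq_map, Subgroup.range_subtype]
        rw [← e] at hc
        obtain ⟨c', hc', hcc⟩ := hc
        have : c' = ⟨c, hcM⟩ := Subtype.ext hcc
        rw [← this]; exact hc'
      have hd' : (⟨d, hdM⟩ : ↥M) ∈ D.subgroupOf M := by
        rw [Subgroup.mem_subgroupOf]; exact hd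
      have : (⟨m, hm⟩ : ↥M) = ⟨c, hcM⟩ * ⟨d, hdM⟩ := Subtype.ext hcd.symm
      rw [this]
      exact Subgroup.mul_mem _ (Subgroup.mem_sup_left hc') (Subgroup.mem_sup_right hd')
    obtain ⟨RM, hRMn, hRMD, hRMmin⟩ := ih (Nat.card ↥M) hcardM ↥M (D.subgroupOf M) rfl hperfM
    -- B' is a subnormal supplement in M
    have hB'sub : (B'.subgroupOf M).IsSubnormal := hB'sn.subgroupOf
    have hB'DM : B'.subgroupOf M ⊔ D.subgroupOf M = ⊤ := by
      rw [eq_top_iff]
      rintro ⟨m, hm⟩ -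
      obtain ⟨b, hb, d, hd, hbd⟩ := exists_mul_of_sup_eq_top B' D hB'D m
      have hbM : b ∈ M := hB'M hb
      have hdM : d ∈ M := by
        have : d = b⁻¹ * m := by rw [← hbd]; group
        rw [this]; exact M.mul_mem (M.inv_mem hbM) hm
      have : (⟨m, hm⟩ : ↥M) = ⟨b, hbM⟩ * ⟨d, hdM⟩ := Subtype.ext hbd.symm
      rw [this]
      exact Subgroup.mul_mem _
        (Subgroup.mem_sup_left (by rw [Subgroup.mem_subgroupOf]; exact hb))
        (Subgroup.mem_sup_right (by rw [Subgroup.mem_subgroupOf]; exact hd))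
    have hRMB' : RM ≤ B'.subgroupOf M := hRMmin _ hB'sub hB'DM
    -- RM is invariant under conjugation by G
    have hinv : ∀ g : G, RM.map (MulAut.conjNormal g : MulAut ↥M).toMonoidHom = RM := by
      intro g
      set α : MulAut ↥M := MulAut.conjNormal g with hα
      have hn' : (RM.map α.toMonoidHom).Normal := hRMn.map α.toMonoidHom α.surjective
      have hDle : (D.subgroupOf M).map α.toMonoidHom ≤ D.subgroupOf M := by
        rintro x ⟨y, hy, rfl⟩
        have hy' : (y : G) ∈ D := Subgroup.mem_subgroupOf.mp hy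
        rw [Subgroup.mem_subgroupOf]
        show ((α y : ↥M) : G) ∈ D
        rw [hα, MulAut.conjNormal_apply]
        exact (inferInstance : D.Normal).conj_mem _ hy' g
      have hsup : RM.map α.toMonoidHom ⊔ D.subgroupOf M = ⊤ := by
        rw [eq_top_iff]
        have h1 : (RM ⊔ D.subgroupOf M).map α.toMonoidHom = ⊤ := by
          rw [hRMD]; exact Subgroup.map_top_of_surjective _ α.surjective
        rw [← h1, Subgroup.map_sup]
        exact sup_le_sup_left hDle _
      have hle := hRMmin _ hn'.isSubnormal hsup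
      exact (Subgroup.eq_of_le_of_card_ge hle
        (Subgroup.card_map_of_injective α.injective).le).symm
    -- the image of RM in G is a normal supplement of D
    have hR₁n : (RM.map M.subtype).Normal := by
      constructor
      rintro x ⟨r, hr, rfl⟩ g
      have h1 : (MulAut.conjNormal g : MulAut ↥M) r ∈ RM := by
        rw [← hinv g]
        exact ⟨r, hr, rfl⟩
      refine ⟨(MulAut.conjNormal g : MulAut ↥M) r, h1, ?_⟩
      rw [Subgroup.coe_subtype, MulAut.conjNormal_apply]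
    have hR₁D : RM.map M.subtype ⊔ D = ⊤ := by
      rw [eq_top_iff]
      intro g _
      obtain ⟨m, hm, d, hd, rfl⟩ := exists_mul_of_sup_eq_top M D hMD g
      obtain ⟨r, hr, d', hd', hrd⟩ := exists_mul_of_sup_eq_top RM (D.subgroupOf M) hRMD ⟨m, hm⟩
      have e : m = (r : G) * (d' : G) := by
        have := congrArg Subtype.val hrd
        exact this.symm
      rw [e, mul_assoc]
      refine Subgroup.mul_mem _ (Subgroup.mem_sup_left ⟨r, hr, rfl⟩) (Subgroup.mem_sup_right ?_)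
      exact D.mul_mem (Subgroup.mem_subgroupOf.mp hd') hd
    have h1 : R ≤ RM.map M.subtype := hRle _ hR₁n hR₁D
    refine le_trans h1 ?_
    rintro x ⟨r, hr, rfl⟩
    exact Subgroup.mem_subgroupOf.mp (hRMB' hr)

/-- Let G be a finite group and D a normal subgroup of G such that G/D is perfect (that is, G = G′D). Then among the subnormal subgroups B of G with BD = G there is a least one, and it is normal in G. -/
theorem result {G : Type*} [Group G] [Finite G] (D : Subgroup G) [D.Normal] (hperf : ⁅(⊤ : Subgroup G), (⊤ : Subgroup G)⁆ ⊔ D = ⊤) :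
    ∃ B : Subgroup G, B.Normal ∧ B ⊔ D = ⊤ ∧ ∀ B' : Subgroup G, B'.IsSubnormal → B' ⊔ D = ⊤ → B ≤ B' := by
  exact aux (Nat.card G) G D rfl hperf

end Cfsg.Agent.S3027
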