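import Cfsg.Statements.S3035
import Cfsg.Agent.Helper21.DEightH
import Cfsg.Agent.S0255
import Cfsg.Agent.S0495
import Cfsg.Agent.S0497

set_option autoImplicit false
open Cfsg

namespace Cfsg.Agent.S3035

/-- Let G be a finite group with an involution z whose centralizer is dihedral of order 8. Then G = C_G(z) O(G) with O(G) the largest normal subgroup of odd order, or G is isomorphic to the symmetric group of degree 4, the symmetric group of degree 5, the group SL₃(2), or the alternating group of degree 6. -/
theorem result {G : Type*} [Group G] [Finite G] (z : G) (hz : orderOf z = 2)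
    (hC : Nonempty (↥(Subgroup.centralizer ({z} : Set G)) ≃* DihedralGroup 4)) :
    Subgroup.centralizer ({z} : Set G) ⊔ Cfsg.oddCore G = ⊤ ∨ Nonempty (G ≃* Equiv.Perm (Fin 4)) ∨ Nonempty (G ≃* Equiv.Perm (Fin 5)) ∨
      Nonempty (G ≃* Matrix.SpecialLinearGroup (Fin 3) (ZMod 2)) ∨ Nonempty (G ≃* ↥(alternatingGroup (Fin 6))) := by
  obtain ⟨e⟩ := hC
  rcases Cfsg.Agent.Helper21.DEight.deFinal z hz e with h | h | h | ⟨hs, h168 | h360⟩
  · exact Or.inl h
  · exact Or.inr (Or.inl h)
  · exact Or.inr (Or.inr (Or.inl h))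
  · right; right; right; left
    haveI := hs
    haveI : Fact (Nat.Prime 7) := ⟨by norm_num⟩
    obtain ⟨f1⟩ := Cfsg.Agent.S0495.result h168 (F := ZMod 7) (ZMod.card 7)
    obtain ⟨f2⟩ := Cfsg.Agent.S0255.psl27
    have hr2 : ∀ r : ZMod 2, r ^ 3 = 1 → r = 1 := by decide
    have hc : Subgroup.center (Matrix.SpecialLinearGroup (Fin 3) (ZMod 2)) = ⊥ := by
      rw [eq_bot_iff]
      intro A hA
      rw [Matrix.SpecialLinearGroup.mem_center_iff] at hA
      obtain ⟨r, hr, hrA⟩ := hA
      have hr1 : r = 1 := by
        simp only [Fintype.card_fin] at hr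
        exact hr2 r hr
      rw [Subgroup.mem_bot]
      apply Subtype.ext
      rw [← hrA, hr1]
      simp
    exact ⟨(f1.trans f2).trans
      ((QuotientGroup.quotientMulEquivOfEq hc).trans QuotientGroup.quotientBot)⟩
  · right; right; right; right
    haveI := hs
    exact Cfsg.Agent.S0497.result h360

end Cfsg.Agent.S3035
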