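import Cfsg.Statements.S3044
import Cfsg.Agent.Helper34.IsoPMin7

set_option autoImplicit false
open Cfsg

namespace Cfsg.Agent.S3044

/-- Let G be a finite group, p a prime, S a Sylow p-subgroup of G and P a p-minimal subgroup of G containing S (S is not normal in P and lies in exactly one maximal subgroup of P). Let L be the subgroup generated by N_G(S) and all p-minimal subgroups of G containing S other than P, and suppose P is isolated: O_p(L) is not contained in O_p(P). Put Y for the normal closure of O^p(P) in G. Then G = YL; P is again isolated in the subgroup YS (the subgroup L₀ generated by N_{YS}(S) and the p-minimal subgroups of YS containing S other than P has O_p(L₀) not contained in O_p(P)); and either Y = O^p(P), or p divides |Y/O_p(Y)|, Y/O_p(Y) is generated by its components (a central product of quasisimple groups), and S permutes these components transitively by conjugation. -/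
theorem result {G : Type*} [Group G] [Finite G] {p : ℕ} [Fact p.Prime] (S : Sylow p G) (P : Subgroup G) (hSP : (S : Subgroup G) ≤ P) (hPmin : Cfsg.IsPMinimal p ↥P)
    (L Y : Subgroup G)
    (hL : L = Subgroup.normalizer ((S : Subgroup G) : Set G) ⊔ ⨆ P' : {P' : Subgroup G // (S : Subgroup G) ≤ P' ∧ Cfsg.IsPMinimal p ↥P' ∧ P' ≠ P}, (P' : Subgroup G))
    (hiso : ¬ (Cfsg.pCore p ↥L).map L.subtype ≤ (Cfsg.pCore p ↥P).map P.subtype)
    (hY : Y = Subgroup.normalClosure (((Cfsg.pResidual p ↥P).map P.subtype : Subgroup G) : Set G)) :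
    Y ⊔ L = ⊤ ∧
    ¬ (Cfsg.pCore p ↥((Subgroup.normalizer ((S : Subgroup G) : Set G) ⊓ (Y ⊔ (S : Subgroup G))) ⊔
          ⨆ P' : {P' : Subgroup G // (S : Subgroup G) ≤ P' ∧ P' ≤ Y ⊔ (S : Subgroup G) ∧ Cfsg.IsPMinimal p ↥P' ∧ P' ≠ P}, (P' : Subgroup G))).map
        (Subgroup.subtype _) ≤ (Cfsg.pCore p ↥P).map P.subtype ∧
    ((Cfsg.pResidual p ↥P).map P.subtype = Y ∨
     ∃ _ : (Cfsg.pCore p ↥Y).Normal,
       p ∣ Nat.card (↥Y ⧸ Cfsg.pCore p ↥Y) ∧ Cfsg.layer (↥Y ⧸ Cfsg.pCore p ↥Y) = ⊤ ∧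
       ∀ K₁ K₂ : Subgroup (↥Y ⧸ Cfsg.pCore p ↥Y), Cfsg.IsComponent K₁ → Cfsg.IsComponent K₂ →
         ∃ s ∈ (S : Subgroup G), ((K₂.comap (QuotientGroup.mk' (Cfsg.pCore p ↥Y))).map Y.subtype) = (((K₁.comap (QuotientGroup.mk' (Cfsg.pCore p ↥Y))).map Y.subtype)).map (MulAut.conj s).toMonoidHom) := by
  have h : Cfsg.Agent.Helper34.IsoPMin p S P L := ⟨hSP, hPmin, hL, hiso⟩
  have hYn := Cfsg.Agent.Helper34.ipm_Y_normal hY
  refine ⟨Cfsg.Agent.Helper34.ipm_Y_sup_L h hY, ?_, ?_⟩
  · intro hle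
    apply hiso
    refine le_trans ?_ hle
    apply Cfsg.Agent.Helper34.ipm_le_pCore_map
    · refine (Cfsg.Agent.Helper34.ipm_Q_le_S h).trans ?_
      exact le_sup_of_le_left (le_inf Subgroup.le_normalizer le_sup_right)
    · exact Cfsg.Agent.Helper34.ipm_Q_isPGroup L
    · refine le_trans ?_ (Cfsg.Agent.Helper34.ipm_L_le_normalizer_Q L)
      refine sup_le (inf_le_left.trans (Cfsg.Agent.Helper34.ipm_normalizer_le h)) ?_
      apply iSup_le
      rintro ⟨P', hSP', -, hP'min, hne⟩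
      exact Cfsg.Agent.Helper34.ipm_pmin_le h hSP' hP'min hne
  · by_cases hsol : Group.IsSolvable ↥Y
    · exact Or.inl (Cfsg.Agent.Helper34.ipm_solv_X_eq_Y h hY hsol)
    · right
      have hn' : (Cfsg.pCore p ↥Y).Normal := inferInstance
      have hlay := Cfsg.Agent.Helper34.ipm_layer_eq_top h hY hsol
      refine ⟨hn', Cfsg.Agent.Helper34.ipm_p_dvd_card h hY hsol, hlay, ?_⟩
      intro K₁ K₂ h1 h2
      obtain ⟨s, hs, he⟩ := Cfsg.Agent.Helper34.ipm_components_transitive h hY hlay h1 h2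
      refine ⟨s, hs, ?_⟩
      rw [he]
      exact Cfsg.Agent.Helper34.ipmPre_map_phi s K₁

end Cfsg.Agent.S3044
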