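import Cfsg.Statements.S3050
-- import your own Cfsg.Agent.* helpers here
import Cfsg.Agent.Helper49.HigGB
import Cfsg.Agent.Helper49.HigGC
import Cfsg.Agent.Helper49.HigGE
import Cfsg.Agent.Helper49.HigGN
import Cfsg.Agent.Helper50.HigBETA
import Cfsg.Agent.Helper50.HigZK
import Cfsg.Agent.Helper51.HigCONJ3
import Cfsg.Agent.Helper51.HigGA
import Cfsg.Agent.Helper51.HigGF
import Cfsg.Agent.Helper51.HigGQ
import Cfsg.Agent.Helper84.HigGD
import Cfsg.Agent.Helper84.HigMTa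
import Cfsg.Agent.Helper84.HigMTb
import Cfsg.Agent.Helper91.HigGI
import Cfsg.Agent.Helper91.HigGP
import Cfsg.Agent.Helper50.HigDefs
import Cfsg.Agent.Helper39.NatSL2

set_option autoImplicit false
open Cfsg

namespace Cfsg.Agent.S3050

open Cfsg.Agent.Helper5 Cfsg.Agent.Helper50.Hig
open scoped commutatorElement

/-- Let G be a finite group with a normal 2-subgroup Q such that G/Q is isomorphic to SL(2, 2ⁿ) with n ≥ 2, and suppose some element of G of order 3 fixes no nonidentity element of Q under conjugation. Then Q is elementary abelian and is the direct product of normal subgroups of G on each of which G acts as SL(2, 2ⁿ) acts on its natural two-dimensional module (a Galois twist of the natural action allowed). -/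
theorem result {G : Type*} [Group G] [Finite G]
    (Q : Subgroup G) [Q.Normal] (hQ : IsPGroup 2 ↥Q) (n : ℕ) (hn : 2 ≤ n)
    (K : Type*) [Field K] [Fintype K] (hK : Fintype.card K = 2 ^ n)
    (e : G ⧸ Q ≃* Matrix.SpecialLinearGroup (Fin 2) K)
    (x : G) (hx : orderOf x = 3) (hfpf : ∀ q ∈ Q, x * q * x⁻¹ = q → q = 1) :
    Cfsg.IsElementaryAbelian 2 Q ∧
      ∃ (k : ℕ) (V : Fin k → Subgroup G), (∀ i, V i ≤ Q ∧ (V i).Normal ∧
        Cfsg.ActsAsSL2OnSection K ⊤ ⊤ (V i) ⊥) ∧ iSupIndep V ∧ ⨆ i, V i = Q := by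
  classical
  have hQn : Q.Normal := inferInstance
  haveI : Fact (Nat.Prime 2) := ⟨Nat.prime_two⟩
  haveI : CharP K 2 := Cfsg.Agent.Helper39.charP_of_card n hK
  have hcard : 2 < Fintype.card K := by
    rw [hK]
    calc 2 < 2 ^ 2 := by norm_num
      _ ≤ 2 ^ n := Nat.pow_le_pow_right (by norm_num) hn
  -- step 0: the projection `π` with `π x = c`
  have hxQ : x ∉ Q := by
    intro h
    have h1 := hfpf x h (by group)
    rw [h1, orderOf_one] at hx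
    norm_num at hx
  have hx3 : orderOf (e (QuotientGroup.mk x : G ⧸ Q)) = 3 := by
    have h1 : (e (QuotientGroup.mk x : G ⧸ Q)) ^ 3 = 1 := by
      rw [← map_pow, ← QuotientGroup.mk_pow, ← hx, pow_orderOf_eq_one, QuotientGroup.mk_one, map_one]
    have h2 : e (QuotientGroup.mk x : G ⧸ Q) ≠ 1 := by
      intro h
      have h3 : (QuotientGroup.mk x : G ⧸ Q) = 1 := e.injective (by rw [h, map_one])
      exact hxQ ((QuotientGroup.eq_one_iff x).mp h3)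
    exact orderOf_eq_prime h1 h2
  obtain ⟨P, hP⟩ := Cfsg.Agent.Helper51.HigCONJ3.conj_cSL (e (QuotientGroup.mk x : G ⧸ Q)) hx3
  obtain ⟨π, hπdef⟩ : ∃ π : G →* SL2 K, ∀ g, π g = P * e (QuotientGroup.mk g : G ⧸ Q) * P⁻¹ :=
    ⟨((MulAut.conj P).toMonoidHom.comp e.toMonoidHom).comp (QuotientGroup.mk' Q), fun g => rfl⟩
  have hπ : Function.Surjective π := by
    intro s
    obtain ⟨w, hw⟩ := e.surjective (P⁻¹ * s * P)
    obtain ⟨g, rfl⟩ := QuotientGroup.mk_surjective w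
    refine ⟨g, ?_⟩
    rw [hπdef, hw]
    group
  have hπQ : ∀ g : G, π g = 1 ↔ g ∈ Q := by
    intro g
    rw [hπdef, ← QuotientGroup.eq_one_iff (N := Q) g]
    constructor
    · intro h
      apply e.injective
      rw [map_one]
      calc e (QuotientGroup.mk g : G ⧸ Q) = P⁻¹ * (P * e (QuotientGroup.mk g : G ⧸ Q) * P⁻¹) * P := by group
        _ = 1 := by rw [h]; group
    · intro h
      rw [h, map_one]
      group
  have hπx : π x = cSL K := by rw [hπdef]; exact hP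
  -- conjugates of `x`
  have hconj : ∀ g : G, orderOf (g * x * g⁻¹) = 3 ∧
      ∀ q ∈ Q, (g * x * g⁻¹) * q * (g * x * g⁻¹)⁻¹ = q → q = 1 := by
    intro g
    refine ⟨?_, ?_⟩
    · have h1 : g * x * g⁻¹ = MulAut.conj g x := by simp [MulAut.conj_apply]
      rw [h1, MulEquiv.orderOf_eq, hx]
    · intro q hq h
      have h1 : g⁻¹ * q * g ∈ Q := by
        have := hQn.conj_mem q hq g⁻¹
        simpa using this
      have h2 : x * (g⁻¹ * q * g) * x⁻¹ = g⁻¹ * q * g := by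
        calc x * (g⁻¹ * q * g) * x⁻¹ = g⁻¹ * ((g * x * g⁻¹) * q * (g * x * g⁻¹)⁻¹) * g := by group
          _ = g⁻¹ * q * g := by rw [h]
      have h3 := hfpf _ h1 h2
      calc q = g * (g⁻¹ * q * g) * g⁻¹ := by group
        _ = 1 := by rw [h3]; group
  -- the module `V = Q/Q'`
  obtain ⟨actV, hactV⟩ := Cfsg.Agent.Helper51.HigGA.exists_secAct Q (⊥ : Subgroup G)
  obtain ⟨ρV, hρV⟩ := Cfsg.Agent.Helper84.HigGD.exists_descent π hπ actV (fun g hg =>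
    Cfsg.Agent.Helper51.HigGQ.secAct_trivial Q ⊥ Q le_sup_right actV hactV g ((hπQ g).mp hg))
  have hfV : ρV (cSL K) * ρV (cSL K) + ρV (cSL K) + 1 = 0 := by
    rw [← hπx, hρV]
    exact Cfsg.Agent.Helper51.HigGF.secAct_fpf Q ⊥ hQ x hx hfpf actV hactV
  obtain ⟨kV, hkV⟩ := Cfsg.Agent.Helper91.HigGP.secMod_two_pow Q (⊥ : Subgroup G) hQ
  have h2V : (2 : AddMonoid.End (SecMod Q (⊥ : Subgroup G))) = 0 := Cfsg.Agent.Helper50.HigZK.two_eq_zero hcard kV hkV ρV hfV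
  have hV2 : ∀ v : SecMod Q (⊥ : Subgroup G), v + v = 0 := by
    intro v
    have h1 : (2 : AddMonoid.End (SecMod Q (⊥ : Subgroup G))) v = 0 := by rw [h2V]; rfl
    rw [← one_add_one_eq_two] at h1
    exact h1
  -- the module `Z = Q'/[Q',Q]`
  have hQ'le : ⁅Q, Q⁆ ≤ Q := Subgroup.commutator_le_right Q Q
  have hQ'2 : IsPGroup 2 ↥⁅Q, Q⁆ := hQ.to_le hQ'le
  obtain ⟨actZ, hactZ⟩ := Cfsg.Agent.Helper51.HigGA.exists_secAct ⁅Q, Q⁆ ⁅⁅Q, Q⁆, Q⁆
  obtain ⟨ρZ, hρZ⟩ := Cfsg.Agent.Helper84.HigGD.exists_descent π hπ actZ (fun g hg =>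
    Cfsg.Agent.Helper51.HigGQ.secAct_trivial ⁅Q, Q⁆ ⁅⁅Q, Q⁆, Q⁆ Q le_sup_left actZ hactZ g ((hπQ g).mp hg))
  have hfZ : ρZ (cSL K) * ρZ (cSL K) + ρZ (cSL K) + 1 = 0 := by
    rw [← hπx, hρZ]
    exact Cfsg.Agent.Helper51.HigGF.secAct_fpf ⁅Q, Q⁆ ⁅⁅Q, Q⁆, Q⁆ hQ'2 x hx (fun a ha => hfpf a (hQ'le ha)) actZ hactZ
  obtain ⟨kZ, hkZ⟩ := Cfsg.Agent.Helper91.HigGP.secMod_two_pow ⁅Q, Q⁆ ⁅⁅Q, Q⁆, Q⁆ hQ'2
  have h2Z : (2 : AddMonoid.End (SecMod ⁅Q, Q⁆ ⁅⁅Q, Q⁆, Q⁆)) = 0 := Cfsg.Agent.Helper50.HigZK.two_eq_zero hcard kZ hkZ ρZ hfZ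
  have hZ2 : ∀ z : SecMod ⁅Q, Q⁆ ⁅⁅Q, Q⁆, Q⁆, z + z = 0 := by
    intro z
    have h1 : (2 : AddMonoid.End (SecMod ⁅Q, Q⁆ ⁅⁅Q, Q⁆, Q⁆)) z = 0 := by rw [h2Z]; rfl
    rw [← one_add_one_eq_two] at h1
    exact h1
  -- the commutator pairing vanishes
  obtain ⟨β, hβ⟩ := Cfsg.Agent.Helper49.HigGB.exists_beta Q
  have hβ0 : β = 0 := by
    apply Cfsg.Agent.Helper50.HigBETA.beta_zero hcard hV2 hZ2 ρV ρZ hfV hfZ β
    · intro s v w
      obtain ⟨g, rfl⟩ := hπ s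
      obtain ⟨q, rfl⟩ := secCl_surjective Q ⊥ v
      obtain ⟨r, rfl⟩ := secCl_surjective Q ⊥ w
      rw [hρV, hρZ, hactV, hactV, hβ, hβ, hactZ]
      congr 1
      apply Subtype.ext
      simp only [commutatorElement_def]
      group
    · intro v
      obtain ⟨q, rfl⟩ := secCl_surjective Q ⊥ v
      rw [hβ]
      have h1 : (⟨⁅(q : G), (q : G)⁆, Subgroup.commutator_mem_commutator q.2 q.2⟩ : ↥⁅Q, Q⁆) = 1 := by
        apply Subtype.ext
        simp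
      rw [h1]
      exact secCl_one _ _
    · intro s v
      obtain ⟨g, rfl⟩ := hπ s
      obtain ⟨q, rfl⟩ := secCl_surjective Q ⊥ v
      have h0 : π g * cSL K * (π g)⁻¹ = π (g * x * g⁻¹) := by
        rw [map_mul, map_mul, map_inv, hπx]
      rw [h0, hρV, hactV, hβ]
      have h1 : (⟨⁅(q : G), (g * x * g⁻¹) * (q : G) * (g * x * g⁻¹)⁻¹⁆,
          Subgroup.commutator_mem_commutator q.2 (hQn.conj_mem q q.2 (g * x * g⁻¹))⟩ : ↥⁅Q, Q⁆) = 1 := by
        apply Subtype.ext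
        have h2 := Cfsg.Agent.Helper49.HigGC.comm_of_fpf Q (g * x * g⁻¹) (hconj g).1 (hconj g).2 q q.2
        show ⁅(q : G), (g * x * g⁻¹) * (q : G) * (g * x * g⁻¹)⁻¹⁆ = 1
        rw [commutatorElement_eq_one_iff_mul_comm]
        exact h2
      rw [h1]
      exact secCl_one _ _
  have hQc : ∀ q ∈ Q, ∀ r ∈ Q, q * r = r * q := by
    apply Cfsg.Agent.Helper49.HigGN.comm_le_of_secCl_eq_zero Q hQ
    intro q r
    rw [← hβ, hβ0]
    rfl
  -- `Q` is elementary abelian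
  have hel : Cfsg.IsElementaryAbelian 2 Q := by
    refine ⟨⟨⟨fun a b => Subtype.ext (hQc a a.2 b b.2)⟩⟩, ?_⟩
    intro a ha
    have h1 : secCl Q ⊥ (⟨a, ha⟩ * ⟨a, ha⟩ : ↥Q) = 0 := by
      rw [secCl_mul]
      exact hV2 _
    have h2 := Cfsg.Agent.Helper91.HigGI.secCl_bot_eq_zero Q hQc _ h1
    have h3 := congrArg Subtype.val h2
    rw [pow_two]
    exact h3
  refine ⟨hel, ?_⟩
  -- the decomposition
  obtain ⟨k, lam, mu, hs, hi, h1, h2, h3, h4⟩ := Cfsg.Agent.Helper84.HigMTa.exists_frames hV2 ρV hfV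
  obtain ⟨Ψ, hΨ⟩ := Cfsg.Agent.Helper84.HigMTb.psi_of_frames ρV k lam mu hs hi h1 h2 h3 h4
  exact Cfsg.Agent.Helper49.HigGE.final_of_psi Q K π hπ hπQ hQc ρV (fun g q => by rw [hρV, hactV]) k Ψ hΨ

end Cfsg.Agent.S3050
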