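import Cfsg.Statements.S3053
import Cfsg.Agent.Helper51.SylowConj
import Cfsg.Agent.Helper51.StrongEmbed

set_option autoImplicit false
open Cfsg

namespace Cfsg.Agent.S3053

open Subgroup
open scoped commutatorElement

set_option maxHeartbeats 1000000 in
theorem core {G : Type*} [Group G] [Finite G] {p : ℕ} [Fact p.Prime] (hp : p ≠ 2) (P : Sylow p G)
    (Z : Subgroup G)
    (hZ_mem : ∀ ζ : G, ζ ∈ Z ↔ ζ ∈ (P : Subgroup G) ∧ ∀ w ∈ (P : Subgroup G), w * ζ = ζ * w)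
    (hZcard : Nat.card Z = p)
    (hcommZ : ∀ u ∈ (P : Subgroup G), ∀ v ∈ (P : Subgroup G), u * v * u⁻¹ * v⁻¹ ∈ Z)
    (hPcard : Nat.card (P : Subgroup G) = p ^ 3)
    (hexp : ∃ a ∈ (P : Subgroup G), a ^ p ≠ 1)
    (z : G) (hz : z ∈ Z) (g₀ : G) (hgP : g₀ * z * g₀⁻¹ ∈ (P : Subgroup G))
    (hgZ : g₀ * z * g₀⁻¹ ∉ Z) : False := by
  have hpp : p.Prime := Fact.out
  have hp3 : 2 < p := lt_of_le_of_ne hpp.two_le (Ne.symm hp)
  have hZP : ∀ ζ ∈ Z, ζ ∈ (P : Subgroup G) := fun ζ h => ((hZ_mem ζ).mp h).1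
  have hZc : ∀ ζ ∈ Z, ∀ w ∈ (P : Subgroup G), w * ζ = ζ * w := fun ζ h => ((hZ_mem ζ).mp h).2
  have hz1 : z ≠ 1 := by
    rintro rfl
    apply hgZ
    rw [mul_one, mul_inv_cancel]; exact Z.one_mem
  have hZpow : ∀ ζ ∈ Z, ζ ^ p = 1 := by
    intro ζ hζ
    have h := pow_card_eq_one' (G := ↥Z) (x := ⟨ζ, hζ⟩)
    rw [hZcard] at h
    simpa using congrArg Subtype.val h
  have hZgen : ∀ w ∈ Z, w ≠ 1 → ∀ ζ ∈ Z, ∃ k : ℕ, ζ = w ^ k := by
    intro w hw hw1 ζ hζ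
    have hw1' : (⟨w, hw⟩ : ↥Z) ≠ 1 := fun h => hw1 (congrArg Subtype.val h)
    have h := mem_powers_of_prime_card (G := ↥Z) hZcard hw1' (g' := ⟨ζ, hζ⟩)
    obtain ⟨k, hk⟩ := (Submonoid.mem_powers_iff _ _).mp h
    exact ⟨k, by simpa using (congrArg Subtype.val hk).symm⟩
  have hzo : orderOf z = p := orderOf_eq_prime (hZpow z hz) hz1
  -- the `p`-th power map is multiplicative on `P`
  have hpow_mul : ∀ u ∈ (P : Subgroup G), ∀ v ∈ (P : Subgroup G),
      (u * v) ^ p = u ^ p * v ^ p := by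
    intro u hu v hv
    obtain ⟨c, hc⟩ : ∃ c, c = v⁻¹ * u⁻¹ * v * u := ⟨_, rfl⟩
    have hcZ : c ∈ Z := by
      have h := hcommZ v⁻¹ (inv_mem hv) u⁻¹ (inv_mem hu)
      rw [inv_inv, inv_inv] at h
      rw [hc]; exact h
    have h1 : v * u = u * v * c := by rw [hc]; group
    have hcu : Commute c u := (hZc c hcZ u hu).symm
    have hcv : Commute c v := (hZc c hcZ v hv).symm
    rw [Helper51.mul_pow_class_two u v c h1 hcu hcv p]
    have h2 : c ^ (p.choose 2) = 1 := by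
      obtain ⟨m, hm⟩ := hpp.dvd_choose_self (by norm_num) hp3
      rw [hm, pow_mul, hZpow c hcZ, one_pow]
    rw [h2, mul_one]
  have hpowZ : ∀ u ∈ (P : Subgroup G), u ^ p ∈ Z := by
    intro u hu
    rw [hZ_mem]
    refine ⟨pow_mem hu p, fun w hw => ?_⟩
    have hq := hcommZ w hw u hu
    have e1 : w * u ^ p * w⁻¹ = (w * u * w⁻¹ * u⁻¹ * u) ^ p := by
      rw [inv_mul_cancel_right, conj_pow]
    rw [hpow_mul _ (hZP _ hq) u hu, hZpow _ hq, one_mul] at e1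
    calc w * u ^ p = (w * u ^ p * w⁻¹) * w := by group
      _ = u ^ p * w := by rw [e1]
  -- conjugating a noncentral element by a suitable element multiplies it by a given central one
  have L1 : ∀ c ∈ Z, ∀ u ∈ (P : Subgroup G), u ∉ Z →
      ∃ a ∈ (P : Subgroup G), a * u * a⁻¹ = u * c := by
    intro c hc u hu huZ
    have hex : ∃ a₀ ∈ (P : Subgroup G), a₀ * u ≠ u * a₀ := by
      by_contra h
      push Not at h
      exact huZ ((hZ_mem u).mpr ⟨hu, h⟩)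
    obtain ⟨a₀, ha₀, hne⟩ := hex
    obtain ⟨w, hw⟩ : ∃ w, w = a₀ * u * a₀⁻¹ * u⁻¹ := ⟨_, rfl⟩
    have hwZ : w ∈ Z := by rw [hw]; exact hcommZ a₀ ha₀ u hu
    have hw1 : w ≠ 1 := by
      intro h
      apply hne
      have e : a₀ * u = w * u * a₀ := by rw [hw]; group
      rw [e, h, one_mul]
    obtain ⟨j, hj⟩ := hZgen w hwZ hw1 c hc
    refine ⟨a₀ ^ j, pow_mem ha₀ j, ?_⟩
    have key : ∀ n : ℕ, a₀ ^ n * u * (a₀ ^ n)⁻¹ = w ^ n * u := by
      intro n
      induction n with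
      | zero => simp
      | succ n ih =>
        calc a₀ ^ (n + 1) * u * (a₀ ^ (n + 1))⁻¹ = a₀ * (a₀ ^ n * u * (a₀ ^ n)⁻¹) * a₀⁻¹ := by
              rw [pow_succ']; group
          _ = a₀ * (w ^ n * u) * a₀⁻¹ := by rw [ih]
          _ = (a₀ * w ^ n) * u * a₀⁻¹ := by group
          _ = (w ^ n * a₀) * u * a₀⁻¹ := by rw [hZc _ (pow_mem hwZ n) a₀ ha₀]
          _ = w ^ n * (a₀ * u * a₀⁻¹ * u⁻¹) * u := by group
          _ = w ^ (n + 1) * u := by rw [← hw, pow_succ]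
    rw [key j, ← hj]
    exact (hZc c hc u hu).symm
  obtain ⟨y, hy⟩ : ∃ y, y = g₀ * z * g₀⁻¹ := ⟨_, rfl⟩
  rw [← hy] at hgP hgZ
  have hyz : y * z = z * y := hZc z hz y hgP
  -- improve the conjugating element: `z` lies in the conjugate Sylow subgroup
  obtain ⟨g, hgy, hgz⟩ : ∃ g : G, g * z * g⁻¹ = y ∧ g⁻¹ * z * g ∈ (P : Subgroup G) := by
    have hS : ((g₀ • P : Sylow p G) : Subgroup G) ≤ centralizer ({y} : Set G) := by
      intro s hs
      rw [Helper51.mem_smul_sylow] at hs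
      rw [Subgroup.mem_centralizer_iff]
      intro y' hy'
      rw [Set.mem_singleton_iff] at hy'
      rw [hy']
      have h1 := hZc z hz _ hs
      calc y * s = g₀ * (z * (g₀⁻¹ * s * g₀)) * g₀⁻¹ := by rw [hy]; group
        _ = g₀ * (g₀⁻¹ * s * g₀ * z) * g₀⁻¹ := by rw [h1]
        _ = s * y := by rw [hy]; group
    have hQ : IsPGroup p (zpowers z) := by
      apply IsPGroup.of_card (n := 1)
      rw [Nat.card_zpowers, hzo, pow_one]
    have hQH : zpowers z ≤ centralizer ({y} : Set G) := by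
      rw [zpowers_le, Subgroup.mem_centralizer_iff]
      intro y' hy'
      rw [Set.mem_singleton_iff] at hy'
      rw [hy']
      exact hyz
    obtain ⟨h, hh, hle⟩ := Helper51.exists_smul_sylow_ge (centralizer ({y} : Set G)) (g₀ • P) hS
      (zpowers z) hQ hQH
    refine ⟨h * g₀, ?_, ?_⟩
    · have h1 : h * y = y * h := (Subgroup.mem_centralizer_iff.mp hh y rfl).symm
      calc h * g₀ * z * (h * g₀)⁻¹ = h * (g₀ * z * g₀⁻¹) * h⁻¹ := by group
        _ = h * y * h⁻¹ := by rw [hy]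
        _ = y := by rw [h1, mul_inv_cancel_right]
    · have h2 := hle (mem_zpowers z)
      rw [← mul_smul, Helper51.mem_smul_sylow] at h2
      exact h2
  have hyo : orderOf y = p := by rw [← hgy, Helper51.orderOf_conj_eq]; exact hzo
  -- the two transvections
  obtain ⟨a, haP, ha⟩ := L1 z hz y hgP hgZ
  have haz : a * z * a⁻¹ = z := by rw [hZc z hz a haP, mul_inv_cancel_right]
  obtain ⟨u, hu⟩ : ∃ u, u = g⁻¹ * z * g := ⟨_, rfl⟩
  rw [← hu] at hgz
  have huZ : u ∉ Z := by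
    intro h
    obtain ⟨k, hk⟩ := hZgen z hz hz1 u h
    have hzy : z = y ^ k := by
      calc z = g * u * g⁻¹ := by rw [hu]; group
        _ = g * z ^ k * g⁻¹ := by rw [hk]
        _ = (g * z * g⁻¹) ^ k := (conj_pow).symm
        _ = y ^ k := by rw [hgy]
    have hle : zpowers z ≤ zpowers y := by
      rw [zpowers_le, hzy]; exact pow_mem (mem_zpowers y) k
    have heq : zpowers z = zpowers y :=
      Subgroup.eq_of_le_of_card_ge hle (by rw [Nat.card_zpowers, Nat.card_zpowers, hyo, hzo])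
    have hmem : y ∈ zpowers z := by rw [heq]; exact mem_zpowers y
    exact hgZ ((zpowers_le.mpr hz) hmem)
  obtain ⟨b₀, hb₀P, hb₀⟩ := L1 z⁻¹ (inv_mem hz) u hgz huZ
  obtain ⟨b, hb⟩ : ∃ b, b = g * b₀ * g⁻¹ := ⟨_, rfl⟩
  have hbz : b * z * b⁻¹ = z * y⁻¹ := by
    calc b * z * b⁻¹ = g * (b₀ * (g⁻¹ * z * g) * b₀⁻¹) * g⁻¹ := by rw [hb]; group
      _ = g * (u * z⁻¹) * g⁻¹ := by rw [← hu, hb₀]
      _ = g * (g⁻¹ * z * g * z⁻¹) * g⁻¹ := by rw [hu]
      _ = z * (g * z * g⁻¹)⁻¹ := by group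
      _ = z * y⁻¹ := by rw [hgy]
  have hby : b * y * b⁻¹ = y := by
    have h1 : b₀ * z * b₀⁻¹ = z := by rw [hZc z hz b₀ hb₀P, mul_inv_cancel_right]
    calc b * y * b⁻¹ = b * (g * z * g⁻¹) * b⁻¹ := by rw [hgy]
      _ = g * (b₀ * z * b₀⁻¹) * g⁻¹ := by rw [hb]; group
      _ = g * z * g⁻¹ := by rw [h1]
      _ = y := hgy
  -- an element inverting `y` and `z`
  obtain ⟨t₀, ht₀⟩ : ∃ t₀, t₀ = a * b * a := ⟨_, rfl⟩
  have ht₀y : t₀ * y * t₀⁻¹ = z := by
    calc t₀ * y * t₀⁻¹ = a * (b * (a * y * a⁻¹) * b⁻¹) * a⁻¹ := by rw [ht₀]; group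
      _ = a * (b * (y * z) * b⁻¹) * a⁻¹ := by rw [ha]
      _ = a * ((b * y * b⁻¹) * (b * z * b⁻¹)) * a⁻¹ := by group
      _ = a * (y * (z * y⁻¹)) * a⁻¹ := by rw [hby, hbz]
      _ = a * z * a⁻¹ := by
        have e : y * (z * y⁻¹) = z := by rw [← mul_assoc, hyz, mul_inv_cancel_right]
        rw [e]
      _ = z := haz
  have ht₀z : t₀ * z * t₀⁻¹ = y⁻¹ := by
    calc t₀ * z * t₀⁻¹ = a * (b * (a * z * a⁻¹) * b⁻¹) * a⁻¹ := by rw [ht₀]; group
      _ = a * (z * y⁻¹) * a⁻¹ := by rw [haz, hbz]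
      _ = (a * z * a⁻¹) * (a * y * a⁻¹)⁻¹ := by group
      _ = z * (y * z)⁻¹ := by rw [haz, ha]
      _ = y⁻¹ := by group
  obtain ⟨t, ht⟩ : ∃ t, t = t₀ * t₀ := ⟨_, rfl⟩
  have hty : t * y * t⁻¹ = y⁻¹ := by
    calc t * y * t⁻¹ = t₀ * (t₀ * y * t₀⁻¹) * t₀⁻¹ := by rw [ht]; group
      _ = y⁻¹ := by rw [ht₀y, ht₀z]
  have htz : t * z * t⁻¹ = z⁻¹ := by
    calc t * z * t⁻¹ = t₀ * (t₀ * z * t₀⁻¹) * t₀⁻¹ := by rw [ht]; group
      _ = (t₀ * y * t₀⁻¹)⁻¹ := by rw [ht₀z]; group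
      _ = z⁻¹ := by rw [ht₀y]
  -- `E = ⟨y, z⟩`
  obtain ⟨E, hE⟩ : ∃ E : Subgroup G, E = closure ({y, z} : Set G) := ⟨_, rfl⟩
  have hyE : y ∈ E := by rw [hE]; exact Subgroup.subset_closure (by simp)
  have hzE : z ∈ E := by rw [hE]; exact Subgroup.subset_closure (by simp)
  have hZE : Z ≤ E := by
    intro ζ hζ
    obtain ⟨k, rfl⟩ := hZgen z hz hz1 ζ hζ
    exact pow_mem hzE k
  have hEc1 : ∀ e ∈ closure ({y, z} : Set G), Commute e y ∧ Commute e z := by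
    intro e he
    induction he using closure_induction with
    | mem v hv =>
      rcases hv with rfl | hv
      · exact ⟨Commute.refl _, hyz⟩
      · rw [Set.mem_singleton_iff] at hv
        rw [hv]
        exact ⟨hyz.symm, Commute.refl _⟩
    | one => exact ⟨Commute.one_left _, Commute.one_left _⟩
    | mul v w _ _ ihv ihw => exact ⟨ihv.1.mul_left ihw.1, ihv.2.mul_left ihw.2⟩
    | inv v _ ih => exact ⟨ih.1.inv_left, ih.2.inv_left⟩
  have hEcomm : ∀ e₁ ∈ closure ({y, z} : Set G), ∀ e₂ ∈ closure ({y, z} : Set G),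
      Commute e₁ e₂ := by
    intro e₁ he₁ e₂ he₂
    induction he₂ using closure_induction with
    | mem v hv =>
      rcases hv with rfl | hv
      · exact (hEc1 e₁ he₁).1
      · rw [Set.mem_singleton_iff] at hv
        rw [hv]
        exact (hEc1 e₁ he₁).2
    | one => exact Commute.one_right _
    | mul v w _ _ ihv ihw => exact ihv.mul_right ihw
    | inv v _ ih => exact ih.inv_right
  have htE' : ∀ e ∈ closure ({y, z} : Set G), t * e * t⁻¹ = e⁻¹ := by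
    intro e he
    induction he using closure_induction with
    | mem v hv =>
      rcases hv with rfl | hv
      · exact hty
      · rw [Set.mem_singleton_iff] at hv
        rw [hv]
        exact htz
    | one => simp
    | mul v w hv hw ihv ihw =>
      calc t * (v * w) * t⁻¹ = (t * v * t⁻¹) * (t * w * t⁻¹) := by group
        _ = v⁻¹ * w⁻¹ := by rw [ihv, ihw]
        _ = (w * v)⁻¹ := by group
        _ = (v * w)⁻¹ := by rw [(hEcomm v hv w hw).eq]
    | inv v _ ih =>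
      calc t * v⁻¹ * t⁻¹ = (t * v * t⁻¹)⁻¹ := by group
        _ = v⁻¹⁻¹ := by rw [ih]
  have htE : ∀ e ∈ E, t * e * t⁻¹ = e⁻¹ := by
    intro e he
    rw [hE] at he
    exact htE' e he
  have hPE : ∀ w ∈ (P : Subgroup G), ∀ e ∈ E, w * e * w⁻¹ ∈ E := by
    intro w hw e he
    have hmap : E.map (MulAut.conj w).toMonoidHom ≤ E := by
      rw [hE, MonoidHom.map_closure, closure_le, ← hE]
      rintro _ ⟨v, hv, rfl⟩
      show w * v * w⁻¹ ∈ E
      rcases hv with rfl | hv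
      · have h1 := hZE (hcommZ w hw v hgP)
        have h2 := E.mul_mem h1 hyE
        rwa [inv_mul_cancel_right] at h2
      · rw [Set.mem_singleton_iff] at hv
        rw [hv, hZc z hz w hw, mul_inv_cancel_right]
        exact hzE
    exact hmap ⟨e, he, rfl⟩
  have hPE' : ∀ w ∈ (P : Subgroup G), ∀ e ∈ E, w⁻¹ * e * w ∈ E := by
    intro w hw e he
    have h := hPE w⁻¹ (inv_mem hw) e he
    rwa [inv_inv] at h
  have hcomC : ∀ w ∈ (P : Subgroup G), t * w * t⁻¹ * w⁻¹ ∈ centralizer (E : Set G) :=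
    fun w hw => Helper51.commutator_mem_centralizer_of_inverts E t w htE (hPE' w hw)
  have hPC : ∀ w ∈ (P : Subgroup G), ∀ c ∈ centralizer (E : Set G),
      w * c * w⁻¹ ∈ centralizer (E : Set G) := by
    intro w hw c hc
    rw [Subgroup.mem_centralizer_iff] at hc ⊢
    intro e he
    have h1 := hc _ (hPE' w hw e he)
    calc e * (w * c * w⁻¹) = w * ((w⁻¹ * e * w) * c) * w⁻¹ := by group
      _ = w * (c * (w⁻¹ * e * w)) * w⁻¹ := by rw [h1]
      _ = w * c * w⁻¹ * e := by group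
  -- the subgroup `C_G(E) P`
  let M : Subgroup G :=
    { carrier := {m | ∃ c ∈ centralizer (E : Set G), ∃ w ∈ (P : Subgroup G), m = c * w}
      mul_mem' := by
        rintro _ _ ⟨c₁, hc₁, w₁, hw₁, rfl⟩ ⟨c₂, hc₂, w₂, hw₂, rfl⟩
        exact ⟨c₁ * (w₁ * c₂ * w₁⁻¹), mul_mem hc₁ (hPC w₁ hw₁ c₂ hc₂), w₁ * w₂,
          mul_mem hw₁ hw₂, by group⟩
      one_mem' := ⟨1, one_mem _, 1, one_mem _, by simp⟩
      inv_mem' := by
        rintro _ ⟨c, hc, w, hw, rfl⟩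
        refine ⟨w⁻¹ * c⁻¹ * w, ?_, w⁻¹, inv_mem hw, by group⟩
        have h := hPC w⁻¹ (inv_mem hw) c⁻¹ (inv_mem hc)
        rwa [inv_inv] at h }
  have hPM : (P : Subgroup G) ≤ M := fun w hw => ⟨1, one_mem _, w, hw, by simp⟩
  have htPM : ((t • P : Sylow p G) : Subgroup G) ≤ M := by
    intro s hs
    rw [Helper51.mem_smul_sylow] at hs
    exact ⟨t * (t⁻¹ * s * t) * t⁻¹ * (t⁻¹ * s * t)⁻¹, hcomC _ hs, t⁻¹ * s * t, hs, by group⟩
  obtain ⟨m, hm, hle⟩ := Helper51.exists_smul_sylow_ge M P hPM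
    ((t • P : Sylow p G) : Subgroup G) (t • P : Sylow p G).2 htPM
  obtain ⟨c₀, hc₀, w₀, hw₀, rfl⟩ := hm
  obtain ⟨n, hn⟩ : ∃ n, n = c₀⁻¹ * t := ⟨_, rfl⟩
  have hnP : ∀ w ∈ (P : Subgroup G), n * w * n⁻¹ ∈ (P : Subgroup G) := by
    intro w hw
    have h1 : t * w * t⁻¹ ∈ ((t • P : Sylow p G) : Subgroup G) := by
      rw [Helper51.mem_smul_sylow]
      have e : t⁻¹ * (t * w * t⁻¹) * t = w := by group
      rw [e]; exact hw
    have h2 := hle h1
    rw [Helper51.mem_smul_sylow] at h2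
    have h3 := mul_mem (mul_mem hw₀ h2) (inv_mem hw₀)
    have e : w₀ * ((c₀ * w₀)⁻¹ * (t * w * t⁻¹) * (c₀ * w₀)) * w₀⁻¹ = n * w * n⁻¹ := by
      rw [hn]; group
    rwa [e] at h3
  have hnE : ∀ e ∈ E, n * e * n⁻¹ = e⁻¹ := by
    intro e he
    have h1 := htE e he
    have h2 := Subgroup.mem_centralizer_iff.mp hc₀ e⁻¹ (inv_mem he)
    calc n * e * n⁻¹ = c₀⁻¹ * (t * e * t⁻¹) * c₀ := by rw [hn]; group
      _ = c₀⁻¹ * (e⁻¹ * c₀) := by rw [h1, mul_assoc]
      _ = e⁻¹ := by rw [h2, inv_mul_cancel_left]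
  -- an element `r` of order `p²` not commuting with `y`
  obtain ⟨a₁, ha₁P, ha₁⟩ := hexp
  obtain ⟨a₂, ha₂P, ha₂⟩ : ∃ a₂ ∈ (P : Subgroup G), a₂ * y ≠ y * a₂ := by
    by_contra h
    push Not at h
    exact hgZ ((hZ_mem y).mpr ⟨hgP, h⟩)
  obtain ⟨r, hrP, hrp, hry⟩ : ∃ r ∈ (P : Subgroup G), r ^ p ≠ 1 ∧ r * y ≠ y * r := by
    by_cases h1 : a₁ * y = y * a₁
    · by_cases h2 : a₂ ^ p = 1
      · refine ⟨a₁ * a₂, mul_mem ha₁P ha₂P, ?_, ?_⟩
        · rw [hpow_mul a₁ ha₁P a₂ ha₂P, h2, mul_one]; exact ha₁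
        · intro h
          apply ha₂
          have e : a₁ * (a₂ * y) = a₁ * (y * a₂) := by
            calc a₁ * (a₂ * y) = a₁ * a₂ * y := (mul_assoc _ _ _).symm
              _ = y * (a₁ * a₂) := h
              _ = y * a₁ * a₂ := (mul_assoc _ _ _).symm
              _ = a₁ * y * a₂ := by rw [h1]
              _ = a₁ * (y * a₂) := mul_assoc _ _ _
          exact mul_left_cancel e
      · exact ⟨a₂, ha₂P, h2, ha₂⟩
    · exact ⟨a₁, ha₁P, ha₁, h1⟩
  -- `Ω₁(P)` is a commutative subgroup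
  let Ω : Subgroup G :=
    { carrier := {u | u ∈ (P : Subgroup G) ∧ u ^ p = 1}
      mul_mem' := by
        rintro u v ⟨hu, hu'⟩ ⟨hv, hv'⟩
        exact ⟨mul_mem hu hv, by rw [hpow_mul u hu v hv, hu', hv', one_mul]⟩
      one_mem' := ⟨one_mem _, one_pow _⟩
      inv_mem' := by
        rintro u ⟨hu, hu'⟩
        exact ⟨inv_mem hu, by rw [inv_pow, hu', inv_one]⟩ }
  have hΩP : Ω ≤ (P : Subgroup G) := fun u hu => hu.1
  have hΩne : Ω ≠ (P : Subgroup G) := by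
    intro h
    have h1 : r ∈ Ω := by rw [h]; exact hrP
    exact hrp h1.2
  have hΩcomm := Helper51.comm_of_lt_of_card_eq_prime_cube (P : Subgroup G) Ω hPcard hΩP hΩne
  have hyΩ : y ∈ Ω := by
    refine ⟨hgP, ?_⟩
    rw [← hgy, conj_pow, hZpow z hz, mul_one, mul_inv_cancel]
  have hrpZ := hpowZ r hrP
  have hnr := hnP r hrP
  have h1 : (n * r * n⁻¹) ^ p = (r ^ p)⁻¹ := by
    rw [conj_pow]; exact hnE _ (hZE hrpZ)
  obtain ⟨d, hd'⟩ : ∃ d, d = n * r * n⁻¹ * r := ⟨_, rfl⟩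
  have hd : d ∈ Ω := by
    rw [hd']
    exact ⟨mul_mem hnr hrP, by rw [hpow_mul _ hnr r hrP, h1, inv_mul_cancel]⟩
  obtain ⟨q, hq⟩ : ∃ q, q = r * y * r⁻¹ * y⁻¹ := ⟨_, rfl⟩
  have hqZ : q ∈ Z := by rw [hq]; exact hcommZ r hrP y hgP
  have hq1 : q ≠ 1 := by
    intro h
    apply hry
    have e : r * y = q * y * r := by rw [hq]; group
    rw [e, h, one_mul]
  have hnq : n * q * n⁻¹ = q⁻¹ := hnE q (hZE hqZ)
  have hny : n * y * n⁻¹ = y⁻¹ := hnE y hyE
  have hnq' : n * q * n⁻¹ = q := by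
    have hdy : d * y = y * d := hΩcomm d hd y hyΩ
    have hdq : d * q = q * d := hZc q hqZ d (hΩP hd)
    have e1 : n * r * n⁻¹ = d * r⁻¹ := by rw [hd']; group
    have e2 : r⁻¹ * y⁻¹ * r = y⁻¹ * q := by
      have hrq : r * q = q * r := hZc q hqZ r hrP
      have e3 : y * (r⁻¹ * y⁻¹ * r) = q := by
        calc y * (r⁻¹ * y⁻¹ * r) = r⁻¹ * (r * y * r⁻¹ * y⁻¹) * r := by group
          _ = r⁻¹ * (q * r) := by rw [← hq, mul_assoc]
          _ = r⁻¹ * (r * q) := by rw [hrq]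
          _ = q := by group
      rw [← e3]; group
    have hdy' : d * y⁻¹ = y⁻¹ * d := by
      calc d * y⁻¹ = y⁻¹ * (y * d) * y⁻¹ := by group
        _ = y⁻¹ * (d * y) * y⁻¹ := by rw [hdy]
        _ = y⁻¹ * d := by group
    calc n * q * n⁻¹
        = (n * r * n⁻¹) * (n * y * n⁻¹) * (n * r * n⁻¹)⁻¹ * (n * y * n⁻¹)⁻¹ := by
          rw [hq]; group
      _ = (d * r⁻¹) * y⁻¹ * (d * r⁻¹)⁻¹ * y⁻¹⁻¹ := by rw [e1, hny]
      _ = d * (r⁻¹ * y⁻¹ * r) * d⁻¹ * y := by group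
      _ = d * (y⁻¹ * q) * d⁻¹ * y := by rw [e2]
      _ = (d * y⁻¹) * q * d⁻¹ * y := by group
      _ = y⁻¹ * (d * q) * d⁻¹ * y := by rw [hdy']; group
      _ = y⁻¹ * (q * d) * d⁻¹ * y := by rw [hdq]
      _ = y⁻¹ * (q * y) := by group
      _ = y⁻¹ * (y * q) := by rw [hZc q hqZ y hgP]
      _ = q := by group
  have hqq : q * q = 1 := mul_eq_one_iff_eq_inv.mpr (hnq'.symm.trans hnq)
  apply hq1
  have hqp := hZpow q hqZ
  obtain ⟨k, hk⟩ : ∃ k, p = 2 * k + 1 := by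
    rcases hpp.eq_two_or_odd with h | h
    · exact absurd h hp
    · exact ⟨p / 2, by omega⟩
  rw [hk, pow_succ, pow_mul, pow_two, hqq, one_pow, one_mul] at hqp
  exact hqp

/-- Let p be an odd prime and G a finite group with a Sylow p-subgroup P that is extraspecial of order p³ and exponent p². Then the centre of P is strongly closed in P with respect to G: a G-conjugate of an element of Z(P) that lies in P already lies in Z(P). In particular a nontrivial central element of P is conjugate in G to no noncentral element of P. -/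
theorem result {G : Type*} [Group G] [Finite G]
    {p : ℕ} [Fact p.Prime] (hp : p ≠ 2) (P : Sylow p G) (hE : Cfsg.IsExtraspecial p ↥P)
    (hcard : Nat.card P = p ^ 3) (hexp : Monoid.exponent ↥P = p ^ 2) :
    Cfsg.IsStronglyClosed ((Subgroup.center ↥P).map (P : Subgroup G).subtype) (P : Subgroup G) := by
  have hpp : p.Prime := Fact.out
  obtain ⟨⟨hPp, hfrat, hcomm⟩, hZcard'⟩ := hE
  have hZ_mem : ∀ ζ : G, ζ ∈ (Subgroup.center ↥P).map (P : Subgroup G).subtype ↔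
      ζ ∈ (P : Subgroup G) ∧ ∀ w ∈ (P : Subgroup G), w * ζ = ζ * w := by
    intro ζ
    constructor
    · rintro ⟨ζ', hζ', rfl⟩
      refine ⟨ζ'.2, fun w hw => ?_⟩
      have h := Subgroup.mem_center_iff.mp hζ' ⟨w, hw⟩
      exact congrArg Subtype.val h
    · rintro ⟨hζ, h⟩
      refine Subgroup.mem_map.mpr ⟨⟨ζ, hζ⟩, ?_, rfl⟩
      exact Subgroup.mem_center_iff.mpr (fun w => Subtype.ext (h w.1 w.2))
  have hZcard : Nat.card ((Subgroup.center ↥P).map (P : Subgroup G).subtype) = p := by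
    exact (Nat.card_congr ((Subgroup.center ↥P).equivMapOfInjective _
      (Subgroup.subtype_injective _)).symm.toEquiv).trans hZcard'
  have hcommZ : ∀ u ∈ (P : Subgroup G), ∀ v ∈ (P : Subgroup G),
      u * v * u⁻¹ * v⁻¹ ∈ (Subgroup.center ↥P).map (P : Subgroup G).subtype := by
    intro u hu v hv
    have h1 : ⁅(⟨u, hu⟩ : ↥P), ⟨v, hv⟩⁆ ∈ commutator ↥P := by
      rw [_root_.commutator_def]
      exact Subgroup.commutator_mem_commutator (Subgroup.mem_top _) (Subgroup.mem_top _)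
    rw [hcomm] at h1
    exact ⟨_, h1, rfl⟩
  have hexp' : ∃ a ∈ (P : Subgroup G), a ^ p ≠ 1 := by
    by_contra h
    push Not at h
    have h1 : Monoid.exponent ↥P ∣ p := by
      apply Monoid.exponent_dvd_of_forall_pow_eq_one
      intro w
      exact Subtype.ext (by simpa using h w.1 w.2)
    rw [hexp] at h1
    have h2 := Nat.le_of_dvd hpp.pos h1
    have h3 : p < p ^ 2 := by
      calc p = p ^ 1 := (pow_one p).symm
        _ < p ^ 2 := Nat.pow_lt_pow_right hpp.one_lt (by norm_num)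
    omega
  refine ⟨fun ζ hζ => ((hZ_mem ζ).mp hζ).1, ?_⟩
  intro x hx g hgx
  by_contra hgZ
  exact core hp P _ hZ_mem hZcard hcommZ hcard hexp' x hx g hgx hgZ

end Cfsg.Agent.S3053
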