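import Cfsg.Statements.S3054
import Cfsg.Agent.Helper41.RVMat
import Cfsg.Agent.Helper41.RVPlane

set_option autoImplicit false
open Cfsg

namespace Cfsg.Agent.S3054

open Cfsg.Agent.Helper41.RV Matrix

/-- Let p be an odd prime and G a finite group with a Sylow p-subgroup P that is extraspecial of order p³ and exponent p. Suppose P contains three distinct subgroups A of order p² (each is elementary abelian of rank 2) such that every automorphism of A of order p is induced by conjugation by an element of G; equivalently the automorphism group induced on A by its normalizer contains the special linear group of A. Then p ≤ 13. -/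
theorem result {G : Type*} [Group G] [Finite G]
    {p : ℕ} [Fact p.Prime] (hp : p ≠ 2) (P : Sylow p G) (hE : Cfsg.IsExtraspecial p ↥P)
    (hcard : Nat.card P = p ^ 3) (hexp : Monoid.exponent ↥P = p)
    (A : Fin 3 → Subgroup G) (hA : Function.Injective A) (hAP : ∀ i, A i ≤ (P : Subgroup G))
    (hAcard : ∀ i, Nat.card ↥(A i) = p ^ 2)
    (hSL : ∀ i, ∀ φ : MulAut ↥(A i), orderOf φ = p → ∃ g : G, ∀ a : ↥(A i), (φ a : G) = g * (a : G) * g⁻¹) :
    p ≤ 13 := by
  classical
  by_contra hp13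
  have hpp := (Fact.out : p.Prime)
  have h17 : 17 ≤ p := by
    by_contra h
    push_neg at h hp13
    interval_cases p <;> exact absurd hpp (by decide)
  obtain ⟨c, z, H⟩ := exists_heis (P : Subgroup G) hE hcard hexp
  obtain ⟨r, hr0, hr⟩ := prim_root p
  have hrk : ∀ k : ℕ, 0 < k → k < 16 → r ^ k ≠ 1 := by
    intro k hk hk' h
    have h1 := Nat.le_of_dvd hk (hr k h)
    omega
  have hdata : ∀ i, ∃ x ∈ A i, c x ≠ 0 ∧ z ∈ A i ∧
      (∀ y ∈ A i, ∃ v : Fin 2 → ZMod p, y = E z x v) ∧
      ∃ M ∈ SP (P : Subgroup G) c, M *ᵥ c x = r⁻¹ • c x ∧ M.det = r := by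
    intro i
    obtain ⟨x, hxA, hcx, hzA, hall⟩ := plane_data H (A i) (hAP i) (hAcard i)
    obtain ⟨φ, hφo, hφz, hφx⟩ := plane_aut H (A i) (hAP i) hxA hcx hzA hall
    obtain ⟨g, hg⟩ := hSL i φ hφo
    have hgz : g * z * g⁻¹ = z * x := by
      rw [← hφz]
      exact (hg ⟨z, hzA⟩).symm
    have hgx : g * x * g⁻¹ = x := by
      have h1 := hg ⟨x, hxA⟩
      rw [hφx] at h1
      exact h1.symm
    exact ⟨x, hxA, hcx, hzA, hall, radical_core P H (hAP i hxA) hcx hgz hgx r hr0⟩
  choose x hxA hcx hzA hall M hM hMv hMd using hdata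
  refine rv_matrix hp (SP (P : Subgroup G) c)
    (fun M hM => by obtain ⟨h, a⟩ := hM; exact H.acts_order P a) r hr0
    (hrk 3 (by norm_num) (by norm_num)) (hrk 6 (by norm_num) (by norm_num))
    (hrk 9 (by norm_num) (by norm_num)) (hrk 15 (by norm_num) (by norm_num))
    M (fun i => c (x i)) hM hMv hMd ?_
    (Or.inl ⟨hrk 12 (by norm_num) (by norm_num), by simp⟩)
  intro i j hij hcr
  apply hij
  apply hA
  obtain ⟨lam, hlam⟩ := exists_smul_of_cross (c (x j)) (c (x i)) (hcx i)
    (by linear_combination -hcr)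
  have hxjP := hAP j (hxA j)
  have hxiP := hAP i (hxA i)
  have hm : x i ^ lam.val ∈ (P : Subgroup G) := Subgroup.pow_mem _ hxiP _
  obtain ⟨k, hk⟩ := H.c_ker (x j * (x i ^ lam.val)⁻¹)
    (Subgroup.mul_mem _ hxjP (Subgroup.inv_mem _ hm)) (by
      rw [H.c_mul _ hxjP _ (Subgroup.inv_mem _ hm), H.c_inv hm, H.c_pz hxiP, hlam]; abel)
  have hxj : x j ∈ A i := by
    have h1 : x j = z ^ k * x i ^ lam.val := by rw [← hk]; group
    rw [h1]
    exact (A i).mul_mem ((A i).pow_mem (hzA i) _) ((A i).pow_mem (hxA i) _)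
  have hle : A j ≤ A i := by
    intro y hy
    obtain ⟨v, hv⟩ := hall j y hy
    rw [hv]
    exact (A i).mul_mem ((A i).pow_mem (hzA i) _) ((A i).pow_mem hxj _)
  exact (Subgroup.eq_of_le_of_card_ge hle (by rw [hAcard i, hAcard j])).symm

end Cfsg.Agent.S3054
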