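import Cfsg.Statements.S3055
import Cfsg.Agent.Helper41.RVMat
import Cfsg.Agent.Helper41.RVPlane
import Cfsg.Agent.Helper41.RVConj

set_option autoImplicit false
open Cfsg

namespace Cfsg.Agent.S3055

open Cfsg.Agent.Helper41.RV Matrix

/-- Let p be an odd prime and G a finite group with a Sylow p-subgroup P that is extraspecial of order p³ and exponent p. If all nonidentity elements of P are conjugate in G, then p ≤ 7. -/
theorem result {G : Type*} [Group G] [Finite G]
    {p : ℕ} [Fact p.Prime] (hp : p ≠ 2) (P : Sylow p G) (hE : Cfsg.IsExtraspecial p ↥P)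
    (hcard : Nat.card P = p ^ 3) (hexp : Monoid.exponent ↥P = p)
    (hconj : ∀ x y : ↥P, x ≠ 1 → y ≠ 1 → ∃ g : G, g * (x : G) * g⁻¹ = (y : G)) :
    p ≤ 7 := by
  classical
  by_contra hp7
  have hpp := (Fact.out : p.Prime)
  have h11 : 11 ≤ p := by
    by_contra h
    push_neg at h hp7
    interval_cases p <;> exact absurd hpp (by decide)
  obtain ⟨c, z, H⟩ := exists_heis (P : Subgroup G) hE hcard hexp
  obtain ⟨r, hr0, hr⟩ := prim_root p
  have hrk : ∀ k : ℕ, 0 < k → k < 10 → r ^ k ≠ 1 := by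
    intro k hk hk' h
    have h1 := Nat.le_of_dvd hk (hr k h)
    omega
  have hr15 : r ^ 15 ≠ 1 := by
    intro h
    have h1 := hr 15 h
    have h2 := Nat.le_of_dvd (by norm_num) h1
    have h3 : p ≤ 16 := by omega
    interval_cases p <;> first | exact absurd hpp (by decide) | exact absurd h1 (by decide)
  have hconj' : ∀ x ∈ (P : Subgroup G), c x ≠ 0 → ∃ g : G, g * z * g⁻¹ = x := by
    intro x hx hcx
    have hx1 : (⟨x, hx⟩ : ↥P) ≠ 1 := by
      intro h
      have h1 : x = 1 := congrArg Subtype.val h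
      exact hcx (by rw [h1, H.c_one])
    have hz1 : (⟨z, H.z_mem⟩ : ↥P) ≠ 1 := fun h => H.z_ne (congrArg Subtype.val h)
    exact hconj ⟨z, H.z_mem⟩ ⟨x, hx⟩ hz1 hx1
  have hdata : ∀ i : Fin 9, ∃ x ∈ (P : Subgroup G), c x = ![1, ((i : ℕ) : ZMod p)] ∧
      ∃ M ∈ SP (P : Subgroup G) c, M *ᵥ c x = r⁻¹ • c x ∧ M.det = r := by
    intro i
    obtain ⟨x, hx, hcx⟩ := H.c_surj ![1, ((i : ℕ) : ZMod p)]
    have hcx0 : c x ≠ 0 := by
      rw [hcx]
      intro h
      have h1 := congrFun h 0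
      simp at h1
    obtain ⟨g, hgz, hgx⟩ := conj_radical P H hx hcx0 (hconj' x hx hcx0)
    exact ⟨x, hx, hcx, radical_core P H hx hcx0 hgz hgx r hr0⟩
  choose x hx hcx M hM hMv hMd using hdata
  refine rv_matrix hp (SP (P : Subgroup G) c)
    (fun M hM => by obtain ⟨h, a⟩ := hM; exact H.acts_order P a) r hr0
    (hrk 3 (by norm_num) (by norm_num)) (hrk 6 (by norm_num) (by norm_num))
    (hrk 9 (by norm_num) (by norm_num)) hr15
    M (fun i => c (x i)) hM hMv hMd ?_ (Or.inr (by simp))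
  intro i j hij hcr
  apply hij
  have hcr' : c (x i) 0 * c (x j) 1 - c (x i) 1 * c (x j) 0 = 0 := hcr
  rw [hcx i, hcx j] at hcr'
  have h1 : ((j : ℕ) : ZMod p) = ((i : ℕ) : ZMod p) := by
    have h2 : (1 : ZMod p) * ((j : ℕ) : ZMod p) - ((i : ℕ) : ZMod p) * 1 = 0 := hcr'
    linear_combination h2
  rw [ZMod.natCast_eq_natCast_iff', Nat.mod_eq_of_lt (by omega), Nat.mod_eq_of_lt (by omega)] at h1
  exact Fin.ext h1.symm

end Cfsg.Agent.S3055
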