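import Cfsg.Statements.S3056
import Cfsg.Agent.Helper51.StrongEmbed

set_option autoImplicit false
open Cfsg

namespace Cfsg.Agent.S3056

open Subgroup

/-- The edge relation: two Sylow subgroups share a nontrivial element. -/
def Edge {G : Type*} [Group G] (p : ℕ) (S T : Sylow p G) : Prop :=
  ∃ y : G, y ≠ 1 ∧ y ∈ (S : Subgroup G) ∧ y ∈ (T : Subgroup G)

theorem edge_iff {G : Type*} [Group G] (p : ℕ) (S T : Sylow p G) :
    Edge p S T ↔ (S : Subgroup G) ⊓ (T : Subgroup G) ≠ ⊥ := by
  rw [Subgroup.ne_bot_iff_exists_ne_one]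
  constructor
  · rintro ⟨y, hy1, hyS, hyT⟩
    exact ⟨⟨y, Subgroup.mem_inf.mpr ⟨hyS, hyT⟩⟩, fun h => hy1 (congrArg Subtype.val h)⟩
  · rintro ⟨⟨y, hy⟩, hy1⟩
    obtain ⟨hyS, hyT⟩ := Subgroup.mem_inf.mp hy
    exact ⟨y, fun h => hy1 (Subtype.ext h), hyS, hyT⟩


theorem edge_smul {G : Type*} [Group G] {p : ℕ} (g : G) {S T : Sylow p G} (h : Edge p S T) :
    Edge p (g • S) (g • T) := by
  obtain ⟨y, hy1, hyS, hyT⟩ := h
  have e : g⁻¹ * (g * y * g⁻¹) * g = y := by group
  refine ⟨g * y * g⁻¹, ?_, ?_, ?_⟩
  · intro h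
    apply hy1
    rw [← e, h]; group
  · rw [Helper51.mem_smul_sylow, e]; exact hyS
  · rw [Helper51.mem_smul_sylow, e]; exact hyT

theorem edge_symm {G : Type*} [Group G] {p : ℕ} {S T : Sylow p G} (h : Edge p S T) : Edge p T S := by
  obtain ⟨y, h1, h2, h3⟩ := h
  exact ⟨y, h1, h3, h2⟩

theorem reach_symm {G : Type*} [Group G] {p : ℕ} {S T : Sylow p G}
    (h : Relation.ReflTransGen (Edge p) S T) : Relation.ReflTransGen (Edge p) T S := by
  induction h with
  | refl => exact Relation.ReflTransGen.refl
  | tail _ hbc ih => exact Relation.ReflTransGen.head (edge_symm hbc) ih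

theorem reach_smul {G : Type*} [Group G] {p : ℕ} (g : G) {S T : Sylow p G}
    (h : Relation.ReflTransGen (Edge p) S T) : Relation.ReflTransGen (Edge p) (g • S) (g • T) := by
  induction h with
  | refl => exact Relation.ReflTransGen.refl
  | tail _ hbc ih => exact Relation.ReflTransGen.tail ih (edge_smul g hbc)

theorem chain_of_reflTransGen {G : Type*} [Group G] {p : ℕ} {S T : Sylow p G}
    (h : Relation.ReflTransGen (Edge p) S T) :
    ∃ (n : ℕ) (c : Fin (n + 1) → Sylow p G), c 0 = S ∧ c (Fin.last n) = T ∧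
      ∀ i : Fin n, c i.castSucc ≠ c i.succ ∧
        (c i.castSucc : Subgroup G) ⊓ (c i.succ : Subgroup G) ≠ ⊥ := by
  induction h using Relation.ReflTransGen.head_induction_on with
  | refl => exact ⟨0, fun _ => T, rfl, rfl, fun i => i.elim0⟩
  | @head a b hab hbc ih =>
    obtain ⟨n, c, hc0, hcl, hc⟩ := ih
    by_cases hab' : a = b
    · subst hab'; exact ⟨n, c, hc0, hcl, hc⟩
    · refine ⟨n + 1, Fin.cons a c, ?_, ?_, ?_⟩
      · rfl
      · rw [← Fin.succ_last, Fin.cons_succ]; exact hcl
      · intro i
        refine Fin.cases ?_ (fun j => ?_) i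
        · rw [Fin.castSucc_zero, Fin.cons_zero, Fin.cons_succ, hc0]
          exact ⟨hab', (edge_iff p a b).mp hab⟩
        · rw [← Fin.succ_castSucc, Fin.cons_succ, Fin.cons_succ]
          exact hc j

/-- Let G be a finite group and p a prime. Join two Sylow p-subgroups when they are distinct and meet nontrivially. This graph on the Sylow p-subgroups is disconnected (the Sylow p-subgroups are not chain-connected through nontrivial intersections) if and only if G has a strongly p-embedded subgroup in the classical sense: a proper subgroup H of order divisible by p such that H ∩ gHg⁻¹ has order prime to p for every g outside H. -/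
theorem result {G : Type*} [Group G] [Finite G]
    (p : ℕ) [Fact p.Prime] :
    ¬ Cfsg.IsSylowChainConnected p G ↔
      ∃ H : Subgroup G, H ≠ ⊤ ∧ p ∣ Nat.card H ∧
        ∀ g : G, g ∉ H → ¬ p ∣ Nat.card ↥(H ⊓ H.map (MulAut.conj g).toMonoidHom) := by
  have hpp : p.Prime := Fact.out
  constructor
  · intro hncc
    have hex : ∃ S T : Sylow p G, ¬ Relation.ReflTransGen (Edge p) S T := by
      by_contra hall
      push Not at hall
      apply hncc
      intro S T
      by_cases hST : S = T
      · subst hST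
        exact ⟨0, fun _ => S, rfl, rfl, fun _ => inf_le_left, fun i => i.elim0⟩
      · by_cases hbot : (S : Subgroup G) ⊓ (T : Subgroup G) = ⊥
        · obtain ⟨n, c, h0, hl, hc⟩ := chain_of_reflTransGen (hall S T)
          exact ⟨n, c, h0, hl, fun i => by rw [hbot]; exact bot_le, hc⟩
        · refine ⟨1, ![S, T], rfl, rfl, ?_, ?_⟩
          · intro i
            fin_cases i
            · exact inf_le_left
            · exact inf_le_right
          · intro i
            fin_cases i
            exact ⟨hST, hbot⟩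
    obtain ⟨S₀, T₀, hST⟩ := hex
    let H : Subgroup G :=
      { carrier := {g | Relation.ReflTransGen (Edge p) S₀ (g • S₀)}
        mul_mem' := by
          intro a b ha hb
          have h1 : Relation.ReflTransGen (Edge p) (a • S₀) (a • b • S₀) := reach_smul a hb
          show Relation.ReflTransGen (Edge p) S₀ ((a * b) • S₀)
          rw [mul_smul]; exact Relation.ReflTransGen.trans ha h1
        one_mem' := by
          show Relation.ReflTransGen (Edge p) S₀ ((1 : G) • S₀)
          rw [one_smul]
        inv_mem' := by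
          intro a ha
          have h1 : Relation.ReflTransGen (Edge p) (a⁻¹ • S₀) (a⁻¹ • a • S₀) := reach_smul a⁻¹ ha
          rw [inv_smul_smul] at h1
          exact reach_symm h1 }
    have hH_mem : ∀ g, g ∈ H ↔ Relation.ReflTransGen (Edge p) S₀ (g • S₀) := fun g => Iff.rfl
    have hS₀H : (S₀ : Subgroup G) ≤ H := by
      intro s hs
      rw [hH_mem]
      have : s • S₀ = S₀ := Sylow.smul_eq_iff_mem_normalizer.mpr (Subgroup.le_normalizer hs)
      rw [this]
    refine ⟨H, ?_, ?_, ?_⟩
    · intro htop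
      obtain ⟨g, hg⟩ := MulAction.exists_smul_eq G S₀ T₀
      apply hST
      rw [← hg, ← hH_mem, htop]; exact Subgroup.mem_top g
    · have hS₀ne : (S₀ : Subgroup G) ≠ ⊥ := by
        intro hbot
        apply hST
        have h1 : Nat.card (S₀ : Subgroup G) = 1 := by rw [hbot]; exact Subgroup.card_bot
        have h2 : Nat.card (T₀ : Subgroup G) = 1 := by
          rw [Sylow.card_eq_multiplicity] at h1 ⊢; exact h1
        have h3 : (T₀ : Subgroup G) = ⊥ := Subgroup.card_eq_one.mp h2
        have h4 : S₀ = T₀ := Sylow.ext (by rw [hbot, h3])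
        rw [h4]
      obtain ⟨k, hk⟩ := IsPGroup.iff_card.mp S₀.2
      have hk0 : k ≠ 0 := by
        rintro rfl
        rw [pow_zero, Subgroup.card_eq_one] at hk; exact hS₀ne hk
      have h5 : p ∣ Nat.card (S₀ : Subgroup G) := by rw [hk]; exact dvd_pow_self p hk0
      exact h5.trans (Subgroup.card_dvd_of_le hS₀H)
    · intro g hg hdiv
      apply hg
      obtain ⟨y, hy⟩ := exists_prime_orderOf_dvd_card' p hdiv
      have hyo : orderOf (y : G) = p := by rw [Subgroup.orderOf_coe]; exact hy
      obtain ⟨hyH, hyHg⟩ := Subgroup.mem_inf.mp y.2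
      obtain ⟨y', hy'H, hy'⟩ := Subgroup.mem_map.mp hyHg
      have key : ∀ w ∈ H, orderOf w = p → ∃ h ∈ H, w ∈ ((h • S₀ : Sylow p G) : Subgroup G) := by
        intro w hw hwo
        have hQ : IsPGroup p ((zpowers w).subgroupOf H) := by
          have h1 : IsPGroup p (zpowers w) :=
            IsPGroup.of_card (n := 1) (by rw [Nat.card_zpowers, hwo, pow_one])
          exact h1.comap_subtype
        obtain ⟨P, hP⟩ := hQ.exists_le_sylow
        obtain ⟨h, hh⟩ := MulAction.exists_smul_eq H (S₀.subtype hS₀H) P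
        refine ⟨(h : G), h.2, ?_⟩
        have hmem : (⟨w, hw⟩ : H) ∈ (P : Subgroup H) :=
          hP (by rw [Subgroup.mem_subgroupOf]; exact mem_zpowers w)
        rw [← hh, Sylow.smul_subtype hS₀H h, Sylow.coe_subtype, Subgroup.mem_subgroupOf] at hmem
        exact hmem
      obtain ⟨h₁, hh₁, hyh₁⟩ := key y hyH hyo
      have hy'o : orderOf y' = p := by
        rw [← hyo, ← hy']; exact (MulEquiv.orderOf_eq (MulAut.conj g) y').symm
      obtain ⟨h₂, hh₂, hyh₂⟩ := key y' hy'H hy'o
      have hy1 : (y : G) ≠ 1 := by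
        intro h; rw [h, orderOf_one] at hyo; exact hpp.one_lt.ne hyo
      have hedge : Edge p (h₁ • S₀) ((g * h₂) • S₀) := by
        refine ⟨y, hy1, hyh₁, ?_⟩
        rw [mul_smul, Helper51.mem_smul_sylow]
        have e : g⁻¹ * (y : G) * g = y' := by
          rw [← hy']
          show g⁻¹ * (g * y' * g⁻¹) * g = y'
          group
        rw [e]; exact hyh₂
      have h6 : g * h₂ ∈ H := by
        rw [hH_mem]
        exact Relation.ReflTransGen.tail ((hH_mem h₁).mp hh₁) hedge
      have h7 := H.mul_mem h6 (H.inv_mem hh₂)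
      rwa [mul_inv_cancel_right] at h7
  · rintro ⟨H, hHtop, hpH, hse⟩ hcc
    obtain ⟨g, hg⟩ : ∃ g : G, g ∉ H := by
      by_contra h
      push Not at h
      exact hHtop (eq_top_iff.mpr (fun x _ => h x))
    obtain ⟨S, hSH, x, hxS, hxo⟩ := Helper51.exists_sylow_le_of_stronglyEmbedded H hpH hse
    obtain ⟨n, c, hc0, hcl, -, hc⟩ := hcc S (g • S)
    have hall : ∀ i : Fin (n + 1), (c i : Subgroup G) ≤ H := by
      intro i
      induction i using Fin.induction with
      | zero => rw [hc0]; exact hSH
      | succ i ih =>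
        obtain ⟨-, hne⟩ := hc i
        obtain ⟨y, hy1, hy, hy'⟩ := (edge_iff p _ _).mpr hne
        exact Helper51.sylow_le_of_stronglyEmbedded H hse (c i.succ) hy' (ih hy) hy1
    have hT := hall (Fin.last n)
    rw [hcl] at hT
    apply hg
    apply Helper51.mem_of_conj_mem_of_stronglyEmbedded H hse (hSH hxS) (by rw [hxo])
    apply hT
    rw [Helper51.mem_smul_sylow]
    have e : g⁻¹ * (g * x * g⁻¹) * g = x := by group
    rw [e]; exact hxS

end Cfsg.Agent.S3056
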