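import Cfsg.Statements.S3057
import Cfsg.Agent.Helper51.SylowGraph
import Cfsg.Agent.Helper32.PConstrained
import Cfsg.Agent.Helper53.QuatIso
import Cfsg.Agent.Helper29.UniqueOrderP
import Cfsg.Agent.Helper69.CyclicSylow
import Cfsg.Agent.Helper35.CoprimeGen2
import Cfsg.Agent.Helper4.Dihedral

set_option autoImplicit false
open Cfsg

namespace Cfsg.Agent.S3057

open Subgroup

theorem unique_invol (m : ℕ) [NeZero m] (x : QuaternionGroup m) :
    orderOf x = 2 ↔ x = QuaternionGroup.a (m : ZMod (2 * m)) := by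
  have hm : 0 < m := Nat.pos_of_ne_zero (NeZero.ne m)
  have : NeZero (2 * m) := ⟨by omega⟩
  rw [Helper4.orderOf_two_iff]
  have hmne : (m : ZMod (2 * m)) ≠ 0 := by
    intro h
    rw [ZMod.natCast_eq_zero_iff] at h
    have := Nat.le_of_dvd hm h
    omega
  cases x with
  | a i =>
    rw [QuaternionGroup.a_mul_a, QuaternionGroup.one_def]
    simp only [ne_eq, QuaternionGroup.a.injEq]
    constructor
    · rintro ⟨h0, h2⟩
      have hv : (i.val + i.val) % (2 * m) = 0 := by
        have := congrArg ZMod.val h2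
        rwa [ZMod.val_add, ZMod.val_zero] at this
      have hlt : i.val < 2 * m := ZMod.val_lt i
      have hpos : 0 < i.val := by
        rcases Nat.eq_zero_or_pos i.val with h | h
        · exact absurd ((ZMod.val_eq_zero i).mp h) h0
        · exact h
      have hdvd : 2 * m ∣ i.val + i.val := Nat.dvd_of_mod_eq_zero hv
      obtain ⟨c, hc⟩ := hdvd
      have hc1 : c = 1 := by
        rcases c with _ | _ | c
        · omega
        · rfl
        · exfalso; nlinarith
      subst hc1
      have : i.val = m := by omega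
      have h3 : ((i.val : ℕ) : ZMod (2 * m)) = i := ZMod.natCast_zmod_val i
      rw [← h3]
      exact congrArg _ this
    · intro h
      subst h
      refine ⟨hmne, ?_⟩
      have : ((m : ZMod (2 * m)) + m) = ((2 * m : ℕ) : ZMod (2 * m)) := by push_cast; ring
      rw [this, ZMod.natCast_self]
  | xa i =>
    rw [QuaternionGroup.xa_mul_xa, QuaternionGroup.one_def]
    constructor
    · rintro ⟨-, h⟩
      exfalso
      rw [QuaternionGroup.a.injEq] at h
      apply hmne
      simpa using h
    · intro h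
      cases h

/-- If `O_p(G) = 1` and the elements of order `p` of `P` generate a single subgroup, then the
Sylow graph is disconnected. -/
theorem not_connected_of_unique {G : Type*} [Group G] [Finite G] (p : ℕ) [Fact p.Prime]
    (hdiv : p ∣ Nat.card G) (P : Sylow p G) (hcore : Cfsg.pCore p G = ⊥)
    (U : ∀ x y : G, x ∈ (P : Subgroup G) → y ∈ (P : Subgroup G) → orderOf x = p →
      orderOf y = p → y ∈ zpowers x) : ¬ Cfsg.IsSylowChainConnected p G := by
  intro hconn
  have hpp : p.Prime := Fact.out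
  have UT : ∀ (T : Sylow p G) (x y : G), x ∈ (T : Subgroup G) → y ∈ (T : Subgroup G) →
      orderOf x = p → orderOf y = p → y ∈ zpowers x := by
    intro T x y hx hy hox hoy
    obtain ⟨g, hg⟩ := MulAction.exists_smul_eq G P T
    rw [← hg, Helper51.mem_smul_sylow] at hx hy
    have e1 : orderOf (g⁻¹ * x * g) = p := by
      have := Helper51.orderOf_conj_eq g⁻¹ x
      rw [inv_inv] at this; rw [this, hox]
    have e2 : orderOf (g⁻¹ * y * g) = p := by
      have := Helper51.orderOf_conj_eq g⁻¹ y
      rw [inv_inv] at this; rw [this, hoy]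
    have h1 := U (g⁻¹ * x * g) (g⁻¹ * y * g) hx hy e1 e2
    obtain ⟨k, hk⟩ := mem_zpowers_iff.mp h1
    rw [mem_zpowers_iff]
    refine ⟨k, ?_⟩
    have h2 : (g⁻¹ * x * g) ^ k = g⁻¹ * x ^ k * g := by
      have := conj_zpow (a := g⁻¹) (b := x) (i := k)
      rw [inv_inv] at this; exact this
    rw [h2] at hk
    have h3 : x ^ k = g * (g⁻¹ * x ^ k * g) * g⁻¹ := by group
    rw [h3, hk]; group
  obtain ⟨x₀, hx₀P, -, hx₀o⟩ := Helper51.exists_orderOf_eq_prime_mem_sylow_normal P ⊤
    (by rw [Subgroup.card_top]; exact hdiv)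
  have key : ∀ T : Sylow p G, Helper51.SReach p P T → x₀ ∈ (T : Subgroup G) := by
    intro T hT
    induction hT with
    | refl => exact hx₀P
    | @tail T₁ T₂ _ hedge ih =>
      obtain ⟨y, hy1, hyT₁, hyT₂⟩ := hedge
      have hpy : p ∣ orderOf y := Helper51.dvd_orderOf_of_mem_isPGroup T₁.isPGroup' hyT₁ hy1
      obtain ⟨m, hm⟩ := hpy
      have hopos : 0 < orderOf y := orderOf_pos y
      have hm0 : m ≠ 0 := by
        rintro rfl
        rw [mul_zero] at hm; omega
      have hyo : orderOf (y ^ m) = p := by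
        rw [orderOf_pow_of_dvd hm0 (Dvd.intro_left p hm.symm), hm]
        exact Nat.mul_div_cancel p (Nat.pos_of_ne_zero hm0)
      have h1 := UT T₁ (y ^ m) x₀ ((T₁ : Subgroup G).pow_mem hyT₁ m) ih hyo hx₀o
      exact (zpowers_le.mpr ((T₂ : Subgroup G).pow_mem hyT₂ m)) h1
  have hall : ∀ g : G, g * x₀ * g⁻¹ ∈ (P : Subgroup G) := by
    intro g
    have h1 := key (g⁻¹ • P) (Helper51.sReach_of_chainConnected hconn P (g⁻¹ • P))
    rw [Helper51.mem_smul_sylow, inv_inv] at h1
    exact h1
  have hNP : Subgroup.normalClosure ({x₀} : Set G) ≤ (P : Subgroup G) := by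
    show Subgroup.closure (Group.conjugatesOfSet ({x₀} : Set G)) ≤ (P : Subgroup G)
    rw [Subgroup.closure_le]
    intro a ha
    rw [Group.mem_conjugatesOfSet_iff] at ha
    obtain ⟨b, hb, hba⟩ := ha
    rw [Set.mem_singleton_iff] at hb
    subst hb
    obtain ⟨c, hc⟩ := isConj_iff.mp hba
    rw [← hc]
    exact hall c
  have hN : Subgroup.normalClosure ({x₀} : Set G) ≤ Cfsg.pCore p G :=
    Helper51.le_pCore _ Subgroup.normalClosure_normal (P.isPGroup'.to_le hNP)
  rw [hcore] at hN
  have h1 : x₀ = 1 := (Subgroup.mem_bot).mp (hN (Subgroup.subset_normalClosure rfl))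
  rw [h1, orderOf_one] at hx₀o
  exact hpp.one_lt.ne hx₀o

/-- In a `p`-solvable group with disconnected Sylow graph, `O_p(G) = 1` and a Sylow
`p`-subgroup has a unique subgroup of order `p`. -/
theorem unique_of_not_connected {G : Type*} [Group G] [Finite G] (p : ℕ) [Fact p.Prime]
    (hdiv : p ∣ Nat.card G) (hsol : Cfsg.IsPSolvable p G) (P : Sylow p G)
    (hnc : ¬ Cfsg.IsSylowChainConnected p G) :
    Cfsg.pCore p G = ⊥ ∧ ∀ H K : Subgroup ↥(P : Subgroup G),
      Nat.card H = p → Nat.card K = p → H = K := by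
  have hpp : p.Prime := Fact.out
  have hH : Helper51.compStab p P ≠ ⊤ := Helper51.compStab_ne_top hnc P
  have hcore : Cfsg.pCore p G = ⊥ := by
    by_contra hne
    apply hH
    have h1 := Helper51.normalizer_le_compStab (Helper51.pCore_le_sylow P) hne
    have hn : (Cfsg.pCore p G).Normal := Cfsg.pCore_normal p G
    rw [Subgroup.normalizer_eq_top] at h1
    exact top_le_iff.mp h1
  refine ⟨hcore, ?_⟩
  by_contra hnu
  apply hH
  have hKn : (Cfsg.pPrimeCore p G).Normal := Cfsg.pPrimeCore_normal p G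
  have hKc : (Nat.card (Cfsg.pPrimeCore p G)).Coprime p := Helper32.card_pPrimeCore_coprime' p G
  have step : Cfsg.pPrimeCore p G ≤ Helper51.compStab p P → Helper51.compStab p P = ⊤ := by
    intro hK
    have hQ : (P : Subgroup G) ⊓ Cfsg.pPrimePCore p G ≠ ⊥ := by
      intro hQ0
      have hW : Cfsg.pPrimePCore p G = Cfsg.pPrimeCore p G := by
        have := Helper32.pPrimePCore_eq_sup P
        rw [hQ0, sup_bot_eq] at this; exact this
      have hpc : Cfsg.pCore p (G ⧸ Cfsg.pPrimeCore p G) = ⊥ := by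
        have h1 : (Cfsg.pCore p (G ⧸ Cfsg.pPrimeCore p G)).comap
            (QuotientGroup.mk' (Cfsg.pPrimeCore p G)) = Cfsg.pPrimeCore p G := hW
        have h2 := Subgroup.map_comap_eq_self_of_surjective
          (QuotientGroup.mk'_surjective (Cfsg.pPrimeCore p G))
          (Cfsg.pCore p (G ⧸ Cfsg.pPrimeCore p G))
        rw [h1, QuotientGroup.map_mk'_self] at h2
        exact h2.symm
      have hsq : Cfsg.IsPSolvable p (G ⧸ Cfsg.pPrimeCore p G) :=
        Helper32.isPSolvable_quotient hpp hsol _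
      have hdq : p ∣ Nat.card (G ⧸ Cfsg.pPrimeCore p G) := by
        have h1 := Subgroup.card_eq_card_quotient_mul_card_subgroup (Cfsg.pPrimeCore p G)
        rw [h1] at hdiv
        exact (Nat.Coprime.dvd_mul_right hKc.symm).mp hdiv
      have htop : (⊤ : Subgroup (G ⧸ Cfsg.pPrimeCore p G)) ≠ ⊥ := by
        intro h
        have h1 : Nat.card (⊤ : Subgroup (G ⧸ Cfsg.pPrimeCore p G)) = 1 := by
          rw [h, Subgroup.card_bot]
        rw [Subgroup.card_top] at h1
        rw [h1] at hdq
        exact hpp.one_lt.ne' (Nat.dvd_one.mp hdq)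
      obtain ⟨D, hDn, -, hD1, hD⟩ := Helper32.exists_normal_le_of_isPSolvable hpp hsq ⊤ htop
      rcases hD with hD | hD
      · have := Helper51.le_pCore D hDn hD
        rw [hpc] at this
        exact hD1 (le_bot_iff.mp this)
      · have h1 : D ≤ Cfsg.pPrimeCore p (G ⧸ Cfsg.pPrimeCore p G) := le_sSup ⟨hDn, hD⟩
        rw [Helper32.pPrimeCore_quotient_eq_bot'] at h1
        exact hD1 (le_bot_iff.mp h1)
    rw [eq_top_iff]
    intro g _
    obtain ⟨n, hn, d, hd, rfl⟩ := Helper32.exists_mul_of_frattini P g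
    exact mul_mem (Helper51.normalizer_le_compStab inf_le_left hQ hn) (hK hd)
  apply step
  -- a central element of order `p` and an element of order `p` outside the group it generates
  have hPp : IsPGroup p ↥(P : Subgroup G) := P.isPGroup'
  obtain ⟨x₀, hx₀P, -, hx₀o⟩ := Helper51.exists_orderOf_eq_prime_mem_sylow_normal P ⊤
    (by rw [Subgroup.card_top]; exact hdiv)
  have hx₀1 : x₀ ≠ 1 := by
    rintro rfl
    rw [orderOf_one] at hx₀o
    exact hpp.one_lt.ne hx₀o
  have hPnt : Nontrivial ↥(P : Subgroup G) :=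
    ⟨⟨⟨x₀, hx₀P⟩, 1, fun h => hx₀1 (congrArg Subtype.val h)⟩⟩
  have hcn : Nontrivial (Subgroup.center ↥(P : Subgroup G)) := hPp.center_nontrivial
  have hcd : p ∣ Nat.card (Subgroup.center ↥(P : Subgroup G)) := by
    rcases (hPp.to_subgroup (Subgroup.center _)).card_eq_or_dvd with h | h
    · exact absurd h (Finite.one_lt_card).ne'
    · exact h
  obtain ⟨z', hz'⟩ := exists_prime_orderOf_dvd_card' p hcd
  have hzo : orderOf (z' : ↥(P : Subgroup G)) = p := by rw [Subgroup.orderOf_coe]; exact hz'
  obtain ⟨H₁, h⟩ := not_forall.mp hnu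
  obtain ⟨K₁, h⟩ := not_forall.mp h
  obtain ⟨hH₁, h⟩ := Classical.not_imp.mp h
  obtain ⟨hK₁, hne⟩ := Classical.not_imp.mp h
  have hx : ∃ x' : ↥(P : Subgroup G), x' ^ p = 1 ∧ x' ∉ zpowers (z' : ↥(P : Subgroup G)) := by
    by_contra hcon
    have hall : ∀ L : Subgroup ↥(P : Subgroup G), Nat.card L = p →
        L = zpowers (z' : ↥(P : Subgroup G)) := by
      intro L hL
      apply Subgroup.eq_of_le_of_card_ge
      · intro x' hx'
        by_contra hxz
        apply hcon
        refine ⟨x', ?_, hxz⟩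
        have h1 : (⟨x', hx'⟩ : L) ^ Nat.card L = 1 := pow_card_eq_one'
        rw [hL] at h1
        exact congrArg Subtype.val h1
      · rw [Nat.card_zpowers, hzo, hL]
    exact hne ((hall H₁ hH₁).trans (hall K₁ hK₁).symm)
  obtain ⟨x', hx'p, hx'z⟩ := hx
  -- transfer to `G`
  have hzP : ((z' : ↥(P : Subgroup G)) : G) ∈ (P : Subgroup G) := (z' : ↥(P : Subgroup G)).2
  have hxP : (x' : G) ∈ (P : Subgroup G) := x'.2
  set z : G := ((z' : ↥(P : Subgroup G)) : G) with hzdef
  set x : G := (x' : G) with hxdef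
  have hzG : orderOf z = p := by rw [hzdef, Subgroup.orderOf_coe]; exact hzo
  have hz1 : z ≠ 1 := by
    intro h
    rw [h, orderOf_one] at hzG
    exact hpp.one_lt.ne hzG
  have hzp : z ^ p = 1 := by rw [← hzG]; exact pow_orderOf_eq_one z
  have hxp : x ^ p = 1 := by
    have := congrArg Subtype.val hx'p
    simpa using this
  have hzc : ∀ y ∈ (P : Subgroup G), y * z = z * y := by
    intro y hy
    have h1 := (Subgroup.mem_center_iff.mp z'.2) ⟨y, hy⟩
    exact congrArg Subtype.val h1
  have hxz : ∀ i : ℕ, z ^ i * x ≠ 1 := by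
    intro i hi
    apply hx'z
    have h1 : (z' : ↥(P : Subgroup G)) ^ i * x' = 1 := by
      apply Subtype.ext
      simpa using hi
    have h2 : x' = ((z' : ↥(P : Subgroup G)) ^ i)⁻¹ := eq_inv_of_mul_eq_one_right h1
    rw [h2]
    exact inv_mem (pow_mem (mem_zpowers _) i)
  -- the abelian subgroup `E = ⟨z, x⟩`
  have hEP : zpowers z ⊔ zpowers x ≤ (P : Subgroup G) :=
    sup_le (zpowers_le.mpr hzP) (zpowers_le.mpr hxP)
  have hEx : zpowers z ⊔ zpowers x ≤ centralizer ({x} : Set G) := by
    apply sup_le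
    · rw [zpowers_le, mem_centralizer_iff]
      intro h hh
      rw [Set.mem_singleton_iff.mp hh]
      exact hzc x hxP
    · rw [zpowers_le, mem_centralizer_iff]
      intro h hh
      rw [Set.mem_singleton_iff.mp hh]
  have hEc : zpowers z ⊔ zpowers x ≤ centralizer ((zpowers z ⊔ zpowers x : Subgroup G) : Set G) := by
    apply sup_le
    · rw [zpowers_le, mem_centralizer_iff]
      intro h hh
      exact hzc h (hEP hh)
    · rw [zpowers_le, mem_centralizer_iff]
      intro h hh
      exact ((mem_centralizer_iff.mp (hEx hh)) x rfl).symm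
  have hEab : ∀ a ∈ zpowers z ⊔ zpowers x, ∀ b ∈ zpowers z ⊔ zpowers x, a * b = b * a :=
    fun a ha b hb => (mem_centralizer_iff.mp (hEc hb)) a ha
  have hEK : zpowers z ⊔ zpowers x ≤ normalizer ((Cfsg.pPrimeCore p G : Subgroup G) : Set G) := by
    rw [Subgroup.normalizer_eq_top]; exact le_top
  have hcop : (Nat.card ↥(zpowers z ⊔ zpowers x : Subgroup G)).Coprime
      (Nat.card (Cfsg.pPrimeCore p G)) := by
    obtain ⟨k, hk⟩ := IsPGroup.iff_card.mp (P.isPGroup'.to_le hEP)
    rw [hk]
    exact Nat.Coprime.pow_left k hKc.symm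
  have gen := Helper35.coprime_gen hEab hEK hcop
    {B : Subgroup G | B ≤ zpowers z ⊔ zpowers x ∧ B ≠ ⊥} (fun B hB => hB.1)
    (by
      intro L hLE hL
      have hL0 : L = ⊥ := by
        by_contra h
        exact hL ⟨hLE, h⟩
      subst hL0
      refine ⟨p, hpp, z, mem_sup_left (mem_zpowers z), x, mem_sup_right (mem_zpowers x),
        ?_, ?_, ?_, ?_⟩
      · rw [hzp]; exact one_mem _
      · rw [hxp]; exact one_mem _
      · rw [Subgroup.mem_bot]; exact hz1
      · intro i
        rw [Subgroup.mem_bot]; exact hxz i)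
  rw [gen]
  apply iSup₂_le
  intro B hB
  exact inf_le_right.trans ((centralizer_le_normalizer _).trans
    (Helper51.normalizer_le_compStab (hB.1.trans hEP) hB.2))

/-- Let p be a prime and G a finite p-solvable group of order divisible by p, with Sylow p-subgroup P. Then the Sylow p-subgroups of G fail to be chain-connected through nontrivial intersections (equivalently, G has a strongly p-embedded subgroup) if and only if O_p(G) = 1 and P is cyclic or, for p = 2, generalized quaternion. -/
theorem result {G : Type*} [Group G] [Finite G]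
    (p : ℕ) [Fact p.Prime] (hdiv : p ∣ Nat.card G) (hsol : Cfsg.IsPSolvable p G) (P : Sylow p G) :
    ¬ Cfsg.IsSylowChainConnected p G ↔
      Cfsg.pCore p G = ⊥ ∧ (IsCyclic ↥P ∨ (p = 2 ∧ ∃ n : ℕ, Nonempty (↥P ≃* QuaternionGroup (2 ^ n)))) := by
  constructor
  · intro hnc
    obtain ⟨hcore, huniq⟩ := unique_of_not_connected p hdiv hsol P hnc
    refine ⟨hcore, ?_⟩
    by_cases hp2 : p = 2
    · subst hp2
      rcases Helper53.isCyclic_or_quaternion_of_unique_subgroup P.isPGroup' huniq with
        h | ⟨n, -, hn⟩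
      · exact Or.inl h
      · exact Or.inr ⟨rfl, n, hn⟩
    · left
      obtain ⟨n, hn⟩ := IsPGroup.iff_card.mp P.isPGroup'
      exact Helper29.isCyclic_of_unique_subgroup_odd hp2 n hn huniq
  · rintro ⟨hcore, hP⟩
    apply not_connected_of_unique p hdiv P hcore
    intro x y hx hy hox hoy
    rcases hP with hc | ⟨hp2, n, ⟨e⟩⟩
    · apply Helper69.mem_of_pow_card_eq_one hc (zpowers x) (zpowers_le.mpr hx) y hy
      rw [Nat.card_zpowers, hox, ← hoy]; exact pow_orderOf_eq_one y
    · subst hp2
      have : NeZero (2 ^ n) := ⟨by positivity⟩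
      have h1 : orderOf (e ⟨x, hx⟩) = 2 := by
        rw [MulEquiv.orderOf_eq, Subgroup.orderOf_mk, hox]
      have h2 : orderOf (e ⟨y, hy⟩) = 2 := by
        rw [MulEquiv.orderOf_eq, Subgroup.orderOf_mk, hoy]
      have h3 := (unique_invol _ _).mp h1
      have h4 := (unique_invol _ _).mp h2
      have h5 : (⟨x, hx⟩ : ↥(P : Subgroup G)) = ⟨y, hy⟩ := e.injective (h3.trans h4.symm)
      have h6 : x = y := congrArg Subtype.val h5
      rw [h6]; exact mem_zpowers y

end Cfsg.Agent.S3057
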