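import Cfsg.Statements.S3059
import Cfsg.Agent.Helper51.PCore

set_option autoImplicit false
open Cfsg

namespace Cfsg.Agent.S3059

open Subgroup

theorem dvd_orderOf_of_mem_pgroup {G : Type*} [Group G] {p : ℕ} [Fact p.Prime] {Q : Subgroup G}
    (hQ : IsPGroup p Q) {y : G} (hy : y ∈ Q) (hy1 : y ≠ 1) : p ∣ orderOf y := by
  obtain ⟨k, hk⟩ := hQ ⟨y, hy⟩
  have h1 : y ^ p ^ k = 1 := by simpa using congrArg Subtype.val hk
  have h2 : orderOf y ∣ p ^ k := orderOf_dvd_of_pow_eq_one h1
  obtain ⟨j, hj, hj'⟩ := (Nat.dvd_prime_pow Fact.out).mp h2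
  rcases Nat.eq_zero_or_pos j with rfl | hpos
  · rw [pow_zero, orderOf_eq_one_iff] at hj'; exact absurd hj' hy1
  · rw [hj']; exact dvd_pow_self p hpos.ne'

/-- Let p be a prime and H a strongly p-embedded subgroup of the finite group G in the classical sense: H is proper, p divides the order of H, and H ∩ gHg⁻¹ has order prime to p for every g outside H. Then for every normal subgroup N of G of order divisible by p, G = H · O^p(N), where O^p(N) is the subgroup generated by the elements of N of order prime to p. -/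
theorem result {G : Type*} [Group G] [Finite G]
    (p : ℕ) [Fact p.Prime] (H : Subgroup G) (hH : H ≠ ⊤) (hpH : p ∣ Nat.card H)
    (hse : ∀ g : G, g ∉ H → ¬ p ∣ Nat.card ↥(H ⊓ H.map (MulAut.conj g).toMonoidHom))
    (N : Subgroup G) [N.Normal] (hN : p ∣ Nat.card N) :
    H ⊔ Subgroup.closure {g : G | g ∈ N ∧ (orderOf g).Coprime p} = ⊤ := by
  have hpp : p.Prime := Fact.out
  have hNn : N.Normal := inferInstance
  -- strong embedding, elementwise
  have claim : ∀ y ∈ H, p ∣ orderOf y → ∀ g : G, g * y * g⁻¹ ∈ H → g ∈ H := by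
    intro y hy hpy g hg
    by_contra hgH
    apply hse g hgH
    have hmem : g * y * g⁻¹ ∈ H ⊓ H.map (MulAut.conj g).toMonoidHom := by
      refine Subgroup.mem_inf.mpr ⟨hg, ?_⟩
      exact ⟨y, hy, by simp⟩
    have hord : orderOf (g * y * g⁻¹) = orderOf y := by
      rw [← MulAut.conj_apply]; exact MulEquiv.orderOf_eq _ _
    have h := Subgroup.orderOf_dvd_natCard _ hmem
    rw [hord] at h
    exact hpy.trans h
  -- a Sylow subgroup of `G` inside `H`
  obtain ⟨x, hx⟩ := exists_prime_orderOf_dvd_card' p hpH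
  have hxH : (x : G) ∈ H := x.2
  have hxo : orderOf (x : G) = p := by rw [Subgroup.orderOf_coe]; exact hx
  have hx1 : (x : G) ≠ 1 := by
    intro h; rw [h, orderOf_one] at hxo; exact hpp.one_lt.ne hxo
  have hzp : IsPGroup p (zpowers (x : G)) := by
    apply IsPGroup.of_card (n := 1)
    rw [Nat.card_zpowers, hxo, pow_one]
  obtain ⟨S, hS⟩ := hzp.exists_le_sylow
  have hxS : (x : G) ∈ (S : Subgroup G) := hS (mem_zpowers _)
  have hnt : Nontrivial (S : Subgroup G) :=
    ⟨⟨⟨x, hxS⟩, 1, by intro h; exact hx1 (congrArg Subtype.val h)⟩⟩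
  have hcn : Nontrivial (center (S : Subgroup G)) := IsPGroup.center_nontrivial S.2
  obtain ⟨c, hc⟩ := exists_ne (1 : center (S : Subgroup G))
  obtain ⟨c', hc'⟩ : ∃ c' : G, c' = ((c : (S : Subgroup G)) : G) := ⟨_, rfl⟩
  have hcS : c' ∈ (S : Subgroup G) := by rw [hc']; exact (c : (S : Subgroup G)).2
  have hc1 : c' ≠ 1 := by
    intro h
    apply hc
    apply Subtype.ext
    apply Subtype.ext
    rw [← hc']; exact h
  have hccomm : ∀ s ∈ (S : Subgroup G), s * c' = c' * s := by
    intro s hs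
    have h := Subgroup.mem_center_iff.mp c.2 ⟨s, hs⟩
    rw [hc']
    exact congrArg Subtype.val h
  have hcH : c' ∈ H := by
    apply claim x hxH (by rw [hxo]) c'
    rw [← hccomm x hxS, mul_inv_cancel_right]; exact hxH
  have hpc : p ∣ orderOf c' := dvd_orderOf_of_mem_pgroup S.2 hcS hc1
  have hSH : (S : Subgroup G) ≤ H := by
    intro s hs
    apply claim c' hcH hpc s
    rw [hccomm s hs, mul_inv_cancel_right]; exact hcH
  -- `S ⊓ N` is a Sylow subgroup of `N`
  have hrel : ¬ p ∣ (S : Subgroup G).relIndex N := by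
    have h1 : (S : Subgroup G).relIndex ((S : Subgroup G) ⊔ N)
        = ((S : Subgroup G) ⊓ N).relIndex N :=
      Helper51.relIndex_sup_eq_inf_relIndex _ _ (by rw [normalizer_eq_top]; exact le_top)
    rw [Subgroup.inf_relIndex_right] at h1
    have h2 : (S : Subgroup G).relIndex ((S : Subgroup G) ⊔ N) ∣ (S : Subgroup G).index :=
      Dvd.intro _ (Subgroup.relIndex_mul_index le_sup_left)
    intro h
    exact S.not_dvd_index (h.trans (h1 ▸ h2))
  have hPp : IsPGroup p ((S : Subgroup G).subgroupOf N) := S.2.comap_subtype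
  have hPi : ¬ p ∣ ((S : Subgroup G).subgroupOf N).index := hrel
  have hfr := Sylow.normalizer_sup_eq_top (hPp.toSylow hPi)
  have hT : (hPp.toSylow hPi : Subgroup N).map N.subtype = (S : Subgroup G) ⊓ N := by
    rw [IsPGroup.toSylow_coe, Subgroup.subgroupOf_map_subtype]
  rw [hT] at hfr
  obtain ⟨T, hTdef⟩ : ∃ T : Subgroup G, T = (S : Subgroup G) ⊓ N := ⟨_, rfl⟩
  rw [← hTdef] at hfr
  have hTS : T ≤ (S : Subgroup G) := by rw [hTdef]; exact inf_le_left
  have hTN : T ≤ N := by rw [hTdef]; exact inf_le_right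
  have hTrel : T.relIndex N = (S : Subgroup G).relIndex N := by
    rw [hTdef, Subgroup.inf_relIndex_right]
  have hTcard : p ∣ Nat.card T := by
    have h1 := Subgroup.relIndex_mul_relIndex ⊥ T N bot_le hTN
    rw [Subgroup.relIndex_bot_left, Subgroup.relIndex_bot_left] at h1
    have h2 : p ∣ Nat.card T * T.relIndex N := by rw [h1]; exact hN
    exact ((Nat.Prime.dvd_mul hpp).mp h2).resolve_right (by rw [hTrel]; exact hrel)
  obtain ⟨t, ht⟩ := exists_prime_orderOf_dvd_card' p hTcard
  have hto : orderOf (t : G) = p := by rw [Subgroup.orderOf_coe]; exact ht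
  have hnormT : normalizer (T : Set G) ≤ H := by
    intro g hg
    rw [Subgroup.mem_normalizer_iff] at hg
    apply claim (t : G) (hSH (hTS t.2)) (by rw [hto]) g
    exact hSH (hTS ((hg (t : G)).mp t.2))
  -- `O^p(N)`
  obtain ⟨K, hK⟩ : ∃ K : Subgroup G, K = Subgroup.closure {g : G | g ∈ N ∧ (orderOf g).Coprime p} :=
    ⟨_, rfl⟩
  rw [← hK]
  have hKN : K ≤ N := by
    rw [hK, closure_le]; exact fun y hy => hy.1
  have hKn : K.Normal := by
    refine ⟨fun n hn g => ?_⟩
    have hmap : K.map (MulAut.conj g).toMonoidHom ≤ K := by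
      rw [hK, MonoidHom.map_closure, closure_le]
      rintro _ ⟨y, ⟨hyN, hyo⟩, rfl⟩
      apply Subgroup.subset_closure
      refine ⟨hNn.conj_mem y hyN g, ?_⟩
      have hord : orderOf (g * y * g⁻¹) = orderOf y := by
        rw [← MulAut.conj_apply]; exact MulEquiv.orderOf_eq _ _
      change (orderOf (g * y * g⁻¹)).Coprime p
      rw [hord]; exact hyo
    exact hmap ⟨n, hn, by simp⟩
  have hKn' : (K.subgroupOf N).Normal := hKn.subgroupOf N
  have hq : IsPGroup p (N ⧸ K.subgroupOf N) := by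
    intro q
    obtain ⟨n, rfl⟩ := QuotientGroup.mk_surjective q
    have hn0 : orderOf (n : G) ≠ 0 := (orderOf_pos _).ne'
    obtain ⟨a, m, hm, hnm⟩ := Nat.exists_eq_pow_mul_and_not_dvd hn0 p hpp.ne_one
    refine ⟨a, ?_⟩
    rw [← QuotientGroup.mk_pow, QuotientGroup.eq_one_iff, Subgroup.mem_subgroupOf, hK]
    apply Subgroup.subset_closure
    refine ⟨(n ^ p ^ a).2, ?_⟩
    have h1 : ((n : G) ^ p ^ a) ^ m = 1 := by
      rw [← pow_mul, ← hnm]; exact pow_orderOf_eq_one _
    have h2 : orderOf ((n : G) ^ p ^ a) ∣ m := orderOf_dvd_of_pow_eq_one h1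
    have h3 : Nat.Coprime m p := ((Nat.Prime.coprime_iff_not_dvd hpp).mpr hm).symm
    rw [Subgroup.coe_pow]
    exact Nat.Coprime.coprime_dvd_left h2 h3
  obtain ⟨b, hb⟩ := IsPGroup.iff_card.mp hq
  have hKrel : K.relIndex N = p ^ b := by
    rw [← hb]; exact Subgroup.index_eq_card _
  have hNle : N ≤ T ⊔ K := by
    rw [← Subgroup.relIndex_eq_one]
    have d1 : (T ⊔ K).relIndex N ∣ p ^ b := by
      rw [← hKrel]; exact Subgroup.relIndex_dvd_of_le_left N le_sup_right
    have d2 : (T ⊔ K).relIndex N ∣ (S : Subgroup G).relIndex N := by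
      rw [← hTrel]; exact Subgroup.relIndex_dvd_of_le_left N le_sup_left
    obtain ⟨i, hi, hi'⟩ := (Nat.dvd_prime_pow hpp).mp d1
    rcases Nat.eq_zero_or_pos i with rfl | hpos
    · rw [hi', pow_zero]
    · exfalso
      apply hrel
      refine dvd_trans ?_ d2
      rw [hi']; exact dvd_pow_self p hpos.ne'
  rw [eq_top_iff, ← hfr]
  refine sup_le (hnormT.trans le_sup_left) (hNle.trans (sup_le ?_ le_sup_right))
  exact (hTS.trans hSH).trans le_sup_left

end Cfsg.Agent.S3059
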