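import Cfsg.Statements.S3063
import Cfsg.Agent.Helper51.Replace
import Cfsg.Prelude.Def_PLocal

set_option autoImplicit false
open Cfsg

namespace Cfsg.Agent.S3063

/-- A weak replacement Theorem for metabelian p-groups: let S be a finite p-group whose derived subgroup is abelian and A an abelian subgroup of S of largest possible order. Then the normal closure of A in S contains an abelian subgroup B of the same order as A that is normal in S. -/
theorem result {S : Type*} [Group S] [Finite S] {p : ℕ} [Fact p.Prime]
    (hS : IsPGroup p S) (hmeta : IsMulCommutative ↥(commutator S))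
    (A : Subgroup S) (hA : A ∈ Cfsg.maxAbelianSubgroups S) :
    ∃ B ∈ Cfsg.maxAbelianSubgroups S, B.Normal ∧ B ≤ Subgroup.normalClosure (A : Set S) := by
  classical
  haveI : Group.IsNilpotent S := hS.isNilpotent
  have hNCn : (Subgroup.normalClosure (A : Set S)).Normal := Subgroup.normalClosure_normal
  have hS'n : (commutator S).Normal := inferInstance
  -- choose B in the family maximizing |B ∩ S'|
  have hne : Nonempty {B : Subgroup S // B ∈ Cfsg.maxAbelianSubgroups S ∧
      B ≤ Subgroup.normalClosure (A : Set S)} := ⟨⟨A, hA, Subgroup.le_normalClosure⟩⟩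
  obtain ⟨B, hBmax⟩ := Finite.exists_max
    (fun B : {B : Subgroup S // B ∈ Cfsg.maxAbelianSubgroups S ∧
      B ≤ Subgroup.normalClosure (A : Set S)} => Nat.card ↥(B.1 ⊓ commutator S))
  obtain ⟨B, hB, hBle⟩ := B
  refine ⟨B, hB, ?_, hBle⟩
  rw [← Subgroup.normalizer_eq_top_iff]
  by_contra hN
  have hlt : Subgroup.normalizer (B : Set S) < ⊤ := lt_top_iff_ne_top.mpr hN
  have hnc := Group.normalizerCondition_of_isNilpotent (G := S) _ hlt
  obtain ⟨x, hxNN, hxN⟩ := SetLike.exists_of_lt hnc
  have hBN : B ≤ Subgroup.normalizer (B : Set S) := Subgroup.le_normalizer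
  obtain ⟨Bs, hBsc, hBscard, hBsle, -, hBslt⟩ :=
    Cfsg.Agent.Helper51.replacement B (commutator S) x hB.1 hmeta
      (by
        intro b hb
        rw [Cfsg.Agent.Helper51.mem_normalizer_map_conj]
        have h1 := (Subgroup.mem_normalizer_iff.mp (inv_mem hxNN) b).mp (hBN hb)
        simpa using h1)
      (by
        intro b _
        rw [commutator_def]
        exact Subgroup.commutator_mem_commutator (Subgroup.mem_top x) (Subgroup.mem_top b))
      (by
        intro b _
        rw [Subgroup.normalizer_eq_top_iff.mpr hS'n]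
        exact Subgroup.mem_top b)
  have hBsmem : Bs ∈ Cfsg.maxAbelianSubgroups S :=
    ⟨hBsc, fun C hC => (hB.2 C hC).trans hBscard⟩
  have hBsNC : Bs ≤ Subgroup.normalClosure (A : Set S) := by
    refine hBsle.trans (sup_le hBle ?_)
    rintro _ ⟨b, hb, rfl⟩
    have := hNCn.conj_mem b (hBle hb) x
    simpa [MulAut.conj_apply] using this
  have h1 := hBmax ⟨Bs, hBsmem, hBsNC⟩
  have h2 := hBslt hxN
  simp only at h1
  omega

end Cfsg.Agent.S3063
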