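import Cfsg.Statements.S3069
import Cfsg.Agent.S1991

set_option autoImplicit false
open Cfsg

namespace Cfsg.Agent.S3069

/-- A normal subgroup of index `p` contains the `p`-residual. -/
theorem pResidual_ne_top_of_index {G : Type*} [Group G] [Finite G] {p : ℕ} [Fact p.Prime]
    (N : Subgroup G) (hN : N.Normal) (hidx : N.index = p) : Cfsg.pResidual p G ≠ ⊤ := by
  have hp : p.Prime := Fact.out
  haveI := hN
  intro htop
  have hle : Cfsg.pResidual p G ≤ N := by
    unfold Cfsg.pResidual
    rw [Subgroup.closure_le]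
    intro g hg
    have hg' : (orderOf g).Coprime p := hg
    have hcard : Nat.card (G ⧸ N) = p := by rw [← Subgroup.index_eq_card, hidx]
    have h1 : orderOf (QuotientGroup.mk' N g) ∣ p := by
      rw [← hcard]
      exact orderOf_dvd_natCard _
    have h2 : orderOf (QuotientGroup.mk' N g) ∣ orderOf g := orderOf_map_dvd _ g
    have h3 : orderOf (QuotientGroup.mk' N g) = 1 :=
      Nat.eq_one_of_dvd_coprimes hg' h2 h1
    exact (QuotientGroup.eq_one_iff g).mp (orderOf_eq_one_iff.mp h3)
  rw [htop] at hle
  have : N = ⊤ := top_le_iff.mp hle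
  rw [this, Subgroup.index_top] at hidx
  exact hp.one_lt.ne hidx

/-- Let p ≥ 7 be a prime and S a nontrivial Sylow p-subgroup of the finite group G. If N_G(S)/C_G(S) is a p-group (every element of N_G(S) of order prime to p centralizes S), then O^p(G) < G, i.e. G has a nontrivial p-factor group. -/
theorem result {G : Type*} [Group G] [Finite G] {p : ℕ} [Fact p.Prime]
    (hp : 7 ≤ p) (S : Sylow p G) (hS : (S : Subgroup G) ≠ ⊥)
    (hN : ∀ g ∈ Subgroup.normalizer ((S : Subgroup G) : Set G), (orderOf g).Coprime p →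
      g ∈ Subgroup.centralizer ((S : Subgroup G) : Set G)) :
    Cfsg.pResidual p G ≠ ⊤ := by
  obtain ⟨N, hNn, hidx⟩ := Cfsg.Agent.S1991.result (by omega) S hS hN
  exact pResidual_ne_top_of_index N hNn hidx

end Cfsg.Agent.S3069
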