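import Cfsg.Statements.S3073
import Cfsg.Agent.Helper33.KInfNPC

set_option autoImplicit false
universe u
open Cfsg

namespace Cfsg.Agent.S3073

/-- For an odd prime p, every finite p-group S has a characteristic subgroup K with C_S(K) ≤ K such that, whenever S is (isomorphic to) a Sylow p-subgroup of a finite group G, G has a normal p-complement if and only if N_G(K)/C_G(K) is a p-group, i.e. every element of N_G(K) of order prime to p centralizes K (K transported into G along the isomorphism). -/
theorem result (p : ℕ) [Fact p.Prime] (hp : p ≠ 2)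
    (S : Type u) [Group S] [Finite S] (hS : IsPGroup p S) :
    ∃ K : Subgroup S, K.Characteristic ∧ Subgroup.centralizer (K : Set S) ≤ K ∧
      ∀ (G : Type u) [Group G] [Finite G] (P : Sylow p G) (e : ↥(P : Subgroup G) ≃* S),
        Cfsg.HasNormalPComplement p G ↔
          ∀ g ∈ Subgroup.normalizer (((K.comap (e : ↥(P : Subgroup G) →* S)).map (P : Subgroup G).subtype : Subgroup G) : Set G),
            (orderOf g).Coprime p →
              g ∈ Subgroup.centralizer (((K.comap (e : ↥(P : Subgroup G) →* S)).map (P : Subgroup G).subtype : Subgroup G) : Set G) := by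
  have hW := Cfsg.Agent.Helper33.isCharPFunctor_kInfLower.{u} p
  refine ⟨Cfsg.kInfLower S, ?_, (Cfsg.Agent.S1978.result hS).1, ?_⟩
  · rw [Subgroup.characteristic_iff_map_eq]
    intro φ
    exact hW.2 S S hS φ
  · intro G _ _ P e
    have hK : (Cfsg.kInfLower S).comap (e : ↥(P : Subgroup G) →* S) =
        Cfsg.kInfLower ↥(P : Subgroup G) := by
      have h1 := hW.2 ↥(P : Subgroup G) S P.2 e
      rw [← h1]
      exact Subgroup.comap_map_eq_self_of_injective e.injective _
    rw [hK]
    change _ ↔ ∀ g ∈ Subgroup.normalizer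
        ((Cfsg.inducedFunctor Cfsg.kInfLower (P : Subgroup G) : Subgroup G) : Set G), _ →
      g ∈ Subgroup.centralizer
        ((Cfsg.inducedFunctor Cfsg.kInfLower (P : Subgroup G) : Subgroup G) : Set G)
    have hle : Cfsg.inducedFunctor Cfsg.kInfLower (P : Subgroup G) ≤ (P : Subgroup G) :=
      Subgroup.map_subtype_le _
    constructor
    · intro hnpc g hg hcop
      obtain ⟨M, hMn, hMc, hMm⟩ := Cfsg.Agent.Helper33.hasNormalPComplement_iff_p'.mp hnpc
      have hgM : g ∈ M := hMm g hcop
      rw [Subgroup.mem_centralizer_iff]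
      intro k hk
      have hkK : k ∈ Cfsg.inducedFunctor Cfsg.kInfLower (P : Subgroup G) := hk
      have hc1 : g * k * g⁻¹ * k⁻¹ ∈ Cfsg.inducedFunctor Cfsg.kInfLower (P : Subgroup G) :=
        Subgroup.mul_mem _ ((Subgroup.mem_normalizer_iff.mp hg k).mp hkK) (Subgroup.inv_mem _ hkK)
      have hc2 : g * k * g⁻¹ * k⁻¹ ∈ M := by
        have h1 : k * g⁻¹ * k⁻¹ ∈ M := hMn.conj_mem _ (Subgroup.inv_mem _ hgM) k
        have e1 : g * k * g⁻¹ * k⁻¹ = g * (k * g⁻¹ * k⁻¹) := by group
        rw [e1]
        exact Subgroup.mul_mem _ hgM h1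
      obtain ⟨n, hn⟩ := P.2 ⟨g * k * g⁻¹ * k⁻¹, hle hc1⟩
      have hn' : (g * k * g⁻¹ * k⁻¹) ^ p ^ n = 1 := by
        have := congrArg Subtype.val hn
        simpa using this
      have hord : (orderOf (g * k * g⁻¹ * k⁻¹)).Coprime p := by
        have hd : orderOf (g * k * g⁻¹ * k⁻¹) ∣ Nat.card M := by
          have := orderOf_dvd_natCard (⟨g * k * g⁻¹ * k⁻¹, hc2⟩ : M)
          rwa [Subgroup.orderOf_mk] at this
        exact Nat.Coprime.coprime_dvd_left hd hMc
      have h1 := Cfsg.Agent.Helper33.eq_one_of_pow_of_coprime hn' hord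
      have e2 : k * g = (g * k * g⁻¹ * k⁻¹)⁻¹ * (g * k) := by group
      rw [e2, h1]
      simp
    · intro h
      have facts := Cfsg.Agent.Helper33.kInfLower_sylow_facts P
      exact Cfsg.Agent.Helper33.npc_of_npc_normalizer_kInfLower hp P
        (Cfsg.Agent.Helper33.npc_normalizer_of_p'_centralize P _ facts.1 facts.2 h)

end Cfsg.Agent.S3073
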