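import Cfsg.Statements.S3074
import Cfsg.Agent.Helper51.PCube
import Cfsg.Agent.Helper51.StrongEmbed

set_option autoImplicit false
open Cfsg

namespace Cfsg.Agent.S3074

/-- A `3 × 3` matrix over `ZMod p` (`p ≥ 3`) of `p`-power order has `p`-th power `1`. -/
theorem mat_pow_p (p : ℕ) [Fact p.Prime] (hp3 : 3 ≤ p) (M : Matrix (Fin 3) (Fin 3) (ZMod p)) (k : ℕ)
    (hM : M ^ (p ^ k) = 1) : M ^ p = 1 := by
  have hcomm : Commute (M - 1) 1 := Commute.one_right _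
  have hN : (M - 1) ^ (p ^ k) = 0 := by
    rw [sub_pow_char_pow_of_commute _ _ (Commute.one_right M), hM, one_pow, sub_self]
  have hnil : IsNilpotent (M - 1) := ⟨p ^ k, hN⟩
  have h1 := Matrix.isNilpotent_charpoly_sub_pow_of_isNilpotent hnil
  have h2 : (M - 1).charpoly - Polynomial.X ^ Fintype.card (Fin 3) = 0 := h1.eq_zero
  have h3 : (M - 1).charpoly = Polynomial.X ^ 3 := by
    rw [sub_eq_zero] at h2; rw [h2]; simp
  have h4 := Matrix.aeval_self_charpoly (M - 1)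
  rw [h3] at h4
  have h4' : (M - 1) ^ 3 = 0 := by simpa using h4
  have h5 : (M - 1) ^ p = 0 := by
    have hj : p = 3 + (p - 3) := by omega
    calc (M - 1) ^ p = (M - 1) ^ (3 + (p - 3)) := congrArg _ hj
      _ = 0 := by rw [pow_add, h4', zero_mul]
  have h6 : M = (M - 1) + 1 := by abel
  rw [h6, add_pow_char_of_commute _ hcomm, h5, one_pow, zero_add]

/-- upper unitriangular 3x3 matrices -/
def IsUT {R : Type*} [CommRing R] (M : Matrix (Fin 3) (Fin 3) R) : Prop :=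
  M 0 0 = 1 ∧ M 1 1 = 1 ∧ M 2 2 = 1 ∧ M 1 0 = 0 ∧ M 2 0 = 0 ∧ M 2 1 = 0

theorem isUT_one {R : Type*} [CommRing R] : IsUT (1 : Matrix (Fin 3) (Fin 3) R) := by
  simp [IsUT]

theorem isUT_mul {R : Type*} [CommRing R] {M N : Matrix (Fin 3) (Fin 3) R} (hM : IsUT M)
    (hN : IsUT N) : IsUT (M * N) := by
  obtain ⟨m1, m2, m3, m4, m5, m6⟩ := hM
  obtain ⟨n1, n2, n3, n4, n5, n6⟩ := hN
  simp [IsUT, Matrix.mul_apply, Fin.sum_univ_three, m1, m2, m3, m4, m5, m6, n1, n2, n3, n4, n5, n6]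

theorem isUT_pow {R : Type*} [CommRing R] {M : Matrix (Fin 3) (Fin 3) R} (hM : IsUT M) (k : ℕ) :
    IsUT (M ^ k) := by
  induction k with
  | zero => simpa using isUT_one
  | succ k ih => rw [pow_succ]; exact isUT_mul ih hM

theorem isUT_sub_one_cube {R : Type*} [CommRing R] {M : Matrix (Fin 3) (Fin 3) R} (hM : IsUT M) :
    (M - 1) ^ 3 = 0 := by
  obtain ⟨m1, m2, m3, m4, m5, m6⟩ := hM
  ext i j
  fin_cases i <;> fin_cases j <;>
    simp [pow_succ, Matrix.mul_apply, Fin.sum_univ_three, m1, m2, m3, m4, m5, m6, Matrix.one_apply]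

theorem isUT_pow_char {p : ℕ} [Fact p.Prime] {M : Matrix (Fin 3) (Fin 3) (ZMod p)} (hM : IsUT M) :
    M ^ (p ^ 2) = 1 := by
  have h1 : M = (M - 1) + 1 := by abel
  have h2 : Commute (M - 1) 1 := Commute.one_right _
  rw [h1, add_pow_char_pow_of_commute _ _ h2, one_pow]
  have h3 : 3 ≤ p ^ 2 := by
    have := (Fact.out : p.Prime).two_le
    nlinarith
  have h4 : (M - 1) ^ (p ^ 2) = 0 := by
    obtain ⟨k, hk⟩ := Nat.exists_eq_add_of_le h3
    rw [hk, pow_add, isUT_sub_one_cube hM, zero_mul]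
  rw [h4, zero_add]

/-- the group of upper unitriangular matrices in `SL₃(ZMod p)` -/
def UT (p : ℕ) [Fact p.Prime] : Subgroup (Matrix.SpecialLinearGroup (Fin 3) (ZMod p)) where
  carrier := {M | IsUT M.1}
  mul_mem' {a b} ha hb := by
    show IsUT (a * b).1
    rw [Matrix.SpecialLinearGroup.coe_mul]
    exact isUT_mul ha hb
  one_mem' := by
    show IsUT (1 : Matrix.SpecialLinearGroup (Fin 3) (ZMod p)).1
    rw [Matrix.SpecialLinearGroup.coe_one]
    exact isUT_one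
  inv_mem' {a} ha := by
    show IsUT (a⁻¹).1
    have h1 : a ^ (p ^ 2) = 1 := by
      apply Subtype.ext
      rw [Matrix.SpecialLinearGroup.coe_pow]
      exact isUT_pow_char ha
    have h2 : a⁻¹ = a ^ (p ^ 2 - 1) := by
      apply inv_eq_of_mul_eq_one_right
      rw [← pow_succ', Nat.sub_add_cancel (Nat.one_le_pow _ _ (Fact.out : p.Prime).pos), h1]
    rw [h2, Matrix.SpecialLinearGroup.coe_pow]
    exact isUT_pow ha _

theorem UT_isPGroup (p : ℕ) [Fact p.Prime] : IsPGroup p (UT p) := by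
  intro ⟨a, ha⟩
  refine ⟨2, ?_⟩
  apply Subtype.ext
  apply Subtype.ext
  show (a ^ (p ^ 2)).1 = 1
  rw [Matrix.SpecialLinearGroup.coe_pow]
  exact isUT_pow_char ha

/-- two non-commuting unitriangular elements of `qd p` -/
def xmat (p : ℕ) : Matrix (Fin 3) (Fin 3) (ZMod p) := !![1, 1, 0; 0, 1, 0; 0, 0, 1]
/-- the second one -/
def ymat (p : ℕ) : Matrix (Fin 3) (Fin 3) (ZMod p) := !![1, 0, 0; 0, 1, 1; 0, 0, 1]

theorem det_xmat (p : ℕ) : (xmat p).det = 1 := by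
  simp [xmat, Matrix.det_fin_three]

theorem det_ymat (p : ℕ) : (ymat p).det = 1 := by
  simp [ymat, Matrix.det_fin_three]

/-- as elements of `SL₃` -/
def xel (p : ℕ) : Matrix.SpecialLinearGroup (Fin 3) (ZMod p) := ⟨xmat p, det_xmat p⟩
/-- as elements of `SL₃` -/
def yel (p : ℕ) : Matrix.SpecialLinearGroup (Fin 3) (ZMod p) := ⟨ymat p, det_ymat p⟩

theorem xel_mem_qd (p : ℕ) : xel p ∈ Cfsg.qd p := by
  apply Subgroup.subset_closure
  show (xmat p) 2 0 = 0 ∧ (xmat p) 2 1 = 0 ∧ (xmat p) 2 2 = 1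
  simp [xmat]

theorem yel_mem_qd (p : ℕ) : yel p ∈ Cfsg.qd p := by
  apply Subgroup.subset_closure
  show (ymat p) 2 0 = 0 ∧ (ymat p) 2 1 = 0 ∧ (ymat p) 2 2 = 1
  simp [ymat]

theorem xel_mem_UT (p : ℕ) [Fact p.Prime] : xel p ∈ UT p := by
  show IsUT (xmat p)
  simp [IsUT, xmat]

theorem yel_mem_UT (p : ℕ) [Fact p.Prime] : yel p ∈ UT p := by
  show IsUT (ymat p)
  simp [IsUT, ymat]

theorem xy_ne (p : ℕ) [Fact p.Prime] : xel p * yel p ≠ yel p * xel p := by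
  intro h
  have h1 := congrArg (fun M : Matrix.SpecialLinearGroup (Fin 3) (ZMod p) => M.1 0 2) h
  simp only [Matrix.SpecialLinearGroup.coe_mul] at h1
  simp [xel, yel, xmat, ymat, Matrix.mul_apply, Fin.sum_univ_three] at h1

/-- a power of `p` dividing `|GL₃(p)|` is at most `p ^ 3` -/
theorem pow_le_three (p : ℕ) (hpp : p.Prime) (k : ℕ)
    (h : p ^ k ∣ (p ^ 3 - p ^ 0) * (p ^ 3 - p ^ 1) * (p ^ 3 - p ^ 2)) : k ≤ 3 := by
  by_contra hk
  have hk4 : 4 ≤ k := by omega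
  have h1 : p ^ 4 ∣ (p ^ 3 - p ^ 0) * (p ^ 3 - p ^ 1) * (p ^ 3 - p ^ 2) :=
    (pow_dvd_pow p hk4).trans h
  have e1 : p ^ 3 - p ^ 1 = p * (p ^ 2 - 1) := by
    rw [Nat.mul_sub]; ring_nf
  have e2 : p ^ 3 - p ^ 2 = p ^ 2 * (p - 1) := by
    rw [Nat.mul_sub]; ring_nf
  have e3 : (p ^ 3 - p ^ 0) * (p ^ 3 - p ^ 1) * (p ^ 3 - p ^ 2)
      = p ^ 3 * ((p ^ 3 - 1) * (p ^ 2 - 1) * (p - 1)) := by
    rw [e1, e2, pow_zero]; ring
  rw [e3, show p ^ 4 = p ^ 3 * p by ring] at h1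
  have h2 : p ∣ (p ^ 3 - 1) * (p ^ 2 - 1) * (p - 1) :=
    Nat.dvd_of_mul_dvd_mul_left (pow_pos hpp.pos 3) h1
  have hno : ∀ j : ℕ, 1 ≤ j → ¬ p ∣ p ^ j - 1 := by
    intro j hj hd
    have h3 : p ∣ p ^ j := dvd_pow_self p (by omega)
    have h4 : p ∣ 1 := (Nat.dvd_sub_iff_right (Nat.one_le_pow _ _ hpp.pos) h3).mp hd
    exact hpp.one_lt.ne' (Nat.dvd_one.mp h4)
  rcases (Nat.Prime.dvd_mul hpp).mp h2 with h3 | h3
  · rcases (Nat.Prime.dvd_mul hpp).mp h3 with h4 | h4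
    · exact hno 3 (by norm_num) h4
    · exact hno 2 (by norm_num) h4
  · exact hno 1 (by norm_num) (by simpa using h3)

/-- Let p be an odd prime. A Sylow p-subgroup of Qd(p), the split extension of an elementary abelian group of order p² by SL₂(p) acting naturally, is extraspecial of order p³ and exponent p. -/
theorem result (p : ℕ) [Fact p.Prime] (hp : p ≠ 2) (P : Sylow p ↥(Cfsg.qd p)) :
    Cfsg.IsExtraspecial p ↥P ∧ Nat.card P = p ^ 3 ∧ Monoid.exponent ↥P = p := by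
  classical
  have hpp : p.Prime := Fact.out
  have hp3 : 3 ≤ p := by have := hpp.two_le; omega
  have : NeZero p := ⟨hpp.ne_zero⟩
  let φ : ↥(P : Subgroup ↥(Cfsg.qd p)) →* Matrix.SpecialLinearGroup (Fin 3) (ZMod p) :=
    (Cfsg.qd p).subtype.comp (P : Subgroup ↥(Cfsg.qd p)).subtype
  have hφ : Function.Injective φ := by
    intro a b hab
    exact Subtype.ext (Subtype.ext hab)
  -- every element has p-th power 1
  have hpow : ∀ x : ↥P, x ^ p = 1 := by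
    intro x
    obtain ⟨k, hk⟩ := P.isPGroup' x
    apply hφ
    rw [map_pow, map_one]
    have h1 : (φ x) ^ (p ^ k) = 1 := by rw [← map_pow, hk, map_one]
    apply Subtype.ext
    rw [Matrix.SpecialLinearGroup.coe_pow, Matrix.SpecialLinearGroup.coe_one]
    apply mat_pow_p p hp3 _ k
    rw [← Matrix.SpecialLinearGroup.coe_pow, h1, Matrix.SpecialLinearGroup.coe_one]
  -- the order is at most p^3
  have : Finite ↥(Cfsg.qd p) := inferInstance
  obtain ⟨k, hk⟩ := IsPGroup.iff_card.mp P.isPGroup'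
  have hk3 : k ≤ 3 := by
    let ψ : ↥(P : Subgroup ↥(Cfsg.qd p)) →* GL (Fin 3) (ZMod p) :=
      Matrix.SpecialLinearGroup.toGL.comp φ
    have hψ : Function.Injective ψ := Matrix.SpecialLinearGroup.toGL_injective.comp hφ
    have hdvd := Subgroup.card_dvd_of_injective ψ hψ
    rw [Matrix.card_GL_field, Fin.prod_univ_three, ZMod.card] at hdvd
    apply pow_le_three p hpp k
    rw [← hk]
    simpa using hdvd
  -- nonabelian
  have hna : ∃ a b : ↥P, a * b ≠ b * a := by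
    have hU : IsPGroup p ((UT p).subgroupOf (Cfsg.qd p)) := (UT_isPGroup p).comap_subtype
    obtain ⟨Q, hQ⟩ := hU.exists_le_sylow
    obtain ⟨g, hg⟩ := MulAction.exists_smul_eq ↥(Cfsg.qd p) Q P
    have hx : (⟨xel p, xel_mem_qd p⟩ : ↥(Cfsg.qd p)) ∈ (Q : Subgroup ↥(Cfsg.qd p)) :=
      hQ (Subgroup.mem_subgroupOf.mpr (xel_mem_UT p))
    have hy : (⟨yel p, yel_mem_qd p⟩ : ↥(Cfsg.qd p)) ∈ (Q : Subgroup ↥(Cfsg.qd p)) :=
      hQ (Subgroup.mem_subgroupOf.mpr (yel_mem_UT p))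
    have hx' : g * ⟨xel p, xel_mem_qd p⟩ * g⁻¹ ∈ (P : Subgroup ↥(Cfsg.qd p)) := by
      rw [← hg, Cfsg.Agent.Helper51.mem_smul_sylow]
      simpa [mul_assoc] using hx
    have hy' : g * ⟨yel p, yel_mem_qd p⟩ * g⁻¹ ∈ (P : Subgroup ↥(Cfsg.qd p)) := by
      rw [← hg, Cfsg.Agent.Helper51.mem_smul_sylow]
      simpa [mul_assoc] using hy
    refine ⟨⟨_, hx'⟩, ⟨_, hy'⟩, fun h => ?_⟩
    have h1 : (g * ⟨xel p, xel_mem_qd p⟩ * g⁻¹) * (g * ⟨yel p, yel_mem_qd p⟩ * g⁻¹)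
        = (g * ⟨yel p, yel_mem_qd p⟩ * g⁻¹) * (g * ⟨xel p, xel_mem_qd p⟩ * g⁻¹) :=
      congrArg Subtype.val h
    have h2 : (⟨xel p, xel_mem_qd p⟩ : ↥(Cfsg.qd p)) * ⟨yel p, yel_mem_qd p⟩
        = ⟨yel p, yel_mem_qd p⟩ * ⟨xel p, xel_mem_qd p⟩ := by
      have h3 : g * ((⟨xel p, xel_mem_qd p⟩ : ↥(Cfsg.qd p)) * ⟨yel p, yel_mem_qd p⟩) * g⁻¹
          = g * ((⟨yel p, yel_mem_qd p⟩ : ↥(Cfsg.qd p)) * ⟨xel p, xel_mem_qd p⟩) * g⁻¹ := by
        rw [← conj_mul, ← conj_mul]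
        exact h1
      exact mul_left_cancel (mul_right_cancel h3)
    exact xy_ne p (congrArg Subtype.val h2)
  have hcard : Nat.card ↥P = p ^ 3 := by
    obtain ⟨a, b, hab⟩ := hna
    have key : k = 3 := by
      by_contra hk3'
      have : k = 0 ∨ k = 1 ∨ k = 2 := by omega
      rcases this with rfl | rfl | rfl
      · rw [pow_zero] at hk
        have hs : Subsingleton ↥P := (Nat.card_eq_one_iff_unique.mp hk).1
        exact hab (Subsingleton.elim _ _)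
      · rw [pow_one] at hk
        have hcyc : IsCyclic ↥P := isCyclic_of_prime_card hk
        obtain ⟨g, hg⟩ := IsCyclic.exists_generator (α := ↥P)
        obtain ⟨m, rfl⟩ := Subgroup.mem_zpowers_iff.mp (hg a)
        obtain ⟨n, rfl⟩ := Subgroup.mem_zpowers_iff.mp (hg b)
        exact hab (by rw [← zpow_add, ← zpow_add, add_comm])
      · exact hab ((IsPGroup.isMulCommutative_of_card_eq_prime_sq hk).is_comm.comm a b)
    exact hk.trans (by rw [key])
  obtain ⟨a, b, hab⟩ := hna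
  have : Nontrivial ↥P := ⟨⟨a * b, b * a, hab⟩⟩
  exact ⟨Cfsg.Agent.Helper51.isExtraspecial_of_card_eq_prime_cube hcard ⟨a, b, hab⟩, hcard,
    Cfsg.Agent.Helper51.exponent_eq_prime_of_forall_pow hpow⟩

end Cfsg.Agent.S3074
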