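import Cfsg.Statements.S3075
import Cfsg.Agent.Helper51.Replace

set_option autoImplicit false
open Cfsg

namespace Cfsg.Agent.S3075

open Subgroup

/-- If an involution `z`, central modulo the abelian normal subgroup `A`, inverts `A` and every
element of `A` has a square root in `A`, then `C(z)` is a complement to `A`. -/
theorem split_of_inverting_involution {N : Type*} [Group N] (A : Subgroup N) (k : ℕ)
    (hk : ∀ a ∈ A, a ^ (2 * k) = a) (z : N)
    (hzc : ∀ n : N, z * n * z⁻¹ * n⁻¹ ∈ A) (hinv : ∀ a ∈ A, z * a * z⁻¹ = a⁻¹) :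
    ∃ U : Subgroup N, A ⊓ U = ⊥ ∧ A ⊔ U = ⊤ := by
  refine ⟨centralizer ({z} : Set N), ?_, ?_⟩
  · rw [eq_bot_iff]
    intro a ha
    obtain ⟨haA, haz⟩ := Subgroup.mem_inf.mp ha
    have h1 : z * a = a * z := mem_centralizer_iff.mp haz z (Set.mem_singleton z)
    have h2 : z * a * z⁻¹ = a := by rw [h1, mul_inv_cancel_right]
    have h3 : a = a⁻¹ := by rw [← hinv a haA, h2]
    have h4 : a ^ 2 = 1 := by
      rw [pow_two]
      nth_rewrite 1 [h3]
      exact inv_mul_cancel a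
    rw [Subgroup.mem_bot, ← hk a haA, pow_mul, h4, one_pow]
  · rw [eq_top_iff]
    intro n _
    set a' := z * n * z⁻¹ * n⁻¹ with ha'
    have ha'A : a' ∈ A := hzc n
    set c := (a'⁻¹) ^ k with hc
    have hcA : c ∈ A := pow_mem (inv_mem ha'A) k
    have hcc : c * c = a'⁻¹ := by
      rw [hc, ← pow_add, ← two_mul, hk _ (inv_mem ha'A)]
    have hu : c⁻¹ * n ∈ centralizer ({z} : Set N) := by
      rw [mem_centralizer_iff]
      intro y hy
      rw [Set.mem_singleton_iff] at hy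
      subst hy
      have e1 : y * c⁻¹ * y⁻¹ = c := by
        rw [hinv _ (inv_mem hcA), inv_inv]
      have e2 : y * n * y⁻¹ = a' * n := by
        rw [ha']; group
      have ha'eq : a' = c⁻¹ * c⁻¹ := by
        rw [← mul_inv_rev, hcc, inv_inv]
      have e3 : c * a' = c⁻¹ := by
        rw [ha'eq]; group
      calc y * (c⁻¹ * n) = (y * c⁻¹ * y⁻¹) * (y * n * y⁻¹) * y := by group
        _ = c * (a' * n) * y := by rw [e1, e2]
        _ = (c * a') * n * y := by group
        _ = c⁻¹ * n * y := by rw [e3]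
    have : n = c * (c⁻¹ * n) := by group
    rw [this]
    exact mul_mem (le_sup_left (α := Subgroup N) hcA) (le_sup_right (α := Subgroup N) hu)

/-- Conjugations by `n n'` and `n' n` agree on a normal subgroup of prime order. -/
theorem conj_comm_of_card_prime {N : Type*} [Group N] {p : ℕ} [Fact p.Prime] (C : Subgroup N)
    (hCn : C.Normal) (hC : Nat.card C = p) (n n' : N) {c : N} (hc : c ∈ C) :
    (n * n') * c * (n * n')⁻¹ = (n' * n) * c * (n' * n)⁻¹ := by
  have : IsCyclic ↥C := isCyclic_of_prime_card hC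
  obtain ⟨g, hg⟩ := IsCyclic.exists_generator (α := ↥C)
  have hpow : ∀ x ∈ C, ∃ j : ℤ, x = (g : N) ^ j := by
    intro x hx
    obtain ⟨j, hj⟩ := Subgroup.mem_zpowers_iff.mp (hg ⟨x, hx⟩)
    refine ⟨j, ?_⟩
    have := congrArg Subtype.val hj
    simpa using this.symm
  obtain ⟨i, hi⟩ := hpow _ (hCn.conj_mem (g : N) g.2 n)
  obtain ⟨i', hi'⟩ := hpow _ (hCn.conj_mem (g : N) g.2 n')
  obtain ⟨j, rfl⟩ := hpow c hc
  have h1 : ∀ t : ℤ, n * (g : N) ^ t * n⁻¹ = (g : N) ^ (i * t) := by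
    intro t; rw [← conj_zpow, hi, ← zpow_mul]
  have h2 : ∀ t : ℤ, n' * (g : N) ^ t * n'⁻¹ = (g : N) ^ (i' * t) := by
    intro t; rw [← conj_zpow, hi', ← zpow_mul]
  calc (n * n') * (g : N) ^ j * (n * n')⁻¹ = n * (n' * (g : N) ^ j * n'⁻¹) * n⁻¹ := by group
    _ = (g : N) ^ (i * (i' * j)) := by rw [h2, h1]
    _ = (g : N) ^ (i' * (i * j)) := by congr 1; ring
    _ = n' * (n * (g : N) ^ j * n⁻¹) * n'⁻¹ := by rw [h1, h2]
    _ = (n' * n) * (g : N) ^ j * (n' * n)⁻¹ := by group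

/-- `SL₂(F)` is not commutative. -/
theorem sl2_not_comm (F : Type*) [Field F] :
    ∃ U V : Matrix.SpecialLinearGroup (Fin 2) F, U * V ≠ V * U := by
  refine ⟨⟨!![1, 1; 0, 1], by simp [Matrix.det_fin_two]⟩, ⟨!![1, 0; 1, 1], by simp [Matrix.det_fin_two]⟩, ?_⟩
  intro h
  have h' := congrArg Subtype.val h
  have h00 := congrFun (congrFun h' 0) 0
  change (!![1, 1; 0, 1] * !![1, 0; 1, 1] : Matrix (Fin 2) (Fin 2) F) 0 0 = (!![1, 0; 1, 1] * !![1, 1; 0, 1] : Matrix (Fin 2) (Fin 2) F) 0 0 at h00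
  simp [Matrix.mul_apply, Fin.sum_univ_two] at h00

/-- Let p be an odd prime and N a finite group with a normal elementary abelian subgroup A of order p² that is its own centralizer in N, such that N/A is isomorphic to SL₂(p) (over any field F with p elements). Then N splits over A: some subgroup U of N satisfies A ∩ U = 1 and AU = N. -/
theorem result {N : Type*} [Group N] [Finite N] {p : ℕ} [Fact p.Prime] (hp : p ≠ 2)
    (A : Subgroup N) [A.Normal] (hAcomm : IsMulCommutative A) (hAcard : Nat.card A = p ^ 2) (hAexp : Monoid.exponent ↥A = p)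
    (hAself : Subgroup.centralizer (A : Set N) = A)
    {F : Type*} [Field F] [Fintype F] (hF : Fintype.card F = p) (e : N ⧸ A ≃* Matrix.SpecialLinearGroup (Fin 2) F) :
    ∃ U : Subgroup N, A ⊓ U = ⊥ ∧ A ⊔ U = ⊤ := by
  have hpp : p.Prime := Fact.out
  have hAn : A.Normal := inferInstance
  obtain ⟨k, hk⟩ : ∃ k, p + 1 = 2 * k := by
    rcases hpp.eq_two_or_odd with h | h
    · exact absurd h hp
    · exact ⟨(p + 1) / 2, by omega⟩
  obtain ⟨j, hj⟩ : ∃ j, p = 2 * j + 1 := ⟨k - 1, by have := hpp.two_le; omega⟩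
  have hAp : ∀ a ∈ A, a ^ p = 1 := by
    intro a ha
    have h1 := Monoid.pow_exponent_eq_one (⟨a, ha⟩ : ↥A)
    rw [hAexp] at h1
    have h2 := congrArg Subtype.val h1
    simpa using h2
  have hA2k : ∀ a ∈ A, a ^ (2 * k) = a := by
    intro a ha
    rw [← hk, pow_succ, hAp a ha, one_mul]
  have hAc : ∀ a ∈ A, ∀ b ∈ A, a * b = b * a :=
    fun a ha b hb => Helper51.comm_of_mem hAcomm ha hb
  -- the central involution of SL₂
  obtain ⟨m, hm⟩ : ∃ m : Matrix.SpecialLinearGroup (Fin 2) F, m = -1 := ⟨_, rfl⟩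
  have hmm : m * m = 1 := by rw [hm]; simp
  have hmc : ∀ x : Matrix.SpecialLinearGroup (Fin 2) F, m * x = x * m := by
    intro x; rw [hm]; simp
  have hm1 : m ≠ 1 := by
    intro h
    rw [hm] at h
    have h' := congrArg Subtype.val h
    have h00 := congrFun (congrFun h' 0) 0
    have hpF : (p : F) = 0 := by rw [← hF]; exact Nat.cast_card_eq_zero F
    have h2 : (2 : F) = 0 := by
      simp at h00
      have : (1 : F) + 1 = 0 := by
        nth_rewrite 1 [← h00]; simp
      rw [← this]; norm_num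
    have h3 : ((p + 1 : ℕ) : F) = ((2 * k : ℕ) : F) := by rw [hk]
    push_cast at h3
    rw [hpF, h2] at h3
    simp at h3
  obtain ⟨n₀, hn₀⟩ := QuotientGroup.mk_surjective (e.symm m)
  have hn₀sq : n₀ * n₀ ∈ A := by
    rw [← QuotientGroup.eq_one_iff, QuotientGroup.mk_mul, hn₀, ← map_mul, hmm, map_one]
  obtain ⟨z, hz⟩ : ∃ z : N, z = n₀ ^ p := ⟨_, rfl⟩
  have hzz : z * z = 1 := by
    rw [hz, ← pow_add, ← two_mul, pow_mul, pow_two]
    exact hAp _ hn₀sq
  have hzq : (QuotientGroup.mk z : N ⧸ A) = e.symm m := by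
    rw [hz, QuotientGroup.mk_pow, hn₀, ← map_pow]
    congr 1
    rw [hj, pow_succ, pow_mul, pow_two, hmm, one_pow, one_mul]
  have hzc : ∀ n : N, z * n * z⁻¹ * n⁻¹ ∈ A := by
    intro n
    rw [← QuotientGroup.eq_one_iff]
    simp only [QuotientGroup.mk_mul, QuotientGroup.mk_inv, hzq]
    obtain ⟨x, hx⟩ := e.symm.surjective (QuotientGroup.mk n)
    rw [← hx, ← map_mul, hmc x, map_mul]
    group
  have hzA : z ∉ A := by
    intro h
    have h1 : (QuotientGroup.mk z : N ⧸ A) = 1 := (QuotientGroup.eq_one_iff z).mpr h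
    rw [hzq] at h1
    have h2 : m = 1 := by simpa using congrArg e h1
    exact hm1 h2
  have hzinv : z⁻¹ = z := inv_eq_of_mul_eq_one_left hzz
  have hσA : ∀ a ∈ A, z * a * z⁻¹ ∈ A := fun a ha => hAn.conj_mem a ha z
  have hσσ : ∀ a : N, z * (z * a * z⁻¹) * z⁻¹ = a := by
    intro a
    rw [hzinv]
    calc z * (z * a * z) * z = (z * z) * a * (z * z) := by group
      _ = a := by rw [hzz, one_mul, mul_one]
  let Am : Subgroup N :=
    { carrier := {a | a ∈ A ∧ z * a * z⁻¹ = a⁻¹}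
      mul_mem' := by
        rintro a b ⟨ha, ha'⟩ ⟨hb, hb'⟩
        refine ⟨mul_mem ha hb, ?_⟩
        calc z * (a * b) * z⁻¹ = (z * a * z⁻¹) * (z * b * z⁻¹) := by group
          _ = a⁻¹ * b⁻¹ := by rw [ha', hb']
          _ = (b * a)⁻¹ := by group
          _ = (a * b)⁻¹ := by rw [hAc b hb a ha]
      one_mem' := ⟨one_mem A, by simp⟩
      inv_mem' := by
        rintro a ⟨ha, ha'⟩
        refine ⟨inv_mem ha, ?_⟩
        calc z * a⁻¹ * z⁻¹ = (z * a * z⁻¹)⁻¹ := by group
          _ = a⁻¹⁻¹ := by rw [ha'] }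
  have hAm_mem : ∀ a, a ∈ Am ↔ a ∈ A ∧ z * a * z⁻¹ = a⁻¹ := fun a => Iff.rfl
  obtain ⟨B, hB⟩ : ∃ B : Subgroup N, B = A ⊓ centralizer ({z} : Set N) := ⟨_, rfl⟩
  have hB_mem : ∀ a, a ∈ B ↔ a ∈ A ∧ z * a * z⁻¹ = a := by
    intro a
    rw [hB, Subgroup.mem_inf, Subgroup.mem_centralizer_iff]
    constructor
    · rintro ⟨ha, h⟩
      refine ⟨ha, ?_⟩
      rw [h z (Set.mem_singleton z), mul_inv_cancel_right]
    · rintro ⟨ha, h⟩
      refine ⟨ha, ?_⟩
      intro y hy
      rw [Set.mem_singleton_iff] at hy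
      rw [hy]
      nth_rewrite 2 [← h]
      group
  have hBA : B ≤ A := fun a ha => ((hB_mem a).mp ha).1
  have hAmA : Am ≤ A := fun a ha => ha.1
  have hBAm : B ⊓ Am = ⊥ := by
    rw [eq_bot_iff]
    intro a ha
    obtain ⟨h1, h2⟩ := Subgroup.mem_inf.mp ha
    have h3 := ((hB_mem a).mp h1).2
    have h4 := h2.2
    have h5 : a = a⁻¹ := h3.symm.trans h4
    have h6 : a ^ 2 = 1 := by
      rw [pow_two]
      nth_rewrite 1 [h5]
      exact inv_mul_cancel a
    rw [Subgroup.mem_bot, ← hA2k a h2.1, pow_mul, h6, one_pow]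
  have hdecomp : ∀ a ∈ A, ∃ b ∈ B, ∃ c ∈ Am, a = b * c := by
    intro a ha
    obtain ⟨s, hs'⟩ : ∃ s : N, s = z * a * z⁻¹ := ⟨_, rfl⟩
    have hs : s ∈ A := by rw [hs']; exact hσA a ha
    have hσs : z * s * z⁻¹ = a := by rw [hs']; exact hσσ a
    have h1 : a * s ∈ B := by
      rw [hB_mem]
      refine ⟨mul_mem ha hs, ?_⟩
      calc z * (a * s) * z⁻¹ = (z * a * z⁻¹) * (z * s * z⁻¹) := by group
        _ = s * a := by rw [hσs, ← hs']
        _ = a * s := hAc _ hs _ ha
    have h2 : a * s⁻¹ ∈ Am := by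
      rw [hAm_mem]
      refine ⟨mul_mem ha (inv_mem hs), ?_⟩
      calc z * (a * s⁻¹) * z⁻¹ = (z * a * z⁻¹) * (z * s * z⁻¹)⁻¹ := by group
        _ = s * a⁻¹ := by rw [hσs, ← hs']
        _ = (a * s⁻¹)⁻¹ := by rw [mul_inv_rev, inv_inv]
    have e1 : a * s * (a * s⁻¹) = a ^ 2 := by
      calc a * s * (a * s⁻¹) = a * (s * (a * s⁻¹)) := by group
        _ = a * ((a * s⁻¹) * s) := by rw [hAc s hs (a * s⁻¹) (mul_mem ha (inv_mem hs))]
        _ = a ^ 2 := by rw [inv_mul_cancel_right, pow_two]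
    have hcomm : Commute (a * s) (a * s⁻¹) :=
      hAc _ (mul_mem ha hs) _ (mul_mem ha (inv_mem hs))
    refine ⟨(a * s) ^ k, pow_mem h1 k, (a * s⁻¹) ^ k, pow_mem h2 k, ?_⟩
    rw [← hcomm.mul_pow, e1, ← pow_mul, hA2k a ha]
  have hsup : B ⊔ Am = A := by
    apply le_antisymm (sup_le hBA hAmA)
    intro a ha
    obtain ⟨b, hb, c, hc, rfl⟩ := hdecomp a ha
    exact mul_mem (Subgroup.mem_sup_left hb) (Subgroup.mem_sup_right hc)
  have hcard : Nat.card B * Nat.card Am = p ^ 2 := by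
    have hnorm : B ≤ normalizer (Am : Set N) := by
      intro b hb
      have hbA := hBA hb
      rw [Subgroup.mem_normalizer_iff]
      intro c
      by_cases hc : c ∈ A
      · have : b * c * b⁻¹ = c := by rw [hAc b hbA c hc, mul_inv_cancel_right]
        rw [this]
      · constructor
        · intro h; exact absurd (hAmA h) hc
        · intro h
          have h1 := hAmA h
          have h2 : c ∈ A := by
            have h3 := mul_mem (mul_mem (inv_mem hbA) h1) hbA
            have h4 : b⁻¹ * (b * c * b⁻¹) * b = c := by group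
            rwa [h4] at h3
          exact absurd h2 hc
    have h1 := Helper51.card_sup_mul_card_inf_of_le_normalizer B Am hnorm
    rw [hsup, hBAm, Subgroup.card_bot, mul_one, hAcard] at h1
    exact h1.symm
  have hBdvd : Nat.card B ∣ p ^ 2 := Dvd.intro _ hcard
  obtain ⟨i, hi, hBi⟩ := (Nat.dvd_prime_pow hpp).mp hBdvd
  interval_cases i
  · -- `z` inverts `A`
    rw [pow_zero, Subgroup.card_eq_one] at hBi
    rw [hBi, bot_sup_eq] at hsup
    have hinv : ∀ a ∈ A, z * a * z⁻¹ = a⁻¹ := by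
      intro a ha
      rw [← hsup] at ha
      exact ha.2
    exact split_of_inverting_involution A k hA2k z hzc hinv
  · -- both eigenspaces are normal of order `p`
    exfalso
    rw [pow_one] at hBi
    have hAmp : Nat.card Am = p := by
      rw [hBi, pow_two] at hcard
      exact Nat.eq_of_mul_eq_mul_left hpp.pos hcard
    have hBn : B.Normal := by
      refine ⟨fun b hb n => ?_⟩
      rw [hB_mem] at hb ⊢
      obtain ⟨hbA, hbz⟩ := hb
      have hnb : n * b * n⁻¹ ∈ A := hAn.conj_mem b hbA n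
      refine ⟨hnb, ?_⟩
      have ha' := hzc n
      calc z * (n * b * n⁻¹) * z⁻¹
          = (z * n * z⁻¹ * n⁻¹) * (n * (z * b * z⁻¹) * n⁻¹) * (z * n * z⁻¹ * n⁻¹)⁻¹ := by group
        _ = (z * n * z⁻¹ * n⁻¹) * (n * b * n⁻¹) * (z * n * z⁻¹ * n⁻¹)⁻¹ := by rw [hbz]
        _ = n * b * n⁻¹ := by rw [hAc _ ha' _ hnb, mul_inv_cancel_right]
    have hAmn : Am.Normal := by
      refine ⟨fun c hc n => ?_⟩
      rw [hAm_mem] at hc ⊢
      obtain ⟨hcA, hcz⟩ := hc
      have hnc : n * c * n⁻¹ ∈ A := hAn.conj_mem c hcA n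
      refine ⟨hnc, ?_⟩
      have ha' := hzc n
      calc z * (n * c * n⁻¹) * z⁻¹
          = (z * n * z⁻¹ * n⁻¹) * (n * (z * c * z⁻¹) * n⁻¹) * (z * n * z⁻¹ * n⁻¹)⁻¹ := by group
        _ = (z * n * z⁻¹ * n⁻¹) * (n * c⁻¹ * n⁻¹) * (z * n * z⁻¹ * n⁻¹)⁻¹ := by rw [hcz]
        _ = n * c⁻¹ * n⁻¹ := by
          rw [hAc _ ha' _ (hAn.conj_mem _ (inv_mem hcA) n), mul_inv_cancel_right]
        _ = (n * c * n⁻¹)⁻¹ := by group
    have hconj : ∀ n n' : N, ∀ a ∈ A,
        (n * n') * a * (n * n')⁻¹ = (n' * n) * a * (n' * n)⁻¹ := by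
      intro n n' a ha
      obtain ⟨b, hb, c, hc, rfl⟩ := hdecomp a ha
      have e1 := conj_comm_of_card_prime B hBn hBi n n' hb
      have e2 := conj_comm_of_card_prime Am hAmn hAmp n n' hc
      calc (n * n') * (b * c) * (n * n')⁻¹
          = ((n * n') * b * (n * n')⁻¹) * ((n * n') * c * (n * n')⁻¹) := by group
        _ = ((n' * n) * b * (n' * n)⁻¹) * ((n' * n) * c * (n' * n)⁻¹) := by rw [e1, e2]
        _ = (n' * n) * (b * c) * (n' * n)⁻¹ := by group
    have hNA : ∀ n n' : N, (QuotientGroup.mk (n * n') : N ⧸ A) = QuotientGroup.mk (n' * n) := by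
      intro n n'
      rw [QuotientGroup.eq]
      have hcen : (n * n')⁻¹ * (n' * n) ∈ centralizer (A : Set N) := by
        rw [Subgroup.mem_centralizer_iff]
        intro a ha
        have h := hconj n n' a ha
        calc a * ((n * n')⁻¹ * (n' * n))
            = (n * n')⁻¹ * ((n * n') * a * (n * n')⁻¹) * (n' * n) := by group
          _ = (n * n')⁻¹ * ((n' * n) * a * (n' * n)⁻¹) * (n' * n) := by rw [h]
          _ = (n * n')⁻¹ * (n' * n) * a := by group
      rwa [hAself] at hcen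
    obtain ⟨U, V, hUV⟩ := sl2_not_comm F
    apply hUV
    obtain ⟨u, hu⟩ := QuotientGroup.mk_surjective (e.symm U)
    obtain ⟨v, hv⟩ := QuotientGroup.mk_surjective (e.symm V)
    have h := hNA u v
    rw [QuotientGroup.mk_mul, QuotientGroup.mk_mul, hu, hv, ← map_mul, ← map_mul] at h
    exact e.symm.injective h
  · -- `z` centralizes `A`
    exfalso
    have hBeq : B = A := Subgroup.eq_of_le_of_card_ge hBA (by rw [hBi, hAcard])
    apply hzA
    rw [← hAself, Subgroup.mem_centralizer_iff]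
    intro a ha
    rw [← hBeq] at ha
    have h := ((hB_mem a).mp ha).2
    nth_rewrite 1 [← h]
    group

end Cfsg.Agent.S3075
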