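import Cfsg.Statements.S3076
import Cfsg.Agent.Helper51.TameSylow

set_option autoImplicit false
open Cfsg

namespace Cfsg.Agent.S3076

/-- `A ≤ B.map M.subtype ↔ A.subgroupOf M ≤ B` for `A ≤ M`. -/
theorem le_map_subtype_iff {G : Type*} [Group G] {M A : Subgroup G} (hA : A ≤ M) (B : Subgroup ↥M) :
    A ≤ B.map M.subtype ↔ A.subgroupOf M ≤ B := by
  constructor
  · intro h x hx
    obtain ⟨n, hn, hnx⟩ := Subgroup.mem_map.mp (h (Subgroup.mem_subgroupOf.mp hx))
    have : n = x := Subtype.ext hnx
    exact this ▸ hn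
  · intro h a ha
    exact Subgroup.mem_map.mpr ⟨⟨a, hA ha⟩, h (Subgroup.mem_subgroupOf.mpr ha), rfl⟩

/-- Let P be a Sylow p-subgroup of the finite group G and H ≤ P a subgroup with N_P(H) a Sylow p-subgroup of N_G(H). Let N be the preimage in N_G(H) of O_p(N_G(H)/C_G(H)). Then H is a Sylow p-subgroup of N if and only if C_P(H) ≤ H and O_{p',p}(N_G(H)) = H·C_G(H). -/
theorem result {G : Type*} [Group G] [Finite G] {p : ℕ} [Fact p.Prime]
    (P : Sylow p G) (H : Subgroup G) (hHP : H ≤ (P : Subgroup G))
    (hSyl : ¬ p ∣ ((P : Subgroup G) ⊓ Subgroup.normalizer (H : Set G)).relIndex (Subgroup.normalizer (H : Set G)))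
    [hC : ((Subgroup.centralizer (H : Set G)).subgroupOf (Subgroup.normalizer (H : Set G))).Normal] :
    (H ≤ ((Cfsg.pCore p (↥(Subgroup.normalizer (H : Set G)) ⧸
              (Subgroup.centralizer (H : Set G)).subgroupOf (Subgroup.normalizer (H : Set G)))).comap
            (QuotientGroup.mk' _)).map (Subgroup.normalizer (H : Set G)).subtype ∧
      ¬ p ∣ H.relIndex (((Cfsg.pCore p (↥(Subgroup.normalizer (H : Set G)) ⧸
              (Subgroup.centralizer (H : Set G)).subgroupOf (Subgroup.normalizer (H : Set G)))).comap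
            (QuotientGroup.mk' _)).map (Subgroup.normalizer (H : Set G)).subtype)) ↔
    ((P : Subgroup G) ⊓ Subgroup.centralizer (H : Set G) ≤ H ∧
      (Cfsg.pPrimePCore p ↥(Subgroup.normalizer (H : Set G))).map (Subgroup.normalizer (H : Set G)).subtype =
        H ⊔ Subgroup.centralizer (H : Set G)) := by
  classical
  obtain ⟨M, hM⟩ : ∃ M : Subgroup G, M = Subgroup.normalizer (H : Set G) := ⟨_, rfl⟩
  have hHM : H ≤ Subgroup.normalizer (H : Set G) := Subgroup.le_normalizer
  have hCM : Subgroup.centralizer (H : Set G) ≤ Subgroup.normalizer (H : Set G) :=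
    Subgroup.centralizer_le_normalizer _
  have hHn : (H.subgroupOf (Subgroup.normalizer (H : Set G))).Normal := Subgroup.normal_in_normalizer
  have key := Cfsg.Agent.Helper51.sylow_preimage_pCore_iff (p := p)
    (H.subgroupOf (Subgroup.normalizer (H : Set G)))
    ((Subgroup.centralizer (H : Set G)).subgroupOf (Subgroup.normalizer (H : Set G)))
    ((P : Subgroup G).subgroupOf (Subgroup.normalizer (H : Set G)))
    (by
      intro g
      rw [Subgroup.mem_subgroupOf, Subgroup.mem_centralizer_iff]
      constructor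
      · intro h x hx
        exact Subtype.ext (h x (Subgroup.mem_subgroupOf.mp hx))
      · intro h x hx
        exact congrArg Subtype.val (h ⟨x, hHM hx⟩ (Subgroup.mem_subgroupOf.mpr hx)))
    (fun x hx => hHP hx)
    (P.isPGroup'.comap_subtype)
    (by
      have h1 : ((P : Subgroup G).subgroupOf (Subgroup.normalizer (H : Set G))).index
          = ((P : Subgroup G) ⊓ Subgroup.normalizer (H : Set G)).relIndex
            (Subgroup.normalizer (H : Set G)) := by
        rw [Subgroup.inf_relIndex_right]; rfl
      rw [h1]; exact hSyl)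
  have e1 : ∀ B : Subgroup ↥(Subgroup.normalizer (H : Set G)),
      H.relIndex (B.map (Subgroup.normalizer (H : Set G)).subtype)
        = (H.subgroupOf (Subgroup.normalizer (H : Set G))).relIndex B := by
    intro B
    have h1 := Subgroup.relIndex_subgroupOf (H := H)
      (K := B.map (Subgroup.normalizer (H : Set G)).subtype)
      (L := Subgroup.normalizer (H : Set G)) (Subgroup.map_subtype_le _)
    rw [← h1]
    congr 1
    exact Subgroup.comap_map_eq_self_of_injective (Subgroup.subtype_injective _) B
  have e2 : ((P : Subgroup G) ⊓ Subgroup.centralizer (H : Set G) ≤ H) ↔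
      ((P : Subgroup G).subgroupOf (Subgroup.normalizer (H : Set G)) ⊓
        (Subgroup.centralizer (H : Set G)).subgroupOf (Subgroup.normalizer (H : Set G))
        ≤ H.subgroupOf (Subgroup.normalizer (H : Set G))) := by
    constructor
    · intro h x hx
      exact Subgroup.mem_subgroupOf.mpr (h ⟨Subgroup.mem_subgroupOf.mp hx.1, Subgroup.mem_subgroupOf.mp hx.2⟩)
    · intro h g hg
      have : (⟨g, hCM hg.2⟩ : ↥(Subgroup.normalizer (H : Set G))) ∈
          H.subgroupOf (Subgroup.normalizer (H : Set G)) :=
        h ⟨Subgroup.mem_subgroupOf.mpr hg.1, Subgroup.mem_subgroupOf.mpr hg.2⟩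
      exact Subgroup.mem_subgroupOf.mp this
  have e3 : H ⊔ Subgroup.centralizer (H : Set G)
      = (H.subgroupOf (Subgroup.normalizer (H : Set G)) ⊔
        (Subgroup.centralizer (H : Set G)).subgroupOf (Subgroup.normalizer (H : Set G))).map
          (Subgroup.normalizer (H : Set G)).subtype := by
    rw [Subgroup.map_sup, Subgroup.map_subgroupOf_eq_of_le hHM, Subgroup.map_subgroupOf_eq_of_le hCM]
  rw [le_map_subtype_iff hHM, e1, e2, e3,
    (Subgroup.map_injective (Subgroup.subtype_injective _)).eq_iff]
  exact key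

end Cfsg.Agent.S3076
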