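import Cfsg.Statements.S3087

set_option autoImplicit false
open Cfsg

namespace Cfsg.Agent.S3087

/-- For additive subgroups of a commutative group: `|X + Y| * |X ∩ Y| = |X| * |Y|`. -/
theorem card_sup_mul_card_inf {V : Type*} [AddCommGroup V] (X Y : AddSubgroup V) :
    Nat.card ↥(X ⊔ Y) * Nat.card ↥(X ⊓ Y) = Nat.card ↥X * Nat.card ↥Y := by
  have h1 : Y.relIndex (X ⊔ Y) = Y.relIndex X := AddSubgroup.relIndex_sup_right X Y
  have h2 : (X ⊓ Y).relIndex X = Y.relIndex X := AddSubgroup.inf_relIndex_left X Y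
  have h3 : (⊥ : AddSubgroup V).relIndex Y * Y.relIndex (X ⊔ Y) = (⊥ : AddSubgroup V).relIndex (X ⊔ Y) :=
    AddSubgroup.relIndex_mul_relIndex _ _ _ bot_le le_sup_right
  have h4 : (⊥ : AddSubgroup V).relIndex (X ⊓ Y) * (X ⊓ Y).relIndex X = (⊥ : AddSubgroup V).relIndex X :=
    AddSubgroup.relIndex_mul_relIndex _ _ _ bot_le inf_le_left
  rw [AddSubgroup.relIndex_bot_left, AddSubgroup.relIndex_bot_left] at h3 h4
  rw [← h3, ← h4, h1, h2]
  ring

/-- The fixed points of a subgroup, as an additive subgroup. -/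
def fix {G V : Type*} [Group G] [AddCommGroup V] (p : ℕ) [Module (ZMod p) V]
    (ρ : Representation (ZMod p) G V) (B : Subgroup G) : AddSubgroup V where
  carrier := {v | ∀ b ∈ B, ρ b v = v}
  add_mem' := by
    intro a b ha hb g hg
    rw [map_add, ha g hg, hb g hg]
  zero_mem' := by
    intro g _
    exact map_zero _
  neg_mem' := by
    intro a ha g hg
    rw [map_neg, ha g hg]

theorem card_fixW {G V : Type*} [Group G] [AddCommGroup V] (p : ℕ) [Module (ZMod p) V]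
    (ρ : Representation (ZMod p) G V) (W : Submodule (ZMod p) V) (B : Subgroup G) :
    Nat.card {w : W // ∀ b ∈ B, ρ b w = w} = Nat.card ↥(W.toAddSubgroup ⊓ fix p ρ B) := by
  apply Nat.card_congr
  refine ⟨fun w => ⟨w.1.1, w.1.2, w.2⟩, fun v => ⟨⟨v.1, v.2.1⟩, v.2.2⟩, ?_, ?_⟩
  · intro w; rfl
  · intro v; rfl

/-- Let p be a prime, G a finite group acting linearly on a finite vector space V over the field with p elements, W a G-invariant subspace, and A a subgroup of G with |A|·|C_V(A)| ≥ |B|·|C_V(B)| for every subgroup B of A. Then |A|·|C_W(A)| ≥ |B|·|C_W(B)| for every subgroup B of A that contains C_A(W); that is, the image of A in the group induced on W satisfies the same maximality condition. -/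
theorem result {G V : Type*} [Group G] [Finite G] [AddCommGroup V] [Finite V] (p : ℕ) [Fact p.Prime] [Module (ZMod p) V]
    (ρ : Representation (ZMod p) G V) (W : Submodule (ZMod p) V) (hW : ∀ g : G, ∀ w ∈ W, ρ g w ∈ W)
    (A : Subgroup G)
    (hP : ∀ B : Subgroup G, B ≤ A →
      Nat.card ↥B * Nat.card {v : V // ∀ b ∈ B, ρ b v = v} ≤ Nat.card ↥A * Nat.card {v : V // ∀ a ∈ A, ρ a v = v})
    (B : Subgroup G) (hBA : B ≤ A) (hCB : ∀ a ∈ A, (∀ w ∈ W, ρ a w = w) → a ∈ B) :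
    Nat.card ↥B * Nat.card {w : W // ∀ b ∈ B, ρ b w = w} ≤ Nat.card ↥A * Nat.card {w : W // ∀ a ∈ A, ρ a w = w} := by
  rw [card_fixW, card_fixW]
  have hPB : Nat.card ↥B * Nat.card ↥(fix p ρ B) ≤ Nat.card ↥A * Nat.card ↥(fix p ρ A) := hP B hBA
  set X := fix p ρ A with hX
  set Y := W.toAddSubgroup ⊓ fix p ρ B with hY
  have hAB : fix p ρ A ≤ fix p ρ B := fun v hv b hb => hv b (hBA hb)
  have hle : X ⊔ Y ≤ fix p ρ B := sup_le hAB inf_le_right
  have hinf : X ⊓ Y = W.toAddSubgroup ⊓ fix p ρ A := by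
    apply le_antisymm
    · exact le_inf (inf_le_right.trans inf_le_left) inf_le_left
    · exact le_inf inf_le_right (le_inf inf_le_left (inf_le_right.trans hAB))
  have hcard := card_sup_mul_card_inf X Y
  rw [hinf] at hcard
  have hle' : Nat.card ↥(X ⊔ Y) ≤ Nat.card ↥(fix p ρ B) :=
    Nat.card_le_card_of_injective (AddSubgroup.inclusion hle) (AddSubgroup.inclusion_injective hle)
  have hXpos : 0 < Nat.card ↥X := Nat.card_pos
  -- |B| * |Y| * |X| = |B| * |X ⊔ Y| * |W ∩ C_V(A)| ≤ |B| * |C_V(B)| * |C_W(A)| ≤ |A| |X| |C_W(A)|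
  have key : Nat.card ↥B * Nat.card ↥Y * Nat.card ↥X ≤
      Nat.card ↥A * Nat.card ↥(W.toAddSubgroup ⊓ fix p ρ A) * Nat.card ↥X := by
    calc Nat.card ↥B * Nat.card ↥Y * Nat.card ↥X
        = Nat.card ↥B * (Nat.card ↥X * Nat.card ↥Y) := by ring
      _ = Nat.card ↥B * (Nat.card ↥(X ⊔ Y) * Nat.card ↥(W.toAddSubgroup ⊓ fix p ρ A)) := by rw [hcard]
      _ ≤ Nat.card ↥B * (Nat.card ↥(fix p ρ B) * Nat.card ↥(W.toAddSubgroup ⊓ fix p ρ A)) := by gcongr
      _ = (Nat.card ↥B * Nat.card ↥(fix p ρ B)) * Nat.card ↥(W.toAddSubgroup ⊓ fix p ρ A) := by ring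
      _ ≤ (Nat.card ↥A * Nat.card ↥X) * Nat.card ↥(W.toAddSubgroup ⊓ fix p ρ A) := by gcongr
      _ = Nat.card ↥A * Nat.card ↥(W.toAddSubgroup ⊓ fix p ρ A) * Nat.card ↥X := by ring
  exact Nat.le_of_mul_le_mul_right key hXpos

end Cfsg.Agent.S3087
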