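import Mathlib
import Cfsg.Statements.S3153
import Cfsg.Agent.Helper52.Standard

set_option autoImplicit false
open Cfsg

namespace Cfsg.Agent.S3153

open Cfsg.Agent.Helper52

theorem core {X : Type*} [Group X] [Finite X] (P K N W S' : Subgroup X)
    (hKdef : K = Subgroup.centralizer (P : Set X)) (hNdef : N = Subgroup.normalizer (P : Set X))
    (hWdef : W = Cfsg.oddCore X)
    (hPq : Cfsg.IsQuasisimple ↥P)
    (hTE : ∀ g : X, g ∉ N → Odd (Nat.card ↥(K ⊓ K.map (MulAut.conj g).toMonoidHom)))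
    (hNK : N = Subgroup.normalizer (K : Set X))
    (hr : Cfsg.PRankLE 2 1 ↥K) (hZ : Odd (Nat.card ↥(Subgroup.center ↥P)))
    (hS'N : S' ≤ N) (hS'2 : IsPGroup 2 S')
    (hSyl : ∀ g ∈ N, (∀ s ∈ S', g * s * g⁻¹ ∈ S') → g ^ 2 ∈ S' → g ∈ S')
    (t : X) (ht : orderOf t = 2) (htS : t ∈ S') (htP : t ∈ K)
    (g : X) (hgN : ∀ s ∈ S', g * s * g⁻¹ ∈ S') (hgS : g ∉ S') (hg2 : g ^ 2 ∈ S')
    (hgt : g * t * g⁻¹ ∈ P ⊔ K) :
    (∃ p ∈ P, p * p = 1 ∧ p ≠ 1) ∧ P ≤ Subgroup.centralizer (W : Set X) := by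
  classical
  have hWn : W.Normal := by rw [hWdef]; infer_instance
  have hWodd : ∀ w ∈ W, Odd (orderOf w) := by rw [hWdef]; exact oddCore_orderOf_odd
  have ht2 : t * t = 1 := by rw [← sq, ← ht]; exact pow_orderOf_eq_one t
  have ht1 : t ≠ 1 := by intro h; rw [h, orderOf_one] at ht; omega
  have htinv : t⁻¹ = t := inv_eq_of_mul_eq_one_left ht2
  have hc : ∀ p ∈ P, ∀ k ∈ K, p * k = k * p := by
    intro p hp k hk
    rw [hKdef, Subgroup.mem_centralizer_iff] at hk
    exact hk p hp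
  have hKc : ∀ k : X, (∀ p ∈ P, p * k = k * p) → k ∈ K := by
    intro k hk
    rw [hKdef, Subgroup.mem_centralizer_iff]
    exact hk
  have hNK' : ∀ x ∈ N, ∀ k ∈ K, x * k * x⁻¹ ∈ K := by
    intro x hx k hk
    rw [hNK] at hx
    exact (Subgroup.mem_normalizer_iff.mp hx k).mp hk
  have hNP' : ∀ x ∈ N, ∀ y ∈ P, x * y * x⁻¹ ∈ P := by
    intro x hx y hy
    rw [hNdef] at hx
    exact (Subgroup.mem_normalizer_iff.mp hx y).mp hy
  -- (F2) t is central in S'
  have hF2 : ∀ x ∈ S', x * t * x⁻¹ = t := by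
    intro x hx
    have hxtK : x * t * x⁻¹ ∈ K := hNK' x (hS'N hx) t htP
    have hxtS : x * t * x⁻¹ ∈ S' := S'.mul_mem (S'.mul_mem hx htS) (S'.inv_mem hx)
    have h1 := unique_inv hr (S'.subgroupOf K) hS'2.comap_subtype ⟨t, htP⟩ ⟨x * t * x⁻¹, hxtK⟩
      (Subgroup.mem_subgroupOf.mpr htS) (Subgroup.mem_subgroupOf.mpr hxtS)
      (Subtype.ext ht2) (fun h => ht1 (congrArg Subtype.val h))
      (Subtype.ext (by
        show x * t * x⁻¹ * (x * t * x⁻¹) = 1
        calc x * t * x⁻¹ * (x * t * x⁻¹) = x * (t * t) * x⁻¹ := by group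
          _ = 1 := by rw [ht2]; group))
      (fun h => ht1 (by
        have h2 : x * t * x⁻¹ = 1 := congrArg Subtype.val h
        calc t = x⁻¹ * (x * t * x⁻¹) * x := by group
          _ = 1 := by rw [h2]; group))
    exact congrArg Subtype.val h1
  -- (F3)
  set s : X := g * t * g⁻¹ with hsdef
  have hsS : s ∈ S' := hgN t htS
  have hs2 : s * s = 1 := by
    calc s * s = g * (t * t) * g⁻¹ := by rw [hsdef]; group
      _ = 1 := by rw [ht2]; group
  have hs1 : s ≠ 1 := by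
    intro h
    apply ht1
    calc t = g⁻¹ * s * g := by rw [hsdef]; group
      _ = 1 := by rw [h]; group
  have hsinv : s⁻¹ = s := inv_eq_of_mul_eq_one_left hs2
  have hts : t * s = s * t := by
    have h1 := hF2 s hsS
    calc t * s = (s * t * s⁻¹) * s := by rw [h1]
      _ = s * t := by group
  have hgs' : g⁻¹ * t * g = s := by
    have h1 := hF2 (g ^ 2) hg2
    calc g⁻¹ * t * g = g⁻¹ * (g ^ 2 * t * (g ^ 2)⁻¹) * g := by rw [h1]
      _ = s := by rw [hsdef]; group
  -- (F4) g ∉ N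
  have hgN' : g ∉ N := fun hg => hgS (hSyl g hg hgN hg2)
  -- (F5) s ∉ K
  have hord2 : ∀ (M : Subgroup X) (x : X), x ∈ M → x * x = 1 → x ≠ 1 → Odd (Nat.card M) → False := by
    intro M x hxM hx2 hx1 hodd
    have h1 : orderOf x = 2 := orderOf_eq_prime (by rw [sq]; exact hx2) hx1
    have h2 : orderOf x ∣ Nat.card M := by
      have := orderOf_dvd_natCard (⟨x, hxM⟩ : M)
      rwa [Subgroup.orderOf_mk] at this
    rw [h1] at h2
    exact (Nat.not_even_iff_odd.mpr hodd) (even_iff_two_dvd.mpr h2)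
  have hsK : s ∉ K := by
    intro h
    have hodd := hTE g hgN'
    apply hord2 _ s _ hs2 hs1 hodd
    rw [Subgroup.mem_inf]
    exact ⟨h, t, htP, rfl⟩
  -- (F6)
  obtain ⟨p₀, hp₀, k₀, hk₀, hs0⟩ := mem_sup_comm P K hc s hgt
  obtain ⟨p, hp, k, hk, hspk, hp2, hk2⟩ :
      ∃ p ∈ P, ∃ k ∈ K, s = p * k ∧ p * p = 1 ∧ k * k = 1 := by
    have := inv_decomp P hZ s p₀ k₀ hp₀ (hKdef ▸ hk₀) hs0 hs2
    rw [← hKdef] at this
    exact this
  have hpt : p * t = t * p := hc p hp t htP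
  have hkt : k * t = t * k := by
    have h1 : k = p⁻¹ * s := by rw [hspk]; group
    have h2 : p⁻¹ * t = t * p⁻¹ := hc p⁻¹ (P.inv_mem hp) t htP
    calc k * t = p⁻¹ * (s * t) := by rw [h1]; group
      _ = p⁻¹ * (t * s) := by rw [hts]
      _ = (p⁻¹ * t) * s := by group
      _ = (t * p⁻¹) * s := by rw [h2]
      _ = t * k := by rw [h1]; group
  have hk' : k = 1 ∨ k = t := by
    have h1 := rank_one_inv hr ⟨t, htP⟩ ⟨k, hk⟩ (Subtype.ext ht2)
      (fun h => ht1 (congrArg Subtype.val h)) (Subtype.ext hk2) (Subtype.ext hkt)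
    rcases h1 with h1 | h1
    · left; exact congrArg Subtype.val h1
    · right; exact congrArg Subtype.val h1
  have hp1 : p ≠ 1 := by
    intro h
    apply hsK
    rw [hspk, h, one_mul]; exact hk
  have hpord : orderOf p = 2 := orderOf_eq_prime (by rw [sq]; exact hp2) hp1
  have hpc : ¬ (∀ x ∈ P, p * x = x * p) := by
    intro h
    have hpcen : (⟨p, hp⟩ : P) ∈ Subgroup.center ↥P := by
      rw [Subgroup.mem_center_iff]
      intro x
      apply Subtype.ext
      exact (h x x.2).symm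
    have h2 : orderOf p ∣ Nat.card ↥(Subgroup.center ↥P) := by
      have := orderOf_dvd_natCard (⟨⟨p, hp⟩, hpcen⟩ : Subgroup.center ↥P)
      rwa [Subgroup.orderOf_mk, Subgroup.orderOf_mk] at this
    rw [hpord] at h2
    exact (Nat.not_even_iff_odd.mpr hZ) (even_iff_two_dvd.mpr h2)
  have hpW : p ∉ W := by
    intro h
    have h2 := hWodd p h
    rw [hpord] at h2
    exact absurd h2 (by decide)
  refine ⟨⟨p, hp, hp2, hp1⟩, ?_⟩
  -- (F7) P ∩ W is central in P
  have hPW : ∀ x ∈ P, x ∈ W → ∀ y ∈ P, x * y = y * x := by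
    intro x hxP hxW y hyP
    rcases quasisimple_normal hPq (W.subgroupOf P) with h | h
    · have h1 : (⟨x, hxP⟩ : P) ∈ Subgroup.center ↥P := h (Subgroup.mem_subgroupOf.mpr hxW)
      rw [Subgroup.mem_center_iff] at h1
      exact (congrArg Subtype.val (h1 ⟨y, hyP⟩)).symm
    · exfalso
      apply hpW
      have h1 : (⟨p, hp⟩ : P) ∈ W.subgroupOf P := by rw [h]; trivial
      exact Subgroup.mem_subgroupOf.mp h1
  -- an element of N ∩ W centralizes P
  have hNW : ∀ w ∈ W, w ∈ N → w ∈ K := by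
    intro w hw hwN
    let α : ↥P →* ↥P :=
      { toFun := fun x => ⟨w * x * w⁻¹, hNP' w hwN x x.2⟩
        map_one' := by apply Subtype.ext; simp
        map_mul' := by
          intro x y
          apply Subtype.ext
          show w * (x * y : X) * w⁻¹ = (w * x * w⁻¹) * (w * y * w⁻¹)
          group }
    have hα : ∀ x : ↥P, x⁻¹ * α x ∈ Subgroup.center ↥P := by
      intro x
      have h1 : ((x⁻¹ * α x : ↥P) : X) = (x : X)⁻¹ * w * ((x : X)⁻¹)⁻¹ * w⁻¹ := by
        show (x : X)⁻¹ * (w * x * w⁻¹) = (x : X)⁻¹ * w * ((x : X)⁻¹)⁻¹ * w⁻¹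
        group
      have h2 : ((x⁻¹ * α x : ↥P) : X) ∈ W := by
        rw [h1]
        exact W.mul_mem (hWn.conj_mem w hw _) (W.inv_mem hw)
      rw [Subgroup.mem_center_iff]
      intro y
      apply Subtype.ext
      exact (hPW _ (x⁻¹ * α x : ↥P).2 h2 y y.2).symm
    have hid := perfect_central_hom hPq.1 α hα
    apply hKc
    intro y hy
    have h3 : w * y * w⁻¹ = y := congrArg Subtype.val (hid ⟨y, hy⟩)
    calc y * w = (w * y * w⁻¹) * w := by rw [h3]
      _ = w * y := by group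
  -- (F8) C_W(t) ≤ K
  have hCWt : ∀ w ∈ W, t * w * t⁻¹ = w → w ∈ K := by
    intro w hw hwt
    apply hNW w hw
    by_contra hn
    have hodd := hTE w hn
    apply hord2 _ t _ ht2 ht1 hodd
    rw [Subgroup.mem_inf]
    refine ⟨htP, t, htP, ?_⟩
    show w * t * w⁻¹ = t
    calc w * t * w⁻¹ = (t * w * t⁻¹) * t * w⁻¹ := by rw [hwt]
      _ = t * (w * t⁻¹ * t * w⁻¹) := by group
      _ = t := by group
  -- (F9)
  have hF9 : ∀ x ∈ K, s * (g * x * g⁻¹) * s⁻¹ = g * x * g⁻¹ →
      t * (g * x * g⁻¹) * t⁻¹ = g * x * g⁻¹ := by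
    intro x hx hsx
    have h1 : t * (g * x * g⁻¹) * t⁻¹ = g * (s * x * s⁻¹) * g⁻¹ := by
      rw [← hgs']; group
    rcases hk' with hk1 | hkt'
    · -- s = p
      have hsp : s = p := by rw [hspk, hk1, mul_one]
      have h2 : s * x * s⁻¹ = x := by
        rw [hsp, hc p hp x hx]; group
      rw [h1, h2]
    · -- s = p * t
      have hsp : s = p * t := by rw [hspk, hkt']
      have htx : t * x * t⁻¹ ∈ K := K.mul_mem (K.mul_mem htP hx) (K.inv_mem htP)
      have h2 : s * x * s⁻¹ = t * x * t⁻¹ := by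
        calc s * x * s⁻¹ = p * (t * x * t⁻¹) * p⁻¹ := by rw [hsp]; group
          _ = (t * x * t⁻¹) * p * p⁻¹ := by rw [hc p hp _ htx]
          _ = t * x * t⁻¹ := by group
      rw [h1, h2]
      calc g * (t * x * t⁻¹) * g⁻¹ = s * (g * x * g⁻¹) * s⁻¹ := by rw [hsdef]; group
        _ = g * x * g⁻¹ := hsx
  -- (F10)
  have hF10a : ∀ w ∈ W, s * w * s⁻¹ = w → t * w * t⁻¹ = w := by
    intro w hw hsw
    have hw' : g⁻¹ * w * g ∈ W := by
      have := hWn.conj_mem w hw g⁻¹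
      rwa [inv_inv] at this
    have h1 : t * (g⁻¹ * w * g) * t⁻¹ = g⁻¹ * w * g := by
      calc t * (g⁻¹ * w * g) * t⁻¹ = g⁻¹ * (s * w * s⁻¹) * g := by rw [hsdef]; group
        _ = g⁻¹ * w * g := by rw [hsw]
    have h2 := hCWt _ hw' h1
    have h3 : w = g * (g⁻¹ * w * g) * g⁻¹ := by group
    rw [h3]
    apply hF9 _ h2
    rw [← h3]; exact hsw
  have hF10b : ∀ w ∈ W, t * w * t⁻¹ = w → s * w * s⁻¹ = w := by
    intro w hw htw
    have hw' : g * w * g⁻¹ ∈ W := hWn.conj_mem w hw g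
    have h1 : s * (g * w * g⁻¹) * s⁻¹ = g * w * g⁻¹ := by
      calc s * (g * w * g⁻¹) * s⁻¹ = g * (t * w * t⁻¹) * g⁻¹ := by rw [hsdef]; group
        _ = g * w * g⁻¹ := by rw [htw]
    have h2 := hF10a _ hw' h1
    calc s * w * s⁻¹ = g⁻¹ * (t * (g * w * g⁻¹) * t⁻¹) * g := by rw [← hgs']; group
      _ = g⁻¹ * (g * w * g⁻¹) * g := by rw [h2]
      _ = w := by group
  -- (F11)
  have hu : ∀ w ∈ W, (t * s) * w * (t * s)⁻¹ = w :=
    odd_inv_inv W hWodd t s ht2 hs2 hts (fun w hw => hWn.conj_mem w hw t)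
      (fun w hw => hWn.conj_mem w hw s) (fun w hw => ⟨hF10b w hw, hF10a w hw⟩)
  have huC : t * s ∈ Subgroup.centralizer (W : Set X) := by
    rw [Subgroup.mem_centralizer_iff]
    intro w hw
    have h1 := hu w hw
    calc w * (t * s) = ((t * s) * w * (t * s)⁻¹) * (t * s) := by rw [h1]
      _ = t * s * w := by group
  -- (F12)
  have hCn : (Subgroup.centralizer (W : Set X)).Normal := inferInstance
  rcases quasisimple_normal hPq ((Subgroup.centralizer (W : Set X)).subgroupOf P) with h | h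
  · exfalso
    apply hpc
    rcases hk' with hk1 | hkt'
    · -- s = p, u = t * p
      have hsp : s = p := by rw [hspk, hk1, mul_one]
      rw [hsp] at huC
      have hcomm : ∀ x : ↥P, (⟨p * x * p⁻¹ * (x : X)⁻¹,
          P.mul_mem (P.mul_mem (P.mul_mem hp x.2) (P.inv_mem hp)) (P.inv_mem x.2)⟩ : ↥P) ∈
          Subgroup.center ↥P := by
        intro x
        apply h
        rw [Subgroup.mem_subgroupOf]
        show p * x * p⁻¹ * (x : X)⁻¹ ∈ Subgroup.centralizer (W : Set X)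
        have h1 : p * x * p⁻¹ * (x : X)⁻¹ = (t * p) * ((x : X) * (t * p)⁻¹ * (x : X)⁻¹) := by
          have h2 : t * (p * x * p⁻¹) = (p * x * p⁻¹) * t :=
            (hc _ (P.mul_mem (P.mul_mem hp x.2) (P.inv_mem hp)) t htP).symm
          calc p * x * p⁻¹ * (x : X)⁻¹ = (p * x * p⁻¹) * t * t⁻¹ * (x : X)⁻¹ := by group
            _ = t * (p * x * p⁻¹) * t⁻¹ * (x : X)⁻¹ := by rw [h2]
            _ = (t * p) * ((x : X) * (t * p)⁻¹ * (x : X)⁻¹) := by group
        rw [h1]
        exact Subgroup.mul_mem _ huC (hCn.conj_mem _ (Subgroup.inv_mem _ huC) x)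
      have hα : ∀ x : ↥P, x⁻¹ * (MulAut.conj (⟨p, hp⟩ : ↥P)).toMonoidHom x ∈ Subgroup.center ↥P := by
        intro x
        have h1 := hcomm x
        have h2 : x⁻¹ * (MulAut.conj (⟨p, hp⟩ : ↥P)).toMonoidHom x =
            x⁻¹ * (⟨p * x * p⁻¹ * (x : X)⁻¹,
          P.mul_mem (P.mul_mem (P.mul_mem hp x.2) (P.inv_mem hp)) (P.inv_mem x.2)⟩ : ↥P) * x := by
          apply Subtype.ext
          simp only [MulEquiv.coe_toMonoidHom, MulAut.conj_apply, Subgroup.coe_mul, Subgroup.coe_inv]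
          group
        rw [h2]
        rw [Subgroup.mem_center_iff] at h1
        rw [mul_assoc, ← h1 x, ← mul_assoc, inv_mul_cancel, one_mul]
        exact Subgroup.mem_center_iff.mpr h1
      have hid := perfect_central_hom hPq.1 _ hα
      intro x hx
      have h3 := congrArg Subtype.val (hid ⟨x, hx⟩)
      simp only [MulEquiv.coe_toMonoidHom, MulAut.conj_apply, Subgroup.coe_mul, Subgroup.coe_inv] at h3
      calc p * x = (p * x * p⁻¹) * p := by group
        _ = x * p := by rw [h3]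
    · -- s = p * t, u = p
      have hsp : t * s = p := by
        rw [hspk, hkt', ← mul_assoc, ← hpt, mul_assoc, ht2, mul_one]
      rw [hsp] at huC
      have h1 : (⟨p, hp⟩ : ↥P) ∈ Subgroup.center ↥P := h (Subgroup.mem_subgroupOf.mpr huC)
      rw [Subgroup.mem_center_iff] at h1
      intro x hx
      exact (congrArg Subtype.val (h1 ⟨x, hx⟩)).symm
  · intro x hx
    have h1 : (⟨x, hx⟩ : ↥P) ∈ (Subgroup.centralizer (W : Set X)).subgroupOf P := by
      rw [h]; trivial
    exact Subgroup.mem_subgroupOf.mp h1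

theorem result {X : Type*} [Group X] [Finite X] (P : Subgroup X) (hP : Cfsg.IsStandardSubgroup P)
    (hr : Cfsg.PRankLE 2 1 ↥(Subgroup.centralizer (P : Set X))) (hZ : Odd (Nat.card ↥(Subgroup.center ↥P)))
    (S : Sylow 2 ↥(Subgroup.normalizer (P : Set X))) (t : X) (ht : orderOf t = 2) (htS : t ∈ (S : Subgroup ↥(Subgroup.normalizer (P : Set X))).map (Subgroup.normalizer (P : Set X)).subtype)
    (htP : t ∈ Subgroup.centralizer (P : Set X))
    (g : X) (hgN : ∀ s ∈ (S : Subgroup ↥(Subgroup.normalizer (P : Set X))).map (Subgroup.normalizer (P : Set X)).subtype, g * s * g⁻¹ ∈ (S : Subgroup ↥(Subgroup.normalizer (P : Set X))).map (Subgroup.normalizer (P : Set X)).subtype)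
    (hgS : g ∉ (S : Subgroup ↥(Subgroup.normalizer (P : Set X))).map (Subgroup.normalizer (P : Set X)).subtype) (hg2 : g ^ 2 ∈ (S : Subgroup ↥(Subgroup.normalizer (P : Set X))).map (Subgroup.normalizer (P : Set X)).subtype)
    (hgt : g * t * g⁻¹ ∈ P ⊔ Subgroup.centralizer (P : Set X)) :
    ⁅P, Cfsg.oddCore X⁆ = ⊥ ∧
      ∀ L : Subgroup X, Cfsg.IsPComponent 2 L → P ≤ L → (∀ l ∈ L, t * l * t⁻¹ ∈ L) → Cfsg.IsQuasisimple ↥L := by
  classical
  obtain ⟨hPq, ⟨_, hTE⟩, _, hNK⟩ := hP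
  have hS'2 : IsPGroup 2 ((S : Subgroup ↥(Subgroup.normalizer (P : Set X))).map
      (Subgroup.normalizer (P : Set X)).subtype) := S.2.map _
  have hSyl : ∀ g ∈ Subgroup.normalizer (P : Set X),
      (∀ s ∈ (S : Subgroup ↥(Subgroup.normalizer (P : Set X))).map (Subgroup.normalizer (P : Set X)).subtype,
        g * s * g⁻¹ ∈ (S : Subgroup ↥(Subgroup.normalizer (P : Set X))).map (Subgroup.normalizer (P : Set X)).subtype) →
      g ^ 2 ∈ (S : Subgroup ↥(Subgroup.normalizer (P : Set X))).map (Subgroup.normalizer (P : Set X)).subtype →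
      g ∈ (S : Subgroup ↥(Subgroup.normalizer (P : Set X))).map (Subgroup.normalizer (P : Set X)).subtype := by
    intro g hg hgN hg2
    have hmem : ∀ x : X, ∀ hx : x ∈ Subgroup.normalizer (P : Set X),
        x ∈ (S : Subgroup ↥(Subgroup.normalizer (P : Set X))).map (Subgroup.normalizer (P : Set X)).subtype →
        (⟨x, hx⟩ : ↥(Subgroup.normalizer (P : Set X))) ∈ (S : Subgroup ↥(Subgroup.normalizer (P : Set X))) := by
      intro x hx hxS
      obtain ⟨y, hy, hyx⟩ := hxS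
      have : y = ⟨x, hx⟩ := Subtype.ext hyx
      rw [← this]; exact hy
    have h1 : (⟨g, hg⟩ : ↥(Subgroup.normalizer (P : Set X))) ∈
        (S : Subgroup ↥(Subgroup.normalizer (P : Set X))) := by
      apply sylow_mem_of_normalizes S ⟨g, hg⟩
      · intro y hy
        have h2 := hgN y (Subgroup.mem_map_of_mem _ hy)
        exact hmem _ (Subgroup.mul_mem _ (Subgroup.mul_mem _ hg y.2) (Subgroup.inv_mem _ hg)) h2
      · exact hmem _ (Subgroup.pow_mem _ hg 2) hg2
    exact Subgroup.mem_map_of_mem (Subgroup.normalizer (P : Set X)).subtype h1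
  obtain ⟨⟨p, hp, hp2, hp1⟩, hcent⟩ := core P (Subgroup.centralizer (P : Set X))
    (Subgroup.normalizer (P : Set X)) (Cfsg.oddCore X)
    ((S : Subgroup ↥(Subgroup.normalizer (P : Set X))).map (Subgroup.normalizer (P : Set X)).subtype)
    rfl rfl rfl hPq (fun g hg => hTE g (by rw [← hNK]; exact hg)) hNK hr hZ
    (Subgroup.map_subtype_le _) hS'2 hSyl t ht htS htP g hgN hgS hg2 hgt
  refine ⟨Subgroup.commutator_eq_bot_iff_le_centralizer.mpr hcent, ?_⟩
  intro L hL hPL _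
  apply pcomp_quasisimple L hL P hPL (Subgroup.isPerfect_iff.mp hPq.1) _ hcent
  intro hPW
  have hpord : orderOf p = 2 := orderOf_eq_prime (by rw [sq]; exact hp2) hp1
  have h2 := oddCore_orderOf_odd p (hPW hp)
  rw [hpord] at h2
  exact absurd h2 (by decide)

end Cfsg.Agent.S3153
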