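import Mathlib
import Cfsg.Statements.S3155

set_option autoImplicit false
open Cfsg

namespace Cfsg.Agent.S3155

theorem no_sq_neg_one : ∀ d : ZMod 4, d * d ≠ -1 := by decide

theorem no_sqrt_neg (f : (ZMod 4 × ZMod 4 × ZMod 4) →+ (ZMod 4 × ZMod 4 × ZMod 4))
    (hf : ∀ x, f (f x) = -x) : False := by
  let F := f.toZModLinearMap 4
  have hFF : F.comp F = (-1 : ZMod 4) • (LinearMap.id : (ZMod 4 × ZMod 4 × ZMod 4) →ₗ[ZMod 4] (ZMod 4 × ZMod 4 × ZMod 4)) := by
    apply LinearMap.ext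
    intro x
    simp only [LinearMap.comp_apply, LinearMap.smul_apply, LinearMap.id_apply, neg_smul, one_smul]
    exact hf x
  have hdet := congrArg LinearMap.det hFF
  rw [LinearMap.det_comp, LinearMap.det_smul, LinearMap.det_id] at hdet
  have : Fact (1 < 4) := ⟨by norm_num⟩
  have : Nontrivial (ZMod 4) := ZMod.nontrivial 4
  have hrank : Module.finrank (ZMod 4) (ZMod 4 × ZMod 4 × ZMod 4) = 3 := by
    rw [Module.finrank_prod, Module.finrank_prod, Module.finrank_self]
  rw [hrank] at hdet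
  apply no_sq_neg_one (LinearMap.det F)
  rw [hdet]; decide

theorem result {B : Type*} [CommGroup B] [Finite B] (hB : Nonempty (B ≃* Multiplicative (ZMod 4 × ZMod 4 × ZMod 4)))
    (τ : B ≃* B) : τ.trans τ ≠ MulEquiv.inv B := by
  obtain ⟨e⟩ := hB
  intro h
  let g : Multiplicative (ZMod 4 × ZMod 4 × ZMod 4) →* Multiplicative (ZMod 4 × ZMod 4 × ZMod 4) :=
    (e.toMonoidHom.comp τ.toMonoidHom).comp e.symm.toMonoidHom
  let f : (ZMod 4 × ZMod 4 × ZMod 4) →+ (ZMod 4 × ZMod 4 × ZMod 4) := AddMonoidHom.toMultiplicative.symm g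
  apply no_sqrt_neg f
  intro x
  have h1 : ∀ b : B, τ (τ b) = b⁻¹ := by
    intro b
    have := congrArg (fun t : B ≃* B => t b) h
    simpa using this
  have h2 : ∀ y : Multiplicative (ZMod 4 × ZMod 4 × ZMod 4), g (g y) = y⁻¹ := by
    intro y
    simp only [g, MonoidHom.comp_apply, MulEquiv.coe_toMonoidHom, MulEquiv.symm_apply_apply, h1, map_inv,
      MulEquiv.apply_symm_apply]
  have h3 := h2 (Multiplicative.ofAdd x)
  exact congrArg Multiplicative.toAdd h3

end Cfsg.Agent.S3155
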