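import Cfsg.Statements.S3156
import Cfsg.Agent.Helper43.HeisAut2
import Cfsg.Agent.Helper43.SylowSU3

set_option autoImplicit false
open Cfsg

namespace Cfsg.Agent.S3156

open Cfsg.Agent.Helper43 Cfsg.Agent.Helper43.NormH90 Cfsg.Agent.Helper43.HeisGroup
  Cfsg.Agent.Helper43.HeisAut Cfsg.Agent.Helper43.SylowSU3

/-- no dihedral configuration of order 6 among the automorphisms -/
theorem no_s3 {F : Type*} [Field F] [Fintype F] (hF : Fintype.card F = 4 ^ 2)
    [CharP F 2] {P : Type*} [Group P] (H : HeisParam F 4 P)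
    (s c : MulAut P) (hss : s * s = 1) (hc3 : c * c * c = 1) (hc1 : c ≠ 1)
    (hcs : c * s * c = s) : False := by
  have h2 : (2 : F) = 0 := CharTwo.two_eq_zero
  have hq : (4 : ℕ) = 2 ^ 2 := by norm_num
  obtain ⟨lc, τc, hlc, hAc, -⟩ := aut_classification hF H c
  obtain ⟨ls, τs, hls, hAs, -⟩ := aut_classification hF H s
  -- `c` has order three
  have hc3' : ∀ a, lc * τc (lc * τc (lc * τc a)) = a := by
    intro a
    rw [← hAc, ← hAc, ← hAc, ← autA_mul hF H, ← autA_mul hF H, hc3, autA_one hF H]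
  have e1 : lc * τc lc * τc (τc lc) = 1 := by
    have := hc3' 1
    rw [map_one, mul_one, map_mul, ← mul_assoc] at this
    exact this
  have hτ3 : ∀ a, τc (τc (τc a)) = a := by
    intro a
    have := hc3' a
    rw [map_mul, map_mul, map_mul, ← mul_assoc, ← mul_assoc, e1, one_mul] at this
    exact this
  obtain ⟨j, hj, hτj, hper⟩ := exists_frob hF hq τc
  have hj0 : j = 0 := by
    have := hper 3 (fun x => hτ3 x)
    omega
  have hτc : ∀ x, τc x = x := by
    intro x
    rw [hτj, hj0, pow_zero, pow_one]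
  have hlc3 : lc * lc * lc = 1 := by
    simp only [hτc] at e1
    exact e1
  have hlc1 : lc ≠ 1 := by
    intro h
    apply hc1
    have hcc := sq_eq_one_of_autA_eq hF H c (fun a => by rw [hAc, hτc, h, one_mul])
    rw [mul_assoc, hcc, mul_one] at hc3
    exact hc3
  -- `s` is an involution
  have hss' : ∀ a, ls * τs (ls * τs a) = a := by
    intro a
    rw [← hAs, ← hAs, ← autA_mul hF H, hss, autA_one hF H]
  have e2 : ls * τs ls = 1 := by
    have := hss' 1
    rwa [map_one, mul_one] at this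
  have hττ : ∀ x, τs (τs x) = x := by
    intro a
    have := hss' a
    rwa [map_mul, ← mul_assoc, e2, one_mul] at this
  have hlcfix : lc ^ 4 = lc := by
    calc lc ^ 4 = lc * lc * lc * lc := by ring
      _ = lc := by rw [hlc3, one_mul]
  have hτslc : τs lc = lc := fix_of_involutive hF hq τs hττ hlcfix
  -- the dihedral relation
  have hAc' : ∀ a, autA hF H c a = lc * a := fun a => by rw [hAc, hτc]
  have e3 : autA hF H (c * s * c) 1 = autA hF H s 1 := by rw [hcs]
  rw [autA_mul hF H, autA_mul hF H, hAc', hAs, hAc', hAs] at e3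
  rw [mul_one, map_one, mul_one, hτslc] at e3
  have e4 : lc * lc = 1 := by
    have h5 : ls * (lc * lc - 1) = 0 := by linear_combination e3
    rcases mul_eq_zero.1 h5 with h6 | h6
    · exact absurd h6 hls
    · exact sub_eq_zero.1 h6
  apply hlc1
  apply sq_injective (F := F)
  simp only
  rw [e4, one_mul]


/-- If a finite group T is isomorphic to a Sylow 2-subgroup of the projective special unitary group of dimension 3 with parameter 4 (realised over the field with 16 elements), then no subgroup of the automorphism group of T is isomorphic to the symmetric group of degree 3. -/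
theorem result {T : Type*} [Group T] [Finite T] (hT : (∃ (F : Type) (_ : Field F) (_ : Fintype F), Fintype.card F = 16 ∧ ∃ S : Sylow 2 (Cfsg.PSU 3 F 4), Nonempty (T ≃* ↥(S : Subgroup (Cfsg.PSU 3 F 4))))) (H : Subgroup (MulAut T)) : ¬ Nonempty (↥H ≃* Equiv.Perm (Fin 3)) := by
  obtain ⟨F, _, _, hF, S, ⟨e⟩⟩ := hT
  have hF' : Fintype.card F = 4 ^ 2 := by rw [hF]; norm_num
  have hF'' : Fintype.card F = (2 ^ 2) ^ 2 := by rw [hF]; norm_num
  haveI : CharP F 2 := charP_two_of_card (by norm_num : 1 ≤ 2) hF''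
  obtain ⟨H₀⟩ := exists_param_sylow hF' (k := 2) (by norm_num) (by norm_num) S
  have HP : HeisParam F 4 T := H₀.map e.symm
  rintro ⟨e'⟩
  have hs₀ : (Equiv.swap (0 : Fin 3) 1) * (Equiv.swap (0 : Fin 3) 1) = 1 := by decide
  have hc₀ : (finRotate 3) * (finRotate 3) * (finRotate 3) = 1 := by decide
  have hc₀' : (finRotate 3) ≠ 1 := by decide
  have hcs₀ : (finRotate 3) * (Equiv.swap (0 : Fin 3) 1) * (finRotate 3)
      = Equiv.swap (0 : Fin 3) 1 := by decide
  have hss : ((e'.symm (Equiv.swap (0 : Fin 3) 1) : ↥H) : MulAut T)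
      * ((e'.symm (Equiv.swap (0 : Fin 3) 1) : ↥H) : MulAut T) = 1 := by
    rw [← Subgroup.coe_mul, ← map_mul, hs₀, map_one, Subgroup.coe_one]
  have hc3 : ((e'.symm (finRotate 3) : ↥H) : MulAut T) * ((e'.symm (finRotate 3) : ↥H) : MulAut T)
      * ((e'.symm (finRotate 3) : ↥H) : MulAut T) = 1 := by
    rw [← Subgroup.coe_mul, ← Subgroup.coe_mul, ← map_mul, ← map_mul, hc₀, map_one,
      Subgroup.coe_one]
  have hc1 : ((e'.symm (finRotate 3) : ↥H) : MulAut T) ≠ 1 := by
    intro h
    apply hc₀'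
    have h1 : e'.symm (finRotate 3) = 1 := Subtype.ext h
    rw [← map_one e'.symm] at h1
    exact e'.symm.injective h1
  have hcs : ((e'.symm (finRotate 3) : ↥H) : MulAut T)
      * ((e'.symm (Equiv.swap (0 : Fin 3) 1) : ↥H) : MulAut T)
      * ((e'.symm (finRotate 3) : ↥H) : MulAut T)
      = ((e'.symm (Equiv.swap (0 : Fin 3) 1) : ↥H) : MulAut T) := by
    rw [← Subgroup.coe_mul, ← Subgroup.coe_mul, ← map_mul, ← map_mul, hcs₀]
  exact no_s3 hF' HP _ _ hss hc3 hc1 hcs

end Cfsg.Agent.S3156
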