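import Cfsg.Statements.S3157
-- import your own Cfsg.Agent.* helpers here
import Cfsg.Agent.Helper50.Fpf3d
import Cfsg.Agent.Helper50.UT3
import Cfsg.Agent.Helper50.Ord8

set_option autoImplicit false
open Cfsg

namespace Cfsg.Agent.S3157

/-- Let T be a non-abelian group of order 64 admitting automorphisms ρ of order 3 and x of order 2 with x ρ x⁻¹ = ρ⁻¹ (so they generate a symmetric group of degree 3), where ρ fixes only the identity. Then T is isomorphic to a Sylow 2-subgroup of the projective special linear group of dimension 3 over the field with 4 elements, and the subgroup of fixed points of x is dihedral of order 8 or quaternion of order 8. -/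
theorem result {T : Type*} [Group T] [Finite T] (hT : Nat.card T = 64) (hna : ¬ IsMulCommutative T) (ρ x : MulAut T) (hρ : orderOf ρ = 3) (hx : orderOf x = 2)
    (hxr : x * ρ * x⁻¹ = ρ⁻¹) (hfp : ∀ y : T, ρ y = y → y = 1) (C : Subgroup T) (hC : ∀ y : T, y ∈ C ↔ x y = y) :
    (∃ (F : Type) (_ : Field F) (_ : Fintype F), Fintype.card F = 4 ∧
        ∃ S : Sylow 2 (Matrix.ProjectiveSpecialLinearGroup (Fin 3) F), Nonempty (T ≃* ↥(S : Subgroup (Matrix.ProjectiveSpecialLinearGroup (Fin 3) F)))) ∧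
      (Nonempty (↥C ≃* DihedralGroup 4) ∨ Nonempty (↥C ≃* QuaternionGroup 2)) := by
  classical
  -- the automorphism `ρ` has cube one
  have hρ3 : ρ ^ 3 = 1 := by rw [← hρ]; exact pow_orderOf_eq_one ρ
  have hcube : ∀ t : T, ρ (ρ (ρ t)) = t := by
    intro t
    have h1 : (ρ ^ 3) t = t := by rw [hρ3]; rfl
    have h2 : ρ ^ 3 = ρ * ρ * ρ := by rw [pow_succ, pow_two]
    rw [h2] at h1
    simpa [MulAut.mul_apply] using h1
  have hF : Cfsg.Agent.Helper50.Fpf3 ρ := ⟨hcube, hfp⟩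
  have hna' : ∃ a b : T, a * b ≠ b * a := by
    by_contra hcon
    push Not at hcon
    exact hna (isMulCommutative_iff.2 hcon)
  obtain ⟨hZ4, hexp, hsq⟩ := Cfsg.Agent.Helper50.fpf3_struct hT hna' hF
  have H : Cfsg.Agent.Helper50.Fpf64 ρ := ⟨hF, hT, hZ4, hexp, hsq⟩
  -- the automorphism `x`
  have hxx : x ^ 2 = 1 := by rw [← hx]; exact pow_orderOf_eq_one x
  have hx2 : ∀ t : T, x (x t) = t := by
    intro t
    have h1 : (x ^ 2) t = t := by rw [hxx]; rfl
    rw [pow_two] at h1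
    simpa [MulAut.mul_apply] using h1
  have hρinv : ρ⁻¹ = ρ * ρ := by
    have : ρ * (ρ * ρ) = 1 := by rw [← hρ3, pow_succ, pow_two, mul_assoc]
    exact inv_eq_of_mul_eq_one_right this
  have hxr' : ∀ t : T, x (ρ t) = ρ (ρ (x t)) := by
    intro t
    have h1 : (x * ρ * x⁻¹) (x t) = (ρ⁻¹) (x t) := by rw [hxr]
    rw [hρinv] at h1
    have h2 : (x * ρ * x⁻¹) (x t) = x (ρ t) := by
      rw [MulAut.mul_apply, MulAut.mul_apply, MulAut.inv_apply_self]
    rw [h2] at h1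
    rw [h1]; rfl
  obtain ⟨e1, he1, he1sq⟩ := H.exists_invol x hx2 hxr'
  obtain ⟨e2, he2, h12⟩ := H.exists_hyp he1 he1sq
  obtain ⟨E⟩ := H.nonempty_sqExt e1 e2 he1sq he2 h12
  refine ⟨?_, ?_⟩
  · have h2 : ∀ a : Cfsg.Agent.Helper98.F4, a + a = 0 := by intro a; cases a <;> rfl
    obtain ⟨S, ⟨e⟩⟩ := Cfsg.Agent.Helper50.exists_sylow_ut3 Cfsg.Agent.Helper98.F4.card_eq
    have hfin : Finite ↥(Cfsg.Agent.Helper50.UT3 Cfsg.Agent.Helper98.F4) := inferInstance
    obtain ⟨e0⟩ := Cfsg.Agent.Helper50.SqExt.nonempty_mulEquiv E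
      (Cfsg.Agent.Helper50.ut3_sqExt h2)
    exact ⟨Cfsg.Agent.Helper98.F4, inferInstance, inferInstance,
      Cfsg.Agent.Helper98.F4.card_eq, S, ⟨e0.trans e⟩⟩
  · obtain ⟨h8, a, b, hab⟩ := H.card_fixed x hx2 hxr' C hC
    exact Cfsg.Agent.Helper50.d8_or_q8 h8 ⟨a, b, hab⟩

end Cfsg.Agent.S3157
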