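import Cfsg.Statements.S3162
import Cfsg.Agent.Helper43.HeisAut4
import Cfsg.Agent.Helper43.SylowSU3b

set_option autoImplicit false
open Cfsg

namespace Cfsg.Agent.S3162

/-- Let S be a Sylow 2-subgroup of the special unitary group of dimension 3 with parameter q = 2^n (n ≥ 2; realised over the field with q² elements). Then the largest normal 2-subgroup of the automorphism group of S is elementary abelian of order 2^(2n²), and the automorphism group has order 2^(2n²) · 2n(q² − 1). -/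
theorem result {S : Type*} [Group S] [Finite S] (n : ℕ) (hn : 2 ≤ n) {F : Type*} [Field F] [Fintype F] (hF : Fintype.card F = 4 ^ n)
    (P : Sylow 2 ↥(Cfsg.SU 3 F (2 ^ n))) (hS : Nonempty (S ≃* ↥(P : Subgroup ↥(Cfsg.SU 3 F (2 ^ n))))) :
    Cfsg.IsElementaryAbelian 2 (Cfsg.pCore 2 (MulAut S)) ∧ Nat.card ↥(Cfsg.pCore 2 (MulAut S)) = 2 ^ (2 * n ^ 2) ∧
      Nat.card (MulAut S) = 2 ^ (2 * n ^ 2) * (2 * n * ((2 ^ n) ^ 2 - 1)) := by
  obtain ⟨e⟩ := hS
  have hF' : Fintype.card F = (2 ^ n) ^ 2 := by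
    rw [hF, ← pow_mul, mul_comm, pow_mul]
    norm_num
  haveI : CharP F 2 := Cfsg.Agent.Helper43.HeisGroup.charP_two_of_card (by omega : 1 ≤ n) hF'
  obtain ⟨H₀⟩ := Cfsg.Agent.Helper43.SylowSU3.exists_param_sylow_su hF' (k := n) (by omega) rfl P
  have HP : Cfsg.Agent.Helper43.HeisGroup.HeisParam F (2 ^ n) S := H₀.map e.symm
  have e1 : 2 * n ^ 2 = 2 * n * n := by ring
  rw [e1, Cfsg.Agent.Helper43.HeisAut.pCore_eq hF' HP]
  exact ⟨Cfsg.Agent.Helper43.HeisAut.ker_elementary hF' HP,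
    Cfsg.Agent.Helper43.HeisAut.card_ker hF' HP rfl,
    Cfsg.Agent.Helper43.HeisAut.card_aut hF' HP rfl⟩

end Cfsg.Agent.S3162
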