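import Cfsg.Statements.S3178
import Cfsg.Agent.Helper53.Card
import Cfsg.Agent.Helper53.Transfer
import Cfsg.Agent.Helper53.NPC

set_option autoImplicit false
open Cfsg

namespace Cfsg.Agent.S3178

open Cfsg.Agent.Helper53

theorem index_subgroupOf_eq_two {G : Type*} [Group G] [Finite G] {M S : Subgroup G} (hle : M ≤ S)
    (k : ℕ) (hM : Nat.card M = 2 ^ k) (hS : Nat.card S = 2 ^ (k + 1)) :
    (M.subgroupOf S).index = 2 := by
  have h1 := Subgroup.card_mul_index (M.subgroupOf S)
  have h2 : Nat.card (M.subgroupOf S) = 2 ^ k := by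
    rw [← hM]; exact Nat.card_congr (Subgroup.subgroupOfEquivOfLe hle).toEquiv
  rw [h2, hS, pow_succ] at h1
  exact Nat.eq_of_mul_eq_mul_left (by positivity) h1


/-- Groups with a modular Sylow 2-subgroup have a normal 2-complement. Let S, of order 2^(n+1) with n ≥ 3, be a Sylow 2-subgroup of a finite group G, and suppose S contains an element a of order 2^n and an involution b with b a b⁻¹ = a^(2^(n-1) + 1); so S is the non-abelian 2-group with a cyclic subgroup of index 2 that is neither dihedral, semidihedral nor generalized quaternion. Then G has a normal 2-complement. -/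
theorem result {G : Type*} [Group G] [Finite G]
    (S : Sylow 2 G) (n : ℕ) (hn : 3 ≤ n) (hS : Nat.card ↥(S : Subgroup G) = 2 ^ (n + 1))
    (a b : G) (ha : a ∈ (S : Subgroup G)) (hb : b ∈ (S : Subgroup G))
    (hao : orderOf a = 2 ^ n) (hbo : orderOf b = 2) (hrel : b * a * b⁻¹ = a ^ (2 ^ (n - 1) + 1)) :
    Cfsg.HasNormalPComplement 2 G := by
  classical
  have : Fact (Nat.Prime 2) := ⟨Nat.prime_two⟩
  have hn1 : 2 ^ (n - 1) * 2 = 2 ^ n := by rw [← pow_succ]; congr 1; omega
  have hn2 : 2 ^ (n - 2) * 2 = 2 ^ (n - 1) := by rw [← pow_succ]; congr 1; omega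
  have hn3 : 2 ^ (n - 3) * 2 = 2 ^ (n - 2) := by rw [← pow_succ]; congr 1; omega
  obtain ⟨z, hz⟩ : ∃ z : G, z = a ^ (2 ^ (n - 1)) := ⟨_, rfl⟩
  have hz2 : z ^ 2 = 1 := by rw [hz, ← pow_mul, hn1, ← hao, pow_orderOf_eq_one]
  have hzinv : z⁻¹ = z := by
    apply inv_eq_of_mul_eq_one_left
    rw [← pow_two, hz2]
  have hz1 : z ≠ 1 := by
    intro h
    rw [hz] at h
    have h1 := orderOf_dvd_of_pow_eq_one h
    rw [hao] at h1
    have h2 := Nat.le_of_dvd (by positivity) h1
    have h3 : 2 ^ (n - 1) < 2 ^ n := Nat.pow_lt_pow_right (by norm_num) (by omega)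
    omega
  have hza : ∀ i j : ℕ, z ^ i * a ^ j = a ^ j * z ^ i := by
    intro i j
    rw [hz, ← pow_mul, ← pow_add, ← pow_add, add_comm]
  have hza1 : z * a = a * z := by simpa using hza 1 1
  have hb2 : b * b = 1 := by rw [← pow_two, ← hbo, pow_orderOf_eq_one]
  have hbinv : b⁻¹ = b := inv_eq_of_mul_eq_one_left hb2
  have hzpow : ∀ i : ℕ, z ^ i = 1 ∨ z ^ i = z := by
    intro i
    rcases Nat.even_or_odd i with ⟨j, rfl⟩ | ⟨j, rfl⟩
    · left; rw [← two_mul, pow_mul, hz2, one_pow]
    · right; rw [pow_succ, pow_mul, hz2, one_pow, one_mul]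
  -- conjugation by b
  have hconj : ∀ i : ℕ, b * a ^ i * b⁻¹ = z ^ i * a ^ i := by
    intro i
    rw [← conj_pow, hrel, pow_succ, ← hz]
    exact Commute.mul_pow hza1 i
  have hba : ∀ i : ℕ, b * a ^ i = z ^ i * a ^ i * b := by
    intro i
    rw [← hconj i]; group
  -- the cyclic subgroup ⟨a⟩
  have hA : Nat.card (Subgroup.zpowers a) = 2 ^ n := by rw [Nat.card_zpowers, hao]
  have hAS : Subgroup.zpowers a ≤ (S : Subgroup G) := by rw [Subgroup.zpowers_le]; exact ha
  have hzA : z ∈ Subgroup.zpowers a := by rw [hz]; exact Subgroup.pow_mem _ (Subgroup.mem_zpowers a) _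
  have hbA : b ∉ Subgroup.zpowers a := by
    intro h
    obtain ⟨i, hi⟩ := Subgroup.mem_zpowers_iff.mp h
    have hcomm : b * a = a * b := by rw [← hi]; group
    have h1 := hconj 1
    rw [pow_one, pow_one] at h1
    have h2 : b * a * b⁻¹ = a := by rw [hcomm]; group
    rw [h2] at h1
    exact hz1 (mul_eq_right.mp h1.symm)
  have hbz : b ≠ z := fun h => hbA (h ▸ hzA)
  have hb1 : b ≠ 1 := fun h => hbA (h ▸ Subgroup.one_mem _)
  have hAidx : ((Subgroup.zpowers a).subgroupOf (S : Subgroup G)).index = 2 :=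
    index_subgroupOf_eq_two hAS n hA hS
  have hform : ∀ s ∈ (S : Subgroup G), ∃ i : ℕ, s = a ^ i ∨ s = a ^ i * b := by
    intro s hs
    have hnat : ∀ x ∈ Subgroup.zpowers a, ∃ i : ℕ, x = a ^ i := by
      intro x hx
      have h1 := (mem_powers_iff_mem_zpowers (x := a) (y := x)).mpr hx
      obtain ⟨i, hi⟩ := (Submonoid.mem_powers_iff _ _).mp h1
      exact ⟨i, hi.symm⟩
    by_cases hsA : s ∈ Subgroup.zpowers a
    · obtain ⟨i, hi⟩ := hnat s hsA
      exact ⟨i, Or.inl hi⟩
    · have h1 := Subgroup.mul_mem_iff_of_index_two hAidx (a := (⟨s, hs⟩ : ↥(S : Subgroup G)))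
        (b := ⟨b, hb⟩)
      have h2 : (⟨s, hs⟩ : ↥(S : Subgroup G)) * ⟨b, hb⟩ ∈
          (Subgroup.zpowers a).subgroupOf (S : Subgroup G) := by
        rw [h1]
        simp only [Subgroup.mem_subgroupOf]
        exact ⟨fun h => absurd h hsA, fun h => absurd h hbA⟩
      rw [Subgroup.mem_subgroupOf] at h2
      obtain ⟨i, hi⟩ := hnat _ h2
      refine ⟨i, Or.inr ?_⟩
      have h3 : s * b = a ^ i := hi
      calc s = s * b * b := by rw [mul_assoc, hb2, mul_one]
        _ = a ^ i * b := by rw [h3]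
  -- powers
  have hsqb : ∀ i : ℕ, (a ^ i * b) ^ 2 = z ^ i * (a ^ i) ^ 2 := by
    intro i
    calc (a ^ i * b) ^ 2 = a ^ i * (b * a ^ i) * b := by rw [pow_two]; group
      _ = a ^ i * (z ^ i * a ^ i * b) * b := by rw [hba]
      _ = (a ^ i * z ^ i) * a ^ i * (b * b) := by group
      _ = z ^ i * (a ^ i) ^ 2 := by rw [hb2, ← hza, pow_two]; group
  have hpow : ∀ i : ℕ, (a ^ i) ^ (2 ^ (n - 1)) = z ^ i := by
    intro i
    rw [hz, ← pow_mul, ← pow_mul, mul_comm]
  have hzeven : ∀ i : ℕ, (z ^ i) ^ (2 ^ (n - 2)) = 1 := by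
    intro i
    rw [← hn3, ← pow_mul, mul_comm (2 ^ (n - 3)) 2, ← mul_assoc, mul_comm i 2, mul_assoc, pow_mul,
      hz2, one_pow]
  have hpowb : ∀ i : ℕ, (a ^ i * b) ^ (2 ^ (n - 1)) = z ^ i := by
    intro i
    rw [← hn2, mul_comm, pow_mul, hsqb]
    have hc : Commute (z ^ i) ((a ^ i) ^ 2) := by
      rw [← pow_mul]; exact hza i (i * 2)
    rw [hc.mul_pow, hzeven, one_mul, ← pow_mul, mul_comm 2, hn2, hpow]
  have hai2 : ∀ i : ℕ, (a ^ i) ^ 2 = 1 → a ^ i = 1 ∨ a ^ i = z := by
    intro i h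
    rw [← pow_mul] at h
    have h1 := orderOf_dvd_of_pow_eq_one h
    rw [hao, ← hn1] at h1
    have h2 : 2 ^ (n - 1) ∣ i := Nat.dvd_of_mul_dvd_mul_right (by norm_num) h1
    obtain ⟨j, rfl⟩ := h2
    rw [pow_mul, ← hz]
    exact hzpow j
  -- squares lie in ⟨a²⟩
  have hzA2 : z ∈ Subgroup.zpowers (a ^ 2) := by
    rw [hz, ← hn2, mul_comm, pow_mul]
    exact Subgroup.pow_mem _ (Subgroup.mem_zpowers _) _
  have hsq : ∀ s ∈ (S : Subgroup G), s ^ 2 ∈ Subgroup.zpowers (a ^ 2) := by
    intro s hs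
    obtain ⟨i, rfl | rfl⟩ := hform s hs
    · rw [← pow_mul, mul_comm, pow_mul]
      exact Subgroup.pow_mem _ (Subgroup.mem_zpowers _) _
    · rw [hsqb]
      apply Subgroup.mul_mem _ (Subgroup.pow_mem _ hzA2 _)
      rw [← pow_mul, mul_comm, pow_mul]
      exact Subgroup.pow_mem _ (Subgroup.mem_zpowers _) _
  -- a² is central in S
  have hcen : ∀ s ∈ (S : Subgroup G), s * a ^ 2 = a ^ 2 * s := by
    intro s hs
    have hb' : b * a ^ 2 = a ^ 2 * b := by rw [hba 2, hz2, one_mul]
    obtain ⟨i, rfl | rfl⟩ := hform s hs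
    · rw [← pow_add, ← pow_add, add_comm]
    · rw [mul_assoc, hb', ← mul_assoc, ← mul_assoc, ← pow_add, ← pow_add, add_comm]
  have hcen' : ∀ c ∈ Subgroup.zpowers (a ^ 2), ∀ s ∈ (S : Subgroup G), s * c = c * s := by
    intro c hc s hs
    obtain ⟨k, rfl⟩ := Subgroup.mem_zpowers_iff.mp hc
    exact Commute.zpow_right (hcen s hs) k
  -- involutions of S
  have hinv : ∀ s ∈ (S : Subgroup G), s ^ 2 = 1 → (s = 1 ∨ s = z) ∨ (s * b = 1 ∨ s * b = z) := by
    intro s hs h2
    obtain ⟨i, rfl | rfl⟩ := hform s hs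
    · exact Or.inl (hai2 i h2)
    · right
      have h3 : (a ^ i * b) ^ (2 ^ (n - 1)) = 1 := by
        rw [← hn2, mul_comm, pow_mul, h2, one_pow]
      rw [hpowb] at h3
      rw [hsqb, h3, one_mul] at h2
      rw [mul_assoc, hb2, mul_one]
      exact hai2 i h2
  have hord2 : ∀ s ∈ (S : Subgroup G), ∃ r : ℕ, orderOf s = 2 ^ r := by
    intro s hs
    obtain ⟨k, hk⟩ := S.2 ⟨s, hs⟩
    have h1 : s ^ (2 ^ k) = 1 := congrArg Subtype.val hk
    obtain ⟨r, -, hr⟩ := (Nat.dvd_prime_pow Nat.prime_two).mp (orderOf_dvd_of_pow_eq_one h1)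
    exact ⟨r, hr⟩
  -- the subgroup M = C_S(b)
  obtain ⟨M, hMdef⟩ : ∃ M : Subgroup G, M = (S : Subgroup G) ⊓ Subgroup.centralizer {b} := ⟨_, rfl⟩
  have hMS : M ≤ (S : Subgroup G) := hMdef ▸ inf_le_left
  have hMmem : ∀ s, s ∈ M ↔ s ∈ (S : Subgroup G) ∧ b * s = s * b := by
    intro s
    rw [hMdef, Subgroup.mem_inf, Subgroup.mem_centralizer_iff]
    simp
  have hcb : ∀ i : ℕ, b * a ^ i = a ^ i * b ↔ z ^ i = 1 := by
    intro i
    rw [hba]
    constructor
    · intro h
      have h1 : z ^ i * a ^ i = a ^ i := mul_right_cancel h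
      exact mul_eq_right.mp h1
    · intro h
      rw [h, one_mul]
  have hMe : ∀ s ∈ (S : Subgroup G), (s ∈ M ↔ s ^ (2 ^ (n - 1)) = 1) := by
    intro s hs
    rw [hMmem]
    obtain ⟨i, rfl | rfl⟩ := hform s hs
    · rw [hpow, hcb]
      exact ⟨fun h => h.2, fun h => ⟨hs, h⟩⟩
    · rw [hpowb, ← hcb]
      constructor
      · rintro ⟨-, h⟩
        have h1 : b * a ^ i * b = a ^ i * b * b := by rw [mul_assoc, h]
        exact mul_right_cancel h1
      · intro h
        refine ⟨hs, ?_⟩
        rw [← mul_assoc, h]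
  have hM5 : ∀ y ∈ (S : Subgroup G), y ∉ M → 2 ^ (n - 1) < orderOf y := by
    intro y hy hyM
    by_contra hle
    push Not at hle
    obtain ⟨r, hr⟩ := hord2 y hy
    rw [hr] at hle
    have hrn : r ≤ n - 1 := (Nat.pow_le_pow_iff_right (by norm_num)).mp hle
    apply hyM
    rw [hMe y hy]
    apply orderOf_dvd_iff_pow_eq_one.mp
    rw [hr]
    exact pow_dvd_pow 2 hrn
  have ha2S : a ^ 2 ∈ (S : Subgroup G) := Subgroup.pow_mem _ ha _
  have ha2M : a ^ 2 ∈ M := by
    rw [hMe _ ha2S, ← pow_mul, mul_comm, hn1, ← hao, pow_orderOf_eq_one]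
  have hbM : b ∈ M := (hMmem b).mpr ⟨hb, rfl⟩
  have haM : a ∉ M := by
    rw [hMe a ha, ← hz]; exact hz1
  have hA2card : Nat.card (Subgroup.zpowers (a ^ 2)) = 2 ^ (n - 1) := by
    rw [Nat.card_zpowers, orderOf_pow_of_dvd (by norm_num) (by rw [hao, ← hn1]; exact dvd_mul_left 2 _),
      hao, ← hn1]
    simp
  have hA2A : Subgroup.zpowers (a ^ 2) ≤ Subgroup.zpowers a := by
    rw [Subgroup.zpowers_le]; exact Subgroup.pow_mem _ (Subgroup.mem_zpowers a) _
  have hMcard : Nat.card M = 2 ^ n := by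
    obtain ⟨k, hk⟩ := (S.2.to_le hMS).exists_card_eq
    have h1 : Subgroup.zpowers (a ^ 2) < M := by
      refine lt_of_le_of_ne ?_ ?_
      · rw [Subgroup.zpowers_le]; exact ha2M
      · intro h
        exact hbA (hA2A (h ▸ hbM))
    have h2 : M < (S : Subgroup G) := lt_of_le_of_ne hMS (fun h => haM (h ▸ ha))
    have h3 := card_lt_of_lt h1
    have h4 := card_lt_of_lt h2
    rw [hA2card, hk] at h3
    rw [hS, hk] at h4
    have h5 : n - 1 < k := (Nat.pow_lt_pow_iff_right (by norm_num)).mp h3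
    have h6 : k < n + 1 := (Nat.pow_lt_pow_iff_right (by norm_num)).mp h4
    rw [hk]; congr 1; omega
  have hMidx : M.relIndex (S : Subgroup G) = 2 := index_subgroupOf_eq_two hMS n hMcard hS
  -- a normal subgroup of index 2
  have hH : ∃ H : Subgroup G, H.Normal ∧ H.index = 2 := by
    by_contra hno
    push Not at hno
    obtain ⟨g, hg⟩ := exists_conj_mem_of_no_normal_index_two S M hMidx n (by omega) hM5 a hao hno
    have h1 := (hMe _ (hMS hg)).mp hg
    rw [conj_pow, ← hz] at h1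
    apply hz1
    have h2 : z = g⁻¹ * (g * z * g⁻¹) * g := by group
    rw [h2, h1]; group
  obtain ⟨H, hHn, hHidx⟩ := hH
  have hHn' : H.Normal := hHn
  obtain ⟨T, hTdef⟩ : ∃ T : Subgroup G, T = (S : Subgroup G) ⊓ H := ⟨_, rfl⟩
  have hTS : T ≤ (S : Subgroup G) := hTdef ▸ inf_le_left
  have hTH : T ≤ H := hTdef ▸ inf_le_right
  have hrel2 : H.relIndex (S : Subgroup G) = 2 := by
    have h1 : H.relIndex (S : Subgroup G) ∣ 2 := by
      have h0 := Subgroup.relIndex_dvd_index_of_normal (H := H) (K := (S : Subgroup G))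
      rwa [hHidx] at h0
    have h2 : H.relIndex (S : Subgroup G) ≠ 1 := by
      intro h
      rw [Subgroup.relIndex_eq_one] at h
      have h3 := Subgroup.relIndex_mul_index h
      apply S.not_dvd_index
      rw [← h3, hHidx]; exact dvd_mul_left 2 _
    rcases (Nat.dvd_prime Nat.prime_two).mp h1 with h | h
    · exact absurd h h2
    · exact h
  have hTcard : Nat.card T = 2 ^ n := by
    have h1 : (T.subgroupOf (S : Subgroup G)).index = 2 := by
      have h0 : T.relIndex (S : Subgroup G) = H.relIndex (S : Subgroup G) := by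
        rw [hTdef]; exact Subgroup.inf_relIndex_left (H := (S : Subgroup G)) (K := H)
      rw [hrel2] at h0
      exact h0
    have h2 := Subgroup.card_mul_index (T.subgroupOf (S : Subgroup G))
    rw [h1, hS, pow_succ] at h2
    have h3 : Nat.card (T.subgroupOf (S : Subgroup G)) = 2 ^ n := Nat.eq_of_mul_eq_mul_right (by norm_num) h2
    rw [← h3]
    exact (Nat.card_congr (Subgroup.subgroupOfEquivOfLe hTS).toEquiv).symm
  have ha2T : a ^ 2 ∈ T := by
    rw [hTdef]; exact ⟨ha2S, Subgroup.sq_mem_of_index_two hHidx a⟩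
  have hA2T : Subgroup.zpowers (a ^ 2) ≤ T := by rw [Subgroup.zpowers_le]; exact ha2T
  -- T is abelian
  have habT : ∀ x ∈ T, ∀ y ∈ T, x * y = y * x := by
    have hidx : ((Subgroup.zpowers (a ^ 2)).subgroupOf T).index = 2 :=
      index_subgroupOf_eq_two hA2T (n - 1) hA2card (by rw [hTcard]; congr 1; omega)
    intro x hx y hy
    by_cases hxZ : x ∈ Subgroup.zpowers (a ^ 2)
    · exact (hcen' x hxZ y (hTS hy)).symm
    · by_cases hyZ : y ∈ Subgroup.zpowers (a ^ 2)
      · exact hcen' y hyZ x (hTS hx)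
      · have h1 := Subgroup.mul_mem_iff_of_index_two hidx (a := (⟨x, hx⟩ : ↥T)) (b := ⟨y, hy⟩)
        have h2 : (⟨x, hx⟩ : ↥T) * ⟨y, hy⟩ ∈ (Subgroup.zpowers (a ^ 2)).subgroupOf T := by
          rw [h1]
          simp only [Subgroup.mem_subgroupOf]
          exact ⟨fun h => absurd h hxZ, fun h => absurd h hyZ⟩
        rw [Subgroup.mem_subgroupOf] at h2
        have h3 : x * (x * y) = (x * y) * x := hcen' (x * y) h2 x (hTS hx)
        have h4 : x * y = x⁻¹ * (x * (x * y)) := by group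
        rw [h4, h3]; group
  -- odd-order elements normalizing T centralize it
  have hD4 : ∀ g : G, (∀ t ∈ T, g * t * g⁻¹ ∈ T) → Odd (orderOf g) → ∀ x ∈ T, g * x * g⁻¹ = x := by
    intro g hgT hgo
    have hgm : g ^ orderOf g = 1 := pow_orderOf_eq_one g
    -- D1: g centralizes squares
    have hD1 : ∀ x ∈ T, g * x ^ 2 * g⁻¹ = x ^ 2 := by
      intro x hx
      have hu : x ^ 2 ∈ Subgroup.zpowers (a ^ 2) := hsq x (hTS hx)
      have hv : g * x ^ 2 * g⁻¹ ∈ Subgroup.zpowers (a ^ 2) := by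
        rw [← conj_pow]; exact hsq _ (hTS (hgT x hx))
      have huv : orderOf (x ^ 2) = orderOf (g * x ^ 2 * g⁻¹) := (orderOf_conj_eq g (x ^ 2)).symm
      have hA2o : orderOf (a ^ 2) = 2 ^ (n - 1) := by rw [← Nat.card_zpowers, hA2card]
      have hmem := mem_zpowers_of_orderOf_eq (a ^ 2) (x ^ 2) (g * x ^ 2 * g⁻¹) (n - 1) hA2o hu hv huv
      have hnorm : g ∈ Subgroup.normalizer ((Subgroup.zpowers (x ^ 2) : Subgroup G) : Set G) := by
        rw [mem_normalizer_iff_map_conj]
        apply map_conj_eq_of_le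
        rw [MonoidHom.map_zpowers, Subgroup.zpowers_le]
        exact hmem
      obtain ⟨r, hr⟩ := hord2 (x ^ 2) (Subgroup.pow_mem _ (hTS hx) _)
      have h1 := commute_of_odd_of_mem_normalizer_cyclic (Subgroup.zpowers (x ^ 2)) r
        (by rw [Nat.card_zpowers, hr]) g hnorm hgo (x ^ 2) (Subgroup.mem_zpowers _)
      rw [h1]; group
    -- D2: g centralizes z
    have hD2 : g * z * g⁻¹ = z := by
      have hxT : a ^ (2 ^ (n - 2)) ∈ T := by
        rw [← hn3, mul_comm, pow_mul]
        exact Subgroup.pow_mem _ ha2T _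
      have h1 := hD1 _ hxT
      rw [← pow_mul, hn2, ← hz] at h1
      exact h1
    have hD2' : g⁻¹ * z * g = z := by
      conv_lhs => rw [← hD2]
      group
    -- D3: g centralizes involutions of T
    have hD3 : ∀ w ∈ T, w ^ 2 = 1 → g * w * g⁻¹ = w := by
      intro w hw hw2
      have hw' : g * w * g⁻¹ ∈ T := hgT w hw
      have hw'2 : (g * w * g⁻¹) ^ 2 = 1 := by rw [conj_pow, hw2]; group
      have ht : (g * w * g⁻¹) * w⁻¹ = 1 ∨ (g * w * g⁻¹) * w⁻¹ = z := by
        rcases hinv w (hTS hw) hw2 with h | h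
        · have : g * w * g⁻¹ = w := by
            rcases h with h | h
            · rw [h]; group
            · rw [h]; exact hD2
          left; rw [this]; group
        · rcases hinv _ (hTS hw') hw'2 with h' | h'
          · exfalso
            have hwz : w = 1 ∨ w = z := by
              have hweq : w = g⁻¹ * (g * w * g⁻¹) * g := by group
              rcases h' with h' | h'
              · left; rw [hweq, h']; group
              · right; rw [hweq, h']; exact hD2'
            rcases hwz with hw1 | hwz'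
            · rw [hw1, one_mul] at h
              rcases h with h | h
              · exact hb1 h
              · exact hbz h
            · rw [hwz'] at h
              rcases h with h | h
              · have : b = z := by
                  rw [← hzinv]; exact (inv_eq_of_mul_eq_one_right h).symm
                exact hbz this
              · exact hb1 (mul_eq_left.mp h)
          · have key : (g * w * g⁻¹) * w⁻¹ = (g * w * g⁻¹ * b) * (w * b)⁻¹ := by group
            rw [key]
            rcases h with h | h <;> rcases h' with h' | h'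
            · left; rw [h, h']; group
            · right; rw [h, h']; group
            · right; rw [h, h', hzinv]; group
            · left; rw [h, h']; group
      have h1 : g * w * g⁻¹ = ((g * w * g⁻¹) * w⁻¹) * w := by group
      have h2 : g * ((g * w * g⁻¹) * w⁻¹) * g⁻¹ = (g * w * g⁻¹) * w⁻¹ := by
        rcases ht with h | h
        · rw [h]; group
        · rw [h]; exact hD2
      have h3 : ((g * w * g⁻¹) * w⁻¹) ^ 2 = 1 := by
        rcases ht with h | h
        · rw [h]; group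
        · rw [h]; exact hz2
      have h4 := odd_trick g w _ (orderOf g) hgo hgm h1 h2 h3
      calc g * w * g⁻¹ = ((g * w * g⁻¹) * w⁻¹) * w := h1
        _ = w := by rw [h4, one_mul]
    -- D4
    intro x hx
    have hw : (g * x * g⁻¹) * x⁻¹ ∈ T := T.mul_mem (hgT x hx) (T.inv_mem hx)
    have hw2 : ((g * x * g⁻¹) * x⁻¹) ^ 2 = 1 := by
      have hc : Commute (g * x * g⁻¹) x⁻¹ := habT _ (hgT x hx) _ (T.inv_mem hx)
      rw [hc.mul_pow, conj_pow, hD1 x hx, inv_pow, mul_inv_cancel]
    have h1 : g * x * g⁻¹ = ((g * x * g⁻¹) * x⁻¹) * x := by group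
    have h2 := hD3 _ hw hw2
    have h4 := odd_trick g x _ (orderOf g) hgo hgm h1 h2 hw2
    calc g * x * g⁻¹ = ((g * x * g⁻¹) * x⁻¹) * x := h1
      _ = x := by rw [h4, one_mul]
  -- the Sylow 2-subgroup of H
  have hcardQ : Nat.card (T.subgroupOf H) = 2 ^ (Nat.card ↥H).factorization 2 := by
    have h1 : Nat.card (T.subgroupOf H) = 2 ^ n := by
      rw [← hTcard]; exact Nat.card_congr (Subgroup.subgroupOfEquivOfLe hTH).toEquiv
    have h2 : Nat.card H * 2 = Nat.card G := hHidx ▸ H.card_mul_index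
    have h3 : (Nat.card G).factorization 2 = n + 1 := by
      have h4 := S.card_eq_multiplicity
      rw [hS] at h4
      exact (Nat.pow_right_injective (le_refl 2) h4).symm
    have h5 : (Nat.card ↥H).factorization 2 = n := by
      rw [← h2, Nat.factorization_mul Nat.card_pos.ne' (by norm_num)] at h3
      simp [Nat.prime_two.factorization_self] at h3
      exact h3
    rw [h1, h5]
  let Q : Sylow 2 ↥H := Sylow.ofCard (T.subgroupOf H) hcardQ
  have hQmem : ∀ x : ↥H, x ∈ (Q : Subgroup ↥H) ↔ (x : G) ∈ T := by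
    intro x
    show x ∈ T.subgroupOf H ↔ _
    rw [Subgroup.mem_subgroupOf]
  have hK : ∃ K : Subgroup ↥H, K.Normal ∧ K.IsComplement' (Q : Subgroup ↥H) := by
    apply exists_normal_complement_of_odd_centralize Q
    · intro x hx y hy
      apply Subtype.ext
      exact habT x ((hQmem x).mp hx) y ((hQmem y).mp hy)
    · intro g hg hgodd x hx
      apply Subtype.ext
      show (g : G) * x = x * g
      have hgT : ∀ t ∈ T, (g : G) * t * (g : G)⁻¹ ∈ T := by
        intro t ht
        have h1 : (⟨t, hTH ht⟩ : ↥H) ∈ (Q : Subgroup ↥H) := (hQmem _).mpr ht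
        have h2 := (Subgroup.mem_normalizer_iff.mp hg _).mp h1
        exact (hQmem _).mp h2
      have hgo : Odd (orderOf (g : G)) := by rw [Subgroup.orderOf_coe]; exact hgodd
      have h3 := hD4 (g : G) hgT hgo x ((hQmem x).mp hx)
      calc (g : G) * x = ((g : G) * x * (g : G)⁻¹) * g := by group
        _ = x * g := by rw [h3]
  obtain ⟨K, hKn, hKc⟩ := hK
  obtain ⟨N, hN, hNc⟩ := exists_normal_complement_of_normal_subgroup H 1 (by rw [hHidx, pow_one]) Q K hKc
  exact ⟨S, N, hN, hNc S⟩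

end Cfsg.Agent.S3178
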