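import Cfsg.Statements.S3180
import Cfsg.Agent.Helper53.Basic

set_option autoImplicit false
open Cfsg

namespace Cfsg.Agent.S3180

open Cfsg.Agent.Helper53

/-- Let P be a Sylow p-subgroup of a finite group J and P₁ a subgroup of P that is weakly closed in P with respect to J. If J acts on a set and two points, each fixed by every element of P₁, lie in one J-orbit, then they lie in one orbit of the normalizer of P₁ in J. -/
theorem result {J : Type*} [Group J] [Finite J]
    {p : ℕ} [Fact p.Prime] (P : Sylow p J) (P₁ : Subgroup J) (hW : Cfsg.IsWeaklyClosed P₁ (P : Subgroup J))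
    {Ω : Type*} [MulAction J Ω] (x y : Ω) (hx : ∀ g ∈ P₁, g • x = x) (hy : ∀ g ∈ P₁, g • y = y)
    (hc : ∃ g : J, g • x = y) :
    ∃ g ∈ Subgroup.normalizer (P₁ : Set J), g • x = y := by
  obtain ⟨g, hg⟩ := hc
  obtain ⟨hP₁P, hwc⟩ := hW
  have hP₁ : IsPGroup p P₁ := P.2.to_le hP₁P
  -- the stabilizer of y
  set H : Subgroup J := MulAction.stabilizer J y with hH
  have hP₁H : P₁ ≤ H := fun u hu => by
    rw [hH, MulAction.mem_stabilizer_iff]; exact hy u hu
  have hQH : P₁.map (MulAut.conj g).toMonoidHom ≤ H := by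
    intro u hu
    rw [mem_map_conj] at hu
    rw [hH, MulAction.mem_stabilizer_iff]
    have h1 := hx _ hu
    have h2 : u • y = g • ((g⁻¹ * u * g) • x) := by
      rw [← hg, ← mul_smul, ← mul_smul]; congr 1; group
    rw [h2, h1, hg]
  -- a Sylow p-subgroup of H containing P₁
  have hP₁' : IsPGroup p (P₁.subgroupOf H) := hP₁.comap_subtype
  obtain ⟨R, hR⟩ := hP₁'.exists_le_sylow
  have hQ' : IsPGroup p ((P₁.map (MulAut.conj g).toMonoidHom).subgroupOf H) :=
    (isPGroup_map_conj hP₁ g).comap_subtype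
  obtain ⟨h, hh⟩ := exists_map_conj_le_sylow R hQ'
  -- the image of R in J is a p-group, inside a conjugate of P
  have hRJ : IsPGroup p ((R : Subgroup H).map H.subtype) := R.2.map _
  obtain ⟨k, hk⟩ := exists_map_conj_le_sylow P hRJ
  -- P₁ ≤ R (in J)
  have h1 : P₁ ≤ (R : Subgroup H).map H.subtype := by
    intro u hu
    exact ⟨⟨u, hP₁H hu⟩, hR (by simpa [Subgroup.mem_subgroupOf] using hu), rfl⟩
  -- (h g) P₁ (h g)⁻¹ ≤ R (in J)
  have h2 : P₁.map (MulAut.conj ((h : J) * g)).toMonoidHom ≤ (R : Subgroup H).map H.subtype := by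
    intro u hu
    rw [mem_map_conj] at hu
    have huH : u ∈ H := by
      have h3 : g * (((h : J) * g)⁻¹ * u * ((h : J) * g)) * g⁻¹ ∈ H := hQH (conj_mem_map_conj hu)
      have h4 : (h : J) * (g * (((h : J) * g)⁻¹ * u * ((h : J) * g)) * g⁻¹) * (h : J)⁻¹ ∈ H :=
        H.mul_mem (H.mul_mem h.2 h3) (H.inv_mem h.2)
      have h5 : (h : J) * (g * (((h : J) * g)⁻¹ * u * ((h : J) * g)) * g⁻¹) * (h : J)⁻¹ = u := by
        group
      rwa [h5] at h4
    refine ⟨⟨u, huH⟩, hh ?_, rfl⟩
    rw [mem_map_conj, Subgroup.mem_subgroupOf, mem_map_conj]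
    convert hu using 1
    simp only [Subgroup.coe_mul, Subgroup.coe_inv]
    group
  -- weak closure gives normalizing elements
  have h3 : P₁.map (MulAut.conj k).toMonoidHom = P₁ :=
    hwc k ((map_conj_mono h1 k).trans hk)
  have h4 : P₁.map (MulAut.conj (k * ((h : J) * g))).toMonoidHom = P₁ := by
    apply hwc
    rw [← map_conj_map_conj]
    exact (map_conj_mono h2 k).trans hk
  have hkN : k ∈ Subgroup.normalizer (P₁ : Set J) := mem_normalizer_iff_map_conj.mpr h3
  have hkhgN : k * ((h : J) * g) ∈ Subgroup.normalizer (P₁ : Set J) :=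
    mem_normalizer_iff_map_conj.mpr h4
  refine ⟨(h : J) * g, ?_, ?_⟩
  · have := (Subgroup.normalizer (P₁ : Set J)).mul_mem ((Subgroup.normalizer (P₁ : Set J)).inv_mem hkN) hkhgN
    simpa using this
  · rw [mul_smul, hg]
    exact MulAction.mem_stabilizer_iff.mp h.2

end Cfsg.Agent.S3180
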