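import Cfsg.Statements.S3190
import Cfsg.Agent.Helper53.PCenter

set_option autoImplicit false
open Cfsg

namespace Cfsg.Agent.S3190

open Cfsg.Agent.Helper53

/-- Let p be an odd prime and, inside a finite group, let P be a p-subgroup normalized by a Klein four-group T. Let R be a subgroup of P, normal in P and normalized by T, such that P is the product of R with the centralizer of T in P. If T centralizes the centre of P, then T centralizes the centre of R. -/
theorem result {X : Type*} [Group X] [Finite X]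
    {p : ℕ} (hp : p.Prime) (hodd : Odd p) (P T R : Subgroup X) (hP : IsPGroup p ↥P) (hT : IsKleinFour ↥T)
    (hTP : T ≤ Subgroup.normalizer (P : Set X)) (hRP : R ≤ P) (hRn : (R.subgroupOf P).Normal)
    (hTR : T ≤ Subgroup.normalizer (R : Set X)) (hfac : R ⊔ (P ⊓ Subgroup.centralizer (T : Set X)) = P)
    (hZ : T ≤ Subgroup.centralizer (((Subgroup.center ↥P).map P.subtype : Subgroup X) : Set X)) :
    T ≤ Subgroup.centralizer (((Subgroup.center ↥R).map R.subtype : Subgroup X) : Set X) := by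
  haveI : Fact p.Prime := ⟨hp⟩
  have hPR : P ≤ Subgroup.normalizer (R : Set X) :=
    (Subgroup.normal_subgroupOf_iff_le_normalizer hRP).mp hRn
  intro t ht
  -- t ^ 2 = 1
  have ht2 : t * t = 1 := by
    have h1 : (⟨t, ht⟩ : T) ^ 2 = 1 := by
      have := Monoid.pow_exponent_eq_one (⟨t, ht⟩ : T)
      rwa [hT.exponent_two] at this
    have h2 := congrArg Subtype.val h1
    simpa [pow_two] using h2
  have htinv : t⁻¹ = t := inv_eq_of_mul_eq_one_left ht2
  have htR : t ∈ Subgroup.normalizer (R : Set X) := hTR ht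
  -- the subgroup of elements of Z(R) inverted by t
  let A : Subgroup X :=
    { carrier := {z | z ∈ (Subgroup.center R).map R.subtype ∧ t * z * t⁻¹ = z⁻¹}
      one_mem' := ⟨Subgroup.one_mem _, by simp⟩
      mul_mem' := by
        rintro a b ⟨ha, ha'⟩ ⟨hb, hb'⟩
        refine ⟨Subgroup.mul_mem _ ha hb, ?_⟩
        have hab : b * a = a * b := (mem_map_center_subtype.mp ha).2 b (mem_map_center_subtype.mp hb).1
        calc t * (a * b) * t⁻¹ = (t * a * t⁻¹) * (t * b * t⁻¹) := by group
          _ = a⁻¹ * b⁻¹ := by rw [ha', hb']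
          _ = (b * a)⁻¹ := by group
          _ = (a * b)⁻¹ := by rw [hab]
      inv_mem' := by
        rintro a ⟨ha, ha'⟩
        refine ⟨Subgroup.inv_mem _ ha, ?_⟩
        calc t * a⁻¹ * t⁻¹ = (t * a * t⁻¹)⁻¹ := by group
          _ = (a⁻¹)⁻¹ := by rw [ha'] }
  have hA_mem : ∀ z, z ∈ A ↔ z ∈ (Subgroup.center R).map R.subtype ∧ t * z * t⁻¹ = z⁻¹ := fun z => Iff.rfl
  have hAP : A ≤ P := fun z hz => hRP (mem_map_center_subtype.mp ((hA_mem z).mp hz).1).1
  have hAnorm : P ≤ Subgroup.normalizer (A : Set X) := by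
    conv_lhs => rw [← hfac]
    refine sup_le ?_ ?_
    · rw [Subgroup.le_normalizer_iff]
      intro r hr z hz
      have hz' := (hA_mem z).mp hz
      have h1 : r * z = z * r := (mem_map_center_subtype.mp hz'.1).2 r hr
      have h2 : r * z * r⁻¹ = z := by rw [h1]; group
      rw [h2]; exact hz
    · rw [Subgroup.le_normalizer_iff]
      rintro c ⟨hcP, hcT⟩ z hz
      have hz' := (hA_mem z).mp hz
      have hct : t * c = c * t := (Subgroup.mem_centralizer_iff.mp hcT) t ht
      rw [hA_mem]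
      refine ⟨conj_mem_map_center (hPR hcP) hz'.1, ?_⟩
      calc t * (c * z * c⁻¹) * t⁻¹ = (t * c) * z * (t * c)⁻¹ := by group
        _ = (c * t) * z * (c * t)⁻¹ := by rw [hct]
        _ = c * (t * z * t⁻¹) * c⁻¹ := by group
        _ = c * z⁻¹ * c⁻¹ := by rw [hz'.2]
        _ = (c * z * c⁻¹)⁻¹ := by group
  have hAbot : A = ⊥ := by
    by_contra hne
    obtain ⟨z, hzA, hz1, hzc⟩ := exists_central_of_normalized hP hAP hAnorm hne
    have hz' := (hA_mem z).mp hzA
    have hzZP : z ∈ (Subgroup.center P).map P.subtype :=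
      mem_map_center_subtype.mpr ⟨hAP hzA, hzc⟩
    have h1 : z * t = t * z := (Subgroup.mem_centralizer_iff.mp (hZ ht)) z hzZP
    have h2 : z = z⁻¹ := by
      have : t * z * t⁻¹ = z := by rw [← h1]; group
      rw [this] at hz'
      exact hz'.2
    have hz2 : z ^ 2 = 1 := by
      rw [pow_two]
      nth_rewrite 1 [h2]
      exact inv_mul_cancel z
    obtain ⟨k, hk⟩ := hP ⟨z, hAP hzA⟩
    have hk' : z ^ p ^ k = 1 := by
      have := congrArg Subtype.val hk
      simpa using this
    obtain ⟨m, hm⟩ := hodd.pow (n := k)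
    rw [hm, pow_succ, pow_mul, hz2, one_pow, one_mul] at hk'
    exact hz1 hk'
  -- now every element of Z(R) is fixed by t
  rw [Subgroup.mem_centralizer_iff]
  intro z hz
  have hzt : t * z * t⁻¹ ∈ (Subgroup.center R).map R.subtype := conj_mem_map_center htR hz
  have hw : z⁻¹ * (t * z * t⁻¹) ∈ A := by
    rw [hA_mem]
    refine ⟨Subgroup.mul_mem _ (Subgroup.inv_mem _ hz) hzt, ?_⟩
    have hcomm : (t * z * t⁻¹) * z = z * (t * z * t⁻¹) :=
      (mem_map_center_subtype.mp hz).2 _ (mem_map_center_subtype.mp hzt).1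
    have e1 : t * (z⁻¹ * (t * z * t⁻¹)) * t⁻¹ = (t * z * t⁻¹)⁻¹ * ((t * t) * z * (t * t)⁻¹) := by group
    rw [e1, ht2]
    have e2 : (z⁻¹ * (t * z * t⁻¹))⁻¹ = (t * z * t⁻¹)⁻¹ * z := by group
    rw [e2]
    simp
  rw [hAbot, Subgroup.mem_bot] at hw
  have h3 : t * z * t⁻¹ = z := by
    have := congrArg (z * ·) hw
    simpa using this
  calc z * t = (t * z * t⁻¹) * t := by rw [h3]
    _ = t * z := by group

end Cfsg.Agent.S3190
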