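import Cfsg.Statements.S3195
import Cfsg.Agent.Helper53.BaerSuzuki

set_option autoImplicit false
open Cfsg

namespace Cfsg.Agent.S3195

open Cfsg.Agent.Helper53

section aux

variable {G : Type*} [Group G]

theorem eq_one_of_odd_of_sq {u : G} (hu : Odd (orderOf u)) (h : u * u = 1) : u = 1 := by
  have h1 : orderOf u ∣ 2 := orderOf_dvd_of_pow_eq_one (by rw [pow_two]; exact h)
  have h2 : orderOf u = 1 := Nat.Coprime.eq_one_of_dvd hu.coprime_two_right h1
  exact orderOf_eq_one_iff.mp h2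

/-- An element inverted by an element of odd order equals its inverse. -/
theorem eq_inv_of_odd_conj {u v : G} (hv : Odd (orderOf v)) (h : v * u * v⁻¹ = u⁻¹) : u = u⁻¹ := by
  have hc : Commute (v * v) u := by
    have h1 : v * v * u * (v * v)⁻¹ = u := by
      calc v * v * u * (v * v)⁻¹ = v * (v * u * v⁻¹) * v⁻¹ := by group
        _ = v * u⁻¹ * v⁻¹ := by rw [h]
        _ = (v * u * v⁻¹)⁻¹ := by group
        _ = u := by rw [h, inv_inv]
    show v * v * u = u * (v * v)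
    calc v * v * u = (v * v * u * (v * v)⁻¹) * (v * v) := by group
      _ = u * (v * v) := by rw [h1]
  obtain ⟨k, hk⟩ := hv
  have hvk : (v * v) ^ (k + 1) = v := by
    rw [← pow_two, ← pow_mul]
    have : 2 * (k + 1) = orderOf v + 1 := by omega
    rw [this, pow_succ, pow_orderOf_eq_one, one_mul]
  have hc' : Commute v u := by
    have := hc.pow_left (k + 1)
    rwa [hvk] at this
  have h2 : v * u * v⁻¹ = u := by
    have h3 : v * u = u * v := hc'
    rw [h3]; group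
  rw [h2] at h
  exact h

/-- Square roots of odd-order elements, with inversion/centralization inherited. -/
theorem exists_sqrt_odd {u : G} (hu : Odd (orderOf u)) :
    ∃ u₁ : G, u₁ * u₁ = u ∧ (∀ x : G, x * u * x⁻¹ = u⁻¹ → x * u₁ * x⁻¹ = u₁⁻¹) ∧
      (∀ y : G, y * u * y⁻¹ = u → y * u₁ * y⁻¹ = u₁) := by
  obtain ⟨k, hk⟩ := hu
  refine ⟨u ^ (k + 1), ?_, ?_, ?_⟩
  · rw [← pow_add]
    have : k + 1 + (k + 1) = orderOf u + 1 := by omega
    rw [this, pow_succ, pow_orderOf_eq_one, one_mul]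
  · intro x hx
    rw [← conj_pow, hx, inv_pow]
  · intro y hy
    rw [← conj_pow, hy]

/-- First step: an odd-order element inverted by `x` is centralized or inverted by `y`. -/
theorem lemY (x y : G) (hx2 : x * x = 1) (hxy : x * y = y * x)
    (hH : ∀ g : G, x * (g * x * g⁻¹) = (g * x * g⁻¹) * x ∨ y * (g * x * g⁻¹) = (g * x * g⁻¹) * y ∨
      (x * y) * (g * x * g⁻¹) = (g * x * g⁻¹) * (x * y))
    (u : G) (hu : Odd (orderOf u)) (hinv : x * u * x⁻¹ = u⁻¹) (hu1 : u ≠ 1) :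
    y * u * y⁻¹ = u ∨ y * u * y⁻¹ = u⁻¹ := by
  have hxinv : x⁻¹ = x := inv_eq_of_mul_eq_one_left hx2
  obtain ⟨u₁, hu₁, hu₁x, -⟩ := exists_sqrt_odd hu
  have h1 := hu₁x x hinv
  have hg : u₁⁻¹ * x * u₁⁻¹⁻¹ = x * u := by
    have h2 : u₁⁻¹ * x = x * u₁ := by
      calc u₁⁻¹ * x = (x * u₁ * x⁻¹) * x := by rw [h1]
        _ = x * u₁ := by group
    rw [inv_inv, h2, mul_assoc, hu₁]
  have h3 := hH u₁⁻¹
  rw [hg] at h3
  rcases h3 with h3 | h3 | h3
  · exfalso
    apply hu1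
    apply eq_one_of_odd_of_sq hu
    have h4 : x * u = u * x := by
      have : x * (x * u) = x * (u * x) := by rw [h3]; group
      exact mul_left_cancel this
    have h5 : x * u * x⁻¹ = u := by rw [h4]; group
    rw [h5] at hinv
    calc u * u = u * u⁻¹ := by rw [← hinv]
      _ = 1 := mul_inv_cancel u
  · left
    have h4 : y * u = u * y := by
      have : x * (y * u) = x * (u * y) := by
        calc x * (y * u) = y * (x * u) := by rw [← mul_assoc, hxy, mul_assoc]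
          _ = x * u * y := h3
          _ = x * (u * y) := by group
      exact mul_left_cancel this
    rw [h4]; group
  · right
    have h4 : x * y * u = u * (x * y) := by
      have : x * (x * y * u) = x * (u * (x * y)) := by
        calc x * (x * y * u) = x * y * (x * u) := by
              have e : x * (x * y) = x * y * x := by rw [mul_assoc, hxy]
              calc x * (x * y * u) = x * (x * y) * u := by group
                _ = x * y * x * u := by rw [e]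
                _ = x * y * (x * u) := by group
          _ = x * u * (x * y) := h3
          _ = x * (u * (x * y)) := by group
      exact mul_left_cancel this
    calc y * u * y⁻¹ = x⁻¹ * (x * y * u) * y⁻¹ := by group
      _ = x⁻¹ * (u * (x * y)) * y⁻¹ := by rw [h4]
      _ = x⁻¹ * u * x := by group
      _ = x * u * x⁻¹ := by rw [hxinv]
      _ = u⁻¹ := hinv

/-- Second step: `x` inverts `u` and `v`, `y` centralizes `u` and inverts `v`: then `u = 1` or `v = 1`. -/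
theorem lemX (x y : G) (hx2 : x * x = 1) (hxy : x * y = y * x)
    (hH : ∀ g : G, x * (g * x * g⁻¹) = (g * x * g⁻¹) * x ∨ y * (g * x * g⁻¹) = (g * x * g⁻¹) * y ∨
      (x * y) * (g * x * g⁻¹) = (g * x * g⁻¹) * (x * y))
    (u v : G) (hu : Odd (orderOf u)) (hv : Odd (orderOf v))
    (hxu : x * u * x⁻¹ = u⁻¹) (hxv : x * v * x⁻¹ = v⁻¹) (hyu : y * u * y⁻¹ = u)
    (hyv : y * v * y⁻¹ = v⁻¹) : u = 1 ∨ v = 1 := by
  by_contra hcon
  push Not at hcon
  obtain ⟨hu1, hv1⟩ := hcon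
  have hxinv : x⁻¹ = x := inv_eq_of_mul_eq_one_left hx2
  obtain ⟨v₁, hv₁, hv₁x, -⟩ := exists_sqrt_odd hv
  have hxv₁ := hv₁x x hxv
  -- the key relation for any suitable u'
  have key : ∀ u' : G, Odd (orderOf u') → u' ≠ 1 → x * u' * x⁻¹ = u'⁻¹ → y * u' * y⁻¹ = u' →
      v * u' * v = u'⁻¹ := by
    intro u' hu' hu'1 hxu' hyu'
    obtain ⟨u₁, hu₁, hu₁x, hu₁y⟩ := exists_sqrt_odd hu'
    have hxu₁ := hu₁x x hxu'
    have hyu₁ := hu₁y y hyu'
    have e1 : v₁⁻¹ * x = x * v₁ := by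
      calc v₁⁻¹ * x = (x * v₁ * x⁻¹) * x := by rw [hxv₁]
        _ = x * v₁ := by group
    have e2 : u₁⁻¹ * x = x * u₁ := by
      calc u₁⁻¹ * x = (x * u₁ * x⁻¹) * x := by rw [hxu₁]
        _ = x * u₁ := by group
    have hg : (u₁⁻¹ * v₁⁻¹) * x * (u₁⁻¹ * v₁⁻¹)⁻¹ = x * (u₁ * v * u₁) := by
      calc (u₁⁻¹ * v₁⁻¹) * x * (u₁⁻¹ * v₁⁻¹)⁻¹ = u₁⁻¹ * (v₁⁻¹ * x) * v₁ * u₁ := by group
        _ = u₁⁻¹ * (x * v₁) * v₁ * u₁ := by rw [e1]
        _ = (u₁⁻¹ * x) * (v₁ * v₁) * u₁ := by group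
        _ = (x * u₁) * v * u₁ := by rw [e2, hv₁]
        _ = x * (u₁ * v * u₁) := by group
    have hxw : x * (u₁ * v * u₁) * x⁻¹ = (u₁ * v * u₁)⁻¹ := by
      calc x * (u₁ * v * u₁) * x⁻¹ = (x * u₁ * x⁻¹) * (x * v * x⁻¹) * (x * u₁ * x⁻¹) := by group
        _ = u₁⁻¹ * v⁻¹ * u₁⁻¹ := by rw [hxu₁, hxv]
        _ = (u₁ * v * u₁)⁻¹ := by group
    have hyw : y * (u₁ * v * u₁) * y⁻¹ = u₁ * v⁻¹ * u₁ := by
      calc y * (u₁ * v * u₁) * y⁻¹ = (y * u₁ * y⁻¹) * (y * v * y⁻¹) * (y * u₁ * y⁻¹) := by group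
        _ = u₁ * v⁻¹ * u₁ := by rw [hyu₁, hyv]
    have h3 := hH (u₁⁻¹ * v₁⁻¹)
    rw [hg] at h3
    rcases h3 with h3 | h3 | h3
    · -- x commutes with x w, so w = w⁻¹
      have h4 : x * (u₁ * v * u₁) = (u₁ * v * u₁) * x := by
        have : x * (x * (u₁ * v * u₁)) = x * ((u₁ * v * u₁) * x) := by rw [h3]; group
        exact mul_left_cancel this
      have h5 : x * (u₁ * v * u₁) * x⁻¹ = u₁ * v * u₁ := by rw [h4]; group
      rw [h5] at hxw
      -- w * w = 1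
      have h6 : (u₁ * v * u₁) * (u₁ * v * u₁) = 1 := by
        calc (u₁ * v * u₁) * (u₁ * v * u₁) = (u₁ * v * u₁) * (u₁ * v * u₁)⁻¹ := by rw [← hxw]
          _ = 1 := mul_inv_cancel _
      have h7 : u₁ * (v * u' * v) * u₁ = 1 := by
        rw [← hu₁]
        calc u₁ * (v * (u₁ * u₁) * v) * u₁ = (u₁ * v * u₁) * (u₁ * v * u₁) := by group
          _ = 1 := h6
      calc v * u' * v = u₁⁻¹ * (u₁ * (v * u' * v) * u₁) * u₁⁻¹ := by group
        _ = u₁⁻¹ * u₁⁻¹ := by rw [h7]; group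
        _ = (u₁ * u₁)⁻¹ := by group
        _ = u'⁻¹ := by rw [hu₁]
    · exfalso
      have h4 : y * (u₁ * v * u₁) = (u₁ * v * u₁) * y := by
        have : x * (y * (u₁ * v * u₁)) = x * ((u₁ * v * u₁) * y) := by
          calc x * (y * (u₁ * v * u₁)) = y * (x * (u₁ * v * u₁)) := by
                rw [← mul_assoc, hxy, mul_assoc]
            _ = x * (u₁ * v * u₁) * y := h3
            _ = x * ((u₁ * v * u₁) * y) := by group
        exact mul_left_cancel this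
      have h5 : y * (u₁ * v * u₁) * y⁻¹ = u₁ * v * u₁ := by rw [h4]; group
      rw [h5] at hyw
      have h6 : v = v⁻¹ := by
        calc v = u₁⁻¹ * (u₁ * v * u₁) * u₁⁻¹ := by group
          _ = u₁⁻¹ * (u₁ * v⁻¹ * u₁) * u₁⁻¹ := by rw [hyw]
          _ = v⁻¹ := by group
      apply hv1
      apply eq_one_of_odd_of_sq hv
      calc v * v = v * v⁻¹ := by rw [← h6]
        _ = 1 := mul_inv_cancel v
    · exfalso
      have h4 : x * y * (u₁ * v * u₁) = (u₁ * v * u₁) * (x * y) := by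
        have : x * (x * y * (u₁ * v * u₁)) = x * ((u₁ * v * u₁) * (x * y)) := by
          calc x * (x * y * (u₁ * v * u₁)) = x * y * (x * (u₁ * v * u₁)) := by
                have e : x * (x * y) = x * y * x := by rw [mul_assoc, hxy]
                calc x * (x * y * (u₁ * v * u₁)) = x * (x * y) * (u₁ * v * u₁) := by group
                  _ = x * y * x * (u₁ * v * u₁) := by rw [e]
                  _ = x * y * (x * (u₁ * v * u₁)) := by group
            _ = x * (u₁ * v * u₁) * (x * y) := h3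
            _ = x * ((u₁ * v * u₁) * (x * y)) := by group
        exact mul_left_cancel this
      have h5 : (x * y) * (u₁ * v * u₁) * (x * y)⁻¹ = u₁ * v * u₁ := by rw [h4]; group
      have h6 : (x * y) * (u₁ * v * u₁) * (x * y)⁻¹ = u₁⁻¹ * v * u₁⁻¹ := by
        calc (x * y) * (u₁ * v * u₁) * (x * y)⁻¹ = x * (y * (u₁ * v * u₁) * y⁻¹) * x⁻¹ := by group
          _ = x * (u₁ * v⁻¹ * u₁) * x⁻¹ := by rw [hyw]
          _ = (x * u₁ * x⁻¹) * (x * v * x⁻¹)⁻¹ * (x * u₁ * x⁻¹) := by group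
          _ = u₁⁻¹ * v * u₁⁻¹ := by rw [hxu₁, hxv, inv_inv]
      rw [h5] at h6
      -- v = u' v u'
      have h7 : v⁻¹ * u' * v⁻¹⁻¹ = u'⁻¹ := by
        rw [← hu₁]
        calc v⁻¹ * (u₁ * u₁) * v⁻¹⁻¹ = v⁻¹ * u₁ * (u₁ * v * u₁) * u₁⁻¹ := by group
          _ = v⁻¹ * u₁ * (u₁⁻¹ * v * u₁⁻¹) * u₁⁻¹ := by rw [h6]
          _ = (u₁ * u₁)⁻¹ := by group
      have h8 : u' = u'⁻¹ := eq_inv_of_odd_conj (by rw [orderOf_inv]; exact hv) h7
      apply hu'1
      apply eq_one_of_odd_of_sq hu'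
      calc u' * u' = u' * u'⁻¹ := by rw [← h8]
        _ = 1 := mul_inv_cancel u'
  have k1 := key u hu hu1 hxu hyu
  have huu1 : u * u ≠ 1 := fun h => hu1 (eq_one_of_odd_of_sq hu h)
  have huu : Odd (orderOf (u * u)) := by
    rw [← pow_two]
    exact hu.of_dvd_nat (orderOf_pow_dvd 2)
  have k2 := key (u * u) huu huu1
    (by calc x * (u * u) * x⁻¹ = (x * u * x⁻¹) * (x * u * x⁻¹) := by group
          _ = (u * u)⁻¹ := by rw [hxu]; group)
    (by calc y * (u * u) * y⁻¹ = (y * u * y⁻¹) * (y * u * y⁻¹) := by group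
          _ = u * u := by rw [hyu])
  apply hv1
  apply eq_one_of_odd_of_sq hv
  have h9 : v * (u * u) * v = u⁻¹ * (v⁻¹ * v⁻¹) * u⁻¹ := by
    calc v * (u * u) * v = (v * u * v) * (v⁻¹ * v⁻¹) * (v * u * v) := by group
      _ = u⁻¹ * (v⁻¹ * v⁻¹) * u⁻¹ := by rw [k1]
  rw [k2] at h9
  have h10 : v⁻¹ * v⁻¹ = 1 := by
    calc v⁻¹ * v⁻¹ = u * (u⁻¹ * (v⁻¹ * v⁻¹) * u⁻¹) * u := by group
      _ = u * (u * u)⁻¹ * u := by rw [← h9]
      _ = 1 := by group
  calc v * v = (v⁻¹ * v⁻¹)⁻¹ := by rw [mul_inv_rev, inv_inv]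
    _ = 1 := by rw [h10, inv_one]

end aux


/-- Let A be a Klein four-subgroup of a finite group G. If every G-conjugate of every involution of A commutes with some involution of A (its centralizer meets A nontrivially), then A meets the largest normal 2-subgroup O₂(G) nontrivially. -/
theorem result {G : Type*} [Group G] [Finite G]
    (A : Subgroup G) (hA : IsKleinFour ↥A)
    (h : ∀ a ∈ A, a ≠ 1 → ∀ g : G, A ⊓ Subgroup.centralizer ({g * a * g⁻¹} : Set G) ≠ ⊥) :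
    A ⊓ Cfsg.pCore 2 G ≠ ⊥ := by
  classical
  -- basic facts on the four-group A
  have hsq : ∀ a ∈ A, a * a = 1 := by
    intro a ha
    have := IsKleinFour.mul_self (⟨a, ha⟩ : ↥A)
    exact congrArg Subtype.val this
  have hcomm : ∀ a ∈ A, ∀ b ∈ A, a * b = b * a := by
    intro a ha b hb
    have hc := IsKleinFour.isMulCommutative (G := ↥A)
    have := mul_comm' (⟨a, ha⟩ : ↥A) ⟨b, hb⟩
    exact congrArg Subtype.val this
  have hthree : ∀ x ∈ A, ∀ y ∈ A, ∀ z ∈ A, x ≠ 1 → y ≠ 1 → x ≠ y → z ≠ 1 →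
      z = x ∨ z = y ∨ z = x * y := by
    intro x hx y hy z hz hx1 hy1 hxy hz1
    by_cases hzx : z = x
    · exact Or.inl hzx
    · by_cases hzy : z = y
      · exact Or.inr (Or.inl hzy)
      · right; right
        have := IsKleinFour.eq_mul_of_ne_all (G := ↥A) (x := ⟨x, hx⟩) (y := ⟨y, hy⟩) (z := ⟨z, hz⟩)
          (fun h => hx1 (congrArg Subtype.val h)) (fun h => hy1 (congrArg Subtype.val h))
          (fun h => hxy (congrArg Subtype.val h)) (fun h => hz1 (congrArg Subtype.val h))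
          (fun h => hzx (congrArg Subtype.val h)) (fun h => hzy (congrArg Subtype.val h))
        exact congrArg Subtype.val this
  -- two distinct non-identity elements
  have hex : ∃ p ∈ A, ∃ q ∈ A, p ≠ 1 ∧ q ≠ 1 ∧ p ≠ q := by
    have hfin : Finite ↥A := inferInstance
    let _ : Fintype ↥A := Fintype.ofFinite ↥A
    have hcard : 2 < Fintype.card ↥A := by
      rw [← Nat.card_eq_fintype_card, IsKleinFour.card_four]; norm_num
    obtain ⟨p, q, r, hpq, hpr, hqr⟩ := Fintype.two_lt_card_iff.mp hcard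
    have hne : ∀ s t : ↥A, s ≠ t → (s : G) ≠ (t : G) := fun s t hst h => hst (Subtype.ext h)
    by_cases hp : p = 1
    · refine ⟨q, q.2, r, r.2, ?_, ?_, hne q r hqr⟩
      · intro h; exact hpq (hp.trans (Subtype.ext h).symm)
      · intro h; exact hpr (hp.trans (Subtype.ext h).symm)
    · by_cases hq : q = 1
      · refine ⟨p, p.2, r, r.2, fun h => hp (Subtype.ext h), ?_, hne p r hpr⟩
        intro h; exact hqr (hq.trans (Subtype.ext h).symm)
      · exact ⟨p, p.2, q, q.2, fun h => hp (Subtype.ext h), fun h => hq (Subtype.ext h), hne p q hpq⟩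
  -- the hypothesis, for an ordered pair of distinct involutions of A
  have hH : ∀ x ∈ A, ∀ y ∈ A, x ≠ 1 → y ≠ 1 → x ≠ y → ∀ g : G,
      x * (g * x * g⁻¹) = (g * x * g⁻¹) * x ∨ y * (g * x * g⁻¹) = (g * x * g⁻¹) * y ∨
      (x * y) * (g * x * g⁻¹) = (g * x * g⁻¹) * (x * y) := by
    intro x hx y hy hx1 hy1 hxy g
    have h1 := h x hx hx1 g
    rw [Ne, Subgroup.eq_bot_iff_forall] at h1
    push Not at h1
    obtain ⟨t, ht, ht1⟩ := h1
    obtain ⟨htA, htC⟩ := Subgroup.mem_inf.mp ht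
    have hcomm' : t * (g * x * g⁻¹) = (g * x * g⁻¹) * t :=
      (Subgroup.mem_centralizer_iff.mp htC (g * x * g⁻¹) rfl).symm
    rcases hthree x hx y hy t htA hx1 hy1 hxy ht1 with rfl | rfl | rfl
    · exact Or.inl hcomm'
    · exact Or.inr (Or.inl hcomm')
    · exact Or.inr (Or.inr hcomm')
  -- some involution of A inverts no nontrivial element of odd order
  have hk : ∃ k ∈ A, k ≠ 1 ∧ ∀ u : G, Odd (orderOf u) → k * u * k⁻¹ = u⁻¹ → u = 1 := by
    obtain ⟨p, hp, q, hq, hp1, hq1, hpq⟩ := hex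
    by_cases h0 : ∃ x ∈ A, x ≠ 1 ∧ ∃ u : G, Odd (orderOf u) ∧ u ≠ 1 ∧ x * u * x⁻¹ = u⁻¹
    · obtain ⟨x₀, hx₀, hx₀1, u₀, hu₀, hu₀1, hx₀u⟩ := h0
      -- an involution y ≠ x₀
      obtain ⟨y, hy, hy1, hyx⟩ : ∃ y ∈ A, y ≠ 1 ∧ x₀ ≠ y := by
        by_cases hpx : x₀ = p
        · exact ⟨q, hq, hq1, hpx ▸ hpq⟩
        · exact ⟨p, hp, hp1, hpx⟩
      have hx₀inv : x₀⁻¹ = x₀ := inv_eq_of_mul_eq_one_left (hsq x₀ hx₀)
      -- the involution centralizing u₀
      obtain ⟨k, hkA, hk1, hkx, hku⟩ : ∃ k ∈ A, k ≠ 1 ∧ k ≠ x₀ ∧ k * u₀ * k⁻¹ = u₀ := by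
        rcases lemY x₀ y (hsq x₀ hx₀) (hcomm x₀ hx₀ y hy) (hH x₀ hx₀ y hy hx₀1 hy1 hyx) u₀ hu₀ hx₀u
          hu₀1 with h1 | h1
        · exact ⟨y, hy, hy1, fun h => hyx h.symm, h1⟩
        · refine ⟨x₀ * y, A.mul_mem hx₀ hy, ?_, ?_, ?_⟩
          · intro h2
            apply hyx
            have h3 : y = x₀⁻¹ := (inv_eq_of_mul_eq_one_right h2).symm
            rw [h3, hx₀inv]
          · intro h2
            exact hy1 (mul_eq_left.mp h2)
          · calc x₀ * y * u₀ * (x₀ * y)⁻¹ = x₀ * (y * u₀ * y⁻¹) * x₀⁻¹ := by group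
              _ = x₀ * u₀⁻¹ * x₀⁻¹ := by rw [h1]
              _ = (x₀ * u₀ * x₀⁻¹)⁻¹ := by group
              _ = u₀ := by rw [hx₀u, inv_inv]
      refine ⟨k, hkA, hk1, ?_⟩
      intro v hv hkv
      by_contra hv1
      have hkinv : k⁻¹ = k := inv_eq_of_mul_eq_one_left (hsq k hkA)
      rcases lemY k x₀ (hsq k hkA) (hcomm k hkA x₀ hx₀) (hH k hkA x₀ hx₀ hk1 hx₀1 hkx) v hv hkv hv1
        with h1 | h1
      · -- x₀ centralizes v: use z = x₀ * k
        have hz1 : x₀ * k ≠ 1 := by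
          intro h2
          apply hkx
          have h3 : k = x₀⁻¹ := (inv_eq_of_mul_eq_one_right h2).symm
          rw [h3, hx₀inv]
        have hzk : x₀ * k ≠ k := fun h2 => hx₀1 (mul_eq_right.mp h2)
        have hzA : x₀ * k ∈ A := A.mul_mem hx₀ hkA
        have hzu : x₀ * k * u₀ * (x₀ * k)⁻¹ = u₀⁻¹ := by
          calc x₀ * k * u₀ * (x₀ * k)⁻¹ = x₀ * (k * u₀ * k⁻¹) * x₀⁻¹ := by group
            _ = u₀⁻¹ := by rw [hku, hx₀u]
        have hzv : x₀ * k * v * (x₀ * k)⁻¹ = v⁻¹ := by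
          calc x₀ * k * v * (x₀ * k)⁻¹ = x₀ * (k * v * k⁻¹) * x₀⁻¹ := by group
            _ = x₀ * v⁻¹ * x₀⁻¹ := by rw [hkv]
            _ = (x₀ * v * x₀⁻¹)⁻¹ := by group
            _ = v⁻¹ := by rw [h1]
        rcases lemX (x₀ * k) k (hsq _ hzA) (hcomm _ hzA k hkA) (hH _ hzA k hkA hz1 hk1 hzk) u₀ v hu₀ hv
          hzu hzv hku hkv with h2 | h2
        · exact hu₀1 h2
        · exact hv1 h2
      · rcases lemX x₀ k (hsq x₀ hx₀) (hcomm x₀ hx₀ k hkA) (hH x₀ hx₀ k hkA hx₀1 hk1 (fun h => hkx h.symm))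
          u₀ v hu₀ hv hx₀u h1 hku hkv with h2 | h2
        · exact hu₀1 h2
        · exact hv1 h2
    · refine ⟨p, hp, hp1, ?_⟩
      intro u hu hpu
      by_contra hu1
      exact h0 ⟨p, hp, hp1, u, hu, hu1, hpu⟩
  obtain ⟨k, hkA, hk1, hkinv⟩ := hk
  obtain ⟨N, hN, hN2, hkN⟩ := baer_suzuki_two_of_inverts k (hsq k hkA) hkinv
  have hNle : N ≤ Cfsg.pCore 2 G := le_sSup ⟨hN, hN2⟩
  intro hbot
  have hmem : k ∈ A ⊓ Cfsg.pCore 2 G := Subgroup.mem_inf.mpr ⟨hkA, hNle hkN⟩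
  rw [hbot, Subgroup.mem_bot] at hmem
  exact hk1 hmem

end Cfsg.Agent.S3195
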