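import Cfsg.Statements.S3196

set_option autoImplicit false
open Cfsg

namespace Cfsg.Agent.S3196

section aux

variable {G : Type*} [Group G]

/-- For commuting `x, y`, every element of `⟨x⟩ ⊔ ⟨y⟩` is `x ^ a * y ^ b`. -/
theorem mem_sup_zpowers_of_commute {x y g : G} (h : Commute x y)
    (hg : g ∈ Subgroup.zpowers x ⊔ Subgroup.zpowers y) : ∃ a b : ℤ, x ^ a * y ^ b = g := by
  let S : Subgroup G :=
    { carrier := {g | ∃ a b : ℤ, x ^ a * y ^ b = g}
      one_mem' := ⟨0, 0, by simp⟩
      mul_mem' := by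
        rintro _ _ ⟨a, b, rfl⟩ ⟨c, d, rfl⟩
        refine ⟨a + c, b + d, ?_⟩
        have h1 : y ^ b * x ^ c = x ^ c * y ^ b := ((h.zpow_zpow c b).eq).symm
        calc x ^ (a + c) * y ^ (b + d) = x ^ a * (x ^ c * y ^ b) * y ^ d := by
              rw [zpow_add, zpow_add]; group
          _ = x ^ a * (y ^ b * x ^ c) * y ^ d := by rw [h1]
          _ = x ^ a * y ^ b * (x ^ c * y ^ d) := by group
      inv_mem' := by
        rintro _ ⟨a, b, rfl⟩
        refine ⟨-a, -b, ?_⟩
        have h1 : x ^ (-a) * y ^ (-b) = y ^ (-b) * x ^ (-a) := (h.zpow_zpow (-a) (-b)).eq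
        rw [h1, mul_inv_rev, zpow_neg, zpow_neg] }
  have hle : Subgroup.zpowers x ⊔ Subgroup.zpowers y ≤ S := by
    refine sup_le ?_ ?_
    · rw [Subgroup.zpowers_le]; exact ⟨1, 0, by simp⟩
    · rw [Subgroup.zpowers_le]; exact ⟨0, 1, by simp⟩
  exact hle hg

/-- An element of order dividing the prime `p`, not `1`, has order `p`. -/
theorem orderOf_eq_of_pow_eq_one {p : ℕ} (hp : p.Prime) {x : G} (hx1 : x ≠ 1) (hxp : x ^ p = 1) :
    orderOf x = p := by
  rcases (Nat.dvd_prime hp).mp (orderOf_dvd_of_pow_eq_one hxp) with h | h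
  · exact absurd (orderOf_eq_one_iff.mp h) hx1
  · exact h

/-- A subgroup of prime order is generated by an element of order `p`. -/
theorem exists_gen [Finite G] {p : ℕ} (hp : p.Prime) (X : Subgroup G) (hX : Nat.card X = p) :
    ∃ x, X = Subgroup.zpowers x ∧ orderOf x = p := by
  have hne : X ≠ ⊥ := by
    intro h
    rw [h, Subgroup.card_bot] at hX
    exact hp.one_lt.ne hX
  obtain ⟨x, hxX, hx1⟩ := X.bot_or_exists_ne_one.resolve_left hne
  have hord : orderOf x = p := by
    have h1 : orderOf x ∣ p := hX ▸ Subgroup.orderOf_dvd_natCard X hxX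
    rcases (Nat.dvd_prime hp).mp h1 with h | h
    · exact absurd (orderOf_eq_one_iff.mp h) hx1
    · exact h
  refine ⟨x, ?_, hord⟩
  symm
  apply Subgroup.eq_of_le_of_card_ge
  · rw [Subgroup.zpowers_le]; exact hxX
  · rw [Nat.card_zpowers, hord, hX]

/-- In a cyclic group of prime order every nontrivial power generates. -/
theorem exists_zpow_eq_self {p : ℕ} (hp : p.Prime) {x : G} (hx : orderOf x = p) {a : ℤ}
    (ha : x ^ a ≠ 1) : ∃ c : ℤ, (x ^ a) ^ c = x := by
  have h1 : orderOf (x ^ a) ∣ p := hx ▸ orderOf_dvd_of_mem_zpowers (Subgroup.zpow_mem_zpowers x a)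
  have h2 : orderOf (x ^ a) = p := by
    rcases (Nat.dvd_prime hp).mp h1 with h | h
    · exact absurd (orderOf_eq_one_iff.mp h) ha
    · exact h
  have hfin : Finite (Subgroup.zpowers x) := by
    apply Nat.finite_of_card_ne_zero
    rw [Nat.card_zpowers, hx]
    exact hp.ne_zero
  have h3 : Subgroup.zpowers (x ^ a) = Subgroup.zpowers x := by
    apply Subgroup.eq_of_le_of_card_ge
    · rw [Subgroup.zpowers_le]; exact Subgroup.zpow_mem_zpowers x a
    · rw [Nat.card_zpowers, Nat.card_zpowers, hx, h2]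
  have h4 : x ∈ Subgroup.zpowers (x ^ a) := h3 ▸ Subgroup.mem_zpowers x
  exact Subgroup.mem_zpowers_iff.mp h4

/-- If a nontrivial power of an element of prime order commutes with `w`, so does the element. -/
theorem commute_of_zpow {p : ℕ} (hp : p.Prime) {x w : G} (hx : orderOf x = p) {a : ℤ}
    (ha : x ^ a ≠ 1) (h : Commute (x ^ a) w) : Commute x w := by
  obtain ⟨c, hc⟩ := exists_zpow_eq_self hp hx ha
  rw [← hc]
  exact h.zpow_left c

/-- Conjugation identity in a class-two situation. -/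
theorem conj_identity {x w c e f : G} (H : w⁻¹ * x * w = x * c) (hew : Commute e w)
    (hfx : Commute f x) (hfc : Commute f c) (hfe : Commute f e) (hce : Commute c e) :
    (w * f)⁻¹ * (x * e) * (w * f) = (x * e) * c := by
  have h1 : e * w = w * e := hew.eq
  have h2 : Commute f (x * c * e) := (hfx.mul_right hfc).mul_right hfe
  calc (w * f)⁻¹ * (x * e) * (w * f) = f⁻¹ * (w⁻¹ * x * (e * w)) * f := by group
    _ = f⁻¹ * (w⁻¹ * x * (w * e)) * f := by rw [h1]
    _ = f⁻¹ * ((w⁻¹ * x * w) * e) * f := by group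
    _ = f⁻¹ * ((x * c * e) * f) := by rw [H]; group
    _ = f⁻¹ * (f * (x * c * e)) := by rw [h2.eq]
    _ = x * (c * e) := by group
    _ = x * (e * c) := by rw [hce.eq]
    _ = (x * e) * c := by group

end aux


/-- Let p be a prime and K a set of subgroups of order p of a finite group G, closed under conjugation, such that at least two distinct members of K commute elementwise, and whenever two distinct members X, Y of K commute: every subgroup of order p of the group XY they generate belongs to K, and every member W of K has centralizer meeting XY nontrivially. Then some member V of K commutes elementwise with every member of K and lies in O_p(G); in particular G is not simple. -/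
theorem result {G : Type*} [Group G] [Finite G]
    {p : ℕ} (hp : p.Prime) (K : Set (Subgroup G)) (hK : ∀ X ∈ K, Nat.card ↥X = p)
    (hKc : ∀ X ∈ K, ∀ g : G, X.map (MulAut.conj g).toMonoidHom ∈ K)
    (hex : ∃ X ∈ K, ∃ Y ∈ K, X ≠ Y ∧ ∀ x ∈ X, ∀ y ∈ Y, x * y = y * x)
    (ha : ∀ X ∈ K, ∀ Y ∈ K, X ≠ Y → (∀ x ∈ X, ∀ y ∈ Y, x * y = y * x) →
      ∀ Z : Subgroup G, Z ≤ X ⊔ Y → Nat.card ↥Z = p → Z ∈ K)
    (hb : ∀ X ∈ K, ∀ Y ∈ K, X ≠ Y → (∀ x ∈ X, ∀ y ∈ Y, x * y = y * x) →
      ∀ W ∈ K, (X ⊔ Y) ⊓ Subgroup.centralizer (W : Set G) ≠ ⊥) :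
    (∃ V ∈ K, (∀ W ∈ K, ∀ v ∈ V, ∀ w ∈ W, v * w = w * v) ∧ V ≤ Cfsg.pCore p G) ∧ ¬ IsSimpleGroup G := by
  classical
  -- element-level reformulation
  have hord : ∀ x : G, Subgroup.zpowers x ∈ K → orderOf x = p := by
    intro x hx
    have := hK _ hx
    rwa [Nat.card_zpowers] at this
  have hne1 : ∀ x : G, Subgroup.zpowers x ∈ K → x ≠ 1 := by
    intro x hx h
    have := hord x hx
    rw [h, orderOf_one] at this
    exact hp.one_lt.ne this
  have E1 : ∀ (x g : G), Subgroup.zpowers x ∈ K → Subgroup.zpowers (g * x * g⁻¹) ∈ K := by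
    intro x g hx
    have := hKc _ hx g
    rw [MonoidHom.map_zpowers] at this
    simpa [MulAut.conj_apply] using this
  have hcomm_gen : ∀ x y : G, Commute x y →
      ∀ a ∈ Subgroup.zpowers x, ∀ b ∈ Subgroup.zpowers y, a * b = b * a := by
    intro x y h a ha b hb
    obtain ⟨i, rfl⟩ := Subgroup.mem_zpowers_iff.mp ha
    obtain ⟨j, rfl⟩ := Subgroup.mem_zpowers_iff.mp hb
    exact (h.zpow_zpow i j).eq
  -- distinctness from a separating element
  have hsep : ∀ x y t : G, Commute x t → ¬ Commute y t → Subgroup.zpowers x ≠ Subgroup.zpowers y := by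
    intro x y t hxt hyt heq
    have hy : y ∈ Subgroup.zpowers x := heq ▸ Subgroup.mem_zpowers y
    obtain ⟨i, rfl⟩ := Subgroup.mem_zpowers_iff.mp hy
    exact hyt (hxt.zpow_left i)
  have E2 : ∀ x y : G, Subgroup.zpowers x ∈ K → Subgroup.zpowers y ∈ K → Commute x y →
      Subgroup.zpowers x ≠ Subgroup.zpowers y → ∀ a b : ℤ, x ^ a * y ^ b ≠ 1 →
      Subgroup.zpowers (x ^ a * y ^ b) ∈ K := by
    intro x y hx hy hxy hne a b hg
    refine ha _ hx _ hy hne (hcomm_gen x y hxy) _ ?_ ?_
    · rw [Subgroup.zpowers_le]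
      exact Subgroup.mul_mem _ (Subgroup.mem_sup_left (Subgroup.zpow_mem_zpowers x a))
        (Subgroup.mem_sup_right (Subgroup.zpow_mem_zpowers y b))
    · rw [Nat.card_zpowers]
      apply orderOf_eq_of_pow_eq_one hp hg
      have hxp : x ^ p = 1 := by rw [← hord x hx]; exact pow_orderOf_eq_one x
      have hyp : y ^ p = 1 := by rw [← hord y hy]; exact pow_orderOf_eq_one y
      rw [(hxy.zpow_zpow a b).mul_pow, ← zpow_natCast, ← zpow_natCast, ← zpow_mul, ← zpow_mul,
        mul_comm a, mul_comm b, zpow_mul, zpow_mul, zpow_natCast, zpow_natCast, hxp, hyp]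
      simp
  have E3 : ∀ x y w : G, Subgroup.zpowers x ∈ K → Subgroup.zpowers y ∈ K → Commute x y →
      Subgroup.zpowers x ≠ Subgroup.zpowers y → Subgroup.zpowers w ∈ K →
      ∃ a b : ℤ, x ^ a * y ^ b ≠ 1 ∧ Commute (x ^ a * y ^ b) w := by
    intro x y w hx hy hxy hne hw
    have h1 := hb _ hx _ hy hne (hcomm_gen x y hxy) _ hw
    obtain ⟨g, hg, hg1⟩ := (Subgroup.bot_or_exists_ne_one _).resolve_left h1
    obtain ⟨a, b, rfl⟩ := mem_sup_zpowers_of_commute hxy hg.1
    refine ⟨a, b, hg1, ?_⟩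
    have := (Subgroup.mem_centralizer_iff.mp hg.2) w (Subgroup.mem_zpowers w)
    exact this.symm
  -- existence of a universal element
  have huniv : ∃ c : G, Subgroup.zpowers c ∈ K ∧ ∀ t : G, Subgroup.zpowers t ∈ K → Commute c t := by
    by_contra hno
    push Not at hno
    obtain ⟨X0, hX0, Y0, hY0, hXY, hXYc⟩ := hex
    obtain ⟨z, rfl, hzo⟩ := exists_gen hp X0 (hK _ hX0)
    obtain ⟨y0, rfl, hy0o⟩ := exists_gen hp Y0 (hK _ hY0)
    have hzy0 : Commute z y0 := hXYc z (Subgroup.mem_zpowers z) y0 (Subgroup.mem_zpowers y0)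
    -- step 1: s not commuting with z
    obtain ⟨s, hs, hzs⟩ := hno z hX0
    have hso := hord s hs
    -- step 2: x on the line through z, commuting with s
    obtain ⟨a, b, hx1, hxs⟩ := E3 z y0 s hX0 hY0 hzy0 hXY hs
    set x := z ^ a * y0 ^ b with hxdef
    have hx : Subgroup.zpowers x ∈ K := E2 z y0 hX0 hY0 hzy0 hXY a b hx1
    have hxo := hord x hx
    have hxz : Commute x z := by
      rw [hxdef]
      exact ((Commute.refl z).zpow_left a).mul_left ((hzy0.symm).zpow_left b)
    have hzs' : ¬ Commute s z := fun h => hzs h.symm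
    have hxz_ne : Subgroup.zpowers x ≠ Subgroup.zpowers z := hsep x z s hxs hzs
    -- step 3: w not commuting with x
    obtain ⟨w, hw, hxw⟩ := hno x hx
    have hwo := hord w hw
    -- step 4: z' on the line x z commuting with w
    obtain ⟨a1, b1, hz'1, hz'w⟩ := E3 x z w hx hX0 hxz hxz_ne hw
    set z' := x ^ a1 * z ^ b1 with hz'def
    have hz' : Subgroup.zpowers z' ∈ K := E2 x z hx hX0 hxz hxz_ne a1 b1 hz'1
    have hz'o := hord z' hz'
    have hz'x : Commute z' x := by
      rw [hz'def]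
      exact ((Commute.refl x).zpow_left a1).mul_left ((hxz.symm).zpow_left b1)
    have hz'z : Commute z' z := by
      rw [hz'def]
      exact (hxz.zpow_left a1).mul_left ((Commute.refl z).zpow_left b1)
    have hzb1 : z ^ b1 ≠ 1 := by
      intro h
      rw [hz'def, h, mul_one] at hz'w
      have h1 : x ^ a1 ≠ 1 := by
        intro h2
        apply hz'1
        rw [hz'def, h, h2, mul_one]
      exact hxw (commute_of_zpow hp hxo h1 hz'w)
    have hz's : ¬ Commute z' s := by
      intro h
      have h1 : Commute (z ^ b1) s := by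
        have h2 : z ^ b1 = (x ^ a1)⁻¹ * z' := by rw [hz'def]; group
        rw [h2]
        exact ((hxs.zpow_left a1).inv_left).mul_left h
      exact hzs (commute_of_zpow hp hzo hzb1 h1)
    -- step 5: s' on the line x s commuting with w
    have hxs_ne : Subgroup.zpowers x ≠ Subgroup.zpowers s := hsep x s z hxz hzs'
    obtain ⟨a2, b2, hs'1, hs'w⟩ := E3 x s w hx hs hxs hxs_ne hw
    set s' := x ^ a2 * s ^ b2 with hs'def
    have hs' : Subgroup.zpowers s' ∈ K := E2 x s hx hs hxs hxs_ne a2 b2 hs'1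
    have hs'o := hord s' hs'
    have hs'x : Commute s' x := by
      rw [hs'def]
      exact ((Commute.refl x).zpow_left a2).mul_left ((hxs.symm).zpow_left b2)
    have hsb2 : s ^ b2 ≠ 1 := by
      intro h
      rw [hs'def, h, mul_one] at hs'w
      have h1 : x ^ a2 ≠ 1 := by
        intro h2
        apply hs'1
        rw [hs'def, h, h2, mul_one]
      exact hxw (commute_of_zpow hp hxo h1 hs'w)
    have hs'z' : ¬ Commute s' z' := by
      intro h
      have h1 : Commute (s ^ b2) z' := by
        have h2 : s ^ b2 = (x ^ a2)⁻¹ * s' := by rw [hs'def]; group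
        rw [h2]
        exact (((hz'x.symm).zpow_left a2).inv_left).mul_left h
      exact hz's (commute_of_zpow hp hso hsb2 h1).symm
    -- step 6: the point w * s'
    have hws' : Commute w s' := hs'w.symm
    have hws'_ne : Subgroup.zpowers w ≠ Subgroup.zpowers s' :=
      (hsep s' w x hs'x (fun h => hxw h.symm)).symm
    have hq1 : w ^ (1 : ℤ) * s' ^ (1 : ℤ) ≠ 1 := by
      rw [zpow_one, zpow_one]
      intro h
      have h1 : w = s'⁻¹ := eq_inv_of_mul_eq_one_left h
      apply hxw
      rw [h1]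
      exact (hs'x.symm).inv_right
    have hq : Subgroup.zpowers (w * s') ∈ K := by
      have := E2 w s' hw hs' hws' hws'_ne 1 1 hq1
      simpa using this
    -- step 7: the line x z' and the point w * s'
    have hxz' : Commute x z' := hz'x.symm
    have hxz'_ne : Subgroup.zpowers x ≠ Subgroup.zpowers z' :=
      (hsep z' x w hz'w hxw).symm
    obtain ⟨a3, b3, hg1, hgq⟩ := E3 x z' (w * s') hx hz' hxz' hxz'_ne hq
    have hxs' : Commute x s' := hs'x.symm
    -- the commutator equation
    have hkey : (x ^ a3)⁻¹ * w⁻¹ * x ^ a3 * w = s' * z' ^ b3 * s'⁻¹ * (z' ^ b3)⁻¹ := by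
      have h1 : x ^ a3 * z' ^ b3 * (w * s') = w * s' * (x ^ a3 * z' ^ b3) := hgq.eq
      have h2 : z' ^ b3 * w = w * z' ^ b3 := (hz'w.zpow_left b3).eq
      have h3 : s' * x ^ a3 = x ^ a3 * s' := ((hxs'.zpow_left a3).eq).symm
      have h4 : x ^ a3 * w * (z' ^ b3 * s') = w * x ^ a3 * (s' * z' ^ b3) := by
        calc x ^ a3 * w * (z' ^ b3 * s') = x ^ a3 * (w * z' ^ b3) * s' := by group
          _ = x ^ a3 * (z' ^ b3 * w) * s' := by rw [h2]
          _ = x ^ a3 * z' ^ b3 * (w * s') := by group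
          _ = w * s' * (x ^ a3 * z' ^ b3) := h1
          _ = w * (s' * x ^ a3) * z' ^ b3 := by group
          _ = w * (x ^ a3 * s') * z' ^ b3 := by rw [h3]
          _ = w * x ^ a3 * (s' * z' ^ b3) := by group
      calc (x ^ a3)⁻¹ * w⁻¹ * x ^ a3 * w
          = (w * x ^ a3)⁻¹ * (x ^ a3 * w * (z' ^ b3 * s')) * (z' ^ b3 * s')⁻¹ := by group
        _ = (w * x ^ a3)⁻¹ * (w * x ^ a3 * (s' * z' ^ b3)) * (z' ^ b3 * s')⁻¹ := by rw [h4]
        _ = s' * z' ^ b3 * s'⁻¹ * (z' ^ b3)⁻¹ := by group
    set c := (x ^ a3)⁻¹ * w⁻¹ * x ^ a3 * w with hcdef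
    -- c commutes with x and w
    have hcx : Commute c x := by
      rw [hkey]
      exact ((hs'x.mul_left (hz'x.zpow_left b3)).mul_left hs'x.inv_left).mul_left
        ((hz'x.zpow_left b3).inv_left)
    have hcw : Commute c w := by
      rw [hkey]
      exact ((hs'w.mul_left (hz'w.zpow_left b3)).mul_left hs'w.inv_left).mul_left
        ((hz'w.zpow_left b3).inv_left)
    have hxa3 : x ^ a3 ≠ 1 := by
      intro h
      have hc1 : c = 1 := by rw [hcdef, h]; group
      rw [hc1] at hkey
      have h1 : z' ^ b3 ≠ 1 := by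
        intro h2
        apply hg1
        rw [h, h2, mul_one]
      have h2 : Commute s' (z' ^ b3) := by
        have h3 : s' * z' ^ b3 = z' ^ b3 * s' := by
          have := congrArg (fun t => t * z' ^ b3 * s') hkey
          simpa [mul_assoc] using this.symm
        exact h3
      exact hs'z' (commute_of_zpow hp hz'o h1 h2.symm).symm
    set x1 := x ^ a3 with hx1def
    have hx1 : Subgroup.zpowers x1 ∈ K := by
      obtain ⟨m, hm⟩ := exists_zpow_eq_self hp hxo hxa3
      have h1 : Subgroup.zpowers x1 = Subgroup.zpowers x := by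
        apply le_antisymm
        · rw [Subgroup.zpowers_le]; exact Subgroup.zpow_mem_zpowers x a3
        · rw [Subgroup.zpowers_le, ← hm]; exact Subgroup.zpow_mem_zpowers x1 m
      rw [h1]; exact hx
    have hx1o := hord x1 hx1
    have hx1w : ¬ Commute x1 w := fun h => hxw (commute_of_zpow hp hxo hxa3 h)
    have hcx1 : Commute c x1 := hcx.zpow_right a3
    have hc1 : c ≠ 1 := by
      intro h
      apply hx1w
      have h1 : x1⁻¹ * w⁻¹ * x1 * w = 1 := by rw [← hcdef]; exact h
      have h2 : x1 * w = w * x1 := by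
        have := congrArg (fun t => w * x1 * t) h1
        simpa [mul_assoc] using this
      exact h2
    have hH : w⁻¹ * x1 * w = x1 * c := by rw [hcdef]; group
    -- step 8: ⟨c⟩ ∈ K
    have hy : Subgroup.zpowers (x1 * c) ∈ K := by
      have := E1 x1 w⁻¹ hx1
      rw [inv_inv, hH] at this
      exact this
    have hx1y : Commute x1 (x1 * c) := (Commute.refl x1).mul_right hcx1.symm
    have hx1y_ne : Subgroup.zpowers x1 ≠ Subgroup.zpowers (x1 * c) := by
      intro heq
      have h1 : x1 * c ∈ Subgroup.zpowers x1 := heq ▸ Subgroup.mem_zpowers (x1 * c)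
      have h2 : c ∈ Subgroup.zpowers x1 := by
        have := Subgroup.mul_mem _ (Subgroup.inv_mem _ (Subgroup.mem_zpowers x1)) h1
        simpa using this
      obtain ⟨i, hi⟩ := Subgroup.mem_zpowers_iff.mp h2
      have h3 : x1 ^ i ≠ 1 := by rw [hi]; exact hc1
      have h4 : Commute (x1 ^ i) w := by rw [hi]; exact hcw
      exact hx1w (commute_of_zpow hp hx1o h3 h4)
    have hc : Subgroup.zpowers c ∈ K := by
      have h1 : x1 ^ (-1 : ℤ) * (x1 * c) ^ (1 : ℤ) = c := by group
      have := E2 x1 (x1 * c) hx1 hy hx1y hx1y_ne (-1) 1 (by rw [h1]; exact hc1)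
      rwa [h1] at this
    have hco := hord c hc
    -- step 9: c is universal
    obtain ⟨t, ht, hct⟩ := hno c hc
    have hx1c_ne : Subgroup.zpowers x1 ≠ Subgroup.zpowers c :=
      (hsep c x1 w hcw hx1w).symm
    have hwc_ne : Subgroup.zpowers w ≠ Subgroup.zpowers c :=
      (hsep c w x1 hcx1 (fun h => hx1w h.symm)).symm
    obtain ⟨a4, b4, hu1, hut⟩ := E3 x1 c t hx1 hc hcx1.symm hx1c_ne ht
    obtain ⟨a5, b5, hv1, hvt⟩ := E3 w c t hw hc hcw.symm hwc_ne ht
    have hxa4 : x1 ^ a4 ≠ 1 := by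
      intro h
      rw [h, one_mul] at hu1 hut
      exact hct (commute_of_zpow hp hco hu1 hut)
    have hwa5 : w ^ a5 ≠ 1 := by
      intro h
      rw [h, one_mul] at hv1 hvt
      exact hct (commute_of_zpow hp hco hv1 hvt)
    obtain ⟨m4, hm4⟩ := exists_zpow_eq_self hp hx1o hxa4
    obtain ⟨m5, hm5⟩ := exists_zpow_eq_self hp hwo hwa5
    -- t commutes with A = x1 * c^β and B = w * c^β'
    have hA : (x1 ^ a4 * c ^ b4) ^ m4 = x1 * c ^ (b4 * m4) := by
      rw [((hcx1.symm.zpow_left a4).zpow_right b4).mul_zpow, hm4, ← zpow_mul]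
    have hB : (w ^ a5 * c ^ b5) ^ m5 = w * c ^ (b5 * m5) := by
      rw [((hcw.symm.zpow_left a5).zpow_right b5).mul_zpow, hm5, ← zpow_mul]
    have htA : Commute t (x1 * c ^ (b4 * m4)) := by
      rw [← hA]; exact (hut.zpow_left m4).symm
    have htB : Commute t (w * c ^ (b5 * m5)) := by
      rw [← hB]; exact (hvt.zpow_left m5).symm
    have hconj := conj_identity (x := x1) (w := w) (c := c) (e := c ^ (b4 * m4)) (f := c ^ (b5 * m5)) hH
      (hcw.zpow_left _) (hcx1.zpow_left _) ((Commute.refl c).zpow_left _)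
      (((Commute.refl c).zpow_left _).zpow_right _) ((Commute.refl c).zpow_right _)
    have h1 : Commute t ((w * c ^ (b5 * m5))⁻¹ * (x1 * c ^ (b4 * m4)) * (w * c ^ (b5 * m5))) :=
      ((htB.inv_right).mul_right htA).mul_right htB
    rw [hconj] at h1
    have h2 : Commute t ((x1 * c ^ (b4 * m4))⁻¹ * (x1 * c ^ (b4 * m4) * c)) :=
      (htA.inv_right).mul_right h1
    have h3 : (x1 * c ^ (b4 * m4))⁻¹ * (x1 * c ^ (b4 * m4) * c) = c := by group
    rw [h3] at h2
    exact hct h2.symm
  -- the normal closure of the universal elements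
  obtain ⟨c, hc, hcu⟩ := huniv
  let U : Set G := {u | Subgroup.zpowers u ∈ K ∧ ∀ t : G, Subgroup.zpowers t ∈ K → Commute u t}
  have hUconj : ∀ u ∈ U, ∀ g : G, g * u * g⁻¹ ∈ U := by
    rintro u ⟨hu, huu⟩ g
    refine ⟨E1 u g hu, fun t ht => ?_⟩
    have h1 : Commute u (g⁻¹ * t * g) := by
      have := E1 t g⁻¹ ht
      rw [inv_inv] at this
      exact huu _ this
    have h2 : g * (g⁻¹ * t * g) * g⁻¹ = t := by group
    have h3 : Commute (g * u * g⁻¹) (g * (g⁻¹ * t * g) * g⁻¹) := by
      have e : g * u * g⁻¹ * (g * (g⁻¹ * t * g) * g⁻¹) = g * (u * (g⁻¹ * t * g)) * g⁻¹ := by group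
      have e' : g * (g⁻¹ * t * g) * g⁻¹ * (g * u * g⁻¹) = g * ((g⁻¹ * t * g) * u) * g⁻¹ := by group
      show g * u * g⁻¹ * (g * (g⁻¹ * t * g) * g⁻¹) = g * (g⁻¹ * t * g) * g⁻¹ * (g * u * g⁻¹)
      rw [e, e', h1.eq]
    rwa [h2] at h3
  let N : Subgroup G := Subgroup.closure U
  have hNnormal : N.Normal := by
    rw [← Subgroup.normalizer_eq_top_iff, eq_top_iff]
    intro g _
    apply Subgroup.normalizer_le_normalizer_closure
    rw [Subgroup.mem_normalizer_iff_conj_image_eq]
    ext y
    constructor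
    · rintro ⟨u, hu, rfl⟩
      simpa [MulAut.conj_apply] using hUconj u hu g
    · intro hy
      refine ⟨g⁻¹ * y * g, ?_, by simp [MulAut.conj_apply, mul_assoc]⟩
      have := hUconj y hy g⁻¹
      simpa using this
  have hUcomm : ∀ u ∈ U, ∀ v ∈ U, Commute u v := fun u hu v hv => hu.2 v hv.1
  have hNcomm : ∀ a ∈ N, ∀ b ∈ N, Commute a b := by
    have h1 : N ≤ Subgroup.centralizer (U : Set G) := by
      rw [Subgroup.closure_le]
      intro u hu
      rw [SetLike.mem_coe, Subgroup.mem_centralizer_iff]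
      intro v hv
      exact (hUcomm v hv u hu).eq
    have h2 : N ≤ Subgroup.centralizer (N : Set G) := by
      rw [Subgroup.le_centralizer_iff]
      show N ≤ Subgroup.centralizer (N : Set G)
      have : Subgroup.centralizer (N : Set G) = Subgroup.centralizer (U : Set G) :=
        Subgroup.centralizer_closure U
      rw [this]; exact h1
    intro a ha b hb
    exact ((Subgroup.mem_centralizer_iff.mp (h2 hb)) a ha)
  have hNpow : ∀ a ∈ N, a ^ p = 1 := by
    intro a ha
    induction ha using Subgroup.closure_induction with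
    | mem u hu =>
      rw [← hord u hu.1]; exact pow_orderOf_eq_one u
    | one => simp
    | mul x y hx hy ihx ihy =>
      rw [(hNcomm x hx y hy).mul_pow, ihx, ihy, one_mul]
    | inv x hx ihx => rw [inv_pow, ihx, inv_one]
  have hNp : IsPGroup p N := by
    intro g
    refine ⟨1, ?_⟩
    apply Subtype.ext
    simpa using hNpow g g.2
  have hcN : c ∈ N := Subgroup.subset_closure ⟨hc, hcu⟩
  have hc1 : c ≠ 1 := hne1 c hc
  refine ⟨⟨Subgroup.zpowers c, hc, ?_, ?_⟩, ?_⟩
  · intro W hW v hv w hw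
    obtain ⟨t, rfl, -⟩ := exists_gen hp W (hK _ hW)
    exact hcomm_gen c t (hcu t hW) v hv w hw
  · have h1 : Subgroup.zpowers c ≤ N := by
      rw [Subgroup.zpowers_le]; exact hcN
    exact h1.trans (le_sSup ⟨hNnormal, hNp⟩)
  · intro hsimple
    have hNtop : N = ⊤ := by
      rcases hNnormal.eq_bot_or_eq_top with h | h
      · exfalso
        rw [h, Subgroup.mem_bot] at hcN
        exact hc1 hcN
      · exact h
    have hGcomm : ∀ a b : G, a * b = b * a := fun a b =>
      (hNcomm a (hNtop ▸ Subgroup.mem_top a) b (hNtop ▸ Subgroup.mem_top b)).eq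
    obtain ⟨X0, hX0, Y0, hY0, hXY, -⟩ := hex
    have htop : ∀ X ∈ K, X = ⊤ := by
      intro X hX
      have hXn : X.Normal := ⟨fun n hn g => by
        have : g * n * g⁻¹ = n := by rw [hGcomm g n]; group
        rw [this]; exact hn⟩
      rcases hXn.eq_bot_or_eq_top with h | h
      · exfalso
        have := hK X hX
        rw [h, Subgroup.card_bot] at this
        exact hp.one_lt.ne this
      · exact h
    exact hXY ((htop X0 hX0).trans (htop Y0 hY0).symm)

end Cfsg.Agent.S3196
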