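import Cfsg.Statements.S3200
import Cfsg.Agent.Helper3.Burnside2
import Cfsg.Agent.Helper1.Hall
import Cfsg.Agent.Helper50.SubnSylow

set_option autoImplicit false
open Cfsg

namespace Cfsg.Agent.S3200

universe u

/-- `H` is the product of a `2`-subgroup and an abelian subgroup of odd order. -/
def Good (H : Type u) [Group H] : Prop :=
  ∃ S C : Subgroup H, IsPGroup 2 S ∧ IsMulCommutative ↥C ∧ Odd (Nat.card C) ∧
    Nat.card S * Nat.card C = Nat.card H

theorem coprime_of_isPGroup_of_odd {a b : ℕ} (ha : ∃ k, a = 2 ^ k) (hb : Odd b) : a.Coprime b := by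
  obtain ⟨k, rfl⟩ := ha
  exact Nat.Coprime.pow_left k (Nat.coprime_two_left.mpr hb)

theorem good_of_sylow {H : Type u} [Group H] [Finite H] (S : Sylow 2 H) (C : Subgroup H)
    (hC : IsMulCommutative ↥C) (hSC : Subgroup.IsComplement' (S : Subgroup H) C) : Good H := by
  have hcard : Nat.card (S : Subgroup H) * Nat.card C = Nat.card H := hSC.card_mul_card
  refine ⟨S, C, S.isPGroup', hC, ?_, hcard⟩
  have h1 : Nat.card C = (S : Subgroup H).index := by
    have h2 := Subgroup.card_mul_index (S : Subgroup H)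
    rw [← hcard] at h2
    exact (Nat.eq_of_mul_eq_mul_left Nat.card_pos h2).symm
  rw [h1, ← Nat.not_even_iff_odd, even_iff_two_dvd]
  exact S.not_dvd_index

theorem sylow_of_good {H : Type u} [Group H] [Finite H] (h : Good H) :
    ∃ (P : Sylow 2 H) (D : Subgroup H), IsMulCommutative ↥D ∧
      Subgroup.IsComplement' (P : Subgroup H) D := by
  obtain ⟨S, C, hS, hCc, hCodd, hcard⟩ := h
  have : Fact (Nat.Prime 2) := ⟨Nat.prime_two⟩
  obtain ⟨k, hk⟩ := IsPGroup.iff_card.mp hS
  have hcop : (Nat.card S).Coprime (Nat.card C) := coprime_of_isPGroup_of_odd ⟨k, hk⟩ hCodd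
  have hfac : (Nat.card H).factorization 2 = k := by
    rw [← hcard, hk, Nat.factorization_mul (by positivity) Nat.card_pos.ne']
    simp only [Finsupp.coe_add, Pi.add_apply]
    rw [Nat.Prime.factorization_pow Nat.prime_two]
    have h2 : (Nat.card C).factorization 2 = 0 :=
      Nat.factorization_eq_zero_of_not_dvd (by
        rw [← even_iff_two_dvd, Nat.not_even_iff_odd]; exact hCodd)
    simp [h2]
  refine ⟨Sylow.ofCard S (by rw [hk, hfac]), C, hCc, ?_⟩
  rw [Sylow.coe_ofCard]
  exact Subgroup.isComplement'_of_coprime hcard hcop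

theorem good_quotient {H : Type u} [Group H] [Finite H] (h : Good H) (N : Subgroup H) [N.Normal] :
    Good (H ⧸ N) := by
  obtain ⟨S, C, hS, hCc, hCodd, hcard⟩ := h
  have : Fact (Nat.Prime 2) := ⟨Nat.prime_two⟩
  obtain ⟨k, hk⟩ := IsPGroup.iff_card.mp hS
  have hcop : (Nat.card S).Coprime (Nat.card C) := coprime_of_isPGroup_of_odd ⟨k, hk⟩ hCodd
  have hcomp : Subgroup.IsComplement' S C := Subgroup.isComplement'_of_coprime hcard hcop
  have hS' : IsPGroup 2 (S.map (QuotientGroup.mk' N)) := hS.map _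
  have hodd' : Odd (Nat.card (C.map (QuotientGroup.mk' N))) :=
    Odd.of_dvd_nat hCodd (Subgroup.card_map_dvd C _)
  obtain ⟨k', hk'⟩ := IsPGroup.iff_card.mp hS'
  have hcop' : (Nat.card (S.map (QuotientGroup.mk' N))).Coprime
      (Nat.card (C.map (QuotientGroup.mk' N))) := coprime_of_isPGroup_of_odd ⟨k', hk'⟩ hodd'
  refine ⟨S.map (QuotientGroup.mk' N), C.map (QuotientGroup.mk' N), hS', inferInstance, hodd', ?_⟩
  apply Nat.le_antisymm
  · apply Nat.le_of_dvd Nat.card_pos
    exact Nat.Coprime.mul_dvd_of_dvd_of_dvd hcop' (Subgroup.card_subgroup_dvd_card _)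
      (Subgroup.card_subgroup_dvd_card _)
  · rw [← Nat.card_prod]
    apply Nat.card_le_card_of_surjective
      (fun x : ↥(S.map (QuotientGroup.mk' N)) × ↥(C.map (QuotientGroup.mk' N)) =>
        (x.1 : H ⧸ N) * (x.2 : H ⧸ N))
    intro q
    obtain ⟨g, rfl⟩ := QuotientGroup.mk'_surjective N q
    obtain ⟨⟨s, c⟩, hsc, -⟩ := hcomp.existsUnique g
    refine ⟨(⟨QuotientGroup.mk' N s, ⟨s, s.2, rfl⟩⟩, ⟨QuotientGroup.mk' N c, ⟨c, c.2, rfl⟩⟩), ?_⟩
    show QuotientGroup.mk' N (s : H) * QuotientGroup.mk' N (c : H) = QuotientGroup.mk' N g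
    rw [← map_mul]
    exact congrArg _ hsc

theorem good_normal {H : Type u} [Group H] [Finite H] (h : Good H) (N : Subgroup H) [hN : N.Normal] :
    Good ↥N := by
  obtain ⟨S, C, hS, hCc, hCodd, hcard⟩ := h
  have : Fact (Nat.Prime 2) := ⟨Nat.prime_two⟩
  obtain ⟨k, hk⟩ := IsPGroup.iff_card.mp hS
  have hcop : (Nat.card S).Coprime (Nat.card C) := coprime_of_isPGroup_of_odd ⟨k, hk⟩ hCodd
  have htop : ∀ X : Subgroup H, X ≤ Subgroup.normalizer (N : Set H) := fun X => by
    rw [Subgroup.normalizer_eq_top]; exact le_top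
  -- cardinalities of the intersections
  have hcS : Nat.card (S.subgroupOf N) = Nat.card ↥(S ⊓ N) := by
    rw [← Subgroup.card_map_of_injective N.subtype_injective, Subgroup.subgroupOf_map_subtype]
  have hcC : Nat.card (C.subgroupOf N) = Nat.card ↥(C ⊓ N) := by
    rw [← Subgroup.card_map_of_injective N.subtype_injective, Subgroup.subgroupOf_map_subtype]
  have haS : Nat.card ↥(S ⊓ N) ∣ Nat.card S := Subgroup.card_dvd_of_le inf_le_left
  have hbC : Nat.card ↥(C ⊓ N) ∣ Nat.card C := Subgroup.card_dvd_of_le inf_le_left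
  have haN : Nat.card ↥(S ⊓ N) ∣ Nat.card N := Subgroup.card_dvd_of_le inf_le_right
  have hbN : Nat.card ↥(C ⊓ N) ∣ Nat.card N := Subgroup.card_dvd_of_le inf_le_right
  -- `|N| ∣ |S ⊓ N| * |C|`
  have h1 : Nat.card N ∣ Nat.card ↥(S ⊓ N) * Nat.card C := by
    have e := Cfsg.Agent.Helper50.card_mul_card_eq_of_le_normalizer (htop S)
    have hd : Nat.card ↥(S ⊔ N) ∣ Nat.card S * Nat.card C := hcard ▸ Subgroup.card_subgroup_dvd_card _
    have h2 : Nat.card S * Nat.card N ∣ Nat.card S * (Nat.card ↥(S ⊓ N) * Nat.card C) := by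
      rw [e]
      calc Nat.card ↥(S ⊔ N) * Nat.card ↥(S ⊓ N) ∣ (Nat.card S * Nat.card C) * Nat.card ↥(S ⊓ N) :=
            Nat.mul_dvd_mul_right hd _
        _ = Nat.card S * (Nat.card ↥(S ⊓ N) * Nat.card C) := by ring
    exact Nat.dvd_of_mul_dvd_mul_left Nat.card_pos h2
  have h1' : Nat.card N ∣ Nat.card ↥(C ⊓ N) * Nat.card S := by
    have e := Cfsg.Agent.Helper50.card_mul_card_eq_of_le_normalizer (htop C)
    have hd : Nat.card ↥(C ⊔ N) ∣ Nat.card S * Nat.card C := hcard ▸ Subgroup.card_subgroup_dvd_card _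
    have h2 : Nat.card C * Nat.card N ∣ Nat.card C * (Nat.card ↥(C ⊓ N) * Nat.card S) := by
      rw [e]
      calc Nat.card ↥(C ⊔ N) * Nat.card ↥(C ⊓ N) ∣ (Nat.card S * Nat.card C) * Nat.card ↥(C ⊓ N) :=
            Nat.mul_dvd_mul_right hd _
        _ = Nat.card C * (Nat.card ↥(C ⊓ N) * Nat.card S) := by ring
    exact Nat.dvd_of_mul_dvd_mul_left Nat.card_pos h2
  obtain ⟨u, hu⟩ := haN
  obtain ⟨v, hv⟩ := hbN
  have hapos : 0 < Nat.card ↥(S ⊓ N) := Nat.card_pos
  have hbpos : 0 < Nat.card ↥(C ⊓ N) := Nat.card_pos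
  have huC : u ∣ Nat.card C := by
    rw [hu] at h1
    exact Nat.dvd_of_mul_dvd_mul_left hapos h1
  have hvS : v ∣ Nat.card S := by
    rw [hv] at h1'
    exact Nat.dvd_of_mul_dvd_mul_left hbpos h1'
  have hcop1 : (Nat.card ↥(S ⊓ N)).Coprime (Nat.card ↥(C ⊓ N)) :=
    Nat.Coprime.coprime_dvd_left haS (Nat.Coprime.coprime_dvd_right hbC hcop)
  have hcop2 : v.Coprime u :=
    Nat.Coprime.coprime_dvd_left hvS (Nat.Coprime.coprime_dvd_right huC hcop)
  have heq : Nat.card ↥(S ⊓ N) * u = Nat.card ↥(C ⊓ N) * v := by rw [← hu, ← hv]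
  have hav : Nat.card ↥(S ⊓ N) = v := by
    apply Nat.dvd_antisymm
    · exact hcop1.dvd_of_dvd_mul_left (Dvd.intro _ heq)
    · exact hcop2.dvd_of_dvd_mul_right (Dvd.intro_left _ heq.symm)
  refine ⟨S.subgroupOf N, C.subgroupOf N, hS.comap_subtype, inferInstance, ?_, ?_⟩
  · rw [hcC]; exact Odd.of_dvd_nat hCodd hbC
  · rw [hcS, hcC, hav, hv, mul_comm]

open scoped Pointwise in
theorem good_subgroup {H : Type u} [Group H] [Finite H] [Group.IsSolvable H] (h : Good H)
    (L : Subgroup H) : Good ↥L := by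
  obtain ⟨S, C, hS, hCc, hCodd, hcard⟩ := h
  have : Fact (Nat.Prime 2) := ⟨Nat.prime_two⟩
  obtain ⟨k, hk⟩ := IsPGroup.iff_card.mp hS
  have hcop : (Nat.card C).Coprime (Nat.card S) :=
    (coprime_of_isPGroup_of_odd ⟨k, hk⟩ hCodd).symm
  obtain ⟨P₀⟩ : Nonempty (Sylow 2 ↥L) := inferInstance
  obtain ⟨j, hj⟩ := IsPGroup.iff_card.mp P₀.isPGroup'
  have hodd : Odd (P₀ : Subgroup ↥L).index := by
    rw [← Nat.not_even_iff_odd, even_iff_two_dvd]
    exact P₀.not_dvd_index
  have hLcard : Nat.card ↥L = (P₀ : Subgroup ↥L).index * Nat.card (P₀ : Subgroup ↥L) := by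
    rw [mul_comm]; exact (Subgroup.card_mul_index _).symm
  have hcopL : ((P₀ : Subgroup ↥L).index).Coprime (Nat.card (P₀ : Subgroup ↥L)) :=
    (coprime_of_isPGroup_of_odd ⟨j, hj⟩ hodd).symm
  obtain ⟨D, hD⟩ := Cfsg.Agent.Helper1.hall_exists_aux _ ↥L _ _ rfl hLcard hcopL
  have hDodd : Odd (Nat.card D) := hD ▸ hodd
  -- `D` lies in a conjugate of `C`
  have hKcard : Nat.card (D.map L.subtype) = Nat.card D :=
    Subgroup.card_map_of_injective L.subtype_injective
  have hKcop : (Nat.card (D.map L.subtype)).Coprime (Nat.card S) := by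
    rw [hKcard]
    exact (coprime_of_isPGroup_of_odd ⟨k, hk⟩ hDodd).symm
  have hHcard : Nat.card H = Nat.card C * Nat.card S := by rw [← hcard, mul_comm]
  obtain ⟨H', hH', hKH'⟩ := Cfsg.Agent.Helper1.hall_le_aux _ H _ _ rfl hHcard hcop
    (D.map L.subtype) hKcop
  obtain ⟨g, hg⟩ := Cfsg.Agent.Helper1.hall_conj_aux _ H _ _ rfl hHcard hcop H' C hH' rfl
  have hH'comm : ∀ x ∈ H', ∀ y ∈ H', x * y = y * x := by
    intro x hx y hy
    have hx' : g * x * g⁻¹ ∈ C := by
      have := Subgroup.smul_mem_pointwise_smul x (MulAut.conj g) H' hx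
      rw [hg] at this
      simpa using this
    have hy' : g * y * g⁻¹ ∈ C := by
      have := Subgroup.smul_mem_pointwise_smul y (MulAut.conj g) H' hy
      rw [hg] at this
      simpa using this
    have hc : (g * x * g⁻¹) * (g * y * g⁻¹) = (g * y * g⁻¹) * (g * x * g⁻¹) :=
      congrArg Subtype.val (hCc.is_comm.comm ⟨_, hx'⟩ ⟨_, hy'⟩)
    calc x * y = g⁻¹ * ((g * x * g⁻¹) * (g * y * g⁻¹)) * g := by group
      _ = g⁻¹ * ((g * y * g⁻¹) * (g * x * g⁻¹)) * g := by rw [hc]
      _ = y * x := by group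
  have hDcomm : IsMulCommutative ↥D := by
    refine ⟨⟨fun a b => ?_⟩⟩
    apply Subtype.ext
    apply Subtype.ext
    exact hH'comm _ (hKH' ⟨a, a.2, rfl⟩) _ (hKH' ⟨b, b.2, rfl⟩)
  refine ⟨P₀, D, P₀.isPGroup', hDcomm, hDodd, ?_⟩
  rw [hD, hLcard, mul_comm]

theorem solvable_aux : ∀ (n : ℕ) (H : Type u) [Group H] [Finite H], Nat.card H = n → Good H →
    Group.IsSolvable H := by
  intro n
  induction n using Nat.strong_induction_on with
  | _ n ih =>
    intro H _ _ hn hgood
    have hgood' := hgood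
    obtain ⟨S, C, hS, hCc, hCodd, hcard⟩ := hgood
    have : Fact (Nat.Prime 2) := ⟨Nat.prime_two⟩
    by_cases hC1 : C = ⊥
    · have h1 : Nat.card S = Nat.card H := by rw [← hcard, hC1, Subgroup.card_bot, mul_one]
      have hST : S = ⊤ := Subgroup.eq_top_of_card_eq S h1
      have hH2 : IsPGroup 2 H := by
        intro g
        obtain ⟨j, hj⟩ := hS ⟨g, hST ▸ Subgroup.mem_top g⟩
        exact ⟨j, by simpa using congrArg Subtype.val hj⟩
      have := hH2.isNilpotent
      exact IsNilpotent.to_isSolvable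
    · obtain ⟨c, hc1⟩ := (Subgroup.ne_bot_iff_exists_ne_one.mp hC1)
      have hc1' : (c : H) ≠ 1 := fun h => hc1 (Subtype.ext h)
      have hCle : C ≤ Subgroup.centralizer ({(c : H)} : Set H) := by
        intro x hx
        rw [Subgroup.mem_centralizer_iff]
        intro y hy
        rw [Set.mem_singleton_iff] at hy
        subst hy
        exact congrArg Subtype.val (hCc.is_comm.comm c ⟨x, hx⟩)
      have hidx : ∃ k, (Subgroup.centralizer ({(c : H)} : Set H)).index = 2 ^ k := by
        have h1 : (Subgroup.centralizer ({(c : H)} : Set H)).index ∣ C.index :=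
          Subgroup.index_dvd_of_le hCle
        have h2 : C.index = Nat.card S := by
          have h3 := Subgroup.card_mul_index C
          rw [← hcard, mul_comm (Nat.card S)] at h3
          exact Nat.eq_of_mul_eq_mul_left Nat.card_pos h3
        obtain ⟨j, hj⟩ := IsPGroup.iff_card.mp hS
        rw [h2, hj] at h1
        obtain ⟨k, -, hk⟩ := (Nat.dvd_prime_pow Nat.prime_two).mp h1
        exact ⟨k, hk⟩
      obtain ⟨k, hk⟩ := hidx
      by_cases hsimple : IsSimpleGroup H
      · have hp := Cfsg.Agent.Helper3.prime_card_of_prime_pow_class 2 k Nat.prime_two (c : H) hc1' hk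
        have : Fact (Nat.card H).Prime := ⟨hp⟩
        have hcyc : IsCyclic H := isCyclic_of_prime_card rfl
        let _ := IsCyclic.commGroup (α := H)
        exact Group.isSolvable_of_comm (fun a b => mul_comm a b)
      · have hnt : Nontrivial H := ⟨⟨(c : H), 1, hc1'⟩⟩
        obtain ⟨N, hNn, hN1, hNT⟩ : ∃ N : Subgroup H, N.Normal ∧ N ≠ ⊥ ∧ N ≠ ⊤ := by
          by_contra hcon
          apply hsimple
          refine ⟨fun N hN => ?_⟩
          by_contra h
          rw [not_or] at h
          exact hcon ⟨N, hN, h.1, h.2⟩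
        have hgN := good_normal hgood' N
        have hgQ := good_quotient hgood' N
        have hN1' : 1 < Nat.card N := by
          rcases Nat.lt_or_ge 1 (Nat.card N) with h | h
          · exact h
          · exfalso
            have : Nat.card N = 1 := le_antisymm h Nat.card_pos
            exact hN1 (Subgroup.card_eq_one.mp this)
        have hidx1 : 1 < N.index := by
          rcases Nat.lt_or_ge 1 N.index with h | h
          · exact h
          · exfalso
            have h0 : N.index ≠ 0 := Subgroup.index_ne_zero_of_finite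
            have : N.index = 1 := by omega
            exact hNT (Subgroup.index_eq_one.mp this)
        have hmul := Subgroup.card_mul_index N
        have h1 : Nat.card N < n := by
          rw [← hn, ← hmul]
          exact lt_mul_of_one_lt_right Nat.card_pos hidx1
        have h2 : Nat.card (H ⧸ N) < n := by
          rw [← hn, ← hmul]
          show N.index < _
          exact lt_mul_of_one_lt_left (by omega) hN1'
        have := ih _ h1 ↥N rfl hgN
        have := ih _ h2 (H ⧸ N) rfl hgQ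
        exact Group.isSolvable_of_ker_le_range N.subtype (QuotientGroup.mk' N) (by simp)


/-- Let H be a finite group in which a Sylow 2-subgroup has an abelian complement (an abelian subgroup meeting it trivially whose product with it is all of H). Then H is solvable, and every subgroup and every quotient group of H again has a Sylow 2-subgroup with an abelian complement. -/
theorem result {H : Type*} [Group H] [Finite H]
    (S : Sylow 2 H) (C : Subgroup H) (hC : IsMulCommutative ↥C) (hSC : Subgroup.IsComplement' (S : Subgroup H) C) :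
    Group.IsSolvable H ∧
    (∀ L : Subgroup H, ∃ (P : Sylow 2 ↥L) (D : Subgroup ↥L), IsMulCommutative ↥D ∧ Subgroup.IsComplement' (P : Subgroup ↥L) D) ∧
    (∀ (N : Subgroup H) [N.Normal], ∃ (P : Sylow 2 (H ⧸ N)) (D : Subgroup (H ⧸ N)),
      IsMulCommutative ↥D ∧ Subgroup.IsComplement' (P : Subgroup (H ⧸ N)) D) := by
  have hgood := Cfsg.Agent.S3200.good_of_sylow S C hC hSC
  have hsolv : Group.IsSolvable H := Cfsg.Agent.S3200.solvable_aux _ H rfl hgood
  refine ⟨hsolv, ?_, ?_⟩
  · intro L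
    exact Cfsg.Agent.S3200.sylow_of_good (Cfsg.Agent.S3200.good_subgroup hgood L)
  · intro N _
    exact Cfsg.Agent.S3200.sylow_of_good (Cfsg.Agent.S3200.good_quotient hgood N)

end Cfsg.Agent.S3200
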