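import Cfsg.Statements.S3201
import Cfsg.Agent.Helper53.Quat2

set_option autoImplicit false
open Cfsg

namespace Cfsg.Agent.S3201

/-- Let S be a finite 2-group whose centre Z(S) has n ≥ 2 distinct maximal subgroups C₁, …, Cₙ with trivial intersection such that each quotient S/Cᵢ is a non-abelian group with exactly one involution (a generalized quaternion group). Then S is the internal direct product of an elementary abelian subgroup and a non-abelian subgroup with exactly one involution. -/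
theorem result {S : Type*} [Group S] [Finite S]
    (hS : IsPGroup 2 S) (n : ℕ) (hn : 2 ≤ n) (C : Fin n → Subgroup ↥(Subgroup.center S))
    (hCmax : ∀ i, IsCoatom (C i)) (hCinj : Function.Injective C) (hCint : ⨅ i, C i = ⊥)
    (hCq : ∀ i, ∃ (_ : ((C i).map (Subgroup.center S).subtype).Normal),
      ¬ IsMulCommutative (S ⧸ (C i).map (Subgroup.center S).subtype) ∧
      ∃! x : S ⧸ (C i).map (Subgroup.center S).subtype, orderOf x = 2) :
    ∃ E Q : Subgroup S, Cfsg.IsInternalDirectProduct E Q ⊤ ∧ Cfsg.IsElementaryAbelian 2 E ∧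
      ¬ IsMulCommutative ↥Q ∧ ∃! x : ↥Q, orderOf x = 2 := by
  classical
  have hNc : ∀ i, (C i).map (Subgroup.center S).subtype ≤ Subgroup.center S := by
    intro i x hx
    obtain ⟨d, -, rfl⟩ := Subgroup.mem_map.mp hx
    exact d.2
  have hmemN : ∀ i (w : S) (hw : w ∈ Subgroup.center S),
      w ∈ (C i).map (Subgroup.center S).subtype ↔ (⟨w, hw⟩ : Subgroup.center S) ∈ C i := by
    intro i w hw
    constructor
    · intro h
      obtain ⟨d, hd, hdw⟩ := Subgroup.mem_map.mp h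
      have : d = ⟨w, hw⟩ := Subtype.ext hdw
      rw [← this]; exact hd
    · intro h
      exact Subgroup.mem_map.mpr ⟨⟨w, hw⟩, h, rfl⟩
  have hint : ∀ x ∈ Subgroup.center S, (∀ i, x ∈ (C i).map (Subgroup.center S).subtype) → x = 1 := by
    intro x hx hall
    have h1 : (⟨x, hx⟩ : Subgroup.center S) ∈ ⨅ i, C i := by
      rw [Subgroup.mem_iInf]
      intro i
      exact (hmemN i x hx).mp (hall i)
    rw [hCint, Subgroup.mem_bot] at h1
    exact congrArg Subtype.val h1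
  have hCne : ∀ i, ∃ w ∈ Subgroup.center S, w ∉ (C i).map (Subgroup.center S).subtype := by
    intro i
    have h1 : C i ≠ ⊤ := (hCmax i).1
    have h2 : ∃ c : Subgroup.center S, c ∉ C i := by
      by_contra hcon
      push Not at hcon
      exact h1 (eq_top_iff.mpr fun c _ => hcon c)
    obtain ⟨c, hc⟩ := h2
    exact ⟨c, c.2, fun h => hc ((hmemN i c c.2).mp h)⟩
  have hper : ∀ i, (∀ w ∈ Subgroup.center S, w * w ∈ (C i).map (Subgroup.center S).subtype) ∧
      (∀ w ∈ Subgroup.center S, ∀ w' ∈ Subgroup.center S,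
        w ∉ (C i).map (Subgroup.center S).subtype → w' ∉ (C i).map (Subgroup.center S).subtype →
        w'⁻¹ * w ∈ (C i).map (Subgroup.center S).subtype) ∧
      (∀ s : S, s * s ∈ (C i).map (Subgroup.center S).subtype → s ∈ Subgroup.center S) := by
    intro i
    obtain ⟨hN, hnc, zb, hzb, hzu⟩ := hCq i
    have := hN
    obtain ⟨f1, f2, f3⟩ := Cfsg.Agent.Helper53.central_quotient_facts hS _ hnc zb hzb hzu
    refine ⟨f2, ?_, fun s hs => f3 s hs (hCne i) (hNc i)⟩
    intro w hw w' hw' hwN hw'N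
    exact QuotientGroup.eq.mp ((f1 w' hw' hw'N).trans (f1 w hw hwN).symm)
  have hZsq : ∀ w ∈ Subgroup.center S, w * w = 1 := fun w hw =>
    hint (w * w) (Subgroup.mul_mem _ hw hw) (fun i => (hper i).1 w hw)
  -- uniqueness of the element of the centre outside all `C i`
  have huniq : ∀ w ∈ Subgroup.center S, ∀ w' ∈ Subgroup.center S,
      (∀ i, w ∉ (C i).map (Subgroup.center S).subtype) →
      (∀ i, w' ∉ (C i).map (Subgroup.center S).subtype) → w = w' := by
    intro w hw w' hw' h1 h2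
    have h3 := hint (w'⁻¹ * w) (Subgroup.mul_mem _ (Subgroup.inv_mem _ hw') hw)
      (fun i => (hper i).2.1 w hw w' hw' (h1 i) (h2 i))
    exact (inv_mul_eq_one.mp h3).symm
  have hsqout : ∀ s : S, s ∉ Subgroup.center S → ∀ i, s * s ∉ (C i).map (Subgroup.center S).subtype :=
    fun s hs i h => hs ((hper i).2.2 s h)
  -- the first quotient
  have h0 := hCq ⟨0, by omega⟩
  have hNc0 := hNc ⟨0, by omega⟩
  have hCne0 := hCne ⟨0, by omega⟩
  have hper0 := (hper ⟨0, by omega⟩).1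
  generalize (C ⟨0, by omega⟩).map (Subgroup.center S).subtype = N0 at h0 hNc0 hCne0 hper0
  obtain ⟨hN0, hnc0, zb, hzb, hzu⟩ := h0
  have := hN0
  obtain ⟨a, y, k, hk2, hka, hcard, hya, he, hyy, haz, hcov⟩ :=
    Cfsg.Agent.Helper53.quat_quotient_lift hS N0 hnc0 zb hzb hzu
  obtain ⟨g1, -, -⟩ := Cfsg.Agent.Helper53.central_quotient_facts hS N0 hnc0 zb hzb hzu
  have hzb1 : zb ≠ 1 := by
    intro h
    rw [h, orderOf_one] at hzb
    omega
  have hG : ∀ s : S, (s : S ⧸ N0) = zb → s ∈ Subgroup.center S := by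
    intro s hs
    obtain ⟨w₀, hw₀, hw₀N⟩ := hCne0
    have h1 : w₀⁻¹ * s ∈ N0 := QuotientGroup.eq.mp ((g1 w₀ hw₀ hw₀N).trans hs.symm)
    have h2 : s = w₀ * (w₀⁻¹ * s) := by group
    rw [h2]
    exact Subgroup.mul_mem _ hw₀ (hNc0 h1)
  have hkey0 : ∀ s : S, ((s * s : S) : S ⧸ N0) = zb →
      s * s ∈ Subgroup.center S ∧ ∀ i, s * s ∉ (C i).map (Subgroup.center S).subtype := by
    intro s hs
    have hsZ : s ∉ Subgroup.center S := by
      intro h
      have h1 := hper0 s h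
      rw [(QuotientGroup.eq_one_iff _).mpr h1] at hs
      exact hzb1 hs.symm
    exact ⟨hG _ hs, hsqout s hsZ⟩
  have hkey : ∀ s : S, ((s * s : S) : S ⧸ N0) = zb → s * s = y * y := by
    intro s hs
    obtain ⟨h1, h2⟩ := hkey0 s hs
    obtain ⟨h3, h4⟩ := hkey0 y hyy
    exact huniq _ h1 _ h3 h2 h4
  obtain ⟨z₀, hz₀⟩ : ∃ z₀, z₀ = y * y := ⟨_, rfl⟩
  have hz₀Z : z₀ ∈ Subgroup.center S := by rw [hz₀]; exact (hkey0 y hyy).1
  have hz₀1 : z₀ ≠ 1 := by
    intro h
    have h1 : ((y * y : S) : S ⧸ N0) = 1 := by rw [← hz₀, h]; rfl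
    rw [hyy] at h1
    exact hzb1 h1
  have hz₀sq : z₀ * z₀ = 1 := hZsq z₀ hz₀Z
  have hz₀c : ∀ g : S, g * z₀ = z₀ * g := Subgroup.mem_center_iff.mp hz₀Z
  have hb : a ^ (2 ^ (k - 1)) = z₀ := by
    have h1 : a ^ (2 ^ (k - 1)) = a ^ (2 ^ (k - 2)) * a ^ (2 ^ (k - 2)) := by
      rw [← pow_add, ← two_mul, ← pow_succ']
      congr 2; omega
    rw [h1, hz₀]
    apply hkey
    rw [← h1]; exact haz
  have hao : orderOf a = 2 ^ k := by
    have h1 : ¬ a ^ 2 ^ (k - 1) = 1 := by rw [hb]; exact hz₀1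
    have h2 : a ^ 2 ^ (k - 1 + 1) = 1 := by
      rw [pow_succ, pow_mul, hb, pow_two]; exact hz₀sq
    rw [orderOf_eq_prime_pow h1 h2]
    congr 1; omega
  have hyinv : y * a * y⁻¹ = a⁻¹ := by
    have h1 : (y * a) * (y * a) = (y * a * y⁻¹ * a) * z₀ := by
      calc (y * a) * (y * a) = (y * a * y⁻¹ * a) * (a⁻¹ * ((y * y) * a)) := by group
        _ = (y * a * y⁻¹ * a) * (a⁻¹ * (z₀ * a)) := by rw [hz₀]
        _ = (y * a * y⁻¹ * a) * (a⁻¹ * (a * z₀)) := by rw [hz₀c a]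
        _ = (y * a * y⁻¹ * a) * z₀ := by group
    have h2 : (((y * a) * (y * a) : S) : S ⧸ N0) = zb := by
      rw [h1]
      have h2' : (((y * a * y⁻¹ * a) * z₀ : S) : S ⧸ N0) =
          ((y * a * y⁻¹ * a : S) : S ⧸ N0) * ((z₀ : S) : S ⧸ N0) := rfl
      rw [h2', (QuotientGroup.eq_one_iff _).mpr he, one_mul, hz₀]
      exact hyy
    have h3 := hkey (y * a) h2
    rw [h1, ← hz₀] at h3
    have h4 : y * a * y⁻¹ * a = 1 := mul_right_cancel (h3.trans (one_mul z₀).symm)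
    exact eq_inv_of_mul_eq_one_left h4
  have hinv : ∀ u ∈ Subgroup.zpowers a, y * u * y⁻¹ = u⁻¹ := by
    intro u hu
    obtain ⟨i, rfl⟩ := Subgroup.mem_zpowers_iff.mp hu
    rw [Cfsg.Agent.Helper53.conj_zpow', hyinv, inv_zpow]
  have hinv' : ∀ u ∈ Subgroup.zpowers a, y⁻¹ * u * y = u⁻¹ := by
    intro u hu
    have h1 := hinv u⁻¹ (Subgroup.inv_mem _ hu)
    rw [inv_inv] at h1
    calc y⁻¹ * u * y = y⁻¹ * (y * u⁻¹ * y⁻¹) * y := by rw [h1]
      _ = u⁻¹ := by group
  have hz₀A : y * y ∈ Subgroup.zpowers a := by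
    rw [← hz₀, ← hb]; exact Subgroup.pow_mem _ (Subgroup.mem_zpowers a) _
  obtain ⟨Q, hQ⟩ := Cfsg.Agent.Helper53.exists_subgroup_union_coset (Subgroup.zpowers a) y
    (fun u hu => by rw [hinv u hu]; exact Subgroup.inv_mem _ hu)
    (fun u hu => by rw [hinv' u hu]; exact Subgroup.inv_mem _ hu) hz₀A
  have haQ : a ∈ Q := (hQ a).mpr (Or.inl (Subgroup.mem_zpowers a))
  have hyQ : y ∈ Q := (hQ y).mpr (Or.inr (by rw [mul_inv_cancel]; exact Subgroup.one_mem _))
  have hAQ : ∀ u ∈ Subgroup.zpowers a, u ∈ Q := fun u hu => (hQ u).mpr (Or.inl hu)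
  have haa : a * a ≠ 1 := by
    intro h
    have h1 := orderOf_dvd_of_pow_eq_one (show a ^ 2 = 1 by rw [pow_two]; exact h)
    rw [hao] at h1
    have h5 : 2 ^ 2 ≤ 2 ^ k := Nat.pow_le_pow_right (by norm_num) hk2
    have h6 := Nat.le_of_dvd (by norm_num) h1
    omega
  refine ⟨N0, Q, ⟨le_top, le_top, ?_, ?_, ?_⟩, ⟨?_, ?_⟩, ?_, ?_⟩
  · intro e he' q _
    exact (Subgroup.mem_center_iff.mp (hNc0 he') q).symm
  · rw [eq_bot_iff]
    intro g hg
    obtain ⟨hgE, hgQ⟩ := Subgroup.mem_inf.mp hg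
    rw [Subgroup.mem_bot]
    have hg1 : (g : S ⧸ N0) = 1 := (QuotientGroup.eq_one_iff g).mpr hgE
    rcases (hQ g).mp hgQ with h | h
    · obtain ⟨i, hi⟩ := Subgroup.mem_zpowers_iff.mp h
      have h1 : (a : S ⧸ N0) ^ i = 1 := by rw [← QuotientGroup.mk_zpow, hi]; exact hg1
      have h2 := orderOf_dvd_iff_zpow_eq_one.mpr h1
      rw [hka, ← hao] at h2
      rw [← hi]; exact orderOf_dvd_iff_zpow_eq_one.mp h2
    · exfalso
      obtain ⟨i, hi⟩ := Subgroup.mem_zpowers_iff.mp h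
      apply hya
      have h1 : (a : S ⧸ N0) ^ i = (y : S ⧸ N0)⁻¹ := by
        rw [← QuotientGroup.mk_zpow, hi]
        have h1' : ((g * y⁻¹ : S) : S ⧸ N0) = (g : S ⧸ N0) * (y : S ⧸ N0)⁻¹ := rfl
        rw [h1', hg1, one_mul]
      have h2 : (y : S ⧸ N0)⁻¹ ∈ Subgroup.zpowers (a : S ⧸ N0) := by
        rw [← h1]; exact Subgroup.zpow_mem _ (Subgroup.mem_zpowers _) i
      exact (Subgroup.inv_mem_iff _).mp h2
  · rw [eq_top_iff]
    intro s _
    have hEle : N0 ≤ N0 ⊔ Q := le_sup_left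
    have hQle : Q ≤ N0 ⊔ Q := le_sup_right
    rcases hcov s with ⟨i, hi⟩ | ⟨i, hi⟩
    · have hs : s = a ^ i * ((a ^ i)⁻¹ * s) := by group
      rw [hs]
      exact Subgroup.mul_mem _ (hQle (hAQ _ (Subgroup.zpow_mem _ (Subgroup.mem_zpowers a) i))) (hEle hi)
    · have hs : s = a ^ i * ((a ^ i)⁻¹ * (s * y⁻¹)) * y := by group
      rw [hs]
      exact Subgroup.mul_mem _ (Subgroup.mul_mem _
        (hQle (hAQ _ (Subgroup.zpow_mem _ (Subgroup.mem_zpowers a) i))) (hEle hi)) (hQle hyQ)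
  · refine ⟨⟨fun x y' => ?_⟩⟩
    apply Subtype.ext
    exact (Subgroup.mem_center_iff.mp (hNc0 x.2) y'.1).symm
  · intro e he'
    rw [pow_two]; exact hZsq e (hNc0 he')
  · intro hcomm
    have h1 : (⟨a, haQ⟩ : Q) * ⟨y, hyQ⟩ = ⟨y, hyQ⟩ * ⟨a, haQ⟩ := hcomm.is_comm.comm _ _
    have h2 : a * y = y * a := congrArg Subtype.val h1
    apply haa
    have h3 : a = a⁻¹ := by
      calc a = a * y * y⁻¹ := by group
        _ = y * a * y⁻¹ := by rw [h2]
        _ = a⁻¹ := hyinv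
    calc a * a = a * a⁻¹ := by rw [← h3]
      _ = 1 := mul_inv_cancel a
  · have hz₀Q : z₀ ∈ Q := by rw [hz₀]; exact hAQ _ hz₀A
    have hz₀o : orderOf z₀ = 2 := orderOf_eq_prime (by rw [pow_two]; exact hz₀sq) hz₀1
    refine ⟨⟨z₀, hz₀Q⟩, ?_, ?_⟩
    · show orderOf (⟨z₀, hz₀Q⟩ : Q) = 2
      rw [Subgroup.orderOf_mk]; exact hz₀o
    · intro t ht
      have ht' : orderOf (t : S) = 2 := by rw [Subgroup.orderOf_coe]; exact ht
      apply Subtype.ext
      show (t : S) = z₀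
      have htt : (t : S) * (t : S) = 1 := by
        have h := pow_orderOf_eq_one (t : S)
        rw [ht', pow_two] at h; exact h
      rcases (hQ t).mp t.2 with h | h
      · have h1 : (t : S) ∈ Subgroup.zpowers z₀ :=
          Cfsg.Agent.Helper53.mem_zpowers_of_orderOf_eq a z₀ (t : S) k hao (by rw [hz₀]; exact hz₀A) h
            (by rw [hz₀o, ht'])
        rw [mem_zpowers_iff_mem_range_orderOf, hz₀o] at h1
        simp only [Finset.mem_image, Finset.mem_range] at h1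
        obtain ⟨i, hi, hit⟩ := h1
        interval_cases i
        · exfalso
          rw [pow_zero] at hit
          rw [← hit, orderOf_one] at ht'
          omega
        · rw [pow_one] at hit; exact hit.symm
      · exfalso
        have h1 := hinv _ h
        have h2 : (t : S) * (t : S) = ((t : S) * y⁻¹) * (y * ((t : S) * y⁻¹) * y⁻¹) * (y * y) := by group
        rw [h1, mul_inv_cancel, one_mul, htt, ← hz₀] at h2
        exact hz₀1 h2.symm

end Cfsg.Agent.S3201
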