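import Cfsg.Statements.S3202
import Cfsg.Agent.Helper53.Quat2
import Cfsg.Agent.Helper73.Taussky

set_option autoImplicit false
open Cfsg

namespace Cfsg.Agent.S3202

open scoped commutatorElement


/-- Let S be a finite 2-group of 2-rank exactly 2 and D a maximal subgroup of the centre of S such that S/D is a non-abelian group with exactly one involution (a generalized quaternion group). Then S has a nontrivial cyclic characteristic subgroup. -/
theorem result {S : Type*} [Group S]
    [Finite S] (hS : IsPGroup 2 S) (hr2 : Cfsg.PRankLE 2 2 S) (hr1 : ¬ Cfsg.PRankLE 2 1 S)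
    (D : Subgroup ↥(Subgroup.center S)) (hD : IsCoatom D)
    (hq : ∃ (_ : (D.map (Subgroup.center S).subtype).Normal),
      ¬ IsMulCommutative (S ⧸ D.map (Subgroup.center S).subtype) ∧
      ∃! x : S ⧸ D.map (Subgroup.center S).subtype, orderOf x = 2) :
    ∃ C : Subgroup S, C ≠ ⊥ ∧ IsCyclic ↥C ∧ C.Characteristic := by
  classical
  obtain ⟨hN, hnc, zb, hzb, hzu⟩ := hq
  have := hN
  have hNc : D.map (Subgroup.center S).subtype ≤ Subgroup.center S := by
    intro n hn
    obtain ⟨d, -, rfl⟩ := Subgroup.mem_map.mp hn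
    exact d.2
  obtain ⟨a, y, k, hk2, hka, hcard, hya, he, hyy, haz, hcov⟩ :=
    Cfsg.Agent.Helper53.quat_quotient_lift hS _ hnc zb hzb hzu
  have hSnc : commutator S ≠ ⊥ := by
    intro h
    rw [commutator_eq_bot_iff_center_eq_top] at h
    apply hnc
    refine ⟨⟨fun g h' => ?_⟩⟩
    obtain ⟨g, rfl⟩ := QuotientGroup.mk_surjective g
    obtain ⟨h', rfl⟩ := QuotientGroup.mk_surjective h'
    have h1 : g ∈ Subgroup.center S := by rw [h]; trivial
    have h2 := Subgroup.mem_center_iff.mp h1 h'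
    have h3 : ((g * h' : S) : S ⧸ D.map (Subgroup.center S).subtype) = ((h' * g : S) : S ⧸ _) := by
      rw [h2]
    exact h3
  refine ⟨commutator S, hSnc, ?_, inferInstance⟩
  obtain ⟨d, hd⟩ : ∃ d, d = y * a * y⁻¹ * a := ⟨_, rfl⟩
  have hdN : d ∈ D.map (Subgroup.center S).subtype := by rw [hd]; exact he
  have hdc : ∀ g : S, g * d = d * g := Subgroup.mem_center_iff.mp (hNc hdN)
  obtain ⟨c, hc⟩ : ∃ c, c = y * a * y⁻¹ * a⁻¹ := ⟨_, rfl⟩
  have hcd : c = d * a⁻¹ * a⁻¹ := by rw [hc, hd]; group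
  have hR : y * a * y⁻¹ = d * a⁻¹ := by rw [hd]; group
  have hac : a * c * a⁻¹ = c := by
    rw [hcd]
    calc a * (d * a⁻¹ * a⁻¹) * a⁻¹ = (a * d) * a⁻¹ * a⁻¹ * a⁻¹ := by group
      _ = (d * a) * a⁻¹ * a⁻¹ * a⁻¹ := by rw [hdc a]
      _ = d * a⁻¹ * a⁻¹ := by group
  have hyc : y * c * y⁻¹ = c⁻¹ := by
    rw [hcd]
    calc y * (d * a⁻¹ * a⁻¹) * y⁻¹ = (y * d) * y⁻¹ * (y * a * y⁻¹)⁻¹ * (y * a * y⁻¹)⁻¹ := by group
      _ = (d * y) * y⁻¹ * (d * a⁻¹)⁻¹ * (d * a⁻¹)⁻¹ := by rw [hdc y, hR]
      _ = (d * a) * d⁻¹ * a * d⁻¹ := by simp [mul_assoc]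
      _ = (a * d) * d⁻¹ * a * d⁻¹ := by rw [hdc a]
      _ = (d * a⁻¹ * a⁻¹)⁻¹ := by simp [mul_assoc]
  have hX : Subgroup.closure (({a, y} : Set S) ∪ (D.map (Subgroup.center S).subtype : Set S)) = ⊤ := by
    rw [eq_top_iff]
    intro s _
    have haX : a ∈ Subgroup.closure (({a, y} : Set S) ∪ (D.map (Subgroup.center S).subtype : Set S)) :=
      Subgroup.subset_closure (Or.inl (by simp))
    have hyX : y ∈ Subgroup.closure (({a, y} : Set S) ∪ (D.map (Subgroup.center S).subtype : Set S)) :=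
      Subgroup.subset_closure (Or.inl (by simp))
    have hNX : ∀ n ∈ D.map (Subgroup.center S).subtype,
        n ∈ Subgroup.closure (({a, y} : Set S) ∪ (D.map (Subgroup.center S).subtype : Set S)) :=
      fun n hn => Subgroup.subset_closure (Or.inr hn)
    rcases hcov s with ⟨i, hi⟩ | ⟨i, hi⟩
    · have : s = a ^ i * ((a ^ i)⁻¹ * s) := by group
      rw [this]
      exact Subgroup.mul_mem _ (Subgroup.zpow_mem _ haX i) (hNX _ hi)
    · have : s = a ^ i * ((a ^ i)⁻¹ * (s * y⁻¹)) * y := by group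
      rw [this]
      exact Subgroup.mul_mem _ (Subgroup.mul_mem _ (Subgroup.zpow_mem _ haX i) (hNX _ hi)) hyX
  have hnorm : (Subgroup.zpowers c).Normal := by
    apply Cfsg.Agent.Helper73.zpowers_normal_of_gens _ hX c
    intro s hs
    rcases hs with hs | hs
    · have hs' : s = a ∨ s = y := hs
      rcases hs' with hs' | hs'
      · left; rw [hs']; exact hac
      · right; rw [hs']; exact hyc
    · left
      have h1 := Subgroup.mem_center_iff.mp (hNc hs) c
      rw [← h1]; group
  have hle : commutator S ≤ Subgroup.zpowers c := by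
    apply Cfsg.Agent.Helper73.commutator_le_of_gens _ hX
    intro s hs t ht
    have hcentral_l : ∀ s t : S, s ∈ Subgroup.center S → ⁅s, t⁆ = 1 := by
      intro s t hs
      rw [commutatorElement_def, ← Subgroup.mem_center_iff.mp hs t]; group
    have hcentral_r : ∀ s t : S, t ∈ Subgroup.center S → ⁅s, t⁆ = 1 := by
      intro s t ht
      rw [commutatorElement_def, Subgroup.mem_center_iff.mp ht s]; group
    rcases hs with hs | hs
    · rcases ht with ht | ht
      · have hs' : s = a ∨ s = y := hs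
        have ht' : t = a ∨ t = y := ht
        rcases hs' with hs' | hs' <;> rcases ht' with ht' | ht'
        · rw [hs', ht', commutatorElement_self]; exact Subgroup.one_mem _
        · rw [hs', ht']
          have : ⁅a, y⁆ = c⁻¹ := by rw [hc, commutatorElement_def]; group
          rw [this]; exact Subgroup.inv_mem _ (Subgroup.mem_zpowers c)
        · rw [hs', ht']
          have : ⁅y, a⁆ = c := by rw [hc, commutatorElement_def]
          rw [this]; exact Subgroup.mem_zpowers c
        · rw [hs', ht', commutatorElement_self]; exact Subgroup.one_mem _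
      · rw [hcentral_r s t (hNc ht)]; exact Subgroup.one_mem _
    · rw [hcentral_l s t (hNc hs)]; exact Subgroup.one_mem _
  exact Subgroup.isCyclic_of_le hle

end Cfsg.Agent.S3202
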