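import Cfsg.Statements.S3208
import Cfsg.Agent.Helper53.PGroup

set_option autoImplicit false
open Cfsg

namespace Cfsg.Agent.S3208

open Cfsg.Agent.Helper53

/-- Let j be an involution of a finite group G, H a subgroup of G, and T a Sylow 2-subgroup of H ∩ C_G(j) containing j such that ⟨j⟩ is a characteristic subgroup of T. Then T is a Sylow 2-subgroup of H. -/
theorem result {G : Type*} [Group G] [Finite G]
    (j : G) (hj : orderOf j = 2) (H T : Subgroup G) (hT : T ≤ H ⊓ Subgroup.centralizer ({j} : Set G)) (h2 : IsPGroup 2 ↥T)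
    (hSyl : ¬ 2 ∣ T.relIndex (H ⊓ Subgroup.centralizer ({j} : Set G))) (hjT : j ∈ T)
    (hchar : ((Subgroup.zpowers j).subgroupOf T).Characteristic) :
    ¬ 2 ∣ T.relIndex H := by
  intro hdvd
  have : Fact (Nat.Prime 2) := ⟨Nat.prime_two⟩
  obtain ⟨Q, hQ, hTQ, hQH⟩ := exists_isPGroup_lt_of_dvd_relIndex h2 (hT.trans inf_le_left) hdvd
  obtain ⟨x, hxQ, hxT, hxN⟩ := exists_mem_normalizer_not_mem hQ hTQ
  -- x centralizes j, because ⟨j⟩ is characteristic in T
  have hjle : Subgroup.zpowers j ≤ T := by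
    rw [Subgroup.zpowers_le]; exact hjT
  have h1 : x * j * x⁻¹ ∈ Subgroup.zpowers j :=
    conj_mem_of_characteristic hjle hchar hxN (Subgroup.mem_zpowers j)
  have hj1 : j ≠ 1 := by
    intro h
    rw [h, orderOf_one] at hj
    norm_num at hj
  have hj2 : j ^ 2 = 1 := by
    rw [← hj]; exact pow_orderOf_eq_one j
  have hxj : x * j * x⁻¹ = j := by
    obtain ⟨k, hk⟩ := Subgroup.mem_zpowers_iff.mp h1
    rcases Int.even_or_odd k with ⟨m, hm⟩ | ⟨m, hm⟩
    · exfalso
      have h3 : j ^ k = 1 := by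
        rw [hm, ← two_mul, zpow_mul, zpow_ofNat, hj2, one_zpow]
      rw [h3] at hk
      apply hj1
      have : x⁻¹ * (x * j * x⁻¹) * x = 1 := by rw [← hk]; group
      simpa [mul_assoc] using this
    · have h3 : j ^ k = j := by
        rw [hm, zpow_add, zpow_mul, zpow_ofNat, hj2, one_zpow, one_mul, zpow_one]
      rw [← hk, h3]
  have hxC : x ∈ Subgroup.centralizer ({j} : Set G) := by
    rw [Subgroup.mem_centralizer_iff]
    intro y hy
    rw [Set.mem_singleton_iff] at hy
    subst hy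
    have : x * y * x⁻¹ * x = y * x := by rw [hxj]
    simpa [mul_assoc] using this.symm
  -- K = T ⊔ ⟨x⟩ is a 2-group inside H ∩ C(j) properly containing T
  have hK : IsPGroup 2 (T ⊔ Subgroup.zpowers x : Subgroup G) :=
    hQ.to_le (sup_le hTQ.le (by rw [Subgroup.zpowers_le]; exact hxQ))
  have hTK : T < T ⊔ Subgroup.zpowers x := by
    refine lt_of_le_of_ne le_sup_left ?_
    intro heq
    apply hxT
    rw [heq]
    exact (le_sup_right : Subgroup.zpowers x ≤ _) (Subgroup.mem_zpowers x)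
  have hKL : T ⊔ Subgroup.zpowers x ≤ H ⊓ Subgroup.centralizer ({j} : Set G) := by
    refine sup_le hT ?_
    rw [Subgroup.zpowers_le]
    exact ⟨hQH hxQ, hxC⟩
  exact hSyl (dvd_relIndex_of_lt_isPGroup hK hTK hKL)

end Cfsg.Agent.S3208
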