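import Cfsg.Statements.S3209
import Cfsg.Agent.Helper53.SL2Pair

set_option autoImplicit false
open Cfsg

namespace Cfsg.Agent.S3209

/-- Let L₁ ≅ SL₂(q₁) and L₂ ≅ SL₂(q₂), q₁ and q₂ odd, be elementwise-commuting subgroups of a finite group meeting in ⟨j⟩ for an involution j. Then L₁L₂ has exactly two conjugacy classes of involutions: the central involution j, and one further class (there is an involution x ≠ j in L₁L₂, and every involution of L₁L₂ other than j is conjugate to x by an element of L₁L₂). -/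
theorem result {G : Type*} [Group G] [Finite G]
    {F₁ : Type*} [Field F₁] [Fintype F₁] {F₂ : Type*} [Field F₂] [Fintype F₂]
    (hF₁ : Odd (Fintype.card F₁)) (hF₂ : Odd (Fintype.card F₂)) (L₁ L₂ : Subgroup G)
    (e₁ : ↥L₁ ≃* Matrix.SpecialLinearGroup (Fin 2) F₁) (e₂ : ↥L₂ ≃* Matrix.SpecialLinearGroup (Fin 2) F₂)
    (hc : ∀ x ∈ L₁, ∀ y ∈ L₂, x * y = y * x) (j : G) (hj : orderOf j = 2) (hm : L₁ ⊓ L₂ = Subgroup.zpowers j) :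
    ∃ x ∈ L₁ ⊔ L₂, orderOf x = 2 ∧ x ≠ j ∧
      ∀ y ∈ L₁ ⊔ L₂, orderOf y = 2 → y = j ∨ ∃ g ∈ L₁ ⊔ L₂, g * x * g⁻¹ = y := by
  have hjmem : j ∈ L₁ ⊓ L₂ := by rw [hm]; exact Subgroup.mem_zpowers j
  have hjL₁ : j ∈ L₁ := (Subgroup.mem_inf.mp hjmem).1
  have hjL₂ : j ∈ L₂ := (Subgroup.mem_inf.mp hjmem).2
  have hj1 : j ≠ 1 := by intro h; rw [h, orderOf_one] at hj; omega
  have hjj : j * j = 1 := by rw [← pow_two, ← hj, pow_orderOf_eq_one]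
  have hjinv : j⁻¹ = j := inv_eq_of_mul_eq_one_left hjj
  have hzp : ∀ x ∈ L₁ ⊓ L₂, x = 1 ∨ x = j := by
    intro x hx
    rw [hm] at hx
    obtain ⟨k, rfl⟩ := Subgroup.mem_zpowers_iff.mp hx
    rcases Int.even_or_odd k with ⟨m, rfl⟩ | ⟨m, rfl⟩
    · left
      rw [← two_mul, zpow_mul, zpow_two, hjj, one_zpow]
    · right
      rw [zpow_add, zpow_mul, zpow_two, hjj, one_zpow, one_mul, zpow_one]
  obtain ⟨hinv₁, a₀, ha₀L, ha₀2, hconj₁⟩ := Cfsg.Agent.Helper53.sl2_subgroup_invol hF₁ L₁ e₁ j hjL₁ hj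
  obtain ⟨hinv₂, b₀, hb₀L, hb₀2, hconj₂⟩ := Cfsg.Agent.Helper53.sl2_subgroup_invol hF₂ L₂ e₂ j hjL₂ hj
  have hab₀ : a₀ * b₀ = b₀ * a₀ := hc a₀ ha₀L b₀ hb₀L
  have hx2 : (a₀ * b₀) ^ 2 = 1 := by
    rw [(show Commute a₀ b₀ from hab₀).mul_pow, ha₀2, hb₀2, hjj]
  have ha₀L₂ : a₀ ∉ L₂ := by
    intro h
    rcases hzp a₀ (Subgroup.mem_inf.mpr ⟨ha₀L, h⟩) with h1 | h1
    · rw [h1, one_pow] at ha₀2; exact hj1 ha₀2.symm
    · rw [h1, pow_two, hjj] at ha₀2; exact hj1 ha₀2.symm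
  have hx1 : a₀ * b₀ ≠ 1 := by
    intro h
    apply ha₀L₂
    have h3 : a₀ = b₀⁻¹ := eq_inv_of_mul_eq_one_left h
    rw [h3]; exact L₂.inv_mem hb₀L
  have hxj : a₀ * b₀ ≠ j := by
    intro h
    apply ha₀L₂
    have h3 : a₀ = j * b₀⁻¹ := by rw [← h]; group
    rw [h3]; exact L₂.mul_mem hjL₂ (L₂.inv_mem hb₀L)
  refine ⟨a₀ * b₀, Subgroup.mul_mem _ (Subgroup.mem_sup_left ha₀L) (Subgroup.mem_sup_right hb₀L),
    orderOf_eq_prime hx2 hx1, hxj, ?_⟩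
  intro y hy hyo
  obtain ⟨a, ha, b, hb, rfl⟩ := Cfsg.Agent.Helper53.exists_mul_of_mem_sup_of_commute L₁ L₂ hc hy
  have hab : a * b = b * a := hc a ha b hb
  have hy2 : a ^ 2 * b ^ 2 = 1 := by
    rw [← (show Commute a b from hab).mul_pow, ← hyo, pow_orderOf_eq_one]
  have hy1 : a * b ≠ 1 := by
    intro h; rw [h, orderOf_one] at hyo; omega
  have ha2mem : a ^ 2 ∈ L₁ ⊓ L₂ := by
    refine Subgroup.mem_inf.mpr ⟨L₁.pow_mem ha 2, ?_⟩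
    have h3 : a ^ 2 = (b ^ 2)⁻¹ := eq_inv_of_mul_eq_one_left hy2
    rw [h3]; exact L₂.inv_mem (L₂.pow_mem hb 2)
  rcases hzp _ ha2mem with h1 | h1
  · left
    have hb2 : b ^ 2 = 1 := by rw [h1, one_mul] at hy2; exact hy2
    rcases hinv₁ a ha h1 with h3 | h3 <;> rcases hinv₂ b hb hb2 with h4 | h4
    · rw [h3, h4, one_mul] at hy1; exact absurd rfl hy1
    · rw [h3, h4, one_mul]
    · rw [h3, h4, mul_one]
    · rw [h3, h4] at hy1; exact absurd hjj hy1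
  · right
    have hb2 : b ^ 2 = j := by
      rw [h1] at hy2
      have h3 : b ^ 2 = j⁻¹ := eq_inv_of_mul_eq_one_right hy2
      rw [h3, hjinv]
    obtain ⟨g₁, hg₁, hga⟩ := hconj₁ a ha h1
    obtain ⟨g₂, hg₂, hgb⟩ := hconj₂ b hb hb2
    refine ⟨g₁ * g₂, Subgroup.mul_mem _ (Subgroup.mem_sup_left hg₁) (Subgroup.mem_sup_right hg₂), ?_⟩
    have c1 : g₂ * a₀ = a₀ * g₂ := (hc a₀ ha₀L g₂ hg₂).symm
    have c2 : b * g₁⁻¹ = g₁⁻¹ * b := (hc g₁⁻¹ (L₁.inv_mem hg₁) b hb).symm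
    calc g₁ * g₂ * (a₀ * b₀) * (g₁ * g₂)⁻¹ = g₁ * (g₂ * a₀) * b₀ * g₂⁻¹ * g₁⁻¹ := by group
      _ = g₁ * (a₀ * g₂) * b₀ * g₂⁻¹ * g₁⁻¹ := by rw [c1]
      _ = g₁ * a₀ * (g₂ * b₀ * g₂⁻¹) * g₁⁻¹ := by group
      _ = g₁ * a₀ * (b * g₁⁻¹) := by rw [hgb]; group
      _ = g₁ * a₀ * (g₁⁻¹ * b) := by rw [c2]
      _ = (g₁ * a₀ * g₁⁻¹) * b := by group
      _ = a * b := by rw [hga]

end Cfsg.Agent.S3209
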