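import Cfsg.Statements.S3210
import Mathlib
import Cfsg.Agent.Helper42.SL2

set_option autoImplicit false
open Cfsg

namespace Cfsg.Agent.S3210

open Matrix

section sl2
variable {F : Type*} [Field F]

theorem sl2_concrete (h2 : (2 : F) ≠ 0) :
    ∃ z : Matrix.SpecialLinearGroup (Fin 2) F, z ≠ 1 ∧ z * z = 1 ∧
      (∀ g : Matrix.SpecialLinearGroup (Fin 2) F, g * g = 1 → g = 1 ∨ g = z) ∧
      ∃ w d : Matrix.SpecialLinearGroup (Fin 2) F, w * w = z ∧ d * d = z ∧ w * d ≠ d * w ∧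
        ∀ b : Matrix.SpecialLinearGroup (Fin 2) F, b * w = w * b → b * d = d * b →
          b = 1 ∨ b = z := by
  obtain ⟨z, hz⟩ : ∃ z : Matrix.SpecialLinearGroup (Fin 2) F, z.1 = !![-1, 0; 0, -1] :=
    ⟨⟨!![-1, 0; 0, -1], by simp [Matrix.det_fin_two]⟩, rfl⟩
  obtain ⟨w, hw⟩ : ∃ w : Matrix.SpecialLinearGroup (Fin 2) F, w.1 = !![0, 1; -1, 0] :=
    ⟨⟨!![0, 1; -1, 0], by simp [Matrix.det_fin_two]⟩, rfl⟩
  obtain ⟨d, hd⟩ : ∃ d : Matrix.SpecialLinearGroup (Fin 2) F, d.1 = !![1, 1; -2, -1] :=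
    ⟨⟨!![1, 1; -2, -1], by simp [Matrix.det_fin_two]; ring⟩, rfl⟩
  refine ⟨z, ?_, ?_, ?_, w, d, ?_, ?_, ?_, ?_⟩
  · intro h
    have h00 := congrArg (fun m : Matrix.SpecialLinearGroup (Fin 2) F => m.1 0 0) h
    simp [hz] at h00
    apply h2
    linear_combination -h00
  · apply Subtype.ext
    ext i j
    fin_cases i <;> fin_cases j <;>
      simp [Matrix.SpecialLinearGroup.coe_mul, Matrix.mul_apply, Fin.sum_univ_two, hz]
  · intro g hg
    have hdet := Cfsg.Agent.Helper42.SL2.det_eq g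
    have e00 := congrArg (fun m : Matrix.SpecialLinearGroup (Fin 2) F => m.1 0 0) hg
    have e01 := congrArg (fun m : Matrix.SpecialLinearGroup (Fin 2) F => m.1 0 1) hg
    have e10 := congrArg (fun m : Matrix.SpecialLinearGroup (Fin 2) F => m.1 1 0) hg
    have e11 := congrArg (fun m : Matrix.SpecialLinearGroup (Fin 2) F => m.1 1 1) hg
    simp only [Matrix.SpecialLinearGroup.coe_mul, Matrix.mul_apply, Fin.sum_univ_two,
      Matrix.SpecialLinearGroup.coe_one, Matrix.one_apply_eq, ne_eq, zero_ne_one,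
      not_false_eq_true, Matrix.one_apply_ne, one_ne_zero] at e00 e01 e10 e11
    have hs : g.1 0 0 + g.1 1 1 ≠ 0 := by
      intro hs
      apply h2
      have hd : g.1 1 1 = -g.1 0 0 := by linear_combination hs
      rw [hd] at hdet
      linear_combination -e00 - hdet
    have hb : g.1 0 1 = 0 := by
      have : g.1 0 1 * (g.1 0 0 + g.1 1 1) = 0 := by linear_combination e01
      rcases mul_eq_zero.1 this with h | h
      · exact h
      · exact absurd h hs
    have hc : g.1 1 0 = 0 := by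
      have : g.1 1 0 * (g.1 0 0 + g.1 1 1) = 0 := by linear_combination e10
      rcases mul_eq_zero.1 this with h | h
      · exact h
      · exact absurd h hs
    rw [hb, hc] at hdet e00 e11
    have had : g.1 1 1 = g.1 0 0 := by
      linear_combination (-g.1 1 1) * e00 + g.1 0 0 * hdet
    have ha : (g.1 0 0 - 1) * (g.1 0 0 + 1) = 0 := by linear_combination e00
    rcases mul_eq_zero.1 ha with h | h
    · left
      apply Cfsg.Agent.Helper42.SL2.sl_ext
      · simp; linear_combination h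
      · simp [hb]
      · simp [hc]
      · simp; rw [had]; linear_combination h
    · right
      apply Cfsg.Agent.Helper42.SL2.sl_ext
      · simp [hz]; linear_combination h
      · simp [hb, hz]
      · simp [hc, hz]
      · simp [hz]; rw [had]; linear_combination h
  · apply Subtype.ext
    ext i j
    fin_cases i <;> fin_cases j <;>
      simp [Matrix.SpecialLinearGroup.coe_mul, Matrix.mul_apply, Fin.sum_univ_two, hz, hw]
  · apply Subtype.ext
    ext i j
    fin_cases i <;> fin_cases j <;>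
      simp [Matrix.SpecialLinearGroup.coe_mul, Matrix.mul_apply, Fin.sum_univ_two, hz, hd] <;>
      ring
  · intro h
    have h00 := congrArg (fun m : Matrix.SpecialLinearGroup (Fin 2) F => m.1 0 0) h
    simp [Matrix.SpecialLinearGroup.coe_mul, Matrix.mul_apply, Fin.sum_univ_two, hw, hd] at h00
    have : (1 : F) = 0 := by linear_combination h00
    exact one_ne_zero this
  · intro b hbw hbd
    have hdet := Cfsg.Agent.Helper42.SL2.det_eq b
    have w00 := congrArg (fun m : Matrix.SpecialLinearGroup (Fin 2) F => m.1 0 0) hbw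
    have w01 := congrArg (fun m : Matrix.SpecialLinearGroup (Fin 2) F => m.1 0 1) hbw
    have d00 := congrArg (fun m : Matrix.SpecialLinearGroup (Fin 2) F => m.1 0 0) hbd
    simp [Matrix.SpecialLinearGroup.coe_mul, Matrix.mul_apply, Fin.sum_univ_two, hw, hd]
      at w00 w01 d00
    have hr : b.1 1 0 = -b.1 0 1 := by linear_combination -w00
    have hs : b.1 1 1 = b.1 0 0 := by linear_combination -w01
    have hq : b.1 0 1 = 0 := by
      rw [hr] at d00
      linear_combination -d00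
    rw [hq, neg_zero] at hr
    rw [hq, hr, hs] at hdet
    have ha : (b.1 0 0 - 1) * (b.1 0 0 + 1) = 0 := by linear_combination hdet
    rcases mul_eq_zero.1 ha with h | h
    · left
      apply Cfsg.Agent.Helper42.SL2.sl_ext
      · simp; linear_combination h
      · simp [hq]
      · simp [hr]
      · simp; rw [hs]; linear_combination h
    · right
      apply Cfsg.Agent.Helper42.SL2.sl_ext
      · simp [hz]; linear_combination h
      · simp [hq, hz]
      · simp [hr, hz]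
      · simp [hz]; rw [hs]; linear_combination h

end sl2

section grp
variable {G : Type*} [Group G]

/-- the data of the two commuting `SL₂`'s. -/
structure Hyp (A B N : Subgroup G) (j : G) : Prop where
  hc : ∀ x ∈ A, ∀ y ∈ B, x * y = y * x
  hm : ∀ x, x ∈ A → x ∈ B → x = 1 ∨ x = j
  hN : ∀ x ∈ N, ∃ a ∈ A, ∃ b ∈ B, x = a * b
  hAN : A ≤ N
  hBN : B ≤ N
  hjA : j ∈ A
  hjB : j ∈ B
  hj1 : j ≠ 1
  hj2 : j * j = 1
  uA : ∀ b ∈ A, b * b = 1 → b = 1 ∨ b = j
  uB : ∀ b ∈ B, b * b = 1 → b = 1 ∨ b = j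
  exA : ∃ w ∈ A, ∃ d ∈ A, w * w = j ∧ d * d = j ∧ w * d ≠ d * w ∧
    ∀ b ∈ A, b * w = w * b → b * d = d * b → b = 1 ∨ b = j
  exB : ∃ w ∈ B, ∃ d ∈ B, w * w = j ∧ d * d = j ∧ w * d ≠ d * w ∧
    ∀ b ∈ B, b * w = w * b → b * d = d * b → b = 1 ∨ b = j

theorem Hyp.symm {A B N : Subgroup G} {j : G} (H : Hyp A B N j) : Hyp B A N j where
  hc := fun x hx y hy => (H.hc y hy x hx).symm
  hm := fun x hx hy => H.hm x hy hx
  hN := fun x hx => by
    obtain ⟨a, ha, b, hb, rfl⟩ := H.hN x hx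
    exact ⟨b, hb, a, ha, H.hc a ha b hb⟩
  hAN := H.hBN
  hBN := H.hAN
  hjA := H.hjB
  hjB := H.hjA
  hj1 := H.hj1
  hj2 := H.hj2
  uA := H.uB
  uB := H.uA
  exA := H.exB
  exB := H.exA

theorem Hyp.split {A B N : Subgroup G} {j : G} (H : Hyp A B N j) {x : G} (hx : x ∈ N)
    (h2 : x * x = j) : x ∈ A ∨ x ∈ B := by
  obtain ⟨a, ha, b, hb, rfl⟩ := H.hN x hx
  have hab := H.hc a ha b hb
  have e : (a * a) * (b * b) = j := by
    rw [← h2]
    calc a * a * (b * b) = a * (a * b) * b := by group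
      _ = a * (b * a) * b := by rw [hab]
      _ = a * b * (a * b) := by group
  have haB : a * a ∈ B := by
    have : a * a = j * (b * b)⁻¹ := by rw [← e]; group
    rw [this]
    exact B.mul_mem H.hjB (B.inv_mem (B.mul_mem hb hb))
  rcases H.hm (a * a) (A.mul_mem ha ha) haB with h | h
  · right
    rcases H.uA a ha h with h' | h'
    · rw [h', one_mul]; exact hb
    · rw [h']; exact B.mul_mem H.hjB hb
  · left
    have hb2 : b * b = 1 := by
      rw [h] at e
      have : j * (b * b) = j * 1 := by rw [e, mul_one]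
      exact mul_left_cancel this
    rcases H.uB b hb hb2 with h' | h'
    · rw [h', mul_one]; exact ha
    · rw [h']; exact A.mul_mem ha H.hjA

theorem Hyp.not_both {A B N : Subgroup G} {j : G} (H : Hyp A B N j) {x : G} (hxA : x ∈ A)
    (hxB : x ∈ B) (h2 : x * x = j) : False := by
  rcases H.hm x hxA hxB with h | h
  · rw [h, one_mul] at h2
    exact H.hj1 h2.symm
  · rw [h, H.hj2] at h2
    exact H.hj1 h2.symm

/-- commuting elements of `A` squaring to `j` are equal up to `j`. -/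
theorem Hyp.uniq {A B N : Subgroup G} {j : G} (H : Hyp A B N j) {x y : G} (hx : x ∈ A)
    (hy : y ∈ A) (hx2 : x * x = j) (hy2 : y * y = j) (hxy : x * y = y * x) :
    x = y ∨ x = j * y := by
  have hb : (x * y⁻¹) * (x * y⁻¹) = 1 := by
    have h1 : y⁻¹ * x = x * y⁻¹ := by
      calc y⁻¹ * x = y⁻¹ * (x * y) * y⁻¹ := by group
        _ = y⁻¹ * (y * x) * y⁻¹ := by rw [hxy]
        _ = x * y⁻¹ := by group
    calc x * y⁻¹ * (x * y⁻¹) = x * (y⁻¹ * x) * y⁻¹ := by group
      _ = x * (x * y⁻¹) * y⁻¹ := by rw [h1]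
      _ = (x * x) * (y * y)⁻¹ := by group
      _ = 1 := by rw [hx2, hy2, mul_inv_cancel]
  rcases H.uA _ (A.mul_mem hx (A.inv_mem hy)) hb with h | h
  · left
    calc x = (x * y⁻¹) * y := by group
      _ = y := by rw [h, one_mul]
  · right
    calc x = (x * y⁻¹) * y := by group
      _ = j * y := by rw [h]

/-- the relation separating the two sides. -/
def Rel (N : Subgroup G) (j : G) (x y : G) : Prop :=
  x * y ≠ y * x ∨ ∃ h, h ∈ N ∧ h * h = j ∧ x * h ≠ h * x ∧ h * y ≠ y * h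

theorem Hyp.rel_same {A B N : Subgroup G} {j : G} (H : Hyp A B N j) {x y : G} (hx : x ∈ A)
    (hy : y ∈ A) (hx2 : x * x = j) (hy2 : y * y = j) : Rel N j x y := by
  by_cases hxy : x * y = y * x
  swap
  · exact Or.inl hxy
  right
  obtain ⟨w, hw, d, hd, hw2, hd2, hwd, -⟩ := H.exA
  have hjx : j * x = x * j := by rw [← hx2, mul_assoc]
  -- some `h ∈ {w, d}` does not commute with `x`
  have key : ∃ h ∈ A, h * h = j ∧ x * h ≠ h * x := by
    by_contra hcon
    push Not at hcon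
    have h1 := hcon w hw hw2
    have h2 := hcon d hd hd2
    have c1 := H.uniq hx hw hx2 hw2 h1
    have c2 := H.uniq hx hd hx2 hd2 h2
    -- `w, d ∈ {x, j x}` hence commute
    have hw' : w = x ∨ w = j * x := by
      rcases c1 with c | c
      · exact Or.inl c.symm
      · right
        rw [c, ← mul_assoc, H.hj2, one_mul]
    have hd' : d = x ∨ d = j * x := by
      rcases c2 with c | c
      · exact Or.inl c.symm
      · right
        rw [c, ← mul_assoc, H.hj2, one_mul]
    apply hwd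
    rcases hw' with c | c <;> rcases hd' with c' | c'
    · rw [c, c']
    · rw [c, c', ← mul_assoc, ← hjx]
    · rw [c, c', ← mul_assoc x, ← hjx]
    · rw [c, c']
  obtain ⟨h, hhA, hh2, hxh⟩ := key
  refine ⟨h, H.hAN hhA, hh2, hxh, ?_⟩
  intro hhy
  apply hxh
  have hjh : j * h = h * j := by rw [← hh2, mul_assoc]
  rcases H.uniq hx hy hx2 hy2 hxy with c | c
  · rw [c]; exact hhy.symm
  · rw [c]
    calc j * y * h = j * (y * h) := by group
      _ = j * (h * y) := by rw [hhy]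
      _ = (j * h) * y := by group
      _ = (h * j) * y := by rw [hjh]
      _ = h * (j * y) := by group

theorem Hyp.rel_diff {A B N : Subgroup G} {j : G} (H : Hyp A B N j) {x y : G} (hx : x ∈ A)
    (hy : y ∈ B) : ¬ Rel N j x y := by
  rintro (h | ⟨h, hhN, hh2, h1, h2⟩)
  · exact h (H.hc x hx y hy)
  · rcases H.split hhN hh2 with hh | hh
    · exact h2 (H.hc h hh y hy)
    · exact h1 (H.hc x hx h hh)

/-- conjugation. -/
def cj (m x : G) : G := m * x * m⁻¹

theorem cj_mul (m x y : G) : cj m (x * y) = cj m x * cj m y := by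
  unfold cj; group

theorem cj_inv_cj (m x : G) : cj m⁻¹ (cj m x) = x := by
  unfold cj; group

theorem cj_cj_inv (m x : G) : cj m (cj m⁻¹ x) = x := by
  unfold cj; group

theorem cj_injective (m : G) {x y : G} (h : cj m x = cj m y) : x = y := by
  have := congrArg (cj m⁻¹) h
  rwa [cj_inv_cj, cj_inv_cj] at this

/-- `m` normalises `N` and centralises `j`. -/
def NormC (N : Subgroup G) (j m : G) : Prop := cj m j = j ∧ ∀ x ∈ N, cj m x ∈ N

theorem rel_cj {N : Subgroup G} {j m : G} (hm : NormC N j m) {x y : G} (h : Rel N j x y) :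
    Rel N j (cj m x) (cj m y) := by
  rcases h with h | ⟨h, hhN, hh2, h1, h2⟩
  · left
    intro h'
    apply h
    rw [← cj_mul, ← cj_mul] at h'
    exact cj_injective m h'
  · right
    refine ⟨cj m h, hm.2 h hhN, ?_, ?_, ?_⟩
    · rw [← cj_mul, hh2, hm.1]
    · intro h'
      apply h1
      rw [← cj_mul, ← cj_mul] at h'
      exact cj_injective m h'
    · intro h'
      apply h2
      rw [← cj_mul, ← cj_mul] at h'
      exact cj_injective m h'

theorem cj_sq {N : Subgroup G} {j m : G} (hm : NormC N j m) {g : G} (hg : g * g = j) :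
    cj m g * cj m g = j := by
  rw [← cj_mul, hg, hm.1]

theorem Hyp.k_same {A B N : Subgroup G} {j m : G} (H : Hyp A B N j) (hm : NormC N j m)
    (hm' : NormC N j m⁻¹) {g₀ : G} (hg₀ : g₀ ∈ A) (hg₀2 : g₀ * g₀ = j) (hc₀ : cj m g₀ ∈ A) :
    (∀ g ∈ A, g * g = j → cj m g ∈ A) ∧ (∀ g ∈ B, g * g = j → cj m g ∈ B) := by
  constructor
  · intro g hg hg2
    have hR := rel_cj hm (H.rel_same hg hg₀ hg2 hg₀2)
    rcases H.split (hm.2 g (H.hAN hg)) (cj_sq hm hg2) with h | h
    · exact h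
    · exact absurd hR (H.symm.rel_diff h hc₀)
  · intro g hg hg2
    rcases H.split (hm.2 g (H.hBN hg)) (cj_sq hm hg2) with h | h
    · have hR := rel_cj hm' (H.rel_same h hc₀ (cj_sq hm hg2) (cj_sq hm hg₀2))
      rw [cj_inv_cj, cj_inv_cj] at hR
      exact absurd hR (H.symm.rel_diff hg hg₀)
    · exact h

theorem Hyp.k_swap {A B N : Subgroup G} {j m : G} (H : Hyp A B N j) (hm : NormC N j m)
    (hm' : NormC N j m⁻¹) {g₀ : G} (hg₀ : g₀ ∈ A) (hg₀2 : g₀ * g₀ = j) (hc₀ : cj m g₀ ∈ B) :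
    (∀ g ∈ A, g * g = j → cj m g ∈ B) ∧ (∀ g ∈ B, g * g = j → cj m g ∈ A) := by
  constructor
  · intro g hg hg2
    have hR := rel_cj hm (H.rel_same hg hg₀ hg2 hg₀2)
    rcases H.split (hm.2 g (H.hAN hg)) (cj_sq hm hg2) with h | h
    · exact absurd hR (H.rel_diff h hc₀)
    · exact h
  · intro g hg hg2
    rcases H.split (hm.2 g (H.hBN hg)) (cj_sq hm hg2) with h | h
    · exact h
    · have hR := rel_cj hm' (H.symm.rel_same h hc₀ (cj_sq hm hg2) (cj_sq hm hg₀2))
      rw [cj_inv_cj, cj_inv_cj] at hR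
      exact absurd hR (H.symm.rel_diff hg hg₀)

theorem Hyp.c_same {A B N : Subgroup G} {j m : G} (H : Hyp A B N j) (hm : NormC N j m)
    (hB' : ∀ g ∈ B, g * g = j → cj m⁻¹ g ∈ B) : ∀ x ∈ A, cj m x ∈ A := by
  intro x hx
  obtain ⟨a, ha, b, hb, hab⟩ := H.hN _ (hm.2 x (H.hAN hx))
  obtain ⟨w, hw, d, hd, hw2, hd2, -, hcen⟩ := H.exB
  have comm : ∀ g ∈ B, g * g = j → b * g = g * b := by
    intro g hg hg2
    have h1 : x * cj m⁻¹ g = cj m⁻¹ g * x := H.hc x hx _ (hB' g hg hg2)
    have h2 : cj m x * g = g * cj m x := by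
      have := congrArg (cj m) h1
      rwa [cj_mul, cj_mul, cj_cj_inv] at this
    rw [hab] at h2
    have h3 : a * (b * g) = a * (g * b) := by
      calc a * (b * g) = a * b * g := by group
        _ = g * (a * b) := h2
        _ = (g * a) * b := by group
        _ = (a * g) * b := by rw [H.hc a ha g hg]
        _ = a * (g * b) := by group
    exact mul_left_cancel h3
  rw [hab]
  rcases hcen b hb (comm w hw hw2) (comm d hd hd2) with h | h
  · rw [h, mul_one]; exact ha
  · rw [h]; exact A.mul_mem ha H.hjA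

theorem Hyp.c_swap {A B N : Subgroup G} {j m : G} (H : Hyp A B N j) (hm : NormC N j m)
    (hA' : ∀ g ∈ A, g * g = j → cj m⁻¹ g ∈ B) : ∀ x ∈ A, cj m x ∈ B := by
  intro x hx
  obtain ⟨a, ha, b, hb, hab⟩ := H.hN _ (hm.2 x (H.hAN hx))
  obtain ⟨w, hw, d, hd, hw2, hd2, -, hcen⟩ := H.exA
  have comm : ∀ g ∈ A, g * g = j → a * g = g * a := by
    intro g hg hg2
    have h1 : x * cj m⁻¹ g = cj m⁻¹ g * x := H.hc x hx _ (hA' g hg hg2)
    have h2 : cj m x * g = g * cj m x := by
      have := congrArg (cj m) h1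
      rwa [cj_mul, cj_mul, cj_cj_inv] at this
    rw [hab] at h2
    have h3 : (a * g) * b = (g * a) * b := by
      calc (a * g) * b = a * (g * b) := by group
        _ = a * (b * g) := by rw [H.hc g hg b hb]
        _ = a * b * g := by group
        _ = g * (a * b) := h2
        _ = (g * a) * b := by group
    exact mul_right_cancel h3
  rw [hab]
  rcases hcen a ha (comm w hw hw2) (comm d hd hd2) with h | h
  · rw [h, one_mul]; exact hb
  · rw [h]; exact B.mul_mem H.hjB hb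

end grp

theorem iso_facts {G : Type*} [Group G] {F : Type*} [Field F] [Fintype F]
    (hF : Odd (Fintype.card F)) (L : Subgroup G)
    (e : ↥L ≃* Matrix.SpecialLinearGroup (Fin 2) F) (j : G) (hjL : j ∈ L)
    (hj1 : j ≠ 1) (hj2 : j * j = 1) :
    (∀ b ∈ L, b * b = 1 → b = 1 ∨ b = j) ∧
    ∃ w ∈ L, ∃ d ∈ L, w * w = j ∧ d * d = j ∧ w * d ≠ d * w ∧
      ∀ b ∈ L, b * w = w * b → b * d = d * b → b = 1 ∨ b = j := by
  have h2 : (2 : F) ≠ 0 := by
    intro h
    have hchar : ringChar F = 2 :=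
      CharP.ringChar_of_prime_eq_zero Nat.prime_two (by exact_mod_cast h)
    have := FiniteField.even_card_of_char_two hchar
    rw [Nat.odd_iff] at hF
    omega
  obtain ⟨z, hz1, hz2, huniq, w, d, hw2, hd2, hwd, hcen⟩ := sl2_concrete h2
  have hjz : e ⟨j, hjL⟩ = z := by
    have : e ⟨j, hjL⟩ * e ⟨j, hjL⟩ = 1 := by
      rw [← map_mul]
      have : (⟨j, hjL⟩ : L) * ⟨j, hjL⟩ = 1 := Subtype.ext hj2
      rw [this, map_one]
    rcases huniq _ this with h | h
    · exfalso
      apply hj1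
      have := e.injective (h.trans (map_one e).symm)
      exact congrArg Subtype.val this
    · exact h
  have hsymm : e.symm z = ⟨j, hjL⟩ := by rw [← hjz, e.symm_apply_apply]
  constructor
  · intro b hb hb2
    have : e ⟨b, hb⟩ * e ⟨b, hb⟩ = 1 := by
      rw [← map_mul]
      have : (⟨b, hb⟩ : L) * ⟨b, hb⟩ = 1 := Subtype.ext hb2
      rw [this, map_one]
    rcases huniq _ this with h | h
    · left
      have := e.injective (h.trans (map_one e).symm)
      exact congrArg Subtype.val this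
    · right
      have := e.injective (h.trans hjz.symm)
      exact congrArg Subtype.val this
  · refine ⟨(e.symm w).1, (e.symm w).2, (e.symm d).1, (e.symm d).2, ?_, ?_, ?_, ?_⟩
    · have : e.symm w * e.symm w = ⟨j, hjL⟩ := by rw [← map_mul, hw2, hsymm]
      exact congrArg Subtype.val this
    · have : e.symm d * e.symm d = ⟨j, hjL⟩ := by rw [← map_mul, hd2, hsymm]
      exact congrArg Subtype.val this
    · intro h
      apply hwd
      have : e.symm w * e.symm d = e.symm d * e.symm w := Subtype.ext h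
      rw [← map_mul, ← map_mul] at this
      exact e.symm.injective this
    · intro b hb hbw hbd
      have h1 : e ⟨b, hb⟩ * w = w * e ⟨b, hb⟩ := by
        have : (⟨b, hb⟩ : L) * e.symm w = e.symm w * ⟨b, hb⟩ := Subtype.ext hbw
        have := congrArg e this
        rwa [map_mul, map_mul, e.apply_symm_apply] at this
      have h2' : e ⟨b, hb⟩ * d = d * e ⟨b, hb⟩ := by
        have : (⟨b, hb⟩ : L) * e.symm d = e.symm d * ⟨b, hb⟩ := Subtype.ext hbd
        have := congrArg e this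
        rwa [map_mul, map_mul, e.apply_symm_apply] at this
      rcases hcen _ h1 h2' with h | h
      · left
        have := e.injective (h.trans (map_one e).symm)
        exact congrArg Subtype.val this
      · right
        have := e.injective (h.trans hjz.symm)
        exact congrArg Subtype.val this

theorem card_inj_aux {a b : ℕ} (ha : 1 < a) (hab : a < b) :
    a * (a ^ 2 - 1) < b * (b ^ 2 - 1) := by
  have h1 : a ^ 2 - 1 ≤ b ^ 2 - 1 := Nat.sub_le_sub_right (Nat.pow_le_pow_left hab.le 2) 1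
  have h2 : 0 < b ^ 2 - 1 := by
    have : 2 ^ 2 ≤ b ^ 2 := Nat.pow_le_pow_left (by omega) 2
    omega
  calc a * (a ^ 2 - 1) ≤ a * (b ^ 2 - 1) := Nat.mul_le_mul_left a h1
    _ < b * (b ^ 2 - 1) := Nat.mul_lt_mul_of_pos_right hab h2

theorem card_inj {a b : ℕ} (ha : 1 < a) (hb : 1 < b)
    (h : a * (a ^ 2 - 1) = b * (b ^ 2 - 1)) : a = b := by
  rcases Nat.lt_trichotomy a b with h' | h' | h'
  · exact absurd h (card_inj_aux ha h').ne
  · exact h'
  · exact absurd h.symm (card_inj_aux hb h').ne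

/-- Let G be a finite group with subgroups L₁ ≅ SL₂(q₁) and L₂ ≅ SL₂(q₂), q₁ and q₂ odd prime powers, which commute elementwise and meet in ⟨j⟩ for an involution j, and suppose L₁L₂ has index 2 in C_G(j). Then every element n of C_G(j) outside L₁L₂ either normalizes both L₁ and L₂, or conjugates L₁ onto L₂; in the second case q₁ = q₂ and there is an element n′ of C_G(j) outside L₁L₂ conjugating L₁ onto L₂ with n′² ∈ ⟨j⟩. -/
theorem result {G : Type*} [Group G] [Finite G]
    {F₁ : Type*} [Field F₁] [Fintype F₁] {F₂ : Type*} [Field F₂] [Fintype F₂]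
    (hF₁ : Odd (Fintype.card F₁)) (hF₂ : Odd (Fintype.card F₂)) (L₁ L₂ : Subgroup G)
    (e₁ : ↥L₁ ≃* Matrix.SpecialLinearGroup (Fin 2) F₁) (e₂ : ↥L₂ ≃* Matrix.SpecialLinearGroup (Fin 2) F₂)
    (hc : ∀ x ∈ L₁, ∀ y ∈ L₂, x * y = y * x) (j : G) (hj : orderOf j = 2) (hm : L₁ ⊓ L₂ = Subgroup.zpowers j)
    (hle : L₁ ⊔ L₂ ≤ Subgroup.centralizer ({j} : Set G)) (hi : (L₁ ⊔ L₂).relIndex (Subgroup.centralizer ({j} : Set G)) = 2) (n : G) (hn : n ∈ Subgroup.centralizer ({j} : Set G)) (hn' : n ∉ L₁ ⊔ L₂) :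
    (L₁.map (MulAut.conj n).toMonoidHom = L₁ ∧ L₂.map (MulAut.conj n).toMonoidHom = L₂) ∨
      (L₁.map (MulAut.conj n).toMonoidHom = L₂ ∧ Fintype.card F₁ = Fintype.card F₂ ∧
        ∃ n' ∈ Subgroup.centralizer ({j} : Set G), n' ∉ L₁ ⊔ L₂ ∧ L₁.map (MulAut.conj n').toMonoidHom = L₂ ∧ n' ^ 2 ∈ Subgroup.zpowers j) := by
  classical
  have hj2 : j * j = 1 := by
    have := pow_orderOf_eq_one j
    rw [hj, pow_two] at this
    exact this
  have hj1 : j ≠ 1 := by
    intro h
    rw [h, orderOf_one] at hj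
    exact absurd hj (by norm_num)
  have hjmem : j ∈ L₁ ⊓ L₂ := by rw [hm]; exact Subgroup.mem_zpowers j
  have hjL₁ : j ∈ L₁ := hjmem.1
  have hjL₂ : j ∈ L₂ := hjmem.2
  have hzp : ∀ x ∈ Subgroup.zpowers j, x = 1 ∨ x = j := by
    intro x hx
    obtain ⟨k, rfl⟩ := Subgroup.mem_zpowers_iff.1 hx
    rcases Int.even_or_odd k with ⟨m, rfl⟩ | ⟨m, rfl⟩
    · left
      rw [← two_mul, _root_.zpow_mul, zpow_two, hj2, _root_.one_zpow]
    · right
      rw [_root_.zpow_add, _root_.zpow_mul, zpow_two, hj2, _root_.one_zpow, one_mul, zpow_one]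
  obtain ⟨u₁, ex₁⟩ := iso_facts hF₁ L₁ e₁ j hjL₁ hj1 hj2
  obtain ⟨u₂, ex₂⟩ := iso_facts hF₂ L₂ e₂ j hjL₂ hj1 hj2
  have hN : ∀ x ∈ L₁ ⊔ L₂, ∃ a ∈ L₁, ∃ b ∈ L₂, x = a * b := by
    intro x hx
    rw [Subgroup.sup_eq_closure] at hx
    induction hx using Subgroup.closure_induction with
    | mem x hx =>
      rcases hx with h | h
      · exact ⟨x, h, 1, L₂.one_mem, (mul_one x).symm⟩
      · exact ⟨1, L₁.one_mem, x, h, (one_mul x).symm⟩
    | one => exact ⟨1, L₁.one_mem, 1, L₂.one_mem, (mul_one 1).symm⟩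
    | mul x y _ _ hx hy =>
      obtain ⟨a, ha, b, hb, rfl⟩ := hx
      obtain ⟨a', ha', b', hb', rfl⟩ := hy
      refine ⟨a * a', L₁.mul_mem ha ha', b * b', L₂.mul_mem hb hb', ?_⟩
      calc a * b * (a' * b') = a * (b * a') * b' := by group
        _ = a * (a' * b) * b' := by rw [hc a' ha' b hb]
        _ = a * a' * (b * b') := by group
    | inv x _ hx =>
      obtain ⟨a, ha, b, hb, rfl⟩ := hx
      refine ⟨a⁻¹, L₁.inv_mem ha, b⁻¹, L₂.inv_mem hb, ?_⟩
      rw [_root_.mul_inv_rev]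
      exact (hc a⁻¹ (L₁.inv_mem ha) b⁻¹ (L₂.inv_mem hb)).symm
  have H : Hyp L₁ L₂ (L₁ ⊔ L₂) j :=
    { hc := hc
      hm := fun x h1 h2 => hzp x (by rw [← hm]; exact ⟨h1, h2⟩)
      hN := hN
      hAN := le_sup_left
      hBN := le_sup_right
      hjA := hjL₁
      hjB := hjL₂
      hj1 := hj1
      hj2 := hj2
      uA := u₁
      uB := u₂
      exA := ex₁
      exB := ex₂ }
  have hnormal : ((L₁ ⊔ L₂).subgroupOf (Subgroup.centralizer ({j} : Set G))).Normal :=
    Subgroup.normal_of_index_eq_two hi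
  have hNC : ∀ m ∈ Subgroup.centralizer ({j} : Set G), NormC (L₁ ⊔ L₂) j m := by
    intro m hm'
    constructor
    · unfold cj
      have := Subgroup.mem_centralizer_iff.1 hm' j rfl
      rw [← this]
      group
    · intro x hx
      have := hnormal.conj_mem ⟨x, hle hx⟩ (Subgroup.mem_subgroupOf.2 hx) ⟨m, hm'⟩
      exact Subgroup.mem_subgroupOf.1 this
  have hn1 := hNC n hn
  have hn2 := hNC n⁻¹ (Subgroup.inv_mem _ hn)
  have hmap : ∀ (m : G) (A : Subgroup G) (x : G),
      x ∈ A.map (MulAut.conj m).toMonoidHom ↔ ∃ y ∈ A, cj m y = x := by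
    intro m A x
    rw [Subgroup.mem_map]
    rfl
  have hcardmap : ∀ (m : G) (A : Subgroup G),
      Nat.card ↥(A.map (MulAut.conj m).toMonoidHom) = Nat.card ↥A := by
    intro m A
    exact Subgroup.card_map_of_injective (MulAut.conj m).injective
  obtain ⟨w, hw, d, hd, hw2, hd2, hwd, -⟩ := ex₁
  rcases H.split (hn1.2 w (H.hAN hw)) (cj_sq hn1 hw2) with hcase | hcase
  · left
    obtain ⟨k1, k2⟩ := H.k_same hn1 hn2 hw hw2 hcase
    obtain ⟨k1', k2'⟩ := H.k_same hn2 (by rwa [inv_inv]) hcase (cj_sq hn1 hw2)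
      (by rw [cj_inv_cj]; exact hw)
    have s1 : ∀ x ∈ L₁, cj n x ∈ L₁ := H.c_same hn1 k2'
    have s2 : ∀ x ∈ L₂, cj n x ∈ L₂ := H.symm.c_same hn1 k1'
    constructor
    · apply Subgroup.eq_of_le_of_card_ge
      · intro x hx
        obtain ⟨y, hy, rfl⟩ := (hmap n L₁ x).1 hx
        exact s1 y hy
      · rw [hcardmap]
    · apply Subgroup.eq_of_le_of_card_ge
      · intro x hx
        obtain ⟨y, hy, rfl⟩ := (hmap n L₂ x).1 hx
        exact s2 y hy
      · rw [hcardmap]
  · right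
    obtain ⟨k1, k2⟩ := H.k_swap hn1 hn2 hw hw2 hcase
    obtain ⟨w₂, hw₂, -, -, hw₂2, -⟩ := ex₂
    obtain ⟨k1', k2'⟩ := H.k_swap hn2 (by rwa [inv_inv]) (k2 w₂ hw₂ hw₂2) (cj_sq hn1 hw₂2)
      (by rw [cj_inv_cj]; exact hw₂)
    have s1 : ∀ x ∈ L₁, cj n x ∈ L₂ := H.c_swap hn1 k1'
    have s2 : ∀ x ∈ L₂, cj n x ∈ L₁ := H.symm.c_swap hn1 k2'
    have le1 : L₁.map (MulAut.conj n).toMonoidHom ≤ L₂ := by
      intro x hx
      obtain ⟨y, hy, rfl⟩ := (hmap n L₁ x).1 hx
      exact s1 y hy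
    have le2 : L₂.map (MulAut.conj n).toMonoidHom ≤ L₁ := by
      intro x hx
      obtain ⟨y, hy, rfl⟩ := (hmap n L₂ x).1 hx
      exact s2 y hy
    have c1 : Nat.card ↥L₁ ≤ Nat.card ↥L₂ := by
      rw [← hcardmap n L₁]
      exact Subgroup.card_le_of_le le1
    have c2 : Nat.card ↥L₂ ≤ Nat.card ↥L₁ := by
      rw [← hcardmap n L₂]
      exact Subgroup.card_le_of_le le2
    have hmapeq : L₁.map (MulAut.conj n).toMonoidHom = L₂ :=
      Subgroup.eq_of_le_of_card_ge le1 (by rw [hcardmap]; exact c2)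
    refine ⟨hmapeq, ?_, ?_⟩
    · have e1 : Nat.card ↥L₁ = Fintype.card F₁ * (Fintype.card F₁ ^ 2 - 1) := by
        rw [Nat.card_congr e₁.toEquiv]
        exact Cfsg.Agent.Helper42.SL2.card_SL2
      have e2 : Nat.card ↥L₂ = Fintype.card F₂ * (Fintype.card F₂ ^ 2 - 1) := by
        rw [Nat.card_congr e₂.toEquiv]
        exact Cfsg.Agent.Helper42.SL2.card_SL2
      have hE : Fintype.card F₁ * (Fintype.card F₁ ^ 2 - 1) =
          Fintype.card F₂ * (Fintype.card F₂ ^ 2 - 1) := by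
        rw [← e1, ← e2]
        exact le_antisymm c1 c2
      exact card_inj Fintype.one_lt_card Fintype.one_lt_card hE
    · have hsq : n * n ∈ L₁ ⊔ L₂ := by
        have := Subgroup.mul_self_mem_of_index_two hi ⟨n, hn⟩
        exact Subgroup.mem_subgroupOf.1 this
      obtain ⟨a₀, ha₀, b₀, hb₀, hab₀⟩ := hN _ hsq
      refine ⟨n * a₀⁻¹, ?_, ?_, ?_, ?_⟩
      · exact Subgroup.mul_mem _ hn (Subgroup.inv_mem _ (hle (H.hAN ha₀)))
      · intro hcon
        apply hn'
        have : n = (n * a₀⁻¹) * a₀ := by group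
        rw [this]
        exact Subgroup.mul_mem _ hcon (H.hAN ha₀)
      · rw [← hmapeq]
        ext x
        rw [hmap, hmap]
        constructor
        · rintro ⟨y, hy, rfl⟩
          exact ⟨a₀⁻¹ * y * a₀, L₁.mul_mem (L₁.mul_mem (L₁.inv_mem ha₀) hy) ha₀, by
            unfold cj; group⟩
        · rintro ⟨y, hy, rfl⟩
          exact ⟨a₀ * y * a₀⁻¹, L₁.mul_mem (L₁.mul_mem ha₀ hy) (L₁.inv_mem ha₀), by
            unfold cj; group⟩
      · rw [← hm, pow_two]
        have e : (n * a₀⁻¹) * (n * a₀⁻¹) = cj n a₀⁻¹ * b₀ := by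
          have h1 : (n * a₀⁻¹) * (n * a₀⁻¹) = cj n a₀⁻¹ * (n * n) * a₀⁻¹ := by
            unfold cj; group
          rw [h1, hab₀, hc a₀ ha₀ b₀ hb₀]
          group
        have hin2 : (n * a₀⁻¹) * (n * a₀⁻¹) ∈ L₂ := by
          rw [e]
          exact L₂.mul_mem (s1 _ (L₁.inv_mem ha₀)) hb₀
        have hin1 : (n * a₀⁻¹) * (n * a₀⁻¹) ∈ L₁ := by
          have hy := s2 _ hin2
          have hcomm : a₀ * ((n * a₀⁻¹) * (n * a₀⁻¹)) = (n * a₀⁻¹) * (n * a₀⁻¹) * a₀ :=
            hc a₀ ha₀ _ hin2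
          have : cj n ((n * a₀⁻¹) * (n * a₀⁻¹)) = (n * a₀⁻¹) * (n * a₀⁻¹) := by
            calc cj n ((n * a₀⁻¹) * (n * a₀⁻¹))
                = (n * a₀⁻¹) * (a₀ * ((n * a₀⁻¹) * (n * a₀⁻¹))) * a₀⁻¹ * (n * a₀⁻¹)⁻¹ := by
                  unfold cj; group
              _ = (n * a₀⁻¹) * ((n * a₀⁻¹) * (n * a₀⁻¹) * a₀) * a₀⁻¹ * (n * a₀⁻¹)⁻¹ := by
                  rw [hcomm]
              _ = (n * a₀⁻¹) * (n * a₀⁻¹) := by group
          rw [← this]
          exact hy
        exact ⟨hin1, hin2⟩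

end Cfsg.Agent.S3210
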