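import Cfsg.Statements.S3213
import Cfsg.Agent.Helper38.SL25Sp43

set_option autoImplicit false
open Cfsg

namespace Cfsg.Agent.S3213

/-- Let F be the field with 3 elements and K the field with 5 elements. For every injective homomorphism φ from SL₂(K) into the symplectic group Sp₄(F) (4 × 4 matrices g with g J gᵀ = J for the standard alternating matrix J) and every element x of order 3 of SL₂(K), the vectors of F⁴ fixed by φ(x) form a 2-dimensional subspace that is totally isotropic for the alternating form defined by J. -/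
theorem result {F : Type*} [Field F] [Fintype F] (hF : Fintype.card F = 3)
    {K : Type*} [Field K] [Fintype K] (hK : Fintype.card K = 5)
    (φ : Matrix.SpecialLinearGroup (Fin 2) K →* ↥(Matrix.symplecticGroup (Fin 2) F)) (hφ : Function.Injective φ)
    (x : Matrix.SpecialLinearGroup (Fin 2) K) (hx : orderOf x = 3) :
    Module.finrank F ↥(LinearMap.ker (Matrix.toLin' ((φ x : Matrix (Fin 2 ⊕ Fin 2) (Fin 2 ⊕ Fin 2) F)) - LinearMap.id)) = 2 ∧
      ∀ v w : Fin 2 ⊕ Fin 2 → F, (φ x : Matrix (Fin 2 ⊕ Fin 2) (Fin 2 ⊕ Fin 2) F).mulVec v = v →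
        (φ x : Matrix (Fin 2 ⊕ Fin 2) (Fin 2 ⊕ Fin 2) F).mulVec w = w →
          dotProduct v ((Matrix.J (Fin 2) F).mulVec w) = 0 := by
  classical
  obtain ⟨y, hyx, hyy⟩ := Helper38.exists_inverting_five hK x hx
  obtain ⟨g, hg1, hg5⟩ := Helper38.exists_order_five hK
  have h5 := Helper38.five_eq_zero_of_card hK
  have hx3 : x * x * x = 1 := by
    have h := pow_orderOf_eq_one x
    rw [hx] at h
    rw [← h, pow_succ, pow_two]
  have hx1 : x ≠ 1 := by
    rintro rfl
    rw [orderOf_one] at hx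
    omega
  have hxyx : x * y * x = y := by
    have h1 : y * x = x⁻¹ * y := by
      rw [← hyx]
      group
    rw [mul_assoc, h1]
    group
  have hyyc : (y * y) * g = g * (y * y) := by
    apply Subtype.ext
    simp only [Matrix.SpecialLinearGroup.coe_mul, hyy]
    simp
  have hyy4 : (y * y) * (y * y) = 1 := by
    apply Subtype.ext
    rw [Matrix.SpecialLinearGroup.coe_mul, Matrix.SpecialLinearGroup.coe_mul, hyy,
      Matrix.SpecialLinearGroup.coe_one]
    simp
  have hyy1 : y * y ≠ 1 := by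
    intro h
    have h' := congrArg Subtype.val h
    rw [Matrix.SpecialLinearGroup.coe_mul, hyy, Matrix.SpecialLinearGroup.coe_one] at h'
    have h00 := congrFun (congrFun h' 0) 0
    simp only [Matrix.neg_apply, Matrix.one_apply_eq] at h00
    have h1 : (1 : K) = 0 := by linear_combination h5 + 2 * h00
    exact one_ne_zero h1
  -- transfer to matrices
  have hmul : ∀ a b : Matrix.SpecialLinearGroup (Fin 2) K,
      ((φ (a * b) : ↥(Matrix.symplecticGroup (Fin 2) F)) :
        Matrix (Fin 2 ⊕ Fin 2) (Fin 2 ⊕ Fin 2) F) = (φ a).val * (φ b).val := by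
    intro a b
    rw [map_mul]
    rfl
  have hone : ((φ 1 : ↥(Matrix.symplecticGroup (Fin 2) F)) :
        Matrix (Fin 2 ⊕ Fin 2) (Fin 2 ⊕ Fin 2) F) = 1 := by
    rw [map_one]
    rfl
  have hne : ∀ a : Matrix.SpecialLinearGroup (Fin 2) K, a ≠ 1 →
      ((φ a : ↥(Matrix.symplecticGroup (Fin 2) F)) :
        Matrix (Fin 2 ⊕ Fin 2) (Fin 2 ⊕ Fin 2) F) ≠ 1 := by
    intro a ha h
    apply ha
    apply hφ
    apply Subtype.ext
    rw [h, hone]
  have hM3 : (φ x).val * (φ x).val * (φ x).val = 1 := by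
    rw [← hmul, ← hmul, hx3, hone]
  have hM1 : (φ x).val ≠ 1 := hne x hx1
  have hMY : (φ x).val * (φ y).val * (φ x).val = (φ y).val := by
    rw [← hmul, ← hmul, hxyx]
  have hG5 : (φ g).val ^ 5 = 1 := by
    have h : (φ g).val ^ 5 = (φ (g ^ 5)).val := by
      rw [map_pow]
      rfl
    rw [h, hg5, hone]
  have hG1 : (φ g).val ≠ 1 := hne g hg1
  have hT : ((φ y).val * (φ y).val) * ((φ y).val * (φ y).val) = 1 := by
    rw [← hmul, ← hmul, hyy4, hone]
  have hT1 : (φ y).val * (φ y).val ≠ 1 := by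
    rw [← hmul]
    exact hne _ hyy1
  have hTG : ((φ y).val * (φ y).val) * (φ g).val = (φ g).val * ((φ y).val * (φ y).val) := by
    rw [← hmul, ← hmul, ← hmul, hyyc]
  have hYY := Helper38.eq_neg_one_of_commute hF (φ g).val ((φ y).val * (φ y).val) hG5 hG1 hT hT1 hTG
  have h2 := Helper38.fixSp_finrank_two hF (φ x).val (φ y).val hM3 hM1 hYY hMY
  exact ⟨h2, fun v w hv hw => Helper38.fixSp_isotropic hF (φ x).val (φ x).2 hM3 h2 v w hv hw⟩

end Cfsg.Agent.S3213
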