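import Cfsg.Statements.S3215
import Cfsg.Agent.Helper1.CNSolv
import Cfsg.Agent.Helper24.HallHigman

set_option autoImplicit false
open Cfsg

namespace Cfsg.Agent.S3215

open Cfsg.Agent.Helper1

theorem cent_pCore_le {H : Type*} [Group H] [Finite H] (hsol : Group.IsSolvable H)
    (hO : Cfsg.oddCore H = ⊥) :
    Subgroup.centralizer (Cfsg.pCore 2 H : Set H) ≤ Cfsg.pCore 2 H := by
  haveI := hsol
  haveI : Fact (Nat.Prime 2) := ⟨Nat.prime_two⟩
  apply Cfsg.Agent.Helper24.centralizer_pCore_le 2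
  intro D hD hcop
  have h1 : D ≤ Cfsg.oddCore H := le_sSup ⟨hD, hcop⟩
  rw [hO] at h1
  exact eq_bot_iff.mpr h1

theorem exists_pow_invol {G : Type*} [Group G] [Finite G] {z : G}
    (hz : ∃ k : ℕ, orderOf z = 2 ^ k) (hz1 : z ≠ 1) :
    ∃ j : ℕ, orderOf (z ^ j) = 2 := by
  obtain ⟨k, hk⟩ := hz
  cases k with
  | zero =>
    rw [pow_zero] at hk
    exact absurd (orderOf_eq_one_iff.mp hk) hz1
  | succ k => exact ⟨2 ^ k, orderOf_pow_cofactor z (by rw [hk, pow_succ, mul_comm])⟩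

theorem eq_one_of_odd_of_two_pow {G : Type*} [Group G] {z : G} (hodd : Odd (orderOf z))
    (hz : ∃ k : ℕ, orderOf z = 2 ^ k) : z = 1 := by
  obtain ⟨k, hk⟩ := hz
  cases k with
  | zero => rw [pow_zero] at hk; exact orderOf_eq_one_iff.mp hk
  | succ k =>
    exfalso
    rw [hk, Nat.odd_iff] at hodd
    have : 2 ^ (k + 1) % 2 = 0 := by rw [pow_succ]; exact Nat.mul_mod_left _ _
    omega

/-- An element of odd order commuting with an involution `t` centralises `C_Y(t)`, `Y = O₂(H)`. -/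
theorem comm_of_invol {H : Type*} [Group H] [Finite H]
    (hI : ∀ t : H, orderOf t = 2 →
      Cfsg.HasNormalPComplement 2 ↥(Subgroup.centralizer ({t} : Set H)))
    {t x y : H} (ht : orderOf t = 2) (hx : Odd (orderOf x)) (hxt : x * t = t * x)
    (hy : y ∈ Cfsg.pCore 2 H) (hyt : y * t = t * y) : x * y = y * x := by
  haveI : Fact (Nat.Prime 2) := ⟨Nat.prime_two⟩
  obtain ⟨P, N, hNn, hNP⟩ := hI t ht
  haveI := hNn
  have hxC : x ∈ Subgroup.centralizer ({t} : Set H) :=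
    Subgroup.mem_centralizer_singleton_iff.mpr hxt
  have hyC : y ∈ Subgroup.centralizer ({t} : Set H) :=
    Subgroup.mem_centralizer_singleton_iff.mpr hyt
  have hNodd : ¬ 2 ∣ Nat.card N := by
    have h1 : (P : Subgroup (Subgroup.centralizer ({t} : Set H))).index = Nat.card N :=
      hNP.index_eq_card
    rw [← h1]
    exact P.not_dvd_index
  have hxN : (⟨x, hxC⟩ : Subgroup.centralizer ({t} : Set H)) ∈ N := by
    have h1 : N.index = Nat.card (P : Subgroup (Subgroup.centralizer ({t} : Set H))) :=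
      hNP.symm.index_eq_card
    obtain ⟨n, hn⟩ := IsPGroup.iff_card.mp P.isPGroup'
    have h2 : orderOf ((QuotientGroup.mk' N) ⟨x, hxC⟩) ∣ 2 ^ n := by
      rw [← hn, ← h1, Subgroup.index_eq_card]
      exact orderOf_dvd_natCard _
    have h3 : orderOf ((QuotientGroup.mk' N) ⟨x, hxC⟩) ∣ orderOf x := by
      have := orderOf_map_dvd (QuotientGroup.mk' N)
        (⟨x, hxC⟩ : Subgroup.centralizer ({t} : Set H))
      rwa [Subgroup.orderOf_mk] at this
    have h4 : orderOf ((QuotientGroup.mk' N) ⟨x, hxC⟩) = 1 := by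
      have hcop : (2 ^ n).Coprime (orderOf x) := (Nat.coprime_two_left.mpr hx).pow_left n
      exact Nat.eq_one_of_dvd_coprimes hcop h2 h3
    have h5 := orderOf_eq_one_iff.mp h4
    exact (QuotientGroup.eq_one_iff _).mp h5
  have hc1 : (⟨x, hxC⟩ : Subgroup.centralizer ({t} : Set H)) * ⟨y, hyC⟩ * ⟨x, hxC⟩⁻¹ * ⟨y, hyC⟩⁻¹
      ∈ N := by
    have h1 : (⟨y, hyC⟩ : Subgroup.centralizer ({t} : Set H)) * ⟨x, hxC⟩⁻¹ * ⟨y, hyC⟩⁻¹ ∈ N :=
      hNn.conj_mem _ (N.inv_mem hxN) _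
    have h2 := N.mul_mem hxN h1
    have e : (⟨x, hxC⟩ : Subgroup.centralizer ({t} : Set H)) * ⟨y, hyC⟩ * ⟨x, hxC⟩⁻¹ * ⟨y, hyC⟩⁻¹
        = ⟨x, hxC⟩ * (⟨y, hyC⟩ * ⟨x, hxC⟩⁻¹ * ⟨y, hyC⟩⁻¹) := by group
    rw [e]; exact h2
  have hc2 : x * y * x⁻¹ * y⁻¹ ∈ Cfsg.pCore 2 H := by
    have := (pCore_normal' 2 H).conj_mem y hy x
    exact (Cfsg.pCore 2 H).mul_mem this ((Cfsg.pCore 2 H).inv_mem hy)
  obtain ⟨k, hk⟩ := orderOf_eq_prime_pow_of_mem (pCore_isPGroup' 2 H) hc2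
  have hc4 : orderOf (x * y * x⁻¹ * y⁻¹) ∣ Nat.card N := by
    have h1 := N.orderOf_dvd_natCard hc1
    have h2 : orderOf ((⟨x, hxC⟩ : Subgroup.centralizer ({t} : Set H)) * ⟨y, hyC⟩ * ⟨x, hxC⟩⁻¹ *
        ⟨y, hyC⟩⁻¹) = orderOf (x * y * x⁻¹ * y⁻¹) := (Subgroup.orderOf_coe _).symm
    rwa [h2] at h1
  have hk0 : k = 0 := by
    by_contra hk0
    apply hNodd
    have h1 : 2 ∣ 2 ^ k := dvd_pow_self 2 hk0
    exact h1.trans (hk ▸ hc4)
  rw [hk0, pow_zero, orderOf_eq_one_iff] at hk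
  calc x * y = (x * y * x⁻¹ * y⁻¹) * (y * x) := by group
    _ = y * x := by rw [hk, one_mul]

/-- Elements of odd order act without fixed points on `O₂(H)`. -/
theorem fpf_of_odd {H : Type*} [Group H] [Finite H] (hsol : Group.IsSolvable H)
    (hO : Cfsg.oddCore H = ⊥)
    (hI : ∀ t : H, orderOf t = 2 →
      Cfsg.HasNormalPComplement 2 ↥(Subgroup.centralizer ({t} : Set H)))
    {x y : H} (hx : Odd (orderOf x)) (hx1 : x ≠ 1) (hy : y ∈ Cfsg.pCore 2 H) (hy1 : y ≠ 1) :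
    x * y ≠ y * x := by
  intro hxy
  haveI : Fact (Nat.Prime 2) := ⟨Nat.prime_two⟩
  have hYp := pCore_isPGroup' 2 H
  have hYne : Cfsg.pCore 2 H ≠ ⊥ := fun h => hy1 (by rw [h] at hy; exact Subgroup.mem_bot.mp hy)
  obtain ⟨j, hj⟩ := exists_pow_invol (orderOf_eq_prime_pow_of_mem hYp hy) hy1
  have htY : y ^ j ∈ Cfsg.pCore 2 H := Subgroup.pow_mem _ hy j
  have hxt : x * y ^ j = y ^ j * x := (Commute.pow_right (show Commute x y from hxy) j).eq
  obtain ⟨z, hzY, hz1, hzc⟩ := exists_central_of_isPGroup hYp hYne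
  obtain ⟨i, hi⟩ := exists_pow_invol (orderOf_eq_prime_pow_of_mem hYp hzY) hz1
  have hzc' : ∀ h ∈ Cfsg.pCore 2 H, z ^ i * h = h * z ^ i := fun h hh =>
    (Commute.pow_left (show Commute z h from hzc h hh) i).eq
  have hxz : x * z ^ i = z ^ i * x :=
    comm_of_invol hI hj hx hxt (Subgroup.pow_mem _ hzY i) (hzc' _ htY)
  have hxc : x ∈ Subgroup.centralizer (Cfsg.pCore 2 H : Set H) := by
    rw [Subgroup.mem_centralizer_iff]
    intro h hh
    exact (comm_of_invol hI hi hx hxz hh (hzc' h hh).symm).symm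
  have hxY := cent_pCore_le hsol hO hxc
  exact hx1 (eq_one_of_odd_of_two_pow hx (orderOf_eq_prime_pow_of_mem hYp hxY))

theorem subsingleton_of_pCore_eq_bot {H : Type*} [Group H] [Finite H]
    (hsol : Group.IsSolvable H) (hO : Cfsg.oddCore H = ⊥)
    (hY : Cfsg.pCore 2 H = ⊥) : Subsingleton H := by
  by_contra hns
  rw [not_subsingleton_iff_nontrivial] at hns
  haveI := hsol
  obtain ⟨p, hp, hpne⟩ := exists_pCore_ne_bot H
  haveI : Fact p.Prime := ⟨hp⟩
  by_cases h2 : p = 2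
  · subst h2; exact hpne hY
  · apply hpne
    obtain ⟨n, hn⟩ := IsPGroup.iff_card.mp (pCore_isPGroup' p H)
    have h1 : Cfsg.pCore p H ≤ Cfsg.oddCore H :=
      le_sSup ⟨pCore_normal' p H, by
        rw [hn]; exact Nat.Coprime.pow_left n ((Nat.coprime_primes hp Nat.prime_two).mpr h2)⟩
    rw [hO] at h1
    exact eq_bot_iff.mpr h1

/-- No element of order `2 b`, `b` an odd prime. -/
theorem noMix {H : Type*} [Group H] [Finite H] (hsol : Group.IsSolvable H)
    (hO : Cfsg.oddCore H = ⊥)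
    (hI : ∀ t : H, orderOf t = 2 →
      Cfsg.HasNormalPComplement 2 ↥(Subgroup.centralizer ({t} : Set H)))
    (hY : Cfsg.pCore 2 H ≠ ⊥) : NoMix {2} H := by
  intro a ha b hb hap hbp g hg
  haveI : Fact (Nat.Prime 2) := ⟨Nat.prime_two⟩
  have ha2 : a = 2 := ha
  subst ha2
  have hb2 : b ≠ 2 := fun h => hb h
  have ht : orderOf (g ^ b) = 2 := orderOf_pow_cofactor g hg
  have hx : orderOf (g ^ 2) = b := orderOf_pow_cofactor g (by rw [hg, mul_comm])
  have hxodd : Odd (orderOf (g ^ 2)) := by rw [hx]; exact hbp.odd_of_ne_two hb2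
  have hx1 : g ^ 2 ≠ 1 := fun h => by
    rw [h, orderOf_one] at hx; exact hbp.one_lt.ne hx
  have hcomm : g ^ 2 * g ^ b = g ^ b * g ^ 2 := by rw [← pow_add, ← pow_add, add_comm]
  have hnorm : g ^ b ∈ Subgroup.normalizer (Cfsg.pCore 2 H : Set H) := by
    haveI := pCore_normal' 2 H
    rw [Subgroup.normalizer_eq_top]; exact Subgroup.mem_top _
  have hfix := exists_fixed_of_pgroup 2 (Cfsg.pCore 2 H) (g ^ b) hnorm (pCore_isPGroup' 2 H) hY
    (by rw [← ht]; exact pow_orderOf_eq_one _)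
  obtain ⟨y, hy, hy1⟩ := exists_ne_one_of_ne_bot hfix
  have hyt : y * g ^ b = g ^ b * y := Subgroup.mem_centralizer_singleton_iff.mp hy.2
  exact fpf_of_odd hsol hO hI hxodd hx1 hy.1 hy1 (comm_of_invol hI ht hxodd hcomm hy.1 hyt)

theorem sylow_cyclic {H : Type*} [Group H] [Finite H] (hsol : Group.IsSolvable H)
    (hO : Cfsg.oddCore H = ⊥)
    (hI : ∀ t : H, orderOf t = 2 →
      Cfsg.HasNormalPComplement 2 ↥(Subgroup.centralizer ({t} : Set H)))
    (X : Subgroup H) (hXodd : Odd (Nat.card X)) (p : ℕ) [Fact p.Prime] (P : Sylow p ↥X) :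
    IsCyclic ↥(P : Subgroup ↥X) := by
  by_cases hY : Cfsg.pCore 2 H = ⊥
  · haveI := subsingleton_of_pCore_eq_bot hsol hO hY
    exact isCyclic_of_subsingleton
  · have hEX : (P : Subgroup X).map X.subtype ≤ X := by
      rintro _ ⟨x, -, rfl⟩; exact x.2
    have hEcard : Nat.card ((P : Subgroup X).map X.subtype) ∣ Nat.card X :=
      Subgroup.card_dvd_of_le hEX
    have hnil : Group.IsNilpotent ((P : Subgroup X).map X.subtype) :=
      (P.isPGroup'.map X.subtype).isNilpotent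
    have hEN : (P : Subgroup X).map X.subtype ≤
        Subgroup.normalizer (Cfsg.pCore 2 H : Set H) := by
      haveI := pCore_normal' 2 H
      rw [Subgroup.normalizer_eq_top]; exact le_top
    have hfpf : ∀ e ∈ (P : Subgroup X).map X.subtype, e ≠ 1 →
        Cfsg.pCore 2 H ⊓ Subgroup.centralizer {e} = ⊥ := by
      intro e he he1
      by_contra hne
      obtain ⟨y, hy, hy1⟩ := exists_ne_one_of_ne_bot hne
      have hodd : Odd (orderOf e) := Odd.of_dvd_nat hXodd (X.orderOf_dvd_natCard (hEX he))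
      refine fpf_of_odd hsol hO hI hodd he1 hy.1 hy1 ?_
      exact (Subgroup.mem_centralizer_singleton_iff.mp hy.2).symm
    rcases fpf_nilpotent_structure (Cfsg.pCore 2 H) _ hY hEN hfpf hnil with
      hc | ⟨C, Q, hCQ, -, -, -, n, ⟨e⟩⟩
    · exact (((P : Subgroup X).equivMapOfInjective X.subtype X.subtype_injective).isCyclic).mpr hc
    · exfalso
      have hQE : Q ≤ (P : Subgroup X).map X.subtype := hCQ ▸ le_sup_right
      haveI : NeZero (2 ^ n) := ⟨by positivity⟩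
      have hQcard : Nat.card Q = 4 * 2 ^ n := by
        rw [Nat.card_congr e.toEquiv, Nat.card_eq_fintype_card, QuaternionGroup.card]
      have h2 : 2 ∣ Nat.card X :=
        (Dvd.intro (2 * 2 ^ n) (by rw [hQcard]; ring)).trans
          ((Subgroup.card_dvd_of_le hQE).trans hEcard)
      rw [Nat.odd_iff] at hXodd; omega

theorem pCore_quot_eq_bot {H : Type*} [Group H] [Finite H] (Y : Subgroup H) [Y.Normal]
    (hY : Y = Cfsg.pCore 2 H) : Cfsg.pCore 2 (H ⧸ Y) = ⊥ := by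
  subst hY
  haveI : Fact (Nat.Prime 2) := ⟨Nat.prime_two⟩
  have hMn : (Cfsg.pCore 2 (H ⧸ Cfsg.pCore 2 H)).Normal := pCore_normal' 2 _
  have hK : (Cfsg.pCore 2 (H ⧸ Cfsg.pCore 2 H)).comap (QuotientGroup.mk' (Cfsg.pCore 2 H)) ≤
      Cfsg.pCore 2 H := by
    refine le_pCore' (hMn.comap _) ?_
    obtain ⟨a, ha⟩ := IsPGroup.iff_card.mp (pCore_isPGroup' 2 (H ⧸ Cfsg.pCore 2 H))
    obtain ⟨b, hb⟩ := IsPGroup.iff_card.mp (pCore_isPGroup' 2 H)
    apply IsPGroup.of_card (n := a + b)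
    rw [card_comap_mk', ha, hb, pow_add]
  rw [eq_bot_iff]
  intro m hm
  obtain ⟨h, rfl⟩ := QuotientGroup.mk_surjective m
  have h1 : h ∈ Cfsg.pCore 2 H := hK hm
  rw [Subgroup.mem_bot]; exact (QuotientGroup.eq_one_iff h).mpr h1

theorem quot_facts {H : Type*} [Group H] [Finite H] (hsol : Group.IsSolvable H)
    (hO : Cfsg.oddCore H = ⊥)
    (hI : ∀ t : H, orderOf t = 2 →
      Cfsg.HasNormalPComplement 2 ↥(Subgroup.centralizer ({t} : Set H)))
    (Y : Subgroup H) [Y.Normal] (hY : Y = Cfsg.pCore 2 H) (hY1 : Y ≠ ⊥) :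
    ∃ F : Subgroup (H ⧸ Y), F.Normal ∧ Odd (Nat.card F) ∧ (∀ a b : F, a * b = b * a) ∧
      (∀ a b : H ⧸ Y, (a * b)⁻¹ * (b * a) ∈ F) ∧
      Subgroup.centralizer (F : Set (H ⧸ Y)) ≤ F := by
  subst hY
  haveI := hsol
  haveI : Fact (Nat.Prime 2) := ⟨Nat.prime_two⟩
  haveI hFn : (Cfsg.fittingSubgroup (H ⧸ Cfsg.pCore 2 H)).Normal :=
    Cfsg.Agent.Helper71.fittingSubgroup_normal _
  have hFnil : Group.IsNilpotent (Cfsg.fittingSubgroup (H ⧸ Cfsg.pCore 2 H)) :=
    Cfsg.Agent.Helper71.fittingSubgroup_isNilpotent _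
  have hpq : Cfsg.pCore 2 (H ⧸ Cfsg.pCore 2 H) = ⊥ := pCore_quot_eq_bot _ rfl
  have hFodd : Odd (Nat.card (Cfsg.fittingSubgroup (H ⧸ Cfsg.pCore 2 H))) := by
    rw [← Nat.not_even_iff_odd, even_iff_two_dvd]
    intro h2
    exact pCore_ne_bot_of_dvd_card_nilpotent _ hFnil 2 Nat.prime_two h2 hpq
  have hcyc : IsCyclic (Cfsg.fittingSubgroup (H ⧸ Cfsg.pCore 2 H)) := by
    apply isCyclic_of_nilpotent_of_unique hFnil hFodd
    intro p hp S T hS hT
    have hf : Function.Surjective ((QuotientGroup.mk' (Cfsg.pCore 2 H)).subgroupComap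
        (Cfsg.fittingSubgroup (H ⧸ Cfsg.pCore 2 H))) :=
      MonoidHom.subgroupComap_surjective_of_surjective _ _ (QuotientGroup.mk'_surjective _)
    have hNM : NoMix {2} ((Cfsg.fittingSubgroup (H ⧸ Cfsg.pCore 2 H)).comap
        (QuotientGroup.mk' (Cfsg.pCore 2 H))) := (noMix hsol hO hI hY1).subgroup _
    refine unique_prime_subgroup_of_noMix hNM _ hf ?_ ?_ ?_ hFnil p hp S T hS hT
    · obtain ⟨y, hy, hy1⟩ := exists_ne_one_of_ne_bot hY1
      have hyK : y ∈ (Cfsg.fittingSubgroup (H ⧸ Cfsg.pCore 2 H)).comap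
          (QuotientGroup.mk' (Cfsg.pCore 2 H)) := by
        show (QuotientGroup.mk' (Cfsg.pCore 2 H)) y ∈ Cfsg.fittingSubgroup (H ⧸ Cfsg.pCore 2 H)
        have : (QuotientGroup.mk' (Cfsg.pCore 2 H)) y = 1 := (QuotientGroup.eq_one_iff y).mpr hy
        rw [this]; exact Subgroup.one_mem _
      intro hker
      have h1 : (⟨y, hyK⟩ : (Cfsg.fittingSubgroup (H ⧸ Cfsg.pCore 2 H)).comap
          (QuotientGroup.mk' (Cfsg.pCore 2 H))) ∈ ((QuotientGroup.mk' (Cfsg.pCore 2 H)).subgroupComap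
            (Cfsg.fittingSubgroup (H ⧸ Cfsg.pCore 2 H))).ker := by
        rw [MonoidHom.mem_ker]
        apply Subtype.ext
        exact (QuotientGroup.eq_one_iff y).mpr hy
      rw [hker, Subgroup.mem_bot] at h1
      exact hy1 (congrArg Subtype.val h1)
    · intro q hq hqd
      have hle : (((QuotientGroup.mk' (Cfsg.pCore 2 H)).subgroupComap
            (Cfsg.fittingSubgroup (H ⧸ Cfsg.pCore 2 H))).ker).map (Subgroup.subtype _) ≤
          Cfsg.pCore 2 H := by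
        rintro _ ⟨k, hk, rfl⟩
        have := MonoidHom.mem_ker.mp hk
        exact (QuotientGroup.eq_one_iff (k : H)).mp (congrArg Subtype.val this)
      have hcard : Nat.card (((QuotientGroup.mk' (Cfsg.pCore 2 H)).subgroupComap
            (Cfsg.fittingSubgroup (H ⧸ Cfsg.pCore 2 H))).ker) ∣ Nat.card (Cfsg.pCore 2 H) := by
        rw [← Subgroup.card_map_of_injective (Subgroup.subtype_injective _)]
        exact Subgroup.card_dvd_of_le hle
      obtain ⟨n, hn⟩ := IsPGroup.iff_card.mp (pCore_isPGroup' 2 H)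
      have h3 : q ∣ 2 ^ n := hn ▸ hqd.trans hcard
      exact (Nat.prime_dvd_prime_iff_eq hq Nat.prime_two).mp (hq.dvd_of_dvd_pow h3)
    · intro q hq hqd h2
      have h3 : q = 2 := h2
      subst h3
      exact (Nat.not_even_iff_odd.mpr hFodd) (even_iff_two_dvd.mpr hqd)
  refine ⟨Cfsg.fittingSubgroup (H ⧸ Cfsg.pCore 2 H), hFn, hFodd, ?_, ?_,
    Cfsg.Agent.Helper73.centralizer_fittingSubgroup_le⟩
  · haveI := hcyc
    haveI := IsCyclic.isMulCommutative (α := Cfsg.fittingSubgroup (H ⧸ Cfsg.pCore 2 H))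
    exact fun a b => mul_comm' a b
  · intro a b
    haveI := hcyc
    exact Cfsg.Agent.Helper73.centralizer_fittingSubgroup_le
      (comm_mem_centralizer_of_cyclic_normal _ a b)

theorem main_aux {H : Type*} [Group H] [Finite H] (hsol : Group.IsSolvable H)
    (hO : Cfsg.oddCore H = ⊥)
    (hI : ∀ t : H, orderOf t = 2 →
      Cfsg.HasNormalPComplement 2 ↥(Subgroup.centralizer ({t} : Set H)))
    (X : Subgroup H) (hXodd : Odd (Nat.card X)) (hXidx : ∃ k : ℕ, X.index = 2 ^ k)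
    (Y : Subgroup H) [Y.Normal] (hY : Y = Cfsg.pCore 2 H) (hY1 : Y ≠ ⊥) :
    (X ⊔ Y).Normal ∧
      ∀ hN : (X ⊔ Y).Normal, IsCyclic (H ⧸ (X ⊔ Y)) ∧ IsPGroup 2 (H ⧸ (X ⊔ Y)) := by
  obtain ⟨F, hFn, hFodd, hFcomm, hFder, hFcent⟩ := quot_facts hsol hO hI Y hY hY1
  haveI := hFn
  haveI : Fact (Nat.Prime 2) := ⟨Nat.prime_two⟩
  have hπ : Function.Surjective (QuotientGroup.mk' Y) := QuotientGroup.mk'_surjective Y
  have hXbodd : Odd (Nat.card (X.map (QuotientGroup.mk' Y))) :=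
    Odd.of_dvd_nat hXodd (Subgroup.card_map_dvd X _)
  have hFX : F ≤ X.map (QuotientGroup.mk' Y) := by
    obtain ⟨k, hk⟩ := hXidx
    have h1 : (X.map (QuotientGroup.mk' Y)).index ∣ 2 ^ k := hk ▸ Subgroup.index_map_dvd X hπ
    have h2 : (X.map (QuotientGroup.mk' Y)).relIndex (F ⊔ X.map (QuotientGroup.mk' Y)) ∣
        (X.map (QuotientGroup.mk' Y)).index :=
      Dvd.intro _ (Subgroup.relIndex_mul_index
        (le_sup_right : X.map (QuotientGroup.mk' Y) ≤ F ⊔ X.map (QuotientGroup.mk' Y)))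
    have h3 : (X.map (QuotientGroup.mk' Y)).relIndex (F ⊔ X.map (QuotientGroup.mk' Y)) ∣
        Nat.card (F ⊔ X.map (QuotientGroup.mk' Y) : Subgroup (H ⧸ Y)) :=
      Subgroup.relIndex_dvd_card _ _
    have h4 : Nat.card (F ⊔ X.map (QuotientGroup.mk' Y) : Subgroup (H ⧸ Y)) ∣
        Nat.card F * Nat.card (X.map (QuotientGroup.mk' Y)) := card_sup_dvd F _
    have h5 : Odd ((X.map (QuotientGroup.mk' Y)).relIndex (F ⊔ X.map (QuotientGroup.mk' Y))) :=
      Odd.of_dvd_nat (hFodd.mul hXbodd) (h3.trans h4)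
    have h6 : (X.map (QuotientGroup.mk' Y)).relIndex (F ⊔ X.map (QuotientGroup.mk' Y)) = 1 := by
      obtain ⟨j, -, hj⟩ := (Nat.dvd_prime_pow Nat.prime_two).mp (h2.trans h1)
      rw [hj] at h5 ⊢
      cases j with
      | zero => rfl
      | succ j =>
        exfalso
        rw [Nat.odd_iff, pow_succ, Nat.mul_mod_left] at h5
        omega
    exact le_sup_left.trans (Subgroup.relIndex_eq_one.mp h6)
  have hXbn : (X.map (QuotientGroup.mk' Y)).Normal := by
    constructor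
    intro x hx g
    have h1 : (x⁻¹ * g⁻¹)⁻¹ * (g⁻¹ * x⁻¹) ∈ X.map (QuotientGroup.mk' Y) :=
      hFX (hFder x⁻¹ g⁻¹)
    have h2 := (X.map (QuotientGroup.mk' Y)).mul_mem h1 hx
    have e : (x⁻¹ * g⁻¹)⁻¹ * (g⁻¹ * x⁻¹) * x = g * x * g⁻¹ := by group
    rwa [e] at h2
  have hcomap : (X.map (QuotientGroup.mk' Y)).comap (QuotientGroup.mk' Y) = X ⊔ Y :=
    comap_map_mk' Y X
  have hnormal : (X ⊔ Y).Normal := by rw [← hcomap]; exact hXbn.comap _
  refine ⟨hnormal, fun hN => ?_⟩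
  haveI := hN
  have hmem : ∀ h : H, h ∈ X ⊔ Y ↔ (QuotientGroup.mk' Y) h ∈ X.map (QuotientGroup.mk' Y) :=
    fun h => by rw [← hcomap]; rfl
  have hpg : IsPGroup 2 (H ⧸ (X ⊔ Y)) := by
    obtain ⟨k, hk⟩ := hXidx
    have h1 : (X ⊔ Y).index ∣ 2 ^ k := hk ▸ Subgroup.index_dvd_of_le le_sup_left
    obtain ⟨j, -, hj⟩ := (Nat.dvd_prime_pow Nat.prime_two).mp h1
    exact IsPGroup.of_card (n := j) (by rw [← Subgroup.index_eq_card]; exact hj)
  refine ⟨?_, hpg⟩
  have hcomm : ∀ a b : H ⧸ (X ⊔ Y), a * b = b * a := by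
    intro a b
    obtain ⟨a, rfl⟩ := QuotientGroup.mk_surjective a
    obtain ⟨b, rfl⟩ := QuotientGroup.mk_surjective b
    rw [← QuotientGroup.mk_mul, ← QuotientGroup.mk_mul, QuotientGroup.eq, hmem]
    have := hFX (hFder ((QuotientGroup.mk' Y) a) ((QuotientGroup.mk' Y) b))
    simpa using this
  haveI : IsMulCommutative (H ⧸ (X ⊔ Y)) := ⟨⟨hcomm⟩⟩
  by_contra hnc
  obtain ⟨r, hr, u, v, hur, hvr, hu1, huv⟩ := exists_elementary_pair hnc
  have hr2 : r = 2 := by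
    have h1 : orderOf u ∣ r := orderOf_dvd_of_pow_eq_one hur
    have h2 : orderOf u ≠ 1 := fun h => hu1 (orderOf_eq_one_iff.mp h)
    have h3 : orderOf u = r := ((Nat.dvd_prime hr).mp h1).resolve_left h2
    obtain ⟨k, hk⟩ := hpg u
    have h4 : r ∣ 2 ^ k := h3 ▸ orderOf_dvd_of_pow_eq_one hk
    exact (Nat.prime_dvd_prime_iff_eq hr Nat.prime_two).mp (hr.dvd_of_dvd_pow h4)
  subst hr2
  have hv1 : v ≠ 1 := fun h => by
    have := huv 0; rw [pow_zero, one_mul] at this; exact this h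
  have huv1 : u * v ≠ 1 := by have := huv 1; rwa [pow_one] at this
  have hlift : ∀ w : H ⧸ (X ⊔ Y), w ^ 2 = 1 →
      ∃ a : H, (∃ i : ℕ, orderOf a = 2 ^ i) ∧ (a : H ⧸ (X ⊔ Y)) = w := by
    intro w hw
    obtain ⟨a, rfl⟩ := QuotientGroup.mk_surjective w
    obtain ⟨i, m, hm, him⟩ := Nat.exists_eq_two_pow_mul_odd (orderOf_pos a).ne'
    refine ⟨a ^ m, ⟨i, orderOf_pow_cofactor a him⟩, ?_⟩
    rw [QuotientGroup.mk_pow]
    obtain ⟨c, rfl⟩ := hm
    rw [pow_add, pow_mul, hw, one_pow, one_mul, pow_one]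
  have hY1' : Cfsg.pCore 2 H ≠ ⊥ := hY ▸ hY1
  have hNMb : NoMix {2} (H ⧸ Y) := (noMix hsol hO hI hY1').of_surjective _ hπ
  have hinv : ∀ a : H, (∃ i : ℕ, orderOf a = 2 ^ i) → (a : H ⧸ (X ⊔ Y)) ≠ 1 →
      (a : H ⧸ (X ⊔ Y)) ^ 2 = 1 → ∀ f ∈ F,
        (QuotientGroup.mk' Y) a * f * ((QuotientGroup.mk' Y) a)⁻¹ = f⁻¹ := by
    rintro a ⟨i, hi⟩ ha1 ha2 f hf
    have hsq : (QuotientGroup.mk' Y) a ^ 2 = 1 := by
      have h1 : a ^ 2 ∈ X ⊔ Y := by
        rw [← QuotientGroup.eq_one_iff, QuotientGroup.mk_pow]; exact ha2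
      have h2 : (QuotientGroup.mk' Y) (a ^ 2) ∈ X.map (QuotientGroup.mk' Y) := (hmem _).mp h1
      have h3 : Odd (orderOf ((QuotientGroup.mk' Y) (a ^ 2))) :=
        Odd.of_dvd_nat hXbodd (Subgroup.orderOf_dvd_natCard _ h2)
      have h4 : orderOf ((QuotientGroup.mk' Y) (a ^ 2)) ∣ 2 ^ i :=
        (orderOf_map_dvd (QuotientGroup.mk' Y) (a ^ 2)).trans (hi ▸ orderOf_pow_dvd 2)
      have h5 : ∃ k : ℕ, orderOf ((QuotientGroup.mk' Y) (a ^ 2)) = 2 ^ k := by
        obtain ⟨k, -, hk⟩ := (Nat.dvd_prime_pow Nat.prime_two).mp h4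
        exact ⟨k, hk⟩
      have h6 := eq_one_of_odd_of_two_pow h3 h5
      rwa [map_pow] at h6
    have hne : (QuotientGroup.mk' Y) a ≠ 1 := by
      intro h
      apply ha1
      rw [QuotientGroup.eq_one_iff]
      exact (le_sup_right : Y ≤ X ⊔ Y) ((QuotientGroup.eq_one_iff a).mp h)
    generalize (QuotientGroup.mk' Y) a = s at hsq hne ⊢
    have hsinv : s⁻¹ = s := by
      rw [inv_eq_iff_mul_eq_one, ← sq]; exact hsq
    rw [hsinv]
    have hc : f * (s * f * s) = (s * f * s) * f := by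
      have h1 := hFn.conj_mem f hf s
      rw [hsinv] at h1
      exact congrArg Subtype.val (hFcomm ⟨f, hf⟩ ⟨s * f * s, h1⟩)
    have hwF : f * (s * f * s) ∈ F := by
      have h1 := hFn.conj_mem f hf s
      rw [hsinv] at h1
      exact F.mul_mem hf h1
    have hcw : Commute s (f * (s * f * s)) := by
      show s * (f * (s * f * s)) = f * (s * f * s) * s
      calc s * (f * (s * f * s)) = (s * f * s) * f * s := by simp only [mul_assoc]
        _ = f * (s * f * s) * s := by rw [← hc]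
    rcases hNMb.eq_one_or hcw
      (fun p hp hpd => (Nat.prime_dvd_prime_iff_eq hp Nat.prime_two).mp
        (hpd.trans (orderOf_dvd_of_pow_eq_one hsq)))
      (fun p hp hpd h2 => by
        have h3 : p = 2 := h2
        subst h3
        exact (Nat.not_even_iff_odd.mpr hFodd)
          (even_iff_two_dvd.mpr (hpd.trans (Subgroup.orderOf_dvd_natCard _ hwF)))) with h | h
    · exact absurd h hne
    · exact eq_inv_of_mul_eq_one_right h
  obtain ⟨a, ha, hau⟩ := hlift u hur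
  obtain ⟨b, hb, hbv⟩ := hlift v hvr
  have hab : (QuotientGroup.mk' Y) (a * b) ∈ Subgroup.centralizer (F : Set (H ⧸ Y)) := by
    rw [Subgroup.mem_centralizer_iff]
    intro f hf
    have h1 := hinv b hb (hbv ▸ hv1) (hbv ▸ hvr) f hf
    have h2 := hinv a ha (hau ▸ hu1) (hau ▸ hur) f⁻¹ (F.inv_mem hf)
    rw [map_mul]
    have h3 : (QuotientGroup.mk' Y) a * (QuotientGroup.mk' Y) b * f *
        ((QuotientGroup.mk' Y) b)⁻¹ * ((QuotientGroup.mk' Y) a)⁻¹ = f := by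
      calc (QuotientGroup.mk' Y) a * (QuotientGroup.mk' Y) b * f *
            ((QuotientGroup.mk' Y) b)⁻¹ * ((QuotientGroup.mk' Y) a)⁻¹
          = (QuotientGroup.mk' Y) a * ((QuotientGroup.mk' Y) b * f *
            ((QuotientGroup.mk' Y) b)⁻¹) * ((QuotientGroup.mk' Y) a)⁻¹ := by group
        _ = f := by rw [h1, h2, inv_inv]
    calc f * ((QuotientGroup.mk' Y) a * (QuotientGroup.mk' Y) b)
        = ((QuotientGroup.mk' Y) a * (QuotientGroup.mk' Y) b * f *
            ((QuotientGroup.mk' Y) b)⁻¹ * ((QuotientGroup.mk' Y) a)⁻¹) *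
            ((QuotientGroup.mk' Y) a * (QuotientGroup.mk' Y) b) := by rw [h3]
      _ = (QuotientGroup.mk' Y) a * (QuotientGroup.mk' Y) b * f := by group
  have hmemab : a * b ∈ X ⊔ Y := (hmem _).mpr (hFX (hFcent hab))
  apply huv1
  rw [← hau, ← hbv, ← QuotientGroup.mk_mul]
  exact (QuotientGroup.eq_one_iff _).mpr hmemab

/-- Let H be a finite solvable group with no nontrivial normal subgroup of odd order in which the centralizer of every involution has a normal 2-complement. Let X be a Hall 2'-subgroup of H (odd order, index a power of 2) and Y = O₂(H). Then no non-identity element of X commutes with a non-identity element of Y (so for X ≠ 1 the group XY is a Frobenius group with kernel Y), every Sylow subgroup of X is cyclic, XY is normal in H, and H/XY is a cyclic 2-group. -/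
theorem result {H : Type*} [Group H] [Finite H] (hsol : Group.IsSolvable H)
    (hO : Cfsg.oddCore H = ⊥)
    (hI : ∀ t : H, orderOf t = 2 → Cfsg.HasNormalPComplement 2 ↥(Subgroup.centralizer ({t} : Set H)))
    (X : Subgroup H) (hXodd : Odd (Nat.card X)) (hXidx : ∃ k : ℕ, X.index = 2 ^ k) :
    (∀ x ∈ X, x ≠ 1 → ∀ y ∈ Cfsg.pCore 2 H, y ≠ 1 → x * y ≠ y * x) ∧
      (∀ (p : ℕ) [Fact p.Prime] (P : Sylow p ↥X), IsCyclic ↥(P : Subgroup ↥X)) ∧
      (X ⊔ Cfsg.pCore 2 H).Normal ∧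
      ∀ hN : (X ⊔ Cfsg.pCore 2 H).Normal, IsCyclic (H ⧸ (X ⊔ Cfsg.pCore 2 H)) ∧ IsPGroup 2 (H ⧸ (X ⊔ Cfsg.pCore 2 H)) := by
  have h1 : ∀ x ∈ X, x ≠ 1 → ∀ y ∈ Cfsg.pCore 2 H, y ≠ 1 → x * y ≠ y * x := by
    intro x hx hx1 y hy hy1
    exact fpf_of_odd hsol hO hI (Odd.of_dvd_nat hXodd (X.orderOf_dvd_natCard hx)) hx1 hy hy1
  refine ⟨h1, ?_, ?_⟩
  · intro p _ P
    exact sylow_cyclic hsol hO hI X hXodd p P
  · by_cases hY : Cfsg.pCore 2 H = ⊥
    · haveI := subsingleton_of_pCore_eq_bot hsol hO hY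
      have hn : (X ⊔ Cfsg.pCore 2 H).Normal :=
        ⟨fun n hn g => by rw [Subsingleton.elim (g * n * g⁻¹) n]; exact hn⟩
      refine ⟨hn, fun hN => ⟨?_, ?_⟩⟩
      · haveI : Subsingleton (H ⧸ (X ⊔ Cfsg.pCore 2 H)) :=
          (QuotientGroup.mk_surjective (s := X ⊔ Cfsg.pCore 2 H)).subsingleton
        exact isCyclic_of_subsingleton
      · intro g
        exact ⟨0, by
          obtain ⟨g, rfl⟩ := QuotientGroup.mk_surjective g
          rw [Subsingleton.elim g 1]; simp⟩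
    · haveI := Helper1.pCore_normal' 2 H
      exact main_aux hsol hO hI X hXodd hXidx (Cfsg.pCore 2 H) rfl hY

end Cfsg.Agent.S3215
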