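import Cfsg.Statements.S3224
import Cfsg.Agent.Helper53.TwoGroup

set_option autoImplicit false
open Cfsg

namespace Cfsg.Agent.S3224

/-- A finite 2-group containing an involution whose centralizer has order 4 is dihedral, quasi-dihedral (semidihedral), or of order 4. -/
theorem result {S : Type*} [Group S] [Finite S] (hS : IsPGroup 2 S)
    (x : S) (hx : orderOf x = 2) (hC : Nat.card ↥(Subgroup.centralizer ({x} : Set S)) = 4) :
    (∃ n : ℕ, Nonempty (S ≃* DihedralGroup n)) ∨ Cfsg.IsQuasiDihedral S ∨ Nat.card S = 4 := by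
  classical
  have : Fact (Nat.Prime 2) := ⟨Nat.prime_two⟩
  by_cases h4 : Nat.card S = 4
  · exact Or.inr (Or.inr h4)
  have hx1 : x ≠ 1 := by intro h; rw [h, orderOf_one] at hx; omega
  have hxx : x * x = 1 := by rw [← pow_two, ← hx, pow_orderOf_eq_one]
  have hxinv : x⁻¹ = x := inv_eq_of_mul_eq_one_left hxx
  have hcyc : ¬ IsCyclic S := by
    intro hc
    apply h4
    have hcomm : ∀ g h : S, g * h = h * g := by
      intro g h
      obtain ⟨g₀, hg₀⟩ := hc.exists_generator
      obtain ⟨i, hi⟩ := Subgroup.mem_zpowers_iff.mp (hg₀ g)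
      obtain ⟨j, hj⟩ := Subgroup.mem_zpowers_iff.mp (hg₀ h)
      rw [← hi, ← hj, ← zpow_add, ← zpow_add, add_comm]
    have htop : Subgroup.centralizer ({x} : Set S) = ⊤ := by
      rw [eq_top_iff]; intro g _
      rw [Subgroup.mem_centralizer_iff]; rintro _ rfl
      exact hcomm _ _
    rw [htop, Subgroup.card_top] at hC; exact hC
  obtain ⟨a, hxa, hao2⟩ := Cfsg.Agent.Helper53.exists_cyclic_of_centralizer_four (Nat.card S) S rfl hS hcyc x hx hC
  obtain ⟨e, he⟩ := hS.exists_card_eq
  have hCle : Nat.card (Subgroup.centralizer ({x} : Set S)) ≤ Nat.card S := Subgroup.card_le_card_group _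
  have he3 : 3 ≤ e := by
    by_contra hlt
    push Not at hlt
    rw [hC, he] at hCle
    rw [he] at h4
    interval_cases e <;> simp at hCle h4
  obtain ⟨n, hn⟩ : ∃ n : ℕ, n = e - 1 := ⟨_, rfl⟩
  have hn2 : 2 ≤ n := by omega
  have hcard : Nat.card S = 2 ^ (n + 1) := by rw [he]; congr 1; omega
  have hao : orderOf a = 2 ^ n := by
    rw [hcard, pow_succ] at hao2
    omega
  have hn1 : 2 ^ (n - 1) * 2 = 2 ^ n := by rw [← pow_succ]; congr 1; omega
  have hAidx : (Subgroup.zpowers a).index = 2 := by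
    have h1 := Subgroup.card_mul_index (Subgroup.zpowers a)
    rw [Nat.card_zpowers, hao, hcard, pow_succ] at h1
    exact Nat.eq_of_mul_eq_mul_left (by positivity) h1
  have hAn : (Subgroup.zpowers a).Normal := Subgroup.normal_of_index_eq_two hAidx
  have hxax : x * a * x⁻¹ ∈ Subgroup.zpowers a := hAn.conj_mem a (Subgroup.mem_zpowers a) x
  obtain ⟨k, hk⟩ := Subgroup.mem_zpowers_iff.mp hxax
  have hcomm_a : a * (x * a * x⁻¹) = (x * a * x⁻¹) * a := by rw [← hk]; group
  have hc_comm : x * (x * a * x⁻¹ * a) = (x * a * x⁻¹ * a) * x := by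
    calc x * (x * a * x⁻¹ * a) = (x * x) * a * x⁻¹ * a := by group
      _ = a * x⁻¹ * a := by rw [hxx, one_mul]
      _ = a * x * a := by rw [hxinv]
      _ = a * (x * a * x⁻¹) * x := by group
      _ = (x * a * x⁻¹) * a * x := by rw [hcomm_a]
  obtain ⟨z, hz⟩ : ∃ z : S, z = a ^ (2 ^ (n - 1)) := ⟨_, rfl⟩
  have hzz : z * z = 1 := by rw [hz, ← pow_add, ← two_mul, mul_comm, hn1, ← hao, pow_orderOf_eq_one]
  have hz1 : z ≠ 1 := by
    rw [hz]
    apply pow_ne_one_of_lt_orderOf (by positivity)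
    rw [hao]
    exact Nat.pow_lt_pow_right (by norm_num) (by omega)
  -- elements of ⟨a⟩ commuting with x
  have hCA : ∀ w ∈ Subgroup.zpowers a, x * w = w * x → w = 1 ∨ w = z := by
    intro w hw hwx
    have hwC : w ∈ Subgroup.centralizer ({x} : Set S) := by
      rw [Subgroup.mem_centralizer_iff]; rintro _ rfl; exact hwx
    have hxC : x ∈ Subgroup.centralizer ({x} : Set S) := by
      rw [Subgroup.mem_centralizer_iff]; rintro _ rfl; rfl
    have hKlt : Subgroup.centralizer ({x} : Set S) ⊓ Subgroup.zpowers a < Subgroup.centralizer ({x} : Set S) := by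
      refine lt_of_le_of_ne inf_le_left ?_
      intro h
      have h1 : x ∈ Subgroup.centralizer ({x} : Set S) ⊓ Subgroup.zpowers a := by
        rw [h]; exact hxC
      exact hxa (Subgroup.mem_inf.mp h1).2
    have hKdvd : Nat.card ↥(Subgroup.centralizer ({x} : Set S) ⊓ Subgroup.zpowers a) ∣ 4 := by
      rw [← hC]; exact Subgroup.card_dvd_of_le inf_le_left
    have hKcard : Nat.card ↥(Subgroup.centralizer ({x} : Set S) ⊓ Subgroup.zpowers a) < 4 := by
      rw [← hC]; exact Cfsg.Agent.Helper53.card_lt_of_lt hKlt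
    have hK2 : Nat.card ↥(Subgroup.centralizer ({x} : Set S) ⊓ Subgroup.zpowers a) ∣ 2 := by
      have hle := Nat.le_of_dvd (by norm_num) hKdvd
      interval_cases (Nat.card ↥(Subgroup.centralizer ({x} : Set S) ⊓ Subgroup.zpowers a)) <;> omega
    have hwo : orderOf w ∣ 2 := by
      have h1 := orderOf_dvd_natCard (⟨w, Subgroup.mem_inf.mpr ⟨hwC, hw⟩⟩ :
        ↥(Subgroup.centralizer ({x} : Set S) ⊓ Subgroup.zpowers a))
      rw [Subgroup.orderOf_mk] at h1
      exact h1.trans hK2
    have hw2 : w ^ 2 = 1 := orderOf_dvd_iff_pow_eq_one.mp hwo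
    have h1 := (mem_powers_iff_mem_zpowers (x := a) (y := w)).mpr hw
    obtain ⟨i, hi⟩ := (Submonoid.mem_powers_iff _ _).mp h1
    rw [← hi, ← pow_mul] at hw2
    have h2 := orderOf_dvd_of_pow_eq_one hw2
    rw [hao, ← hn1] at h2
    have h3 : 2 ^ (n - 1) ∣ i := Nat.dvd_of_mul_dvd_mul_right (by norm_num) h2
    obtain ⟨j, rfl⟩ := h3
    rw [← hi, pow_mul, ← hz]
    rcases Nat.even_or_odd j with ⟨q, rfl⟩ | ⟨q, rfl⟩
    · left; rw [← two_mul, pow_mul, pow_two, hzz, one_pow]
    · right; rw [pow_succ, pow_mul, pow_two, hzz, one_pow, one_mul]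
  have hcA : x * a * x⁻¹ * a ∈ Subgroup.zpowers a :=
    Subgroup.mul_mem _ hxax (Subgroup.mem_zpowers a)
  rcases hCA _ hcA hc_comm with hc1 | hcz
  · -- dihedral
    left
    have hax : x * a * x⁻¹ = a⁻¹ := eq_inv_of_mul_eq_one_left hc1
    have hcard' : Nat.card S = 2 * 2 ^ n := by rw [hcard, pow_succ, mul_comm]
    exact ⟨2 ^ n, Cfsg.Agent.Helper53.nonempty_mulEquiv_dihedralGroup_of (2 ^ n) a x hcard' hao hxx hax hxa⟩
  · -- quasi-dihedral
    right; left
    have hax : x * a * x⁻¹ = z * a⁻¹ := by rw [← hcz]; group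
    have hn3 : 3 ≤ n := by
      by_contra hlt
      push Not at hlt
      have hn2' : n = 2 := by omega
      rw [hn2'] at hz hao
      have h1 : x * a * x⁻¹ = a := by
        rw [hax, hz]
        norm_num [pow_succ]
      have h2 : x * a = a * x := by
        calc x * a = (x * a * x⁻¹) * x := by group
          _ = a * x := by rw [h1]
      rcases hCA a (Subgroup.mem_zpowers a) h2 with h3 | h3
      · rw [h3, orderOf_one] at hao; norm_num at hao
      · rw [hz] at h3
        have h4 : a = 1 := by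
          have h5 : a * 1 = a * a := by
            rw [mul_one]
            calc a = a ^ 2 ^ (2 - 1) := h3
              _ = a * a := by norm_num [pow_two]
          exact (mul_left_cancel h5).symm
        rw [h4, orderOf_one] at hao; norm_num at hao
    refine ⟨n, hn3, hcard, a, x, hao, hx, ?_⟩
    rw [hax, hz]
    have hpos : 1 ≤ 2 ^ (n - 1) := Nat.one_le_two_pow
    have h1 : a ^ (2 ^ (n - 1)) = a ^ (2 ^ (n - 1) - 1) * a := by
      rw [← pow_succ, Nat.sub_add_cancel hpos]
    rw [h1, mul_assoc, mul_inv_cancel, mul_one]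

end Cfsg.Agent.S3224
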