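import Cfsg.Statements.S3246
import Cfsg.Agent.Helper54.PConstrained3

set_option autoImplicit false
open Cfsg

namespace Cfsg.Agent.S3246

/-- Let G be a finite group whose Sylow 2-subgroup S has a self-centralizing normal subgroup of rank at least 3. Suppose that either every maximal 2-local subgroup of G is 2-constrained with no nontrivial normal subgroup of odd order, or the centralizer of every involution of G is 2-constrained with no nontrivial normal subgroup of odd order. Then S normalizes no nontrivial subgroup of G of odd order and every 2-local subgroup of G is 2-constrained. -/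
theorem result {G : Type*} [Group G] [Finite G]
    (S : Sylow 2 G) (A : Subgroup G) (hA : Cfsg.IsSCN (S : Subgroup G) A) (hA3 : ¬ Cfsg.PRankLE 2 2 ↥A)
    (h : (∀ M : Subgroup G, Cfsg.IsMaximalTwoLocal M → Cfsg.IsPConstrained 2 ↥M ∧ Cfsg.oddCore ↥M = ⊥) ∨
      (∀ t : G, orderOf t = 2 → Cfsg.IsPConstrained 2 ↥(Subgroup.centralizer ({t} : Set G)) ∧
        Cfsg.oddCore ↥(Subgroup.centralizer ({t} : Set G)) = ⊥)) :
    (∀ X : Subgroup G, Odd (Nat.card ↥X) → (S : Subgroup G) ≤ Subgroup.normalizer (X : Set G) → X = ⊥) ∧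
      (∀ T : Subgroup G, IsPGroup 2 ↥T → T ≠ ⊥ → Cfsg.IsPConstrained 2 ↥(Subgroup.normalizer (T : Set G))) := by
  -- reduce to the hypothesis on centralizers of involutions
  have hB : ∀ t : G, orderOf t = 2 →
      IsPConstrained 2 ↥(Subgroup.centralizer ({t} : Set G)) ∧
        pPrimeCore 2 ↥(Subgroup.centralizer ({t} : Set G)) = ⊥ := by
    rcases h with hA' | hB'
    · intro t ht
      obtain ⟨Tz, hTz⟩ : ∃ Tz : Subgroup G, Tz = Subgroup.zpowers t := ⟨_, rfl⟩
      have hTz2 : IsPGroup 2 ↥Tz := by
        apply IsPGroup.of_card (n := 1)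
        rw [hTz, Nat.card_zpowers, ht, pow_one]
      have htTz : t ∈ Tz := by rw [hTz]; exact Subgroup.mem_zpowers t
      have hTz1 : Tz ≠ ⊥ := by
        intro hbot
        rw [hbot, Subgroup.mem_bot] at htTz
        rw [htTz, orderOf_one] at ht
        omega
      obtain ⟨S0, hS0⟩ : ∃ S0 : Set (Subgroup G), S0 = {M : Subgroup G |
          IsTwoLocal M ∧ Subgroup.normalizer (Tz : Set G) ≤ M} := ⟨_, rfl⟩
      have hN : Subgroup.normalizer (Tz : Set G) ∈ S0 := by
        rw [hS0]; exact ⟨⟨Tz, hTz2, hTz1, rfl⟩, le_rfl⟩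
      obtain ⟨M, hNM, hMmax⟩ := (Set.toFinite S0).exists_le_maximal hN
      have hMS : M ∈ S0 := hMmax.prop
      rw [hS0] at hMS
      obtain ⟨hM1, hM2⟩ := hMS
      have hMmaxl : IsMaximalTwoLocal M := by
        refine ⟨hM1, fun N hN' hMN => ?_⟩
        have hNS : N ∈ S0 := by rw [hS0]; exact ⟨hN', hM2.trans hMN⟩
        exact le_antisymm (hMmax.le_of_ge hNS hMN) hMN
      obtain ⟨hMc, hMo⟩ := hA' M hMmaxl
      have hCz : Subgroup.centralizer ({t} : Set G) ≤ Subgroup.centralizer (Tz : Set G) := by
        intro g hg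
        rw [Subgroup.mem_centralizer_iff] at hg ⊢
        intro z hz
        rw [hTz] at hz
        obtain ⟨k, rfl⟩ := Subgroup.mem_zpowers_iff.mp hz
        have h1 : Commute t g := hg t rfl
        exact (h1.zpow_left k).eq
      have hzC : Subgroup.centralizer (Tz : Set G) ≤ Subgroup.centralizer ({t} : Set G) := by
        intro g hg
        rw [Subgroup.mem_centralizer_iff] at hg ⊢
        intro z hz
        rw [Set.mem_singleton_iff] at hz
        rw [hz]
        exact hg t htTz
      have hCN : Subgroup.centralizer ({t} : Set G) ≤ Subgroup.normalizer (Tz : Set G) :=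
        hCz.trans (Subgroup.centralizer_le_normalizer _)
      have hTzM : Tz ≤ M := Subgroup.le_normalizer.trans hNM
      exact ⟨Cfsg.Agent.Helper54.isPConstrained_local_in hMc Tz hTz2 hTzM _ (hCN.trans hNM)
          (inf_le_left.trans hzC) hCN (Or.inr hCz),
        Cfsg.Agent.Helper54.local_core_in hMc hMo Tz hTz2 hTzM _ (hCN.trans hNM)
          (inf_le_left.trans hzC) hCN (Or.inr hCz)⟩
    · exact hB'
  refine ⟨?_, ?_⟩
  · intro X hXodd hSX
    have hcenB : ∀ b : G, orderOf b = 2 →
        Subgroup.centralizer (pCore 2 ↥(Subgroup.centralizer ({b} : Set G)) :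
          Set ↥(Subgroup.centralizer ({b} : Set G))) ≤
          pCore 2 ↥(Subgroup.centralizer ({b} : Set G)) := by
      intro b hb
      obtain ⟨h1, h2⟩ := hB b hb
      exact (Cfsg.Agent.Helper54.isPConstrained_iff_of_surjective (MonoidHom.id _)
        Function.surjective_id
        (by rw [MonoidHom.ker_id, Subgroup.card_bot]; exact Nat.coprime_one_left 2) h2).mp h1
    have hS2 : IsPGroup 2 ↥(S : Subgroup G) := S.2
    obtain ⟨hAS, hSA, hAcen⟩ := hA
    have hAcomm : ∀ x ∈ A, ∀ y ∈ A, x * y = y * x := by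
      intro x hx y hy
      have h1 : y ∈ (S : Subgroup G) ⊓ Subgroup.centralizer (A : Set G) := by rw [hAcen]; exact hy
      exact (Subgroup.mem_centralizer_iff.mp (Subgroup.mem_inf.mp h1).2) x hx
    -- the subgroup of elements of `A` of order at most 2, inside `S`
    obtain ⟨V, hV⟩ : ∃ V : Subgroup ↥(S : Subgroup G),
        ∀ v : ↥(S : Subgroup G), v ∈ V ↔ ((v : G) ∈ A ∧ v * v = 1) := by
      refine ⟨{ carrier := {v | (v : G) ∈ A ∧ v * v = 1}
                mul_mem' := ?_
                one_mem' := ?_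
                inv_mem' := ?_ }, fun v => Iff.rfl⟩
      · intro v w hv hw
        refine ⟨A.mul_mem hv.1 hw.1, ?_⟩
        have hc : w * v = v * w := Subtype.ext (hAcomm _ hw.1 _ hv.1)
        calc v * w * (v * w) = v * (w * v) * w := by group
          _ = v * (v * w) * w := by rw [hc]
          _ = (v * v) * (w * w) := by group
          _ = 1 := by rw [hv.2, hw.2, one_mul]
      · exact ⟨A.one_mem, one_mul 1⟩
      · intro v hv
        refine ⟨A.inv_mem hv.1, ?_⟩
        calc v⁻¹ * v⁻¹ = (v * v)⁻¹ := by group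
          _ = 1 := by rw [hv.2, inv_one]
    have hVn : V.Normal := by
      constructor
      intro v hv g
      rw [hV] at hv ⊢
      refine ⟨(Subgroup.mem_normalizer_iff.mp (hSA g.2) _).mp hv.1, ?_⟩
      calc g * v * g⁻¹ * (g * v * g⁻¹) = g * (v * v) * g⁻¹ := by group
        _ = 1 := by rw [hv.2]; group
    have hVcard : 2 < Nat.card V := by
      have hex : ∃ B : Subgroup ↥A, (∀ b ∈ B, b ^ 2 = 1) ∧ 4 < Nat.card B := by
        by_contra hcon
        apply hA3
        intro B _ hB2
        by_contra hlt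
        exact hcon ⟨B, hB2, by norm_num at hlt; omega⟩
      obtain ⟨B, hB2, hBc⟩ := hex
      have hinj : ∃ f : ↥B → ↥V, Function.Injective f := by
        refine ⟨fun b => ⟨⟨((b : ↥A) : G), hAS (b : ↥A).2⟩, (hV _).mpr ⟨(b : ↥A).2, ?_⟩⟩, ?_⟩
        · apply Subtype.ext
          have h1 := hB2 (b : ↥A) b.2
          have h2 : (((b : ↥A) : G)) ^ 2 = 1 := by
            have := congrArg Subtype.val h1
            simpa using this
          show ((b : ↥A) : G) * ((b : ↥A) : G) = 1
          rw [← pow_two]; exact h2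
        · intro b c hbc
          have h1 : ((b : ↥A) : G) = ((c : ↥A) : G) :=
            congrArg (fun v : ↥V => ((v : ↥(S : Subgroup G)) : G)) hbc
          exact Subtype.ext (Subtype.ext h1)
      obtain ⟨f, hf⟩ := hinj
      have h3 := Nat.card_le_card_of_injective f hf
      omega
    obtain ⟨e, a, heV, haV, he1, ha1, hae, hec, Sa, hSa, hSacard⟩ :=
      Cfsg.Agent.Helper54.exists_central_and_index_two hS2 V (fun v hv => ((hV v).mp hv).2) hVcard
    have he2 : (e : G) * (e : G) = 1 := congrArg Subtype.val ((hV e).mp heV).2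
    have ha2 : (a : G) * (a : G) = 1 := congrArg Subtype.val ((hV a).mp haV).2
    have he1' : (e : G) ≠ 1 := fun hh => he1 (Subtype.ext hh)
    have ha1' : (a : G) ≠ 1 := fun hh => ha1 (Subtype.ext hh)
    have hae' : (a : G) ≠ (e : G) := fun hh => hae (Subtype.ext hh)
    have hcomm_ae : (a : G) * (e : G) = (e : G) * (a : G) := congrArg Subtype.val (hec a)
    have heo : orderOf (e : G) = 2 := orderOf_eq_prime (by rw [pow_two]; exact he2) he1'
    have hao : orderOf (a : G) = 2 := orderOf_eq_prime (by rw [pow_two]; exact ha2) ha1'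
    have hae2 : (a : G) * (e : G) * ((a : G) * (e : G)) = 1 := by
      calc (a : G) * (e : G) * ((a : G) * (e : G)) = (a : G) * ((e : G) * (a : G)) * (e : G) := by
            group
        _ = (a : G) * ((a : G) * (e : G)) * (e : G) := by rw [hcomm_ae]
        _ = ((a : G) * (a : G)) * ((e : G) * (e : G)) := by group
        _ = 1 := by rw [ha2, he2, one_mul]
    have hae1 : (a : G) * (e : G) ≠ 1 := by
      intro hh
      apply hae'
      calc (a : G) = (a : G) * ((e : G) * (e : G)) := by rw [he2, mul_one]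
        _ = (a : G) * (e : G) * (e : G) := by group
        _ = (e : G) := by rw [hh, one_mul]
    have haeo : orderOf ((a : G) * (e : G)) = 2 :=
      orderOf_eq_prime (by rw [pow_two]; exact hae2) hae1
    -- the subgroup `Sb` of index at most 2 centralizing `a`
    obtain ⟨Sb, hSb⟩ : ∃ Sb : Subgroup G, Sb = Sa.map (S : Subgroup G).subtype := ⟨_, rfl⟩
    have hSbS : Sb ≤ (S : Subgroup G) := by
      rw [hSb]; intro s hs
      obtain ⟨s', -, rfl⟩ := Subgroup.mem_map.mp hs
      exact s'.2
    have hSba : ∀ s ∈ Sb, s * (a : G) = (a : G) * s := by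
      intro s hs
      rw [hSb] at hs
      obtain ⟨s', hs', rfl⟩ := Subgroup.mem_map.mp hs
      exact congrArg Subtype.val (hSa s' hs')
    have hSe : ∀ s ∈ (S : Subgroup G), s * (e : G) = (e : G) * s := by
      intro s hs
      exact congrArg Subtype.val (hec ⟨s, hs⟩)
    have hSbcard : Nat.card (S : Subgroup G) ≤ 2 * Nat.card Sb := by
      rw [hSb, Subgroup.card_map_of_injective (Subgroup.subtype_injective _)]
      exact hSacard
    have hfixe : ∀ y ∈ X, y * (e : G) = (e : G) * y → y = 1 := fun y hy hc =>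
      Cfsg.Agent.Helper54.eq_one_of_commute_involution S X hXodd hSX (e : G) (S : Subgroup G) le_rfl
        hSe (by omega) (hcenB _ heo) y hy hc
    have hfixa : ∀ y ∈ X, y * (a : G) = (a : G) * y → y = 1 := fun y hy hc =>
      Cfsg.Agent.Helper54.eq_one_of_commute_involution S X hXodd hSX (a : G) Sb hSbS
        hSba hSbcard (hcenB _ hao) y hy hc
    have hfixae : ∀ y ∈ X, y * ((a : G) * (e : G)) = (a : G) * (e : G) * y → y = 1 :=
      fun y hy hc =>
      Cfsg.Agent.Helper54.eq_one_of_commute_involution S X hXodd hSX ((a : G) * (e : G)) Sb hSbS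
        (fun s hs => by
          calc s * ((a : G) * (e : G)) = (s * (a : G)) * (e : G) := by group
            _ = ((a : G) * s) * (e : G) := by rw [hSba s hs]
            _ = (a : G) * (s * (e : G)) := by group
            _ = (a : G) * ((e : G) * s) := by rw [hSe s (hSbS hs)]
            _ = (a : G) * (e : G) * s := by group)
        hSbcard (hcenB _ haeo) y hy hc
    have hXnorm : ∀ s ∈ (S : Subgroup G), ∀ x ∈ X, s * x * s⁻¹ ∈ X := fun s hs x hx =>
      (Subgroup.mem_normalizer_iff.mp (hSX hs) x).mp hx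
    have hinve := Cfsg.Agent.Helper54.conj_eq_inv_of_fixed_point_free X (e : G) he2
      (hXnorm _ e.2) hfixe
    have hinva := Cfsg.Agent.Helper54.conj_eq_inv_of_fixed_point_free X (a : G) ha2
      (hXnorm _ a.2) hfixa
    rw [eq_bot_iff]
    intro x hx
    rw [Subgroup.mem_bot]
    apply hfixae x hx
    have h1 := hinve x hx
    have h2 := hinva x⁻¹ (X.inv_mem hx)
    rw [inv_inv] at h2
    -- (a e) x (a e)⁻¹ = x
    have h3 : (a : G) * (e : G) * x * ((a : G) * (e : G))⁻¹ = x := by
      calc (a : G) * (e : G) * x * ((a : G) * (e : G))⁻¹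
          = (a : G) * ((e : G) * x * (e : G)⁻¹) * (a : G)⁻¹ := by group
        _ = (a : G) * x⁻¹ * (a : G)⁻¹ := by rw [h1]
        _ = x := h2
    calc x * ((a : G) * (e : G)) = (a : G) * (e : G) * x * ((a : G) * (e : G))⁻¹ *
          ((a : G) * (e : G)) := by rw [h3]
      _ = (a : G) * (e : G) * x := by group
  · intro T hT hT1
    exact Cfsg.Agent.Helper54.isPConstrained_normalizer_of_centralizers
      (fun x hx => (hB x hx).1) T hT hT1

end Cfsg.Agent.S3246
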