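import Cfsg.Statements.S3247
import Cfsg.Agent.Helper54.PConstrained2

set_option autoImplicit false
open Cfsg

namespace Cfsg.Agent.S3247

/-- Let G be a finite group and p a prime; here a p-local subgroup means the normalizer of a nontrivial p-subgroup, other than G itself. If every p-local subgroup of G that is maximal among p-local subgroups is p-constrained, or if the centralizer of every element of order p of G is p-constrained, then every p-local subgroup of G is p-constrained. -/
theorem result {G : Type*} [Group G] [Finite G] (p : ℕ) [hp : Fact p.Prime]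
    (h : (∀ M : Subgroup G, (∃ T : Subgroup G, IsPGroup p ↥T ∧ T ≠ ⊥ ∧ M = Subgroup.normalizer (T : Set G)) → M ≠ ⊤ →
        (∀ M' : Subgroup G, (∃ T' : Subgroup G, IsPGroup p ↥T' ∧ T' ≠ ⊥ ∧ M' = Subgroup.normalizer (T' : Set G)) → M' ≠ ⊤ → M ≤ M' → M = M') →
        Cfsg.IsPConstrained p ↥M) ∨
      (∀ x : G, orderOf x = p → Cfsg.IsPConstrained p ↥(Subgroup.centralizer ({x} : Set G))))
    (T : Subgroup G) (hT : IsPGroup p ↥T) (hT1 : T ≠ ⊥) (hTG : Subgroup.normalizer (T : Set G) ≠ ⊤) :
    Cfsg.IsPConstrained p ↥(Subgroup.normalizer (T : Set G)) := by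
  rcases h with hA | hB
  · -- a maximal `p`-local subgroup containing `N_G(T)`
    obtain ⟨S, hS⟩ : ∃ S : Set (Subgroup G), S = {M : Subgroup G |
        (∃ T' : Subgroup G, IsPGroup p ↥T' ∧ T' ≠ ⊥ ∧ M = Subgroup.normalizer (T' : Set G)) ∧
          M ≠ ⊤ ∧ Subgroup.normalizer (T : Set G) ≤ M} := ⟨_, rfl⟩
    have hN : Subgroup.normalizer (T : Set G) ∈ S := by
      rw [hS]; exact ⟨⟨T, hT, hT1, rfl⟩, hTG, le_rfl⟩
    obtain ⟨M, hNM, hMmax⟩ := (Set.toFinite S).exists_le_maximal hN
    have hMS : M ∈ S := hMmax.prop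
    rw [hS] at hMS
    obtain ⟨hM1, hM2, hM3⟩ := hMS
    have hMc : IsPConstrained p ↥M := by
      apply hA M hM1 hM2
      intro M' hM' hM'top hle
      have hM'S : M' ∈ S := by rw [hS]; exact ⟨hM', hM'top, hM3.trans hle⟩
      exact le_antisymm hle (hMmax.le_of_ge hM'S hle)
    exact Cfsg.Agent.Helper54.isPConstrained_local_in hMc T hT (Subgroup.le_normalizer.trans hNM)
      _ hNM (inf_le_left.trans (Subgroup.centralizer_le_normalizer _)) le_rfl
      (Or.inl Subgroup.le_normalizer)
  · obtain ⟨N, hNdef⟩ : ∃ N : Subgroup G, N = Subgroup.normalizer (T : Set G) := ⟨_, rfl⟩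
    rw [← hNdef]
    have hTN : T ≤ N := by rw [hNdef]; exact Subgroup.le_normalizer
    -- an element of order `p` in the centre of `T`
    have hTnt : Nontrivial ↥T := (Subgroup.nontrivial_iff_ne_bot T).mpr hT1
    have hZnt : Nontrivial ↥(Subgroup.center ↥T) := hT.center_nontrivial
    have hZp : IsPGroup p ↥(Subgroup.center ↥T) := hT.to_subgroup _
    have hdvd : p ∣ Nat.card ↥(Subgroup.center ↥T) := by
      obtain ⟨n, hn⟩ := IsPGroup.iff_card.mp hZp
      rw [hn]
      have hn0 : n ≠ 0 := by
        rintro rfl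
        rw [pow_zero] at hn
        have h1 := Finite.one_lt_card (α := ↥(Subgroup.center ↥T))
        omega
      exact dvd_pow_self p hn0
    obtain ⟨z, hz⟩ := exists_prime_orderOf_dvd_card' p hdvd
    obtain ⟨x, hx⟩ : ∃ x : G, x = ((z : ↥T) : G) := ⟨_, rfl⟩
    have hxo : orderOf x = p := by
      rw [hx, Subgroup.orderOf_coe, Subgroup.orderOf_coe]; exact hz
    have hxT : x ∈ T := by rw [hx]; exact (z : ↥T).2
    have hxcen : T ≤ Subgroup.centralizer ({x} : Set G) := by
      intro t ht
      rw [Subgroup.mem_centralizer_iff]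
      intro y hy
      rw [Set.mem_singleton_iff] at hy
      rw [hy, hx]
      have h1 := Subgroup.mem_center_iff.mp z.2 ⟨t, ht⟩
      exact (congrArg Subtype.val h1).symm
    have hCc := hB x hxo
    have hNC : IsPConstrained p ↥(N ⊓ Subgroup.centralizer ({x} : Set G)) :=
      Cfsg.Agent.Helper54.isPConstrained_local_in hCc T hT hxcen _ inf_le_right
        (by rw [hNdef]
            exact le_inf (inf_le_left.trans (Subgroup.centralizer_le_normalizer _)) inf_le_right)
        (by rw [hNdef]; exact inf_le_left) (Or.inl (le_inf hTN hxcen))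
    obtain ⟨x', hx'⟩ : ∃ x' : ↥N, x' = ⟨x, hTN hxT⟩ := ⟨_, rfl⟩
    have heq : (N ⊓ Subgroup.centralizer ({x} : Set G)).subgroupOf N =
        Subgroup.centralizer ({x'} : Set ↥N) := by
      ext g
      rw [Subgroup.mem_subgroupOf, Subgroup.mem_inf, Subgroup.mem_centralizer_iff,
        Subgroup.mem_centralizer_iff]
      constructor
      · rintro ⟨-, h1⟩ y hy
        rw [Set.mem_singleton_iff] at hy
        rw [hy]
        apply Subtype.ext
        rw [hx']
        exact h1 x (Set.mem_singleton x)
      · intro h1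
        refine ⟨g.2, ?_⟩
        intro y hy
        rw [Set.mem_singleton_iff] at hy
        rw [hy]
        have h2 := h1 x' (Set.mem_singleton x')
        rw [hx'] at h2
        exact congrArg Subtype.val h2
    have hC' : IsPConstrained p ↥(Subgroup.centralizer ({x'} : Set ↥N)) :=
      Cfsg.Agent.Helper54.isPConstrained_of_mulEquiv
        ((Subgroup.subgroupOfEquivOfLe (inf_le_left :
          N ⊓ Subgroup.centralizer ({x} : Set G) ≤ N)).symm.trans (MulEquiv.subgroupCongr heq)) hNC
    refine Cfsg.Agent.Helper54.isPConstrained_of_centralizer x' (T.subgroupOf N) ?_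
      hT.comap_subtype ?_ hC'
    · constructor
      intro n hn g
      rw [Subgroup.mem_subgroupOf] at hn ⊢
      have hg : (g : G) ∈ Subgroup.normalizer (T : Set G) := by rw [← hNdef]; exact g.2
      exact (Subgroup.mem_normalizer_iff.mp hg n).mp hn
    · rw [hx', Subgroup.mem_subgroupOf]; exact hxT

end Cfsg.Agent.S3247
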