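import Cfsg.Statements.S3266
import Cfsg.Agent.Helper40.SL2EvenMax
import Cfsg.Agent.Helper40.PSL2Klein
import Cfsg.Agent.Helper40.SL2Nonsplit
import Cfsg.Agent.Helper40.SL2OrderFour

set_option autoImplicit false
open Cfsg

namespace Cfsg.Agent.S3266

section aux

open Matrix Cfsg.Agent.Helper44 Cfsg.Agent.Helper40 Cfsg.Agent.Helper40.SL2Max

universe u

/-- a graph in which any two distinct vertices have a common neighbour and some two distinct
vertices are not adjacent is connected of diameter `2`. -/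
theorem graph_diam_two {V : Type*} [Finite V] (r : V → V → Prop)
    (h1 : ∀ x y : V, x ≠ y → r x y ∨ ∃ z, z ≠ x ∧ z ≠ y ∧ r x z ∧ r z y)
    (h2 : ∃ x y : V, x ≠ y ∧ ¬ r x y ∧ ¬ r y x) :
    (SimpleGraph.fromRel r).Connected ∧ (SimpleGraph.fromRel r).diam = 2 := by
  obtain ⟨x0, y0, hne, hn1, hn2⟩ := h2
  have : Nonempty V := ⟨x0⟩
  have hadj : ∀ a b : V, a ≠ b → r a b → (SimpleGraph.fromRel r).Adj a b := by
    intro a b hab hr
    rw [SimpleGraph.fromRel_adj]
    exact ⟨hab, Or.inl hr⟩
  have hed : ∀ a b : V, (SimpleGraph.fromRel r).edist a b ≤ 2 := by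
    intro a b
    by_cases hab : a = b
    · subst hab
      simp
    · rcases h1 a b hab with h | ⟨z, hza, hzb, h1, h2⟩
      · have hw := (SimpleGraph.Walk.cons (hadj a b hab h) SimpleGraph.Walk.nil).edist_le
        refine hw.trans ?_
        simp
      · have hw := (SimpleGraph.Walk.cons (hadj a z (Ne.symm hza) h1)
          (SimpleGraph.Walk.cons (hadj z b hzb h2) SimpleGraph.Walk.nil)).edist_le
        simpa using hw
  have hediam : (SimpleGraph.fromRel r).ediam ≤ 2 := SimpleGraph.ediam_le_of_edist_le hed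
  have hne_top : (SimpleGraph.fromRel r).ediam ≠ ⊤ := by
    intro h
    rw [h] at hediam
    exact absurd hediam (by simp)
  have hconn := SimpleGraph.connected_of_ediam_ne_top hne_top
  refine ⟨hconn, ?_⟩
  apply le_antisymm
  · obtain ⟨a, b, hab⟩ := SimpleGraph.exists_dist_eq_diam (G := SimpleGraph.fromRel r)
    rw [← hab]
    have h3 := hed a b
    have h4 : ((SimpleGraph.fromRel r).dist a b : ℕ∞) = (SimpleGraph.fromRel r).edist a b :=
      (hconn a b).coe_dist_eq_edist
    rw [← h4] at h3
    exact_mod_cast h3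
  · have h3 := SimpleGraph.dist_le_diam hne_top (u := x0) (v := y0)
    have h4 : (SimpleGraph.fromRel r).dist x0 y0 ≠ 0 := by
      rw [Ne, hconn.dist_eq_zero_iff]
      exact hne
    have h5 : (SimpleGraph.fromRel r).dist x0 y0 ≠ 1 := by
      rw [Ne, SimpleGraph.dist_eq_one_iff_adj, SimpleGraph.fromRel_adj]
      rintro ⟨-, h | h⟩
      · exact hn1 h
      · exact hn2 h
    omega

theorem conj_order {G : Type*} [Group G] (c a : G) : orderOf (c * a * c⁻¹) = orderOf a :=
  orderOf_injective (MulAut.conj c).toMonoidHom (MulAut.conj c).injective a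

variable {F : Type u} [Field F]

/-- `pr w` has odd order if some odd power of `w` is `±1`. -/
theorem odd_of_pow (w : SL2 F) (k : ℕ) (hk : Odd k) (h : w.1 ^ k = -1 ∨ w.1 ^ k = 1) :
    Odd (orderOf (pr w)) :=
  Odd.of_dvd_nat hk (orderOf_dvd_of_pow_eq_one (PSL2Tri.pr_pow_eq_one w k h))

theorem mat_pow_unip (M : Matrix (Fin 2) (Fin 2) F) (hM : M * M = (2 : F) • M - 1) (n : ℕ) :
    M ^ n = (n : F) • M - ((n : F) - 1) • (1 : Matrix (Fin 2) (Fin 2) F) := by
  induction n with
  | zero => simp
  | succ n ih =>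
    rw [pow_succ, ih, Matrix.sub_mul, Matrix.smul_mul, Matrix.smul_mul, hM, Matrix.one_mul]
    push_cast
    module

/-- odd characteristic: an element of trace `±2` has odd order in `PSL₂`. -/
theorem odd_of_tr_two [Fintype F] (hodd : Odd (Fintype.card F)) (w : SL2 F)
    (h : tr2 w = 2 ∨ tr2 w = -2) : Odd (orderOf (pr w)) := by
  have h2 := two_ne_zero_of_odd hodd
  obtain ⟨p, hp⟩ := CharP.exists F
  have := hp
  have hpp : p.Prime := CharP.char_is_prime F p
  have hpodd : Odd p := by
    apply hpp.odd_of_ne_two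
    rintro rfl
    apply h2
    exact_mod_cast CharP.cast_eq_zero F 2
  have hsq := sl2_sq w
  rcases h with h | h
  · rw [h] at hsq
    have h3 := mat_pow_unip w.1 hsq p
    rw [CharP.cast_eq_zero F p] at h3
    apply odd_of_pow w p hpodd
    right
    rw [h3]
    simp
  · have hM : (-w.1) * (-w.1) = (2 : F) • (-w.1) - 1 := by
      rw [neg_mul_neg, hsq, h]
      module
    have h3 := mat_pow_unip (-w.1) hM p
    rw [CharP.cast_eq_zero F p, hpodd.neg_pow] at h3
    apply odd_of_pow w p hpodd
    left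
    rw [← neg_eq_iff_eq_neg, h3]
    simp

/-- `q ≡ 3 (mod 4)`: a split semisimple element has odd order in `PSL₂`. -/
theorem odd_of_split [Fintype F] (hodd : Odd (Fintype.card F)) (h43 : Fintype.card F % 4 = 3)
    (w : SL2 F) (e : F) (he : e ≠ 0) (hsq : tr2 w ^ 2 - 4 = e ^ 2) :
    Odd (orderOf (pr w)) := by
  have h2 := two_ne_zero_of_odd hodd
  have hns : Cfsg.Agent.Helper42.SL2.NonScalar w.1 := by
    rintro ⟨h01, h10, h00⟩
    have hd := Cfsg.Agent.Helper42.SL2.det_eq w
    apply he
    have h3 : e ^ 2 = 0 := by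
      rw [← hsq]
      unfold tr2
      rw [h01, h00] at hd
      rw [h00]
      linear_combination 4 * hd
    exact pow_eq_zero_iff (two_ne_zero) |>.mp h3
  have hcard := card_centralizer_split hodd w hns e he hsq
  have hmem : w ∈ Subgroup.centralizer ({w} : Set (SL2 F)) := by
    rw [Subgroup.mem_centralizer_singleton_iff]
  have hpow : w ^ (Fintype.card F - 1) = 1 := by
    have h3 : (⟨w, hmem⟩ : Subgroup.centralizer ({w} : Set (SL2 F))) ^
        Nat.card (Subgroup.centralizer ({w} : Set (SL2 F))) = 1 := pow_card_eq_one'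
    rw [hcard] at h3
    exact congrArg Subtype.val h3
  obtain ⟨k, hk⟩ : ∃ k, Fintype.card F - 1 = 2 * k := ⟨(Fintype.card F - 1) / 2, by omega⟩
  have hkodd : Odd k := by
    rw [Nat.odd_iff]
    omega
  have hww : w ^ k * w ^ k = 1 := by
    rw [← pow_add, ← two_mul, ← hk, hpow]
  rcases eq_one_or_neg_one_of_sq h2 (w ^ k) hww with h | h
  · exact odd_of_pow w k hkodd (Or.inr (by rw [← Matrix.SpecialLinearGroup.coe_pow]; exact h))
  · exact odd_of_pow w k hkodd (Or.inl (by rw [← Matrix.SpecialLinearGroup.coe_pow]; exact h))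

/-- characteristic two: an element of nonzero trace has odd order. -/
theorem odd_of_tr_ne [Fintype F] (h2 : (2 : F) = 0) (w : SL2 F) (htr : tr2 w ≠ 0) :
    Odd (orderOf (pr w)) := by
  have hns := SL2Even.nonScalar_of_tr h2 w htr
  have hcard := Cfsg.Agent.Helper42.SL2.card_centralizer w hns
  have hq := SL2Even.card_quadric h2 (w.1 0 0 + w.1 1 1) htr
  have heven : Fintype.card F % 2 = 0 := by
    have : CharP F 2 := CharTwo.of_one_ne_zero_of_two_eq_zero one_ne_zero h2
    exact FiniteField.even_card_iff_char_two.mp (ringChar.eq F 2)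
  have hpos : 2 ≤ Fintype.card F := Fintype.one_lt_card
  have hoddc : Odd (Nat.card (Subgroup.centralizer ({w} : Set (SL2 F)))) := by
    rw [hcard, Nat.odd_iff]
    rcases hq with h | h <;> rw [h] <;> omega
  have hmem : w ∈ Subgroup.centralizer ({w} : Set (SL2 F)) := by
    rw [Subgroup.mem_centralizer_singleton_iff]
  have hdvd : orderOf w ∣ Nat.card (Subgroup.centralizer ({w} : Set (SL2 F))) := by
    have h3 := orderOf_dvd_natCard (⟨w, hmem⟩ : Subgroup.centralizer ({w} : Set (SL2 F)))
    rwa [Subgroup.orderOf_mk] at h3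
  exact Odd.of_dvd_nat hoddc ((orderOf_map_dvd pr w).trans hdvd)


/-- the general reduction to a statement about lifts of involutions in `SL₂`. -/
theorem main_reduction [Fintype F] (Inv : SL2 F → Prop) (U0 : SL2 F) (hU : Inv U0)
    (ha : ∀ a : SL2 F, pr a ≠ 1 → pr a * pr a = 1 → Inv a)
    (hb : ∀ a : SL2 F, Inv a → ∃ g : SL2 F, g * a * g⁻¹ = U0)
    (hc : ∀ g a : SL2 F, Inv a → Inv (g * a * g⁻¹))
    (hd : ∀ b : SL2 F, Inv b → pr U0 ≠ pr b → Odd (orderOf (pr (U0 * b))) ∨
      ∃ z : SL2 F, Inv z ∧ pr z ≠ pr U0 ∧ pr z ≠ pr b ∧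
        Odd (orderOf (pr (U0 * z))) ∧ Odd (orderOf (pr (z * b))))
    (he : ∃ b : SL2 F, Inv b ∧ pr U0 ≠ pr b ∧ pr (U0 * b) ≠ 1 ∧ pr (U0 * b) * pr (U0 * b) = 1)
    (t : PSL2 F) (ht : orderOf t = 2) :
    (SimpleGraph.fromRel fun x y : {x : PSL2 F // IsConj t x} =>
        Odd (orderOf (x.1 * y.1))).Connected ∧
      (SimpleGraph.fromRel fun x y : {x : PSL2 F // IsConj t x} =>
        Odd (orderOf (x.1 * y.1))).diam = 2 := by
  obtain ⟨gt, rfl⟩ := pr_surjective t
  have ht1 : pr gt ≠ 1 := by
    intro h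
    rw [h, orderOf_one] at ht
    omega
  have ht2 : pr gt * pr gt = 1 := by
    have h3 := pow_orderOf_eq_one (pr gt)
    rw [ht, pow_two] at h3
    exact h3
  have hInvt := ha gt ht1 ht2
  have hconj : ∀ a, Inv a → IsConj (pr gt) (pr a) := by
    intro a ha'
    obtain ⟨g1, hg1⟩ := hb gt hInvt
    obtain ⟨g2, hg2⟩ := hb a ha'
    rw [isConj_iff]
    refine ⟨pr (g2⁻¹ * g1), ?_⟩
    rw [← map_inv, ← map_mul, ← map_mul]
    congr 1
    have h3 : a = g2⁻¹ * U0 * g2 := by rw [← hg2]; group
    rw [h3, ← hg1]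
    group
  have hlift : ∀ x : {x : PSL2 F // IsConj (pr gt) x}, ∃ a, Inv a ∧ pr a = x.1 := by
    rintro ⟨x, hx⟩
    obtain ⟨a, rfl⟩ := pr_surjective x
    obtain ⟨c, hc'⟩ := isConj_iff.mp hx
    refine ⟨a, ha a ?_ ?_, rfl⟩
    · rw [← hc']
      intro h
      exact ht1 (conj_eq_one_iff.mp h)
    · rw [← hc']
      calc c * pr gt * c⁻¹ * (c * pr gt * c⁻¹) = c * (pr gt * pr gt) * c⁻¹ := by group
        _ = 1 := by rw [ht2]; group
  apply graph_diam_two
  · intro x y hxy
    obtain ⟨a, ha', hax⟩ := hlift x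
    obtain ⟨b, hb', hby⟩ := hlift y
    have hne : pr a ≠ pr b := by
      rw [hax, hby]
      intro h
      exact hxy (Subtype.ext h)
    obtain ⟨g, hg⟩ := hb a ha'
    have hU0 : pr U0 = pr g * pr a * (pr g)⁻¹ := by rw [← hg]; simp
    have hb'' : pr (g * b * g⁻¹) = pr g * pr b * (pr g)⁻¹ := by simp
    have hne' : pr U0 ≠ pr (g * b * g⁻¹) := by
      rw [hU0, hb'']
      intro h
      exact hne (mul_left_cancel (mul_right_cancel h))
    rcases hd (g * b * g⁻¹) (hc g b hb') hne' with h | ⟨z, hz, hzU, hzb, h1, h2⟩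
    · left
      show Odd (orderOf (x.1 * y.1))
      rw [← hax, ← hby]
      have e : pr (U0 * (g * b * g⁻¹)) = pr g * (pr a * pr b) * (pr g)⁻¹ := by
        rw [map_mul, hU0, hb'']
        group
      rw [e, conj_order] at h
      exact h
    · right
      have hz' : pr (g⁻¹ * z * g⁻¹⁻¹) = (pr g)⁻¹ * pr z * pr g := by simp
      refine ⟨⟨pr (g⁻¹ * z * g⁻¹⁻¹), hconj _ (hc g⁻¹ z hz)⟩, ?_, ?_, ?_, ?_⟩
      · intro h
        apply hzU
        have h' : (pr g)⁻¹ * pr z * pr g = pr a := by
          rw [← hz', hax]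
          exact congrArg Subtype.val h
        rw [hU0, ← h']
        group
      · intro h
        apply hzb
        have h' : (pr g)⁻¹ * pr z * pr g = pr b := by
          rw [← hz', hby]
          exact congrArg Subtype.val h
        rw [hb'', ← h']
        group
      · show Odd (orderOf (x.1 * pr (g⁻¹ * z * g⁻¹⁻¹)))
        rw [← hax, hz']
        have e : pr a * ((pr g)⁻¹ * pr z * pr g) = (pr g)⁻¹ * pr (U0 * z) * (pr g)⁻¹⁻¹ := by
          rw [map_mul, hU0]
          group
        rw [e, conj_order]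
        exact h1
      · show Odd (orderOf (pr (g⁻¹ * z * g⁻¹⁻¹) * y.1))
        rw [← hby, hz']
        have e : (pr g)⁻¹ * pr z * pr g * pr b =
            (pr g)⁻¹ * pr (z * (g * b * g⁻¹)) * (pr g)⁻¹⁻¹ := by
          rw [map_mul, hb'']
          group
        rw [e, conj_order]
        exact h2
  · obtain ⟨b, hb', hne, h1, h2⟩ := he
    have ho : orderOf (pr U0 * pr b) = 2 := by
      rw [← map_mul]
      exact orderOf_eq_prime (by rw [pow_two]; exact h2) h1
    refine ⟨⟨pr U0, hconj U0 hU⟩, ⟨pr b, hconj b hb'⟩, ?_, ?_, ?_⟩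
    · intro h
      exact hne (congrArg Subtype.val h)
    · show ¬ Odd (orderOf (pr U0 * pr b))
      rw [ho]
      decide
    · show ¬ Odd (orderOf (pr b * pr U0))
      have e : pr b * pr U0 = pr b * (pr U0 * pr b) * (pr b)⁻¹ := by group
      rw [e, conj_order, ho]
      decide

omit [Field F] in
theorem exists_ne3 [Fintype F] (hF : 4 ≤ Fintype.card F) (a b c : F) :
    ∃ s : F, s ≠ a ∧ s ≠ b ∧ s ≠ c := by
  classical
  by_contra h
  push Not at h
  have h1 : (Finset.univ : Finset F) ⊆ {a, b, c} := by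
    intro s _
    simp only [Finset.mem_insert, Finset.mem_singleton]
    by_cases h1 : s = a
    · exact Or.inl h1
    · by_cases h2 : s = b
      · exact Or.inr (Or.inl h2)
      · exact Or.inr (Or.inr (h s h1 h2))
  have h3 := Finset.card_le_card h1
  have h4 : ({a, b, c} : Finset F).card ≤ 3 := Finset.card_le_three
  rw [Finset.card_univ] at h3
  omega

/-- characteristic two. -/
theorem case_even [Fintype F] (h2 : (2 : F) = 0) (hF : 4 ≤ Fintype.card F)
    (t : PSL2 F) (ht : orderOf t = 2) :
    (SimpleGraph.fromRel fun x y : {x : PSL2 F // IsConj t x} =>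
        Odd (orderOf (x.1 * y.1))).Connected ∧
      (SimpleGraph.fromRel fun x y : {x : PSL2 F // IsConj t x} =>
        Odd (orderOf (x.1 * y.1))).diam = 2 := by
  have hinj := PSL2Sub.pr_injective_of_two h2
  have hu1 : (u (1 : F)) ≠ 1 := by
    intro h
    have h' := congrArg (fun x : SL2 F => x.1 0 1) h
    simp [u] at h'
  apply main_reduction (fun a => a * a = 1 ∧ a ≠ 1) (u 1) ⟨u_mul_self h2 1, hu1⟩ ?_ ?_ ?_ ?_ ?_ t ht
  · intro a h1 h2'
    refine ⟨hinj (by rw [map_mul, h2', map_one]), ?_⟩
    rintro rfl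
    exact h1 (map_one pr)
  · rintro a ⟨haa, ha1⟩
    exact SL2Even.inv_conj_u h2 a haa ha1
  · rintro g a ⟨haa, ha1⟩
    refine ⟨?_, ?_⟩
    · calc g * a * g⁻¹ * (g * a * g⁻¹) = g * (a * a) * g⁻¹ := by group
        _ = 1 := by rw [haa]; group
    · intro h
      exact ha1 (conj_eq_one_iff.mp h)
  · rintro b ⟨hbb, hb1⟩ hne
    right
    have hd11 := diag_of_involution h2 b hbb
    have hdet := det1 b
    by_cases h01 : b.1 0 1 = 0
    · have hW : (0 : F) * 0 - 1 * 1 = 1 := by linear_combination (-1 : F) * h2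
      have h00 : b.1 0 0 = 1 := by
        rw [hd11, h01] at hdet
        exact eq_one_of_sq h2 _ (by linear_combination hdet)
      have h10 : b.1 1 0 ≠ 0 := by
        intro h10
        apply hb1
        apply Cfsg.Agent.Helper42.SL2.sl_ext
        · rw [h00]; simp
        · rw [h01]; simp
        · rw [h10]; simp
        · rw [hd11, h00]; simp
      refine ⟨mk 0 1 1 0 hW, ⟨?_, ?_⟩, ?_, ?_, ?_, ?_⟩
      · apply Cfsg.Agent.Helper42.SL2.sl_ext <;> simp [mul00, mul01, mul10, mul11]
      · intro h
        have h' := congrArg (fun x : SL2 F => x.1 0 1) h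
        simp at h'
      · intro h
        have h' := congrArg (fun x : SL2 F => x.1 1 0) (hinj h)
        simp [u] at h'
      · intro h
        have h' := congrArg (fun x : SL2 F => x.1 0 1) (hinj h)
        simp only [mk01] at h'
        rw [h01] at h'
        exact one_ne_zero h'
      · apply odd_of_tr_ne h2
        unfold tr2
        rw [mul00, mul11]
        simp [u]
      · apply odd_of_tr_ne h2
        unfold tr2
        rw [mul00, mul11]
        simp only [mk00, mk01, mk10, mk11]
        rw [h01]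
        intro h
        apply h10
        linear_combination h
    · have hL : (1 : F) * 1 - 0 * 1 = 1 := by ring
      refine ⟨mk 1 0 1 1 hL, ⟨?_, ?_⟩, ?_, ?_, ?_, ?_⟩
      · apply Cfsg.Agent.Helper42.SL2.sl_ext <;> simp [mul00, mul01, mul10, mul11]
        linear_combination h2
      · intro h
        have h' := congrArg (fun x : SL2 F => x.1 1 0) h
        simp at h'
      · intro h
        have h' := congrArg (fun x : SL2 F => x.1 1 0) (hinj h)
        simp [u] at h'
      · intro h
        have h' := congrArg (fun x : SL2 F => x.1 0 1) (hinj h)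
        simp only [mk01] at h'
        exact h01 h'.symm
      · apply odd_of_tr_ne h2
        unfold tr2
        rw [mul00, mul11]
        simp only [u, mk00, mk01, mk10, mk11]
        intro h
        have : (1 : F) = 0 := by linear_combination h - h2
        exact one_ne_zero this
      · apply odd_of_tr_ne h2
        unfold tr2
        rw [mul00, mul11]
        simp only [mk00, mk01, mk10, mk11]
        rw [hd11]
        intro h
        apply h01
        linear_combination h - b.1 0 0 * h2
  · obtain ⟨s, hs0, hs1, -⟩ := exists_ne3 hF (0 : F) 1 1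
    have hus : u (1 : F) * u s = u (1 + s) := (u_add 1 s).symm
    have h1s : (1 : F) + s ≠ 0 := by
      intro h
      apply hs1
      linear_combination h - h2
    refine ⟨u s, ⟨u_mul_self h2 s, ?_⟩, ?_, ?_, ?_⟩
    · intro h
      have h' := congrArg (fun x : SL2 F => x.1 0 1) h
      simp [u] at h'
      exact hs0 h'
    · intro h
      have h' := congrArg (fun x : SL2 F => x.1 0 1) (hinj h)
      simp [u] at h'
      exact hs1 h'.symm
    · rw [hus]
      intro h
      have h3 : u (1 + s) = 1 := hinj (by rw [h, map_one])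
      have h' := congrArg (fun x : SL2 F => x.1 0 1) h3
      simp [u] at h'
      exact h1s h'
    · rw [hus, ← map_mul, u_mul_self h2, map_one]

/-- odd `q`, `-1` a square. -/
theorem case_A [Fintype F] (hodd : Odd (Fintype.card F)) (i : F) (hi : i * i = -1)
    (t : PSL2 F) (ht : orderOf t = 2) :
    (SimpleGraph.fromRel fun x y : {x : PSL2 F // IsConj t x} =>
        Odd (orderOf (x.1 * y.1))).Connected ∧
      (SimpleGraph.fromRel fun x y : {x : PSL2 F // IsConj t x} =>
        Odd (orderOf (x.1 * y.1))).diam = 2 := by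
  have h2 := two_ne_zero_of_odd hodd
  have hi0 : i ≠ 0 := by
    rintro rfl
    simp at hi
  have hD : i * (-i) - 0 * 0 = 1 := by linear_combination (-1 : F) * hi
  have hJ : (0 : F) * 0 - 1 * (-1) = 1 := by ring
  apply main_reduction (fun a => tr2 a = 0) (mk i 0 0 (-i) hD) (by simp [tr2]) ?_ ?_ ?_ ?_ ?_ t ht
  · intro a h1 h2'
    exact PSL2Klein.tr2_of_pr_sq h2 a h1 h2'
  · intro a ha
    exact exists_conj_of_tr2_eq_zero hodd a _ ha (by simp [tr2])
  · intro g a ha
    rw [PSL2Klein.tr2_conj]
    exact ha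
  · intro b hb hne
    right
    have hb11 : b.1 1 1 = -b.1 0 0 := by
      unfold tr2 at hb
      linear_combination hb
    have hdet := det1 b
    rw [hb11] at hdet
    by_cases hf : b.1 1 0 = 0
    · have hd2 : b.1 0 0 * b.1 0 0 = -1 := by
        rw [hf] at hdet
        linear_combination -hdet
      have hd0 : b.1 0 0 ≠ 0 := by
        intro h
        rw [h] at hd2
        simp at hd2
      have hid : (i * b.1 0 0) * (i * b.1 0 0) = 1 := by
        linear_combination (b.1 0 0 * b.1 0 0) * hi - hd2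
      have he0 : b.1 0 1 ≠ 0 := by
        intro he
        apply hne
        rw [pr_eq_iff]
        refine ⟨-(i * b.1 0 0), by linear_combination hid, ?_⟩
        apply Cfsg.Agent.Helper42.SL2.mat_ext
        · simp only [Matrix.smul_apply, smul_eq_mul, mk00]
          linear_combination (b.1 0 0) * hi
        · simp only [Matrix.smul_apply, smul_eq_mul, mk01]
          rw [he]; ring
        · simp only [Matrix.smul_apply, smul_eq_mul, mk10]
          rw [hf]; ring
        · simp only [Matrix.smul_apply, smul_eq_mul, mk11]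
          rw [hb11]
          linear_combination (-b.1 0 0) * hi
      have hc0 : -4 * i * b.1 0 0 / b.1 0 1 ≠ 0 := by
        have h4 : (4 : F) ≠ 0 := by
          have : (4 : F) = 2 * 2 := by norm_num
          rw [this]
          exact mul_ne_zero h2 h2
        exact div_ne_zero (mul_ne_zero (mul_ne_zero (neg_ne_zero.mpr h4) hi0) hd0) he0
      have hZ : i * (-i) - 0 * (-4 * i * b.1 0 0 / b.1 0 1) = 1 := by
        linear_combination (-1 : F) * hi
      refine ⟨mk i 0 (-4 * i * b.1 0 0 / b.1 0 1) (-i) hZ, by simp [tr2], ?_, ?_, ?_, ?_⟩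
      · intro h
        rw [pr_eq_iff] at h
        obtain ⟨r, hr, hm⟩ := h
        have h' := congrFun (congrFun hm 1) 0
        simp only [Matrix.smul_apply, smul_eq_mul, mk10] at h'
        have hr0 : r ≠ 0 := by
          rintro rfl
          simp at hr
        exact (mul_ne_zero hr0 hc0) h'.symm
      · intro h
        rw [pr_eq_iff] at h
        obtain ⟨r, hr, hm⟩ := h
        have h' := congrFun (congrFun hm 1) 0
        simp only [Matrix.smul_apply, smul_eq_mul, mk10] at h'
        have hr0 : r ≠ 0 := by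
          rintro rfl
          simp at hr
        rw [hf] at h'
        exact (mul_ne_zero hr0 hc0) h'.symm
      · apply odd_of_tr_two hodd
        right
        unfold tr2
        rw [mul00, mul11]
        simp only [mk00, mk01, mk10, mk11]
        linear_combination 2 * hi
      · apply odd_of_tr_two hodd
        have htr : tr2 (mk i 0 (-4 * i * b.1 0 0 / b.1 0 1) (-i) hZ * b) = -2 * (i * b.1 0 0) := by
          unfold tr2
          rw [mul00, mul11]
          simp only [mk00, mk01, mk10, mk11]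
          rw [hb11]
          field_simp
          ring
        rw [htr]
        have h3 : (i * b.1 0 0 - 1) * (i * b.1 0 0 + 1) = 0 := by linear_combination hid
        rcases mul_eq_zero.mp h3 with h | h
        · right
          linear_combination (-2 : F) * h
        · left
          linear_combination (-2 : F) * h
    · obtain ⟨s, hs1, hs2⟩ : ∃ s : F, s * s = 1 ∧ s ≠ i * b.1 0 0 := by
        by_cases h : i * b.1 0 0 = 1
        · refine ⟨-1, by ring, ?_⟩
          rw [h]
          intro h'
          apply h2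
          linear_combination -h'
        · exact ⟨1, by ring, fun h' => h h'.symm⟩
      have hbb0 : 2 * (s - i * b.1 0 0) / b.1 1 0 ≠ 0 :=
        div_ne_zero (mul_ne_zero h2 (sub_ne_zero.mpr hs2)) hf
      have hZ : i * (-i) - (2 * (s - i * b.1 0 0) / b.1 1 0) * 0 = 1 := by
        linear_combination (-1 : F) * hi
      refine ⟨mk i (2 * (s - i * b.1 0 0) / b.1 1 0) 0 (-i) hZ, by simp [tr2], ?_, ?_, ?_, ?_⟩
      · intro h
        rw [pr_eq_iff] at h
        obtain ⟨r, hr, hm⟩ := h
        have h' := congrFun (congrFun hm 0) 1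
        simp only [Matrix.smul_apply, smul_eq_mul, mk01] at h'
        have hr0 : r ≠ 0 := by
          rintro rfl
          simp at hr
        exact (mul_ne_zero hr0 hbb0) h'.symm
      · intro h
        rw [pr_eq_iff] at h
        obtain ⟨r, hr, hm⟩ := h
        have h' := congrFun (congrFun hm 1) 0
        simp only [Matrix.smul_apply, smul_eq_mul, mk10, mul_zero] at h'
        exact hf h'
      · apply odd_of_tr_two hodd
        right
        unfold tr2
        rw [mul00, mul11]
        simp only [mk00, mk01, mk10, mk11]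
        linear_combination 2 * hi
      · apply odd_of_tr_two hodd
        have htr : tr2 (mk i (2 * (s - i * b.1 0 0) / b.1 1 0) 0 (-i) hZ * b) = 2 * s := by
          unfold tr2
          rw [mul00, mul11]
          simp only [mk00, mk01, mk10, mk11]
          rw [hb11]
          field_simp
          ring
        rw [htr]
        have h3 : (s - 1) * (s + 1) = 0 := by linear_combination hs1
        rcases mul_eq_zero.mp h3 with h | h
        · left
          linear_combination (2 : F) * h
        · right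
          linear_combination (2 : F) * h
  · have htr : tr2 (mk i 0 0 (-i) hD * mk 0 1 (-1) 0 hJ) = 0 := by
      unfold tr2
      rw [mul00, mul11]
      simp
    refine ⟨mk 0 1 (-1) 0 hJ, by simp [tr2], ?_, PSL2Klein.pr_ne_one_of_tr2 h2 _ htr, PSL2Klein.pr_sq_of_tr2 _ htr⟩
    intro h
    rw [pr_eq_iff] at h
    obtain ⟨r, hr, hm⟩ := h
    have h' := congrFun (congrFun hm 0) 1
    simp at h'

theorem sq_of_nonsq_mul [Fintype F] {a b : F} (ha : ¬ IsSquare a) (hb : ¬ IsSquare b) :
    IsSquare (a * b) := by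
  classical
  have ha0 : a ≠ 0 := by
    rintro rfl
    exact ha IsSquare.zero
  have hb0 : b ≠ 0 := by
    rintro rfl
    exact hb IsSquare.zero
  rw [← quadraticChar_neg_one_iff_not_isSquare] at ha hb
  rw [← quadraticChar_one_iff_isSquare (mul_ne_zero ha0 hb0), map_mul, ha, hb]
  norm_num

theorem nonsq_of_sq_mul {a b : F} (w : F) (hw : w ≠ 0) (ha : a = w * w) (hb : ¬ IsSquare b) :
    ¬ IsSquare (a * b) := by
  rintro ⟨k, hk⟩
  apply hb
  refine ⟨k / w, ?_⟩
  rw [ha] at hk
  field_simp
  linear_combination hk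

theorem exists_sq_value [Fintype F] (hF : 4 ≤ Fintype.card F) (h2 : (2 : F) ≠ 0) (η : F) :
    ∃ g w : F, g ≠ 0 ∧ g ^ 2 - 2 * η * g + 1 = w * w := by
  obtain ⟨s, hs0, hs1, hs2⟩ := exists_ne3 hF (0 : F) 1 (-1)
  by_cases h : η + (s + (η ^ 2 - 1) / s) / 2 = 0
  · refine ⟨η - (s + (η ^ 2 - 1) / s) / 2, (s - (η ^ 2 - 1) / s) / 2, ?_, ?_⟩
    · intro h'
      have h3 : 2 * η = 0 := by linear_combination h + h'
      have hη : η = 0 := (mul_eq_zero.mp h3).resolve_left h2
      have h4' : (s + (η ^ 2 - 1) / s) / 2 = 0 := by linear_combination h - hη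
      have h4 : s + (η ^ 2 - 1) / s = 0 := by
        rcases div_eq_zero_iff.mp h4' with h | h
        · exact h
        · exact absurd h h2
      have h5 : s * (s + (η ^ 2 - 1) / s) = s * s + (η ^ 2 - 1) := by
        field_simp
      rw [h4, mul_zero, hη] at h5
      have h6 : (s - 1) * (s + 1) = 0 := by linear_combination -h5
      rcases mul_eq_zero.mp h6 with h7 | h7
      · exact hs1 (by linear_combination h7)
      · exact hs2 (by linear_combination h7)
    · field_simp
      ring
  · refine ⟨η + (s + (η ^ 2 - 1) / s) / 2, (s - (η ^ 2 - 1) / s) / 2, h, ?_⟩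
    field_simp
    ring

theorem exists_nonsq_value [Fintype F] (h2 : (2 : F) ≠ 0) (η : F) (hν : ¬ IsSquare (η ^ 2 - 1)) :
    ∃ g : F, ¬ IsSquare (g ^ 2 - 2 * η * g + 1) := by
  classical
  by_contra hcon
  push Not at hcon
  have hν0 : η ^ 2 - 1 ≠ 0 := by
    intro h
    rw [h] at hν
    exact hν IsSquare.zero
  have hsurj : Function.Surjective
      (fun s : Fˣ => η + ((s : F) + (η ^ 2 - 1) / (s : F)) / 2) := by
    intro g
    obtain ⟨w, hw⟩ := hcon g
    have hs : g - η - w ≠ 0 := by
      intro h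
      apply hν0
      have h3 : g = η + w := by linear_combination h
      rw [h3] at hw
      linear_combination -hw
    refine ⟨Units.mk0 _ hs, ?_⟩
    simp only [Units.val_mk0]
    field_simp
    linear_combination (-1 : F) * hw
  have h3 := Fintype.card_le_of_surjective _ hsurj
  rw [Fintype.card_units] at h3
  have h4 := Fintype.card_pos (α := F)
  omega

theorem exists_sigma_c [Fintype F] (hF : 4 ≤ Fintype.card F) (h2 : (2 : F) ≠ 0)
    (hm1 : ¬ IsSquare (-1 : F)) (η : F) (hν : ¬ IsSquare (η ^ 2 - 1)) :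
    ∃ σ c s0 : F, (σ = 1 ∨ σ = -1) ∧ c ≠ 0 ∧ c * c ≠ 1 ∧
      s0 * s0 = -(((c * c * σ) ^ 2 - 2 * η * (c * c * σ) + 1) * (2 - 2 * η * σ)) := by
  have hn0 : ∀ x : F, x ^ 2 - 2 * η * x + 1 ≠ 0 := by
    intro x h
    apply hν
    exact ⟨x - η, by linear_combination (-1 : F) * h⟩
  have h11 : IsSquare ((2 - 2 * η) * (2 + 2 * η)) := by
    obtain ⟨k, hk⟩ := sq_of_nonsq_mul hm1 hν
    exact ⟨2 * k, by linear_combination 4 * hk⟩
  have hp0 : 2 - 2 * η ≠ 0 := by
    intro h
    apply hn0 1
    linear_combination h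
  have hq0 : 2 + 2 * η ≠ 0 := by
    intro h
    apply hn0 (-1)
    linear_combination h
  have key : ∃ g : F, g ≠ 0 ∧ g ≠ 1 ∧ g ≠ -1 ∧
      IsSquare (-((g ^ 2 - 2 * η * g + 1) * (2 - 2 * η))) ∧
      IsSquare (-((g ^ 2 - 2 * η * g + 1) * (2 + 2 * η))) := by
    by_cases h1 : IsSquare (2 - 2 * η)
    · have h1' : IsSquare (2 + 2 * η) := by
        by_contra hc
        obtain ⟨w, hw⟩ := h1
        have hw0 : w ≠ 0 := by
          rintro rfl
          apply hp0
          rw [hw]
          ring
        exact nonsq_of_sq_mul w hw0 hw hc h11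
      obtain ⟨g, hg⟩ := exists_nonsq_value h2 η hν
      obtain ⟨k, hk⟩ := sq_of_nonsq_mul hm1 hg
      refine ⟨g, ?_, ?_, ?_, ?_, ?_⟩
      · rintro rfl
        apply hg
        exact ⟨1, by ring⟩
      · rintro rfl
        apply hg
        obtain ⟨w, hw⟩ := h1
        exact ⟨w, by linear_combination hw⟩
      · rintro rfl
        apply hg
        obtain ⟨w, hw⟩ := h1'
        exact ⟨w, by linear_combination hw⟩
      · obtain ⟨w, hw⟩ := h1
        exact ⟨k * w, by linear_combination (2 - 2 * η) * hk + (k * k) * hw⟩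
      · obtain ⟨w, hw⟩ := h1'
        exact ⟨k * w, by linear_combination (2 + 2 * η) * hk + (k * k) * hw⟩
    · have h1' : ¬ IsSquare (2 + 2 * η) := by
        intro hc
        obtain ⟨w, hw⟩ := hc
        have hw0 : w ≠ 0 := by
          rintro rfl
          apply hq0
          rw [hw]
          ring
        apply nonsq_of_sq_mul w hw0 hw h1
        rw [mul_comm]
        exact h11
      obtain ⟨g, w, hg0, hgw⟩ := exists_sq_value hF h2 η
      refine ⟨g, hg0, ?_, ?_, ?_, ?_⟩
      · rintro rfl
        apply h1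
        exact ⟨w, by linear_combination hgw⟩
      · rintro rfl
        apply h1'
        exact ⟨w, by linear_combination hgw⟩
      · obtain ⟨k, hk⟩ := sq_of_nonsq_mul hm1 h1
        exact ⟨w * k, by rw [hgw]; linear_combination (w * w) * hk⟩
      · obtain ⟨k, hk⟩ := sq_of_nonsq_mul hm1 h1'
        exact ⟨w * k, by rw [hgw]; linear_combination (w * w) * hk⟩
  obtain ⟨g, hg0, hg1, hgm1, hs1, hs2⟩ := key
  by_cases hg : IsSquare g
  · obtain ⟨c, hc⟩ := hg
    obtain ⟨s0, hs0⟩ := hs1
    refine ⟨1, c, s0, Or.inl rfl, ?_, ?_, ?_⟩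
    · rintro rfl
      apply hg0
      rw [hc]
      ring
    · rw [← hc]
      exact hg1
    · rw [← hs0, mul_one, ← hc]
      ring
  · obtain ⟨c, hc⟩ := sq_of_nonsq_mul hm1 hg
    obtain ⟨s0, hs0⟩ := hs2
    have hcg : c * c * -1 = g := by linear_combination hc
    refine ⟨-1, c, s0, Or.inr rfl, ?_, ?_, ?_⟩
    · rintro rfl
      apply hg0
      linear_combination -hc
    · intro h
      apply hgm1
      linear_combination -hc - h
    · rw [← hs0, hcg]
      ring

theorem exists_params [Fintype F] (hF : 4 ≤ Fintype.card F) (h2 : (2 : F) ≠ 0)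
    (hm1 : ¬ IsSquare (-1 : F)) (η : F) (hν : ¬ IsSquare (η ^ 2 - 1)) :
    ∃ r ρ A s : F, r ^ 2 - 1 = A ^ 2 ∧ ρ ^ 2 - 1 = A ^ 2 ∧ A ≠ 0 ∧
      s * s = 1 + 2 * η * r * ρ - η ^ 2 - r ^ 2 - ρ ^ 2 := by
  obtain ⟨σ, c, s0, hσ, hc0, hc1, hs0⟩ := exists_sigma_c hF h2 hm1 η hν
  have hA : (c - c⁻¹) / 2 ≠ 0 := by
    intro h
    apply hc1
    field_simp at h
    linear_combination h
  rcases hσ with rfl | rfl
  · refine ⟨(c + c⁻¹) / 2, (c + c⁻¹) / 2, (c - c⁻¹) / 2, s0 / (2 * c), ?_, ?_, hA, ?_⟩
    · field_simp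
      ring
    · field_simp
      ring
    · field_simp
      linear_combination hs0
  · refine ⟨(c + c⁻¹) / 2, -((c + c⁻¹) / 2), (c - c⁻¹) / 2, s0 / (2 * c), ?_, ?_, hA, ?_⟩
    · field_simp
      ring
    · field_simp
      ring
    · field_simp
      linear_combination hs0

theorem exists_nbr (d m η r ρ s : F) (hν : η ^ 2 - 1 ≠ 0)
    (hdm : d ^ 2 + m ^ 2 = η ^ 2 - 1)
    (hs : s * s = 1 + 2 * η * r * ρ - η ^ 2 - r ^ 2 - ρ ^ 2) :
    ∃ a b' : F, a * (-a) - (b' + r) * (b' - r) = 1 ∧
      2 * a * d + 2 * b' * m - 2 * r * η = -2 * ρ := by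
  obtain ⟨t, ht⟩ : ∃ t, t * (η ^ 2 - 1) = η * r - ρ := ⟨_, div_mul_cancel₀ _ hν⟩
  obtain ⟨w, hw⟩ : ∃ w, w * (η ^ 2 - 1) = s := ⟨_, div_mul_cancel₀ _ hν⟩
  refine ⟨t * d - w * m, t * m + w * d, ?_, ?_⟩
  · have h : (η ^ 2 - 1) * ((t * d - w * m) * (-(t * d - w * m)) -
        (t * m + w * d + r) * (t * m + w * d - r) - 1) = 0 := by
      linear_combination (-(t ^ 2 + w ^ 2) * (η ^ 2 - 1)) * hdm
        - (t * (η ^ 2 - 1) + (η * r - ρ)) * ht - (w * (η ^ 2 - 1) + s) * hw - hs
    rcases mul_eq_zero.mp h with h | h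
    · exact absurd h hν
    · linear_combination h
  · linear_combination (2 * t) * hdm + 2 * ht

/-- a trace-zero neighbour is different. -/
theorem ne_of_tr_left (a z : SL2 F) (ha : tr2 a = 0) (hne : tr2 (a * z) ^ 2 - 4 ≠ 0) :
    pr z ≠ pr a := by
  intro h
  have h1 : pr (a * z) = 1 := by
    rw [map_mul, h]
    exact PSL2Klein.pr_sq_of_tr2 a ha
  rw [PSL2Tri.pr_eq_one_iff] at h1
  obtain ⟨s, hs, hm⟩ := h1
  apply hne
  unfold tr2
  rw [hm]
  simp
  linear_combination 4 * hs

theorem ne_of_tr_right (z b : SL2 F) (hb : tr2 b = 0) (hne : tr2 (z * b) ^ 2 - 4 ≠ 0) :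
    pr z ≠ pr b := by
  intro h
  have h1 : pr (z * b) = 1 := by
    rw [map_mul, h]
    exact PSL2Klein.pr_sq_of_tr2 b hb
  rw [PSL2Tri.pr_eq_one_iff] at h1
  obtain ⟨s, hs, hm⟩ := h1
  apply hne
  unfold tr2
  rw [hm]
  simp
  linear_combination 4 * hs

/-- odd `q`, `-1` not a square. -/
theorem case_B [Fintype F] (hodd : Odd (Fintype.card F)) (hF : 4 ≤ Fintype.card F)
    (hm1 : ¬ IsSquare (-1 : F)) (t : PSL2 F) (ht : orderOf t = 2) :
    (SimpleGraph.fromRel fun x y : {x : PSL2 F // IsConj t x} =>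
        Odd (orderOf (x.1 * y.1))).Connected ∧
      (SimpleGraph.fromRel fun x y : {x : PSL2 F // IsConj t x} =>
        Odd (orderOf (x.1 * y.1))).diam = 2 := by
  have h2 := two_ne_zero_of_odd hodd
  have h43 : Fintype.card F % 4 = 3 := by
    by_contra h
    exact hm1 (FiniteField.isSquare_neg_one_iff.mpr h)
  have hJ : (0 : F) * 0 - 1 * (-1) = 1 := by ring
  apply main_reduction (fun a => tr2 a = 0) (mk 0 1 (-1) 0 hJ) (by simp [tr2]) ?_ ?_ ?_ ?_ ?_ t ht
  · intro a h1 h2'
    exact PSL2Klein.tr2_of_pr_sq h2 a h1 h2'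
  · intro a ha
    exact exists_conj_of_tr2_eq_zero hodd a _ ha (by simp [tr2])
  · intro g a ha
    rw [PSL2Klein.tr2_conj]
    exact ha
  · intro b hb hne
    have hb11 : b.1 1 1 = -b.1 0 0 := by
      unfold tr2 at hb
      linear_combination hb
    have hdet := det1 b
    rw [hb11] at hdet
    obtain ⟨d, hd⟩ : ∃ d, d = b.1 0 0 := ⟨_, rfl⟩
    obtain ⟨η, hη⟩ : ∃ η, η = (b.1 0 1 - b.1 1 0) / 2 := ⟨_, rfl⟩
    obtain ⟨m, hm⟩ : ∃ m, m = (b.1 0 1 + b.1 1 0) / 2 := ⟨_, rfl⟩
    have he : b.1 0 1 = m + η := by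
      rw [hm, hη]
      field_simp
      ring
    have hf : b.1 1 0 = m - η := by
      rw [hm, hη]
      field_simp
      ring
    rw [← hd, he, hf] at hdet
    rw [← hd] at hb11
    have hdm : d ^ 2 + m ^ 2 = η ^ 2 - 1 := by linear_combination -hdet
    have htrJb : tr2 (mk 0 1 (-1) 0 hJ * b) = -2 * η := by
      unfold tr2
      rw [mul00, mul11]
      simp only [mk00, mk01, mk10, mk11]
      rw [he, hf]
      ring
    by_cases hν : IsSquare (η ^ 2 - 1)
    · obtain ⟨k, hk⟩ := hν
      by_cases hk0 : k = 0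
      · exfalso
        apply hne
        rw [hk0, mul_zero] at hk
        rw [hk] at hdm
        have hd0 : d = 0 := by
          by_contra hd0
          apply hm1
          refine ⟨m / d, ?_⟩
          field_simp
          linear_combination -hdm
        have hm0 : m = 0 := by
          rw [hd0] at hdm
          have h3 : m ^ 2 = 0 := by linear_combination hdm
          exact pow_eq_zero_iff (two_ne_zero) |>.mp h3
        rw [pr_eq_iff]
        refine ⟨η, by linear_combination hk, ?_⟩
        apply Cfsg.Agent.Helper42.SL2.mat_ext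
        · simp only [Matrix.smul_apply, smul_eq_mul, mk00]
          rw [← hd, hd0]; ring
        · simp only [Matrix.smul_apply, smul_eq_mul, mk01]
          rw [he, hm0]; ring
        · simp only [Matrix.smul_apply, smul_eq_mul, mk10]
          rw [hf, hm0]; ring
        · simp only [Matrix.smul_apply, smul_eq_mul, mk11]
          rw [hb11, hd0]; ring
      · left
        apply odd_of_split hodd h43 _ (2 * k) (mul_ne_zero h2 hk0)
        rw [htrJb]
        linear_combination 4 * hk
    · right
      obtain ⟨r, ρ, A, s, hr, hρ, hA, hs⟩ := exists_params hF h2 hm1 η hν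
      have hν0 : η ^ 2 - 1 ≠ 0 := by
        intro h
        apply hν
        rw [h]
        exact IsSquare.zero
      obtain ⟨a, b', hz, htr⟩ := exists_nbr d m η r ρ s hν0 hdm hs
      have htr1 : tr2 (mk 0 1 (-1) 0 hJ * mk a (b' + r) (b' - r) (-a) hz) = -2 * r := by
        unfold tr2
        rw [mul00, mul11]
        simp only [mk00, mk01, mk10, mk11]
        ring
      have htr2 : tr2 (mk a (b' + r) (b' - r) (-a) hz * b) = -2 * ρ := by
        unfold tr2
        rw [mul00, mul11]
        simp only [mk00, mk01, mk10, mk11]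
        rw [he, hf, hb11, ← hd]
        linear_combination htr
      have h2A : 2 * A ≠ 0 := mul_ne_zero h2 hA
      have hsq1 : tr2 (mk 0 1 (-1) 0 hJ * mk a (b' + r) (b' - r) (-a) hz) ^ 2 - 4 = (2 * A) ^ 2 := by
        rw [htr1]
        linear_combination 4 * hr
      have hsq2 : tr2 (mk a (b' + r) (b' - r) (-a) hz * b) ^ 2 - 4 = (2 * A) ^ 2 := by
        rw [htr2]
        linear_combination 4 * hρ
      refine ⟨mk a (b' + r) (b' - r) (-a) hz, by simp [tr2], ?_, ?_, ?_, ?_⟩
      · apply ne_of_tr_left _ _ (by simp [tr2])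
        rw [hsq1]
        exact pow_ne_zero 2 h2A
      · apply ne_of_tr_right _ _ hb
        rw [hsq2]
        exact pow_ne_zero 2 h2A
      · exact odd_of_split hodd h43 _ (2 * A) h2A hsq1
      · exact odd_of_split hodd h43 _ (2 * A) h2A hsq2
  · obtain ⟨a0, b0, hab⟩ := Cfsg.Agent.Helper42.SL2.exists_sum_sq (Nat.odd_iff.mp hodd) (-1 : F)
    have hB : a0 * (-a0) - b0 * b0 = 1 := by linear_combination -hab
    have htr : tr2 (mk 0 1 (-1) 0 hJ * mk a0 b0 b0 (-a0) hB) = 0 := by
      unfold tr2
      rw [mul00, mul11]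
      simp
    refine ⟨mk a0 b0 b0 (-a0) hB, by simp [tr2], ?_, PSL2Klein.pr_ne_one_of_tr2 h2 _ htr,
      PSL2Klein.pr_sq_of_tr2 _ htr⟩
    intro h
    rw [pr_eq_iff] at h
    obtain ⟨r, hr, hm⟩ := h
    have h1 := congrFun (congrFun hm 0) 1
    have h2' := congrFun (congrFun hm 1) 0
    simp only [Matrix.smul_apply, smul_eq_mul, mk01, mk10] at h1 h2'
    have h3 : 2 * r = 0 := by linear_combination h2' - h1
    have hr0 : r = 0 := (mul_eq_zero.mp h3).resolve_left h2
    rw [hr0] at hr
    simp at hr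

end aux

/-- Let F be a finite field with at least 4 elements and let X be a conjugacy class of involutions of PSL(2, F). The graph on X joining two distinct involutions whose product has odd order is connected and has diameter exactly 2. -/
theorem result {F : Type*} [Field F] [Fintype F] (hF : 4 ≤ Fintype.card F)
    (t : Matrix.ProjectiveSpecialLinearGroup (Fin 2) F) (ht : orderOf t = 2) :
    (SimpleGraph.fromRel fun x y : {x : Matrix.ProjectiveSpecialLinearGroup (Fin 2) F // IsConj t x} =>
        Odd (orderOf (x.1 * y.1))).Connected ∧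
      (SimpleGraph.fromRel fun x y : {x : Matrix.ProjectiveSpecialLinearGroup (Fin 2) F // IsConj t x} =>
        Odd (orderOf (x.1 * y.1))).diam = 2 := by
  by_cases h2 : (2 : F) = 0
  · exact case_even h2 hF t ht
  · have hodd : Odd (Fintype.card F) := by
      rw [Nat.odd_iff]
      by_contra h
      apply h2
      have h' : Fintype.card F % 2 = 0 := by omega
      have hch := FiniteField.even_card_iff_char_two.mpr h'
      have : CharP F 2 := ringChar.of_eq hch
      exact_mod_cast CharP.cast_eq_zero F 2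
    by_cases hm1 : IsSquare (-1 : F)
    · obtain ⟨i, hi⟩ := hm1
      exact case_A hodd i hi.symm t ht
    · exact case_B hodd hF hm1 t ht

end Cfsg.Agent.S3266
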