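import Cfsg.Statements.S3265
import Cfsg.Agent.S3266

set_option autoImplicit false
set_option linter.unusedSectionVars false
set_option linter.unusedVariables false
open Cfsg

namespace Cfsg.Agent.S3265

section aux

variable {α : Type*} [DecidableEq α] [Fintype α]

theorem odd_of_pointwise (g : Equiv.Perm α)
    (h : ∀ p : α, ∃ m : ℕ, Odd m ∧ (g ^ m) p = p) : Odd (orderOf g) := by
  choose m hm hp using h
  have hM : Odd (∏ p : α, m p) :=
    Finset.prod_induction m Odd (fun a b ha hb => ha.mul hb) odd_one (fun p _ => hm p)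
  refine Odd.of_dvd_nat hM (orderOf_dvd_of_pow_eq_one ?_)
  ext p
  obtain ⟨k, hk⟩ := Finset.dvd_prod_of_mem m (Finset.mem_univ p)
  rw [hk, pow_mul]
  have h1 : ∀ k : ℕ, ((g ^ m p) ^ k) p = p := by
    intro k
    induction k with
    | zero => simp
    | succ k ih => rw [pow_succ, Equiv.Perm.mul_apply, hp p, ih]
  simpa using h1 k

theorem apply_of_invol (x : Equiv.Perm α) (hxx : x * x = 1) {p q : α} (h : x p = q) :
    x q = p := by
  subst h
  rw [← Equiv.Perm.mul_apply, hxx]
  rfl

theorem inv_of_invol (x : Equiv.Perm α) (hxx : x * x = 1) : x⁻¹ = x :=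
  inv_eq_of_mul_eq_one_right hxx

theorem inj_of_lt {k : ℕ} (p : Fin k → α) (h : ∀ i j, i < j → p i ≠ p j) :
    Function.Injective p := by
  intro i j hij
  by_contra hne
  rcases lt_or_gt_of_ne hne with h1 | h1
  · exact h i j h1 hij
  · exact h j i h1 hij.symm

/-- the homomorphism induced by an embedding of `Fin k` -/
noncomputable def E {k : ℕ} (ι : Fin k ↪ α) : Equiv.Perm (Fin k) →* Equiv.Perm α :=
  Equiv.Perm.viaEmbeddingHom ι

theorem E_apply {k : ℕ} (ι : Fin k ↪ α) (τ : Equiv.Perm (Fin k)) (i : Fin k) :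
    E ι τ (ι i) = ι (τ i) := by
  rw [E, Equiv.Perm.viaEmbeddingHom_apply, Equiv.Perm.viaEmbedding_apply]

theorem E_apply_not {k : ℕ} (ι : Fin k ↪ α) (τ : Equiv.Perm (Fin k)) (q : α)
    (hq : ∀ i, q ≠ ι i) : E ι τ q = q := by
  rw [E, Equiv.Perm.viaEmbeddingHom_apply]
  apply Equiv.Perm.viaEmbedding_apply_of_notMem
  rintro ⟨i, rfl⟩
  exact hq i rfl

theorem E_injective {k : ℕ} (ι : Fin k ↪ α) : Function.Injective (E ι) :=
  Equiv.Perm.viaEmbeddingHom_injective ι

theorem E_swap {k : ℕ} (ι : Fin k ↪ α) (i j : Fin k) :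
    E ι (Equiv.swap i j) = Equiv.swap (ι i) (ι j) := by
  ext q
  by_cases hq : ∃ l, q = ι l
  · obtain ⟨l, rfl⟩ := hq
    rw [E_apply]
    by_cases h1 : l = i
    · subst h1; simp
    · by_cases h2 : l = j
      · subst h2; simp
      · rw [Equiv.swap_apply_of_ne_of_ne h1 h2, Equiv.swap_apply_of_ne_of_ne]
        · exact fun h => h1 (ι.injective h)
        · exact fun h => h2 (ι.injective h)
  · push_neg at hq
    rw [E_apply_not ι _ q hq, Equiv.swap_apply_of_ne_of_ne (hq i) (hq j)]

theorem E_invol {k : ℕ} (ι : Fin k ↪ α) (τ : Equiv.Perm (Fin k)) (hτ : τ * τ = 1) :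
    E ι τ * E ι τ = 1 := by
  rw [← map_mul, hτ, map_one]

theorem comm_E {k : ℕ} (ι : Fin k ↪ α) (w : Equiv.Perm α) (τ : Equiv.Perm (Fin k))
    (hw : ∀ i, w (ι i) = ι i) : w * E ι τ = E ι τ * w := by
  ext q
  by_cases hq : ∃ i, q = ι i
  · obtain ⟨i, rfl⟩ := hq
    rw [Equiv.Perm.mul_apply, Equiv.Perm.mul_apply, E_apply, hw, hw, E_apply]
  · push_neg at hq
    have hwq : ∀ i, w q ≠ ι i := by
      intro i h
      apply hq i
      apply w.injective
      rw [h, hw]
    rw [Equiv.Perm.mul_apply, Equiv.Perm.mul_apply, E_apply_not ι τ q hq,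
      E_apply_not ι τ _ hwq]

theorem modE_fix {k : ℕ} (ι : Fin k ↪ α) (x : Equiv.Perm α) (xa τ : Equiv.Perm (Fin k))
    (hx : ∀ i, x (ι i) = ι (xa i)) (i : Fin k) :
    (x * E ι τ) (ι i) = ι ((xa * τ) i) := by
  rw [Equiv.Perm.mul_apply, E_apply, hx]
  rfl

theorem modE_not {k : ℕ} (ι : Fin k ↪ α) (x : Equiv.Perm α) (τ : Equiv.Perm (Fin k))
    (q : α) (hq : ∀ i, q ≠ ι i) : (x * E ι τ) q = x q := by
  rw [Equiv.Perm.mul_apply, E_apply_not ι τ q hq]

theorem modE_invol {k : ℕ} (ι : Fin k ↪ α) (x : Equiv.Perm α) (xa τ : Equiv.Perm (Fin k))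
    (hx : ∀ i, x (ι i) = ι (xa i)) (hxx : x * x = 1) (hτ : (xa * τ) * (xa * τ) = 1) :
    (x * E ι τ) * (x * E ι τ) = 1 := by
  ext q
  by_cases hq : ∃ i, q = ι i
  · obtain ⟨i, rfl⟩ := hq
    rw [Equiv.Perm.mul_apply, modE_fix ι x xa τ hx, modE_fix ι x xa τ hx,
      ← Equiv.Perm.mul_apply, hτ]
    rfl
  · push_neg at hq
    have hxq : ∀ i, x q ≠ ι i := by
      intro i h
      apply hq (xa i)
      have h2 : x (x q) = x (ι i) := by rw [h]
      rw [← Equiv.Perm.mul_apply, hxx, hx] at h2
      exact h2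
    rw [Equiv.Perm.mul_apply, modE_not ι x τ q hq, modE_not ι x τ _ hxq,
      ← Equiv.Perm.mul_apply, hxx]

theorem modE_support_subset {k : ℕ} (ι : Fin k ↪ α) (x : Equiv.Perm α)
    (τ : Equiv.Perm (Fin k)) (S : Finset α) (hS : x.support ⊆ S) (hι : ∀ i, ι i ∈ S) :
    (x * E ι τ).support ⊆ S := by
  intro q hq
  by_cases h : ∃ i, q = ι i
  · obtain ⟨i, rfl⟩ := h
    exact hι i
  · push_neg at h
    apply hS
    rw [Equiv.Perm.mem_support] at hq ⊢
    rwa [modE_not ι x τ q h] at hq

theorem strip_support {k : ℕ} (ι : Fin k ↪ α) (x : Equiv.Perm α) (xa τ : Equiv.Perm (Fin k))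
    (hx : ∀ i, x (ι i) = ι (xa i)) (hτ : xa * τ = 1) (S : Finset α) (hS : x.support ⊆ S) :
    (x * E ι τ).support ⊆ S \ Finset.univ.map ι := by
  intro q hq
  rw [Equiv.Perm.mem_support] at hq
  have hq' : ∀ i, q ≠ ι i := by
    rintro i rfl
    apply hq
    rw [modE_fix ι x xa τ hx, hτ]
    rfl
  rw [Finset.mem_sdiff]
  refine ⟨hS ?_, ?_⟩
  · rw [Equiv.Perm.mem_support]
    rwa [modE_not ι x τ q hq'] at hq
  · simp only [Finset.mem_map, Finset.mem_univ, true_and, not_exists]
    intro i hi
    exact hq' i hi.symm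

theorem support_card_split {k : ℕ} (ι : Fin k ↪ α) (w : Equiv.Perm α)
    (wa : Equiv.Perm (Fin k)) (hw : ∀ i, w (ι i) = ι (wa i)) :
    w.support.card =
      (w.support.filter (fun q => ¬ q ∈ Finset.univ.map ι)).card + wa.support.card := by
  rw [← Finset.card_filter_add_card_filter_not (s := w.support)
    (fun q => q ∈ Finset.univ.map ι), add_comm]
  congr 1
  rw [← Finset.card_map ι]
  congr 1
  ext q
  simp only [Finset.mem_filter, Finset.mem_map, Finset.mem_univ, true_and,
    Equiv.Perm.mem_support]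
  constructor
  · rintro ⟨hq, i, rfl⟩
    refine ⟨i, ?_, rfl⟩
    intro h
    apply hq
    rw [hw, h]
  · rintro ⟨i, hi, rfl⟩
    refine ⟨?_, i, rfl⟩
    rw [hw]
    exact fun h => hi (ι.injective h)

theorem modE_support_card {k : ℕ} (ι : Fin k ↪ α) (x : Equiv.Perm α)
    (xa τ : Equiv.Perm (Fin k)) (hx : ∀ i, x (ι i) = ι (xa i)) :
    (x * E ι τ).support.card + xa.support.card
      = x.support.card + (xa * τ).support.card := by
  have h1 := support_card_split ι x xa hx
  have h2 := support_card_split ι (x * E ι τ) (xa * τ) (modE_fix ι x xa τ hx)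
  have h3 : (x * E ι τ).support.filter (fun q => ¬ q ∈ Finset.univ.map ι)
      = x.support.filter (fun q => ¬ q ∈ Finset.univ.map ι) := by
    ext q
    simp only [Finset.mem_filter, Finset.mem_map, Finset.mem_univ, true_and,
      Equiv.Perm.mem_support, not_exists]
    constructor
    · rintro ⟨hq, hn⟩
      refine ⟨?_, hn⟩
      rwa [modE_not ι x τ q (fun i h => hn i h.symm)] at hq
    · rintro ⟨hq, hn⟩
      refine ⟨?_, hn⟩
      rwa [modE_not ι x τ q (fun i h => hn i h.symm)]
  rw [h3] at h2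
  omega

/-- the solution predicate -/
def Sol (S : Finset α) (x y : Equiv.Perm α) : Prop :=
  ∃ z : Equiv.Perm α, z * z = 1 ∧ z.support ⊆ S ∧ Odd (orderOf (x * z)) ∧
    Odd (orderOf (y * z))

theorem Sol.symm {S : Finset α} {x y : Equiv.Perm α} (h : Sol S x y) : Sol S y x := by
  obtain ⟨z, h1, h2, h3, h4⟩ := h
  exact ⟨z, h1, h2, h4, h3⟩

theorem odd_comm_mul {G : Type*} [Group G] (a b : G) (hc : Commute a b)
    (ha : Odd (orderOf a)) (hb : Odd (orderOf b)) : Odd (orderOf (a * b)) :=
  Odd.of_dvd_nat (Odd.of_dvd_nat (ha.mul hb) (Nat.lcm_dvd_mul _ _)) hc.orderOf_mul_dvd_lcm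

theorem fix_of_support {S : Finset α} {z : Equiv.Perm α} (h : z.support ⊆ S) {q : α}
    (hq : q ∉ S) : z q = q := by
  by_contra hne
  exact hq (h (Equiv.Perm.mem_support.2 hne))

theorem block_odd {k : ℕ} (ι : Fin k ↪ α) (x zR : Equiv.Perm α)
    (x0 z0 : Equiv.Perm (Fin k)) (hx0 : x0 * x0 = 1)
    (hx : ∀ i, x (ι i) = ι (x0 i)) (hfix : ∀ i, zR (ι i) = ι i)
    (hxz : Odd (orderOf (x0 * z0))) (h1 : Odd (orderOf (x * E ι x0 * zR))) :
    Odd (orderOf (x * (zR * E ι z0))) := by
  have hc := comm_E ι zR x0 hfix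
  have hxx : E ι x0 * E ι x0 = 1 := E_invol ι x0 hx0
  have e : x * (zR * E ι z0) = (x * E ι x0 * zR) * E ι (x0 * z0) := by
    rw [map_mul]
    calc x * (zR * E ι z0) = x * (E ι x0 * E ι x0) * zR * E ι z0 := by rw [hxx]; group
      _ = x * E ι x0 * (E ι x0 * zR) * E ι z0 := by group
      _ = x * E ι x0 * (zR * E ι x0) * E ι z0 := by rw [hc]
      _ = x * E ι x0 * zR * (E ι x0 * E ι z0) := by group
  rw [e]
  have hfix' : ∀ i, (x * E ι x0 * zR) (ι i) = ι i := by
    intro i
    rw [Equiv.Perm.mul_apply, hfix, modE_fix ι x x0 x0 hx, hx0]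
    rfl
  have hcomm : Commute (x * E ι x0 * zR) (E ι (x0 * z0)) := comm_E ι _ _ hfix'
  have ho : orderOf (E ι (x0 * z0)) = orderOf (x0 * z0) :=
    orderOf_injective (E ι) (E_injective ι) _
  exact odd_comm_mul _ _ hcomm h1 (by rw [ho]; exact hxz)

theorem block {k : ℕ} (ι : Fin k ↪ α) (S : Finset α) (x y : Equiv.Perm α)
    (x0 y0 z0 : Equiv.Perm (Fin k))
    (hx0 : x0 * x0 = 1) (hy0 : y0 * y0 = 1) (hz0 : z0 * z0 = 1)
    (hx : ∀ i, x (ι i) = ι (x0 i)) (hy : ∀ i, y (ι i) = ι (y0 i))
    (hxz : Odd (orderOf (x0 * z0))) (hyz : Odd (orderOf (y0 * z0)))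
    (hι : ∀ i, ι i ∈ S)
    (hrest : Sol (S \ Finset.univ.map ι) (x * E ι x0) (y * E ι y0)) : Sol S x y := by
  obtain ⟨zR, hzR, hsupp, h1, h2⟩ := hrest
  have hfix : ∀ i, zR (ι i) = ι i := by
    intro i
    apply fix_of_support hsupp
    simp
  refine ⟨zR * E ι z0, ?_, ?_, ?_, ?_⟩
  · have hc := comm_E ι zR z0 hfix
    calc zR * E ι z0 * (zR * E ι z0) = zR * (E ι z0 * zR) * E ι z0 := by group
      _ = zR * (zR * E ι z0) * E ι z0 := by rw [hc]
      _ = (zR * zR) * (E ι z0 * E ι z0) := by group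
      _ = 1 := by rw [hzR, E_invol ι z0 hz0, one_mul]
  · exact modE_support_subset ι zR z0 S (hsupp.trans Finset.sdiff_subset) hι
  · exact block_odd ι x zR x0 z0 hx0 hx hfix hxz h1
  · exact block_odd ι y zR y0 z0 hy0 hy hfix hyz h2

/-- the 3-cycle `u → r1 → r2 → u` -/
def sig (u r1 r2 : α) : Equiv.Perm α := Equiv.swap r1 u * Equiv.swap r2 r1

theorem sig_u (u r1 r2 : α) (hu1 : u ≠ r1) (hu2 : u ≠ r2) : sig u r1 r2 u = r1 := by
  rw [sig, Equiv.Perm.mul_apply, Equiv.swap_apply_of_ne_of_ne hu2 hu1, Equiv.swap_apply_right]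

theorem sig_r1 (u r1 r2 : α) (h12 : r1 ≠ r2) (hu2 : u ≠ r2) : sig u r1 r2 r1 = r2 := by
  rw [sig, Equiv.Perm.mul_apply, Equiv.swap_apply_right,
    Equiv.swap_apply_of_ne_of_ne h12.symm hu2.symm]

theorem sig_r2 (u r1 r2 : α) : sig u r1 r2 r2 = u := by
  rw [sig, Equiv.Perm.mul_apply, Equiv.swap_apply_left, Equiv.swap_apply_left]

theorem sig_other (u r1 r2 q : α) (h0 : q ≠ u) (h1 : q ≠ r1) (h2 : q ≠ r2) :
    sig u r1 r2 q = q := by
  rw [sig, Equiv.Perm.mul_apply, Equiv.swap_apply_of_ne_of_ne h2 h1,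
    Equiv.swap_apply_of_ne_of_ne h1 h0]

theorem pow_fix (g : Equiv.Perm α) (r : α) (h : g r = r) (k : ℕ) : (g ^ k) r = r := by
  induction k with
  | zero => simp
  | succ k ih => rw [pow_succ, Equiv.Perm.mul_apply, h, ih]

theorem splice (g : Equiv.Perm α) (u r1 r2 : α) (h1 : g r1 = r1) (h2 : g r2 = r2)
    (h12 : r1 ≠ r2) (hu1 : u ≠ r1) (hu2 : u ≠ r2) (hodd : Odd (orderOf g)) :
    Odd (orderOf (g * sig u r1 r2)) := by
  set f := g * sig u r1 r2 with hf
  have fu : f u = r1 := by
    rw [hf, Equiv.Perm.mul_apply, sig_u u r1 r2 hu1 hu2, h1]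
  have fr1 : f r1 = r2 := by
    rw [hf, Equiv.Perm.mul_apply, sig_r1 u r1 r2 h12 hu2, h2]
  have fr2 : f r2 = g u := by
    rw [hf, Equiv.Perm.mul_apply, sig_r2 u r1 r2]
  have fq : ∀ q, q ≠ u → q ≠ r1 → q ≠ r2 → f q = g q := by
    intro q a b c
    rw [hf, Equiv.Perm.mul_apply, sig_other u r1 r2 q a b c]
  clear_value f
  have g1 : ∀ k : ℕ, (g ^ k) r1 = r1 := pow_fix g r1 h1
  have g2 : ∀ k : ℕ, (g ^ k) r2 = r2 := pow_fix g r2 h2
  have gne1 : ∀ k : ℕ, (g ^ k) u ≠ r1 := by
    intro k h
    have : (g ^ k) u = (g ^ k) r1 := by rw [h, g1]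
    exact hu1 ((g ^ k).injective this)
  have gne2 : ∀ k : ℕ, (g ^ k) u ≠ r2 := by
    intro k h
    have : (g ^ k) u = (g ^ k) r2 := by rw [h, g2]
    exact hu2 ((g ^ k).injective this)
  have hNpos : 0 < orderOf g := orderOf_pos g
  have hgN : ∀ q : α, (g ^ orderOf g) q = q := by
    intro q
    rw [pow_orderOf_eq_one]
    rfl
  have hper : Function.IsPeriodicPt g (orderOf g) u := hgN u
  have hLdvd : Function.minimalPeriod g u ∣ orderOf g := hper.minimalPeriod_dvd
  have hLpos : 0 < Function.minimalPeriod g u := hper.minimalPeriod_pos hNpos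
  have hLodd : Odd (Function.minimalPeriod g u) := Odd.of_dvd_nat hodd hLdvd
  have hLu : (g ^ Function.minimalPeriod g u) u = u :=
    Function.isPeriodicPt_minimalPeriod g u
  have hLmin : ∀ i : ℕ, 0 < i → i < Function.minimalPeriod g u → (g ^ i) u ≠ u := by
    intro i hi hiL h
    have hp : Function.IsPeriodicPt g i u := h
    exact Function.not_isPeriodicPt_of_pos_of_lt_minimalPeriod hi.ne' hiL hp
  generalize Function.minimalPeriod g u = L at hLdvd hLpos hLodd hLu hLmin
  have hA : ∀ i : ℕ, i < L → (f ^ i) (g u) = (g ^ (i + 1)) u := by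
    intro i
    induction i with
    | zero => intro _; simp
    | succ i ih =>
      intro hi
      have ih' := ih (by omega)
      rw [pow_succ', Equiv.Perm.mul_apply, ih',
        fq _ (hLmin (i + 1) (by omega) hi) (gne1 _) (gne2 _),
        ← Equiv.Perm.mul_apply, ← pow_succ']
  have f3 : (f ^ 3) u = g u := by
    rw [pow_succ', pow_succ', pow_one, Equiv.Perm.mul_apply, Equiv.Perm.mul_apply, fu, fr1, fr2]
  have hperf : (f ^ (L + 2)) u = u := by
    have e : L + 2 = (L - 1) + 3 := by omega
    rw [e, pow_add, Equiv.Perm.mul_apply, f3, hA (L - 1) (by omega)]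
    have e2 : L - 1 + 1 = L := by omega
    rw [e2]
    exact hLu
  have hB : ∀ j : ℕ, (f ^ (L + 2)) ((f ^ j) u) = (f ^ j) u := by
    intro j
    rw [← Equiv.Perm.mul_apply, ← pow_add, add_comm, pow_add, Equiv.Perm.mul_apply, hperf]
  have hD : ∀ k : ℕ, ∃ j : ℕ, (g ^ k) u = (f ^ j) u := by
    intro k
    induction k with
    | zero => exact ⟨0, rfl⟩
    | succ k ih =>
      obtain ⟨j, hj⟩ := ih
      by_cases hk : (g ^ k) u = u
      · refine ⟨3, ?_⟩
        rw [pow_succ', Equiv.Perm.mul_apply, hk, f3]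
      · refine ⟨j + 1, ?_⟩
        rw [pow_succ', Equiv.Perm.mul_apply, pow_succ', Equiv.Perm.mul_apply, ← hj,
          fq _ hk (gne1 k) (gne2 k)]
  apply odd_of_pointwise
  intro p
  by_cases hp : ∃ j : ℕ, p = (f ^ j) u
  · obtain ⟨j, rfl⟩ := hp
    exact ⟨L + 2, hLodd.add_even even_two, hB j⟩
  · push_neg at hp
    have hp1 : p ≠ r1 := fun h => hp 1 (by rw [h, pow_one, fu])
    have hp2 : p ≠ r2 := fun h =>
      hp 2 (by rw [h, pow_succ', pow_one, Equiv.Perm.mul_apply, fu, fr1])
    have hpg : ∀ i : ℕ, (g ^ i) p ≠ u := by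
      intro i h
      have hpe : p = (g ^ (i * (orderOf g - 1))) u := by
        apply (g ^ i).injective
        rw [h, ← Equiv.Perm.mul_apply, ← pow_add]
        have e : i + i * (orderOf g - 1) = orderOf g * i := by
          obtain ⟨M, hM⟩ : ∃ M, orderOf g = M + 1 := ⟨orderOf g - 1, by omega⟩
          rw [hM]
          simp only [Nat.add_sub_cancel]
          ring
        rw [e, pow_mul, pow_orderOf_eq_one, one_pow]
        rfl
      obtain ⟨j, hj⟩ := hD (i * (orderOf g - 1))
      exact hp j (hpe.trans hj)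
    have hfg : ∀ i : ℕ, (f ^ i) p = (g ^ i) p := by
      intro i
      induction i with
      | zero => rfl
      | succ i ih =>
        rw [pow_succ', Equiv.Perm.mul_apply, ih, pow_succ', Equiv.Perm.mul_apply]
        apply fq _ (hpg i)
        · intro h
          apply hp1
          apply (g ^ i).injective
          rw [h, g1]
        · intro h
          apply hp2
          apply (g ^ i).injective
          rw [h, g2]
    exact ⟨orderOf g, hodd, by rw [hfg, hgN]⟩

/-- the exceptional configuration: two distinct fixed-point-free involutions of four points -/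
def Exc (S : Finset α) (x y : Equiv.Perm α) : Prop :=
  S.card = 4 ∧ x.support = S ∧ y.support = S ∧ x ≠ y

/-- an alternating 4-cycle -/
def Bad4 (x y : Equiv.Perm α) : Prop :=
  ∃ a b c d : α, a ≠ b ∧ a ≠ c ∧ a ≠ d ∧ b ≠ c ∧ b ≠ d ∧ c ≠ d ∧
    x a = b ∧ y b = c ∧ x c = d ∧ y d = a

theorem exc_cycle (S : Finset α) (x y : Equiv.Perm α) (hxx : x * x = 1) (hyy : y * y = 1)
    (h : Exc S x y) (a b c d : α) (ha : a ∈ S) (hb : x a = b) (hc : y b = c) (hd : x c = d) :
    a ≠ b ∧ a ≠ c ∧ a ≠ d ∧ b ≠ c ∧ b ≠ d ∧ c ≠ d ∧ y d = a ∧ b ∈ S ∧ c ∈ S ∧ d ∈ S := by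
  obtain ⟨h4, hsx, hsy, hne⟩ := h
  have mx : ∀ q, q ∈ S ↔ x q ≠ q := by
    intro q
    rw [← hsx, Equiv.Perm.mem_support]
  have my : ∀ q, q ∈ S ↔ y q ≠ q := by
    intro q
    rw [← hsy, Equiv.Perm.mem_support]
  have xS : ∀ q, q ∈ S → x q ∈ S := by
    intro q hq
    rw [mx] at hq ⊢
    intro h2
    exact hq (x.injective h2)
  have yS : ∀ q, q ∈ S → y q ∈ S := by
    intro q hq
    rw [my] at hq ⊢
    intro h2
    exact hq (y.injective h2)
  have xx : ∀ q, x (x q) = q := by
    intro q
    rw [← Equiv.Perm.mul_apply, hxx]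
    rfl
  have yy : ∀ q, y (y q) = q := by
    intro q
    rw [← Equiv.Perm.mul_apply, hyy]
    rfl
  have hbS : b ∈ S := hb ▸ xS a ha
  have hab : a ≠ b := fun h => (mx a).1 ha (hb.trans h.symm)
  have hcS : c ∈ S := hc ▸ yS b hbS
  have hbc : b ≠ c := fun h => (my b).1 hbS (hc.trans h.symm)
  have hdS : d ∈ S := hd ▸ xS c hcS
  have hcd : c ≠ d := fun h => (mx c).1 hcS (hd.trans h.symm)
  have hxb : x b = a := apply_of_invol x hxx hb
  have hyc : y c = b := apply_of_invol y hyy hc
  have hxd : x d = c := apply_of_invol x hxx hd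
  have hac : a ≠ c := by
    intro hac
    apply hne
    ext q
    by_cases hq : q ∈ S
    · by_cases hqa : q = a
      · rw [hqa]
        calc x a = b := hb
          _ = y c := hyc.symm
          _ = y a := by rw [hac]
      · by_cases hqb : q = b
        · rw [hqb]
          calc x b = a := hxb
            _ = c := hac
            _ = y b := hc.symm
        · have hT : (S \ {a, b, q}).card ≤ 1 := by
            have hsub : ({a, b, q} : Finset α) ⊆ S := by
              intro r hr
              simp only [Finset.mem_insert, Finset.mem_singleton] at hr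
              rcases hr with hr | hr | hr
              · rw [hr]; exact ha
              · rw [hr]; exact hbS
              · rw [hr]; exact hq
            rw [Finset.card_sdiff_of_subset hsub, h4,
              Finset.card_eq_three.2
                ⟨a, b, q, hab, fun h => hqa h.symm, fun h => hqb h.symm, rfl⟩]
          have hxq : x q ∈ S \ {a, b, q} := by
            rw [Finset.mem_sdiff]
            refine ⟨xS q hq, ?_⟩
            simp only [Finset.mem_insert, Finset.mem_singleton, not_or]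
            refine ⟨?_, ?_, (mx q).1 hq⟩
            · intro h
              apply hqb
              have h2 := xx q
              rw [h, hb] at h2
              exact h2.symm
            · intro h
              apply hqa
              have h2 := xx q
              rw [h, hxb] at h2
              exact h2.symm
          have hyq : y q ∈ S \ {a, b, q} := by
            rw [Finset.mem_sdiff]
            refine ⟨yS q hq, ?_⟩
            simp only [Finset.mem_insert, Finset.mem_singleton, not_or]
            refine ⟨?_, ?_, (my q).1 hq⟩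
            · intro h
              apply hqb
              have h2 := yy q
              rw [h, hac, hyc] at h2
              exact h2.symm
            · intro h
              apply hqa
              have h2 := yy q
              rw [h, hc] at h2
              rw [hac]
              exact h2.symm
          exact Finset.card_le_one.1 hT _ hxq _ hyq
    · rw [fix_of_support hsx.le hq, fix_of_support hsy.le hq]
  have hbd : b ≠ d := by
    intro h
    apply hac
    have h2 := hxd
    rw [← h, hxb] at h2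
    exact h2
  have had : a ≠ d := by
    intro h
    apply hbc
    have h2 := hxd
    rw [← h, hb] at h2
    exact h2
  have hS : ∀ q ∈ S, q = a ∨ q = b ∨ q = c ∨ q = d := by
    have hsub : ({a, b, c, d} : Finset α) ⊆ S := by
      intro r hr
      simp only [Finset.mem_insert, Finset.mem_singleton] at hr
      rcases hr with hr | hr | hr | hr
      · rw [hr]; exact ha
      · rw [hr]; exact hbS
      · rw [hr]; exact hcS
      · rw [hr]; exact hdS
    have hcard : ({a, b, c, d} : Finset α).card = 4 := by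
      rw [Finset.card_insert_of_notMem, Finset.card_insert_of_notMem,
        Finset.card_insert_of_notMem, Finset.card_singleton]
      all_goals simp [hab, hac, had, hbc, hbd, hcd]
    have heq := Finset.eq_of_subset_of_card_le hsub (by rw [h4, hcard])
    intro q hq
    rw [← heq] at hq
    simpa using hq
  refine ⟨hab, hac, had, hbc, hbd, hcd, ?_, hbS, hcS, hdS⟩
  rcases hS (y d) (yS d hdS) with h1 | h1 | h1 | h1
  · exact h1
  · exfalso
    have h2 := yy d
    rw [h1, hc] at h2
    exact hcd h2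
  · exfalso
    have h2 := yy d
    rw [h1, hyc] at h2
    exact hbd h2
  · exact absurd h1 ((my d).1 hdS)

/-- the induction hypothesis -/
def IHyp (S : Finset α) : Prop :=
  ∀ S' : Finset α, S'.card < S.card → ∀ x' y' : Equiv.Perm α, x' * x' = 1 → y' * y' = 1 →
    x'.support ⊆ S' → y'.support ⊆ S' → x'.support.card = y'.support.card →
    ¬ Exc S' x' y' → Sol S' x' y'

theorem range_subset {k : ℕ} (ι : Fin k ↪ α) (S : Finset α) (hι : ∀ i, ι i ∈ S) :
    Finset.univ.map ι ⊆ S := by
  intro q hq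
  simp only [Finset.mem_map, Finset.mem_univ, true_and] at hq
  obtain ⟨i, rfl⟩ := hq
  exact hι i

theorem card_rest {k : ℕ} (ι : Fin k ↪ α) (S : Finset α) (hι : ∀ i, ι i ∈ S) :
    (S \ Finset.univ.map ι).card + k = S.card := by
  have hsub := range_subset ι S hι
  have h1 := Finset.card_sdiff_add_card_eq_card hsub
  rwa [Finset.card_map, Finset.card_univ, Fintype.card_fin] at h1

theorem not_range {k : ℕ} (ι : Fin k ↪ α) (S : Finset α) (q : α)
    (hq : q ∈ S \ Finset.univ.map ι) (i : Fin k) : q ≠ ι i := by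
  intro hqi
  rw [Finset.mem_sdiff] at hq
  apply hq.2
  simp only [Finset.mem_map, Finset.mem_univ, true_and]
  exact ⟨i, hqi.symm⟩

theorem rem' {k : ℕ} (ι : Fin k ↪ α) (S : Finset α) (IH : IHyp S) (x y : Equiv.Perm α)
    (hxx : x * x = 1) (hyy : y * y = 1) (hxS : x.support ⊆ S) (hyS : y.support ⊆ S)
    (hcard : x.support.card = y.support.card)
    (x0 y0 z0 : Equiv.Perm (Fin k)) (hk : 0 < k)
    (hx0 : x0 * x0 = 1) (hy0 : y0 * y0 = 1) (hz0 : z0 * z0 = 1)
    (hc0 : x0.support.card = y0.support.card)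
    (hx : ∀ i, x (ι i) = ι (x0 i)) (hy : ∀ i, y (ι i) = ι (y0 i))
    (hxz : Odd (orderOf (x0 * z0))) (hyz : Odd (orderOf (y0 * z0)))
    (hι : ∀ i, ι i ∈ S)
    (hne : ¬ Exc (S \ Finset.univ.map ι) (x * E ι x0) (y * E ι y0)) : Sol S x y := by
  apply block ι S x y x0 y0 z0 hx0 hy0 hz0 hx hy hxz hyz hι
  apply IH
  · have := card_rest ι S hι
    omega
  · exact modE_invol ι x x0 x0 hx hxx (by rw [hx0, one_mul])
  · exact modE_invol ι y y0 y0 hy hyy (by rw [hy0, one_mul])
  · exact strip_support ι x x0 x0 hx hx0 S hxS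
  · exact strip_support ι y y0 y0 hy hy0 S hyS
  · have h1 := modE_support_card ι x x0 x0 hx
    have h2 := modE_support_card ι y y0 y0 hy
    rw [hx0] at h1
    rw [hy0] at h2
    simp only [Equiv.Perm.support_one, Finset.card_empty] at h1 h2
    omega
  · exact hne

theorem bad4_of_exc_rest {k : ℕ} (ι : Fin k ↪ α) (S : Finset α) (x y : Equiv.Perm α)
    (hxx : x * x = 1) (hyy : y * y = 1)
    (x0 y0 : Equiv.Perm (Fin k)) (hx0 : x0 * x0 = 1) (hy0 : y0 * y0 = 1)
    (hx : ∀ i, x (ι i) = ι (x0 i)) (hy : ∀ i, y (ι i) = ι (y0 i))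
    (h : Exc (S \ Finset.univ.map ι) (x * E ι x0) (y * E ι y0)) : Bad4 x y := by
  have hxx' := modE_invol ι x x0 x0 hx hxx (by rw [hx0, one_mul])
  have hyy' := modE_invol ι y y0 y0 hy hyy (by rw [hy0, one_mul])
  have hne : (S \ Finset.univ.map ι).Nonempty := by
    rw [← Finset.card_pos, h.1]
    norm_num
  obtain ⟨a, ha⟩ := hne
  obtain ⟨h1, h2, h3, h4, h5, h6, h7, h8, h9, h10⟩ :=
    exc_cycle _ _ _ hxx' hyy' h a _ _ _ ha rfl rfl rfl
  have ex : ∀ q, q ∈ S \ Finset.univ.map ι → (x * E ι x0) q = x q :=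
    fun q hq => modE_not ι x x0 q (not_range ι S q hq)
  have ey : ∀ q, q ∈ S \ Finset.univ.map ι → (y * E ι y0) q = y q :=
    fun q hq => modE_not ι y y0 q (not_range ι S q hq)
  refine ⟨a, (x * E ι x0) a, (y * E ι y0) ((x * E ι x0) a),
    (x * E ι x0) ((y * E ι y0) ((x * E ι x0) a)), h1, h2, h3, h4, h5, h6, ?_, ?_, ?_, ?_⟩
  · exact (ex a ha).symm
  · exact (ey _ h8).symm
  · exact (ex _ h9).symm
  · rw [← ey _ h10]
    exact h7

theorem rem {k : ℕ} (ι : Fin k ↪ α) (S : Finset α) (IH : IHyp S) (x y : Equiv.Perm α)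
    (hxx : x * x = 1) (hyy : y * y = 1) (hxS : x.support ⊆ S) (hyS : y.support ⊆ S)
    (hcard : x.support.card = y.support.card)
    (x0 y0 z0 : Equiv.Perm (Fin k)) (hk : 0 < k)
    (hx0 : x0 * x0 = 1) (hy0 : y0 * y0 = 1) (hz0 : z0 * z0 = 1)
    (hc0 : x0.support.card = y0.support.card)
    (hx : ∀ i, x (ι i) = ι (x0 i)) (hy : ∀ i, y (ι i) = ι (y0 i))
    (hxz : Odd (orderOf (x0 * z0))) (hyz : Odd (orderOf (y0 * z0)))
    (hι : ∀ i, ι i ∈ S) (hnb : ¬ Bad4 x y) : Sol S x y :=
  rem' ι S IH x y hxx hyy hxS hyS hcard x0 y0 z0 hk hx0 hy0 hz0 hc0 hx hy hxz hyz hι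
    (fun h => hnb (bad4_of_exc_rest ι S x y hxx hyy x0 y0 hx0 hy0 hx hy h))

theorem E_sig {k : ℕ} (ι : Fin k ↪ α) (u r1 r2 : Fin k) :
    E ι (sig u r1 r2) = sig (ι u) (ι r1) (ι r2) := by
  rw [sig, sig, map_mul, E_swap, E_swap]

theorem E_swap' {k : ℕ} (ι : Fin k ↪ α) (i j : Fin k) (p q : α) (hp : ι i = p) (hq : ι j = q) :
    E ι (Equiv.swap i j) = Equiv.swap p q := by
  rw [E_swap, hp, hq]

theorem conjE {k : ℕ} (ι : Fin k ↪ α) (w : Equiv.Perm α) (τ : Equiv.Perm (Fin k)) :
    w * E ι τ * w⁻¹ = E (ι.trans w.toEmbedding) τ := by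
  have happ : ∀ i, (ι.trans w.toEmbedding) i = w (ι i) := fun i => rfl
  have hw1 : ∀ q, w⁻¹ (w q) = q := fun q => by simp
  have hw2 : ∀ q, w (w⁻¹ q) = q := fun q => by simp
  ext q
  by_cases hq : ∃ i, q = w (ι i)
  · obtain ⟨i, rfl⟩ := hq
    rw [Equiv.Perm.mul_apply, Equiv.Perm.mul_apply, hw1, E_apply,
      ← happ, ← happ, E_apply]
  · push_neg at hq
    have h1 : ∀ i, w⁻¹ q ≠ ι i := by
      intro i h
      apply hq i
      rw [← h, hw2]
    have h2 : ∀ i, q ≠ (ι.trans w.toEmbedding) i := fun i => hq i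
    rw [Equiv.Perm.mul_apply, Equiv.Perm.mul_apply, E_apply_not ι τ _ h1,
      hw2, E_apply_not _ τ q h2]

/-! ### explicit small permutations -/

def S2 : Equiv.Perm (Fin 2) := Equiv.swap 0 1
theorem S2_sq : S2 * S2 = 1 := by decide
theorem S2_card : S2.support.card = 2 := by decide
theorem S2_one_sq : (1 * S2) * (1 * S2) = 1 := by decide

def X4 : Equiv.Perm (Fin 4) := Equiv.swap 0 1 * Equiv.swap 2 3
def Y4 : Equiv.Perm (Fin 4) := Equiv.swap 1 2 * Equiv.swap 3 0
theorem X4_sq : X4 * X4 = 1 := by decide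
theorem Y4_sq : Y4 * Y4 = 1 := by decide
theorem X4_card : X4.support.card = 4 := by decide
theorem Y4_card : Y4.support.card = 4 := by decide
theorem X4_move : ∀ i : Fin 4, X4 i ≠ i := by decide
theorem Y4_move : ∀ i : Fin 4, Y4 i ≠ i := by decide
theorem X4_one_sq : (1 * X4) * (1 * X4) = 1 := by decide

def XP : Equiv.Perm (Fin 4) := Equiv.swap 0 1
def YP : Equiv.Perm (Fin 4) := Equiv.swap 2 3
def ZP : Equiv.Perm (Fin 4) := Equiv.swap 0 2
theorem XP_sq : XP * XP = 1 := by decide
theorem YP_sq : YP * YP = 1 := by decide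
theorem ZP_sq : ZP * ZP = 1 := by decide
theorem XP_card : XP.support.card = YP.support.card := by decide
theorem XPZP_odd : Odd (orderOf (XP * ZP)) :=
  Odd.of_dvd_nat (by decide : Odd 3) (orderOf_dvd_of_pow_eq_one (by decide))
theorem YPZP_odd : Odd (orderOf (YP * ZP)) :=
  Odd.of_dvd_nat (by decide : Odd 3) (orderOf_dvd_of_pow_eq_one (by decide))

def X5 : Equiv.Perm (Fin 5) := Equiv.swap 0 1 * Equiv.swap 2 3
def Y5 : Equiv.Perm (Fin 5) := Equiv.swap 1 2 * Equiv.swap 3 0
def Z5 : Equiv.Perm (Fin 5) := Equiv.swap 4 0 * Equiv.swap 1 2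
theorem Z5_sq : (1 * Z5) * (1 * Z5) = 1 := by decide
theorem X5Z5 : X5 * Z5 = sig 4 1 3 * sig 3 2 0 := by decide
theorem Y5Z5 : Y5 * Z5 = sig 4 3 0 := by decide

def X6 : Equiv.Perm (Fin 6) := Equiv.swap 0 1 * Equiv.swap 2 3
def Y6 : Equiv.Perm (Fin 6) := Equiv.swap 1 2 * Equiv.swap 3 0
def W6 : Equiv.Perm (Fin 6) := Equiv.swap 4 5
def Z6 : Equiv.Perm (Fin 6) :=
  Equiv.swap 4 5 * Equiv.swap 4 0 * Equiv.swap 5 2 * Equiv.swap 1 3
theorem W6Z6_sq : (W6 * Z6) * (W6 * Z6) = 1 := by decide
theorem X6Z6 : X6 * Z6 = sig 4 1 2 * sig 5 3 0 := by decide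
theorem Y6Z6 : Y6 * Z6 = sig 4 3 2 * sig 5 1 0 := by decide

def XK : Equiv.Perm (Fin 6) := Equiv.swap 0 1 * Equiv.swap 2 3 * Equiv.swap 4 5
def TK : Equiv.Perm (Fin 6) := XK * Equiv.swap 0 5
def MK : Equiv.Perm (Fin 6) := Equiv.swap 1 2 * Equiv.swap 3 4
theorem XKTK_sq : (XK * TK) * (XK * TK) = 1 := by decide
theorem XK_card : XK.support.card = 6 := by decide
theorem XKTK_card : (XK * TK).support.card = 2 := by decide
theorem TKMK : TK⁻¹ * MK = sig 0 1 3 * sig 5 4 2 := by decide
theorem X4X4_card : (X4 * X4).support.card = 0 := by decide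

def X8 : Equiv.Perm (Fin 8) :=
  Equiv.swap 0 1 * Equiv.swap 2 3 * Equiv.swap 4 5 * Equiv.swap 6 7
def Y8c : Equiv.Perm (Fin 8) :=
  Equiv.swap 1 2 * Equiv.swap 3 0 * Equiv.swap 5 6 * Equiv.swap 7 4
def Z8c : Equiv.Perm (Fin 8) :=
  Equiv.swap 0 1 * Equiv.swap 2 4 * Equiv.swap 3 7 * Equiv.swap 5 6
def Y8a : Equiv.Perm (Fin 8) :=
  Equiv.swap 1 2 * Equiv.swap 3 4 * Equiv.swap 5 6 * Equiv.swap 7 0
def Z8a : Equiv.Perm (Fin 8) :=
  Equiv.swap 0 1 * Equiv.swap 3 4 * Equiv.swap 2 6 * Equiv.swap 5 7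
theorem X8_sq : X8 * X8 = 1 := by
  ext i
  fin_cases i <;> rfl
theorem Y8c_sq : Y8c * Y8c = 1 := by
  ext i
  fin_cases i <;> rfl
theorem Z8c_sq : Z8c * Z8c = 1 := by
  ext i
  fin_cases i <;> rfl
theorem Y8a_sq : Y8a * Y8a = 1 := by
  ext i
  fin_cases i <;> rfl
theorem Z8a_sq : Z8a * Z8a = 1 := by
  ext i
  fin_cases i <;> rfl
theorem X8_card_c : X8.support.card = Y8c.support.card := by decide
theorem X8_card_a : X8.support.card = Y8a.support.card := by decide
theorem X8Z8c_odd : Odd (orderOf (X8 * Z8c)) :=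
  Odd.of_dvd_nat (by decide : Odd 3) (orderOf_dvd_of_pow_eq_one (by
    ext i
    fin_cases i <;> rfl))
theorem Y8cZ8c_odd : Odd (orderOf (Y8c * Z8c)) :=
  Odd.of_dvd_nat (by decide : Odd 3) (orderOf_dvd_of_pow_eq_one (by
    ext i
    fin_cases i <;> rfl))
theorem X8Z8a_odd : Odd (orderOf (X8 * Z8a)) :=
  Odd.of_dvd_nat (by decide : Odd 3) (orderOf_dvd_of_pow_eq_one (by
    ext i
    fin_cases i <;> rfl))
theorem Y8aZ8a_odd : Odd (orderOf (Y8a * Z8a)) :=
  Odd.of_dvd_nat (by decide : Odd 3) (orderOf_dvd_of_pow_eq_one (by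
    ext i
    fin_cases i <;> rfl))

theorem stepK3 (S : Finset α) (IH : IHyp S) (x y : Equiv.Perm α)
    (hxx : x * x = 1) (hyy : y * y = 1) (hxS : x.support ⊆ S) (hyS : y.support ⊆ S)
    (hcard : x.support.card = y.support.card)
    (a b c : α) (hab : a ≠ b) (hac : a ≠ c) (hbc : b ≠ c)
    (hxa : x a = b) (hya : y a = a) (hyb : y b = c) : Sol S x y := by
  have hxb : x b = a := apply_of_invol x hxx hxa
  have hyc : y c = b := apply_of_invol y hyy hyb
  have haS : a ∈ S := hxS (Equiv.Perm.mem_support.2 (by rw [hxa]; exact hab.symm))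
  have hbS : b ∈ S := hxS (Equiv.Perm.mem_support.2 (by rw [hxb]; exact hab))
  have hcS : c ∈ S := hyS (Equiv.Perm.mem_support.2 (by rw [hyc]; exact hbc))
  have hinj1 : Function.Injective ![a, b] := by
    apply inj_of_lt
    intro i j hij
    fin_cases i <;> fin_cases j <;>
      first
      | exact absurd hij (by decide)
      | assumption
      | exact Ne.symm (by assumption)
  have hinj2 : Function.Injective ![b, c] := by
    apply inj_of_lt
    intro i j hij
    fin_cases i <;> fin_cases j <;>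
      first
      | exact absurd hij (by decide)
      | assumption
      | exact Ne.symm (by assumption)
  let ι1 : Fin 2 ↪ α := ⟨![a, b], hinj1⟩
  let ι2 : Fin 2 ↪ α := ⟨![b, c], hinj2⟩
  have hx1 : ∀ i, x (ι1 i) = ι1 (S2 i) := by
    intro i
    fin_cases i
    · exact hxa
    · exact hxb
  have hy2 : ∀ i, y (ι2 i) = ι2 (S2 i) := by
    intro i
    fin_cases i
    · exact hyb
    · exact hyc
  have hι1 : ∀ i, ι1 i ∈ S := by
    intro i
    fin_cases i
    · exact haS
    · exact hbS
  obtain ⟨x', hx'⟩ : ∃ x', x' = x * E ι1 S2 := ⟨_, rfl⟩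
  obtain ⟨y', hy'⟩ : ∃ y', y' = y * E ι2 S2 := ⟨_, rfl⟩
  have hxx' : x' * x' = 1 := by
    rw [hx']
    exact modE_invol ι1 x S2 S2 hx1 hxx (by rw [S2_sq, one_mul])
  have hyy' : y' * y' = 1 := by
    rw [hy']
    exact modE_invol ι2 y S2 S2 hy2 hyy (by rw [S2_sq, one_mul])
  have hxS' : x'.support ⊆ S \ Finset.univ.map ι1 := by
    rw [hx']
    exact strip_support ι1 x S2 S2 hx1 S2_sq S hxS
  have hy'a : y' a = a := by
    rw [hy', modE_not ι2 y S2 a (by
      intro i
      fin_cases i
      · exact hab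
      · exact hac), hya]
  have hy'b : y' b = b := by
    have h := modE_fix ι2 y S2 S2 hy2 0
    rw [S2_sq] at h
    rw [hy']
    exact h
  have hy'c : y' c = c := by
    have h := modE_fix ι2 y S2 S2 hy2 1
    rw [S2_sq] at h
    rw [hy']
    exact h
  have hyS' : y'.support ⊆ S \ Finset.univ.map ι1 := by
    intro q hq
    have hq2 : q ∈ S \ Finset.univ.map ι2 := by
      have h := strip_support ι2 y S2 S2 hy2 S2_sq S hyS
      rw [← hy'] at h
      exact h hq
    rw [Finset.mem_sdiff] at hq2 ⊢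
    refine ⟨hq2.1, ?_⟩
    simp only [Finset.mem_map, Finset.mem_univ, true_and, not_exists]
    intro i hi
    rw [Equiv.Perm.mem_support] at hq
    apply hq
    rw [← hi]
    fin_cases i
    · exact hy'a
    · exact hy'b
  have hcard' : x'.support.card = y'.support.card := by
    have h1 := modE_support_card ι1 x S2 S2 hx1
    have h2 := modE_support_card ι2 y S2 S2 hy2
    rw [S2_sq, ← hx'] at h1
    rw [S2_sq, ← hy'] at h2
    simp only [Equiv.Perm.support_one, Finset.card_empty] at h1 h2
    omega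
  have hnE : ¬ Exc (S \ Finset.univ.map ι1) x' y' := by
    rintro ⟨-, -, hsy, -⟩
    have hcm : c ∈ S \ Finset.univ.map ι1 := by
      rw [Finset.mem_sdiff]
      refine ⟨hcS, ?_⟩
      simp only [Finset.mem_map, Finset.mem_univ, true_and, not_exists]
      intro i hi
      fin_cases i
      · exact hac hi
      · exact hbc hi
    rw [← hsy, Equiv.Perm.mem_support] at hcm
    exact hcm hy'c
  have hlt : (S \ Finset.univ.map ι1).card < S.card := by
    have := card_rest ι1 S hι1
    omega
  obtain ⟨z', hz', hzS, ho1, ho2⟩ := IH _ hlt x' y' hxx' hyy' hxS' hyS' hcard' hnE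
  have hzfix : ∀ i, z' (ι1 i) = ι1 i := fun i => fix_of_support hzS (by simp)
  have hz'a : z' a = a := hzfix 0
  have hz'b : z' b = b := hzfix 1
  refine ⟨z' * E ι1 S2, ?_, ?_, ?_, ?_⟩
  · exact modE_invol ι1 z' 1 S2 (fun i => by rw [hzfix]; rfl) hz' S2_one_sq
  · exact modE_support_subset ι1 z' S2 S (hzS.trans Finset.sdiff_subset) hι1
  · have hc := comm_E ι1 z' S2 hzfix
    have e : x * (z' * E ι1 S2) = x' * z' := by
      rw [hx', hc]
      group
    rw [e]
    exact ho1
  · have hzinv : z'⁻¹ = z' := inv_of_invol z' hz'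
    have hE1 : E ι1 S2 = Equiv.swap a b := E_swap' ι1 0 1 a b rfl rfl
    have hE2 : E ι2 S2 = Equiv.swap b c := E_swap' ι2 0 1 b c rfl rfl
    have hss : Equiv.swap b c * Equiv.swap b c = 1 := Equiv.swap_mul_self b c
    have h1 : Equiv.swap b c * z' = z' * Equiv.swap b (z' c) := by
      rw [Equiv.swap_mul_eq_mul_swap, hzinv, hz'b]
    have e : y * (z' * E ι1 S2) = (y' * z') * sig (z' c) b a := by
      rw [hy', hE1, hE2, sig]
      calc y * (z' * Equiv.swap a b)
          = y * (Equiv.swap b c * Equiv.swap b c) * z' * Equiv.swap a b := by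
            rw [hss]
            group
        _ = y * Equiv.swap b c * (Equiv.swap b c * z') * Equiv.swap a b := by group
        _ = y * Equiv.swap b c * (z' * Equiv.swap b (z' c)) * Equiv.swap a b := by rw [h1]
        _ = y * Equiv.swap b c * z' * (Equiv.swap b (z' c) * Equiv.swap a b) := by group
    rw [e]
    apply splice
    · rw [Equiv.Perm.mul_apply, hz'b, hy'b]
    · rw [Equiv.Perm.mul_apply, hz'a, hy'a]
    · exact hab.symm
    · intro h
      apply hbc
      have h2 := apply_of_invol z' hz' h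
      rw [hz'b] at h2
      exact h2
    · intro h
      apply hac
      have h2 := apply_of_invol z' hz' h
      rw [hz'a] at h2
      exact h2
    · exact ho2

theorem XK_move : ∀ i : Fin 6, XK i ≠ i := by decide

theorem step4 (S : Finset α) (IH : IHyp S) (x y : Equiv.Perm α)
    (hxx : x * x = 1) (hyy : y * y = 1) (hxS : x.support ⊆ S) (hyS : y.support ⊆ S)
    (hcard : x.support.card = y.support.card) (hnE : ¬ Exc S x y)
    (a b c d : α) (hab : a ≠ b) (hac : a ≠ c) (had : a ≠ d) (hbc : b ≠ c) (hbd : b ≠ d)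
    (hcd : c ≠ d) (hxa : x a = b) (hyb : y b = c) (hxc : x c = d) (hyd : y d = a) :
    Sol S x y := by
  have hxb : x b = a := apply_of_invol x hxx hxa
  have hxd : x d = c := apply_of_invol x hxx hxc
  have hyc : y c = b := apply_of_invol y hyy hyb
  have hya : y a = d := apply_of_invol y hyy hyd
  have haS : a ∈ S := hxS (Equiv.Perm.mem_support.2 (by rw [hxa]; exact hab.symm))
  have hbS : b ∈ S := hxS (Equiv.Perm.mem_support.2 (by rw [hxb]; exact hab))
  have hcS : c ∈ S := hxS (Equiv.Perm.mem_support.2 (by rw [hxc]; exact hcd.symm))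
  have hdS : d ∈ S := hxS (Equiv.Perm.mem_support.2 (by rw [hxd]; exact hcd))
  have hinj : Function.Injective ![a, b, c, d] := by
    apply inj_of_lt
    intro i j hij
    fin_cases i <;> fin_cases j <;>
      first
      | exact absurd hij (by decide)
      | assumption
      | exact Ne.symm (by assumption)
  let ι : Fin 4 ↪ α := ⟨![a, b, c, d], hinj⟩
  have hx : ∀ i, x (ι i) = ι (X4 i) := by
    intro i
    fin_cases i
    · exact hxa
    · exact hxb
    · exact hxc
    · exact hxd
  have hy : ∀ i, y (ι i) = ι (Y4 i) := by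
    intro i
    fin_cases i
    · exact hya
    · exact hyb
    · exact hyc
    · exact hyd
  have hι : ∀ i, ι i ∈ S := by
    intro i
    fin_cases i
    · exact haS
    · exact hbS
    · exact hcS
    · exact hdS
  obtain ⟨x', hx'⟩ : ∃ x', x' = x * E ι X4 := ⟨_, rfl⟩
  obtain ⟨y', hy'⟩ : ∃ y', y' = y * E ι Y4 := ⟨_, rfl⟩
  have hxx' : x' * x' = 1 := by
    rw [hx']
    exact modE_invol ι x X4 X4 hx hxx (by rw [X4_sq, one_mul])
  have hyy' : y' * y' = 1 := by
    rw [hy']
    exact modE_invol ι y Y4 Y4 hy hyy (by rw [Y4_sq, one_mul])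
  have hxS' : x'.support ⊆ S \ Finset.univ.map ι := by
    rw [hx']
    exact strip_support ι x X4 X4 hx X4_sq S hxS
  have hyS' : y'.support ⊆ S \ Finset.univ.map ι := by
    rw [hy']
    exact strip_support ι y Y4 Y4 hy Y4_sq S hyS
  have hcard' : x'.support.card = y'.support.card := by
    have h1 := modE_support_card ι x X4 X4 hx
    have h2 := modE_support_card ι y Y4 Y4 hy
    rw [X4_sq, ← hx'] at h1
    rw [Y4_sq, ← hy'] at h2
    simp only [Equiv.Perm.support_one, Finset.card_empty] at h1 h2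
    have h3 := X4_card
    have h4 := Y4_card
    omega
  have hcr := card_rest ι S hι
  have hlt : (S \ Finset.univ.map ι).card < S.card := by omega
  have ex' : ∀ q, q ∈ S \ Finset.univ.map ι → x' q = x q := by
    intro q hq
    rw [hx']
    exact modE_not ι x X4 q (not_range ι S q hq)
  have ey' : ∀ q, q ∈ S \ Finset.univ.map ι → y' q = y q := by
    intro q hq
    rw [hy']
    exact modE_not ι y Y4 q (not_range ι S q hq)
  by_cases hE : Exc (S \ Finset.univ.map ι) x' y'
  · -- two alternating 4-cycles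
    have hne : (S \ Finset.univ.map ι).Nonempty := by
      rw [← Finset.card_pos, hE.1]
      norm_num
    obtain ⟨a', ha'⟩ := hne
    obtain ⟨b', hb'⟩ : ∃ b', b' = x' a' := ⟨_, rfl⟩
    obtain ⟨c', hc'⟩ : ∃ c', c' = y' b' := ⟨_, rfl⟩
    obtain ⟨d', hd'⟩ : ∃ d', d' = x' c' := ⟨_, rfl⟩
    obtain ⟨n1, n2, n3, n4, n5, n6, h7, hb'R, hc'R, hd'R⟩ :=
      exc_cycle _ x' y' hxx' hyy' hE a' b' c' d' ha' hb'.symm hc'.symm hd'.symm
    have hxa' : x a' = b' := by
      rw [← ex' a' ha']
      exact hb'.symm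
    have hyb' : y b' = c' := by
      rw [← ey' b' hb'R]
      exact hc'.symm
    have hxc' : x c' = d' := by
      rw [← ex' c' hc'R]
      exact hd'.symm
    have hyd' : y d' = a' := by
      rw [← ey' d' hd'R]
      exact h7
    have hxb' : x b' = a' := apply_of_invol x hxx hxa'
    have hxd' : x d' = c' := apply_of_invol x hxx hxc'
    have hyc' : y c' = b' := apply_of_invol y hyy hyb'
    have hya' : y a' = d' := apply_of_invol y hyy hyd'
    have ma := not_range ι S a' ha'
    have mb := not_range ι S b' hb'R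
    have mc := not_range ι S c' hc'R
    have md := not_range ι S d' hd'R
    have e1 : a' ≠ a := ma 0
    have e2 : a' ≠ b := ma 1
    have e3 : a' ≠ c := ma 2
    have e4 : a' ≠ d := ma 3
    have e5 : b' ≠ a := mb 0
    have e6 : b' ≠ b := mb 1
    have e7 : b' ≠ c := mb 2
    have e8 : b' ≠ d := mb 3
    have e9 : c' ≠ a := mc 0
    have e10 : c' ≠ b := mc 1
    have e11 : c' ≠ c := mc 2
    have e12 : c' ≠ d := mc 3
    have e13 : d' ≠ a := md 0
    have e14 : d' ≠ b := md 1
    have e15 : d' ≠ c := md 2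
    have e16 : d' ≠ d := md 3
    have hinj8 : Function.Injective ![a, b, c, d, a', b', c', d'] := by
      apply inj_of_lt
      intro i j hij
      fin_cases i <;> fin_cases j <;>
        first
        | exact absurd hij (by decide)
        | assumption
        | exact Ne.symm (by assumption)
    let ι8 : Fin 8 ↪ α := ⟨![a, b, c, d, a', b', c', d'], hinj8⟩
    have hx8 : ∀ i, x (ι8 i) = ι8 (X8 i) := by
      intro i
      fin_cases i
      · exact hxa
      · exact hxb
      · exact hxc
      · exact hxd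
      · exact hxa'
      · exact hxb'
      · exact hxc'
      · exact hxd'
    have hy8 : ∀ i, y (ι8 i) = ι8 (Y8c i) := by
      intro i
      fin_cases i
      · exact hya
      · exact hyb
      · exact hyc
      · exact hyd
      · exact hya'
      · exact hyb'
      · exact hyc'
      · exact hyd'
    have hι8 : ∀ i, ι8 i ∈ S := by
      intro i
      fin_cases i
      · exact haS
      · exact hbS
      · exact hcS
      · exact hdS
      · exact (Finset.mem_sdiff.1 ha').1
      · exact (Finset.mem_sdiff.1 hb'R).1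
      · exact (Finset.mem_sdiff.1 hc'R).1
      · exact (Finset.mem_sdiff.1 hd'R).1
    apply rem' ι8 S IH x y hxx hyy hxS hyS hcard X8 Y8c Z8c (by norm_num) X8_sq Y8c_sq Z8c_sq
      X8_card_c hx8 hy8 X8Z8c_odd Y8cZ8c_odd hι8
    intro hE8
    have h1 := hE8.1
    have h2 := card_rest ι8 S hι8
    have h3 := hE.1
    omega
  · obtain ⟨zR, hzR, hzS, ho1, ho2⟩ := IH _ hlt x' y' hxx' hyy' hxS' hyS' hcard' hE
    have hzfix : ∀ i, zR (ι i) = ι i := fun i => fix_of_support hzS (by simp)
    have hx'fix : ∀ i, x' (ι i) = ι i := by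
      intro i
      have h := modE_fix ι x X4 X4 hx i
      rw [X4_sq] at h
      rw [hx']
      exact h
    have hy'fix : ∀ i, y' (ι i) = ι i := by
      intro i
      have h := modE_fix ι y Y4 Y4 hy i
      rw [Y4_sq] at h
      rw [hy']
      exact h
    have hfx : ∀ i, (x' * zR) (ι i) = ι i := by
      intro i
      rw [Equiv.Perm.mul_apply, hzfix, hx'fix]
    have hfy : ∀ i, (y' * zR) (ι i) = ι i := by
      intro i
      rw [Equiv.Perm.mul_apply, hzfix, hy'fix]
    have hxe : x = x' * E ι X4 := by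
      rw [hx', mul_assoc, E_invol ι X4 X4_sq, mul_one]
    have hye : y = y' * E ι Y4 := by
      rw [hy', mul_assoc, E_invol ι Y4 Y4_sq, mul_one]
    have hX4 : E ι X4 = Equiv.swap a b * Equiv.swap c d := by
      show E ι (Equiv.swap 0 1 * Equiv.swap 2 3) = _
      rw [map_mul, E_swap' ι 0 1 a b rfl rfl, E_swap' ι 2 3 c d rfl rfl]
    have hY4 : E ι Y4 = Equiv.swap b c * Equiv.swap d a := by
      show E ι (Equiv.swap 1 2 * Equiv.swap 3 0) = _
      rw [map_mul, E_swap' ι 1 2 b c rfl rfl, E_swap' ι 3 0 d a rfl rfl]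
    have hcx := comm_E ι zR X4 hzfix
    have hcy := comm_E ι zR Y4 hzfix
    have hR : (S \ Finset.univ.map ι).Nonempty := by
      by_contra hemp
      rw [Finset.not_nonempty_iff_eq_empty] at hemp
      apply hnE
      have hSsub : S ⊆ Finset.univ.map ι := Finset.sdiff_eq_empty_iff_subset.1 hemp
      have hSeq : S = Finset.univ.map ι :=
        Finset.Subset.antisymm hSsub (range_subset ι S hι)
      refine ⟨?_, ?_, ?_, ?_⟩
      · rw [hSeq, Finset.card_map, Finset.card_univ, Fintype.card_fin]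
      · apply Finset.Subset.antisymm hxS
        intro q hq
        have hq2 := hSsub hq
        simp only [Finset.mem_map, Finset.mem_univ, true_and] at hq2
        obtain ⟨i, rfl⟩ := hq2
        rw [Equiv.Perm.mem_support, hx]
        intro h
        exact X4_move i (ι.injective h)
      · apply Finset.Subset.antisymm hyS
        intro q hq
        have hq2 := hSsub hq
        simp only [Finset.mem_map, Finset.mem_univ, true_and] at hq2
        obtain ⟨i, rfl⟩ := hq2
        rw [Equiv.Perm.mem_support, hy]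
        intro h
        exact Y4_move i (ι.injective h)
      · intro hxy
        apply hbd
        rw [← hxa, hxy, hya]
    obtain ⟨r, hr⟩ := hR
    have hrι := not_range ι S r hr
    have hra : r ≠ a := hrι 0
    have hrb : r ≠ b := hrι 1
    have hrc : r ≠ c := hrι 2
    have hrd : r ≠ d := hrι 3
    have hrS : r ∈ S := (Finset.mem_sdiff.1 hr).1
    by_cases hzr : zR r = r
    · have hinj5 : Function.Injective ![a, b, c, d, r] := by
        apply inj_of_lt
        intro i j hij
        fin_cases i <;> fin_cases j <;>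
          first
          | exact absurd hij (by decide)
          | assumption
          | exact Ne.symm (by assumption)
      let ι5 : Fin 5 ↪ α := ⟨![a, b, c, d, r], hinj5⟩
      have hz5 : ∀ i, zR (ι5 i) = ι5 i := by
        intro i
        fin_cases i
        · exact hzfix 0
        · exact hzfix 1
        · exact hzfix 2
        · exact hzfix 3
        · exact hzr
      have hι5 : ∀ i, ι5 i ∈ S := by
        intro i
        fin_cases i
        · exact haS
        · exact hbS
        · exact hcS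
        · exact hdS
        · exact hrS
      have hne5 : ∀ i j : Fin 5, i ≠ j → ι5 i ≠ ι5 j := fun i j h h2 => h (ι5.injective h2)
      have hgx : ∀ i : Fin 5, i ≠ 4 → (x' * zR) (ι5 i) = ι5 i := by
        intro i hi
        fin_cases i
        · exact hfx 0
        · exact hfx 1
        · exact hfx 2
        · exact hfx 3
        · exact absurd rfl hi
      have hgy : ∀ i : Fin 5, i ≠ 4 → (y' * zR) (ι5 i) = ι5 i := by
        intro i hi
        fin_cases i
        · exact hfy 0
        · exact hfy 1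
        · exact hfy 2
        · exact hfy 3
        · exact absurd rfl hi
      have hX5 : E ι5 X5 = Equiv.swap a b * Equiv.swap c d := by
        show E ι5 (Equiv.swap 0 1 * Equiv.swap 2 3) = _
        rw [map_mul, E_swap' ι5 0 1 a b rfl rfl, E_swap' ι5 2 3 c d rfl rfl]
      have hY5 : E ι5 Y5 = Equiv.swap b c * Equiv.swap d a := by
        show E ι5 (Equiv.swap 1 2 * Equiv.swap 3 0) = _
        rw [map_mul, E_swap' ι5 1 2 b c rfl rfl, E_swap' ι5 3 0 d a rfl rfl]
      have hEx : E ι5 X5 = E ι X4 := hX5.trans hX4.symm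
      have hEy : E ι5 Y5 = E ι Y4 := hY5.trans hY4.symm
      refine ⟨zR * E ι5 Z5, ?_, ?_, ?_, ?_⟩
      · exact modE_invol ι5 zR 1 Z5 (fun i => by rw [hz5]; rfl) hzR Z5_sq
      · exact modE_support_subset ι5 zR Z5 S (hzS.trans Finset.sdiff_subset) hι5
      · have e : x * (zR * E ι5 Z5)
            = (x' * zR) * sig (ι5 4) (ι5 1) (ι5 3) * sig (ι5 3) (ι5 2) (ι5 0) := by
          rw [mul_assoc (x' * zR), ← E_sig, ← E_sig, ← map_mul (E ι5), ← X5Z5,
            map_mul (E ι5), hEx, hxe]
          calc x' * E ι X4 * (zR * E ι5 Z5) = x' * (E ι X4 * zR) * E ι5 Z5 := by group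
            _ = x' * (zR * E ι X4) * E ι5 Z5 := by rw [hcx]
            _ = x' * zR * (E ι X4 * E ι5 Z5) := by group
        rw [e]
        apply splice
        · rw [Equiv.Perm.mul_apply, sig_other _ _ _ _ (hne5 2 4 (by decide))
            (hne5 2 1 (by decide)) (hne5 2 3 (by decide))]
          exact hgx 2 (by decide)
        · rw [Equiv.Perm.mul_apply, sig_other _ _ _ _ (hne5 0 4 (by decide))
            (hne5 0 1 (by decide)) (hne5 0 3 (by decide))]
          exact hgx 0 (by decide)
        · exact hne5 2 0 (by decide)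
        · exact hne5 3 2 (by decide)
        · exact hne5 3 0 (by decide)
        · apply splice
          · exact hgx 1 (by decide)
          · exact hgx 3 (by decide)
          · exact hne5 1 3 (by decide)
          · exact hne5 4 1 (by decide)
          · exact hne5 4 3 (by decide)
          · exact ho1
      · have e : y * (zR * E ι5 Z5) = (y' * zR) * sig (ι5 4) (ι5 3) (ι5 0) := by
          rw [← E_sig, ← Y5Z5, map_mul (E ι5), hEy, hye]
          calc y' * E ι Y4 * (zR * E ι5 Z5) = y' * (E ι Y4 * zR) * E ι5 Z5 := by group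
            _ = y' * (zR * E ι Y4) * E ι5 Z5 := by rw [hcy]
            _ = y' * zR * (E ι Y4 * E ι5 Z5) := by group
        rw [e]
        apply splice
        · exact hgy 3 (by decide)
        · exact hgy 0 (by decide)
        · exact hne5 3 0 (by decide)
        · exact hne5 4 3 (by decide)
        · exact hne5 4 0 (by decide)
        · exact ho2
    · obtain ⟨r', hr'⟩ : ∃ r', r' = zR r := ⟨_, rfl⟩
      have hzr1 : zR r = r' := hr'.symm
      have hzr2 : zR r' = r := apply_of_invol zR hzR hzr1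
      have hrr' : r ≠ r' := fun h => hzr (hzr1.trans h.symm)
      have hr'R : r' ∈ S \ Finset.univ.map ι :=
        hzS (Equiv.Perm.mem_support.2 (by rw [hzr2]; exact hrr'))
      have hr'ι := not_range ι S r' hr'R
      have hr'a : r' ≠ a := hr'ι 0
      have hr'b : r' ≠ b := hr'ι 1
      have hr'c : r' ≠ c := hr'ι 2
      have hr'd : r' ≠ d := hr'ι 3
      have hr'S : r' ∈ S := (Finset.mem_sdiff.1 hr'R).1
      have hinj6 : Function.Injective ![a, b, c, d, r, r'] := by
        apply inj_of_lt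
        intro i j hij
        fin_cases i <;> fin_cases j <;>
          first
          | exact absurd hij (by decide)
          | assumption
          | exact Ne.symm (by assumption)
      let ι6 : Fin 6 ↪ α := ⟨![a, b, c, d, r, r'], hinj6⟩
      have hz6 : ∀ i, zR (ι6 i) = ι6 (W6 i) := by
        intro i
        fin_cases i
        · exact hzfix 0
        · exact hzfix 1
        · exact hzfix 2
        · exact hzfix 3
        · exact hzr1
        · exact hzr2
      have hι6 : ∀ i, ι6 i ∈ S := by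
        intro i
        fin_cases i
        · exact haS
        · exact hbS
        · exact hcS
        · exact hdS
        · exact hrS
        · exact hr'S
      have hne6 : ∀ i j : Fin 6, i ≠ j → ι6 i ≠ ι6 j := fun i j h h2 => h (ι6.injective h2)
      have hgx : ∀ i : Fin 6, i ≠ 4 → i ≠ 5 → (x' * zR) (ι6 i) = ι6 i := by
        intro i h4 h5
        fin_cases i
        · exact hfx 0
        · exact hfx 1
        · exact hfx 2
        · exact hfx 3
        · exact absurd rfl h4
        · exact absurd rfl h5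
      have hgy : ∀ i : Fin 6, i ≠ 4 → i ≠ 5 → (y' * zR) (ι6 i) = ι6 i := by
        intro i h4 h5
        fin_cases i
        · exact hfy 0
        · exact hfy 1
        · exact hfy 2
        · exact hfy 3
        · exact absurd rfl h4
        · exact absurd rfl h5
      have hX6 : E ι6 X6 = Equiv.swap a b * Equiv.swap c d := by
        show E ι6 (Equiv.swap 0 1 * Equiv.swap 2 3) = _
        rw [map_mul, E_swap' ι6 0 1 a b rfl rfl, E_swap' ι6 2 3 c d rfl rfl]
      have hY6 : E ι6 Y6 = Equiv.swap b c * Equiv.swap d a := by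
        show E ι6 (Equiv.swap 1 2 * Equiv.swap 3 0) = _
        rw [map_mul, E_swap' ι6 1 2 b c rfl rfl, E_swap' ι6 3 0 d a rfl rfl]
      have hEx : E ι6 X6 = E ι X4 := hX6.trans hX4.symm
      have hEy : E ι6 Y6 = E ι Y4 := hY6.trans hY4.symm
      refine ⟨zR * E ι6 Z6, ?_, ?_, ?_, ?_⟩
      · exact modE_invol ι6 zR W6 Z6 hz6 hzR W6Z6_sq
      · exact modE_support_subset ι6 zR Z6 S (hzS.trans Finset.sdiff_subset) hι6
      · have e : x * (zR * E ι6 Z6)
            = (x' * zR) * sig (ι6 4) (ι6 1) (ι6 2) * sig (ι6 5) (ι6 3) (ι6 0) := by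
          rw [mul_assoc (x' * zR), ← E_sig, ← E_sig, ← map_mul (E ι6), ← X6Z6,
            map_mul (E ι6), hEx, hxe]
          calc x' * E ι X4 * (zR * E ι6 Z6) = x' * (E ι X4 * zR) * E ι6 Z6 := by group
            _ = x' * (zR * E ι X4) * E ι6 Z6 := by rw [hcx]
            _ = x' * zR * (E ι X4 * E ι6 Z6) := by group
        rw [e]
        apply splice
        · rw [Equiv.Perm.mul_apply, sig_other _ _ _ _ (hne6 3 4 (by decide))
            (hne6 3 1 (by decide)) (hne6 3 2 (by decide))]
          exact hgx 3 (by decide) (by decide)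
        · rw [Equiv.Perm.mul_apply, sig_other _ _ _ _ (hne6 0 4 (by decide))
            (hne6 0 1 (by decide)) (hne6 0 2 (by decide))]
          exact hgx 0 (by decide) (by decide)
        · exact hne6 3 0 (by decide)
        · exact hne6 5 3 (by decide)
        · exact hne6 5 0 (by decide)
        · apply splice
          · exact hgx 1 (by decide) (by decide)
          · exact hgx 2 (by decide) (by decide)
          · exact hne6 1 2 (by decide)
          · exact hne6 4 1 (by decide)
          · exact hne6 4 2 (by decide)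
          · exact ho1
      · have e : y * (zR * E ι6 Z6)
            = (y' * zR) * sig (ι6 4) (ι6 3) (ι6 2) * sig (ι6 5) (ι6 1) (ι6 0) := by
          rw [mul_assoc (y' * zR), ← E_sig, ← E_sig, ← map_mul (E ι6), ← Y6Z6,
            map_mul (E ι6), hEy, hye]
          calc y' * E ι Y4 * (zR * E ι6 Z6) = y' * (E ι Y4 * zR) * E ι6 Z6 := by group
            _ = y' * (zR * E ι Y4) * E ι6 Z6 := by rw [hcy]
            _ = y' * zR * (E ι Y4 * E ι6 Z6) := by group
        rw [e]
        apply splice
        · rw [Equiv.Perm.mul_apply, sig_other _ _ _ _ (hne6 1 4 (by decide))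
            (hne6 1 3 (by decide)) (hne6 1 2 (by decide))]
          exact hgy 1 (by decide) (by decide)
        · rw [Equiv.Perm.mul_apply, sig_other _ _ _ _ (hne6 0 4 (by decide))
            (hne6 0 3 (by decide)) (hne6 0 2 (by decide))]
          exact hgy 0 (by decide) (by decide)
        · exact hne6 1 0 (by decide)
        · exact hne6 5 1 (by decide)
        · exact hne6 5 0 (by decide)
        · apply splice
          · exact hgy 3 (by decide) (by decide)
          · exact hgy 2 (by decide) (by decide)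
          · exact hne6 3 2 (by decide)
          · exact hne6 4 3 (by decide)
          · exact hne6 4 2 (by decide)
          · exact ho2

theorem stepK5 (S : Finset α) (IH : IHyp S) (x y : Equiv.Perm α)
    (hxx : x * x = 1) (hyy : y * y = 1) (hxS : x.support ⊆ S) (hyS : y.support ⊆ S)
    (hcard : x.support.card = y.support.card)
    (p : Fin 6 ↪ α) (h01 : x (p 0) = p 1) (h12 : y (p 1) = p 2) (h23 : x (p 2) = p 3)
    (h34 : y (p 3) = p 4) (h45 : x (p 4) = p 5) : Sol S x y := by
  have h10 : x (p 1) = p 0 := apply_of_invol x hxx h01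
  have h32 : x (p 3) = p 2 := apply_of_invol x hxx h23
  have h54 : x (p 5) = p 4 := apply_of_invol x hxx h45
  have h21 : y (p 2) = p 1 := apply_of_invol y hyy h12
  have h43 : y (p 4) = p 3 := apply_of_invol y hyy h34
  have hne : ∀ i j : Fin 6, i ≠ j → p i ≠ p j := fun i j h h2 => h (p.injective h2)
  have hx6 : ∀ i, x (p i) = p (XK i) := by
    intro i
    fin_cases i
    · exact h01
    · exact h10
    · exact h23
    · exact h32
    · exact h45
    · exact h54
  have hpS : ∀ i, p i ∈ S := by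
    intro i
    apply hxS
    rw [Equiv.Perm.mem_support, hx6]
    intro h
    exact XK_move i (p.injective h)
  have hinj4 : Function.Injective (fun i : Fin 4 => p ((![1, 2, 3, 4] : Fin 4 → Fin 6) i)) :=
    p.injective.comp (by decide)
  let ι4 : Fin 4 ↪ α := ⟨fun i => p ((![1, 2, 3, 4] : Fin 4 → Fin 6) i), hinj4⟩
  have hy4 : ∀ i, y (ι4 i) = ι4 (X4 i) := by
    intro i
    fin_cases i
    · exact h12
    · exact h21
    · exact h34
    · exact h43
  have hι4 : ∀ i, ι4 i ∈ S := by
    intro i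
    fin_cases i
    · exact hpS 1
    · exact hpS 2
    · exact hpS 3
    · exact hpS 4
  obtain ⟨x', hx'⟩ : ∃ x', x' = x * E p TK := ⟨_, rfl⟩
  obtain ⟨y', hy'⟩ : ∃ y', y' = y * E ι4 X4 := ⟨_, rfl⟩
  have hxx' : x' * x' = 1 := by
    rw [hx']
    exact modE_invol p x XK TK hx6 hxx XKTK_sq
  have hyy' : y' * y' = 1 := by
    rw [hy']
    exact modE_invol ι4 y X4 X4 hy4 hyy (by rw [X4_sq, one_mul])
  have hx'p : ∀ i, x' (p i) = p ((XK * TK) i) := by
    intro i
    rw [hx']
    exact modE_fix p x XK TK hx6 i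
  have hx'0 : x' (p 0) = p 5 := hx'p 0
  have hx'1 : x' (p 1) = p 1 := hx'p 1
  have hx'2 : x' (p 2) = p 2 := hx'p 2
  have hx'3 : x' (p 3) = p 3 := hx'p 3
  have hx'4 : x' (p 4) = p 4 := hx'p 4
  have hx'5 : x' (p 5) = p 0 := hx'p 5
  have hxS' : x'.support ⊆ S \ Finset.univ.map ι4 := by
    intro q hq
    have hqS : q ∈ S := by
      have h := modE_support_subset p x TK S hxS hpS
      rw [← hx'] at h
      exact h hq
    rw [Finset.mem_sdiff]
    refine ⟨hqS, ?_⟩
    simp only [Finset.mem_map, Finset.mem_univ, true_and, not_exists]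
    intro i hi
    rw [Equiv.Perm.mem_support] at hq
    apply hq
    rw [← hi]
    fin_cases i
    · exact hx'1
    · exact hx'2
    · exact hx'3
    · exact hx'4
  have hyS' : y'.support ⊆ S \ Finset.univ.map ι4 := by
    rw [hy']
    exact strip_support ι4 y X4 X4 hy4 X4_sq S hyS
  have hcard' : x'.support.card = y'.support.card := by
    have h1 := modE_support_card p x XK TK hx6
    have h2 := modE_support_card ι4 y X4 X4 hy4
    rw [← hx'] at h1
    rw [← hy'] at h2
    have h3 := XK_card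
    have h4 := XKTK_card
    have h5 := X4_card
    have h6 := X4X4_card
    omega
  have hcr := card_rest ι4 S hι4
  have hlt : (S \ Finset.univ.map ι4).card < S.card := by omega
  have ey' : ∀ q, q ∈ S \ Finset.univ.map ι4 → y' q = y q := by
    intro q hq
    rw [hy']
    exact modE_not ι4 y X4 q (not_range ι4 S q hq)
  by_cases hE : Exc (S \ Finset.univ.map ι4) x' y'
  · -- an alternating 8-cycle
    have hp0R : p 0 ∈ S \ Finset.univ.map ι4 :=
      hxS' (Equiv.Perm.mem_support.2 (by rw [hx'0]; exact hne 5 0 (by decide)))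
    obtain ⟨b, hb⟩ : ∃ b, b = y' (p 5) := ⟨_, rfl⟩
    obtain ⟨a, ha⟩ : ∃ a, a = x' b := ⟨_, rfl⟩
    obtain ⟨n1, n2, n3, n4, n5, n6, h7, hp5R, hbR, haR⟩ :=
      exc_cycle _ x' y' hxx' hyy' hE (p 0) (p 5) b a hp0R hx'0 hb.symm ha.symm
    have mb := not_range ι4 S b hbR
    have ma := not_range ι4 S a haR
    have hb1 : b ≠ p 1 := mb 0
    have hb2 : b ≠ p 2 := mb 1
    have hb3 : b ≠ p 3 := mb 2
    have hb4 : b ≠ p 4 := mb 3
    have ha1 : a ≠ p 1 := ma 0
    have ha2 : a ≠ p 2 := ma 1
    have ha3 : a ≠ p 3 := ma 2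
    have ha4 : a ≠ p 4 := ma 3
    have hy5 : y (p 5) = b := by
      rw [← ey' (p 5) hp5R]
      exact hb.symm
    have hxb : x b = a := by
      have hbp : ∀ i, b ≠ p i := by
        intro i
        fin_cases i
        · exact n2.symm
        · exact hb1
        · exact hb2
        · exact hb3
        · exact hb4
        · exact n4.symm
      have h := modE_not p x TK b hbp
      rw [← hx'] at h
      rw [← h]
      exact ha.symm
    have hya : y a = p 0 := by
      rw [← ey' a haR]
      exact h7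
    have hyb : y b = p 5 := apply_of_invol y hyy hy5
    have hxa : x a = b := apply_of_invol x hxx hxb
    have hy0 : y (p 0) = a := apply_of_invol y hyy hya
    have hinj8 : Function.Injective ![p 0, p 1, p 2, p 3, p 4, p 5, b, a] := by
      apply inj_of_lt
      intro i j hij
      fin_cases i <;> fin_cases j <;>
        first
        | exact absurd hij (by decide)
        | exact hne _ _ (by decide)
        | assumption
        | exact Ne.symm (by assumption)
    let ι8 : Fin 8 ↪ α := ⟨![p 0, p 1, p 2, p 3, p 4, p 5, b, a], hinj8⟩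
    have hx8 : ∀ i, x (ι8 i) = ι8 (X8 i) := by
      intro i
      fin_cases i
      · exact h01
      · exact h10
      · exact h23
      · exact h32
      · exact h45
      · exact h54
      · exact hxb
      · exact hxa
    have hy8 : ∀ i, y (ι8 i) = ι8 (Y8a i) := by
      intro i
      fin_cases i
      · exact hy0
      · exact h12
      · exact h21
      · exact h34
      · exact h43
      · exact hy5
      · exact hyb
      · exact hya
    have hι8 : ∀ i, ι8 i ∈ S := by
      intro i
      fin_cases i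
      · exact hpS 0
      · exact hpS 1
      · exact hpS 2
      · exact hpS 3
      · exact hpS 4
      · exact hpS 5
      · exact (Finset.mem_sdiff.1 hbR).1
      · exact (Finset.mem_sdiff.1 haR).1
    apply rem' ι8 S IH x y hxx hyy hxS hyS hcard X8 Y8a Z8a (by norm_num) X8_sq Y8a_sq Z8a_sq
      X8_card_a hx8 hy8 X8Z8a_odd Y8aZ8a_odd hι8
    intro hE8
    have h1 := hE8.1
    have h2 := card_rest ι8 S hι8
    have h3 := hE.1
    omega
  · obtain ⟨z', hz', hzS, ho1, ho2⟩ := IH _ hlt x' y' hxx' hyy' hxS' hyS' hcard' hE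
    have hzfix : ∀ i, z' (ι4 i) = ι4 i := fun i => fix_of_support hzS (by simp)
    have hz1 : z' (p 1) = p 1 := hzfix 0
    have hz2 : z' (p 2) = p 2 := hzfix 1
    have hz3 : z' (p 3) = p 3 := hzfix 2
    have hz4 : z' (p 4) = p 4 := hzfix 3
    have hzinv : z'⁻¹ = z' := inv_of_invol z' hz'
    obtain ⟨ι', hι'⟩ : ∃ ι' : Fin 6 ↪ α, ι' = p.trans z'.toEmbedding := ⟨_, rfl⟩
    have hι'app : ∀ i, ι' i = z' (p i) := by
      intro i
      rw [hι']
      rfl
    have hne' : ∀ i j : Fin 6, i ≠ j → ι' i ≠ ι' j := fun i j h h2 => h (ι'.injective h2)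
    have hconj : ∀ τ : Equiv.Perm (Fin 6), E p τ * z' = z' * E ι' τ := by
      intro τ
      have h := conjE p z' τ
      rw [hzinv, ← hι'] at h
      rw [← h]
      calc E p τ * z' = (z' * z') * E p τ * z' := by rw [hz', one_mul]
        _ = z' * (z' * E p τ * z') := by group
    have hM : E ι' MK = E ι4 X4 := by
      have h1 : E ι' MK = Equiv.swap (p 1) (p 2) * Equiv.swap (p 3) (p 4) := by
        show E ι' (Equiv.swap 1 2 * Equiv.swap 3 4) = _
        rw [map_mul, E_swap' ι' 1 2 (p 1) (p 2) ((hι'app 1).trans hz1) ((hι'app 2).trans hz2),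
          E_swap' ι' 3 4 (p 3) (p 4) ((hι'app 3).trans hz3) ((hι'app 4).trans hz4)]
      have h2 : E ι4 X4 = Equiv.swap (p 1) (p 2) * Equiv.swap (p 3) (p 4) := by
        show E ι4 (Equiv.swap 0 1 * Equiv.swap 2 3) = _
        rw [map_mul, E_swap' ι4 0 1 (p 1) (p 2) rfl rfl, E_swap' ι4 2 3 (p 3) (p 4) rfl rfl]
      exact h1.trans h2.symm
    have hxe : x = x' * E p TK⁻¹ := by
      rw [hx', mul_assoc, ← map_mul, mul_inv_cancel, map_one, mul_one]
    have hc4 := comm_E ι4 z' X4 hzfix
    have hg1 : (x' * z') (ι' 1) = ι' 1 := by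
      rw [Equiv.Perm.mul_apply, hι'app, hz1, hz1, hx'1]
    have hg2 : (x' * z') (ι' 2) = ι' 2 := by
      rw [Equiv.Perm.mul_apply, hι'app, hz2, hz2, hx'2]
    have hg3 : (x' * z') (ι' 3) = ι' 3 := by
      rw [Equiv.Perm.mul_apply, hι'app, hz3, hz3, hx'3]
    have hg4 : (x' * z') (ι' 4) = ι' 4 := by
      rw [Equiv.Perm.mul_apply, hι'app, hz4, hz4, hx'4]
    refine ⟨z' * E ι4 X4, ?_, ?_, ?_, ?_⟩
    · exact modE_invol ι4 z' 1 X4 (fun i => by rw [hzfix]; rfl) hz' X4_one_sq
    · exact modE_support_subset ι4 z' X4 S (hzS.trans Finset.sdiff_subset) hι4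
    · have e : x * (z' * E ι4 X4)
          = (x' * z') * sig (ι' 0) (ι' 1) (ι' 3) * sig (ι' 5) (ι' 4) (ι' 2) := by
        rw [mul_assoc (x' * z'), ← E_sig, ← E_sig, ← map_mul (E ι'), ← TKMK,
          map_mul (E ι'), hM, hxe]
        calc x' * E p TK⁻¹ * (z' * E ι4 X4) = x' * (E p TK⁻¹ * z') * E ι4 X4 := by group
          _ = x' * (z' * E ι' TK⁻¹) * E ι4 X4 := by rw [hconj]
          _ = x' * z' * (E ι' TK⁻¹ * E ι4 X4) := by group
      rw [e]
      apply splice
      · rw [Equiv.Perm.mul_apply, sig_other _ _ _ _ (hne' 4 0 (by decide))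
          (hne' 4 1 (by decide)) (hne' 4 3 (by decide))]
        exact hg4
      · rw [Equiv.Perm.mul_apply, sig_other _ _ _ _ (hne' 2 0 (by decide))
          (hne' 2 1 (by decide)) (hne' 2 3 (by decide))]
        exact hg2
      · exact hne' 4 2 (by decide)
      · exact hne' 5 4 (by decide)
      · exact hne' 5 2 (by decide)
      · apply splice
        · exact hg1
        · exact hg3
        · exact hne' 1 3 (by decide)
        · exact hne' 0 1 (by decide)
        · exact hne' 0 3 (by decide)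
        · exact ho1
    · have e : y * (z' * E ι4 X4) = y' * z' := by
        rw [hy', hc4]
        group
      rw [e]
      exact ho2

theorem bad4_symm (x y : Equiv.Perm α) (h : Bad4 y x) : Bad4 x y := by
  obtain ⟨a, b, c, d, hab, hac, had, hbc, hbd, hcd, h1, h2, h3, h4⟩ := h
  exact ⟨b, c, d, a, hbc, hbd, hab.symm, hcd, hac.symm, had.symm, h2, h3, h4, h1⟩

theorem step3 (S : Finset α) (IH : IHyp S) (x y : Equiv.Perm α)
    (hxx : x * x = 1) (hyy : y * y = 1) (hxS : x.support ⊆ S) (hyS : y.support ⊆ S)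
    (hcard : x.support.card = y.support.card) (hnb : ¬ Bad4 x y)
    (hnf : ∀ q ∈ S, ¬ (x q = q ∧ y q = q)) (p : α) (hpS : p ∈ S) (hyp : y p = p) :
    Sol S x y := by
  obtain ⟨b, hb⟩ : ∃ b, b = x p := ⟨_, rfl⟩
  have hxp : x p = b := hb.symm
  have hpb : p ≠ b := fun h => hnf p hpS ⟨hxp.trans h.symm, hyp⟩
  have hxb : x b = p := apply_of_invol x hxx hxp
  by_cases hyb : y b = b
  · have hex : ∃ c, y c ≠ c ∧ x c = c := by
      by_contra hcon
      push_neg at hcon
      have hsub : y.support ⊆ x.support := by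
        intro q hq
        rw [Equiv.Perm.mem_support] at hq ⊢
        exact hcon q hq
      have heq := Finset.eq_of_subset_of_card_le hsub hcard.le
      have hp1 : p ∈ x.support := Equiv.Perm.mem_support.2 (by rw [hxp]; exact hpb.symm)
      rw [← heq, Equiv.Perm.mem_support] at hp1
      exact hp1 hyp
    obtain ⟨c, hyc0, hxc⟩ := hex
    obtain ⟨d, hd⟩ : ∃ d, d = y c := ⟨_, rfl⟩
    have hyc : y c = d := hd.symm
    have hcd : c ≠ d := fun h => hyc0 (hyc.trans h.symm)
    have hyd : y d = c := apply_of_invol y hyy hyc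
    by_cases hxd : x d = d
    · have hpc : p ≠ c := by
        intro h
        apply hyc0
        rw [← h]
        exact hyp
      have hpd : p ≠ d := by
        intro h
        have h2 : y d = d := by
          rw [← h]
          exact hyp
        exact hcd (hyd.symm.trans h2)
      have hbc : b ≠ c := by
        intro h
        apply hyc0
        rw [← h]
        exact hyb
      have hbd : b ≠ d := by
        intro h
        have h2 : y d = d := by
          rw [← h]
          exact hyb
        exact hcd (hyd.symm.trans h2)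
      have hinj : Function.Injective ![p, b, c, d] := by
        apply inj_of_lt
        intro i j hij
        fin_cases i <;> fin_cases j <;>
          first
          | exact absurd hij (by decide)
          | assumption
          | exact Ne.symm (by assumption)
      let ι : Fin 4 ↪ α := ⟨![p, b, c, d], hinj⟩
      have hx : ∀ i, x (ι i) = ι (XP i) := by
        intro i
        fin_cases i
        · exact hxp
        · exact hxb
        · exact hxc
        · exact hxd
      have hy : ∀ i, y (ι i) = ι (YP i) := by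
        intro i
        fin_cases i
        · exact hyp
        · exact hyb
        · exact hyc
        · exact hyd
      have hbS : b ∈ S := hxS (Equiv.Perm.mem_support.2 (by rw [hxb]; exact hpb))
      have hcS : c ∈ S := hyS (Equiv.Perm.mem_support.2 hyc0)
      have hdS : d ∈ S := hyS (Equiv.Perm.mem_support.2 (by rw [hyd]; exact hcd))
      have hι : ∀ i, ι i ∈ S := by
        intro i
        fin_cases i
        · exact hpS
        · exact hbS
        · exact hcS
        · exact hdS
      exact rem ι S IH x y hxx hyy hxS hyS hcard XP YP ZP (by norm_num) XP_sq YP_sq ZP_sq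
        XP_card hx hy XPZP_odd YPZP_odd hι hnb
    · have h := stepK3 S IH y x hyy hxx hyS hxS hcard.symm c d (x d) hcd
        (fun h => hcd (x.injective (hxc.trans h))) (fun h => hxd h.symm) hyc hxc rfl
      exact h.symm
  · obtain ⟨c, hc⟩ : ∃ c, c = y b := ⟨_, rfl⟩
    have hyb' : y b = c := hc.symm
    have hbc : b ≠ c := fun h => hyb (hyb'.trans h.symm)
    have hpc : p ≠ c := fun h => hpb (y.injective (hyp.trans (h.trans hyb'.symm)))
    exact stepK3 S IH x y hxx hyy hxS hyS hcard p b c hpb hpc hbc hxp hyp hyb'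

theorem main_nb (S : Finset α) (IH : IHyp S) (x y : Equiv.Perm α)
    (hxx : x * x = 1) (hyy : y * y = 1) (hxS : x.support ⊆ S) (hyS : y.support ⊆ S)
    (hcard : x.support.card = y.support.card) (hnb : ¬ Bad4 x y) : Sol S x y := by
  by_cases hf : ∃ q ∈ S, x q = q ∧ y q = q
  · obtain ⟨q, hqS, hxq, hyq⟩ := hf
    let ι : Fin 1 ↪ α := ⟨![q], fun i j _ => Subsingleton.elim i j⟩
    apply rem ι S IH x y hxx hyy hxS hyS hcard 1 1 1 (by norm_num) (one_mul 1) (one_mul 1)
      (one_mul 1) rfl ?_ ?_ ?_ ?_ ?_ hnb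
    · intro i
      fin_cases i
      exact hxq
    · intro i
      fin_cases i
      exact hyq
    · rw [one_mul, orderOf_one]
      exact odd_one
    · rw [one_mul, orderOf_one]
      exact odd_one
    · intro i
      fin_cases i
      exact hqS
  by_cases he : ∃ q, x q ≠ q ∧ x q = y q
  · obtain ⟨q, hq1, hq2⟩ := he
    obtain ⟨r, hr⟩ : ∃ r, r = x q := ⟨_, rfl⟩
    have hxq : x q = r := hr.symm
    have hyq : y q = r := by
      rw [← hq2]
      exact hxq
    have hqr : q ≠ r := fun h => hq1 (hxq.trans h.symm)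
    have hxr : x r = q := apply_of_invol x hxx hxq
    have hyr : y r = q := apply_of_invol y hyy hyq
    have hinj : Function.Injective ![q, r] := by
      apply inj_of_lt
      intro i j hij
      fin_cases i <;> fin_cases j <;>
        first
        | exact absurd hij (by decide)
        | assumption
        | exact Ne.symm (by assumption)
    let ι : Fin 2 ↪ α := ⟨![q, r], hinj⟩
    apply rem ι S IH x y hxx hyy hxS hyS hcard S2 S2 S2 (by norm_num) S2_sq S2_sq S2_sq rfl
      ?_ ?_ ?_ ?_ ?_ hnb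
    · intro i
      fin_cases i
      · exact hxq
      · exact hxr
    · intro i
      fin_cases i
      · exact hyq
      · exact hyr
    · rw [S2_sq, orderOf_one]
      exact odd_one
    · rw [S2_sq, orderOf_one]
      exact odd_one
    · have hqS : q ∈ S := hxS (Equiv.Perm.mem_support.2 hq1)
      have hrS : r ∈ S := hxS (Equiv.Perm.mem_support.2 (by rw [hxr]; exact hqr))
      intro i
      fin_cases i
      · exact hqS
      · exact hrS
  have hnf : ∀ q ∈ S, ¬ (x q = q ∧ y q = q) := fun q hq h => hf ⟨q, hq, h⟩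
  by_cases hy0 : ∃ q ∈ S, y q = q
  · obtain ⟨q, hqS, hyq⟩ := hy0
    exact step3 S IH x y hxx hyy hxS hyS hcard hnb hnf q hqS hyq
  by_cases hx0 : ∃ q ∈ S, x q = q
  · obtain ⟨q, hqS, hxq⟩ := hx0
    exact (step3 S IH y x hyy hxx hyS hxS hcard.symm (fun h => hnb (bad4_symm x y h))
      (fun q hq h => hnf q hq ⟨h.2, h.1⟩) q hqS hxq).symm
  have hmx : ∀ q ∈ S, x q ≠ q := fun q hq h => hx0 ⟨q, hq, h⟩
  have hmy : ∀ q ∈ S, y q ≠ q := fun q hq h => hy0 ⟨q, hq, h⟩
  have hxm : ∀ q ∈ S, x q ∈ S := by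
    intro q hq
    apply hxS
    rw [Equiv.Perm.mem_support]
    intro h
    exact hmx q hq (x.injective h)
  have hym : ∀ q ∈ S, y q ∈ S := by
    intro q hq
    apply hyS
    rw [Equiv.Perm.mem_support]
    intro h
    exact hmy q hq (y.injective h)
  have hce : ∀ q ∈ S, x q ≠ y q := fun q hq h => he ⟨q, hmx q hq, h⟩
  by_cases hS : S = ∅
  · have hx1 : x = 1 := by
      rw [← Equiv.Perm.support_eq_empty_iff]
      rw [hS] at hxS
      exact Finset.subset_empty.1 hxS
    have hy1 : y = 1 := by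
      rw [← Equiv.Perm.support_eq_empty_iff]
      rw [hS] at hyS
      exact Finset.subset_empty.1 hyS
    refine ⟨1, one_mul 1, ?_, ?_, ?_⟩
    · rw [Equiv.Perm.support_one]
      exact Finset.empty_subset _
    · rw [hx1, one_mul, orderOf_one]
      exact odd_one
    · rw [hy1, one_mul, orderOf_one]
      exact odd_one
  obtain ⟨p0, hp0⟩ := Finset.nonempty_iff_ne_empty.2 hS
  obtain ⟨p1, hp1⟩ : ∃ p1, p1 = x p0 := ⟨_, rfl⟩
  obtain ⟨p2, hp2⟩ : ∃ p2, p2 = y p1 := ⟨_, rfl⟩
  obtain ⟨p3, hp3⟩ : ∃ p3, p3 = x p2 := ⟨_, rfl⟩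
  obtain ⟨p4, hp4⟩ : ∃ p4, p4 = y p3 := ⟨_, rfl⟩
  obtain ⟨p5, hp5⟩ : ∃ p5, p5 = x p4 := ⟨_, rfl⟩
  have h01 : x p0 = p1 := hp1.symm
  have h12 : y p1 = p2 := hp2.symm
  have h23 : x p2 = p3 := hp3.symm
  have h34 : y p3 = p4 := hp4.symm
  have h45 : x p4 = p5 := hp5.symm
  have h10 : x p1 = p0 := apply_of_invol x hxx h01
  have h21 : y p2 = p1 := apply_of_invol y hyy h12
  have h32 : x p3 = p2 := apply_of_invol x hxx h23
  have h43 : y p4 = p3 := apply_of_invol y hyy h34
  have m1 : p1 ∈ S := h01 ▸ hxm p0 hp0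
  have m2 : p2 ∈ S := h12 ▸ hym p1 m1
  have m3 : p3 ∈ S := h23 ▸ hxm p2 m2
  have m4 : p4 ∈ S := h34 ▸ hym p3 m3
  have n01 : p0 ≠ p1 := fun h => hmx p0 hp0 (h01.trans h.symm)
  have n12 : p1 ≠ p2 := fun h => hmy p1 m1 (h12.trans h.symm)
  have n23 : p2 ≠ p3 := fun h => hmx p2 m2 (h23.trans h.symm)
  have n34 : p3 ≠ p4 := fun h => hmy p3 m3 (h34.trans h.symm)
  have n45 : p4 ≠ p5 := fun h => hmx p4 m4 (h45.trans h.symm)
  have n02 : p0 ≠ p2 := fun h => hce p1 m1 (h10.trans (h.trans h12.symm))
  have n13 : p1 ≠ p3 := fun h => n02 (x.injective (h01.trans (h.trans h23.symm)))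
  have n03 : p0 ≠ p3 := fun h => n12 (x.injective (h10.trans (h.trans h23.symm)))
  have n24 : p2 ≠ p4 := fun h => n13 (y.injective (h12.trans (h.trans h34.symm)))
  have n14 : p1 ≠ p4 := fun h => n23 (y.injective (h21.trans (h.trans h34.symm)))
  have n04 : p0 ≠ p4 := by
    intro h
    apply hnb
    refine ⟨p0, p1, p2, p3, n01, n02, n03, n12, n13, n23, h01, h12, h23, ?_⟩
    rw [h]
    exact h34
  have n35 : p3 ≠ p5 := fun h => n24 (x.injective (h23.trans (h.trans h45.symm)))
  have n25 : p2 ≠ p5 := fun h => n34 (x.injective (h32.trans (h.trans h45.symm)))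
  have n15 : p1 ≠ p5 := fun h => n04 (x.injective (h01.trans (h.trans h45.symm)))
  have n05 : p0 ≠ p5 := fun h => n14 (x.injective (h10.trans (h.trans h45.symm)))
  have hinj : Function.Injective ![p0, p1, p2, p3, p4, p5] := by
    apply inj_of_lt
    intro i j hij
    fin_cases i <;> fin_cases j <;>
      first
      | exact absurd hij (by decide)
      | assumption
      | exact Ne.symm (by assumption)
  let p : Fin 6 ↪ α := ⟨![p0, p1, p2, p3, p4, p5], hinj⟩
  exact stepK5 S IH x y hxx hyy hxS hyS hcard p h01 h12 h23 h34 h45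

theorem main_T : ∀ (n : ℕ) (S : Finset α), S.card = n → ∀ x y : Equiv.Perm α,
    x * x = 1 → y * y = 1 → x.support ⊆ S → y.support ⊆ S →
    x.support.card = y.support.card → ¬ Exc S x y → Sol S x y := by
  intro n
  induction n using Nat.strong_induction_on with
  | _ n ih =>
    intro S hS x y hxx hyy hxS hyS hcard hnE
    have IH : IHyp S := by
      intro S' hlt x' y' h1 h2 h3 h4 h5 h6
      exact ih S'.card (by omega) S' rfl x' y' h1 h2 h3 h4 h5 h6
    by_cases hb : Bad4 x y
    · obtain ⟨a, b, c, d, hab, hac, had, hbc, hbd, hcd, h1, h2, h3, h4⟩ := hb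
      exact step4 S IH x y hxx hyy hxS hyS hcard hnE a b c d hab hac had hbc hbd hcd h1 h2 h3 h4
    · exact main_nb S IH x y hxx hyy hxS hyS hcard hb

theorem conj_of_odd {G : Type*} [Group G] (x z : G) (hx : x * x = 1) (hz : z * z = 1)
    (h : Odd (orderOf (x * z))) : IsConj z x := by
  obtain ⟨j, hj⟩ := h
  rw [isConj_iff]
  refine ⟨(x * z) ^ (j + 1), ?_⟩
  have hz' : z⁻¹ = z := inv_eq_of_mul_eq_one_right hz
  have hx' : x⁻¹ = x := inv_eq_of_mul_eq_one_right hx
  have hinv : z * (x * z) * z⁻¹ = (x * z)⁻¹ := by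
    rw [mul_inv_rev, hz', hx']
    calc z * (x * z) * z = z * x * (z * z) := by simp only [mul_assoc]
      _ = z * x := by rw [hz, mul_one]
  have hpow : z * (x * z) ^ (j + 1) * z⁻¹ = ((x * z)⁻¹) ^ (j + 1) := by
    rw [← hinv, conj_pow]
  have e1 : ((x * z) ^ (j + 1))⁻¹ = z * (x * z) ^ (j + 1) * z⁻¹ := by
    rw [hpow, inv_pow]
  have e2 : (x * z) ^ (j + 1) * (x * z) ^ (j + 1) = x * z := by
    rw [← pow_add]
    have e3 : j + 1 + (j + 1) = orderOf (x * z) + 1 := by omega
    rw [e3, pow_succ, pow_orderOf_eq_one, one_mul]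
  rw [e1]
  calc (x * z) ^ (j + 1) * z * (z * (x * z) ^ (j + 1) * z⁻¹)
      = (x * z) ^ (j + 1) * (z * z) * (x * z) ^ (j + 1) * z⁻¹ := by simp only [mul_assoc]
    _ = (x * z) ^ (j + 1) * (x * z) ^ (j + 1) * z⁻¹ := by rw [hz, mul_one]
    _ = x * z * z⁻¹ := by rw [e2]
    _ = x := by rw [mul_assoc, mul_inv_cancel, mul_one]

theorem invol_of_conj {G : Type*} [Group G] (t x : G) (ht : t * t = 1) (h : IsConj t x) :
    x * x = 1 := by
  obtain ⟨c, rfl⟩ := isConj_iff.1 h
  calc c * t * c⁻¹ * (c * t * c⁻¹) = c * (t * t) * c⁻¹ := by group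
    _ = 1 := by rw [ht, mul_one, mul_inv_cancel]

theorem not_odd_comm {G : Type*} [Group G] (t y : G) (ht : t * t = 1) (hy : y * y = 1)
    (hne : y ≠ t) (hc : t * y = y * t) : ¬ Odd (orderOf (t * y)) := by
  intro hodd
  have hsq : (t * y) ^ 2 = 1 := by
    rw [pow_two]
    calc t * y * (t * y) = t * (y * t) * y := by simp only [mul_assoc]
      _ = t * (t * y) * y := by rw [hc]
      _ = (t * t) * (y * y) := by simp only [mul_assoc]
      _ = 1 := by rw [ht, hy, one_mul]
  have hd : orderOf (t * y) ∣ 2 := orderOf_dvd_of_pow_eq_one hsq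
  have h1 : orderOf (t * y) = 1 := by
    rcases (Nat.dvd_prime Nat.prime_two).1 hd with h | h
    · exact h
    · rw [h] at hodd
      exact absurd hodd (by decide)
  rw [orderOf_eq_one_iff] at h1
  apply hne
  have h2 : y = t⁻¹ := (inv_eq_of_mul_eq_one_right h1).symm
  rw [h2]
  exact inv_eq_of_mul_eq_one_right ht

theorem order_comm {G : Type*} [Group G] (a b : G) : orderOf (a * b) = orderOf (b * a) := by
  have e : a * b = a * (b * a) * a⁻¹ := by group
  rw [e]
  exact Cfsg.Agent.S3266.conj_order a (b * a)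

theorem exists_notMem (T : Finset α) (h : T.card < Fintype.card α) : ∃ u, u ∉ T := by
  by_contra hcon
  push_neg at hcon
  have h2 : T = Finset.univ := Finset.eq_univ_iff_forall.2 hcon
  rw [h2, Finset.card_univ] at h
  exact lt_irrefl _ h

def S4a : Equiv.Perm (Fin 4) := Equiv.swap 1 2
def S4b : Equiv.Perm (Fin 4) := Equiv.swap 0 2 * Equiv.swap 1 3
theorem S4a_comm : (S4a * X4 * S4a⁻¹) * X4 = X4 * (S4a * X4 * S4a⁻¹) := by decide
theorem S4a_ne : S4a * X4 * S4a⁻¹ ≠ X4 := by decide
theorem S4b_comm : (S4b * XP * S4b⁻¹) * XP = XP * (S4b * XP * S4b⁻¹) := by decide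
theorem S4b_ne : S4b * XP * S4b⁻¹ ≠ XP := by decide

theorem comm_conj (t : Equiv.Perm α) (htt : t * t = 1) (ι : Fin 4 ↪ α)
    (t0 s : Equiv.Perm (Fin 4)) (ht : ∀ i, t (ι i) = ι (t0 i))
    (hs : (s * t0 * s⁻¹) * t0 = t0 * (s * t0 * s⁻¹)) (hne : s * t0 * s⁻¹ ≠ t0) :
    ∃ y, IsConj t y ∧ y ≠ t ∧ t * y = y * t := by
  have hnot : ∀ q, (∀ i, q ≠ ι i) → ∀ i, t q ≠ ι i := by
    intro q hq i h
    apply hq (t0 i)
    rw [← ht, ← h, ← Equiv.Perm.mul_apply, htt]
    rfl
  obtain ⟨y, hy⟩ : ∃ y, y = E ι s * t * (E ι s)⁻¹ := ⟨_, rfl⟩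
  have hy1 : ∀ i, y (ι i) = ι ((s * t0 * s⁻¹) i) := by
    intro i
    rw [hy, ← map_inv (E ι) s, Equiv.Perm.mul_apply, Equiv.Perm.mul_apply, E_apply, ht, E_apply]
    rfl
  have hy2 : ∀ q, (∀ i, q ≠ ι i) → y q = t q := by
    intro q hq
    rw [hy, ← map_inv (E ι) s, Equiv.Perm.mul_apply, Equiv.Perm.mul_apply,
      E_apply_not ι _ q hq, E_apply_not ι _ _ (hnot q hq)]
  refine ⟨y, isConj_iff.2 ⟨E ι s, hy.symm⟩, ?_, ?_⟩
  · intro heq
    apply hne
    refine Equiv.ext fun i => ?_
    have h1 := hy1 i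
    rw [heq, ht] at h1
    exact (ι.injective h1).symm
  · ext q
    by_cases hq : ∃ i, q = ι i
    · obtain ⟨i, rfl⟩ := hq
      rw [Equiv.Perm.mul_apply, Equiv.Perm.mul_apply, hy1, ht, ht, hy1]
      have h2 := congrArg (fun f : Equiv.Perm (Fin 4) => f i) hs
      exact congrArg ι h2.symm
    · push_neg at hq
      rw [Equiv.Perm.mul_apply, Equiv.Perm.mul_apply, hy2 q hq, hy2 _ (hnot q hq)]

theorem exists_pair (t : Equiv.Perm α) (htt : t * t = 1) (ht1 : t ≠ 1)
    (hn : 5 ≤ Fintype.card α) : ∃ y, IsConj t y ∧ y ≠ t ∧ t * y = y * t := by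
  obtain ⟨p, hp⟩ : ∃ p, t p ≠ p := by
    by_contra hcon
    push_neg at hcon
    exact ht1 (Equiv.ext hcon)
  obtain ⟨q, hq⟩ : ∃ q, q = t p := ⟨_, rfl⟩
  have htp : t p = q := hq.symm
  have htq : t q = p := apply_of_invol t htt htp
  have hpq : p ≠ q := fun h => hp (htp.trans h.symm)
  have edge : ∀ u v : α, u ≠ p → u ≠ q → t u = v → u ≠ v →
      ∃ y, IsConj t y ∧ y ≠ t ∧ t * y = y * t := by
    intro u v hup huq htu huv
    have htv : t v = u := apply_of_invol t htt htu
    have hvp : v ≠ p := fun h => huq (htv.symm.trans ((congrArg t h).trans htp))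
    have hvq : v ≠ q := fun h => hup (htv.symm.trans ((congrArg t h).trans htq))
    have hinj : Function.Injective ![p, q, u, v] := by
      apply inj_of_lt
      intro i j hij
      fin_cases i <;> fin_cases j <;>
        first
        | exact absurd hij (by decide)
        | assumption
        | exact Ne.symm (by assumption)
    let ι : Fin 4 ↪ α := ⟨![p, q, u, v], hinj⟩
    have ht4 : ∀ i, t (ι i) = ι (X4 i) := by
      intro i
      fin_cases i
      · exact htp
      · exact htq
      · exact htu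
      · exact htv
    exact comm_conj t htt ι X4 S4a ht4 S4a_comm S4a_ne
  obtain ⟨u, hu⟩ := exists_notMem ({p, q} : Finset α)
    (lt_of_le_of_lt Finset.card_le_two (by omega))
  have hup : u ≠ p := fun h => hu (by rw [h]; simp)
  have huq : u ≠ q := fun h => hu (by rw [h]; simp)
  by_cases htu : t u = u
  · obtain ⟨v, hv⟩ := exists_notMem ({p, q, u} : Finset α)
      (lt_of_le_of_lt Finset.card_le_three (by omega))
    have hvp : v ≠ p := fun h => hv (by rw [h]; simp)
    have hvq : v ≠ q := fun h => hv (by rw [h]; simp)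
    have hvu : v ≠ u := fun h => hv (by rw [h]; simp)
    by_cases htv : t v = v
    · have hinj : Function.Injective ![p, q, u, v] := by
        apply inj_of_lt
        intro i j hij
        fin_cases i <;> fin_cases j <;>
          first
          | exact absurd hij (by decide)
          | assumption
          | exact Ne.symm (by assumption)
      let ι : Fin 4 ↪ α := ⟨![p, q, u, v], hinj⟩
      have ht4 : ∀ i, t (ι i) = ι (XP i) := by
        intro i
        fin_cases i
        · exact htp
        · exact htq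
        · exact htu
        · exact htv
      exact comm_conj t htt ι XP S4b ht4 S4b_comm S4b_ne
    · exact edge v (t v) hvp hvq rfl (fun h => htv h.symm)
  · exact edge u (t u) hup huq rfl (fun h => htu h.symm)

end aux

/-- Let n ≥ 5 and let X be a conjugacy class of involutions of the symmetric group of degree n. The graph on X joining two distinct involutions whose product has odd order is connected and has diameter exactly 2. -/
theorem result (n : ℕ) (hn : 5 ≤ n) (t : Equiv.Perm (Fin n)) (ht : orderOf t = 2) :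
    (SimpleGraph.fromRel fun x y : {x : Equiv.Perm (Fin n) // IsConj t x} =>
        Odd (orderOf (x.1 * y.1))).Connected ∧
      (SimpleGraph.fromRel fun x y : {x : Equiv.Perm (Fin n) // IsConj t x} =>
        Odd (orderOf (x.1 * y.1))).diam = 2 := by
  have htt : t * t = 1 := by
    rw [← pow_two, ← ht]
    exact pow_orderOf_eq_one t
  have ht1 : t ≠ 1 := by
    intro h
    rw [h, orderOf_one] at ht
    exact absurd ht (by decide)
  apply Cfsg.Agent.S3266.graph_diam_two
  · intro x y hxy
    have hxx : x.1 * x.1 = 1 := invol_of_conj t x.1 htt x.2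
    have hyy : y.1 * y.1 = 1 := invol_of_conj t y.1 htt y.2
    have hcard : x.1.support.card = y.1.support.card := by
      obtain ⟨c, hc⟩ := isConj_iff.1 x.2
      obtain ⟨d, hd⟩ := isConj_iff.1 y.2
      rw [← hc, ← hd, Equiv.Perm.card_support_conj, Equiv.Perm.card_support_conj]
    have hnE : ¬ Exc (Finset.univ : Finset (Fin n)) x.1 y.1 := by
      intro h
      have h1 := h.1
      rw [Finset.card_univ, Fintype.card_fin] at h1
      omega
    obtain ⟨z, hzz, -, ho1, ho2⟩ := main_T n Finset.univ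
      (by rw [Finset.card_univ, Fintype.card_fin]) x.1 y.1 hxx hyy
      (Finset.subset_univ _) (Finset.subset_univ _) hcard hnE
    by_cases hzx : z = x.1
    · left
      show Odd (orderOf (x.1 * y.1))
      rw [order_comm x.1 y.1, ← hzx]
      exact ho2
    by_cases hzy : z = y.1
    · left
      show Odd (orderOf (x.1 * y.1))
      rw [← hzy]
      exact ho1
    · right
      have hconj : IsConj t z := x.2.trans (conj_of_odd x.1 z hxx hzz ho1).symm
      refine ⟨⟨z, hconj⟩, ?_, ?_, ?_, ?_⟩
      · intro h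
        exact hzx (congrArg Subtype.val h)
      · intro h
        exact hzy (congrArg Subtype.val h)
      · exact ho1
      · show Odd (orderOf (z * y.1))
        rw [order_comm]
        exact ho2
  · obtain ⟨y, hy1, hy2, hy3⟩ := exists_pair t htt ht1 (by rw [Fintype.card_fin]; exact hn)
    have hyy : y * y = 1 := invol_of_conj t y htt hy1
    refine ⟨⟨t, IsConj.refl t⟩, ⟨y, hy1⟩, ?_, ?_, ?_⟩
    · intro h
      exact hy2 (congrArg Subtype.val h).symm
    · exact not_odd_comm t y htt hyy hy2 hy3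
    · show ¬ Odd (orderOf (y * t))
      rw [← hy3]
      exact not_odd_comm t y htt hyy hy2 hy3

end Cfsg.Agent.S3265
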