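import Cfsg.Statements.S3276

set_option autoImplicit false
open Cfsg

namespace Cfsg.Agent.S3276

/-- Two involutions that are not conjugate commute with a common involution. -/
theorem exists_invol_commute {G : Type*} [Group G] [Finite G] (x y : G) (hx : orderOf x = 2)
    (hy : orderOf y = 2) (hnc : ¬ IsConj x y) :
    ∃ u : G, orderOf u = 2 ∧ Commute u x ∧ Commute y u := by
  have hx2 : x * x = 1 := by
    have := pow_orderOf_eq_one x
    rw [hx, pow_two] at this
    exact this
  have hy2 : y * y = 1 := by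
    have := pow_orderOf_eq_one y
    rw [hy, pow_two] at this
    exact this
  have hxi : x⁻¹ = x := inv_eq_of_mul_eq_one_left hx2
  have hyi : y⁻¹ = y := inv_eq_of_mul_eq_one_left hy2
  set d := x * y with hd
  have hdinv : d⁻¹ = y * x := by
    rw [hd, mul_inv_rev, hxi, hyi]
  -- x d x⁻¹ = d⁻¹
  have hxd : x * d * x⁻¹ = d⁻¹ := by
    rw [hdinv, hd, hxi, ← mul_assoc, hx2, one_mul]
  have hyd : y * d * y⁻¹ = d⁻¹ := by
    rw [hdinv, hd, hyi, mul_assoc, mul_assoc, hy2, mul_one]
  have hxdk : ∀ k : ℕ, x * d ^ k * x⁻¹ = (d ^ k)⁻¹ := by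
    intro k
    rw [← conj_pow, hxd, inv_pow]
  have hydk : ∀ k : ℕ, y * d ^ k * y⁻¹ = (d ^ k)⁻¹ := by
    intro k
    rw [← conj_pow, hyd, inv_pow]
  have hn : 0 < orderOf d := orderOf_pos d
  rcases Nat.even_or_odd (orderOf d) with he | ho
  · obtain ⟨m, hm⟩ := he
    have hm' : orderOf d = 2 * m := by omega
    have hmpos : 0 < m := by omega
    refine ⟨d ^ m, ?_, ?_, ?_⟩
    · rw [orderOf_pow' d (by omega : m ≠ 0), hm']
      have : Nat.gcd (2 * m) m = m := Nat.gcd_eq_right (Dvd.intro_left 2 rfl)
      rw [this]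
      exact Nat.mul_div_cancel _ hmpos
    · -- d^m commutes with x
      have hsq : d ^ m * d ^ m = 1 := by
        rw [← pow_add, ← two_mul, ← hm', pow_orderOf_eq_one]
      have hinv : (d ^ m)⁻¹ = d ^ m := inv_eq_of_mul_eq_one_left hsq
      have h1 := hxdk m
      rw [hinv] at h1
      -- x * d^m * x⁻¹ = d^m
      show d ^ m * x = x * d ^ m
      have : x * d ^ m = d ^ m * x := by
        have := congrArg (· * x) h1
        simp only [inv_mul_cancel_right] at this
        exact this
      exact this.symm
    · have hsq : d ^ m * d ^ m = 1 := by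
        rw [← pow_add, ← two_mul, ← hm', pow_orderOf_eq_one]
      have hinv : (d ^ m)⁻¹ = d ^ m := inv_eq_of_mul_eq_one_left hsq
      have h1 := hydk m
      rw [hinv] at h1
      show y * d ^ m = d ^ m * y
      have := congrArg (· * y) h1
      simp only [inv_mul_cancel_right] at this
      exact this
  · exfalso
    apply hnc
    obtain ⟨m, hm⟩ := ho
    -- d^(m+1) x d^-(m+1) = d^(2m+2) x = d x = x y x
    have key : d ^ (m + 1) * x * (d ^ (m + 1))⁻¹ = x * y * x⁻¹ := by
      have h1 := hxdk (m + 1)
      -- x * d^(m+1) * x⁻¹ = (d^(m+1))⁻¹  ⇒ (d^(m+1))⁻¹ = x * d^(m+1) * x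
      rw [← h1, hxi]
      have h2 : d ^ (m + 1) * x * (x * d ^ (m + 1) * x) = d ^ (m + 1) * d ^ (m + 1) * x := by
        rw [mul_assoc (d ^ (m + 1)) x, ← mul_assoc x, ← mul_assoc x, hx2, one_mul, mul_assoc]
      rw [h2, ← pow_add]
      have h3 : m + 1 + (m + 1) = orderOf d + 1 := by omega
      rw [h3, pow_succ, pow_orderOf_eq_one, one_mul]
    have c1 : IsConj x (x * y * x⁻¹) := by
      rw [isConj_iff]
      exact ⟨d ^ (m + 1), key⟩
    have c2 : IsConj (x * y * x⁻¹) y := by
      have : IsConj y (x * y * x⁻¹) := by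
        rw [isConj_iff]
        exact ⟨x, rfl⟩
      exact this.symm
    exact c1.trans c2

theorem result {G : Type*} [Group G] [Finite G] (x y : G) (hx : orderOf x = 2) (hy : orderOf y = 2)
    (hxy : Commute x y) (hnc : ¬ IsConj x y)
    (hstar : ∀ u : G, orderOf u = 2 → Commute u x → ∀ g : G, Commute (g * y * g⁻¹) u → Commute (g * y * g⁻¹) y) :
    Subgroup.normalClosure ({y} : Set G) ≠ ⊤ ∧ Cfsg.IsElementaryAbelian 2 (Subgroup.normalClosure ({y} : Set G)) ∧
      ((∀ u ∈ Subgroup.normalClosure ({y} : Set G), orderOf u = 2 → Commute u x → u = y) →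
        Nat.card ↥(Subgroup.normalClosure ({y} : Set G)) ≤ 4) := by
  have hx2 : x * x = 1 := by
    have := pow_orderOf_eq_one x
    rw [hx, pow_two] at this
    exact this
  have hy2 : y * y = 1 := by
    have := pow_orderOf_eq_one y
    rw [hy, pow_two] at this
    exact this
  have hxi : x⁻¹ = x := inv_eq_of_mul_eq_one_left hx2
  -- every conjugate of y commutes with y
  have h1 : ∀ g : G, Commute (g * y * g⁻¹) y := by
    intro g
    have ho : orderOf (g * y * g⁻¹) = 2 := by
      rw [← MulAut.conj_apply, MulEquiv.orderOf_eq]; exact hy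
    have hnc' : ¬ IsConj x (g * y * g⁻¹) := by
      intro h
      apply hnc
      have : IsConj y (g * y * g⁻¹) := by
        rw [isConj_iff]; exact ⟨g, rfl⟩
      exact h.trans this.symm
    obtain ⟨u, hu, hux, hyu⟩ := exists_invol_commute x (g * y * g⁻¹) hx ho hnc'
    exact hstar u hu hux g hyu
  -- any two conjugates commute
  have h2 : ∀ a b : G, a ∈ Group.conjugatesOfSet ({y} : Set G) → b ∈ Group.conjugatesOfSet ({y} : Set G) →
      a * b = b * a := by
    intro a b ha hb
    rw [Group.mem_conjugatesOfSet_iff] at ha hb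
    obtain ⟨y1, hy1, ha⟩ := ha
    obtain ⟨y2, hy2', hb⟩ := hb
    rw [Set.mem_singleton_iff] at hy1 hy2'
    rw [hy1] at ha; rw [hy2'] at hb
    rw [isConj_iff] at ha hb
    obtain ⟨g, rfl⟩ := ha
    obtain ⟨h, rfl⟩ := hb
    have := h1 (h⁻¹ * g)
    have e : h⁻¹ * g * y * (h⁻¹ * g)⁻¹ = h⁻¹ * (g * y * g⁻¹) * h := by
      simp [mul_assoc]
    rw [e] at this
    have this' : h⁻¹ * (g * y * g⁻¹) * h * y = y * (h⁻¹ * (g * y * g⁻¹) * h) := this
    calc g * y * g⁻¹ * (h * y * h⁻¹)
        = h * (h⁻¹ * (g * y * g⁻¹) * h * y) * h⁻¹ := by simp [mul_assoc]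
      _ = h * (y * (h⁻¹ * (g * y * g⁻¹) * h)) * h⁻¹ := by rw [this']
      _ = h * y * h⁻¹ * (g * y * g⁻¹) := by simp [mul_assoc]
  set N := Subgroup.normalClosure ({y} : Set G) with hN
  have hNcl : N = Subgroup.closure (Group.conjugatesOfSet ({y} : Set G)) := rfl
  have hcomm : ∀ a b : G, a ∈ N → b ∈ N → a * b = b * a := by
    intro a b ha hb
    rw [hNcl] at ha hb
    induction ha, hb using Subgroup.closure_induction₂ with
    | mem a b ha hb => exact h2 a b ha hb
    | one_left b hb => simp
    | one_right a ha => simp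
    | mul_left a b c ha hb hc h1 h2 =>
      rw [mul_assoc, h2, ← mul_assoc, h1, mul_assoc]
    | mul_right b c a hb hc ha h1 h2 =>
      rw [← mul_assoc, h1, mul_assoc, h2, ← mul_assoc]
    | inv_left a b ha hb h =>
      have : a⁻¹ * b = a⁻¹ * (b * a) * a⁻¹ := by simp [mul_assoc]
      rw [this, ← h]; simp
    | inv_right a b ha hb h =>
      have : a * b⁻¹ = b⁻¹ * (b * a) * b⁻¹ := by simp
      rw [this, ← h]; simp [mul_assoc]
  have hsq : ∀ a : G, a ∈ N → a * a = 1 := by
    intro a ha
    have ha' := ha
    rw [hNcl] at ha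
    induction ha using Subgroup.closure_induction with
    | mem a ha =>
      rw [Group.mem_conjugatesOfSet_iff] at ha
      obtain ⟨y1, hy1, ha⟩ := ha
      rw [Set.mem_singleton_iff] at hy1
      rw [hy1] at ha
      rw [isConj_iff] at ha
      obtain ⟨g, rfl⟩ := ha
      calc g * y * g⁻¹ * (g * y * g⁻¹) = g * (y * y) * g⁻¹ := by simp [mul_assoc]
        _ = 1 := by rw [hy2]; simp
    | one => simp
    | mul a b ha hb iha ihb =>
      have hab : a * b = b * a := hcomm a b (by rw [hNcl]; exact ha) (by rw [hNcl]; exact hb)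
      calc a * b * (a * b) = a * (b * a) * b := by simp [mul_assoc]
        _ = a * (a * b) * b := by rw [hab]
        _ = (a * a) * (b * b) := by simp [mul_assoc]
        _ = 1 := by
          rw [iha (by rw [hNcl]; exact ha), ihb (by rw [hNcl]; exact hb)]; simp
    | inv a ha iha =>
      have := iha (by rw [hNcl]; exact ha)
      have h3 : a⁻¹ = a := inv_eq_of_mul_eq_one_left this
      rw [h3]; exact this
  have hyN : y ∈ N := Subgroup.subset_normalClosure (Set.mem_singleton y)
  have hNnormal : N.Normal := Subgroup.normalClosure_normal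
  refine ⟨?_, ⟨?_, ?_⟩, ?_⟩
  · intro htop
    apply hnc
    have hxN : x ∈ N := by rw [htop]; trivial
    have hgN : ∀ g : G, g ∈ N := by intro g; rw [htop]; trivial
    rw [isConj_iff]
    -- y^G = {y} since G commutative, so N = closure {y}
    have hsub : N ≤ Subgroup.zpowers y := by
      rw [hNcl, Subgroup.closure_le]
      intro a ha
      rw [Group.mem_conjugatesOfSet_iff] at ha
      obtain ⟨y1, hy1, ha⟩ := ha
      rw [Set.mem_singleton_iff] at hy1
      rw [hy1] at ha
      rw [isConj_iff] at ha
      obtain ⟨g, rfl⟩ := ha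
      have : g * y * g⁻¹ = y := by
        rw [hcomm g y (hgN g) (hgN y)]; simp
      rw [this]
      exact Subgroup.mem_zpowers y
    have hxz := hsub hxN
    rw [Subgroup.mem_zpowers_iff] at hxz
    obtain ⟨k, hk⟩ := hxz
    have hx1 : x ≠ 1 := by
      intro h
      rw [h, orderOf_one] at hx
      omega
    have hxy' : x = y := by
      rcases Int.even_or_odd k with ⟨j, hj⟩ | ⟨j, hj⟩
      · exfalso
        apply hx1
        rw [← hk, hj, ← two_mul, zpow_mul, zpow_ofNat, pow_two, hy2, one_zpow]
      · rw [← hk, hj, zpow_add, zpow_mul, zpow_ofNat, pow_two, hy2, one_zpow, one_mul, zpow_one]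
    exact ⟨1, by rw [hxy']; simp⟩
  · rw [isMulCommutative_iff]
    intro a b
    apply Subtype.ext
    exact hcomm a b a.2 b.2
  · intro a ha
    rw [pow_two]
    exact hsq a ha
  · intro huniq
    -- f m = m * (x * m * x⁻¹)
    have hconjN : ∀ m : G, m ∈ N → x * m * x⁻¹ ∈ N := fun m hm => hNnormal.conj_mem m hm x
    have hf_mem : ∀ m : G, m ∈ N → m * (x * m * x⁻¹) ∈ N := fun m hm => N.mul_mem hm (hconjN m hm)
    have hone_or : ∀ u : G, u ∈ N → Commute u x → u = 1 ∨ u = y := by
      intro u hu hc
      by_cases h : u = 1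
      · exact Or.inl h
      · right
        apply huniq u hu _ hc
        apply orderOf_eq_prime
        · rw [pow_two]; exact hsq u hu
        · exact h
    have hf_comm : ∀ m : G, m ∈ N → Commute (m * (x * m * x⁻¹)) x := by
      intro m hm
      show m * (x * m * x⁻¹) * x = x * (m * (x * m * x⁻¹))
      have hc := hcomm m (x * m * x⁻¹) hm (hconjN m hm)
      rw [hxi] at hc ⊢
      calc m * (x * m * x) * x = m * (x * m * (x * x)) := by simp only [mul_assoc]
        _ = (x * x) * m * (x * m) := by rw [hx2]; simp [mul_assoc]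
        _ = x * (x * m * x * m) := by simp only [mul_assoc]
        _ = x * (m * (x * m * x)) := by rw [← hc]
    have hf_val : ∀ m : G, m ∈ N → m * (x * m * x⁻¹) = 1 ∨ m * (x * m * x⁻¹) = y :=
      fun m hm => hone_or _ (hf_mem m hm) (hf_comm m hm)
    have hker : ∀ m : G, m ∈ N → m * (x * m * x⁻¹) = 1 → m = 1 ∨ m = y := by
      intro m hm h
      apply hone_or m hm
      have hmi : m⁻¹ = m := inv_eq_of_mul_eq_one_left (hsq m hm)
      have h3 : x * m * x⁻¹ = m := by
        have := eq_inv_of_mul_eq_one_right h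
        rw [hmi] at this
        exact this
      show m * x = x * m
      have := congrArg (· * x) h3
      simp only [inv_mul_cancel_right] at this
      exact this.symm
    have hf_mul : ∀ m n : G, m ∈ N → n ∈ N →
        (m * n) * (x * (m * n) * x⁻¹) = (m * (x * m * x⁻¹)) * (n * (x * n * x⁻¹)) := by
      intro m n hm hn
      have hc := hcomm n (x * m * x⁻¹) hn (hconjN m hm)
      calc (m * n) * (x * (m * n) * x⁻¹) = m * (n * (x * m * x⁻¹)) * (x * n * x⁻¹) := by
            simp [mul_assoc]
        _ = m * ((x * m * x⁻¹) * n) * (x * n * x⁻¹) := by rw [hc]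
        _ = (m * (x * m * x⁻¹)) * (n * (x * n * x⁻¹)) := by simp [mul_assoc]
    have hcard : Nat.card ↥N = Set.ncard (N : Set G) := Nat.card_coe_set_eq (N : Set G)
    rw [hcard]
    by_cases hex : ∃ n0 : G, n0 ∈ N ∧ n0 * (x * n0 * x⁻¹) = y
    · obtain ⟨n0, hn0, hfn0⟩ := hex
      have hsubset : (N : Set G) ⊆ {1, y, n0, n0 * y} := by
        intro m hm
        have hm' : m ∈ N := hm
        simp only [Set.mem_insert_iff, Set.mem_singleton_iff]
        rcases hf_val m hm' with h | h
        · rcases hker m hm' h with h | h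
          · exact Or.inl h
          · exact Or.inr (Or.inl h)
        · have h5 := hf_mul n0 m hn0 hm'
          rw [hfn0, h, hy2] at h5
          have hn0i : n0⁻¹ = n0 := inv_eq_of_mul_eq_one_left (hsq n0 hn0)
          rcases hker (n0 * m) (N.mul_mem hn0 hm') h5 with h6 | h6
          · right; right; left
            have := eq_inv_of_mul_eq_one_right h6
            rw [hn0i] at this
            exact this
          · right; right; right
            have : m = n0⁻¹ * y := by rw [← h6]; simp
            rw [this, hn0i]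
      calc Set.ncard (N : Set G) ≤ Set.ncard ({1, y, n0, n0 * y} : Set G) :=
            Set.ncard_le_ncard hsubset (Set.toFinite _)
        _ ≤ 4 := by
            refine (Set.ncard_insert_le _ _).trans ?_
            refine Nat.succ_le_succ ((Set.ncard_insert_le _ _).trans ?_)
            refine Nat.succ_le_succ ((Set.ncard_insert_le _ _).trans ?_)
            rw [Set.ncard_singleton]
    · have hsubset : (N : Set G) ⊆ {1, y} := by
        intro m hm
        have hm' : m ∈ N := hm
        simp only [Set.mem_insert_iff, Set.mem_singleton_iff]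
        rcases hf_val m hm' with h | h
        · exact hker m hm' h
        · exact absurd ⟨m, hm', h⟩ hex
      calc Set.ncard (N : Set G) ≤ Set.ncard ({1, y} : Set G) :=
            Set.ncard_le_ncard hsubset (Set.toFinite _)
        _ ≤ 4 := by
            refine (Set.ncard_insert_le _ _).trans ?_
            rw [Set.ncard_singleton]
            norm_num

end Cfsg.Agent.S3276
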