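import Cfsg.Statements.S3278
import Cfsg.Agent.Helper21.KFRed

set_option autoImplicit false
open Cfsg

namespace Cfsg.Agent.S3278

/-- Let G be a finite simple group with an involution x such that a Sylow 2-subgroup of C_G(x) is a Klein four-group which is normal in C_G(x). Then G is isomorphic to the alternating group of degree 5 (that is, to PSL(2, 5)). -/
theorem result {G : Type*} [Group G] [Finite G] [IsSimpleGroup G] (x : G) (hx : orderOf x = 2)
    (S₀ : Subgroup G) (hle : S₀ ≤ Subgroup.centralizer ({x} : Set G)) (hK : IsKleinFour ↥S₀)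
    (hodd : ¬ 2 ∣ S₀.relIndex (Subgroup.centralizer ({x} : Set G))) (hn : (S₀.subgroupOf (Subgroup.centralizer ({x} : Set G))).Normal) :
    Nonempty (G ≃* ↥(alternatingGroup (Fin 5))) := by
  exact Cfsg.Agent.Helper21.KF.simple_iso_of_normal_klein x hx S₀ hle hK hodd hn

end Cfsg.Agent.S3278
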