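import Cfsg.Statements.S3305
import Cfsg.Agent.Helper55.SylowQuot

set_option autoImplicit false
open Cfsg

namespace Cfsg.Agent.S3305

/-- Suppose that any two distinct Sylow 2-subgroups of a finite group G have cyclic intersection. Then the same holds in every quotient G/H by a normal subgroup H. -/
theorem result {G : Type*} [Group G] [Finite G]
    (hC : ∀ S T : Sylow 2 G, S ≠ T → IsCyclic ↥((S : Subgroup G) ⊓ (T : Subgroup G))) (H : Subgroup G) [H.Normal] :
    ∀ S T : Sylow 2 (G ⧸ H), S ≠ T → IsCyclic ↥((S : Subgroup (G ⧸ H)) ⊓ (T : Subgroup (G ⧸ H))) := by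
  intro S T hST
  exact Cfsg.Agent.Helper55.isCyclic_sylow_inf_of_surjective (QuotientGroup.mk'_surjective H) hC S T hST

end Cfsg.Agent.S3305
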