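import Cfsg.Statements.S3309
import Cfsg.Agent.Helper55.TransferInv

set_option autoImplicit false
open Cfsg

namespace Cfsg.Agent.S3309

/-- The concrete group `Z₂ × D₈`. -/
abbrev M := Multiplicative (ZMod 2) × DihedralGroup 4

/-- The central involution generating the first factor. -/
def c₀ : M := (Multiplicative.ofAdd 1, 1)
/-- The central involution of the dihedral factor. -/
def z₀ : M := (1, DihedralGroup.r 2)
/-- An element of order four. -/
def a₀ : M := (1, DihedralGroup.r 1)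

set_option maxRecDepth 100000 in
theorem M_center : ∀ y : M, (∀ s : M, y * s = s * y) → y = 1 ∨ y = z₀ ∨ y = c₀ ∨ y = c₀ * z₀ := by
  decide

set_option maxRecDepth 100000 in
theorem M_sq : ∀ s : M, s * s = 1 ∨ s * s = z₀ := by decide

set_option maxRecDepth 100000 in
theorem M_misc : a₀ * a₀ = z₀ ∧ z₀ ≠ 1 ∧ c₀ ≠ 1 ∧ c₀ ≠ z₀ ∧ c₀ * c₀ = 1 ∧
    (∀ s : M, s * c₀ = c₀ * s) ∧ c₀.1 ≠ 1 := by decide

/-- The normalizer of a Sylow 2-subgroup `S` centralizes a central involution `c` of `S`, provided the centre of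
`S` is `{1, z, c, cz}` where `z` is the only non-trivial square in `S`. -/
theorem conj_eq_of_mem_normalizer {G : Type*} [Group G] [Finite G] (S : Sylow 2 G) (c z a : G)
    (hcS : c ∈ (S : Subgroup G)) (hzS : z ∈ (S : Subgroup G)) (haS : a ∈ (S : Subgroup G))
    (hcent : ∀ s ∈ (S : Subgroup G), s * c = c * s)
    (haz : a * a = z) (hz1 : z ≠ 1) (hsq : ∀ s ∈ (S : Subgroup G), s * s = 1 ∨ s * s = z)
    (hZ : ∀ y ∈ (S : Subgroup G), (∀ s ∈ (S : Subgroup G), y * s = s * y) →
      y = 1 ∨ y = z ∨ y = c ∨ y = c * z)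
    (hc1 : c ≠ 1) (hcz : c ≠ z)
    (x : G) (hx : x ∈ Subgroup.normalizer ((S : Subgroup G) : Set G)) : x⁻¹ * c * x = c := by
  have hconj : ∀ y ∈ (S : Subgroup G), x⁻¹ * y * x ∈ (S : Subgroup G) := fun y hy =>
    (Subgroup.mem_normalizer_iff''.mp hx y).mp hy
  have hconj' : ∀ y ∈ (S : Subgroup G), x * y * x⁻¹ ∈ (S : Subgroup G) := fun y hy =>
    (Subgroup.mem_normalizer_iff.mp hx y).mp hy
  have hzz : z * z = 1 := by
    rcases hsq z hzS with h | h
    · exact h
    · exact absurd (mul_eq_left.mp h) hz1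
  have hzx : x⁻¹ * z * x = z := by
    have h1 : x⁻¹ * z * x = (x⁻¹ * a * x) * (x⁻¹ * a * x) := by rw [← haz]; group
    rcases hsq _ (hconj a haS) with h | h
    · rw [h] at h1
      exfalso
      apply hz1
      have h2 : z = x * (x⁻¹ * z * x) * x⁻¹ := by group
      rw [h2, h1]
      group
    · rw [h1, h]
  have hcx_cent : ∀ s ∈ (S : Subgroup G), (x⁻¹ * c * x) * s = s * (x⁻¹ * c * x) := by
    intro s hs
    have h1 := hcent (x * s * x⁻¹) (hconj' s hs)
    calc x⁻¹ * c * x * s = x⁻¹ * (c * (x * s * x⁻¹)) * x := by group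
      _ = x⁻¹ * ((x * s * x⁻¹) * c) * x := by rw [h1]
      _ = s * (x⁻¹ * c * x) := by group
  have hcases : x⁻¹ * c * x = c ∨ x⁻¹ * c * x = c * z := by
    rcases hZ _ (hconj c hcS) hcx_cent with h | h | h | h
    · exfalso
      apply hc1
      have h2 : c = x * (x⁻¹ * c * x) * x⁻¹ := by group
      rw [h2, h]
      group
    · exfalso
      apply hcz
      have h2 : x⁻¹ * c * x = x⁻¹ * z * x := by rw [h, hzx]
      have h3 : c = x * (x⁻¹ * c * x) * x⁻¹ := by group
      rw [h3, h2]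
      group
    · exact Or.inl h
    · exact Or.inr h
  rcases hcases with h | h
  · exact h
  · exfalso
    have hczx : x⁻¹ * (c * z) * x = c := by
      calc x⁻¹ * (c * z) * x = (x⁻¹ * c * x) * (x⁻¹ * z * x) := by group
        _ = c * z * z := by rw [h, hzx]
        _ = c := by rw [mul_assoc, hzz, mul_one]
    have hpow : ∀ k : ℕ, (x ^ k)⁻¹ * c * x ^ k = if Even k then c else c * z := by
      intro k
      induction k with
      | zero => simp
      | succ k ih =>
        have h1 : (x ^ (k + 1))⁻¹ * c * x ^ (k + 1) = x⁻¹ * ((x ^ k)⁻¹ * c * x ^ k) * x := by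
          rw [pow_succ]; group
        rw [h1, ih]
        by_cases hk : Even k
        · rw [if_pos hk, if_neg (by rw [Nat.even_add_one]; exact not_not.mpr hk), h]
        · rw [if_neg hk, if_pos (by rw [Nat.even_add_one]; exact hk), hczx]
    obtain ⟨m, hm, hxm⟩ : ∃ m : ℕ, Odd m ∧ x ^ m ∈ (S : Subgroup G) := by
      have hpos : orderOf x ≠ 0 := (orderOf_pos x).ne'
      obtain ⟨e, m, hm, hem⟩ := Nat.exists_eq_two_pow_mul_odd hpos
      refine ⟨m, hm, ?_⟩
      have hP : IsPGroup 2 ↥(Subgroup.zpowers (x ^ m)) := by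
        rintro ⟨g, hg⟩
        refine ⟨e, Subtype.ext ?_⟩
        obtain ⟨j, rfl⟩ := Subgroup.mem_zpowers_iff.mp hg
        show ((x ^ m) ^ j) ^ 2 ^ e = 1
        rw [← zpow_natCast, ← zpow_mul, mul_comm, zpow_mul, zpow_natCast, ← pow_mul, mul_comm m,
          ← hem, pow_orderOf_eq_one, one_zpow]
      have hle : Subgroup.zpowers (x ^ m) ≤ Subgroup.normalizer ((S : Subgroup G) : Set G) := by
        rw [Subgroup.zpowers_le]
        exact pow_mem hx m
      have hsup := hP.to_sup_of_normal_right' S.2 hle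
      have h2 := S.3 hsup le_sup_right
      rw [← h2]
      exact (le_sup_left : Subgroup.zpowers (x ^ m) ≤ _) (Subgroup.mem_zpowers _)
    have h1 := hpow m
    rw [if_neg (Nat.not_even_iff_odd.mpr hm)] at h1
    have h2 : (x ^ m)⁻¹ * c * x ^ m = c := by
      rw [mul_assoc, ← hcent _ hxm, ← mul_assoc, inv_mul_cancel, one_mul]
    rw [h2] at h1
    exact hz1 (mul_eq_left.mp h1.symm)

/-- There is no finite non-abelian simple group whose Sylow 2-subgroups are isomorphic to Z_2 × D_8, where D_8 is the dihedral group of order 8. -/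
theorem result {G : Type*} [Group G] [Finite G] (S : Sylow 2 G) (hS : Nonempty (↥(S : Subgroup G) ≃* Multiplicative (ZMod 2) × DihedralGroup 4))
    [IsSimpleGroup G] (hG : ¬ IsMulCommutative G) : False := by
  obtain ⟨e⟩ := hS
  obtain ⟨h1, h2, h3, h4, h5, h6, h7⟩ := M_misc
  -- transport along `e`
  have hinj : ∀ u v : ↥(S : Subgroup G), e u = e v → (u : G) = v := fun u v h =>
    congrArg Subtype.val (e.injective h)
  have hcent : ∀ s ∈ (S : Subgroup G), s * ((e.symm c₀ : ↥(S : Subgroup G)) : G) =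
      ((e.symm c₀ : ↥(S : Subgroup G)) : G) * s := by
    intro s hs
    exact hinj (⟨s, hs⟩ * e.symm c₀) (e.symm c₀ * ⟨s, hs⟩) (by simpa using h6 (e ⟨s, hs⟩))
  have haz : ((e.symm a₀ : ↥(S : Subgroup G)) : G) * ((e.symm a₀ : ↥(S : Subgroup G)) : G) =
      ((e.symm z₀ : ↥(S : Subgroup G)) : G) :=
    hinj (e.symm a₀ * e.symm a₀) (e.symm z₀) (by simpa using h1)
  have hz1 : ((e.symm z₀ : ↥(S : Subgroup G)) : G) ≠ 1 := by
    intro h
    apply h2
    have h8 : e.symm z₀ = 1 := Subtype.ext h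
    simpa using congrArg e h8
  have hc1 : ((e.symm c₀ : ↥(S : Subgroup G)) : G) ≠ 1 := by
    intro h
    apply h3
    have h8 : e.symm c₀ = 1 := Subtype.ext h
    simpa using congrArg e h8
  have hcz : ((e.symm c₀ : ↥(S : Subgroup G)) : G) ≠ ((e.symm z₀ : ↥(S : Subgroup G)) : G) := by
    intro h
    apply h4
    have h8 : e.symm c₀ = e.symm z₀ := Subtype.ext h
    simpa using congrArg e h8
  have hcc : ((e.symm c₀ : ↥(S : Subgroup G)) : G) * ((e.symm c₀ : ↥(S : Subgroup G)) : G) = 1 :=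
    hinj (e.symm c₀ * e.symm c₀) 1 (by simpa using h5)
  have hsq : ∀ s ∈ (S : Subgroup G), s * s = 1 ∨ s * s = ((e.symm z₀ : ↥(S : Subgroup G)) : G) := by
    intro s hs
    rcases M_sq (e ⟨s, hs⟩) with h | h
    · left
      exact hinj (⟨s, hs⟩ * ⟨s, hs⟩) 1 (by rw [map_mul, map_one]; exact h)
    · right
      exact hinj (⟨s, hs⟩ * ⟨s, hs⟩) (e.symm z₀)
        (by rw [map_mul, MulEquiv.apply_symm_apply]; exact h)
  have hZ : ∀ y ∈ (S : Subgroup G), (∀ s ∈ (S : Subgroup G), y * s = s * y) →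
      y = 1 ∨ y = ((e.symm z₀ : ↥(S : Subgroup G)) : G) ∨ y = ((e.symm c₀ : ↥(S : Subgroup G)) : G) ∨
        y = ((e.symm c₀ : ↥(S : Subgroup G)) : G) * ((e.symm z₀ : ↥(S : Subgroup G)) : G) := by
    intro y hy hyc
    have h8 : ∀ s : M, e ⟨y, hy⟩ * s = s * e ⟨y, hy⟩ := by
      intro s
      have h9 := hyc (e.symm s : ↥(S : Subgroup G)) (e.symm s).2
      have h10 : (⟨y, hy⟩ : ↥(S : Subgroup G)) * e.symm s = e.symm s * ⟨y, hy⟩ := Subtype.ext h9
      simpa using congrArg e h10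
    rcases M_center (e ⟨y, hy⟩) h8 with h | h | h | h
    · left
      exact hinj ⟨y, hy⟩ 1 (by simpa using h)
    · right; left
      exact hinj ⟨y, hy⟩ (e.symm z₀) (by simpa using h)
    · right; right; left
      exact hinj ⟨y, hy⟩ (e.symm c₀) (by simpa using h)
    · right; right; right
      exact hinj ⟨y, hy⟩ (e.symm c₀ * e.symm z₀) (by simpa using h)
  have hnorm : ∀ x ∈ Subgroup.normalizer ((S : Subgroup G) : Set G),
      x⁻¹ * ((e.symm c₀ : ↥(S : Subgroup G)) : G) * x = ((e.symm c₀ : ↥(S : Subgroup G)) : G) :=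
    fun x hx => conj_eq_of_mem_normalizer S _ _ _ (e.symm c₀).2 (e.symm z₀).2 (e.symm a₀).2 hcent haz hz1
      hsq hZ hc1 hcz x hx
  have hV := Cfsg.Agent.Helper55.transfer_ne_one_of_central_involution S
    ((MonoidHom.fst (Multiplicative (ZMod 2)) (DihedralGroup 4)).comp e.toMonoidHom)
    ((e.symm c₀ : ↥(S : Subgroup G)) : G) (e.symm c₀).2 hcc hcent hnorm (by simpa using h7)
  rcases (MonoidHom.normal_ker (MonoidHom.transfer
    ((MonoidHom.fst (Multiplicative (ZMod 2)) (DihedralGroup 4)).comp e.toMonoidHom))).eq_bot_or_eq_top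
    with hker | hker
  · apply hG
    have hinj' := (MonoidHom.ker_eq_bot_iff _).mp hker
    exact ⟨⟨fun x y => hinj' (by rw [map_mul, map_mul, mul_comm])⟩⟩
  · exact hV (by rw [← MonoidHom.mem_ker, hker]; exact Subgroup.mem_top _)

end Cfsg.Agent.S3309
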