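import Cfsg.Statements.S3315
import Cfsg.Agent.Helper43.HeisAut
import Cfsg.Agent.Helper43.SylowSU3b

set_option autoImplicit false
open Cfsg

namespace Cfsg.Agent.S3315

open Cfsg.Agent.Helper43 Cfsg.Agent.Helper43.NormH90 Cfsg.Agent.Helper43.HeisGroup
  Cfsg.Agent.Helper43.HeisAut Cfsg.Agent.Helper43.SylowSU3

/-- an automorphism of a Heisenberg-type group whose square is inner acts trivially on the
centre -/
theorem center_fixed {F : Type*} [Field F] [Fintype F] {q : ℕ} (hF : Fintype.card F = q ^ 2)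
    [CharP F 2] {n : ℕ} (hq : q = 2 ^ n) {P : Type*} [Group P] (H : HeisParam F q P)
    (φ : MulAut P) (s : P) (hφ : φ * φ = MulAut.conj s) (z : P) (hz : z ∈ Subgroup.center P) :
    φ z = z := by
  obtain ⟨lam, τ, hlam, hA, hB⟩ := aut_classification hF H φ
  have hAA : ∀ a, lam * τ (lam * τ a) = a := by
    intro a
    rw [← hA, ← hA, ← autA_mul hF H, hφ, autA_conj hF H]
  have h1 : lam * τ lam = 1 := by
    have := hAA 1
    rwa [map_one, mul_one] at this
  have hττ : ∀ x, τ (τ x) = x := by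
    intro a
    have := hAA a
    rwa [map_mul, ← mul_assoc, h1, one_mul] at this
  have hfixτ : ∀ c : F, c ^ q = c → τ c = c := fun c hc => fix_of_involutive hF hq τ hττ hc
  have hN : lam * lam ^ q = 1 := by
    have e2 : τ (lam * lam ^ q) = lam * lam ^ q := hfixτ _ (norm_fix hF lam)
    have e3 : (lam * τ lam) * (lam * τ lam) ^ q = 1 := by rw [h1, one_pow, one_mul]
    have e4 : (lam * lam ^ q) * (lam * lam ^ q) = 1 := by
      rw [mul_pow, ← map_pow] at e3
      calc (lam * lam ^ q) * (lam * lam ^ q) = (lam * lam ^ q) * τ (lam * lam ^ q) := by rw [e2]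
        _ = lam * τ lam * (lam ^ q * τ (lam ^ q)) := by rw [map_mul]; ring
        _ = 1 := e3
    apply sq_injective (F := F)
    simp only
    rw [e4, one_mul]
  obtain ⟨a, c, hac, rfl⟩ := H.surj z
  have ha : a = 0 := (mem_center_iff hF H hac).1 hz
  subst ha
  have hc : c ^ q = c := (rel0_iff hF c).1 hac
  rw [(autB_spec hF H φ hc).2, hB c hc, hN, one_mul, hfixτ c hc]


/-- Let S be a Sylow 2-subgroup of SU₃(2ⁿ), n ≥ 2 (realised over the field with 4ⁿ elements). If a finite 2-group R contains a subgroup S' of index 2 isomorphic to S, then the centre of S' is contained in the centre of R. -/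
theorem result {R : Type*} [Group R] [Finite R]
    (hR : IsPGroup 2 R) (n : ℕ) (hn : 2 ≤ n) {F : Type*} [Field F] [Fintype F] (hF : Fintype.card F = 4 ^ n)
    (P : Sylow 2 ↥(Cfsg.SU 3 F (2 ^ n))) (S' : Subgroup R) (hS : Nonempty (↥S' ≃* ↥(P : Subgroup ↥(Cfsg.SU 3 F (2 ^ n)))))
    (hidx : S'.index = 2) :
    (Subgroup.center ↥S').map S'.subtype ≤ Subgroup.center R := by
  have hF' : Fintype.card F = (2 ^ n) ^ 2 := by
    rw [hF, ← pow_mul, mul_comm, pow_mul]
    norm_num
  haveI : CharP F 2 := charP_two_of_card (by omega : 1 ≤ n) hF'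
  obtain ⟨H₀⟩ := exists_param_sylow_su hF' (k := n) (by omega) rfl P
  obtain ⟨e⟩ := hS
  have H : HeisParam F (2 ^ n) ↥S' := H₀.map e.symm
  haveI : S'.Normal := Subgroup.normal_of_index_eq_two hidx
  rintro _ ⟨z, hz, rfl⟩
  rw [Subgroup.mem_center_iff]
  intro x
  have hs : x * x ∈ S' := Subgroup.mul_self_mem_of_index_two hidx x
  have hφ : (MulAut.conjNormal x : MulAut ↥S') * MulAut.conjNormal x
      = MulAut.conj (⟨x * x, hs⟩ : ↥S') := by
    rw [← map_mul]
    apply MulEquiv.ext
    intro y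
    apply Subtype.ext
    rw [MulAut.conjNormal_apply, MulAut.conj_apply]
    rfl
  have h1 := center_fixed hF' rfl H (MulAut.conjNormal x) ⟨x * x, hs⟩ hφ z hz
  have h2 := congrArg (Subtype.val) h1
  rw [MulAut.conjNormal_apply] at h2
  show x * (z : R) = (z : R) * x
  calc x * (z : R) = x * (z : R) * x⁻¹ * x := by group
    _ = (z : R) * x := by rw [h2]

end Cfsg.Agent.S3315
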