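import Cfsg.Statements.S3349

set_option autoImplicit false
open Cfsg
open scoped commutatorElement

namespace Cfsg.Agent.S3349

/-- An automorphism of a finite extraspecial p-group that centralizes a maximal abelian subgroup has p-power order. -/
theorem result {Q : Type*} [Group Q] [Finite Q]
    (p : ℕ) [Fact p.Prime] (hQ : Cfsg.IsExtraspecial p Q) (α : MulAut Q)
    (A : Subgroup Q) (hA : IsMulCommutative A) (hmax : ∀ B : Subgroup Q, A ≤ B → IsMulCommutative B → B = A)
    (hfix : ∀ a ∈ A, α a = a) :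
    ∃ k : ℕ, orderOf α = p ^ k := by
  have hp : p.Prime := Fact.out
  have hPG : IsPGroup p Q := hQ.1.1
  have hcomm : commutator Q = Subgroup.center Q := hQ.1.2.2
  -- the centralizer of `A` is `A`
  have hcent : ∀ c : Q, (∀ a ∈ A, c * a = a * c) → c ∈ A := by
    intro c hc
    have hB : IsMulCommutative (Subgroup.closure ((A : Set Q) ∪ {c})) := by
      apply Subgroup.isMulCommutative_closure
      intro x hx y hy
      rcases hx with hx | hx <;> rcases hy with hy | hy
      · exact setLike_mul_comm hx hy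
      · rw [Set.mem_singleton_iff] at hy; subst hy; exact (hc x hx).symm
      · rw [Set.mem_singleton_iff] at hx; subst hx; exact hc y hy
      · rw [Set.mem_singleton_iff] at hx hy; subst hx; subst hy; rfl
    have hle : A ≤ Subgroup.closure ((A : Set Q) ∪ {c}) := fun a ha =>
      Subgroup.subset_closure (Or.inl ha)
    have := hmax _ hle hB
    rw [← this]
    exact Subgroup.subset_closure (Or.inr rfl)
  -- the centre lies in `A`
  have hZA : ∀ c : Q, c ∈ Subgroup.center Q → c ∈ A := fun c hc =>
    hcent c (fun a _ => (Subgroup.mem_center_iff.mp hc a).symm)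
  -- the key fact
  have hkey : ∀ x : Q, x⁻¹ * α x ∈ A := by
    intro x
    apply hcent
    intro a ha
    have h1 : ⁅x, a⁆ ∈ commutator Q := by
      rw [commutator_def]
      exact Subgroup.commutator_mem_commutator (Subgroup.mem_top x) (Subgroup.mem_top a)
    rw [hcomm] at h1
    have h2 : α ⁅x, a⁆ = ⁅x, a⁆ := hfix _ (hZA _ h1)
    rw [commutatorElement_def, map_mul, map_mul, map_mul, map_inv, map_inv, hfix a ha] at h2
    -- h2 : α x * a * (α x)⁻¹ * a⁻¹ = x * a * x⁻¹ * a⁻¹
    have h3 : α x * a * (α x)⁻¹ = x * a * x⁻¹ := mul_right_cancel h2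
    calc x⁻¹ * α x * a = x⁻¹ * (α x * a * (α x)⁻¹) * α x := by group
      _ = x⁻¹ * (x * a * x⁻¹) * α x := by rw [h3]
      _ = a * (x⁻¹ * α x) := by group
  have hpow : ∀ (n : ℕ) (x : Q), (α ^ n) x = x * (x⁻¹ * α x) ^ n := by
    intro n
    induction n with
    | zero => intro x; simp
    | succ n ih =>
      intro x
      rw [pow_succ, MulAut.mul_apply, ih]
      have h4 : α x = x * (x⁻¹ * α x) := by group
      have h5 : α (x⁻¹ * α x) = x⁻¹ * α x := hfix _ (hkey x)
      have h6 : (α x)⁻¹ * α (α x) = x⁻¹ * α x := by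
        have : α (α x) = α x * (x⁻¹ * α x) := by
          conv_lhs => rw [h4, map_mul, h5]
        rw [this]; group
      rw [h6, pow_succ, pow_mul_comm', ← mul_assoc x, ← h4]
  obtain ⟨n, hn⟩ := IsPGroup.iff_card.mp hPG
  have hone : α ^ (p ^ n) = 1 := by
    ext x
    rw [hpow, MulAut.one_apply]
    have : (x⁻¹ * α x) ^ (p ^ n) = 1 := by
      rw [← hn]; exact pow_card_eq_one'
    rw [this, mul_one]
  have hdvd : orderOf α ∣ p ^ n := orderOf_dvd_of_pow_eq_one hone
  obtain ⟨m, _, hm⟩ := (Nat.dvd_prime_pow hp).mp hdvd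
  exact ⟨m, hm⟩

end Cfsg.Agent.S3349
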