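import Cfsg.Statements.S3376
import Mathlib
import Cfsg.Agent.Helper69.SelfCentralizing
-- import your own Cfsg.Agent.* helpers here

set_option autoImplicit false
open Cfsg

namespace Cfsg.Agent.S3376

open Subgroup Equiv



def sig : Perm (Fin 9) := Equiv.swap (0 : Fin 9) 1 * Equiv.swap 1 2 * Equiv.swap 3 4 * Equiv.swap 4 5 * Equiv.swap 6 7 * Equiv.swap 7 8

theorem sig_pow : sig ^ 3 = 1 := by decide
theorem sig_fix : ∀ i : Fin 9, sig i ≠ i := by decide

theorem fact162_3 : (162 : ℕ).factorization 3 = 4 := by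
  have : (162 : ℕ) = 3 ^ 4 * 2 := by norm_num
  rw [this, Nat.factorization_mul (by norm_num) (by norm_num), Finsupp.add_apply,
    Nat.Prime.factorization_pow Nat.prime_three]
  simp [Nat.factorization_eq_zero_of_not_dvd]

theorem fact162_2 : (162 : ℕ).factorization 2 = 1 := by
  have : (162 : ℕ) = 2 ^ 1 * 81 := by norm_num
  rw [this, Nat.factorization_mul (by norm_num) (by norm_num), Finsupp.add_apply,
    Nat.Prime.factorization_pow Nat.prime_two]
  simp [Nat.factorization_eq_zero_of_not_dvd]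

theorem cycleType_of (g : Perm (Fin 9)) (h3 : g ^ 3 = 1) (hfix : ∀ i, g i ≠ i) :
    g.cycleType = Multiset.replicate 3 3 := by
  have hall : ∀ n ∈ g.cycleType, n = 3 := by
    intro n hn
    have h1 : n ∣ orderOf g := by
      rw [← Equiv.Perm.lcm_cycleType]; exact Multiset.dvd_lcm hn
    have h2 : orderOf g ∣ 3 := orderOf_dvd_of_pow_eq_one h3
    have h4 : 2 ≤ n := Equiv.Perm.two_le_of_mem_cycleType hn
    have h5 : n ∣ 3 := h1.trans h2
    have h6 : n ≤ 3 := Nat.le_of_dvd (by norm_num) h5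
    interval_cases n
    · omega
    · rfl
  have hsum : g.cycleType.sum = 9 := by
    rw [Equiv.Perm.sum_cycleType]
    have : g.support = Finset.univ := by
      ext i; simp [Equiv.Perm.mem_support, hfix i]
    rw [this]; simp
  rw [Multiset.eq_replicate]
  refine ⟨?_, hall⟩
  have h := Multiset.eq_replicate_card.mpr hall
  rw [h, Multiset.sum_replicate] at hsum
  simp at hsum
  omega

theorem card_centralizer_of (g : Perm (Fin 9)) (h3 : g ^ 3 = 1) (hfix : ∀ i, g i ≠ i) :
    Nat.card (centralizer {g}) = 162 := by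
  rw [Equiv.Perm.nat_card_centralizer, cycleType_of g h3 hfix]
  simp [Multiset.sum_replicate, Multiset.prod_replicate]
  decide



section grp
variable {G : Type*} [Group G]

/-- extension of a subgroup by an involution normalizing it -/
theorem exists_double [Finite G] (B : Subgroup G) (s : G) (hs : s * s = 1) (hsB : s ∉ B)
    (hconj : ∀ y ∈ B, s * y * s ∈ B) :
    ∃ M : Subgroup G, B ≤ M ∧ s ∈ M ∧ Nat.card M = 2 * Nat.card B ∧ ∀ x ∈ M, x ∈ B ∨ x * s ∈ B := by
  let M : Subgroup G :=
    { carrier := {x | x ∈ B ∨ x * s ∈ B}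
      one_mem' := Or.inl (one_mem _)
      mul_mem' := by
        rintro x y (hx | hx) (hy | hy)
        · exact Or.inl (mul_mem hx hy)
        · right
          have : x * y * s = x * (y * s) := by group
          rw [this]; exact mul_mem hx hy
        · right
          have : x * y * s = (x * s) * (s * y * s) := by
            calc x * y * s = x * (s * s) * y * s := by rw [hs, mul_one]
              _ = (x * s) * (s * y * s) := by group
          rw [this]; exact mul_mem hx (hconj y hy)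
        · left
          have : x * y = (x * s) * (s * (y * s) * s) := by
            calc x * y = x * (s * s) * y * (s * s) := by rw [hs, mul_one, mul_one]
              _ = (x * s) * (s * (y * s) * s) := by group
          rw [this]; exact mul_mem hx (hconj _ hy)
      inv_mem' := by
        rintro x (hx | hx)
        · exact Or.inl (inv_mem hx)
        · right
          have hinv : s⁻¹ = s := inv_eq_of_mul_eq_one_left hs
          have : x⁻¹ * s = s * (x * s)⁻¹ * s := by
            rw [mul_inv_rev, hinv]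
            calc x⁻¹ * s = (s * s) * x⁻¹ * s := by rw [hs, one_mul]
              _ = s * (s * x⁻¹) * s := by group
          rw [this]; exact hconj _ (inv_mem hx) }
  have hBM : B ≤ M := fun x hx => Or.inl hx
  have hsM : s ∈ M := Or.inr (by rw [hs]; exact one_mem _)
  refine ⟨M, hBM, hsM, ?_, fun x hx => hx⟩
  have hMcard : Nat.card M ≤ 2 * Nat.card B := by
    have h1 : (M : Set G) ⊆ (B : Set G) ∪ (fun x => x * s) '' (B : Set G) := by
      rintro x (hx | hx)
      · exact Or.inl hx
      · right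
        refine ⟨x * s, hx, ?_⟩
        show x * s * s = x
        rw [mul_assoc, hs, mul_one]
    calc Nat.card M = (M : Set G).ncard := Nat.card_coe_set_eq (M : Set G)
      _ ≤ ((B : Set G) ∪ (fun x => x * s) '' (B : Set G)).ncard :=
          Set.ncard_le_ncard h1 (Set.toFinite _)
      _ ≤ (B : Set G).ncard + ((fun x => x * s) '' (B : Set G)).ncard :=
          Set.ncard_union_le _ _
      _ ≤ (B : Set G).ncard + (B : Set G).ncard :=
          Nat.add_le_add_left (Set.ncard_image_le (Set.toFinite _)) _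
      _ = 2 * Nat.card B := by
          have : Nat.card B = (B : Set G).ncard := Nat.card_coe_set_eq (B : Set G)
          rw [this]; ring
  obtain ⟨c, hc⟩ := Subgroup.card_dvd_of_le hBM
  have hBpos : 0 < Nat.card B := Nat.card_pos
  have hc1 : c ≠ 1 := by
    rintro rfl
    rw [mul_one] at hc
    have : B = M := Subgroup.eq_of_le_of_card_ge hBM (by omega)
    exact hsB (this ▸ hsM)
  have hc0 : c ≠ 0 := by
    rintro rfl
    rw [mul_zero] at hc
    have : 0 < Nat.card M := Nat.card_pos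
    omega
  have hc2 : c = 2 := by
    have : Nat.card B * c ≤ Nat.card B * 2 := by rw [← hc]; omega
    have := Nat.le_of_mul_le_mul_left this hBpos
    omega
  rw [hc, hc2]; ring

theorem card_eq_mul_of_inf_bot (A B K : Subgroup G) (hA : A ≤ K) (hB : B ≤ K)
    (hinf : A ⊓ B = ⊥) (hsurj : ∀ k ∈ K, ∃ a ∈ A, ∃ b ∈ B, k = a * b) :
    Nat.card K = Nat.card A * Nat.card B := by
  rw [← Nat.card_prod]
  symm
  apply Nat.card_congr
  refine Equiv.ofBijective
    (fun ab : A × B => (⟨ab.1.1 * ab.2.1, K.mul_mem (hA ab.1.2) (hB ab.2.2)⟩ : K)) ⟨?_, ?_⟩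
  · rintro ⟨⟨a, ha⟩, ⟨b, hb⟩⟩ ⟨⟨a', ha'⟩, ⟨b', hb'⟩⟩ h
    have h' : a * b = a' * b' := congrArg Subtype.val h
    have h1 : a'⁻¹ * a = b' * b⁻¹ := by
      calc a'⁻¹ * a = a'⁻¹ * (a * b) * b⁻¹ := by group
        _ = a'⁻¹ * (a' * b') * b⁻¹ := by rw [h']
        _ = b' * b⁻¹ := by group
    have h2 : a'⁻¹ * a ∈ A ⊓ B :=
      ⟨A.mul_mem (A.inv_mem ha') ha, h1 ▸ B.mul_mem hb' (B.inv_mem hb)⟩
    rw [hinf, Subgroup.mem_bot] at h2
    have h3 : b' * b⁻¹ = 1 := by rw [← h1, h2]
    have ea : a = a' := by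
      calc a = a' * (a'⁻¹ * a) := by group
        _ = a' := by rw [h2, mul_one]
    have eb : b = b' := by
      calc b = (b' * b⁻¹)⁻¹ * b' := by group
        _ = b' := by rw [h3, inv_one, one_mul]
    subst ea; subst eb; rfl
  · rintro ⟨k, hk⟩
    obtain ⟨a, ha, b, hb, rfl⟩ := hsurj k hk
    exact ⟨(⟨a, ha⟩, ⟨b, hb⟩), rfl⟩

theorem exists_compl_exp3 [Finite G] (J Z : Subgroup G)
    (hcomm : ∀ a ∈ J, ∀ b ∈ J, a * b = b * a) (hexp : ∀ a ∈ J, a ^ 3 = 1) (hZJ : Z ≤ J) :
    ∃ C : Subgroup G, C ≤ J ∧ Z ⊓ C = ⊥ ∧ ∀ j ∈ J, ∃ w ∈ Z, ∃ c ∈ C, j = w * c := by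
  suffices h : ∀ n : ℕ, ∀ C : Subgroup G, C ≤ J → Z ⊓ C = ⊥ → Nat.card J - Nat.card C ≤ n →
      ∃ C' : Subgroup G, C' ≤ J ∧ Z ⊓ C' = ⊥ ∧ ∀ j ∈ J, ∃ w ∈ Z, ∃ c ∈ C', j = w * c by
    exact h _ ⊥ bot_le (by simp) le_rfl
  intro n
  induction n with
  | zero =>
    intro C hCJ hZC hn
    have hCJeq : C = J := Subgroup.eq_of_le_of_card_ge hCJ (by omega)
    exact ⟨C, hCJ, hZC, fun j hj => ⟨1, Z.one_mem, j, hCJeq ▸ hj, (one_mul j).symm⟩⟩
  | succ n ih =>
    intro C hCJ hZC hn
    by_cases hall : ∀ j ∈ J, ∃ w ∈ Z, ∃ c ∈ C, j = w * c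
    · exact ⟨C, hCJ, hZC, hall⟩
    · push Not at hall
      obtain ⟨a, haJ, ha⟩ := hall
      have ha3 : a ^ 3 = 1 := hexp a haJ
      let C₁ : Subgroup G :=
        { carrier := {g | ∃ c ∈ C, ∃ i : ℕ, g = c * a ^ i}
          one_mem' := ⟨1, C.one_mem, 0, by simp⟩
          mul_mem' := by
            rintro _ _ ⟨c, hc, i, rfl⟩ ⟨c', hc', j, rfl⟩
            refine ⟨c * c', C.mul_mem hc hc', i + j, ?_⟩
            have h1 : a ^ i * c' = c' * a ^ i := hcomm _ (J.pow_mem haJ i) _ (hCJ hc')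
            calc c * a ^ i * (c' * a ^ j) = c * (a ^ i * c') * a ^ j := by group
              _ = c * (c' * a ^ i) * a ^ j := by rw [h1]
              _ = c * c' * a ^ (i + j) := by rw [pow_add]; group
          inv_mem' := by
            rintro _ ⟨c, hc, i, rfl⟩
            refine ⟨c⁻¹, C.inv_mem hc, 2 * i, ?_⟩
            have h2 : a ^ (2 * i) * a ^ i = 1 := by
              rw [← pow_add, show 2 * i + i = 3 * i by ring, pow_mul, ha3, one_pow]
            have h3 : (a ^ i)⁻¹ = a ^ (2 * i) := inv_eq_of_mul_eq_one_left h2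
            rw [mul_inv_rev, h3]
            exact hcomm _ (J.pow_mem haJ _) _ (hCJ (C.inv_mem hc)) }
      have hC₁J : C₁ ≤ J := by
        rintro _ ⟨c, hc, i, rfl⟩
        exact J.mul_mem (hCJ hc) (J.pow_mem haJ i)
      have hCC₁ : C ≤ C₁ := fun c hc => ⟨c, hc, 0, by simp⟩
      have haC₁ : a ∈ C₁ := ⟨1, C.one_mem, 1, by simp⟩
      have haC : a ∉ C := fun h => ha 1 Z.one_mem a h (one_mul a).symm
      have hZC₁ : Z ⊓ C₁ = ⊥ := by
        rw [eq_bot_iff]
        rintro g ⟨hgZ, c, hc, i, hgi⟩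
        rw [Subgroup.mem_bot]
        by_cases hai : a ^ i = 1
        · rw [hai, mul_one] at hgi
          have : c ∈ Z ⊓ C := ⟨hgi ▸ hgZ, hc⟩
          rw [hZC] at this
          rw [hgi]; exact Subgroup.mem_bot.mp this
        · exfalso
          have hk : ∃ k : ℕ, a = (a ^ i) ^ k := by
            have hcases : i % 3 = 0 ∨ i % 3 = 1 ∨ i % 3 = 2 := by omega
            have hmod : a ^ i = a ^ (i % 3) := by
              conv_lhs => rw [← Nat.div_add_mod i 3, pow_add, pow_mul, ha3, one_pow, one_mul]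
            rcases hcases with h | h | h
            · rw [hmod, h, pow_zero] at hai; exact absurd rfl hai
            · exact ⟨1, by rw [hmod, h, pow_one, pow_one]⟩
            · refine ⟨2, ?_⟩
              rw [hmod, h, ← pow_mul]
              calc a = a ^ 3 * a := by rw [ha3, one_mul]
                _ = a ^ (2 * 2) := by rw [← pow_succ]
          obtain ⟨k, hk⟩ := hk
          have hai' : a ^ i = g * c⁻¹ := by
            rw [hgi]
            have : a ^ i * c = c * a ^ i := hcomm _ (J.pow_mem haJ i) _ (hCJ hc)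
            calc a ^ i = a ^ i * c * c⁻¹ := by group
              _ = c * a ^ i * c⁻¹ := by rw [this]
          have hcg : Commute g c⁻¹ := hcomm _ (hZJ hgZ) _ (hCJ (C.inv_mem hc))
          have hfin : a = g ^ k * c⁻¹ ^ k := by
            rw [hk, hai', hcg.mul_pow]
          exact ha (g ^ k) (Z.pow_mem hgZ k) (c⁻¹ ^ k) (C.pow_mem (C.inv_mem hc) k) hfin
      have hlt : Nat.card C < Nat.card C₁ := by
        by_contra h
        push Not at h
        have := Subgroup.eq_of_le_of_card_ge hCC₁ h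
        exact haC (this ▸ haC₁)
      have hle : Nat.card C₁ ≤ Nat.card J := Subgroup.card_le_of_le hC₁J
      exact ih C₁ hC₁J hZC₁ (by omega)

end grp

section grp2
variable {G : Type*} [Group G]

theorem exists_invariant_compl [Finite G] (J Z : Subgroup G)
    (hcomm : ∀ a ∈ J, ∀ b ∈ J, a * b = b * a) (hexp : ∀ a ∈ J, a ^ 3 = 1) (hZJ : Z ≤ J)
    (t : G) (ht : t * t = 1) (htJ : ∀ j ∈ J, t * j * t ∈ J) (htZ : ∀ w ∈ Z, t * w * t = w) :
    ∃ J₁ : Subgroup G, J₁ ≤ J ∧ Z ⊓ J₁ = ⊥ ∧ (∀ j ∈ J, ∃ w ∈ Z, ∃ c ∈ J₁, j = w * c) ∧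
      ∀ j ∈ J₁, t * j * t ∈ J₁ := by
  obtain ⟨C, hCJ, hZC, hdec⟩ := exists_compl_exp3 J Z hcomm hexp hZJ
  have ht' : t⁻¹ = t := inv_eq_of_mul_eq_one_left ht
  have hconjmul : ∀ a b : G, t * (a * b) * t = (t * a * t) * (t * b * t) := by
    intro a b
    calc t * (a * b) * t = t * a * (t * t) * b * t := by rw [ht, mul_one]; group
      _ = (t * a * t) * (t * b * t) := by group
  let J₁ : Subgroup G :=
    { carrier := {j | ∃ w ∈ Z, ∃ c ∈ C, ∃ c' ∈ C, j = w * c ∧ t * j * t = w⁻¹ * c'}
      one_mem' := ⟨1, Z.one_mem, 1, C.one_mem, 1, C.one_mem, by simp, by simp [ht]⟩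
      mul_mem' := by
        rintro j j' ⟨w, hw, c, hc, c', hc', rfl, h2⟩ ⟨w', hw', d, hd, d', hd', rfl, h2'⟩
        refine ⟨w * w', Z.mul_mem hw hw', c * d, C.mul_mem hc hd, c' * d', C.mul_mem hc' hd',
          ?_, ?_⟩
        · have : c * w' = w' * c := hcomm _ (hCJ hc) _ (hZJ hw')
          calc w * c * (w' * d) = w * (c * w') * d := by group
            _ = w * (w' * c) * d := by rw [this]
            _ = w * w' * (c * d) := by group
        · rw [hconjmul, h2, h2']
          have h3 : c' * w'⁻¹ = w'⁻¹ * c' := hcomm _ (hCJ hc') _ (hZJ (Z.inv_mem hw'))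
          have hww : w⁻¹ * w'⁻¹ = (w * w')⁻¹ := by
            rw [mul_inv_rev]; exact hcomm _ (hZJ (Z.inv_mem hw)) _ (hZJ (Z.inv_mem hw'))
          calc w⁻¹ * c' * (w'⁻¹ * d') = w⁻¹ * (c' * w'⁻¹) * d' := by group
            _ = w⁻¹ * (w'⁻¹ * c') * d' := by rw [h3]
            _ = (w⁻¹ * w'⁻¹) * (c' * d') := by group
            _ = (w * w')⁻¹ * (c' * d') := by rw [hww]
      inv_mem' := by
        rintro j ⟨w, hw, c, hc, c', hc', rfl, h2⟩
        refine ⟨w⁻¹, Z.inv_mem hw, c⁻¹, C.inv_mem hc, c'⁻¹, C.inv_mem hc', ?_, ?_⟩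
        · rw [mul_inv_rev]; exact hcomm _ (hCJ (C.inv_mem hc)) _ (hZJ (Z.inv_mem hw))
        · have e : t * (w * c)⁻¹ * t = (t * (w * c) * t)⁻¹ := by
            rw [mul_inv_rev (t * (w * c)) t, mul_inv_rev t (w * c), ht']; group
          rw [e, h2, mul_inv_rev, inv_inv]
          exact hcomm _ (hCJ (C.inv_mem hc')) _ (hZJ hw) }
  have hJ₁J : J₁ ≤ J := by
    rintro j ⟨w, hw, c, hc, c', hc', rfl, h2⟩
    exact J.mul_mem (hZJ hw) (hCJ hc)
  refine ⟨J₁, hJ₁J, ?_, ?_, ?_⟩
  · rw [eq_bot_iff]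
    rintro g ⟨hgZ, w, hw, c, hc, c', hc', hg, h2⟩
    rw [Subgroup.mem_bot]
    have hc1 : c = 1 := by
      have : c ∈ Z ⊓ C := by
        refine ⟨?_, hc⟩
        have : c = w⁻¹ * g := by rw [hg]; group
        rw [this]; exact Z.mul_mem (Z.inv_mem hw) hgZ
      rw [hZC] at this; exact Subgroup.mem_bot.mp this
    rw [hc1, mul_one] at hg
    rw [htZ g hgZ, hg] at h2
    have hcw : c' = w * w := by
      calc c' = w * (w⁻¹ * c') := by group
        _ = w * w := by rw [← h2]
    have hww : w * w = 1 := by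
      have : w * w ∈ Z ⊓ C := ⟨Z.mul_mem hw hw, hcw ▸ hc'⟩
      rw [hZC] at this; exact Subgroup.mem_bot.mp this
    have hw3 : w ^ 3 = 1 := hexp w (hZJ hw)
    rw [hg]
    calc w = w ^ 3 * (w * w)⁻¹ := by group
      _ = 1 := by rw [hw3, hww]; simp
  · intro j hj
    obtain ⟨w, hw, c, hc, rfl⟩ := hdec j hj
    obtain ⟨w', hw', c', hc', h2⟩ := hdec (t * (w * c) * t) (htJ _ hj)
    set u := (w * w') * (w * w') with hu
    have huZ : u ∈ Z := Z.mul_mem (Z.mul_mem hw hw') (Z.mul_mem hw hw')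
    have hww3 : (w * w') ^ 3 = 1 := hexp _ (hZJ (Z.mul_mem hw hw'))
    have huu : u * u = w * w' := by
      rw [hu]
      have e3 : (w * w') ^ 3 = (w * w') * (w * w') * (w * w') := by
        rw [pow_succ, pow_succ, pow_one]
      calc (w * w') * (w * w') * ((w * w') * (w * w'))
          = ((w * w') * (w * w') * (w * w')) * (w * w') := by simp only [mul_assoc]
        _ = w * w' := by rw [← e3, hww3, one_mul]
    refine ⟨u, huZ, u⁻¹ * (w * c), ⟨u⁻¹ * w, Z.mul_mem (Z.inv_mem huZ) hw, c, hc, c', hc', ?_, ?_⟩, ?_⟩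
    · group
    · rw [hconjmul, h2, htZ _ (Z.inv_mem huZ)]
      -- u⁻¹ * (w' * c') = (u⁻¹ * w)⁻¹ * c'
      have key : u⁻¹ * w' = (u⁻¹ * w)⁻¹ := by
        have hcw : u⁻¹ * w⁻¹ = w⁻¹ * u⁻¹ :=
          hcomm _ (hZJ (Z.inv_mem huZ)) _ (hZJ (Z.inv_mem hw))
        have e1 : w' = w⁻¹ * (u * u) := by rw [huu]; group
        calc u⁻¹ * w' = u⁻¹ * (w⁻¹ * (u * u)) := congrArg (fun x => u⁻¹ * x) e1
          _ = (u⁻¹ * w⁻¹) * (u * u) := by group
          _ = (w⁻¹ * u⁻¹) * (u * u) := by rw [hcw]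
          _ = w⁻¹ * u := by group
          _ = (u⁻¹ * w)⁻¹ := by group
      rw [← mul_assoc, key]
    · group
  · rintro j ⟨w, hw, c, hc, c', hc', hj, h2⟩
    refine ⟨w⁻¹, Z.inv_mem hw, c', hc', c, hc, h2, ?_⟩
    rw [inv_inv, ← hj]
    calc t * (t * j * t) * t = (t * t) * j * (t * t) := by group
      _ = j := by rw [ht, one_mul, mul_one]

end grp2

/-- Let G be a group of order 162 = 3⁴·2 with Sylow 3-subgroup S and Sylow 2-subgroup T, having an elementary abelian normal subgroup J of order 27, such that Z = Z(S) has order 3, Z centralizes T, and C_S(T) ≠ S. Then G is isomorphic to the centralizer in Sym(9) of a product of three disjoint 3-cycles. -/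
theorem result {G : Type*} [Group G] [Finite G] (hG : Nat.card G = 162)
    (S : Sylow 3 G) (T : Sylow 2 G) (J : Subgroup G) [hJn : J.Normal] (hJcomm : IsMulCommutative J)
    (hJexp : ∀ a ∈ J, a ^ 3 = 1) (hJcard : Nat.card J = 27)
    (Z : Subgroup G) (hZ : Z = (S : Subgroup G) ⊓ Subgroup.centralizer ((S : Subgroup G) : Set G)) (hZcard : Nat.card Z = 3)
    (hZT : Z ≤ Subgroup.centralizer ((T : Subgroup G) : Set G))
    (hST : (S : Subgroup G) ⊓ Subgroup.centralizer ((T : Subgroup G) : Set G) ≠ S) :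
    Nonempty (G ≃* Subgroup.centralizer ({Equiv.swap (0 : Fin 9) 1 * Equiv.swap 1 2 * Equiv.swap 3 4 * Equiv.swap 4 5 * Equiv.swap 6 7 * Equiv.swap 7 8} : Set (Equiv.Perm (Fin 9)))) := by
  have h3S : Nat.card (S : Subgroup G) = 81 := by
    rw [Sylow.card_eq_multiplicity, hG, fact162_3]; norm_num
  have h2T : Nat.card (T : Subgroup G) = 2 := by
    rw [Sylow.card_eq_multiplicity, hG, fact162_2]; norm_num
  -- the involution
  obtain ⟨t, htT, ht1, ht2, hTall⟩ : ∃ t : G, t ∈ (T : Subgroup G) ∧ t ≠ 1 ∧ t * t = 1 ∧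
      ∀ x ∈ (T : Subgroup G), x = 1 ∨ x = t := by
    obtain ⟨⟨t, htT⟩, ht1, huniq⟩ := (Nat.card_eq_two_iff' (1 : (T : Subgroup G))).mp h2T
    have ht1' : t ≠ 1 := fun h => ht1 (Subtype.ext h)
    have hall : ∀ x ∈ (T : Subgroup G), x = 1 ∨ x = t := by
      intro x hx
      by_cases hx1 : x = 1
      · exact Or.inl hx1
      · right
        have := huniq ⟨x, hx⟩ (fun h => hx1 (congrArg Subtype.val h))
        exact congrArg Subtype.val this
    refine ⟨t, htT, ht1', ?_, hall⟩
    rcases hall (t * t) ((T : Subgroup G).mul_mem htT htT) with h | h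
    · exact h
    · exfalso; apply ht1'
      calc t = t⁻¹ * (t * t) := by group
        _ = 1 := by rw [h]; group
  have ht' : t⁻¹ = t := inv_eq_of_mul_eq_one_left ht2
  have hSidx : (S : Subgroup G).index = 2 := by
    have := Subgroup.card_mul_index (S : Subgroup G)
    rw [h3S, hG] at this; omega
  have hSn : (S : Subgroup G).Normal := Subgroup.normal_of_index_eq_two hSidx
  have htS : t ∉ (S : Subgroup G) := by
    intro h
    have h1 : orderOf t ∣ 81 := h3S ▸ Subgroup.orderOf_dvd_natCard _ h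
    have h2 : orderOf t = 2 := orderOf_eq_prime (by rw [pow_two]; exact ht2) ht1
    rw [h2] at h1; omega
  have hcomm : ∀ a ∈ J, ∀ b ∈ J, a * b = b * a := by
    intro a ha b hb
    have := hJcomm.is_comm.comm (⟨a, ha⟩ : J) ⟨b, hb⟩
    exact congrArg Subtype.val this
  have hJS : J ≤ (S : Subgroup G) := by
    intro j hj
    have h1 : j ^ 2 ∈ (S : Subgroup G) := Subgroup.sq_mem_of_index_two hSidx j
    have h2 : j = (j ^ 2) ^ 2 := by
      rw [← pow_mul]
      calc j = j ^ 3 * j := by rw [hJexp j hj, one_mul]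
        _ = j ^ (2 * 2) := by rw [← pow_succ]
    rw [h2]; exact (S : Subgroup G).pow_mem h1 2
  have hZS : Z ≤ (S : Subgroup G) := hZ ▸ inf_le_left
  have hZc : Z ≤ Subgroup.centralizer ((S : Subgroup G) : Set G) := hZ ▸ inf_le_right
  -- Z ≤ J
  have hZJ : Z ≤ J := by
    have hJC : J ≤ (S : Subgroup G) ⊓ Subgroup.centralizer (J : Set G) := by
      refine le_inf hJS ?_
      intro j hj
      rw [Subgroup.mem_centralizer_iff]
      intro g hg
      exact hcomm g hg j hj
    have hZC : Z ≤ (S : Subgroup G) ⊓ Subgroup.centralizer (J : Set G) :=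
      le_inf hZS (fun z hz => Subgroup.centralizer_le hJS (hZc hz))
    have hd1 : 27 ∣ Nat.card ((S : Subgroup G) ⊓ Subgroup.centralizer (J : Set G) : Subgroup G) :=
      hJcard ▸ Subgroup.card_dvd_of_le hJC
    have hd2 : Nat.card ((S : Subgroup G) ⊓ Subgroup.centralizer (J : Set G) : Subgroup G) ∣ 81 :=
      h3S ▸ Subgroup.card_dvd_of_le inf_le_left
    have hcases : Nat.card ((S : Subgroup G) ⊓ Subgroup.centralizer (J : Set G) : Subgroup G) = 27 ∨
        Nat.card ((S : Subgroup G) ⊓ Subgroup.centralizer (J : Set G) : Subgroup G) = 81 := by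
      obtain ⟨c, hc⟩ := hd1
      obtain ⟨e, he⟩ := hd2
      rw [hc] at he ⊢
      have hce : c * e = 3 := by nlinarith
      have hc3 : c ∣ 3 := Dvd.intro _ hce
      have : c = 1 ∨ c = 3 := (Nat.dvd_prime Nat.prime_three).mp hc3
      rcases this with rfl | rfl
      · left; rfl
      · right; rfl
    rcases hcases with h27 | h81
    · have : J = (S : Subgroup G) ⊓ Subgroup.centralizer (J : Set G) :=
        Subgroup.eq_of_le_of_card_ge hJC (by rw [h27, hJcard])
      rw [this]; exact hZC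
    · exfalso
      have hSC : (S : Subgroup G) ⊓ Subgroup.centralizer (J : Set G) = S :=
        Subgroup.eq_of_le_of_card_ge inf_le_left (by rw [h81, h3S])
      have hJZ : J ≤ Z := by
        rw [hZ]
        refine le_inf hJS ?_
        intro j hj
        rw [Subgroup.mem_centralizer_iff]
        intro s hs
        have hs2 : s ∈ (S : Subgroup G) ⊓ Subgroup.centralizer (J : Set G) := by
          rw [hSC]; exact hs
        have hs' : s ∈ Subgroup.centralizer (J : Set G) := hs2.2
        rw [Subgroup.mem_centralizer_iff] at hs'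
        exact (hs' j hj).symm
      have := Subgroup.card_le_of_le hJZ
      rw [hJcard, hZcard] at this; omega
  -- Z is central in G
  have hZcen : ∀ w ∈ Z, ∀ g : G, g * w = w * g := by
    have hS' : (S : Subgroup G) ≤ Subgroup.centralizer (Z : Set G) := by
      intro s hs
      rw [Subgroup.mem_centralizer_iff]
      intro w hw
      have := hZc hw
      rw [Subgroup.mem_centralizer_iff] at this
      exact (this s hs).symm
    have hT' : (T : Subgroup G) ≤ Subgroup.centralizer (Z : Set G) := by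
      intro s hs
      rw [Subgroup.mem_centralizer_iff]
      intro w hw
      have := hZT hw
      rw [Subgroup.mem_centralizer_iff] at this
      exact (this s hs).symm
    have hd1 : 81 ∣ Nat.card (Subgroup.centralizer (Z : Set G)) := h3S ▸ Subgroup.card_dvd_of_le hS'
    have hd2 : 2 ∣ Nat.card (Subgroup.centralizer (Z : Set G)) := h2T ▸ Subgroup.card_dvd_of_le hT'
    have hd3 : Nat.card (Subgroup.centralizer (Z : Set G)) ∣ 162 := hG ▸ Subgroup.card_subgroup_dvd_card _
    have hd4 : 162 ∣ Nat.card (Subgroup.centralizer (Z : Set G)) :=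
      Nat.Coprime.mul_dvd_of_dvd_of_dvd (by norm_num : Nat.Coprime 81 2) hd1 hd2
    have htop : Subgroup.centralizer (Z : Set G) = ⊤ :=
      (Subgroup.card_eq_iff_eq_top _).mp (by rw [hG]; exact Nat.dvd_antisymm hd3 hd4)
    intro w hw g
    have hg : g ∈ Subgroup.centralizer (Z : Set G) := htop ▸ Subgroup.mem_top g
    rw [Subgroup.mem_centralizer_iff] at hg
    exact (hg w hw).symm
  have htJ : ∀ j ∈ J, t * j * t ∈ J := by
    intro j hj
    have := hJn.conj_mem j hj t
    rwa [ht'] at this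
  have htZ : ∀ w ∈ Z, t * w * t = w := by
    intro w hw
    rw [hZcen w hw t, mul_assoc, ht2, mul_one]
  obtain ⟨J₁, hJ₁J, hZJ₁, hdec, hJ₁t⟩ := exists_invariant_compl J Z hcomm hJexp hZJ t ht2 htJ htZ
  have hJ₁card : Nat.card J₁ = 9 := by
    have := card_eq_mul_of_inf_bot Z J₁ J hZJ hJ₁J hZJ₁ hdec
    rw [hJcard, hZcard] at this; omega
  have htJ₁ : t ∉ J₁ := fun h => htS (hJS (hJ₁J h))
  obtain ⟨H, hJ₁H, htH, hHcard, hHmem⟩ := exists_double J₁ t ht2 htJ₁ hJ₁t
  have hHZ : ∀ x ∈ H, x ∈ Z → x = 1 := by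
    intro x hxH hxZ
    rcases hHmem x hxH with h | h
    · have : x ∈ Z ⊓ J₁ := ⟨hxZ, h⟩
      rw [hZJ₁] at this; exact Subgroup.mem_bot.mp this
    · exfalso; apply htS
      have : t = x⁻¹ * (x * t) := by group
      rw [this]
      exact (S : Subgroup G).mul_mem ((S : Subgroup G).inv_mem (hZS hxZ)) (hJS (hJ₁J h))
  have hHidx : H.index = 9 := by
    have := Subgroup.card_mul_index H
    rw [hHcard, hJ₁card, hG] at this; omega
  -- the core of H is trivial
  have hcore : H.normalCore = ⊥ := by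
    have hNn : H.normalCore.Normal := Subgroup.normalCore_normal H
    have hNH : H.normalCore ≤ H := Subgroup.normalCore_le H
    have hNS : H.normalCore ⊓ (S : Subgroup G) = ⊥ := by
      by_contra hne
      have : Group.IsNilpotent (S : Subgroup G) := (S.isPGroup').isNilpotent
      have hnorm : ((H.normalCore ⊓ (S : Subgroup G)).subgroupOf (S : Subgroup G)).Normal := by
        have : (H.normalCore ⊓ (S : Subgroup G)).Normal := Subgroup.normal_inf_normal _ _
        infer_instance
      have hne' : (H.normalCore ⊓ (S : Subgroup G)).subgroupOf (S : Subgroup G) ≠ ⊥ := by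
        intro h
        apply hne
        rw [Subgroup.subgroupOf_eq_bot] at h
        have : H.normalCore ⊓ (S : Subgroup G) ⊓ (S : Subgroup G) = H.normalCore ⊓ (S : Subgroup G) := by
          rw [inf_assoc, inf_idem]
        rw [← this]
        exact disjoint_iff.mp h
      obtain ⟨z', hz'N, hz'1, hz'c⟩ :=
        Cfsg.Agent.Helper69.exists_mem_center_of_normal_ne_bot _ hne'
      have hzN : (z' : G) ∈ H.normalCore := (Subgroup.mem_subgroupOf.mp hz'N).1
      have hzZ : (z' : G) ∈ Z := by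
        rw [hZ]
        refine Subgroup.mem_inf.mpr ⟨z'.2, ?_⟩
        rw [Subgroup.mem_centralizer_iff]
        intro s hs
        rw [Subgroup.mem_center_iff] at hz'c
        have := hz'c ⟨s, hs⟩
        exact congrArg Subtype.val this
      exact hz'1 (Subtype.ext (hHZ _ (hNH hzN) hzZ))
    have hNJ₁ : ∀ m ∈ H.normalCore, m ∈ J₁ → m = 1 := by
      intro m hmN hmJ
      have h1 : m ^ 2 ∈ H.normalCore ⊓ (S : Subgroup G) :=
        ⟨H.normalCore.pow_mem hmN 2, Subgroup.sq_mem_of_index_two hSidx m⟩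
      rw [hNS, Subgroup.mem_bot] at h1
      have h2 : m ^ 3 = 1 := hJexp m (hJ₁J hmJ)
      calc m = m ^ 3 * (m ^ 2)⁻¹ := by group
        _ = 1 := by rw [h2, h1]; simp
    have hNall : ∀ m ∈ H.normalCore, m = 1 ∨ m = t := by
      intro m hmN
      rcases hHmem m (hNH hmN) with h | h
      · exact Or.inl (hNJ₁ m hmN h)
      · right
        have h1 : (m * t) * (m * t) ∈ H.normalCore := by
          have : (m * t) * (m * t) = m * (t * m * t⁻¹) := by rw [ht']; group
          rw [this]
          exact H.normalCore.mul_mem hmN (hNn.conj_mem m hmN t)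
        have h2 : (m * t) * (m * t) = 1 := hNJ₁ _ h1 (J₁.mul_mem h h)
        have h3 : (m * t) ^ 3 = 1 := hJexp _ (hJ₁J h)
        have h4 : m * t = 1 := by
          have e3 : (m * t) ^ 3 = (m * t) * (m * t) * (m * t) := by
            rw [pow_succ, pow_succ, pow_one]
          rw [e3, h2, one_mul] at h3
          exact h3
        calc m = (m * t) * t⁻¹ := by group
          _ = t := by rw [h4, ht', one_mul]
    by_contra hne
    obtain ⟨m, hm, hm1⟩ : ∃ m ∈ H.normalCore, m ≠ 1 := by
      by_contra hcon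
      push Not at hcon
      exact hne ((Subgroup.eq_bot_iff_forall _).mpr hcon)
    have htN : t ∈ H.normalCore := by
      rcases hNall m hm with h | h
      · exact absurd h hm1
      · exact h ▸ hm
    apply hST
    apply le_antisymm inf_le_left
    intro s hs
    refine Subgroup.mem_inf.mpr ⟨hs, ?_⟩
    rw [Subgroup.mem_centralizer_iff]
    intro x hx
    rcases hTall x hx with rfl | rfl
    · simp
    · rcases hNall (s * x * s⁻¹) (hNn.conj_mem x htN s) with h | h
      · exfalso; apply ht1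
        calc x = s⁻¹ * (s * x * s⁻¹) * s := by group
          _ = 1 := by rw [h]; group
      · calc x * s = (s * x * s⁻¹) * s := by rw [h]
          _ = s * x := by group
  -- the permutation representation
  let φ : G →* Equiv.Perm (G ⧸ H) := MulAction.toPermHom G (G ⧸ H)
  have hφ : Function.Injective φ := by
    rw [← MonoidHom.ker_eq_bot_iff, ← Subgroup.normalCore_eq_ker]; exact hcore
  have hcard9 : Nat.card (G ⧸ H) = 9 := hHidx
  let e : G ⧸ H ≃ Fin 9 := Finite.equivFinOfCardEq hcard9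
  let ψ : G →* Equiv.Perm (Fin 9) := (e.permCongrHom).toMonoidHom.comp φ
  have hψ : Function.Injective ψ := e.permCongrHom.injective.comp hφ
  -- a generator of Z
  obtain ⟨z, hzZ, hz1⟩ : ∃ z ∈ Z, z ≠ 1 := by
    by_contra hcon
    push Not at hcon
    have : Z = ⊥ := (Subgroup.eq_bot_iff_forall _).mpr hcon
    rw [this] at hZcard
    simp at hZcard
  have hz3 : z ^ 3 = 1 := hJexp z (hZJ hzZ)
  have hτ3 : ψ z ^ 3 = 1 := by rw [← map_pow, hz3, map_one]
  have hτfix : ∀ i : Fin 9, ψ z i ≠ i := by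
    intro i hi
    have h1 : e (z • e.symm i) = i := hi
    have h2 : z • e.symm i = e.symm i := by
      apply e.injective; rw [h1, Equiv.apply_symm_apply]
    obtain ⟨g, hg⟩ := QuotientGroup.mk_surjective (e.symm i)
    rw [← hg] at h2
    have h3 : ((z * g : G) : G ⧸ H) = (g : G ⧸ H) := h2
    have h4 := QuotientGroup.eq.mp h3
    have h5 : (z * g)⁻¹ * g = z⁻¹ := by
      have := hZcen z hzZ g
      calc (z * g)⁻¹ * g = (g * z)⁻¹ * g := by rw [this]
        _ = z⁻¹ := by group
    rw [h5] at h4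
    have := hHZ z⁻¹ h4 (Z.inv_mem hzZ)
    exact hz1 (inv_eq_one.mp this)
  have hct : sig.cycleType = (ψ z).cycleType := by
    rw [cycleType_of sig sig_pow sig_fix, cycleType_of (ψ z) hτ3 hτfix]
  obtain ⟨c, hc⟩ := isConj_iff.mp ((Equiv.Perm.isConj_iff_cycleType_eq).mpr hct)
  let Ψ : G →* Equiv.Perm (Fin 9) := (MulAut.conj c⁻¹).toMonoidHom.comp ψ
  have hΨ : Function.Injective Ψ := (MulAut.conj c⁻¹).injective.comp hψ
  have hΨz : Ψ z = sig := by
    show c⁻¹ * ψ z * c⁻¹⁻¹ = sig
    rw [← hc]; group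
  have hΨmem : ∀ g : G, Ψ g ∈ Subgroup.centralizer ({sig} : Set (Equiv.Perm (Fin 9))) := by
    intro g
    rw [Subgroup.mem_centralizer_iff]
    intro h hh
    rw [Set.mem_singleton_iff] at hh
    rw [hh, ← hΨz, ← map_mul, ← map_mul, hZcen z hzZ g]
  let Ψ' : G →* Subgroup.centralizer ({sig} : Set (Equiv.Perm (Fin 9))) :=
    Ψ.codRestrict _ hΨmem
  have hΨ' : Function.Injective Ψ' := by
    intro a b hab
    apply hΨ
    exact congrArg Subtype.val hab
  have hbij : Function.Bijective Ψ' := by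
    rw [Nat.bijective_iff_injective_and_card]
    exact ⟨hΨ', by rw [hG, card_centralizer_of sig sig_pow sig_fix]⟩
  exact ⟨MulEquiv.ofBijective Ψ' hbij⟩

end Cfsg.Agent.S3376
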