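import Mathlib
import Cfsg.Agent.Helper75.Ito
import Cfsg.Agent.Helper80.CharOrtho
import Cfsg.Agent.Helper79.Codegree
import Cfsg.Agent.Helper41.Order60
import Cfsg.Statements.S3669

set_option autoImplicit false
open Cfsg

namespace Cfsg.Agent.S3669

/-- `H` has a normal Sylow `p`-subgroup. -/
def NS (p : ℕ) (H : Type*) [Group H] : Prop := ∃ P : Sylow p H, (P : Subgroup H).Normal

theorem fact_pow_mul {p k m : ℕ} (hp : p.Prime) (hm : ¬ p ∣ m) :
    (p ^ k * m).factorization p = k := by
  have hm0 : m ≠ 0 := by rintro rfl; exact hm (dvd_zero p)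
  rw [Nat.factorization_mul (pow_ne_zero k hp.ne_zero) hm0, Finsupp.add_apply,
    Nat.Prime.factorization_pow hp, Finsupp.single_eq_same,
    Nat.factorization_eq_zero_of_not_dvd hm, add_zero]

theorem sylow_card {H : Type*} [Group H] [Finite H] {p k m : ℕ} [Fact p.Prime] (P : Sylow p H)
    (hH : Nat.card H = p ^ k * m) (hm : ¬ p ∣ m) : Nat.card P = p ^ k := by
  rw [Sylow.card_eq_multiplicity, hH, fact_pow_mul Fact.out hm]

theorem sylow_index {H : Type*} [Group H] [Finite H] {p k m : ℕ} [Fact p.Prime] (P : Sylow p H)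
    (hH : Nat.card H = p ^ k * m) (hm : ¬ p ∣ m) : (P : Subgroup H).index = m := by
  have h1 := (P : Subgroup H).card_mul_index
  rw [sylow_card P hH hm, hH] at h1
  exact Nat.eq_of_mul_eq_mul_left (pow_pos (Fact.out : p.Prime).pos k) h1

theorem ns_of_index {H : Type*} [Group H] [Finite H] {p : ℕ} [Fact p.Prime] (P : Sylow p H)
    (h : (P : Subgroup H).index ≤ p) : NS p H := by
  refine ⟨P, ?_⟩
  have hp1 : 1 < p := (Fact.out : p.Prime).one_lt
  have h1 : Nat.card (Sylow p H) ≡ 1 [MOD p] := card_sylow_modEq_one p H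
  have h2 : Nat.card (Sylow p H) ∣ (P : Subgroup H).index := P.card_dvd_index
  have hidx : (P : Subgroup H).index ≠ 0 := Subgroup.index_ne_zero_of_finite
  have h3 : Nat.card (Sylow p H) ≤ p := (Nat.le_of_dvd (Nat.pos_of_ne_zero hidx) h2).trans h
  unfold Nat.ModEq at h1
  rw [Nat.mod_eq_of_lt hp1] at h1
  have h4 : Nat.card (Sylow p H) ≠ p := by
    intro h5
    rw [h5, Nat.mod_self] at h1
    exact absurd h1 (by norm_num)
  have h5 : Nat.card (Sylow p H) < p := lt_of_le_of_ne h3 h4
  rw [Nat.mod_eq_of_lt h5] at h1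
  rw [P.card_eq_index_normalizer, Subgroup.index_eq_one] at h1
  exact Subgroup.normalizer_eq_top_iff.mp h1

theorem ns_of_normal {H : Type*} [Group H] [Finite H] {p : ℕ} [Fact p.Prime] (K : Subgroup H)
    [K.Normal] (hK : NS p K) (hidx : ¬ p ∣ K.index) : NS p H := by
  obtain ⟨P₀, hP₀⟩ := hK
  haveI : (P₀ : Subgroup K).Characteristic := P₀.characteristic_of_normal hP₀
  have hn : ((P₀ : Subgroup K).map K.subtype).Normal := inferInstance
  have hcard : Nat.card ((P₀ : Subgroup K).map K.subtype) = p ^ (Nat.card H).factorization p := by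
    rw [Subgroup.card_map_of_injective K.subtype_injective, Sylow.card_eq_multiplicity]
    congr 1
    rw [← K.card_mul_index, Nat.factorization_mul Nat.card_pos.ne'
      Subgroup.index_ne_zero_of_finite, Finsupp.add_apply,
      Nat.factorization_eq_zero_of_not_dvd hidx, add_zero]
  exact ⟨Sylow.ofCard _ hcard, by rw [Sylow.coe_ofCard]; exact hn⟩

theorem exists_normal_of_quotient {G : Type*} [Group G] [Finite G] {p : ℕ} [Fact p.Prime]
    (N : Subgroup G) [N.Normal] (hq : NS p (G ⧸ N)) :
    ∃ L : Subgroup G, L.Normal ∧ ¬ p ∣ L.index ∧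
      Nat.card L = Nat.card N * p ^ (Nat.card (G ⧸ N)).factorization p := by
  obtain ⟨Pb, hPb⟩ := hq
  refine ⟨(Pb : Subgroup (G ⧸ N)).comap (QuotientGroup.mk' N), hPb.comap _, ?_, ?_⟩
  · rw [Subgroup.index_comap_of_surjective _ (QuotientGroup.mk'_surjective N)]
    exact Pb.not_dvd_index
  · have h1 := ((Pb : Subgroup (G ⧸ N)).comap (QuotientGroup.mk' N)).card_mul_index
    rw [Subgroup.index_comap_of_surjective _ (QuotientGroup.mk'_surjective N)] at h1
    have h2 := (Pb : Subgroup (G ⧸ N)).card_mul_index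
    have h3 := N.card_eq_card_quotient_mul_card_subgroup
    rw [Sylow.card_eq_multiplicity] at h2
    have hidx : (Pb : Subgroup (G ⧸ N)).index ≠ 0 := Subgroup.index_ne_zero_of_finite
    apply Nat.eq_of_mul_eq_mul_right (Nat.pos_of_ne_zero hidx)
    generalize (Nat.card (G ⧸ N)).factorization p = k at h2 ⊢
    rw [h1, h3, ← h2]; ring

theorem exists_normal_index_two {H : Type*} [Group H] [Finite H] {m : ℕ}
    (hH : Nat.card H = 2 * m) (hm : ¬ 2 ∣ m) :
    ∃ K : Subgroup H, K.Normal ∧ Nat.card K = m ∧ K.index = 2 := by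
  haveI : Fact (Nat.Prime 2) := ⟨Nat.prime_two⟩
  obtain ⟨T⟩ := (inferInstance : Nonempty (Sylow 2 H))
  have hT : Nat.card T = 2 := by
    simpa using sylow_card (k := 1) T (by simpa using hH) hm
  have hTN : Subgroup.normalizer ((T : Subgroup H) : Set H) ≤
      Subgroup.centralizer ((T : Subgroup H) : Set H) := by
    intro g hg
    rw [Subgroup.mem_centralizer_iff]
    intro x hx
    obtain ⟨y, hy1, hy2⟩ := (Nat.card_eq_two_iff' (1 : T)).mp hT
    by_cases hx1 : x = 1
    · rw [hx1]; simp
    · have hgx : g * x * g⁻¹ ∈ (T : Subgroup H) := (Subgroup.mem_normalizer_iff.mp hg x).mp hx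
      have e1 : (⟨x, hx⟩ : T) = y := hy2 _ (by intro h; exact hx1 (congrArg Subtype.val h))
      have e2 : (⟨g * x * g⁻¹, hgx⟩ : T) = y := hy2 _ (by
        intro h
        have h' : g * x * g⁻¹ = 1 := congrArg Subtype.val h
        apply hx1
        have : x = g⁻¹ * (g * x * g⁻¹) * g := by group
        rw [this, h']; group)
      have e3 : g * x * g⁻¹ = x := congrArg Subtype.val (e2.trans e1.symm)
      calc x * g = (g * x * g⁻¹) * g := by rw [e3]
        _ = g * x := by group
  have hc := MonoidHom.ker_transferSylow_isComplement' T hTN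
  have hcm := hc.card_mul
  refine ⟨(MonoidHom.transferSylow T hTN).ker, inferInstance, ?_, ?_⟩
  · rw [hT, hH] at hcm
    omega
  · rw [hc.symm.index_eq_card, hT]

theorem ns5_of_card {H : Type*} [Group H] [Finite H] (m : ℕ) (hH : Nat.card H = 5 * m)
    (hm : ¬ 5 ∣ m) (hm5 : m ≤ 5) : NS 5 H := by
  haveI : Fact (Nat.Prime 5) := ⟨by norm_num⟩
  obtain ⟨P⟩ := (inferInstance : Nonempty (Sylow 5 H))
  exact ns_of_index P (by rw [sylow_index (k := 1) P (by simpa using hH) hm]; exact hm5)

theorem ns5_of_card_30 {H : Type*} [Group H] [Finite H] (hH : Nat.card H = 30) : NS 5 H := by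
  haveI : Fact (Nat.Prime 5) := ⟨by norm_num⟩
  obtain ⟨K, hKn, hK, hKi⟩ := exists_normal_index_two (m := 15) hH (by norm_num)
  haveI := hKn
  exact ns_of_normal K (ns5_of_card 3 hK (by norm_num) (by norm_num)) (by rw [hKi]; norm_num)

theorem exists_char_of_card_12 {N : Type*} [Group N] [Finite N] (hN : Nat.card N = 12) :
    ∃ T : Subgroup N, T.Characteristic ∧ (Nat.card T = 3 ∨ Nat.card T = 4) := by
  haveI : Fact (Nat.Prime 3) := ⟨Nat.prime_three⟩
  haveI : Fact (Nat.Prime 2) := ⟨Nat.prime_two⟩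
  obtain ⟨Q⟩ := (inferInstance : Nonempty (Sylow 3 N))
  have hQ : Nat.card Q = 3 := by
    simpa using sylow_card (k := 1) (m := 4) Q (by rw [hN]; norm_num) (by norm_num)
  have hQi : (Q : Subgroup N).index = 4 :=
    sylow_index (k := 1) (m := 4) Q (by rw [hN]; norm_num) (by norm_num)
  by_cases hQn : (Q : Subgroup N).Normal
  · exact ⟨Q, Q.characteristic_of_normal hQn, Or.inl hQ⟩
  · have h1 : Nat.card (Sylow 3 N) ≡ 1 [MOD 3] := card_sylow_modEq_one 3 N
    have h2 : Nat.card (Sylow 3 N) ∣ 4 := hQi ▸ Q.card_dvd_index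
    have h3 : Nat.card (Sylow 3 N) ≠ 1 := by
      intro h
      rw [Q.card_eq_index_normalizer, Subgroup.index_eq_one] at h
      exact hQn (Subgroup.normalizer_eq_top_iff.mp h)
    have h4 : Nat.card (Sylow 3 N) = 4 := by
      have hle : Nat.card (Sylow 3 N) ≤ 4 := Nat.le_of_dvd (by norm_num) h2
      unfold Nat.ModEq at h1
      omega
    have h5 : (Subgroup.normalizer ((Q : Subgroup N) : Set N)).index = 4 := by
      have h5' := Q.card_eq_index_normalizer
      rw [h4] at h5'
      exact h5'.symm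
    have h6 : Nat.card (Subgroup.normalizer ((Q : Subgroup N) : Set N)) = 3 := by
      have := (Subgroup.normalizer ((Q : Subgroup N) : Set N)).card_mul_index
      rw [h5, hN] at this
      omega
    have h7 : Subgroup.normalizer ((Q : Subgroup N) : Set N) = Q :=
      (Subgroup.eq_of_le_of_card_ge Subgroup.le_normalizer (by rw [h6, hQ])).symm
    have hTN : Subgroup.normalizer ((Q : Subgroup N) : Set N) ≤
        Subgroup.centralizer ((Q : Subgroup N) : Set N) := by
      rw [h7]
      haveI : IsCyclic (Q : Subgroup N) := isCyclic_of_prime_card (p := 3) hQ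
      obtain ⟨z, hz⟩ := IsCyclic.exists_generator (α := (Q : Subgroup N))
      intro g hg
      rw [Subgroup.mem_centralizer_iff]
      intro x hx
      obtain ⟨a, ha⟩ := Subgroup.mem_zpowers_iff.mp (hz ⟨g, hg⟩)
      obtain ⟨b, hb⟩ := Subgroup.mem_zpowers_iff.mp (hz ⟨x, hx⟩)
      have : (⟨x, hx⟩ : (Q : Subgroup N)) * ⟨g, hg⟩ = ⟨g, hg⟩ * ⟨x, hx⟩ := by
        rw [← ha, ← hb, ← zpow_add, ← zpow_add, add_comm]
      exact congrArg Subtype.val this
    have hc := MonoidHom.ker_transferSylow_isComplement' Q hTN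
    have hcm := hc.card_mul
    have hK : Nat.card (MonoidHom.transferSylow Q hTN).ker = 4 := by
      rw [hQ, hN] at hcm
      omega
    have hK' : Nat.card (MonoidHom.transferSylow Q hTN).ker = 2 ^ (Nat.card N).factorization 2 := by
      rw [hK, hN]
      have : (12 : ℕ) = 2 ^ 2 * 3 := by norm_num
      rw [this, fact_pow_mul Nat.prime_two (by norm_num)]
      norm_num
    exact ⟨(MonoidHom.transferSylow Q hTN).ker,
      (Sylow.ofCard _ hK').characteristic_of_normal (by rw [Sylow.coe_ofCard]; infer_instance),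
      Or.inr hK⟩

theorem ns5_caseA {G : Type*} [Group G] [Finite G] (h60 : Nat.card G = 60) (N : Subgroup G)
    [N.Normal] (h5 : 5 ∣ Nat.card N) (hne : Nat.card N ≠ 60) : NS 5 G := by
  haveI : Fact (Nat.Prime 5) := ⟨by norm_num⟩
  have hidx := N.card_mul_index
  rw [h60] at hidx
  obtain ⟨m, hm⟩ := h5
  have hm12 : m * N.index = 12 := by
    apply Nat.eq_of_mul_eq_mul_left (by norm_num : 0 < 5)
    rw [← mul_assoc, ← hm]; exact hidx
  have hmd : m ∣ 12 := Dvd.intro _ hm12
  have hid : N.index ∣ 12 := Dvd.intro_left _ hm12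
  have hm5 : ¬ 5 ∣ m := fun h => by
    have := h.trans hmd
    norm_num at this
  have hi5 : ¬ 5 ∣ N.index := fun h => by
    have := h.trans hid
    norm_num at this
  have hmne : m ≠ 12 := by
    rintro rfl
    exact hne (by rw [hm])
  have hmle : m ≤ 12 := Nat.le_of_dvd (by norm_num) hmd
  have hNS : NS 5 N := by
    by_cases h6 : m = 6
    · exact ns5_of_card_30 (by rw [hm, h6])
    · refine ns5_of_card m hm hm5 ?_
      interval_cases m <;> first | omega | (norm_num at hmd)
  exact ns_of_normal N hNS hi5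

theorem ns5_caseB1 {G : Type*} [Group G] [Finite G] (h60 : Nat.card G = 60) (N : Subgroup G)
    [N.Normal]
    (hN : Nat.card N = 2 ∨ Nat.card N = 3 ∨ Nat.card N = 4 ∨ Nat.card N = 6) : NS 5 G := by
  haveI : Fact (Nat.Prime 5) := ⟨by norm_num⟩
  have hq : Nat.card (G ⧸ N) * Nat.card N = 60 := by
    rw [← h60]; exact (N.card_eq_card_quotient_mul_card_subgroup).symm
  have hq' : ∃ m, Nat.card (G ⧸ N) = 5 * m ∧ ¬ 5 ∣ m ∧ m * Nat.card N = 12 ∧ m ≠ 1 := by
    rcases hN with h | h | h | h
    · exact ⟨6, by rw [h] at hq; omega, by norm_num, by rw [h], by norm_num⟩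
    · exact ⟨4, by rw [h] at hq; omega, by norm_num, by rw [h], by norm_num⟩
    · exact ⟨3, by rw [h] at hq; omega, by norm_num, by rw [h], by norm_num⟩
    · exact ⟨2, by rw [h] at hq; omega, by norm_num, by rw [h], by norm_num⟩
  obtain ⟨m, hm, hm5, hmN, hm1⟩ := hq'
  have hmle : m ≤ 6 := by
    rcases hN with h | h | h | h <;> rw [h] at hmN <;> omega
  have hNSq : NS 5 (G ⧸ N) := by
    by_cases h6 : m = 6
    · exact ns5_of_card_30 (by rw [hm, h6])
    · refine ns5_of_card m hm hm5 ?_
      omega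
  obtain ⟨L, hLn, hLi, hLc⟩ := exists_normal_of_quotient N hNSq
  haveI := hLn
  have hfac : (Nat.card (G ⧸ N)).factorization 5 = 1 := by
    rw [hm]
    have := fact_pow_mul (p := 5) (k := 1) (m := m) (by norm_num) hm5
    simpa using this
  rw [hfac, pow_one] at hLc
  refine ns5_caseA h60 L (by rw [hLc]; exact Dvd.intro_left _ rfl) ?_
  rw [hLc]
  rcases hN with h | h | h | h <;> rw [h] <;> norm_num

theorem ns5_caseB2 {G : Type*} [Group G] [Finite G] (h60 : Nat.card G = 60) (N : Subgroup G)
    [N.Normal] (hN : Nat.card N = 12) : NS 5 G := by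
  obtain ⟨T, hTc, hT⟩ := exists_char_of_card_12 hN
  haveI := hTc
  haveI : (T.map N.subtype).Normal := inferInstance
  have hc : Nat.card (T.map N.subtype) = Nat.card T :=
    Subgroup.card_map_of_injective N.subtype_injective
  apply ns5_caseB1 h60 (T.map N.subtype)
  rw [hc]
  rcases hT with h | h
  · right; left; exact h
  · right; right; left; exact h

theorem ns5_of_not_simple {G : Type*} [Group G] [Finite G] (h60 : Nat.card G = 60)
    (N : Subgroup G) [N.Normal] (hb : N ≠ ⊥) (ht : N ≠ ⊤) : NS 5 G := by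
  have hdvd : Nat.card N ∣ 60 := h60 ▸ Subgroup.card_subgroup_dvd_card N
  have h1 : Nat.card N ≠ 1 := fun h => hb (Subgroup.card_eq_one.mp h)
  have h2 : Nat.card N ≠ 60 := fun h => ht ((Subgroup.card_eq_iff_eq_top N).mp (h.trans h60.symm))
  by_cases h5 : 5 ∣ Nat.card N
  · exact ns5_caseA h60 N h5 h2
  · have hmem : Nat.card N ∈ Nat.divisors 60 := Nat.mem_divisors.mpr ⟨hdvd, by norm_num⟩
    have hd : Nat.divisors 60 = {1, 2, 3, 4, 5, 6, 10, 12, 15, 20, 30, 60} := by decide
    rw [hd] at hmem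
    simp only [Finset.mem_insert, Finset.mem_singleton] at hmem
    rcases hmem with h | h | h | h | h | h | h | h | h | h | h | h
    · exact absurd h h1
    · exact ns5_caseB1 h60 N (Or.inl h)
    · exact ns5_caseB1 h60 N (Or.inr (Or.inl h))
    · exact ns5_caseB1 h60 N (Or.inr (Or.inr (Or.inl h)))
    · exact absurd (by rw [h]) h5
    · exact ns5_caseB1 h60 N (Or.inr (Or.inr (Or.inr h)))
    · exact absurd (by rw [h]; norm_num) h5
    · exact ns5_caseB2 h60 N h
    · exact absurd (by rw [h]; norm_num) h5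
    · exact absurd (by rw [h]; norm_num) h5
    · exact absurd (by rw [h]; norm_num) h5
    · exact absurd h h2

theorem simple_of_not_ns5 {G : Type*} [Group G] [Finite G] (h60 : Nat.card G = 60)
    (hns : ¬ NS 5 G) : IsSimpleGroup G := by
  haveI : Nontrivial G := by
    rw [← Finite.one_lt_card_iff_nontrivial, h60]; norm_num
  refine ⟨fun N hN => ?_⟩
  by_contra hcon
  push Not at hcon
  exact hns (ns5_of_not_simple h60 N hcon.1 hcon.2)


/-! ### The alternating group of degree 5 -/

/-- representative of the involutions -/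
def r2 : alternatingGroup (Fin 5) :=
  ⟨Equiv.swap 0 1 * Equiv.swap 2 3, Equiv.Perm.mem_alternatingGroup.mpr (by decide)⟩

/-- representative of the 3-cycles -/
def r3 : alternatingGroup (Fin 5) :=
  ⟨Equiv.swap 0 1 * Equiv.swap 1 2, Equiv.Perm.mem_alternatingGroup.mpr (by decide)⟩

/-- representative of one class of 5-cycles -/
def r5 : alternatingGroup (Fin 5) :=
  ⟨finRotate 5, Equiv.Perm.mem_alternatingGroup.mpr (by decide)⟩

/-- representative of the other class of 5-cycles -/
def r5' : alternatingGroup (Fin 5) :=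
  ⟨finRotate 5 * finRotate 5, Equiv.Perm.mem_alternatingGroup.mpr (by decide)⟩

set_option maxRecDepth 100000 in
theorem a5_conj : ∀ g : alternatingGroup (Fin 5), ∃ h : alternatingGroup (Fin 5),
    h * g * h⁻¹ = 1 ∨ h * g * h⁻¹ = r2 ∨ h * g * h⁻¹ = r3 ∨ h * g * h⁻¹ = r5 ∨
      h * g * h⁻¹ = r5' := by
  decide +kernel

theorem a5_classes : Nat.card (ConjClasses (alternatingGroup (Fin 5))) ≤ 5 := by
  let reps : Fin 5 → alternatingGroup (Fin 5) := ![1, r2, r3, r5, r5']
  have hsurj : Function.Surjective (fun i => ConjClasses.mk (reps i)) := by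
    intro c
    obtain ⟨g, rfl⟩ := ConjClasses.mk_surjective c
    obtain ⟨h, hh⟩ := a5_conj g
    rcases hh with h1 | h1 | h1 | h1 | h1
    · exact ⟨0, ConjClasses.mk_eq_mk_iff_isConj.mpr (isConj_iff.mpr ⟨h, h1⟩).symm⟩
    · exact ⟨1, ConjClasses.mk_eq_mk_iff_isConj.mpr (isConj_iff.mpr ⟨h, h1⟩).symm⟩
    · exact ⟨2, ConjClasses.mk_eq_mk_iff_isConj.mpr (isConj_iff.mpr ⟨h, h1⟩).symm⟩
    · exact ⟨3, ConjClasses.mk_eq_mk_iff_isConj.mpr (isConj_iff.mpr ⟨h, h1⟩).symm⟩
    · exact ⟨4, ConjClasses.mk_eq_mk_iff_isConj.mpr (isConj_iff.mpr ⟨h, h1⟩).symm⟩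
  have := Nat.card_le_card_of_surjective _ hsurj
  simpa using this

theorem a5_not_comm : r2 * r3 ≠ r3 * r2 := by decide

theorem a5_hom_trivial (f : alternatingGroup (Fin 5) →* ℂˣ) (g : alternatingGroup (Fin 5)) :
    f g = 1 := by
  haveI := alternatingGroup.isSimpleGroup_five
  rcases (inferInstance : f.ker.Normal).eq_bot_or_eq_top with h | h
  · exfalso
    have hinj : Function.Injective f := (MonoidHom.ker_eq_bot_iff f).mp h
    exact a5_not_comm (hinj (by rw [map_mul, map_mul, mul_comm]))
  · have : g ∈ f.ker := by rw [h]; trivial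
    exact this

theorem a5_card : Nat.card (alternatingGroup (Fin 5)) = 60 := by
  rw [nat_card_alternatingGroup]
  simp [Nat.factorial]

theorem a5_exists_five : ∃ χ : IrrCharacter (alternatingGroup (Fin 5)),
    5 ∣ charDegree (χ : alternatingGroup (Fin 5) → ℂ) := by
  classical
  by_contra hcon
  push Not at hcon
  letI : Fintype (IrrCharacter (alternatingGroup (Fin 5))) := Fintype.ofFinite _
  let d : IrrCharacter (alternatingGroup (Fin 5)) → ℕ :=
    fun χ => charDegree (χ : alternatingGroup (Fin 5) → ℂ)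
  have hsum : ∑ χ, d χ ^ 2 = 60 := by
    have := Helper80.irr_finsum_charDegree_sq (G := alternatingGroup (Fin 5))
    rw [finsum_eq_sum_of_fintype, a5_card] at this
    exact this
  have hcard : (Finset.univ : Finset (IrrCharacter (alternatingGroup (Fin 5)))).card ≤ 5 := by
    rw [Finset.card_univ, ← Nat.card_eq_fintype_card, Helper80.natCard_irr_eq_card_conjClasses]
    exact a5_classes
  have hdvd : ∀ χ, d χ ∣ 60 := fun χ => a5_card ▸ Helper79.irr_charDegree_dvd_card χ
  have hmem : ∀ χ, d χ ∈ ({1, 2, 3, 4, 6} : Finset ℕ) := by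
    intro χ
    have h1 := hdvd χ
    have h2 : ¬ 5 ∣ d χ := hcon χ
    have h3 : d χ ^ 2 ≤ 60 := by
      rw [← hsum]
      exact Finset.single_le_sum (f := fun χ => d χ ^ 2) (fun _ _ => Nat.zero_le _)
        (Finset.mem_univ χ)
    have h4 : d χ ≤ 7 := by nlinarith
    generalize d χ = n at h1 h2 h3 h4 ⊢
    interval_cases n <;>
      first | decide | exact absurd h1 (by decide) | exact absurd (by decide) h2
  have htriv : d (Helper80.trivIrr _) = 1 := by
    have := Helper80.irr_one_eq (Helper80.trivIrr (alternatingGroup (Fin 5)))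
    rw [Helper80.trivIrr_apply] at this
    exact_mod_cast this.symm
  have hlin : ∀ χ, d χ = 1 → χ = Helper80.trivIrr _ := by
    intro χ h1
    have h2 : (χ : alternatingGroup (Fin 5) → ℂ) 1 = 1 := by
      rw [Helper80.irr_one_eq]
      have : charDegree (χ : alternatingGroup (Fin 5) → ℂ) = 1 := h1
      rw [this]; simp
    obtain ⟨f, hf⟩ := Helper79.isCharacter_linear (Helper80.isCharacter_of_irr χ.2) h2
    apply Subtype.ext
    funext g
    rw [hf g, a5_hom_trivial f g]; simp
  have hfib := Finset.card_eq_sum_card_fiberwise (f := d) (s := Finset.univ)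
    (t := ({1, 2, 3, 4, 6} : Finset ℕ)) (fun χ _ => hmem χ)
  have hsumfib := Finset.sum_fiberwise_of_maps_to (s := Finset.univ)
    (t := ({1, 2, 3, 4, 6} : Finset ℕ)) (g := d) (fun χ _ => hmem χ) (fun χ => d χ ^ 2)
  have hinner : ∀ y, ∑ x ∈ Finset.univ.filter (fun x => d x = y), d x ^ 2 =
      (Finset.univ.filter (fun x => d x = y)).card * y ^ 2 := by
    intro y
    rw [Finset.sum_congr rfl (fun x hx => by rw [(Finset.mem_filter.mp hx).2]),
      Finset.sum_const, smul_eq_mul]
  simp only [hinner] at hsumfib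
  rw [hsum] at hsumfib
  have hc1 : (Finset.univ.filter (fun x => d x = 1)).card = 1 := by
    rw [Finset.card_eq_one]
    refine ⟨Helper80.trivIrr _, ?_⟩
    ext χ
    simp only [Finset.mem_filter, Finset.mem_univ, true_and, Finset.mem_singleton]
    exact ⟨hlin χ, fun h => h ▸ htriv⟩
  rw [Finset.sum_insert (by decide), Finset.sum_insert (by decide), Finset.sum_insert (by decide),
    Finset.sum_insert (by decide), Finset.sum_singleton] at hsumfib hfib
  omega

theorem not_ns5_of_char {G : Type*} [Group G] [Finite G] (h60 : Nat.card G = 60)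
    (χ : IrrCharacter G) (h5 : 5 ∣ charDegree (χ : G → ℂ)) : ¬ NS 5 G := by
  haveI : Fact (Nat.Prime 5) := ⟨by norm_num⟩
  rintro ⟨P, hP⟩
  haveI := hP
  have hPc : Nat.card P = 5 := by
    simpa using sylow_card (k := 1) (m := 12) P (by rw [h60]; norm_num) (by norm_num)
  have hPi : (P : Subgroup G).index = 12 :=
    sylow_index (k := 1) (m := 12) P (by rw [h60]; norm_num) (by norm_num)
  have hab : ∀ a ∈ (P : Subgroup G), ∀ b ∈ (P : Subgroup G), a * b = b * a := by
    haveI : IsCyclic (P : Subgroup G) := isCyclic_of_prime_card (p := 5) hPc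
    obtain ⟨z, hz⟩ := IsCyclic.exists_generator (α := (P : Subgroup G))
    intro x hx g hg
    obtain ⟨a, ha⟩ := Subgroup.mem_zpowers_iff.mp (hz ⟨g, hg⟩)
    obtain ⟨b, hb⟩ := Subgroup.mem_zpowers_iff.mp (hz ⟨x, hx⟩)
    have : (⟨x, hx⟩ : (P : Subgroup G)) * ⟨g, hg⟩ = ⟨g, hg⟩ * ⟨x, hx⟩ := by
      rw [← ha, ← hb, ← zpow_add, ← zpow_add, add_comm]
    exact congrArg Subtype.val this
  have h1 := Helper75.ito_character χ.2 (P : Subgroup G) hab
  rw [hPi] at h1
  have := h5.trans h1
  norm_num at this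

/-- The character degree graph of a finite group has as vertices the primes dividing some irreducible complex character degree, two distinct primes being joined when their product divides some irreducible character degree; two groups have the same character degree graph when they have the same vertices and the same joined pairs. A finite group of order 60 with the same character degree graph as the alternating group A₅ (whose character degrees are 1, 3, 4, 5, so the graph has vertices 2, 3, 5 and no edges) is isomorphic to A₅. -/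
theorem result {G : Type*} [Group G] [Finite G] (hcard : Nat.card G = 60)
    (hΓ : Cfsg.degreePrimes G = Cfsg.degreePrimes (alternatingGroup (Fin 5)) ∧ Cfsg.degreeGraph G = Cfsg.degreeGraph (alternatingGroup (Fin 5))) : Nonempty (G ≃* alternatingGroup (Fin 5)) := by
  have h5 : (5 : ℕ) ∈ Cfsg.degreePrimes G := by
    rw [hΓ.1]
    obtain ⟨χ, hχ⟩ := a5_exists_five
    exact ⟨by norm_num, _, ⟨χ, rfl⟩, hχ⟩
  obtain ⟨_, d, ⟨χ, rfl⟩, hd⟩ := h5
  haveI := simple_of_not_ns5 hcard (not_ns5_of_char hcard χ hd)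
  exact Cfsg.Agent.Helper41.simple_order_sixty hcard

end Cfsg.Agent.S3669
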