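import Cfsg.Statements.S3378
import Cfsg.Agent.S0201
import Cfsg.Agent.S3669
import Cfsg.Agent.Helper41.Order60
import Cfsg.Agent.Helper56.SL25
import Cfsg.Agent.Helper3.Burnside2

set_option autoImplicit false
open Cfsg

namespace Cfsg.Agent.S3378

open Subgroup

/-- the quaternion group of order 8 has a unique involution -/
theorem q8_unique_invol : ∀ a b : QuaternionGroup 2, a ^ 2 = 1 → a ≠ 1 → b ^ 2 = 1 → b ≠ 1 →
    a = b := by decide

/-- relations of the chosen generators of `A₅` -/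
theorem a5_rel : (S3669.r3 * S3669.r5') ^ 2 = 1 ∧ S3669.r3 * S3669.r5' ≠ 1 ∧ S3669.r3 ^ 3 = 1 ∧
    S3669.r5' ^ 5 = 1 ∧ S3669.r3 ≠ 1 ∧ S3669.r5' ≠ 1 := by decide

/-- the chosen elements generate `A₅` -/
theorem a5_gen : Subgroup.closure ({S3669.r3, S3669.r5'} : Set (alternatingGroup (Fin 5))) = ⊤ := by
  obtain ⟨h2, hne, h3, h5, h31, h51⟩ := a5_rel
  have : Fact (Nat.Prime 5) := ⟨by norm_num⟩
  have : Fact (Nat.Prime 3) := ⟨by norm_num⟩
  have : Fact (Nat.Prime 2) := ⟨by norm_num⟩
  set R := Subgroup.closure ({S3669.r3, S3669.r5'} : Set (alternatingGroup (Fin 5))) with hR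
  have ha : S3669.r3 ∈ R := Subgroup.subset_closure (by simp)
  have hb : S3669.r5' ∈ R := Subgroup.subset_closure (by simp)
  have hc : S3669.r3 * S3669.r5' ∈ R := R.mul_mem ha hb
  have o3 : orderOf S3669.r3 = 3 := orderOf_eq_prime h3 h31
  have o5 : orderOf S3669.r5' = 5 := orderOf_eq_prime h5 h51
  have o2 : orderOf (S3669.r3 * S3669.r5') = 2 := orderOf_eq_prime h2 hne
  have d3 : 3 ∣ Nat.card R := by
    have h := Subgroup.orderOf_dvd_natCard _ ha
    rwa [o3] at h
  have d5 : 5 ∣ Nat.card R := by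
    have h := Subgroup.orderOf_dvd_natCard _ hb
    rwa [o5] at h
  have d2 : 2 ∣ Nat.card R := by
    have h := Subgroup.orderOf_dvd_natCard _ hc
    rwa [o2] at h
  have d30 : 30 ∣ Nat.card R := by
    have h6 : 6 ∣ Nat.card R :=
      Nat.Coprime.mul_dvd_of_dvd_of_dvd (by norm_num : Nat.Coprime 2 3) d2 d3
    exact Nat.Coprime.mul_dvd_of_dvd_of_dvd (by norm_num : Nat.Coprime 6 5) h6 d5
  have hidx := Subgroup.card_mul_index R
  rw [S3669.a5_card] at hidx
  obtain ⟨m, hm⟩ := d30
  rw [hm] at hidx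
  have h1 : m * R.index = 2 := by
    have : 30 * (m * R.index) = 30 * 2 := by rw [← mul_assoc, hidx]
    exact Nat.eq_of_mul_eq_mul_left (by norm_num) this
  have h2' : R.index ∣ 2 := ⟨m, by rw [mul_comm]; exact h1.symm⟩
  rcases (Nat.dvd_prime Nat.prime_two).1 h2' with h | h
  · exact Subgroup.index_eq_one.mp h
  · exfalso
    have hn : R.Normal := Subgroup.normal_of_index_eq_two h
    have := alternatingGroup.isSimpleGroup_five
    rcases hn.eq_bot_or_eq_top with hb' | ht
    · rw [hb'] at ha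
      exact h31 (Subgroup.mem_bot.1 ha)
    · rw [ht, Subgroup.index_top] at h
      norm_num at h

theorem solvable_of_normal {G : Type*} [Group G] (N : Subgroup G) [N.Normal]
    (h1 : Group.IsSolvable N) (h2 : Group.IsSolvable (G ⧸ N)) : Group.IsSolvable G :=
  Group.isSolvable_of_ker_le_range N.subtype (QuotientGroup.mk' N) (by simp)

/-- no nontrivial normal subgroup of odd order -/
theorem core_trivial {G : Type*} [Group G] [Finite G] (hcard : Nat.card G = 120)
    (hns : ¬ Group.IsSolvable G) (N : Subgroup G) (hN : N.Normal) (hodd : Odd (Nat.card N)) :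
    N = ⊥ := by
  have := hN
  have hdvd : Nat.card N ∣ 120 := hcard ▸ Subgroup.card_subgroup_dvd_card N
  have hcop : Nat.Coprime (Nat.card N) 8 := by
    have h2 : Nat.Coprime 2 (Nat.card N) := Nat.coprime_two_left.2 hodd
    exact (Nat.Coprime.pow_left 3 h2).symm
  have h15 : Nat.card N ∣ 15 := hcop.dvd_of_dvd_mul_right (by norm_num; exact hdvd)
  have hq := Subgroup.card_eq_card_quotient_mul_card_subgroup N
  rw [hcard] at hq
  have hmem : Nat.card N ∈ Nat.divisors 15 := Nat.mem_divisors.mpr ⟨h15, by norm_num⟩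
  have hd : Nat.divisors 15 = {1, 3, 5, 15} := by decide
  rw [hd] at hmem
  simp only [Finset.mem_insert, Finset.mem_singleton] at hmem
  rcases hmem with h | h | h | h
  · exact Subgroup.card_eq_one.mp h
  · exfalso
    apply hns
    refine solvable_of_normal N
      (Helper3.isSolvable_of_card_eq 3 5 1 0 (by norm_num) (by norm_num) (by rw [h]; norm_num))
      (Helper3.isSolvable_of_card_eq 2 5 3 1 (by norm_num) (by norm_num) ?_)
    rw [h] at hq; norm_num; omega
  · exfalso
    apply hns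
    refine solvable_of_normal N
      (Helper3.isSolvable_of_card_eq 3 5 0 1 (by norm_num) (by norm_num) (by rw [h]; norm_num))
      (Helper3.isSolvable_of_card_eq 2 3 3 1 (by norm_num) (by norm_num) ?_)
    rw [h] at hq; norm_num; omega
  · exfalso
    apply hns
    refine solvable_of_normal N
      (Helper3.isSolvable_of_card_eq 3 5 1 1 (by norm_num) (by norm_num) (by rw [h]; norm_num))
      (Helper3.isSolvable_of_card_eq 2 3 3 0 (by norm_num) (by norm_num) ?_)
    rw [h] at hq; norm_num; omega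

/-- Part 1: a non-solvable group of order 120 with quaternion Sylow 2-subgroups is `SL(2,5)`. -/
theorem part1 (G : Type*) [Group G] [Finite G] (hcard : Nat.card G = 120)
    (hns : ¬ Group.IsSolvable G)
    (hQ : ∀ P : Sylow 2 G, Nonempty ((P : Subgroup G) ≃* QuaternionGroup 2)) :
    Nonempty (G ≃* Matrix.SpecialLinearGroup (Fin 2) (ZMod 5)) := by
  have : Fact (Nat.Prime 2) := ⟨Nat.prime_two⟩
  have : Fact (Nat.Prime 5) := ⟨by norm_num⟩
  -- the centre has order 2
  obtain ⟨P₀⟩ := (inferInstance : Nonempty (Sylow 2 G))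
  obtain ⟨e₀⟩ := hQ P₀
  have hZ : Nat.card (Subgroup.center G) = 2 :=
    Cfsg.Agent.S0201.result P₀ 0 e₀ (fun N hN hodd => core_trivial hcard hns N hN hodd)
  obtain ⟨zc, hzc1, hzcu⟩ := (Nat.card_eq_two_iff' (1 : Subgroup.center G)).mp hZ
  obtain ⟨z, hzmem⟩ := zc
  have hz1 : z ≠ 1 := fun h => hzc1 (Subtype.ext h)
  have hzall : ∀ c ∈ Subgroup.center G, c = 1 ∨ c = z := by
    intro c hc
    by_cases h : c = 1
    · exact Or.inl h
    · right
      have := hzcu ⟨c, hc⟩ (fun h' => h (congrArg Subtype.val h'))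
      exact congrArg Subtype.val this
  have hzz : z ^ 2 = 1 := by
    rcases hzall (z ^ 2) (Subgroup.pow_mem _ hzmem 2) with h | h
    · exact h
    · exfalso
      apply hz1
      have : z * z = z * 1 := by rw [mul_one, ← pow_two]; exact h
      exact mul_left_cancel this
  have hzcomm : ∀ g : G, g * z = z * g := fun g => (Subgroup.mem_center_iff.1 hzmem g)
  -- unique involution
  have huniq : ∀ u : G, u ^ 2 = 1 → u ≠ 1 → u = z := by
    intro u hu hu1
    have hup : IsPGroup 2 (zpowers u) := by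
      apply IsPGroup.of_card (n := 1)
      rw [Nat.card_zpowers, pow_one]
      exact orderOf_eq_prime hu hu1
    obtain ⟨P, hP⟩ := hup.exists_le_sylow
    have huP : u ∈ (P : Subgroup G) := hP (Subgroup.mem_zpowers u)
    have hzP : z ∈ (P : Subgroup G) := by
      have hzp : IsPGroup 2 (zpowers z) := by
        apply IsPGroup.of_card (n := 1)
        rw [Nat.card_zpowers, pow_one]
        exact orderOf_eq_prime hzz hz1
      have hzn : (zpowers z).Normal := by
        refine ⟨fun n hn g => ?_⟩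
        obtain ⟨k, rfl⟩ := Subgroup.mem_zpowers_iff.1 hn
        have : g * z ^ k * g⁻¹ = z ^ k := by
          have hc : Commute g (z ^ k) := (show Commute g z from hzcomm g).zpow_right k
          rw [hc.eq, mul_inv_cancel_right]
        rw [this]
        exact Subgroup.zpow_mem _ (Subgroup.mem_zpowers z) k
      have hsup : IsPGroup 2 ((P : Subgroup G) ⊔ zpowers z : Subgroup G) :=
        IsPGroup.to_sup_of_normal_right P.2 hzp
      have heq := P.is_maximal' hsup le_sup_left
      have : z ∈ ((P : Subgroup G) ⊔ zpowers z : Subgroup G) :=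
        (le_sup_right : zpowers z ≤ _) (Subgroup.mem_zpowers z)
      rw [heq] at this
      exact this
    obtain ⟨e⟩ := hQ P
    have h := q8_unique_invol (e ⟨u, huP⟩) (e ⟨z, hzP⟩)
      (by rw [← map_pow]; have : (⟨u, huP⟩ : (P : Subgroup G)) ^ 2 = 1 := Subtype.ext (by simpa using hu)
          rw [this, map_one])
      (fun h' => hu1 (by
        have := e.injective (h'.trans (map_one e).symm)
        exact congrArg Subtype.val this))
      (by rw [← map_pow]; have : (⟨z, hzP⟩ : (P : Subgroup G)) ^ 2 = 1 := Subtype.ext (by simpa using hzz)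
          rw [this, map_one])
      (fun h' => hz1 (by
        have := e.injective (h'.trans (map_one e).symm)
        exact congrArg Subtype.val this))
    exact congrArg Subtype.val (e.injective h)
  -- the quotient
  have hq := Subgroup.card_eq_card_quotient_mul_card_subgroup (Subgroup.center G)
  rw [hcard, hZ] at hq
  have h60 : Nat.card (G ⧸ Subgroup.center G) = 60 := by omega
  have hnsq : ¬ Group.IsSolvable (G ⧸ Subgroup.center G) := by
    intro h
    exact hns (solvable_of_normal (Subgroup.center G)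
      (Helper3.isSolvable_of_card_eq 2 3 1 0 (by norm_num) (by norm_num) (by rw [hZ]; norm_num)) h)
  have hns5 : ¬ S3669.NS 5 (G ⧸ Subgroup.center G) := by
    rintro ⟨P5, hP5⟩
    haveI := hP5
    apply hnsq
    have hc5 : Nat.card (P5 : Subgroup (G ⧸ Subgroup.center G)) = 5 ^ 1 :=
      S3669.sylow_card (k := 1) (m := 12) P5 (by rw [h60]; norm_num) (by norm_num)
    have hq5 := Subgroup.card_eq_card_quotient_mul_card_subgroup
      (P5 : Subgroup (G ⧸ Subgroup.center G))
    rw [h60, hc5] at hq5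
    refine solvable_of_normal (P5 : Subgroup (G ⧸ Subgroup.center G))
      (Helper3.isSolvable_of_card_eq 5 2 1 0 (by norm_num) (by norm_num) (by rw [hc5]; norm_num))
      (Helper3.isSolvable_of_card_eq 2 3 2 1 (by norm_num) (by norm_num) ?_)
    omega
  haveI hsimple : IsSimpleGroup (G ⧸ Subgroup.center G) := S3669.simple_of_not_ns5 h60 hns5
  obtain ⟨φ⟩ := Helper41.simple_order_sixty h60
  obtain ⟨r2, rne, r3, r5, r31, r51⟩ := a5_rel
  -- lifts
  obtain ⟨x₀, hx₀⟩ := QuotientGroup.mk_surjective (s := Subgroup.center G) (φ.symm S3669.r3)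
  obtain ⟨y₀, hy₀⟩ := QuotientGroup.mk_surjective (s := Subgroup.center G) (φ.symm S3669.r5')
  have hsq : ∀ c ∈ Subgroup.center G, c ^ 2 = 1 := by
    intro c hc
    rcases hzall c hc with h | h
    · rw [h, one_pow]
    · rw [h, hzz]
  have hx3 : x₀ ^ 3 ∈ Subgroup.center G := by
    rw [← QuotientGroup.eq_one_iff, QuotientGroup.mk_pow, hx₀, ← map_pow, r3, map_one]
  have hy5 : y₀ ^ 5 ∈ Subgroup.center G := by
    rw [← QuotientGroup.eq_one_iff, QuotientGroup.mk_pow, hy₀, ← map_pow, r5, map_one]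
  have hx6 : x₀ ^ 6 = 1 := by
    have := hsq _ hx3
    rwa [← pow_mul] at this
  have hy10 : y₀ ^ 10 = 1 := by
    have := hsq _ hy5
    rwa [← pow_mul] at this
  have hxx : (x₀ ^ 4) ^ 3 = 1 := by
    rw [← pow_mul, show 4 * 3 = 6 * 2 from rfl, pow_mul, hx6, one_pow]
  have hyy : (y₀ ^ 6) ^ 5 = 1 := by
    rw [← pow_mul, show 6 * 5 = 10 * 3 from rfl, pow_mul, hy10, one_pow]
  have hmx : (QuotientGroup.mk (x₀ ^ 4) : G ⧸ Subgroup.center G) = φ.symm S3669.r3 := by
    have h4 : S3669.r3 ^ 4 = S3669.r3 := by rw [pow_succ, r3, one_mul]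
    rw [QuotientGroup.mk_pow, hx₀, ← map_pow, h4]
  have hmy : (QuotientGroup.mk (y₀ ^ 6) : G ⧸ Subgroup.center G) = φ.symm S3669.r5' := by
    have h6 : S3669.r5' ^ 6 = S3669.r5' := by rw [pow_succ, r5, one_mul]
    rw [QuotientGroup.mk_pow, hy₀, ← map_pow, h6]
  have hmw : (QuotientGroup.mk (x₀ ^ 4 * y₀ ^ 6) : G ⧸ Subgroup.center G)
      = φ.symm (S3669.r3 * S3669.r5') := by
    rw [QuotientGroup.mk_mul, hmx, hmy, map_mul]
  have hw2 : (x₀ ^ 4 * y₀ ^ 6) ^ 2 ∈ Subgroup.center G := by
    rw [← QuotientGroup.eq_one_iff, QuotientGroup.mk_pow, hmw, ← map_pow, r2, map_one]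
  have hwz : (x₀ ^ 4 * y₀ ^ 6) ^ 2 = z := by
    rcases hzall _ hw2 with h | h
    · exfalso
      have hw1 : x₀ ^ 4 * y₀ ^ 6 ≠ 1 := by
        intro h1
        rw [h1] at hmw
        have : φ.symm (S3669.r3 * S3669.r5') = 1 := by rw [← hmw]; rfl
        exact rne ((map_eq_one_iff φ.symm φ.symm.injective).1 this)
      have := huniq _ h hw1
      rw [this] at hmw
      have h1 : (QuotientGroup.mk z : G ⧸ Subgroup.center G) = 1 :=
        (QuotientGroup.eq_one_iff z).2 hzmem
      rw [h1] at hmw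
      exact rne ((map_eq_one_iff φ.symm φ.symm.injective).1 hmw.symm)
    · exact h
  -- the homomorphism from the presented group
  obtain ⟨f, hfx, hfy, hfz⟩ := Helper56.exists_hom (x₀ ^ 4) (y₀ ^ 6) z hxx hyy hzz
    (hzcomm _) (hzcomm _) hwz
  have hsurj : Function.Surjective f := by
    have hxR : x₀ ^ 4 ∈ f.range := ⟨_, hfx⟩
    have hyR : y₀ ^ 6 ∈ f.range := ⟨_, hfy⟩
    have hzR : z ∈ f.range := ⟨_, hfz⟩
    have hT : ((f.range.map (QuotientGroup.mk' (Subgroup.center G))).map φ.toMonoidHom) = ⊤ := by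
      rw [eq_top_iff, ← a5_gen, Subgroup.closure_le]
      intro a ha
      simp only [Set.mem_insert_iff, Set.mem_singleton_iff] at ha
      rcases ha with rfl | rfl
      · refine ⟨QuotientGroup.mk (x₀ ^ 4), ⟨x₀ ^ 4, hxR, rfl⟩, ?_⟩
        show φ (QuotientGroup.mk (x₀ ^ 4)) = _
        rw [hmx, MulEquiv.apply_symm_apply]
      · refine ⟨QuotientGroup.mk (y₀ ^ 6), ⟨y₀ ^ 6, hyR, rfl⟩, ?_⟩
        show φ (QuotientGroup.mk (y₀ ^ 6)) = _
        rw [hmy, MulEquiv.apply_symm_apply]
    intro g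
    have hg : φ (QuotientGroup.mk g) ∈
        ((f.range.map (QuotientGroup.mk' (Subgroup.center G))).map φ.toMonoidHom) := by
      rw [hT]; exact Subgroup.mem_top _
    obtain ⟨q, ⟨r, hr, rfl⟩, hq'⟩ := hg
    have hq'' : (QuotientGroup.mk r : G ⧸ Subgroup.center G) = QuotientGroup.mk g :=
      φ.injective hq'
    have hc : r⁻¹ * g ∈ Subgroup.center G := QuotientGroup.eq.1 hq''
    have hgR : g ∈ f.range := by
      have : g = r * (r⁻¹ * g) := by group
      rw [this]
      rcases hzall _ hc with h | h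
      · rw [h, mul_one]; exact hr
      · rw [h]; exact f.range.mul_mem hr hzR
    exact hgR
  have hbij : Function.Bijective f :=
    hsurj.bijective_of_nat_card_le (by rw [Helper56.card_Q, hcard])
  obtain ⟨e⟩ := Helper56.nonempty_equiv
  exact ⟨(MulEquiv.ofBijective f hbij).symm.trans e⟩

/-- Every non-solvable group of order 120 whose Sylow 2-subgroups are quaternion of order 8 is isomorphic to SL(2,5), and SL(2,5) has the presentation ⟨x, y, z | x³ = y⁵ = z² = 1, z⁻¹xz = x, z⁻¹yz = y, (xy)² = z⟩. -/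
theorem result :
    (∀ (G : Type*) [Group G] [Finite G], Nat.card G = 120 → ¬ Group.IsSolvable G →
      (∀ P : Sylow 2 G, Nonempty ((P : Subgroup G) ≃* QuaternionGroup 2)) →
      Nonempty (G ≃* Matrix.SpecialLinearGroup (Fin 2) (ZMod 5))) ∧
    Nonempty (PresentedGroup ({FreeGroup.of (0 : Fin 3) ^ 3, FreeGroup.of (1 : Fin 3) ^ 5, FreeGroup.of (2 : Fin 3) ^ 2,
        (FreeGroup.of (2 : Fin 3))⁻¹ * FreeGroup.of 0 * FreeGroup.of 2 * (FreeGroup.of (0 : Fin 3))⁻¹,
        (FreeGroup.of (2 : Fin 3))⁻¹ * FreeGroup.of 1 * FreeGroup.of 2 * (FreeGroup.of (1 : Fin 3))⁻¹,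
        (FreeGroup.of (0 : Fin 3) * FreeGroup.of 1) ^ 2 * (FreeGroup.of (2 : Fin 3))⁻¹} : Set (FreeGroup (Fin 3)))
      ≃* Matrix.SpecialLinearGroup (Fin 2) (ZMod 5)) := by
  refine ⟨fun G _ _ hcard hns hQ => part1 G hcard hns hQ, ?_⟩
  exact Helper56.nonempty_equiv

end Cfsg.Agent.S3378
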