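-- Statement S3380 (Cfsg.p_group_irreducible_imprimitive), proved by lead.
-- Outline: a p-group that is not cyclic / quaternion / dihedral / semidihedral has a normal
-- abelian non-cyclic subgroup (S3761 + S0016 + Helper53.Quat), hence a central z of order p and a
-- y of order p outside <z> with [G, y] <= <z>.  If p = q there is a fixed vector (S4010), which
-- forces G = 1.  Otherwise V is the direct sum of the fixed spaces of y * z^i (i < p), H = C_G(y)
-- has index p, and any g outside H shifts the index i by a fixed non-zero amount.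
import Mathlib
import Cfsg.Statements.S3380
import Cfsg.Agent.S3761
import Cfsg.Agent.S0016
import Cfsg.Agent.Helper53.Quat
import Cfsg.Agent.S4010

set_option autoImplicit false
open Cfsg

namespace Cfsg.Agent.S3380

/-- A nontrivial normal subgroup of a finite `p`-group contains a nontrivial central element. -/
theorem exists_central_mem {G : Type*} [Group G] [Finite G] {p : ℕ} [Fact p.Prime]
    (hG : IsPGroup p G) (N : Subgroup G) [N.Normal] (hN : N ≠ ⊥) :
    ∃ z ∈ N, z ≠ 1 ∧ z ∈ Subgroup.center G := by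
  let _ : MulAction G N := MulAction.compHom N (MulAut.conjNormal : G →* MulAut N)
  have hsmul : ∀ (g : G) (n : N), ((g • n : N) : G) = g * n * g⁻¹ :=
    fun g n => MulAut.conjNormal_apply g n
  have hdvd : p ∣ Nat.card N := by
    obtain ⟨k, hk⟩ := IsPGroup.iff_card.mp (hG.to_subgroup N)
    rw [hk]
    have hk0 : k ≠ 0 := by
      rintro rfl
      rw [pow_zero, Subgroup.card_eq_one] at hk
      exact hN hk
    exact dvd_pow_self p hk0
  have h1 : (1 : N) ∈ MulAction.fixedPoints G N := by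
    intro g
    apply Subtype.ext
    rw [hsmul]
    simp
  obtain ⟨b, hb, hb1⟩ := hG.exists_fixed_point_of_prime_dvd_card_of_fixed_point N hdvd h1
  refine ⟨b, b.2, fun h => hb1 (Subtype.ext h.symm), ?_⟩
  rw [Subgroup.mem_center_iff]
  intro g
  have h2 := congrArg Subtype.val (hb g)
  rw [hsmul] at h2
  calc g * (b : G) = (g * b * g⁻¹) * g := by group
    _ = b * g := by rw [h2]

/-- A commutative group isomorphic to a quaternion group is cyclic. -/
theorem cyclic_of_comm_quaternion {A : Type*} [Group A] (hA : ∀ a b : A, a * b = b * a) (m : ℕ)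
    (e : A ≃* QuaternionGroup m) : IsCyclic A := by
  have h1 : QuaternionGroup.a (1 : ZMod (2 * m)) * QuaternionGroup.xa 0 =
      QuaternionGroup.xa 0 * QuaternionGroup.a 1 := by
    have := hA (e.symm (QuaternionGroup.a 1)) (e.symm (QuaternionGroup.xa 0))
    rw [← map_mul, ← map_mul] at this
    exact e.symm.injective this
  rw [QuaternionGroup.a_mul_xa, QuaternionGroup.xa_mul_a] at h1
  have h2 : (0 : ZMod (2 * m)) - 1 = 0 + 1 := by
    injection h1
  have h3 : ((2 : ℕ) : ZMod (2 * m)) = 0 := by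
    have : (1 : ZMod (2 * m)) + 1 = 0 := by
      have h4 : (0 : ZMod (2 * m)) - 1 + 1 = 0 + 1 + 1 := by rw [h2]
      rw [sub_add_cancel, zero_add] at h4
      exact h4.symm
    push_cast
    rw [← this]; norm_num
  rw [ZMod.natCast_eq_zero_iff] at h3
  have hm : m = 1 := by
    rcases Nat.eq_zero_or_pos m with h0 | hpos
    · subst h0; simp at h3
    · have := Nat.le_of_dvd (by norm_num) h3
      omega
  subst hm
  have := QuaternionGroup.quaternionGroup_one_isCyclic
  exact isCyclic_of_surjective e.symm.toMonoidHom e.symm.surjective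

theorem exists_zy {G : Type*} [Group G] [Finite G] (p : ℕ) [Fact p.Prime] (hG : IsPGroup p G)
    (hnc : ¬ IsCyclic G) (hnq : ∀ n : ℕ, ¬ Nonempty (G ≃* QuaternionGroup n))
    (hnd : ∀ n : ℕ, ¬ Nonempty (G ≃* DihedralGroup n)) (hnsd : ¬ Cfsg.IsQuasiDihedral G) :
    ∃ z y : G, z ∈ Subgroup.center G ∧ orderOf z = p ∧ y ^ p = 1 ∧ y ∉ Subgroup.zpowers z ∧
      ∀ g : G, g * y * g⁻¹ * y⁻¹ ∈ Subgroup.zpowers z := by
  have hp : p.Prime := Fact.out
  obtain ⟨A, hAn, hAc, hAnc⟩ : ∃ A : Subgroup G, A.Normal ∧ (∀ a ∈ A, ∀ b ∈ A, a * b = b * a) ∧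
      ¬ IsCyclic A := by
    by_contra hcon
    push Not at hcon
    have hna : ¬ IsMulCommutative G := by
      intro hc
      have h1 : IsCyclic (⊤ : Subgroup G) :=
        hcon ⊤ inferInstance (fun a _ b _ => hc.is_comm.comm a b)
      exact hnc (isCyclic_of_surjective (Subgroup.topEquiv : (⊤ : Subgroup G) ≃* G).toMonoidHom
        (Subgroup.topEquiv : (⊤ : Subgroup G) ≃* G).surjective)
    obtain ⟨U, hUn, hUc, hCU⟩ := Cfsg.Agent.Helper53.exists_normal_abelian_self_centralizing hG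
    have hUcyc : IsCyclic U := hcon U hUn hUc
    obtain ⟨n, hUcard⟩ := IsPGroup.iff_card.mp (hG.to_subgroup U)
    have hCeq : Subgroup.centralizer (U : Set G) = U := by
      apply le_antisymm hCU
      intro x hx
      rw [Subgroup.mem_centralizer_iff]
      intro y hy
      exact hUc y hy x hx
    rcases Cfsg.Agent.S3761.result hG hna U hUcyc n hUcard hCeq with
      ⟨-, -, h | h | h⟩ | ⟨-, hE, hEcard, hEchar⟩
    · obtain ⟨m, hm⟩ := h; exact hnd m hm
    · obtain ⟨m, hm⟩ := h; exact hnq m hm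
    · exact hnsd h
    · have hEn : (Cfsg.omegaOne p
          (Subgroup.centralizer (Cfsg.powerClosure p 1 U : Set G))).Normal :=
        Subgroup.normal_of_characteristic _
      obtain ⟨hEcomm, hEexp⟩ := hE
      have hEcyc := hcon _ hEn
        (fun a ha b hb => congrArg Subtype.val (hEcomm.is_comm.comm ⟨a, ha⟩ ⟨b, hb⟩))
      obtain ⟨g, hg⟩ := hEcyc.exists_generator
      have h1 := orderOf_eq_card_of_forall_mem_zpowers hg
      have h2 : orderOf g ∣ p := by
        apply orderOf_dvd_of_pow_eq_one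
        apply Subtype.ext
        simpa using hEexp g g.2
      rw [h1, hEcard] at h2
      have h3 := Nat.le_of_dvd hp.pos h2
      have h4 : p < p ^ 2 := by nlinarith [hp.one_lt]
      omega
  let Ω : Subgroup G :=
    { carrier := {x | x ∈ A ∧ x ^ p = 1}
      mul_mem' := fun {a b} ha hb => ⟨A.mul_mem ha.1 hb.1, by
        have hc : Commute a b := hAc a ha.1 b hb.1
        rw [hc.mul_pow, ha.2, hb.2, one_mul]⟩
      one_mem' := ⟨A.one_mem, one_pow p⟩
      inv_mem' := fun {a} ha => ⟨A.inv_mem ha.1, by rw [inv_pow, ha.2, inv_one]⟩ }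
  have hΩn : Ω.Normal :=
    ⟨fun x hx g => ⟨hAn.conj_mem x hx.1 g, by rw [conj_pow, hx.2, mul_one, mul_inv_cancel]⟩⟩
  have hΩle : ∀ C : Subgroup Ω, IsCyclic Ω → Nat.card Ω ≤ p := by
    intro _ hcyc
    obtain ⟨g, hg⟩ := hcyc.exists_generator
    have h1 := orderOf_eq_card_of_forall_mem_zpowers hg
    have h2 : orderOf g ∣ p := by
      apply orderOf_dvd_of_pow_eq_one
      apply Subtype.ext
      simpa using g.2.2
    rw [h1] at h2
    exact Nat.le_of_dvd hp.pos h2
  have hΩnc : ¬ IsCyclic Ω := by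
    intro hcyc
    apply hAnc
    have hcard := hΩle ⊤ hcyc
    have hkey : ∀ H : Subgroup A, Nat.card H = p → H.map A.subtype = Ω := by
      intro H hH
      have hcm : Nat.card (H.map A.subtype) = p := by
        rw [Subgroup.card_map_of_injective A.subtype_injective, hH]
      apply Subgroup.eq_of_le_of_card_ge
      · rintro _ ⟨x, hx, rfl⟩
        refine ⟨x.2, ?_⟩
        have : (⟨x, hx⟩ : H) ^ Nat.card H = 1 := pow_card_eq_one'
        rw [hH] at this
        have h2 := congrArg (fun t : H => ((t : A) : G)) this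
        simpa using h2
      · rw [hcm]; exact hcard
    have huniq : ∀ H K : Subgroup A, Nat.card H = p → Nat.card K = p → H = K := by
      intro H K hH hK
      apply Subgroup.map_injective A.subtype_injective
      rw [hkey H hH, hkey K hK]
    rcases Cfsg.Agent.S0016.result p (hG.to_subgroup A) huniq with h | ⟨-, n, ⟨e⟩⟩
    · exact h
    · exact cyclic_of_comm_quaternion (fun a b => Subtype.ext (hAc a a.2 b b.2)) _ e
  have hΩ0 : Ω ≠ ⊥ := by
    intro h
    apply hΩnc
    rw [h]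
    infer_instance
  obtain ⟨z, hzΩ, hz1, hzc⟩ := exists_central_mem hG Ω hΩ0
  have hzp : z ^ p = 1 := hzΩ.2
  have hoz : orderOf z = p := orderOf_eq_prime hzp hz1
  have hZn : (Subgroup.zpowers z).Normal := by
    constructor
    intro x hx g
    have : g * x * g⁻¹ = x := by
      obtain ⟨k, rfl⟩ := Subgroup.mem_zpowers_iff.mp hx
      have hc0 : Commute g z := Subgroup.mem_center_iff.mp hzc g
      have hc : Commute g (z ^ k) := hc0.zpow_right k
      rw [hc.eq]; group
    rw [this]; exact hx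
  obtain ⟨x, hxΩ, hxz⟩ : ∃ x ∈ Ω, x ∉ Subgroup.zpowers z := by
    by_contra hcon
    push Not at hcon
    apply hΩnc
    have : Ω = Subgroup.zpowers z :=
      le_antisymm hcon (by rw [Subgroup.zpowers_le]; exact hzΩ)
    rw [this]; infer_instance
  have hQ : IsPGroup p (G ⧸ Subgroup.zpowers z) := hG.to_quotient _
  have hπs : Function.Surjective (QuotientGroup.mk' (Subgroup.zpowers z)) :=
    QuotientGroup.mk'_surjective _
  have hΩbn : (Ω.map (QuotientGroup.mk' (Subgroup.zpowers z))).Normal :=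
    Subgroup.Normal.map hΩn _ hπs
  have hΩb0 : Ω.map (QuotientGroup.mk' (Subgroup.zpowers z)) ≠ ⊥ := by
    intro h
    have h1 : QuotientGroup.mk' (Subgroup.zpowers z) x ∈
        Ω.map (QuotientGroup.mk' (Subgroup.zpowers z)) := Subgroup.mem_map_of_mem _ hxΩ
    rw [h, Subgroup.mem_bot] at h1
    exact hxz ((QuotientGroup.eq_one_iff x).mp h1)
  obtain ⟨yb, hybΩ, hyb1, hybc⟩ := exists_central_mem hQ _ hΩb0
  obtain ⟨y, hyΩ, rfl⟩ := Subgroup.mem_map.mp hybΩ
  refine ⟨z, y, hzc, hoz, hyΩ.2, fun hy => hyb1 ((QuotientGroup.eq_one_iff y).mpr hy),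
    fun g => ?_⟩
  rw [← QuotientGroup.eq_one_iff]
  have h1 := Subgroup.mem_center_iff.mp hybc (QuotientGroup.mk' (Subgroup.zpowers z) g)
  show QuotientGroup.mk' (Subgroup.zpowers z) (g * y * g⁻¹ * y⁻¹) = 1
  rw [map_mul, map_mul, map_mul, map_inv, map_inv, h1]
  group

section lin

variable {F : Type*} [Field F] {V : Type*} [AddCommGroup V] [Module F V] {G : Type*} [Group G]
  (ρ : G →* (V ≃ₗ[F] V))

/-- The stabiliser of a vector. -/
def stab (v : V) : Subgroup G where
  carrier := {g | ρ g v = v}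
  mul_mem' := fun {a b} ha hb => by
    show ρ (a * b) v = v
    rw [map_mul]
    show ρ a (ρ b v) = v
    rw [show ρ b v = v from hb]
    exact ha
  one_mem' := by
    show ρ 1 v = v
    rw [map_one]; rfl
  inv_mem' := fun {a} ha => by
    show ρ a⁻¹ v = v
    have h1 : ρ a⁻¹ (ρ a v) = v := by
      show (ρ a⁻¹ * ρ a) v = v
      rw [← map_mul, inv_mul_cancel, map_one]; rfl
    rw [show ρ a v = v from ha] at h1
    exact h1

theorem mem_stab {v : V} {g : G} : g ∈ stab ρ v ↔ ρ g v = v := Iff.rfl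

/-- The fixed space of a group element. -/
def fixS (a : G) : Submodule F V where
  carrier := {v | ρ a v = v}
  add_mem' := fun {x y} hx hy => by
    show ρ a (x + y) = x + y
    rw [map_add, show ρ a x = x from hx, show ρ a y = y from hy]
  zero_mem' := map_zero _
  smul_mem' := fun c x hx => by
    show ρ a (c • x) = c • x
    rw [map_smul, show ρ a x = x from hx]

theorem mem_fixS {a : G} {v : V} : v ∈ fixS ρ a ↔ ρ a v = v := Iff.rfl

theorem fix_conj (a g : G) :
    (fixS ρ a).map (ρ g : V →ₗ[F] V) = fixS ρ (g * a * g⁻¹) := by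
  ext w
  rw [Submodule.mem_map, mem_fixS]
  constructor
  · rintro ⟨v, hv, rfl⟩
    rw [mem_fixS] at hv
    show (ρ (g * a * g⁻¹) * ρ g) v = ρ g v
    rw [← map_mul]
    have : g * a * g⁻¹ * g = g * a := by group
    rw [this, map_mul]
    show ρ g (ρ a v) = ρ g v
    rw [hv]
  · intro hw
    refine ⟨ρ g⁻¹ w, ?_, ?_⟩
    · rw [mem_fixS]
      show (ρ a * ρ g⁻¹) w = ρ g⁻¹ w
      rw [← map_mul]
      have : a * g⁻¹ = g⁻¹ * (g * a * g⁻¹) := by group
      rw [this, map_mul]
      show ρ g⁻¹ (ρ (g * a * g⁻¹) w) = ρ g⁻¹ w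
      rw [hw]
    · show (ρ g * ρ g⁻¹) w = w
      rw [← map_mul, mul_inv_cancel, map_one]; rfl

/-- The averaging operator of an element. -/
def avg (p : ℕ) (a : G) : V →ₗ[F] V :=
  ∑ j ∈ Finset.range p, ((ρ (a ^ j) : V ≃ₗ[F] V) : V →ₗ[F] V)

theorem avg_apply (p : ℕ) (a : G) (v : V) :
    avg ρ p a v = ∑ j ∈ Finset.range p, ρ (a ^ j) v := by
  unfold avg
  rw [LinearMap.sum_apply]
  rfl

theorem avg_mem (p : ℕ) (a : G) (ha : a ^ p = 1) (v : V) : avg ρ p a v ∈ fixS ρ a := by
  rw [mem_fixS, avg_apply, map_sum]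
  have h1 : ∀ j, ρ a (ρ (a ^ j) v) = ρ (a ^ (j + 1)) v := by
    intro j
    show (ρ a * ρ (a ^ j)) v = _
    rw [← map_mul, ← pow_succ']
  simp only [h1]
  have h2 := Finset.sum_range_succ' (fun j => ρ (a ^ j) v) p
  have h3 := Finset.sum_range_succ (fun j => ρ (a ^ j) v) p
  rw [h3] at h2
  simp only [ha, pow_zero] at h2
  exact (add_right_cancel h2).symm

theorem avg_of_mem (p : ℕ) (a : G) (v : V) (hv : v ∈ fixS ρ a) : avg ρ p a v = p • v := by
  rw [avg_apply]
  have h1 : ∀ j ∈ Finset.range p, ρ (a ^ j) v = v := by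
    intro j _
    exact (stab ρ v).pow_mem (show a ∈ stab ρ v from hv) j
  rw [Finset.sum_congr rfl h1, Finset.sum_const, Finset.card_range]

theorem avg_comm (p : ℕ) (a b : G) (hab : a * b = b * a) (v : V) :
    ρ b (avg ρ p a v) = avg ρ p a (ρ b v) := by
  rw [avg_apply, avg_apply, map_sum]
  apply Finset.sum_congr rfl
  intro j _
  have hc : Commute (a ^ j) b := (show Commute a b from hab).pow_left j
  show (ρ b * ρ (a ^ j)) v = (ρ (a ^ j) * ρ b) v
  rw [← map_mul, ← map_mul, hc.eq]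

end lin

/-- In a group, if `z` has prime order `p` and `z ^ j` (`0 < j < p`) lies in a subgroup, so does `z`. -/
theorem mem_of_pow_mem {G : Type*} [Group G] [Finite G] {p : ℕ} [Fact p.Prime] (S : Subgroup G)
    (z : G) (hz : orderOf z = p) (j : ℕ) (hj0 : 0 < j) (hjp : j < p) (h : z ^ j ∈ S) : z ∈ S := by
  have hp : p.Prime := Fact.out
  have h1 : orderOf (z ^ j) = p := by
    rw [orderOf_pow' z hj0.ne', hz]
    have : Nat.gcd p j = 1 :=
      (Nat.Prime.coprime_iff_not_dvd hp).mpr (Nat.not_dvd_of_pos_of_lt hj0 hjp)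
    rw [this, Nat.div_one]
  have h2 : Subgroup.zpowers (z ^ j) = Subgroup.zpowers z := by
    apply Subgroup.eq_of_le_of_card_ge
    · rw [Subgroup.zpowers_le]; exact Subgroup.pow_mem _ (Subgroup.mem_zpowers z) j
    · rw [Nat.card_zpowers, Nat.card_zpowers, h1, hz]
  have h3 : z ∈ Subgroup.zpowers (z ^ j) := h2 ▸ Subgroup.mem_zpowers z
  exact (Subgroup.zpowers_le.mpr h) h3

/-- Let a finite p-group G act faithfully and irreducibly on a non-trivial finite vector space V over the field with q elements (q prime), and suppose G is not cyclic, generalized quaternion, dihedral or semidihedral. Then G has a subgroup H of index p and V is the direct sum of p subspaces, each invariant under H, on none of which H acts faithfully, and which every element of G outside H permutes in a single p-cycle. -/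
theorem result
    (q : ℕ) [Fact q.Prime] {V : Type*} [AddCommGroup V] [Module (ZMod q) V] [Finite V] [Nontrivial V]
    {G : Type*} [Group G] [Finite G] (p : ℕ) [Fact p.Prime] (hG : IsPGroup p G)
    (ρ : G →* (V ≃ₗ[ZMod q] V)) (hρ : Function.Injective ρ)
    (hirr : ∀ W : Submodule (ZMod q) V, (∀ g : G, ∀ w ∈ W, ρ g w ∈ W) → W = ⊥ ∨ W = ⊤)
    (hnc : ¬ IsCyclic G) (hnq : ∀ n : ℕ, ¬ Nonempty (G ≃* QuaternionGroup n))
    (hnd : ∀ n : ℕ, ¬ Nonempty (G ≃* DihedralGroup n)) (hnsd : ¬ Cfsg.IsQuasiDihedral G) :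
    ∃ (H : Subgroup G) (W : Fin p → Submodule (ZMod q) V), H.index = p ∧
      iSup W = ⊤ ∧ iSupIndep W ∧
      (∀ h ∈ H, ∀ i, ∀ w ∈ W i, ρ h w ∈ W i) ∧
      (∀ i, ∃ h ∈ H, h ≠ 1 ∧ ∀ w ∈ W i, ρ h w = w) ∧
      ∀ g : G, g ∉ H → ∃ σ : Equiv.Perm (Fin p), orderOf σ = p ∧ ∀ i, (W i).map (ρ g : V →ₗ[ZMod q] V) = W (σ i) := by
  classical
  have hp : p.Prime := Fact.out
  have : NeZero p := ⟨hp.ne_zero⟩
  have hpq : (p : ZMod q) ≠ 0 := by
    intro hpK
    let ρE : Representation (ZMod q) G V :=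
      { toFun := fun g => ((ρ g : V ≃ₗ[ZMod q] V) : V →ₗ[ZMod q] V)
        map_one' := by rw [map_one]; rfl
        map_mul' := fun a b => by rw [map_mul]; rfl }
    obtain ⟨v, hv0, hv⟩ := Cfsg.Agent.S4010.exists_fixed p hpK hG ρE
    have hv' : ∀ g, ρ g v = v := hv
    have hspan : Submodule.span (ZMod q) {v} = ⊤ := by
      rcases hirr (Submodule.span (ZMod q) {v}) (by
        intro g w hw
        obtain ⟨c, rfl⟩ := Submodule.mem_span_singleton.mp hw
        rw [map_smul, hv']
        exact Submodule.smul_mem _ c (Submodule.mem_span_singleton_self v)) with h | h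
      · exact absurd ((Submodule.span_singleton_eq_bot).mp h) hv0
      · exact h
    have htriv : ∀ g : G, g = 1 := by
      intro g
      apply hρ
      rw [map_one]
      ext w
      have hw : w ∈ Submodule.span (ZMod q) {v} := by rw [hspan]; trivial
      obtain ⟨c, rfl⟩ := Submodule.mem_span_singleton.mp hw
      rw [map_smul, hv']; rfl
    apply hnc
    have : Subsingleton G := ⟨fun a b => by rw [htriv a, htriv b]⟩
    infer_instance
  obtain ⟨z, y, hzc, hoz, hyp, hyz, hcomm⟩ := exists_zy p hG hnc hnq hnd hnsd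
  have hz1 : z ≠ 1 := by
    rintro rfl
    rw [orderOf_one] at hoz
    exact hp.one_lt.ne hoz
  have hzp : z ^ p = 1 := by rw [← hoz]; exact pow_orderOf_eq_one z
  have hzcomm : ∀ g : G, g * z = z * g := fun g => Subgroup.mem_center_iff.mp hzc g
  have hzC : ∀ g : G, Commute g z := hzcomm
  have hcentral : ∀ c : G, c ∈ Subgroup.center G → c ≠ 1 → fixS ρ c = ⊥ := by
    intro c hc hc1
    rcases hirr (fixS ρ c) (by
      intro g w hw
      rw [mem_fixS] at hw ⊢
      show (ρ c * ρ g) w = ρ g w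
      rw [← map_mul, ← Subgroup.mem_center_iff.mp hc g, map_mul]
      show ρ g (ρ c w) = ρ g w
      rw [hw]) with h | h
    · exact h
    · exfalso
      apply hc1
      apply hρ
      rw [map_one]
      ext w
      have : w ∈ fixS ρ c := by rw [h]; trivial
      exact this
  have hfz : fixS ρ z = ⊥ := hcentral z hzc hz1
  have hzero : ∀ (j : ℕ) (u : V), 0 < j → j < p → ρ (z ^ j) u = u → u = 0 := by
    intro j u hj0 hjp hu
    have h1 : z ∈ stab ρ u := mem_of_pow_mem (stab ρ u) z hoz j hj0 hjp hu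
    have h2 : u ∈ fixS ρ z := h1
    rw [hfz] at h2
    exact (Submodule.mem_bot _).mp h2
  have hclaim : ∀ v : V, ∑ k ∈ Finset.range p, avg ρ p (y * z ^ k) v = p • v := by
    intro v
    have h1 : ∀ k ∈ Finset.range p, avg ρ p (y * z ^ k) v =
        ∑ j ∈ Finset.range p, ρ (y ^ j) (ρ ((z ^ j) ^ k) v) := by
      intro k _
      rw [avg_apply]
      apply Finset.sum_congr rfl
      intro j _
      have hc : Commute y (z ^ k) := (hzC y).pow_right k
      rw [hc.mul_pow, ← pow_mul, mul_comm k j, pow_mul, map_mul]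
      rfl
    rw [Finset.sum_congr rfl h1, Finset.sum_comm]
    have h2 : ∀ j ∈ Finset.range p, ∑ k ∈ Finset.range p, ρ (y ^ j) (ρ ((z ^ j) ^ k) v) =
        ρ (y ^ j) (avg ρ p (z ^ j) v) := by
      intro j _
      rw [avg_apply, map_sum]
    rw [Finset.sum_congr rfl h2]
    rw [Finset.sum_eq_single 0]
    · rw [pow_zero, pow_zero, map_one]
      show avg ρ p 1 v = p • v
      apply avg_of_mem
      rw [mem_fixS, map_one]; rfl
    · intro j hj hj0
      have h3 : avg ρ p (z ^ j) v = 0 := by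
        apply hzero j _ (Nat.pos_of_ne_zero hj0) (Finset.mem_range.mp hj)
        exact avg_mem ρ p (z ^ j) (by rw [← pow_mul, mul_comm, pow_mul, hzp, one_pow]) v
      rw [h3, map_zero]
    · intro h
      exact absurd (Finset.mem_range.mpr hp.pos) h
  let a : Fin p → G := fun i => y * z ^ (i : ℕ)
  let W : Fin p → Submodule (ZMod q) V := fun i => fixS ρ (a i)
  have hap : ∀ i, a i ^ p = 1 := by
    intro i
    have hc : Commute y (z ^ (i : ℕ)) := (hzC y).pow_right _
    show (y * z ^ (i : ℕ)) ^ p = 1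
    rw [hc.mul_pow, hyp, ← pow_mul, mul_comm, pow_mul, hzp, one_pow, one_mul]
  have haa : ∀ i j, a i * a j = a j * a i := by
    intro i j
    show y * z ^ (i : ℕ) * (y * z ^ (j : ℕ)) = y * z ^ (j : ℕ) * (y * z ^ (i : ℕ))
    have hci : Commute y (z ^ (i : ℕ)) := (hzC y).pow_right _
    have hcj : Commute y (z ^ (j : ℕ)) := (hzC y).pow_right _
    have hij : Commute (z ^ (i : ℕ)) (z ^ (j : ℕ)) := (Commute.refl z).pow_pow _ _
    calc y * z ^ (i : ℕ) * (y * z ^ (j : ℕ)) = y * (z ^ (i : ℕ) * y) * z ^ (j : ℕ) := by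
          simp only [mul_assoc]
      _ = y * (y * z ^ (i : ℕ)) * z ^ (j : ℕ) := by rw [hci.eq]
      _ = y * y * (z ^ (i : ℕ) * z ^ (j : ℕ)) := by simp only [mul_assoc]
      _ = y * y * (z ^ (j : ℕ) * z ^ (i : ℕ)) := by rw [hij.eq]
      _ = y * (y * z ^ (j : ℕ)) * z ^ (i : ℕ) := by simp only [mul_assoc]
      _ = y * (z ^ (j : ℕ) * y) * z ^ (i : ℕ) := by rw [hcj.eq]
      _ = y * z ^ (j : ℕ) * (y * z ^ (i : ℕ)) := by simp only [mul_assoc]
  have hsup : iSup W = ⊤ := by
    rw [eq_top_iff]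
    intro v _
    have h1 : p • v ∈ iSup W := by
      rw [← hclaim v, Finset.sum_range]
      apply Submodule.sum_mem
      intro i _
      exact Submodule.mem_iSup_of_mem i (avg_mem ρ p (a i) (hap i) v)
    have h2 : v = (p : ZMod q)⁻¹ • (p • v) := by
      rw [← Nat.cast_smul_eq_nsmul (ZMod q), smul_smul, inv_mul_cancel₀ hpq, one_smul]
    rw [h2]
    exact Submodule.smul_mem _ _ h1
  have hker : ∀ i j : Fin p, i ≠ j → ∀ w ∈ W j, avg ρ p (a i) w = 0 := by
    intro i j hij w hw
    have hu1 : ρ (a i) (avg ρ p (a i) w) = avg ρ p (a i) w := avg_mem ρ p (a i) (hap i) w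
    have hu2 : ρ (a j) (avg ρ p (a i) w) = avg ρ p (a i) w := by
      rw [avg_comm ρ p (a i) (a j) (haa i j), (hw : ρ (a j) w = w)]
    rcases lt_or_gt_of_ne hij with h | h
    · have hlt : (i : ℕ) < (j : ℕ) := h
      have h3 : a j = a i * z ^ ((j : ℕ) - (i : ℕ)) := by
        show y * z ^ (j : ℕ) = y * z ^ (i : ℕ) * z ^ ((j : ℕ) - (i : ℕ))
        rw [mul_assoc, ← pow_add]
        congr 2
        omega
      apply hzero ((j : ℕ) - (i : ℕ)) _ (by omega) (by have := j.2; omega)
      have h4 : z ^ ((j : ℕ) - (i : ℕ)) = (a i)⁻¹ * a j := by rw [h3]; group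
      rw [h4]
      exact (stab ρ _).mul_mem ((stab ρ _).inv_mem hu1) hu2
    · have hlt : (j : ℕ) < (i : ℕ) := h
      have h3 : a i = a j * z ^ ((i : ℕ) - (j : ℕ)) := by
        show y * z ^ (i : ℕ) = y * z ^ (j : ℕ) * z ^ ((i : ℕ) - (j : ℕ))
        rw [mul_assoc, ← pow_add]
        congr 2
        omega
      apply hzero ((i : ℕ) - (j : ℕ)) _ (by omega) (by have := i.2; omega)
      have h4 : z ^ ((i : ℕ) - (j : ℕ)) = (a j)⁻¹ * a i := by rw [h3]; group
      rw [h4]
      exact (stab ρ _).mul_mem ((stab ρ _).inv_mem hu2) hu1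
  have hindep : iSupIndep W := by
    intro i
    rw [Submodule.disjoint_def]
    intro w hw1 hw2
    have h1 : avg ρ p (a i) w = p • w := avg_of_mem ρ p (a i) w hw1
    have h2 : (⨆ j, ⨆ (_ : j ≠ i), W j) ≤ LinearMap.ker (avg ρ p (a i)) := by
      apply iSup_le; intro j
      apply iSup_le; intro hji
      intro w' hw'
      rw [LinearMap.mem_ker]
      exact hker i j (Ne.symm hji) w' hw'
    have h3 : avg ρ p (a i) w = 0 := LinearMap.mem_ker.mp (h2 hw2)
    rw [h1] at h3
    have h4 : w = (p : ZMod q)⁻¹ • (p • w) := by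
      rw [← Nat.cast_smul_eq_nsmul (ZMod q), smul_smul, inv_mul_cancel₀ hpq, one_smul]
    rw [h4, h3, smul_zero]
  have hane : ∀ i, a i ≠ 1 := by
    intro i h1
    apply hyz
    have h2 : y = (z ^ (i : ℕ))⁻¹ := eq_inv_of_mul_eq_one_left h1
    rw [h2]
    exact Subgroup.inv_mem _ (Subgroup.pow_mem _ (Subgroup.mem_zpowers z) _)
  have hync : y ∉ Subgroup.center G := by
    intro hyc
    have hall : ∀ i, W i = ⊥ := by
      intro i
      exact hcentral _ (Subgroup.mul_mem _ hyc (Subgroup.pow_mem _ hzc _)) (hane i)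
    have h1 : iSup W = ⊥ := by
      rw [iSup_eq_bot]; exact hall
    rw [h1] at hsup
    exact bot_ne_top hsup
  have hzpc : ∀ c ∈ Subgroup.zpowers z, ∀ g : G, g * c = c * g := by
    intro c hc g
    have h1 : Subgroup.zpowers z ≤ Subgroup.center G := by
      rw [Subgroup.zpowers_le]; exact hzc
    exact Subgroup.mem_center_iff.mp (h1 hc) g
  let φ : G →* Subgroup.zpowers z :=
    { toFun := fun g => ⟨g * y * g⁻¹ * y⁻¹, hcomm g⟩
      map_one' := by apply Subtype.ext; simp
      map_mul' := fun g h => by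
        apply Subtype.ext
        show g * h * y * (g * h)⁻¹ * y⁻¹ = (g * y * g⁻¹ * y⁻¹) * (h * y * h⁻¹ * y⁻¹)
        have h1 := hzpc _ (hcomm h) (g * y * g⁻¹ * y⁻¹)
        rw [h1]
        have h2 := hzpc _ (hcomm h) g
        calc g * h * y * (g * h)⁻¹ * y⁻¹ = g * (h * y * h⁻¹ * y⁻¹) * (y * g⁻¹ * y⁻¹) := by group
          _ = (h * y * h⁻¹ * y⁻¹) * g * (y * g⁻¹ * y⁻¹) := by rw [h2]
          _ = h * y * h⁻¹ * y⁻¹ * (g * y * g⁻¹ * y⁻¹) := by group }
  have hφ : ∀ g : G, ((φ g : Subgroup.zpowers z) : G) = g * y * g⁻¹ * y⁻¹ := fun g => rfl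
  have hmemH : ∀ g : G, g ∈ φ.ker ↔ g * y = y * g := by
    intro g
    rw [MonoidHom.mem_ker]
    constructor
    · intro h
      have h1 : g * y * g⁻¹ * y⁻¹ = 1 := by rw [← hφ, h]; rfl
      calc g * y = (g * y * g⁻¹ * y⁻¹) * y * g := by group
        _ = y * g := by rw [h1, one_mul]
    · intro h
      apply Subtype.ext
      rw [hφ, h]
      simp
  have hindex : φ.ker.index = p := by
    rw [Subgroup.index_ker]
    have : Fact (Nat.card (Subgroup.zpowers z)).Prime :=
      ⟨by rw [Nat.card_zpowers, hoz]; exact hp⟩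
    rcases Subgroup.eq_bot_or_eq_top_of_prime_card φ.range with h | h
    · exfalso
      apply hync
      rw [Subgroup.mem_center_iff]
      intro g
      have h1 : g ∈ φ.ker := by
        rw [MonoidHom.mem_ker]
        have h2 : φ g ∈ φ.range := ⟨g, rfl⟩
        rw [h] at h2
        exact Subgroup.mem_bot.mp h2
      exact (hmemH g).mp h1
    · rw [h, Subgroup.card_top, Nat.card_zpowers, hoz]
  have hHa : ∀ h ∈ φ.ker, ∀ i, h * a i = a i * h := by
    intro h hh i
    have h1 := (hmemH h).mp hh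
    have h2 : Commute h (z ^ (i : ℕ)) := (hzC h).pow_right _
    show h * (y * z ^ (i : ℕ)) = y * z ^ (i : ℕ) * h
    rw [← mul_assoc, h1, mul_assoc, h2.eq, mul_assoc]
  have hinv : ∀ h ∈ φ.ker, ∀ i, ∀ w ∈ W i, ρ h w ∈ W i := by
    intro h hh i w hw
    have h1 : (ρ (a i) * ρ h) w = (ρ h * ρ (a i)) w := by
      rw [← map_mul, ← map_mul, hHa h hh i]
    show (ρ (a i) * ρ h) w = ρ h w
    rw [h1]
    show ρ h (ρ (a i) w) = ρ h w
    rw [(hw : ρ (a i) w = w)]
  have haH : ∀ i, a i ∈ φ.ker := by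
    intro i
    rw [hmemH]
    have h2 : Commute y (z ^ (i : ℕ)) := (hzC y).pow_right _
    show y * z ^ (i : ℕ) * y = y * (y * z ^ (i : ℕ))
    rw [mul_assoc, ← h2.eq]
  refine ⟨φ.ker, W, hindex, hsup, hindep, hinv, fun i => ⟨a i, haH i, hane i, fun w hw => hw⟩, ?_⟩
  intro g hg
  have hc1 : g * y * g⁻¹ * y⁻¹ ≠ 1 := by
    intro h
    apply hg
    rw [MonoidHom.mem_ker]
    exact Subtype.ext h
  obtain ⟨t, ht⟩ : ∃ t : ℕ, z ^ t = g * y * g⁻¹ * y⁻¹ := by
    have h1 := (mem_powers_iff_mem_zpowers).mpr (hcomm g)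
    exact (Submonoid.mem_powers_iff _ _).mp h1
  have hzt : z ^ (t % p) = z ^ t := by
    have h1 := pow_mod_orderOf z t
    rw [hoz] at h1
    exact h1
  have htp : t % p ≠ 0 := by
    intro h
    apply hc1
    rw [← ht, ← hzt, h, pow_zero]
  let τ : Fin p := ⟨t % p, Nat.mod_lt _ hp.pos⟩
  have hτ : τ ≠ 0 := by
    intro h
    apply htp
    have h1 := congrArg Fin.val h
    simpa [τ] using h1
  refine ⟨Equiv.addRight τ, ?_, ?_⟩
  · apply orderOf_eq_prime
    · rw [Equiv.nsmul_addRight]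
      have h1 : p • τ = 0 := by
        have h2 := card_nsmul_eq_zero' (G := Fin p) (x := τ)
        rwa [Nat.card_eq_fintype_card, Fintype.card_fin] at h2
      rw [h1]
      exact Equiv.addRight_zero
    · intro h
      apply hτ
      have h1 := congrArg (fun e : Equiv.Perm (Fin p) => e 0) h
      simpa using h1
  · intro i
    show (fixS ρ (a i)).map (ρ g : V →ₗ[ZMod q] V) = fixS ρ (a (Equiv.addRight τ i))
    rw [fix_conj]
    congr 1
    show g * (y * z ^ (i : ℕ)) * g⁻¹ = y * z ^ ((Equiv.addRight τ i : Fin p) : ℕ)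
    have h1 : ((Equiv.addRight τ i : Fin p) : ℕ) = ((i : ℕ) + t % p) % p := by
      show ((i + τ : Fin p) : ℕ) = _
      rw [Fin.val_add]
    have h2 : z ^ (((i : ℕ) + t % p) % p) = z ^ (i : ℕ) * z ^ t := by
      have h3 := pow_mod_orderOf z ((i : ℕ) + t % p)
      rw [hoz] at h3
      rw [h3, pow_add, hzt]
    rw [h1, h2, ht]
    have hci : ∀ x : G, x * z ^ (i : ℕ) = z ^ (i : ℕ) * x :=
      fun x => (hzC x).pow_right _
    have hcc := hzpc _ (hcomm g)
    calc g * (y * z ^ (i : ℕ)) * g⁻¹ = g * y * (z ^ (i : ℕ) * g⁻¹) := by simp only [mul_assoc]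
      _ = g * y * (g⁻¹ * z ^ (i : ℕ)) := by rw [hci g⁻¹]
      _ = (g * y * g⁻¹ * y⁻¹) * y * z ^ (i : ℕ) := by group
      _ = y * (g * y * g⁻¹ * y⁻¹) * z ^ (i : ℕ) := by rw [hcc y]
      _ = y * ((g * y * g⁻¹ * y⁻¹) * z ^ (i : ℕ)) := by simp only [mul_assoc]
      _ = y * (z ^ (i : ℕ) * (g * y * g⁻¹ * y⁻¹)) := by rw [hci]

end Cfsg.Agent.S3380
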