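import Mathlib
import Cfsg.Statements.S3389

set_option autoImplicit false
open Cfsg

namespace Cfsg.Agent.S3389

open MulAction
open scoped Pointwise

section basic

variable {G : Type*} [Group G] [Finite G]

/-- Conjugacy of two "Sylow p-subgroups" of a subgroup `X`, stated inside the ambient group. -/
theorem sylConj (p : ℕ) (hp : p.Prime) (X S S' : Subgroup G) (hS : S ≤ X) (hS' : S' ≤ X)
    (hc : Nat.card S = p ^ (Nat.card X).factorization p) (hc' : Nat.card S' = Nat.card S) :
    ∃ y ∈ X, ∀ s : G, s ∈ S' ↔ y⁻¹ * s * y ∈ S := by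
  have hp2 : Fact (Nat.Prime p) := ⟨hp⟩
  have e1 : Nat.card (S.subgroupOf X) = p ^ (Nat.card X).factorization p := by
    rw [Nat.card_congr (Subgroup.subgroupOfEquivOfLe hS).toEquiv]; exact hc
  have e2 : Nat.card (S'.subgroupOf X) = p ^ (Nat.card X).factorization p := by
    rw [Nat.card_congr (Subgroup.subgroupOfEquivOfLe hS').toEquiv, hc']; exact hc
  obtain ⟨y, hy⟩ := MulAction.exists_smul_eq X (Sylow.ofCard _ e1) (Sylow.ofCard _ e2)
  have hy' : MulAut.conj y • (S.subgroupOf X) = S'.subgroupOf X := by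
    have := congrArg (fun P : Sylow p X => (P : Subgroup X)) hy
    simpa [Sylow.coe_subgroup_smul, Sylow.coe_ofCard] using this
  refine ⟨y, y.2, fun s => ?_⟩
  constructor
  · intro hs
    have hsX : s ∈ X := hS' hs
    have h1 : (⟨s, hsX⟩ : X) ∈ S'.subgroupOf X := by
      rw [Subgroup.mem_subgroupOf]; exact hs
    rw [← hy', Subgroup.mem_pointwise_smul_iff_inv_smul_mem, Subgroup.mem_subgroupOf] at h1
    simpa [MulAut.smul_def, MulAut.conj_inv_apply] using h1
  · intro hs
    have hsX : s ∈ X := by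
      have h2 : y⁻¹ * s * y ∈ X := hS hs
      have h3 := X.mul_mem (X.mul_mem y.2 h2) (X.inv_mem y.2)
      simpa [mul_assoc] using h3
    have h1 : (⟨s, hsX⟩ : X) ∈ S'.subgroupOf X := by
      rw [← hy', Subgroup.mem_pointwise_smul_iff_inv_smul_mem, Subgroup.mem_subgroupOf]
      simpa [MulAut.smul_def, MulAut.conj_inv_apply] using hs
    rw [Subgroup.mem_subgroupOf] at h1
    exact h1

/-- A Witt-type lemma. -/
theorem witt (p : ℕ) (hp : p.Prime) (X S : Subgroup G) (hSX : S ≤ X)
    (hc : Nat.card S = p ^ (Nat.card X).factorization p)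
    (g : G) (hg : ∀ s ∈ S, g * s * g⁻¹ ∈ X) :
    ∃ y ∈ X, y * g ∈ Subgroup.normalizer (S : Set G) := by
  set S' : Subgroup G := S.map (MulAut.conj g).toMonoidHom with hS'
  have hS'X : S' ≤ X := by
    rintro _ ⟨s, hs, rfl⟩
    simpa using hg s hs
  have hcard : Nat.card S' = Nat.card S :=
    Subgroup.card_map_of_injective (MulAut.conj g).injective
  obtain ⟨y, hyX, hy⟩ := sylConj p hp X S S' hSX hS'X hc hcard
  refine ⟨y⁻¹, X.inv_mem hyX, ?_⟩
  rw [Subgroup.mem_normalizer_iff]
  intro n
  have key : y⁻¹ * g * n * (y⁻¹ * g)⁻¹ = y⁻¹ * (g * n * g⁻¹) * y := by group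
  rw [key, ← hy]
  constructor
  · intro hn
    exact ⟨n, hn, by simp⟩
  · rintro ⟨s, hs, hsn⟩
    have : s = n := by
      have h := hsn
      simp only [MulEquiv.coe_toMonoidHom, MulAut.conj_apply] at h
      have h2 : g⁻¹ * (g * s * g⁻¹) * g = g⁻¹ * (g * n * g⁻¹) * g := by rw [h]
      simpa [mul_assoc] using h2
    rw [← this]; exact hs

variable {Ω : Type*} [MulAction G Ω]

theorem fp_zpowers (x : G) : (fixedPoints (Subgroup.zpowers x) Ω : Set Ω) = fixedBy Ω x := by
  ext a
  simp only [mem_fixedPoints, mem_fixedBy]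
  constructor
  · intro h; exact h ⟨x, Subgroup.mem_zpowers x⟩
  · rintro h ⟨y, hy⟩
    obtain ⟨n, rfl⟩ := Subgroup.mem_zpowers_iff.mp hy
    exact MulAction.fixedBy_subset_fixedBy_zpow Ω x n h

theorem pow_fix (g : G) (a : Ω) (h : g • a = a) (n : ℕ) : g ^ n • a = a := by
  induction n with
  | zero => simp
  | succ n ih => rw [pow_succ, mul_smul, h, ih]

/-- the subaction of the centre on the fixed points of `g` -/
def fixSub (Ω : Type*) [MulAction G Ω] (g : G) : SubMulAction (Subgroup.center G) Ω where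
  carrier := fixedBy Ω g
  smul_mem' := by
    intro z a ha
    have ha' : g • a = a := ha
    show g • ((z : G) • a) = (z : G) • a
    rw [← mul_smul, (Subgroup.mem_center_iff.mp z.2 g), mul_smul, ha']

theorem center_dvd [FaithfulSMul G Ω] [htr : IsPretransitive G Ω] (g : G) :
    Nat.card (Subgroup.center G) ∣ Nat.card (fixedBy Ω g) := by
  have hstab : ∀ b : fixSub Ω g, stabilizer (Subgroup.center G) b = ⊥ := by
    intro b
    rw [eq_bot_iff]
    intro z hz
    rw [mem_stabilizer_iff] at hz
    have hz' : (z : G) • (b : Ω) = (b : Ω) := congrArg Subtype.val hz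
    rw [Subgroup.mem_bot]
    have h1 : (z : G) = 1 := by
      apply FaithfulSMul.eq_of_smul_eq_smul (α := Ω)
      intro ω
      obtain ⟨h, rfl⟩ := MulAction.exists_smul_eq G (b : Ω) ω
      rw [one_smul, ← mul_smul, ← (Subgroup.mem_center_iff.mp z.2 h), mul_smul, hz']
    exact Subtype.ext h1
  have e := selfEquivOrbitsQuotientProd hstab
  have h2 : Nat.card (fixSub Ω g) = Nat.card (fixedBy Ω g) := rfl
  rw [← h2, Nat.card_congr e, Nat.card_prod]
  exact dvd_mul_left _ _

theorem partc [Finite Ω] [htr : IsPretransitive G Ω] (k : ℕ)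
    (hfix : ∀ g : G, g ≠ 1 → Nat.card (fixedBy Ω g) ≤ k) (p : ℕ) (hp : p.Prime) (hkp : k < p)
    (α : Ω) (h1 : p ∣ Nat.card (stabilizer G α)) : ¬ p ∣ (stabilizer G α).index := by
  have hpF := Fact.mk hp
  obtain ⟨x, hx⟩ := exists_prime_orderOf_dvd_card' p h1
  have hx' : orderOf (x : G) = p := by rw [Subgroup.orderOf_coe]; exact hx
  have hx1 : (x : G) ≠ 1 := by
    intro h
    rw [h, orderOf_one] at hx'
    exact hp.one_lt.ne hx'
  have hP : IsPGroup p (Subgroup.zpowers (x : G)) := by
    apply IsPGroup.of_card (n := 1)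
    rw [Nat.card_zpowers, hx', pow_one]
  have hmod := hP.card_modEq_card_fixedPoints Ω
  rw [fp_zpowers] at hmod
  have hle := hfix _ hx1
  have hpos : 0 < Nat.card (fixedBy Ω (x : G)) := by
    have : Nonempty (fixedBy Ω (x : G)) := ⟨⟨α, x.2⟩⟩
    exact Nat.card_pos
  rw [index_stabilizer_of_transitive]
  intro hdvd
  have h3 : p ∣ Nat.card (fixedBy Ω (x : G)) := by
    rw [Nat.dvd_iff_mod_eq_zero] at hdvd ⊢
    rw [← hmod]; exact hdvd
  have := Nat.le_of_dvd hpos h3
  omega

theorem partb [Finite Ω] [htr : IsPretransitive G Ω]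
    (hfix : ∀ g : G, g ≠ 1 → Nat.card (fixedBy Ω g) ≤ 2) (g : G) (hg : g ≠ 1)
    (hg2 : Nat.card (fixedBy Ω g) = 2) : 2 ∣ Nat.card G := by
  obtain ⟨a, b, hab, hset⟩ := Nat.card_eq_two_iff.mp hg2
  obtain ⟨α, hα⟩ := a
  obtain ⟨β, hβ⟩ := b
  have hαβ : α ≠ β := fun h => hab (Subtype.ext h)
  have hα' : g • α = α := hα
  have hβ' : g • β = β := hβ
  -- an element of prime order
  have ho1 : orderOf g ≠ 1 := fun h => hg (orderOf_eq_one_iff.mp h)
  obtain ⟨p, hp, hpd⟩ := Nat.exists_prime_and_dvd ho1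
  have hpF := Fact.mk hp
  have ho0 : orderOf g ≠ 0 := (orderOf_pos g).ne'
  set x : G := g ^ (orderOf g / p) with hxdef
  have hxo : orderOf x = p := orderOf_pow_orderOf_div ho0 hpd
  have hx1 : x ≠ 1 := by
    intro h
    rw [h, orderOf_one] at hxo
    exact hp.one_lt.ne hxo
  have hxα : x • α = α := pow_fix g α hα' _
  have hxβ : x • β = β := pow_fix g β hβ' _
  have hxF : ∀ ω : Ω, x • ω = ω → ω = α ∨ ω = β := by
    intro ω hω
    by_contra hcon
    push Not at hcon
    have hsub : ({α, β, ω} : Set Ω) ⊆ fixedBy Ω x := by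
      intro y hy
      rcases hy with rfl | rfl | rfl
      · exact hxα
      · exact hxβ
      · exact hω
    have h3 : ({α, β, ω} : Set Ω).ncard = 3 :=
      Set.ncard_eq_three.mpr ⟨α, β, ω, hαβ, fun h => hcon.1 h.symm, fun h => hcon.2 h.symm, rfl⟩
    have hle := Set.ncard_le_ncard hsub (Set.toFinite _)
    have := hfix x hx1
    rw [Nat.card_coe_set_eq] at this
    omega
  have hFx : fixedBy Ω x = {α, β} := by
    ext ω
    constructor
    · intro h
      rcases hxF ω h with rfl | rfl
      · simp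
      · simp
    · intro h
      rcases h with rfl | rfl
      · exact hxα
      · exact hxβ
  -- Sylow subgroup of the stabilizer of α containing x
  set H : Subgroup G := stabilizer G α with hH
  set K : Subgroup G := stabilizer G β with hK
  have hxH : x ∈ H := hxα
  have hP : IsPGroup p (Subgroup.zpowers x) := by
    apply IsPGroup.of_card (n := 1)
    rw [Nat.card_zpowers, hxo, pow_one]
  have hP' : IsPGroup p ((Subgroup.zpowers x).subgroupOf H) := by
    have hle : Subgroup.zpowers x ≤ H := by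
      rw [Subgroup.zpowers_le]; exact hxH
    exact hP.of_equiv (Subgroup.subgroupOfEquivOfLe hle).symm
  obtain ⟨Q', hQ'⟩ := hP'.exists_le_sylow
  set Q : Subgroup G := (Q' : Subgroup H).map H.subtype with hQ
  have hQH : Q ≤ H := by
    rintro _ ⟨y, _, rfl⟩
    exact y.2
  have hQcard : Nat.card Q = p ^ (Nat.card H).factorization p := by
    rw [hQ, Subgroup.card_map_of_injective H.subtype_injective]
    exact Q'.card_eq_multiplicity
  have hxQ : x ∈ Q := by
    refine ⟨⟨x, hxH⟩, hQ' ?_, rfl⟩
    rw [Subgroup.mem_subgroupOf]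
    exact Subgroup.mem_zpowers x
  have hQp : IsPGroup p Q := IsPGroup.of_card hQcard
  have hmodQ := hQp.card_modEq_card_fixedPoints Ω
  have hmodP := hP.card_modEq_card_fixedPoints Ω
  rw [fp_zpowers, hFx] at hmodP
  have hαQ : α ∈ fixedPoints Q Ω := by
    intro q
    exact hQH q.2
  have hsubQ : fixedPoints Q Ω ⊆ ({α, β} : Set Ω) := by
    intro ω hω
    rw [← hFx]
    exact hω ⟨x, hxQ⟩
  have hβQ : β ∈ fixedPoints Q Ω := by
    by_contra hcon
    have hs : fixedPoints Q Ω = {α} := by
      ext ω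
      constructor
      · intro h
        rcases hsubQ h with rfl | rfl
        · rfl
        · exact absurd h hcon
      · intro h
        rw [Set.mem_singleton_iff] at h
        rw [h]; exact hαQ
    rw [hs] at hmodQ
    have h12 : 1 ≡ 2 [MOD p] := by
      have e1 : Nat.card (({α} : Set Ω)) = 1 := by
        rw [Nat.card_coe_set_eq, Set.ncard_singleton]
      have e2 : Nat.card (({α, β} : Set Ω)) = 2 := by
        rw [Nat.card_coe_set_eq, Set.ncard_pair hαβ]
      rw [e1] at hmodQ
      rw [e2] at hmodP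
      exact hmodQ.symm.trans hmodP
    have hdvd : p ∣ 1 := by
      have := (Nat.modEq_iff_dvd' (by norm_num : 1 ≤ 2)).mp h12
      simpa using this
    exact hp.one_lt.ne' (Nat.dvd_one.mp hdvd)
  have hQK : Q ≤ K := by
    intro q hq
    exact hβQ ⟨q, hq⟩
  have hHK : Nat.card K = Nat.card H := by
    have e1 := Subgroup.card_mul_index H
    have e2 := Subgroup.card_mul_index K
    rw [hH, index_stabilizer_of_transitive] at e1
    rw [hK, index_stabilizer_of_transitive] at e2
    have hΩ : 0 < Nat.card Ω := by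
      have : Nonempty Ω := ⟨α⟩
      exact Nat.card_pos
    exact Nat.eq_of_mul_eq_mul_right hΩ (e2.trans e1.symm)
  obtain ⟨h, hh⟩ := MulAction.exists_smul_eq G α β
  have hcond : ∀ s ∈ Q, h * s * h⁻¹ ∈ K := by
    intro s hs
    show (h * s * h⁻¹) • β = β
    have hsα : s • α = α := hQH hs
    rw [mul_smul, mul_smul, ← hh, inv_smul_smul, hsα]
  obtain ⟨y, hyK, hw⟩ := witt p hp K Q hQK (by rw [hHK]; exact hQcard) h hcond
  set w : G := y * h with hwdef
  have hwα : w • α = β := by
    rw [hwdef, mul_smul, hh]; exact hyK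
  have hwβ : w • β ∈ fixedPoints Q Ω := by
    rintro ⟨q, hq⟩
    show q • w • β = w • β
    have hw' : w⁻¹ ∈ Subgroup.normalizer (Q : Set G) := Subgroup.inv_mem _ hw
    have h1 : w⁻¹ * q * w ∈ Q := by
      have := (Subgroup.mem_normalizer_iff.mp hw' q).mp hq
      simpa using this
    have h2 : (w⁻¹ * q * w) • β = β := hQK h1
    have h3 : q • w • β = w • (w⁻¹ * q * w) • β := by
      simp only [mul_smul, smul_inv_smul]
    rw [h3, h2]
  have hwβ' : w • β = α := by
    rcases hsubQ hwβ with h | h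
    · exact h
    · exfalso
      have h' : w • β = w • α := h.trans hwα.symm
      have : β = α := smul_left_cancel w h'
      exact hαβ this.symm
  have hw2 : (w ^ 2) • α = α := by
    rw [pow_two, mul_smul, hwα, hwβ']
  have hdvd : 2 ∣ orderOf w := by
    by_contra hcon
    have hodd : Odd (orderOf w) := Nat.not_even_iff_odd.mp (fun h => hcon (even_iff_two_dvd.mp h))
    obtain ⟨m, hm⟩ := hodd
    have h1 : w ^ (orderOf w) = 1 := pow_orderOf_eq_one w
    have h2 : w ^ (orderOf w) • α = β := by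
      rw [hm, pow_succ, pow_mul, mul_smul, hwα]
      have h3 : (w ^ 2) • β = β := by
        rw [pow_two, mul_smul, hwβ', hwα]
      exact pow_fix (w ^ 2) β h3 m
    rw [h1, one_smul] at h2
    exact hαβ h2
  exact hdvd.trans (orderOf_dvd_natCard w)

end basic

/-- Let G be a finite group acting faithfully and transitively on a finite set Ω with fixity k ≥ 1: every non-identity element fixes at most k points and some non-identity element fixes exactly k points. Then |Z(G)| divides k; if k = 2 then |G| is even; and for every prime p > k dividing |G| and every point α, either p does not divide |G_α| or G_α contains a Sylow p-subgroup of G. -/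
theorem result {G : Type*} [Group G] [Finite G] {Ω : Type*} [Fintype Ω] [MulAction G Ω] [FaithfulSMul G Ω]
    (htr : MulAction.IsPretransitive G Ω) (k : ℕ) (hk : 1 ≤ k)
    (hfix : ∀ g : G, g ≠ 1 → Nat.card (MulAction.fixedBy Ω g) ≤ k) (hex : ∃ g : G, g ≠ 1 ∧ Nat.card (MulAction.fixedBy Ω g) = k) :
    Nat.card (Subgroup.center G) ∣ k ∧ (k = 2 → 2 ∣ Nat.card G) ∧
      ∀ (p : ℕ), p.Prime → k < p → p ∣ Nat.card G → ∀ α : Ω,
        ¬ p ∣ Nat.card (MulAction.stabilizer G α) ∨ ¬ p ∣ (MulAction.stabilizer G α).index := by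
  obtain ⟨g, hg1, hgk⟩ := hex
  refine ⟨?_, ?_, ?_⟩
  · rw [← hgk]
    exact center_dvd g
  · intro hk2
    subst hk2
    exact partb hfix g hg1 hgk
  · intro p hp hkp _ α
    by_cases h : p ∣ Nat.card (MulAction.stabilizer G α)
    · right
      exact partc k hfix p hp hkp α h
    · left; exact h

end Cfsg.Agent.S3389
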