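import Cfsg.Statements.S4422

set_option autoImplicit false
open Cfsg

namespace Cfsg.Agent.S4422

theorem prime_case (q e p : ℕ) (hq : 2 ≤ q) (he : 1 ≤ e) (hp : p.Prime)
    (hm : p ∣ q ^ e - 1) (hcop : ∀ i : ℕ, 1 ≤ i → i < e → ¬ p ∣ (q ^ i - 1)) :
    p ≡ 1 [MOD e] := by
  have : Fact p.Prime := ⟨hp⟩
  have hqpos : ∀ i : ℕ, 1 ≤ q ^ i := fun i => Nat.one_le_pow _ _ (by omega)
  have key : ∀ i : ℕ, p ∣ q ^ i - 1 ↔ ((q : ZMod p)) ^ i = 1 := by
    intro i
    rw [← ZMod.natCast_eq_zero_iff, Nat.cast_sub (hqpos i)]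
    simp [sub_eq_zero]
  have h1 : (q : ZMod p) ^ e = 1 := (key e).1 hm
  have hq0 : (q : ZMod p) ≠ 0 := by
    intro h0
    rw [h0, zero_pow (by omega)] at h1
    exact zero_ne_one h1
  have hd : orderOf (q : ZMod p) ∣ e := orderOf_dvd_of_pow_eq_one h1
  have hdpos : 0 < orderOf (q : ZMod p) := Nat.pos_of_dvd_of_pos hd (by omega)
  have hde : orderOf (q : ZMod p) = e := by
    by_contra hne
    have hlt : orderOf (q : ZMod p) < e := lt_of_le_of_ne (Nat.le_of_dvd (by omega) hd) hne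
    exact hcop _ hdpos hlt ((key _).2 (pow_orderOf_eq_one _))
  have h2 : e ∣ p - 1 := by
    rw [← hde]
    exact orderOf_dvd_of_pow_eq_one (ZMod.pow_card_sub_one_eq_one hq0)
  have hp1 : 1 ≤ p := hp.one_lt.le
  exact ((Nat.modEq_iff_dvd' hp1).2 h2).symm

theorem main (q e : ℕ) (hq : 2 ≤ q) (he : 1 ≤ e) : ∀ m : ℕ,
    m ∣ q ^ e - 1 → (∀ i : ℕ, 1 ≤ i → i < e → Nat.Coprime m (q ^ i - 1)) → m ≡ 1 [MOD e] := by
  intro m
  induction m using Nat.strong_induction_on with
  | _ m ih =>
    intro hm hcop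
    rcases Nat.lt_or_ge m 2 with hlt | hge
    · interval_cases m
      · exfalso
        have h2 : 2 ≤ q ^ e := le_trans hq (Nat.le_self_pow (by omega) q)
        have := Nat.eq_zero_of_zero_dvd hm
        omega
      · exact Nat.ModEq.refl 1
    · obtain ⟨p, hp, hpm⟩ := Nat.exists_prime_and_dvd (show m ≠ 1 by omega)
      obtain ⟨m', rfl⟩ := hpm
      have hm'pos : 0 < m' := by
        rcases Nat.eq_zero_or_pos m' with h | h
        · subst h; omega
        · exact h
      have hlt : m' < p * m' := by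
        have := hp.two_le
        nlinarith
      have ih' := ih m' hlt (Dvd.dvd.trans (Dvd.intro_left p rfl) hm)
        (fun i h1 h2 => Nat.Coprime.coprime_dvd_left (Dvd.intro_left p rfl) (hcop i h1 h2))
      have hpc := prime_case q e p hq he hp (Dvd.dvd.trans (Dvd.intro m' rfl) hm)
        (fun i h1 h2 hdvd => by
          have hc := Nat.Coprime.coprime_dvd_left (Dvd.intro m' rfl) (hcop i h1 h2)
          have := Nat.eq_one_of_dvd_coprimes hc (dvd_refl p) hdvd
          exact hp.one_lt.ne' this)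
      simpa using hpc.mul ih'

/-- Primitive divisors of `q^e - 1` are congruent to 1 modulo `e`. Let `q ≥ 2` and `e ≥ 1` be natural numbers and let `m` be a divisor of `q^e - 1` that is coprime to `q^i - 1` for every `1 ≤ i < e` (so `m` divides the primitive part of `q^e - 1`, the largest such divisor). Then `m ≡ 1 (mod e)`. -/
theorem result (q e m : ℕ) (hq : 2 ≤ q) (he : 1 ≤ e)
    (hm : m ∣ q ^ e - 1) (hcop : ∀ i : ℕ, 1 ≤ i → i < e → Nat.Coprime m (q ^ i - 1)) :
    m % e = 1 % e := by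
  exact main q e hq he m hm hcop

end Cfsg.Agent.S4422
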