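import Cfsg.Statements.S3430
import Cfsg.Agent.S4423
import Cfsg.Agent.S4422

set_option autoImplicit false
open Cfsg

namespace Cfsg.Agent.S3430

open Cfsg.Agent.Helper73

set_option maxRecDepth 100000 in
theorem five_check : ∀ p ∈ [((2 : ℕ), (3 : ℕ)), (2, 8), (2, 20), (4, 3), (4, 6)],
    prim p.1 p.2 = 2 * p.2 + 1 := by
  decide +kernel

theorem five_prime : ∀ p ∈ [((2 : ℕ), (3 : ℕ)), (2, 8), (2, 20), (4, 3), (4, 6)],
    (2 * p.2 + 1).Prime := by
  intro p hp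
  simp only [List.mem_cons, List.mem_nil_iff, or_false] at hp
  rcases hp with rfl | rfl | rfl | rfl | rfl <;> norm_num

/-- Let q, n ≥ 2 be integers. Unless (n = 2 and q + 1 = 2^s·3^t for some s ≥ 0 and t ≤ 1), or (q = 2 and n ∈ {4, 6, 10, 12, 18}), or (q = 3 and n ∈ {4, 6}), or (q, n) = (5, 6), there is a prime p dividing q^n − 1 but no q^i − 1 with 1 ≤ i < n (a primitive prime divisor), such that p > n + 1 or p² divides q^n − 1. -/
theorem result (q n : ℕ) (hq : 2 ≤ q) (hn : 2 ≤ n)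
    (h1 : ¬ (n = 2 ∧ ∃ s t : ℕ, t ≤ 1 ∧ q + 1 = 2 ^ s * 3 ^ t))
    (h2 : ¬ (q = 2 ∧ (n = 4 ∨ n = 6 ∨ n = 10 ∨ n = 12 ∨ n = 18)))
    (h3 : ¬ (q = 3 ∧ (n = 4 ∨ n = 6))) (h4 : ¬ (q = 5 ∧ n = 6)) :
    ∃ p : ℕ, p.Prime ∧ p ∣ q ^ n - 1 ∧ (∀ i : ℕ, 1 ≤ i → i < n → ¬ p ∣ q ^ i - 1) ∧ (n + 1 < p ∨ p ^ 2 ∣ q ^ n - 1) := by
  rcases Nat.lt_or_ge n 3 with hlt | hge
  · have hn2 : n = 2 := by omega
    subst hn2
    have hfac : q ^ 2 - 1 = (q + 1) * (q - 1) := by
      obtain ⟨b, rfl⟩ : ∃ b, q = b + 1 := ⟨q - 1, by omega⟩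
      simp only [Nat.add_sub_cancel]
      have : (b + 1) ^ 2 = (b + 1 + 1) * b + 1 := by ring
      omega
    have hprim : ∀ p : ℕ, p.Prime → 3 ≤ p → p ∣ q + 1 →
        ∀ i : ℕ, 1 ≤ i → i < 2 → ¬ p ∣ q ^ i - 1 := by
      intro p hp hp3 hpq i hi1 hi2 hdvd
      have hi : i = 1 := by omega
      subst hi
      rw [pow_one] at hdvd
      have h2' : p ∣ (q + 1) - (q - 1) := Nat.dvd_sub hpq hdvd
      have : (q + 1) - (q - 1) = 2 := by omega
      rw [this] at h2'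
      have := Nat.le_of_dvd (by norm_num) h2'
      omega
    by_cases hbig : ∃ p : ℕ, p.Prime ∧ p ∣ q + 1 ∧ 5 ≤ p
    · obtain ⟨p, hp, hpq, hp5⟩ := hbig
      exact ⟨p, hp, hfac ▸ Dvd.dvd.mul_right hpq _, hprim p hp (by omega) hpq, Or.inl (by omega)⟩
    · push Not at hbig
      obtain ⟨s, u, hu, hqu⟩ := Nat.exists_eq_two_pow_mul_odd (show q + 1 ≠ 0 by omega)
      have huq : u ∣ q + 1 := hqu ▸ Dvd.intro_left _ rfl
      have hall : ∀ {d : ℕ}, Nat.Prime d → d ∣ u → d = 3 := by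
        intro d hd hdu
        have h5 := hbig d hd (hdu.trans huq)
        have hd2 := hd.two_le
        have hdodd : Odd d := hu.of_dvd_nat hdu
        obtain ⟨c, hc⟩ := hdodd
        omega
      have hu0 : u ≠ 0 := by
        rintro rfl
        simp at hu
      have hpow := Nat.eq_prime_pow_of_unique_prime_dvd hu0 hall
      have hlen : 2 ≤ u.primeFactorsList.length := by
        by_contra hlt
        apply h1
        refine ⟨rfl, s, u.primeFactorsList.length, by omega, ?_⟩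
        rw [← hpow]; exact hqu
      have h9 : 3 ^ 2 ∣ u := by
        rw [hpow]; exact pow_dvd_pow 3 hlen
      have h3q : 3 ∣ q + 1 := (Dvd.intro_left 3 rfl : 3 ∣ 3 ^ 2).trans (h9.trans huq)
      refine ⟨3, Nat.prime_three, hfac ▸ Dvd.dvd.mul_right h3q _,
        hprim 3 Nat.prime_three le_rfl h3q, Or.inr ?_⟩
      rw [hfac]
      exact Dvd.dvd.mul_right (h9.trans huq) _
  · by_cases hmem : (q, n) ∈ Cfsg.Agent.S4423.excL
    · have h5 : (q, n) ∈ [((2 : ℕ), (3 : ℕ)), (2, 8), (2, 20), (4, 3), (4, 6)] := by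
        simp only [Cfsg.Agent.S4423.excL, List.mem_cons, Prod.mk.injEq, List.mem_nil_iff,
          or_false] at hmem
        rcases hmem with ⟨rfl, rfl⟩ | ⟨rfl, rfl⟩ | ⟨rfl, rfl⟩ | ⟨rfl, rfl⟩ | ⟨rfl, rfl⟩ |
          ⟨rfl, rfl⟩ | ⟨rfl, rfl⟩ | ⟨rfl, rfl⟩ | ⟨rfl, rfl⟩ | ⟨rfl, rfl⟩ | ⟨rfl, rfl⟩ |
          ⟨rfl, rfl⟩ | ⟨rfl, rfl⟩
        all_goals first
          | decide
          | (exfalso; exact h2 ⟨rfl, by decide⟩)
          | (exfalso; exact h3 ⟨rfl, by decide⟩)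
          | (exfalso; exact h4 ⟨rfl, rfl⟩)
      have hval := five_check (q, n) h5
      have hp := five_prime (q, n) h5
      simp only at hval hp
      rw [← hval] at hp
      refine ⟨prim q n, hp, prim_dvd q n, fun i hi1 hi2 hdvd => ?_, Or.inl (by omega)⟩
      have := Nat.eq_one_of_dvd_coprimes (prim_coprime q n hq i hi1 hi2) (dvd_refl _) hdvd
      exact hp.one_lt.ne' this
    · obtain ⟨m, hm1, hm2, hm3⟩ := Cfsg.Agent.S4423.part1 q n hq hge hmem
      have hpf : ∀ p : ℕ, p.Prime → p ∣ m →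
          (p ∣ q ^ n - 1 ∧ (∀ i : ℕ, 1 ≤ i → i < n → ¬ p ∣ q ^ i - 1) ∧ n + 1 ≤ p) := by
        intro p hp hpm
        have hnd : ∀ i : ℕ, 1 ≤ i → i < n → ¬ p ∣ q ^ i - 1 := fun i hi1 hi2 hdvd =>
          hp.one_lt.ne' (Nat.eq_one_of_dvd_coprimes (hm2 i hi1 hi2) hpm hdvd)
        refine ⟨hpm.trans hm1, hnd, ?_⟩
        have hmod := Cfsg.Agent.S4422.prime_case q n p hq (by omega) hp (hpm.trans hm1) hnd
        have hdvd : n ∣ p - 1 := (Nat.modEq_iff_dvd' hp.one_lt.le).1 hmod.symm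
        have hp2 := hp.two_le
        have := Nat.le_of_dvd (by omega) hdvd
        omega
      by_cases hbig : ∃ p : ℕ, p.Prime ∧ p ∣ m ∧ n + 1 < p
      · obtain ⟨p, hp, hpm, hlt⟩ := hbig
        obtain ⟨h1', h2', _⟩ := hpf p hp hpm
        exact ⟨p, hp, h1', h2', Or.inl hlt⟩
      · push Not at hbig
        have hall : ∀ {d : ℕ}, Nat.Prime d → d ∣ m → d = n + 1 := by
          intro d hd hdm
          have := hbig d hd hdm
          have := (hpf d hd hdm).2.2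
          omega
        have hpow := Nat.eq_prime_pow_of_unique_prime_dvd (by omega : m ≠ 0) hall
        obtain ⟨p, hp, hpm⟩ := Nat.exists_prime_and_dvd (show m ≠ 1 by omega)
        have hpn : p = n + 1 := hall hp hpm
        have hlen : 2 ≤ m.primeFactorsList.length := by
          by_contra hlt
          have h' : (n + 1) ^ m.primeFactorsList.length ≤ (n + 1) ^ 1 :=
            Nat.pow_le_pow_right (by omega) (by omega)
          rw [← hpow, pow_one] at h'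
          omega
        obtain ⟨h1', h2', _⟩ := hpf p hp hpm
        refine ⟨p, hp, h1', h2', Or.inr ?_⟩
        rw [hpn]
        calc (n + 1) ^ 2 ∣ (n + 1) ^ m.primeFactorsList.length := pow_dvd_pow _ hlen
          _ = m := hpow.symm
          _ ∣ q ^ n - 1 := hm1

end Cfsg.Agent.S3430
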