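import Cfsg.Statements.S3495
import Cfsg.Agent.Helper58.Manning

set_option autoImplicit false
open Cfsg

namespace Cfsg.Agent.S3495

/-- Let a finite group G act faithfully and primitively on a finite set Ω with non-trivial point stabilizers, each acting primitively on every one of its orbits (an extremely primitive group), and suppose G has an elementary abelian normal p-subgroup N acting regularly on Ω (affine type). Then every non-trivial subgroup M of a point stabilizer G_α that is normal in G_α has the same orbits on Ω as G_α, and normalizes no subgroup of N other than 1 and N. -/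
theorem result {G : Type*} [Group G] [Finite G] {Ω : Type*} [Fintype Ω] [MulAction G Ω] [FaithfulSMul G Ω] (hprim : MulAction.IsPreprimitive G Ω) (hH : ∀ α : Ω, MulAction.stabilizer G α ≠ ⊥) (hep : ∀ (α : Ω) (ω : Ω), MulAction.IsPreprimitive (MulAction.stabilizer G α) (MulAction.orbit (MulAction.stabilizer G α) ω))
    (N : Subgroup G) [N.Normal] (hNc : IsMulCommutative N) (p : ℕ) (hp : p.Prime) (hNp : ∀ n ∈ N, n ^ p = 1)
    (hNtr : MulAction.IsPretransitive N Ω) (hNreg : ∀ ω : Ω, MulAction.stabilizer N ω = ⊥) (α : Ω) (M : Subgroup G) (hM : M ≠ ⊥) (hMle : M ≤ MulAction.stabilizer G α)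
    (hMn : MulAction.stabilizer G α ≤ Subgroup.normalizer (M : Set G)) :
    (∀ ω : Ω, MulAction.orbit M ω = MulAction.orbit (MulAction.stabilizer G α) ω) ∧
    (∀ L : Subgroup G, L ≤ N → M ≤ Subgroup.normalizer (L : Set G) → L = ⊥ ∨ L = N) := by
  classical
  have hMfix : ∀ m ∈ M, m • α = α := fun m hm => hMle hm
  -- part 1
  have part1 : ∀ ω : Ω, MulAction.orbit M ω = MulAction.orbit (MulAction.stabilizer G α) ω := by
    intro ω
    apply Set.Subset.antisymm
    · rintro _ ⟨m, rfl⟩
      exact ⟨⟨(m : G), hMle m.2⟩, rfl⟩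
    · intro y hy
      by_cases hω : ω = α
      · subst hω
        obtain ⟨h, rfl⟩ := hy
        have : (h : G) • ω = ω := h.2
        show (h : G) • ω ∈ MulAction.orbit M ω
        rw [this]
        exact MulAction.mem_orbit_self ω
      · have hmove : ∃ k ∈ M, k • ω ≠ ω := by
          by_contra hcon
          push Not at hcon
          apply hM
          rw [eq_bot_iff, ← Cfsg.Agent.Helper58.orbKer_eq_bot hH hep hω]
          intro k hk
          refine ⟨hMfix k hk, ?_⟩
          rintro _ ⟨h, rfl⟩
          show k • (h : G) • ω = (h : G) • ω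
          have h1 : (h : G)⁻¹ * k * (h : G)⁻¹⁻¹ ∈ M :=
            (Subgroup.le_normalizer_iff.mp hMn) _ (inv_mem h.2) k hk
          have h2 := hcon _ h1
          rw [inv_inv, mul_smul, mul_smul, inv_smul_eq_iff] at h2
          exact h2
        obtain ⟨k, hk, hky⟩ :=
          Cfsg.Agent.Helper58.exists_mem_smul_eq_of_normal M hMle hMn (hep α ω) hmove hy
        exact ⟨⟨k, hk⟩, hky⟩
  refine ⟨part1, ?_⟩
  intro L hLN hML
  -- Ω is nontrivial
  have hnt : Nontrivial Ω := by
    obtain ⟨m, hm, hm1⟩ : ∃ m ∈ M, m ≠ 1 := by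
      by_contra hcon
      push Not at hcon
      exact hM (by rw [eq_bot_iff]; intro m hm; exact hcon m hm)
    have : ∃ x : Ω, m • x ≠ x := by
      by_contra hcon
      push Not at hcon
      apply hm1
      apply FaithfulSMul.eq_of_smul_eq_smul (α := Ω)
      intro x
      rw [hcon x, one_smul]
    obtain ⟨x, hx⟩ := this
    refine ⟨⟨x, α, ?_⟩⟩
    rintro rfl
    exact hx (hMfix m hm)
  have hco : IsCoatom (MulAction.stabilizer G α) :=
    MulAction.IsPreprimitive.isCoatom_stabilizer_of_isPreprimitive G α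
  -- the orbit of α under L
  set S : Set Ω := {x | ∃ l ∈ L, l • α = x} with hS
  have hαS : α ∈ S := ⟨1, L.one_mem, one_smul _ _⟩
  have hLS : ∀ l ∈ L, ∀ x ∈ S, l • x ∈ S := by
    rintro l hl _ ⟨l', hl', rfl⟩
    exact ⟨l * l', L.mul_mem hl hl', mul_smul _ _ _⟩
  have hAS : ∀ h ∈ MulAction.stabilizer G α, ∀ x ∈ S, h • x ∈ S := by
    rintro h hh _ ⟨l, hl, rfl⟩
    have hmem : h • l • α ∈ MulAction.orbit (MulAction.stabilizer G α) (l • α) := ⟨⟨h, hh⟩, rfl⟩
    rw [← part1] at hmem
    obtain ⟨m, hm⟩ := hmem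
    have hm' : (m : G) • l • α = h • l • α := hm
    rw [← hm']
    refine ⟨(m : G) * l * (m : G)⁻¹, (Subgroup.le_normalizer_iff.mp hML) _ m.2 l hl, ?_⟩
    rw [mul_smul, mul_smul, inv_smul_eq_iff.mpr (hMfix _ m.2).symm]
  -- the subgroup preserving S
  let T : Subgroup G :=
    { carrier := {g | ∀ x, x ∈ S ↔ g • x ∈ S}
      one_mem' := by intro x; rw [one_smul]
      mul_mem' := by
        intro a b ha hb x
        rw [mul_smul]
        exact (hb x).trans (ha _)
      inv_mem' := by
        intro a ha x
        have := ha (a⁻¹ • x)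
        rw [smul_inv_smul] at this
        exact this.symm }
  have hAT : MulAction.stabilizer G α ≤ T := by
    intro h hh x
    refine ⟨hAS h hh x, fun hx => ?_⟩
    have := hAS h⁻¹ (inv_mem hh) _ hx
    rwa [inv_smul_smul] at this
  have hLT : L ≤ T := by
    intro l hl x
    refine ⟨hLS l hl x, fun hx => ?_⟩
    have := hLS l⁻¹ (inv_mem hl) _ hx
    rwa [inv_smul_smul] at this
  have hstab : ∀ g : G, g ∈ MulAction.stabilizer G α ⊔ L → ∀ x ∈ S, g • x ∈ S := by
    intro g hg x hx
    exact ((sup_le hAT hLT) hg x).mp hx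
  by_cases htop : MulAction.stabilizer G α ⊔ L = ⊤
  · right
    apply le_antisymm hLN
    intro n hn
    obtain ⟨g, hg⟩ := MulAction.exists_smul_eq G α (n • α)
    have : g • α ∈ S := hstab g (by rw [htop]; exact Subgroup.mem_top g) α hαS
    rw [hg] at this
    obtain ⟨l, hl, hlα⟩ := this
    have hfix : (l⁻¹ * n) • α = α := by
      rw [mul_smul, inv_smul_eq_iff, hlα]
    have hmemN : l⁻¹ * n ∈ N := N.mul_mem (N.inv_mem (hLN hl)) hn
    have hmem : (⟨l⁻¹ * n, hmemN⟩ : N) ∈ MulAction.stabilizer N α := hfix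
    rw [hNreg α, Subgroup.mem_bot] at hmem
    have h1 : l⁻¹ * n = 1 := congrArg Subtype.val hmem
    have h2 : n = l := by
      have := congrArg (fun t => l * t) h1
      simpa using this
    rw [h2]; exact hl
  · left
    have hle : L ≤ MulAction.stabilizer G α := by
      by_contra hcon
      apply htop
      apply hco.2
      refine lt_of_le_of_ne le_sup_left ?_
      intro h1
      apply hcon
      rw [h1]
      exact le_sup_right
    rw [eq_bot_iff]
    intro l hl
    have hfix : l • α = α := hle hl
    have hmem : (⟨l, hLN hl⟩ : N) ∈ MulAction.stabilizer N α := hfix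
    rw [hNreg α, Subgroup.mem_bot] at hmem
    exact congrArg Subtype.val hmem

end Cfsg.Agent.S3495
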