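import Cfsg.Statements.S3496
import Cfsg.Agent.Helper58.ExtPrim
import Cfsg.Agent.Helper58.ExtPrim2
import Cfsg.Agent.Helper58.SolvExtLin

set_option autoImplicit false
open Cfsg

namespace Cfsg.Agent.S3496

open MulAction Cfsg.Agent.Helper58
open scoped commutatorElement

theorem exists_normal_abelian {H : Type*} [Group H] [Group.IsSolvable H] [Nontrivial H] :
    ∃ A : Subgroup H, A.Normal ∧ A ≠ ⊥ ∧ ∀ a ∈ A, ∀ b ∈ A, a * b = b * a := by
  classical
  have hex : ∃ n, derivedSeries H n = ⊥ := Group.IsSolvable.solvable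
  have h0 : Nat.find hex ≠ 0 := by
    intro h
    have := Nat.find_spec hex
    rw [h, derivedSeries_zero] at this
    exact top_ne_bot this
  obtain ⟨m, hm⟩ := Nat.exists_eq_succ_of_ne_zero h0
  refine ⟨derivedSeries H m, inferInstance, ?_, ?_⟩
  · exact Nat.find_min hex (by rw [hm]; exact Nat.lt_succ_self m)
  · intro a ha b hb
    have h1 := Nat.find_spec hex
    rw [hm, derivedSeries_succ] at h1
    have h2 : ⁅a, b⁆ ∈ ⁅derivedSeries H m, derivedSeries H m⁆ :=
      Subgroup.commutator_mem_commutator ha hb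
    rw [h1, Subgroup.mem_bot] at h2
    exact commutatorElement_eq_one_iff_mul_comm.mp h2

theorem isCyclic_GL_one (F : Type*) [Field F] [Finite F] :
    IsCyclic (Matrix.GeneralLinearGroup (Fin 1) F) := by
  apply isCyclic_of_injective (Matrix.GeneralLinearGroup.det (n := Fin 1) (R := F))
  intro M M' h
  apply Matrix.GeneralLinearGroup.ext
  intro i j
  have h1 := congrArg (fun u : Fˣ => (u : F)) h
  simp only [Matrix.GeneralLinearGroup.val_det_apply, Matrix.det_fin_one] at h1
  rw [Fin.eq_zero i, Fin.eq_zero j]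
  exact h1

theorem card_orbit_mul {K : Type*} [Group K] [Finite K] {X : Type*} [MulAction K X] (x : X) :
    Nat.card (orbit K x) * Nat.card (stabilizer K x) = Nat.card K := by
  rw [← Nat.card_prod]
  exact Nat.card_congr (orbitProdStabilizerEquivGroup K x)

/-- The soluble extremely primitive groups. Let a finite solvable group G act faithfully and primitively on a finite set Ω with p ^ d points (p prime), with non-trivial point stabilizers each acting primitively on every one of its orbits. Then there is a prime q such that every orbit of a point stabilizer G_α other than {α} has exactly q points, q divides p ^ d − 1 but no p ^ i − 1 with 0 < i < d, and G_α has a normal subgroup T of order q with G_α generated by T and one further element and the order of G_α dividing q·d (so G_α is cyclic of order q, or an extension of T by a cyclic group of order dividing d). -/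
theorem result {G : Type*} [Group G] [Finite G] {Ω : Type*} [Fintype Ω] [MulAction G Ω] [FaithfulSMul G Ω] [Group.IsSolvable G] (p d : ℕ) (hp : p.Prime) (hcard : Fintype.card Ω = p ^ d)
    (hprim : MulAction.IsPreprimitive G Ω) (hH : ∀ α : Ω, MulAction.stabilizer G α ≠ ⊥) (hep : ∀ (α : Ω) (ω : Ω), MulAction.IsPreprimitive (MulAction.stabilizer G α) (MulAction.orbit (MulAction.stabilizer G α) ω)) (α : Ω) :
    ∃ q : ℕ, q.Prime ∧ (∀ ω : Ω, ω ≠ α → Nat.card (MulAction.orbit (MulAction.stabilizer G α) ω) = q) ∧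
      q ∣ p ^ d - 1 ∧ (∀ i : ℕ, 0 < i → i < d → ¬ q ∣ p ^ i - 1) ∧
      ∃ T : Subgroup G, T ≤ MulAction.stabilizer G α ∧ MulAction.stabilizer G α ≤ Subgroup.normalizer (T : Set G) ∧ Nat.card T = q ∧
        (∃ h : G, MulAction.stabilizer G α = T ⊔ Subgroup.zpowers h) ∧ Nat.card (MulAction.stabilizer G α) ∣ q * d := by
  classical
  have hntH : Nontrivial (stabilizer G α) := (Subgroup.nontrivial_iff_ne_bot _).mpr (hH α)
  have hntΩ : Nontrivial Ω := by
    by_contra hcon
    rw [not_nontrivial_iff_subsingleton] at hcon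
    apply hH α
    rw [eq_bot_iff]
    intro g _
    rw [Subgroup.mem_bot]
    apply FaithfulSMul.eq_of_smul_eq_smul (α := Ω)
    intro x
    exact Subsingleton.elim _ _
  -- the regular normal abelian subgroup
  obtain ⟨N, hNn, hNne, hNc, hNreg⟩ : ∃ N : Subgroup G, N.Normal ∧ N ≠ ⊥ ∧ IsMulCommutative N ∧
      ∀ ω : Ω, stabilizer N ω = ⊥ := by
    rcases affine_or_almost_simple (G := G) (Ω := Ω) hep with h | ⟨T, hTn, hTs, hTc, -⟩
    · exact h
    · exfalso
      apply hTc
      have hsol : Group.IsSolvable T := inferInstance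
      exact ⟨⟨fun a b => (IsSimpleGroup.comm_iff_isSolvable.mpr hsol) a b⟩⟩
  have hNcomm : ∀ a ∈ N, ∀ b ∈ N, a * b = b * a := fun a ha b hb =>
    congrArg Subtype.val (mul_comm' (⟨a, ha⟩ : N) ⟨b, hb⟩)
  have hNconj : ∀ g : G, ∀ n ∈ N, g * n * g⁻¹ ∈ N := fun g n hn => hNn.conj_mem n hn g
  have hNtr : ∀ ω : Ω, ∃ n ∈ N, n • α = ω := exists_mem_smul_eq_of_normal_of_prim hNconj hNne α
  have hNfree : ∀ n ∈ N, ∀ ω : Ω, n • ω = ω → n = 1 := by
    intro n hn ω h
    have h1 : (⟨n, hn⟩ : N) ∈ stabilizer N ω := h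
    rw [hNreg ω, Subgroup.mem_bot] at h1
    exact congrArg Subtype.val h1
  have hNinj : ∀ n ∈ N, ∀ n' ∈ N, n • α = n' • α → n = n' := by
    intro n hn n' hn' h
    have h1 := hNfree (n'⁻¹ * n) (N.mul_mem (N.inv_mem hn') hn) α
      (by rw [mul_smul, h, inv_smul_smul])
    exact (inv_mul_eq_one.mp h1).symm
  have hNcard : Nat.card N = p ^ d := by
    rw [← hcard, ← Nat.card_eq_fintype_card]
    apply Nat.card_eq_of_bijective (fun n : N => (n : G) • α)
    constructor
    · intro n n' h
      exact Subtype.ext (hNinj n n.2 n' n'.2 h)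
    · intro ω
      obtain ⟨n, hn, rfl⟩ := hNtr ω
      exact ⟨⟨n, hn⟩, rfl⟩
  have hd : 0 < d := by
    rcases Nat.eq_zero_or_pos d with h | h
    · exfalso
      rw [h, pow_zero] at hcard
      have := Fintype.one_lt_card (α := Ω)
      omega
    · exact h
  -- abelian normal subgroup of the stabilizer
  obtain ⟨A, hAn, hAne, hAc⟩ := exists_normal_abelian (H := stabilizer G α)
  obtain ⟨r, e, hr, hAcard, hAexp, hAdvd, φ, hφ⟩ := abelian_normal_structure hH hep A hAne hAc
  have hrf : Fact r.Prime := ⟨hr⟩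
  have hTle : A.map (stabilizer G α).subtype ≤ stabilizer G α := Subgroup.map_subtype_le A
  have hTn : ∀ h ∈ stabilizer G α, ∀ k ∈ A.map (stabilizer G α).subtype,
      h * k * h⁻¹ ∈ A.map (stabilizer G α).subtype := map_subtype_normalized A
  have hTne : A.map (stabilizer G α).subtype ≠ ⊥ := map_subtype_ne_bot hAne
  have hTc : ∀ a ∈ A.map (stabilizer G α).subtype, ∀ b ∈ A.map (stabilizer G α).subtype,
      a * b = b * a := map_subtype_comm hAc
  have hfree : ∀ k ∈ A.map (stabilizer G α).subtype, ∀ x : Ω, x ≠ α → k • x = x → k = 1 :=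
    fun k hk x hx hkx => abelian_normal_sub_free hH hep hTle hTn hTne hTc hk hx hkx
  have horbit : ∀ ω : Ω, ω ≠ α → ∀ y ∈ orbit (stabilizer G α) ω,
      ∃ k ∈ A.map (stabilizer G α).subtype, k • ω = y := fun ω hω y hy =>
    normal_sub_orbit hH hep hTle hTn hTne hω hy
  -- the action of the stabilizer on N
  let _ : CommGroup N :=
    { (inferInstance : Group N) with mul_comm := fun a b => Subtype.ext (hNcomm a a.2 b b.2) }
  let _ : MulDistribMulAction (stabilizer G α) N :=
    MulDistribMulAction.compHom N ((MulAut.conjNormal (H := N)).comp (stabilizer G α).subtype)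
  have hsmul : ∀ (h : stabilizer G α) (n : N), ((h • n : N) : G) = (h : G) * n * (h : G)⁻¹ :=
    fun h n => rfl
  have hntN : Nontrivial N := (Subgroup.nontrivial_iff_ne_bot _).mpr hNne
  have he : e ≠ 0 := by
    rintro rfl
    rw [pow_zero] at hAcard
    exact hAne (Subgroup.card_eq_one.mp hAcard)
  have hrp : r ≠ p := by
    rintro rfl
    have h1 : r ∣ Nat.card Ω - 1 := (dvd_pow_self r he).trans hAdvd
    rw [Nat.card_eq_fintype_card, hcard] at h1
    have h2 : r ∣ r ^ d := dvd_pow_self r hd.ne'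
    have h3 : r ∣ r ^ d - (r ^ d - 1) := Nat.dvd_sub h2 h1
    have h4 : r ^ d - (r ^ d - 1) = 1 := by
      have := Nat.one_le_pow d r hr.pos
      omega
    rw [h4] at h3
    exact hr.one_lt.ne' (Nat.dvd_one.mp h3)
  have hcop : (Nat.card N).Coprime r := by
    rw [hNcard]
    exact Nat.Coprime.pow_left d ((Nat.coprime_primes hp hr).mpr (Ne.symm hrp))
  have hmove : ∀ n : N, n ≠ 1 → (n : G) • α ≠ α := by
    intro n hn1 h
    apply hn1
    apply Subtype.ext
    exact hNfree n n.2 α h
  have hconjsmul : ∀ (g : stabilizer G α) (n : N),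
      ((g : G) * n * (g : G)⁻¹) • α = (g : G) • (n : G) • α := by
    intro g n
    rw [mul_smul, mul_smul, inv_smul_eq_iff.mpr (show α = (g : G) • α from g.2.symm)]
  -- fixed point freeness on N
  have hfpf : ∀ a ∈ A, a ≠ 1 → ∀ n : N, a • n = n → n = 1 := by
    intro a ha ha1 n hn
    by_contra hn1
    apply ha1
    apply Subtype.ext
    apply hfree (a : G) ⟨a, ha, rfl⟩ ((n : G) • α) (hmove n hn1)
    rw [← hconjsmul a n, ← hsmul a n, hn]
  have hAr : Nat.card A = r := sx_card_eq_prime (B := N) r A hAne hAc hAexp hfpf hcop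
  have he1 : e = 1 := by
    have : r ^ e = r ^ 1 := by rw [← hAcard, hAr, pow_one]
    exact Nat.pow_right_injective hr.two_le this
  subst he1
  rw [pow_one] at hAdvd
  have hTcard : Nat.card (A.map (stabilizer G α).subtype) = r := by
    rw [Subgroup.card_map_of_injective (Subgroup.subtype_injective _), hAr]
  -- orbits
  have hpart_a : ∀ ω : Ω, ω ≠ α → Nat.card (orbit (stabilizer G α) ω) = r := by
    intro ω hω
    rw [← hTcard]
    symm
    apply Nat.card_eq_of_bijective (fun k : A.map (stabilizer G α).subtype =>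
      (⟨(k : G) • ω, ⟨⟨(k : G), hTle k.2⟩, rfl⟩⟩ : orbit (stabilizer G α) ω))
    constructor
    · intro k k' h
      have h1 : (k : G) • ω = (k' : G) • ω := congrArg Subtype.val h
      have h2 := hfree ((k' : G)⁻¹ * k) (Subgroup.mul_mem _ (Subgroup.inv_mem _ k'.2) k.2) ω hω
        (by rw [mul_smul, h1, inv_smul_smul])
      exact Subtype.ext (inv_mul_eq_one.mp h2).symm
    · rintro ⟨y, hy⟩
      obtain ⟨k, hk, hky⟩ := horbit ω hω y hy
      exact ⟨⟨k, hk⟩, Subtype.ext hky⟩
  have hpart_b1 : r ∣ p ^ d - 1 := by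
    rw [← hcard, ← Nat.card_eq_fintype_card]
    exact hAdvd
  have horb : ∀ (h : stabilizer G α) (n : N), ∃ a ∈ A, h • n = a • n := by
    intro h n
    by_cases hn1 : n = 1
    · exact ⟨1, A.one_mem, by rw [hn1, smul_one, smul_one]⟩
    · obtain ⟨k, hk, hkx⟩ := horbit _ (hmove n hn1) ((h : G) • (n : G) • α) ⟨h, rfl⟩
      obtain ⟨a, ha, rfl⟩ := hk
      refine ⟨a, ha, ?_⟩
      apply Subtype.ext
      rw [hsmul, hsmul]
      apply hNinj _ (hNconj _ _ n.2) _ (hNconj _ _ n.2)
      rw [hconjsmul h n, hconjsmul a n]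
      exact hkx.symm
  have hirr : ∀ U : Subgroup N, (∀ h : stabilizer G α, ∀ u ∈ U, h • u ∈ U) → U = ⊥ ∨ U = ⊤ := by
    intro U hU
    by_cases hU0 : U = ⊥
    · left
      exact hU0
    · right
      have hU'n : ∀ g : G, ∀ k ∈ U.map N.subtype, g * k * g⁻¹ ∈ U.map N.subtype := by
        rintro g _ ⟨u, hu, rfl⟩
        obtain ⟨n, hn, hnα⟩ := hNtr (g • α)
        have hh : n⁻¹ * g ∈ stabilizer G α := by
          rw [mem_stabilizer_iff, mul_smul, ← hnα, inv_smul_smul]
        have h1 := hU ⟨n⁻¹ * g, hh⟩ u hu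
        refine ⟨(⟨n⁻¹ * g, hh⟩ : stabilizer G α) • u, h1, ?_⟩
        show (((⟨n⁻¹ * g, hh⟩ : stabilizer G α) • u : N) : G) = g * u * g⁻¹
        rw [hsmul]
        have h2 : g * u * g⁻¹ ∈ N := hNconj g u u.2
        have h3 := hNcomm n⁻¹ (N.inv_mem hn) _ h2
        calc n⁻¹ * g * ↑u * (n⁻¹ * g)⁻¹ = n⁻¹ * (g * u * g⁻¹) * n := by group
          _ = (g * u * g⁻¹) * n⁻¹ * n := by rw [h3]
          _ = g * u * g⁻¹ := by group
      have hU'ne : U.map N.subtype ≠ ⊥ := fun h =>
        hU0 ((Subgroup.map_eq_bot_iff_of_injective _ N.subtype_injective).mp h)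
      have hU'tr := exists_mem_smul_eq_of_normal_of_prim hU'n hU'ne α
      rw [eq_top_iff]
      intro n _
      obtain ⟨u, hu, huα⟩ := hU'tr ((n : G) • α)
      obtain ⟨u0, hu0, rfl⟩ := hu
      have h4 : (u0 : G) = n := hNinj _ u0.2 _ n.2 huα
      have h5 : u0 = n := Subtype.ext h4
      rwa [← h5]
  have hpart_b2 : ∀ i : ℕ, 0 < i → i < d → ¬ r ∣ p ^ i - 1 := by
    intro i hi hid hdvd
    apply sx_frobenius (B := N) hp hNcard A hAc horb hirr hi hid
    intro a ha
    have h1 : a ^ r = 1 := hAexp a ha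
    obtain ⟨m, hm⟩ := hdvd
    have h2 : a ^ (p ^ i - 1) = 1 := by rw [hm, pow_mul, h1, one_pow]
    have h3 : p ^ i = (p ^ i - 1) + 1 := (Nat.sub_add_cancel (Nat.one_le_pow _ _ hp.pos)).symm
    rw [h3, pow_succ, h2, one_mul]
  refine ⟨r, hr, hpart_a, hpart_b1, hpart_b2, A.map (stabilizer G α).subtype, hTle, ?_, hTcard,
    ?_, ?_⟩
  · intro h hh
    rw [Subgroup.mem_normalizer_iff]
    intro k
    constructor
    · exact hTn h hh k
    · intro hk
      have h1 := hTn h⁻¹ (inv_mem hh) _ hk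
      have e1 : h⁻¹ * (h * k * h⁻¹) * h⁻¹⁻¹ = k := by group
      rwa [e1] at h1
  · have hcyc : IsCyclic (Matrix.GeneralLinearGroup (Fin 1) (ZMod r)) := isCyclic_GL_one _
    have hcyc2 : IsCyclic φ.range := Subgroup.isCyclic _
    obtain ⟨y, hy⟩ := IsCyclic.exists_generator (α := φ.range)
    obtain ⟨h0, hh0⟩ := y.2
    refine ⟨(h0 : G), le_antisymm ?_ ?_⟩
    · intro x hx
      obtain ⟨k, hk⟩ := Subgroup.mem_zpowers_iff.mp (hy ⟨φ ⟨x, hx⟩, ⟨_, rfl⟩⟩)
      have hk' : (y : Matrix.GeneralLinearGroup (Fin 1) (ZMod r)) ^ k = φ ⟨x, hx⟩ := by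
        have := congrArg Subtype.val hk
        simpa using this
      have h1 : (⟨x, hx⟩ : stabilizer G α) * (h0 ^ k)⁻¹ ∈ A := by
        rw [← hφ, MonoidHom.mem_ker, map_mul, map_inv, map_zpow, hh0, hk', mul_inv_cancel]
      have h3 : x = (((⟨x, hx⟩ : stabilizer G α) * (h0 ^ k)⁻¹ : stabilizer G α) : G)
          * (h0 : G) ^ k := by
        simp
      rw [h3]
      exact Subgroup.mul_mem_sup ⟨_, h1, rfl⟩ (Subgroup.zpow_mem_zpowers _ k)
    · exact sup_le hTle (by rw [Subgroup.zpowers_le]; exact h0.2)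
  · obtain ⟨ω, hω⟩ := exists_ne α
    have h1 := card_orbit_mul (K := stabilizer G α) ω
    rw [hpart_a ω hω] at h1
    rw [← h1]
    apply Nat.mul_dvd_mul_left
    apply sx_card_dvd (B := N) hp hNcard A hAc horb hirr ?_ (stabilizer (stabilizer G α) ω) ?_
    · intro h hb
      apply Subtype.ext
      apply eq_one_of_comm_of_transitive α hNtr (c := (h : G)) ?_ h.2
      intro k hk
      have h2 := congrArg Subtype.val (hb ⟨k, hk⟩)
      rw [hsmul] at h2
      calc (h : G) * k = ((h : G) * k * (h : G)⁻¹) * h := by group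
        _ = k * h := by rw [h2]
    · intro s hs hsA
      have hsA' : s ∈ A := abelian_normal_mem hH hep A hAne hAc hsA
      apply Subtype.ext
      exact hfree (s : G) ⟨s, hsA', rfl⟩ ω hω hs

end Cfsg.Agent.S3496
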