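import Cfsg.Statements.S3497
import Cfsg.Agent.Helper58.ExtPrim2

set_option autoImplicit false
open Cfsg

namespace Cfsg.Agent.S3497

/-- Restrictions on the point stabilizer of an extremely primitive group. Let a finite group G act faithfully and primitively on a finite set Ω with point stabilizers H = G_α whose order is neither 1 nor a prime, each acting primitively on every one of its orbits. Then H has trivial center, the Fitting subgroup F(H) is an elementary abelian p-group for some prime p, and if F(H) ≠ 1 has order p ^ e then p ^ e divides the number of points minus one and H / F(H) embeds in GL_e(p) (there is a homomorphism from H to GL_e(p) with kernel exactly F(H)). -/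
theorem result {G : Type*} [Group G] [Finite G] {Ω : Type*} [Fintype Ω] [MulAction G Ω] [FaithfulSMul G Ω] (hprim : MulAction.IsPreprimitive G Ω) (hep : ∀ (α : Ω) (ω : Ω), MulAction.IsPreprimitive (MulAction.stabilizer G α) (MulAction.orbit (MulAction.stabilizer G α) ω)) (α : Ω)
    (hH1 : MulAction.stabilizer G α ≠ ⊥) (hHp : ¬ (Nat.card (MulAction.stabilizer G α)).Prime) :
    Subgroup.center (MulAction.stabilizer G α) = ⊥ ∧
    IsMulCommutative (Cfsg.fittingSubgroup (MulAction.stabilizer G α)) ∧
    ∃ p e : ℕ, p.Prime ∧ Nat.card (Cfsg.fittingSubgroup (MulAction.stabilizer G α)) = p ^ e ∧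
      (∀ x ∈ Cfsg.fittingSubgroup (MulAction.stabilizer G α), x ^ p = 1) ∧
      (Cfsg.fittingSubgroup (MulAction.stabilizer G α) ≠ ⊥ →
        p ^ e ∣ Fintype.card Ω - 1 ∧
        ∃ φ : MulAction.stabilizer G α →* GL (Fin e) (ZMod p), φ.ker = Cfsg.fittingSubgroup (MulAction.stabilizer G α)) := by
  classical
  have hH : ∀ β : Ω, MulAction.stabilizer G β ≠ ⊥ := by
    intro β hβ
    obtain ⟨g, hg⟩ := MulAction.exists_smul_eq G α β
    apply hH1
    rw [eq_bot_iff]
    intro x hx
    have hx' : x • α = α := hx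
    have h1 : g * x * g⁻¹ ∈ MulAction.stabilizer G β := by
      rw [← hg, MulAction.mem_stabilizer_iff, mul_smul, mul_smul, inv_smul_smul, hx']
    rw [hβ, Subgroup.mem_bot] at h1
    rw [Subgroup.mem_bot]
    calc x = g⁻¹ * (g * x * g⁻¹) * g := by group
      _ = 1 := by rw [h1]; group
  refine ⟨Cfsg.Agent.Helper58.center_stabilizer_eq_bot hH hep α hHp, ?_⟩
  have hfit : Cfsg.fittingSubgroup (MulAction.stabilizer G α) =
      sSup {N : Subgroup (MulAction.stabilizer G α) | N.Normal ∧ Group.IsNilpotent N} := rfl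
  rw [hfit]
  rcases Cfsg.Agent.Helper58.fitting_stabilizer hH hep α with h0 | ⟨hn, hne, hc⟩
  · rw [h0]
    refine ⟨⟨⟨fun a b => ?_⟩⟩, 2, 0, Nat.prime_two, ?_, ?_, fun h => absurd rfl h⟩
    · apply Subtype.ext
      have ha := a.2
      have hb := b.2
      rw [Subgroup.mem_bot] at ha hb
      rw [Subgroup.coe_mul, Subgroup.coe_mul, ha, hb]
    · rw [Subgroup.card_bot, pow_zero]
    · intro x hx
      rw [Subgroup.mem_bot] at hx
      rw [hx, one_pow]
  · obtain ⟨p, e, hp, hcard, hexp, hdvd, φ, hφ⟩ :=
      Cfsg.Agent.Helper58.abelian_normal_structure hH hep _ hne hc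
    refine ⟨⟨⟨fun a b => Subtype.ext (hc a a.2 b b.2)⟩⟩, p, e, hp, hcard, hexp, fun _ => ⟨?_, φ, hφ⟩⟩
    rw [← Nat.card_eq_fintype_card]
    exact hdvd

end Cfsg.Agent.S3497
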