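import Cfsg.Statements.S3504

set_option autoImplicit false
open Cfsg

namespace Cfsg.Agent.S3504

/-- a fixed-point-free permutation of prime order `p` of `Fin n` has cycle type `p^(n/p)` -/
theorem cycleType_of_prime_fpf {n : ℕ} {g : Equiv.Perm (Fin n)} (hp : (orderOf g).Prime)
    (hfix : ∀ i : Fin n, g i ≠ i) :
    orderOf g ∣ n ∧ g.cycleType = Multiset.replicate (n / orderOf g) (orderOf g) := by
  obtain ⟨m, hm⟩ := Equiv.Perm.cycleType_prime_order hp
  have hsupp : g.support = Finset.univ := by
    ext i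
    simp [Equiv.Perm.mem_support, hfix i]
  have hsum : (m + 1) * orderOf g = n := by
    have h1 := Equiv.Perm.sum_cycleType g
    rw [hm, hsupp, Multiset.sum_replicate, Finset.card_univ, Fintype.card_fin] at h1
    simpa using h1
  refine ⟨⟨m + 1, by linarith⟩, ?_⟩
  have : n / orderOf g = m + 1 :=
    Nat.div_eq_of_eq_mul_left hp.pos hsum.symm
  rw [this, hm]

/-- a permutation of `Fin n` with cycle type `p^(n/p)`, `p` a prime divisor of `n ≠ 0`, has order `p`
and no fixed point -/
theorem prime_fpf_of_cycleType {n p : ℕ} (hn : n ≠ 0) (hp : p.Prime) (hpn : p ∣ n)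
    {g : Equiv.Perm (Fin n)} (hg : g.cycleType = Multiset.replicate (n / p) p) :
    orderOf g = p ∧ ∀ i : Fin n, g i ≠ i := by
  have hk : 0 < n / p := Nat.div_pos (Nat.le_of_dvd (Nat.pos_of_ne_zero hn) hpn) hp.pos
  constructor
  · rw [← Equiv.Perm.lcm_cycleType, hg]
    apply Nat.dvd_antisymm
    · apply Multiset.lcm_dvd.mpr
      intro a ha
      rw [Multiset.eq_of_mem_replicate ha]
    · apply Multiset.dvd_lcm
      exact Multiset.mem_replicate.mpr ⟨hk.ne', rfl⟩
  · have h1 := Equiv.Perm.sum_cycleType g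
    rw [hg, Multiset.sum_replicate, smul_eq_mul, Nat.div_mul_cancel hpn] at h1
    have h2 : g.support = Finset.univ := by
      rw [← Finset.card_eq_iff_eq_univ, ← h1, Fintype.card_fin]
    intro i
    have : i ∈ g.support := by rw [h2]; exact Finset.mem_univ i
    exact Equiv.Perm.mem_support.mp this

/-- existence of a permutation with cycle type `p^(n/p)` -/
theorem exists_cycleType_replicate {n p : ℕ} (hp : p.Prime) (hpn : p ∣ n) :
    ∃ g : Equiv.Perm (Fin n), g.cycleType = Multiset.replicate (n / p) p := by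
  apply (Equiv.Perm.exists_with_cycleType_iff (Fin n)).mpr
  constructor
  · rw [Multiset.sum_replicate, smul_eq_mul, Nat.div_mul_cancel hpn, Fintype.card_fin]
  · intro a ha
    rw [Multiset.eq_of_mem_replicate ha]
    exact hp.two_le


/-- For n ≥ 5, the fixed-point-free permutations of prime order in the symmetric group of degree n form a single conjugacy class if and only if n is a prime power. -/
theorem result (n : ℕ) (hn : 5 ≤ n) :
    Nat.card {c : ConjClasses (Equiv.Perm (Fin n)) // ∃ g : Equiv.Perm (Fin n), ConjClasses.mk g = c ∧ (orderOf g).Prime ∧ ∀ i : Fin n, g i ≠ i} = 1 ↔ IsPrimePow n := by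
  classical
  have hn0 : n ≠ 0 := by omega
  rw [isPrimePow_iff_card_primeFactors_eq_one]
  -- a chosen permutation for each prime divisor
  have hex : ∀ p : {p // p ∈ n.primeFactors}, ∃ g : Equiv.Perm (Fin n),
      g.cycleType = Multiset.replicate (n / p.1) p.1 := fun p =>
    exists_cycleType_replicate (Nat.prime_of_mem_primeFactors p.2) (Nat.dvd_of_mem_primeFactors p.2)
  choose γ hγ using hex
  have hγ' : ∀ p : {p // p ∈ n.primeFactors}, orderOf (γ p) = p.1 ∧ ∀ i : Fin n, γ p i ≠ i := fun p =>
    prime_fpf_of_cycleType hn0 (Nat.prime_of_mem_primeFactors p.2) (Nat.dvd_of_mem_primeFactors p.2) (hγ p)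
  let f : {p // p ∈ n.primeFactors} →
      {c : ConjClasses (Equiv.Perm (Fin n)) // ∃ g : Equiv.Perm (Fin n), ConjClasses.mk g = c ∧
        (orderOf g).Prime ∧ ∀ i : Fin n, g i ≠ i} := fun p =>
    ⟨ConjClasses.mk (γ p), γ p, rfl, by rw [(hγ' p).1]; exact Nat.prime_of_mem_primeFactors p.2,
      (hγ' p).2⟩
  have hf : Function.Bijective f := by
    constructor
    · intro p q hpq
      have h1 : ConjClasses.mk (γ p) = ConjClasses.mk (γ q) := congrArg Subtype.val hpq
      rw [ConjClasses.mk_eq_mk_iff_isConj, Equiv.Perm.isConj_iff_cycleType_eq] at h1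
      have h2 : orderOf (γ p) = orderOf (γ q) := by
        rw [← Equiv.Perm.lcm_cycleType, ← Equiv.Perm.lcm_cycleType, h1]
      rw [(hγ' p).1, (hγ' q).1] at h2
      exact Subtype.ext h2
    · rintro ⟨c, g, rfl, hprime, hfix⟩
      obtain ⟨hdvd, hct⟩ := cycleType_of_prime_fpf hprime hfix
      refine ⟨⟨orderOf g, Nat.mem_primeFactors.mpr ⟨hprime, hdvd, hn0⟩⟩, ?_⟩
      apply Subtype.ext
      show ConjClasses.mk (γ ⟨orderOf g, _⟩) = ConjClasses.mk g
      rw [ConjClasses.mk_eq_mk_iff_isConj, Equiv.Perm.isConj_iff_cycleType_eq, hγ, hct]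
  rw [← Nat.card_eq_of_bijective f hf, Nat.card_eq_fintype_card, Fintype.card_coe]

end Cfsg.Agent.S3504
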