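import Cfsg.Statements.S3508

set_option autoImplicit false
open Cfsg

namespace Cfsg.Agent.S3508

open Polynomial Module

/-- unipotent endomorphisms in characteristic `p`: if `a ^ (p^r) = 1` on a space of dimension `< q = p^j`,
then `a ^ q = 1` and `1 + a + ... + a^(q-1) = 0`. -/
theorem unipotent_pow (p : ℕ) [Fact p.Prime] {V : Type*} [AddCommGroup V] [Module (ZMod p) V]
    [Module.Finite (ZMod p) V] (a : Module.End (ZMod p) V) (r : ℕ) (ha : a ^ p ^ r = 1) (j : ℕ)
    (hq : finrank (ZMod p) V + 1 ≤ p ^ j) :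
    a ^ p ^ j = 1 ∧ ∑ i ∈ Finset.range (p ^ j), a ^ i = 0 := by
  -- a - 1 is nilpotent
  have h1 : (a - 1) ^ p ^ r = 0 := by
    have hpoly : ((X - 1 : (ZMod p)[X]) ^ p ^ r) = X ^ p ^ r - 1 := by
      rw [sub_pow_char_pow, one_pow]
    have := congrArg (aeval a) hpoly
    simp only [map_pow, map_sub, aeval_X, map_one] at this
    rw [this, ha, sub_self]
  have hnil : IsNilpotent (a - 1) := ⟨p ^ r, h1⟩
  have h2 : (a - 1) ^ finrank (ZMod p) V = 0 := by
    have h3 := LinearMap.aeval_self_charpoly (a - 1)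
    rw [hnil.charpoly_eq_X_pow_finrank] at h3
    simpa using h3
  have h4 : (a - 1) ^ (p ^ j - 1) = 0 := pow_eq_zero_of_le (by omega) h2
  have h5 : (a - 1) ^ p ^ j = 0 := pow_eq_zero_of_le (by omega) h2
  constructor
  · have hpoly : ((X - 1 : (ZMod p)[X]) ^ p ^ j) = X ^ p ^ j - 1 := by
      rw [sub_pow_char_pow, one_pow]
    have := congrArg (aeval a) hpoly
    simp only [map_pow, map_sub, aeval_X, map_one] at this
    rw [h5] at this
    exact (sub_eq_zero.mp this.symm)
  · have hpoly : (∑ i ∈ Finset.range (p ^ j), (X : (ZMod p)[X]) ^ i) = (X - 1) ^ (p ^ j - 1) := by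
      have hX : (X - 1 : (ZMod p)[X]) ≠ 0 := X_sub_C_ne_zero 1
      apply mul_left_cancel₀ hX
      rw [mul_geom_sum, ← pow_succ', Nat.sub_add_cancel (by have := Nat.one_le_two_pow (n := 0); omega),
        sub_pow_char_pow, one_pow]
    have := congrArg (aeval a) hpoly
    simp only [map_pow, map_sub, aeval_X, map_one, map_sum] at this
    rw [this, h4]

theorem two_pow_bound : ∀ k : ℕ, 2 ≤ k → k + 2 ≤ 2 ^ k := by
  intro k hk
  induction k, hk using Nat.le_induction with
  | base => norm_num
  | succ k hk ih => rw [pow_succ]; omega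

theorem three_pow_bound : ∀ k : ℕ, 1 ≤ k → k + 2 ≤ 3 ^ k := by
  intro k hk
  induction k, hk using Nat.le_induction with
  | base => norm_num
  | succ k hk ih => rw [pow_succ]; omega

open IsMulCommutative in
/-- the main bound: an element of order `p^r` in an affine group of degree `p^m` has `p^(r-1) ≤ m` -/
theorem main_bound {G : Type*} [Group G] [Finite G] {Ω : Type*} [Fintype Ω] [MulAction G Ω]
    [FaithfulSMul G Ω] (p m : ℕ) (hp : p.Prime) (hcard : Fintype.card Ω = p ^ m)
    (N : Subgroup G) [N.Normal] (hNc : IsMulCommutative N) (hNp : ∀ n ∈ N, n ^ p = 1)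
    (hNtr : MulAction.IsPretransitive N Ω) (hNreg : ∀ ω : Ω, MulAction.stabilizer N ω = ⊥)
    (g : G) (r : ℕ) (hr : 1 ≤ r) (hg : orderOf g = p ^ r) : p ^ (r - 1) ≤ m := by
  classical
  by_contra hcon
  push Not at hcon
  haveI : Fact p.Prime := ⟨hp⟩
  obtain ⟨inst1⟩ : Nonempty (Module (ZMod p) (Additive N)) := ⟨AddCommGroup.zmodModule (n := p) (by
    intro x
    have h1 : (Additive.toMul x) ^ p = 1 := Subtype.ext (hNp _ (Additive.toMul x).2)
    have h2 : p • x = Additive.ofMul ((Additive.toMul x) ^ p) := rfl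
    rw [h2, h1]; rfl)⟩
  -- a base point
  have hΩ : Nonempty Ω := by
    rw [← Fintype.card_pos_iff, hcard]; exact pow_pos hp.pos m
  obtain ⟨ω₀⟩ := hΩ
  -- N is in bijection with Ω
  have hbij : Function.Bijective (fun n : N => n • ω₀) := by
    constructor
    · intro n n' h
      have h1 : (n'⁻¹ * n) • ω₀ = ω₀ := by
        rw [mul_smul, inv_smul_eq_iff]; exact h
      have h2 : n'⁻¹ * n ∈ MulAction.stabilizer N ω₀ := h1
      rw [hNreg ω₀, Subgroup.mem_bot] at h2
      have := congrArg (fun t => n' * t) h2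
      simpa using this
    · intro ω
      exact MulAction.exists_smul_eq N ω₀ ω
  have hcardN : Nat.card (Additive N) = p ^ m := by
    have h1 : Nat.card N = Nat.card Ω := Nat.card_eq_of_bijective _ hbij
    rw [Nat.card_eq_fintype_card (α := Ω), hcard] at h1
    exact h1
  haveI : Finite (Additive N) := Finite.of_equiv N Additive.ofMul
  haveI inst2 : Module.Finite (ZMod p) (Additive N) := Module.Finite.of_finite
  have hfr : finrank (ZMod p) (Additive N) = m := by
    have h1 := @Module.natCard_eq_pow_finrank (ZMod p) (Additive N) _ _ inst1 inst2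
    rw [hcardN, Nat.card_zmod] at h1
    exact (Nat.pow_right_injective hp.two_le h1).symm
  -- conjugation by g as a linear map
  let a : Additive N →ₗ[ZMod p] Additive N :=
    AddMonoidHom.toZModLinearMap p (MonoidHom.toAdditive (MulAut.conjNormal g : N ≃* N).toMonoidHom)
  have ha : ∀ v : Additive N, a v = Additive.ofMul (MulAut.conjNormal g (Additive.toMul v)) :=
    fun v => rfl
  have hapow : ∀ (k : ℕ) (v : Additive N),
      (a ^ k) v = Additive.ofMul (MulAut.conjNormal (g ^ k) (Additive.toMul v)) := by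
    intro k
    induction k with
    | zero => intro v; simp
    | succ k ih =>
      intro v
      rw [pow_succ', Module.End.mul_apply, ih, ha, pow_succ', map_mul]
      rfl
  have hgpow : g ^ p ^ r = 1 := by rw [← hg]; exact pow_orderOf_eq_one g
  have hapr : a ^ p ^ r = 1 := by
    apply LinearMap.ext
    intro v
    rw [hapow, hgpow, map_one]
    rfl
  obtain ⟨haq, hsum⟩ := unipotent_pow p a r hapr (r - 1) (by rw [hfr]; omega)
  -- the orbit of the base point under powers of g
  obtain ⟨n₀, hn₀⟩ := MulAction.exists_smul_eq N ω₀ (g • ω₀)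
  have horb : ∀ k : ℕ, g ^ k • ω₀ =
      (Additive.toMul ((∑ i ∈ Finset.range k, a ^ i) (Additive.ofMul n₀)) : N) • ω₀ := by
    intro k
    induction k with
    | zero => simp
    | succ k ih =>
      rw [pow_succ', mul_smul, ih, geom_sum_succ, LinearMap.add_apply, Module.End.mul_apply,
        Module.End.one_apply, ha]
      set x : N := Additive.toMul ((∑ i ∈ Finset.range k, a ^ i) (Additive.ofMul n₀)) with hx
      show g • (x : G) • ω₀ = ((MulAut.conjNormal g x * n₀ : N) : G) • ω₀
      rw [Subgroup.coe_mul, MulAut.conjNormal_apply, mul_smul]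
      have : (n₀ : G) • ω₀ = g • ω₀ := hn₀
      rw [this, mul_smul, mul_smul, inv_smul_smul]
  have hfix0 : g ^ p ^ (r - 1) • ω₀ = ω₀ := by
    rw [horb, hsum]
    simp
  have hfix : ∀ ω : Ω, g ^ p ^ (r - 1) • ω = ω := by
    intro ω
    obtain ⟨n, rfl⟩ := MulAction.exists_smul_eq N ω₀ ω
    have h1 := hapow (p ^ (r - 1)) (Additive.ofMul n)
    rw [haq] at h1
    have h2 : MulAut.conjNormal (g ^ p ^ (r - 1)) n = n := by
      have := congrArg Additive.toMul h1
      simpa using this.symm
    have h3 : g ^ p ^ (r - 1) * (n : G) * (g ^ p ^ (r - 1))⁻¹ = n := by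
      rw [← MulAut.conjNormal_apply, h2]
    show g ^ p ^ (r - 1) • (n : G) • ω₀ = (n : G) • ω₀
    conv_rhs => rw [← h3]
    rw [mul_smul, mul_smul, inv_smul_eq_iff.mpr hfix0.symm]
  have hone : g ^ p ^ (r - 1) = 1 := by
    apply FaithfulSMul.eq_of_smul_eq_smul (α := Ω)
    intro ω
    rw [hfix ω, one_smul]
  have hdvd : p ^ r ∣ p ^ (r - 1) := by
    rw [← hg]; exact orderOf_dvd_of_pow_eq_one hone
  have hle := Nat.le_of_dvd (pow_pos hp.pos _) hdvd
  have hlt : p ^ (r - 1) < p ^ r := Nat.pow_lt_pow_right hp.one_lt (by omega)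
  omega


/-- Let a finite group G act faithfully on a set Ω with p ^ m points (p prime) and have an elementary abelian normal p-subgroup N acting regularly on Ω (so G is a group of affine transformations of an m-dimensional space over the field with p elements). If G contains an element of order p ^ r with r ≥ 1, then p ^ (r − 1) ≤ m. In particular an element of order p ^ m forces m ≤ 2, and m ≤ 1 when p is odd. -/
theorem result {G : Type*} [Group G] [Finite G] {Ω : Type*} [Fintype Ω] [MulAction G Ω] [FaithfulSMul G Ω] (p m : ℕ) (hp : p.Prime) (hcard : Fintype.card Ω = p ^ m)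
    (N : Subgroup G) [N.Normal] (hNc : IsMulCommutative N) (hNp : ∀ n ∈ N, n ^ p = 1)
    (hNtr : MulAction.IsPretransitive N Ω) (hNreg : ∀ ω : Ω, MulAction.stabilizer N ω = ⊥)
    (g : G) (r : ℕ) (hr : 1 ≤ r) (hg : orderOf g = p ^ r) :
    p ^ (r - 1) ≤ m ∧ (r = m → m ≤ 2 ∧ (2 < p → m ≤ 1)) := by
  have hmain := main_bound p m hp hcard N hNc hNp hNtr hNreg g r hr hg
  refine ⟨hmain, ?_⟩
  rintro rfl
  have h2 : 2 ^ (r - 1) ≤ r := (Nat.pow_le_pow_left hp.two_le _).trans hmain
  constructor
  · by_contra hcon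
    push Not at hcon
    have := two_pow_bound (r - 1) (by omega)
    omega
  · intro hp3
    by_contra hcon
    push Not at hcon
    have h3 : 3 ^ (r - 1) ≤ r := (Nat.pow_le_pow_left (by omega : 3 ≤ p) _).trans hmain
    have := three_pow_bound (r - 1) (by omega)
    omega

end Cfsg.Agent.S3508
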