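import Cfsg.Statements.S3511

set_option autoImplicit false
open Cfsg

namespace Cfsg.Agent.S3511

/-- Let a finite group G act faithfully on a set Ω. If every element of G of square-free order has a regular cycle (an orbit of the cyclic group it generates with trivial stabilizer), then every element of G has a regular cycle. -/
theorem result {G : Type*} [Group G] [Finite G] {Ω : Type*} [MulAction G Ω] [FaithfulSMul G Ω]
    (h : ∀ g : G, Squarefree (orderOf g) → ∃ ω : Ω, MulAction.stabilizer (Subgroup.zpowers g) ω = ⊥) (g : G) :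
    ∃ ω : Ω, MulAction.stabilizer (Subgroup.zpowers g) ω = ⊥ := by
  classical
  set n := orderOf g with hn
  have hnpos : 0 < n := orderOf_pos g
  set r := ∏ p ∈ n.primeFactors, p with hr
  have hrn : r ∣ n := Nat.prod_primeFactors_dvd n
  have hrpos : 0 < r := Nat.pos_of_dvd_of_pos hrn hnpos
  set k := n / r with hk
  have hkr : k * r = n := Nat.div_mul_cancel hrn
  have hkpos : 0 < k := by
    rcases Nat.eq_zero_or_pos k with h0 | h0
    · rw [h0] at hkr; omega
    · exact h0
  -- the order of g ^ k is r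
  have hord : orderOf (g ^ k) = r := by
    rw [orderOf_pow' g hkpos.ne', ← hn, Nat.gcd_eq_right ⟨r, by rw [← hkr]⟩]
    exact Nat.div_eq_of_eq_mul_right hkpos hkr.symm
  have hsq : Squarefree (orderOf (g ^ k)) := by
    rw [hord, hr]
    rw [Nat.squarefree_iff_prime_squarefree]
    intro p hp hpp
    -- p * p ∣ ∏ primeFactors: impossible
    have h1 : (∏ q ∈ n.primeFactors, q).factorization p ≤ 1 := by
      rw [Nat.factorization_prod (fun q hq => (Nat.prime_of_mem_primeFactors hq).ne_zero)]
      simp only [Finsupp.coe_finsetSum, Finset.sum_apply]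
      calc ∑ q ∈ n.primeFactors, q.factorization p
          ≤ ∑ q ∈ n.primeFactors, (if q = p then 1 else 0) := by
            apply Finset.sum_le_sum
            intro q hq
            have hqp := Nat.prime_of_mem_primeFactors hq
            rw [hqp.factorization]
            by_cases hqe : q = p
            · subst hqe; simp
            · simp [hqe]
        _ ≤ 1 := by
            rw [Finset.sum_ite_eq']
            split_ifs <;> simp
    have h2 : 2 ≤ (∏ q ∈ n.primeFactors, q).factorization p := by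
      have hne : (∏ q ∈ n.primeFactors, q) ≠ 0 := hrpos.ne'
      have : p ^ 2 ∣ ∏ q ∈ n.primeFactors, q := by rw [pow_two]; exact hpp
      exact (hp.pow_dvd_iff_le_factorization hne).mp this
    omega
  obtain ⟨ω, hω⟩ := h (g ^ k) hsq
  refine ⟨ω, ?_⟩
  rw [eq_bot_iff]
  intro x hx
  rw [Subgroup.mem_bot]
  by_contra hx1
  have hxω : (x : G) • ω = ω := hx
  have hy1 : (x : G) ≠ 1 := fun hh => hx1 (Subtype.ext hh)
  set y : G := (x : G) with hy
  have hyg : y ∈ Subgroup.zpowers g := x.2
  set d := orderOf y with hd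
  have hdpos : 0 < d := orderOf_pos y
  have hd1 : d ≠ 1 := by
    intro h1
    exact hy1 (orderOf_eq_one_iff.mp h1)
  obtain ⟨p, hp, hpd⟩ := Nat.exists_prime_and_dvd hd1
  set z := y ^ (d / p) with hz
  have hzord : orderOf z = p := orderOf_pow_orderOf_div hdpos.ne' hpd
  have hzω : z • ω = ω := by
    have : y ∈ MulAction.stabilizer G ω := hxω
    exact (MulAction.stabilizer G ω).pow_mem this _
  have hzg : z ∈ Subgroup.zpowers g := (Subgroup.zpowers g).pow_mem hyg _
  -- p divides n, hence r
  have hdn : d ∣ n := orderOf_dvd_of_mem_zpowers hyg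
  have hpn : p ∣ n := hpd.trans hdn
  have hpr : p ∣ r := by
    rw [hr]
    exact Finset.dvd_prod_of_mem _ (Nat.mem_primeFactors.mpr ⟨hp, hpn, hnpos.ne'⟩)
  -- z is a power of g ^ k
  obtain ⟨m, hm⟩ := Subgroup.mem_zpowers_iff.mp hzg
  have hzp : g ^ (m * p) = 1 := by
    rw [zpow_mul, hm, zpow_natCast, ← hzord, pow_orderOf_eq_one]
  have hdiv : (n : ℤ) ∣ m * p := by
    rw [hn]; exact orderOf_dvd_iff_zpow_eq_one.mpr hzp
  obtain ⟨r', hr'⟩ := hpr
  have hkm : (k : ℤ) ∣ m := by
    have h1 : (n : ℤ) = (k * r' : ℤ) * p := by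
      rw [← hkr, hr']; push_cast; ring
    rw [h1] at hdiv
    have hp0 : (p : ℤ) ≠ 0 := by exact_mod_cast hp.ne_zero
    have := Int.dvd_of_mul_dvd_mul_right hp0 hdiv
    exact (Dvd.intro _ rfl).trans this
  obtain ⟨m', hm'⟩ := hkm
  have hzmem : z ∈ Subgroup.zpowers (g ^ k) := by
    rw [Subgroup.mem_zpowers_iff]
    refine ⟨m', ?_⟩
    rw [← hm, hm', zpow_mul, zpow_natCast]
  have hmem : (⟨z, hzmem⟩ : Subgroup.zpowers (g ^ k)) ∈ MulAction.stabilizer (Subgroup.zpowers (g ^ k)) ω := by
    show (⟨z, hzmem⟩ : Subgroup.zpowers (g ^ k)) • ω = ω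
    exact hzω
  rw [hω, Subgroup.mem_bot] at hmem
  have hz1 : z = 1 := congrArg Subtype.val hmem
  rw [hz1, orderOf_one] at hzord
  exact hp.one_lt.ne' hzord.symm

end Cfsg.Agent.S3511
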