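import Cfsg.Statements.S3514
import Cfsg.Agent.Helper58.OrbitIndex

set_option autoImplicit false
open Cfsg

namespace Cfsg.Agent.S3514

/-- Let p be a prime, V a finite vector space over the field with p elements, and H a group of linear transformations of V all of whose orbits on V have size coprime to p. (i) Every normal subgroup K of H has all its orbits on V of size coprime to p. (ii) If N is a group of linear transformations of V of order coprime to p that is normalized by H, then the group generated by N and H has all its orbits on V of size coprime to p. -/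
theorem result (p : ℕ) [Fact p.Prime] {V : Type*} [AddCommGroup V] [Module (ZMod p) V] [Finite V]
    (H : Subgroup (V ≃ₗ[ZMod p] V)) (hH : ∀ v : V, ¬ p ∣ Nat.card {u : V | ∃ h ∈ H, h v = u}) :
    (∀ K : Subgroup (V ≃ₗ[ZMod p] V), K ≤ H → H ≤ Subgroup.normalizer (K : Set (V ≃ₗ[ZMod p] V)) →
        ∀ v : V, ¬ p ∣ Nat.card {u : V | ∃ k ∈ K, k v = u}) ∧
    (∀ N : Subgroup (V ≃ₗ[ZMod p] V), ¬ p ∣ Nat.card N → H ≤ Subgroup.normalizer (N : Set (V ≃ₗ[ZMod p] V)) →
        ∀ v : V, ¬ p ∣ Nat.card {u : V | ∃ x ∈ N ⊔ H, x v = u}) := by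
  classical
  haveI : Finite (V ≃ₗ[ZMod p] V) :=
    Finite.of_injective (fun f : V ≃ₗ[ZMod p] V => (f : V → V)) DFunLike.coe_injective
  have hp : p.Prime := Fact.out
  -- orbit sizes as relative indices of the stabilizer
  have key : ∀ (S : Subgroup (V ≃ₗ[ZMod p] V)) (v : V),
      Nat.card {u : V | ∃ s ∈ S, s v = u} = (MulAction.stabilizer (V ≃ₗ[ZMod p] V) v).relIndex S :=
    fun S v => Cfsg.Agent.Helper58.card_orbit_subgroup S v
  constructor
  · intro K hKH hn v hdvd
    apply hH v
    rw [key] at hdvd ⊢
    exact hdvd.trans (Cfsg.Agent.Helper58.relIndex_dvd_relIndex_of_le_normalizer _ K H hKH hn)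
  · intro N hN hn v
    rw [key]
    apply Cfsg.Agent.Helper58.not_dvd_relIndex_sup hp _ N H hn hN
    rw [← key]
    exact hH v

end Cfsg.Agent.S3514
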