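import Cfsg.Statements.S3515
import Cfsg.Agent.Helper58.AffineClosure

set_option autoImplicit false
open Cfsg

namespace Cfsg.Agent.S3515

/-- over the field with two elements, a vector of the plane other than `0`, `e₁`, `e₂` is `e₁ + e₂` -/
theorem plane_two : ∀ y : Fin 2 → ZMod 2, y ≠ 0 → y ≠ Pi.single 0 1 → y ≠ Pi.single 1 1 →
    y = Pi.single 0 1 + Pi.single 1 1 := by
  decide

theorem plane_ne0 : (Pi.single 0 1 + Pi.single 1 1 : Fin 2 → ZMod 2) ≠ 0 := by decide

theorem plane_ne1 : (Pi.single 0 1 + Pi.single 1 1 : Fin 2 → ZMod 2) ≠ Pi.single 0 1 := by decide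

theorem plane_ne2 : (Pi.single 0 1 + Pi.single 1 1 : Fin 2 → ZMod 2) ≠ Pi.single 1 1 := by decide

theorem plane_two' : ∀ y : Fin 2 → ZMod 2, y = 0 ∨ y = Pi.single 0 1 ∨ y = Pi.single 1 1 ∨
    y = Pi.single 0 1 + Pi.single 1 1 := by
  decide


/-- Every primitive affine permutation group of degree p² is 3-closed. Let p be a prime and G a group of permutations of the plane V = F_p² consisting of affine maps x ↦ Ax + b, containing all translations, and acting primitively on V. Then any permutation σ of V that agrees on every triple of points with some element of G (σ preserves every G-orbit on ordered triples) already lies in G. -/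
theorem result (p : ℕ) [Fact p.Prime] (G : Subgroup (Equiv.Perm (Fin 2 → ZMod p)))
    (haff : (G : Set (Equiv.Perm (Fin 2 → ZMod p))) ⊆ {τ : Equiv.Perm (Fin 2 → ZMod p) | ∃ (A : (Fin 2 → ZMod p) ≃ₗ[ZMod p] (Fin 2 → ZMod p)) (b : Fin 2 → ZMod p), ∀ x, τ x = A x + b})
    (htrans : ∀ b : Fin 2 → ZMod p, ∃ g ∈ G, ∀ x, g x = x + b) (hprim : MulAction.IsPreprimitive G (Fin 2 → ZMod p))
    (σ : Equiv.Perm (Fin 2 → ZMod p)) (hσ : (∀ t : Fin 3 → (Fin 2 → ZMod p), ∃ g ∈ G, ∀ i, σ (t i) = g (t i))) : σ ∈ G := by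
  classical
  obtain ⟨g₀, hg₀, h₀⟩ := hσ ![0, Pi.single 0 1, Pi.single 1 1]
  have h00 : σ 0 = g₀ 0 := h₀ 0
  have h01 : σ (Pi.single 0 1) = g₀ (Pi.single 0 1) := h₀ 1
  have h02 : σ (Pi.single 1 1) = g₀ (Pi.single 1 1) := h₀ 2
  suffices hs : σ = g₀ by rw [hs]; exact hg₀
  -- τ = g₀⁻¹ σ fixes 0, e₁, e₂
  set τ : Equiv.Perm (Fin 2 → ZMod p) := g₀⁻¹ * σ with hτ
  have hτ0 : τ 0 = 0 := by rw [hτ, Equiv.Perm.mul_apply, h00]; simp
  have hτ1 : τ (Pi.single 0 1) = Pi.single 0 1 := by rw [hτ, Equiv.Perm.mul_apply, h01]; simp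
  have hτ2 : τ (Pi.single 1 1) = Pi.single 1 1 := by rw [hτ, Equiv.Perm.mul_apply, h02]; simp
  suffices hτ1' : ∀ x, τ x = x by
    ext x : 1
    have := hτ1' x
    rw [hτ, Equiv.Perm.mul_apply] at this
    have h2 := congrArg g₀ this
    simpa using h2
  by_cases hp2 : p = 2
  · subst hp2
    intro x
    rcases plane_two' x with rfl | rfl | rfl | rfl
    · exact hτ0
    · exact hτ1
    · exact hτ2
    · apply plane_two
      · intro h
        exact plane_ne0 (τ.injective (h.trans hτ0.symm))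
      · intro h
        exact plane_ne1 (τ.injective (h.trans hτ1.symm))
      · intro h
        exact plane_ne2 (τ.injective (h.trans hτ2.symm))
  · have h2 : (2 : ZMod p) ≠ 0 := by
      intro h
      have h' : ((2 : ℕ) : ZMod p) = 0 := by exact_mod_cast h
      rw [ZMod.natCast_eq_zero_iff] at h'
      have := (Nat.prime_dvd_prime_iff_eq (Fact.out : p.Prime) Nat.prime_two).mp h'
      exact hp2 this
    have h3 : ∀ t : Fin 3 → (Fin 2 → ZMod p), ∃ (A : (Fin 2 → ZMod p) →ₗ[ZMod p] (Fin 2 → ZMod p))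
        (b : Fin 2 → ZMod p), ∀ i, τ (t i) = A (t i) + b := by
      intro t
      obtain ⟨g, hg, hgt⟩ := hσ t
      obtain ⟨A, b, hAb⟩ := haff (G.mul_mem (G.inv_mem hg₀) hg)
      refine ⟨A, b, fun i => ?_⟩
      rw [hτ, Equiv.Perm.mul_apply, hgt i, ← Equiv.Perm.mul_apply, hAb]
      rfl
    obtain ⟨L, hL⟩ := Cfsg.Agent.Helper58.exists_linearMap_of_affine_on_triples h2 τ h3
    have hL' : ∀ x, τ x = L x := by
      intro x
      rw [hL x, hτ0, add_zero]
    intro x
    have hx : x = x 0 • (Pi.single 0 1 : Fin 2 → ZMod p) + x 1 • (Pi.single 1 1 : Fin 2 → ZMod p) := by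
      funext j
      fin_cases j <;> simp
    rw [hL' x]
    conv_lhs => rw [hx]
    rw [map_add, map_smul, map_smul, ← hL', ← hL', hτ1, hτ2, ← hx]

end Cfsg.Agent.S3515
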