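import Cfsg.Statements.S3516
import Cfsg.Agent.Helper58.AffineClosure

set_option autoImplicit false
open Cfsg

namespace Cfsg.Agent.S3516

open Module

/-- For a linear automorphism `A` of a space of dimension at least 3 and two vectors, there is a linear
automorphism of determinant one agreeing with `A` on the two vectors. -/
theorem exists_det_one_agreeing {K : Type*} [Field K] {V : Type*} [AddCommGroup V] [Module K V]
    [FiniteDimensional K V] (hdim : 3 ≤ finrank K V) (A : V ≃ₗ[K] V) (u : Fin 2 → V) :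
    ∃ A' : V ≃ₗ[K] V, LinearMap.det (A' : V →ₗ[K] V) = 1 ∧ ∀ i, A' (u i) = A (u i) := by
  classical
  set W := LinearMap.range (Fintype.linearCombination K u) with hW
  have huW : ∀ i, u i ∈ W := by
    intro i
    refine ⟨Pi.single i 1, ?_⟩
    rw [Fintype.linearCombination_apply_single, one_smul]
  have hWlt : W < ⊤ := by
    refine lt_top_iff_ne_top.mpr ?_
    intro htop
    have h1 : finrank K W ≤ finrank K (Fin 2 → K) := LinearMap.finrank_range_le _
    rw [htop, finrank_top, Module.finrank_fin_fun] at h1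
    omega
  obtain ⟨f, hf0, hfW⟩ := Submodule.exists_le_ker_of_lt_top W hWlt
  obtain ⟨w₀, hw₀⟩ : ∃ w₀, f w₀ ≠ 0 := by
    by_contra hcon
    push Not at hcon
    exact hf0 (LinearMap.ext hcon)
  set w := (f w₀)⁻¹ • w₀ with hw
  have hfw : f w = 1 := by
    rw [hw, map_smul, smul_eq_mul, inv_mul_cancel₀ hw₀]
  have hdet : LinearMap.det (A : V →ₗ[K] V) ≠ 0 := A.isUnit_det'.ne_zero
  set c := (LinearMap.det (A : V →ₗ[K] V))⁻¹ with hc
  have hc0 : c ≠ 0 := inv_ne_zero hdet
  have h1c : 1 + f ((c - 1) • w) = c := by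
    rw [map_smul, hfw, smul_eq_mul, mul_one]; ring
  have hunit : IsUnit (1 + f ((c - 1) • w)) := by
    rw [h1c]; exact isUnit_iff_ne_zero.mpr hc0
  set D := LinearEquiv.dilatransvection hunit with hD
  refine ⟨D.trans A, ?_, fun i => ?_⟩
  · rw [LinearEquiv.coe_trans, LinearMap.det_comp]
    have : LinearMap.det (D : V →ₗ[K] V) = c := by
      rw [hD]
      show LinearMap.det (LinearEquiv.dilatransvection hunit).toLinearMap = c
      rw [LinearEquiv.dilatransvection.coe_toLinearMap, LinearMap.transvection.det, h1c]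
    rw [this, hc, mul_inv_cancel₀ hdet]
  · rw [LinearEquiv.trans_apply]
    congr 1
    rw [hD, LinearEquiv.dilatransvection.apply]
    have : f (u i) = 0 := hfW (huW i)
    rw [this, zero_smul, add_zero]


/-- Let p be an odd prime, d ≥ 3, and G a group of affine permutations x ↦ Ax + b of V = F_p^d containing all translations and all maps x ↦ Ax with A of determinant 1. Then the 3-closure of G is the full affine group: a permutation σ of V agrees on every triple of points with some element of G if and only if σ is an affine map. -/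
theorem result (p : ℕ) [Fact p.Prime] (hp : p ≠ 2) (d : ℕ) (hd : 3 ≤ d) (G : Subgroup (Equiv.Perm (Fin d → ZMod p)))
    (haff : (G : Set (Equiv.Perm (Fin d → ZMod p))) ⊆ {τ : Equiv.Perm (Fin d → ZMod p) | ∃ (A : (Fin d → ZMod p) ≃ₗ[ZMod p] (Fin d → ZMod p)) (b : Fin d → ZMod p), ∀ x, τ x = A x + b})
    (htrans : ∀ b : Fin d → ZMod p, ∃ g ∈ G, ∀ x, g x = x + b)
    (hsl : ∀ A : (Fin d → ZMod p) ≃ₗ[ZMod p] (Fin d → ZMod p), LinearMap.det (A : (Fin d → ZMod p) →ₗ[ZMod p] (Fin d → ZMod p)) = 1 → ∃ g ∈ G, ∀ x, g x = A x)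
    (σ : Equiv.Perm (Fin d → ZMod p)) :
    (∀ t : Fin 3 → (Fin d → ZMod p), ∃ g ∈ G, ∀ i, σ (t i) = g (t i)) ↔ σ ∈ {τ : Equiv.Perm (Fin d → ZMod p) | ∃ (A : (Fin d → ZMod p) ≃ₗ[ZMod p] (Fin d → ZMod p)) (b : Fin d → ZMod p), ∀ x, τ x = A x + b} := by
  classical
  constructor
  · intro hσ
    have h2 : (2 : ZMod p) ≠ 0 := by
      intro h
      have h' : ((2 : ℕ) : ZMod p) = 0 := by exact_mod_cast h
      rw [ZMod.natCast_eq_zero_iff] at h'
      have := (Nat.prime_dvd_prime_iff_eq (Fact.out : p.Prime) Nat.prime_two).mp h'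
      exact hp this
    have h3 : ∀ t : Fin 3 → (Fin d → ZMod p), ∃ (A : (Fin d → ZMod p) →ₗ[ZMod p] (Fin d → ZMod p))
        (b : Fin d → ZMod p), ∀ i, σ (t i) = A (t i) + b := by
      intro t
      obtain ⟨g, hg, hgt⟩ := hσ t
      obtain ⟨A, b, hAb⟩ := haff hg
      exact ⟨A, b, fun i => by rw [hgt i, hAb]; rfl⟩
    obtain ⟨L, hL⟩ := Cfsg.Agent.Helper58.exists_linearMap_of_affine_on_triples h2 σ h3
    have hinj : Function.Injective L := by
      intro x y hxy
      apply σ.injective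
      rw [hL x, hL y, hxy]
    refine ⟨LinearEquiv.ofInjectiveEndo L hinj, σ 0, fun x => ?_⟩
    rw [hL x]
    rfl
  · rintro ⟨A, b, hAb⟩ t
    have hdim : 3 ≤ finrank (ZMod p) (Fin d → ZMod p) := by
      rw [Module.finrank_fin_fun]; exact hd
    obtain ⟨A', hdet, hA'⟩ := exists_det_one_agreeing hdim A (fun i : Fin 2 => t i.succ - t 0)
    obtain ⟨g₁, hg₁, hg₁'⟩ := hsl A' hdet
    obtain ⟨g₂, hg₂, hg₂'⟩ := htrans (σ (t 0) - A' (t 0))
    refine ⟨g₂ * g₁, G.mul_mem hg₂ hg₁, fun i => ?_⟩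
    rw [Equiv.Perm.mul_apply, hg₁', hg₂']
    have key : ∀ j : Fin 2, σ (t j.succ) = A' (t j.succ) + (σ (t 0) - A' (t 0)) := by
      intro j
      have h1 := hA' j
      simp only [map_sub] at h1
      rw [hAb, hAb]
      have h2 : A' (t j.succ) = A (t j.succ) - A (t 0) + A' (t 0) := by
        rw [← h1]; abel
      rw [h2]; abel
    refine Fin.cases ?_ (fun j => key j) i
    abel

end Cfsg.Agent.S3516
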