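import Cfsg.Statements.S3517
import Cfsg.Agent.Helper58.AffineClosure

set_option autoImplicit false
open Cfsg

namespace Cfsg.Agent.S3517

/-- For d ≥ 3, the 3-closure of the affine group AGL_d(2) acting on F_2^d is the full symmetric group: every permutation of F_2^d agrees on every ordered triple of points with some affine map (AGL_d(2) is 3-transitive). -/
theorem result (d : ℕ) (hd : 3 ≤ d) (σ : Equiv.Perm (Fin d → ZMod 2)) (t : Fin 3 → (Fin d → ZMod 2)) :
    ∃ (A : (Fin d → ZMod 2) ≃ₗ[ZMod 2] (Fin d → ZMod 2)) (b : Fin d → ZMod 2), ∀ i, σ (t i) = A (t i) + b := by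
  classical
  have hz : ∀ a : ZMod 2, a = 0 ∨ a = 1 := by decide
  have hz3 : ∀ x y z : ZMod 2, (x - z) + (y - z) = 0 ↔ x = y := by decide
  have hv3 : ∀ a b c : Fin d → ZMod 2, (a - c) + (b - c) = 0 ↔ a = b := by
    intro a b c
    constructor
    · intro h
      funext j
      exact (hz3 (a j) (b j) (c j)).mp (congrFun h j)
    · rintro rfl
      funext j
      exact (hz3 (a j) (a j) (c j)).mpr rfl
  have hrel : ∀ c : Fin 2 → ZMod 2,
      ∑ i, c i • (fun i : Fin 2 => t i.succ - t 0) i = 0 ↔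
      ∑ i, c i • (fun i : Fin 2 => σ (t i.succ) - σ (t 0)) i = 0 := by
    intro c
    rw [Fin.sum_univ_two, Fin.sum_univ_two]
    rcases hz (c 0) with h0 | h0 <;> rcases hz (c 1) with h1 | h1 <;>
      simp only [h0, h1, zero_smul, one_smul, add_zero, zero_add, sub_eq_zero, hv3,
        σ.injective.eq_iff]
  obtain ⟨A, hA⟩ := Cfsg.Agent.Helper58.exists_linearEquiv_of_same_relations
    (fun i : Fin 2 => t i.succ - t 0) (fun i : Fin 2 => σ (t i.succ) - σ (t 0)) hrel
  refine ⟨A, σ (t 0) - A (t 0), fun i => ?_⟩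
  have key : ∀ j : Fin 2, σ (t j.succ) = A (t j.succ) + (σ (t 0) - A (t 0)) := by
    intro j
    have := hA j
    simp only [map_sub] at this
    rw [sub_eq_iff_eq_add] at this
    rw [← sub_eq_iff_eq_add'] at this
    rw [← this]
    abel
  refine Fin.cases ?_ (fun j => key j) i
  abel

end Cfsg.Agent.S3517
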