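import Cfsg.Statements.S3518
import Cfsg.Agent.Helper58.PolyAffine

set_option autoImplicit false
open Cfsg

namespace Cfsg.Agent.S3518

/-- Closures of subgroups of the one-dimensional affine group. Let p be a prime and G a group of permutations of F_p lying in the affine group AGL₁(p) = {x ↦ ax + b, a ≠ 0} and containing all translations. (1) If G is a proper subgroup of AGL₁(p), then G is 2-closed: a permutation of F_p agreeing on every ordered pair of points with some element of G lies in G. (2) Every permutation of F_p agrees on every ordered pair with some element of AGL₁(p) (the 2-closure of AGL₁(p) is the symmetric group). (3) AGL₁(p) is 3-closed: a permutation agreeing on every ordered triple with some affine map is affine. -/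
theorem result (p : ℕ) [Fact p.Prime] (G : Subgroup (Equiv.Perm (ZMod p))) (hG : G ≤ Cfsg.affineGroup (ZMod p))
    (htrans : ∀ b : ZMod p, ∃ g ∈ G, ∀ x, g x = x + b) :
    (G ≠ Cfsg.affineGroup (ZMod p) → ∀ σ : Equiv.Perm (ZMod p), (∀ t : Fin 2 → ZMod p, ∃ g ∈ G, ∀ i, σ (t i) = g (t i)) → σ ∈ G) ∧
    (∀ σ : Equiv.Perm (ZMod p), (∀ t : Fin 2 → ZMod p, ∃ g ∈ Cfsg.affineGroup (ZMod p), ∀ i, σ (t i) = g (t i))) ∧
    (∀ σ : Equiv.Perm (ZMod p), (∀ t : Fin 3 → ZMod p, ∃ g ∈ Cfsg.affineGroup (ZMod p), ∀ i, σ (t i) = g (t i)) → σ ∈ Cfsg.affineGroup (ZMod p)) := by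
  classical
  have hp : p.Prime := Fact.out
  have hp2 : 2 ≤ p := hp.two_le
  refine ⟨?_, ?_, ?_⟩
  · intro hne σ hσ
    -- the group of multipliers
    set A : Subgroup (ZMod p)ˣ := G.comap (MulAction.toPermHom (ZMod p)ˣ (ZMod p)) with hA
    have hmemA : ∀ a : (ZMod p)ˣ, a ∈ A ↔ MulAction.toPermHom (ZMod p)ˣ (ZMod p) a ∈ G := by
      intro a
      rw [hA, Subgroup.mem_comap]
    have hperm : ∀ (a : (ZMod p)ˣ) (x : ZMod p),
        MulAction.toPermHom (ZMod p)ˣ (ZMod p) a x = (a : ZMod p) * x := by
      intro a x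
      rw [MulAction.toPermHom_apply, MulAction.toPerm_apply, Units.smul_def, smul_eq_mul]
    -- elements of `G` have their multiplier in `A`
    have hGA : ∀ g ∈ G, ∀ (a : (ZMod p)ˣ) (b : ZMod p), (∀ x, g x = (a : ZMod p) * x + b) → a ∈ A := by
      intro g hg a b hgab
      obtain ⟨τ, hτ, hτb⟩ := htrans (-b)
      rw [hmemA]
      have e : MulAction.toPermHom (ZMod p)ˣ (ZMod p) a = τ * g := by
        ext x
        rw [hperm, Equiv.Perm.coe_mul, Function.comp_apply, hτb, hgab]
        ring
      rw [e]
      exact G.mul_mem hτ hg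
    have hAtop : A ≠ ⊤ := by
      intro hAt
      apply hne
      apply le_antisymm hG
      rintro g ⟨a, b, hgab⟩
      obtain ⟨τ, hτ, hτb⟩ := htrans b
      have ha : a ∈ A := by rw [hAt]; exact Subgroup.mem_top a
      rw [hmemA] at ha
      have e : g = τ * MulAction.toPermHom (ZMod p)ˣ (ZMod p) a := by
        ext x
        rw [Equiv.Perm.coe_mul, Function.comp_apply, hτb, hperm, hgab]
      rw [e]
      exact G.mul_mem hτ ha
    set k := Nat.card A with hk
    have hkpos : 0 < k := Nat.card_pos
    have hcardU : Nat.card (ZMod p)ˣ = p - 1 := by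
      rw [Nat.card_eq_fintype_card, ZMod.card_units]
    have hkdvd : k ∣ p - 1 := by
      rw [← hcardU]
      exact Subgroup.card_subgroup_dvd_card A
    have hkne : k ≠ p - 1 := by
      intro h
      apply hAtop
      apply Subgroup.eq_top_of_card_eq
      rw [hcardU, ← h]
    have h2k : 2 * k ≤ p - 1 := by
      obtain ⟨m, hm⟩ := hkdvd
      have hm1 : m ≠ 1 := by
        intro h1
        rw [h1, mul_one] at hm
        exact hkne hm.symm
      have hm0 : m ≠ 0 := by
        intro h0
        rw [h0, mul_zero] at hm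
        omega
      have hm2 : 2 ≤ m := by omega
      calc 2 * k = k * 2 := mul_comm 2 k
        _ ≤ k * m := Nat.mul_le_mul_left k hm2
        _ = p - 1 := hm.symm
    have hpow : ∀ x y : ZMod p, (σ x - σ y) ^ k = (x - y) ^ k := by
      intro x y
      obtain ⟨g, hg, hgt⟩ := hσ ![x, y]
      have h0 := hgt 0
      have h1 := hgt 1
      simp only [Matrix.cons_val_zero, Matrix.cons_val_one] at h0 h1
      obtain ⟨a, b, hgab⟩ := hG hg
      have ha : a ∈ A := hGA g hg a b hgab
      have hak : a ^ k = 1 := by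
        have h3 := Subgroup.orderOf_dvd_natCard A ha
        exact orderOf_dvd_iff_pow_eq_one.mp h3
      have hak' : (a : ZMod p) ^ k = 1 := by
        rw [← Units.val_pow_eq_pow_val, hak, Units.val_one]
      rw [h0, h1, hgab, hgab]
      have e : (a : ZMod p) * x + b - ((a : ZMod p) * y + b) = (a : ZMod p) * (x - y) := by ring
      rw [e, mul_pow, hak', one_mul]
    obtain ⟨a', b', hab'⟩ := Cfsg.Agent.Helper58.affine_of_pow_sub_eq (fun x => σ x) σ.injective k hkpos h2k hpow
    obtain ⟨g, hg, hgt⟩ := hσ ![0, 1]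
    have h0 := hgt 0
    have h1 := hgt 1
    simp only [Matrix.cons_val_zero, Matrix.cons_val_one] at h0 h1
    obtain ⟨a, b, hgab⟩ := hG hg
    have e0 : b' = b := by
      have := hab' 0
      simp only [mul_zero, zero_add] at this
      rw [← this, h0, hgab, mul_zero, zero_add]
    have e1 : a' = (a : ZMod p) := by
      have := hab' 1
      simp only [mul_one] at this
      rw [h1, hgab, mul_one, e0] at this
      exact (add_right_cancel this).symm
    have e : σ = g := by
      ext x
      have := hab' x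
      rw [this, hgab, e0, e1]
    rw [e]
    exact hg
  · intro σ t
    by_cases h01 : t 0 = t 1
    · refine ⟨Equiv.addRight (σ (t 0) - t 0), ⟨1, σ (t 0) - t 0, fun x => by simp⟩, ?_⟩
      intro i
      fin_cases i
      · simp
      · simp [← h01]
    · have hne : t 1 - t 0 ≠ 0 := by
        intro h
        exact h01 (sub_eq_zero.mp h).symm
      have hσne : σ (t 1) - σ (t 0) ≠ 0 := by
        intro h
        exact h01 (σ.injective (sub_eq_zero.mp h)).symm
      set a : ZMod p := (σ (t 1) - σ (t 0)) / (t 1 - t 0) with ha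
      have ha0 : a ≠ 0 := div_ne_zero hσne hne
      refine ⟨(Equiv.mulLeft₀ a ha0).trans (Equiv.addRight (σ (t 0) - a * t 0)),
        ⟨Units.mk0 a ha0, σ (t 0) - a * t 0, fun x => by simp⟩, ?_⟩
      intro i
      have hmul : a * (t 1 - t 0) = σ (t 1) - σ (t 0) := by
        rw [ha, div_mul_cancel₀ _ hne]
      fin_cases i
      · simp
      · show σ (t 1) = a * t 1 + (σ (t 0) - a * t 0)
        have : a * t 1 + (σ (t 0) - a * t 0) = a * (t 1 - t 0) + σ (t 0) := by ring
        rw [this, hmul]
        ring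
  · intro σ hσ
    have h10 : σ 1 - σ 0 ≠ 0 := by
      intro h
      have := σ.injective (sub_eq_zero.mp h)
      exact one_ne_zero this
    refine ⟨Units.mk0 (σ 1 - σ 0) h10, σ 0, fun x => ?_⟩
    obtain ⟨g, ⟨a, b, hgab⟩, hgt⟩ := hσ ![0, 1, x]
    have h0 : σ 0 = g 0 := hgt 0
    have h1 : σ 1 = g 1 := hgt 1
    have h2 : σ x = g x := hgt 2
    rw [hgab] at h0 h1 h2
    rw [mul_zero, zero_add] at h0
    rw [mul_one] at h1
    rw [Units.val_mk0, h2, h1, h0]
    ring

end Cfsg.Agent.S3518
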