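import Cfsg.Statements.S3547
import Cfsg.Agent.Helper59.Derange

set_option autoImplicit false
set_option linter.style.haveILetI false
open Cfsg

namespace Cfsg.Agent.S3547

open MulAction

theorem card_fixedBy_prod {G Ω : Type*} [Group G] [MulAction G Ω] (g : G) :
    Nat.card (fixedBy (Ω × Ω) g) = Nat.card (fixedBy Ω g) ^ 2 := by
  have h : fixedBy (Ω × Ω) g = (fixedBy Ω g) ×ˢ (fixedBy Ω g) := by
    ext ⟨x, y⟩
    simp [mem_fixedBy, Prod.ext_iff]
  rw [Nat.card_coe_set_eq, h, Set.ncard_prod, Nat.card_coe_set_eq, sq]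

theorem rank_formula {G Ω : Type*} [Group G] [Finite G] [MulAction G Ω] [Finite Ω]
    [Nonempty Ω] (htrans : IsPretransitive G Ω) (D : Subgroup G)
    (hD : ∀ g : G, (∀ ω : Ω, g • ω ≠ ω) → g ∈ D) :
    Nat.card (orbitRel.Quotient D (Ω × Ω)) - 1 =
      (Nat.card (orbitRel.Quotient G (Ω × Ω)) - 1) * D.index := by
  classical
  haveI := Fintype.ofFinite G
  obtain ⟨-, hone⟩ := Cfsg.Agent.Helper59.key_of_derangements_mem htrans D hD
  have hG := Cfsg.Agent.Helper59.burnside_nat (G := G) (Ω := Ω × Ω)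
  have hDsum := Cfsg.Agent.Helper59.burnside_subgroup (Ω := Ω × Ω) D
  have hsplit := Finset.sum_filter_add_sum_filter_not (Finset.univ : Finset G) (· ∈ D)
    (fun g => Nat.card (fixedBy (Ω × Ω) g))
  have hrest : ∑ g ∈ Finset.univ.filter (fun g => ¬ g ∈ D), Nat.card (fixedBy (Ω × Ω) g) =
        (Finset.univ.filter (fun g : G => ¬ g ∈ D)).card := by
    rw [Finset.card_eq_sum_ones]
    apply Finset.sum_congr rfl
    intro g hg
    rw [Finset.mem_filter] at hg
    rw [card_fixedBy_prod, hone g hg.2, one_pow]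
  have hcard : (Finset.univ.filter (fun g : G => ¬ g ∈ D)).card + Nat.card D = Nat.card G := by
    have h1 := Finset.card_filter_add_card_filter_not (s := (Finset.univ : Finset G)) (· ∈ D)
    have h2 : (Finset.univ.filter (fun g : G => g ∈ D)).card = Nat.card D := by
      rw [Nat.card_eq_fintype_card, Fintype.card_subtype]
    rw [Finset.card_univ, h2] at h1
    rw [Nat.card_eq_fintype_card (α := G)]
    omega
  have hidx : D.index * Nat.card D = Nat.card G := D.index_mul_card
  have hDpos : 0 < Nat.card D := Nat.card_pos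
  have hrG : 1 ≤ Nat.card (orbitRel.Quotient G (Ω × Ω)) := by
    haveI : Nonempty (orbitRel.Quotient G (Ω × Ω)) :=
      ⟨Quotient.mk'' (Classical.arbitrary Ω, Classical.arbitrary Ω)⟩
    exact Nat.card_pos
  have hrD : 1 ≤ Nat.card (orbitRel.Quotient D (Ω × Ω)) := by
    haveI : Nonempty (orbitRel.Quotient D (Ω × Ω)) :=
      ⟨Quotient.mk'' (Classical.arbitrary Ω, Classical.arbitrary Ω)⟩
    exact Nat.card_pos
  set rG := Nat.card (orbitRel.Quotient G (Ω × Ω)) with hrGdef
  set rD := Nat.card (orbitRel.Quotient D (Ω × Ω)) with hrDdef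
  set t := D.index with ht
  set d := Nat.card D with hd
  set c := (Finset.univ.filter (fun g : G => ¬ g ∈ D)).card with hcdef
  -- rG * |G| = rD * |D| + c
  have hmain : rG * Nat.card G = rD * d + c := by
    rw [← hG, ← hsplit, hDsum, hrest]
  -- |G| = t * d, c = t * d - d
  have h3 : rG * (t * d) = rD * d + (t * d - d) := by
    rw [hidx, hmain]; omega
  have htpos : 0 < t := Nat.pos_of_ne_zero Subgroup.index_ne_zero_of_finite
  clear hrGdef hrDdef ht hd hcdef hG hDsum hrest hsplit hcard hmain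
  clear_value rG rD t d c
  obtain ⟨rG', rfl⟩ : ∃ k, rG = k + 1 := ⟨rG - 1, by omega⟩
  obtain ⟨rD', rfl⟩ : ∃ k, rD = k + 1 := ⟨rD - 1, by omega⟩
  have hle : d ≤ t * d := Nat.le_mul_of_pos_left d htpos
  have h4 : (rG' * t) * d = rD' * d := by
    have e1 : (rG' + 1) * (t * d) = rG' * t * d + t * d := by ring
    have e2 : (rD' + 1) * d = rD' * d + d := by ring
    rw [e1, e2] at h3
    clear e1 e2
    generalize rG' * t * d = A at h3 ⊢
    generalize rD' * d = B at h3 ⊢
    generalize t * d = C at h3 hle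
    omega
  have h5 : rG' * t = rD' := Nat.eq_of_mul_eq_mul_right hDpos h4
  simp only [Nat.add_sub_cancel]
  exact h5.symm

/-- Let G act faithfully and transitively on a finite set Ω, let D be the subgroup generated by the derangements, and let r_G and r_D be the numbers of orbits of G and of D on ordered pairs of points (the permutation ranks). Then r_D − 1 = (r_G − 1)·[G : D]. -/
theorem result {G Ω : Type*} [Group G] [Finite G] [MulAction G Ω] [FaithfulSMul G Ω] [Finite Ω]
    (htrans : MulAction.IsPretransitive G Ω) :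
    Nat.card (MulAction.orbitRel.Quotient ↥(Subgroup.closure {g : G | ∀ ω : Ω, g • ω ≠ ω}) (Ω × Ω)) - 1 =
      (Nat.card (MulAction.orbitRel.Quotient G (Ω × Ω)) - 1) * (Subgroup.closure {g : G | ∀ ω : Ω, g • ω ≠ ω}).index := by
  rcases isEmpty_or_nonempty Ω with h | h
  · haveI : IsEmpty (orbitRel.Quotient ↥(Subgroup.closure {g : G | ∀ ω : Ω, g • ω ≠ ω}) (Ω × Ω)) :=
      ⟨fun q => Quotient.inductionOn' q (fun x => isEmptyElim x.1)⟩
    haveI : IsEmpty (orbitRel.Quotient G (Ω × Ω)) :=
      ⟨fun q => Quotient.inductionOn' q (fun x => isEmptyElim x.1)⟩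
    simp
  · exact rank_formula htrans _ (fun g hg => Subgroup.subset_closure hg)

end Cfsg.Agent.S3547
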