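import Cfsg.Statements.S3548
import Cfsg.Agent.Helper59.Derange2

set_option autoImplicit false
set_option linter.style.haveILetI false
open Cfsg

namespace Cfsg.Agent.S3548

open MulAction

theorem closure_normal_of_conj {G : Type*} [Group G] (S : Set G)
    (hS : ∀ g ∈ S, ∀ h : G, h * g * h⁻¹ ∈ S) : (Subgroup.closure S).Normal := by
  constructor
  intro n hn g
  induction hn using Subgroup.closure_induction with
  | mem x hx => exact Subgroup.subset_closure (hS x hx g)
  | one => simp
  | mul x y _ _ hx hy =>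
    have : g * (x * y) * g⁻¹ = (g * x * g⁻¹) * (g * y * g⁻¹) := by group
    rw [this]; exact Subgroup.mul_mem _ hx hy
  | inv x _ hx =>
    have : g * x⁻¹ * g⁻¹ = (g * x * g⁻¹)⁻¹ := by group
    rw [this]; exact Subgroup.inv_mem _ hx

theorem derangements_conj {G Ω : Type*} [Group G] [MulAction G Ω] :
    ∀ g ∈ {g : G | ∀ ω : Ω, g • ω ≠ ω}, ∀ h : G, h * g * h⁻¹ ∈ {g : G | ∀ ω : Ω, g • ω ≠ ω} := by
  intro g hg h ω hω
  apply hg (h⁻¹ • ω)
  rw [mul_smul, mul_smul] at hω
  have := congrArg (fun x => h⁻¹ • x) hω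
  simpa using this

/-- If `[G : D] = n - 1` then `D ⊓ G_α = ⊥` and `G_α` is transitive on the other points. -/
theorem regular_of_index_eq {G Ω : Type*} [Group G] [Finite G] [MulAction G Ω] [FaithfulSMul G Ω]
    [Finite Ω] (htrans : IsPretransitive G Ω) (hΩ : 2 ≤ Nat.card Ω) (D : Subgroup G)
    (hD : ∀ g : G, (∀ ω : Ω, g • ω ≠ ω) → g ∈ D) (hidx : D.index = Nat.card Ω - 1) (α : Ω) :
    D ⊓ stabilizer G α = ⊥ ∧
      ∀ β γ : Ω, β ≠ α → γ ≠ α → ∃ g ∈ stabilizer G α, g • β = γ := by
  have hfact : ∀ β : Ω, β ≠ α →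
      Nat.card (orbit (D ⊓ stabilizer G α : Subgroup G) β) = 1 ∧
      orbit (stabilizer G α) β = Set.univ \ {α} := by
    intro β hβ
    have h1 := Cfsg.Agent.Helper59.card_orbit_stabilizer_eq htrans D hD (Ne.symm hβ)
    have hsub : orbit (stabilizer G α) β ⊆ Set.univ \ {α} := by
      rintro x ⟨g, rfl⟩
      refine ⟨Set.mem_univ _, ?_⟩
      intro hx
      apply hβ
      have hx' : (g : G) • β = α := hx
      have hg : (g : G) • α = α := g.2
      exact smul_left_cancel (g : G) (hx'.trans hg.symm)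
    have hcard : (Set.univ \ {α} : Set Ω).ncard = Nat.card Ω - 1 := by
      rw [Set.ncard_sdiff_singleton_of_mem (Set.mem_univ α), Set.ncard_univ]
    have hle : (orbit (stabilizer G α) β).ncard ≤ Nat.card Ω - 1 := by
      rw [← hcard]
      exact Set.ncard_le_ncard hsub (Set.toFinite _)
    rw [← Nat.card_coe_set_eq, h1, hidx] at hle
    have hpos : 0 < Nat.card (orbit (D ⊓ stabilizer G α : Subgroup G) β) := by
      haveI : Nonempty (orbit (D ⊓ stabilizer G α : Subgroup G) β) := ⟨⟨β, mem_orbit_self β⟩⟩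
      exact Nat.card_pos
    have hone : Nat.card (orbit (D ⊓ stabilizer G α : Subgroup G) β) = 1 := by
      by_contra hne
      have h2 : 2 ≤ Nat.card (orbit (D ⊓ stabilizer G α : Subgroup G) β) := by omega
      have : (Nat.card Ω - 1) * 2 ≤ (Nat.card Ω - 1) * Nat.card (orbit (D ⊓ stabilizer G α : Subgroup G) β) :=
        Nat.mul_le_mul_left _ h2
      omega
    refine ⟨hone, ?_⟩
    apply Set.eq_of_subset_of_ncard_le hsub _ (Set.toFinite _)
    rw [hcard, ← Nat.card_coe_set_eq, h1, hidx, hone, mul_one]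
  constructor
  · rw [eq_bot_iff]
    intro g hg
    rw [Subgroup.mem_bot]
    apply FaithfulSMul.eq_of_smul_eq_smul (α := Ω)
    intro β
    rw [one_smul]
    by_cases hβ : β = α
    · rw [hβ]; exact (Subgroup.mem_inf.mp hg).2
    · have h1 := (hfact β hβ).1
      rw [Nat.card_eq_one_iff_unique] at h1
      obtain ⟨hs, -⟩ := h1
      have := hs.elim (⟨g • β, ⟨⟨g, hg⟩, rfl⟩⟩ : orbit (D ⊓ stabilizer G α : Subgroup G) β)
        ⟨β, mem_orbit_self β⟩
      exact congrArg Subtype.val this
  · intro β γ hβ hγ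
    have h1 := (hfact β hβ).2
    have : γ ∈ orbit (stabilizer G α) β := by
      rw [h1]; exact ⟨Set.mem_univ _, hγ⟩
    obtain ⟨g, hg⟩ := this
    exact ⟨g.1, g.2, hg⟩

theorem primePow_of_regular {G Ω : Type*} [Group G] [Finite G] [MulAction G Ω] [Finite Ω]
    (hΩ : 2 ≤ Nat.card Ω) (D : Subgroup G) (hDn : D.Normal) (hDt : IsPretransitive D Ω) (α : Ω)
    (hreg : D ⊓ stabilizer G α = ⊥)
    (h2 : ∀ β γ : Ω, β ≠ α → γ ≠ α → ∃ g ∈ stabilizer G α, g • β = γ) :
    IsPrimePow (Nat.card Ω) := by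
  have hcardD : Nat.card D = Nat.card Ω := by
    have h := Cfsg.Agent.Helper59.card_orbit_subgroup D α
    rw [hreg, Subgroup.card_bot, mul_one, orbit_eq_univ] at h
    rw [← h]
    exact Nat.card_congr (Equiv.Set.univ Ω)
  have hmove : ∀ d ∈ D, d ≠ 1 → d • α ≠ α := by
    intro d hd hd1 hfix
    apply hd1
    have : d ∈ D ⊓ stabilizer G α := ⟨hd, hfix⟩
    rw [hreg] at this
    exact this
  have hconj : ∀ d ∈ D, d ≠ 1 → ∀ d' ∈ D, d' ≠ 1 → orderOf d = orderOf d' := by
    intro d hd hd1 d' hd' hd'1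
    obtain ⟨h, hh, hhd⟩ := h2 (d • α) (d' • α) (hmove d hd hd1) (hmove d' hd' hd'1)
    have hmem : d'⁻¹ * (h * d * h⁻¹) ∈ D ⊓ stabilizer G α := by
      refine ⟨D.mul_mem (D.inv_mem hd') (hDn.conj_mem d hd h), ?_⟩
      rw [mem_stabilizer_iff] at hh
      show (d'⁻¹ * (h * d * h⁻¹)) • α = α
      have h3 : h⁻¹ • α = α := by
        rw [inv_smul_eq_iff, hh]
      rw [mul_smul, mul_smul, mul_smul, h3, hhd, inv_smul_smul]
    rw [hreg, Subgroup.mem_bot] at hmem
    have heq : h * d * h⁻¹ = d' := by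
      have := congrArg (fun x => d' * x) hmem
      simpa using this
    rw [← heq]
    have := orderOf_injective (MulAut.conj h).toMonoidHom (MulAut.conj h).injective d
    simpa [MulAut.conj_apply] using this.symm
  obtain ⟨p, hp, hpd⟩ := Nat.exists_prime_and_dvd (n := Nat.card D) (by omega)
  haveI : Fact p.Prime := ⟨hp⟩
  obtain ⟨x, hx⟩ := exists_prime_orderOf_dvd_card' (G := D) p hpd
  have hx1 : (x : G) ≠ 1 := by
    intro h
    have : x = 1 := Subtype.ext h
    rw [this, orderOf_one] at hx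
    exact hp.one_lt.ne hx
  have hxo : orderOf (x : G) = p := by rw [Subgroup.orderOf_coe, hx]
  have hall : ∀ d ∈ D, d ≠ 1 → orderOf d = p := by
    intro d hd hd1
    rw [← hxo]
    exact hconj d hd hd1 x x.2 hx1
  have hpg : IsPGroup p D := by
    intro g
    refine ⟨1, ?_⟩
    by_cases hg : (g : G) = 1
    · have : g = 1 := Subtype.ext hg
      rw [this, one_pow]
    · apply Subtype.ext
      rw [Subgroup.coe_pow, pow_one, Subgroup.coe_one, ← hall g g.2 hg]
      exact pow_orderOf_eq_one _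
  obtain ⟨m, hm⟩ := IsPGroup.iff_card.mp hpg
  rw [isPrimePow_nat_iff]
  refine ⟨p, m, hp, ?_, ?_⟩
  · rcases Nat.eq_zero_or_pos m with h0 | h0
    · rw [h0, pow_zero] at hm
      omega
    · exact h0
  · rw [← hcardD, hm]

/-- Let G act faithfully and transitively on a finite set with n ≥ 2 points and let D be the subgroup generated by the derangements. Then the index of D in G divides n − 1, and if it equals n − 1 then n is a prime power. -/
theorem result {G Ω : Type*} [Group G] [Finite G] [MulAction G Ω] [FaithfulSMul G Ω] [Finite Ω]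
    (htrans : MulAction.IsPretransitive G Ω) (hΩ : 2 ≤ Nat.card Ω) :
    (Subgroup.closure {g : G | ∀ ω : Ω, g • ω ≠ ω}).index ∣ Nat.card Ω - 1 ∧
    ((Subgroup.closure {g : G | ∀ ω : Ω, g • ω ≠ ω}).index = Nat.card Ω - 1 → IsPrimePow (Nat.card Ω)) := by
  classical
  have hne : Nonempty Ω := by
    by_contra h
    rw [not_nonempty_iff] at h
    rw [Nat.card_of_isEmpty] at hΩ
    omega
  obtain ⟨α⟩ := hne
  haveI : Nonempty Ω := ⟨α⟩
  have hD : ∀ g : G, (∀ ω : Ω, g • ω ≠ ω) → g ∈ Subgroup.closure {g : G | ∀ ω : Ω, g • ω ≠ ω} :=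
    fun g hg => Subgroup.subset_closure hg
  constructor
  · haveI := Fintype.ofFinite Ω
    have h := Cfsg.Agent.Helper59.index_dvd_card_of_invariant htrans _ hD α
      (Finset.univ.erase α) (Finset.notMem_erase α _) (by
        intro g hg x hx
        rw [Finset.mem_erase] at hx ⊢
        refine ⟨?_, Finset.mem_univ _⟩
        intro hgx
        apply hx.1
        rw [mem_stabilizer_iff] at hg
        exact smul_left_cancel g (hgx.trans hg.symm))
    rw [Finset.card_erase_of_mem (Finset.mem_univ α), Finset.card_univ,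
      ← Nat.card_eq_fintype_card] at h
    exact h
  · intro hidx
    obtain ⟨hreg, h2⟩ := regular_of_index_eq htrans hΩ _ hD hidx α
    exact primePow_of_regular hΩ _ (closure_normal_of_conj _ derangements_conj)
      (Cfsg.Agent.Helper59.key_of_derangements_mem htrans _ hD).1 α hreg h2

end Cfsg.Agent.S3548
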