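import Cfsg.Statements.S3549
import Cfsg.Agent.Helper59.Derange2

set_option autoImplicit false
set_option linter.style.haveILetI false
open Cfsg

namespace Cfsg.Agent.S3549

open MulAction
open scoped Pointwise

theorem arith {t k m : ℕ} (hk : 2 ≤ k) (hm : 2 ≤ m) (h1 : t ∣ k - 1) (h2 : t ∣ k * m - 1) :
    (t + 1) ^ 2 ≤ k * m := by
  have htk : t ≤ k - 1 := Nat.le_of_dvd (by omega) h1
  have h3 : t ∣ (k - 1) * m := Dvd.dvd.mul_right h1 m
  have h4 : k * m - 1 = (k - 1) * m + (m - 1) := by
    obtain ⟨k', rfl⟩ : ∃ k', k = k' + 1 := ⟨k - 1, by omega⟩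
    simp only [Nat.add_sub_cancel]
    have : (k' + 1) * m = k' * m + m := by ring
    omega
  rw [h4] at h2
  have h5 : t ∣ m - 1 := (Nat.dvd_add_right h3).mp h2
  have htm : t ≤ m - 1 := Nat.le_of_dvd (by omega) h5
  have h6 : t + 1 ≤ k := by omega
  have h7 : t + 1 ≤ m := by omega
  calc (t + 1) ^ 2 = (t + 1) * (t + 1) := sq _
    _ ≤ k * m := Nat.mul_le_mul h6 h7

/-- Let G act faithfully, transitively but imprimitively on a finite set with n points, and let D be the subgroup generated by the derangements. Then the index of D in G is at most √n − 1. -/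
theorem result {G Ω : Type*} [Group G] [Finite G] [MulAction G Ω] [FaithfulSMul G Ω] [Finite Ω]
    (htrans : MulAction.IsPretransitive G Ω) (himp : ¬ MulAction.IsPreprimitive G Ω) :
    ((Subgroup.closure {g : G | ∀ ω : Ω, g • ω ≠ ω}).index : ℝ) ≤ Real.sqrt (Nat.card Ω) - 1 := by
  classical
  haveI := Fintype.ofFinite Ω
  have hD : ∀ g : G, (∀ ω : Ω, g • ω ≠ ω) → g ∈ Subgroup.closure {g : G | ∀ ω : Ω, g • ω ≠ ω} :=
    fun g hg => Subgroup.subset_closure hg
  -- a nontrivial block
  have hB : ∃ B : Set Ω, IsBlock G B ∧ ¬ IsTrivialBlock B := by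
    by_contra h
    apply himp
    refine ⟨fun {B} hB => ?_⟩
    by_contra hB'
    exact h ⟨B, hB, hB'⟩
  obtain ⟨B, hB, hBnt⟩ := hB
  rw [IsTrivialBlock, not_or] at hBnt
  obtain ⟨hBns, hBnu⟩ := hBnt
  have hBne : B.Nonempty := by
    by_contra h
    rw [Set.not_nonempty_iff_eq_empty] at h
    exact hBns (h ▸ Set.subsingleton_empty)
  obtain ⟨α, hα⟩ := hBne
  have hdvd : B.ncard ∣ Nat.card Ω := hB.ncard_dvd_card ⟨α, hα⟩
  have hk2 : 2 ≤ B.ncard := by
    by_contra h
    apply hBns
    exact (Set.ncard_le_one_iff_subsingleton).mp (by omega)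
  have hklt : B.ncard < Nat.card Ω := by
    rw [← Set.ncard_univ]
    apply Set.ncard_lt_ncard _ (Set.toFinite _)
    exact Set.ssubset_univ_iff.mpr hBnu
  obtain ⟨m, hm⟩ := hdvd
  have hm2 : 2 ≤ m := by
    by_contra h
    have : m = 0 ∨ m = 1 := by omega
    rcases this with rfl | rfl <;> omega
  -- t ∣ n - 1
  have h1 := Cfsg.Agent.Helper59.index_dvd_card_of_invariant htrans _ hD α
      (Finset.univ.erase α) (Finset.notMem_erase α _) (by
        intro g hg x hx
        rw [Finset.mem_erase] at hx ⊢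
        refine ⟨?_, Finset.mem_univ _⟩
        intro hgx
        apply hx.1
        rw [mem_stabilizer_iff] at hg
        exact smul_left_cancel g (hgx.trans hg.symm))
  rw [Finset.card_erase_of_mem (Finset.mem_univ α), Finset.card_univ,
    ← Nat.card_eq_fintype_card] at h1
  -- t ∣ k - 1
  have h2 := Cfsg.Agent.Helper59.index_dvd_card_of_invariant htrans _ hD α
      (B.toFinset.erase α) (Finset.notMem_erase α _) (by
        intro g hg x hx
        rw [Finset.mem_erase, Set.mem_toFinset] at hx ⊢
        rw [mem_stabilizer_iff] at hg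
        refine ⟨?_, ?_⟩
        · intro hgx
          apply hx.1
          exact smul_left_cancel g (hgx.trans hg.symm)
        · have hgB : g • B = B := hB.smul_eq_of_mem hα (by rw [hg]; exact hα)
          rw [← hgB]
          exact Set.smul_mem_smul_set hx.2)
  rw [Finset.card_erase_of_mem (by rw [Set.mem_toFinset]; exact hα), ← Set.ncard_eq_toFinset_card'] at h2
  rw [hm] at h1
  have h3 := arith hk2 hm2 h2 h1
  rw [← hm] at h3
  rw [le_sub_iff_add_le]
  rw [Real.le_sqrt (by positivity) (by positivity)]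
  exact_mod_cast h3

end Cfsg.Agent.S3549
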