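import Cfsg.Statements.S3560

set_option autoImplicit false
set_option linter.style.haveILetI false
set_option linter.unusedSectionVars false
open Cfsg

namespace Cfsg.Agent.S3560

open MulAction
open scoped Pointwise

/-- Transfer a permutation group configuration on a finite type `X` to `Fin n`. -/
theorem transfer_to_fin {X : Type*} [Finite X] {K : Type*} [Group K]
    (G₀ R₀ : Subgroup (Equiv.Perm X))
    (hRG : R₀ ≤ G₀) (hK : Nonempty (R₀ ≃* K)) (htr : IsPretransitive R₀ X)
    (hst : ∀ a : X, stabilizer R₀ a = ⊥) (hprim : IsPreprimitive G₀ X)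
    (h2 : ¬ IsMultiplyPretransitive G₀ X 2) :
    ∃ (n : ℕ) (G R : Subgroup (Equiv.Perm (Fin n))), R ≤ G ∧ Nonempty (↥R ≃* K) ∧
      MulAction.IsPretransitive ↥R (Fin n) ∧ (∀ a : Fin n, MulAction.stabilizer ↥R a = ⊥) ∧
      MulAction.IsPreprimitive ↥G (Fin n) ∧ ¬ MulAction.IsMultiplyPretransitive ↥G (Fin n) 2 := by
  let φ : X ≃ Fin (Nat.card X) := Finite.equivFin X
  let ψ : Equiv.Perm X ≃* Equiv.Perm (Fin (Nat.card X)) := φ.permCongrHom
  have hψ : ∀ (σ : Equiv.Perm X) (x : X), ψ σ (φ x) = φ (σ x) := by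
    intro σ x
    simp [ψ, Equiv.permCongrHom]
  have hψ' : ∀ (σ : Equiv.Perm X) (a : Fin (Nat.card X)), ψ σ a = φ (σ (φ.symm a)) := by
    intro σ a
    have := hψ σ (φ.symm a)
    rwa [Equiv.apply_symm_apply] at this
  refine ⟨Nat.card X, G₀.map ψ.toMonoidHom, R₀.map ψ.toMonoidHom, Subgroup.map_mono hRG,
    ?_, ?_, ?_, ?_, ?_⟩
  · obtain ⟨f⟩ := hK
    exact ⟨(R₀.equivMapOfInjective ψ.toMonoidHom ψ.injective).symm.trans f⟩
  · constructor
    intro a b
    obtain ⟨r, hr⟩ := htr.exists_smul_eq (φ.symm a) (φ.symm b)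
    refine ⟨⟨ψ r.1, Subgroup.mem_map_of_mem _ r.2⟩, ?_⟩
    show ψ r.1 a = b
    have hr' : r.1 (φ.symm a) = φ.symm b := hr
    rw [hψ', hr', Equiv.apply_symm_apply]
  · intro a
    rw [eq_bot_iff]
    rintro ⟨r, hr⟩ hra
    obtain ⟨r₀, hr₀, rfl⟩ := Subgroup.mem_map.mp hr
    have h1 : ψ r₀ a = a := hra
    have h2 : r₀ (φ.symm a) = φ.symm a := by
      rw [hψ'] at h1
      have := congrArg φ.symm h1
      rwa [Equiv.symm_apply_apply] at this
    have h3 : (⟨r₀, hr₀⟩ : R₀) ∈ stabilizer R₀ (φ.symm a) := h2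
    rw [hst, Subgroup.mem_bot] at h3
    have h4 : r₀ = 1 := congrArg Subtype.val h3
    rw [Subgroup.mem_bot]
    apply Subtype.ext
    show ψ.toMonoidHom r₀ = 1
    rw [h4, map_one]
  · haveI := hprim
    let φ₀ : G₀ → G₀.map ψ.toMonoidHom := fun g => ⟨ψ g.1, Subgroup.mem_map_of_mem _ g.2⟩
    let f : X →ₑ[φ₀] Fin (Nat.card X) :=
      { toFun := φ, map_smul' := fun g x => (hψ g.1 x).symm }
    exact IsPreprimitive.of_surjective (f := f) φ.surjective
  · intro h
    apply h2
    rw [is_two_pretransitive_iff] at h ⊢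
    intro a b c d hab hcd
    obtain ⟨g, hg1, hg2⟩ := h (a := φ a) (b := φ b) (c := φ c) (d := φ d)
      (φ.injective.ne hab) (φ.injective.ne hcd)
    obtain ⟨g₀, hg₀, hgeq⟩ := Subgroup.mem_map.mp g.2
    have hg1' : ψ g₀ (φ a) = φ c := by
      have : (g : Equiv.Perm (Fin (Nat.card X))) (φ a) = φ c := hg1
      rw [← hgeq] at this
      exact this
    have hg2' : ψ g₀ (φ b) = φ d := by
      have : (g : Equiv.Perm (Fin (Nat.card X))) (φ b) = φ d := hg2
      rw [← hgeq] at this
      exact this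
    rw [hψ] at hg1' hg2'
    exact ⟨⟨g₀, hg₀⟩, φ.injective hg1', φ.injective hg2'⟩

section hamming

variable {ι : Type*} [Fintype ι] [DecidableEq ι] {m : ℕ}

/-- The group of Hamming isometries of `ι → Fin m`. -/
def isoGroup (ι : Type*) [Fintype ι] (m : ℕ) : Subgroup (Equiv.Perm (ι → Fin m)) where
  carrier := {σ | ∀ x y, hammingDist (σ x) (σ y) = hammingDist x y}
  mul_mem' := fun {a b} ha hb x y => by
    rw [Equiv.Perm.mul_apply, Equiv.Perm.mul_apply, ha, hb]
  one_mem' := fun x y => rfl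
  inv_mem' := fun {a} ha x y => by
    have := ha (a⁻¹ x) (a⁻¹ y)
    simp only [Equiv.Perm.coe_inv, Equiv.apply_symm_apply] at this
    exact this.symm

theorem mem_isoGroup (σ : Equiv.Perm (ι → Fin m)) :
    σ ∈ isoGroup ι m ↔ ∀ x y, hammingDist (σ x) (σ y) = hammingDist x y := Iff.rfl

/-- Coordinatewise permutation. -/
def cw (τ : ι → Equiv.Perm (Fin m)) : Equiv.Perm (ι → Fin m) where
  toFun x := fun i => τ i (x i)
  invFun x := fun i => (τ i).symm (x i)
  left_inv x := by funext i; simp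
  right_inv x := by funext i; simp

/-- Permutation of coordinates. -/
def cp (π : Equiv.Perm ι) : Equiv.Perm (ι → Fin m) where
  toFun x := fun i => x (π i)
  invFun x := fun i => x (π.symm i)
  left_inv x := by funext i; simp
  right_inv x := by funext i; simp

theorem cw_apply (τ : ι → Equiv.Perm (Fin m)) (x : ι → Fin m) (i : ι) :
    cw τ x i = τ i (x i) := rfl

theorem cp_apply (π : Equiv.Perm ι) (x : ι → Fin m) (i : ι) :
    cp π x i = x (π i) := rfl

theorem cw_mem (τ : ι → Equiv.Perm (Fin m)) : cw τ ∈ isoGroup ι m := by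
  intro x y
  exact hammingDist_comp (fun i => τ i) (fun i => (τ i).injective)

theorem cp_mem (π : Equiv.Perm ι) : cp (m := m) π ∈ isoGroup ι m := by
  intro x y
  show hammingDist (fun i => x (π i)) (fun i => y (π i)) = hammingDist x y
  unfold hammingDist
  apply Finset.card_bij (fun i _ => π i)
  · intro i hi
    simpa using hi
  · intro i _ j _ h
    exact π.injective h
  · intro j hj
    refine ⟨π.symm j, ?_, by simp⟩
    simpa using hj

theorem exists_two_perm {α : Type*} [DecidableEq α] {a b a' b' : α} (hab : a ≠ b)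
    (hab' : a' ≠ b') : ∃ τ : Equiv.Perm α, τ a = a' ∧ τ b = b' := by
  refine ⟨Equiv.swap b' (Equiv.swap a a' b) * Equiv.swap a a', ?_, ?_⟩
  · rw [Equiv.Perm.mul_apply, Equiv.swap_apply_left]
    apply Equiv.swap_apply_of_ne_of_ne hab'
    intro h
    have : Equiv.swap a a' a = Equiv.swap a a' b := by rw [Equiv.swap_apply_left]; exact h
    exact hab ((Equiv.swap a a').injective this)
  · rw [Equiv.Perm.mul_apply, Equiv.swap_apply_right]

theorem exists_third (hm : 3 ≤ m) (a b : Fin m) : ∃ c : Fin m, c ≠ a ∧ c ≠ b := by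
  by_contra h
  have h' : ∀ c : Fin m, c ≠ a → c = b := by
    intro c hc
    by_contra hcb
    exact h ⟨c, hc, hcb⟩
  have h1 : (Finset.univ : Finset (Fin m)) ⊆ {a, b} := by
    intro c _
    by_cases hc : c = a
    · simp [hc]
    · simp [h' c hc]
  have h2 := Finset.card_le_card h1
  rw [Finset.card_univ, Fintype.card_fin] at h2
  have h3 := Finset.card_le_two (a := a) (b := b)
  omega

theorem exists_iso_update (u w : ι → Fin m) (i j : ι) (c c' : Fin m) (hc : c ≠ u i)
    (hc' : c' ≠ w j) :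
    ∃ g ∈ isoGroup ι m, g u = w ∧ g (Function.update u i c) = Function.update w j c' := by
  obtain ⟨τ₀, hτ1, hτ2⟩ := exists_two_perm (a := u i) (b := c) (a' := w j) (b' := c')
    hc.symm hc'.symm
  let σ : Equiv.Perm ι := Equiv.swap i j
  let τ : ι → Equiv.Perm (Fin m) := fun l => if l = j then τ₀ else Equiv.swap (u (σ l)) (w l)
  refine ⟨cw τ * cp σ, (isoGroup ι m).mul_mem (cw_mem τ) (cp_mem σ), ?_, ?_⟩
  · funext l
    rw [Equiv.Perm.mul_apply, cw_apply, cp_apply]
    by_cases hl : l = j
    · subst hl; simp [τ, σ, hτ1]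
    · simp [τ, hl]
  · funext l
    rw [Equiv.Perm.mul_apply, cw_apply, cp_apply]
    by_cases hl : l = j
    · subst hl; simp [τ, σ, hτ2]
    · have h1 : σ l ≠ i := by
        intro h
        apply hl
        have h2 := congrArg σ h
        simpa [σ] using h2
      simp [τ, hl, Function.update_of_ne h1]

theorem block_univ (hm : 3 ≤ m) (B : Set (ι → Fin m)) (hB : IsBlock (isoGroup ι m) B)
    (hBns : ¬ B.Subsingleton) : B = Set.univ := by
  have key : ∀ g ∈ isoGroup ι m, ∀ a ∈ B, g a ∈ B → ∀ z ∈ B, g z ∈ B := by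
    intro g hg a ha hga z hz
    have h1 : (⟨g, hg⟩ : isoGroup ι m) • B = B := hB.smul_eq_of_mem ha hga
    have h2 : (⟨g, hg⟩ : isoGroup ι m) • z ∈ (⟨g, hg⟩ : isoGroup ι m) • B :=
      Set.smul_mem_smul_set hz
    rw [h1] at h2
    exact h2
  rw [Set.not_subsingleton_iff] at hBns
  obtain ⟨x, hx, y, hy, hxy⟩ := hBns
  obtain ⟨i, hi⟩ := Function.ne_iff.mp hxy
  obtain ⟨c, hcx, hcy⟩ := exists_third hm (x i) (y i)
  -- y and update y i c are both in B
  have hyc : Function.update y i c ∈ B := by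
    let τ : ι → Equiv.Perm (Fin m) := fun l => if l = i then Equiv.swap (y i) c else 1
    have h1 : cw τ x = x := by
      funext l
      rw [cw_apply]
      by_cases hl : l = i
      · subst hl
        simp only [τ, if_true]
        exact Equiv.swap_apply_of_ne_of_ne hi hcx.symm
      · simp [τ, hl]
    have h2 : cw τ y = Function.update y i c := by
      funext l
      rw [cw_apply]
      by_cases hl : l = i
      · subst hl
        simp [τ]
      · simp [τ, hl]
    rw [← h2]
    exact key (cw τ) (cw_mem τ) x hx (by rw [h1]; exact hx) y hy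
  have claim : ∀ w ∈ B, ∀ (j : ι) (c' : Fin m), Function.update w j c' ∈ B := by
    intro w hw j c'
    by_cases hc' : c' = w j
    · rw [hc', Function.update_eq_self]; exact hw
    · obtain ⟨g, hg, hg1, hg2⟩ := exists_iso_update y w i j c c' hcy hc'
      rw [← hg2]
      exact key g hg y hy (by rw [hg1]; exact hw) _ hyc
  rw [Set.eq_univ_iff_forall]
  intro z
  have hpw : ∀ s : Finset ι, s.piecewise z y ∈ B := by
    intro s
    induction s using Finset.induction_on with
    | empty => rw [Finset.piecewise_empty]; exact hy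
    | insert a s _ ih =>
      rw [Finset.piecewise_insert]
      exact claim _ ih a (z a)
  have := hpw Finset.univ
  rwa [Finset.piecewise_univ] at this

theorem isoGroup_preprimitive (hm : 3 ≤ m) : IsPreprimitive (isoGroup ι m) (ι → Fin m) := by
  haveI : IsPretransitive (isoGroup ι m) (ι → Fin m) := by
    constructor
    intro x y
    refine ⟨⟨cw (fun l => Equiv.swap (x l) (y l)), cw_mem _⟩, ?_⟩
    funext l
    show cw (fun l => Equiv.swap (x l) (y l)) x l = y l
    rw [cw_apply, Equiv.swap_apply_left]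
  refine ⟨fun {B} hB => ?_⟩
  by_cases h : B.Subsingleton
  · exact Or.inl h
  · exact Or.inr (block_univ hm B hB h)

theorem isoGroup_not_two (hr : 2 ≤ Fintype.card ι) (hm : 3 ≤ m) :
    ¬ IsMultiplyPretransitive (isoGroup ι m) (ι → Fin m) 2 := by
  intro h
  rw [is_two_pretransitive_iff] at h
  have hne : Nonempty ι := by
    rw [← Fintype.card_pos_iff]; omega
  obtain ⟨i⟩ := hne
  let a0 : Fin m := ⟨0, by omega⟩
  let a1 : Fin m := ⟨1, by omega⟩
  have h01 : a0 ≠ a1 := by
    intro h
    have := congrArg Fin.val h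
    simp [a0, a1] at this
  let x₀ : ι → Fin m := fun _ => a0
  let x₁ : ι → Fin m := Function.update x₀ i a1
  let x₂ : ι → Fin m := fun _ => a1
  have d1 : hammingDist x₀ x₁ = 1 := by
    unfold hammingDist
    rw [Finset.card_eq_one]
    refine ⟨i, ?_⟩
    ext l
    simp only [Finset.mem_filter, Finset.mem_univ, true_and, Finset.mem_singleton]
    by_cases hl : l = i
    · subst hl; simp [x₀, x₁, h01]
    · simp [x₀, x₁, hl]
  have d2 : hammingDist x₀ x₂ = Fintype.card ι := by
    unfold hammingDist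
    rw [← Finset.card_univ]
    congr 1
    ext l
    simp [x₀, x₂, h01]
  have hx01 : x₀ ≠ x₁ := by
    intro h
    rw [← hammingDist_eq_zero, d1] at h
    omega
  have hx02 : x₀ ≠ x₂ := by
    intro h
    rw [← hammingDist_eq_zero, d2] at h
    omega
  obtain ⟨g, hg1, hg2⟩ := h hx01 hx02
  have hg := g.2 x₀ x₁
  have hg1' : (g : Equiv.Perm (ι → Fin m)) x₀ = x₀ := hg1
  have hg2' : (g : Equiv.Perm (ι → Fin m)) x₁ = x₂ := hg2
  rw [hg1', hg2', d1, d2] at hg
  omega

end hamming

/-- The regular coordinatewise action of `K ≃* ∀ i, F i` on `ι → Fin m`. -/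
theorem exists_regular {K : Type*} [Group K] {ι : Type*} [Fintype ι] (F : ι → Type*)
    [∀ i, Group (F i)] (m : ℕ) (θ : ∀ i, F i ≃ Fin m) (e : K ≃* (∀ i, F i)) :
    ∃ R₀ : Subgroup (Equiv.Perm (ι → Fin m)), R₀ ≤ isoGroup ι m ∧ Nonempty (R₀ ≃* K) ∧
      IsPretransitive R₀ (ι → Fin m) ∧ ∀ a : ι → Fin m, stabilizer R₀ a = ⊥ := by
  let ρ : K →* Equiv.Perm (ι → Fin m) :=
    { toFun := fun k =>
        ⟨fun x i => θ i (e k i * (θ i).symm (x i)),
         fun x i => θ i ((e k i)⁻¹ * (θ i).symm (x i)),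
         by intro x; funext i; simp,
         by intro x; funext i; simp⟩
      map_one' := by ext x i; simp
      map_mul' := by intro a b; ext x i; simp [mul_assoc] }
  have hρ : ∀ (k : K) (x : ι → Fin m) (i : ι), ρ k x i = θ i (e k i * (θ i).symm (x i)) :=
    fun k x i => rfl
  have hinj : Function.Injective ρ := by
    intro k k' h
    apply e.injective
    funext i
    have h1 := congrFun (congrArg (fun σ : Equiv.Perm (ι → Fin m) => σ (fun i => θ i 1)) h) i
    simp only [hρ, Equiv.symm_apply_apply, mul_one] at h1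
    exact (θ i).injective h1
  refine ⟨ρ.range, ?_, ⟨(MonoidHom.ofInjective hinj).symm⟩, ?_, ?_⟩
  · rintro _ ⟨k, rfl⟩
    intro x y
    exact hammingDist_comp (fun i a => θ i (e k i * (θ i).symm a))
      (fun i a b h => by
        have h1 := (θ i).injective h
        exact (θ i).symm.injective (mul_left_cancel h1))
  · constructor
    intro x y
    refine ⟨⟨ρ (e.symm (fun i => (θ i).symm (y i) * ((θ i).symm (x i))⁻¹)), ⟨_, rfl⟩⟩, ?_⟩
    funext i
    show ρ (e.symm (fun i => (θ i).symm (y i) * ((θ i).symm (x i))⁻¹)) x i = y i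
    rw [hρ]
    simp
  · intro a
    rw [eq_bot_iff]
    rintro ⟨_, ⟨k, rfl⟩⟩ hk
    have hk' : ρ k a = a := hk
    have h1 : e k = 1 := by
      funext i
      have h2 := congrFun hk' i
      rw [hρ] at h2
      have h3 := congrArg (θ i).symm h2
      rw [Equiv.symm_apply_apply] at h3
      exact mul_eq_right.mp h3
    have h4 : k = 1 := by
      apply e.injective
      rw [h1, map_one]
    rw [Subgroup.mem_bot]
    apply Subtype.ext
    show ρ k = 1
    rw [h4, map_one]

/-- Let K be a finite group isomorphic to a direct product of r ≥ 2 groups all of the same order m ≥ 3. Then K is not a B-group: there is a primitive but not doubly transitive permutation group (on some finite set) containing a regular subgroup isomorphic to K. -/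
theorem result {K : Type*} [Group K] [Finite K] {ι : Type*} [Fintype ι] (F : ι → Type*) [∀ i, Group (F i)]
    (hr : 2 ≤ Fintype.card ι) (m : ℕ) (hm : 3 ≤ m) (hcard : ∀ i, Nat.card (F i) = m) (e : K ≃* (∀ i, F i)) :
    ∃ (n : ℕ) (G R : Subgroup (Equiv.Perm (Fin n))), R ≤ G ∧ Nonempty (↥R ≃* K) ∧
      MulAction.IsPretransitive ↥R (Fin n) ∧ (∀ a : Fin n, MulAction.stabilizer ↥R a = ⊥) ∧
      MulAction.IsPreprimitive ↥G (Fin n) ∧ ¬ MulAction.IsMultiplyPretransitive ↥G (Fin n) 2 := by
  classical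
  have hfin : ∀ i, Finite (F i) := fun i => Nat.finite_of_card_ne_zero (by rw [hcard i]; omega)
  let θ : ∀ i, F i ≃ Fin m := fun i => Finite.equivFinOfCardEq (hcard i)
  obtain ⟨R₀, hR1, hR2, hR3, hR4⟩ := exists_regular F m θ e
  exact transfer_to_fin (isoGroup ι m) R₀ hR1 hR2 hR3 hR4 (isoGroup_preprimitive hm)
    (isoGroup_not_two hr hm)

end Cfsg.Agent.S3560
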