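import Cfsg.Statements.S3573

set_option autoImplicit false
set_option linter.style.haveILetI false
set_option linter.unusedSectionVars false
open Cfsg

namespace Cfsg.Agent.S3573

open Equiv

theorem image_eq_of_maps {n : ℕ} (σ : Perm (Fin n)) (s : Finset (Fin n))
    (h : ∀ x ∈ s, σ x ∈ s) : s.image σ = s := by
  apply Finset.eq_of_subset_of_card_le
  · intro y hy
    obtain ⟨x, hx, rfl⟩ := Finset.mem_image.mp hy
    exact h x hx
  · rw [Finset.card_image_of_injective _ σ.injective]

theorem mem_iff_of_image_eq {n : ℕ} (σ : Perm (Fin n)) (s : Finset (Fin n))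
    (h : s.image σ = s) (x : Fin n) : σ x ∈ s ↔ x ∈ s := by
  constructor
  · intro hx
    rw [← h] at hx
    obtain ⟨y, hy, hxy⟩ := Finset.mem_image.mp hx
    rwa [← σ.injective hxy]
  · intro hx
    rw [← h]
    exact Finset.mem_image_of_mem _ hx

/-- A permutation of prime order `r` fixes a `k`-set as soon as `k % r ≤ n % r`. -/
theorem exists_invariant {n : ℕ} (σ : Perm (Fin n)) {r : ℕ} (hr : r.Prime) (hσ : orderOf σ = r)
    (k : ℕ) (hkn : k ≤ n) (hmod : k % r ≤ n % r) :
    ∃ s : Finset (Fin n), s.card = k ∧ s.image σ = s := by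
  obtain ⟨j', hj'⟩ := Equiv.Perm.cycleType_prime_order (σ := σ) (by rw [hσ]; exact hr)
  rw [hσ] at hj'
  obtain ⟨j, hj⟩ : ∃ j, j = j' + 1 := ⟨_, rfl⟩
  rw [← hj] at hj'
  have hsupp : σ.support.card = j * r := by
    rw [← Equiv.Perm.sum_cycleType, hj']; simp
  have hle : j * r ≤ n := by
    rw [← hsupp]
    have := σ.support.card_le_univ
    simpa using this
  have hrpos : 0 < r := hr.pos
  have h1 : (k / r) * r + k % r = k := Nat.div_add_mod' k r
  have h2 : (n / r) * r + n % r = n := Nat.div_add_mod' n r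
  have h3 : j * r ≤ (n / r) * r := Nat.mul_le_mul_right r ((Nat.le_div_iff_mul_le hrpos).mpr hle)
  -- choose a
  obtain ⟨a, haj, hak, hb⟩ : ∃ a, a ≤ j ∧ a * r ≤ k ∧ k - a * r ≤ n - j * r := by
    rcases le_total j (k / r) with h | h
    · refine ⟨j, le_refl _, ?_, ?_⟩
      · have := Nat.mul_le_mul_right r h
        omega
      · omega
    · refine ⟨k / r, h, by omega, by omega⟩
  have hCF : σ.cycleFactorsFinset.card = j := by
    have := congrArg Multiset.card hj'
    rw [Multiset.card_replicate] at this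
    rw [← this, Equiv.Perm.cycleType_def]
    simp
  have hcyc : ∀ c ∈ σ.cycleFactorsFinset, c.support.card = r := by
    intro c hc
    have : c.support.card ∈ σ.cycleType := by
      rw [Equiv.Perm.cycleType_def]
      exact Multiset.mem_map.mpr ⟨c, hc, rfl⟩
    rw [hj'] at this
    exact Multiset.eq_of_mem_replicate this
  obtain ⟨C, hC, hCcard⟩ := Finset.exists_subset_card_eq (s := σ.cycleFactorsFinset) (n := a)
    (by rw [hCF]; exact haj)
  set S : Finset (Fin n) := C.biUnion (fun c => c.support) with hS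
  have hScard : S.card = a * r := by
    rw [hS, Finset.card_biUnion]
    · rw [Finset.sum_congr rfl (fun c hc => hcyc c (hC hc)), Finset.sum_const, hCcard, smul_eq_mul]
    · intro c hc d hd hcd
      exact (Equiv.Perm.cycleFactorsFinset_pairwise_disjoint σ (hC hc) (hC hd) hcd).disjoint_support
  have hSsupp : S ⊆ σ.support := by
    intro x hx
    rw [hS, Finset.mem_biUnion] at hx
    obtain ⟨c, hc, hxc⟩ := hx
    exact Equiv.Perm.mem_cycleFactorsFinset_support_le (hC hc) hxc
  have hSinv : ∀ x ∈ S, σ x ∈ S := by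
    intro x hx
    rw [hS, Finset.mem_biUnion] at hx ⊢
    obtain ⟨c, hc, hxc⟩ := hx
    refine ⟨c, hc, ?_⟩
    have := (Equiv.Perm.mem_cycleFactorsFinset_iff.mp (hC hc)).2 x hxc
    rw [← this]
    exact Equiv.Perm.apply_mem_support.mpr hxc
  -- fixed points
  have hFcard : (σ.supportᶜ).card = n - j * r := by
    rw [Finset.card_compl, hsupp, Fintype.card_fin]
  obtain ⟨F', hF', hF'card⟩ := Finset.exists_subset_card_eq (s := σ.supportᶜ) (n := k - a * r)
    (by rw [hFcard]; exact hb)
  have hdisj : Disjoint S F' := by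
    rw [Finset.disjoint_left]
    intro x hxS hxF
    have := hF' hxF
    rw [Finset.mem_compl] at this
    exact this (hSsupp hxS)
  refine ⟨S ∪ F', ?_, ?_⟩
  · rw [Finset.card_union_of_disjoint hdisj, hScard, hF'card]
    omega
  · apply image_eq_of_maps
    intro x hx
    rw [Finset.mem_union] at hx ⊢
    rcases hx with hx | hx
    · exact Or.inl (hSinv x hx)
    · right
      have := hF' hx
      rw [Finset.mem_compl, Equiv.Perm.notMem_support] at this
      rw [this]
      exact hx

/-- If `σ ^ r = 1` and `s` is `σ`-invariant, then `r` divides `|s ∩ supp σ|`. -/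
theorem dvd_card_inter_support {n : ℕ} (σ : Perm (Fin n)) {r : ℕ} (hr : r.Prime)
    (hσ : σ ^ r = 1) (s : Finset (Fin n)) (hs : s.image σ = s) :
    r ∣ (s ∩ σ.support).card := by
  classical
  haveI : Fact r.Prime := ⟨hr⟩
  have hp : ∀ x, σ x ∈ s ↔ x ∈ s := mem_iff_of_image_eq σ s hs
  set τ : Perm (Fin n) := Equiv.Perm.ofSubtype (σ.subtypePerm hp) with hτ
  have hτr : τ ^ r ^ 1 = 1 := by
    rw [pow_one, hτ, ← map_pow, Equiv.Perm.subtypePerm_pow]
    have : (σ ^ r).subtypePerm (p := fun x => x ∈ s) (by rw [hσ]; intro x; rfl) = 1 := by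
      ext x
      simp [hσ]
    rw [this, map_one]
  have hsupp : τ.support = s ∩ σ.support := by
    ext x
    rw [Equiv.Perm.mem_support, Finset.mem_inter, Equiv.Perm.mem_support]
    by_cases hx : x ∈ s
    · rw [hτ, Equiv.Perm.ofSubtype_apply_of_mem _ hx]
      simp [hx]
    · rw [hτ, Equiv.Perm.ofSubtype_apply_of_not_mem _ hx]
      simp [hx]
  have h := Equiv.Perm.card_compl_support_modEq hτr
  rw [Finset.card_compl, Fintype.card_fin] at h
  rw [← hsupp]
  have hle : τ.support.card ≤ n := by
    have := τ.support.card_le_univ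
    simpa using this
  have h2 := (Nat.modEq_iff_dvd' (Nat.sub_le n _)).mp h
  rwa [Nat.sub_sub_self hle] at h2

theorem necessary {n k : ℕ} (hk : 1 ≤ k) (hkn : 2 * k < n) {r : ℕ} (hr : r.Prime)
    (hrd : r ∣ Nat.choose n k)
    (h : ∀ σ : Perm (Fin n), orderOf σ = r → ∃ s : Finset (Fin n), s.card = k ∧ s.image σ = s) :
    r ≤ k ∧ k % r ≤ n % r := by
  have hkn' : k ≤ n := by omega
  have hrn : r ≤ n := by
    have h1 : r ∣ n.factorial := by
      rw [← Nat.choose_mul_factorial_mul_factorial hkn']
      exact Dvd.dvd.mul_right (Dvd.dvd.mul_right hrd _) _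
    exact (Nat.Prime.dvd_factorial hr).mp h1
  have hj : 1 ≤ n / r := Nat.div_pos hrn hr.pos
  obtain ⟨σ, hσ⟩ := (Equiv.Perm.exists_with_cycleType_iff (Fin n)
    (m := Multiset.replicate (n / r) r)).mpr
      ⟨by
        rw [Multiset.sum_replicate, Fintype.card_fin, smul_eq_mul]
        exact Nat.div_mul_le_self n r,
       fun a ha => by rw [Multiset.eq_of_mem_replicate ha]; exact hr.two_le⟩
  have hord : orderOf σ = r := by
    rw [← Equiv.Perm.lcm_cycleType, hσ]
    apply Nat.dvd_antisymm
    · apply Multiset.lcm_dvd.mpr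
      intro a ha
      rw [Multiset.eq_of_mem_replicate ha]
    · apply Multiset.dvd_lcm
      rw [Multiset.mem_replicate]
      exact ⟨by omega, rfl⟩
  obtain ⟨s, hsk, hsinv⟩ := h σ hord
  have hdvd := dvd_card_inter_support σ hr (by rw [← hord]; exact pow_orderOf_eq_one σ) s hsinv
  have hsupp : σ.support.card = (n / r) * r := by
    rw [← Equiv.Perm.sum_cycleType, hσ]; simp
  have hcompl : (σ.supportᶜ).card = n % r := by
    rw [Finset.card_compl, hsupp, Fintype.card_fin]
    have := Nat.div_add_mod' n r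
    omega
  have hsplit : s.card = (s ∩ σ.support).card + (s \ σ.support).card :=
    (Finset.card_inter_add_card_sdiff s σ.support).symm
  have hle : (s \ σ.support).card ≤ n % r := by
    rw [← hcompl]
    apply Finset.card_le_card
    intro x hx
    rw [Finset.mem_sdiff] at hx
    rw [Finset.mem_compl]
    exact hx.2
  obtain ⟨q, hq⟩ := hdvd
  have hmodlt : n % r < r := Nat.mod_lt n hr.pos
  have hkmod : k % r = (s \ σ.support).card := by
    rw [← hsk, hsplit, hq, Nat.mul_add_mod]
    exact Nat.mod_eq_of_lt (lt_of_le_of_lt hle hmodlt)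
  refine ⟨?_, by rw [hkmod]; exact hle⟩
  by_contra hlt
  have hlt' : k < r := not_le.mp hlt
  have hkr : k % r = k := Nat.mod_eq_of_lt hlt'
  haveI : Fact r.Prime := ⟨hr⟩
  have hluc := Choose.choose_modEq_choose_mod_mul_choose_div_nat (n := n) (k := k) (p := r)
  rw [hkr, Nat.div_eq_of_lt hlt', Nat.choose_zero_right, mul_one] at hluc
  have hd : r ∣ Nat.choose (n % r) k :=
    Nat.modEq_zero_iff_dvd.mp (hluc.symm.trans (Nat.modEq_zero_iff_dvd.mpr hrd))
  have hkle : k ≤ n % r := by
    rw [← hkr, hkmod]; exact hle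
  have hd' : r ∣ (n % r).factorial := by
    rw [← Nat.choose_mul_factorial_mul_factorial hkle]
    exact Dvd.dvd.mul_right (Dvd.dvd.mul_right hd _) _
  have h5 := (Nat.Prime.dvd_factorial hr).mp hd'
  omega

theorem main {n k : ℕ} (hk : 1 ≤ k) (hkn : 2 * k < n) {r : ℕ} (hr : r.Prime)
    (hrd : r ∣ Nat.choose n k) :
    (∀ σ : Perm (Fin n), orderOf σ = r → ∃ s : Finset (Fin n), s.card = k ∧ s.image σ = s) ↔
      (r ≤ k ∧ k % r ≤ n % r) :=
  ⟨necessary hk hkn hr hrd, fun h σ hσ => exists_invariant σ hr hσ k (by omega) h.2⟩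

/-- Let 1 ≤ k with 2k < n and consider the symmetric group of degree n acting on the k-subsets of an n-set. Let r be a prime dividing the number C(n,k) of k-subsets. If r is odd, then every permutation of order r fixes some k-subset if and only if r ≤ k and the remainder of k modulo r is at most the remainder of n modulo r. If r = 2, then every involution fixes some k-subset if and only if k is even or n is odd. -/
theorem result (n k : ℕ) (hk : 1 ≤ k) (hkn : 2 * k < n) (r : ℕ) (hr : r.Prime) (hrd : r ∣ Nat.choose n k) :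
    (r ≠ 2 → ((∀ σ : Equiv.Perm (Fin n), orderOf σ = r → ∃ s : Finset (Fin n), s.card = k ∧ s.image σ = s) ↔
      (r ≤ k ∧ k % r ≤ n % r))) ∧
    (r = 2 → ((∀ σ : Equiv.Perm (Fin n), orderOf σ = 2 → ∃ s : Finset (Fin n), s.card = k ∧ s.image σ = s) ↔
      (Even k ∨ Odd n))) := by
  have hmain := main hk hkn hr hrd
  constructor
  · intro _
    exact hmain
  · intro h2
    subst h2
    rw [hmain, Nat.even_iff, Nat.odd_iff]
    constructor
    · rintro ⟨h1, h2⟩
      omega
    · intro h
      have hk1 : k ≠ 1 := by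
        rintro rfl
        rw [Nat.choose_one_right] at hrd
        omega
      omega

end Cfsg.Agent.S3573
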