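import Cfsg.Statements.S3575

set_option autoImplicit false
set_option linter.style.haveILetI false
set_option linter.unusedSectionVars false
open Cfsg

namespace Cfsg.Agent.S3575

open Equiv

/-- A permutation with `τ ^ r = 1`, `r` prime, moves a number of points divisible by `r`. -/
theorem dvd_card_support {α : Type*} [Fintype α] [DecidableEq α] (τ : Perm α) {r : ℕ}
    (hr : r.Prime) (hτ : τ ^ r = 1) : r ∣ τ.support.card := by
  haveI : Fact r.Prime := ⟨hr⟩
  have h := Equiv.Perm.card_compl_support_modEq (p := r) (n := 1) (σ := τ) (by rwa [pow_one])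
  rw [Finset.card_compl] at h
  have hle : τ.support.card ≤ Fintype.card α := τ.support.card_le_univ
  have h2 := (Nat.modEq_iff_dvd' (Nat.sub_le _ _)).mp h
  rwa [Nat.sub_sub_self hle] at h2

theorem dvd_card_inter_support {α : Type*} [Fintype α] [DecidableEq α] (σ : Perm α) {r : ℕ}
    (hr : r.Prime) (hσ : σ ^ r = 1) (s : Finset α) (hs : ∀ x, σ x ∈ s ↔ x ∈ s) :
    r ∣ (s ∩ σ.support).card := by
  set τ : Perm α := Equiv.Perm.ofSubtype (σ.subtypePerm hs) with hτ
  have hτr : τ ^ r = 1 := by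
    rw [hτ, ← map_pow, Equiv.Perm.subtypePerm_pow]
    have : (σ ^ r).subtypePerm (p := fun x => x ∈ s) (by rw [hσ]; intro x; rfl) = 1 := by
      ext x
      simp [hσ]
    rw [this, map_one]
  have hsupp : τ.support = s ∩ σ.support := by
    ext x
    rw [Equiv.Perm.mem_support, Finset.mem_inter, Equiv.Perm.mem_support]
    by_cases hx : x ∈ s
    · rw [hτ, Equiv.Perm.ofSubtype_apply_of_mem _ hx]
      simp [hx]
    · rw [hτ, Equiv.Perm.ofSubtype_apply_of_not_mem _ hx]
      simp [hx]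
  rw [← hsupp]
  exact dvd_card_support τ hr hτr

/-- Counting the moved points of a permutation fixing a partition. -/
theorem necessary_count {X ι : Type*} [Fintype X] [DecidableEq X] [Fintype ι] [DecidableEq ι]
    {a : ℕ} (ha : 1 ≤ a) {r : ℕ} (hr : r.Prime)
    (σ : Perm X) (hσ : σ ^ r = 1)
    (f : X → ι) (hfib : ∀ j : ι, (Finset.univ.filter (fun x => f x = j)).card = a)
    (π : Perm ι) (hπ : ∀ x, f (σ x) = π (f x)) :
    ∃ t, r * t ≤ Fintype.card ι ∧ t * a * r ≤ σ.support.card ∧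
      σ.support.card ≤ t * a * r + (Fintype.card ι - r * t) * ((a / r) * r) := by
  have hsurj : Function.Surjective f := by
    intro j
    have : 0 < (Finset.univ.filter (fun x => f x = j)).card := by rw [hfib]; exact ha
    obtain ⟨x, hx⟩ := Finset.card_pos.mp this
    exact ⟨x, (Finset.mem_filter.mp hx).2⟩
  have hpow : ∀ m : ℕ, ∀ x, f ((σ ^ m) x) = (π ^ m) (f x) := by
    intro m
    induction m with
    | zero => intro x; simp
    | succ m ih =>
      intro x
      rw [pow_succ', Perm.mul_apply, hπ, ih, pow_succ', Perm.mul_apply]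
  have hπr : π ^ r = 1 := by
    apply Equiv.ext
    intro i
    obtain ⟨x, rfl⟩ := hsurj i
    rw [← hpow, hσ]
    simp
  obtain ⟨t, ht⟩ := dvd_card_support π hr hπr
  have htb : r * t ≤ Fintype.card ι := by
    rw [← ht]
    exact π.support.card_le_univ
  refine ⟨t, htb, ?_⟩
  have hdecomp : σ.support.card = ∑ i : ι, (σ.support.filter (fun x => f x = i)).card :=
    Finset.card_eq_sum_card_fiberwise (fun x _ => Finset.mem_univ _)
  have hmoved : ∀ i ∈ π.support, (σ.support.filter (fun x => f x = i)).card = a := by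
    intro i hi
    rw [← hfib i]
    congr 1
    ext x
    simp only [Finset.mem_filter, Finset.mem_univ, true_and, Perm.mem_support]
    constructor
    · exact fun h => h.2
    · intro hx
      refine ⟨?_, hx⟩
      intro hσx
      have := hπ x
      rw [hσx, hx] at this
      exact (Perm.mem_support.mp hi) this.symm
  have hfixed : ∀ i ∈ π.supportᶜ,
      (σ.support.filter (fun x => f x = i)).card ≤ (a / r) * r := by
    intro i hi
    rw [Finset.mem_compl, Perm.notMem_support] at hi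
    have hinv : ∀ x, σ x ∈ Finset.univ.filter (fun x => f x = i) ↔
        x ∈ Finset.univ.filter (fun x => f x = i) := by
      intro x
      simp only [Finset.mem_filter, Finset.mem_univ, true_and]
      rw [hπ]
      constructor
      · intro h
        exact π.injective (h.trans hi.symm)
      · intro h
        rw [h, hi]
    obtain ⟨c, hc⟩ := dvd_card_inter_support σ hr hσ _ hinv
    have heq : σ.support.filter (fun x => f x = i) =
        Finset.univ.filter (fun x => f x = i) ∩ σ.support := by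
      ext x
      simp [and_comm]
    have hca : r * c ≤ a := by
      rw [← hc, ← hfib i]
      exact Finset.card_le_card Finset.inter_subset_left
    rw [heq, hc, mul_comm]
    exact Nat.mul_le_mul_right r ((Nat.le_div_iff_mul_le hr.pos).mpr (by rw [mul_comm]; exact hca))
  rw [hdecomp, ← Finset.sum_add_sum_compl π.support]
  rw [Finset.sum_congr rfl hmoved, Finset.sum_const, ht, smul_eq_mul]
  have e1 : t * a * r = r * t * a := by ring
  have hsum : ∑ i ∈ π.supportᶜ, (σ.support.filter (fun x => f x = i)).card ≤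
      π.supportᶜ.card * ((a / r) * r) := by
    rw [← smul_eq_mul, ← Finset.sum_const]
    exact Finset.sum_le_sum hfixed
  rw [Finset.card_compl, ht] at hsum
  constructor
  · omega
  · omega

/-- Distribute a total `s ≤ |S| * q` over a finset with each share at most `q`. -/
theorem exists_distribution {ι : Type*} [DecidableEq ι] (q : ℕ) (S : Finset ι) :
    ∀ s : ℕ, s ≤ S.card * q → ∃ c : ι → ℕ, (∀ i, c i ≤ q) ∧ ∑ i ∈ S, c i = s := by
  induction S using Finset.induction_on with
  | empty =>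
    intro s hs
    refine ⟨fun _ => 0, fun _ => Nat.zero_le _, ?_⟩
    simp at hs
    simp [hs]
  | insert i₀ S hi₀ ih =>
    intro s hs
    rw [Finset.card_insert_of_notMem hi₀] at hs
    have h1 : s - min s q ≤ S.card * q := by
      have : (S.card + 1) * q = S.card * q + q := by ring
      rcases le_total s q with h | h
      · rw [min_eq_left h]; omega
      · rw [min_eq_right h]; omega
    obtain ⟨c', hc', hsum⟩ := ih (s - min s q) h1
    refine ⟨Function.update c' i₀ (min s q), ?_, ?_⟩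
    · intro i
      by_cases hi : i = i₀
      · rw [hi, Function.update_self]; exact min_le_right _ _
      · rw [Function.update_of_ne hi]; exact hc' i
    · rw [Finset.sum_insert hi₀, Function.update_self]
      have : ∑ i ∈ S, Function.update c' i₀ (min s q) i = ∑ i ∈ S, c' i := by
        apply Finset.sum_congr rfl
        intro i hi
        rw [Function.update_of_ne]
        rintro rfl
        exact hi₀ hi
      rw [this, hsum]
      have := min_le_left s q
      omega

/-- A permutation with `τ ^ r = 1` moving `j * r` points has cycle type `r ^ j`. -/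
theorem cycleType_of_pow_eq_one {α : Type*} [Fintype α] [DecidableEq α] (τ : Perm α) {r : ℕ}
    (hr : r.Prime) (hτ : τ ^ r = 1) (j : ℕ) (hj : τ.support.card = j * r) :
    τ.cycleType = Multiset.replicate j r := by
  have hall : ∀ n ∈ τ.cycleType, n = r := by
    intro n hn
    have h1 : n ∣ r := (Equiv.Perm.dvd_of_mem_cycleType hn).trans (orderOf_dvd_of_pow_eq_one hτ)
    have h2 := Equiv.Perm.two_le_of_mem_cycleType hn
    rcases (Nat.dvd_prime hr).mp h1 with h | h
    · omega
    · exact h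
  have h3 : τ.cycleType = Multiset.replicate (Multiset.card τ.cycleType) r :=
    Multiset.eq_replicate.mpr ⟨rfl, hall⟩
  have h4 : τ.cycleType.sum = j * r := by rw [Equiv.Perm.sum_cycleType, hj]
  rw [h3, Multiset.sum_replicate, smul_eq_mul] at h4
  have h5 : Multiset.card τ.cycleType = j := Nat.eq_of_mul_eq_mul_right hr.pos h4
  rw [h3, h5]

theorem exists_perm_pow {n : ℕ} {r : ℕ} (hr : r.Prime) (c : ℕ) (hc : c * r ≤ n) :
    ∃ τ : Perm (Fin n), τ ^ r = 1 ∧ τ.support.card = c * r := by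
  obtain ⟨τ, hτ⟩ := (Equiv.Perm.exists_with_cycleType_iff (Fin n)
    (m := Multiset.replicate c r)).mpr
      ⟨by rw [Multiset.sum_replicate, Fintype.card_fin, smul_eq_mul]; exact hc,
       fun a ha => by rw [Multiset.eq_of_mem_replicate ha]; exact hr.two_le⟩
  refine ⟨τ, ?_, ?_⟩
  · apply orderOf_dvd_iff_pow_eq_one.mp
    rw [← Equiv.Perm.lcm_cycleType, hτ]
    apply Multiset.lcm_dvd.mpr
    intro a ha
    rw [Multiset.eq_of_mem_replicate ha]
  · rw [← Equiv.Perm.sum_cycleType, hτ, Multiset.sum_replicate, smul_eq_mul]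

theorem card_fst_fibre {a b : ℕ} (j : Fin b) :
    (Finset.univ.filter (fun p : Fin b × Fin a => p.1 = j)).card = a := by
  have : (Finset.univ.filter (fun p : Fin b × Fin a => p.1 = j)) =
      (Finset.univ : Finset (Fin a)).map (Function.Embedding.sectR j (Fin a)) := by
    ext ⟨i, x⟩
    simp [eq_comm]
  rw [this, Finset.card_map, Finset.card_univ, Fintype.card_fin]

/-- The model permutation on `Fin b × Fin a`. -/
theorem exists_model {a b r : ℕ} (hr : r.Prime) (t s : ℕ) (ht : r * t ≤ b)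
    (hs : s ≤ (b - r * t) * (a / r)) :
    ∃ (σ₀ : Perm (Fin b × Fin a)) (π : Perm (Fin b)), σ₀ ^ r = 1 ∧
      σ₀.support.card = (t * a + s) * r ∧ ∀ p, (σ₀ p).1 = π p.1 := by
  obtain ⟨π, hπr, hπs⟩ := exists_perm_pow (n := b) hr t (by rw [mul_comm]; exact ht)
  have hScard : π.supportᶜ.card = b - r * t := by
    rw [Finset.card_compl, hπs, Fintype.card_fin, mul_comm]
  obtain ⟨c, hc, hcsum⟩ := exists_distribution (a / r) π.supportᶜ s (by rw [hScard]; exact hs)
  have hτex : ∀ i : Fin b, ∃ τ : Perm (Fin a), τ ^ r = 1 ∧ τ.support.card = c i * r := by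
    intro i
    apply exists_perm_pow hr
    calc c i * r ≤ (a / r) * r := Nat.mul_le_mul_right r (hc i)
      _ ≤ a := Nat.div_mul_le_self a r
  choose τ₀ hτ₀r hτ₀s using hτex
  let τ : Fin b → Perm (Fin a) := fun i => if π i = i then τ₀ i else 1
  have hτr : ∀ i, (τ i) ^ r = 1 := by
    intro i
    by_cases hi : π i = i
    · simp only [τ, hi, if_true]; exact hτ₀r i
    · simp only [τ, hi, if_false]; exact one_pow r
  let σ₀ : Perm (Fin b × Fin a) := Equiv.prodShear π τ
  have hσ₀ : ∀ p : Fin b × Fin a, σ₀ p = (π p.1, τ p.1 p.2) := fun p => rfl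
  have hpow : ∀ m : ℕ, ∀ p : Fin b × Fin a,
      (σ₀ ^ m) p = ((π ^ m) p.1, if π p.1 = p.1 then ((τ p.1) ^ m) p.2 else p.2) := by
    intro m
    induction m with
    | zero => intro p; simp
    | succ m ih =>
      intro p
      rw [pow_succ', Perm.mul_apply, ih, hσ₀]
      by_cases hp : π p.1 = p.1
      · have h1 : ∀ m : ℕ, (π ^ m) p.1 = p.1 := by
          intro m
          induction m with
          | zero => simp
          | succ m ih => rw [pow_succ', Perm.mul_apply, ih, hp]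
        simp only [hp, if_true, h1 m]
        rw [pow_succ', Perm.mul_apply, pow_succ', Perm.mul_apply, h1 m, hp]
      · have h2 : π ((π ^ m) p.1) ≠ (π ^ m) p.1 := by
          intro h
          apply hp
          have : (π ^ m) (π p.1) = (π ^ m) p.1 := by
            rw [← Perm.mul_apply, ← pow_succ, pow_succ', Perm.mul_apply]; exact h
          exact (π ^ m).injective this
        simp only [hp, if_false]
        have h3 : τ ((π ^ m) p.1) = 1 := by simp only [τ, h2, if_false]
        rw [h3, pow_succ', Perm.mul_apply]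
        simp
  refine ⟨σ₀, π, ?_, ?_, fun p => rfl⟩
  · apply Equiv.ext
    intro p
    rw [hpow, hπr, hτr]
    simp
  · have hdecomp : σ₀.support.card = ∑ i : Fin b, (σ₀.support.filter (fun p => p.1 = i)).card :=
      Finset.card_eq_sum_card_fiberwise (fun x _ => Finset.mem_univ _)
    have hmoved : ∀ i ∈ π.support, (σ₀.support.filter (fun p => p.1 = i)).card = a := by
      intro i hi
      refine Eq.trans ?_ (card_fst_fibre (a := a) i)
      congr 1
      ext p
      simp only [Finset.mem_filter, Finset.mem_univ, true_and, Perm.mem_support]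
      constructor
      · exact fun h => h.2
      · intro hp
        refine ⟨?_, hp⟩
        intro h
        have := congrArg Prod.fst h
        rw [hσ₀] at this
        simp only at this
        rw [hp] at this
        exact (Perm.mem_support.mp hi) this
    have hfixed : ∀ i ∈ π.supportᶜ, (σ₀.support.filter (fun p => p.1 = i)).card = c i * r := by
      intro i hi
      rw [Finset.mem_compl, Perm.notMem_support] at hi
      rw [← hτ₀s i]
      have : σ₀.support.filter (fun p => p.1 = i) =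
          (τ₀ i).support.map (Function.Embedding.sectR i (Fin a)) := by
        ext ⟨i', x⟩
        simp only [Finset.mem_filter, Perm.mem_support, Finset.mem_map,
          Function.Embedding.sectR_apply, Prod.mk.injEq]
        constructor
        · rintro ⟨h1, h2⟩
          subst h2
          refine ⟨x, ?_, rfl, rfl⟩
          intro hx
          apply h1
          rw [hσ₀]
          simp only [τ, hi, if_true, hx]
        · rintro ⟨x', hx', h1, h2⟩
          subst h1 h2
          refine ⟨?_, rfl⟩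
          intro h
          apply hx'
          rw [hσ₀] at h
          have := congrArg Prod.snd h
          simpa [τ, hi] using this
      rw [this, Finset.card_map]
    rw [hdecomp, ← Finset.sum_add_sum_compl π.support, Finset.sum_congr rfl hmoved,
      Finset.sum_congr rfl hfixed, Finset.sum_const, hπs, smul_eq_mul, ← Finset.sum_mul, hcsum]
    ring

theorem sufficient {a b r : ℕ} (hr : r.Prime) (σ : Perm (Fin (a * b))) (hσ : σ ^ r = 1)
    (t s : ℕ) (ht : r * t ≤ b) (hs : s ≤ (b - r * t) * (a / r))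
    (hj : σ.support.card = (t * a + s) * r) :
    ∃ f : Fin (a * b) → Fin b, (∀ j : Fin b, Nat.card {x : Fin (a * b) // f x = j} = a) ∧
      ∃ π : Perm (Fin b), ∀ x, f (σ x) = π (f x) := by
  obtain ⟨σ₀, π, hσ₀r, hσ₀s, hσ₀π⟩ := exists_model (a := a) hr t s ht hs
  let φ : Fin b × Fin a ≃ Fin (a * b) := finProdFinEquiv.trans (finCongr (mul_comm b a))
  let σ₁ : Perm (Fin (a * b)) := φ.permCongrHom σ₀
  have hσ₁ : ∀ x, σ₁ x = φ (σ₀ (φ.symm x)) := fun x => by
    simp [σ₁]
  have hσ₁r : σ₁ ^ r = 1 := by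
    show (φ.permCongrHom σ₀) ^ r = 1
    rw [← map_pow, hσ₀r, map_one]
  have hσ₁s : σ₁.support.card = (t * a + s) * r := by
    rw [← hσ₀s]
    have : σ₁.support = σ₀.support.map φ.toEmbedding := by
      ext x
      simp only [Perm.mem_support, Finset.mem_map, Equiv.coe_toEmbedding]
      constructor
      · intro h
        refine ⟨φ.symm x, ?_, by simp⟩
        intro h'
        apply h
        rw [hσ₁, h']
        simp
      · rintro ⟨p, hp, rfl⟩
        intro h
        apply hp
        rw [hσ₁] at h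
        simpa using h
    rw [this, Finset.card_map]
  have hct : σ₁.cycleType = σ.cycleType := by
    rw [cycleType_of_pow_eq_one σ hr hσ _ hj, cycleType_of_pow_eq_one σ₁ hr hσ₁r _ hσ₁s]
  obtain ⟨g, hg⟩ := isConj_iff.mp (Equiv.Perm.isConj_iff_cycleType_eq.mpr hct)
  refine ⟨fun x => (φ.symm (g⁻¹ x)).1, ?_, π, ?_⟩
  · intro j
    have e : {x : Fin (a * b) // (φ.symm (g⁻¹ x)).1 = j} ≃ {p : Fin b × Fin a // p.1 = j} :=
      Equiv.subtypeEquiv ((g⁻¹ : Perm (Fin (a * b))).trans φ.symm) (fun x => Iff.rfl)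
    rw [Nat.card_congr e, Nat.card_eq_fintype_card, Fintype.card_subtype]
    exact card_fst_fibre j
  · intro x
    show (φ.symm (g⁻¹ (σ x))).1 = π ((φ.symm (g⁻¹ x)).1)
    have h1 : g⁻¹ (σ x) = σ₁ (g⁻¹ x) := by
      rw [← hg]
      simp [Perm.mul_apply]
    rw [h1, hσ₁, Equiv.symm_apply_apply, hσ₀π]

theorem core_suff {r a₁ ℓ b₁ k j : ℕ} (hr : 2 ≤ r) (hℓ : ℓ < r) (hk : k < r) (ha₁ : 1 ≤ a₁)
    (hkl : k * ℓ < r) (hgap : b₁ = 0 ∨ ℓ ≤ k * a₁ + 1)
    (hj : j * r ≤ (a₁ * r + ℓ) * (b₁ * r + k)) :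
    ∃ t s, r * t ≤ b₁ * r + k ∧ s ≤ (b₁ * r + k - r * t) * a₁ ∧ j = t * (a₁ * r + ℓ) + s := by
  have hX : (a₁ * r + ℓ) * (b₁ * r + k) = r * (b₁ * (a₁ * r + ℓ) + k * a₁) + k * ℓ := by ring
  have hjX : j ≤ b₁ * (a₁ * r + ℓ) + k * a₁ := by
    by_contra h
    have h1 : b₁ * (a₁ * r + ℓ) + k * a₁ + 1 ≤ j := by omega
    have h2 := Nat.mul_le_mul_right r h1
    have h3 : (b₁ * (a₁ * r + ℓ) + k * a₁ + 1) * r = r * (b₁ * (a₁ * r + ℓ) + k * a₁) + r := by ring
    omega
  have hapos : 0 < a₁ * r + ℓ := by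
    have : 1 * r ≤ a₁ * r := Nat.mul_le_mul_right r ha₁
    omega
  rcases le_or_gt b₁ (j / (a₁ * r + ℓ)) with h | h
  · have h1 : b₁ * (a₁ * r + ℓ) ≤ j := (Nat.le_div_iff_mul_le hapos).mp h
    refine ⟨b₁, j - b₁ * (a₁ * r + ℓ), by have := mul_comm r b₁; omega, ?_, by omega⟩
    have : b₁ * r + k - r * b₁ = k := by have := mul_comm r b₁; omega
    rw [this]
    omega
  · refine ⟨j / (a₁ * r + ℓ), j % (a₁ * r + ℓ), ?_, ?_, ?_⟩
    · have : r * (j / (a₁ * r + ℓ)) ≤ r * b₁ := Nat.mul_le_mul_left r h.le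
      rw [mul_comm b₁ r]; omega
    · have hb₁ : b₁ ≠ 0 := fun h0 => Nat.not_lt_zero _ (h0 ▸ h)
      have hℓ' : ℓ ≤ k * a₁ + 1 := hgap.resolve_left hb₁
      have h1 : j % (a₁ * r + ℓ) < a₁ * r + ℓ := Nat.mod_lt _ hapos
      have h2 : r * (j / (a₁ * r + ℓ)) + r ≤ r * b₁ := by
        have : r * (j / (a₁ * r + ℓ) + 1) ≤ r * b₁ := Nat.mul_le_mul_left r h
        rw [mul_add, mul_one] at this
        exact this
      have h3 : r + k ≤ b₁ * r + k - r * (j / (a₁ * r + ℓ)) := by
        rw [mul_comm b₁ r]; omega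
      have h4 : (r + k) * a₁ ≤ (b₁ * r + k - r * (j / (a₁ * r + ℓ))) * a₁ :=
        Nat.mul_le_mul_right a₁ h3
      have h5 : (r + k) * a₁ = a₁ * r + k * a₁ := by ring
      omega
    · have := Nat.div_add_mod' j (a₁ * r + ℓ)
      omega

theorem core_nec {r a₁ ℓ b₁ k : ℕ} (hr : 2 ≤ r) (hℓ : ℓ < r) (hk : k < r)
    (ha : 2 ≤ a₁ * r + ℓ) (hb : 2 ≤ b₁ * r + k)
    (hrab : r ≤ (a₁ * r + ℓ) * (b₁ * r + k))
    (hfail : ¬ (1 ≤ a₁ ∧ k * ℓ < r ∧ (b₁ = 0 ∨ ℓ ≤ k * a₁ + 1))) :
    ∃ j, 1 ≤ j ∧ j * r ≤ (a₁ * r + ℓ) * (b₁ * r + k) ∧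
      ∀ t, r * t ≤ b₁ * r + k →
        ¬ (t * (a₁ * r + ℓ) ≤ j ∧ j ≤ t * (a₁ * r + ℓ) + (b₁ * r + k - r * t) * a₁) := by
  have hX : (a₁ * r + ℓ) * (b₁ * r + k) = r * (b₁ * (a₁ * r + ℓ) + k * a₁) + k * ℓ := by ring
  -- for t with r t ≤ b: t ≤ b₁ and the right end is t ℓ + b a₁
  have ht_le : ∀ t, r * t ≤ b₁ * r + k → t ≤ b₁ := by
    intro t ht
    by_contra h
    have h1 : b₁ + 1 ≤ t := by omega
    have h2 := Nat.mul_le_mul_left r h1
    have h3 : r * (b₁ + 1) = b₁ * r + r := by ring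
    omega
  have hright : ∀ t, r * t ≤ b₁ * r + k →
      t * (a₁ * r + ℓ) + (b₁ * r + k - r * t) * a₁ = t * ℓ + (b₁ * r + k) * a₁ := by
    intro t ht
    obtain ⟨d, hd⟩ : ∃ d, b₁ * r + k = r * t + d := ⟨b₁ * r + k - r * t, by omega⟩
    rw [hd, Nat.add_sub_cancel_left]
    ring
  by_cases ha₁ : a₁ = 0
  · subst ha₁
    refine ⟨1, le_refl _, by rw [one_mul]; exact hrab, ?_⟩
    intro t _ h
    simp only [zero_mul, zero_add, mul_zero, add_zero] at h ha
    have : t * ℓ = 1 := le_antisymm h.1 h.2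
    have h2 := Nat.eq_one_of_mul_eq_one_left this
    omega
  have ha₁' : 1 ≤ a₁ := Nat.one_le_iff_ne_zero.mpr ha₁
  by_cases hkl : k * ℓ < r
  · -- the gap case
    have h3 : ¬ (b₁ = 0 ∨ ℓ ≤ k * a₁ + 1) := fun h => hfail ⟨ha₁', hkl, h⟩
    have hb₁ : 1 ≤ b₁ := by
      by_contra h
      exact h3 (Or.inl (by omega))
    have hℓ' : k * a₁ + 1 < ℓ := by
      by_contra h
      exact h3 (Or.inr (by omega))
    have hba : 2 ≤ b₁ * (a₁ * r + ℓ) := by
      calc 2 ≤ 1 * (a₁ * r + ℓ) := by omega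
        _ ≤ b₁ * (a₁ * r + ℓ) := Nat.mul_le_mul_right _ hb₁
    refine ⟨b₁ * (a₁ * r + ℓ) - 1, by omega, ?_, ?_⟩
    · have h4 : (b₁ * (a₁ * r + ℓ) - 1) * r ≤ b₁ * (a₁ * r + ℓ) * r := Nat.mul_le_mul_right r (by omega)
      have h5 : b₁ * (a₁ * r + ℓ) * r ≤ r * (b₁ * (a₁ * r + ℓ) + k * a₁) := by
        rw [mul_comm]
        exact Nat.mul_le_mul_left r (by omega)
      omega
    · intro t ht h
      rw [hright t ht] at h
      have htb := ht_le t ht
      rcases Nat.lt_or_ge t b₁ with h6 | h6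
      · -- t ≤ b₁ - 1
        have h7 : t * ℓ + ℓ ≤ b₁ * ℓ := by
          have : (t + 1) * ℓ ≤ b₁ * ℓ := Nat.mul_le_mul_right ℓ h6
          rw [add_mul, one_mul] at this
          exact this
        have h8 : (b₁ * r + k) * a₁ = b₁ * (a₁ * r) + k * a₁ := by ring
        have h9 : b₁ * (a₁ * r + ℓ) = b₁ * (a₁ * r) + b₁ * ℓ := by ring
        omega
      · have h7 : t = b₁ := le_antisymm htb h6
        subst h7
        omega
  · -- k ℓ ≥ r
    refine ⟨b₁ * (a₁ * r + ℓ) + k * a₁ + 1, by omega, ?_, ?_⟩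
    · have : (b₁ * (a₁ * r + ℓ) + k * a₁ + 1) * r = r * (b₁ * (a₁ * r + ℓ) + k * a₁) + r := by ring
      omega
    · intro t ht h
      rw [hright t ht] at h
      have htb := ht_le t ht
      have h7 : t * ℓ ≤ b₁ * ℓ := Nat.mul_le_mul_right ℓ htb
      have h8 : (b₁ * r + k) * a₁ = b₁ * (a₁ * r) + k * a₁ := by ring
      have h9 : b₁ * (a₁ * r + ℓ) = b₁ * (a₁ * r) + b₁ * ℓ := by ring
      omega

theorem crit_iff {r a₁ ℓ b₁ k : ℕ} (hr : 2 ≤ r) (hℓ : ℓ < r) (hk : k < r)
    (hb : 2 ≤ b₁ * r + k) :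
    (r ≤ a₁ * r + ℓ ∧ (ℓ = 0 ∨ (k = 0 ∧ ℓ = 1) ∨ (ℓ ≠ 0 ∧ k ≠ 0 ∧ k * ℓ < r ∧
      (b₁ * r + k < r ∨ (k + r) * ℓ ≤ k * (a₁ * r + ℓ) + r)))) ↔
    (1 ≤ a₁ ∧ k * ℓ < r ∧ (b₁ = 0 ∨ ℓ ≤ k * a₁ + 1)) := by
  have h1 : r ≤ a₁ * r + ℓ ↔ 1 ≤ a₁ := by
    constructor
    · intro h
      by_contra h0
      have : a₁ = 0 := by omega
      subst this
      omega
    · intro h
      have : 1 * r ≤ a₁ * r := Nat.mul_le_mul_right r h
      omega
  have h2 : b₁ * r + k < r ↔ b₁ = 0 := by
    constructor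
    · intro h
      by_contra h0
      have : 1 * r ≤ b₁ * r := Nat.mul_le_mul_right r (by omega)
      omega
    · intro h
      subst h
      omega
  have h3 : (k + r) * ℓ ≤ k * (a₁ * r + ℓ) + r ↔ ℓ ≤ k * a₁ + 1 := by
    have e1 : (k + r) * ℓ = r * ℓ + k * ℓ := by ring
    have e2 : k * (a₁ * r + ℓ) + r = r * (k * a₁ + 1) + k * ℓ := by ring
    rw [e1, e2, Nat.add_le_add_iff_right]
    exact Nat.mul_le_mul_left_iff (by omega)
  rw [h1, h2, h3]
  constructor
  · rintro ⟨ha₁, h⟩
    refine ⟨ha₁, ?_⟩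
    rcases h with h | ⟨h, h'⟩ | ⟨_, _, h, h'⟩
    · subst h
      refine ⟨by rw [mul_zero]; omega, Or.inr (Nat.zero_le _)⟩
    · subst h h'
      refine ⟨by rw [zero_mul]; omega, Or.inr (by omega)⟩
    · exact ⟨h, h'⟩
  · rintro ⟨ha₁, h, h'⟩
    refine ⟨ha₁, ?_⟩
    by_cases hℓ0 : ℓ = 0
    · exact Or.inl hℓ0
    by_cases hk0 : k = 0
    · right; left
      refine ⟨hk0, ?_⟩
      subst hk0
      rcases h' with h' | h'
      · subst h'
        omega
      · omega
    · right; right
      exact ⟨hℓ0, hk0, h, h'⟩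

theorem div_mod_decomp {r : ℕ} (hr : 2 ≤ r) (a : ℕ) :
    ∃ a₁ ℓ, ℓ < r ∧ a = a₁ * r + ℓ ∧ a / r = a₁ ∧ a % r = ℓ :=
  ⟨a / r, a % r, Nat.mod_lt _ (by omega), (Nat.div_add_mod' a r).symm, rfl, rfl⟩

theorem crit_iff_core {r a b : ℕ} (hr : 2 ≤ r) (hb : 2 ≤ b) :
    (r ≤ a ∧ (a % r = 0 ∨ (b % r = 0 ∧ a % r = 1) ∨
        (a % r ≠ 0 ∧ b % r ≠ 0 ∧ (b % r) * (a % r) < r ∧
          (b < r ∨ (b % r + r) * (a % r) ≤ (b % r) * a + r)))) ↔
    (1 ≤ a / r ∧ (b % r) * (a % r) < r ∧ (b / r = 0 ∨ a % r ≤ (b % r) * (a / r) + 1)) := by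
  obtain ⟨a₁, ℓ, hℓ, ha, hadiv, hamod⟩ := div_mod_decomp hr a
  obtain ⟨b₁, k, hk, hb', hbdiv, hbmod⟩ := div_mod_decomp hr b
  rw [hadiv, hamod, hbdiv, hbmod]
  subst ha hb'
  exact crit_iff hr hℓ hk hb

theorem arith_suff {r a b j : ℕ} (hr : 2 ≤ r)
    (hcore : 1 ≤ a / r ∧ (b % r) * (a % r) < r ∧ (b / r = 0 ∨ a % r ≤ (b % r) * (a / r) + 1))
    (hj : j * r ≤ a * b) :
    ∃ t s, r * t ≤ b ∧ s ≤ (b - r * t) * (a / r) ∧ j = t * a + s := by
  obtain ⟨a₁, ℓ, hℓ, ha, hadiv, hamod⟩ := div_mod_decomp hr a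
  obtain ⟨b₁, k, hk, hb', hbdiv, hbmod⟩ := div_mod_decomp hr b
  rw [hadiv, hamod, hbdiv, hbmod] at hcore
  rw [hadiv]
  subst ha hb'
  exact core_suff hr hℓ hk hcore.1 hcore.2.1 hcore.2.2 hj

theorem arith_nec {r a b : ℕ} (hr : 2 ≤ r) (ha2 : 2 ≤ a) (hb2 : 2 ≤ b) (hrab : r ≤ a * b)
    (hfail : ¬ (1 ≤ a / r ∧ (b % r) * (a % r) < r ∧
      (b / r = 0 ∨ a % r ≤ (b % r) * (a / r) + 1))) :
    ∃ j, 1 ≤ j ∧ j * r ≤ a * b ∧
      ∀ t, r * t ≤ b → ¬ (t * a ≤ j ∧ j ≤ t * a + (b - r * t) * (a / r)) := by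
  obtain ⟨a₁, ℓ, hℓ, ha, hadiv, hamod⟩ := div_mod_decomp hr a
  obtain ⟨b₁, k, hk, hb', hbdiv, hbmod⟩ := div_mod_decomp hr b
  rw [hadiv, hamod, hbdiv, hbmod] at hfail
  rw [hadiv]
  subst ha hb'
  exact core_nec hr hℓ hk ha2 hb2 hrab hfail

theorem partition_count_dvd (a b : ℕ) (ha : 1 ≤ a) :
    a.factorial ^ b * b.factorial ∣ (a * b).factorial := by
  induction b with
  | zero => simp
  | succ b ih =>
    have h1 : (a * b + a).choose a * (a * b).factorial * a.factorial = (a * b + a).factorial :=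
      Nat.add_choose_mul_factorial_mul_factorial (a * b) a
    have h2 : (b + 1) ∣ (a * b + a).choose a := by
      obtain ⟨a', rfl⟩ : ∃ a', a = a' + 1 := ⟨a - 1, by omega⟩
      have h3 := Nat.add_one_mul_choose_eq ((a' + 1) * b + a') a'
      have h4 : (a' + 1) * b + a' + 1 = (a' + 1) * (b + 1) := by ring
      rw [h4] at h3
      have h5 : (a' + 1) * b + (a' + 1) = (a' + 1) * (b + 1) := by ring
      rw [h5]
      have h6 : (a' + 1) * ((b + 1) * ((a' + 1) * b + a').choose a') =
          (a' + 1) * (((a' + 1) * (b + 1)).choose (a' + 1)) := by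
        rw [← mul_assoc, h3]; ring
      have h7 := Nat.eq_of_mul_eq_mul_left (Nat.succ_pos a') h6
      exact Dvd.intro _ h7
    have h8 : a * (b + 1) = a * b + a := by ring
    rw [h8, ← h1, pow_succ, Nat.factorial_succ]
    have h9 : a.factorial ^ b * a.factorial * ((b + 1) * b.factorial) =
        (b + 1) * (a.factorial ^ b * b.factorial) * a.factorial := by ring
    rw [h9]
    exact mul_dvd_mul (mul_dvd_mul h2 ih) (dvd_refl _)

theorem prime_le_of_dvd {a b r : ℕ} (ha : 1 ≤ a) (hr : r.Prime)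
    (hrd : r ∣ (a * b).factorial / (a.factorial ^ b * b.factorial)) : r ≤ a * b := by
  have h1 := Nat.div_mul_cancel (partition_count_dvd a b ha)
  have h2 : r ∣ (a * b).factorial := by
    rw [← h1]
    exact Dvd.dvd.mul_right hrd _
  exact (Nat.Prime.dvd_factorial hr).mp h2

/-- Let a, b ≥ 2 and consider the symmetric group of degree a·b acting on the partitions of an (a·b)-set into b parts of size a (encoded as maps onto a b-element set all of whose fibres have a elements; a permutation fixes such a partition when it permutes the fibres). Let r be a prime dividing the number (ab)!/((a!)^b·b!) of such partitions, and let ℓ and k be the remainders of a and b modulo r. Then every permutation of order r fixes some such partition if and only if r ≤ a and one of the following holds: ℓ = 0; or k = 0 and ℓ = 1; or ℓ and k are non-zero, k·ℓ < r, and either b < r or (k + r)·ℓ ≤ k·a + r. -/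
theorem result (a b : ℕ) (ha : 2 ≤ a) (hb : 2 ≤ b) (r : ℕ) (hr : r.Prime)
    (hrd : r ∣ (a * b).factorial / (a.factorial ^ b * b.factorial)) :
    (∀ σ : Equiv.Perm (Fin (a * b)), orderOf σ = r →
        ∃ f : Fin (a * b) → Fin b, (∀ j : Fin b, Nat.card {x : Fin (a * b) // f x = j} = a) ∧
          ∃ π : Equiv.Perm (Fin b), ∀ x : Fin (a * b), f (σ x) = π (f x)) ↔
      (r ≤ a ∧ (a % r = 0 ∨ (b % r = 0 ∧ a % r = 1) ∨
        (a % r ≠ 0 ∧ b % r ≠ 0 ∧ (b % r) * (a % r) < r ∧ (b < r ∨ (b % r + r) * (a % r) ≤ (b % r) * a + r)))) := by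
  have hr2 := hr.two_le
  have hrab : r ≤ a * b := prime_le_of_dvd (by omega) hr hrd
  rw [crit_iff_core hr2 hb]
  constructor
  · intro h
    by_contra hcore
    obtain ⟨j, hj1, hjr, hno⟩ := arith_nec hr2 ha hb hrab hcore
    obtain ⟨σ, hσr, hσs⟩ := exists_perm_pow (n := a * b) hr j hjr
    have hord : orderOf σ = r := by
      have h1 : orderOf σ ∣ r := orderOf_dvd_of_pow_eq_one hσr
      rcases (Nat.dvd_prime hr).mp h1 with h2 | h2
      · exfalso
        rw [orderOf_eq_one_iff] at h2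
        rw [h2] at hσs
        simp only [Equiv.Perm.support_one, Finset.card_empty] at hσs
        have := Nat.mul_pos hj1 hr.pos
        omega
      · exact h2
    obtain ⟨f, hf, π, hπ⟩ := h σ hord
    obtain ⟨t, ht, hlo, hhi⟩ := necessary_count (a := a) (by omega) hr σ hσr f
      (fun i => by
        have h0 := hf i
        rw [Nat.card_eq_fintype_card, Fintype.card_subtype] at h0
        exact h0) π hπ
    rw [Fintype.card_fin] at ht hhi
    rw [hσs] at hlo hhi
    apply hno t ht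
    constructor
    · exact Nat.le_of_mul_le_mul_right hlo hr.pos
    · have e : t * a * r + (b - r * t) * ((a / r) * r) = (t * a + (b - r * t) * (a / r)) * r := by
        ring
      rw [e] at hhi
      exact Nat.le_of_mul_le_mul_right hhi hr.pos
  · intro hcore σ hσ
    have hσr : σ ^ r = 1 := by rw [← hσ]; exact pow_orderOf_eq_one σ
    obtain ⟨j', hj'⟩ := Equiv.Perm.cycleType_prime_order (σ := σ) (by rw [hσ]; exact hr)
    rw [hσ] at hj'
    have hsupp : σ.support.card = (j' + 1) * r := by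
      rw [← Equiv.Perm.sum_cycleType, hj', Multiset.sum_replicate, smul_eq_mul]
    have hle : (j' + 1) * r ≤ a * b := by
      rw [← hsupp]
      have := σ.support.card_le_univ
      simpa using this
    obtain ⟨t, s, ht, hs, hj⟩ := arith_suff hr2 hcore hle
    exact sufficient hr σ hσr t s ht hs (by rw [hsupp, hj])

end Cfsg.Agent.S3575
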