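import Mathlib
import Cfsg.Statements.S3599

set_option autoImplicit false
set_option linter.style.haveILetI false
set_option linter.unusedSectionVars false
open Cfsg

namespace Cfsg.Agent.S3599

open Equiv

/-- A permutation with `τ ^ r = 1`, `r` prime, moves a number of points divisible by `r`. -/
theorem dvd_card_support {α : Type*} [Fintype α] [DecidableEq α] (τ : Perm α) {r : ℕ}
    (hr : r.Prime) (hτ : τ ^ r = 1) : r ∣ τ.support.card := by
  haveI : Fact r.Prime := ⟨hr⟩
  have h := Equiv.Perm.card_compl_support_modEq (p := r) (n := 1) (σ := τ) (by rwa [pow_one])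
  rw [Finset.card_compl] at h
  have hle : τ.support.card ≤ Fintype.card α := τ.support.card_le_univ
  have h2 := (Nat.modEq_iff_dvd' (Nat.sub_le _ _)).mp h
  rwa [Nat.sub_sub_self hle] at h2

theorem dvd_card_inter_support {α : Type*} [Fintype α] [DecidableEq α] (σ : Perm α) {r : ℕ}
    (hr : r.Prime) (hσ : σ ^ r = 1) (s : Finset α) (hs : ∀ x, σ x ∈ s ↔ x ∈ s) :
    r ∣ (s ∩ σ.support).card := by
  set τ : Perm α := Equiv.Perm.ofSubtype (σ.subtypePerm hs) with hτ
  have hτr : τ ^ r = 1 := by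
    rw [hτ, ← map_pow, Equiv.Perm.subtypePerm_pow]
    have : (σ ^ r).subtypePerm (p := fun x => x ∈ s) (by rw [hσ]; intro x; rfl) = 1 := by
      ext x
      simp [hσ]
    rw [this, map_one]
  have hsupp : τ.support = s ∩ σ.support := by
    ext x
    rw [Equiv.Perm.mem_support, Finset.mem_inter, Equiv.Perm.mem_support]
    by_cases hx : x ∈ s
    · rw [hτ, Equiv.Perm.ofSubtype_apply_of_mem _ hx]
      simp [hx]
    · rw [hτ, Equiv.Perm.ofSubtype_apply_of_not_mem _ hx]
      simp [hx]
  rw [← hsupp]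
  exact dvd_card_support τ hr hτr

/-- An additive subgroup of a field of order `p ^ e` that is stable under multiplication by a
unit of prime order `q`, where `e` is minimal with `q ∣ p ^ e - 1`, is trivial or everything. -/
theorem addSubgroup_eq_top {K : Type} [Field K] [Fintype K] {p q e : ℕ}
    (hp : p.Prime) (hq : q.Prime) (hcard : Nat.card K = p ^ e)
    (hmin : ∀ d : ℕ, q ∣ p ^ d - 1 → 0 < d → e ≤ d)
    (u₀ : Kˣ) (hu1 : u₀ ≠ 1) (huq : u₀ ^ q = 1) (W : AddSubgroup K) (hW : W ≠ ⊥)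
    (hinv : ∀ y ∈ W, (u₀ : K) * y ∈ W) : W = ⊤ := by
  classical
  have hpowinv : ∀ n : ℕ, ∀ y ∈ W, ((u₀ ^ n : Kˣ) : K) * y ∈ W := by
    intro n
    induction n with
    | zero => intro y hy; simpa using hy
    | succ n ih =>
      intro y hy
      have := hinv _ (ih y hy)
      rw [pow_succ', Units.val_mul, mul_assoc]
      exact this
  let τ : Perm K := Units.mulLeft u₀
  have hτ : ∀ x, τ x = (u₀ : K) * x := fun x => rfl
  have hτpow : ∀ n : ℕ, ∀ x, (τ ^ n) x = ((u₀ ^ n : Kˣ) : K) * x := by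
    intro n
    induction n with
    | zero => intro x; simp
    | succ n ih =>
      intro x
      rw [pow_succ', Perm.mul_apply, ih, hτ, pow_succ', Units.val_mul, mul_assoc]
  have hτq : τ ^ q = 1 := by
    apply Equiv.ext
    intro x
    rw [hτpow, huq]
    simp
  set s : Finset K := Finset.univ.filter (fun x => x ∈ W ∧ x ≠ 0) with hs
  have hsinv : ∀ x, τ x ∈ s ↔ x ∈ s := by
    intro x
    simp only [hs, Finset.mem_filter, Finset.mem_univ, true_and, hτ]
    constructor
    · rintro ⟨h1, h2⟩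
      refine ⟨?_, fun h => h2 (by rw [h, mul_zero])⟩
      have h3 := hpowinv (q - 1) _ h1
      have h4 : ((u₀ ^ (q - 1) : Kˣ) : K) * ((u₀ : K) * x) = x := by
        rw [← mul_assoc, ← Units.val_mul, ← pow_succ, Nat.sub_add_cancel hq.pos, huq]
        simp
      rwa [h4] at h3
    · rintro ⟨h1, h2⟩
      exact ⟨hinv x h1, mul_ne_zero u₀.ne_zero h2⟩
  have hdvd := dvd_card_inter_support τ hq hτq s hsinv
  have hsub : s ∩ τ.support = s := by
    apply Finset.inter_eq_left.mpr
    intro x hx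
    rw [hs, Finset.mem_filter] at hx
    rw [Perm.mem_support, hτ]
    intro h
    have h5 : ((u₀ : K) - 1) * x = 0 := by rw [sub_mul, one_mul, h, sub_self]
    rcases mul_eq_zero.mp h5 with h6 | h6
    · apply hu1
      apply Units.ext
      rw [Units.val_one]
      exact sub_eq_zero.mp h6
    · exact hx.2.2 h6
  rw [hsub] at hdvd
  have hscard : s.card + 1 = Nat.card W := by
    have h1 : s = (Finset.univ.filter (fun x => x ∈ W)).erase 0 := by
      ext x
      simp [hs, and_comm]
    have h2 : (0 : K) ∈ Finset.univ.filter (fun x => x ∈ W) := by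
      simp [W.zero_mem]
    rw [h1, Finset.card_erase_of_mem h2, Nat.card_eq_fintype_card, Fintype.card_subtype]
    have h3 : 0 < (Finset.univ.filter (fun x => x ∈ W)).card := Finset.card_pos.mpr ⟨0, h2⟩
    omega
  have hWdvd : Nat.card W ∣ p ^ e := by
    rw [← hcard]
    exact AddSubgroup.card_addSubgroup_dvd_card W
  obtain ⟨d, hde, hd⟩ := (Nat.dvd_prime_pow hp).mp hWdvd
  have hWcard : 1 < Nat.card W := by
    rw [AddSubgroup.one_lt_card_iff_ne_bot]
    exact hW
  have hdpos : 0 < d := by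
    rcases Nat.eq_zero_or_pos d with h | h
    · rw [h, pow_zero] at hd
      omega
    · exact h
  have hqd : q ∣ p ^ d - 1 := by
    rw [← hd, ← hscard]
    simpa using hdvd
  have hed := hmin d hqd hdpos
  have hde' : d = e := le_antisymm hde hed
  rw [hde', ← hcard] at hd
  exact AddSubgroup.eq_top_of_card_eq W hd

/-- The affine group `K ⋊ C` for a subgroup `C` of the units of a field `K`. -/
@[ext] structure Aff (K : Type) [Field K] (C : Subgroup Kˣ) where
  v : K
  u : C

namespace Aff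

variable {K : Type} [Field K] {C : Subgroup Kˣ}

instance : Mul (Aff K C) := ⟨fun x y => ⟨x.v + ((x.u : Kˣ) : K) * y.v, x.u * y.u⟩⟩
instance : One (Aff K C) := ⟨⟨0, 1⟩⟩
instance : Inv (Aff K C) := ⟨fun x => ⟨-((((x.u)⁻¹ : C) : Kˣ) : K) * x.v, (x.u)⁻¹⟩⟩

@[simp] theorem mul_v (x y : Aff K C) : (x * y).v = x.v + ((x.u : Kˣ) : K) * y.v := rfl
@[simp] theorem mul_u (x y : Aff K C) : (x * y).u = x.u * y.u := rfl
@[simp] theorem one_v : (1 : Aff K C).v = 0 := rfl
@[simp] theorem one_u : (1 : Aff K C).u = 1 := rfl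
@[simp] theorem inv_v (x : Aff K C) :
    (x⁻¹).v = -((((x.u)⁻¹ : C) : Kˣ) : K) * x.v := rfl
@[simp] theorem inv_u (x : Aff K C) : (x⁻¹).u = (x.u)⁻¹ := rfl

instance : Group (Aff K C) where
  mul_assoc x y z := by
    apply Aff.ext
    · simp [mul_add, mul_assoc, add_assoc]
    · simp [mul_assoc]
  one_mul x := by
    apply Aff.ext <;> simp
  mul_one x := by
    apply Aff.ext <;> simp
  inv_mul_cancel x := by
    apply Aff.ext <;> simp

/-- The projection onto the complement. -/
def proj : Aff K C →* C where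
  toFun x := x.u
  map_one' := rfl
  map_mul' _ _ := rfl

@[simp] theorem proj_apply (x : Aff K C) : proj x = x.u := rfl

theorem pow_u (x : Aff K C) (n : ℕ) : (x ^ n).u = x.u ^ n := map_pow proj x n

theorem zpow_u (x : Aff K C) (n : ℤ) : (x ^ n).u = x.u ^ n := map_zpow proj x n

theorem pow_v (x : Aff K C) (n : ℕ) :
    (x ^ n).v = (∑ i ∈ Finset.range n, (((x.u : Kˣ) : K)) ^ i) * x.v := by
  induction n with
  | zero => simp
  | succ n ih =>
    rw [pow_succ, mul_v, ih, pow_u, Finset.sum_range_succ, add_mul]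
    simp

/-- translations -/
def tr (C : Subgroup Kˣ) (y : K) : Aff K C := ⟨y, 1⟩

@[simp] theorem tr_v (y : K) : (tr C y).v = y := rfl
@[simp] theorem tr_u (y : K) : (tr C y).u = 1 := rfl

theorem eq_tr_of_u (x : Aff K C) (h : x.u = 1) : x = tr C x.v := by
  apply Aff.ext <;> simp [h]

theorem tr_add (y z : K) : tr C (y + z) = tr C y * tr C z := by
  apply Aff.ext <;> simp

theorem tr_neg (y : K) : tr C (-y) = (tr C y)⁻¹ := by
  apply Aff.ext <;> simp

theorem tr_zero : tr C (0 : K) = 1 := rfl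

theorem conj_tr (h : Aff K C) (y : K) : h * tr C y * h⁻¹ = tr C (((h.u : Kˣ) : K) * y) := by
  apply Aff.ext
  · simp
  · simp

theorem comm_tr (n : Aff K C) (y : K) :
    tr C y * n * (tr C y)⁻¹ * n⁻¹ = tr C ((1 - ((n.u : Kˣ) : K)) * y) := by
  apply Aff.ext
  · simp
    ring
  · simp

end Aff

/-- The properties of the Frobenius groups used below. -/
structure FrobLike (F : Type) [Group F] (p q : ℕ) : Prop where
  fin : Finite F
  ord : ∀ x : F, orderOf x = 1 ∨ orderOf x = p ∨ orderOf x = q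
  exP : ∃ x : F, orderOf x = p
  exQ : ∃ x : F, orderOf x = q
  sub : ∀ H : Subgroup F, p ∣ Nat.card H → q ∣ Nat.card H → H = ⊤
  nor : ∀ N : Subgroup F, N.Normal → N ≠ ⊥ → ¬ p ∣ N.index
  card : ∃ e : ℕ, 1 ≤ e ∧ Nat.card F = p ^ e * q ∧ (e = 1 → q ∣ p - 1)

theorem frobLike_aff {K : Type} [Field K] [Fintype K] {p q e : ℕ} (hp : p.Prime) (hq : q.Prime)
    (hpq : p ≠ q) [CharP K p] (hcard : Nat.card K = p ^ e) (he : 1 ≤ e) (hqe : q ∣ p ^ e - 1)
    (hmin : ∀ d : ℕ, q ∣ p ^ d - 1 → 0 < d → e ≤ d) :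
    ∃ C : Subgroup Kˣ, FrobLike (Aff K C) p q := by
  classical
  haveI : Fact p.Prime := ⟨hp⟩
  haveI : Fact q.Prime := ⟨hq⟩
  have hKu : Nat.card Kˣ = p ^ e - 1 := by rw [Nat.card_units, hcard]
  obtain ⟨w, hw⟩ := exists_prime_orderOf_dvd_card' (G := Kˣ) q (by rw [hKu]; exact hqe)
  let C : Subgroup Kˣ := Subgroup.zpowers w
  have hC : Nat.card C = q := by rw [Nat.card_zpowers, hw]
  refine ⟨C, ?_⟩
  have hw1 : w ≠ 1 := by
    intro h; rw [h, orderOf_one] at hw; exact hq.one_lt.ne hw
  have hCpow : ∀ c : C, c ^ q = 1 := by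
    intro c; rw [← hC]; exact pow_card_eq_one'
  have hCne : ∀ c : C, c ≠ 1 → ((c : Kˣ) : K) - 1 ≠ 0 := by
    intro c hc h
    apply hc
    apply Subtype.ext
    apply Units.ext
    simpa [sub_eq_zero] using h
  have hpowp : ∀ x : Aff K C, x.u = 1 → x ^ p = 1 := by
    intro x hx
    apply Aff.ext
    · rw [Aff.pow_v, hx]
      simp
    · rw [Aff.pow_u, hx, one_pow]; rfl
  have hpowq : ∀ x : Aff K C, x.u ≠ 1 → x ^ q = 1 := by
    intro x hx
    apply Aff.ext
    · rw [Aff.pow_v]
      have h1 := mul_geom_sum (((x.u : Kˣ) : K)) q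
      have h2 : (((x.u : Kˣ) : K)) ^ q = 1 := by
        have := hCpow x.u
        have h3 : ((x.u ^ q : C) : Kˣ) = 1 := by rw [this]; rfl
        rw [← Units.val_pow_eq_pow_val, ← Subgroup.coe_pow, h3]; rfl
      rw [h2, sub_self] at h1
      rcases mul_eq_zero.mp h1 with h | h
      · exact absurd h (hCne x.u hx)
      · rw [h, zero_mul]; rfl
    · rw [Aff.pow_u, hCpow]; rfl
  have hord : ∀ x : Aff K C, orderOf x = 1 ∨ orderOf x = p ∨ orderOf x = q := by
    intro x
    by_cases hx : x.u = 1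
    · have := orderOf_dvd_of_pow_eq_one (hpowp x hx)
      rcases (Nat.dvd_prime hp).mp this with h | h
      · exact Or.inl h
      · exact Or.inr (Or.inl h)
    · have := orderOf_dvd_of_pow_eq_one (hpowq x hx)
      rcases (Nat.dvd_prime hq).mp this with h | h
      · exact Or.inl h
      · exact Or.inr (Or.inr h)
  have hcardF : Nat.card (Aff K C) = p ^ e * q := by
    have : Aff K C ≃ K × C :=
      ⟨fun x => (x.v, x.u), fun y => ⟨y.1, y.2⟩, fun x => rfl, fun y => rfl⟩
    rw [Nat.card_congr this, Nat.card_prod, hcard, hC]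
  have hfin : Finite (Aff K C) := by
    apply Nat.finite_of_card_ne_zero
    rw [hcardF]
    exact (mul_pos (pow_pos hp.pos e) hq.pos).ne'
  have hkey : ∀ (H : Subgroup (Aff K C)) (a : K), a ≠ 0 → Aff.tr C a ∈ H →
      ∀ h : Aff K C, h.u ≠ 1 → (∀ y, Aff.tr C y ∈ H → h * Aff.tr C y * h⁻¹ ∈ H) →
      ∀ y, Aff.tr C y ∈ H := by
    intro H a ha haH h hh hconj
    let W : AddSubgroup K :=
      { carrier := {y | Aff.tr C y ∈ H}
        zero_mem' := by
          show Aff.tr C 0 ∈ H
          rw [Aff.tr_zero]; exact H.one_mem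
        add_mem' := by
          intro y z hy hz
          show Aff.tr C (y + z) ∈ H
          rw [Aff.tr_add]; exact H.mul_mem hy hz
        neg_mem' := by
          intro y hy
          show Aff.tr C (-y) ∈ H
          rw [Aff.tr_neg]; exact H.inv_mem hy }
    have hWne : W ≠ ⊥ := by
      intro hW
      have : a ∈ W := haH
      rw [hW, AddSubgroup.mem_bot] at this
      exact ha this
    have hu1 : (h.u : Kˣ) ≠ 1 := fun h' => hh (Subtype.ext h')
    have huq : (h.u : Kˣ) ^ q = 1 := by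
      have := hCpow h.u
      rw [← Subgroup.coe_pow, this]; rfl
    have hWtop := addSubgroup_eq_top hp hq hcard hmin (h.u : Kˣ) hu1 huq W hWne (by
      intro y hy
      show Aff.tr C _ ∈ H
      rw [← Aff.conj_tr]
      exact hconj y hy)
    intro y
    have : y ∈ W := by rw [hWtop]; trivial
    exact this
  refine ⟨hfin, hord, ?_, ?_, ?_, ?_, ⟨e, he, hcardF, ?_⟩⟩
  · refine ⟨Aff.tr C 1, orderOf_eq_prime (hpowp _ rfl) ?_⟩
    intro h
    have := congrArg Aff.v h
    simp at this
  · refine ⟨⟨0, ⟨w, Subgroup.mem_zpowers w⟩⟩, orderOf_eq_prime (hpowq _ ?_) ?_⟩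
    · intro h
      apply hw1
      exact congrArg Subtype.val h
    · intro h
      apply hw1
      have := congrArg Aff.u h
      exact congrArg Subtype.val this
  · intro H hpH hqH
    obtain ⟨x, hx⟩ := exists_prime_orderOf_dvd_card' (G := H) p hpH
    obtain ⟨h, hh⟩ := exists_prime_orderOf_dvd_card' (G := H) q hqH
    have hxu : (x : Aff K C).u = 1 := by
      by_contra hne
      have h1 := orderOf_dvd_of_pow_eq_one (hpowq (x : Aff K C) hne)
      rw [Subgroup.orderOf_coe, hx] at h1
      exact hpq ((Nat.prime_dvd_prime_iff_eq hp hq).mp h1)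
    have hhu : (h : Aff K C).u ≠ 1 := by
      intro he
      have h1 := orderOf_dvd_of_pow_eq_one (hpowp (h : Aff K C) he)
      rw [Subgroup.orderOf_coe, hh] at h1
      exact hpq ((Nat.prime_dvd_prime_iff_eq hq hp).mp h1).symm
    have hx1 : (x : Aff K C) ≠ 1 := by
      intro h1
      have : orderOf (x : Aff K C) = 1 := by rw [h1, orderOf_one]
      rw [Subgroup.orderOf_coe, hx] at this
      exact hp.one_lt.ne' this
    have hxv : (x : Aff K C).v ≠ 0 := by
      intro h0
      apply hx1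
      apply Aff.ext
      · exact h0
      · exact hxu
    have hxtr : Aff.tr C (x : Aff K C).v ∈ H := by
      rw [← Aff.eq_tr_of_u _ hxu]; exact x.2
    have hall := hkey H _ hxv hxtr (h : Aff K C) hhu
      (fun y hy => H.mul_mem (H.mul_mem h.2 hy) (H.inv_mem h.2))
    rw [eq_top_iff]
    intro g _
    have hgen : g.u ∈ Subgroup.zpowers (h : Aff K C).u := mem_zpowers_of_prime_card hC hhu
    obtain ⟨k, hk⟩ := hgen
    have h2 : (g * ((h : Aff K C) ^ k)⁻¹).u = 1 := by
      rw [Aff.mul_u, Aff.inv_u, Aff.zpow_u]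
      simp only at hk
      rw [hk]; exact mul_inv_cancel _
    have h3 : g * ((h : Aff K C) ^ k)⁻¹ ∈ H := by
      rw [Aff.eq_tr_of_u _ h2]; exact hall _
    have h4 : g = g * ((h : Aff K C) ^ k)⁻¹ * (h : Aff K C) ^ k := by group
    rw [h4]
    exact H.mul_mem h3 (H.zpow_mem h.2 k)
  · intro N hN hNne hpN
    obtain ⟨n, hn⟩ := Subgroup.ne_bot_iff_exists_ne_one.mp hNne
    have hn1 : (n : Aff K C) ≠ 1 := fun h => hn (Subtype.ext h)
    have htr : ∃ a : K, a ≠ 0 ∧ Aff.tr C a ∈ N := by
      by_cases hnu : (n : Aff K C).u = 1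
      · refine ⟨(n : Aff K C).v, ?_, ?_⟩
        · intro h0
          apply hn1
          apply Aff.ext
          · exact h0
          · exact hnu
        · rw [← Aff.eq_tr_of_u _ hnu]; exact n.2
      · refine ⟨(1 - (((n : Aff K C).u : Kˣ) : K)) * 1, ?_, ?_⟩
        · rw [mul_one]
          intro h0
          apply hCne _ hnu
          rw [← neg_eq_zero, neg_sub]; exact h0
        · rw [← Aff.comm_tr]
          exact N.mul_mem (hN.conj_mem _ n.2 _) (N.inv_mem n.2)
    obtain ⟨a, ha, haN⟩ := htr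
    have hall := hkey N a ha haN ⟨0, ⟨w, Subgroup.mem_zpowers w⟩⟩ (by
      intro h; apply hw1; exact congrArg Subtype.val h) (fun y hy => hN.conj_mem _ hy _)
    have hker : (Aff.proj (K := K) (C := C)).ker ≤ N := by
      intro x hx
      rw [MonoidHom.mem_ker, Aff.proj_apply] at hx
      rw [Aff.eq_tr_of_u _ hx]; exact hall _
    have h1 := Subgroup.index_dvd_of_le hker
    rw [Subgroup.index_ker] at h1
    have h2 : Nat.card (Aff.proj (K := K) (C := C)).range ∣ q := by
      rw [← hC]; exact Subgroup.card_subgroup_dvd_card _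
    have h3 := (hpN.trans h1).trans h2
    exact hpq ((Nat.prime_dvd_prime_iff_eq hp hq).mp h3)
  · intro he1
    rw [he1, pow_one] at hqe
    exact hqe

/-- A bundled Frobenius-like group. -/
structure FrobData (p q : ℕ) : Type 1 where
  F : Type
  [grp : Group F]
  h : FrobLike F p q

instance instGroupFrobData (p q : ℕ) (D : FrobData p q) : Group D.F := D.grp

instance instFiniteFrobData (p q : ℕ) (D : FrobData p q) : Finite D.F := D.h.fin

theorem nonempty_frobData (p q : ℕ) (hp : p.Prime) (hq : q.Prime) (hpq : p ≠ q) :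
    Nonempty (FrobData p q) := by
  classical
  haveI : Fact p.Prime := ⟨hp⟩
  have hex : ∃ d : ℕ, 0 < d ∧ q ∣ p ^ d - 1 := by
    refine ⟨Nat.totient q, Nat.totient_pos.mpr hq.pos, ?_⟩
    have hcop : Nat.Coprime p q := (Nat.coprime_primes hp hq).mpr hpq
    have := Nat.ModEq.pow_totient hcop
    exact (Nat.modEq_iff_dvd' (Nat.one_le_pow _ _ hp.pos)).mp this.symm
  let e := Nat.find hex
  have he : 0 < e ∧ q ∣ p ^ e - 1 := Nat.find_spec hex
  have hmin : ∀ d : ℕ, q ∣ p ^ d - 1 → 0 < d → e ≤ d :=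
    fun d hd hd0 => Nat.find_min' hex ⟨hd0, hd⟩
  haveI : Fintype (GaloisField p e) := Fintype.ofFinite _
  obtain ⟨C, hC⟩ := frobLike_aff (K := GaloisField p e) hp hq hpq
    (GaloisField.card p e he.1.ne') he.1 he.2 hmin
  exact ⟨⟨Aff (GaloisField p e) C, hC⟩⟩

theorem prod_dvd_of_pairwise_coprime {ι : Type*} [DecidableEq ι] (t : Finset ι) (f : ι → ℕ)
    (n : ℕ) (hco : ∀ i ∈ t, ∀ j ∈ t, i ≠ j → Nat.Coprime (f i) (f j))
    (hdvd : ∀ i ∈ t, f i ∣ n) : ∏ i ∈ t, f i ∣ n := by
  induction t using Finset.induction_on with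
  | empty => simp
  | insert a t ha ih =>
    rw [Finset.prod_insert ha]
    apply Nat.Coprime.mul_dvd_of_dvd_of_dvd
    · apply Nat.Coprime.prod_right
      intro i hi
      exact hco a (Finset.mem_insert_self a t) i (Finset.mem_insert_of_mem hi)
        (fun h => ha (h ▸ hi))
    · exact hdvd a (Finset.mem_insert_self a t)
    · exact ih (fun i hi j hj hij => hco i (Finset.mem_insert_of_mem hi) j
        (Finset.mem_insert_of_mem hj) hij) (fun i hi => hdvd i (Finset.mem_insert_of_mem hi))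

theorem prod_critical {s : ℕ} (F : Fin s → Type) [∀ j, Group (F j)] (P Q : Fin s → ℕ)
    (hP : ∀ j, (P j).Prime) (hQ : ∀ j, (Q j).Prime)
    (hPQ : ∀ i j, P i ≠ Q j) (hPP : ∀ i j, i ≠ j → P i ≠ P j) (hQQ : ∀ i j, i ≠ j → Q i ≠ Q j)
    (hF : ∀ j, FrobLike (F j) (P j) (Q j)) (Ω : Set ℕ)
    (hΩ : ∀ m, m ∈ Ω ↔ ∃ c : Fin s → ℕ, (∀ j, c j = 1 ∨ c j = P j ∨ c j = Q j) ∧ m = ∏ j, c j) :
    Set.range (orderOf : (∀ j, F j) → ℕ) = Ω ∧
    ∀ (H : Subgroup (∀ j, F j)) (N : Subgroup ↥H) [N.Normal], (H ≠ ⊤ ∨ N ≠ ⊥) →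
      Set.range (orderOf : (↥H ⧸ N) → ℕ) ≠ Ω := by
  classical
  haveI : ∀ j, Finite (F j) := fun j => (hF j).fin
  have hcardF : ∀ j, ∃ e : ℕ, 1 ≤ e ∧ Nat.card (F j) = P j ^ e * Q j := fun j => by
    obtain ⟨e, he, hc, _⟩ := (hF j).card
    exact ⟨e, he, hc⟩
  have hPdvd : ∀ j, P j ∣ Nat.card (F j) := by
    intro j
    obtain ⟨e, he, hc⟩ := hcardF j
    rw [hc]
    exact Dvd.dvd.mul_right (dvd_pow_self _ (by omega)) _
  have hQdvd : ∀ j, Q j ∣ Nat.card (F j) := by
    intro j
    obtain ⟨e, he, hc⟩ := hcardF j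
    rw [hc]
    exact Dvd.intro_left _ rfl
  have hprime_dvd : ∀ j (r : ℕ), r.Prime → r ∣ Nat.card (F j) → r = P j ∨ r = Q j := by
    intro j r hr hdvd
    obtain ⟨e, he, hc⟩ := hcardF j
    rw [hc] at hdvd
    rcases (Nat.Prime.dvd_mul hr).mp hdvd with h | h
    · exact Or.inl ((Nat.prime_dvd_prime_iff_eq hr (hP j)).mp (hr.dvd_of_dvd_pow h))
    · exact Or.inr ((Nat.prime_dvd_prime_iff_eq hr (hQ j)).mp h)
  have hcop : ∀ i j, i ≠ j → Nat.Coprime (Nat.card (F i)) (Nat.card (F j)) := by
    intro i j hij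
    by_contra h
    obtain ⟨r, hr, h1, h2⟩ := Nat.Prime.not_coprime_iff_dvd.mp h
    rcases hprime_dvd i r hr h1 with h3 | h3 <;> rcases hprime_dvd j r hr h2 with h4 | h4
    · exact hPP i j hij (h3.symm.trans h4)
    · exact hPQ i j (h3.symm.trans h4)
    · exact hPQ j i (h4.symm.trans h3)
    · exact hQQ i j hij (h3.symm.trans h4)
  have hord : ∀ g : (∀ j, F j), orderOf g = ∏ j, orderOf (g j) := by
    intro g
    apply Nat.dvd_antisymm
    · apply orderOf_dvd_of_pow_eq_one
      funext j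
      rw [Pi.pow_apply, Pi.one_apply]
      exact orderOf_dvd_iff_pow_eq_one.mp (Finset.dvd_prod_of_mem _ (Finset.mem_univ j))
    · apply prod_dvd_of_pairwise_coprime
      · intro i _ j _ hij
        exact Nat.Coprime.coprime_dvd_left (orderOf_dvd_natCard _)
          (Nat.Coprime.coprime_dvd_right (orderOf_dvd_natCard _) (hcop i j hij))
      · intro i _
        exact orderOf_apply_dvd_orderOf i
  refine ⟨?_, ?_⟩
  · ext m
    rw [hΩ]
    constructor
    · rintro ⟨g, rfl⟩
      exact ⟨fun j => orderOf (g j), fun j => (hF j).ord (g j), hord g⟩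
    · rintro ⟨c, hc, rfl⟩
      have : ∀ j, ∃ x : F j, orderOf x = c j := by
        intro j
        rcases hc j with h | h | h
        · exact ⟨1, by rw [orderOf_one, h]⟩
        · obtain ⟨x, hx⟩ := (hF j).exP
          exact ⟨x, by rw [hx, h]⟩
        · obtain ⟨x, hx⟩ := (hF j).exQ
          exact ⟨x, by rw [hx, h]⟩
      choose g hg using this
      exact ⟨g, by rw [hord]; exact Finset.prod_congr rfl (fun j _ => hg j)⟩
  · intro H N _ hHN heq
    have hmemP : ∀ j, P j ∈ Ω := fun j => (hΩ _).mpr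
      ⟨fun i => if i = j then P j else 1, fun i => by
        by_cases h : i = j
        · right; left; simp [h]
        · left; simp [h], by simp⟩
    have hmemQ : ∀ j, Q j ∈ Ω := fun j => (hΩ _).mpr
      ⟨fun i => if i = j then Q j else 1, fun i => by
        by_cases h : i = j
        · right; right; simp [h]
        · left; simp [h], by simp⟩
    have hidxP : ∀ j, P j ∣ N.index := by
      intro j
      have h1 := hmemP j
      rw [← heq] at h1
      obtain ⟨x, hx⟩ := h1
      rw [← hx]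
      exact orderOf_dvd_natCard x
    have hidxQ : ∀ j, Q j ∣ N.index := by
      intro j
      have h1 := hmemQ j
      rw [← heq] at h1
      obtain ⟨x, hx⟩ := h1
      rw [← hx]
      exact orderOf_dvd_natCard x
    have hcardH : ∀ j, Nat.card (F j) ∣ Nat.card H := by
      intro j
      have key : ∀ r : ℕ, r.Prime → r ∣ Nat.card (F j) → r ∣ Nat.card H →
          r ∣ Nat.card (H.map (Pi.evalMonoidHom F j)) := by
        intro r hr hrj hdvd
        haveI : Fact r.Prime := ⟨hr⟩
        obtain ⟨h, hh⟩ := exists_prime_orderOf_dvd_card' (G := H) r hdvd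
        have h1 : orderOf (h : ∀ j, F j) = r := by rw [Subgroup.orderOf_coe, hh]
        have h2 : ∀ i, i ≠ j → orderOf ((h : ∀ j, F j) i) = 1 := by
          intro i hij
          have h3 : orderOf ((h : ∀ j, F j) i) ∣ r := h1 ▸ orderOf_apply_dvd_orderOf i
          rcases (Nat.dvd_prime hr).mp h3 with h4 | h4
          · exact h4
          · exfalso
            have h5 : r ∣ Nat.card (F i) := h4 ▸ orderOf_dvd_natCard _
            exact hr.one_lt.ne' (Nat.eq_one_of_dvd_coprimes (hcop i j hij) h5 hrj)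
        have h8 : orderOf ((h : ∀ j, F j) j) = r := by
          rw [← h1, hord]
          symm
          apply Finset.prod_eq_single j
          · intro i _ hij
            exact h2 i hij
          · intro hj
            exact absurd (Finset.mem_univ j) hj
        rw [← h8]
        apply Subgroup.orderOf_dvd_natCard
        exact ⟨(h : ∀ j, F j), h.2, rfl⟩
      have htop := (hF j).sub (H.map (Pi.evalMonoidHom F j))
        (key _ (hP j) (hPdvd j) ((hidxP j).trans (Subgroup.index_dvd_card N)))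
        (key _ (hQ j) (hQdvd j) ((hidxQ j).trans (Subgroup.index_dvd_card N)))
      have := Subgroup.card_map_dvd H (Pi.evalMonoidHom F j)
      rw [htop, Subgroup.card_top] at this
      exact this
    have hHtop : H = ⊤ := by
      apply Subgroup.eq_top_of_card_eq
      apply Nat.dvd_antisymm (Subgroup.card_subgroup_dvd_card H)
      rw [Nat.card_pi]
      exact prod_dvd_of_pairwise_coprime _ _ _ (fun i _ j _ hij => hcop i j hij)
        (fun i _ => hcardH i)
    have hNbot : N = ⊥ := by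
      by_contra hN
      obtain ⟨n, hn⟩ := Subgroup.ne_bot_iff_exists_ne_one.mp hN
      have hn1 : ((n : H) : ∀ j, F j) ≠ 1 := fun h => hn (Subtype.ext (Subtype.ext h))
      obtain ⟨j, hj⟩ := Function.ne_iff.mp hn1
      have hsurj1 : Function.Surjective H.subtype :=
        fun g => ⟨⟨g, hHtop ▸ Subgroup.mem_top g⟩, rfl⟩
      have hsurj2 : Function.Surjective (Pi.evalMonoidHom F j) :=
        fun y => ⟨Pi.mulSingle j y, by simp⟩
      have hnorm : ((N.map H.subtype).map (Pi.evalMonoidHom F j)).Normal :=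
        ((inferInstance : N.Normal).map _ hsurj1).map _ hsurj2
      have hne : (N.map H.subtype).map (Pi.evalMonoidHom F j) ≠ ⊥ := by
        intro hbot
        have : ((n : H) : ∀ j, F j) j ∈ (N.map H.subtype).map (Pi.evalMonoidHom F j) :=
          ⟨((n : H) : ∀ j, F j), ⟨(n : H), n.2, rfl⟩, rfl⟩
        rw [hbot, Subgroup.mem_bot] at this
        exact hj this
      have hnot := (hF j).nor _ hnorm hne
      apply hnot
      have c1 : Nat.card N * N.index = Nat.card H := Subgroup.card_mul_index N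
      have c2 : Nat.card H = Nat.card (∀ j, F j) := by rw [hHtop, Subgroup.card_top]
      have c3 : Nat.card (∀ j, F j) =
          Nat.card (F j) * ∏ i ∈ Finset.univ.erase j, Nat.card (F i) := by
        rw [Nat.card_pi]
        exact (Finset.mul_prod_erase _ (fun i => Nat.card (F i)) (Finset.mem_univ j)).symm
      have c4 : Nat.card ((N.map H.subtype).map (Pi.evalMonoidHom F j)) *
          ((N.map H.subtype).map (Pi.evalMonoidHom F j)).index = Nat.card (F j) :=
        Subgroup.card_mul_index _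
      have c5 : Nat.card ((N.map H.subtype).map (Pi.evalMonoidHom F j)) ∣ Nat.card N := by
        rw [Subgroup.map_map]
        exact Subgroup.card_map_dvd N _
      obtain ⟨t, ht⟩ := c5
      have c6 : Nat.Coprime (P j) (∏ i ∈ Finset.univ.erase j, Nat.card (F i)) := by
        apply Nat.Coprime.prod_right
        intro i hi
        have hij : i ≠ j := Finset.ne_of_mem_erase hi
        exact Nat.Coprime.coprime_dvd_left (hPdvd j) (hcop j i (Ne.symm hij))
      have hpos : 0 < Nat.card ((N.map H.subtype).map (Pi.evalMonoidHom F j)) := Nat.card_pos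
      have c7 : t * N.index = ((N.map H.subtype).map (Pi.evalMonoidHom F j)).index *
          ∏ i ∈ Finset.univ.erase j, Nat.card (F i) := by
        apply Nat.eq_of_mul_eq_mul_left hpos
        calc Nat.card ((N.map H.subtype).map (Pi.evalMonoidHom F j)) * (t * N.index)
            = Nat.card N * N.index := by rw [ht, mul_assoc]
          _ = Nat.card ((N.map H.subtype).map (Pi.evalMonoidHom F j)) *
              (((N.map H.subtype).map (Pi.evalMonoidHom F j)).index *
                ∏ i ∈ Finset.univ.erase j, Nat.card (F i)) := by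
              rw [c1, c2, c3, ← c4, mul_assoc]
      have c8 : P j ∣ ((N.map H.subtype).map (Pi.evalMonoidHom F j)).index *
          ∏ i ∈ Finset.univ.erase j, Nat.card (F i) := by
        rw [← c7]
        exact Dvd.dvd.mul_left (hidxP j) t
      exact Nat.Coprime.dvd_of_dvd_mul_right c6 c8
    rcases hHN with h | h
    · exact h hHtop
    · exact h hNbot

theorem not_sq_dvd {r q e X : ℕ} (hr : r.Prime) (hq : q.Prime) (hrq : r ≠ q) (hX : ¬ r ∣ X) :
    ¬ r ^ 2 ∣ q ^ e * r * X := by
  intro h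
  have h1 : q ^ e * r * X = r * (q ^ e * X) := by ring
  rw [h1, pow_two] at h
  have h2 : r ∣ q ^ e * X := (Nat.mul_dvd_mul_iff_left hr.pos).mp h
  rcases (Nat.Prime.dvd_mul hr).mp h2 with h3 | h3
  · exact hrq ((Nat.prime_dvd_prime_iff_eq hr hq).mp (hr.dvd_of_dvd_pow h3))
  · exact hX h3

theorem fin2_add_one_ne : ∀ i : Fin 2, i + 1 ≠ i := by decide

theorem fin2_eq_add_one : ∀ i k : Fin 2, k ≠ i → k + 1 = i := by decide

theorem noniso_aux {s : ℕ} (p : Fin s → Fin 2 → ℕ) (hp : ∀ j i, (p j i).Prime)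
    (hinj : ∀ j i j' i', p j i = p j' i' → j = j' ∧ i = i') (e : Fin s → Fin 2 → ℕ)
    (he1 : ∀ j i, 1 ≤ e j i) (hediv : ∀ j i, e j i = 1 → p j (i + 1) ∣ p j i - 1)
    (α β : Fin s → Fin 2) (hne : α ≠ β) :
    ∏ j, (p j (α j) ^ e j (α j) * p j (α j + 1)) ≠
      ∏ j, (p j (β j) ^ e j (β j) * p j (β j + 1)) := by
  classical
  intro heq
  obtain ⟨j, hj⟩ := Function.ne_iff.mp hne
  have hB : ∀ (γ : Fin s → Fin 2) (i : Fin 2), γ j ≠ i →
      ¬ (p j i) ^ 2 ∣ ∏ k, (p k (γ k) ^ e k (γ k) * p k (γ k + 1)) := by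
    intro γ i hγ
    rw [← Finset.mul_prod_erase _ _ (Finset.mem_univ j)]
    have h1 : γ j + 1 = i := fin2_eq_add_one _ _ hγ
    rw [h1]
    apply not_sq_dvd (hp j i) (hp j (γ j))
    · intro h
      exact hγ (hinj _ _ _ _ h).2.symm
    · intro h
      obtain ⟨k, hk, hdvd⟩ := (Prime.dvd_finsetProd_iff (Nat.Prime.prime (hp j i)) _).mp h
      have hkj : k ≠ j := Finset.ne_of_mem_erase hk
      rcases (Nat.Prime.dvd_mul (hp j i)).mp hdvd with h3 | h3
      · have := (Nat.prime_dvd_prime_iff_eq (hp j i) (hp k (γ k))).mp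
          ((hp j i).dvd_of_dvd_pow h3)
        exact hkj (hinj _ _ _ _ this).1.symm
      · have := (Nat.prime_dvd_prime_iff_eq (hp j i) (hp k (γ k + 1))).mp h3
        exact hkj (hinj _ _ _ _ this).1.symm
  have hA : ∀ (γ : Fin s → Fin 2),
      (p j (γ j)) ^ (e j (γ j)) ∣ ∏ k, (p k (γ k) ^ e k (γ k) * p k (γ k + 1)) := by
    intro γ
    exact (Dvd.intro _ rfl).trans
      (Finset.dvd_prod_of_mem (fun k => p k (γ k) ^ e k (γ k) * p k (γ k + 1))
        (Finset.mem_univ j))
  have h1 : e j (α j) = 1 := by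
    have h2 := hA α
    rw [heq] at h2
    have h3 := hB β (α j) (Ne.symm hj)
    by_contra h4
    have h5 : 2 ≤ e j (α j) := by
      have := he1 j (α j)
      omega
    exact h3 ((pow_dvd_pow _ h5).trans h2)
  have h1' : e j (β j) = 1 := by
    have h2 := hA β
    rw [← heq] at h2
    have h3 := hB α (β j) hj
    by_contra h4
    have h5 : 2 ≤ e j (β j) := by
      have := he1 j (β j)
      omega
    exact h3 ((pow_dvd_pow _ h5).trans h2)
  have h6 := hediv j (α j) h1
  have h7 := hediv j (β j) h1'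
  rw [fin2_eq_add_one _ _ hj] at h6
  rw [fin2_eq_add_one _ _ (Ne.symm hj)] at h7
  have ha := (hp j (α j)).two_le
  have hb := (hp j (β j)).two_le
  have h8 := Nat.le_of_dvd (by omega) h6
  have h9 := Nat.le_of_dvd (by omega) h7
  omega

theorem result (s : ℕ) (hs : 1 ≤ s) (p : Fin s → Fin 2 → ℕ)
    (hp : ∀ j i, (p j i).Prime) (hinj : ∀ j i j' i', p j i = p j' i' → j = j' ∧ i = i') :
    ∃ (G : Fin (2 ^ s) → Type) (_ : ∀ a, Group (G a)) (_ : ∀ a, Fintype (G a)),
      (∀ a b, a ≠ b → ¬ Nonempty (G a ≃* G b)) ∧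
      ∀ a, Set.range (orderOf : (G a) → ℕ) = {m : ℕ | ∃ c : Fin s → ℕ, (∀ j, c j = 1 ∨ c j = p j 0 ∨ c j = p j 1) ∧ m = ∏ j, c j} ∧
      ∀ (H : Subgroup (G a)) (N : Subgroup ↥H) [N.Normal], (H ≠ ⊤ ∨ N ≠ ⊥) → Set.range (orderOf : (↥H ⧸ N) → ℕ) ≠ {m : ℕ | ∃ c : Fin s → ℕ, (∀ j, c j = 1 ∨ c j = p j 0 ∨ c j = p j 1) ∧ m = ∏ j, c j} := by
  classical
  have hne : ∀ j i, p j i ≠ p j (i + 1) := by
    intro j i h
    exact fin2_add_one_ne i (hinj _ _ _ _ h).2.symm
  let D : ∀ j i, FrobData (p j i) (p j (i + 1)) := fun j i =>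
    Classical.choice (nonempty_frobData _ _ (hp j i) (hp j (i + 1)) (hne j i))
  let α : Fin (2 ^ s) → Fin s → Fin 2 := fun a => finFunctionFinEquiv.symm a
  have hαinj : Function.Injective α := fun a b h => finFunctionFinEquiv.symm.injective h
  have hcard := fun j i => (D j i).h.card
  choose e he1 hecard hediv using hcard
  refine ⟨fun a => ∀ j, (D j (α a j)).F, fun a => inferInstance, fun a => Fintype.ofFinite _,
    ?_, ?_⟩
  · intro a b hab ⟨φ⟩
    have h1 := Nat.card_congr φ.toEquiv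
    rw [Nat.card_pi, Nat.card_pi] at h1
    apply noniso_aux p hp hinj e he1 hediv (α a) (α b) (fun h => hab (hαinj h))
    rw [← Finset.prod_congr rfl (fun j _ => hecard j (α a j)),
      ← Finset.prod_congr rfl (fun j _ => hecard j (α b j))]
    exact h1
  · intro a
    have hiff : ∀ (i : Fin 2) (j : Fin s) (x : ℕ),
        (x = 1 ∨ x = p j 0 ∨ x = p j 1) ↔ (x = 1 ∨ x = p j i ∨ x = p j (i + 1)) := by
      intro i j x
      have h01 : ((0 : Fin 2) + 1) = 1 := rfl
      have h10 : ((1 : Fin 2) + 1) = 0 := rfl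
      fin_cases i
      · show _ ↔ (x = 1 ∨ x = p j 0 ∨ x = p j (0 + 1))
        rw [h01]
      · show _ ↔ (x = 1 ∨ x = p j 1 ∨ x = p j (1 + 1))
        rw [h10]
        tauto
    refine prod_critical (fun j => (D j (α a j)).F) (fun j => p j (α a j))
      (fun j => p j (α a j + 1)) (fun j => hp _ _) (fun j => hp _ _) ?_ ?_ ?_
      (fun j => (D j (α a j)).h) _ ?_
    · intro i j h
      have h2 := hinj _ _ _ _ h
      obtain ⟨h3, h4⟩ := h2
      subst h3
      exact fin2_add_one_ne _ h4.symm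
    · intro i j hij h
      exact hij (hinj _ _ _ _ h).1
    · intro i j hij h
      exact hij (hinj _ _ _ _ h).1
    · intro m
      constructor
      · rintro ⟨c, hc, rfl⟩
        exact ⟨c, fun j => (hiff (α a j) j (c j)).mp (hc j), rfl⟩
      · rintro ⟨c, hc, rfl⟩
        exact ⟨c, fun j => (hiff (α a j) j (c j)).mpr (hc j), rfl⟩

end Cfsg.Agent.S3599
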