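import Cfsg.Statements.S3619

set_option autoImplicit false
open Cfsg

namespace Cfsg.Agent.S3619

open MulAction SubMulAction

open scoped Pointwise

/-- A quasiprimitive group with a Jordan set on which the pointwise stabilizer of the complement
acts primitively is primitive. -/
theorem isPreprimitive_of_quasi {G Ω : Type*} [Group G] [MulAction G Ω] [Finite Ω]
    (hqp : ∀ N : Subgroup G, N.Normal → N ≠ ⊥ → MulAction.IsPretransitive ↥N Ω)
    (Γ : Set Ω) (hΓ1 : 1 < Γ.ncard)
    (hJp : MulAction.IsPreprimitive ↥(fixingSubgroup G Γᶜ) ↥(SubMulAction.ofFixingSubgroup G Γᶜ)) :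
    MulAction.IsPreprimitive G Ω := by
  classical
  -- two distinct points of Γ
  obtain ⟨x, hx, y, hy, hxy⟩ := (Set.one_lt_ncard (Γ.toFinite)).mp hΓ1
  have hxm : x ∈ ofFixingSubgroup G Γᶜ := by rw [mem_ofFixingSubgroup_iff]; simpa using hx
  have hym : y ∈ ofFixingSubgroup G Γᶜ := by rw [mem_ofFixingSubgroup_iff]; simpa using hy
  -- an element of the fixing subgroup moving x to y
  obtain ⟨h, hh⟩ := hJp.toIsPretransitive.exists_smul_eq
    (⟨x, hxm⟩ : ofFixingSubgroup G Γᶜ) ⟨y, hym⟩
  have hh' : (h : G) • x = y := by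
    exact congrArg Subtype.val hh
  have hne : (h : G) ≠ 1 := by
    intro h1; rw [h1, one_smul] at hh'; exact hxy hh'
  have hfix : ∀ z, z ∉ Γ → (h : G) • z = z := by
    intro z hz
    have := (mem_fixingSubgroup_iff G).mp h.2 z (by simpa using hz)
    exact this
  -- G is transitive
  have htop : (⊤ : Subgroup G) ≠ ⊥ := by
    intro h0
    apply hne
    have : (h : G) ∈ (⊤ : Subgroup G) := Subgroup.mem_top _
    rw [h0] at this
    exact Subgroup.mem_bot.mp this
  have htrans : IsPretransitive G Ω := by
    have := hqp ⊤ inferInstance htop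
    constructor
    intro a b
    obtain ⟨g, hg⟩ := this.exists_smul_eq a b
    exact ⟨g, hg⟩
  refine { toIsPretransitive := htrans, isTrivialBlock_of_isBlock := ?_ }
  intro B hB
  by_contra hBt
  have hBns : ¬ B.Subsingleton := fun hs => hBt (Or.inl hs)
  have hBnu : B ≠ Set.univ := fun hs => hBt (Or.inr hs)
  -- the normal core of the stabilizer of B is trivial
  have hcore : (stabilizer G B).normalCore = ⊥ := by
    by_contra hN
    have := hqp _ inferInstance hN
    obtain ⟨a, ha⟩ : B.Nonempty := by
      rw [Set.nonempty_iff_ne_empty]; rintro rfl; exact hBns Set.subsingleton_empty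
    obtain ⟨b, hb⟩ : ∃ b, b ∉ B := by
      by_contra hall
      exact hBnu (Set.eq_univ_of_forall fun b => by_contra fun hb => hall ⟨b, hb⟩)
    obtain ⟨n, hn⟩ := this.exists_smul_eq a b
    have hnB : (n : G) • B = B := by
      have := Subgroup.normalCore_le _ n.2
      exact mem_stabilizer_iff.mp this
    apply hb
    rw [← hnB, ← hn]
    exact Set.smul_mem_smul_set ha
  -- but the fixing subgroup lies in it
  have hle : (h : G) ∈ (stabilizer G B).normalCore := by
    intro g
    rw [mem_stabilizer_iff]
    have hB' : IsBlock G (g⁻¹ • B) := hB.translate g⁻¹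
    have hmeet : ¬ Disjoint ((h : G) • (g⁻¹ • B)) (g⁻¹ • B) := by
      rw [Set.not_disjoint_iff]
      by_cases hsub : g⁻¹ • B ⊆ Γ
      · have hblk := hB'.preimage (ofFixingSubgroup_equivariantMap G Γᶜ)
        rcases hJp.isTrivialBlock_of_isBlock hblk with hs | hu
        · exfalso
          apply hBns
          have hs' : (g⁻¹ • B).Subsingleton := by
            intro a ha b hb
            have ha' : a ∈ ofFixingSubgroup G Γᶜ := by
              rw [mem_ofFixingSubgroup_iff]; simpa using hsub ha
            have hb' : b ∈ ofFixingSubgroup G Γᶜ := by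
              rw [mem_ofFixingSubgroup_iff]; simpa using hsub hb
            have h1 : (⟨a, ha'⟩ : ofFixingSubgroup G Γᶜ) ∈
                (ofFixingSubgroup_equivariantMap G Γᶜ) ⁻¹' (g⁻¹ • B) := ha
            have h2 : (⟨b, hb'⟩ : ofFixingSubgroup G Γᶜ) ∈
                (ofFixingSubgroup_equivariantMap G Γᶜ) ⁻¹' (g⁻¹ • B) := hb
            exact congrArg Subtype.val (hs h1 h2)
          intro a ha b hb
          have := hs' (Set.smul_mem_smul_set (a := g⁻¹) ha) (Set.smul_mem_smul_set (a := g⁻¹) hb)
          exact (MulAction.injective g⁻¹) this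
        · have hxB : x ∈ g⁻¹ • B := by
            have : (⟨x, hxm⟩ : ofFixingSubgroup G Γᶜ) ∈
                (ofFixingSubgroup_equivariantMap G Γᶜ) ⁻¹' (g⁻¹ • B) := by
              rw [hu]; exact Set.mem_univ _
            exact this
          have hyB : y ∈ g⁻¹ • B := by
            have : (⟨y, hym⟩ : ofFixingSubgroup G Γᶜ) ∈
                (ofFixingSubgroup_equivariantMap G Γᶜ) ⁻¹' (g⁻¹ • B) := by
              rw [hu]; exact Set.mem_univ _
            exact this
          refine ⟨y, ?_, hyB⟩
          rw [← hh']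
          exact Set.smul_mem_smul_set hxB
      · obtain ⟨z, hzB, hzΓ⟩ := Set.not_subset.mp hsub
        refine ⟨z, ?_, hzB⟩
        have := Set.smul_mem_smul_set (a := (h : G)) hzB
        rwa [hfix z hzΓ] at this
    have heq : (h : G) • (g⁻¹ • B) = g⁻¹ • B := by
      rcases hB'.smul_eq_or_disjoint (h : G) with h1 | h1
      · exact h1
      · exact absurd h1 hmeet
    rw [mul_smul, mul_smul, heq, smul_inv_smul]
  rw [hcore] at hle
  exact hne (Subgroup.mem_bot.mp hle)

/-- Let G act faithfully on a finite set in such a way that every non-trivial normal subgroup of G is transitive (G is quasiprimitive). Let Γ be a subset with more than one point and not the whole set, such that the pointwise stabilizer of the complement of Γ acts transitively on Γ (a Jordan set). If that pointwise stabilizer acts primitively on Γ, then G is k-fold transitive where k is one more than the number of points outside Γ (the Jordan set is a trivial one). -/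
theorem result {G Ω : Type*} [Group G] [Finite G] [MulAction G Ω] [FaithfulSMul G Ω] [Finite Ω]
    (hqp : ∀ N : Subgroup G, N.Normal → N ≠ ⊥ → MulAction.IsPretransitive ↥N Ω)
    (Γ : Set Ω) (hΓ1 : 1 < Γ.ncard) (hΓ2 : Γ.ncard < Nat.card Ω)
    (hJ : MulAction.IsPretransitive ↥(fixingSubgroup G Γᶜ) ↥(SubMulAction.ofFixingSubgroup G Γᶜ))
    (hJp : MulAction.IsPreprimitive ↥(fixingSubgroup G Γᶜ) ↥(SubMulAction.ofFixingSubgroup G Γᶜ)) :
    MulAction.IsMultiplyPretransitive G Ω (Nat.card Ω - Γ.ncard + 1) := by
  have hprim : IsPreprimitive G Ω := isPreprimitive_of_quasi hqp Γ hΓ1 hJp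
  have hcompl := Set.ncard_add_ncard_compl Γ
  have hc : Γᶜ.ncard = (Nat.card Ω - Γ.ncard - 1) + 1 := by omega
  have key := hprim.isMultiplyPreprimitive hc (by omega) hJp
  have h2 : Nat.card Ω - Γ.ncard - 1 + 2 = Nat.card Ω - Γ.ncard + 1 := by omega
  rw [h2] at key
  exact key.isMultiplyPretransitive

end Cfsg.Agent.S3619
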