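import Cfsg.Statements.S3627
import Cfsg.Agent.Helper7.J1Spec

set_option autoImplicit false
open Cfsg

namespace Cfsg.Agent.S3627

/-- Let J be the first Janko group. Then there are finite groups of arbitrarily large order with exactly the same set of element orders as J × J × J × J. -/
theorem result (N : ℕ) : ∃ (H : Type) (_ : Group H) (_ : Fintype H), N < Fintype.card H ∧
      Set.range (orderOf : H → ℕ) = Set.range (orderOf : ↥Cfsg.Spor.J1 × ↥Cfsg.Spor.J1 × ↥Cfsg.Spor.J1 × ↥Cfsg.Spor.J1 → ℕ) := by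
  classical
  refine ⟨Cfsg.Agent.Helper7.SpecGrp N, inferInstance, Fintype.ofFinite _, ?_, ?_⟩
  · rw [Fintype.card_eq_nat_card]
    exact Cfsg.Agent.Helper7.specGrp_card_gt N
  · rw [Cfsg.Agent.Helper7.specGrp_range, Cfsg.Agent.Helper7.j1pow4_range]

end Cfsg.Agent.S3627
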