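import Cfsg.Statements.S3660
import Mathlib.GroupTheory.SemidirectProduct
import Mathlib.Algebra.Group.Shrink
import Mathlib.Algebra.CharP.Two
import Mathlib.LinearAlgebra.Matrix.ToLinearEquiv
import Mathlib.Logic.Small.Basic
import Mathlib.Data.Countable.Small

set_option autoImplicit false
open Cfsg

namespace Cfsg.Agent.S3660

open Matrix

/-- The additive group of `2 × k` matrices, written multiplicatively. -/
abbrev Vk (k : ℕ) (F : Type*) [Field F] := Multiplicative (Matrix (Fin 2) (Fin k) F)

/-- The action of `SL₂(F)` on `2 × k` matrices by left multiplication. -/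
def act {F : Type*} [Field F] (k : ℕ) (g : Matrix.SpecialLinearGroup (Fin 2) F) :
    MulAut (Vk k F) where
  toFun a := Multiplicative.ofAdd ((g : Matrix (Fin 2) (Fin 2) F) * Multiplicative.toAdd a)
  invFun a := Multiplicative.ofAdd
    (((g⁻¹ : Matrix.SpecialLinearGroup (Fin 2) F) : Matrix (Fin 2) (Fin 2) F) * Multiplicative.toAdd a)
  left_inv a := by
    simp only [toAdd_ofAdd]
    rw [← Matrix.mul_assoc, ← Matrix.SpecialLinearGroup.coe_mul, inv_mul_cancel,
      Matrix.SpecialLinearGroup.coe_one, Matrix.one_mul, ofAdd_toAdd]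
  right_inv a := by
    simp only [toAdd_ofAdd]
    rw [← Matrix.mul_assoc, ← Matrix.SpecialLinearGroup.coe_mul, mul_inv_cancel,
      Matrix.SpecialLinearGroup.coe_one, Matrix.one_mul, ofAdd_toAdd]
  map_mul' a b := by
    simp only [toAdd_mul, Matrix.mul_add, ofAdd_add]

theorem act_apply {F : Type*} [Field F] (k : ℕ) (g : Matrix.SpecialLinearGroup (Fin 2) F)
    (a : Vk k F) :
    act k g a = Multiplicative.ofAdd ((g : Matrix (Fin 2) (Fin 2) F) * Multiplicative.toAdd a) :=
  rfl

/-- The action as a homomorphism. -/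
def phi {F : Type*} [Field F] (k : ℕ) :
    Matrix.SpecialLinearGroup (Fin 2) F →* MulAut (Vk k F) where
  toFun := act k
  map_one' := by
    ext a
    simp [act_apply]
  map_mul' g h := by
    ext a
    simp [act_apply, Matrix.mul_assoc]

theorem phi_apply {F : Type*} [Field F] (k : ℕ) (g : Matrix.SpecialLinearGroup (Fin 2) F)
    (a : Vk k F) :
    phi k g a = Multiplicative.ofAdd ((g : Matrix (Fin 2) (Fin 2) F) * Multiplicative.toAdd a) :=
  rfl

theorem sq_eq_one_of_trace {F : Type*} [Field F] [CharP F 2]
    (g : Matrix.SpecialLinearGroup (Fin 2) F)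
    (ht : (g : Matrix (Fin 2) (Fin 2) F) 0 0 + (g : Matrix (Fin 2) (Fin 2) F) 1 1 = 0) :
    g * g = 1 := by
  have h2 : (2 : F) = 0 := CharTwo.two_eq_zero
  have hd := g.det_coe
  rw [Matrix.det_fin_two] at hd
  ext i j
  fin_cases i <;> fin_cases j <;>
    simp only [Matrix.SpecialLinearGroup.coe_mul, Matrix.SpecialLinearGroup.coe_one,
      Matrix.mul_apply, Fin.sum_univ_two, Fin.zero_eta, Fin.mk_one, Fin.isValue,
      Matrix.one_apply_eq, Matrix.one_apply_ne, ne_eq, zero_ne_one, one_ne_zero,
      not_false_eq_true]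
  · linear_combination ((g : Matrix (Fin 2) (Fin 2) F) 0 0) * ht - hd - h2
  · linear_combination ((g : Matrix (Fin 2) (Fin 2) F) 0 1) * ht
  · linear_combination ((g : Matrix (Fin 2) (Fin 2) F) 1 0) * ht
  · linear_combination ((g : Matrix (Fin 2) (Fin 2) F) 1 1) * ht - hd - h2

theorem trace_eq_zero_of_fix {F : Type*} [Field F] [CharP F 2]
    (g : Matrix.SpecialLinearGroup (Fin 2) F) {k : ℕ}
    (v : Matrix (Fin 2) (Fin k) F) (hv : v ≠ 0) (h : (g : Matrix (Fin 2) (Fin 2) F) * v = v) :
    (g : Matrix (Fin 2) (Fin 2) F) 0 0 + (g : Matrix (Fin 2) (Fin 2) F) 1 1 = 0 := by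
  have h2 : (2 : F) = 0 := CharTwo.two_eq_zero
  obtain ⟨i, j, hij⟩ : ∃ i j, v i j ≠ 0 := by
    by_contra hcon
    apply hv
    ext i j
    by_contra hne
    exact hcon ⟨i, j, hne⟩
  have hdet : ((g : Matrix (Fin 2) (Fin 2) F) - 1).det = 0 := by
    rw [← Matrix.exists_mulVec_eq_zero_iff]
    refine ⟨fun l => v l j, ?_, ?_⟩
    · intro h0; exact hij (congrFun h0 i)
    · ext l
      have := congrFun (congrFun h l) j
      simp only [Matrix.mul_apply] at this
      rw [Matrix.sub_mulVec, Matrix.one_mulVec]
      simp only [Pi.sub_apply, Pi.zero_apply, Matrix.mulVec, dotProduct]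
      rw [this, sub_self]
  have hd := g.det_coe
  rw [Matrix.det_fin_two] at hdet hd
  simp only [Matrix.sub_apply, Matrix.one_apply_eq, Matrix.one_apply_ne, ne_eq, zero_ne_one,
    one_ne_zero, not_false_eq_true, sub_zero, Fin.isValue] at hdet
  linear_combination hd - hdet + h2


/-- The semidirect product `F^{2×k} ⋊ SL₂(F)`. -/
abbrev Hk (k : ℕ) (F : Type*) [Field F] := Vk k F ⋊[phi k] Matrix.SpecialLinearGroup (Fin 2) F

theorem pow_right {F : Type*} [Field F] {k : ℕ} (h : Hk k F) (m : ℕ) :
    (h ^ m).right = h.right ^ m := by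
  have := map_pow (SemidirectProduct.rightHom : Hk k F →* _) h m
  simpa [SemidirectProduct.rightHom] using this

/-- Elements of the kernel square to one. -/
theorem sq_of_right_eq_one {F : Type*} [Field F] [CharP F 2] {k : ℕ} (x : Hk k F)
    (hx : x.right = 1) : x * x = 1 := by
  ext1
  · rw [SemidirectProduct.mul_left, hx, map_one, MulAut.one_apply, SemidirectProduct.one_left]
    have h0 : Multiplicative.toAdd x.left + Multiplicative.toAdd x.left = 0 := by
      ext i j
      exact CharTwo.add_self_eq_zero _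
    rw [← ofAdd_toAdd x.left, ← ofAdd_add, h0, ofAdd_zero]
  · rw [SemidirectProduct.mul_right, hx, mul_one, SemidirectProduct.one_right]

theorem right_sq_of_pow {F : Type*} [Field F] [CharP F 2] {k : ℕ} (h : Hk k F) (m : ℕ)
    (hm : (h ^ m).right = 1) (hne : h ^ m ≠ 1) : h.right * h.right = 1 := by
  have hcomm : h * h ^ m = h ^ m * h := by rw [← pow_succ', ← pow_succ]
  have hl := congrArg SemidirectProduct.left hcomm
  rw [SemidirectProduct.mul_left, SemidirectProduct.mul_left, hm, map_one, MulAut.one_apply] at hl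
  have hfix : phi k h.right (h ^ m).left = (h ^ m).left := by
    have : h.left * phi k h.right (h ^ m).left = h.left * (h ^ m).left := by rw [hl, mul_comm]
    exact mul_left_cancel this
  have hv : Multiplicative.toAdd (h ^ m).left ≠ 0 := by
    intro h0
    apply hne
    ext1
    · rw [SemidirectProduct.one_left, ← ofAdd_toAdd (h ^ m).left, h0, ofAdd_zero]
    · rw [hm, SemidirectProduct.one_right]
  apply sq_eq_one_of_trace
  apply trace_eq_zero_of_fix h.right _ hv
  have := congrArg Multiplicative.toAdd hfix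
  rw [phi_apply, toAdd_ofAdd] at this
  exact this

theorem center_eq_bot {F : Type*} [Field F] [CharP F 2] :
    Subgroup.center (Matrix.SpecialLinearGroup (Fin 2) F) = ⊥ := by
  rw [eq_bot_iff]
  intro A hA
  rw [Matrix.SpecialLinearGroup.mem_center_iff] at hA
  obtain ⟨r, hr, hA⟩ := hA
  rw [Subgroup.mem_bot]
  have hr1 : r = 1 := by
    have h2 : (2 : F) = 0 := CharTwo.two_eq_zero
    have : (r - 1) ^ 2 = 0 := by
      simp only [Fintype.card_fin] at hr
      linear_combination hr - r * h2 + h2
    have := pow_eq_zero_iff (two_ne_zero) |>.mp this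
    linear_combination this
  subst hr1
  apply Subtype.ext
  rw [← hA]
  simp

/-- The transvection. -/
def tv (F : Type*) [Field F] : Matrix.SpecialLinearGroup (Fin 2) F :=
  ⟨!![1, 1; 0, 1], by simp [Matrix.det_fin_two]⟩

theorem two_dvd_card {F : Type*} [Field F] [Fintype F] [CharP F 2] :
    2 ∣ Nat.card (Matrix.SpecialLinearGroup (Fin 2) F) := by
  have h1 : tv F * tv F = 1 := by
    apply sq_eq_one_of_trace
    simp [tv, CharTwo.add_self_eq_zero]
  have h2 : tv F ≠ 1 := by
    intro h
    have := congrArg (fun A : Matrix.SpecialLinearGroup (Fin 2) F =>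
      (A : Matrix (Fin 2) (Fin 2) F) 0 1) h
    simp [tv] at this
  have : orderOf (tv F) = 2 := by
    have : Fact (Nat.Prime 2) := ⟨Nat.prime_two⟩
    apply orderOf_eq_prime
    · rw [pow_two, h1]
    · exact h2
  have h3 := orderOf_dvd_natCard (tv F)
  rw [this] at h3
  exact h3


theorem card_Vk {F : Type*} [Field F] [Fintype F] (k : ℕ) :
    Nat.card (Vk k F) = (Fintype.card F ^ k) ^ 2 := by
  rw [Nat.card_congr (Multiplicative.toAdd : Vk k F ≃ Matrix (Fin 2) (Fin k) F)]
  rw [Nat.card_eq_fintype_card]
  change Fintype.card (Fin 2 → Fin k → F) = _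
  rw [Fintype.card_fun, Fintype.card_fun, Fintype.card_fin, Fintype.card_fin]

/-- The prime graph of a finite group has the prime divisors of its order as vertices, two distinct primes p, q being joined when the group has an element of order pq; two groups have the same prime graph when they have the same prime divisors and the same joined pairs. Let F be a finite field of characteristic 2 with at least 4 elements. Then there are finite groups of arbitrarily large order with the same prime graph as PSL(2,F); in particular PSL(2,F) is not determined by its prime graph. -/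
theorem result {F : Type*} [Field F] [Fintype F] [CharP F 2] (hF : 4 ≤ Fintype.card F) (N : ℕ) :
    ∃ (H : Type) (_ : Group H) (_ : Finite H), N < Nat.card H ∧
      ((∀ p : ℕ, p.Prime → (p ∣ Nat.card (Matrix.ProjectiveSpecialLinearGroup (Fin 2) F) ↔ p ∣ Nat.card H)) ∧
      (∀ p q : ℕ, p.Prime → q.Prime → p ≠ q → ((∃ g : (Matrix.ProjectiveSpecialLinearGroup (Fin 2) F), orderOf g = p * q) ↔ (∃ g : H, orderOf g = p * q)))) := by
  classical
  have hc := center_eq_bot (F := F)
  let e : Matrix.ProjectiveSpecialLinearGroup (Fin 2) F ≃* Matrix.SpecialLinearGroup (Fin 2) F :=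
    (QuotientGroup.quotientMulEquivOfEq hc).trans QuotientGroup.quotientBot
  have hfin : Finite (Hk N F) := Finite.of_equiv _ SemidirectProduct.equivProd.symm
  let e' : Shrink.{0} (Hk N F) ≃* Hk N F := Shrink.mulEquiv
  have hfin' : Finite (Shrink.{0} (Hk N F)) := Finite.of_equiv _ e'.symm.toEquiv
  have hcardPSL : Nat.card (Matrix.ProjectiveSpecialLinearGroup (Fin 2) F) =
      Nat.card (Matrix.SpecialLinearGroup (Fin 2) F) := Nat.card_congr e.toEquiv
  have hcardH : Nat.card (Shrink.{0} (Hk N F)) =
      (Fintype.card F ^ N) ^ 2 * Nat.card (Matrix.SpecialLinearGroup (Fin 2) F) := by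
    rw [Nat.card_congr e'.toEquiv, SemidirectProduct.card, card_Vk]
  have hSLpos : 0 < Nat.card (Matrix.SpecialLinearGroup (Fin 2) F) := Nat.card_pos
  refine ⟨Shrink.{0} (Hk N F), inferInstance, hfin', ?_, ?_, ?_⟩
  · rw [hcardH]
    have h1 : N < 2 ^ N := Nat.lt_two_pow_self
    have h2 : 2 ^ N ≤ Fintype.card F ^ N := Nat.pow_le_pow_left (by omega) N
    have h3 : Fintype.card F ^ N ≤ (Fintype.card F ^ N) ^ 2 := by
      have : 0 < Fintype.card F ^ N := Nat.pos_of_ne_zero (by positivity)
      nlinarith
    have h4 : (Fintype.card F ^ N) ^ 2 ≤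
        (Fintype.card F ^ N) ^ 2 * Nat.card (Matrix.SpecialLinearGroup (Fin 2) F) :=
      Nat.le_mul_of_pos_right _ hSLpos
    omega
  · intro p hp
    rw [hcardH, hcardPSL]
    constructor
    · intro h
      exact Dvd.dvd.mul_left h _
    · intro h
      rcases (Nat.Prime.dvd_mul hp).mp h with h | h
      · have h' := hp.dvd_of_dvd_pow (hp.dvd_of_dvd_pow h)
        obtain ⟨n, -, hn⟩ := FiniteField.card F 2
        rw [hn] at h'
        have := hp.dvd_of_dvd_pow h'
        have hp2 : p = 2 := (Nat.prime_dvd_prime_iff_eq hp Nat.prime_two).mp this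
        rw [hp2]
        exact two_dvd_card
      · exact h
  · intro p q hp hq hpq
    constructor
    · rintro ⟨g, hg⟩
      refine ⟨e'.symm (SemidirectProduct.inr (e g)), ?_⟩
      rw [MulEquiv.orderOf_eq, orderOf_injective _ SemidirectProduct.inr_injective,
        MulEquiv.orderOf_eq, hg]
    · rintro ⟨x, hx⟩
      have hh : orderOf (e' x) = p * q := by rw [MulEquiv.orderOf_eq, hx]
      set h := e' x with hdef
      refine ⟨e.symm h.right, ?_⟩
      rw [MulEquiv.orderOf_eq]
      have hdvd : orderOf h.right ∣ p * q := by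
        apply orderOf_dvd_of_pow_eq_one
        rw [← pow_right, ← hh, pow_orderOf_eq_one, SemidirectProduct.one_right]
      have hm : (h ^ orderOf h.right).right = 1 := by
        rw [pow_right, pow_orderOf_eq_one]
      by_cases h1 : h ^ orderOf h.right = 1
      · have := orderOf_dvd_of_pow_eq_one h1
        rw [hh] at this
        exact Nat.dvd_antisymm hdvd this
      · exfalso
        have hsq := right_sq_of_pow h _ hm h1
        have h2 : (h ^ 2).right = 1 := by rw [pow_right, pow_two, hsq]
        have h4 : h ^ 4 = 1 := by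
          have := sq_of_right_eq_one (h ^ 2) h2
          rw [← pow_add] at this
          exact this
        have hd4 := orderOf_dvd_of_pow_eq_one h4
        rw [hh] at hd4
        have hp2 : p = 2 := by
          have : p ∣ 2 ^ 2 := dvd_trans (dvd_mul_right p q) hd4
          exact (Nat.prime_dvd_prime_iff_eq hp Nat.prime_two).mp (hp.dvd_of_dvd_pow this)
        have hq2 : q = 2 := by
          have : q ∣ 2 ^ 2 := dvd_trans (dvd_mul_left q p) hd4
          exact (Nat.prime_dvd_prime_iff_eq hq Nat.prime_two).mp (hq.dvd_of_dvd_pow this)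
        exact hpq (hp2.trans hq2.symm)

end Cfsg.Agent.S3660
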