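import Mathlib
import Cfsg.Statements.S3678

set_option autoImplicit false
open Cfsg

namespace Cfsg.Agent.S3678

open Matrix

/-! ### Powers of 2×2 matrices of determinant one -/

/-- coefficients of `M ^ n = a • M + b • 1` for a 2×2 matrix with `M * M = t • M - 1`. -/
def ab {R : Type*} [CommRing R] (t : R) : ℕ → R × R
  | 0 => (0, 1)
  | n + 1 => (t * (ab t n).1 + (ab t n).2, -(ab t n).1)

theorem sq_eq {R : Type*} [CommRing R] (M : Matrix (Fin 2) (Fin 2) R) (h : M.det = 1) :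
    M * M = (M 0 0 + M 1 1) • M - 1 := by
  rw [Matrix.det_fin_two] at h
  ext i j
  fin_cases i <;> fin_cases j <;>
    simp [Matrix.mul_apply, Fin.sum_univ_two] <;>
    first | ring1 | linear_combination (-1 : R) * h

theorem pow_eq {R : Type*} [CommRing R] (M : Matrix (Fin 2) (Fin 2) R) (t : R)
    (h : M * M = t • M - 1) (n : ℕ) :
    M ^ n = (ab t n).1 • M + (ab t n).2 • (1 : Matrix (Fin 2) (Fin 2) R) := by
  induction n with
  | zero => simp [ab]
  | succ n ih =>
    rw [pow_succ, ih, add_mul, smul_mul_assoc, smul_mul_assoc, one_mul, h]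
    simp only [ab]
    module

theorem ab2 {R : Type*} [CommRing R] (t : R) : (ab t 2).1 = t := by
  simp [ab]

theorem ab3 {R : Type*} [CommRing R] (t : R) : (ab t 3).1 = t ^ 2 - 1 := by
  simp [ab]; ring

theorem ab4 {R : Type*} [CommRing R] (t : R) : (ab t 4).1 = t ^ 3 - 2 * t := by
  simp [ab]; ring

theorem ab7 {R : Type*} [CommRing R] (t : R) :
    (ab t 7).1 = t ^ 6 - 5 * t ^ 4 + 6 * t ^ 2 - 1 := by
  simp [ab]; ring

theorem ab9 {R : Type*} [CommRing R] (t : R) :
    (ab t 9).1 = t ^ 8 - 7 * t ^ 6 + 15 * t ^ 4 - 10 * t ^ 2 + 1 := by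
  simp [ab]; ring

/-- If the `a`-coefficient vanishes, the power is a scalar matrix `b • 1` with `b ^ 2 = 1`. -/
theorem pow_scalar {R : Type*} [CommRing R] (A : Matrix.SpecialLinearGroup (Fin 2) R) (n : ℕ)
    (h : (ab ((A : Matrix (Fin 2) (Fin 2) R) 0 0 + (A : Matrix (Fin 2) (Fin 2) R) 1 1) n).1 = 0) :
    ∃ b : R, b ^ 2 = 1 ∧ ((A ^ n : Matrix.SpecialLinearGroup (Fin 2) R) : Matrix (Fin 2) (Fin 2) R)
      = b • (1 : Matrix (Fin 2) (Fin 2) R) := by
  have h1 := pow_eq (A : Matrix (Fin 2) (Fin 2) R) _ (sq_eq _ A.det_coe) n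
  rw [h, zero_smul, zero_add] at h1
  refine ⟨_, ?_, by rw [Matrix.SpecialLinearGroup.coe_pow]; exact h1⟩
  have h2 : ((A ^ n : Matrix.SpecialLinearGroup (Fin 2) R) : Matrix (Fin 2) (Fin 2) R).det = 1 :=
    (A ^ n).det_coe
  rw [Matrix.SpecialLinearGroup.coe_pow, h1, Matrix.det_smul, Matrix.det_one, mul_one,
    Fintype.card_fin] at h2
  exact h2

theorem pow_mem_center {R : Type*} [CommRing R] (A : Matrix.SpecialLinearGroup (Fin 2) R) (n : ℕ)
    (h : (ab ((A : Matrix (Fin 2) (Fin 2) R) 0 0 + (A : Matrix (Fin 2) (Fin 2) R) 1 1) n).1 = 0) :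
    A ^ n ∈ Subgroup.center (Matrix.SpecialLinearGroup (Fin 2) R) := by
  obtain ⟨b, hb, hAb⟩ := pow_scalar A n h
  rw [Matrix.SpecialLinearGroup.mem_center_iff]
  refine ⟨b, by simpa using hb, ?_⟩
  rw [hAb, Matrix.smul_one_eq_diagonal]
  rfl

theorem pow_mk_eq_one {R : Type*} [CommRing R] (A : Matrix.SpecialLinearGroup (Fin 2) R) (n : ℕ)
    (h : (ab ((A : Matrix (Fin 2) (Fin 2) R) 0 0 + (A : Matrix (Fin 2) (Fin 2) R) 1 1) n).1 = 0) :
    (QuotientGroup.mk A : Matrix.ProjectiveSpecialLinearGroup (Fin 2) R) ^ n = 1 := by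
  rw [← QuotientGroup.mk_pow, QuotientGroup.eq_one_iff]
  exact pow_mem_center A n h

/-! ### Groups all of whose elements have order dividing 4, 7 or 9 -/

/-- the property shared by `PSL(2,7)` and the groups `(F_8^2)^k : SL(2,8)`. -/
def Good (G : Type*) [Group G] : Prop :=
  (∀ g : G, g ^ 4 = 1 ∨ g ^ 7 = 1 ∨ g ^ 9 = 1) ∧
  (∃ g : G, orderOf g = 2) ∧ (∃ g : G, orderOf g = 3) ∧ (∃ g : G, orderOf g = 7)

theorem prime_eq_of_dvd_pow {p q r k : ℕ} (hp : p.Prime) (hq : q.Prime) (hr : r.Prime)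
    (h : p * q ∣ r ^ k) : p = r ∧ q = r :=
  ⟨(Nat.prime_dvd_prime_iff_eq hp hr).mp (hp.dvd_of_dvd_pow (dvd_trans (dvd_mul_right p q) h)),
   (Nat.prime_dvd_prime_iff_eq hq hr).mp (hq.dvd_of_dvd_pow (dvd_trans (dvd_mul_left q p) h))⟩

theorem good_no_mixed {G : Type*} [Group G] (h : Good G) (p q : ℕ) (hp : p.Prime)
    (hq : q.Prime) (hpq : p ≠ q) : ¬ ∃ g : G, orderOf g = p * q := by
  rintro ⟨g, hg⟩
  rcases h.1 g with h4 | h7 | h9
  · have h1 : p * q ∣ 2 ^ 2 := hg ▸ orderOf_dvd_of_pow_eq_one h4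
    obtain ⟨rfl, rfl⟩ := prime_eq_of_dvd_pow hp hq Nat.prime_two h1
    exact hpq rfl
  · have h1 : p * q ∣ 7 ^ 1 := hg ▸ orderOf_dvd_of_pow_eq_one h7
    obtain ⟨rfl, rfl⟩ := prime_eq_of_dvd_pow hp hq (by norm_num : Nat.Prime 7) h1
    exact hpq rfl
  · have h1 : p * q ∣ 3 ^ 2 := hg ▸ orderOf_dvd_of_pow_eq_one h9
    obtain ⟨rfl, rfl⟩ := prime_eq_of_dvd_pow hp hq Nat.prime_three h1
    exact hpq rfl

theorem good_primes {G : Type*} [Group G] [Finite G] (h : Good G) (p : ℕ) (hp : p.Prime) :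
    p ∣ Nat.card G ↔ p = 2 ∨ p = 3 ∨ p = 7 := by
  constructor
  · intro hd
    have : Fact p.Prime := ⟨hp⟩
    obtain ⟨x, hx⟩ := exists_prime_orderOf_dvd_card' p hd
    rcases h.1 x with h4 | h7 | h9
    · have h1 : p ∣ 2 ^ 2 := hx ▸ orderOf_dvd_of_pow_eq_one h4
      exact Or.inl ((Nat.prime_dvd_prime_iff_eq hp Nat.prime_two).mp (hp.dvd_of_dvd_pow h1))
    · have h1 : p ∣ 7 ^ 1 := hx ▸ orderOf_dvd_of_pow_eq_one h7
      exact Or.inr (Or.inr ((Nat.prime_dvd_prime_iff_eq hp (by norm_num : Nat.Prime 7)).mp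
        (hp.dvd_of_dvd_pow h1)))
    · have h1 : p ∣ 3 ^ 2 := hx ▸ orderOf_dvd_of_pow_eq_one h9
      exact Or.inr (Or.inl ((Nat.prime_dvd_prime_iff_eq hp Nat.prime_three).mp
        (hp.dvd_of_dvd_pow h1)))
  · obtain ⟨_, ⟨g2, h2⟩, ⟨g3, h3⟩, ⟨g7, h7⟩⟩ := h
    rintro (rfl | rfl | rfl)
    · rw [← h2]; exact orderOf_dvd_natCard g2
    · rw [← h3]; exact orderOf_dvd_natCard g3
    · rw [← h7]; exact orderOf_dvd_natCard g7


/-! ### `PSL(2,7)` -/

theorem mk_ne_one {R : Type*} [CommRing R] (A : Matrix.SpecialLinearGroup (Fin 2) R)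
    (h : (A : Matrix (Fin 2) (Fin 2) R) 0 1 ≠ 0) :
    (QuotientGroup.mk A : Matrix.ProjectiveSpecialLinearGroup (Fin 2) R) ≠ 1 := by
  rw [Ne, QuotientGroup.eq_one_iff, Matrix.SpecialLinearGroup.mem_center_iff]
  rintro ⟨r, _, hr⟩
  apply h
  rw [← hr]
  simp

theorem psl_good {F : Type*} [Field F] [Fintype F] (hF : Fintype.card F = 7) :
    Good (Matrix.ProjectiveSpecialLinearGroup (Fin 2) F) := by
  have h7 : (7 : F) = 0 := by
    have := Nat.cast_card_eq_zero F
    rw [hF] at this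
    exact_mod_cast this
  have hpow : ∀ t : F, t ^ 7 = t := fun t => by
    have := FiniteField.pow_card t
    rwa [hF] at this
  refine ⟨?_, ?_, ?_, ?_⟩
  · intro g
    obtain ⟨A, rfl⟩ := QuotientGroup.mk_surjective g
    set t := (A : Matrix (Fin 2) (Fin 2) F) 0 0 + (A : Matrix (Fin 2) (Fin 2) F) 1 1 with ht
    have hprod : (ab t 3).1 * (ab t 4).1 * (ab t 7).1 = 0 := by
      rw [ab3, ab4, ab7]
      linear_combination (t ^ 2 - 4) ^ 2 * hpow t + (2 * t + t ^ 3 - 4 * t ^ 5 + t ^ 7) * h7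
    rcases mul_eq_zero.mp hprod with h34 | h7'
    · rcases mul_eq_zero.mp h34 with h3 | h4
      · right; right
        have := pow_mk_eq_one A 3 h3
        rw [show 9 = 3 * 3 from rfl, pow_mul, this, one_pow]
      · left; exact pow_mk_eq_one A 4 h4
    · right; left; exact pow_mk_eq_one A 7 h7'
  · -- an element of order 2
    let A : Matrix.SpecialLinearGroup (Fin 2) F := ⟨!![0, -1; 1, 0], by simp [Matrix.det_fin_two]⟩
    refine ⟨QuotientGroup.mk A, orderOf_eq_prime (pow_mk_eq_one A 2 ?_) (mk_ne_one A ?_)⟩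
    · rw [ab2]; simp [A]
    · simp [A]
  · -- an element of order 3
    let A : Matrix.SpecialLinearGroup (Fin 2) F := ⟨!![0, -1; 1, 1], by simp [Matrix.det_fin_two]⟩
    refine ⟨QuotientGroup.mk A, orderOf_eq_prime (pow_mk_eq_one A 3 ?_) (mk_ne_one A ?_)⟩
    · rw [ab3]; simp [A]
    · simp [A]
  · -- an element of order 7
    let A : Matrix.SpecialLinearGroup (Fin 2) F := ⟨!![1, 1; 0, 1], by simp [Matrix.det_fin_two]⟩
    have : Fact (Nat.Prime 7) := ⟨by norm_num⟩
    refine ⟨QuotientGroup.mk A, orderOf_eq_prime (pow_mk_eq_one A 7 ?_) (mk_ne_one A ?_)⟩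
    · rw [ab7]
      simp only [A, Matrix.of_apply, Matrix.cons_val', Matrix.cons_val_zero, Matrix.cons_val_one,
        Matrix.cons_val_fin_one]
      linear_combination h7
    · simp [A]


/-! ### The affine groups `M_{2×k}(K) ⋊ SL₂(K)` -/

/-- The underlying type of the affine group `M_{2×k}(K) ⋊ SL₂(K)`. -/
def Aff (K : Type) [Field K] (k : ℕ) : Type :=
  Matrix (Fin 2) (Fin k) K × Matrix.SpecialLinearGroup (Fin 2) K

section Aff

variable {K : Type} [Field K] {k : ℕ}

/-- translation part -/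
def Aff.tr (x : Aff K k) : Matrix (Fin 2) (Fin k) K := x.1

/-- linear part -/
def Aff.lin (x : Aff K k) : Matrix.SpecialLinearGroup (Fin 2) K := x.2

/-- constructor -/
def Aff.mk (m : Matrix (Fin 2) (Fin k) K) (g : Matrix.SpecialLinearGroup (Fin 2) K) : Aff K k :=
  (m, g)

theorem Aff.ext {x y : Aff K k} (h1 : x.tr = y.tr) (h2 : x.lin = y.lin) : x = y :=
  Prod.ext h1 h2

@[simp] theorem Aff.tr_mk (m : Matrix (Fin 2) (Fin k) K) (g : Matrix.SpecialLinearGroup (Fin 2) K) :
    (Aff.mk m g).tr = m := rfl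

@[simp] theorem Aff.lin_mk (m : Matrix (Fin 2) (Fin k) K)
    (g : Matrix.SpecialLinearGroup (Fin 2) K) : (Aff.mk m g).lin = g := rfl

instance affMul : Mul (Aff K k) :=
  ⟨fun x y => Aff.mk (x.tr + (x.lin : Matrix (Fin 2) (Fin 2) K) * y.tr) (x.lin * y.lin)⟩

instance affOne : One (Aff K k) := ⟨Aff.mk 0 1⟩

instance affInv : Inv (Aff K k) :=
  ⟨fun x => Aff.mk (-(((x.lin)⁻¹ : Matrix.SpecialLinearGroup (Fin 2) K) : Matrix (Fin 2) (Fin 2) K)
    * x.tr) (x.lin)⁻¹⟩

@[simp] theorem Aff.tr_mul (x y : Aff K k) :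
    (x * y).tr = x.tr + (x.lin : Matrix (Fin 2) (Fin 2) K) * y.tr := rfl

@[simp] theorem Aff.lin_mul (x y : Aff K k) : (x * y).lin = x.lin * y.lin := rfl

@[simp] theorem Aff.tr_one : (1 : Aff K k).tr = 0 := rfl

@[simp] theorem Aff.lin_one : (1 : Aff K k).lin = 1 := rfl

@[simp] theorem Aff.tr_inv (x : Aff K k) :
    (x⁻¹).tr = -(((x.lin)⁻¹ : Matrix.SpecialLinearGroup (Fin 2) K) : Matrix (Fin 2) (Fin 2) K)
      * x.tr := rfl

@[simp] theorem Aff.lin_inv (x : Aff K k) : (x⁻¹).lin = (x.lin)⁻¹ := rfl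

instance affGroup : Group (Aff K k) :=
  Group.ofLeftAxioms
    (fun x y z => by
      apply Aff.ext
      · simp only [Aff.tr_mul, Aff.lin_mul, Matrix.SpecialLinearGroup.coe_mul, Matrix.mul_add,
          Matrix.mul_assoc, add_assoc]
      · simp only [Aff.lin_mul, mul_assoc])
    (fun x => by
      apply Aff.ext
      · simp only [Aff.tr_mul, Aff.tr_one, Aff.lin_one, Matrix.SpecialLinearGroup.coe_one,
          Matrix.one_mul, zero_add]
      · simp only [Aff.lin_mul, Aff.lin_one, one_mul])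
    (fun x => by
      apply Aff.ext
      · simp only [Aff.tr_mul, Aff.tr_inv, Aff.lin_inv, Aff.tr_one]
        rw [Matrix.neg_mul, neg_add_cancel]
      · simp only [Aff.lin_mul, Aff.lin_inv, Aff.lin_one, inv_mul_cancel])

instance affFinite [Finite K] : Finite (Aff K k) := by
  have : Finite (Matrix.SpecialLinearGroup (Fin 2) K) :=
    Finite.of_injective (fun A : Matrix.SpecialLinearGroup (Fin 2) K =>
      (A : Matrix (Fin 2) (Fin 2) K)) Subtype.val_injective
  unfold Aff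
  infer_instance

theorem Aff.pow_eq (x : Aff K k) (n : ℕ) :
    (x ^ n).tr = (∑ i ∈ Finset.range n, (x.lin : Matrix (Fin 2) (Fin 2) K) ^ i) * x.tr ∧
    (x ^ n).lin = x.lin ^ n := by
  induction n with
  | zero => simp
  | succ n ih =>
    rw [pow_succ, Aff.tr_mul, Aff.lin_mul, ih.1, ih.2, Finset.sum_range_succ, Matrix.add_mul,
      Matrix.SpecialLinearGroup.coe_pow, pow_succ]
    exact ⟨rfl, rfl⟩


theorem Aff.pow_eq_one_of_sq (x : Aff K k) (h2 : (2 : K) = 0)
    (hMM : (x.lin : Matrix (Fin 2) (Fin 2) K) * (x.lin : Matrix (Fin 2) (Fin 2) K) = 1) :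
    x ^ 4 = 1 := by
  set M := (x.lin : Matrix (Fin 2) (Fin 2) K) with hM
  have h2' : M ^ 2 = 1 := by rw [pow_two, hMM]
  have h3' : M ^ 3 = M := by rw [pow_succ, h2', one_mul]
  have h4' : M ^ 4 = 1 := by rw [pow_succ, h3', hMM]
  apply Aff.ext
  · rw [(Aff.pow_eq x 4).1, Aff.tr_one]
    have hs : ∑ i ∈ Finset.range 4, M ^ i = 0 := by
      simp only [Finset.sum_range_succ, Finset.sum_range_zero, pow_zero, pow_one, h2', h3',
        zero_add]
      have : (1 : Matrix (Fin 2) (Fin 2) K) + M + 1 + M = (2 : K) • (1 + M) := by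
        rw [two_smul]; abel
      rw [this, h2, zero_smul]
    rw [hs, Matrix.zero_mul]
  · rw [(Aff.pow_eq x 4).2, Aff.lin_one]
    apply Subtype.ext
    rw [Matrix.SpecialLinearGroup.coe_pow, Matrix.SpecialLinearGroup.coe_one]
    exact h4'

theorem Aff.pow_eq_one_of_ab (x : Aff K k) (n : ℕ) (h2 : (2 : K) = 0)
    (ht : (x.lin : Matrix (Fin 2) (Fin 2) K) 0 0 + (x.lin : Matrix (Fin 2) (Fin 2) K) 1 1 ≠ 0)
    (han : (ab ((x.lin : Matrix (Fin 2) (Fin 2) K) 0 0 +
      (x.lin : Matrix (Fin 2) (Fin 2) K) 1 1) n).1 = 0) :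
    x ^ n = 1 := by
  set M := (x.lin : Matrix (Fin 2) (Fin 2) K) with hM
  set t := M 0 0 + M 1 1 with htdef
  have hsq : M * M = t • M - 1 := sq_eq M x.lin.det_coe
  obtain ⟨b, hb, hMn⟩ := pow_scalar x.lin n han
  have hb1 : b = 1 := by
    have h0 : (b - 1) ^ 2 = 0 := by linear_combination hb + (1 - b) * h2
    exact sub_eq_zero.mp (pow_eq_zero_iff (two_ne_zero)|>.mp h0)
  rw [hb1, one_smul, Matrix.SpecialLinearGroup.coe_pow] at hMn
  set S := ∑ i ∈ Finset.range n, M ^ i with hS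
  have hS0 : (M - 1) * S = 0 := by rw [hS, mul_geom_sum, hMn, sub_self]
  have hMM2 : M + M = 0 := by rw [← two_smul K M, h2, zero_smul]
  have hsq2 : (M - 1) * (M - 1) = t • M := by
    rw [sub_mul, mul_sub, mul_one, one_mul, hsq]
    have e : t • M - 1 - M - (M - 1) = t • M - (M + M) := by abel
    rw [e, hMM2, sub_zero]
  have h3 : t • (M * S) = 0 := by
    rw [← smul_mul_assoc, ← hsq2, mul_assoc, hS0, mul_zero]
  have h4 : M * S = 0 := (smul_eq_zero.mp h3).resolve_left ht
  have h5 : S = 0 := by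
    have : S = ((x.lin⁻¹ : Matrix.SpecialLinearGroup (Fin 2) K) : Matrix (Fin 2) (Fin 2) K)
        * (M * S) := by
      rw [← mul_assoc, hM, ← Matrix.SpecialLinearGroup.coe_mul, inv_mul_cancel,
        Matrix.SpecialLinearGroup.coe_one, one_mul]
    rw [this, h4, mul_zero]
  apply Aff.ext
  · rw [(Aff.pow_eq x n).1, Aff.tr_one, ← hM, ← hS, h5, Matrix.zero_mul]
  · rw [(Aff.pow_eq x n).2, Aff.lin_one]
    apply Subtype.ext
    rw [Matrix.SpecialLinearGroup.coe_pow, Matrix.SpecialLinearGroup.coe_one]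
    exact hMn

theorem Aff.orderOf_mk (g : Matrix.SpecialLinearGroup (Fin 2) K) (p : ℕ) [Fact p.Prime]
    (hg : g ^ p = 1) (hg1 : g ≠ 1) : orderOf (Aff.mk 0 g : Aff K k) = p := by
  apply orderOf_eq_prime
  · apply Aff.ext
    · rw [(Aff.pow_eq _ p).1, Aff.tr_mk, Matrix.mul_zero, Aff.tr_one]
    · rw [(Aff.pow_eq _ p).2, Aff.lin_mk, hg, Aff.lin_one]
  · intro h
    apply hg1
    have := congrArg Aff.lin h
    rwa [Aff.lin_mk, Aff.lin_one] at this

theorem aff_good (h2 : (2 : K) = 0) (h8 : ∀ t : K, t ^ 8 = t) (ha : ∃ a : K, a ≠ 0 ∧ a ≠ 1) :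
    Good (Aff K k) := by
  have hneg : (-1 : K) = 1 := by linear_combination (-1 : K) * h2
  refine ⟨?_, ?_, ?_, ?_⟩
  · intro x
    set M := (x.lin : Matrix (Fin 2) (Fin 2) K) with hM
    set t := M 0 0 + M 1 1 with htdef
    have hsq : M * M = t • M - 1 := sq_eq M x.lin.det_coe
    by_cases ht : t = 0
    · left
      apply Aff.pow_eq_one_of_sq x h2
      rw [← hM, hsq, ht, zero_smul, zero_sub]
      rw [← neg_one_smul K (1 : Matrix (Fin 2) (Fin 2) K), hneg, one_smul]
    · have hprod : (ab t 2).1 * (ab t 7).1 * (ab t 9).1 = 0 := by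
        rw [ab2, ab7, ab9]
        linear_combination (t ^ 7 - 1) * h8 t +
          (-t + 8 * t ^ 3 - 40 * t ^ 5 + 74 * t ^ 7 + t ^ 8 - 64 * t ^ 9 + 28 * t ^ 11
            - 6 * t ^ 13) * h2
      rcases mul_eq_zero.mp hprod with h27 | h9
      · rcases mul_eq_zero.mp h27 with h2' | h7
        · rw [ab2] at h2'; exact absurd h2' ht
        · right; left; exact Aff.pow_eq_one_of_ab x 7 h2 ht h7
      · right; right; exact Aff.pow_eq_one_of_ab x 9 h2 ht h9
  · -- order 2
    let g : Matrix.SpecialLinearGroup (Fin 2) K := ⟨!![1, 1; 0, 1], by simp [Matrix.det_fin_two]⟩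
    refine ⟨Aff.mk 0 g, Aff.orderOf_mk g 2 ?_ ?_⟩
    · apply Subtype.ext
      rw [Matrix.SpecialLinearGroup.coe_pow, Matrix.SpecialLinearGroup.coe_one]
      ext i j
      fin_cases i <;> fin_cases j <;>
        simp [g, pow_two, Matrix.mul_apply, Fin.sum_univ_two] <;> linear_combination h2
    · intro h
      have := congrArg (fun A : Matrix.SpecialLinearGroup (Fin 2) K =>
        (A : Matrix (Fin 2) (Fin 2) K) 0 1) h
      simp [g] at this
  · -- order 3
    let g : Matrix.SpecialLinearGroup (Fin 2) K :=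
      ⟨!![0, 1; 1, 1], by simp [Matrix.det_fin_two]; exact hneg⟩
    refine ⟨Aff.mk 0 g, Aff.orderOf_mk g 3 ?_ ?_⟩
    · apply Subtype.ext
      rw [Matrix.SpecialLinearGroup.coe_pow, Matrix.SpecialLinearGroup.coe_one]
      ext i j
      fin_cases i <;> fin_cases j <;>
        simp [g, pow_succ, Matrix.mul_apply, Fin.sum_univ_two] <;> linear_combination h2
    · intro h
      have := congrArg (fun A : Matrix.SpecialLinearGroup (Fin 2) K =>
        (A : Matrix (Fin 2) (Fin 2) K) 0 1) h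
      simp [g] at this
  · -- order 7
    obtain ⟨a, ha0, ha1⟩ := ha
    have ha7 : a ^ 7 = 1 := by
      have h := h8 a
      have : a * a ^ 7 = a * 1 := by rw [mul_one, ← pow_succ']; exact h
      exact mul_left_cancel₀ ha0 this
    let g : Matrix.SpecialLinearGroup (Fin 2) K :=
      ⟨Matrix.diagonal ![a, a⁻¹], by simp [Matrix.det_diagonal, Fin.prod_univ_two, ha0]⟩
    have : Fact (Nat.Prime 7) := ⟨by norm_num⟩
    refine ⟨Aff.mk 0 g, Aff.orderOf_mk g 7 ?_ ?_⟩
    · apply Subtype.ext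
      rw [Matrix.SpecialLinearGroup.coe_pow, Matrix.SpecialLinearGroup.coe_one]
      simp only [g, Matrix.diagonal_pow]
      rw [← Matrix.diagonal_one]
      congr 1
      funext i
      fin_cases i
      · simpa using ha7
      · simp [ha7]
    · intro h
      have := congrArg (fun A : Matrix.SpecialLinearGroup (Fin 2) K =>
        (A : Matrix (Fin 2) (Fin 2) K) 0 0) h
      simp [g] at this
      exact ha1 this

theorem aff_card [Finite K] (k : ℕ) : k < Nat.card (Aff K k) := by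
  let f : (Fin k → K) → Aff K k := fun w => Aff.mk (Matrix.of fun _ j => w j) 1
  have hf : Function.Injective f := by
    intro w w' h
    have h1 := congrArg Aff.tr h
    simp only [f, Aff.tr_mk] at h1
    funext j
    have := congrFun (congrFun h1 0) j
    simpa using this
  have h1 := Nat.card_le_card_of_injective f hf
  rw [Nat.card_fun, Nat.card_fin] at h1
  have h2 : 1 < Nat.card K := Finite.one_lt_card
  calc k < 2 ^ k := Nat.lt_two_pow_self
    _ ≤ Nat.card K ^ k := Nat.pow_le_pow_left h2 k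
    _ ≤ _ := h1

end Aff

/-- The prime graph of a finite group has the prime divisors of its order as vertices, two distinct primes p, q being joined when the group has an element of order pq; two groups have the same prime graph when they have the same prime divisors and the same joined pairs. Let F be the field with 7 elements. There are finite groups of arbitrarily large order with the same prime graph as PSL(2,F) (the graph on {2, 3, 7} with no edges, which is also the prime graph of PSL(2,8)). -/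
theorem result {F : Type*} [Field F] [Fintype F] (hF : Fintype.card F = 7) (N : ℕ) :
    ∃ (H : Type) (_ : Group H) (_ : Finite H), N < Nat.card H ∧
      ((∀ p : ℕ, p.Prime → (p ∣ Nat.card (Matrix.ProjectiveSpecialLinearGroup (Fin 2) F) ↔ p ∣ Nat.card H)) ∧
      (∀ p q : ℕ, p.Prime → q.Prime → p ≠ q → ((∃ g : (Matrix.ProjectiveSpecialLinearGroup (Fin 2) F), orderOf g = p * q) ↔ (∃ g : H, orderOf g = p * q)))) := by
  have hp2 : Fact (Nat.Prime 2) := ⟨Nat.prime_two⟩
  have hcard : Nat.card (GaloisField 2 3) = 8 := by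
    have := GaloisField.card 2 3 (by norm_num)
    simpa using this
  have h2 : (2 : GaloisField 2 3) = 0 := by
    exact_mod_cast CharP.cast_eq_zero (GaloisField 2 3) 2
  have h8 : ∀ t : GaloisField 2 3, t ^ 8 = t := by
    intro t
    have hfin : Fintype (GaloisField 2 3) := Fintype.ofFinite _
    have h := FiniteField.pow_card t
    rwa [← Nat.card_eq_fintype_card, hcard] at h
  have ha : ∃ a : GaloisField 2 3, a ≠ 0 ∧ a ≠ 1 := by
    classical
    by_contra hcon
    push Not at hcon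
    have hfin : Fintype (GaloisField 2 3) := Fintype.ofFinite _
    have hsub : (Finset.univ : Finset (GaloisField 2 3)) ⊆ {0, 1} := by
      intro a _
      by_cases h0 : a = 0
      · simp [h0]
      · simp [hcon a h0]
    have h1 := Finset.card_le_card hsub
    have h3 : ({0, 1} : Finset (GaloisField 2 3)).card ≤ 2 := Finset.card_le_two
    rw [Finset.card_univ, ← Nat.card_eq_fintype_card, hcard] at h1
    omega
  have hA : Good (Aff (GaloisField 2 3) N) := aff_good h2 h8 ha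
  have hP : Good (Matrix.ProjectiveSpecialLinearGroup (Fin 2) F) := psl_good hF
  refine ⟨Aff (GaloisField 2 3) N, affGroup, affFinite, aff_card N, ?_, ?_⟩
  · intro p hp
    rw [good_primes hP p hp, good_primes hA p hp]
  · intro p q hp hq hpq
    exact iff_of_false (good_no_mixed hP p q hp hq hpq) (good_no_mixed hA p q hp hq hpq)

end Cfsg.Agent.S3678
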