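import Mathlib
import Cfsg.Statements.S3680

set_option autoImplicit false
open Cfsg

namespace Cfsg.Agent.S3680

/-- `Fin.appendEquiv` as a multiplicative equivalence -/
def appendMulEquiv (S : Type*) [Mul S] (m n : ℕ) :
    ((Fin m → S) × (Fin n → S)) ≃* (Fin (m + n) → S) :=
  { Fin.appendEquiv m n with
    map_mul' := by
      rintro ⟨f₁, g₁⟩ ⟨f₂, g₂⟩
      funext i
      refine Fin.addCases (fun i => ?_) (fun i => ?_) i <;> simp [Fin.appendEquiv] }

/-- internal direct product -/
theorem prodEquivSup {G : Type*} [Group G] (H K : Subgroup G) (h : H ⊓ K = ⊥)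
    (hcomm : ∀ x ∈ H, ∀ y ∈ K, Commute x y) : Nonempty ((H × K) ≃* ↥(H ⊔ K)) := by
  have hc : ∀ (x : H) (y : K), Commute (H.subtype x) (K.subtype y) :=
    fun x y => hcomm x x.2 y y.2
  have hinj : Function.Injective (MonoidHom.noncommCoprod H.subtype K.subtype hc) := by
    rw [MonoidHom.noncommCoprod_injective]
    refine ⟨H.subtype_injective, K.subtype_injective, ?_⟩
    rw [Subgroup.range_subtype, Subgroup.range_subtype, disjoint_iff, h]
  have hrange : (MonoidHom.noncommCoprod H.subtype K.subtype hc).range = H ⊔ K := by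
    rw [MonoidHom.noncommCoprod_range, Subgroup.range_subtype, Subgroup.range_subtype]
  exact ⟨(MonoidHom.ofInjective hinj).trans (MulEquiv.subgroupCongr hrange)⟩

theorem prod_simple {V Γ : Type*} [Group V] [Finite V] [Nontrivial V] [Group Γ] [Finite Γ]
    (φ : Γ →* MulAut V)
    (hmin : ∀ M : Subgroup V, M.Normal → (∀ γ, M.map (φ γ).toMonoidHom ≤ M) → M = ⊥ ∨ M = ⊤) :
    ∃ (S : Subgroup V) (m : ℕ), 1 ≤ m ∧ IsSimpleGroup S ∧ Nonempty (V ≃* (Fin m → S)) := by
  classical
  haveI : Fintype Γ := Fintype.ofFinite Γ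
  obtain ⟨S, ⟨hSn, hSne⟩, hSmin'⟩ := Set.exists_min_image {M : Subgroup V | M.Normal ∧ M ≠ ⊥}
    (fun M => Nat.card M) (Set.toFinite _) ⟨⊤, inferInstance, top_ne_bot⟩
  have hSmin : ∀ M : Subgroup V, M.Normal → M ≠ ⊥ → Nat.card S ≤ Nat.card M :=
    fun M h1 h2 => hSmin' M ⟨h1, h2⟩
  let A : Γ → Subgroup V := fun γ => S.map (φ γ).toMonoidHom
  have hAn : ∀ γ, (A γ).Normal := fun γ => hSn.map _ (φ γ).surjective
  have hAcard : ∀ γ, Nat.card (A γ) = Nat.card S := fun γ =>
    Subgroup.card_map_of_injective (φ γ).injective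
  have hAmin : ∀ γ (M : Subgroup V), M.Normal → M ≤ A γ → M = ⊥ ∨ M = A γ := by
    intro γ M hM hle
    by_cases h : M = ⊥
    · exact Or.inl h
    · right
      exact Subgroup.eq_of_le_of_card_ge hle (by rw [hAcard]; exact hSmin M hM h)
  have hA1 : A 1 = S := by
    show S.map (φ 1).toMonoidHom = S
    rw [map_one]
    exact Subgroup.map_id S
  haveI := hAn
  have hJ : ⨆ γ, A γ = ⊤ := by
    have hJn : (⨆ γ, A γ).Normal := inferInstance
    have hinv : ∀ δ, (⨆ γ, A γ).map (φ δ).toMonoidHom ≤ ⨆ γ, A γ := by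
      intro δ
      rw [Subgroup.map_iSup]
      apply iSup_le
      intro γ
      have : (A γ).map (φ δ).toMonoidHom = A (δ * γ) := by
        show (S.map (φ γ).toMonoidHom).map (φ δ).toMonoidHom = S.map (φ (δ * γ)).toMonoidHom
        rw [Subgroup.map_map, map_mul]
        rfl
      rw [this]; exact le_iSup A _
    rcases hmin _ hJn hinv with h | h
    · exfalso; apply hSne; rw [eq_bot_iff, ← h, ← hA1]; exact le_iSup A 1
    · exact h
  have hind : ∀ s : Finset Γ, ∃ m : ℕ, Nonempty (↥(⨆ γ ∈ s, A γ) ≃* (Fin m → S)) := by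
    intro s
    induction s using Finset.induction_on with
    | empty =>
      refine ⟨0, ?_⟩
      have h0 : (⨆ γ ∈ (∅ : Finset Γ), A γ) = ⊥ := by simp
      rw [h0]
      exact ⟨MulEquiv.ofUnique⟩
    | insert γ s' hγ ih =>
      obtain ⟨m, ⟨e⟩⟩ := ih
      rw [Finset.iSup_insert]
      have hJ'n : (⨆ γ ∈ s', A γ).Normal := inferInstance
      rcases hAmin γ (A γ ⊓ ⨆ γ ∈ s', A γ) inferInstance inf_le_left with h | h
      · have hcomm : ∀ x ∈ A γ, ∀ y ∈ ⨆ γ ∈ s', A γ, Commute x y := fun x hx y hy =>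
          Subgroup.commute_of_normal_of_disjoint _ _ (hAn γ) hJ'n (disjoint_iff.mpr h) x y hx hy
        obtain ⟨e1⟩ := prodEquivSup (A γ) (⨆ γ ∈ s', A γ) h hcomm
        have e2 : S ≃* A γ := (φ γ).subgroupMap S
        exact ⟨1 + m, ⟨e1.symm.trans ((MulEquiv.prodCongr
          (e2.symm.trans (MulEquiv.funUnique (Fin 1) S).symm) e).trans (appendMulEquiv S 1 m))⟩⟩
      · have : A γ ⊔ ⨆ γ ∈ s', A γ = ⨆ γ ∈ s', A γ := sup_eq_right.mpr (inf_eq_left.mp h)
        rw [this]; exact ⟨m, ⟨e⟩⟩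
  obtain ⟨m, ⟨e⟩⟩ := hind Finset.univ
  have hu : (⨆ γ ∈ (Finset.univ : Finset Γ), A γ) = ⊤ := by simpa using hJ
  have eV : V ≃* (Fin m → S) :=
    Subgroup.topEquiv.symm.trans ((MulEquiv.subgroupCongr hu.symm).trans e)
  refine ⟨S, m, ?_, ?_, ⟨eV⟩⟩
  · by_contra hm
    have hm0 : m = 0 := by omega
    subst hm0
    have : Subsingleton V := eV.toEquiv.subsingleton
    exact not_subsingleton V this
  · have hcent : (⊤ : Subgroup V) ≤ S ⊔ Subgroup.centralizer (S : Set V) := by
      rw [← hJ]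
      apply iSup_le
      intro γ
      rcases hAmin γ (A γ ⊓ S) inferInstance inf_le_left with h | h
      · refine le_trans ?_ le_sup_right
        intro x hx
        rw [Subgroup.mem_centralizer_iff]
        intro y hy
        exact (Subgroup.commute_of_normal_of_disjoint _ _ (hAn γ) hSn (disjoint_iff.mpr h)
          x y hx hy).eq.symm
      · exact le_trans (inf_eq_left.mp h) le_sup_left
    haveI : Nontrivial S := (Subgroup.nontrivial_iff_ne_bot S).mpr hSne
    refine ⟨fun K hK => ?_⟩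
    have hKn : (K.map S.subtype).Normal := by
      constructor
      intro x hx v
      have hv : v ∈ S ⊔ Subgroup.centralizer (S : Set V) := hcent (Subgroup.mem_top v)
      rw [← SetLike.mem_coe, Subgroup.normal_mul] at hv
      obtain ⟨s, hs, c, hc, rfl⟩ := hv
      obtain ⟨k, hk, rfl⟩ := hx
      refine ⟨⟨s, hs⟩ * k * ⟨s, hs⟩⁻¹, hK.conj_mem k hk _, ?_⟩
      have hck : (k : V) * c = c * (k : V) := (Subgroup.mem_centralizer_iff.mp hc) k k.2
      simp only [Subgroup.subtype_apply, Subgroup.coe_mul, Subgroup.coe_inv, mul_inv_rev]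
      calc s * (k : V) * s⁻¹ = s * ((k : V) * c) * c⁻¹ * s⁻¹ := by group
        _ = s * c * (k : V) * (c⁻¹ * s⁻¹) := by rw [hck]; group
    by_cases hKb : K = ⊥
    · exact Or.inl hKb
    · right
      have hne : K.map S.subtype ≠ ⊥ := by
        rwa [Ne, Subgroup.map_eq_bot_iff_of_injective _ S.subtype_injective]
      have h1 := hSmin _ hKn hne
      have h2 : Nat.card (K.map S.subtype) = Nat.card K :=
        Subgroup.card_map_of_injective S.subtype_injective
      rw [h2] at h1
      exact Subgroup.eq_top_of_le_card K h1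

/-- minimal normal subgroup -/
def MinN {G : Type*} [Group G] (V : Subgroup G) : Prop :=
  V.Normal ∧ V ≠ ⊥ ∧ ∀ M : Subgroup G, M.Normal → M ≤ V → M = ⊥ ∨ M = V

theorem exists_minN (G : Type*) [Group G] [Finite G] [Nontrivial G] :
    ∃ V : Subgroup G, MinN V := by
  obtain ⟨V, hV, hmin⟩ := Set.exists_min_image {M : Subgroup G | M.Normal ∧ M ≠ ⊥}
    (fun M => Nat.card M) (Set.toFinite _) ⟨⊤, inferInstance, top_ne_bot⟩
  refine ⟨V, hV.1, hV.2, fun M hM hle => ?_⟩
  by_cases h : M = ⊥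
  · exact Or.inl h
  · exact Or.inr (Subgroup.eq_of_le_of_card_ge hle (hmin M ⟨hM, h⟩))

theorem minN_prod {G : Type*} [Group G] [Finite G] (V : Subgroup G) (hV : MinN V) :
    ∃ (S : Subgroup V) (m : ℕ), 1 ≤ m ∧ IsSimpleGroup S ∧ Nonempty (V ≃* (Fin m → S)) := by
  obtain ⟨hVn, hVne, hVmin⟩ := hV
  haveI := hVn
  haveI : Nontrivial V := (Subgroup.nontrivial_iff_ne_bot V).mpr hVne
  apply prod_simple (MulAut.conjNormal : G →* MulAut V)
  intro M _ hinv
  have hn : (M.map V.subtype).Normal := by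
    constructor
    rintro x ⟨y, hy, rfl⟩ g
    have := hinv g (Subgroup.mem_map_of_mem _ hy)
    exact ⟨MulAut.conjNormal g y, this, by simp [MulAut.conjNormal_apply]⟩
  rcases hVmin _ hn (Subgroup.map_subtype_le M) with h | h
  · left
    rwa [Subgroup.map_eq_bot_iff_of_injective _ V.subtype_injective] at h
  · right
    rw [eq_top_iff]
    intro x _
    have hx : (x : G) ∈ M.map V.subtype := by rw [h]; exact x.2
    obtain ⟨y, hy, hyx⟩ := hx
    have : y = x := Subtype.ext hyx
    rwa [← this]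

theorem disj {G : Type*} [Group G] (V W : Subgroup G) (hV : MinN V) (hW : MinN W)
    (hne : V ≠ W) : V ⊓ W = ⊥ := by
  haveI := hV.1
  haveI := hW.1
  rcases hV.2.2 (V ⊓ W) inferInstance inf_le_left with h | h
  · exact h
  · exfalso
    have hVW : V ≤ W := inf_eq_left.mp h
    rcases hW.2.2 V hV.1 hVW with h' | h'
    · exact hV.2.1 h'
    · exact hne h'

section prim
variable {G Ω : Type*} [Group G] [MulAction G Ω] [FaithfulSMul G Ω]

theorem trans_of_normal (hprim : MulAction.IsPreprimitive G Ω) (U : Subgroup G)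
    (hU : U.Normal) (hne : U ≠ ⊥) : MulAction.IsPretransitive U Ω := by
  haveI := hprim
  haveI := hU
  apply MulAction.IsQuasiPreprimitive.isPretransitive_of_normal
  intro h
  apply hne
  rw [Subgroup.eq_bot_iff_forall]
  intro x hx
  apply FaithfulSMul.eq_of_smul_eq_smul (α := Ω)
  intro ω
  have : ω ∈ MulAction.fixedPoints U Ω := by rw [h]; trivial
  rw [one_smul]
  exact this ⟨x, hx⟩

theorem semireg_centralizer (U : Subgroup G) (hU : MulAction.IsPretransitive U Ω) (c : G)
    (hc : c ∈ Subgroup.centralizer (U : Set G)) (ω : Ω) (h : c • ω = ω) : c = 1 := by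
  apply FaithfulSMul.eq_of_smul_eq_smul (α := Ω)
  intro ω'
  obtain ⟨u, hu⟩ := MulAction.exists_smul_eq U ω ω'
  rw [one_smul, ← hu, Subgroup.smul_def, smul_smul,
    ← (Subgroup.mem_centralizer_iff.mp hc) u u.2, ← smul_smul, h]

omit [FaithfulSMul G Ω] in
theorem le_of_semireg [Nonempty Ω] (C W : Subgroup G)
    (hC : ∀ c ∈ C, ∀ ω : Ω, c • ω = ω → c = 1) (hWC : W ≤ C)
    (hW : MulAction.IsPretransitive W Ω) : C ≤ W := by
  intro c hc
  obtain ⟨ω⟩ := ‹Nonempty Ω›
  obtain ⟨w, hw⟩ := MulAction.exists_smul_eq W ω (c • ω)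
  have h1 : ((w : G)⁻¹ * c) • ω = ω := by
    rw [mul_smul, ← hw, Subgroup.smul_def, inv_smul_smul]
  have h2 := hC _ (C.mul_mem (C.inv_mem (hWC w.2)) hc) ω h1
  have : c = w := by rw [inv_mul_eq_one] at h2; exact h2.symm
  rw [this]; exact w.2

omit [FaithfulSMul G Ω] in
theorem reg_iso [Nonempty Ω] (V W : Subgroup G)
    (hcomm : ∀ x ∈ V, ∀ y ∈ W, Commute x y)
    (hVt : MulAction.IsPretransitive V Ω) (hWt : MulAction.IsPretransitive W Ω)
    (hVs : ∀ c ∈ V, ∀ ω : Ω, c • ω = ω → c = 1) (hWs : ∀ c ∈ W, ∀ ω : Ω, c • ω = ω → c = 1) :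
    Nonempty (V ≃* W) := by
  obtain ⟨ω₀⟩ := ‹Nonempty Ω›
  have hex : ∀ v : V, ∃ w : W, (w : G) • (v : G) • ω₀ = ω₀ := fun v => by
    obtain ⟨w, hw⟩ := MulAction.exists_smul_eq W ((v : G) • ω₀) ω₀
    exact ⟨w, hw⟩
  have huniq : ∀ (v : V) (w w' : W), (w : G) • (v : G) • ω₀ = ω₀ →
      (w' : G) • (v : G) • ω₀ = ω₀ → w = w' := by
    intro v w w' h h'
    have h1 : ((w' : G)⁻¹ * w) • ((v : G) • ω₀) = (v : G) • ω₀ := by
      rw [mul_smul, h]
      nth_rewrite 1 [← h']
      rw [inv_smul_smul]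
    have h2 := hWs _ (W.mul_mem (W.inv_mem w'.2) w.2) _ h1
    rw [inv_mul_eq_one] at h2
    exact (Subtype.ext h2).symm
  choose ψ hψ using hex
  have hmul : ∀ v₁ v₂ : V, ψ (v₁ * v₂) = ψ v₁ * ψ v₂ := by
    intro v₁ v₂
    apply huniq (v₁ * v₂) _ _ (hψ _)
    have hc : (ψ v₂ : G) * (v₁ : G) = (v₁ : G) * (ψ v₂ : G) :=
      (hcomm v₁ v₁.2 (ψ v₂) (ψ v₂).2).eq.symm
    show ((ψ v₁ : G) * (ψ v₂ : G)) • ((v₁ : G) * (v₂ : G)) • ω₀ = ω₀
    rw [mul_smul, mul_smul, smul_smul (ψ v₂ : G) (v₁ : G), hc, mul_smul, hψ v₂, hψ v₁]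
  have hinj : Function.Injective ψ := by
    intro v v' hvv
    have h1 := hψ v
    have h2 := hψ v'
    rw [← hvv] at h2
    have h3 : (v : G) • ω₀ = (v' : G) • ω₀ := smul_left_cancel (ψ v : G) (h1.trans h2.symm)
    have h4 : ((v' : G)⁻¹ * v) • ω₀ = ω₀ := by rw [mul_smul, h3, inv_smul_smul]
    have h5 := hVs _ (V.mul_mem (V.inv_mem v'.2) v.2) _ h4
    rw [inv_mul_eq_one] at h5
    exact (Subtype.ext h5).symm
  have hsurj : Function.Surjective ψ := by
    intro w
    obtain ⟨v, hv⟩ := MulAction.exists_smul_eq V ω₀ ((w : G)⁻¹ • ω₀)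
    refine ⟨v, huniq v _ _ (hψ v) ?_⟩
    have : (v : G) • ω₀ = (w : G)⁻¹ • ω₀ := hv
    rw [this, smul_inv_smul]
  exact ⟨MulEquiv.ofBijective (MonoidHom.mk' ψ hmul) ⟨hinj, hsurj⟩⟩

end prim

theorem comm_of_equiv {V S : Type*} [Group V] [Group S] (m : ℕ) (e : V ≃* (Fin m → S))
    (hc : IsMulCommutative S) : ∀ a b : V, a * b = b * a := by
  intro a b
  apply e.injective
  rw [map_mul, map_mul]
  funext i
  exact mul_comm' _ _

theorem final {N S : Type*} [Group N] [Group S] [Finite S] (m : ℕ) (hm : 1 ≤ m)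
    (hS : IsSimpleGroup S) (hc : ¬ IsMulCommutative S) (e : N ≃* (Fin m → S)) :
    ∃ (T : Type) (_ : Group T) (m : ℕ), 1 ≤ m ∧ IsSimpleGroup T ∧ ¬ IsMulCommutative T ∧
      Nonempty (N ≃* (Fin m → T)) := by
  let me : Shrink.{0} S ≃* S := Shrink.mulEquiv
  refine ⟨Shrink.{0} S, inferInstance, m, hm, me.isSimpleGroup, ?_,
    ⟨e.trans (MulEquiv.piCongrRight fun _ => me.symm)⟩⟩
  intro h
  apply hc
  refine ⟨⟨fun a b => ?_⟩⟩
  have := mul_comm' (me.symm a) (me.symm b)
  rw [← map_mul, ← map_mul] at this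
  exact me.symm.injective this

/-- The socle of a finite primitive permutation group. Let a finite group G act faithfully and primitively on a set Ω, and let N be the subgroup generated by the minimal normal subgroups of G. Then either N is an elementary abelian p-group for some prime p and acts regularly on Ω (transitively with trivial point stabilizers), or N is isomorphic to a direct product of m ≥ 1 copies of a non-abelian simple group. -/
theorem result {G Ω : Type*} [Group G] [Finite G] [MulAction G Ω] [FaithfulSMul G Ω] [Finite Ω]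
    (hprim : MulAction.IsPreprimitive G Ω) (N : Subgroup G)
    (hN : N = sSup {V : Subgroup G | V.Normal ∧ V ≠ ⊥ ∧ ∀ M : Subgroup G, M.Normal → M ≤ V → M = ⊥ ∨ M = V}) :
    (∃ p : ℕ, p.Prime ∧ IsMulCommutative N ∧ (∀ x : N, x ^ p = 1) ∧
      MulAction.IsPretransitive N Ω ∧ ∀ ω : Ω, MulAction.stabilizer N ω = ⊥) ∨
    (∃ (T : Type) (_ : Group T) (m : ℕ), 1 ≤ m ∧ IsSimpleGroup T ∧ ¬ IsMulCommutative T ∧ Nonempty (N ≃* (Fin m → T))) := by
  classical
  have hN' : N = sSup {V : Subgroup G | MinN V} := hN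
  by_cases hG : Subsingleton G
  · left
    refine ⟨2, Nat.prime_two, ⟨⟨fun a b => Subsingleton.elim _ _⟩⟩,
      fun x => Subsingleton.elim _ _, ?_, fun ω => Subsingleton.elim _ _⟩
    constructor
    intro x y
    haveI := hprim.toIsPretransitive
    obtain ⟨g, hg⟩ := MulAction.exists_smul_eq G x y
    refine ⟨1, ?_⟩
    rw [one_smul, ← hg, Subsingleton.elim g 1, one_smul]
  rw [not_subsingleton_iff_nontrivial] at hG
  haveI := hG
  haveI : Nonempty Ω := by
    by_contra h
    rw [not_nonempty_iff] at h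
    obtain ⟨g, hg⟩ := exists_ne (1 : G)
    exact hg (FaithfulSMul.eq_of_smul_eq_smul (α := Ω) fun a => (IsEmpty.false a).elim)
  obtain ⟨V, hV⟩ := exists_minN G
  have htrans : ∀ U : Subgroup G, MinN U → MulAction.IsPretransitive U Ω :=
    fun U hU => trans_of_normal hprim U hU.1 hU.2.1
  have hsemi : ∀ U : Subgroup G, MinN U → ∀ c ∈ Subgroup.centralizer (U : Set G),
      ∀ ω : Ω, c • ω = ω → c = 1 :=
    fun U hU c hc ω h => semireg_centralizer U (htrans U hU) c hc ω h
  have hpair : ∀ U W : Subgroup G, MinN U → MinN W → U ≠ W →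
      W = Subgroup.centralizer (U : Set G) := by
    intro U W hU hW hne
    have hd := disj U W hU hW hne
    have hle : W ≤ Subgroup.centralizer (U : Set G) := by
      intro y hy
      rw [Subgroup.mem_centralizer_iff]
      intro x hx
      exact (Subgroup.commute_of_normal_of_disjoint U W hU.1 hW.1 (disjoint_iff.mpr hd)
        x y hx hy).eq
    exact le_antisymm hle (le_of_semireg _ W (hsemi U hU) hle (htrans W hW))
  by_cases huniq : ∀ W : Subgroup G, MinN W → W = V
  · have hNV : N = V := by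
      rw [hN']
      apply le_antisymm
      · apply sSup_le
        intro W hW
        exact (huniq W hW).le
      · exact le_sSup hV
    subst hNV
    obtain ⟨S, m, hm, hS, ⟨e⟩⟩ := minN_prod N hV
    by_cases hc : IsMulCommutative S
    · left
      have hcomm := comm_of_equiv m e hc
      letI : CommGroup S :=
        { (inferInstance : Group S) with mul_comm := fun a b => mul_comm' a b }
      have hp : (Nat.card S).Prime := IsSimpleGroup.prime_card
      refine ⟨Nat.card S, hp, ⟨⟨hcomm⟩⟩, ?_, htrans N hV, ?_⟩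
      · intro x
        apply e.injective
        rw [map_pow, map_one]
        funext i
        exact pow_card_eq_one'
      · intro ω
        rw [Subgroup.eq_bot_iff_forall]
        intro x hx
        rw [MulAction.mem_stabilizer_iff] at hx
        have hxc : (x : G) ∈ Subgroup.centralizer (N : Set G) := by
          rw [Subgroup.mem_centralizer_iff]
          intro y hy
          exact congrArg Subtype.val (hcomm ⟨y, hy⟩ x)
        exact Subtype.ext (hsemi N hV _ hxc ω hx)
    · right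
      exact final m hm hS hc e
  · right
    push Not at huniq
    obtain ⟨W, hW, hWV⟩ := huniq
    have hWc : W = Subgroup.centralizer (V : Set G) := hpair V W hV hW (Ne.symm hWV)
    have hVc : V = Subgroup.centralizer (W : Set G) := hpair W V hW hV hWV
    have hNVW : N = V ⊔ W := by
      rw [hN']
      apply le_antisymm
      · apply sSup_le
        intro U hU
        by_cases hUV : U = V
        · rw [hUV]; exact le_sup_left
        · have : U = W := by rw [hWc]; exact hpair V U hV hU (Ne.symm hUV)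
          rw [this]; exact le_sup_right
      · exact sup_le (le_sSup hV) (le_sSup hW)
    have hdisj : V ⊓ W = ⊥ := disj V W hV hW (Ne.symm hWV)
    have hcomm : ∀ x ∈ V, ∀ y ∈ W, Commute x y := fun x hx y hy =>
      Subgroup.commute_of_normal_of_disjoint V W hV.1 hW.1 (disjoint_iff.mpr hdisj) x y hx hy
    obtain ⟨e1⟩ := prodEquivSup V W hdisj hcomm
    obtain ⟨S, m, hm, hS, ⟨e⟩⟩ := minN_prod V hV
    have hSnc : ¬ IsMulCommutative S := by
      intro hc
      have hcomm' := comm_of_equiv m e hc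
      apply hV.2.1
      rw [eq_bot_iff, ← hdisj]
      intro x hx
      have hxc : x ∈ Subgroup.centralizer (V : Set G) := by
        rw [Subgroup.mem_centralizer_iff]
        intro y hy
        exact congrArg Subtype.val (hcomm' ⟨y, hy⟩ ⟨x, hx⟩)
      rw [← hWc] at hxc
      exact ⟨hx, hxc⟩
    have hVs : ∀ c ∈ V, ∀ ω : Ω, c • ω = ω → c = 1 := fun c hc ω h =>
      hsemi W hW c (hVc ▸ hc) ω h
    have hWs : ∀ c ∈ W, ∀ ω : Ω, c • ω = ω → c = 1 := fun c hc ω h =>
      hsemi V hV c (hWc ▸ hc) ω h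
    obtain ⟨ψ⟩ : Nonempty (V ≃* W) := reg_iso V W hcomm (htrans V hV) (htrans W hW) hVs hWs
    have eN : N ≃* (Fin (m + m) → S) :=
      (MulEquiv.subgroupCongr hNVW).trans (e1.symm.trans
        ((MulEquiv.prodCongr e (ψ.symm.trans e)).trans (appendMulEquiv S m m)))
    exact final (m + m) (by omega) hS hSnc eN

end Cfsg.Agent.S3680
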