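import Cfsg.Statements.S3681

set_option autoImplicit false
open Cfsg

namespace Cfsg.Agent.S3681

open Equiv

/-- If the supports of two permutations meet in exactly one point, their commutator is a 3-cycle. -/
theorem isThreeCycle_commutator {Ω : Type*} [Fintype Ω] [DecidableEq Ω] (x y : Perm Ω) (d : Ω)
    (hx : x d ≠ d) (hy : y d ≠ d) (hxy : ∀ p, x p ≠ p → y p ≠ p → p = d) :
    (x * y * x⁻¹ * y⁻¹).IsThreeCycle := by
  -- facts about inverses
  have ais : ∀ (f : Perm Ω) (p : Ω), f (f⁻¹ p) = p := fun f p => f.apply_symm_apply p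
  have ias : ∀ (f : Perm Ω) (p : Ω), f⁻¹ (f p) = p := fun f p => f.symm_apply_apply p
  have hxinv : ∀ p, x p = p → x⁻¹ p = p := fun p hp => by
    rw [Perm.inv_eq_iff_eq]; exact hp.symm
  have hyinv : ∀ p, y p = p → y⁻¹ p = p := fun p hp => by
    rw [Perm.inv_eq_iff_eq]; exact hp.symm
  have hxmv : ∀ p, x p ≠ p → x (x p) ≠ x p := fun p hp h => hp (x.injective h)
  have hymv : ∀ p, y p ≠ p → y (y p) ≠ y p := fun p hp h => hp (y.injective h)
  have hxmv' : ∀ p, x p ≠ p → x (x⁻¹ p) ≠ x⁻¹ p := fun p hp h => by
    rw [ais] at h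
    apply hp
    conv_lhs => rw [h]
    rw [ais]
  have hymv' : ∀ p, y p ≠ p → y (y⁻¹ p) ≠ y⁻¹ p := fun p hp h => by
    rw [ais] at h
    apply hp
    conv_lhs => rw [h]
    rw [ais]
  -- x fixes points moved by y other than d, and vice versa
  have hxfix : ∀ p, y p ≠ p → p ≠ d → x p = p := fun p hp hpd => by
    by_contra h; exact hpd (hxy p h hp)
  have hyfix : ∀ p, x p ≠ p → p ≠ d → y p = p := fun p hp hpd => by
    by_contra h; exact hpd (hxy p hp h)
  have hbd : x d ≠ d := hx
  have hcd : y d ≠ d := hy
  have hbc : y d ≠ x d := fun h => by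
    have h1 : y (x d) ≠ x d := by rw [← h]; exact hymv d hy
    exact hx (hxy (x d) (hxmv d hx) h1)
  have key : x * y * x⁻¹ * y⁻¹ = swap d (y d) * swap d (x d) := by
    ext p
    simp only [Perm.mul_apply]
    by_cases hpc : p = y d
    · -- p = c
      subst hpc
      rw [ias]
      have he : y (x⁻¹ d) = x⁻¹ d := by
        apply hyfix _ (hxmv' d hx)
        intro h
        apply hx
        conv_lhs => rw [← h]
        rw [ais]
      rw [he, ais, swap_apply_of_ne_of_ne hcd hbc, swap_apply_right]
    · by_cases hpd : p = d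
      · subst hpd
        have hf : x⁻¹ (y⁻¹ p) = y⁻¹ p := by
          apply hxinv
          apply hxfix _ (hymv' p hy)
          intro h
          apply hy
          conv_lhs => rw [← h]
          rw [ais]
        rw [hf, ais, swap_apply_left, swap_apply_of_ne_of_ne hbd hbc.symm]
      · by_cases hpb : p = x d
        · subst hpb
          have h1 : y⁻¹ (x d) = x d := hyinv _ (hyfix _ (hxmv d hx) hbd)
          rw [h1, ias, hxfix _ (hymv d hy) hcd, swap_apply_right, swap_apply_left]
        · rw [swap_apply_of_ne_of_ne hpd hpb, swap_apply_of_ne_of_ne hpd hpc]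
          by_cases hyp : y p = p
          · rw [hyinv p hyp]
            by_cases hxp : x p = p
            · rw [hxinv p hxp, hyp, hxp]
            · have h2 : y (x⁻¹ p) = x⁻¹ p := by
                apply hyfix _ (hxmv' p hxp)
                intro h
                apply hpb
                rw [← h, ais]
              rw [h2, ais]
          · have h3 : x⁻¹ (y⁻¹ p) = y⁻¹ p := by
              apply hxinv
              apply hxfix _ (hymv' p hyp)
              intro h
              apply hpc
              rw [← h, ais]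
            rw [h3, ais]
            exact hxfix p hyp hpd
  rw [key]
  exact Perm.isThreeCycle_swap_mul_swap_same (Ne.symm hcd) (Ne.symm hbd) hbc

/-- Bochert's bound for primitive groups. Let a finite group G act faithfully and primitively on a finite set Ω with n elements, and suppose the image of G in the symmetric group of Ω does not contain the alternating group of Ω. Then |G| · ⌊(n + 1)/2⌋! ≤ n!, that is, the index of G in the symmetric group is at least ⌊(n + 1)/2⌋!. -/
theorem result {G Ω : Type*} [Group G] [Finite G] [MulAction G Ω] [FaithfulSMul G Ω] [Fintype Ω] [DecidableEq Ω]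
    (hprim : MulAction.IsPreprimitive G Ω) (hA : ¬ alternatingGroup Ω ≤ (MulAction.toPermHom G Ω).range) :
    Nat.card G * Nat.factorial ((Fintype.card Ω + 1) / 2) ≤ Nat.factorial (Fintype.card Ω) := by
  classical
  set R : Subgroup (Perm Ω) := (MulAction.toPermHom G Ω).range with hR
  have hinj : Function.Injective (MulAction.toPermHom G Ω) := MulAction.toPerm_injective
  have hcardR : Nat.card R = Nat.card G :=
    (Nat.card_congr (MonoidHom.ofInjective hinj).toEquiv).symm
  -- R is primitive
  have hprimR : MulAction.IsPreprimitive R Ω := by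
    let φ : G → R := fun g => ⟨MulAction.toPermHom G Ω g, ⟨g, rfl⟩⟩
    let f : Ω →ₑ[φ] Ω := { toFun := id, map_smul' := fun g x => rfl }
    exact MulAction.IsPreprimitive.of_surjective (f := f) Function.surjective_id
  -- R contains no 3-cycle
  have hno3 : ∀ g ∈ R, ¬ g.IsThreeCycle := fun g hg h3 =>
    hA (Perm.alternatingGroup_le_of_isPreprimitive_of_isThreeCycle_mem hprimR h3 hg)
  -- bases
  let P : Finset Ω → Prop := fun s => ∀ r ∈ R, (∀ x ∈ s, r x = x) → r = 1
  have hPuniv : P Finset.univ := fun r _ h => Perm.ext fun x => h x (Finset.mem_univ x)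
  have hex : ∃ n, ∃ s : Finset Ω, s.card = n ∧ P s := ⟨_, Finset.univ, rfl, hPuniv⟩
  obtain ⟨s, hsn, hPs⟩ := Nat.find_spec hex
  have hmin : ∀ s' : Finset Ω, P s' → s.card ≤ s'.card := fun s' hs' => by
    rw [hsn]; exact Nat.find_min' hex ⟨s', rfl, hs'⟩
  -- the complement of a minimal base is a base
  have hPc : ∀ r ∈ R, (∀ x, x ∉ s → r x = x) → r = 1 := by
    intro y hyR hyfix
    by_contra hy1
    obtain ⟨d, hd⟩ : ∃ d, y d ≠ d := by
      by_contra hcon
      push Not at hcon
      exact hy1 (Perm.ext hcon)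
    have hds : d ∈ s := by
      by_contra h; exact hd (hyfix d h)
    have hnP : ¬ P (s.erase d) := fun hP => by
      have := hmin _ hP
      rw [Finset.card_erase_of_mem hds] at this
      have hpos : 0 < s.card := Finset.card_pos.mpr ⟨d, hds⟩
      omega
    simp only [P] at hnP
    push Not at hnP
    obtain ⟨x, hxR, hxfix, hx1⟩ := hnP
    have hxd : x d ≠ d := fun h => by
      apply hx1
      apply hPs x hxR
      intro z hz
      by_cases hzd : z = d
      · rw [hzd]; exact h
      · exact hxfix z (Finset.mem_erase.mpr ⟨hzd, hz⟩)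
    have hcommon : ∀ p, x p ≠ p → y p ≠ p → p = d := by
      intro p hxp hyp
      by_contra hpd
      have hps : p ∈ s := by
        by_contra h; exact hyp (hyfix p h)
      exact hxp (hxfix p (Finset.mem_erase.mpr ⟨hpd, hps⟩))
    have h3 := isThreeCycle_commutator x y d hxd hd hcommon
    exact hno3 _ (R.mul_mem (R.mul_mem (R.mul_mem hxR hyR) (R.inv_mem hxR)) (R.inv_mem hyR)) h3
  -- choose the larger of s and its complement
  obtain ⟨Λ, hΛcard, hΛ⟩ : ∃ Λ : Finset Ω, (Fintype.card Ω + 1) / 2 ≤ Λ.card ∧
      ∀ r ∈ R, (∀ x, x ∉ Λ → r x = x) → r = 1 := by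
    have hcompl : sᶜ.card = Fintype.card Ω - s.card := Finset.card_compl s
    have hle : s.card ≤ Fintype.card Ω := Finset.card_le_univ s
    by_cases h : Fintype.card Ω ≤ 2 * s.card
    · exact ⟨s, by omega, hPc⟩
    · refine ⟨sᶜ, by omega, ?_⟩
      intro r hr hfix
      apply hPs r hr
      intro x hx
      apply hfix
      simp [hx]
  -- the injection R × Sym(Λ) → Sym(Ω)
  let F : R × Perm {x // x ∈ Λ} → Perm Ω := fun q => (q.1 : Perm Ω) * Perm.ofSubtype q.2
  have hF : Function.Injective F := by
    rintro ⟨r, σ⟩ ⟨r', τ⟩ h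
    simp only [F] at h
    have h1 : ((r' : Perm Ω))⁻¹ * (r : Perm Ω) = Perm.ofSubtype τ * (Perm.ofSubtype σ)⁻¹ := by
      rw [eq_mul_inv_iff_mul_eq, mul_assoc, h, inv_mul_cancel_left]
    have h2 : ((r' : Perm Ω))⁻¹ * (r : Perm Ω) = 1 := by
      apply hΛ _ (R.mul_mem (R.inv_mem r'.2) r.2)
      intro x hx
      rw [h1, ← map_inv, ← map_mul]
      exact Perm.ofSubtype_apply_of_not_mem _ hx
    have h3 : (r : Perm Ω) = r' := by
      rw [inv_mul_eq_one] at h2; exact h2.symm
    have h4 : r = r' := Subtype.ext h3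
    subst h4
    have h5 : Perm.ofSubtype σ = Perm.ofSubtype τ := mul_left_cancel h
    rw [Perm.ofSubtype_injective h5]
  have hcard := Nat.card_le_card_of_injective F hF
  rw [Nat.card_prod, Nat.card_perm, Nat.card_perm, hcardR, Nat.card_eq_fintype_card (α := Ω),
    Nat.card_eq_fintype_card (α := {x // x ∈ Λ}), Fintype.card_coe] at hcard
  calc Nat.card G * Nat.factorial ((Fintype.card Ω + 1) / 2)
      ≤ Nat.card G * Nat.factorial Λ.card :=
        Nat.mul_le_mul_left _ (Nat.factorial_le hΛcard)
    _ ≤ Nat.factorial (Fintype.card Ω) := hcard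

end Cfsg.Agent.S3681
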