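import Cfsg.Statements.S3682
import Cfsg.Agent.Helper95.TWPerm

set_option autoImplicit false
open Cfsg

namespace Cfsg.Agent.S3682

/-- Wielandt's bound toward the Sims conjecture. Let a finite group G act faithfully and primitively on a set Ω, let a and b be points, and suppose the orbit of b under the stabilizer of a has length d ≥ 2. Then there are a prime p and a normal p-subgroup P of the stabilizer of a, all of whose elements fix b, such that the index of P in the stabilizer of a divides d! · ((d - 1)!)^d. -/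
theorem result {G Ω : Type*} [Group G] [Finite G] [MulAction G Ω] [FaithfulSMul G Ω] [Finite Ω]
    (hprim : MulAction.IsPreprimitive G Ω) (a b : Ω) (d : ℕ) (hd : Nat.card (MulAction.orbit (MulAction.stabilizer G a) b) = d) (h2 : 2 ≤ d) :
    ∃ p : ℕ, p.Prime ∧ ∃ P : Subgroup (MulAction.stabilizer G a), P.Normal ∧ IsPGroup p P ∧ (∀ g : P, ((g : MulAction.stabilizer G a) : G) • b = b) ∧
      P.index ∣ Nat.factorial d * (Nat.factorial (d - 1)) ^ d := by
  obtain ⟨A₁, B₁, A₂, B₂, hpair, hbot, hidx⟩ :=
    Cfsg.Agent.Helper95.tw_perm_main hprim a b d hd h2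
  have triv : A₂ = ⊥ ∨ B₂ = ⊥ → ∃ p : ℕ, p.Prime ∧ ∃ P : Subgroup (MulAction.stabilizer G a),
      P.Normal ∧ IsPGroup p P ∧ (∀ g : P, ((g : MulAction.stabilizer G a) : G) • b = b) ∧
      P.index ∣ Nat.factorial d * (Nat.factorial (d - 1)) ^ d := by
    intro h
    refine ⟨2, Nat.prime_two, ⊥, Subgroup.normal_bot, IsPGroup.of_bot, ?_, ?_⟩
    · intro g
      have : g = 1 := Subsingleton.elim _ _
      rw [this]
      simp
    · rw [Subgroup.index_bot]
      exact hbot h
  by_cases hA : A₂ = ⊥
  · exact triv (Or.inl hA)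
  · by_cases hB : B₂ = ⊥
    · exact triv (Or.inr hB)
    · obtain ⟨p, hp, hA₂p, _, _, _⟩ := hpair.main hA hB
      refine ⟨p, hp, A₂.subgroupOf (MulAction.stabilizer G a),
        (Subgroup.normal_subgroupOf_iff_le_normalizer hpair.a2.le).mpr hpair.a2.norm,
        hA₂p.comap_subtype, ?_, hidx⟩
      intro g
      have hg : ((g : MulAction.stabilizer G a) : G) ∈ A₂ := Subgroup.mem_subgroupOf.mp g.2
      exact MulAction.mem_stabilizer_iff.mp (hpair.b1.le (hpair.a2.le' hg))

end Cfsg.Agent.S3682
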