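import Cfsg.Statements.S3683

set_option autoImplicit false
open Cfsg

namespace Cfsg.Agent.S3683

/-- Let a finite group G act faithfully and primitively on a set Ω, and suppose the stabilizer of a point a fixes a second point b ≠ a (a suborbit of length 1 other than {a}). Then the stabilizer of a is trivial and G is cyclic of prime order. -/
theorem result {G Ω : Type*} [Group G] [Finite G] [MulAction G Ω] [FaithfulSMul G Ω] [Finite Ω]
    (hprim : MulAction.IsPreprimitive G Ω) (a b : Ω) (hab : a ≠ b) (hfix : ∀ g : G, g • a = a → g • b = b) :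
    MulAction.stabilizer G a = ⊥ ∧ IsCyclic G ∧ (Nat.card G).Prime := by
  have : MulAction.IsPretransitive G Ω := hprim.toIsPretransitive
  have : Nontrivial Ω := ⟨⟨a, b, hab⟩⟩
  have hmax : IsCoatom (MulAction.stabilizer G a) :=
    (MulAction.isCoatom_stabilizer_iff_preprimitive (G := G) a).mpr hprim
  obtain ⟨g, hg⟩ := MulAction.exists_smul_eq G a b
  -- the two stabilizers coincide
  have hle : MulAction.stabilizer G a ≤ MulAction.stabilizer G b := fun x hx => by
    rw [MulAction.mem_stabilizer_iff] at hx ⊢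
    exact hfix x hx
  have hcard : Nat.card (MulAction.stabilizer G b) = Nat.card (MulAction.stabilizer G a) := by
    rw [← hg, MulAction.stabilizer_smul_eq_stabilizer_map_conj]
    exact Nat.card_congr
      ((MulAction.stabilizer G a).equivMapOfInjective _ (MulAut.conj g).injective).symm.toEquiv
  have heq : MulAction.stabilizer G a = MulAction.stabilizer G b :=
    Subgroup.eq_of_le_of_card_ge hle hcard.le
  -- g normalizes the stabilizer of a
  have hgN : g ∈ Subgroup.normalizer (MulAction.stabilizer G a : Set G) := by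
    rw [Subgroup.mem_normalizer_iff]
    intro h
    constructor
    · intro hh
      have : g * h * g⁻¹ ∈ MulAction.stabilizer G (g • a) := by
        rw [MulAction.mem_stabilizer_iff] at hh ⊢
        rw [mul_smul, mul_smul, inv_smul_smul, hh]
      rw [hg, ← heq] at this
      exact this
    · intro hh
      rw [heq, ← hg, MulAction.mem_stabilizer_iff] at hh
      rw [MulAction.mem_stabilizer_iff]
      have h2 : g⁻¹ • ((g * h * g⁻¹) • g • a) = g⁻¹ • g • a := by rw [hh]
      simpa [mul_smul] using h2
  have hgS : g ∉ MulAction.stabilizer G a := by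
    rw [MulAction.mem_stabilizer_iff, hg]
    exact fun h => hab h.symm
  have hNtop : Subgroup.normalizer (MulAction.stabilizer G a : Set G) = ⊤ := by
    by_contra hne
    have := hmax.2 (Subgroup.normalizer (MulAction.stabilizer G a : Set G))
      (lt_of_le_of_ne Subgroup.le_normalizer (fun h => hgS (h ▸ hgN)))
    exact hne this
  have hnormal : (MulAction.stabilizer G a).Normal := Subgroup.normalizer_eq_top_iff.mp hNtop
  have hbot : MulAction.stabilizer G a = ⊥ := by
    rw [Subgroup.eq_bot_iff_forall]
    intro s hs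
    apply FaithfulSMul.eq_of_smul_eq_smul (α := Ω)
    intro x
    obtain ⟨h, rfl⟩ := MulAction.exists_smul_eq G a x
    have h1 : h⁻¹ * s * h⁻¹⁻¹ ∈ MulAction.stabilizer G a := hnormal.conj_mem s hs h⁻¹
    rw [MulAction.mem_stabilizer_iff] at h1
    rw [one_smul]
    have h2 : h • ((h⁻¹ * s * h⁻¹⁻¹) • a) = h • a := by rw [h1]
    simpa [mul_smul] using h2
  refine ⟨hbot, ?_⟩
  rw [hbot] at hmax
  -- every subgroup is trivial or everything
  have hsub : ∀ K : Subgroup G, K = ⊥ ∨ K = ⊤ := fun K => by
    by_cases hK : K = ⊥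
    · exact Or.inl hK
    · exact Or.inr (hmax.2 K (bot_lt_iff_ne_bot.mpr hK))
  have hnt : (⊥ : Subgroup G) ≠ ⊤ := hmax.1
  obtain ⟨x, hx⟩ : ∃ x : G, x ≠ 1 := by
    by_contra hcon
    push Not at hcon
    apply hnt
    rw [eq_comm, Subgroup.eq_bot_iff_forall]
    intro y _
    exact hcon y
  have hz : Subgroup.zpowers x = ⊤ :=
    (hsub _).resolve_left (Subgroup.zpowers_ne_bot.2 hx)
  have hcyc : IsCyclic G := ⟨⟨x, (Subgroup.eq_top_iff' _).1 hz⟩⟩
  refine ⟨hcyc, ?_⟩
  let : CommGroup G := IsCyclic.commGroup
  have : Nontrivial G := ⟨⟨x, 1, hx⟩⟩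
  have : IsSimpleGroup G := ⟨fun K _ => hsub K⟩
  exact IsSimpleGroup.prime_card

end Cfsg.Agent.S3683
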