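import Mathlib
import Cfsg.Statements.S3684

set_option autoImplicit false
open Cfsg

namespace Cfsg.Agent.S3684

/-- A group generated by an involution `s` and an element `x` inverted by `s`, with `s` not a
power of `x`, is a homomorphic image of the dihedral group; here the explicit map. -/
theorem exists_dihedral_hom {G : Type*} [Group G] (s x : G) (hss : s * s = 1)
    (hinv : s * x * s⁻¹ = x⁻¹) (hn0 : orderOf x ≠ 0) :
    ∃ φ : DihedralGroup (orderOf x) →* G,
      (∀ i : ZMod (orderOf x), φ (DihedralGroup.r i) = x ^ i.val) ∧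
      (∀ i : ZMod (orderOf x), φ (DihedralGroup.sr i) = s * x ^ i.val) := by
  have : NeZero (orderOf x) := ⟨hn0⟩
  have hsinv : s⁻¹ = s := inv_eq_of_mul_eq_one_right hss
  have he_add : ∀ i j : ZMod (orderOf x), x ^ (i + j).val = x ^ i.val * x ^ j.val := by
    intro i j
    rw [← pow_add, ZMod.val_add]
    exact pow_mod_orderOf x _
  have he_sub : ∀ i j : ZMod (orderOf x), x ^ (j - i).val = (x ^ i.val)⁻¹ * x ^ j.val := by
    intro i j
    have h := he_add (j - i) i
    rw [sub_add_cancel] at h
    have hc : x ^ (j - i).val * x ^ i.val = x ^ i.val * x ^ (j - i).val :=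
      ((Commute.refl x).pow_pow _ _).eq
    rw [h, hc, inv_mul_cancel_left]
  have hconj : ∀ k : ℕ, s * x ^ k * s⁻¹ = (x ^ k)⁻¹ := by
    intro k
    rw [← conj_pow, hinv, inv_pow]
  have hea : ∀ k : ℕ, x ^ k * s = s * (x ^ k)⁻¹ := by
    intro k
    rw [← hconj k]
    calc x ^ k * s = (s * s) * x ^ k * s⁻¹ := by rw [hss, one_mul, hsinv]
      _ = s * (s * x ^ k * s⁻¹) := by group
  let φ : DihedralGroup (orderOf x) → G := fun g =>
    match g with
    | DihedralGroup.r i => x ^ i.val
    | DihedralGroup.sr i => s * x ^ i.val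
  have hφmul : ∀ g h, φ (g * h) = φ g * φ h := by
    rintro (i | i) (j | j)
    · rw [DihedralGroup.r_mul_r]
      exact he_add i j
    · rw [DihedralGroup.r_mul_sr]
      show s * x ^ (j - i).val = x ^ i.val * (s * x ^ j.val)
      rw [he_sub, ← mul_assoc (x ^ i.val), hea]
      group
    · rw [DihedralGroup.sr_mul_r]
      show s * x ^ (i + j).val = s * x ^ i.val * x ^ j.val
      rw [he_add, mul_assoc]
    · rw [DihedralGroup.sr_mul_sr]
      show x ^ (j - i).val = s * x ^ i.val * (s * x ^ j.val)
      rw [he_sub]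
      calc (x ^ i.val)⁻¹ * x ^ j.val = (s * s) * (x ^ i.val)⁻¹ * x ^ j.val := by
            rw [hss, one_mul]
        _ = s * (s * (x ^ i.val)⁻¹) * x ^ j.val := by group
        _ = s * (x ^ i.val * s) * x ^ j.val := by rw [hea]
        _ = s * x ^ i.val * (s * x ^ j.val) := by group
  exact ⟨MonoidHom.mk' φ hφmul, fun i => rfl, fun i => rfl⟩

/-- Let a finite group G act faithfully and primitively on a set Ω, and suppose the stabilizer of a point a has an orbit of length 2. Then the stabilizer of a has order 2 and G is isomorphic to the dihedral group of order 2p for some prime p. -/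
theorem result {G Ω : Type*} [Group G] [Finite G] [MulAction G Ω] [FaithfulSMul G Ω] [Finite Ω]
    (hprim : MulAction.IsPreprimitive G Ω) (a b : Ω) (h2 : Nat.card (MulAction.orbit (MulAction.stabilizer G a) b) = 2) :
    Nat.card (MulAction.stabilizer G a) = 2 ∧ ∃ p : ℕ, p.Prime ∧ Nonempty (G ≃* DihedralGroup p) := by
  classical
  have hpt : MulAction.IsPretransitive G Ω := hprim.toIsPretransitive
  have hab : a ≠ b := by
    rintro rfl
    have : MulAction.orbit (MulAction.stabilizer G a) a = {a} := by
      ext x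
      constructor
      · rintro ⟨s, rfl⟩
        exact s.2
      · rintro rfl
        exact MulAction.mem_orbit_self _
    rw [this] at h2
    simp at h2
  have hnt : Nontrivial Ω := ⟨⟨a, b, hab⟩⟩
  set S := MulAction.stabilizer G a with hS
  set Sb := MulAction.stabilizer G b with hSb
  set D := S ⊓ Sb with hD
  have hmax : IsCoatom S := (MulAction.isCoatom_stabilizer_iff_preprimitive (G := G) a).mpr hprim
  -- the index of D in S is 2
  have hT : (D.subgroupOf S).index = 2 := by
    have h1 : D.subgroupOf S = MulAction.stabilizer S b := by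
      ext s
      rw [Subgroup.mem_subgroupOf, hD, Subgroup.mem_inf, MulAction.mem_stabilizer_iff]
      constructor
      · rintro ⟨_, h⟩
        exact h
      · intro h
        exact ⟨s.2, h⟩
    rw [h1, MulAction.index_stabilizer, ← Nat.card_coe_set_eq]
    exact h2
  have hcardDS : Nat.card (D.subgroupOf S) = Nat.card D :=
    Nat.card_congr (Subgroup.subgroupOfEquivOfLe (inf_le_left : D ≤ S)).toEquiv
  have hcardDSb : Nat.card (D.subgroupOf Sb) = Nat.card D :=
    Nat.card_congr (Subgroup.subgroupOfEquivOfLe (inf_le_right : D ≤ Sb)).toEquiv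
  have hcardS : Nat.card S = 2 * Nat.card D := by
    have := Subgroup.index_mul_card (D.subgroupOf S)
    rw [hT, hcardDS] at this
    exact this.symm
  obtain ⟨g, hg⟩ := MulAction.exists_smul_eq G a b
  have hcardSb : Nat.card Sb = Nat.card S := by
    rw [hSb, ← hg, MulAction.stabilizer_smul_eq_stabilizer_map_conj]
    exact Nat.card_congr
      ((MulAction.stabilizer G a).equivMapOfInjective _ (MulAut.conj g).injective).symm.toEquiv
  have hDpos : 0 < Nat.card D := Nat.card_pos
  have hTb : (D.subgroupOf Sb).index = 2 := by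
    have := Subgroup.index_mul_card (D.subgroupOf Sb)
    rw [hcardDSb, hcardSb, hcardS] at this
    exact Nat.eq_of_mul_eq_mul_right hDpos this
  have hN1 : S ≤ Subgroup.normalizer (D : Set G) :=
    (Subgroup.normal_subgroupOf_iff_le_normalizer inf_le_left).mp
      (Subgroup.normal_of_index_eq_two hT)
  have hN2 : Sb ≤ Subgroup.normalizer (D : Set G) :=
    (Subgroup.normal_subgroupOf_iff_le_normalizer inf_le_right).mp
      (Subgroup.normal_of_index_eq_two hTb)
  have hSb_not_le : ¬ Sb ≤ S := by
    intro h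
    have hDeq : D = Sb := inf_eq_right.mpr h
    rw [hDeq, hcardSb] at hcardS
    rw [hDeq, hcardSb] at hDpos
    omega
  have hsup : S ⊔ Sb = ⊤ := by
    apply hmax.2
    apply lt_of_le_of_ne le_sup_left
    intro h
    apply hSb_not_le
    rw [h]
    exact le_sup_right
  have hDnormal : D.Normal := by
    rw [← Subgroup.normalizer_eq_top_iff, eq_top_iff, ← hsup]
    exact sup_le hN1 hN2
  have hDbot : D = ⊥ := by
    rw [Subgroup.eq_bot_iff_forall]
    intro d hd
    apply FaithfulSMul.eq_of_smul_eq_smul (α := Ω)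
    intro x
    obtain ⟨h, rfl⟩ := MulAction.exists_smul_eq G a x
    have h1 : h⁻¹ * d * h⁻¹⁻¹ ∈ S := (inf_le_left : D ≤ S) (hDnormal.conj_mem d hd h⁻¹)
    rw [hS, MulAction.mem_stabilizer_iff] at h1
    rw [one_smul]
    have h2' : h • ((h⁻¹ * d * h⁻¹⁻¹) • a) = h • a := by rw [h1]
    simpa [mul_smul] using h2'
  have hcardD : Nat.card D = 1 := by rw [hDbot]; exact Subgroup.card_bot
  have hcardS2 : Nat.card S = 2 := by rw [hcardS, hcardD]
  have hcardSb2 : Nat.card Sb = 2 := by rw [hcardSb, hcardS2]
  refine ⟨hcardS2, ?_⟩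
  -- the two involutions
  have hex : ∀ K : Subgroup G, Nat.card K = 2 → ∃ s ∈ K, s ≠ 1 ∧ s * s = 1 ∧ K = Subgroup.zpowers s := by
    intro K hK
    have hKne : K ≠ ⊥ := by
      intro h
      rw [h, Subgroup.card_bot] at hK
      omega
    obtain ⟨s', hs'⟩ := (Subgroup.ne_bot_iff_exists_ne_one).mp hKne
    obtain ⟨s, hsK, hs1⟩ : ∃ s ∈ K, s ≠ 1 := ⟨(s' : G), s'.2, fun h => hs' (Subtype.ext h)⟩
    have hs2 : s ^ 2 = 1 := by
      have h := pow_card_eq_one' (G := K) (x := ⟨s, hsK⟩)
      rw [hK] at h
      exact congrArg Subtype.val h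
    have hord : orderOf s = 2 := orderOf_eq_prime hs2 hs1
    refine ⟨s, hsK, hs1, by rw [← pow_two]; exact hs2, ?_⟩
    symm
    apply Subgroup.eq_of_le_of_card_ge
    · rw [Subgroup.zpowers_le]; exact hsK
    · rw [Nat.card_zpowers, hord, hK]
  obtain ⟨s, hsS, hs1, hss, hSz⟩ := hex S hcardS2
  obtain ⟨t, htS, ht1, htt, hSbz⟩ := hex Sb hcardSb2
  have hst : s ≠ t := by
    intro h
    have : s ∈ D := ⟨hsS, h ▸ htS⟩
    rw [hDbot, Subgroup.mem_bot] at this
    exact hs1 this
  have hsinv : s⁻¹ = s := inv_eq_of_mul_eq_one_right hss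
  have htinv : t⁻¹ = t := inv_eq_of_mul_eq_one_right htt
  set x := s * t with hx
  have hx1 : x ≠ 1 := by
    intro h
    apply hst
    have : s = t⁻¹ := eq_inv_of_mul_eq_one_left h
    rw [this, htinv]
  have hinv : s * x * s⁻¹ = x⁻¹ := by
    rw [hx, mul_inv_rev, hsinv, htinv, ← mul_assoc, hss, one_mul]
  have hn0 : orderOf x ≠ 0 := (orderOf_pos x).ne'
  have hNZ : NeZero (orderOf x) := ⟨hn0⟩
  obtain ⟨φ, hφr, hφsr⟩ := exists_dihedral_hom s x hss hinv hn0
  -- surjectivity
  have hsurj : Function.Surjective φ := by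
    rw [← MonoidHom.range_eq_top, eq_top_iff, ← hsup, hSz, hSbz]
    apply sup_le
    · rw [Subgroup.zpowers_le]
      refine ⟨DihedralGroup.sr 0, ?_⟩
      rw [hφsr]
      simp
    · rw [Subgroup.zpowers_le]
      refine ⟨DihedralGroup.sr 1, ?_⟩
      rw [hφsr, ZMod.val_one_eq_one_mod, pow_mod_orderOf, pow_one, hx, ← mul_assoc, hss, one_mul]
  -- injectivity
  have hinj : Function.Injective φ := by
    rw [injective_iff_map_eq_one]
    rintro (i | i) h
    · rw [hφr] at h
      have hdvd : orderOf x ∣ i.val := orderOf_dvd_of_pow_eq_one h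
      have hlt : i.val < orderOf x := ZMod.val_lt i
      have h0 : i.val = 0 := Nat.eq_zero_of_dvd_of_lt hdvd hlt
      have hi : i = 0 := (ZMod.val_eq_zero i).1 h0
      rw [hi]
      rfl
    · exfalso
      rw [hφsr] at h
      have hs' : s = (x ^ i.val)⁻¹ := eq_inv_of_mul_eq_one_left h
      have hcomm : s * x = x * s := by
        rw [hs']
        exact (((Commute.refl x).pow_left i.val).inv_left).eq
      have hxx : x = x⁻¹ := by
        rw [← hinv, hcomm, mul_inv_cancel_right]
      have hx2 : x ^ 2 = 1 := by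
        rw [pow_two]
        nth_rewrite 1 [hxx]
        simp
      have hord : orderOf x = 2 := orderOf_eq_prime hx2 hx1
      have hlt : i.val < 2 := by
        have := ZMod.val_lt i
        omega
      interval_cases hi : i.val
      · rw [pow_zero, mul_one] at h
        exact hs1 h
      · rw [pow_one, hx, ← mul_assoc, hss, one_mul] at h
        exact ht1 h
  let e : DihedralGroup (orderOf x) ≃* G := MulEquiv.ofBijective φ ⟨hinj, hsurj⟩
  have hcardG : Nat.card G = 2 * orderOf x := by
    rw [← Nat.card_congr e.toEquiv, DihedralGroup.nat_card]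
  have hcardΩ : Nat.card Ω = orderOf x := by
    have h1 : S.index = Nat.card Ω := MulAction.index_stabilizer_of_transitive (G := G) (x := a)
    have h3 := Subgroup.index_mul_card S
    rw [h1, hcardS2, hcardG] at h3
    omega
  -- primality of the order of x
  have hn1 : orderOf x ≠ 1 := fun h => hx1 (orderOf_eq_one_iff.mp h)
  set q := (orderOf x).minFac with hq
  have hqp : q.Prime := Nat.minFac_prime hn1
  have hqd : q ∣ orderOf x := Nat.minFac_dvd _
  set y := x ^ (orderOf x / q) with hy
  have hyord : orderOf y = q := orderOf_pow_orderOf_div hn0 hqd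
  have hy1 : y ≠ 1 := by
    intro h
    rw [h, orderOf_one] at hyord
    exact hqp.one_lt.ne hyord
  have hconj : ∀ g : G, g * y * g⁻¹ ∈ Subgroup.zpowers y := by
    intro g
    obtain ⟨d, rfl⟩ := hsurj g
    rcases d with i | i
    · rw [hφr]
      have hc : x ^ i.val * y = y * x ^ i.val := ((Commute.refl x).pow_pow _ _).eq
      rw [hc, mul_inv_cancel_right]
      exact Subgroup.mem_zpowers y
    · rw [hφsr]
      have hc : x ^ i.val * y = y * x ^ i.val := ((Commute.refl x).pow_pow _ _).eq
      have e1 : s * x ^ i.val * y * (s * x ^ i.val)⁻¹ = s * y * s⁻¹ := by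
        rw [mul_assoc s, hc]
        group
      rw [e1, hy, ← conj_pow, hinv, inv_pow]
      exact inv_mem (Subgroup.mem_zpowers _)
  have hYn : (Subgroup.zpowers y).Normal := by
    constructor
    intro z hz g
    obtain ⟨k, rfl⟩ := Subgroup.mem_zpowers_iff.mp hz
    rw [← conj_zpow]
    exact zpow_mem (hconj g) k
  have hYfix : MulAction.fixedPoints (Subgroup.zpowers y) Ω ≠ Set.univ := by
    intro h
    apply hy1
    apply FaithfulSMul.eq_of_smul_eq_smul (α := Ω)
    intro ω
    have hω : ω ∈ MulAction.fixedPoints (Subgroup.zpowers y) Ω := by rw [h]; exact Set.mem_univ ω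
    rw [one_smul]
    exact hω ⟨y, Subgroup.mem_zpowers y⟩
  have hprim' : MulAction.IsPreprimitive G Ω := hprim
  have hYt : MulAction.IsPretransitive (Subgroup.zpowers y) Ω :=
    MulAction.IsQuasiPreprimitive.isPretransitive_of_normal hYfix
  have hdvd : Nat.card Ω ∣ Nat.card (Subgroup.zpowers y) := by
    have h1 : (MulAction.stabilizer (Subgroup.zpowers y) a).index = Nat.card Ω :=
      MulAction.index_stabilizer_of_transitive (G := Subgroup.zpowers y) (x := a)
    rw [← h1]
    exact Subgroup.index_dvd_card _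
  rw [Nat.card_zpowers, hyord, hcardΩ] at hdvd
  have hnq : orderOf x = q := by
    rcases (Nat.dvd_prime hqp).mp hdvd with h | h
    · exact absurd h hn1
    · exact h
  exact ⟨orderOf x, hnq ▸ hqp, ⟨e.symm⟩⟩

end Cfsg.Agent.S3684
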