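import Cfsg.Statements.S3693
import Cfsg.Agent.Helper95.TWFit

set_option autoImplicit false
open Cfsg

namespace Cfsg.Agent.S3693

open Cfsg.Agent.Helper95 in
/-- If the group induced by `G_{ab}` on the suborbit `Δ` has trivial Fitting subgroup, then every
normal `r`-subgroup of `G_{ab}` fixes `Δ` pointwise. -/
theorem fix_of_fitting {G Ω : Type*} [Group G] [Finite G] [MulAction G Ω] [Finite Ω] (a b : Ω)
    (hF : Cfsg.fittingSubgroup ↥(((MulAction.stabilizer G b).subgroupOf (MulAction.stabilizer G a)).map (MulAction.toPermHom (MulAction.stabilizer G a) (MulAction.orbit (MulAction.stabilizer G a) b))) = ⊥)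
    (r : ℕ) [Fact r.Prime] (Y : Subgroup G) (hY : IsPGroup r ↥Y)
    (hYD : Y ≤ MulAction.stabilizer G a ⊓ MulAction.stabilizer G b)
    (hDY : MulAction.stabilizer G a ⊓ MulAction.stabilizer G b ≤ Subgroup.normalizer (Y : Set G))
    (y : G) (hy : y ∈ Y) (c : Ω) (hc : c ∈ MulAction.orbit (MulAction.stabilizer G a) b) :
    y • c = c := by
  set ρ := MulAction.toPermHom (MulAction.stabilizer G a)
    (MulAction.orbit (MulAction.stabilizer G a) b) with hρ
  set Dbar := ((MulAction.stabilizer G b).subgroupOf (MulAction.stabilizer G a)).map ρ with hDbar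
  set Ybar := (Y.subgroupOf (MulAction.stabilizer G a)).map ρ with hYbar
  have hle : Ybar ≤ Dbar := by
    apply Subgroup.map_mono
    intro x hx
    exact Subgroup.mem_subgroupOf.mpr (hYD (Subgroup.mem_subgroupOf.mp hx)).2
  have hnorm : (Ybar.subgroupOf Dbar).Normal := by
    refine ⟨fun n hn g => ?_⟩
    rw [Subgroup.mem_subgroupOf] at hn ⊢
    obtain ⟨δ, hδ, hδg⟩ := g.2
    obtain ⟨x, hx, hxn⟩ := hn
    have hδD : (δ : G) ∈ MulAction.stabilizer G a ⊓ MulAction.stabilizer G b :=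
      Subgroup.mem_inf.mpr ⟨δ.2, Subgroup.mem_subgroupOf.mp hδ⟩
    refine ⟨δ * x * δ⁻¹, ?_, ?_⟩
    · have h0 : ((δ * x * δ⁻¹ : ↥(MulAction.stabilizer G a)) : G) ∈ Y :=
        tw_conj_mem hDY hδD (Subgroup.mem_subgroupOf.mp hx)
      exact Subgroup.mem_subgroupOf.mpr h0
    · rw [map_mul, map_mul, map_inv, hδg, hxn]
      rfl
  have hp : IsPGroup r ↥(Ybar.subgroupOf Dbar) :=
    ((hY.comap_subtype (K := MulAction.stabilizer G a)).map ρ).comap_subtype
  have hnil : Group.IsNilpotent ↥(Ybar.subgroupOf Dbar) := hp.isNilpotent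
  have hbot : Ybar.subgroupOf Dbar ≤ Cfsg.fittingSubgroup ↥Dbar := le_sSup ⟨hnorm, hnil⟩
  rw [hF] at hbot
  have hyM : y ∈ MulAction.stabilizer G a := (hYD hy).1
  have h1 : ρ ⟨y, hyM⟩ ∈ Ybar := ⟨⟨y, hyM⟩, Subgroup.mem_subgroupOf.mpr hy, rfl⟩
  have h2 : (⟨ρ ⟨y, hyM⟩, hle h1⟩ : ↥Dbar) ∈ Ybar.subgroupOf Dbar :=
    Subgroup.mem_subgroupOf.mpr h1
  have h3 := Subgroup.mem_bot.mp (hbot h2)
  have h4 : ρ ⟨y, hyM⟩ = 1 := congrArg Subtype.val h3
  have h5 := congrArg (fun σ : Equiv.Perm ↥(MulAction.orbit (MulAction.stabilizer G a) b) =>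
    ((σ ⟨c, hc⟩ : ↥(MulAction.orbit (MulAction.stabilizer G a) b)) : Ω)) h4
  simpa [ρ] using h5

/-- Let a finite group G act faithfully and primitively on a set Ω, let a and b be points such that the orbit Δ of b under the stabilizer H of a has length d ≥ 2, and consider the permutation group induced on Δ by the elements of H fixing b. If that induced group has trivial Fitting subgroup (no non-trivial nilpotent normal subgroup), then the two-point stabilizer of a and b has trivial Fitting subgroup and the order of H divides d! · ((d - 1)!)^d. -/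
theorem result {G Ω : Type*} [Group G] [Finite G] [MulAction G Ω] [FaithfulSMul G Ω] [Finite Ω]
    (hprim : MulAction.IsPreprimitive G Ω) (a b : Ω) (d : ℕ) (hd : Nat.card (MulAction.orbit (MulAction.stabilizer G a) b) = d) (h2 : 2 ≤ d)
    (hF : Cfsg.fittingSubgroup ↥(((MulAction.stabilizer G b).subgroupOf (MulAction.stabilizer G a)).map (MulAction.toPermHom (MulAction.stabilizer G a) (MulAction.orbit (MulAction.stabilizer G a) b))) = ⊥) :
    Cfsg.fittingSubgroup ↥(MulAction.stabilizer G a ⊓ MulAction.stabilizer G b) = ⊥ ∧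
      Nat.card (MulAction.stabilizer G a) ∣ Nat.factorial d * (Nat.factorial (d - 1)) ^ d := by
  obtain ⟨A₁, B₁, A₂, B₂, hpair, hbot, hidx⟩ :=
    Cfsg.Agent.Helper95.tw_perm_main hprim a b d hd h2
  have hO : ∀ r : ℕ, r.Prime → Cfsg.Agent.Helper95.pcG r
      (MulAction.stabilizer G a ⊓ MulAction.stabilizer G b) = ⊥ := by
    intro r hr
    have : Fact r.Prime := ⟨hr⟩
    apply hpair.pcG_inf_eq_bot
    intro y hy
    apply hpair.a1.max y (Cfsg.Agent.Helper95.pcG_le r _ hy).1
    intro h hh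
    rw [MulAction.mem_stabilizer_iff]
    have hc : h⁻¹ • b ∈ MulAction.orbit (MulAction.stabilizer G a) b :=
      ⟨⟨h⁻¹, inv_mem hh⟩, rfl⟩
    have := fix_of_fitting a b hF r _ (Cfsg.Agent.Helper95.pcG_isPGroup r _)
      (Cfsg.Agent.Helper95.pcG_le r _) (Cfsg.Agent.Helper95.le_normalizer_pcG r _) y hy _ hc
    calc (h * y * h⁻¹) • b = h • (y • (h⁻¹ • b)) := by simp [mul_smul]
      _ = h • (h⁻¹ • b) := by rw [this]
      _ = b := by simp
  refine ⟨?_, ?_⟩
  · rw [Cfsg.Agent.Helper22.fittingSubgroup_eq_iSup_pCore]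
    rw [iSup_eq_bot]
    intro q
    exact (Cfsg.Agent.Helper95.pcG_eq_bot_iff (q : ℕ) _).mp (hO q q.2)
  · by_cases hA : A₂ = ⊥
    · exact hbot (Or.inl hA)
    · by_cases hB : B₂ = ⊥
      · exact hbot (Or.inr hB)
      · exfalso
        obtain ⟨p, hp, hA₂p, _, _, _⟩ := hpair.main hA hB
        have hle : A₂ ≤ Cfsg.Agent.Helper95.pcG p
            (MulAction.stabilizer G a ⊓ MulAction.stabilizer G b) :=
          Cfsg.Agent.Helper95.le_pcG_of_normal hA₂p
            (le_inf hpair.a2.le (hpair.a2.le'.trans hpair.b1.le))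
            (inf_le_left.trans hpair.a2.norm)
        rw [hO p hp] at hle
        exact hA (eq_bot_iff.mpr hle)

end Cfsg.Agent.S3693
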