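import Mathlib
import Cfsg.Statements.S3696

set_option autoImplicit false
open Cfsg

namespace Cfsg.Agent.S3696

/-- weighted AM-GM with natural exponents, cleared of denominators -/
theorem amgm (a b : ℕ) (x y : ℝ) (hx : 0 ≤ x) (hy : 0 ≤ y) :
    x ^ a * y ^ b * ((a + b : ℕ) : ℝ) ^ (a + b) ≤
      (a : ℝ) ^ a * (b : ℝ) ^ b * (x + y) ^ (a + b) := by
  rcases Nat.eq_zero_or_pos a with rfl | ha
  · simp only [pow_zero, one_mul, zero_add, CharP.cast_eq_zero]
    have : y ^ b ≤ (x + y) ^ b := pow_le_pow_left₀ hy (by linarith) _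
    have hb : (0:ℝ) ≤ (b:ℝ) ^ b := by positivity
    nlinarith
  rcases Nat.eq_zero_or_pos b with rfl | hb
  · simp only [pow_zero, mul_one, add_zero, CharP.cast_eq_zero]
    have : x ^ a ≤ (x + y) ^ a := pow_le_pow_left₀ hx (by linarith) _
    have hb : (0:ℝ) ≤ (a:ℝ) ^ a := by positivity
    nlinarith
  have ha' : (0:ℝ) < a := by exact_mod_cast ha
  have hb' : (0:ℝ) < b := by exact_mod_cast hb
  have hK : (0:ℝ) < ((a + b : ℕ) : ℝ) := by push_cast; linarith
  have key := Real.geom_mean_le_arith_mean2_weighted (w₁ := (a:ℝ) / ((a + b : ℕ) : ℝ))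
    (w₂ := (b:ℝ) / ((a + b : ℕ) : ℝ)) (p₁ := x / a) (p₂ := y / b)
    (by positivity) (by positivity) (by positivity) (by positivity)
    (by push_cast; field_simp)
  have key2 := pow_le_pow_left₀ (by positivity) key (a + b)
  have e1 : ((x / a) ^ ((a:ℝ) / ((a + b : ℕ) : ℝ)) * (y / b) ^ ((b:ℝ) / ((a + b : ℕ) : ℝ))) ^ (a + b)
      = (x / a) ^ a * (y / b) ^ b := by
    rw [mul_pow, ← Real.rpow_natCast, ← Real.rpow_natCast, ← Real.rpow_mul (by positivity),
      ← Real.rpow_mul (by positivity), div_mul_cancel₀ _ hK.ne', div_mul_cancel₀ _ hK.ne',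
      Real.rpow_natCast, Real.rpow_natCast]
  have e2 : (a:ℝ) / ((a + b : ℕ) : ℝ) * (x / a) + (b:ℝ) / ((a + b : ℕ) : ℝ) * (y / b)
      = (x + y) / ((a + b : ℕ) : ℝ) := by
    field_simp
  rw [e1, e2, div_pow, div_pow, div_pow, div_mul_div_comm,
    div_le_div_iff₀ (by positivity) (by positivity)] at key2
  linarith

theorem numeric (c m N k d : ℕ) (h1 : c * k ^ k ≤ N ^ k) (h2 : 2 ^ d ≤ m) (hd : 1 ≤ d) :
    c * m * (k + d) ^ (k + d) ≤ (N + m) ^ (k + d) := by
  have h3 : m * d ^ d ≤ m ^ d := by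
    obtain ⟨e, rfl⟩ : ∃ e, d = e + 1 := ⟨d - 1, by omega⟩
    have he : (e + 1) ≤ 2 ^ e := Nat.lt_two_pow_self
    calc m * (e + 1) ^ (e + 1) ≤ m * (2 ^ e) ^ (e + 1) := by gcongr
      _ = m * (2 ^ (e + 1)) ^ e := by ring
      _ ≤ m * m ^ e := by gcongr
      _ = m ^ (e + 1) := by ring
  have h4 := amgm k d (N:ℝ) (m:ℝ) (by positivity) (by positivity)
  have h4' : N ^ k * m ^ d * (k + d) ^ (k + d) ≤ k ^ k * d ^ d * (N + m) ^ (k + d) := by
    exact_mod_cast h4
  have hpos : 0 < k ^ k * d ^ d := by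
    have h5 : 0 < k ^ k := by
      rcases Nat.eq_zero_or_pos k with rfl | h
      · simp
      · positivity
    have h6 : 0 < d ^ d := by positivity
    positivity
  apply Nat.le_of_mul_le_mul_left _ hpos
  calc k ^ k * d ^ d * (c * m * (k + d) ^ (k + d))
      = (c * k ^ k) * (m * d ^ d) * (k + d) ^ (k + d) := by ring
    _ ≤ N ^ k * m ^ d * (k + d) ^ (k + d) := by gcongr
    _ ≤ _ := h4'

section grp
variable {G : Type*} [CommGroup G] [Finite G]

/-- elements of `C` of order dividing `p` -/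
def Om (p : ℕ) (C : Subgroup G) : Subgroup G := C ⊓ (powMonoidHom p : G →* G).ker

theorem mem_Om (p : ℕ) (C : Subgroup G) (x : G) : x ∈ Om p C ↔ x ∈ C ∧ x ^ p = 1 := by
  simp [Om, MonoidHom.mem_ker]

/-- the rank -/
noncomputable def rk (p : ℕ) (C : Subgroup G) : ℕ := Nat.log p (Nat.card (Om p C))

theorem card_Om (p : ℕ) (hp : p.Prime) (hG : IsPGroup p G) (C : Subgroup G) :
    Nat.card (Om p C) = p ^ rk p C := by
  haveI : Fact p.Prime := ⟨hp⟩
  obtain ⟨n, hn⟩ := (hG.to_subgroup (Om p C)).exists_card_eq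
  rw [rk, hn, Nat.log_pow hp.one_lt]

theorem eq_bot_of_Om (p : ℕ) (hp : p.Prime) (hG : IsPGroup p G) (D : Subgroup G)
    (h : Om p D = ⊥) : D = ⊥ := by
  haveI : Fact p.Prime := ⟨hp⟩
  rw [Subgroup.eq_bot_iff_forall]
  intro x hx
  by_contra hx1
  obtain ⟨m, hm⟩ := IsPGroup.iff_orderOf.mp hG x
  have hm0 : m ≠ 0 := by
    rintro rfl
    rw [pow_zero, orderOf_eq_one_iff] at hm
    exact hx1 hm
  have hy : x ^ (p ^ (m - 1)) ∈ Om p D := by
    rw [mem_Om]
    refine ⟨D.pow_mem hx _, ?_⟩
    rw [← pow_mul, ← pow_succ, Nat.sub_add_cancel (Nat.one_le_iff_ne_zero.mpr hm0), ← hm,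
      pow_orderOf_eq_one]
  rw [h, Subgroup.mem_bot] at hy
  have h1 : orderOf x ∣ p ^ (m - 1) := orderOf_dvd_of_pow_eq_one hy
  rw [hm] at h1
  have h2 := (Nat.pow_dvd_pow_iff_le_right hp.one_lt).mp h1
  omega

theorem card_inf_mul_relIndex (C B : Subgroup G) :
    Nat.card (C ⊓ B : Subgroup G) * B.relIndex C = Nat.card C := by
  have h := Subgroup.relIndex_mul_relIndex (H := (⊥ : Subgroup G)) (K := C ⊓ B) (L := C)
    bot_le inf_le_left
  rw [Subgroup.relIndex_bot_left, Subgroup.relIndex_bot_left, Subgroup.inf_relIndex_left] at h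
  exact h

theorem main (p : ℕ) (hp : p.Prime) (hG : IsPGroup p G) {ι : Type*} (B : ι → Subgroup G)
    (s : Finset ι) :
    ∀ C : Subgroup G, C ⊓ (⨅ i ∈ s, B i) = ⊥ →
      Nat.card C * (rk p C) ^ (rk p C) ≤ (∑ i ∈ s, (B i).index) ^ (rk p C) := by
  classical
  induction s using Finset.induction_on with
  | empty =>
    intro C hC
    simp at hC
    subst hC
    have h0 : rk p (⊥ : Subgroup G) = 0 := by
      have h := card_Om p hp hG ⊥
      have h2 : Om p (⊥ : Subgroup G) = ⊥ := by simp [Om]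
      rw [h2, Subgroup.card_bot] at h
      by_contra h0
      have := Nat.one_lt_pow h0 hp.one_lt
      omega
    simp [h0]
  | insert i s' hi ih =>
    intro C hC
    rw [Finset.iInf_insert, ← inf_assoc] at hC
    rw [Finset.sum_insert hi]
    have hIH := ih (C ⊓ B i) hC
    have hOm : Om p (C ⊓ B i) = Om p C ⊓ B i := by
      simp only [Om]; exact inf_right_comm ..
    have hle : Om p (C ⊓ B i) ≤ Om p C := by rw [hOm]; exact inf_le_left
    have hk1 := card_Om p hp hG (C ⊓ B i)
    have hk2 := card_Om p hp hG C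
    have hkle : rk p (C ⊓ B i) ≤ rk p C := by
      have := Subgroup.card_dvd_of_le hle
      rw [hk1, hk2] at this
      exact (Nat.pow_dvd_pow_iff_le_right hp.one_lt).mp this
    rcases hkle.eq_or_lt with heq | hlt
    · have hOmeq : Om p (C ⊓ B i) = Om p C := by
        apply Subgroup.eq_of_le_of_card_ge hle
        rw [hk1, hk2, heq]
      have hOmle : Om p C ≤ B i := by
        rw [← hOmeq, hOm]; exact inf_le_right
      have hC' : C ⊓ ⨅ j ∈ s', B j = ⊥ := by
        apply eq_bot_of_Om p hp hG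
        rw [eq_bot_iff, ← hC]
        intro x hx
        rw [mem_Om] at hx
        have : x ∈ Om p C := (mem_Om p C x).mpr ⟨hx.1.1, hx.2⟩
        exact ⟨⟨hx.1.1, hOmle this⟩, hx.1.2⟩
      have := ih C hC'
      calc _ ≤ (∑ j ∈ s', (B j).index) ^ rk p C := this
        _ ≤ _ := Nat.pow_le_pow_left (Nat.le_add_left _ _) _
    · obtain ⟨d, hd⟩ : ∃ d, rk p C = rk p (C ⊓ B i) + d :=
        ⟨_, (Nat.add_sub_cancel' hkle).symm⟩
      have hd1 : 1 ≤ d := by omega
      have hcard := card_inf_mul_relIndex C (B i)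
      have hcardOm := card_inf_mul_relIndex (Om p C) (B i)
      have hrel : (B i).relIndex (Om p C) = p ^ d := by
        rw [← hOm, hk1, hk2, hd, pow_add] at hcardOm
        exact Nat.eq_of_mul_eq_mul_left (by have := hp.pos; positivity) hcardOm
      have hne : ∀ K : Subgroup G, (B i).relIndex K ≠ 0 := fun K => by
        rw [Subgroup.relIndex]
        exact Subgroup.index_ne_zero_of_finite
      have hm1 : (B i).relIndex (Om p C) ≤ (B i).relIndex C :=
        Subgroup.relIndex_le_of_le_right inf_le_left (hne _)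
      have hm2 : (B i).relIndex C ≤ (B i).index := by
        rw [← Subgroup.relIndex_top_right]
        exact Subgroup.relIndex_le_of_le_right le_top (hne _)
      have h2d : 2 ^ d ≤ (B i).relIndex C := by
        calc 2 ^ d ≤ p ^ d := Nat.pow_le_pow_left hp.two_le _
          _ = _ := hrel.symm
          _ ≤ _ := hm1
      have := numeric _ _ (∑ j ∈ s', (B j).index) _ d hIH h2d hd1
      rw [hcard, ← hd] at this
      calc _ ≤ _ := this
        _ ≤ _ := Nat.pow_le_pow_left (by omega) _

end grp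

/-- Let p be a prime, Ω a finite set with n ≥ p elements, and A an abelian p-subgroup of the symmetric group on Ω whose elements of order dividing p number p^k (so k is the rank of A). Then |A| · k^k ≤ n^k, that is, |A| ≤ (n/k)^k. -/
theorem result {Ω : Type*} [Fintype Ω] [DecidableEq Ω]
    (p : ℕ) (hp : p.Prime) (hn : p ≤ Fintype.card Ω) (A : Subgroup (Equiv.Perm Ω)) (hA : IsPGroup p A) (hab : IsMulCommutative A)
    (k : ℕ) (hk : Nat.card {x : A // x ^ p = 1} = p ^ k) :
    Nat.card A * k ^ k ≤ Fintype.card Ω ^ k := by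
  classical
  letI : CommGroup A := { (inferInstance : Group A) with mul_comm := fun a b => mul_comm' a b }
  letI : Fintype (MulAction.orbitRel.Quotient A Ω) := Fintype.ofFinite _
  have hmain := main p hp hA (fun q : MulAction.orbitRel.Quotient A Ω =>
    MulAction.stabilizer A q.out) Finset.univ ⊤ ?_
  · have hrk : rk p (⊤ : Subgroup A) = k := by
      have h1 := card_Om p hp hA (⊤ : Subgroup A)
      have h2 : Nat.card (Om p (⊤ : Subgroup A)) = Nat.card {x : A // x ^ p = 1} :=
        Nat.card_congr (Equiv.subtypeEquivRight (fun x => by simp [mem_Om]))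
      rw [h2, hk] at h1
      exact (Nat.pow_right_injective hp.two_le h1).symm
    rw [hrk, Subgroup.card_top] at hmain
    have hsum : ∑ q : MulAction.orbitRel.Quotient A Ω, (MulAction.stabilizer A q.out).index
        = Fintype.card Ω := by
      rw [← Nat.card_eq_fintype_card, Nat.card_congr (MulAction.selfEquivSigmaOrbits A Ω),
        Nat.card_sigma]
      refine Finset.sum_congr rfl fun q _ => ?_
      rw [MulAction.index_stabilizer, Nat.card_coe_set_eq]
    rw [hsum] at hmain
    exact hmain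
  · rw [eq_bot_iff]
    intro g hg
    simp only [top_inf_eq, Finset.mem_univ, iInf_pos, Subgroup.mem_iInf,
      MulAction.mem_stabilizer_iff] at hg
    rw [Subgroup.mem_bot]
    apply Subtype.ext
    apply Equiv.ext
    intro ω
    have h1 : (Quotient.mk (MulAction.orbitRel A Ω) ω).out ∈ MulAction.orbit A ω :=
      (MulAction.orbitRel_apply).mp (Quotient.mk_out ω)
    obtain ⟨a, ha⟩ := h1
    have h2 := hg (Quotient.mk (MulAction.orbitRel A Ω) ω)
    have h3 : ω = a⁻¹ • (Quotient.mk (MulAction.orbitRel A Ω) ω).out := by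
      rw [← ha, inv_smul_smul]
    have h4 : g • ω = ω := by
      rw [h3, smul_smul, mul_comm, ← smul_smul]
      exact congrArg _ h2
    exact h4

end Cfsg.Agent.S3696
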