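import Cfsg.Statements.S3701
import Cfsg.Agent.Helper16.H3Glue
import Cfsg.Agent.Helper16.H3CFG
import Cfsg.Agent.Helper37.H3ISO

set_option autoImplicit false
open Cfsg

namespace Cfsg.Agent.S3701

/-- Let H₀ ≤ Sym(9) be generated by the 3-cycles (1 2 3), (4 5 6), (7 8 9) and the involutions (1 2)(4 5), (1 2)(7 8) (a group of order 108, elementary abelian of order 27 extended by a four-group). Let G be a finite group with a subgroup H ≅ H₀, and T ≤ H of order 27 (a Sylow 3-subgroup of H) with N_G(T) = H and C_G(t) ≤ H for every t ≠ 1 in T. Then G = H. -/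
theorem result {G : Type*} [Group G] [Finite G] (H : Subgroup G)
    (hH : Nonempty (↥H ≃* ↥(Subgroup.closure ({Equiv.swap (0 : Fin 9) 1 * Equiv.swap 1 2, Equiv.swap (3 : Fin 9) 4 * Equiv.swap 4 5, Equiv.swap (6 : Fin 9) 7 * Equiv.swap 7 8,
        Equiv.swap (0 : Fin 9) 1 * Equiv.swap 3 4, Equiv.swap (0 : Fin 9) 1 * Equiv.swap 6 7} : Set (Equiv.Perm (Fin 9))))))
    (T : Subgroup G) (hTH : T ≤ H) (hT : Nat.card T = 27) (hN : Subgroup.normalizer (T : Set G) = H)
    (hC : ∀ t ∈ T, t ≠ 1 → Subgroup.centralizer ({t} : Set G) ≤ H) : H = ⊤ := by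
  classical
  obtain ⟨e₀⟩ := Cfsg.Agent.Helper37.h3_model_iso
  obtain ⟨e⟩ := hH
  obtain ⟨φ, hφ⟩ : ∃ φ : Cfsg.Agent.Helper16.HM →* G, ∀ m, φ m = ((e.symm (e₀ m) : ↥H) : G) :=
    ⟨(H.subtype.comp e.symm.toMonoidHom).comp e₀.toMonoidHom, fun m => rfl⟩
  have hφinj : Function.Injective φ := by
    intro a b hab
    rw [hφ, hφ] at hab
    exact e₀.injective (e.symm.injective (Subtype.ext hab))
  have hrange : φ.range = H := by
    ext g
    constructor
    · rintro ⟨m, rfl⟩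
      rw [hφ]
      exact (e.symm (e₀ m)).2
    · intro hg
      refine ⟨e₀.symm (e ⟨g, hg⟩), ?_⟩
      rw [hφ]
      simp
  have hcfg := Cfsg.Agent.Helper16.h3_cfg φ hφinj T (by rw [hrange]; exact hTH) hT
    (by rw [hrange]; exact hN) (fun t ht ht1 => by rw [hrange]; exact hC t ht ht1)
  have := Fintype.ofFinite G
  rw [← hrange]
  exact MonoidHom.range_eq_top.mpr (Cfsg.Agent.Helper16.H3Cfg.surjective hcfg)

end Cfsg.Agent.S3701
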