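import Cfsg.Statements.S3702
import Cfsg.Agent.Helper16.S4Glue
import Cfsg.Agent.Helper66.S4CORE
import Cfsg.Agent.Helper88.S4ISO

set_option autoImplicit false
open Cfsg

namespace Cfsg.Agent.S3702

/-- Let K ≤ Sym(9) be generated by (1 2 3), (1 4 7)(2 5 8)(3 6 9), (1 2)(4 5) and (1 4)(2 5)(3 6)(7 8) (the normalizer in Alt(9) of the elementary abelian group generated by (1 2 3), (4 5 6), (7 8 9)). Let G be a finite group with a subgroup H ≅ K and J = O₃(H). If C_G(j) ≤ H for every j ≠ 1 in J and J is strongly closed in H with respect to G (a G-conjugate of an element of J lying in H lies in J), then G = H. -/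
theorem result {G : Type*} [Group G] [Finite G] (H : Subgroup G)
    (hH : Nonempty (↥H ≃* ↥(Subgroup.closure ({Equiv.swap (0 : Fin 9) 1 * Equiv.swap 1 2,
        Equiv.swap (0 : Fin 9) 3 * Equiv.swap 3 6 * (Equiv.swap (1 : Fin 9) 4 * Equiv.swap 4 7) * (Equiv.swap (2 : Fin 9) 5 * Equiv.swap 5 8),
        Equiv.swap (0 : Fin 9) 1 * Equiv.swap 3 4, Equiv.swap (0 : Fin 9) 3 * Equiv.swap 1 4 * Equiv.swap 2 5 * Equiv.swap 6 7} : Set (Equiv.Perm (Fin 9))))))
    (J : Subgroup G) (hJ : J = (Cfsg.pCore 3 ↥H).map H.subtype)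
    (hC : ∀ j ∈ J, j ≠ 1 → Subgroup.centralizer ({j} : Set G) ≤ H) (hsc : Cfsg.IsStronglyClosed J H) : H = ⊤ := by
  classical
  obtain ⟨e₀⟩ := Cfsg.Agent.Helper88.s4_model_iso
  obtain ⟨e⟩ := hH
  obtain ⟨ψ, -⟩ : ∃ ψ : Cfsg.Agent.Helper16.SM ≃* ↥H, True := ⟨e₀.trans e.symm, trivial⟩
  obtain ⟨φ, hφ⟩ : ∃ φ : Cfsg.Agent.Helper16.SM →* G, ∀ m, φ m = ((ψ m : ↥H) : G) :=
    ⟨H.subtype.comp ψ.toMonoidHom, fun m => rfl⟩
  have hφinj : Function.Injective φ := by
    intro a b hab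
    rw [hφ, hφ] at hab
    exact ψ.injective (Subtype.ext hab)
  have hrange : φ.range = H := by
    ext g
    constructor
    · rintro ⟨m, rfl⟩
      rw [hφ]
      exact (ψ m).2
    · intro hg
      refine ⟨ψ.symm ⟨g, hg⟩, ?_⟩
      rw [hφ]
      simp
  have hJmem : ∀ j : Cfsg.Agent.Helper16.SM, Cfsg.Agent.Helper16.sJ j ↔ φ j ∈ J := by
    intro j
    rw [Cfsg.Agent.Helper66.s4_pcore ψ j, hJ, hφ]
    constructor
    · intro hj
      exact ⟨ψ j, hj, rfl⟩
    · rintro ⟨y, hy, hyj⟩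
      have : y = ψ j := Subtype.ext hyj
      rw [← this]
      exact hy
  have hcfg : Cfsg.Agent.Helper16.S4Cfg φ := by
    refine ⟨hφinj, ?_, ?_⟩
    · intro j hj hj1 g hg
      rw [hrange]
      apply hC (φ j) ((hJmem j).mp hj) (fun h1 => hj1 (hφinj (by rw [h1, map_one])))
      rw [Subgroup.mem_centralizer_iff]
      intro y hy
      rw [Set.mem_singleton_iff] at hy
      rw [hy]
      exact hg.symm
    · intro j hj g hg
      have h2 := hg
      rw [hrange] at hg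
      have h1 := hsc.2 (φ j) ((hJmem j).mp hj) g hg
      obtain ⟨j', hj'⟩ := h2
      exact ⟨j', (hJmem j').mpr (by rw [hj']; exact h1), hj'.symm⟩
  have := Fintype.ofFinite G
  rw [← hrange]
  exact MonoidHom.range_eq_top.mpr (Cfsg.Agent.Helper16.S4Cfg.surjective hcfg)

end Cfsg.Agent.S3702
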