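import Mathlib
import Cfsg.Agent.Helper35.CoprimeGen
import Cfsg.Statements.S3703

set_option autoImplicit false
open Cfsg

namespace Cfsg.Agent.S3703

open Subgroup

theorem pow_conj_mem' {X : Type*} [Group X] (R : Subgroup X) (c : X)
    (hcR : ∀ g ∈ R, c * g * c⁻¹ ∈ R) (i : ℕ) : ∀ g ∈ R, c ^ i * g * (c ^ i)⁻¹ ∈ R := by
  induction i with
  | zero => intro g hg; simpa using hg
  | succ i ih =>
    intro g hg
    have := hcR _ (ih g hg)
    have e : c ^ (i + 1) * g * (c ^ (i + 1))⁻¹ = c * (c ^ i * g * (c ^ i)⁻¹) * c⁻¹ := by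
      rw [pow_succ']; group
    rw [e]; exact this

/-- abstract averaging lemma -/
theorem lemB_abs {A : Type*} [CommGroup A] [Finite A] {Γ : Type*} [Group Γ] (φ : Γ →* MulAut A)
    (R : Subgroup Γ) [Finite R] (c : Γ) (h : ℕ) (h1 : 1 ≤ h)
    (hcR : ∀ g ∈ R, c * g * c⁻¹ ∈ R) (hcop : (Nat.card R).Coprime (Nat.card A))
    (hfpf : ∀ i, 0 < i → i < h → ∀ g ∈ R, c ^ i * g * (c ^ i)⁻¹ = g → g = 1)
    (hnorm : ∀ a : A, ∏ i ∈ Finset.range h, φ (c ^ i) a = 1) :
    ∀ g ∈ R, ∀ a : A, φ g a = a := by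
  classical
  haveI : Fintype R := Fintype.ofFinite R
  have hciR := pow_conj_mem' R c hcR
  let τ : A → A := fun a => ∏ g : R, φ (g : Γ) a
  have hτfix : ∀ g₀ ∈ R, ∀ a, φ g₀ (τ a) = τ a := by
    intro g₀ hg₀ a
    simp only [τ, map_prod]
    have : ∀ g : R, φ g₀ (φ (g : Γ) a) = φ (((⟨g₀, hg₀⟩ : R) * g : R) : Γ) a := by
      intro g; simp [map_mul]
    simp_rw [this]
    exact Fintype.prod_equiv (Equiv.mulLeft (⟨g₀, hg₀⟩ : R)) _ _ (fun g => rfl)
  have hkey : ∀ i, 0 < i → i < h → ∀ a,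
      ∏ g : R, φ ((g : Γ) * c ^ i * (g : Γ)⁻¹) a = τ (φ (c ^ i) a) := by
    intro i hi0 hih a
    let ψ : R → R := fun g => ⟨(g : Γ) * (c ^ i * (g : Γ)⁻¹ * (c ^ i)⁻¹),
      R.mul_mem g.2 (hciR i _ (R.inv_mem g.2))⟩
    have hψinj : Function.Injective ψ := by
      intro g g' hgg
      have h2 : (g : Γ) * (c ^ i * (g : Γ)⁻¹ * (c ^ i)⁻¹) =
          (g' : Γ) * (c ^ i * (g' : Γ)⁻¹ * (c ^ i)⁻¹) := congrArg Subtype.val hgg
      have h3 : c ^ i * ((g : Γ)⁻¹ * g') * (c ^ i)⁻¹ = (g : Γ)⁻¹ * g' := by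
        calc c ^ i * ((g : Γ)⁻¹ * g') * (c ^ i)⁻¹
            = (g : Γ)⁻¹ * ((g : Γ) * (c ^ i * (g : Γ)⁻¹ * (c ^ i)⁻¹)) *
                (c ^ i * (g' : Γ)⁻¹ * (c ^ i)⁻¹)⁻¹ := by group
          _ = (g : Γ)⁻¹ * ((g' : Γ) * (c ^ i * (g' : Γ)⁻¹ * (c ^ i)⁻¹)) *
                (c ^ i * (g' : Γ)⁻¹ * (c ^ i)⁻¹)⁻¹ := by rw [h2]
          _ = (g : Γ)⁻¹ * g' := by group
      have h4 := hfpf i hi0 hih _ (R.mul_mem (R.inv_mem g.2) g'.2) h3
      rw [inv_mul_eq_one] at h4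
      exact Subtype.ext h4
    have hψbij : Function.Bijective ψ := Finite.injective_iff_bijective.mp hψinj
    have e1 : ∀ g : R, φ ((g : Γ) * c ^ i * (g : Γ)⁻¹) a = φ ((ψ g : R) : Γ) (φ (c ^ i) a) := by
      intro g
      rw [← MulAut.mul_apply, ← map_mul]
      have : (g : Γ) * c ^ i * (g : Γ)⁻¹ = ((ψ g : R) : Γ) * c ^ i := by
        show (g : Γ) * c ^ i * (g : Γ)⁻¹ = (g : Γ) * (c ^ i * (g : Γ)⁻¹ * (c ^ i)⁻¹) * c ^ i
        group
      rw [this]
    simp_rw [e1]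
    exact Fintype.prod_bijective ψ hψbij _ _ (fun g => rfl)
  obtain ⟨h', rfl⟩ : ∃ h', h = h' + 1 := ⟨h - 1, by omega⟩
  intro g₀ hg₀ a
  have hD : ∏ g : R, ∏ i ∈ Finset.range (h' + 1), φ ((g : Γ) * c ^ i * (g : Γ)⁻¹) a = 1 := by
    apply Finset.prod_eq_one
    intro g _
    have : ∀ i, φ ((g : Γ) * c ^ i * (g : Γ)⁻¹) a =
        φ (g : Γ) (φ (c ^ i) (φ ((g : Γ)⁻¹) a)) := by
      intro i; simp [map_mul]
    simp_rw [this]
    rw [← map_prod, hnorm, map_one]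
  rw [Finset.prod_comm, Finset.prod_range_succ'] at hD
  have h0 : ∏ g : R, φ ((g : Γ) * c ^ 0 * (g : Γ)⁻¹) a = a ^ Nat.card R := by
    simp [Nat.card_eq_fintype_card]
  have hτprod : ∀ (s : Finset ℕ) (f : ℕ → A), τ (∏ i ∈ s, f i) = ∏ i ∈ s, τ (f i) := by
    intro s f
    simp only [τ, map_prod]
    rw [Finset.prod_comm]
  have hs : ∏ i ∈ Finset.range h', ∏ g : R, φ ((g : Γ) * c ^ (i + 1) * (g : Γ)⁻¹) a =
      τ (∏ i ∈ Finset.range h', φ (c ^ (i + 1)) a) := by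
    rw [hτprod]
    apply Finset.prod_congr rfl
    intro i hi
    exact hkey (i + 1) (by omega) (by have := Finset.mem_range.mp hi; omega) a
  have hn := hnorm a
  rw [Finset.prod_range_succ'] at hn
  have hn' : ∏ i ∈ Finset.range h', φ (c ^ (i + 1)) a = a⁻¹ := by
    have : φ (c ^ 0) a = a := by simp
    rw [this] at hn
    exact eq_inv_of_mul_eq_one_left hn
  rw [hs, hn', h0] at hD
  have hτinv : τ a⁻¹ = (τ a)⁻¹ := by
    simp only [τ, map_inv, Finset.prod_inv_distrib]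
  have hτa : τ a = a ^ Nat.card R := by
    rw [hτinv] at hD
    exact inv_mul_eq_one.mp hD
  have hfix := hτfix g₀ hg₀ a
  rw [hτa, map_pow] at hfix
  have hb : (φ g₀ a * a⁻¹) ^ Nat.card R = 1 := by
    rw [mul_pow, hfix, inv_pow, mul_inv_cancel]
  have ho1 : orderOf (φ g₀ a * a⁻¹) ∣ Nat.card R := orderOf_dvd_of_pow_eq_one hb
  have ho2 : orderOf (φ g₀ a * a⁻¹) ∣ Nat.card A := orderOf_dvd_natCard _
  have ho : orderOf (φ g₀ a * a⁻¹) = 1 :=
    Nat.dvd_one.mp (by rw [← hcop.gcd_eq_one]; exact Nat.dvd_gcd ho1 ho2)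
  rw [orderOf_eq_one_iff] at ho
  exact mul_inv_eq_one.mp ho

/-- conjugation action of the normalizer on a subgroup -/
def conjV {X : Type*} [Group X] (V : Subgroup X) : ↥(normalizer (V : Set X)) →* MulAut ↥V where
  toFun y :=
    { toFun := fun v => ⟨(y : X) * v * (y : X)⁻¹, (mem_normalizer_iff.mp y.2 v).mp v.2⟩
      invFun := fun v => ⟨(y : X)⁻¹ * v * (y : X), by
        have := (mem_normalizer_iff.mp (inv_mem y.2) v).mp v.2
        simpa using this⟩
      left_inv := fun v => by ext; simp [mul_assoc]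
      right_inv := fun v => by ext; simp [mul_assoc]
      map_mul' := fun v w => by ext; simp [mul_assoc] }
  map_one' := by ext v; simp
  map_mul' := fun y z => by ext v; simp [mul_assoc]

theorem conjV_coe {X : Type*} [Group X] (V : Subgroup X) (y : ↥(normalizer (V : Set X)))
    (v : V) : ((conjV V y v : V) : X) = (y : X) * v * (y : X)⁻¹ := rfl

theorem mem_normalizer_of_finite {X : Type*} [Group X] (V : Subgroup X) [Finite V] (c : X)
    (hc : ∀ v ∈ V, c * v * c⁻¹ ∈ V) : c ∈ normalizer (V : Set X) := by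
  rw [mem_normalizer_iff]
  intro w
  refine ⟨hc w, fun hw => ?_⟩
  let f : V → V := fun v => ⟨c * v * c⁻¹, hc v v.2⟩
  have hinj : Function.Injective f := by
    intro v v' hvv
    have := congrArg Subtype.val hvv
    simp only [f] at this
    exact Subtype.ext (by simpa using this)
  obtain ⟨v, hv⟩ := (Finite.injective_iff_surjective.mp hinj) ⟨c * w * c⁻¹, hw⟩
  have h2 : c * (v : X) * c⁻¹ = c * w * c⁻¹ := congrArg Subtype.val hv
  have h3 : (v : X) = w := by simpa using h2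
  rw [← h3]; exact v.2

theorem lemB_int {X : Type*} [Group X] (V R : Subgroup X) [Finite V] [Finite R] (c : X) (h : ℕ)
    (h1 : 1 ≤ h) (hVc : ∀ a ∈ V, ∀ b ∈ V, a * b = b * a)
    (hRV : R ≤ normalizer (V : Set X)) (hcV : ∀ v ∈ V, c * v * c⁻¹ ∈ V)
    (hcR : ∀ g ∈ R, c * g * c⁻¹ ∈ R)
    (hcop : (Nat.card R).Coprime (Nat.card V))
    (hfpf : ∀ i, 0 < i → i < h → ∀ g ∈ R, c ^ i * g * (c ^ i)⁻¹ = g → g = 1)
    (hnorm : ∀ v ∈ V, (v * c) ^ h = c ^ h) :
    ∀ g ∈ R, ∀ v ∈ V, g * v * g⁻¹ = v := by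
  letI : CommGroup V :=
    { (inferInstance : Group V) with mul_comm := fun a b => Subtype.ext (hVc a a.2 b b.2) }
  have hcV' : c ∈ normalizer (V : Set X) := mem_normalizer_of_finite V c hcV
  have hcard : Nat.card (R.subgroupOf (normalizer (V : Set X))) = Nat.card R :=
    Nat.card_congr (Subgroup.subgroupOfEquivOfLe hRV).toEquiv
  haveI : Finite (R.subgroupOf (normalizer (V : Set X))) :=
    Finite.of_equiv _ (Subgroup.subgroupOfEquivOfLe hRV).toEquiv.symm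
  have hexp : ∀ (v : V) (k : ℕ), ((v : X) * c) ^ k =
      ((∏ i ∈ Finset.range k, conjV V ((⟨c, hcV'⟩ : normalizer (V : Set X)) ^ i) v : V) : X) *
        c ^ k := by
    intro v k
    induction k with
    | zero => simp
    | succ k ih =>
      rw [pow_succ, ih, Finset.prod_range_succ, Subgroup.coe_mul, conjV_coe]
      simp only [Subgroup.coe_pow]
      rw [pow_succ]
      group
  have key := lemB_abs (conjV V) (R.subgroupOf (normalizer (V : Set X)))
    (⟨c, hcV'⟩ : normalizer (V : Set X)) h h1 ?_ (by rw [hcard]; exact hcop) ?_ ?_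
  · intro g hg v hv
    have := key ⟨g, hRV hg⟩ (by rw [Subgroup.mem_subgroupOf]; exact hg) ⟨v, hv⟩
    exact congrArg Subtype.val this
  · intro g hg
    rw [Subgroup.mem_subgroupOf] at hg ⊢
    exact hcR _ hg
  · intro i hi0 hih g hg hfix
    rw [Subgroup.mem_subgroupOf] at hg
    have := hfpf i hi0 hih _ hg (by simpa using congrArg Subtype.val hfix)
    exact Subtype.ext this
  · intro a
    have h2 := hexp a h
    rw [hnorm a a.2] at h2
    apply Subtype.ext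
    have h3 : ((∏ i ∈ Finset.range h,
        conjV V ((⟨c, hcV'⟩ : normalizer (V : Set X)) ^ i) a : V) : X) = 1 := by
      have := h2.symm
      simpa using this
    exact h3

theorem lemB_sec {X : Type*} [Group X] [Finite X] (M Q R : Subgroup X) (c : X) (h : ℕ)
    (h1 : 1 ≤ h) (hcomm : ⁅Q, Q⁆ ≤ M) (hMQ : M ≤ Q)
    (hRQ : R ≤ normalizer (Q : Set X)) (hRM : R ≤ normalizer (M : Set X))
    (hcQ : c ∈ normalizer (Q : Set X)) (hcM : c ∈ normalizer (M : Set X))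
    (hcR : ∀ g ∈ R, c * g * c⁻¹ ∈ R)
    (hcop : (Nat.card R).Coprime (Nat.card Q))
    (hfpf : ∀ i, 0 < i → i < h → ∀ g ∈ R, c ^ i * g * (c ^ i)⁻¹ = g → g = 1)
    (hnorm : ∀ x ∈ Q, (x * c) ^ h * (c ^ h)⁻¹ ∈ M) :
    ∀ g ∈ R, ∀ x ∈ Q, g * x * g⁻¹ * x⁻¹ ∈ M := by
  have hQY : Q ≤ normalizer (M : Set X) := by
    intro x hx
    rw [mem_normalizer_iff]
    intro m
    constructor
    · intro hm
      have h2 : x * m * x⁻¹ * m⁻¹ ∈ M :=
        hcomm (Subgroup.commutator_mem_commutator hx (hMQ hm))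
      have h3 := M.mul_mem h2 hm
      simpa using h3
    · intro hm
      have hy : x * m * x⁻¹ ∈ Q := hMQ hm
      have h2 : x⁻¹ * (x * m * x⁻¹) * x⁻¹⁻¹ * (x * m * x⁻¹)⁻¹ ∈ M :=
        hcomm (Subgroup.commutator_mem_commutator (Q.inv_mem hx) hy)
      have h3 := M.mul_mem h2 hm
      simpa [mul_assoc] using h3
  have hdisj : ∀ y, y ∈ M → y ∈ R → y = 1 := by
    intro y hyM hyR
    have ho1 : orderOf y ∣ Nat.card R := Subgroup.orderOf_dvd_natCard R hyR
    have ho2 : orderOf y ∣ Nat.card Q := Subgroup.orderOf_dvd_natCard Q (hMQ hyM)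
    have ho : orderOf y = 1 :=
      Nat.dvd_one.mp (by rw [← hcop.gcd_eq_one]; exact Nat.dvd_gcd ho1 ho2)
    exact orderOf_eq_one_iff.mp ho
  have hciR := pow_conj_mem' R c hcR
  have key := lemB_int (X := ↥(normalizer (M : Set X)) ⧸ M.subgroupOf (normalizer (M : Set X)))
    ((Q.subgroupOf (normalizer (M : Set X))).map (QuotientGroup.mk' _))
    ((R.subgroupOf (normalizer (M : Set X))).map (QuotientGroup.mk' _))
    (QuotientGroup.mk' _ (⟨c, hcM⟩ : normalizer (M : Set X))) h h1 ?_ ?_ ?_ ?_ ?_ ?_ ?_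
  · intro g hg x hx
    have h2 := key (QuotientGroup.mk' _ (⟨g, hRM hg⟩ : normalizer (M : Set X)))
      ⟨⟨g, hRM hg⟩, Subgroup.mem_subgroupOf.mpr hg, rfl⟩
      (QuotientGroup.mk' _ (⟨x, hQY hx⟩ : normalizer (M : Set X)))
      ⟨⟨x, hQY hx⟩, Subgroup.mem_subgroupOf.mpr hx, rfl⟩
    rw [← map_inv, ← map_mul, ← map_mul, QuotientGroup.mk'_apply, QuotientGroup.mk'_apply,
      QuotientGroup.eq_iff_div_mem, Subgroup.mem_subgroupOf] at h2
    simpa [div_eq_mul_inv] using h2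
  · -- commutative
    rintro _ ⟨x, hx, rfl⟩ _ ⟨y, hy, rfl⟩
    replace hx : (x : X) ∈ Q := hx
    replace hy : (y : X) ∈ Q := hy
    rw [← map_mul, ← map_mul, QuotientGroup.mk'_apply, QuotientGroup.mk'_apply,
      QuotientGroup.eq_iff_div_mem, Subgroup.mem_subgroupOf]
    have h2 : (x : X) * y * (x : X)⁻¹ * (y : X)⁻¹ ∈ M :=
      hcomm (Subgroup.commutator_mem_commutator hx hy)
    simpa [div_eq_mul_inv, mul_assoc] using h2
  · -- R normalizes V
    apply Cfsg.Agent.Helper35.le_normalizer_of_forall_conj_mem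
    rintro _ ⟨g, hg, rfl⟩ _ ⟨x, hx, rfl⟩
    replace hg : (g : X) ∈ R := hg
    replace hx : (x : X) ∈ Q := hx
    refine ⟨g * x * g⁻¹, ?_, by simp⟩
    exact Subgroup.mem_subgroupOf.mpr ((mem_normalizer_iff.mp (hRQ hg) x).mp hx)
  · -- c normalizes V
    rintro _ ⟨x, hx, rfl⟩
    replace hx : (x : X) ∈ Q := hx
    refine ⟨(⟨c, hcM⟩ : normalizer (M : Set X)) * x * (⟨c, hcM⟩ : normalizer (M : Set X))⁻¹,
      ?_, by simp⟩
    exact Subgroup.mem_subgroupOf.mpr ((mem_normalizer_iff.mp hcQ x).mp hx)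
  · -- c normalizes R
    rintro _ ⟨g, hg, rfl⟩
    replace hg : (g : X) ∈ R := hg
    refine ⟨(⟨c, hcM⟩ : normalizer (M : Set X)) * g * (⟨c, hcM⟩ : normalizer (M : Set X))⁻¹,
      ?_, by simp⟩
    exact Subgroup.mem_subgroupOf.mpr (hcR _ hg)
  · -- coprime
    have e1 : Nat.card (R.subgroupOf (normalizer (M : Set X))) = Nat.card R :=
      Nat.card_congr (Subgroup.subgroupOfEquivOfLe hRM).toEquiv
    have e2 : Nat.card (Q.subgroupOf (normalizer (M : Set X))) = Nat.card Q :=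
      Nat.card_congr (Subgroup.subgroupOfEquivOfLe hQY).toEquiv
    have d1 := Subgroup.card_map_dvd (H := R.subgroupOf (normalizer (M : Set X)))
      (QuotientGroup.mk' (M.subgroupOf (normalizer (M : Set X))))
    have d2 := Subgroup.card_map_dvd (H := Q.subgroupOf (normalizer (M : Set X)))
      (QuotientGroup.mk' (M.subgroupOf (normalizer (M : Set X))))
    rw [e1] at d1
    rw [e2] at d2
    exact Nat.Coprime.coprime_dvd_left d1 (Nat.Coprime.coprime_dvd_right d2 hcop)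
  · -- fpf
    rintro i hi0 hih _ ⟨g, hg, rfl⟩ hfix
    replace hg : (g : X) ∈ R := hg
    rw [← map_pow, ← map_inv, ← map_mul, ← map_mul, QuotientGroup.mk'_apply,
      QuotientGroup.mk'_apply, QuotientGroup.eq_iff_div_mem, Subgroup.mem_subgroupOf] at hfix
    have h2 : c ^ i * (g : X) * (c ^ i)⁻¹ * (g : X)⁻¹ ∈ M := by
      simpa [div_eq_mul_inv] using hfix
    have h3 : c ^ i * (g : X) * (c ^ i)⁻¹ * (g : X)⁻¹ ∈ R :=
      R.mul_mem (hciR i _ hg) (R.inv_mem hg)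
    have h4 := hdisj _ h2 h3
    have h5 : c ^ i * (g : X) * (c ^ i)⁻¹ = g := mul_inv_eq_one.mp h4
    have h6 := hfpf i hi0 hih _ hg h5
    have h7 : g = 1 := Subtype.ext h6
    rw [h7, map_one]
  · -- norm
    rintro _ ⟨x, hx, rfl⟩
    replace hx : (x : X) ∈ Q := hx
    rw [← map_mul, ← map_pow, ← map_pow, QuotientGroup.mk'_apply, QuotientGroup.mk'_apply,
      QuotientGroup.eq_iff_div_mem, Subgroup.mem_subgroupOf]
    have h2 := hnorm x hx
    simpa [div_eq_mul_inv] using h2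

theorem stab {X : Type*} [Group X] [Finite X] (M Q R : Subgroup X)
    (hcop : (Nat.card R).Coprime (Nat.card Q)) (hMQ : M ≤ Q)
    (hRM : ∀ g ∈ R, ∀ m ∈ M, g * m * g⁻¹ = m)
    (hQM : ∀ g ∈ R, ∀ x ∈ Q, g * x * g⁻¹ * x⁻¹ ∈ M) :
    ∀ g ∈ R, ∀ x ∈ Q, g * x * g⁻¹ = x := by
  intro g hg x hx
  have hm := hQM g hg x hx
  have hpow : ∀ k : ℕ, g ^ k * x * (g ^ k)⁻¹ = (g * x * g⁻¹ * x⁻¹) ^ k * x := by
    intro k
    induction k with
    | zero => simp
    | succ k ih =>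
      have e : g ^ (k + 1) * x * (g ^ (k + 1))⁻¹ = g * (g ^ k * x * (g ^ k)⁻¹) * g⁻¹ := by
        rw [pow_succ']; group
      rw [e, ih]
      have e2 : g * ((g * x * g⁻¹ * x⁻¹) ^ k * x) * g⁻¹ =
          (g * (g * x * g⁻¹ * x⁻¹) * g⁻¹) ^ k * (g * x * g⁻¹) := by
        rw [conj_pow]; group
      rw [e2, hRM g hg _ hm, pow_succ]
      group
  have h2 := hpow (orderOf g)
  rw [pow_orderOf_eq_one] at h2
  have h3 : (g * x * g⁻¹ * x⁻¹) ^ orderOf g = 1 := by
    have : x = (g * x * g⁻¹ * x⁻¹) ^ orderOf g * x := by simpa using h2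
    exact (mul_eq_right.mp this.symm)
  have ho1 : orderOf (g * x * g⁻¹ * x⁻¹) ∣ Nat.card R :=
    (orderOf_dvd_of_pow_eq_one h3).trans (Subgroup.orderOf_dvd_natCard R hg)
  have ho2 : orderOf (g * x * g⁻¹ * x⁻¹) ∣ Nat.card Q :=
    Subgroup.orderOf_dvd_natCard Q (hMQ hm)
  have ho : orderOf (g * x * g⁻¹ * x⁻¹) = 1 :=
    Nat.dvd_one.mp (by rw [← hcop.gcd_eq_one]; exact Nat.dvd_gcd ho1 ho2)
  exact mul_inv_eq_one.mp (orderOf_eq_one_iff.mp ho)

theorem lemD {X : Type*} [Group X] [Finite X] (p : ℕ) [Fact p.Prime] (P R : Subgroup X) (c : X)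
    (h : ℕ) (h1 : 1 ≤ h) (hP : IsPGroup p P)
    (hRP : R ≤ normalizer (P : Set X)) (hcP : c ∈ normalizer (P : Set X))
    (hcR : ∀ g ∈ R, c * g * c⁻¹ ∈ R)
    (hcop : (Nat.card R).Coprime (Nat.card P))
    (hfpf : ∀ i, 0 < i → i < h → ∀ g ∈ R, c ^ i * g * (c ^ i)⁻¹ = g → g = 1)
    (hnorm : ∀ x ∈ P, (x * c) ^ h = c ^ h) :
    ∀ g ∈ R, ∀ x ∈ P, g * x * g⁻¹ = x := by
  by_contra hcon
  obtain ⟨Q, ⟨hQP, hRQ, hcQ, hQn⟩, hmin⟩ := Set.exists_min_image
    {Q : Subgroup X | Q ≤ P ∧ R ≤ normalizer (Q : Set X) ∧ c ∈ normalizer (Q : Set X) ∧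
      ¬ ∀ g ∈ R, ∀ x ∈ Q, g * x * g⁻¹ = x}
    (fun Q => Nat.card Q) (Set.toFinite _) ⟨P, le_rfl, hRP, hcP, hcon⟩
  apply hQn
  have hQp : IsPGroup p Q := hP.to_le hQP
  have hQne : (⊥ : Subgroup X) ≠ Q := by
    rintro rfl
    apply hQn
    intro g _ x hx
    rw [Subgroup.mem_bot] at hx
    subst hx
    simp
  have hMQ : ⁅Q, Q⁆ ≤ Q := by
    rw [Subgroup.commutator_le]
    intro a ha b hb
    exact Q.mul_mem (Q.mul_mem (Q.mul_mem ha hb) (Q.inv_mem ha)) (Q.inv_mem hb)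
  have hMne : ⁅Q, Q⁆ ≠ Q := by
    have := Cfsg.Agent.Helper35.sup_commutator_ne_of_isPGroup hQp (bot_le : ⊥ ≤ Q)
      (by rw [Subgroup.normalizer_eq_top_iff.mpr (inferInstance : (⊥ : Subgroup X).Normal)]
          exact le_top) hQne
    rwa [bot_sup_eq] at this
  have hRM : R ≤ normalizer ((⁅Q, Q⁆ : Subgroup X) : Set X) :=
    Cfsg.Agent.Helper35.le_normalizer_commutator' hRQ hRQ
  have hcM : c ∈ normalizer ((⁅Q, Q⁆ : Subgroup X) : Set X) := by
    have hz : Subgroup.zpowers c ≤ normalizer (Q : Set X) := by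
      rw [Subgroup.zpowers_le]; exact hcQ
    exact Cfsg.Agent.Helper35.le_normalizer_commutator' hz hz (Subgroup.mem_zpowers c)
  have hcopQ : (Nat.card R).Coprime (Nat.card Q) :=
    Nat.Coprime.coprime_dvd_right (Subgroup.card_dvd_of_le hQP) hcop
  have hRcM : ∀ g ∈ R, ∀ m ∈ (⁅Q, Q⁆ : Subgroup X), g * m * g⁻¹ = m := by
    by_contra hne
    have := hmin ⁅Q, Q⁆ ⟨hMQ.trans hQP, hRM, hcM, hne⟩
    exact hMne (Subgroup.eq_of_le_of_card_ge hMQ this)
  have hsec := lemB_sec ⁅Q, Q⁆ Q R c h h1 le_rfl hMQ hRQ hRM hcQ hcM hcR hcopQ hfpf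
    (fun x hx => by rw [hnorm x (hQP hx), mul_inv_cancel]; exact Subgroup.one_mem _)
  exact stab ⁅Q, Q⁆ Q R hcopQ hMQ hRcM hsec


open scoped Pointwise in
theorem frob_inf {Q : Type*} [Group Q] (Fb Hb : Subgroup Q)
    (hker : Cfsg.frobeniusKernel Hb = (Fb : Set Q)) : ∀ x ∈ Fb, x ∈ Hb → x = 1 := by
  intro x hxF hxH
  have hx : x ∈ Cfsg.frobeniusKernel Hb := by rw [hker]; exact hxF
  rcases hx with hx | hx
  · exact hx
  · exact absurd (by simpa using hxH) (hx 1)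

open scoped Pointwise in
theorem frob_fpf {Q : Type*} [Group Q] (Fb Hb : Subgroup Q) [hFn : Fb.Normal]
    (hHb : Cfsg.IsFrobeniusComplement Hb) (hker : Cfsg.frobeniusKernel Hb = (Fb : Set Q))
    (t x : Q) (ht : t ∉ Fb) (hx : x ∈ Fb) (hcomm : t * x * t⁻¹ = x) : x = 1 := by
  have ht' : t ∉ Cfsg.frobeniusKernel Hb := by rw [hker]; exact ht
  have ht2 : t ≠ 1 ∧ ∃ g : Q, t ∈ MulAut.conj g • Hb := by
    unfold Cfsg.frobeniusKernel at ht'
    simp only [Set.mem_setOf_eq, not_or, not_forall, not_not] at ht'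
    exact ht'
  obtain ⟨ht1, g, hg⟩ := ht2
  rw [Cfsg.Agent.Helper35.mem_conj_smul] at hg
  -- t' = g⁻¹ t g ∈ Hb, x' = g⁻¹ x g ∈ Fb
  have hx' : g⁻¹ * x * g ∈ Fb := by
    have := hFn.conj_mem x hx g⁻¹
    simpa using this
  have hcomm' : (g⁻¹ * x * g)⁻¹ * (g⁻¹ * t * g) * (g⁻¹ * x * g) = g⁻¹ * t * g := by
    have e : (g⁻¹ * x * g)⁻¹ * (g⁻¹ * t * g) * (g⁻¹ * x * g) = g⁻¹ * (x⁻¹ * (t * x * t⁻¹) * t) * g := by
      group
    rw [e, hcomm]; group
  by_cases hxH : g⁻¹ * x * g ∈ Hb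
  · have := frob_inf Fb Hb hker _ hx' hxH
    have h2 : x = g * (g⁻¹ * x * g) * g⁻¹ := by group
    rw [h2, this]; group
  · exfalso
    have h3 := hHb.2.2 _ hxH
    have h4 : g⁻¹ * t * g ∈ Hb ⊓ (MulAut.conj (g⁻¹ * x * g) • Hb) := by
      rw [Subgroup.mem_inf]
      refine ⟨hg, ?_⟩
      rw [Cfsg.Agent.Helper35.mem_conj_smul, hcomm']
      exact hg
    rw [h3, Subgroup.mem_bot] at h4
    apply ht1
    have h5 : t = g * (g⁻¹ * t * g) * g⁻¹ := by group
    rw [h5, h4]; group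

open scoped Pointwise in
theorem frob_pow {Q : Type*} [Group Q] [Finite Q] (Fb Hb : Subgroup Q) [hFn : Fb.Normal]
    (hHb : Cfsg.IsFrobeniusComplement Hb) (hker : Cfsg.frobeniusKernel Hb = (Fb : Set Q))
    (cb : Q) (hcb : cb ∈ Hb) (hgen : ∀ x ∈ Hb, x ∈ Subgroup.zpowers cb) (y : Q)
    (hy : cb⁻¹ * y ∈ Fb) :
    (∀ i, 0 < i → i < Nat.card Hb → y ^ i ∉ Fb) ∧ y ^ Nat.card Hb = 1 := by
  have hzp : Subgroup.zpowers cb = Hb :=
    le_antisymm (by rw [Subgroup.zpowers_le]; exact hcb) hgen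
  have hord : orderOf cb = Nat.card Hb := by rw [← hzp, Nat.card_zpowers]
  have hmk : (QuotientGroup.mk cb : Q ⧸ Fb) = QuotientGroup.mk y := QuotientGroup.eq.mpr hy
  have hiff : ∀ i : ℕ, y ^ i ∈ Fb ↔ cb ^ i ∈ Fb := by
    intro i
    rw [← QuotientGroup.eq_one_iff (N := Fb), ← QuotientGroup.eq_one_iff (N := Fb),
      QuotientGroup.mk_pow, QuotientGroup.mk_pow, hmk]
  have h1 : ∀ i, 0 < i → i < Nat.card Hb → y ^ i ∉ Fb := by
    intro i hi0 hih hyi
    have h2 := (hiff i).mp hyi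
    have h3 := frob_inf Fb Hb hker _ h2 (Hb.pow_mem hcb i)
    have h4 := orderOf_dvd_of_pow_eq_one h3
    rw [hord] at h4
    exact absurd (Nat.le_of_dvd hi0 h4) (not_le.mpr hih)
  refine ⟨h1, ?_⟩
  have hcard1 : 1 < Nat.card Hb := by
    have := hHb.1
    rcases Nat.lt_trichotomy (Nat.card Hb) 1 with h | h | h
    · have := Nat.card_pos (α := Hb); omega
    · exact absurd (Subgroup.card_eq_one.mp h) this
    · exact h
  have hy1 := h1 1 Nat.one_pos hcard1
  rw [pow_one] at hy1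
  have hy' : y ∉ Cfsg.frobeniusKernel Hb := by rw [hker]; exact hy1
  unfold Cfsg.frobeniusKernel at hy'
  simp only [Set.mem_setOf_eq, not_or, not_forall, not_not] at hy'
  obtain ⟨_, g, hg⟩ := hy'
  have h5 := Subgroup.orderOf_dvd_natCard _ hg
  rw [Cfsg.Agent.Helper35.card_conj_smul] at h5
  exact orderOf_dvd_iff_pow_eq_one.mp h5

theorem order_lemma {G : Type*} [Group G] [Finite G] (N : Subgroup G) [N.Normal] (h : ℕ) (y : G)
    (hord : orderOf (QuotientGroup.mk' N y) = h) (h0 : 0 < h) (hy : y ^ h ≠ 1) :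
    ∃ p : ℕ, p.Prime ∧ p ∣ Nat.card N ∧ ∃ g : G, orderOf g = p * h := by
  have hyN : y ^ h ∈ N := by
    rw [← QuotientGroup.eq_one_iff, ← hord]
    have := pow_orderOf_eq_one (QuotientGroup.mk' N y)
    simpa using this
  have hm : orderOf (y ^ h) ∣ Nat.card N := Subgroup.orderOf_dvd_natCard N hyN
  have hm1 : orderOf (y ^ h) ≠ 1 := by rw [Ne, orderOf_eq_one_iff]; exact hy
  have hdvd : h ∣ orderOf y := by rw [← hord]; exact orderOf_map_dvd (QuotientGroup.mk' N) y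
  have hpow : orderOf (y ^ h) = orderOf y / h := orderOf_pow_of_dvd h0.ne' hdvd
  have hyo : orderOf y = h * orderOf (y ^ h) := by
    rw [hpow, Nat.mul_div_cancel' hdvd]
  obtain ⟨q, hq, hqm⟩ := Nat.exists_prime_and_dvd hm1
  obtain ⟨m', hm'⟩ := hqm
  have hm'0 : m' ≠ 0 := by
    rintro rfl
    rw [mul_zero] at hm'
    have := orderOf_pos (y ^ h)
    omega
  refine ⟨q, hq, (Dvd.intro m' hm'.symm).trans hm, y ^ m', ?_⟩
  have hd : m' ∣ orderOf y := by
    rw [hyo, hm']; exact Dvd.intro_left (h * q) (by ring)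
  rw [orderOf_pow_of_dvd hm'0 hd, hyo, hm']
  have : h * (q * m') = q * h * m' := by ring
  rw [this, Nat.mul_div_cancel _ (Nat.pos_of_ne_zero hm'0)]


open scoped Pointwise in
theorem main_aux {G : Type*} [Group G] [Finite G] (N : Subgroup G) [hNn : N.Normal]
    (Fb Hb : Subgroup (G ⧸ N)) [hFn : Fb.Normal] (hHb : Cfsg.IsFrobeniusComplement Hb)
    (hker : Cfsg.frobeniusKernel Hb = (Fb : Set (G ⧸ N)))
    (hcyc : IsCyclic Hb) (hcop : (Nat.card Fb).Coprime (Nat.card N))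
    (hnot : ¬ Fb ≤ (Subgroup.centralizer (N : Set G)).map (QuotientGroup.mk' N)) :
    ∃ p : ℕ, p.Prime ∧ p ∣ Nat.card N ∧ ∃ g : G, orderOf g = p * Nat.card Hb := by
  classical
  have hπs : Function.Surjective (QuotientGroup.mk' N) := QuotientGroup.mk'_surjective N
  have hπN : ∀ x ∈ N, QuotientGroup.mk' N x = 1 := fun x hx => by
    rw [QuotientGroup.mk'_apply]; exact (QuotientGroup.eq_one_iff x).mpr hx
  have hπN' : ∀ x, QuotientGroup.mk' N x = 1 → x ∈ N := fun x hx => by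
    rw [QuotientGroup.mk'_apply] at hx; exact (QuotientGroup.eq_one_iff x).mp hx
  -- the preimage of the kernel
  let Ft : Subgroup G := Fb.comap (QuotientGroup.mk' N)
  haveI hFtn : Ft.Normal := hFn.comap _
  have hNFt : N ≤ Ft := fun x hx => by
    show QuotientGroup.mk' N x ∈ Fb
    rw [hπN x hx]; exact Fb.one_mem
  -- step 1
  have hE : ¬ Ft ≤ N ⊔ Subgroup.centralizer (N : Set G) := by
    intro hle
    apply hnot
    intro xb hxb
    obtain ⟨x, rfl⟩ := hπs xb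
    have hx : x ∈ N ⊔ Subgroup.centralizer (N : Set G) := hle hxb
    rw [← SetLike.mem_coe, Subgroup.normal_mul] at hx
    obtain ⟨n, hn, z, hz, rfl⟩ := hx
    refine ⟨z, hz, ?_⟩
    rw [map_mul, hπN n hn, one_mul]
  have hrel1 : ((N ⊔ Subgroup.centralizer (N : Set G)) ⊓ Ft).relIndex Ft ≠ 1 := by
    rw [Ne, Subgroup.relIndex_eq_one]
    intro h; exact hE (h.trans inf_le_left)
  obtain ⟨r, hr, hrdvd⟩ := Nat.exists_prime_and_dvd hrel1
  haveI : Fact r.Prime := ⟨hr⟩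
  have hNrel : N.relIndex Ft = Nat.card Fb := by
    have h1 : N = (⊥ : Subgroup (G ⧸ N)).comap (QuotientGroup.mk' N) := by
      ext x; rw [Subgroup.mem_comap, Subgroup.mem_bot]; exact ⟨hπN x, hπN' x⟩
    conv_lhs => rw [h1]
    rw [Subgroup.relIndex_comap, Subgroup.map_comap_eq_self_of_surjective hπs,
      Subgroup.relIndex_bot_left]
  have hrFb : r ∣ Nat.card Fb := by
    rw [← hNrel]
    exact hrdvd.trans (Subgroup.relIndex_dvd_of_le_left Ft (le_inf le_sup_left hNFt))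
  have hrN : ¬ r ∣ Nat.card N := by
    intro h
    have := Nat.dvd_gcd hrFb h
    rw [hcop.gcd_eq_one] at this
    exact hr.one_lt.ne' (Nat.dvd_one.mp this)
  obtain ⟨S⟩ := (inferInstance : Nonempty (Sylow r Ft))
  let R : Subgroup G := (S : Subgroup Ft).map Ft.subtype
  have hRFt : R ≤ Ft := Subgroup.map_subtype_le _
  have hRp : IsPGroup r R := S.2.map _
  have hRN : (Nat.card R).Coprime (Nat.card N) := by
    obtain ⟨k, hk⟩ := IsPGroup.iff_card.mp hRp
    rw [hk]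
    exact Nat.Coprime.pow_left k ((Nat.Prime.coprime_iff_not_dvd hr).mpr hrN)
  have hRnotC : ¬ R ≤ Subgroup.centralizer (N : Set G) := by
    intro hle
    have h1 : R ≤ (N ⊔ Subgroup.centralizer (N : Set G)) ⊓ Ft :=
      le_inf (hle.trans le_sup_right) hRFt
    have h2 := Subgroup.relIndex_dvd_of_le_left Ft h1
    have h3 : R.relIndex Ft = (S : Subgroup Ft).index := by
      have h4 : R.subgroupOf Ft = (S : Subgroup Ft) :=
        Subgroup.comap_map_eq_self_of_injective (Subgroup.subtype_injective _) _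
      rw [Subgroup.relIndex, h4]
    rw [h3] at h2
    exact S.not_dvd_index (hrdvd.trans h2)
  have hFrat : Subgroup.normalizer (R : Set G) ⊔ Ft = ⊤ := Sylow.normalizer_sup_eq_top S
  have hRnorm : R ≤ Subgroup.normalizer (N : Set G) := by
    rw [Subgroup.normalizer_eq_top_iff.mpr hNn]; exact le_top
  have hRsolv : Group.IsSolvable R := by
    haveI := hRp.isNilpotent
    infer_instance
  -- step 2 : a Sylow subgroup of N normalized but not centralized by R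
  have hex : ∃ p : ℕ, ∃ _ : Fact p.Prime, ∃ P ∈ Cfsg.Agent.Helper35.sylowSet p N,
      R ≤ Subgroup.normalizer (P : Set G) ∧ ¬ ∀ g ∈ R, ∀ x ∈ P, g * x * g⁻¹ = x := by
    by_contra hcon
    push Not at hcon
    apply hRnotC
    have hdvd : Nat.card N ∣ Nat.card (N ⊓ Subgroup.centralizer (R : Set G) : Subgroup G) := by
      rw [← Nat.factorization_prime_le_iff_dvd Nat.card_pos.ne' Nat.card_pos.ne']
      intro p hp
      haveI : Fact p.Prime := ⟨hp⟩
      obtain ⟨P, hP, hRP⟩ :=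
        Cfsg.Agent.Helper35.exists_invariant_sylow hRnorm hRN (Or.inl hRsolv) p
      have hc := hcon p ⟨hp⟩ P hP hRP
      have hPle : P ≤ N ⊓ Subgroup.centralizer (R : Set G) := by
        intro x hx
        refine Subgroup.mem_inf.mpr ⟨hP.1 hx, ?_⟩
        rw [Subgroup.mem_centralizer_iff]
        intro g hg
        have := hc g hg x hx
        calc g * x = (g * x * g⁻¹) * g := by group
          _ = x * g := by rw [this]
      have h1 := Subgroup.card_dvd_of_le hPle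
      rw [hP.2] at h1
      exact (Nat.Prime.pow_dvd_iff_le_factorization hp Nat.card_pos.ne').mp h1
    have heq : N ⊓ Subgroup.centralizer (R : Set G) = N :=
      Subgroup.eq_of_le_of_card_ge inf_le_left (Nat.le_of_dvd Nat.card_pos hdvd)
    intro g hg
    rw [Subgroup.mem_centralizer_iff]
    intro n hn
    have hn' : n ∈ N ⊓ Subgroup.centralizer (R : Set G) := by rw [heq]; exact hn
    exact ((Subgroup.mem_centralizer_iff.mp hn'.2) g hg).symm
  obtain ⟨p, hpF, P, hP, hRP, hnc⟩ := hex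
  -- step 3 : the element c
  obtain ⟨⟨cb, hcb⟩, hgen0⟩ := hcyc.exists_generator
  have hgen : ∀ x ∈ Hb, x ∈ Subgroup.zpowers cb := by
    intro x hx
    obtain ⟨k, hk⟩ := Subgroup.mem_zpowers_iff.mp (hgen0 ⟨x, hx⟩)
    rw [Subgroup.mem_zpowers_iff]
    refine ⟨k, ?_⟩
    have := congrArg Subtype.val hk
    simpa using this
  obtain ⟨c₁, hc₁⟩ := hπs cb
  have hc₁top : c₁ ∈ Subgroup.normalizer (R : Set G) ⊔ Ft := by rw [hFrat]; trivial
  rw [← SetLike.mem_coe, Subgroup.mul_normal] at hc₁top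
  obtain ⟨c₂, hc₂, f, hf, rfl⟩ := hc₁top
  have hc₂N : c₂ ∈ Subgroup.normalizer (N : Set G) := by
    rw [Subgroup.normalizer_eq_top_iff.mpr hNn]; trivial
  have hP' : MulAut.conj c₂ • P ∈ Cfsg.Agent.Helper35.sylowSet p N :=
    Cfsg.Agent.Helper35.conj_mem_sylowSet hc₂N hP
  have hRP' : R ≤ Subgroup.normalizer ((MulAut.conj c₂ • P : Subgroup G) : Set G) := by
    have := Cfsg.Agent.Helper35.conj_smul_le_normalizer hRP c₂
    rwa [Cfsg.Agent.Helper35.conj_smul_eq_self_of_mem_normalizer hc₂] at this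
  obtain ⟨k, hk, hkP⟩ := Cfsg.Agent.Helper35.exists_conj_invariant_sylow hRnorm hRN
    (Or.inl hRsolv) hP' hP hRP' hRP
  have hcP : k * c₂ ∈ Subgroup.normalizer (P : Set G) := by
    rw [Cfsg.Agent.Helper35.mem_normalizer_iff_conj_smul_eq,
      ← Cfsg.Agent.Helper35.conj_smul_conj_smul]
    exact hkP
  have hcR : ∀ g ∈ R, (k * c₂) * g * (k * c₂)⁻¹ ∈ R := by
    intro g hg
    have h1 : c₂ * g * c₂⁻¹ ∈ R := (Subgroup.mem_normalizer_iff.mp hc₂ g).mp hg
    have h2 := (Subgroup.mem_centralizer_iff.mp hk.2) _ h1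
    have e : (k * c₂) * g * (k * c₂)⁻¹ = k * (c₂ * g * c₂⁻¹) * k⁻¹ := by group
    rw [e, ← h2]; simpa using h1
  have hπc : cb⁻¹ * QuotientGroup.mk' N (k * c₂) ∈ Fb := by
    rw [map_mul, hπN k hk.1, one_mul]
    have : QuotientGroup.mk' N c₂ = cb * (QuotientGroup.mk' N f)⁻¹ := by
      rw [← hc₁, map_mul]; group
    rw [this]
    have hf' : QuotientGroup.mk' N f ∈ Fb := hf
    simpa using Fb.inv_mem hf'
  -- step 4
  obtain ⟨hpowF, hpow1⟩ := frob_pow Fb Hb hHb hker cb hcb hgen (QuotientGroup.mk' N (k * c₂)) hπc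
  have h1 : 1 ≤ Nat.card Hb := Nat.card_pos
  have hRNbot : ∀ g ∈ R, g ∈ N → g = 1 := by
    intro g hgR hgN
    have ho1 := Subgroup.orderOf_dvd_natCard R hgR
    have ho2 := Subgroup.orderOf_dvd_natCard N hgN
    have := Nat.dvd_gcd ho1 ho2
    rw [hRN.gcd_eq_one] at this
    exact orderOf_eq_one_iff.mp (Nat.dvd_one.mp this)
  have hfpf : ∀ i, 0 < i → i < Nat.card Hb → ∀ g ∈ R,
      (k * c₂) ^ i * g * ((k * c₂) ^ i)⁻¹ = g → g = 1 := by
    intro i hi0 hih g hg hfix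
    apply hRNbot g hg
    apply hπN'
    apply frob_fpf Fb Hb hHb hker (QuotientGroup.mk' N ((k * c₂) ^ i)) (QuotientGroup.mk' N g)
    · rw [map_pow]; exact hpowF i hi0 hih
    · exact hRFt hg
    · rw [← map_inv, ← map_mul, ← map_mul, hfix]
  have hexx : ∃ x ∈ P, (x * (k * c₂)) ^ Nat.card Hb ≠ (k * c₂) ^ Nat.card Hb := by
    by_contra hcon
    push Not at hcon
    exact hnc (lemD p P R (k * c₂) (Nat.card Hb) h1
      (Cfsg.Agent.Helper35.isPGroup_of_mem_sylowSet hP) hRP hcP hcR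
      (Nat.Coprime.coprime_dvd_right (Subgroup.card_dvd_of_le hP.1) hRN) hfpf hcon)
  obtain ⟨x, hx, hxne⟩ := hexx
  have hord : ∀ y : G, cb⁻¹ * QuotientGroup.mk' N y ∈ Fb →
      orderOf (QuotientGroup.mk' N y) = Nat.card Hb := by
    intro y hy
    obtain ⟨hA, hB⟩ := frob_pow Fb Hb hHb hker cb hcb hgen (QuotientGroup.mk' N y) hy
    have hpos := orderOf_pos (QuotientGroup.mk' N y)
    have hle : orderOf (QuotientGroup.mk' N y) ≤ Nat.card Hb :=
      Nat.le_of_dvd h1 (orderOf_dvd_of_pow_eq_one hB)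
    rcases lt_or_eq_of_le hle with hlt | heq
    · exact absurd (by rw [pow_orderOf_eq_one]; exact Fb.one_mem) (hA _ hpos hlt)
    · exact heq
  by_cases hch : (k * c₂) ^ Nat.card Hb = 1
  · have hy : cb⁻¹ * QuotientGroup.mk' N (x * (k * c₂)) ∈ Fb := by
      rw [map_mul, hπN x (hP.1 hx), one_mul]; exact hπc
    exact order_lemma N (Nat.card Hb) (x * (k * c₂)) (hord _ hy) h1 (by rw [← hch]; exact hxne)
  · exact order_lemma N (Nat.card Hb) (k * c₂) (hord _ hπc) h1 hch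

/-- Let N be a normal subgroup of the finite group G such that G/N is a Frobenius group with kernel F and cyclic complement H, where the order of F is coprime to that of N and F is not contained in the image of C_G(N) in G/N. Then G has an element of order p·#H for some prime p dividing the order of N. (A standard tool in recognising groups by their element orders.) -/
theorem result {G : Type*} [Group G] [Finite G] (N : Subgroup G) [N.Normal]
    (Fb Hb : Subgroup (G ⧸ N)) [Fb.Normal] (hHb : Cfsg.IsFrobeniusComplement Hb) (hker : Cfsg.frobeniusKernel Hb = (Fb : Set (G ⧸ N)))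
    (hcyc : IsCyclic Hb) (hcop : (Nat.card Fb).Coprime (Nat.card N))
    (hnot : ¬ Fb ≤ (Subgroup.centralizer (N : Set G)).map (QuotientGroup.mk' N)) :
    ∃ p : ℕ, p.Prime ∧ p ∣ Nat.card N ∧ ∃ g : G, orderOf g = p * Nat.card Hb :=
  main_aux N Fb Hb hHb hker hcyc hcop hnot

end Cfsg.Agent.S3703
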