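import Cfsg.Statements.S3716
import Cfsg.Agent.Helper16.D8Glue3
import Cfsg.Agent.Helper39.D8SU1a
import Cfsg.Agent.Helper46.D8SU1b
import Cfsg.Agent.Helper80.D8SU2
import Cfsg.Agent.Helper93.D8SU3

set_option autoImplicit false
open Cfsg

namespace Cfsg.Agent.S3716

/-- Let G be a finite group with an elementary abelian Sylow 3-subgroup M of order 9 which is self-centralizing (C_G(M) = M), let N = N_G(M), and suppose C_G(g) ≤ N for every nonidentity g ∈ M. If the Sylow 2-subgroups of N are dihedral of order 8, then G is not simple. -/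
theorem result {G : Type*} [Group G] [Finite G] (M : Sylow 3 G) (hM9 : Nat.card ↥(M : Subgroup G) = 9)
    (hMel : ∀ m ∈ (M : Subgroup G), m ^ 3 = 1)
    (hCM : Subgroup.centralizer ((M : Subgroup G) : Set G) = (M : Subgroup G))
    (N : Subgroup G) (hN : N = Subgroup.normalizer ((M : Subgroup G) : Set G))
    (hCg : ∀ g ∈ (M : Subgroup G), g ≠ 1 → Subgroup.centralizer ({g} : Set G) ≤ N)
    (hS : ∀ S : Sylow 2 ↥N, Nonempty (↥(S : Subgroup ↥N) ≃* DihedralGroup 4)) :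
    ¬ IsSimpleGroup G := by
  classical
  haveI : Fintype G := Fintype.ofFinite G
  obtain ⟨hN72, a, τ, ha, hτ, ha2, hτ2, ha1, hτ1, h2, h4⟩ :=
    Cfsg.Agent.Helper39.d8_sylow_two M hM9 hCM N hN hS
  obtain ⟨t₁, t₂, hg⟩ :=
    Cfsg.Agent.Helper46.d8_gens M hM9 hMel hCM N hN hN72 a τ ha hτ ha2 hτ2 ha1 hτ1 h2 h4
  obtain ⟨φ, hφ⟩ := Cfsg.Agent.Helper80.d8_model_hom t₁ t₂ a (τ * a * τ⁻¹) τ hg.t₁3 hg.t₂3 hg.a2
    hg.b2 hg.τ2 hg.tt hg.ab hg.at₁ hg.at₂ hg.bt₁ hg.bt₂ hg.τt hg.τa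
  have hcfg := Cfsg.Agent.Helper93.d8_cfg_of_gens M hM9 N hN hN72 hCg t₁ t₂ a (τ * a * τ⁻¹) τ hg
    φ hφ
  exact Cfsg.Agent.Helper16.D8Cfg.not_simple hcfg

end Cfsg.Agent.S3716
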