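-- Statement S3802: a subnormal subgroup inside a maximal subgroup lies in its core (Wielandt).
import Cfsg.Statements.S3802

set_option autoImplicit false
open Cfsg

namespace Cfsg.Agent.S3802

variable {X : Type*} [Group X]

theorem map_conj_mul (H : Subgroup X) (a b : X) :
    H.map (MulAut.conj (a * b)).toMonoidHom =
      (H.map (MulAut.conj b).toMonoidHom).map (MulAut.conj a).toMonoidHom := by
  rw [Subgroup.map_map]
  congr 1
  ext y
  simp [MulAut.conj_apply, mul_assoc]

theorem map_conj_one (H : Subgroup X) :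
    H.map (MulAut.conj (1 : X)).toMonoidHom = H := by
  ext y
  simp

theorem mem_normalizer_of_map_conj_eq (S : Subgroup X) (n : X)
    (h : S.map (MulAut.conj n).toMonoidHom = S) : n ∈ Subgroup.normalizer (S : Set X) := by
  rw [Subgroup.mem_normalizer_iff]
  intro y
  constructor
  · intro hy
    rw [← h]
    exact ⟨y, hy, by simp [MulAut.conj_apply]⟩
  · intro hy
    rw [← h] at hy
    obtain ⟨s, hs, hse⟩ := hy
    have : s = y := by
      simpa [MulAut.conj_apply] using hse
    rw [← this]; exact hs

theorem map_conj_eq_of_mem_normalizer (S : Subgroup X) (n : X)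
    (h : n ∈ Subgroup.normalizer (S : Set X)) : S.map (MulAut.conj n).toMonoidHom = S := by
  rw [Subgroup.mem_normalizer_iff] at h
  ext y
  rw [Subgroup.mem_map]
  constructor
  · rintro ⟨s, hs, rfl⟩
    simpa [MulAut.conj_apply] using (h s).mp hs
  · intro hy
    refine ⟨n⁻¹ * y * n, ?_, by simp [MulAut.conj_apply, mul_assoc]⟩
    rw [h]
    simpa [mul_assoc] using hy

theorem le_normalizer_of_map_conj_le (D T : Subgroup X)
    (h : ∀ s ∈ T, D.map (MulAut.conj s).toMonoidHom ≤ D) :
    T ≤ Subgroup.normalizer (D : Set X) := by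
  intro s hs
  rw [Subgroup.mem_normalizer_iff]
  intro x
  constructor
  · intro hx
    exact h s hs ⟨x, hx, by simp [MulAut.conj_apply]⟩
  · intro hx
    have := h s⁻¹ (T.inv_mem hs) ⟨s * x * s⁻¹, hx, rfl⟩
    simpa [MulAut.conj_apply, mul_assoc] using this

theorem map_symm_map (φ : X ≃* X) (S : Subgroup X) :
    (S.map φ.toMonoidHom).map φ.symm.toMonoidHom = S := by
  rw [Subgroup.map_map]
  have : φ.symm.toMonoidHom.comp φ.toMonoidHom = MonoidHom.id X := by
    ext y; simp
  rw [this, Subgroup.map_id]

theorem map_map_symm (φ : X ≃* X) (S : Subgroup X) :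
    (S.map φ.symm.toMonoidHom).map φ.toMonoidHom = S := by
  rw [Subgroup.map_map]
  have : φ.toMonoidHom.comp φ.symm.toMonoidHom = MonoidHom.id X := by
    ext y; simp
  rw [this, Subgroup.map_id]

/-- `SubnIn T N`: `N` is subnormal in `T`, by a chain descending from `T`. -/
inductive SubnIn : Subgroup X → Subgroup X → Prop
  | refl (T : Subgroup X) : SubnIn T T
  | step (T T₁ N : Subgroup X) (h1 : T₁ ≤ T) (h2 : T ≤ Subgroup.normalizer (T₁ : Set X))
      (h3 : SubnIn T₁ N) : SubnIn T N

theorem SubnIn.le {T N : Subgroup X} (h : SubnIn T N) : N ≤ T := by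
  induction h with
  | refl T => exact le_rfl
  | step T T₁ N h1 h2 h3 ih => exact ih.trans h1

theorem SubnIn.of_normal {T K N : Subgroup X} (h : SubnIn T K) (hNK : N ≤ K)
    (hK : K ≤ Subgroup.normalizer (N : Set X)) : SubnIn T N := by
  induction h with
  | refl T => exact SubnIn.step T N N hNK hK (SubnIn.refl N)
  | step T T₁ K h1 h2 h3 ih => exact SubnIn.step T T₁ N h1 h2 (ih hNK hK)

theorem subnIn_of_isSubnormal {N : Subgroup X} (h : N.IsSubnormal) : SubnIn ⊤ N := by
  induction h with
  | top => exact SubnIn.refl ⊤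
  | step H K h_le hSubn hN ih =>
    exact ih.of_normal h_le ((Subgroup.normal_subgroupOf_iff_le_normalizer h_le).mp hN)

theorem SubnIn.sup {T N : Subgroup X} (K : Subgroup X) [K.Normal] (h : SubnIn T N) :
    SubnIn (T ⊔ K) (N ⊔ K) := by
  induction h with
  | refl T => exact SubnIn.refl _
  | step T T₁ N h1 h2 h3 ih =>
    refine SubnIn.step _ (T₁ ⊔ K) _ (sup_le_sup_right h1 K) ?_ ih
    apply sup_le
    · intro s hs
      apply mem_normalizer_of_map_conj_eq
      rw [Subgroup.map_sup, map_conj_eq_of_mem_normalizer T₁ s (h2 hs),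
        map_conj_eq_of_mem_normalizer K s
          (by rw [Subgroup.normalizer_eq_top K]; exact Subgroup.mem_top s)]
    · exact le_sup_right.trans Subgroup.le_normalizer

/-- `B` is minimal among the `T`-invariant subgroups of `T` properly containing `K`. -/
def MinOver (K T B : Subgroup X) : Prop :=
  K < B ∧ B ≤ T ∧ T ≤ Subgroup.normalizer (B : Set X) ∧
    ∀ C : Subgroup X, K < C → C ≤ B → T ≤ Subgroup.normalizer (C : Set X) → C = B

theorem exists_minOver [Finite X] (K T : Subgroup X) :
    ∀ (n : ℕ) (E : Subgroup X), Nat.card E ≤ n → K < E → E ≤ T →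
      T ≤ Subgroup.normalizer (E : Set X) → ∃ C, C ≤ E ∧ MinOver K T C := by
  intro n
  induction n with
  | zero =>
    intro E hE
    have := Nat.card_pos (α := E)
    omega
  | succ n ih =>
    intro E hcard hKE hET hTE
    by_cases hmin : ∀ C : Subgroup X, K < C → C ≤ E →
        T ≤ Subgroup.normalizer (C : Set X) → C = E
    · exact ⟨E, le_rfl, hKE, hET, hTE, hmin⟩
    · push Not at hmin
      obtain ⟨C, hKC, hCE, hTC, hne⟩ := hmin
      have hcardlt : Nat.card C < Nat.card E := by
        by_contra hge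
        exact hne (Subgroup.eq_of_le_of_card_ge hCE (by omega))
      obtain ⟨C', hC'C, hC'⟩ := ih C (by omega) hKC (hCE.trans hET) hTC
      exact ⟨C', hC'C.trans hCE, hC'⟩

theorem MinOver.map {K T B : Subgroup X} (h : MinOver K T B) (φ : X ≃* X) :
    MinOver (K.map φ.toMonoidHom) (T.map φ.toMonoidHom) (B.map φ.toMonoidHom) := by
  refine ⟨(Subgroup.map_lt_map_iff_of_injective φ.injective).mpr h.1, Subgroup.map_mono h.2.1,
    (Subgroup.map_mono h.2.2.1).trans (Subgroup.le_normalizer_map _), ?_⟩
  intro C' hKC' hC'B hTC'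
  have h1 : K < C'.map φ.symm.toMonoidHom := by
    have := (Subgroup.map_lt_map_iff_of_injective (f := φ.symm.toMonoidHom) φ.symm.injective).mpr hKC'
    rwa [map_symm_map] at this
  have h2 : C'.map φ.symm.toMonoidHom ≤ B := by
    have := Subgroup.map_mono (f := φ.symm.toMonoidHom) hC'B
    rwa [map_symm_map] at this
  have h3 : T ≤ Subgroup.normalizer ((C'.map φ.symm.toMonoidHom : Subgroup X) : Set X) := by
    have := (Subgroup.map_mono (f := φ.symm.toMonoidHom) hTC').trans
      (Subgroup.le_normalizer_map _)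
    rwa [map_symm_map] at this
  have h4 := h.2.2.2 _ h1 h2 h3
  rw [← h4, map_map_symm]

/-- A minimal normal subgroup (over `K`) normalizes every subnormal subgroup (containing `K`). -/
theorem minOver_le_normalizer [Finite X] (K : Subgroup X) [K.Normal] {T N : Subgroup X}
    (h : SubnIn T N) (hKN : K ≤ N) :
    ∀ B, MinOver K T B → B ≤ Subgroup.normalizer (N : Set X) := by
  induction h with
  | refl T =>
    intro B hB
    exact hB.2.1.trans Subgroup.le_normalizer
  | step T T₁ N h1 h2 h3 ih =>
    intro B hB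
    have ih' := ih hKN
    have hNT₁ : N ≤ T₁ := h3.le
    by_cases hcase : B ⊓ T₁ ≤ K
    · have key : ∀ b ∈ B, ∀ n ∈ N, b * n * b⁻¹ ∈ N := by
        intro b hb n hn
        have hnT : n ∈ T := h1 (hNT₁ hn)
        have hbT : b ∈ T := hB.2.1 hb
        have hc1 : b * n * b⁻¹ * n⁻¹ ∈ B := by
          have : n * b⁻¹ * n⁻¹ ∈ B :=
            (Subgroup.mem_normalizer_iff.mp (hB.2.2.1 hnT) b⁻¹).mp (B.inv_mem hb)
          have h' := B.mul_mem hb this
          simpa [mul_assoc] using h'
        have hc2 : b * n * b⁻¹ * n⁻¹ ∈ T₁ := by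
          have : b * n * b⁻¹ ∈ T₁ :=
            (Subgroup.mem_normalizer_iff.mp (h2 hbT) n).mp (hNT₁ hn)
          exact T₁.mul_mem this (T₁.inv_mem (hNT₁ hn))
        have hc3 : b * n * b⁻¹ * n⁻¹ ∈ N := hKN (hcase ⟨hc1, hc2⟩)
        have := N.mul_mem hc3 hn
        simpa using this
      intro b hb
      rw [Subgroup.mem_normalizer_iff]
      intro n
      constructor
      · exact key b hb n
      · intro hn
        have := key b⁻¹ (B.inv_mem hb) _ hn
        simpa [mul_assoc] using this
    · have hKB : K ≤ B := hB.1.le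
      have hKE : K < B ⊓ T₁ := lt_of_le_not_ge (le_inf hKB (hKN.trans hNT₁)) hcase
      have hTE : T₁ ≤ Subgroup.normalizer ((B ⊓ T₁ : Subgroup X) : Set X) := by
        intro s hs
        rw [Subgroup.mem_normalizer_iff]
        intro x
        have hsB := Subgroup.mem_normalizer_iff.mp (hB.2.2.1 (h1 hs)) x
        have hsT := Subgroup.mem_normalizer_iff.mp (Subgroup.le_normalizer hs) x
        rw [Subgroup.mem_inf, Subgroup.mem_inf, hsB, hsT]
      obtain ⟨C, hCE, hC⟩ := exists_minOver K T₁ _ (B ⊓ T₁) le_rfl hKE inf_le_right hTE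
      have hCt : ∀ t ∈ T, MinOver K T₁ (C.map (MulAut.conj t).toMonoidHom) := by
        intro t ht
        have := hC.map (MulAut.conj t)
        rwa [map_conj_eq_of_mem_normalizer K t
            (by rw [Subgroup.normalizer_eq_top K]; exact Subgroup.mem_top t),
          map_conj_eq_of_mem_normalizer T₁ t (h2 ht)] at this
      have hDB : (⨆ t : T, C.map (MulAut.conj (t : X)).toMonoidHom) ≤ B := by
        apply iSup_le
        intro t
        calc C.map (MulAut.conj (t : X)).toMonoidHom
            ≤ B.map (MulAut.conj (t : X)).toMonoidHom := Subgroup.map_mono (hCE.trans inf_le_left)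
          _ = B := map_conj_eq_of_mem_normalizer B t (hB.2.2.1 t.2)
      have hKD : K < (⨆ t : T, C.map (MulAut.conj (t : X)).toMonoidHom) := by
        have h1' : C ≤ (⨆ t : T, C.map (MulAut.conj (t : X)).toMonoidHom) := by
          calc C = C.map (MulAut.conj ((1 : T) : X)).toMonoidHom := by
                rw [Subgroup.coe_one, map_conj_one]
            _ ≤ _ := le_iSup (fun t : T => C.map (MulAut.conj (t : X)).toMonoidHom) (1 : T)
        exact lt_of_lt_of_le hC.1 h1'
      have hTD : T ≤ Subgroup.normalizer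
          (((⨆ t : T, C.map (MulAut.conj (t : X)).toMonoidHom) : Subgroup X) : Set X) := by
        apply le_normalizer_of_map_conj_le
        intro s hs
        rw [Subgroup.map_iSup]
        apply iSup_le
        intro t
        rw [← map_conj_mul]
        exact le_iSup (fun t : T => C.map (MulAut.conj (t : X)).toMonoidHom) (⟨s, hs⟩ * t)
      have hDN : (⨆ t : T, C.map (MulAut.conj (t : X)).toMonoidHom) ≤
          Subgroup.normalizer (N : Set X) := iSup_le (fun t => ih' _ (hCt t t.2))
      have hDeq := hB.2.2.2 _ hKD hDB hTD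
      rw [← hDeq]
      exact hDN

/-- Let G be a finite group, M a maximal subgroup of G and N a subnormal subgroup of G contained in M. Then N is contained in every conjugate of M, that is, N lies in the core of M in G. -/
theorem result {G : Type*} [Group G] [Finite G] (M N : Subgroup G) (hM : IsCoatom M) (hN : N.IsSubnormal) (hNM : N ≤ M) :
    N ≤ Subgroup.normalCore M := by
  have hKM : M.normalCore ≤ M := Subgroup.normalCore_le M
  have hKtop : M.normalCore < ⊤ := lt_of_le_of_lt hKM hM.lt_top
  obtain ⟨A, -, hA⟩ := exists_minOver M.normalCore ⊤ _ ⊤ le_rfl hKtop le_rfl Subgroup.le_normalizer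
  haveI hAnormal : A.Normal := Subgroup.normalizer_eq_top_iff.mp (top_le_iff.mp hA.2.2.1)
  have hAM : ¬ A ≤ M := by
    intro hle
    have : A ≤ M.normalCore := Subgroup.normal_le_normalCore.mpr hle
    exact (not_le_of_gt hA.1) this
  have htop : M ⊔ A = ⊤ :=
    hM.2 _ (lt_of_le_of_ne le_sup_left (fun h => hAM (h ▸ le_sup_right)))
  have hsub : SubnIn ⊤ (N ⊔ M.normalCore) := by
    have := (subnIn_of_isSubnormal hN).sup M.normalCore
    rwa [top_sup_eq] at this
  have hAnorm := minOver_le_normalizer M.normalCore hsub le_sup_right A hA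
  intro x hx
  show ∀ b : G, b * x * b⁻¹ ∈ M
  intro b
  have hb : b ∈ M ⊔ A := by rw [htop]; trivial
  rw [Subgroup.mem_sup_of_normal_right] at hb
  obtain ⟨m, hm, a, ha, rfl⟩ := hb
  have h1 : a * x * a⁻¹ ∈ N ⊔ M.normalCore :=
    (Subgroup.mem_normalizer_iff.mp (hAnorm ha) x).mp (Subgroup.mem_sup_left hx)
  have h2 : a * x * a⁻¹ ∈ M := (sup_le hNM hKM) h1
  have h3 := M.mul_mem (M.mul_mem hm h2) (M.inv_mem hm)
  simpa [mul_assoc] using h3

end Cfsg.Agent.S3802
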