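import Cfsg.Statements.S3805
import Cfsg.Agent.Helper16.S3Glue3
import Cfsg.Agent.Helper67.S3SU1
import Cfsg.Agent.Helper91.S3ModelHom
import Cfsg.Agent.Helper31.S3SU3

set_option autoImplicit false
open Cfsg

namespace Cfsg.Agent.S3805

/-- Let G be a finite group whose Sylow 3-subgroup T is elementary abelian of order 9 and self-centralizing, with N_G(T)/T a Klein four-group, and suppose that the centralizer of every nonidentity element of T lies in N_G(T). Then T is normal in G. -/
theorem result {G : Type*} [Group G] [Finite G]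
    (T : Sylow 3 G) (hT : Cfsg.IsElementaryAbelian 3 (T : Subgroup G)) (hcard : Nat.card T = 9)
    (hC : Subgroup.centralizer ((T : Subgroup G) : Set G) = T)
    [hn : ((T : Subgroup G).subgroupOf (Subgroup.normalizer ((T : Subgroup G) : Set G))).Normal]
    (hK : IsKleinFour (↥(Subgroup.normalizer ((T : Subgroup G) : Set G)) ⧸
      (T : Subgroup G).subgroupOf (Subgroup.normalizer ((T : Subgroup G) : Set G))))
    (hloc : ∀ t ∈ (T : Subgroup G), t ≠ 1 →
      Subgroup.centralizer ({t} : Set G) ≤ Subgroup.normalizer ((T : Subgroup G) : Set G)) :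
    Subgroup.normalizer ((T : Subgroup G) : Set G) = ⊤ := by
  classical
  obtain ⟨t₁, t₂, a, b, hg⟩ := Cfsg.Agent.Helper67.s3_gens T hT hcard hC hK
  obtain ⟨φ, hφ⟩ := Cfsg.Agent.Helper91.s3_model_hom t₁ t₂ a b hg.t₁3 hg.t₂3 hg.a2 hg.b2 hg.tt hg.ab
    hg.at₁ hg.at₂ hg.bt₁ hg.bt₂
  obtain ⟨hcfg, hrange⟩ := Cfsg.Agent.Helper31.s3_cfg_of_gens T hT hcard hK hloc t₁ t₂ a b hg φ hφ
  have := Fintype.ofFinite G
  rw [← hrange]
  exact MonoidHom.range_eq_top.mpr hcfg.surjective

end Cfsg.Agent.S3805
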