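-- Statement S3815: a criterion for membership in O_{p'}(G).
import Cfsg.Statements.S3815

set_option autoImplicit false
open Cfsg

namespace Cfsg.Agent.S3815

/-- The set of all `d` with `d X ⊆ X`, where `X` is the set of `p'`-elements, as a submonoid. -/
def stabMonoid (G : Type*) [Group G] (p : ℕ) : Submonoid G where
  carrier := {d | ∀ g : G, (orderOf g).Coprime p → (orderOf (d * g)).Coprime p}
  one_mem' := by
    intro g hg
    simpa using hg
  mul_mem' := by
    intro a b ha hb g hg
    rw [mul_assoc]
    exact ha _ (hb g hg)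

theorem inv_eq_pow {G : Type*} [Group G] [Finite G] (a : G) : a⁻¹ = a ^ (orderOf a - 1) := by
  symm
  apply eq_inv_of_mul_eq_one_left
  rw [← pow_succ, Nat.sub_add_cancel (orderOf_pos a), pow_orderOf_eq_one]

/-- The same set as a subgroup (the group is finite). -/
def stabSubgroup (G : Type*) [Group G] [Finite G] (p : ℕ) : Subgroup G :=
  { stabMonoid G p with
    inv_mem' := by
      intro a ha
      rw [inv_eq_pow a]
      exact (stabMonoid G p).pow_mem ha _ }

theorem mem_stabSubgroup {G : Type*} [Group G] [Finite G] (p : ℕ) (d : G) :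
    d ∈ stabSubgroup G p ↔ ∀ g : G, (orderOf g).Coprime p → (orderOf (d * g)).Coprime p :=
  Iff.rfl

theorem orderOf_conj' {G : Type*} [Group G] (c x : G) : orderOf (c * x * c⁻¹) = orderOf x := by
  have := MulEquiv.orderOf_eq (MulAut.conj c) x
  simpa [MulAut.conj_apply] using this

theorem stabSubgroup_normal (G : Type*) [Group G] [Finite G] (p : ℕ) :
    (stabSubgroup G p).Normal := by
  constructor
  intro d hd c
  rw [mem_stabSubgroup] at hd ⊢
  intro g hg
  have h1 : (orderOf (c⁻¹ * g * c)).Coprime p := by
    have := orderOf_conj' c⁻¹ g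
    rw [inv_inv] at this
    rw [this]; exact hg
  have h2 := hd _ h1
  have h3 : c * d * c⁻¹ * g = c * (d * (c⁻¹ * g * c)) * c⁻¹ := by group
  rw [h3, orderOf_conj']
  exact h2

theorem stabSubgroup_card_coprime (G : Type*) [Group G] [Finite G] (p : ℕ) [hp : Fact p.Prime] :
    (Nat.card (stabSubgroup G p)).Coprime p := by
  by_contra hcon
  have hdvd : p ∣ Nat.card (stabSubgroup G p) := by
    by_contra hnd
    exact hcon ((Nat.Prime.coprime_iff_not_dvd hp.out).mpr hnd).symm
  obtain ⟨x, hx⟩ := exists_prime_orderOf_dvd_card' p hdvd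
  have hx' : orderOf (x : G) = p := by rw [Subgroup.orderOf_coe]; exact hx
  have hmem := (mem_stabSubgroup p (x : G)).mp x.2 1 (by simp)
  rw [mul_one, hx'] at hmem
  exact hp.out.one_lt.ne' ((Nat.coprime_self p).mp hmem)

/-- Let G be a finite group, p a prime and d ∈ G an element of order prime to p. If dg has order prime to p for every element g ∈ G of order prime to p, then d ∈ O_{p'}(G). -/
theorem result {G : Type*} [Group G] [Finite G] {p : ℕ} [Fact p.Prime]
    (d : G) (hd : (orderOf d).Coprime p)
    (h : ∀ g : G, (orderOf g).Coprime p → (orderOf (d * g)).Coprime p) :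
    d ∈ Cfsg.pPrimeCore p G := by
  have hmem : d ∈ stabSubgroup G p := (mem_stabSubgroup p d).mpr h
  have hle : stabSubgroup G p ≤ Cfsg.pPrimeCore p G :=
    le_sSup ⟨stabSubgroup_normal G p, stabSubgroup_card_coprime G p⟩
  exact hle hmem

end Cfsg.Agent.S3815
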