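-- Statement S3820: pronormality of an overgroup of a pronormal subgroup.
import Cfsg.Statements.S3820

set_option autoImplicit false
open Cfsg

namespace Cfsg.Agent.S3820

theorem map_conj_mul {G : Type*} [Group G] (H : Subgroup G) (a b : G) :
    H.map (MulAut.conj (a * b)).toMonoidHom =
      (H.map (MulAut.conj b).toMonoidHom).map (MulAut.conj a).toMonoidHom := by
  rw [Subgroup.map_map]
  congr 1
  ext y
  simp [MulAut.conj_apply, mul_assoc]

theorem map_conj_one {G : Type*} [Group G] (H : Subgroup G) :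
    H.map (MulAut.conj (1 : G)).toMonoidHom = H := by
  ext y
  simp

theorem mem_normalizer_of_map_conj_eq {G : Type*} [Group G] (S : Subgroup G) (n : G)
    (h : S.map (MulAut.conj n).toMonoidHom = S) : n ∈ Subgroup.normalizer (S : Set G) := by
  rw [Subgroup.mem_normalizer_iff]
  intro y
  constructor
  · intro hy
    rw [← h]
    exact ⟨y, hy, by simp [MulAut.conj_apply]⟩
  · intro hy
    rw [← h] at hy
    obtain ⟨s, hs, hse⟩ := hy
    have : s = y := by
      simpa [MulAut.conj_apply] using hse
    rw [← this]; exact hs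

theorem map_conj_le {G : Type*} [Group G] (J K : Subgroup G) (x : G) (hx : x ∈ J) (hK : K ≤ J) :
    K.map (MulAut.conj x).toMonoidHom ≤ J := by
  rintro y ⟨k, hk, rfl⟩
  simp only [MulEquiv.coe_toMonoidHom, MulAut.conj_apply]
  exact J.mul_mem (J.mul_mem hx (hK hk)) (J.inv_mem hx)

/-- Call a subgroup H of G pronormal if H and gHg⁻¹ are conjugate inside ⟨H, gHg⁻¹⟩ for every g ∈ G. Let S ≤ H ≤ G be subgroups of a finite group with S pronormal in G (for instance S a Sylow subgroup). Then H is pronormal in G if and only if H and gHg⁻¹ are conjugate inside ⟨H, gHg⁻¹⟩ for every g ∈ N_G(S). In particular H is pronormal whenever N_G(S) ≤ H. -/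
theorem result {G : Type*} [Group G] [Finite G] (S H : Subgroup G) (hSH : S ≤ H)
    (hS : Cfsg.IsPronormal S) :
    Cfsg.IsPronormal H ↔
      ∀ g ∈ Subgroup.normalizer (S : Set G), ∃ w ∈ H ⊔ H.map (MulAut.conj g).toMonoidHom,
        H.map (MulAut.conj g).toMonoidHom = H.map (MulAut.conj w).toMonoidHom := by
  constructor
  · intro hH g _
    exact hH g
  · intro h g
    obtain ⟨x, hx, hxe⟩ := hS g
    -- n = x⁻¹ g normalizes S
    have hn : x⁻¹ * g ∈ Subgroup.normalizer (S : Set G) := by
      apply mem_normalizer_of_map_conj_eq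
      rw [map_conj_mul, hxe, ← map_conj_mul, inv_mul_cancel, map_conj_one]
    obtain ⟨w, hw, hwe⟩ := h _ hn
    have hxJ : x ∈ H ⊔ H.map (MulAut.conj g).toMonoidHom :=
      (sup_le_sup hSH (Subgroup.map_mono hSH)) hx
    have hwJ : w ∈ H ⊔ H.map (MulAut.conj g).toMonoidHom := by
      have hle : H ⊔ H.map (MulAut.conj (x⁻¹ * g)).toMonoidHom ≤
          H ⊔ H.map (MulAut.conj g).toMonoidHom := by
        refine sup_le le_sup_left ?_
        rw [map_conj_mul]
        exact map_conj_le _ _ _ (Subgroup.inv_mem _ hxJ) le_sup_right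
      exact hle hw
    refine ⟨x * w, Subgroup.mul_mem _ hxJ hwJ, ?_⟩
    have hg : g = x * (x⁻¹ * g) := by group
    conv_lhs => rw [hg]
    rw [map_conj_mul, hwe, ← map_conj_mul]

end Cfsg.Agent.S3820
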