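-- Statement S3821: pronormality in a normal subgroup.
import Cfsg.Statements.S3821

set_option autoImplicit false
open Cfsg

namespace Cfsg.Agent.S3821

theorem map_conj_mul {G : Type*} [Group G] (H : Subgroup G) (a b : G) :
    H.map (MulAut.conj (a * b)).toMonoidHom =
      (H.map (MulAut.conj b).toMonoidHom).map (MulAut.conj a).toMonoidHom := by
  rw [Subgroup.map_map]
  congr 1
  ext y
  simp [MulAut.conj_apply, mul_assoc]

theorem map_conj_one {G : Type*} [Group G] (H : Subgroup G) :
    H.map (MulAut.conj (1 : G)).toMonoidHom = H := by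
  ext y
  simp

theorem mem_normalizer_of_map_conj_eq {G : Type*} [Group G] (S : Subgroup G) (n : G)
    (h : S.map (MulAut.conj n).toMonoidHom = S) : n ∈ Subgroup.normalizer (S : Set G) := by
  rw [Subgroup.mem_normalizer_iff]
  intro y
  constructor
  · intro hy
    rw [← h]
    exact ⟨y, hy, by simp [MulAut.conj_apply]⟩
  · intro hy
    rw [← h] at hy
    obtain ⟨s, hs, hse⟩ := hy
    have : s = y := by
      simpa [MulAut.conj_apply] using hse
    rw [← this]; exact hs

theorem map_conj_eq_of_mem_normalizer {G : Type*} [Group G] (S : Subgroup G) (n : G)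
    (h : n ∈ Subgroup.normalizer (S : Set G)) : S.map (MulAut.conj n).toMonoidHom = S := by
  rw [Subgroup.mem_normalizer_iff] at h
  ext y
  rw [Subgroup.mem_map]
  constructor
  · rintro ⟨s, hs, rfl⟩
    simpa [MulAut.conj_apply] using (h s).mp hs
  · intro hy
    refine ⟨n⁻¹ * y * n, ?_, by simp [MulAut.conj_apply, mul_assoc]⟩
    rw [h]
    simpa [mul_assoc] using hy

theorem map_conj_le {G : Type*} [Group G] (J K : Subgroup G) (x : G) (hx : x ∈ J) (hK : K ≤ J) :
    K.map (MulAut.conj x).toMonoidHom ≤ J := by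
  rintro y ⟨k, hk, rfl⟩
  simp only [MulEquiv.coe_toMonoidHom, MulAut.conj_apply]
  exact J.mul_mem (J.mul_mem hx (hK hk)) (J.inv_mem hx)

theorem map_conj_le_normal {G : Type*} [Group G] (A K : Subgroup G) [hA : A.Normal] (x : G)
    (hK : K ≤ A) : K.map (MulAut.conj x).toMonoidHom ≤ A := by
  rintro y ⟨k, hk, rfl⟩
  simp only [MulEquiv.coe_toMonoidHom, MulAut.conj_apply]
  exact hA.conj_mem k (hK hk) x

/-- Conjugating inside the subgroup `A` is conjugating inside `G`. -/
theorem subgroupOf_map_conj {G : Type*} [Group G] (A H : Subgroup G) (hHA : H ≤ A) (a : A) :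
    (H.subgroupOf A).map (MulAut.conj a).toMonoidHom =
      (H.map (MulAut.conj (a : G)).toMonoidHom).subgroupOf A := by
  ext y
  rw [Subgroup.mem_subgroupOf, Subgroup.mem_map, Subgroup.mem_map]
  constructor
  · rintro ⟨h, hh, rfl⟩
    rw [Subgroup.mem_subgroupOf] at hh
    exact ⟨(h : G), hh, by simp [MulAut.conj_apply]⟩
  · rintro ⟨h, hh, hy⟩
    refine ⟨⟨h, hHA hh⟩, by rw [Subgroup.mem_subgroupOf]; exact hh, ?_⟩
    apply Subtype.ext
    simpa [MulAut.conj_apply] using hy

/-- Let A be a normal subgroup of the finite group G and H a subgroup of A. Then H is pronormal in G (H and gHg⁻¹ conjugate inside ⟨H, gHg⁻¹⟩ for every g ∈ G) if and only if H is pronormal in A and G = A · N_G(H). -/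
theorem result {G : Type*} [Group G] [Finite G] (A H : Subgroup G) [A.Normal] (hHA : H ≤ A) :
    Cfsg.IsPronormal H ↔ (Cfsg.IsPronormal (H.subgroupOf A) ∧ A ⊔ Subgroup.normalizer (H : Set G) = ⊤) := by
  constructor
  · intro hH
    refine ⟨?_, ?_⟩
    · intro a
      obtain ⟨x, hx, hxe⟩ := hH (a : G)
      have hJ : H ⊔ H.map (MulAut.conj (a : G)).toMonoidHom ≤ A :=
        sup_le hHA (map_conj_le_normal A H _ hHA)
      have hxA : x ∈ A := hJ hx
      refine ⟨⟨x, hxA⟩, ?_, ?_⟩
      · rw [subgroupOf_map_conj A H hHA a,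
          ← Subgroup.subgroupOf_sup hHA (map_conj_le_normal A H _ hHA), Subgroup.mem_subgroupOf]
        exact hx
      · rw [subgroupOf_map_conj A H hHA a, subgroupOf_map_conj A H hHA ⟨x, hxA⟩, hxe]
    · rw [eq_top_iff]
      intro g _
      obtain ⟨x, hx, hxe⟩ := hH g
      have hJ : H ⊔ H.map (MulAut.conj g).toMonoidHom ≤ A :=
        sup_le hHA (map_conj_le_normal A H _ hHA)
      have hxA : x ∈ A := hJ hx
      have hn : x⁻¹ * g ∈ Subgroup.normalizer (H : Set G) := by
        apply mem_normalizer_of_map_conj_eq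
        rw [map_conj_mul, hxe, ← map_conj_mul, inv_mul_cancel, map_conj_one]
      have hg : g = x * (x⁻¹ * g) := by group
      rw [hg]
      exact Subgroup.mul_mem_sup hxA hn
  · rintro ⟨hHA', htop⟩ g
    have hg : g ∈ A ⊔ Subgroup.normalizer (H : Set G) := by rw [htop]; trivial
    rw [Subgroup.mem_sup_of_normal_left] at hg
    obtain ⟨a, ha, n, hn, rfl⟩ := hg
    have hgn : H.map (MulAut.conj (a * n)).toMonoidHom = H.map (MulAut.conj a).toMonoidHom := by
      rw [map_conj_mul, map_conj_eq_of_mem_normalizer H n hn]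
    obtain ⟨x, hx, hxe⟩ := hHA' ⟨a, ha⟩
    rw [subgroupOf_map_conj A H hHA ⟨a, ha⟩] at hx hxe
    rw [subgroupOf_map_conj A H hHA x] at hxe
    rw [← Subgroup.subgroupOf_sup hHA (map_conj_le_normal A H _ hHA), Subgroup.mem_subgroupOf] at hx
    rw [Subgroup.subgroupOf_inj, inf_of_le_left (map_conj_le_normal A H _ hHA),
      inf_of_le_left (map_conj_le_normal A H _ hHA)] at hxe
    refine ⟨(x : G), ?_, ?_⟩
    · rw [hgn]; exact hx
    · rw [hgn]; exact hxe

end Cfsg.Agent.S3821
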