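-- Statement S3825: an involution with exactly two fixed points on U.
import Cfsg.Statements.S3825
import Mathlib

set_option autoImplicit false
open Cfsg

namespace Cfsg.Agent.S3825

/-- Let U be a subgroup of a finite group H and w an involution of H normalizing U and commuting with exactly two elements of U, the identity and y. If V is a non-cyclic elementary abelian 2-subgroup of U containing y which is normal in U and invariant under w, then V is a Sylow 2-subgroup of U, V has order 4, and U/V is abelian. -/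
theorem result {H : Type*} [Group H] [Finite H] (U : Subgroup H) (w : H) (hw : orderOf w = 2)
    (hwU : w ∈ Subgroup.normalizer (U : Set H)) (y : H) (hy : y ≠ 1) (hyU : y ∈ U)
    (hfix : ∀ u ∈ U, w * u * w⁻¹ = u ↔ (u = 1 ∨ u = y))
    (V : Subgroup H) (hVU : V ≤ U) (hVn : (V.subgroupOf U).Normal) (hVw : ∀ v ∈ V, w * v * w⁻¹ ∈ V)
    (hVe : Cfsg.IsElementaryAbelian 2 V) (hVc : ¬ IsCyclic ↥V) (hyV : y ∈ V) :
    ¬ 2 ∣ V.relIndex U ∧ Nat.card ↥V = 4 ∧ ⁅U, U⁆ ≤ V := by
  obtain ⟨hVcomm, hVexp⟩ := hVe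
  have hw2 : w ^ 2 = 1 := by rw [← hw]; exact pow_orderOf_eq_one w
  have hww : w * w = 1 := by rw [← pow_two]; exact hw2
  have hwinv : w⁻¹ = w := inv_eq_of_mul_eq_one_right hww
  -- conjugation by w
  have σmul : ∀ a b : H, w * (a * b) * w⁻¹ = (w * a * w⁻¹) * (w * b * w⁻¹) := by
    intro a b; group
  have σinv : ∀ a : H, w * a⁻¹ * w⁻¹ = (w * a * w⁻¹)⁻¹ := by
    intro a; group
  have σσ : ∀ a : H, w * (w * a * w⁻¹) * w⁻¹ = a := by
    intro a
    rw [hwinv]
    calc w * (w * a * w) * w = (w * w) * a * (w * w) := by group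
      _ = a := by rw [hww]; group
  have σU : ∀ u ∈ U, w * u * w⁻¹ ∈ U := fun u hu => (Subgroup.mem_normalizer_iff.mp hwU u).mp hu
  -- facts on V
  have Vcomm : ∀ a ∈ V, ∀ b ∈ V, a * b = b * a := by
    intro a ha b hb
    have := hVcomm.is_comm.comm ⟨a, ha⟩ ⟨b, hb⟩
    exact congrArg Subtype.val this
  have Vsq : ∀ a ∈ V, a * a = 1 := by
    intro a ha
    have h2 := hVexp a ha
    rwa [pow_two] at h2
  have Vinv : ∀ a ∈ V, a⁻¹ = a := fun a ha => inv_eq_of_mul_eq_one_right (Vsq a ha)
  -- an element of V outside {1, y}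
  have hex : ∃ v ∈ V, v ≠ 1 ∧ v ≠ y := by
    by_contra hcon
    push Not at hcon
    apply hVc
    rw [isCyclic_iff_exists_zpowers_eq_top]
    refine ⟨⟨y, hyV⟩, eq_top_iff.mpr ?_⟩
    intro x _
    by_cases hx1 : (x : H) = 1
    · have : x = 1 := Subtype.ext hx1
      rw [this]; exact Subgroup.one_mem _
    · have hxy : (x : H) = y := hcon x x.2 hx1
      have : x = ⟨y, hyV⟩ := Subtype.ext hxy
      rw [this]; exact Subgroup.mem_zpowers _
  obtain ⟨v, hvV, hv1, hvy⟩ := hex
  -- for x ∈ V: x * σ x ∈ {1, y}; and = 1 iff x ∈ {1, y}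
  have hprod : ∀ x ∈ V, x * (w * x * w⁻¹) = 1 ∨ x * (w * x * w⁻¹) = y := by
    intro x hx
    have ht : w * (x * (w * x * w⁻¹)) * w⁻¹ = x * (w * x * w⁻¹) := by
      rw [σmul, σσ]; exact Vcomm _ (hVw x hx) _ hx
    exact (hfix _ (U.mul_mem (hVU hx) (σU x (hVU hx)))).mp ht
  have hprod1 : ∀ x ∈ V, x * (w * x * w⁻¹) = 1 → (x = 1 ∨ x = y) := by
    intro x hx h1
    have : w * x * w⁻¹ = x := by
      have := eq_inv_of_mul_eq_one_right h1
      rw [this, Vinv x hx]
    exact (hfix x (hVU hx)).mp this
  have hvσ : v * (w * v * w⁻¹) = y := by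
    rcases hprod v hvV with h1 | h1
    · exfalso
      rcases hprod1 v hvV h1 with h | h
      · exact hv1 h
      · exact hvy h
    · exact h1
  have hyy : y * y = 1 := Vsq y hyV
  -- V = {1, y, v, v*y}
  have hVset : ∀ x, x ∈ V ↔ (x = 1 ∨ x = y ∨ x = v ∨ x = v * y) := by
    intro x
    constructor
    · intro hx
      rcases hprod x hx with h1 | h1
      · rcases hprod1 x hx h1 with h | h
        · exact Or.inl h
        · exact Or.inr (Or.inl h)
      · -- x * σ x = y, so (x v) σ(x v) = 1
        have hxv : (x * v) * (w * (x * v) * w⁻¹) = 1 := by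
          rw [σmul]
          have e1 : w * x * w⁻¹ ∈ V := hVw x hx
          have e2 : w * v * w⁻¹ ∈ V := hVw v hvV
          calc x * v * (w * x * w⁻¹ * (w * v * w⁻¹))
              = x * (v * (w * x * w⁻¹)) * (w * v * w⁻¹) := by group
            _ = x * ((w * x * w⁻¹) * v) * (w * v * w⁻¹) := by rw [Vcomm v hvV _ e1]
            _ = (x * (w * x * w⁻¹)) * (v * (w * v * w⁻¹)) := by group
            _ = 1 := by rw [h1, hvσ, hyy]
        rcases hprod1 (x * v) (V.mul_mem hx hvV) hxv with h | h
        · right; right; left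
          have := eq_inv_of_mul_eq_one_left h
          rw [this, Vinv v hvV]
        · right; right; right
          have := eq_mul_inv_of_mul_eq h
          rw [this, Vinv v hvV, Vcomm y hyV v hvV]
    · rintro (h | h | h | h)
      · rw [h]; exact V.one_mem
      · rw [h]; exact hyV
      · rw [h]; exact hvV
      · rw [h]; exact V.mul_mem hvV hyV
  have hcard : Nat.card ↥V = 4 := by
    have hset : (V : Set H) = {1, y, v, v * y} := by
      ext x
      simp only [SetLike.mem_coe, Set.mem_insert_iff, Set.mem_singleton_iff]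
      exact hVset x
    rw [← SetLike.coe_sort_coe, Nat.card_coe_set_eq, hset]
    have h3 : v ≠ v * y := by
      intro h
      apply hy
      have : v * 1 = v * y := by rw [mul_one]; exact h
      exact (mul_left_cancel this).symm
    have h2 : y ∉ ({v, v * y} : Set H) := by
      simp only [Set.mem_insert_iff, Set.mem_singleton_iff, not_or]
      refine ⟨fun h => hvy h.symm, fun h => hv1 ?_⟩
      have : 1 * y = v * y := by rw [one_mul]; exact h
      exact (mul_right_cancel this).symm
    have h1 : (1 : H) ∉ ({y, v, v * y} : Set H) := by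
      simp only [Set.mem_insert_iff, Set.mem_singleton_iff, not_or]
      refine ⟨fun h => hy h.symm, fun h => hv1 h.symm, fun h => hvy ?_⟩
      have := eq_inv_of_mul_eq_one_left h.symm
      rw [this, Vinv y hyV]
    rw [Set.ncard_insert_of_notMem h1, Set.ncard_insert_of_notMem h2, Set.ncard_pair h3]
  -- Step 2: a w-invariant coset of V in U is V itself
  have step2 : ∀ u ∈ U, (w * u * w⁻¹)⁻¹ * u ∈ V → u ∈ V := by
    intro u hu hv0
    have hfixv0 : w * ((w * u * w⁻¹)⁻¹ * u) * w⁻¹ = (w * u * w⁻¹)⁻¹ * u := by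
      rw [σmul, σinv, σσ]
      have := Vinv _ hv0
      rw [mul_inv_rev, inv_inv] at this
      exact this
    rcases (hfix _ (U.mul_mem (U.inv_mem (σU u hu)) hu)).mp hfixv0 with h1 | h1
    · have : w * u * w⁻¹ = u := inv_mul_eq_one.mp h1
      rcases (hfix u hu).mp this with h | h
      · rw [h]; exact V.one_mem
      · rw [h]; exact hyV
    · have hσu : w * u * w⁻¹ = u * y := by
        have h' : (w * u * w⁻¹) * y = u := by rw [← h1]; group
        have := eq_mul_inv_of_mul_eq h'
        rw [this, Vinv y hyV]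
      have hσv : w * v * w⁻¹ = v * y := by
        have : w * v * w⁻¹ = v⁻¹ * y := eq_inv_mul_of_mul_eq hvσ
        rw [this, Vinv v hvV]
      have hfixuv : w * (u * v) * w⁻¹ = u * v := by
        rw [σmul, hσu, hσv]
        have hyv : y * v = v * y := Vcomm y hyV v hvV
        calc u * y * (v * y) = u * ((y * v) * y) := by group
          _ = u * ((v * y) * y) := by rw [hyv]
          _ = u * v := by rw [mul_assoc v y y, hyy, mul_one]
      rcases (hfix _ (U.mul_mem hu (hVU hvV))).mp hfixuv with h | h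
      · have : u = v⁻¹ := eq_inv_of_mul_eq_one_left h
        rw [this]; exact V.inv_mem hvV
      · have : u = y * v⁻¹ := eq_mul_inv_of_mul_eq h
        rw [this]; exact V.mul_mem hyV (V.inv_mem hvV)
  -- the quotient U / V and the automorphism induced by w
  let σhom : U →* U := ((MulAut.conj w).toMonoidHom.comp U.subtype).codRestrict U
    (fun u => σU u u.2)
  have σhom_coe : ∀ u : U, ((σhom u : U) : H) = w * (u : H) * w⁻¹ := fun u => rfl
  let τ : U ⧸ V.subgroupOf U →* U ⧸ V.subgroupOf U :=
    QuotientGroup.map (V.subgroupOf U) (V.subgroupOf U) σhom (by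
      intro x hx
      rw [Subgroup.mem_comap, Subgroup.mem_subgroupOf]
      rw [Subgroup.mem_subgroupOf] at hx
      exact hVw x hx)
  have τmk : ∀ u : U, τ (QuotientGroup.mk u) = QuotientGroup.mk (σhom u) := fun u => rfl
  have τfix : ∀ q, τ q = q → q = 1 := by
    intro q hq
    obtain ⟨u, rfl⟩ := QuotientGroup.mk_surjective q
    rw [τmk, QuotientGroup.eq, Subgroup.mem_subgroupOf] at hq
    rw [QuotientGroup.eq_one_iff, Subgroup.mem_subgroupOf]
    exact step2 u u.2 hq
  have ττ : ∀ q, τ (τ q) = q := by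
    intro q
    obtain ⟨u, rfl⟩ := QuotientGroup.mk_surjective q
    rw [τmk, τmk]
    congr 1
    exact Subtype.ext (σσ u)
  have hinj : Function.Injective (fun q : U ⧸ V.subgroupOf U => q⁻¹ * τ q) := by
    intro q q' h
    simp only at h
    have hfixq : τ (q' * q⁻¹) = q' * q⁻¹ := by
      rw [map_mul, map_inv]
      have h' : τ q' = q' * (q⁻¹ * τ q) := by rw [h]; group
      rw [h']; group
    have := τfix _ hfixq
    exact (mul_inv_eq_one.mp this).symm
  have hsurj : Function.Surjective (fun q : U ⧸ V.subgroupOf U => q⁻¹ * τ q) :=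
    Finite.surjective_of_injective hinj
  have τinv : ∀ r, τ r = r⁻¹ := by
    intro r
    obtain ⟨q, rfl⟩ := hsurj r
    simp only
    rw [map_mul, map_inv, ττ]; group
  have Qcomm : ∀ r s : U ⧸ V.subgroupOf U, r * s = s * r := by
    intro r s
    have h1 := τinv (r * s)
    rw [map_mul, τinv, τinv, mul_inv_rev] at h1
    have := congrArg (fun t => t⁻¹) h1
    simp only [mul_inv_rev, inv_inv] at this
    exact this.symm
  refine ⟨?_, hcard, ?_⟩
  · intro h2
    have h2' : 2 ∣ Nat.card (U ⧸ V.subgroupOf U) := h2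
    obtain ⟨r, hr⟩ := exists_prime_orderOf_dvd_card' 2 h2'
    have hr2 : r * r = 1 := by rw [← pow_two, ← hr]; exact pow_orderOf_eq_one r
    have hτr : τ r = r := by rw [τinv]; exact inv_eq_of_mul_eq_one_right hr2
    have hr1 := τfix r hτr
    rw [hr1, orderOf_one] at hr
    norm_num at hr
  · rw [Subgroup.commutator_le]
    intro a ha b hb
    have h1 : (QuotientGroup.mk ((⟨a, ha⟩ : U) * ⟨b, hb⟩ * (⟨a, ha⟩ : U)⁻¹ * (⟨b, hb⟩ : U)⁻¹) :
        U ⧸ V.subgroupOf U) = 1 := by
      simp only [QuotientGroup.mk_mul, QuotientGroup.mk_inv]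
      rw [Qcomm (QuotientGroup.mk ⟨a, ha⟩) (QuotientGroup.mk ⟨b, hb⟩)]; group
    rw [QuotientGroup.eq_one_iff, Subgroup.mem_subgroupOf] at h1
    rw [commutatorElement_def]
    exact h1

end Cfsg.Agent.S3825
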