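import Cfsg.Statements.S3835
import Cfsg.Agent.Helper99.QdAlt

set_option autoImplicit false
open Cfsg

namespace Cfsg.Agent.S3835

/-- Let p be an odd prime and n a natural number. The alternating group of degree n has a subgroup isomorphic to Qd(p) (the natural semidirect product of an elementary abelian group of order p² by SL₂(p)) if and only if n ≥ p²; and if n < p² then Qd(p) is not even involved in it. -/
theorem result {p : ℕ} [Fact p.Prime] (hp : p ≠ 2) (n : ℕ) : ((∃ H : Subgroup (alternatingGroup (Fin n)), Nonempty (↥H ≃* ↥(Cfsg.qd p))) ↔ p ^ 2 ≤ n) ∧ (n < p ^ 2 → ¬ Cfsg.Involves ↥(Cfsg.qd p) ↥(alternatingGroup (Fin n))) := by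
  have key : n < p ^ 2 → ¬ Cfsg.Involves ↥(Cfsg.qd p) ↥(alternatingGroup (Fin n)) := by
    intro hn
    apply Cfsg.Agent.Helper99.qdalt_not_involves_of_comm p
    intro P hP a ha b hb
    apply Subtype.ext
    exact Cfsg.Agent.Helper99.qdalt_perm_pgroup_comm p n hn
      (P.map (alternatingGroup (Fin n)).subtype) (hP.map _) a b
      (Subgroup.mem_map_of_mem _ ha) (Subgroup.mem_map_of_mem _ hb)
  refine ⟨⟨?_, Cfsg.Agent.Helper99.qdalt_embeds p hp n⟩, key⟩
  rintro ⟨H, ⟨e⟩⟩
  by_contra hlt
  push Not at hlt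
  exact key hlt (Cfsg.Agent.Helper99.involves_of_inj_surj H.subtype (Subgroup.subtype_injective _)
    e.toMonoidHom e.surjective)

end Cfsg.Agent.S3835
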