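-- Statement S3838: normal p-complements in N_G(Q) for P' ≤ Q ≤ Φ(P).
import Cfsg.Statements.S3838
import Cfsg.Agent.Helper35.Coprime

set_option autoImplicit false
open Cfsg

namespace Cfsg.Agent.S3838

open scoped Pointwise commutatorElement

universe u

/-- Abstract form: `Q ≤ P` normal in `Γ`, consisting of non-generators of the Sylow subgroup `P`,
with `N(P)` acting trivially on `P / Q`. Then `P` has a normal complement. -/
theorem exists_normal_complement {Γ : Type u} [Group Γ] [Finite Γ] {p : ℕ} [Fact p.Prime]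
    (P : Sylow p Γ) (Q : Subgroup Γ) [hQn : Q.Normal] (hQP : Q ≤ (P : Subgroup Γ))
    (hnongen : ∀ T : Subgroup Γ, T ≤ (P : Subgroup Γ) → (P : Subgroup Γ) ≤ Q ⊔ T →
      (P : Subgroup Γ) ≤ T)
    (hcomm : ∀ x ∈ Subgroup.normalizer ((P : Subgroup Γ) : Set Γ), ∀ y ∈ (P : Subgroup Γ),
      x * y * x⁻¹ * y⁻¹ ∈ Q) :
    ∃ K : Subgroup Γ, K.Normal ∧ K.IsComplement' (P : Subgroup Γ) := by
  have hp : p.Prime := Fact.out
  have hsurj : Function.Surjective (QuotientGroup.mk' Q) := QuotientGroup.mk'_surjective Q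
  have hker : (QuotientGroup.mk' Q).ker = Q := QuotientGroup.ker_mk' Q
  have hPbar_coe : ((P.mapSurjective hsurj : Sylow p (Γ ⧸ Q)) : Subgroup (Γ ⧸ Q)) =
      (P : Subgroup Γ).map (QuotientGroup.mk' Q) := rfl
  have hcomapP : ((P : Subgroup Γ).map (QuotientGroup.mk' Q)).comap (QuotientGroup.mk' Q) =
      (P : Subgroup Γ) := by
    rw [Subgroup.comap_map_eq, hker, sup_eq_left.mpr hQP]
  have hNC : Subgroup.normalizer (((P.mapSurjective hsurj : Sylow p (Γ ⧸ Q)) :
      Subgroup (Γ ⧸ Q)) : Set (Γ ⧸ Q)) ≤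
      Subgroup.centralizer (((P.mapSurjective hsurj : Sylow p (Γ ⧸ Q)) :
      Subgroup (Γ ⧸ Q)) : Set (Γ ⧸ Q)) := by
    intro xb hxb
    obtain ⟨x, rfl⟩ := hsurj xb
    have hxN : x ∈ Subgroup.normalizer ((P : Subgroup Γ) : Set Γ) := by
      rw [Subgroup.mem_normalizer_iff]
      intro h
      have h1 := Subgroup.mem_normalizer_iff.mp hxb (QuotientGroup.mk' Q h)
      rw [hPbar_coe] at h1
      have e1 : h ∈ (P : Subgroup Γ) ↔
          QuotientGroup.mk' Q h ∈ (P : Subgroup Γ).map (QuotientGroup.mk' Q) := by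
        rw [← Subgroup.mem_comap, hcomapP]
      have e2 : x * h * x⁻¹ ∈ (P : Subgroup Γ) ↔
          QuotientGroup.mk' Q x * QuotientGroup.mk' Q h * (QuotientGroup.mk' Q x)⁻¹ ∈
            (P : Subgroup Γ).map (QuotientGroup.mk' Q) := by
        rw [← map_inv, ← map_mul, ← map_mul, ← Subgroup.mem_comap, hcomapP]
      rw [e1, e2]; exact h1
    rw [Subgroup.mem_centralizer_iff]
    intro yb hyb
    have hyb' : yb ∈ (P : Subgroup Γ).map (QuotientGroup.mk' Q) := hyb
    obtain ⟨y, hy, rfl⟩ := hyb'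
    have h1 := hcomm x hxN y hy
    have h2 : QuotientGroup.mk' Q (x * y * x⁻¹ * y⁻¹) = 1 := (QuotientGroup.eq_one_iff _).mpr h1
    simp only [map_mul, map_inv] at h2
    exact (mul_inv_eq_iff_eq_mul.mp (mul_inv_eq_one.mp h2)).symm
  have hBurn := MonoidHom.ker_transferSylow_isComplement' (P.mapSurjective hsurj) hNC
  have hMn : ((MonoidHom.transferSylow (P.mapSurjective hsurj) hNC).ker.comap
      (QuotientGroup.mk' Q)).Normal := inferInstance
  have hKLE : ∀ x, x ∈ (MonoidHom.transferSylow (P.mapSurjective hsurj) hNC).ker.comap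
      (QuotientGroup.mk' Q) ↔ QuotientGroup.mk' Q x ∈
      (MonoidHom.transferSylow (P.mapSurjective hsurj) hNC).ker := fun x => Subgroup.mem_comap
  have hQM : Q ≤ (MonoidHom.transferSylow (P.mapSurjective hsurj) hNC).ker.comap
      (QuotientGroup.mk' Q) := by
    intro q hq
    rw [hKLE]
    have : QuotientGroup.mk' Q q = 1 := (QuotientGroup.eq_one_iff q).mpr hq
    rw [this]; exact Subgroup.one_mem _
  have hcardMbar : Nat.card (MonoidHom.transferSylow (P.mapSurjective hsurj) hNC).ker =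
      (P : Subgroup Γ).index := by
    rw [← hBurn.index_eq_card, hPbar_coe]
    exact Subgroup.index_map_eq _ hsurj (by rw [hker]; exact hQP)
  have hrel : Q.relIndex ((MonoidHom.transferSylow (P.mapSurjective hsurj) hNC).ker.comap
      (QuotientGroup.mk' Q)) = (P : Subgroup Γ).index := by
    rw [← hcardMbar]
    have h1 := Subgroup.relIndex_ker ((MonoidHom.transferSylow (P.mapSurjective hsurj) hNC).ker.comap
      (QuotientGroup.mk' Q)) (QuotientGroup.mk' Q)
    rw [hker, Subgroup.map_comap_eq_self_of_surjective hsurj] at h1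
    exact h1
  have hQp : IsPGroup p Q := P.isPGroup'.to_le hQP
  obtain ⟨a, ha⟩ := IsPGroup.iff_card.mp hQp
  have hcopidx : ((P : Subgroup Γ).index).Coprime p :=
    ((Nat.Prime.coprime_iff_not_dvd hp).mpr P.not_dvd_index).symm
  generalize hMdef : (MonoidHom.transferSylow (P.mapSurjective hsurj) hNC).ker.comap
      (QuotientGroup.mk' Q) = M at hMn hQM hrel
  haveI := hMn
  have hcopQ : (Nat.card (Q.subgroupOf M)).Coprime (Q.subgroupOf M).index := by
    rw [Nat.card_congr (Subgroup.subgroupOfEquivOfLe hQM).toEquiv, ha]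
    show (p ^ a).Coprime (Q.relIndex M)
    rw [hrel]
    exact Nat.Coprime.pow_left a hcopidx.symm
  obtain ⟨KM, hKM⟩ := Subgroup.exists_right_complement'_of_coprime hcopQ
  have hKle : KM.map M.subtype ≤ M := Subgroup.map_subtype_le KM
  have hKcard : Nat.card (KM.map M.subtype) = (P : Subgroup Γ).index := by
    rw [Subgroup.card_map_of_injective M.subtype_injective, ← hrel]
    exact hKM.symm.index_eq_card.symm
  have hsup : M ≤ Q ⊔ KM.map M.subtype := by
    intro m hm
    have h1 : (⟨m, hm⟩ : M) ∈ Q.subgroupOf M ⊔ KM := by rw [hKM.sup_eq_top]; trivial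
    have h2 : m ∈ (Q.subgroupOf M ⊔ KM).map M.subtype := ⟨⟨m, hm⟩, h1, rfl⟩
    rw [Subgroup.map_sup, Subgroup.subgroupOf_map_subtype] at h2
    exact (sup_le_sup_right (inf_le_left : Q ⊓ M ≤ Q) (KM.map M.subtype)) h2
  have hcopKQ : (Nat.card (KM.map M.subtype)).Coprime (Nat.card Q) := by
    rw [hKcard, ha]; exact Nat.Coprime.pow_right a hcopidx
  have hsolv : Group.IsSolvable (KM.map M.subtype) ∨ Group.IsSolvable Q := by
    haveI := hQp.isNilpotent
    exact Or.inr inferInstance
  have hKQ : KM.map M.subtype ≤ Subgroup.normalizer (Q : Set Γ) := by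
    rw [Subgroup.normalizer_eq_top]; exact le_top
  have hfrat : ∀ h : Γ, ∃ n ∈ Q, n⁻¹ * h ∈ Subgroup.normalizer ((KM.map M.subtype : Subgroup Γ) : Set Γ) := by
    intro h
    have hB : MulAut.conj h • KM.map M.subtype ≤ Q ⊔ KM.map M.subtype := by
      intro x hx
      rw [Cfsg.Agent.Helper35.mem_conj_smul] at hx
      apply hsup
      have h1 : h⁻¹ * x * h ∈ M := hKle hx
      have h2 := hMn.conj_mem _ h1 h
      have h3 : h * (h⁻¹ * x * h) * h⁻¹ = x := by group
      rwa [h3] at h2
    obtain ⟨n, hn, hconj⟩ := Cfsg.Agent.Helper35.isz hKQ hcopKQ hsolv hB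
      (Cfsg.Agent.Helper35.card_conj_smul _ _)
    refine ⟨n, hn, ?_⟩
    rw [Cfsg.Agent.Helper35.mem_normalizer_iff_conj_smul_eq,
      ← Cfsg.Agent.Helper35.conj_smul_conj_smul, ← hconj,
      Cfsg.Agent.Helper35.conj_smul_conj_smul]
    simp
  have hPN : (P : Subgroup Γ) ≤ Subgroup.normalizer ((KM.map M.subtype : Subgroup Γ) : Set Γ) := by
    have h1 : (P : Subgroup Γ) ≤ Q ⊔ ((P : Subgroup Γ) ⊓
        Subgroup.normalizer ((KM.map M.subtype : Subgroup Γ) : Set Γ)) := by
      intro u hu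
      obtain ⟨n, hn, hl⟩ := hfrat u
      have : u = n * (n⁻¹ * u) := by group
      rw [this]
      exact Subgroup.mul_mem _ (Subgroup.mem_sup_left hn)
        (Subgroup.mem_sup_right ⟨(P : Subgroup Γ).mul_mem ((P : Subgroup Γ).inv_mem (hQP hn)) hu, hl⟩)
    exact (hnongen _ inf_le_left h1).trans inf_le_right
  have hKn : (KM.map M.subtype).Normal := by
    rw [← Subgroup.normalizer_eq_top_iff, eq_top_iff]
    intro h _
    obtain ⟨n, hn, hl⟩ := hfrat h
    have : h = n * (n⁻¹ * h) := by group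
    rw [this]
    exact Subgroup.mul_mem _ (hPN (hQP hn)) hl
  refine ⟨KM.map M.subtype, hKn, Subgroup.isComplement'_of_coprime ?_ ?_⟩
  · rw [hKcard]; exact (P : Subgroup Γ).index_mul_card
  · rw [hKcard]
    obtain ⟨b, hb⟩ := IsPGroup.iff_card.mp P.isPGroup'
    rw [hb]; exact Nat.Coprime.pow_right b hcopidx

/-- If `N_G(P)` has a normal `p`-complement, it acts on `P` like `P` does. -/
theorem comm_eq_of_normal_complement {G : Type u} [Group G] [Finite G] {p : ℕ} [Fact p.Prime]
    (P : Sylow p G)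
    (hN : Cfsg.HasNormalPComplement p ↥(Subgroup.normalizer ((P : Subgroup G) : Set G)))
    (x : G) (hx : x ∈ Subgroup.normalizer ((P : Subgroup G) : Set G)) (y : G)
    (hy : y ∈ (P : Subgroup G)) :
    ∃ s ∈ (P : Subgroup G), x * y * x⁻¹ * y⁻¹ = s * y * s⁻¹ * y⁻¹ := by
  have hp : p.Prime := Fact.out
  obtain ⟨S, C, hCn, hC⟩ := hN
  have hP0n : ((P : Subgroup G).subgroupOf (Subgroup.normalizer ((P : Subgroup G) : Set G))).Normal :=
    Subgroup.normal_in_normalizer
  have hle : (P : Subgroup G) ≤ Subgroup.normalizer ((P : Subgroup G) : Set G) := Subgroup.le_normalizer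
  have hS0n : ((P.subtype hle : Sylow p ↥(Subgroup.normalizer ((P : Subgroup G) : Set G))) :
      Subgroup ↥(Subgroup.normalizer ((P : Subgroup G) : Set G))).Normal := hP0n
  haveI := Sylow.unique_of_normal (P.subtype hle) hS0n
  have hSeq : S = P.subtype hle := Subsingleton.elim _ _
  have hScoe : (S : Subgroup ↥(Subgroup.normalizer ((P : Subgroup G) : Set G))) =
      (P : Subgroup G).subgroupOf (Subgroup.normalizer ((P : Subgroup G) : Set G)) := by
    rw [hSeq]; rfl
  rw [hScoe] at hC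
  -- C meets P trivially
  have hP0p : IsPGroup p ((P : Subgroup G).subgroupOf
      (Subgroup.normalizer ((P : Subgroup G) : Set G))) := P.isPGroup'.comap_subtype
  have hdisj : ∀ z : ↥(Subgroup.normalizer ((P : Subgroup G) : Set G)), z ∈ C →
      z ∈ (P : Subgroup G).subgroupOf (Subgroup.normalizer ((P : Subgroup G) : Set G)) → z = 1 := by
    intro z hzC hzP
    have h1 : z ∈ C ⊓ (P : Subgroup G).subgroupOf
        (Subgroup.normalizer ((P : Subgroup G) : Set G)) := ⟨hzC, hzP⟩
    rw [hC.disjoint.eq_bot, Subgroup.mem_bot] at h1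
    exact h1
  obtain ⟨c, hc, s, hs, hxcs⟩ := Cfsg.Agent.Helper35.exists_mul_of_isComplement' hC ⟨x, hx⟩
  have hsP : (s : G) ∈ (P : Subgroup G) := Subgroup.mem_subgroupOf.mp hs
  -- c commutes with elements of P
  have hcomm : ∀ w : G, ∀ hw : w ∈ (P : Subgroup G), (c : G) * w = w * (c : G) := by
    intro w hw
    have hwP0 : (⟨w, hle hw⟩ : ↥(Subgroup.normalizer ((P : Subgroup G) : Set G))) ∈
        (P : Subgroup G).subgroupOf (Subgroup.normalizer ((P : Subgroup G) : Set G)) :=
      Subgroup.mem_subgroupOf.mpr hw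
    have h1 : c * ⟨w, hle hw⟩ * c⁻¹ * (⟨w, hle hw⟩ : ↥(Subgroup.normalizer ((P : Subgroup G) : Set G)))⁻¹ ∈ C := by
      have h2 := hCn.conj_mem c⁻¹ (C.inv_mem hc) ⟨w, hle hw⟩
      have h3 : c * ⟨w, hle hw⟩ * c⁻¹ * (⟨w, hle hw⟩ : ↥(Subgroup.normalizer ((P : Subgroup G) : Set G)))⁻¹ =
          c * (⟨w, hle hw⟩ * c⁻¹ * (⟨w, hle hw⟩ : ↥(Subgroup.normalizer ((P : Subgroup G) : Set G)))⁻¹) := by
        group
      rw [h3]
      exact C.mul_mem hc h2
    have h4 : c * ⟨w, hle hw⟩ * c⁻¹ * (⟨w, hle hw⟩ : ↥(Subgroup.normalizer ((P : Subgroup G) : Set G)))⁻¹ ∈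
        (P : Subgroup G).subgroupOf (Subgroup.normalizer ((P : Subgroup G) : Set G)) :=
      Subgroup.mul_mem _ (hP0n.conj_mem _ hwP0 c) (Subgroup.inv_mem _ hwP0)
    have h5 := hdisj _ h1 h4
    have h6 : c * ⟨w, hle hw⟩ = ⟨w, hle hw⟩ * c :=
      mul_inv_eq_iff_eq_mul.mp (mul_inv_eq_one.mp h5)
    have h7 := congrArg Subtype.val h6
    simpa using h7
  refine ⟨(s : G), hsP, ?_⟩
  have hx' : x = (c : G) * (s : G) := by
    have := congrArg Subtype.val hxcs
    simpa using this
  have hsy : (s : G) * y * (s : G)⁻¹ ∈ (P : Subgroup G) :=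
    (P : Subgroup G).mul_mem ((P : Subgroup G).mul_mem hsP hy) ((P : Subgroup G).inv_mem hsP)
  have h8 := hcomm _ hsy
  rw [hx']
  calc (c : G) * (s : G) * y * ((c : G) * (s : G))⁻¹ * y⁻¹
      = ((c : G) * ((s : G) * y * (s : G)⁻¹)) * (c : G)⁻¹ * y⁻¹ := by group
    _ = (((s : G) * y * (s : G)⁻¹) * (c : G)) * (c : G)⁻¹ * y⁻¹ := by rw [h8]
    _ = (s : G) * y * (s : G)⁻¹ * y⁻¹ := by group

/-- Let G be a finite group with Sylow p-subgroup P such that N_G(P) has a normal p-complement. Then N_G(Q) has a normal p-complement for every subgroup Q with [P, P] ≤ Q ≤ Φ(P). -/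
theorem result {G : Type*} [Group G] [Finite G] {p : ℕ} [Fact p.Prime] (P : Sylow p G) (hN : Cfsg.HasNormalPComplement p ↥(Subgroup.normalizer ((P : Subgroup G) : Set G))) (Q : Subgroup G) (h1 : (commutator ↥(P : Subgroup G)).map (P : Subgroup G).subtype ≤ Q) (h2 : Q ≤ (frattini ↥(P : Subgroup G)).map (P : Subgroup G).subtype) : Cfsg.HasNormalPComplement p ↥(Subgroup.normalizer (Q : Set G)) := by
  have hQP : Q ≤ (P : Subgroup G) := h2.trans (Subgroup.map_subtype_le _)
  -- commutators of elements of P lie in Q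
  have hcommQ : ∀ u ∈ (P : Subgroup G), ∀ v ∈ (P : Subgroup G), u * v * u⁻¹ * v⁻¹ ∈ Q := by
    intro u hu v hv
    apply h1
    refine ⟨⁅(⟨u, hu⟩ : (P : Subgroup G)), ⟨v, hv⟩⁆, ?_, ?_⟩
    · rw [SetLike.mem_coe, commutator_def]
      exact Subgroup.commutator_mem_commutator (Subgroup.mem_top _) (Subgroup.mem_top _)
    · simp [commutatorElement_def]
  have hconjQ : ∀ u ∈ (P : Subgroup G), ∀ h ∈ Q, u * h * u⁻¹ ∈ Q := by
    intro u hu h hh
    have h3 := hcommQ u hu h (hQP hh)
    have h4 : u * h * u⁻¹ = (u * h * u⁻¹ * h⁻¹) * h := by group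
    rw [h4]
    exact Q.mul_mem h3 hh
  have hPH : (P : Subgroup G) ≤ Subgroup.normalizer (Q : Set G) := by
    intro u hu
    rw [Subgroup.mem_normalizer_iff]
    intro h
    refine ⟨hconjQ u hu h, fun hh => ?_⟩
    have h5 := hconjQ u⁻¹ ((P : Subgroup G).inv_mem hu) _ hh
    have h6 : u⁻¹ * (u * h * u⁻¹) * u⁻¹⁻¹ = h := by group
    rwa [h6] at h5
  haveI hQn : (Q.subgroupOf (Subgroup.normalizer (Q : Set G))).Normal := Subgroup.normal_in_normalizer
  have hPcoe : ((P.subtype hPH : Sylow p ↥(Subgroup.normalizer (Q : Set G))) :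
      Subgroup ↥(Subgroup.normalizer (Q : Set G))) =
      (P : Subgroup G).subgroupOf (Subgroup.normalizer (Q : Set G)) := rfl
  have hmain := exists_normal_complement (P.subtype hPH) (Q.subgroupOf (Subgroup.normalizer (Q : Set G)))
    (by
      rw [hPcoe]
      intro z hz
      exact Subgroup.mem_subgroupOf.mpr (hQP (Subgroup.mem_subgroupOf.mp hz)))
    (by
      rw [hPcoe]
      intro T hTP hPT
      -- the subgroup of ↥P corresponding to T
      have hfr := frattini_nongenerating
        (K := ((T.map (Subgroup.normalizer (Q : Set G)).subtype).subgroupOf (P : Subgroup G))) (by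
          rw [eq_top_iff]
          intro u _
          have hu' : (⟨(u : G), hPH u.2⟩ : ↥(Subgroup.normalizer (Q : Set G))) ∈
              (P : Subgroup G).subgroupOf (Subgroup.normalizer (Q : Set G)) :=
            Subgroup.mem_subgroupOf.mpr u.2
          have h3 := hPT hu'
          rw [Subgroup.mem_sup_of_normal_left] at h3
          obtain ⟨q, hq, t, ht, hqt⟩ := h3
          have hqQ : (q : G) ∈ Q := Subgroup.mem_subgroupOf.mp hq
          obtain ⟨f, hf, hfq⟩ := h2 hqQ
          have htP : (t : G) ∈ (P : Subgroup G) := Subgroup.mem_subgroupOf.mp (hTP ht)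
          have hu_eq : u = f * ⟨(t : G), htP⟩ := by
            apply Subtype.ext
            have h4 := congrArg Subtype.val hqt
            simp only [Subgroup.coe_mul] at h4 ⊢
            rw [← h4]
            congr 1
            exact hfq.symm
          rw [hu_eq]
          refine Subgroup.mul_mem _ (Subgroup.mem_sup_right hf) (Subgroup.mem_sup_left ?_)
          rw [Subgroup.mem_subgroupOf]
          exact ⟨t, ht, rfl⟩)
      intro z hz
      have hzP : (z : G) ∈ (P : Subgroup G) := Subgroup.mem_subgroupOf.mp hz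
      have h3 : (⟨(z : G), hzP⟩ : (P : Subgroup G)) ∈
          (T.map (Subgroup.normalizer (Q : Set G)).subtype).subgroupOf (P : Subgroup G) := by
        rw [hfr]; trivial
      rw [Subgroup.mem_subgroupOf] at h3
      obtain ⟨t, ht, htz⟩ := h3
      have : t = z := Subtype.ext htz
      rw [← this]; exact ht)
    (by
      rw [hPcoe]
      intro x hx y hy
      have hyP : (y : G) ∈ (P : Subgroup G) := Subgroup.mem_subgroupOf.mp hy
      have hxN : (x : G) ∈ Subgroup.normalizer ((P : Subgroup G) : Set G) := by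
        rw [Subgroup.mem_normalizer_iff]
        intro h
        constructor
        · intro hh
          have h3 := (Subgroup.mem_normalizer_iff.mp hx ⟨h, hPH hh⟩).mp (Subgroup.mem_subgroupOf.mpr hh)
          exact Subgroup.mem_subgroupOf.mp h3
        · intro hh
          have hhH : h ∈ Subgroup.normalizer (Q : Set G) := by
            have h4 : h = (x : G)⁻¹ * ((x : G) * h * (x : G)⁻¹) * (x : G) := by group
            rw [h4]
            exact Subgroup.mul_mem _ (Subgroup.mul_mem _ (Subgroup.inv_mem _ x.2) (hPH hh)) x.2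
          have h3 := (Subgroup.mem_normalizer_iff.mp hx ⟨h, hhH⟩).mpr (Subgroup.mem_subgroupOf.mpr hh)
          exact Subgroup.mem_subgroupOf.mp h3
      obtain ⟨s, hs, hxs⟩ := comm_eq_of_normal_complement P hN (x : G) hxN (y : G) hyP
      rw [Subgroup.mem_subgroupOf]
      have h5 : ((x * y * x⁻¹ * y⁻¹ : ↥(Subgroup.normalizer (Q : Set G))) : G) =
          (x : G) * (y : G) * (x : G)⁻¹ * (y : G)⁻¹ := by simp
      rw [h5, hxs]
      exact hcommQ s hs (y : G) hyP)
  obtain ⟨K, hKn, hK⟩ := hmain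
  exact ⟨P.subtype hPH, K, hKn, hK⟩

end Cfsg.Agent.S3838
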