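import Cfsg.Statements.S3857
import Cfsg.Agent.Helper1.PrimeGraph

set_option autoImplicit false
open Cfsg

namespace Cfsg.Agent.S3857

/-- A finite solvable group whose prime graph (prime divisors of the order, two distinct primes joined when there is an element of order their product) is disconnected is a Frobenius group or a 2-Frobenius group (it has normal subgroups H < K with K a Frobenius group with kernel H and G/H a Frobenius group with kernel K/H). -/
theorem result {G : Type*} [Group G] [Finite G] (hsol : Group.IsSolvable G)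
    (hdisc : (∃ A : Set ℕ, (∃ a ∈ A, a.Prime ∧ a ∣ Nat.card G) ∧ (∃ b ∉ A, b.Prime ∧ b ∣ Nat.card G) ∧
      ∀ a ∈ A, ∀ b ∉ A, a.Prime → b.Prime → a ∣ Nat.card G → b ∣ Nat.card G → ¬ ∃ g : G, orderOf g = a * b)) :
    (∃ C : Subgroup G, Cfsg.IsFrobeniusComplement C) ∨
    (∃ (H K : Subgroup G) (_ : H.Normal), K.Normal ∧ H < K ∧
      (∃ C : Subgroup ↥K, Cfsg.IsFrobeniusComplement C ∧ Cfsg.frobeniusKernel C = (H.subgroupOf K : Set ↥K)) ∧
      (∃ C : Subgroup (G ⧸ H), Cfsg.IsFrobeniusComplement C ∧ Cfsg.frobeniusKernel C = (K.map (QuotientGroup.mk' H) : Set (G ⧸ H)))) := by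
  obtain ⟨A, ⟨a, haA, hap, had⟩, ⟨b, hbA, hbp, hbd⟩, hno⟩ := hdisc
  haveI := hsol
  have hA : Cfsg.Agent.Helper1.NoMix A G := by
    intro a' ha' b' hb' hap' hbp' g hg
    have h1 : orderOf g ∣ Nat.card G := orderOf_dvd_natCard g
    rw [hg] at h1
    exact hno a' ha' b' hb' hap' hbp' ((dvd_mul_right a' b').trans h1)
      ((dvd_mul_left b' a').trans h1) ⟨g, hg⟩
  have hnt : Nontrivial G := by
    rw [← Finite.one_lt_card_iff_nontrivial]
    exact lt_of_lt_of_le hap.one_lt (Nat.le_of_dvd Nat.card_pos had)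
  obtain ⟨N₁, hN₁n, hN₁, hN₁π⟩ := Cfsg.Agent.Helper1.exists_normal_pi_or A G
  rcases hN₁π with h | h
  · exact Cfsg.Agent.Helper1.frobenius_or_two_frobenius_aux A hA N₁ hN₁n hN₁ h ⟨b, hbA, hbp, hbd⟩
  · exact Cfsg.Agent.Helper1.frobenius_or_two_frobenius_aux Aᶜ hA.compl N₁ hN₁n hN₁ h
      ⟨a, not_not.mpr haA, hap, had⟩

end Cfsg.Agent.S3857
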