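import Mathlib
import Cfsg.Statements.S3858
import Cfsg.Agent.Helper64.Basic

set_option autoImplicit false
open Cfsg

namespace Cfsg.Agent.S3858

open Cfsg.Agent.Helper64

/-- a Sylow subgroup meeting a normal non-abelian simple subgroup nontrivially is not normal -/
theorem normalizer_ne_top {G : Type*} [Group G] [Finite G] (T : Subgroup G) [T.Normal]
    (hT : IsSimpleGroup T) (hna : ¬ IsMulCommutative T) {r : ℕ} [Fact r.Prime] (R : Sylow r G)
    (hR0 : (R : Subgroup G) ⊓ T ≠ ⊥) :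
    Subgroup.normalizer ((R : Subgroup G) : Set G) ≠ ⊤ := by
  intro htop
  have hRn : (R : Subgroup G).Normal := Subgroup.normalizer_eq_top_iff.mp htop
  have hRT : ((R : Subgroup G) ⊓ T).Normal := inferInstance
  have hsub : (((R : Subgroup G) ⊓ T).subgroupOf T).Normal := hRT.subgroupOf T
  rcases hsub.eq_bot_or_eq_top with h | h
  · rw [Subgroup.subgroupOf_eq_bot] at h
    apply hR0
    have := h.eq_bot
    rw [inf_of_le_left inf_le_right] at this
    exact this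
  · rw [Subgroup.subgroupOf_eq_top] at h
    have hTR : T ≤ (R : Subgroup G) := h.trans inf_le_left
    have hp : IsPGroup r T := R.2.to_le hTR
    have hnil : Group.IsNilpotent T := hp.isNilpotent
    have hsol : Group.IsSolvable T := inferInstance
    exact hna (isMulCommutative_iff.mpr (IsSimpleGroup.comm_iff_isSolvable.mpr hsol))

theorem result {G : Type*} [Group G] [Finite G] (T : Subgroup G) [T.Normal] (hT : IsSimpleGroup T) (hna : ¬ IsMulCommutative T)
    (hC : Subgroup.centralizer (T : Set G) = ⊥) {r : ℕ} [Fact r.Prime] (R : Sylow r G) (hR0 : (R : Subgroup G) ⊓ T ≠ ⊥) :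
    (∃! M : Subgroup G, IsCoatom M ∧ (R : Subgroup G) ≤ M) ↔
      ((∃ M : Subgroup G, IsCoatom M ∧ ¬ r ∣ M.index) ∧
        ∀ M₁ M₂ : Subgroup G, IsCoatom M₁ → ¬ r ∣ M₁.index → IsCoatom M₂ → ¬ r ∣ M₂.index → ∃ g : G, M₂ = M₁.map (MulAut.conj g).toMonoidHom) := by
  have hidx : ∀ M : Subgroup G, (R : Subgroup G) ≤ M → ¬ r ∣ M.index := by
    intro M hM hdvd
    exact R.not_dvd_index (hdvd.trans (Subgroup.index_dvd_of_le hM))
  constructor
  · rintro ⟨M, ⟨hM, hRM⟩, huniq⟩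
    refine ⟨⟨M, hM, hidx M hRM⟩, ?_⟩
    intro M₁ M₂ hM₁ hr₁ hM₂ hr₂
    obtain ⟨g₁, hg₁⟩ := exists_conj_le_of_not_dvd_index R.2 M₁ hr₁
    obtain ⟨g₂, hg₂⟩ := exists_conj_le_of_not_dvd_index R.2 M₂ hr₂
    have e₁ := huniq _ ⟨isCoatom_map_conj g₁ hM₁, hg₁⟩
    have e₂ := huniq _ ⟨isCoatom_map_conj g₂ hM₂, hg₂⟩
    refine ⟨g₂⁻¹ * g₁, ?_⟩
    rw [← map_conj_map_conj, e₁, ← e₂, map_conj_map_conj, inv_mul_cancel, map_conj_one]
  · rintro ⟨⟨M₀, hM₀, hr₀⟩, hconj⟩
    -- a coatom above the normalizer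
    have hN := normalizer_ne_top T hT hna R hR0
    obtain ⟨M, hM, hNM⟩ := (eq_top_or_exists_le_coatom _).resolve_left hN
    have hRM : (R : Subgroup G) ≤ M := Subgroup.le_normalizer.trans hNM
    refine ⟨M, ⟨hM, hRM⟩, ?_⟩
    rintro M' ⟨hM', hRM'⟩
    obtain ⟨g, hg⟩ := hconj M M' hM (hidx M hRM) hM' (hidx M' hRM')
    rw [hg] at hRM'
    have hgM := mem_of_sylow_le_conj R hRM hNM hRM'
    rw [hg, map_conj_eq_self_of_mem hgM]

end Cfsg.Agent.S3858
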