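import Mathlib
import Cfsg.Statements.S3859
import Cfsg.Agent.Helper64.Basic
import Cfsg.Agent.Helper64.Index

set_option autoImplicit false
open Cfsg

namespace Cfsg.Agent.S3859

open Cfsg.Agent.Helper64

/-- the intersection of a Sylow subgroup with a normal non-abelian simple subgroup is not normal
when it is nontrivial -/
theorem inf_not_normal {G : Type*} [Group G] [Finite G] (T : Subgroup G) [T.Normal]
    (hT : IsSimpleGroup T) (hna : ¬ IsMulCommutative T) {r : ℕ} [Fact r.Prime] (R : Sylow r G)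
    (hR0 : (R : Subgroup G) ⊓ T ≠ ⊥) : ¬ ((R : Subgroup G) ⊓ T).Normal := by
  intro hRT
  have hsub : (((R : Subgroup G) ⊓ T).subgroupOf T).Normal := hRT.subgroupOf T
  rcases hsub.eq_bot_or_eq_top with h | h
  · rw [Subgroup.subgroupOf_eq_bot] at h
    apply hR0
    have := h.eq_bot
    rw [inf_of_le_left inf_le_right] at this
    exact this
  · rw [Subgroup.subgroupOf_eq_top] at h
    have hTR : T ≤ (R : Subgroup G) := h.trans inf_le_left
    have hp : IsPGroup r T := R.2.to_le hTR
    have hnil : Group.IsNilpotent T := hp.isNilpotent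
    have hsol : Group.IsSolvable T := inferInstance
    exact hna (isMulCommutative_iff.mpr (IsSimpleGroup.comm_iff_isSolvable.mpr hsol))

theorem result {G : Type*} [Group G] [Finite G] (T : Subgroup G) [T.Normal] (hT : IsSimpleGroup T) (hna : ¬ IsMulCommutative T)
    (hC : Subgroup.centralizer (T : Set G) = ⊥) {r : ℕ} [Fact r.Prime] (R : Sylow r G) (hR0 : (R : Subgroup G) ⊓ T ≠ ⊥)
    (huniq : ∃! M : Subgroup G, IsCoatom M ∧ (R : Subgroup G) ≤ M) : IsPGroup r (G ⧸ T) := by
  obtain ⟨M, ⟨hM, hRM⟩, huniq⟩ := huniq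
  -- the normalizer of R ⊓ T lies in M
  have hN : Subgroup.normalizer (((R : Subgroup G) ⊓ T : Subgroup G) : Set G) ≠ ⊤ := by
    intro h
    exact inf_not_normal T hT hna R hR0 (Subgroup.normalizer_eq_top_iff.mp h)
  obtain ⟨M', hM', hNM'⟩ := (eq_top_or_exists_le_coatom _).resolve_left hN
  have hM'M : M' = M := huniq M' ⟨hM', (le_normalizer_inf_normal R T).trans hNM'⟩
  subst hM'M
  have hFr := normalizer_inf_sup_eq_top R T
  -- R ⊔ T = ⊤
  have hRT : (R : Subgroup G) ⊔ T = ⊤ := by
    by_contra hne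
    obtain ⟨M'', hM'', hle⟩ := (eq_top_or_exists_le_coatom _).resolve_left hne
    have hM''M : M'' = M' := huniq M'' ⟨hM'', le_sup_left.trans hle⟩
    subst hM''M
    have : (⊤ : Subgroup G) ≤ M'' := by
      rw [← hFr]
      exact sup_le hNM' (le_sup_right.trans hle)
    exact hM''.1 (top_le_iff.mp this)
  -- the order of G ⧸ T divides the order of R
  have h1 : T.index = T.relIndex (R : Subgroup G) := by
    rw [← Subgroup.relIndex_top_right, ← hRT, Subgroup.relIndex_sup_right]
  have h2 : Nat.card (G ⧸ T) ∣ Nat.card (R : Subgroup G) := by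
    rw [← Subgroup.index_eq_card, h1]
    exact Subgroup.relIndex_dvd_card _ _
  obtain ⟨k, hk⟩ := R.2.exists_card_eq
  rw [hk] at h2
  obtain ⟨m, -, hm⟩ := (Nat.dvd_prime_pow (Fact.out : r.Prime)).mp h2
  exact IsPGroup.of_card hm

end Cfsg.Agent.S3859
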