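import Mathlib
import Cfsg.Statements.S3861
import Cfsg.Agent.Helper64.SylowInter
import Cfsg.Agent.Helper64.Real

set_option autoImplicit false
open Cfsg

namespace Cfsg.Agent.S3861

open Cfsg.Agent.Helper64

/-- the easy direction: with a normal Sylow 2-subgroup there is no nontrivial real element of
odd order -/
theorem no_real_of_normal {G : Type*} [Group G] [Finite G] (P : Sylow 2 G)
    (hP : (P : Subgroup G).Normal) (x : G) (hx1 : x ≠ 1) (hodd : Odd (orderOf x))
    (hreal : IsConj x x⁻¹) : False := by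
  obtain ⟨t, ⟨j, hj⟩, ht⟩ := exists_two_elt_inverting x hreal
  -- t ∈ P
  have htP : t ∈ (P : Subgroup G) := by
    have h1 : IsPGroup 2 (Subgroup.zpowers t) :=
      IsPGroup.of_card (n := j) (by rw [Nat.card_zpowers, hj])
    obtain ⟨Q, hQ⟩ := h1.exists_le_sylow
    obtain ⟨g, hg⟩ := MulAction.exists_smul_eq G P Q
    rw [Sylow.smul_eq_of_normal] at hg
    rw [hg]
    exact hQ (Subgroup.mem_zpowers t)
  -- x⁻² ∈ P
  have h2 : x⁻¹ * x⁻¹ ∈ (P : Subgroup G) := by
    have h3 : t * (x * t⁻¹ * x⁻¹) ∈ (P : Subgroup G) :=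
      (P : Subgroup G).mul_mem htP (hP.conj_mem _ ((P : Subgroup G).inv_mem htP) x)
    have e : t * (x * t⁻¹ * x⁻¹) = (t * x * t⁻¹) * x⁻¹ := by group
    rw [e, ht] at h3
    exact h3
  obtain ⟨k, hk⟩ := P.2 ⟨x⁻¹ * x⁻¹, h2⟩
  have hk' : (x⁻¹ * x⁻¹) ^ 2 ^ k = 1 := by
    have := congrArg Subtype.val hk
    simpa using this
  have e2 : x⁻¹ * x⁻¹ = x⁻¹ ^ 2 := (pow_two _).symm
  rw [e2, ← pow_mul] at hk'
  have hdvd : orderOf x ∣ 2 * 2 ^ k := by
    rw [← orderOf_inv]
    exact orderOf_dvd_of_pow_eq_one hk'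
  have hcop : Nat.Coprime (orderOf x) (2 * 2 ^ k) := by
    rw [← pow_succ']
    exact Nat.Coprime.pow_right _ (Nat.coprime_two_right.mpr hodd)
  have : orderOf x = 1 := hcop.eq_one_of_dvd hdvd
  exact hx1 (orderOf_eq_one_iff.mp this)

theorem result {G : Type*} [Group G] [Finite G] (P : Sylow 2 G) : (∀ x : G, x ≠ 1 → Odd (orderOf x) → ¬ IsConj x x⁻¹) ↔ (P : Subgroup G).Normal := by
  constructor
  · intro hyp
    by_contra hPn
    -- two distinct Sylow subgroups
    have hex : ∃ P' Q' : Sylow 2 G, P' ≠ Q' := by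
      by_contra hcon
      push Not at hcon
      apply hPn
      rw [← Subgroup.normalizer_eq_top_iff, eq_top_iff]
      intro g _
      exact (Sylow.smul_eq_iff_mem_normalizer (P := P)).mp (hcon _ _)
    obtain ⟨P₁, Q₁, hPQ, hmax⟩ := exists_max_inter hex
    set D : Subgroup G := (P₁ : Subgroup G) ⊓ Q₁ with hD
    obtain ⟨x, hxP, hxN, hxD⟩ := exists_mem_normalizer_not_mem P₁ (D := D) inf_le_left
      (sylow_inf_ne_left hPQ)
    obtain ⟨y, hyQ, hyN, hyD⟩ := exists_mem_normalizer_not_mem Q₁ (D := D) inf_le_right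
      (sylow_inf_ne_right hPQ)
    have hx2 : ∃ k : ℕ, x ^ 2 ^ k = 1 := by
      obtain ⟨k, hk⟩ := P₁.2 ⟨x, hxP⟩
      exact ⟨k, by simpa using congrArg Subtype.val hk⟩
    have hy2 : ∃ k : ℕ, y ^ 2 ^ k = 1 := by
      obtain ⟨k, hk⟩ := Q₁.2 ⟨y, hyQ⟩
      exact ⟨k, by simpa using congrArg Subtype.val hk⟩
    obtain ⟨ja, haD, ha2⟩ := exists_pow_prime_mem (p := 2) hxD hx2
    obtain ⟨jb, hbD, hb2⟩ := exists_pow_prime_mem (p := 2) hyD hy2
    set a := x ^ 2 ^ ja with ha
    set b := y ^ 2 ^ jb with hb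
    have haP : a ∈ (P₁ : Subgroup G) := (P₁ : Subgroup G).pow_mem hxP _
    have hbQ : b ∈ (Q₁ : Subgroup G) := (Q₁ : Subgroup G).pow_mem hyQ _
    set N : Subgroup G := Subgroup.normalizer (D : Set G) with hN
    have haN : a ∈ N := N.pow_mem hxN _
    have hbN : b ∈ N := N.pow_mem hyN _
    -- work in N with the normal 2-subgroup D' = D ∩ N
    set D' : Subgroup N := D.subgroupOf N with hD'
    have hD'n : D'.Normal := Subgroup.normal_in_normalizer
    have hD'p : IsPGroup 2 D' :=
      (P₁.2.to_le inf_le_left : IsPGroup 2 D).comap_of_injective _ (Subgroup.subtype_injective _)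
    let a' : N := ⟨a, haN⟩
    let b' : N := ⟨b, hbN⟩
    let π := QuotientGroup.mk' D'
    have ha'2 : π a' * π a' = 1 := by
      rw [← map_mul]
      apply (QuotientGroup.eq_one_iff _).mpr
      rw [hD', Subgroup.mem_subgroupOf]
      simpa [pow_two] using ha2
    have hb'2 : π b' * π b' = 1 := by
      rw [← map_mul]
      apply (QuotientGroup.eq_one_iff _).mpr
      rw [hD', Subgroup.mem_subgroupOf]
      simpa [pow_two] using hb2
    have ha'inv : (π a')⁻¹ = π a' := inv_eq_of_mul_eq_one_left ha'2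
    have hb'inv : (π b')⁻¹ = π b' := inv_eq_of_mul_eq_one_left hb'2
    set c := a' * b' with hc
    have hcinv : π a' * π c * (π a')⁻¹ = (π c)⁻¹ := by
      rw [hc, map_mul, mul_inv_rev, ha'inv, hb'inv]
      calc π a' * (π a' * π b') * π a' = (π a' * π a') * π b' * π a' := by group
        _ = π b' * π a' := by rw [ha'2, one_mul]
    -- the odd part of c is trivial modulo D'
    obtain ⟨k, m, hm, hkm⟩ := Nat.exists_eq_two_pow_mul_odd (orderOf_pos (π c)).ne'
    have hck : π c ^ 2 ^ k = 1 := by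
      by_contra hne
      have hodd' : Odd (orderOf (π (c ^ 2 ^ k))) := by
        rw [map_pow, orderOf_pow' _ (pow_ne_zero _ two_ne_zero), hkm,
          Nat.gcd_eq_right (Dvd.intro _ rfl), Nat.mul_div_cancel_left _ (pow_pos two_pos _)]
        exact hm
      have hinv' : π (a' * c ^ 2 ^ k * a'⁻¹) = π ((c ^ 2 ^ k)⁻¹) := by
        rw [map_mul, map_mul, map_inv, map_inv, map_pow, ← conj_pow, hcinv, inv_pow]
      obtain ⟨u, hu1, huodd, hureal⟩ := exists_real_odd_of_quotient D' hD'p a' (c ^ 2 ^ k)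
        hinv' hodd' (by change π (c ^ 2 ^ k) ≠ 1; rw [map_pow]; exact hne)
      -- transfer to G
      apply hyp (u : G)
      · intro h
        exact hu1 (Subtype.ext h)
      · rwa [Subgroup.orderOf_coe]
      · obtain ⟨w, hw⟩ := isConj_iff.mp hureal
        exact isConj_iff.mpr ⟨w, by simpa using congrArg Subtype.val hw⟩
    -- the 2-group generated by a, b and D
    have hA : IsPGroup 2 (Subgroup.zpowers (π a')) := by
      have hdvd : orderOf (π a') ∣ 2 ^ 1 :=
        orderOf_dvd_of_pow_eq_one (by rw [pow_one, pow_two]; exact ha'2)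
      obtain ⟨l, -, hl⟩ := (Nat.dvd_prime_pow Nat.prime_two).mp hdvd
      exact IsPGroup.of_card (n := l) (by rw [Nat.card_zpowers, hl])
    have hC : IsPGroup 2 (Subgroup.zpowers (π c)) := by
      have hdvd : orderOf (π c) ∣ 2 ^ k := orderOf_dvd_of_pow_eq_one hck
      obtain ⟨l, -, hl⟩ := (Nat.dvd_prime_pow Nat.prime_two).mp hdvd
      exact IsPGroup.of_card (n := l) (by rw [Nat.card_zpowers, hl])
    have hAC : Subgroup.zpowers (π a') ≤ Subgroup.normalizer (Subgroup.zpowers (π c) : Set _) := by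
      rw [Subgroup.zpowers_le, Subgroup.mem_normalizer_iff]
      intro h
      constructor
      · intro hh
        obtain ⟨i, rfl⟩ := Subgroup.mem_zpowers_iff.mp hh
        rw [← conj_zpow, hcinv]
        exact Subgroup.zpow_mem _ (Subgroup.inv_mem _ (Subgroup.mem_zpowers _)) i
      · intro hh
        obtain ⟨i, hi⟩ := Subgroup.mem_zpowers_iff.mp hh
        have e : h = (π a')⁻¹ * (π a' * h * (π a')⁻¹) * π a' := by group
        rw [e, ← hi]
        have e2 : (π a')⁻¹ * π c ^ i * π a' = (π a' * π c * (π a')⁻¹) ^ i := by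
          rw [conj_zpow]
          nth_rewrite 1 [ha'inv]
          nth_rewrite 2 [← ha'inv]
          rfl
        rw [e2, hcinv]
        exact Subgroup.zpow_mem _ (Subgroup.inv_mem _ (Subgroup.mem_zpowers _)) i
    have hAC2 := hA.to_sup_of_normal_right' hC hAC
    have hker : IsPGroup 2 π.ker := by
      rw [QuotientGroup.ker_mk']; exact hD'p
    have hS1 := hAC2.comap_of_ker_isPGroup π hker
    set S : Subgroup G := ((Subgroup.zpowers (π a') ⊔ Subgroup.zpowers (π c)).comap π).map N.subtype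
      with hS
    have hSp : IsPGroup 2 S := hS1.map _
    have hDS : D ≤ S := by
      intro d hd
      refine ⟨⟨d, Subgroup.le_normalizer hd⟩, ?_, rfl⟩
      rw [SetLike.mem_coe, Subgroup.mem_comap]
      have : π ⟨d, Subgroup.le_normalizer hd⟩ = 1 := by
        apply (QuotientGroup.eq_one_iff _).mpr
        rw [hD', Subgroup.mem_subgroupOf]
        exact hd
      rw [this]
      exact Subgroup.one_mem _
    have haS : a ∈ S :=
      ⟨a', Subgroup.mem_comap.mpr (Subgroup.mem_sup_left (Subgroup.mem_zpowers _)), rfl⟩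
    have hbS : b ∈ S := by
      refine ⟨b', Subgroup.mem_comap.mpr ?_, rfl⟩
      have e : π b' = (π a')⁻¹ * π c := by
        rw [hc, map_mul]; group
      rw [e]
      exact Subgroup.mul_mem_sup (Subgroup.inv_mem _ (Subgroup.mem_zpowers _))
        (Subgroup.mem_zpowers _)
    exact not_both_of_max_inter hPQ hmax hSp hDS haS haP (fun h => haD ⟨haP, h⟩)
      hbS hbQ (fun h => hbD ⟨h, hbQ⟩)
  · intro hP x hx1 hodd hreal
    exact no_real_of_normal P hP x hx1 hodd hreal

end Cfsg.Agent.S3861
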