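import Cfsg.Statements.S3862
import Cfsg.Agent.Helper64.RealAut
import Cfsg.Agent.Helper70.FrobComp2

set_option autoImplicit false
open Cfsg

namespace Cfsg.Agent.S3862
open Cfsg.Agent.Helper64

/-- If every 2-element of the finite group G that is conjugate to its inverse lies in the centre of G, then G has a normal 2-complement. -/
theorem result {G : Type*} [Group G] [Finite G] (h : ∀ x : G, (∃ j : ℕ, orderOf x = 2 ^ j) → IsConj x x⁻¹ → x ∈ Subgroup.center G) : Cfsg.HasNormalPComplement 2 G := by
  haveI : Fact (Nat.Prime 2) := ⟨Nat.prime_two⟩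
  rw [Cfsg.Agent.Helper70.hasNormalPComplement_iff_frobCond]
  intro Q hQ g hg hcop
  rw [Subgroup.mem_centralizer_iff]
  intro q hq
  have hm : Odd (orderOf g) := Nat.coprime_two_right.mp hcop
  have hmain := commute_of_real_central g (orderOf g) hm (pow_orderOf_eq_one g) (Nat.card Q) Q rfl hQ
    ?_ ?_ q hq
  · exact hmain.eq.symm
  · intro h' hh'
    exact (Subgroup.mem_normalizer_iff.mp hg h').mp hh'
  · rintro x hx ⟨t, ht, htx⟩
    have hxc : x ∈ Subgroup.center G := by
      apply h x
      · obtain ⟨j, hj⟩ := hQ ⟨x, hx⟩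
        have hj' : x ^ (2 ^ j) = 1 := by
          have := congrArg Subtype.val hj; simpa using this
        obtain ⟨i, _, hi⟩ := (Nat.dvd_prime_pow Nat.prime_two).mp (orderOf_dvd_of_pow_eq_one hj')
        exact ⟨i, hi⟩
      · exact isConj_iff.mpr ⟨t, htx⟩
    rw [Subgroup.mem_center_iff] at hxc
    exact ⟨(hxc g), fun y _ => (hxc y)⟩

end Cfsg.Agent.S3862
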