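import Mathlib
import Cfsg.Statements.S3863

set_option autoImplicit false
open Cfsg

namespace Cfsg.Agent.S3863

/-- conjugating by powers of an inverting element -/
theorem conj_pow_of_inverts {G : Type*} [Group G] (g x : G) (h : g * x * g⁻¹ = x⁻¹) (j : ℕ) :
    g ^ j * x * (g ^ j)⁻¹ = if Even j then x else x⁻¹ := by
  induction j with
  | zero => simp
  | succ j ih =>
    have e : g ^ (j + 1) * x * (g ^ (j + 1))⁻¹ = g * (g ^ j * x * (g ^ j)⁻¹) * g⁻¹ := by
      rw [pow_succ']; group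
    rw [e, ih]
    by_cases hj : Even j
    · have : ¬ Even (j + 1) := by
        rw [Nat.even_add_one]; exact not_not.mpr hj
      rw [if_pos hj, if_neg this, h]
    · have : Even (j + 1) := by
        rw [Nat.even_add_one]; exact hj
      rw [if_neg hj, if_pos this]
      have : g * x⁻¹ * g⁻¹ = (g * x * g⁻¹)⁻¹ := by group
      rw [this, h, inv_inv]

/-- a 2-element inverting x -/
theorem exists_two_elt {G : Type*} [Group G] [Finite G] (x : G) (hx : IsConj x x⁻¹) :
    ∃ t : G, (∃ j : ℕ, orderOf t = 2 ^ j) ∧ t * x * t⁻¹ = x⁻¹ := by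
  obtain ⟨g, hg⟩ := isConj_iff.mp hx
  have hn : orderOf g ≠ 0 := (orderOf_pos g).ne'
  obtain ⟨k, m, hm, hkm⟩ := Nat.exists_eq_two_pow_mul_odd hn
  refine ⟨g ^ m, ⟨k, ?_⟩, ?_⟩
  · have hm0 : m ≠ 0 := by
      rintro rfl
      simp at hm
    rw [orderOf_pow' g hm0, hkm, Nat.gcd_eq_right (Dvd.intro_left _ rfl)]
    exact Nat.mul_div_cancel _ (Nat.pos_of_ne_zero hm0)
  · rw [conj_pow_of_inverts g x hg m, if_neg (Nat.not_even_iff_odd.mpr hm)]

/-- the extended centralizer -/
def extCent {G : Type*} [Group G] (x : G) : Subgroup G where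
  carrier := {g | g * x * g⁻¹ = x ∨ g * x * g⁻¹ = x⁻¹}
  one_mem' := by simp
  mul_mem' := by
    intro a b ha hb
    have e : a * b * x * (a * b)⁻¹ = a * (b * x * b⁻¹) * a⁻¹ := by group
    have e' : ∀ c : G, c * x⁻¹ * c⁻¹ = (c * x * c⁻¹)⁻¹ := fun c => by group
    simp only [Set.mem_setOf_eq] at ha hb ⊢
    rw [e]
    rcases hb with hb | hb <;> rcases ha with ha | ha
    · left; rw [hb, ha]
    · right; rw [hb, ha]
    · right; rw [hb, e', ha]
    · left; rw [hb, e', ha, inv_inv]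
  inv_mem' := by
    intro a ha
    simp only [Set.mem_setOf_eq] at ha ⊢
    rcases ha with ha | ha
    · left
      calc a⁻¹ * x * a⁻¹⁻¹ = a⁻¹ * (a * x * a⁻¹) * a⁻¹⁻¹ := by rw [ha]
        _ = x := by group
    · right
      calc a⁻¹ * x * a⁻¹⁻¹ = a⁻¹ * (x⁻¹)⁻¹ * a⁻¹⁻¹ := by rw [inv_inv x]
        _ = a⁻¹ * (a * x * a⁻¹)⁻¹ * a⁻¹⁻¹ := by rw [ha]
        _ = x⁻¹ := by group

theorem cent_le_extCent {G : Type*} [Group G] (x : G) :
    Subgroup.centralizer ({x} : Set G) ≤ extCent x := by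
  intro g hg
  rw [Subgroup.mem_centralizer_iff] at hg
  have := hg x (Set.mem_singleton x)
  left
  rw [← this]; group

theorem mem_cent_iff {G : Type*} [Group G] (x g : G) :
    g ∈ Subgroup.centralizer ({x} : Set G) ↔ g * x * g⁻¹ = x := by
  rw [Subgroup.mem_centralizer_iff]
  constructor
  · intro h
    rw [← h x (Set.mem_singleton x)]; group
  · intro h y hy
    rw [Set.mem_singleton_iff] at hy
    subst hy
    nth_rewrite 1 [← h]
    group

/-- A real element in a class of odd size is an involution or trivial. -/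
theorem sq_eq_one_of_odd {G : Type*} [Group G] [Finite G] (x : G) (hx : IsConj x x⁻¹)
    (hodd : Odd (Subgroup.centralizer ({x} : Set G)).index) : x ^ 2 = 1 := by
  by_contra hne
  have hxx : x ≠ x⁻¹ := by
    intro h
    apply hne
    rw [pow_two]
    nth_rewrite 2 [h]
    exact mul_inv_cancel x
  obtain ⟨t, ht⟩ := isConj_iff.mp hx
  have htK : t ∈ extCent x := Or.inr ht
  have h2 : (Subgroup.centralizer ({x} : Set G)).relIndex (extCent x) = 2 := by
    rw [Subgroup.relIndex, Subgroup.index_eq_two_iff]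
    refine ⟨⟨t, htK⟩, ?_⟩
    rintro ⟨b, hb⟩
    simp only [Subgroup.mem_subgroupOf, Subgroup.coe_mul, mem_cent_iff]
    have e : b * t * x * (b * t)⁻¹ = b * (t * x * t⁻¹) * b⁻¹ := by group
    have e' : ∀ c : G, c * x⁻¹ * c⁻¹ = (c * x * c⁻¹)⁻¹ := fun c => by group
    rw [e, ht, e']
    rcases hb with hb | hb
    · right
      refine ⟨hb, ?_⟩
      rw [hb]; exact fun h => hxx h.symm
    · left
      refine ⟨?_, ?_⟩
      · rw [hb, inv_inv]
      · rw [hb]; exact fun h => hxx h.symm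
  have := Subgroup.relIndex_mul_index (cent_le_extCent x)
  rw [h2] at this
  rw [← this] at hodd
  exact (Nat.not_even_iff_odd.mpr hodd) (even_two_mul _)

/-- Let x be an element of the finite group G that is conjugate to its inverse. Then some 2-element conjugates x to its inverse; if the conjugacy class of x has odd size then x ^ 2 = 1; and x lies in, and is conjugate to its inverse inside, every normal subgroup of odd index. -/
theorem result {G : Type*} [Group G] [Finite G] (x : G) (hx : IsConj x x⁻¹) : (∃ t : G, (∃ j : ℕ, orderOf t = 2 ^ j) ∧ t * x * t⁻¹ = x⁻¹) ∧ (Odd (Subgroup.centralizer ({x} : Set G)).index → x ^ 2 = 1) ∧ ∀ (N : Subgroup G) [N.Normal], Odd N.index → ∃ hxN : x ∈ N, IsConj (⟨x, hxN⟩ : N) (⟨x, hxN⟩ : N)⁻¹ := by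
  refine ⟨exists_two_elt x hx, sq_eq_one_of_odd x hx, ?_⟩
  intro N _ hN
  obtain ⟨t, ⟨j, hj⟩, ht⟩ := exists_two_elt x hx
  -- t ∈ N
  have htN : t ∈ N := by
    rw [← QuotientGroup.eq_one_iff, ← orderOf_eq_one_iff]
    have h1 : orderOf (t : G ⧸ N) ∣ 2 ^ j := by
      rw [← hj]
      exact orderOf_map_dvd (QuotientGroup.mk' N) t
    have h2 : orderOf (t : G ⧸ N) ∣ N.index := by
      rw [Subgroup.index]
      exact orderOf_dvd_natCard _
    have hcop : Nat.Coprime (2 ^ j) N.index :=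
      Nat.Coprime.pow_left j (Nat.coprime_two_left.mpr hN)
    exact Nat.eq_one_of_dvd_coprimes hcop h1 h2
  have hxN : x ∈ N := by
    rw [← QuotientGroup.eq_one_iff, ← orderOf_eq_one_iff]
    have ht1 : (t : G ⧸ N) = 1 := (QuotientGroup.eq_one_iff t).mpr htN
    have hq : ((t * x * t⁻¹ : G) : G ⧸ N) = ((x⁻¹ : G) : G ⧸ N) := by rw [ht]
    simp only [QuotientGroup.mk_mul, QuotientGroup.mk_inv, ht1, one_mul, inv_one, mul_one] at hq
    have h1 : orderOf (x : G ⧸ N) ∣ 2 := by
      apply orderOf_dvd_of_pow_eq_one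
      rw [pow_two]
      nth_rewrite 2 [hq]
      exact mul_inv_cancel _
    have h2 : orderOf (x : G ⧸ N) ∣ N.index := by
      rw [Subgroup.index]
      exact orderOf_dvd_natCard _
    exact Nat.eq_one_of_dvd_coprimes (Nat.coprime_two_left.mpr hN) h1 h2
  refine ⟨hxN, isConj_iff.mpr ⟨⟨t, htN⟩, ?_⟩⟩
  apply Subtype.ext
  simp [ht]

end Cfsg.Agent.S3863
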