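import Mathlib
import Cfsg.Statements.S3864
import Cfsg.Agent.Helper55.DihedralSylow

set_option autoImplicit false
open Cfsg

namespace Cfsg.Agent.S3864

open Cfsg.Agent.Helper55

lemma zmod2_cases : ∀ x : ZMod 2, x = 0 ∨ x = 1 := by decide

lemma zmod2_zero_ne_one : (0 : ZMod 2) ≠ 1 := by decide

lemma zmod2_neg_zero_ne_one : -(0 : ZMod 2) ≠ 1 := by decide

/-- The trichotomy for a dihedral Sylow `2`-subgroup `P ≃* DihedralGroup (4 * q)`. -/
theorem main {G : Type*} [Group G] [Finite G] (P : Sylow 2 G) (q : ℕ) (hq : 0 < q)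
    (e : ↥(P : Subgroup G) ≃* DihedralGroup (4 * q)) :
    (Nat.card {C : ConjClasses G // ∃ g : G, ConjClasses.mk g = C ∧ orderOf g = 2} = 1 ∧
        ∀ N : Subgroup G, N.Normal → N.index ≠ 2) ∨
      (Nat.card {C : ConjClasses G // ∃ g : G, ConjClasses.mk g = C ∧ orderOf g = 2} = 2 ∧
        (∃ N : Subgroup G, N.Normal ∧ N.index = 2) ∧ ∀ N : Subgroup G, N.Normal → N.index ≠ 4) ∨
      (Nat.card {C : ConjClasses G // ∃ g : G, ConjClasses.mk g = C ∧ orderOf g = 2} = 3 ∧
        Cfsg.HasNormalPComplement 2 G) := by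
  have hfact : Fact (Nat.Prime 2) := ⟨Nat.prime_two⟩
  have h2 : 2 ∣ 4 * q := ⟨2 * q, by ring⟩
  set z : G := dRot e ((2 * q : ℕ) : ZMod (4 * q)) with hz
  set s0 : G := dRef e 0 with hs0
  set s1 : G := dRef e 1 with hs1
  have hzz : z * z = 1 := by
    rw [hz, dRot_mul_dRot]
    have : ((2 * q : ℕ) : ZMod (4 * q)) + ((2 * q : ℕ) : ZMod (4 * q)) = 0 := by
      rw [← Nat.cast_add, ZMod.natCast_eq_zero_iff]
      exact ⟨1, by ring⟩
    rw [this, dRot_zero]
  have hz1 : z ≠ 1 := by
    intro h
    rw [hz, ← dRot_zero e] at h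
    have h3 := dRot_injective e h
    rw [ZMod.natCast_eq_zero_iff] at h3
    have := Nat.le_of_dvd (by omega) h3
    omega
  have hz2 : orderOf z = 2 := orderOf_eq_prime (by rw [pow_two]; exact hzz) hz1
  have hzrot : ∀ j, orderOf (dRot e j) = 2 → dRot e j = z := fun j hj =>
    dRot_unique_of_orderOf e hj hz2
  have hzsq : z = dRot e (q : ZMod (4 * q)) * dRot e (q : ZMod (4 * q)) := by
    rw [hz, dRot_mul_dRot]
    congr 1
    push_cast
    ring
  have hzpow : z ∈ Subgroup.zpowers (dRot e (2 : ZMod (4 * q))) := by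
    have := dRot_mul_mem_zpowers e (2 : ZMod (4 * q)) (q : ZMod (4 * q))
    have e1 : ((2 * q : ℕ) : ZMod (4 * q)) = 2 * (q : ZMod (4 * q)) := by push_cast; ring
    rw [hz, e1]
    exact this
  have ho0 : orderOf s0 = 2 := orderOf_dRef e 0
  have ho1 : orderOf s1 = 2 := orderOf_dRef e 1
  have hconj_ord : ∀ (g w : G), orderOf (g * w * g⁻¹) = orderOf w := fun g w =>
    MulEquiv.orderOf_eq (MulAut.conj g) w
  -- reflections are conjugate to `s0` or `s1`
  have hev : ∀ c : ZMod (4 * q), IsConj (dRef e (2 * c)) s0 := fun c =>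
    isConj_iff.2 ⟨dRot e c, by rw [dRot_conj_dRef, sub_self]⟩
  have hod : ∀ c : ZMod (4 * q), IsConj (dRef e (2 * c + 1)) s1 := fun c =>
    isConj_iff.2 ⟨dRot e c, by rw [dRot_conj_dRef, add_sub_cancel_left]⟩
  -- every involution is conjugate to `z`, `s0` or `s1`
  have hcls : ∀ w : G, orderOf w = 2 → IsConj w z ∨ IsConj w s0 ∨ IsConj w s1 := by
    intro w hw
    rcases exists_conj_three P e h2 w hw with ⟨g, j, hj⟩ | ⟨g, hg⟩ | ⟨g, hg⟩
    · left
      have : dRot e j = z := hzrot j (by rw [← hj, hconj_ord, hw])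
      exact isConj_iff.2 ⟨g, by rw [hj, this]⟩
    · right; left
      exact isConj_iff.2 ⟨g, hg⟩
    · right; right
      exact isConj_iff.2 ⟨g, hg⟩
  -- the set of classes of involutions
  have hS : {C : ConjClasses G | ∃ g : G, ConjClasses.mk g = C ∧ orderOf g = 2} =
      {ConjClasses.mk z, ConjClasses.mk s0, ConjClasses.mk s1} := by
    ext C
    constructor
    · rintro ⟨g, rfl, hg⟩
      rcases hcls g hg with h | h | h
      · left; exact ConjClasses.mk_eq_mk_iff_isConj.2 h
      · right; left; exact ConjClasses.mk_eq_mk_iff_isConj.2 h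
      · right; right; exact ConjClasses.mk_eq_mk_iff_isConj.2 h
    · rintro (h | h | h)
      · exact ⟨z, h.symm, hz2⟩
      · exact ⟨s0, h.symm, ho0⟩
      · exact ⟨s1, h.symm, ho1⟩
  have hcard : Nat.card {C : ConjClasses G // ∃ g : G, ConjClasses.mk g = C ∧ orderOf g = 2} =
      ({ConjClasses.mk z, ConjClasses.mk s0, ConjClasses.mk s1} : Set (ConjClasses G)).ncard := by
    rw [← hS]
    exact Nat.card_coe_set_eq _
  rw [hcard]
  -- a `G`-conjugate of a reflection which is a rotation forces fusion with `z`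
  have hrot : ∀ (i : ZMod (4 * q)) (g : G) (j : ZMod (4 * q)),
      g * dRef e i * g⁻¹ = dRot e j → IsConj z (dRef e i) := by
    intro i g j h
    have : dRot e j = z := hzrot j (by rw [← h, hconj_ord, orderOf_dRef])
    rw [this] at h
    exact (isConj_iff.2 ⟨g, h⟩).symm
  have hz01 : ∀ x : ZMod 2, x = 0 ∨ x = 1 := zmod2_cases
  -- the commutator computation
  have hcomm : dRot e 1 * s0 * (dRot e 1)⁻¹ * s0⁻¹ = dRot e (2 : ZMod (4 * q)) := by
    rw [hs0, dRot_conj_dRef, dRef_inv, dRef_mul_dRef]
    congr 1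
    ring
  -- no normal subgroup of index four containing a reflection conjugate to `z`
  have hno4 : ∀ (i0 : ZMod (4 * q)), IsConj z (dRef e i0) →
      ∀ N : Subgroup G, N.Normal → N.index ≠ 4 := by
    intro i0 hi0 N hN h4
    have hcardQ : Nat.card (G ⧸ N) = 2 ^ 2 := by rw [← Subgroup.index_eq_card, h4]; norm_num
    have hab := (IsPGroup.isMulCommutative_of_card_eq_prime_sq hcardQ).is_comm.comm
    have ha2 : dRot e (2 : ZMod (4 * q)) ∈ N := by
      rw [← hcomm, ← QuotientGroup.eq_one_iff]
      have e1 : (QuotientGroup.mk' N) (dRot e 1 * s0 * (dRot e 1)⁻¹ * s0⁻¹) =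
          (QuotientGroup.mk' N) (dRot e 1) * (QuotientGroup.mk' N) s0 *
            ((QuotientGroup.mk' N) (dRot e 1))⁻¹ * ((QuotientGroup.mk' N) s0)⁻¹ := by
        simp only [map_mul, map_inv]
      show (QuotientGroup.mk' N) (dRot e 1 * s0 * (dRot e 1)⁻¹ * s0⁻¹) = 1
      rw [e1, hab ((QuotientGroup.mk' N) (dRot e 1)) ((QuotientGroup.mk' N) s0)]
      group
    have hzN : z ∈ N := (Subgroup.zpowers_le.2 ha2) hzpow
    have hsN : dRef e i0 ∈ N := by
      obtain ⟨c, hc⟩ := isConj_iff.1 hi0
      rw [← hc]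
      exact hN.conj_mem _ hzN c
    have := index_le_two_of_dRef_mem_of_dRot_two_mem P e h2 N 2 (by rw [h4]; norm_num) i0 hsN ha2
    omega
  by_cases h0 : IsConj z s0
  · by_cases h1 : IsConj z s1
    · -- one class
      left
      refine ⟨?_, ?_⟩
      · rw [← ConjClasses.mk_eq_mk_iff_isConj.2 h0, ← ConjClasses.mk_eq_mk_iff_isConj.2 h1]
        simp
      · intro N hN hidx
        have hzN : z ∈ N := by
          rw [hzsq]; exact Subgroup.mul_self_mem_of_index_two hidx _
        have hs0N : s0 ∈ N := by
          obtain ⟨c, hc⟩ := isConj_iff.1 h0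
          rw [← hc]; exact hN.conj_mem _ hzN c
        have hs1N : s1 ∈ N := by
          obtain ⟨c, hc⟩ := isConj_iff.1 h1
          rw [← hc]; exact hN.conj_mem _ hzN c
        have haN : dRot e 1 ∈ N := by
          have : dRot e (1 : ZMod (4 * q)) = s0 * s1 := by
            rw [hs0, hs1, dRef_mul_dRef, sub_zero]
          rw [this]; exact N.mul_mem hs0N hs1N
        have := eq_top_of_dRef_mem_of_dRot_one_mem P e N 1 (by rw [hidx]; norm_num) 0 hs0N haN
        rw [this, Subgroup.index_top] at hidx
        omega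
    · -- two classes: `z ~ s0`, `s1` apart
      right; left
      have hne : ConjClasses.mk z ≠ ConjClasses.mk s1 := fun h =>
        h1 (ConjClasses.mk_eq_mk_iff_isConj.1 h)
      refine ⟨?_, ?_, hno4 0 h0⟩
      · rw [← ConjClasses.mk_eq_mk_iff_isConj.2 h0, Set.insert_eq_of_mem (Set.mem_insert _ _)]
        exact Set.ncard_pair hne
      · have ht := transfer_dihedralPar_ne_one P e h2 0 1
          (fun g j h => h1 (hrot 1 g j h))
          (fun g k hk => by
            rcases hz01 (ZMod.castHom h2 (ZMod 2) k) with hk0 | hk1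
            · exfalso
              obtain ⟨c, rfl⟩ := exists_two_mul_of_castHom_eq_zero h2 k hk0
              apply h1
              exact h0.trans ((hev c).symm.trans (isConj_iff.2 ⟨g, hk⟩).symm)
            · rw [hk1, add_zero])
        exact exists_normal_index_two_of_hom _ _ ht
  · by_cases h1 : IsConj z s1
    · -- two classes: `z ~ s1`, `s0` apart
      right; left
      have hne : ConjClasses.mk z ≠ ConjClasses.mk s0 := fun h =>
        h0 (ConjClasses.mk_eq_mk_iff_isConj.1 h)
      refine ⟨?_, ?_, hno4 1 h1⟩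
      · rw [← ConjClasses.mk_eq_mk_iff_isConj.2 h1]
        have : ({ConjClasses.mk z, ConjClasses.mk s0, ConjClasses.mk z} : Set (ConjClasses G)) =
            {ConjClasses.mk z, ConjClasses.mk s0} := by
          ext C; simp; tauto
        rw [this]
        exact Set.ncard_pair hne
      · have ht := transfer_dihedralPar_ne_one P e h2 1 0
          (fun g j h => h0 (hrot 0 g j h))
          (fun g k hk => by
            rcases hz01 (ZMod.castHom h2 (ZMod 2) k) with hk0 | hk1
            · rw [hk0, zero_add]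
            · exfalso
              obtain ⟨c, rfl⟩ := exists_two_mul_add_one_of_castHom_eq_one h2 k hk1
              apply h0
              exact h1.trans ((hod c).symm.trans (isConj_iff.2 ⟨g, hk⟩).symm))
        exact exists_normal_index_two_of_hom _ _ ht
    · -- three classes, normal 2-complement
      right; right
      have hnpc : Cfsg.HasNormalPComplement 2 G := by
        apply npc_of_no_fusion P e
        intro i g j h
        have hzi := hrot i g j h
        rcases exists_two_mul_or h2 i with ⟨c, rfl⟩ | ⟨c, rfl⟩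
        · exact h0 (hzi.trans (hev c))
        · exact h1 (hzi.trans (hod c))
      refine ⟨?_, hnpc⟩
      rw [Set.ncard_eq_three]
      refine ⟨_, _, _, ?_, ?_, ?_, rfl⟩
      · exact fun h => h0 (ConjClasses.mk_eq_mk_iff_isConj.1 h)
      · exact fun h => h1 (ConjClasses.mk_eq_mk_iff_isConj.1 h)
      · intro h
        obtain ⟨g, hg⟩ := isConj_iff.1 (ConjClasses.mk_eq_mk_iff_isConj.1 h)
        obtain ⟨c, hcP, hc⟩ := conj_in_sylow_of_npc hnpc P (dRef_mem e 0) (dRef_mem e 1) g hg
        have hpar : ∀ k : ZMod (4 * q), (2 * k : ZMod (4 * q)) ≠ 1 ∧ (-(2 * k) : ZMod (4 * q)) ≠ 1 := by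
          intro k
          constructor
          · intro hk
            have := congrArg (ZMod.castHom h2 (ZMod 2)) hk
            rw [castHom_two_mul, map_one] at this
            exact zmod2_zero_ne_one this
          · intro hk
            have := congrArg (ZMod.castHom h2 (ZMod 2)) hk
            rw [map_neg, castHom_two_mul, map_one] at this
            exact zmod2_neg_zero_ne_one this
        rcases mem_cases e hcP with ⟨k, rfl⟩ | ⟨k, rfl⟩
        · rw [dRot_conj_dRef] at hc
          have := dRef_injective e hc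
          rw [zero_sub] at this
          exact (hpar k).2 this
        · rw [dRef_conj_dRef] at hc
          have := dRef_injective e hc
          rw [sub_zero] at this
          exact (hpar k).1 this

/-- Let G be a finite group whose Sylow 2-subgroups are dihedral of order 2 ^ n with n ≥ 3, and count the conjugacy classes of involutions of G. Then exactly one of the following holds: there is one class of involutions and no normal subgroup of index 2; there are two classes of involutions, a normal subgroup of index 2 and none of index 4; there are three classes of involutions and G has a normal 2-complement. -/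
theorem result {G : Type*} [Group G] [Finite G] (P : Sylow 2 G) (n : ℕ) (hn : 3 ≤ n) (hdih : Nonempty (↥(P : Subgroup G) ≃* DihedralGroup (2 ^ (n - 1)))) : (Nat.card {C : ConjClasses G // ∃ g : G, ConjClasses.mk g = C ∧ orderOf g = 2} = 1 ∧ ∀ N : Subgroup G, N.Normal → N.index ≠ 2) ∨ (Nat.card {C : ConjClasses G // ∃ g : G, ConjClasses.mk g = C ∧ orderOf g = 2} = 2 ∧ (∃ N : Subgroup G, N.Normal ∧ N.index = 2) ∧ ∀ N : Subgroup G, N.Normal → N.index ≠ 4) ∨ (Nat.card {C : ConjClasses G // ∃ g : G, ConjClasses.mk g = C ∧ orderOf g = 2} = 3 ∧ Cfsg.HasNormalPComplement 2 G) := by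
  obtain ⟨e⟩ := hdih
  have hm : 2 ^ (n - 1) = 4 * 2 ^ (n - 3) := by
    have : n - 1 = (n - 3) + 2 := by omega
    rw [this, pow_add]; ring
  have hq : 0 < 2 ^ (n - 3) := by positivity
  generalize 2 ^ (n - 3) = q at hm hq
  generalize 2 ^ (n - 1) = m at e hm
  subst hm
  exact main P q hq e

end Cfsg.Agent.S3864
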