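import Mathlib
import Cfsg.Statements.S3866

set_option autoImplicit false
open Cfsg

namespace Cfsg.Agent.S3866

/-- a group generated by two subgroups which are commutative and commute elementwise is commutative -/
theorem comm_of_gen {Q : Type*} [Group Q] (H₁ H₂ : Subgroup Q) (h : H₁ ⊔ H₂ = ⊤)
    (h11 : ∀ a ∈ H₁, ∀ b ∈ H₁, a * b = b * a) (h12 : ∀ a ∈ H₁, ∀ b ∈ H₂, a * b = b * a)
    (h22 : ∀ a ∈ H₂, ∀ b ∈ H₂, a * b = b * a) : ∀ p q : Q, p * q = q * p := by
  have key : ∀ p : Q, (∀ a ∈ H₁, a * p = p * a) → (∀ b ∈ H₂, b * p = p * b) → ∀ q : Q, q * p = p * q := by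
    intro p hp1 hp2 q
    have : (⊤ : Subgroup Q) ≤ Subgroup.centralizer ({p} : Set Q) := by
      rw [← h, sup_le_iff]
      constructor
      · intro a ha
        rw [Subgroup.mem_centralizer_iff]
        intro y hy
        rw [Set.mem_singleton_iff] at hy
        subst hy
        exact (hp1 a ha).symm
      · intro b hb
        rw [Subgroup.mem_centralizer_iff]
        intro y hy
        rw [Set.mem_singleton_iff] at hy
        subst hy
        exact (hp2 b hb).symm
    have hq := this (Subgroup.mem_top q)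
    rw [Subgroup.mem_centralizer_iff] at hq
    exact (hq p (Set.mem_singleton p)).symm
  have s1 : ∀ a ∈ H₁, ∀ q : Q, q * a = a * q := fun a ha =>
    key a (fun a' ha' => h11 a' ha' a ha) (fun b hb => (h12 a ha b hb).symm)
  have s2 : ∀ b ∈ H₂, ∀ q : Q, q * b = b * q := fun b hb =>
    key b (fun a ha => h12 a ha b hb) (fun b' hb' => h22 b' hb' b hb)
  intro p q
  exact (key p (fun a ha => (s1 a ha p).symm) (fun b hb => (s2 b hb p).symm) q).symm

/-- the commutator map a ↦ [x,a] as a hom from an abelian normal subgroup -/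
def commHom {G : Type*} [Group G] (A : Subgroup G) (hn : A.Normal)
    (hA : ∀ a ∈ A, ∀ b ∈ A, a * b = b * a) (x : G) : A →* G where
  toFun a := x * a * x⁻¹ * (a : G)⁻¹
  map_one' := by simp
  map_mul' := by
    intro a b
    have h1 : x * (b : G) * x⁻¹ ∈ A := hn.conj_mem _ b.2 x
    have h2 := hA _ h1 _ (A.inv_mem a.2)
    have h0 := hA _ (A.inv_mem b.2) _ (A.inv_mem a.2)
    simp only [Subgroup.coe_mul, mul_inv_rev]
    calc x * ((a : G) * (b : G)) * x⁻¹ * ((b : G)⁻¹ * (a : G)⁻¹)
        = x * ((a : G) * (b : G)) * x⁻¹ * ((a : G)⁻¹ * (b : G)⁻¹) := by rw [h0]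
      _ = x * a * x⁻¹ * ((x * b * x⁻¹) * (a : G)⁻¹) * (b : G)⁻¹ := by group
      _ = x * a * x⁻¹ * ((a : G)⁻¹ * (x * b * x⁻¹)) * (b : G)⁻¹ := by rw [h2]
      _ = (x * a * x⁻¹ * (a : G)⁻¹) * (x * b * x⁻¹ * (b : G)⁻¹) := by group

theorem result {G : Type*} [Group G] [Finite G] (A : Subgroup G) [A.Normal] (hA : IsMulCommutative A) (x : G) (hgen : A ⊔ Subgroup.zpowers x = ⊤) : (∀ a ∈ A, x * a * x⁻¹ * a⁻¹ ∈ commutator G) ∧ (∀ c ∈ commutator G, ∃ a ∈ A, x * a * x⁻¹ * a⁻¹ = c) ∧ (∀ a ∈ A, ∀ b ∈ A, x * (a * b) * x⁻¹ * (a * b)⁻¹ = (x * a * x⁻¹ * a⁻¹) * (x * b * x⁻¹ * b⁻¹)) ∧ Nat.card (commutator G) * Nat.card ↥(A ⊓ Subgroup.centralizer ({x} : Set G)) = Nat.card A := by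
  have hn : A.Normal := inferInstance
  have hcomm : ∀ a ∈ A, ∀ b ∈ A, a * b = b * a := fun a ha b hb =>
    congrArg Subtype.val (hA.is_comm.comm ⟨a, ha⟩ ⟨b, hb⟩)
  set φ := commHom A hn hcomm x with hφ
  have hφ_apply : ∀ a : A, φ a = x * a * x⁻¹ * (a : G)⁻¹ := fun a => rfl
  have hK_le_A : φ.range ≤ A := by
    rintro _ ⟨a, rfl⟩
    rw [hφ_apply]
    exact A.mul_mem (hn.conj_mem _ a.2 x) (A.inv_mem a.2)
  have hKnormal : φ.range.Normal := by
    rw [← Subgroup.normalizer_eq_top_iff, eq_top_iff, ← hgen, sup_le_iff]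
    constructor
    · intro a ha
      rw [Subgroup.mem_normalizer_iff]
      intro k
      constructor
      · intro hk
        have := hcomm a ha k (hK_le_A hk)
        rw [this, mul_inv_cancel_right]; exact hk
      · intro hk
        have hk' : a * k * a⁻¹ ∈ A := hK_le_A hk
        have hkA : k ∈ A := by
          have := A.mul_mem (A.mul_mem (A.inv_mem ha) hk') ha
          simpa [mul_assoc] using this
        have := hcomm a ha k hkA
        rw [this, mul_inv_cancel_right] at hk; exact hk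
    · rw [Subgroup.zpowers_le, Subgroup.mem_normalizer_iff]
      intro k
      constructor
      · rintro ⟨a, rfl⟩
        refine ⟨⟨x * a * x⁻¹, hn.conj_mem _ a.2 x⟩, ?_⟩
        rw [hφ_apply, hφ_apply]
        simp only []
        group
      · rintro ⟨a, ha⟩
        refine ⟨⟨x⁻¹ * a * x, by simpa using hn.conj_mem _ a.2 x⁻¹⟩, ?_⟩
        rw [hφ_apply] at ha ⊢
        have : k = x⁻¹ * (x * k * x⁻¹) * x := by group
        rw [this, ← ha]
        simp only []
        group
  have h1 : ∀ a ∈ A, x * a * x⁻¹ * a⁻¹ ∈ commutator G := by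
    intro a _
    rw [commutator_def]
    exact Subgroup.commutator_mem_commutator (Subgroup.mem_top x) (Subgroup.mem_top a)
  have hcomm_le : commutator G ≤ φ.range := by
    let π := QuotientGroup.mk' φ.range
    have hx_a : ∀ a ∈ A, π a * π x = π x * π a := by
      intro a ha
      have : π (x * a * x⁻¹ * a⁻¹) = 1 := (QuotientGroup.eq_one_iff _).mpr ⟨⟨a, ha⟩, rfl⟩
      simp only [map_mul, map_inv] at this
      calc π a * π x = (π x * π a * (π x)⁻¹ * (π a)⁻¹)⁻¹ * (π x * π a) := by group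
        _ = π x * π a := by rw [this, inv_one, one_mul]
    have hQ : ∀ p q : G ⧸ φ.range, p * q = q * p := by
      apply comm_of_gen (A.map π) ((Subgroup.zpowers x).map π)
      · rw [← Subgroup.map_sup, hgen]
        exact Subgroup.map_top_of_surjective π (QuotientGroup.mk'_surjective _)
      · rintro _ ⟨a, ha, rfl⟩ _ ⟨b, hb, rfl⟩
        rw [← map_mul, ← map_mul, hcomm a ha b hb]
      · rintro _ ⟨a, ha, rfl⟩ _ ⟨b, hb, rfl⟩
        obtain ⟨n, rfl⟩ := Subgroup.mem_zpowers_iff.mp hb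
        rw [map_zpow]
        exact ((Commute.zpow_right (hx_a a ha) n)).eq
      · rintro _ ⟨a, ha, rfl⟩ _ ⟨b, hb, rfl⟩
        obtain ⟨n, rfl⟩ := Subgroup.mem_zpowers_iff.mp hb
        obtain ⟨m, rfl⟩ := Subgroup.mem_zpowers_iff.mp ha
        rw [← map_mul, ← map_mul, ← zpow_add, ← zpow_add, add_comm]
    rw [commutator_def, Subgroup.commutator_le]
    intro g₁ _ g₂ _
    rw [← QuotientGroup.eq_one_iff, commutatorElement_def]
    have := hQ (π g₁) (π g₂)
    change π (g₁ * g₂ * g₁⁻¹ * g₂⁻¹) = 1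
    simp only [map_mul, map_inv]
    rw [this]; group
  have heq : commutator G = φ.range := by
    apply le_antisymm hcomm_le
    rintro _ ⟨a, rfl⟩
    exact h1 a a.2
  refine ⟨h1, ?_, ?_, ?_⟩
  · intro c hc
    obtain ⟨a, rfl⟩ := hcomm_le hc
    exact ⟨a.1, a.2, rfl⟩
  · intro a ha b hb
    exact φ.map_mul ⟨a, ha⟩ ⟨b, hb⟩
  · rw [heq]
    have e1 := Subgroup.card_mul_index φ.ker
    rw [Subgroup.index_ker] at e1
    have e2 : Nat.card φ.ker = Nat.card ↥(A ⊓ Subgroup.centralizer ({x} : Set G)) := by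
      have hk : φ.ker = (A ⊓ Subgroup.centralizer ({x} : Set G)).subgroupOf A := by
        ext a
        rw [MonoidHom.mem_ker, Subgroup.mem_subgroupOf, hφ_apply, Subgroup.mem_inf,
          Subgroup.mem_centralizer_iff]
        constructor
        · intro h
          refine ⟨a.2, ?_⟩
          intro y hy
          rw [Set.mem_singleton_iff] at hy
          subst hy
          calc y * (a : G) = (y * a * y⁻¹ * (a : G)⁻¹) * a * y := by group
            _ = a * y := by rw [h, one_mul]
        · rintro ⟨_, h⟩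
          have := h x (Set.mem_singleton x)
          rw [this]; group
      rw [hk]
      exact Nat.card_congr (Subgroup.subgroupOfEquivOfLe inf_le_left).toEquiv
    rw [← e2, mul_comm]
    exact e1

end Cfsg.Agent.S3866
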