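import Mathlib
import Cfsg.Statements.S3867
import Cfsg.Agent.Helper64.Frattini

set_option autoImplicit false
open Cfsg

namespace Cfsg.Agent.S3867

open Cfsg.Agent.Helper64

theorem result {G : Type*} [Group G] [Finite G] (p : ℕ) [Fact p.Prime] (M N : Subgroup G) [M.Normal] [N.Normal] (hM : M ≠ ⊥) (hN : N ≠ ⊥) (hMN : M ⊓ N = ⊥) : Nat.card (Sylow p G) * Nat.card (Sylow p (G ⧸ (M ⊔ N))) = Nat.card (Sylow p (G ⧸ M)) * Nat.card (Sylow p (G ⧸ N)) := by
  obtain ⟨P⟩ := (inferInstance : Nonempty (Sylow p G))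
  set L : Subgroup G := Subgroup.normalizer ((P : Subgroup G) : Set G) with hL
  rw [Sylow.card_eq_index_normalizer P, card_sylow_quotient P (M ⊔ N), card_sylow_quotient P M,
    card_sylow_quotient P N, ← hL]
  -- the key identity
  have hkey : (L ⊔ M) ⊓ N = L ⊓ N :=
    le_antisymm (le_inf (normalizer_sup_inf_le P M N hMN) inf_le_right)
      (inf_le_inf_right N le_sup_left)
  have e1 := card_sup_mul_card_inf (L ⊔ M) N
  have e2 := card_sup_mul_card_inf L N
  rw [hkey] at e1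
  rw [← sup_assoc]
  -- cards
  have hc : 0 < Nat.card (L ⊓ N : Subgroup G) := Nat.card_pos
  have hn : 0 < Nat.card N := Nat.card_pos
  have e3 : Nat.card (L ⊔ M ⊔ N : Subgroup G) * Nat.card L
      = Nat.card (L ⊔ M : Subgroup G) * Nat.card (L ⊔ N : Subgroup G) := by
    apply Nat.eq_of_mul_eq_mul_right (Nat.mul_pos hc hn)
    calc Nat.card (L ⊔ M ⊔ N : Subgroup G) * Nat.card L * (Nat.card (L ⊓ N : Subgroup G) * Nat.card N)
        = (Nat.card (L ⊔ M ⊔ N : Subgroup G) * Nat.card (L ⊓ N : Subgroup G)) * (Nat.card L * Nat.card N) := by ring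
      _ = (Nat.card (L ⊔ M : Subgroup G) * Nat.card N) * (Nat.card (L ⊔ N : Subgroup G) * Nat.card (L ⊓ N : Subgroup G)) := by
          rw [e1, e2]
      _ = Nat.card (L ⊔ M : Subgroup G) * Nat.card (L ⊔ N : Subgroup G) * (Nat.card (L ⊓ N : Subgroup G) * Nat.card N) := by ring
  have i1 := Subgroup.index_mul_card L
  have i2 := Subgroup.index_mul_card (L ⊔ M ⊔ N)
  have i3 := Subgroup.index_mul_card (L ⊔ M)
  have i4 := Subgroup.index_mul_card (L ⊔ N)
  have hpos : 0 < Nat.card (L ⊔ M ⊔ N : Subgroup G) * Nat.card L :=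
    Nat.mul_pos Nat.card_pos Nat.card_pos
  apply Nat.eq_of_mul_eq_mul_right hpos
  calc L.index * (L ⊔ M ⊔ N).index * (Nat.card (L ⊔ M ⊔ N : Subgroup G) * Nat.card L)
      = (L.index * Nat.card L) * ((L ⊔ M ⊔ N).index * Nat.card (L ⊔ M ⊔ N : Subgroup G)) := by ring
    _ = ((L ⊔ M).index * Nat.card (L ⊔ M : Subgroup G)) * ((L ⊔ N).index * Nat.card (L ⊔ N : Subgroup G)) := by
        rw [i1, i2, i3, i4]
    _ = (L ⊔ M).index * (L ⊔ N).index * (Nat.card (L ⊔ M : Subgroup G) * Nat.card (L ⊔ N : Subgroup G)) := by ring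
    _ = (L ⊔ M).index * (L ⊔ N).index * (Nat.card (L ⊔ M ⊔ N : Subgroup G) * Nat.card L) := by rw [e3]

end Cfsg.Agent.S3867
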