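import Cfsg.Statements.S3879
import Cfsg.Agent.Helper64.MetaComm

set_option autoImplicit false
open Cfsg

namespace Cfsg.Agent.S3879

open Cfsg.Agent.Helper64

/-- Let p be an odd prime and G a finite metacyclic p-group (G has a cyclic normal subgroup with cyclic quotient). Then the index of the center of G is the square of the order of the derived subgroup: |G : Z(G)| = |G'|². -/
theorem result {G : Type*} [Group G] [Finite G] {p : ℕ} [Fact p.Prime] (hp : p ≠ 2) (hG : IsPGroup p G) (hmc : Cfsg.IsMetacyclic G) : (Subgroup.center G).index = Nat.card ↥(commutator G) ^ 2 := by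
  obtain ⟨N, hN, hNc, hQc⟩ := hmc
  haveI := hN
  obtain ⟨a, b, m, r, n, k, w, D⟩ := exists_mcData hp hG N hNc hQc
  rw [D.card_commutator]
  have h1 := Subgroup.card_mul_index (Subgroup.center G)
  rw [D.center_eq, D.card_mcSub le_rfl, D.hcard] at h1
  have hn1 := D.hnm
  have hn2 := D.n_le_r
  have h2 : p ^ (m + r) = p ^ (m + r - 2 * n) * (p ^ n) ^ 2 := by
    rw [← pow_mul, ← pow_add]; congr 1; omega
  rw [h2] at h1
  rw [D.center_eq]
  exact Nat.eq_of_mul_eq_mul_left (pow_pos D.hp.pos _) h1

end Cfsg.Agent.S3879
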