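import Cfsg.Statements.S3880
import Cfsg.Agent.Helper64.MetaStruct

set_option autoImplicit false
open Cfsg

namespace Cfsg.Agent.S3880

open Cfsg.Agent.Helper64

theorem isMulCommutative_iff {G : Type*} [Group G] (L : Subgroup G) :
    IsMulCommutative ↥L ↔ ∀ x ∈ L, ∀ y ∈ L, x * y = y * x := by
  constructor
  · intro h x hx y hy
    exact congrArg Subtype.val (h.is_comm.comm ⟨x, hx⟩ ⟨y, hy⟩)
  · intro h
    exact ⟨⟨fun x y => Subtype.ext (h x x.2 y y.2)⟩⟩

/-- Let p be an odd prime and G a finite metacyclic p-group (G has a cyclic normal subgroup with cyclic quotient). Then a subgroup L of G is abelian if and only if |L| ≤ |G : G'|, and L is a maximal abelian subgroup of G if and only if |L| = |G : G'|. -/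
theorem result {G : Type*} [Group G] [Finite G] {p : ℕ} [Fact p.Prime] (hp : p ≠ 2) (hG : IsPGroup p G) (hmc : Cfsg.IsMetacyclic G) (L : Subgroup G) :
    (IsMulCommutative ↥L ↔ Nat.card ↥L ≤ (commutator G).index) ∧
      (Maximal (fun K : Subgroup G => IsMulCommutative ↥K) L ↔ Nat.card ↥L = (commutator G).index) := by
  obtain ⟨N, hN, hNc, hQc⟩ := hmc
  haveI := hN
  obtain ⟨a, b, m, r, n, k, w, D⟩ := exists_mcData hp hG N hNc hQc
  have hpp := D.hp
  have hnm := D.hnm
  have key : ∀ K : Subgroup G, IsMulCommutative ↥K ↔ Nat.card ↥K ≤ p ^ (m + r - n) := fun K => by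
    rw [isMulCommutative_iff, D.comm_iff_card_le]
  rw [D.index_commutator]
  refine ⟨key L, ?_⟩
  constructor
  · intro hmax
    have h1 := (key L).mp hmax.1
    by_contra hne
    have hlt : Nat.card L < p ^ (m + r - n) := lt_of_le_of_ne h1 hne
    obtain ⟨t, ht⟩ := (hG.to_subgroup L).exists_card_eq
    rw [ht] at hlt
    have htlt : t < m + r - n := (Nat.pow_lt_pow_iff_right hpp.one_lt).mp hlt
    have hdvd : p ^ (t + 1) ∣ Nat.card G := by
      rw [D.hcard]; exact pow_dvd_pow p (by omega)
    obtain ⟨K, hK, hLK⟩ := Sylow.exists_subgroup_card_pow_succ hdvd ht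
    have hKab : IsMulCommutative ↥K := by
      rw [key, hK]; exact Nat.pow_le_pow_right hpp.pos (by omega)
    have hKL := hmax.2 hKab hLK
    have := Subgroup.card_le_of_le hKL
    rw [hK, ht] at this
    have := (Nat.pow_le_pow_iff_right hpp.one_lt).mp this
    omega
  · intro hcard
    refine ⟨(key L).mpr hcard.le, ?_⟩
    intro K hK hLK
    have h1 := (key K).mp hK
    rw [← hcard] at h1
    exact (Subgroup.eq_of_le_of_card_ge hLK h1).ge

end Cfsg.Agent.S3880
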