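import Cfsg.Statements.S3881
import Cfsg.Agent.Helper64.MetaClass

set_option autoImplicit false
open Cfsg

namespace Cfsg.Agent.S3881

open Cfsg.Agent.Helper64

/-- Let p be an odd prime and G a finite metacyclic p-group (G has a cyclic normal subgroup with cyclic quotient). Suppose G is non-abelian with |G'| = p^n. Then for 1 ≤ i ≤ n the number of elements of G whose conjugacy class has exactly p^i elements is |Z(G)| · (p^(2i) − p^(2i−2)). -/
theorem result {G : Type*} [Group G] [Finite G] {p : ℕ} [Fact p.Prime] (hp : p ≠ 2) (hG : IsPGroup p G) (hmc : Cfsg.IsMetacyclic G) (n : ℕ) (hn : n ≠ 0) (hGn : Nat.card ↥(commutator G) = p ^ n) (i : ℕ) (hi : 1 ≤ i) (hin : i ≤ n) :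
    Nat.card {g : G // (Subgroup.centralizer ({g} : Set G)).index = p ^ i} =
      Nat.card ↥(Subgroup.center G) * (p ^ (2 * i) - p ^ (2 * i - 2)) := by
  obtain ⟨N, hN, hNc, hQc⟩ := hmc
  haveI := hN
  obtain ⟨a, b, m, r, n', k, w, D⟩ := exists_mcData hp hG N hNc hQc
  have hn' : n' = n := by
    have := D.card_commutator
    rw [hGn] at this
    exact (Nat.pow_right_injective D.hp.two_le this).symm
  subst hn'
  have hnm := D.hnm
  have hnr := D.n_le_r
  have hpp := D.hp
  -- the set in question
  have hset : {g : G | (Subgroup.centralizer ({g} : Set G)).index = p ^ i} =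
      (mcSub p a b (n' - i) : Set G) \ (mcSub p a b (n' - i + 1) : Set G) := by
    ext g
    simp only [Set.mem_setOf_eq, Set.mem_diff, SetLike.mem_coe]
    constructor
    · intro h
      constructor
      · rw [D.mem_mcSub_iff_index (Nat.sub_le _ _), h]
        exact Nat.pow_le_pow_right hpp.pos (by omega)
      · intro hg
        have h1 := D.index_centralizer_le (by omega : n' - i + 1 ≤ n') hg
        rw [h] at h1
        have h2 : p ^ (n' - (n' - i + 1)) < p ^ i := Nat.pow_lt_pow_right hpp.one_lt (by omega)
        omega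
    · rintro ⟨h1, h2⟩
      have := D.index_centralizer_eq (by omega : n' - i < n') h1 h2
      rw [this]
      congr 1
      omega
  have hcard : Nat.card {g : G // (Subgroup.centralizer ({g} : Set G)).index = p ^ i} =
      ({g : G | (Subgroup.centralizer ({g} : Set G)).index = p ^ i}).ncard :=
    Nat.card_coe_set_eq _
  rw [hcard, hset, Set.ncard_diff (by
    intro x hx
    exact MCData.mcSub_anti p a b (n' - i) hx) (Set.toFinite _)]
  have e1 : ((mcSub p a b (n' - i) : Subgroup G) : Set G).ncard = Nat.card (mcSub p a b (n' - i)) :=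
    (Nat.card_coe_set_eq _).symm
  have e2 : ((mcSub p a b (n' - i + 1) : Subgroup G) : Set G).ncard =
      Nat.card (mcSub p a b (n' - i + 1)) :=
    (Nat.card_coe_set_eq _).symm
  rw [e1, e2, D.card_mcSub (Nat.sub_le _ _), D.card_mcSub (by omega), D.center_eq,
    D.card_mcSub le_rfl]
  have e3 : p ^ (m + r - 2 * (n' - i)) = p ^ (m + r - 2 * n') * p ^ (2 * i) := by
    rw [← pow_add]; congr 1; omega
  have e4 : p ^ (m + r - 2 * (n' - i + 1)) = p ^ (m + r - 2 * n') * p ^ (2 * i - 2) := by
    rw [← pow_add]; congr 1; omega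
  rw [e3, e4, ← Nat.mul_sub]

end Cfsg.Agent.S3881
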