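import Cfsg.Statements.S3883
import Cfsg.Agent.Helper64.MetaFrattini

set_option autoImplicit false
open Cfsg

namespace Cfsg.Agent.S3883

open Cfsg.Agent.Helper64

/-- Let p be an odd prime and G a finite metacyclic p-group (G has a cyclic normal subgroup with cyclic quotient). Suppose G is non-abelian. Then an element g of G lies outside the Frattini subgroup if and only if its centralizer C_G(g) is abelian. -/
theorem result {G : Type*} [Group G] [Finite G] {p : ℕ} [Fact p.Prime] (hp : p ≠ 2) (hG : IsPGroup p G) (hmc : Cfsg.IsMetacyclic G) (hna : ¬ IsMulCommutative G) (g : G) :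
    g ∉ frattini G ↔ IsMulCommutative ↥(Subgroup.centralizer ({g} : Set G)) := by
  obtain ⟨N, hN, hNc, hQc⟩ := hmc
  haveI := hN
  obtain ⟨a, b, m, r, n, k, w, D⟩ := exists_mcData hp hG N hNc hQc
  have hn : 1 ≤ n := D.one_le_n_of_not_comm (fun h => hna ⟨⟨h⟩⟩)
  rw [D.frattini_eq hG hn, ← D.centralizer_comm_iff hn]
  constructor
  · intro h
    exact ⟨⟨fun x y => Subtype.ext (h x x.2 y y.2)⟩⟩
  · intro h x hx y hy
    exact congrArg Subtype.val (h.is_comm.comm ⟨x, hx⟩ ⟨y, hy⟩)

end Cfsg.Agent.S3883
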