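import Cfsg.Statements.S3884
import Cfsg.Agent.Helper64.MetaSplit

set_option autoImplicit false
open Cfsg

namespace Cfsg.Agent.S3884

open Cfsg.Agent.Helper64

/-- Let p be an odd prime and G a finite metacyclic p-group (G has a cyclic normal subgroup with cyclic quotient). Then G is the product of two cyclic subgroups with trivial intersection: there are cyclic subgroups A and B with A ∩ B = 1 and |A| · |B| = |G|. -/
theorem result {G : Type*} [Group G] [Finite G] {p : ℕ} [Fact p.Prime] (hp : p ≠ 2) (hG : IsPGroup p G) (hmc : Cfsg.IsMetacyclic G) : ∃ A B : Subgroup G, IsCyclic ↥A ∧ IsCyclic ↥B ∧ A ⊓ B = ⊥ ∧ Nat.card ↥A * Nat.card ↥B = Nat.card G := by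
  obtain ⟨N, hN, hNc, hQc⟩ := hmc
  haveI := hN
  obtain ⟨a, b, m, r, n, k, w, D⟩ := exists_mcData hp hG N hNc hQc
  obtain ⟨x, y, hxy, hcard⟩ := D.exists_cyclic_factorization
  refine ⟨Subgroup.zpowers x, Subgroup.zpowers y, inferInstance, inferInstance, hxy, ?_⟩
  rw [Nat.card_zpowers, Nat.card_zpowers, hcard, D.hcard]

end Cfsg.Agent.S3884
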