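import Cfsg.Statements.S3885
import Cfsg.Agent.Helper64.MetaCent

set_option autoImplicit false
open Cfsg

namespace Cfsg.Agent.S3885

open Cfsg.Agent.Helper64

/-- Let p be an odd prime and G a finite metacyclic p-group (G has a cyclic normal subgroup with cyclic quotient). Then every abelian subgroup K of G containing the center of G is the center of its own centralizer: K = Z(C_G(K)). -/
theorem result {G : Type*} [Group G] [Finite G] {p : ℕ} [Fact p.Prime] (hp : p ≠ 2) (hG : IsPGroup p G) (hmc : Cfsg.IsMetacyclic G) (K : Subgroup G) (hK : IsMulCommutative ↥K) (hZ : Subgroup.center G ≤ K) :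
    K = Subgroup.centralizer (K : Set G) ⊓ Subgroup.centralizer (Subgroup.centralizer (K : Set G) : Set G) := by
  obtain ⟨N, hN, hNc, hQc⟩ := hmc
  haveI := hN
  obtain ⟨a, b, m, r, n, k, w, D⟩ := exists_mcData hp hG N hNc hQc
  have hKC : K ≤ Subgroup.centralizer (K : Set G) := by
    intro x hx
    rw [Subgroup.mem_centralizer_iff]
    intro y hy
    exact congrArg Subtype.val (hK.is_comm.comm ⟨y, hy⟩ ⟨x, hx⟩)
  have hKCC : K ≤ Subgroup.centralizer (Subgroup.centralizer (K : Set G) : Set G) :=
    Subgroup.le_centralizer_iff.mp le_rfl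
  have h1 := D.card_mul_card_centralizer_eq K hZ
  have h2 := D.card_mul_card_centralizer_eq (Subgroup.centralizer (K : Set G)) (hZ.trans hKC)
  have h3 : Nat.card K = Nat.card (Subgroup.centralizer (Subgroup.centralizer (K : Set G) : Set G)) := by
    have : Nat.card (Subgroup.centralizer (K : Set G)) * Nat.card K =
        Nat.card (Subgroup.centralizer (K : Set G)) *
          Nat.card (Subgroup.centralizer (Subgroup.centralizer (K : Set G) : Set G)) := by
      rw [mul_comm, h1, h2]
    exact Nat.eq_of_mul_eq_mul_left Nat.card_pos this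
  have h4 : K = Subgroup.centralizer (Subgroup.centralizer (K : Set G) : Set G) :=
    Subgroup.eq_of_le_of_card_ge hKCC h3.ge
  rw [← h4]
  exact (inf_eq_right.mpr hKC).symm

end Cfsg.Agent.S3885
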