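import Cfsg.Statements.S3886
import Cfsg.Agent.S3879
import Cfsg.Agent.S3880

set_option autoImplicit false
open Cfsg

namespace Cfsg.Agent.S3886

/-- subgroups of metacyclic groups are metacyclic -/
theorem metacyclic_subgroup {G : Type*} [Group G] (hmc : Cfsg.IsMetacyclic G) (R : Subgroup G) :
    Cfsg.IsMetacyclic ↥R := by
  obtain ⟨N, hN, hNc, hQc⟩ := hmc
  haveI := hN
  refine ⟨N.subgroupOf R, inferInstance, ?_, ?_⟩
  · let f : N.subgroupOf R →* N :=
      { toFun := fun x => ⟨((x : R) : G), x.2⟩
        map_one' := rfl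
        map_mul' := fun _ _ => rfl }
    apply isCyclic_of_injective f
    intro x y h
    have h' : ((x : R) : G) = ((y : R) : G) := congrArg (fun z : N => (z : G)) h
    exact Subtype.ext (Subtype.ext h')
  · let f : R ⧸ N.subgroupOf R →* G ⧸ N :=
      QuotientGroup.map (N.subgroupOf R) N R.subtype (fun x hx => hx)
    apply isCyclic_of_injective f
    rw [injective_iff_map_eq_one]
    intro x hx
    obtain ⟨y, rfl⟩ := QuotientGroup.mk_surjective x
    have hx' : ((y : G) : G ⧸ N) = 1 := hx
    rw [QuotientGroup.eq_one_iff] at hx'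
    exact (QuotientGroup.eq_one_iff y).mpr hx'

/-- Let p be an odd prime and G a finite metacyclic p-group (G has a cyclic normal subgroup with cyclic quotient). Then the largest value of |R| · |Z(R)| over subgroups R of G is |G : G'|², and the subgroups attaining it (the centrally large subgroups) are exactly the non-abelian subgroups together with the maximal abelian subgroups of G. -/
theorem result {G : Type*} [Group G] [Finite G] {p : ℕ} [Fact p.Prime] (hp : p ≠ 2) (hG : IsPGroup p G) (hmc : Cfsg.IsMetacyclic G) : Cfsg.maxCentralProduct G = (commutator G).index ^ 2 ∧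
    ∀ R : Subgroup G, Cfsg.IsCentrallyLarge R ↔ (¬ IsMulCommutative ↥R ∨ Maximal (fun K : Subgroup G => IsMulCommutative ↥K) R) := by
  classical
  have hpp : p.Prime := Fact.out
  set I := (commutator G).index with hI
  have h80 : ∀ L : Subgroup G, (IsMulCommutative ↥L ↔ Nat.card ↥L ≤ I) ∧
      (Maximal (fun K : Subgroup G => IsMulCommutative ↥K) L ↔ Nat.card ↥L = I) :=
    fun L => Cfsg.Agent.S3880.result hp hG hmc L
  obtain ⟨x, hx⟩ := hG.exists_card_eq
  obtain ⟨t, -, ht⟩ := (Nat.dvd_prime_pow hpp).mp (hx ▸ (commutator G).index_dvd_card)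
  rw [← hI] at ht
  have hab : ∀ R : Subgroup G, IsMulCommutative ↥R →
      Nat.card ↥R * Nat.card ↥(Subgroup.center ↥R) = Nat.card ↥R ^ 2 := by
    intro R hR
    have : Subgroup.center ↥R = ⊤ := by
      rw [eq_top_iff]
      intro z _
      rw [Subgroup.mem_center_iff]
      intro g
      exact hR.is_comm.comm g z
    rw [this, Subgroup.card_top, sq]
  have hnab : ∀ R : Subgroup G, ¬ IsMulCommutative ↥R →
      Nat.card ↥R * Nat.card ↥(Subgroup.center ↥R) = I ^ 2 := by
    intro R hR
    have hRmc : Cfsg.IsMetacyclic ↥R := metacyclic_subgroup hmc R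
    have hRp : IsPGroup p ↥R := hG.to_subgroup R
    have h79 := Cfsg.Agent.S3879.result hp hRp hRmc
    have hIR : (commutator ↥R).index = I := by
      have hlt : I < Nat.card ↥R := by
        by_contra hcon
        push Not at hcon
        exact hR ((h80 R).1.mpr hcon)
      obtain ⟨K, hK⟩ := Sylow.exists_subgroup_card_pow_prime_of_le_card hpp hRp (n := t)
        (by rw [← ht]; exact hlt.le)
      have hKab : IsMulCommutative ↥K := by
        have h1 : IsMulCommutative ↥(K.map R.subtype) :=
          (h80 _).1.mpr (by rw [Subgroup.card_map_of_injective R.subtype_injective, hK, ht])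
        refine ⟨⟨fun u v => ?_⟩⟩
        have h3 := h1.is_comm.comm ⟨u.1.1, ⟨u.1, u.2, rfl⟩⟩ ⟨v.1.1, ⟨v.1, v.2, rfl⟩⟩
        have h4 : ((u : R) : G) * ((v : R) : G) = ((v : R) : G) * ((u : R) : G) :=
          congrArg (fun z : K.map R.subtype => (z : G)) h3
        exact Subtype.ext (Subtype.ext h4)
      have hKmax : Maximal (fun K' : Subgroup ↥R => IsMulCommutative ↥K') K := by
        refine ⟨hKab, fun K₂ hK₂ hle => ?_⟩
        have h1 : IsMulCommutative ↥(K₂.map R.subtype) := by
          refine ⟨⟨fun u v => ?_⟩⟩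
          obtain ⟨u', hu', hu⟩ := u.2
          obtain ⟨v', hv', hv⟩ := v.2
          have h3 := hK₂.is_comm.comm ⟨u', hu'⟩ ⟨v', hv'⟩
          have e : (u' : G) * (v' : G) = (v' : G) * (u' : G) :=
            congrArg (fun z : K₂ => ((z : R) : G)) h3
          apply Subtype.ext
          show (u : G) * (v : G) = (v : G) * (u : G)
          rw [← hu, ← hv]
          exact e
        have h2 := (h80 _).1.mp h1
        rw [Subgroup.card_map_of_injective R.subtype_injective] at h2
        exact (Subgroup.eq_of_le_of_card_ge hle (by rw [hK, ← ht]; exact h2)).ge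
      have h4 := (Cfsg.Agent.S3880.result hp hRp hRmc K).2.mp hKmax
      rw [← h4, hK, ht]
    have e1 := Subgroup.card_mul_index (Subgroup.center ↥R)
    have e2 := Subgroup.card_mul_index (commutator ↥R)
    rw [h79] at e1
    rw [hIR] at e2
    have hc : 0 < Nat.card ↥(commutator ↥R) := Nat.card_pos
    have e3 : I = Nat.card ↥(Subgroup.center ↥R) * Nat.card ↥(commutator ↥R) := by
      have : Nat.card ↥(commutator ↥R) * I = Nat.card ↥(commutator ↥R) *
          (Nat.card ↥(Subgroup.center ↥R) * Nat.card ↥(commutator ↥R)) := by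
        rw [e2, ← e1]; ring
      exact Nat.eq_of_mul_eq_mul_left hc this
    rw [e3, ← e1]; ring
  have hle : ∀ R : Subgroup G, Nat.card ↥R * Nat.card ↥(Subgroup.center ↥R) ≤ I ^ 2 := by
    intro R
    by_cases hR : IsMulCommutative ↥R
    · rw [hab R hR]
      exact Nat.pow_le_pow_left ((h80 R).1.mp hR) 2
    · exact (hnab R hR).le
  have heq : ∀ R : Subgroup G, Nat.card ↥R * Nat.card ↥(Subgroup.center ↥R) = I ^ 2 ↔
      (¬ IsMulCommutative ↥R ∨ Maximal (fun K : Subgroup G => IsMulCommutative ↥K) R) := by
    intro R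
    by_cases hR : IsMulCommutative ↥R
    · rw [hab R hR, (h80 R).2]
      constructor
      · intro h
        right
        exact Nat.pow_left_injective (by norm_num : (2 : ℕ) ≠ 0) h
      · rintro (h | h)
        · exact absurd hR h
        · rw [h]
    · constructor
      · intro _; left; exact hR
      · intro _; exact hnab R hR
  have hmax : Cfsg.maxCentralProduct G = I ^ 2 := by
    unfold Cfsg.maxCentralProduct
    apply IsGreatest.csSup_eq
    constructor
    · refine ⟨⊤, (heq ⊤).mpr ?_⟩
      by_cases h : IsMulCommutative ↥(⊤ : Subgroup G)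
      · right; exact ⟨h, fun K _ _ => le_top⟩
      · left; exact h
    · rintro k ⟨R, rfl⟩
      exact hle R
  refine ⟨hmax, fun R => ?_⟩
  unfold Cfsg.IsCentrallyLarge
  rw [hmax]
  exact heq R

end Cfsg.Agent.S3886
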