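import Cfsg.Statements.S3887
import Cfsg.Agent.Helper64.MetaCent

set_option autoImplicit false
open Cfsg

namespace Cfsg.Agent.S3887

open Cfsg.Agent.Helper64

/-- Let p be an odd prime and G a finite metacyclic p-group (G has a cyclic normal subgroup with cyclic quotient). Then a subgroup R of G maximizes |R| · |C_G(R)| over all subgroups of G if and only if R contains the center of G. -/
theorem result {G : Type*} [Group G] [Finite G] {p : ℕ} [Fact p.Prime] (hp : p ≠ 2) (hG : IsPGroup p G) (hmc : Cfsg.IsMetacyclic G) (R : Subgroup G) : Cfsg.IsCentralizerLarge R ↔ Subgroup.center G ≤ R := by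
  obtain ⟨N, hN, hNc, hQc⟩ := hmc
  haveI := hN
  obtain ⟨a, b, m, r, n, k, w, D⟩ := exists_mcData hp hG N hNc hQc
  have hmax : Cfsg.maxCentralizerProduct G = p ^ (2 * (m + r - n)) := by
    unfold Cfsg.maxCentralizerProduct
    apply IsGreatest.csSup_eq
    constructor
    · exact ⟨⊤, D.card_mul_card_centralizer_eq ⊤ le_top⟩
    · rintro c ⟨R', rfl⟩
      exact D.card_mul_card_centralizer_le R'
  unfold Cfsg.IsCentralizerLarge
  rw [hmax]
  constructor
  · intro h
    have h1 := D.card_mul_card_centralizer_le (R ⊔ Subgroup.center G)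
    have h2 : Subgroup.centralizer ((R ⊔ Subgroup.center G : Subgroup G) : Set G) =
        Subgroup.centralizer (R : Set G) := by
      apply le_antisymm
      · exact Subgroup.centralizer_le (SetLike.coe_subset_coe.mpr le_sup_left)
      · rw [Subgroup.le_centralizer_iff, sup_le_iff]
        exact ⟨Subgroup.le_centralizer_iff.mp le_rfl, Subgroup.center_le_centralizer _⟩
    rw [h2, ← h] at h1
    have h3 : Nat.card (R ⊔ Subgroup.center G : Subgroup G) ≤ Nat.card R :=
      Nat.le_of_mul_le_mul_right h1 Nat.card_pos
    have h4 : R = R ⊔ Subgroup.center G := Subgroup.eq_of_le_of_card_ge le_sup_left h3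
    rw [h4]
    exact le_sup_right
  · exact D.card_mul_card_centralizer_eq R

end Cfsg.Agent.S3887
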