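import Cfsg.Statements.S3895
import Cfsg.Agent.Helper64.TwoClasses
import Cfsg.Agent.Helper70.FrobComp2

set_option autoImplicit false
open Cfsg

namespace Cfsg.Agent.S3895
open Cfsg.Agent.Helper64

/-- Let G be a finite group with Sylow 2-subgroup P, and write k₂(G) for the number of conjugacy classes of G consisting of 2-elements (elements of 2-power order, the identity included). Then k₂(G) > |P|/2 if and only if G has a normal 2-complement and P has more than |P|/2 conjugacy classes. -/
theorem result {G : Type*} [Group G] [Finite G] (P : Sylow 2 G) :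
    Nat.card ↥(P : Subgroup G) < 2 * Nat.card {c : ConjClasses G // ∀ x ∈ c.carrier, ∃ k : ℕ, orderOf x = 2 ^ k} ↔
      Cfsg.HasNormalPComplement 2 G ∧ Nat.card ↥(P : Subgroup G) < 2 * Nat.card (ConjClasses ↥(P : Subgroup G)) := by
  haveI : Fact (Nat.Prime 2) := ⟨Nat.prime_two⟩
  constructor
  · intro hlt
    constructor
    · rw [Cfsg.Agent.Helper70.hasNormalPComplement_iff_frobCond]
      apply Cfsg.Agent.Helper70.frobCond_of_sylow P
      intro Q hQ g hg hcop
      by_contra hcon
      rw [Subgroup.mem_centralizer_iff] at hcon
      push Not at hcon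
      obtain ⟨h, hh, hne⟩ := hcon
      have := two_mul_card_two_classes_le P Q hQ g hg (Nat.coprime_two_right.mp hcop) h hh
        (fun hc => hne hc.eq.symm)
      omega
    · have := card_two_classes_le_card_conjClasses P
      omega
  · rintro ⟨hnpc, hlt⟩
    obtain ⟨K, hKn, hKc, k, hKi⟩ := Cfsg.Agent.Helper70.hasNormalPComplement_iff_hasNPC.mp hnpc
    have hcompl := Cfsg.Agent.Helper70.isComplement'_of_hasNPC hKc hKi P
    haveI := hKn
    have := card_conjClasses_le_of_complement P K hcompl
    omega

end Cfsg.Agent.S3895
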