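import Cfsg.Statements.S3897
import Cfsg.Agent.Helper64.PClasses

set_option autoImplicit false
open Cfsg

namespace Cfsg.Agent.S3897
open Cfsg.Agent.Helper64

/-- Let p be an odd prime and G a finite group with Sylow p-subgroup P, and write k_p(G) for the number of conjugacy classes of G consisting of p-elements (elements of p-power order, the identity included). Then k_p(G) > (p + 1)|P|/(2p) if and only if G has a normal p-complement and P is abelian. -/
theorem result {G : Type*} [Group G] [Finite G] {p : ℕ} [Fact p.Prime] (hp : p ≠ 2) (P : Sylow p G) :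
    (p + 1) * Nat.card ↥(P : Subgroup G) < 2 * p * Nat.card {c : ConjClasses G // ∀ x ∈ c.carrier, ∃ k : ℕ, orderOf x = p ^ k} ↔
      Cfsg.HasNormalPComplement p G ∧ IsMulCommutative ↥(P : Subgroup G) := by
  have hpp := (Fact.out : p.Prime)
  constructor
  · intro hlt
    obtain ⟨M, hMn, hMc, -, hcomm⟩ := exists_normal_complement_of_card_classes P hlt
    exact ⟨⟨P, M, hMn, hMc⟩, ⟨⟨fun a b => Subtype.ext (hcomm a a.2 b b.2)⟩⟩⟩
  · rintro ⟨hnpc, hab⟩
    obtain ⟨K, hKn, hKc, k, hKi⟩ := Cfsg.Agent.Helper70.hasNormalPComplement_iff_hasNPC.mp hnpc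
    have hcompl := Cfsg.Agent.Helper70.isComplement'_of_hasNPC hKc hKi P
    haveI := hKn
    have h1 := card_conjClasses_le_of_complement_prime P K hcompl
    have h2 : Nat.card (ConjClasses ↥(P : Subgroup G)) = Nat.card ↥(P : Subgroup G) := by
      apply Nat.card_congr
      refine Equiv.symm (Equiv.ofBijective (ConjClasses.mk) ⟨?_, ConjClasses.mk_surjective⟩)
      intro a b hab'
      rw [ConjClasses.mk_eq_mk_iff_isConj, isConj_iff] at hab'
      obtain ⟨c, hc⟩ := hab'
      have h3 : c * a = a * c := hab.is_comm.comm c a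
      rw [← hc, h3]; group
    have hpos : 0 < Nat.card ↥(P : Subgroup G) := Nat.card_pos
    have h2p := hpp.two_le
    calc (p + 1) * Nat.card ↥(P : Subgroup G) < 2 * p * Nat.card ↥(P : Subgroup G) := by
          apply Nat.mul_lt_mul_of_pos_right _ hpos
          omega
      _ ≤ 2 * p * Nat.card {c : ConjClasses G // ∀ x ∈ c.carrier, ∃ k : ℕ, orderOf x = p ^ k} := by
          apply Nat.mul_le_mul_left
          omega

end Cfsg.Agent.S3897
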