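import Cfsg.Statements.S3903
import Cfsg.Agent.Helper65.Basic

set_option autoImplicit false
open Cfsg

namespace Cfsg.Agent.S3903

open Cfsg.Agent.Helper65

/-- Let N be a proper normal subgroup of the finite group G such that every element x of G outside N has prime power order and has centralizer C_G(x) a maximal subgroup of G. Then N is solvable. -/
theorem result {G : Type*} [Group G] [Finite G] (N : Subgroup G) [N.Normal] (hN : N ≠ ⊤)
    (h : ∀ x : G, x ∉ N → IsPrimePow (orderOf x) ∧ IsCoatom (Subgroup.centralizer ({x} : Set G))) : Group.IsSolvable ↥N := by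
  classical
  -- an element outside N
  obtain ⟨x₀, hx₀⟩ : ∃ x, x ∉ N := by
    by_contra hne
    push Not at hne
    exact hN (eq_top_iff.mpr (fun x _ => hne x))
  have hcm : ∀ x c : G, c ∈ Subgroup.centralizer ({x} : Set G) → Commute x c := by
    intro x c hc
    exact (Subgroup.mem_centralizer_iff.mp hc x rfl)
  by_cases h1 : ∃ x, x ∉ N ∧ N ≤ Subgroup.centralizer ({x} : Set G)
  · obtain ⟨x, hx, hNx⟩ := h1
    obtain ⟨p, k, hp, hk, hpk⟩ := (isPrimePow_nat_iff _).mp (h x hx).1
    have : Fact p.Prime := ⟨hp⟩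
    have hNp : IsPGroup p N := by
      rintro ⟨n, hn⟩
      have hxn : x * n ∉ N := fun hmem => hx (by simpa using N.mul_mem hmem (N.inv_mem hn))
      obtain ⟨q, j, hq, hj, hqj⟩ := (isPrimePow_nat_iff _).mp (h (x * n) hxn).1
      have hcomm : Commute x n := hcm x n (hNx hn)
      have hpow : x ^ (q ^ j) * n ^ (q ^ j) = 1 := by
        rw [← hcomm.mul_pow, hqj, pow_orderOf_eq_one]
      have hqp : q = p := by
        by_contra hne
        have hxq : x ^ (q ^ j) ∈ N := by
          have : x ^ (q ^ j) = (n ^ (q ^ j))⁻¹ := eq_inv_of_mul_eq_one_left hpow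
          rw [this]; exact N.inv_mem (N.pow_mem hn _)
        have hcop : Nat.Coprime (q ^ j) (orderOf x) := by
          rw [← hpk]
          exact Nat.Coprime.pow _ _ ((Nat.coprime_primes hq hp).mpr hne)
        obtain ⟨m, hm⟩ := exists_pow_eq_self_of_coprime hcop
        exact hx (hm ▸ N.pow_mem hxq m)
      subst hqp
      refine ⟨j + k, ?_⟩
      have : n ^ (q ^ (j + k)) = 1 := by
        have h2 : (x * n) ^ (q ^ (j + k)) = 1 := by
          rw [pow_add, pow_mul, hqj, pow_orderOf_eq_one, one_pow]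
        have h3 : x ^ (q ^ (j + k)) = 1 := by
          rw [pow_add, mul_comm, pow_mul, hpk, pow_orderOf_eq_one, one_pow]
        rw [hcomm.mul_pow, h3, one_mul] at h2
        exact h2
      exact Subtype.ext (by simpa using this)
    have := hNp.isNilpotent
    infer_instance
  · push Not at h1
    -- for every x outside N, N ⊔ C(x) = ⊤
    have hsup : ∀ x, x ∉ N → N ⊔ Subgroup.centralizer ({x} : Set G) = ⊤ := by
      intro x hx
      rcases (h x hx).2.le_iff.mp (le_sup_right : Subgroup.centralizer ({x} : Set G) ≤ N ⊔ Subgroup.centralizer ({x} : Set G)) with h2 | h2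
      · exact h2
      · exact absurd (h2 ▸ le_sup_left) (h1 x hx)
    -- the quotient is commutative
    have hQcomm : ∀ a b : G ⧸ N, a * b = b * a := by
      intro a b
      obtain ⟨x, rfl⟩ := QuotientGroup.mk_surjective a
      obtain ⟨y, rfl⟩ := QuotientGroup.mk_surjective b
      by_cases hx : x ∈ N
      · rw [(QuotientGroup.eq_one_iff x).mpr hx]; simp
      · have hy : y ∈ (N ⊔ Subgroup.centralizer ({x} : Set G) : Subgroup G) := by
          rw [hsup x hx]; trivial
        rw [← SetLike.mem_coe, Subgroup.normal_mul] at hy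
        obtain ⟨u, hu, v, hv, rfl⟩ := hy
        have hcv : Commute x v := hcm x v hv
        rw [QuotientGroup.mk_mul, (QuotientGroup.eq_one_iff u).mpr hu, one_mul,
          ← QuotientGroup.mk_mul, ← QuotientGroup.mk_mul, hcv.eq]
    -- the prime p
    obtain ⟨p, k, hp, hk, hpk⟩ := (isPrimePow_nat_iff _).mp (h x₀ hx₀).1
    have : Fact p.Prime := ⟨hp⟩
    have hmk_ne : ∀ y, y ∉ N → (QuotientGroup.mk y : G ⧸ N) ≠ 1 := by
      intro y hy h0
      exact hy ((QuotientGroup.eq_one_iff y).mp h0)
    -- order of the image of an element outside N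
    have hmk_ord : ∀ y (q j : ℕ), q.Prime → y ∉ N → orderOf y = q ^ j →
        ∃ i, 0 < i ∧ orderOf (QuotientGroup.mk y : G ⧸ N) = q ^ i := by
      intro y q j hq hy hyj
      have hdvd : orderOf (QuotientGroup.mk y : G ⧸ N) ∣ q ^ j := by
        rw [← hyj]
        exact orderOf_map_dvd (QuotientGroup.mk' N) y
      obtain ⟨i, -, hi⟩ := (Nat.dvd_prime_pow hq).mp hdvd
      refine ⟨i, ?_, hi⟩
      rcases Nat.eq_zero_or_pos i with h0 | h0
      · rw [h0, pow_zero, orderOf_eq_one_iff] at hi
        exact absurd hi (hmk_ne y hy)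
      · exact h0
    -- all elements outside N have p-power order
    have hpow : ∀ y, y ∉ N → ∃ j, orderOf y = p ^ j := by
      intro y hy
      obtain ⟨q, j, hq, hj, hqj⟩ := (isPrimePow_nat_iff _).mp (h y hy).1
      by_cases hqp : q = p
      · exact ⟨j, by rw [← hqj, hqp]⟩
      · exfalso
        obtain ⟨i₁, hi₁, ho₁⟩ := hmk_ord x₀ p k hp hx₀ hpk.symm
        obtain ⟨i₂, hi₂, ho₂⟩ := hmk_ord y q j hq hy hqj.symm
        have hcop : Nat.Coprime (orderOf (QuotientGroup.mk x₀ : G ⧸ N)) (orderOf (QuotientGroup.mk y : G ⧸ N)) := by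
          rw [ho₁, ho₂]
          exact Nat.Coprime.pow _ _ ((Nat.coprime_primes hp hq).mpr (Ne.symm hqp))
        have hmul := (show Commute (QuotientGroup.mk x₀ : G ⧸ N) (QuotientGroup.mk y) from
          hQcomm _ _).orderOf_mul_eq_mul_orderOf_of_coprime hcop
        rw [← QuotientGroup.mk_mul, ho₁, ho₂] at hmul
        have hxy : x₀ * y ∉ N := by
          intro hmem
          rw [(QuotientGroup.eq_one_iff _).mpr hmem, orderOf_one] at hmul
          have : 1 < p ^ i₁ * q ^ i₂ := by
            have h1 : 1 < p ^ i₁ := Nat.one_lt_pow hi₁.ne' hp.one_lt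
            have h2 : 0 < q ^ i₂ := pow_pos hq.pos _
            nlinarith
          omega
        obtain ⟨r, l, hr, hl, hrl⟩ := (isPrimePow_nat_iff _).mp (h (x₀ * y) hxy).1
        have hdvd : p ^ i₁ * q ^ i₂ ∣ r ^ l := by
          rw [← hmul, hrl]
          exact orderOf_map_dvd (QuotientGroup.mk' N) (x₀ * y)
        have hpr : p ∣ r ^ l := (dvd_pow_self p hi₁.ne').trans ((Dvd.intro _ rfl).trans hdvd)
        have hqr : q ∣ r ^ l := (dvd_pow_self q hi₂.ne').trans ((Dvd.intro_left _ rfl).trans hdvd)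
        have e1 := (Nat.prime_dvd_prime_iff_eq hp hr).mp (hp.dvd_of_dvd_pow hpr)
        have e2 := (Nat.prime_dvd_prime_iff_eq hq hr).mp (hq.dvd_of_dvd_pow hqr)
        exact hqp (e2.trans e1.symm)
    -- centralizers of elements outside N are p-groups
    have hCp : ∀ x, x ∉ N → IsPGroup p (Subgroup.centralizer ({x} : Set G)) := by
      intro x hx
      rintro ⟨c, hc⟩
      by_cases hcN : c ∈ N
      · have hxc : x * c ∉ N := fun hmem => hx (by simpa using N.mul_mem hmem (N.inv_mem hcN))
        obtain ⟨j, hj⟩ := hpow (x * c) hxc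
        obtain ⟨k', hk'⟩ := hpow x hx
        have hcomm : Commute x c := hcm x c hc
        refine ⟨j + k', Subtype.ext ?_⟩
        have h2 : (x * c) ^ (p ^ (j + k')) = 1 := by
          rw [pow_add, pow_mul, ← hj, pow_orderOf_eq_one, one_pow]
        have h3 : x ^ (p ^ (j + k')) = 1 := by
          rw [pow_add, mul_comm, pow_mul, ← hk', pow_orderOf_eq_one, one_pow]
        rw [hcomm.mul_pow, h3, one_mul] at h2
        simpa using h2
      · obtain ⟨j, hj⟩ := hpow c hcN
        refine ⟨j, Subtype.ext ?_⟩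
        simp only [Subgroup.coe_pow, Subgroup.coe_one]
        rw [← hj, pow_orderOf_eq_one]
    by_cases hGp : IsPGroup p G
    · have := (hGp.to_subgroup N).isNilpotent
      infer_instance
    -- centralizers of elements outside N are Sylow p-subgroups
    have hSyl : ∀ x, x ∉ N → ∃ S : Sylow p G, (S : Subgroup G) = Subgroup.centralizer ({x} : Set G) := by
      intro x hx
      obtain ⟨S, hS⟩ := (hCp x hx).exists_le_sylow
      rcases (h x hx).2.le_iff.mp hS with h2 | h2
      · exfalso
        apply hGp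
        intro g
        obtain ⟨k', hk'⟩ := S.2 ⟨g, by rw [h2]; trivial⟩
        exact ⟨k', by simpa [Subtype.ext_iff] using hk'⟩
      · exact ⟨S, h2⟩
    obtain ⟨S₀, hS₀⟩ := hSyl x₀ hx₀
    have hcard : ∀ y, y ∉ N → Nat.card (Subgroup.centralizer ({y} : Set G)) = Nat.card (S₀ : Subgroup G) := by
      intro y hy
      obtain ⟨S, hS⟩ := hSyl y hy
      rw [← hS, Sylow.card_eq_multiplicity, Sylow.card_eq_multiplicity]
    have hconjP : ∀ z, z ∉ N → ∃ y, y ∈ (S₀ : Subgroup G) ∧ y ∉ N ∧ IsConj y z := by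
      intro z hz
      obtain ⟨S, hS⟩ := hSyl z hz
      obtain ⟨g, hg⟩ := MulAction.exists_smul_eq G S S₀
      refine ⟨g * z * g⁻¹, ?_, ?_, ?_⟩
      · rw [← hg]
        show g * z * g⁻¹ ∈ ((g • S : Sylow p G) : Subgroup G)
        rw [Sylow.smul_def, Sylow.pointwise_smul_def, Subgroup.mem_pointwise_smul_iff_inv_smul_mem,
          hS, Subgroup.mem_centralizer_iff]
        intro w hw
        rw [Set.mem_singleton_iff] at hw
        subst hw
        simp [MulAut.smul_def, mul_assoc]
      · intro hmem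
        apply hz
        have := ‹N.Normal›.conj_mem _ hmem g⁻¹
        simpa [mul_assoc] using this
      · exact (isConj_iff.mpr ⟨g, rfl⟩).symm
    have hsupP : (S₀ : Subgroup G) ⊔ N = ⊤ := by
      rw [hS₀, sup_comm]; exact hsup x₀ hx₀
    have hcent : ∀ y, y ∈ (S₀ : Subgroup G) → y ∉ N → ∀ g, g ∈ (S₀ : Subgroup G) → g * y * g⁻¹ = y :=
      fun y hy hyN g hg => conj_eq_self_of_card_centralizer N (S₀ : Subgroup G) hsupP hcard hconjP y hy hyN g hg
    have hx₀S : x₀ ∈ (S₀ : Subgroup G) := by
      rw [hS₀, Subgroup.mem_centralizer_iff]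
      intro w hw
      rw [Set.mem_singleton_iff] at hw
      rw [hw]
    -- S₀ is commutative
    have hone : ∀ a ∈ (S₀ : Subgroup G), a ∉ N → ∀ b ∈ (S₀ : Subgroup G), a * b = b * a := by
      intro a ha haN b hb
      have := hcent a ha haN b hb
      calc a * b = b * a * b⁻¹ * b := by rw [this]
        _ = b * a := by group
    have hScomm : ∀ a ∈ (S₀ : Subgroup G), ∀ b ∈ (S₀ : Subgroup G), a * b = b * a := by
      intro a ha b hb
      by_cases haN : a ∈ N
      · have hxa : x₀ * a ∉ N := fun hmem => hx₀ (by simpa using N.mul_mem hmem (N.inv_mem haN))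
        have e1 := hone (x₀ * a) ((S₀ : Subgroup G).mul_mem hx₀S ha) hxa b hb
        have e2 := hone x₀ hx₀S hx₀ b hb
        have e3 : x₀ * (a * b) = x₀ * (b * a) := by
          rw [← mul_assoc, e1, ← mul_assoc, ← mul_assoc, ← e2]
        exact mul_left_cancel e3
      · exact hone a ha haN b hb
    have hGsolv : Group.IsSolvable G :=
      isSolvable_of_comm_sylow_isCoatom S₀ (hS₀ ▸ (h x₀ hx₀).2) hScomm
    infer_instance

end Cfsg.Agent.S3903
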