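import Mathlib
import Cfsg.Statements.S3904
import Cfsg.Agent.Helper68.MaxCent

set_option autoImplicit false
open Cfsg

namespace Cfsg.Agent.S3904

open Subgroup

/-- Let G be a non-abelian finite group in which the centralizer of every non-central element is a maximal subgroup. Then G/Z(G) is either an elementary abelian p-group for some prime p, or a minimal non-abelian group (non-abelian with all proper subgroups abelian) of order p^a · q for distinct primes p, q with a normal Sylow p-subgroup. -/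
theorem result {G : Type*} [Group G] [Finite G] (hna : ¬ IsMulCommutative G)
    (h : ∀ x : G, x ∉ Subgroup.center G → IsCoatom (Subgroup.centralizer ({x} : Set G))) :
    (∃ p : ℕ, p.Prime ∧ Cfsg.IsElementaryAbelian p (⊤ : Subgroup (G ⧸ Subgroup.center G))) ∨
    (¬ IsMulCommutative (G ⧸ Subgroup.center G) ∧ (∀ H : Subgroup (G ⧸ Subgroup.center G), H ≠ ⊤ → IsMulCommutative ↥H) ∧
      ∃ p q a : ℕ, p.Prime ∧ q.Prime ∧ p ≠ q ∧ Nat.card (G ⧸ Subgroup.center G) = p ^ a * q ∧
        ∀ P : Subgroup (G ⧸ Subgroup.center G), Nat.card ↥P = p ^ a → P.Normal) := by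
  by_cases hab : ∀ a b : G ⧸ Subgroup.center G, a * b = b * a
  · left
    have hnc : ∃ x : G, x ∉ Subgroup.center G := by
      by_contra hcon
      apply hna
      refine ⟨⟨fun a b => ?_⟩⟩
      have hb : b ∈ Subgroup.center G := by
        by_contra hb
        exact hcon ⟨b, hb⟩
      exact (Subgroup.mem_center_iff.mp hb a)
    obtain ⟨p, hp, hpow⟩ :=
      Cfsg.Agent.Helper68.exists_prime_forall_pow_eq_one_of_maxCent h hab hnc
    exact ⟨p, hp, ⟨⟨fun a b => Subtype.ext (hab a b)⟩⟩, fun a _ => hpow a⟩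
  · right
    have hna' : ∃ a b : G ⧸ Subgroup.center G, a * b ≠ b * a := by
      by_contra hcon
      apply hab
      intro a b
      by_contra hne
      exact hcon ⟨a, b, hne⟩
    have hZ := Cfsg.Agent.Helper68.center_quotient_eq_bot_of_maxCent h hna'
    have hmc := Cfsg.Agent.Helper68.maxCent_quotient_of_maxCent h hna'
    obtain ⟨a, b, hne⟩ := hna'
    have : Nontrivial (G ⧸ Subgroup.center G) := ⟨⟨a * b, b * a, hne⟩⟩
    obtain ⟨x₀, hx₀, hn, hab'⟩ := hmc.exists_normal_abelian hZ
    obtain ⟨-, h2, -, p, q, n, hp, hq, hpq, hcard, hsyl⟩ := hmc.structure hZ x₀ hx₀ hn hab'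
    refine ⟨fun hc => hne (hc.is_comm.comm a b), fun S hS => ⟨⟨fun x y => ?_⟩⟩,
      p, q, n, hp, hq, hpq, hcard, hsyl⟩
    exact Subtype.ext (h2 S hS x x.2 y y.2)

end Cfsg.Agent.S3904
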