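import Mathlib
import Cfsg.Statements.S3905
import Cfsg.Agent.Helper68.RelCent
import Cfsg.Agent.Helper68.PowCent

set_option autoImplicit false
open Cfsg

namespace Cfsg.Agent.S3905

open Subgroup Cfsg.Agent.Helper68

/-- The action of `G` on `N ⧸ Z(N)` for a normal subgroup `N`. -/
noncomputable def act {G : Type*} [Group G] (N : Subgroup G) [N.Normal] :
    G →* MulAut (↥N ⧸ center ↥N) :=
  MonoidHom.mk' (fun g => QuotientGroup.congr (center ↥N) (center ↥N) (MulAut.conjNormal g)
    (Subgroup.characteristic_iff_map_eq.mp Subgroup.centerCharacteristic _)) (by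
    intro a b
    ext x
    obtain ⟨n, rfl⟩ := QuotientGroup.mk_surjective x
    rw [MulAut.mul_apply]
    change QuotientGroup.mk (MulAut.conjNormal (a * b) n) =
      QuotientGroup.mk (MulAut.conjNormal a (MulAut.conjNormal b n))
    rw [map_mul, MulAut.mul_apply])

theorem act_mk {G : Type*} [Group G] (N : Subgroup G) [N.Normal] (g : G) (n : N) :
    act N g (QuotientGroup.mk n) = QuotientGroup.mk (MulAut.conjNormal g n) := rfl

/-- Let N be a normal subgroup of the finite group G such that for every element x of N outside the center of N the centralizer C_G(x) is a maximal subgroup of G. Then N/Z(N) is either an elementary abelian p-group for some prime p, or a Frobenius group whose kernel is an elementary abelian normal subgroup and whose complement has prime order. -/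
theorem result {G : Type*} [Group G] [Finite G] (N : Subgroup G) [N.Normal]
    (h : ∀ x : G, x ∈ N → x ∉ Subgroup.centralizer (N : Set G) → IsCoatom (Subgroup.centralizer ({x} : Set G))) :
    (∃ p : ℕ, p.Prime ∧ Cfsg.IsElementaryAbelian p (⊤ : Subgroup (↥N ⧸ Subgroup.center ↥N))) ∨
    (∃ (Q K : Subgroup (↥N ⧸ Subgroup.center ↥N)) (p : ℕ), p.Prime ∧ Cfsg.IsFrobeniusComplement Q ∧ (Nat.card ↥Q).Prime ∧
      K.Normal ∧ (K : Set (↥N ⧸ Subgroup.center ↥N)) = Cfsg.frobeniusKernel Q ∧ Cfsg.IsElementaryAbelian p K) := by
  have hco : ∀ x : ↥N, x ∉ center ↥N → IsCoatom (centralizer ({(x : G)} : Set G)) := by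
    intro x hx
    apply h x x.2
    intro hxc
    apply hx
    rw [Subgroup.mem_center_iff]
    intro g
    apply Subtype.ext
    have := (Subgroup.mem_centralizer_iff.mp hxc) g g.2
    simpa using this
  by_cases hab : ∀ a b : ↥N ⧸ center ↥N, a * b = b * a
  · left
    by_cases hnc : ∃ x : ↥N, x ∉ center ↥N
    · have hP : ∀ x : ↥N, ∀ k : ℕ, x ^ k ∉ center ↥N → ∀ g : ↥N, g * x ^ k = x ^ k * g →
          g * x = x * g := by
        intro x k hxk g hg
        have hx : x ∉ center ↥N := fun hx => hxk (Subgroup.pow_mem _ hx k)
        have c1 := hco x hx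
        have c2 := hco (x ^ k) hxk
        have hle : centralizer ({(x : G)} : Set G) ≤ centralizer ({((x ^ k : ↥N) : G)} : Set G) := by
          intro y hy
          rw [Subgroup.mem_centralizer_singleton_iff] at hy ⊢
          have hc : Commute y (x : G) := hy
          have := (hc.pow_right k).eq
          simpa using this
        rcases c1.le_iff.mp hle with h2 | h2
        · exact absurd h2 c2.1
        · have hg' : (g : G) ∈ centralizer ({((x ^ k : ↥N) : G)} : Set G) := by
            rw [Subgroup.mem_centralizer_singleton_iff]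
            have := congrArg (fun z : ↥N => (z : G)) hg
            simpa using this
          rw [h2, Subgroup.mem_centralizer_singleton_iff] at hg'
          apply Subtype.ext
          simpa using hg'
      obtain ⟨p, hp, hpow⟩ := exists_prime_forall_pow_eq_one_of_powCent hP hab hnc
      exact ⟨p, hp, ⟨⟨fun a b => Subtype.ext (hab a b)⟩⟩, fun a _ => hpow a⟩
    · push Not at hnc
      refine ⟨2, Nat.prime_two, ⟨⟨fun a b => Subtype.ext (hab a b)⟩⟩, fun a _ => ?_⟩
      obtain ⟨n, rfl⟩ := QuotientGroup.mk_surjective a
      have : (QuotientGroup.mk n : ↥N ⧸ center ↥N) = 1 := (QuotientGroup.eq_one_iff n).mpr (hnc n)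
      rw [this, one_pow]
  · right
    push Not at hab
    obtain ⟨a₀, b₀, hab₀⟩ := hab
    have hnt : Nontrivial (↥N ⧸ center ↥N) := nontrivial_of_ne _ _ hab₀
    -- centralizers fix the class
    have hle : ∀ t : ↥N, centralizer ({(t : G)} : Set G) ≤ St (act N) (QuotientGroup.mk t) := by
      intro t g hg
      rw [mem_St, act_mk]
      congr 1
      apply Subtype.ext
      rw [MulAut.conjNormal_apply]
      rw [Subgroup.mem_centralizer_singleton_iff] at hg
      rw [hg, mul_inv_cancel_right]
    have hinn : ∀ n m : ↥N, act N (n : G) (QuotientGroup.mk m) =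
        (QuotientGroup.mk n : ↥N ⧸ center ↥N) * QuotientGroup.mk m * (QuotientGroup.mk n)⁻¹ := by
      intro n m
      rw [act_mk, ← QuotientGroup.mk_inv, ← QuotientGroup.mk_mul, ← QuotientGroup.mk_mul]
      congr 1
    have hSt : ∀ t : ↥N, (QuotientGroup.mk t : ↥N ⧸ center ↥N) ∉ center (↥N ⧸ center ↥N) →
        St (act N) (QuotientGroup.mk t) = centralizer ({(t : G)} : Set G) ∧
        IsCoatom (centralizer ({(t : G)} : Set G)) := by
      intro t ht
      have htZ : t ∉ center ↥N := by
        intro htz
        apply ht
        have : (QuotientGroup.mk t : ↥N ⧸ center ↥N) = 1 := (QuotientGroup.eq_one_iff t).mpr htz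
        rw [this]; exact Subgroup.one_mem _
      have hc := hco t htZ
      refine ⟨?_, hc⟩
      rcases hc.le_iff.mp (hle t) with h2 | h2
      · exfalso
        apply ht
        rw [Subgroup.mem_center_iff]
        intro gq
        obtain ⟨g, rfl⟩ := QuotientGroup.mk_surjective gq
        have hg : (g : G) ∈ St (act N) (QuotientGroup.mk t) := h2 ▸ Subgroup.mem_top _
        rw [mem_St, hinn] at hg
        calc (QuotientGroup.mk g : ↥N ⧸ center ↥N) * QuotientGroup.mk t
            = (QuotientGroup.mk g * QuotientGroup.mk t * (QuotientGroup.mk g)⁻¹) *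
                QuotientGroup.mk g := by group
          _ = QuotientGroup.mk t * QuotientGroup.mk g := by rw [hg]
      · exact h2
    have hcent : center (↥N ⧸ center ↥N) = ⊥ := by
      have ht₀ : a₀ ∉ center (↥N ⧸ center ↥N) :=
        fun hc => hab₀ ((Subgroup.mem_center_iff.mp hc) b₀).symm
      obtain ⟨t₀, rfl⟩ := QuotientGroup.mk_surjective a₀
      rw [eq_bot_iff]
      intro uq huq
      obtain ⟨u, rfl⟩ := QuotientGroup.mk_surjective uq
      rw [Subgroup.mem_bot, QuotientGroup.eq_one_iff]
      have key : ∀ t : ↥N, (QuotientGroup.mk t : ↥N ⧸ center ↥N) ∉ center (↥N ⧸ center ↥N) →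
          u * t = t * u := by
        intro t ht
        obtain ⟨h2, -⟩ := hSt t ht
        have hu : (u : G) ∈ St (act N) (QuotientGroup.mk t) := by
          rw [mem_St, hinn, ← (Subgroup.mem_center_iff.mp huq) (QuotientGroup.mk t),
            mul_inv_cancel_right]
        rw [h2, Subgroup.mem_centralizer_singleton_iff] at hu
        apply Subtype.ext
        simpa using hu
      rw [Subgroup.mem_center_iff]
      intro g
      by_cases hg : (QuotientGroup.mk g : ↥N ⧸ center ↥N) ∈ center (↥N ⧸ center ↥N)
      · have hgt : (QuotientGroup.mk (g * t₀) : ↥N ⧸ center ↥N) ∉ center (↥N ⧸ center ↥N) := by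
          intro hc
          apply ht₀
          have : (QuotientGroup.mk t₀ : ↥N ⧸ center ↥N) =
              (QuotientGroup.mk g)⁻¹ * QuotientGroup.mk (g * t₀) := by
            rw [QuotientGroup.mk_mul]; group
          rw [this]
          exact Subgroup.mul_mem _ (Subgroup.inv_mem _ hg) hc
        have e1 := key (g * t₀) hgt
        have e2 := key t₀ ht₀
        have e3 : u * g * t₀ = g * u * t₀ := by
          rw [mul_assoc, e1, mul_assoc, ← e2, mul_assoc]
        exact (mul_right_cancel e3).symm
      · exact (key g hg).symm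
    have R : RelMax (act N) := by
      refine ⟨?_, ?_, hcent⟩
      · intro hq
        obtain ⟨n, rfl⟩ := QuotientGroup.mk_surjective hq
        refine ⟨(n : G), ?_⟩
        ext y
        obtain ⟨m, rfl⟩ := QuotientGroup.mk_surjective y
        rw [hinn, MulAut.conj_apply]
      · intro y hy
        obtain ⟨x, rfl⟩ := QuotientGroup.mk_surjective y
        have hx : (QuotientGroup.mk x : ↥N ⧸ center ↥N) ∉ center (↥N ⧸ center ↥N) := by
          rw [hcent, Subgroup.mem_bot]; exact hy
        obtain ⟨h2, h3⟩ := hSt x hx
        rw [h2]; exact h3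
    exact R.exists_frob

end Cfsg.Agent.S3905
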