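import Cfsg.Statements.S3917

set_option autoImplicit false
open Cfsg

namespace Cfsg.Agent.S3917

theorem noncyc_top {G : Type*} [CommGroup G]
    (hX : ∀ H : Subgroup G, ¬ IsCyclic ↥H → Subgroup.centralizer (H : Set G) ≤ H)
    (H : Subgroup G) (hH : ¬ IsCyclic ↥H) : H = ⊤ := by
  rw [eq_top_iff]
  intro x _
  exact hX H hH (Subgroup.mem_centralizer_iff.mpr fun h _ => mul_comm h x)

theorem mem_tors {G : Type*} [CommGroup G] (n : ℕ) (x : G) :
    x ∈ (powMonoidHom n : G →* G).ker ↔ x ^ n = 1 := by
  rw [MonoidHom.mem_ker]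
  rfl

theorem card_tors_le {G : Type*} [CommGroup G] [Finite G]
    (h : ∀ p : ℕ, p.Prime → Nat.card ↥(powMonoidHom p : G →* G).ker ≤ p) :
    ∀ n : ℕ, 0 < n → Nat.card ↥(powMonoidHom n : G →* G).ker ≤ n := by
  intro n
  induction n using Nat.strong_induction_on with
  | _ n ih =>
    intro hn
    rcases Nat.lt_or_ge 1 n with h1 | h1
    · obtain ⟨p, hp, hpn⟩ := Nat.exists_prime_and_dvd (show n ≠ 1 by omega)
      obtain ⟨m, rfl⟩ := hpn
      have hm : 0 < m := Nat.pos_of_ne_zero (by rintro rfl; simp at hn)
      have hmlt : m < p * m := by nlinarith [hp.two_le]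
      let f : ↥(powMonoidHom (p * m) : G →* G).ker →* G :=
        (powMonoidHom p).comp (Subgroup.subtype _)
      have hf : ∀ x : ↥(powMonoidHom (p * m) : G →* G).ker, f x = (x : G) ^ p := fun _ => rfl
      have hker : Nat.card ↥f.ker ≤ p := by
        refine le_trans ?_ (h p hp)
        have hmem : ∀ x : f.ker, (x.1 : G) ∈ (powMonoidHom p : G →* G).ker := by
          intro x
          rw [mem_tors, ← hf]
          exact x.2
        apply Nat.card_le_card_of_injective
          (fun x : f.ker => (⟨(x.1 : G), hmem x⟩ : (powMonoidHom p : G →* G).ker))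
        intro x y hxy
        have h' : ((x.1 : ↥(powMonoidHom (p * m) : G →* G).ker) : G) = (y.1 : G) :=
          congrArg (fun z : (powMonoidHom p : G →* G).ker => (z : G)) hxy
        exact Subtype.ext (Subtype.ext h')
      have hrange : Nat.card ↥f.range ≤ m := by
        refine le_trans (Subgroup.card_le_of_le ?_) (ih m hmlt hm)
        rintro _ ⟨x, rfl⟩
        rw [mem_tors, hf, ← pow_mul]
        exact (mem_tors _ _).mp x.2
      have hcard : Nat.card ↥(powMonoidHom (p * m) : G →* G).ker =
          Nat.card ↥f.ker * Nat.card ↥f.range := by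
        rw [← Subgroup.index_ker f, Subgroup.card_mul_index]
      rw [hcard]
      exact Nat.mul_le_mul hker hrange
    · have h1' : n = 1 := by omega
      subst h1'
      have hbot : (powMonoidHom 1 : G →* G).ker = ⊥ := by
        ext x
        rw [mem_tors, pow_one, Subgroup.mem_bot]
      rw [hbot]
      simp

/-- Say that a group has self-centralizing non-cyclic subgroups when every non-cyclic subgroup H satisfies C_G(H) ≤ H. A finite abelian group with self-centralizing non-cyclic subgroups is cyclic or elementary abelian of order p² for a prime p. -/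
theorem result {G : Type*} [CommGroup G] [Finite G] (hX : (∀ H : Subgroup G, ¬ IsCyclic ↥H → Subgroup.centralizer (H : Set G) ≤ H)) :
    IsCyclic G ∨ ∃ p : ℕ, p.Prime ∧ Nat.card G = p ^ 2 ∧ Monoid.exponent G = p := by
  by_cases hc : IsCyclic G
  · exact Or.inl hc
  right
  have htop := noncyc_top hX
  have h1 : ∃ p : ℕ, p.Prime ∧ p < Nat.card ↥(powMonoidHom p : G →* G).ker := by
    by_contra hcon
    have hcon' : ∀ p : ℕ, p.Prime → Nat.card ↥(powMonoidHom p : G →* G).ker ≤ p := by
      intro p hp
      by_contra hlt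
      exact hcon ⟨p, hp, not_le.mp hlt⟩
    apply hc
    apply IsCyclic.of_exponent_eq_card
    have he : 0 < Monoid.exponent G := Nat.pos_of_ne_zero Monoid.exponent_ne_zero_of_finite
    have hk := card_tors_le hcon' (Monoid.exponent G) he
    have htopk : (powMonoidHom (Monoid.exponent G) : G →* G).ker = ⊤ := by
      rw [eq_top_iff]
      intro x _
      rw [mem_tors]
      exact Monoid.pow_exponent_eq_one x
    rw [htopk, Subgroup.card_top] at hk
    exact Nat.le_antisymm (Nat.le_of_dvd Nat.card_pos Group.exponent_dvd_nat_card) hk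
  obtain ⟨p, hp, hlt⟩ := h1
  have hHnc : ¬ IsCyclic ↥(powMonoidHom p : G →* G).ker := by
    intro hcyc
    have e1 : Monoid.exponent ↥(powMonoidHom p : G →* G).ker =
        Nat.card ↥(powMonoidHom p : G →* G).ker := IsCyclic.exponent_eq_card
    have e2 : Monoid.exponent ↥(powMonoidHom p : G →* G).ker ∣ p := by
      apply Monoid.exponent_dvd_of_forall_pow_eq_one
      rintro ⟨x, hx⟩
      apply Subtype.ext
      exact (mem_tors _ _).mp hx
    rw [e1] at e2
    exact absurd (Nat.le_of_dvd hp.pos e2) (not_le.mpr hlt)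
  have hT := htop _ hHnc
  have hpow : ∀ x : G, x ^ p = 1 := by
    intro x
    have hx : x ∈ (powMonoidHom p : G →* G).ker := by
      rw [hT]
      exact Subgroup.mem_top x
    exact (mem_tors _ _).mp hx
  have hexp : Monoid.exponent G = p := by
    have hd : Monoid.exponent G ∣ p := Monoid.exponent_dvd_of_forall_pow_eq_one hpow
    rcases (Nat.dvd_prime hp).mp hd with h | h
    · exfalso
      apply hc
      have hs : Subsingleton G := Monoid.exp_eq_one_iff.mp h
      exact isCyclic_of_subsingleton
    · exact h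
  have hfact : Fact p.Prime := ⟨hp⟩
  have hPG : IsPGroup p G := fun x => ⟨1, by rw [pow_one]; exact hpow x⟩
  obtain ⟨k, hk⟩ := IsPGroup.iff_card.mp hPG
  have hcardT : Nat.card ↥(powMonoidHom p : G →* G).ker = Nat.card G := by
    rw [hT, Subgroup.card_top]
  rw [hcardT, hk] at hlt
  have hk2 : 2 ≤ k := by
    by_contra hk2
    have hk1 : k ≤ 1 := by omega
    have hle : p ^ k ≤ p ^ 1 := Nat.pow_le_pow_right hp.pos hk1
    rw [pow_one] at hle
    omega
  refine ⟨p, hp, ?_, hexp⟩
  by_contra hne
  have hk3 : 3 ≤ k := by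
    rcases Nat.lt_or_ge k 3 with h | h
    · exfalso
      apply hne
      have hk' : k = 2 := by omega
      rw [hk, hk']
    · exact h
  obtain ⟨K, hK⟩ := Sylow.exists_subgroup_card_pow_prime p
    (show p ^ 2 ∣ Nat.card G from hk ▸ pow_dvd_pow p (by omega))
  have hKne : K ≠ ⊤ := by
    intro h
    rw [h, Subgroup.card_top, hk] at hK
    have := Nat.pow_right_injective hp.two_le hK
    omega
  have hKc : IsCyclic ↥K := by
    by_contra h
    exact hKne (htop K h)
  have e1 : Monoid.exponent ↥K = Nat.card ↥K := IsCyclic.exponent_eq_card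
  have e2 : Monoid.exponent ↥K ∣ p := by
    apply Monoid.exponent_dvd_of_forall_pow_eq_one
    rintro ⟨x, hx⟩
    apply Subtype.ext
    exact hpow x
  rw [e1, hK] at e2
  have hle := Nat.le_of_dvd hp.pos e2
  nlinarith [hp.two_le]

end Cfsg.Agent.S3917
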