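import Cfsg.Statements.S3919
import Cfsg.Agent.Helper29.ElemAbSq
import Cfsg.Agent.Helper29.MaxClass2c
import Cfsg.Agent.Helper53.Quat
import Cfsg.Agent.S0112
import Cfsg.Agent.S0063

set_option autoImplicit false
open Cfsg

namespace Cfsg.Agent.S3919

theorem three_le {G : Type*} [Group G] [Finite G] (hna : ¬ IsMulCommutative G) (n : ℕ)
    (hG : Nat.card G = 2 ^ n) : 3 ≤ n := by
  have : Fact (Nat.Prime 2) := ⟨Nat.prime_two⟩
  by_contra hlt
  apply hna
  have hn : n = 0 ∨ n = 1 ∨ n = 2 := by omega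
  rcases hn with rfl | rfl | rfl
  · have : Subsingleton G := (Nat.card_eq_one_iff_unique.mp (by simpa using hG)).1
    exact ⟨⟨fun a b => Subsingleton.elim _ _⟩⟩
  · have hc : IsCyclic G := isCyclic_of_prime_card (p := 2) (by simpa using hG)
    exact IsCyclic.isMulCommutative
  · exact IsPGroup.isMulCommutative_of_card_eq_prime_sq (p := 2) hG

theorem fwd {G : Type*} [Group G] [Finite G] (hna : ¬ IsMulCommutative G) (n : ℕ)
    (hG : Nat.card G = 2 ^ n)
    (h : ∀ H : Subgroup G, ¬ IsCyclic ↥H → Subgroup.centralizer (H : Set G) ≤ H) :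
    (⊤ : Subgroup G).lowerCentralSeries (n - 2) ≠ ⊥ := by
  have : Fact (Nat.Prime 2) := ⟨Nat.prime_two⟩
  have hPG : IsPGroup 2 G := IsPGroup.of_card hG
  have hnil : Group.IsNilpotent G := hPG.isNilpotent
  have hn : 3 ≤ n := three_le hna n hG
  have hGnt : Nontrivial G := by
    apply Finite.one_lt_card_iff_nontrivial.mp
    rw [hG]
    exact Nat.one_lt_two_pow (by omega)
  have hZnt : Nontrivial (Subgroup.center G) := hPG.center_nontrivial
  obtain ⟨k, hk0, hk⟩ := (hPG.to_subgroup (Subgroup.center G)).nontrivial_iff_card.mp hZnt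
  have hpdvd : 2 ∣ Nat.card (Subgroup.center G) := by rw [hk]; exact dvd_pow_self 2 (by omega)
  obtain ⟨z, hz⟩ := exists_prime_orderOf_dvd_card' 2 hpdvd
  have hz₀ : orderOf (z : G) = 2 := by rw [Subgroup.orderOf_coe, hz]
  have hzc : ∀ g : G, g * (z : G) = (z : G) * g := fun g => Subgroup.mem_center_iff.mp z.2 g
  by_cases hex : ∃ t : G, orderOf t = 2 ∧ t ≠ (z : G)
  · obtain ⟨t, ht, htz⟩ := hex
    have htZ : t ∉ Subgroup.zpowers (z : G) := by
      intro hmem
      rcases Cfsg.Agent.Helper73.eq_one_or_eq_of_mem_zpowers_of_orderOf_two hz₀ hmem with h1 | h1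
      · rw [h1, orderOf_one] at ht; omega
      · exact htz h1
    obtain ⟨E, hEcard, hEcomm, -, -, -, hEnc⟩ :=
      Cfsg.Agent.Helper29.exists_elemAb_sq 2 (z : G) t hz₀ ht (hzc t).symm htZ
    have hCE : Subgroup.centralizer (E : Set G) = E := by
      apply le_antisymm (h E hEnc)
      intro e he
      rw [Subgroup.mem_centralizer_iff]
      intro e' he'
      have := hEcomm.is_comm.comm ⟨e', he'⟩ ⟨e, he⟩
      exact congrArg Subtype.val this
    have hcl := Cfsg.Agent.S0112.result (p := 2) n hG E (by rw [hEcard]; norm_num) hCE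
    intro hbot
    have := Subgroup.lowerCentralSeries_eq_bot_iff_nilpotencyClass_le.mp hbot
    omega
  · push Not at hex
    rcases Cfsg.Agent.Helper53.unique_invol_structure hPG (z : G) hz₀ hex with ⟨x, hx⟩ | hq
    · exfalso
      apply hna
      have : IsCyclic G := ⟨⟨x, hx⟩⟩
      exact IsCyclic.isMulCommutative
    · obtain ⟨a, y, k, hk2, ha, hcard, -, hya, -, hak⟩ := hq
      have hnk : n = k + 1 := Nat.pow_right_injective (le_refl 2) (hG.symm.trans hcard)
      obtain ⟨j, rfl⟩ : ∃ j, k = j + 2 := ⟨k - 2, by omega⟩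
      have hodd : Odd (2 ^ (j + 1) - 1) := by
        have h1 : 2 ^ (j + 1) = 2 * 2 ^ j := by rw [pow_succ]; ring
        have h2 : 0 < 2 ^ j := by positivity
        exact ⟨2 ^ j - 1, by omega⟩
      have hxa : y * a * y⁻¹ = a ^ (2 * (2 ^ (j + 1) - 1) + 1) := by
        rw [hya]
        have h1 : 2 * (2 ^ (j + 1) - 1) + 1 + 1 = 2 ^ (j + 2) := by
          have h1 : 2 ^ (j + 2) = 2 * 2 ^ (j + 1) := by rw [pow_succ]; ring
          have h2 : 0 < 2 ^ (j + 1) := by positivity
          omega
        have h2 : a ^ (2 * (2 ^ (j + 1) - 1) + 1) * a = 1 := by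
          rw [← pow_succ, h1, ← ha, pow_orderOf_eq_one]
        exact inv_eq_of_mul_eq_one_left h2
      have hmem := Cfsg.Agent.Helper29.pow_mem_lcs hG a y _ hodd hxa j
      intro hbot
      have h3 : n - 2 = j + 1 := by omega
      rw [h3] at hbot
      rw [hbot, Subgroup.mem_bot] at hmem
      have h4 : j + 2 - 1 = j + 1 := by omega
      rw [h4, hmem] at hak
      rw [← hak, orderOf_one] at hz₀
      omega

theorem bwd {G : Type*} [Group G] [Finite G] (n : ℕ) (hG : Nat.card G = 2 ^ n) (hn : 3 ≤ n)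
    (hl : (⊤ : Subgroup G).lowerCentralSeries (n - 2) ≠ ⊥)
    (H : Subgroup G) (hH : ¬ IsCyclic H) : Subgroup.centralizer (H : Set G) ≤ H := by
  have : Fact (Nat.Prime 2) := ⟨Nat.prime_two⟩
  have hPG : IsPGroup 2 G := IsPGroup.of_card hG
  have hnil : Group.IsNilpotent G := hPG.isNilpotent
  have hc : Group.nilpotencyClass G = n - 1 := by
    have h1 := Cfsg.Agent.S0063.result 2 n hG (by omega)
    by_contra h2
    apply hl
    apply Subgroup.lowerCentralSeries_eq_bot_iff_nilpotencyClass_le.mpr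
    omega
  obtain ⟨hidx, hsq⟩ := Cfsg.Agent.Helper29.maxclass_commutator n hn hG hc
  obtain ⟨m, rfl⟩ : ∃ m, n = m + 3 := ⟨n - 3, by omega⟩
  obtain ⟨a, x, r, ha, hx, -, -, -, -⟩ := Cfsg.Agent.Helper29.taussky_gens m hG hidx hsq
  have hZ := (Cfsg.Agent.Helper29.taussky_center_quotient m hG hidx hsq).1
  have hAi : (Subgroup.zpowers a).index = 2 := by
    have h1 := (Subgroup.zpowers a).card_mul_index
    rw [Nat.card_zpowers, ha, hG, pow_succ] at h1
    exact Nat.eq_of_mul_eq_mul_left (by positivity) h1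
  -- the central involution
  obtain ⟨c, hc1, hcu⟩ := (Nat.card_eq_two_iff' (1 : Subgroup.center G)).mp hZ
  have hcc : ∀ g : G, g * (c : G) = (c : G) * g := fun g => Subgroup.mem_center_iff.mp c.2 g
  have hc1' : (c : G) ≠ 1 := fun h => hc1 (Subtype.ext h)
  have hcen : ∀ d : G, (∀ g : G, g * d = d * g) → d = 1 ∨ d = (c : G) := by
    intro d hd
    by_cases hd1 : d = 1
    · exact Or.inl hd1
    · right
      have h1 : (⟨d, Subgroup.mem_center_iff.mpr hd⟩ : Subgroup.center G) = c :=
        hcu _ (fun h => hd1 (congrArg Subtype.val h))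
      exact congrArg Subtype.val h1
  have hc2 : (c : G) ^ 2 = 1 := by
    have h1 := orderOf_dvd_natCard c
    rw [hZ] at h1
    have h2 := orderOf_dvd_iff_pow_eq_one.mp h1
    exact_mod_cast congrArg Subtype.val h2
  have ha1 : a ≠ 1 := by
    intro h
    rw [h, orderOf_one] at ha
    have : 1 < 2 ^ (m + 2) := Nat.one_lt_two_pow (by omega)
    omega
  have hcA : (c : G) ∈ Subgroup.zpowers a := by
    by_contra hcA
    have htop : Subgroup.centralizer ({a} : Set G) = ⊤ := by
      apply Cfsg.Agent.Helper29.eq_top_of_index_prime Nat.prime_two hAi (b := (c : G))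
      · rw [Subgroup.zpowers_le, Subgroup.mem_centralizer_singleton_iff]
      · rw [Subgroup.mem_centralizer_singleton_iff]; exact (hcc a).symm
      · exact hcA
    have hacen : ∀ g : G, g * a = a * g := by
      intro g
      have : g ∈ Subgroup.centralizer ({a} : Set G) := by rw [htop]; trivial
      exact Subgroup.mem_centralizer_singleton_iff.mp this
    rcases hcen a hacen with h1 | h1
    · exact ha1 h1
    · exact hcA (h1 ▸ Subgroup.mem_zpowers a)
  -- an element of `H` outside `A`
  obtain ⟨h, hhH, hhA⟩ : ∃ h ∈ H, h ∉ Subgroup.zpowers a := by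
    by_contra hcon
    push Not at hcon
    have hle : H ≤ Subgroup.zpowers a := hcon
    exact hH (Subgroup.isCyclic_of_le hle)
  -- a nontrivial element of `H ⊓ A`
  obtain ⟨u, huH, huA, hu1⟩ : ∃ u ∈ H, u ∈ Subgroup.zpowers a ∧ u ≠ 1 := by
    by_contra hcon
    push Not at hcon
    apply hH
    refine ⟨⟨⟨h, hhH⟩, ?_⟩⟩
    intro g
    show g ∈ Subgroup.zpowers (⟨h, hhH⟩ : H)
    by_cases hgA : (g : G) ∈ Subgroup.zpowers a
    · have h1 : (g : G) = 1 := hcon _ g.2 hgA
      have h2 : g = 1 := Subtype.ext h1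
      rw [h2]; exact one_mem _
    · have h1 : h⁻¹ * (g : G) ∈ Subgroup.zpowers a := by
        rw [Subgroup.mul_mem_iff_of_index_two hAi, inv_mem_iff]
        exact ⟨fun h' => absurd h' hhA, fun h' => absurd h' hgA⟩
      have h2 : h⁻¹ * (g : G) = 1 := hcon _ (H.mul_mem (H.inv_mem hhH) g.2) h1
      have h3 : g = ⟨h, hhH⟩ := by
        apply Subtype.ext
        show (g : G) = h
        calc (g : G) = h * (h⁻¹ * (g : G)) := by group
          _ = h := by rw [h2, mul_one]
      rw [h3]; exact Subgroup.mem_zpowers _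
  -- the involution `c` lies in `H`
  have hcH : (c : G) ∈ H := by
    obtain ⟨j, hj⟩ := (IsPGroup.iff_orderOf.mp hPG) u
    have hj1 : 1 ≤ j := by
      by_contra hj0
      have : j = 0 := by omega
      rw [this, pow_zero] at hj
      exact hu1 (orderOf_eq_one_iff.mp hj)
    obtain ⟨i, rfl⟩ : ∃ i, j = i + 1 := ⟨j - 1, by omega⟩
    have h1 : (u ^ (2 ^ i)) ^ 2 = 1 := by
      rw [← pow_mul, ← pow_succ, ← hj, pow_orderOf_eq_one]
    have h2 : u ^ (2 ^ i) ≠ 1 := by
      intro h2
      have h3 := orderOf_dvd_of_pow_eq_one h2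
      rw [hj] at h3
      have h4 := Nat.le_of_dvd (by positivity) h3
      have h5 : 2 ^ (i + 1) = 2 * 2 ^ i := by rw [pow_succ]; ring
      have h6 : 0 < 2 ^ i := by positivity
      omega
    have h3 := Cfsg.Agent.Helper73.eq_of_sq_eq_one_of_mem_zpowers a (u ^ (2 ^ i)) (c : G)
      (Subgroup.pow_mem _ huA _) hcA h1 hc2 h2 hc1'
    rw [← h3]
    exact H.pow_mem huH _
  -- centralizers
  have hkey : ∀ d : G, d ∈ Subgroup.zpowers a → d * h = h * d → d ∈ H := by
    intro d hdA hdh
    have htop : Subgroup.centralizer ({d} : Set G) = ⊤ := by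
      apply Cfsg.Agent.Helper29.eq_top_of_index_prime Nat.prime_two hAi (b := h)
      · rw [Subgroup.zpowers_le, Subgroup.mem_centralizer_singleton_iff]
        obtain ⟨i, hi⟩ := Subgroup.mem_zpowers_iff.mp hdA
        rw [← hi]
        exact ((Commute.refl a).zpow_right i).eq
      · rw [Subgroup.mem_centralizer_singleton_iff]; exact hdh.symm
      · exact hhA
    have hdcen : ∀ g : G, g * d = d * g := by
      intro g
      have : g ∈ Subgroup.centralizer ({d} : Set G) := by rw [htop]; trivial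
      exact Subgroup.mem_centralizer_singleton_iff.mp this
    rcases hcen d hdcen with h1 | h1
    · rw [h1]; exact H.one_mem
    · rw [h1]; exact hcH
  intro e he
  rw [Subgroup.mem_centralizer_iff] at he
  by_cases heA : e ∈ Subgroup.zpowers a
  · exact hkey e heA (he h hhH).symm
  · have h1 : h⁻¹ * e ∈ Subgroup.zpowers a := by
      rw [Subgroup.mul_mem_iff_of_index_two hAi, inv_mem_iff]
      exact ⟨fun h' => absurd h' hhA, fun h' => absurd h' heA⟩
    have h2 : h⁻¹ * e * h = h * (h⁻¹ * e) := by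
      have := he h hhH
      calc h⁻¹ * e * h = h⁻¹ * (e * h) := by group
        _ = h⁻¹ * (h * e) := by rw [this]
        _ = h * (h⁻¹ * e) := by group
    have h3 := hkey _ h1 h2
    have h4 : e = h * (h⁻¹ * e) := by group
    rw [h4]
    exact H.mul_mem hhH h3

/-- Say that a group has self-centralizing non-cyclic subgroups when every non-cyclic subgroup H satisfies C_G(H) ≤ H. A finite non-abelian 2-group G of order 2^n has self-centralizing non-cyclic subgroups if and only if G has nilpotency class n − 1 (that is, G is dihedral, semidihedral or generalized quaternion). -/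
theorem result {G : Type*} [Group G] [Finite G] (hna : ¬ IsMulCommutative G) (n : ℕ) (hG : Nat.card G = 2 ^ n) :
    (∀ H : Subgroup G, ¬ IsCyclic ↥H → Subgroup.centralizer (H : Set G) ≤ H) ↔ (⊤ : Subgroup G).lowerCentralSeries (n - 2) ≠ ⊥ := by
  constructor
  · exact fwd hna n hG
  · intro hl H hH
    exact bwd n hG (three_le hna n hG) hl H hH

end Cfsg.Agent.S3919
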