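import Mathlib
import Cfsg.Statements.S3920

set_option autoImplicit false
open Cfsg

namespace Cfsg.Agent.S3920

open DihedralGroup

theorem two_tor_val {n : ℕ} [NeZero n] (x : ZMod n) (hx : x + x = 0) (hx0 : x ≠ 0) :
    x.val + x.val = n := by
  have h1 : ((x.val + x.val : ℕ) : ZMod n) = 0 := by
    rw [Nat.cast_add, ZMod.natCast_zmod_val]; exact hx
  rw [ZMod.natCast_eq_zero_iff] at h1
  have h2 : x.val < n := ZMod.val_lt x
  have h3 : x.val ≠ 0 := fun h => hx0 ((ZMod.val_eq_zero x).1 h)
  exact Nat.eq_of_dvd_of_lt_two_mul (by omega) h1 (by omega)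

theorem two_tor_unique {n : ℕ} [NeZero n] (a b : ZMod n) (ha : a + a = 0) (hb : b + b = 0)
    (ha0 : a ≠ 0) (hb0 : b ≠ 0) : a = b := by
  have h1 := two_tor_val a ha ha0
  have h2 := two_tor_val b hb hb0
  apply ZMod.val_injective n
  omega

theorem rot_cyclic {n : ℕ} [NeZero n] (H : Subgroup (DihedralGroup n))
    (h : ∀ x ∈ H, ∃ i, x = r i) : IsCyclic ↥H := by
  have hle : H ≤ Subgroup.zpowers (r (1 : ZMod n)) := by
    intro x hx
    obtain ⟨i, rfl⟩ := h x hx
    rw [Subgroup.mem_zpowers_iff]
    refine ⟨(i.val : ℤ), ?_⟩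
    rw [zpow_natCast, r_one_pow, ZMod.natCast_zmod_val]
  exact isCyclic_of_injective (Subgroup.inclusion hle) (Subgroup.inclusion_injective hle)

/-- D_{2n} (n ≥ 3) has every non-cyclic subgroup containing its centralizer iff n is odd or a power of 2. -/
theorem result (n : ℕ) (hn : 3 ≤ n) : (∀ H : Subgroup (DihedralGroup n), ¬ IsCyclic ↥H → Subgroup.centralizer (H : Set (DihedralGroup n)) ≤ H) ↔ (Odd n ∨ ∃ k : ℕ, n = 2 ^ k) := by
  have : NeZero n := ⟨by omega⟩
  constructor
  · intro hall
    by_contra hcon
    push Not at hcon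
    obtain ⟨hodd, hpow⟩ := hcon
    obtain ⟨k, m, hm, hnkm⟩ := Nat.exists_eq_two_pow_mul_odd (n := n) (by omega)
    have hk : k ≠ 0 := by
      rintro rfl
      apply hodd
      rw [hnkm]; simpa using hm
    have hm1 : m ≠ 1 := by
      rintro rfl
      exact hpow k (by rw [hnkm, mul_one])
    have hm3 : 3 ≤ m := by
      obtain ⟨t, ht⟩ := hm
      omega
    have hdvd : 2 ^ k ∣ n := ⟨m, hnkm⟩
    let ψ : ZMod n →+* ZMod (2 ^ k) := ZMod.castHom hdvd (ZMod (2 ^ k))
    let φ : DihedralGroup n → ZMod (2 ^ k) := fun x =>
      match x with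
      | r i => ψ i
      | sr i => ψ i
    let H : Subgroup (DihedralGroup n) :=
      { carrier := {x | φ x = 0}
        mul_mem' := by
          rintro (i | i) (j | j) hi hj
          · show ψ (i + j) = 0
            rw [map_add, show ψ i = 0 from hi, show ψ j = 0 from hj, add_zero]
          · show ψ (j - i) = 0
            rw [map_sub, show ψ i = 0 from hi, show ψ j = 0 from hj, sub_zero]
          · show ψ (i + j) = 0
            rw [map_add, show ψ i = 0 from hi, show ψ j = 0 from hj, add_zero]
          · show ψ (j - i) = 0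
            rw [map_sub, show ψ i = 0 from hi, show ψ j = 0 from hj, sub_zero]
        one_mem' := by
          show ψ 0 = 0
          exact map_zero ψ
        inv_mem' := by
          rintro (i | i) hi
          · show ψ (-i) = 0
            rw [map_neg, show ψ i = 0 from hi, neg_zero]
          · exact hi }
    have hd : ψ ((2 ^ k : ℕ) : ZMod n) = 0 := by
      rw [map_natCast]; exact ZMod.natCast_self (2 ^ k)
    have hrH : r ((2 ^ k : ℕ) : ZMod n) ∈ H := hd
    have hsH : sr (0 : ZMod n) ∈ H := map_zero ψ
    have hncyc : ¬ IsCyclic ↥H := by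
      intro hc
      have hcomm : ∀ a b : ↥H, a * b = b * a := by
        obtain ⟨g, hg⟩ := hc.exists_generator
        intro a b
        obtain ⟨m₁, rfl⟩ := Subgroup.mem_zpowers_iff.1 (hg a)
        obtain ⟨m₂, rfl⟩ := Subgroup.mem_zpowers_iff.1 (hg b)
        rw [← zpow_add, ← zpow_add, add_comm]
      have h1 := congrArg Subtype.val (hcomm ⟨_, hrH⟩ ⟨_, hsH⟩)
      simp only [Subgroup.coe_mul, r_mul_sr, sr_mul_r, zero_sub, zero_add] at h1
      have h2 : ((2 ^ k : ℕ) : ZMod n) + ((2 ^ k : ℕ) : ZMod n) = 0 := by
        have := sr.inj h1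
        linear_combination -this
      have h3 : ((2 ^ k + 2 ^ k : ℕ) : ZMod n) = 0 := by rw [Nat.cast_add]; exact h2
      rw [ZMod.natCast_eq_zero_iff] at h3
      have h4 : 2 ^ k * m ≤ 2 ^ k + 2 ^ k := by
        rw [← hnkm]; exact Nat.le_of_dvd (by positivity) h3
      have h5 : 2 ^ k * 3 ≤ 2 ^ k * m := Nat.mul_le_mul_left _ hm3
      have h6 : 0 < 2 ^ k := by positivity
      omega
    have hcen : r ((n / 2 : ℕ) : ZMod n) ∈ Subgroup.centralizer (H : Set (DihedralGroup n)) := by
      rw [Subgroup.mem_centralizer_iff]
      have heven : ((n / 2 : ℕ) : ZMod n) + ((n / 2 : ℕ) : ZMod n) = 0 := by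
        rw [← Nat.cast_add]
        have : n / 2 + n / 2 = n := by
          have : 2 ∣ n := by
            rw [hnkm]
            exact Dvd.dvd.mul_right (dvd_pow_self 2 hk) m
          omega
        rw [this]; exact ZMod.natCast_self n
      rintro (i | i) _
      · rw [r_mul_r, r_mul_r, add_comm]
      · rw [sr_mul_r, r_mul_sr]
        congr 1
        linear_combination heven
    have hnot : r ((n / 2 : ℕ) : ZMod n) ∉ H := by
      intro hmem
      have h1 : ψ ((n / 2 : ℕ) : ZMod n) = 0 := hmem
      rw [map_natCast, ZMod.natCast_eq_zero_iff] at h1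
      have h2 : n / 2 = 2 ^ (k - 1) * m := by
        have : n = 2 * (2 ^ (k - 1) * m) := by
          rw [hnkm, ← mul_assoc, ← pow_succ']
          congr 2; omega
        omega
      rw [h2] at h1
      have h3 : 2 ^ k = 2 ^ (k - 1) * 2 := by
        rw [← pow_succ]; congr 1; omega
      rw [h3] at h1
      have h4 : 2 ∣ m := Nat.dvd_of_mul_dvd_mul_left (by positivity) h1
      obtain ⟨t, ht⟩ := hm
      omega
    exact hnot (hall H hncyc hcen)
  · intro hn2 H hH c hc
    rw [Subgroup.mem_centralizer_iff] at hc
    -- H contains a reflection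
    have h1 : ∃ i, sr i ∈ H := by
      by_contra hcon
      push Not at hcon
      apply hH
      apply rot_cyclic
      rintro (i | i) hx
      · exact ⟨i, rfl⟩
      · exact absurd hx (hcon i)
    obtain ⟨i, hi⟩ := h1
    -- H contains a nontrivial rotation
    have h2 : ∃ j, j ≠ 0 ∧ r j ∈ H := by
      by_contra hcon
      push Not at hcon
      apply hH
      have hle : H ≤ Subgroup.zpowers (sr i) := by
        rintro (j | j) hx
        · have : j = 0 := by
            by_contra hj
            exact hcon j hj hx
          rw [this, ← one_def]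
          exact Subgroup.one_mem _
        · have h3 : sr i * sr j ∈ H := H.mul_mem hi hx
          rw [sr_mul_sr] at h3
          have : j - i = 0 := by
            by_contra hj
            exact hcon _ hj h3
          have : j = i := sub_eq_zero.1 this
          rw [this]
          exact Subgroup.mem_zpowers _
      exact isCyclic_of_injective (Subgroup.inclusion hle) (Subgroup.inclusion_injective hle)
    obtain ⟨j, hj0, hj⟩ := h2
    have hci := hc _ hi
    have hcj := hc _ hj
    rcases c with a | a
    · -- c = r a
      rw [sr_mul_r, r_mul_sr] at hci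
      have haa : a + a = 0 := by
        have := sr.inj hci
        linear_combination this
      by_cases ha0 : a = 0
      · rw [ha0, ← one_def]; exact H.one_mem
      · rcases hn2 with hodd | ⟨k, hk⟩
        · exfalso
          have := two_tor_val a haa ha0
          obtain ⟨t, ht⟩ := hodd
          omega
        · subst hk
          have hpow : (r j) ^ (2 ^ k) = 1 := by
            rw [r_pow, ZMod.natCast_self, mul_zero, one_def]
          have hord : orderOf (r j) ∣ 2 ^ k := orderOf_dvd_of_pow_eq_one hpow
          obtain ⟨e, he, hoe⟩ := (Nat.dvd_prime_pow Nat.prime_two).1 hord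
          have he0 : e ≠ 0 := by
            rintro rfl
            rw [pow_zero, orderOf_eq_one_iff, one_def] at hoe
            exact hj0 (r.inj hoe)
          have hy : (r j) ^ (2 ^ (e - 1)) ∈ H := H.pow_mem hj _
          rw [r_pow] at hy
          have hb0 : j * ((2 ^ (e - 1) : ℕ) : ZMod (2 ^ k)) ≠ 0 := by
            intro hb
            have h3 : (r j) ^ (2 ^ (e - 1)) = 1 := by rw [r_pow, hb, one_def]
            have h4 := orderOf_dvd_of_pow_eq_one h3
            rw [hoe] at h4
            have h5 := Nat.le_of_dvd (by positivity) h4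
            have h6 : 2 ^ (e - 1) < 2 ^ e := Nat.pow_lt_pow_right (by norm_num) (by omega)
            omega
          have hbb : j * ((2 ^ (e - 1) : ℕ) : ZMod (2 ^ k)) + j * ((2 ^ (e - 1) : ℕ) : ZMod (2 ^ k)) = 0 := by
            have h3 : (r j) ^ (2 ^ (e - 1) + 2 ^ (e - 1)) = 1 := by
              have : 2 ^ (e - 1) + 2 ^ (e - 1) = 2 ^ e := by
                rw [← two_mul, ← pow_succ']; congr 1; omega
              rw [this, ← hoe]; exact pow_orderOf_eq_one _
            rw [pow_add, r_pow, r_mul_r, one_def] at h3
            exact r.inj h3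
          rw [two_tor_unique a _ haa hbb ha0 hb0]
          exact hy
    · -- c = sr a
      rw [sr_mul_sr, sr_mul_sr] at hci
      rw [r_mul_sr, sr_mul_r] at hcj
      have hjj : j + j = 0 := by
        have := sr.inj hcj
        linear_combination -this
      have hai : (a - i) + (a - i) = 0 := by
        have := r.inj hci
        linear_combination this
      by_cases hai0 : a - i = 0
      · have : a = i := sub_eq_zero.1 hai0
        rw [this]; exact hi
      · have h3 := two_tor_unique (a - i) j hai hjj hai0 hj0
        have h4 : a = i + j := by rw [← h3]; ring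
        rw [h4, ← sr_mul_r]
        exact H.mul_mem hi hj

end Cfsg.Agent.S3920
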