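import Cfsg.Statements.S3947
import Cfsg.Agent.Helper8.Flavell

set_option autoImplicit false
open Cfsg

namespace Cfsg.Agent.S3947

open Cfsg.Agent.Helper72 Cfsg.Agent.Helper8.Flavell
open scoped Cfsg.Agent.Helper8.Flavell

section
variable {X : Type*} [Group X]

/-- The facts available about `A` and its distinguished maximal subgroup `M` in the inductive
step, together with the tool `ih` extracted from the induction hypothesis. -/
structure Setup (A M : Subgroup X) : Prop where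
  top : AClosed A ⊤
  coatom : IsCoatom M
  le : A ≤ M
  normM : Subgroup.normalizer (M : Set X) ≤ M
  normA : Subgroup.normalizer (A : Set X) ≤ M
  sub : ∀ K : Subgroup X, IsCoatom K → A ≤ K → K ≠ M → SubnIn K A
  closed : ∀ H : Subgroup X, AClosed A H → H ≠ ⊤ → H ≤ M
  ih : ∀ C₁ C₂ L : Subgroup X, IsCoatom L → AClosed C₁ ⊤ →
    Nat.card A < Nat.card (C₁ ⊔ C₂ : Subgroup X) → C₁ ⊔ C₂ ≤ L →
    (∀ H S : Subgroup X, H ≠ ⊤ → C₁ ⊔ C₂ ≤ H → SubnIn H S → (AClosed C₁ S ∨ AClosed C₂ S) →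
      S ≤ L) →
    ∀ H' : Subgroup X, IsCoatom H' → C₁ ⊔ C₂ ≤ H' → H' = L

variable {A M : Subgroup X}

theorem top_cj (hS : Setup A M) (g : X) : AClosed cj(A, g) ⊤ := by
  have := hS.top.map (MulAut.conj g)
  rwa [cj_top] at this

theorem sub_cj (hS : Setup A M) (g : X) (K : Subgroup X) (hK : IsCoatom K) (hle : cj(A, g) ≤ K)
    (hne : K ≠ cj(M, g)) : SubnIn K cj(A, g) := by
  have h1 : A ≤ cj(K, g⁻¹) := by
    have := cj_mono hle g⁻¹
    rwa [cj_inv_cj] at this
  have h2 : cj(K, g⁻¹) ≠ M := by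
    intro e
    apply hne
    rw [← e, cj_cj_inv]
  have h3 := (hS.sub _ (isCoatom_cj hK g⁻¹) h1 h2).map (MulAut.conj g)
  rwa [cj_cj_inv] at h3

theorem closed_cj (hS : Setup A M) (g : X) (H : Subgroup X) (hH : AClosed cj(A, g) H)
    (hne : H ≠ ⊤) : H ≤ cj(M, g) := by
  have h1 := hH.map (MulAut.conj g⁻¹)
  rw [cj_inv_cj] at h1
  have h2 := cj_mono (hS.closed _ h1 (cj_ne_top hne g⁻¹)) g
  rwa [cj_cj_inv] at h2

theorem card_lt_sup [Finite X] {C₁ C₂ : Subgroup X} (hne : C₁ ≠ C₂)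
    (hcard : Nat.card C₂ = Nat.card C₁) : Nat.card C₁ < Nat.card (C₁ ⊔ C₂ : Subgroup X) := by
  apply card_lt_of_lt
  refine lt_of_le_of_ne le_sup_left (fun e => hne ?_)
  have hle : C₂ ≤ C₁ := le_sup_right.trans e.symm.le
  exact (Subgroup.eq_of_le_of_card_ge hle (by omega)).symm

theorem card_lt_sup_cj [Finite X] (g h : X) (hne : cj(A, g) ≠ cj(A, h)) :
    Nat.card A < Nat.card (cj(A, g) ⊔ cj(A, h) : Subgroup X) := by
  have := card_lt_sup hne (by rw [card_cj, card_cj])
  rwa [card_cj] at this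

/-- Two conjugates, one of which lies in the distinguished maximal subgroup of the other. -/
theorem P1 [Finite X] (hS : Setup A M) (g h : X) (hne : cj(A, g) ≠ cj(A, h))
    (hle : cj(A, h) ≤ cj(M, g)) (hor : ¬ cj(A, g) ≤ cj(M, h) ∨ cj(M, h) = cj(M, g)) :
    ∀ H' : Subgroup X, IsCoatom H' → cj(A, g) ⊔ cj(A, h) ≤ H' → H' = cj(M, g) := by
  apply hS.ih cj(A, g) cj(A, h) cj(M, g) (isCoatom_cj hS.coatom g) (top_cj hS g)
    (card_lt_sup_cj g h hne) (sup_le (cj_mono hS.le g) hle)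
  intro H S hH hBH hsub hcl
  have hSne : S ≠ ⊤ := fun e => hH (top_le_iff.mp (e ▸ hsub.le))
  rcases hcl with hcl | hcl
  · exact closed_cj hS g S hcl hSne
  · rcases hor with hor | hor
    · obtain ⟨H'', hco, hHH⟩ := exists_coatom_ge hH
      have hne' : H'' ≠ cj(M, h) := fun e => hor (e ▸ (le_sup_left.trans hBH).trans hHH)
      have h1 : SubnIn H'' cj(A, h) :=
        sub_cj hS h H'' hco ((le_sup_right.trans hBH).trans hHH) hne'
      have h2 : SubnIn S cj(A, h) := subnIn_restrict h1 S hcl.1 (hsub.le.trans hHH)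
      have h3 : cj(A, h) = S := AClosed.eq_of_subnIn h2 hcl le_rfl
      rw [← h3]; exact hle
    · rw [← hor]; exact closed_cj hS h S hcl hSne

/-- Two conjugates lying in two common maximal subgroups lie in each other's distinguished
maximal subgroups. -/
theorem P2 [Finite X] (hS : Setup A M) (g h : X) (H₁ H₂ : Subgroup X) (hc1 : IsCoatom H₁)
    (hc2 : IsCoatom H₂) (hne : H₁ ≠ H₂) (h1 : cj(A, g) ⊔ cj(A, h) ≤ H₁)
    (h2 : cj(A, g) ⊔ cj(A, h) ≤ H₂) : cj(A, h) ≤ cj(M, g) := by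
  by_contra hcon
  have hAne : cj(A, g) ≠ cj(A, h) := fun e => hcon (e ▸ cj_mono hS.le g)
  by_cases hgh : cj(A, g) ≤ cj(M, h)
  · have key := P1 hS h g hAne.symm hgh (Or.inl hcon)
    have e1 := key H₁ hc1 (by rw [sup_comm]; exact h1)
    have e2 := key H₂ hc2 (by rw [sup_comm]; exact h2)
    exact hne (e1.trans e2.symm)
  · have key := hS.ih cj(A, g) cj(A, h) H₁ hc1 (top_cj hS g) (card_lt_sup_cj g h hAne) h1 ?_
    · exact hne (key H₂ hc2 h2).symm
    · intro H S hH hBH hsub hcl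
      obtain ⟨H'', hco, hHH⟩ := exists_coatom_ge hH
      rcases hcl with hcl | hcl
      · have hne' : H'' ≠ cj(M, g) := fun e => hcon (e ▸ (le_sup_right.trans hBH).trans hHH)
        have s1 := sub_cj hS g H'' hco ((le_sup_left.trans hBH).trans hHH) hne'
        have s2 := subnIn_restrict s1 S hcl.1 (hsub.le.trans hHH)
        have s3 : cj(A, g) = S := AClosed.eq_of_subnIn s2 hcl le_rfl
        rw [← s3]; exact le_sup_left.trans h1
      · have hne' : H'' ≠ cj(M, h) := fun e => hgh (e ▸ (le_sup_left.trans hBH).trans hHH)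
        have s1 := sub_cj hS h H'' hco ((le_sup_right.trans hBH).trans hHH) hne'
        have s2 := subnIn_restrict s1 S hcl.1 (hsub.le.trans hHH)
        have s3 : cj(A, h) = S := AClosed.eq_of_subnIn s2 hcl le_rfl
        rw [← s3]; exact le_sup_right.trans h1

/-- Inside a maximal subgroup `L` other than its distinguished one, a conjugate of `A` has a
subgroup `B` lying only in `L`, not in the distinguished maximal subgroup, all of whose
conjugates of the given conjugate of `A` lie in the distinguished maximal subgroup. -/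
theorem chainGood [Finite X] (hS : Setup A M) (g : X) (L : Subgroup X) (hL : IsCoatom L)
    (hne : L ≠ cj(M, g)) (hle : cj(A, g) ≤ L) :
    ∃ B : Subgroup X, B ≤ L ∧ (∀ H : Subgroup X, IsCoatom H → B ≤ H → H = L) ∧
      ¬ B ≤ cj(M, g) ∧ ∀ b ∈ B, cj(cj(A, g), b) ≤ cj(M, g) := by
  have hsub : SubnIn L cj(A, g) := sub_cj hS g L hL hle hne
  have hCM : cj(A, g) ≤ cj(M, g) := cj_mono hS.le g
  have hstep : ∀ T : Subgroup X, (T ≤ L ∧ ∀ H : Subgroup X, IsCoatom H → T ≤ H → H = L) →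
      cj(A, g) ≤ T → ¬ ncl T cj(A, g) ≤ cj(M, g) →
      (ncl T cj(A, g) ≤ L ∧ ∀ H : Subgroup X, IsCoatom H → ncl T cj(A, g) ≤ H → H = L) := by
    intro T hQ hCT hn
    have hTL : ncl T cj(A, g) ≤ L := (ncl_le_self hCT).trans hQ.1
    refine ⟨hTL, ?_⟩
    have hall : ∀ H : Subgroup X, ncl T cj(A, g) ≤ H → H < ⊤ → SubnIn H (ncl T cj(A, g)) := by
      intro H hH hlt
      obtain ⟨H'', hco, hHH⟩ := exists_coatom_ge hlt.ne
      apply subnIn_ncl
      intro t ht
      have hne'' : H'' ≠ cj(M, t * g) := by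
        intro e
        apply hn
        have h1 : ncl T cj(A, g) ≤ cj(cj(M, g), t) := by
          rw [← cj_mul, ← e]; exact hH.trans hHH
        have h2 := cj_mono h1 t⁻¹
        rw [cj_inv_cj] at h2
        rwa [map_conj_eq_of_mem_normalizer _ _ (le_normalizer_ncl (T.inv_mem ht))] at h2
      have hle' : cj(A, t * g) ≤ H'' := by
        rw [cj_mul]; exact ((cj_le_ncl ht).trans hH).trans hHH
      have s1 := sub_cj hS (t * g) H'' hco hle' hne''
      rw [cj_mul] at s1
      exact subnIn_restrict s1 H ((cj_le_ncl ht).trans hH) hHH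
    have hnot : ¬ SubnIn ⊤ (ncl T cj(A, g)) := by
      intro hs
      have h1 : ncl T cj(A, g) = ⊤ := AClosed.eq_of_subnIn hs (top_cj hS g) le_ncl
      exact hL.1 (top_le_iff.mp (h1 ▸ hTL))
    obtain ⟨M', hM'lt, hM'⟩ := zipper ⊤ _ (ncl T cj(A, g)) le_top le_rfl hall hnot
    have hLM' : L ≤ M' := hM' L hTL (lt_top_iff_ne_top.mpr hL.1)
    have hLeq : L = M' := by
      by_contra hne2
      exact hM'lt.ne (hL.2 M' (lt_of_le_of_ne hLM' hne2))
    intro H hH hle'
    have h3 : H ≤ L := by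
      rw [hLeq]; exact hM' H hle' (lt_top_iff_ne_top.mpr hH.1)
    exact coatom_eq_of_le hH hL h3
  obtain ⟨B, hQ, hB, hncl⟩ := chain_exists cj(A, g) cj(M, g)
    (fun T => T ≤ L ∧ ∀ H : Subgroup X, IsCoatom H → T ≤ H → H = L) hstep hCM _ L le_rfl hsub
    ⟨le_rfl, fun H hH hle' => (coatom_eq_of_le hL hH hle').symm⟩
    (fun h => hne (coatom_eq_of_le hL (isCoatom_cj hS.coatom g) h))
  exact ⟨B, hQ.1, hQ.2, hB, fun b hb => (cj_le_ncl hb).trans hncl⟩

/-- The final contradiction: `M` is the only maximal subgroup containing `A`. -/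
theorem final [Finite X] (hS : Setup A M) (K : Subgroup X) (hK : IsCoatom K) (hAK : A ≤ K) :
    K = M := by
  by_contra hne
  have hsub := hS.sub K hK hAK hne
  have hnn : ¬ K ≤ Subgroup.normalizer (A : Set X) :=
    fun h => hne (coatom_eq_of_le hK hS.coatom (h.trans hS.normA))
  obtain ⟨x, hxK, hxne, hxN⟩ := hsub.exists_conj hnn
  have hA1M : cj(A, x) ≤ M := hxN.trans hS.normA
  have hA1K : cj(A, x) ≤ K := map_conj_le_of_mem hAK hxK
  have hxM : x ∉ M := by
    intro hx
    have hMx : cj(M, x) = cj(M, 1) := by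
      rw [cj_one]; exact map_conj_eq_of_mem_normalizer M x (Subgroup.le_normalizer hx)
    have := P1 hS 1 x (by rw [cj_one]; exact hxne.symm) (by rw [cj_one]; exact hA1M)
      (Or.inr hMx) K hK (by rw [cj_one]; exact sup_le hAK hA1K)
    rw [cj_one] at this
    exact hne this
  have hM1ne : cj(M, x) ≠ M :=
    fun e => hxM (hS.normM (mem_normalizer_of_map_conj_eq M x e))
  have hM1co : IsCoatom cj(M, x) := isCoatom_cj hS.coatom x
  have hA0M1 : A ≤ cj(M, x) := by
    have := P2 hS x 1 K M hK hS.coatom hne (by rw [cj_one]; exact sup_le hA1K hAK)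
      (by rw [cj_one]; exact sup_le hA1M hS.le)
    rwa [cj_one] at this
  obtain ⟨B, hBM, hBQ, hBn, hBc⟩ := chainGood hS x M hS.coatom hM1ne.symm hA1M
  obtain ⟨B', hB'M, hB'Q, hB'n, hB'c⟩ := chainGood hS 1 cj(M, x) hM1co
    (by rw [cj_one]; exact hM1ne) (by rw [cj_one]; exact hA0M1)
  obtain ⟨P, hP⟩ : ∃ P : Subgroup X,
      P = sSup {E : Subgroup X | ∃ g : X, E = cj(A, g) ∧ E ≤ M ⊓ cj(M, x)} := ⟨_, rfl⟩
  have hPD : P ≤ M ⊓ cj(M, x) := by
    rw [hP]; apply sSup_le; rintro E ⟨g, -, h⟩; exact h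
  have hmem : ∀ g : X, cj(A, g) ≤ M ⊓ cj(M, x) → cj(A, g) ≤ P := by
    intro g hg; rw [hP]; exact le_sSup ⟨g, rfl, hg⟩
  have hAP : A ≤ P := by
    have := hmem 1 (by rw [cj_one]; exact le_inf hS.le hA0M1)
    rwa [cj_one] at this
  have hstab : ∀ b : X, (∀ g : X, cj(A, g) ≤ M ⊓ cj(M, x) → cj(A, b * g) ≤ M ⊓ cj(M, x)) →
      cj(P, b) ≤ P := by
    intro b hb
    rw [Subgroup.map_le_iff_le_comap, hP]
    apply sSup_le
    rintro E ⟨g, rfl, hE⟩
    rw [← Subgroup.map_le_iff_le_comap, ← hP, ← cj_mul]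
    exact hmem (b * g) (hb g hE)
  have hBP : B ≤ Subgroup.normalizer (P : Set X) := by
    apply le_normalizer_of_map_conj_le
    intro b hb
    apply hstab
    intro g hE
    have hbi : b⁻¹ ∈ B := B.inv_mem hb
    have hC : cj(A, b⁻¹ * x) ≤ M ⊓ cj(M, x) := by
      rw [cj_mul]
      exact le_inf (map_conj_le_of_mem hA1M (hBM hbi)) (hBc b⁻¹ hbi)
    have h1 := P2 hS (b⁻¹ * x) g M cj(M, x) hS.coatom hM1co hM1ne.symm
      (sup_le (hC.trans inf_le_left) (hE.trans inf_le_left))
      (sup_le (hC.trans inf_le_right) (hE.trans inf_le_right))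
    rw [cj_mul] at h1
    have h2 := cj_mono h1 b
    rw [cj_cj_inv, ← cj_mul] at h2
    refine le_inf ?_ h2
    rw [cj_mul]
    exact map_conj_le_of_mem (hE.trans inf_le_left) (hBM hb)
  have hB'P : B' ≤ Subgroup.normalizer (P : Set X) := by
    apply le_normalizer_of_map_conj_le
    intro b hb
    apply hstab
    intro g hE
    have hbi : b⁻¹ ∈ B' := B'.inv_mem hb
    have hC : cj(A, b⁻¹) ≤ M ⊓ cj(M, x) := by
      have h0 := hB'c b⁻¹ hbi
      rw [cj_one, cj_one] at h0
      exact le_inf h0 (map_conj_le_of_mem hA0M1 (hB'M hbi))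
    have h1 := P2 hS b⁻¹ g M cj(M, x) hS.coatom hM1co hM1ne.symm
      (sup_le (hC.trans inf_le_left) (hE.trans inf_le_left))
      (sup_le (hC.trans inf_le_right) (hE.trans inf_le_right))
    have h2 := cj_mono h1 b
    rw [cj_cj_inv, ← cj_mul] at h2
    refine le_inf h2 ?_
    rw [cj_mul]
    exact map_conj_le_of_mem (hE.trans inf_le_right) (hB'M hb)
  have hNP : Subgroup.normalizer (P : Set X) ≠ ⊤ := by
    intro e
    have h1 : (⊤ : Subgroup X) ≤ P := hS.top.2 P hAP le_top (e ▸ le_rfl)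
    exact hS.coatom.1 (top_le_iff.mp (h1.trans (hPD.trans inf_le_left)))
  obtain ⟨L, hL, hNL⟩ := exists_coatom_ge hNP
  have e1 := hBQ L hL (hBP.trans hNL)
  have e2 := hB'Q L hL (hB'P.trans hNL)
  exact hM1ne (e2.symm.trans e1)

/-- Flavell's generalised zipper lemma, inductive form. -/
theorem main [Finite X] : ∀ (n : ℕ) (A : Subgroup X), Nat.card X - Nat.card A ≤ n → A ≠ ⊤ →
    AClosed A ⊤ → Ystar A ≠ ⊤ → ∃! M : Subgroup X, IsCoatom M ∧ A ≤ M := by
  intro n
  induction n with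
  | zero =>
    intro A hcard hA _ _
    exfalso; apply hA
    have h1 := Subgroup.card_le_card_group A
    exact Subgroup.eq_top_of_card_eq A (by omega)
  | succ n ih =>
    intro A hcard hA htop hY
    have hYcl : AClosed A (Ystar A) := aclosed_Ystar hA
    have hall : ∀ H : Subgroup X, Ystar A ≤ H → H < ⊤ → SubnIn H (Ystar A) := by
      intro H hYH hH
      obtain ⟨S, hS, hcS⟩ := exists_aclosed_subnIn A _ H le_rfl (hYcl.1.trans hYH)
      have hSne : S ≠ ⊤ := fun e => hH.ne (top_le_iff.mp (e ▸ hS.le))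
      have hSY : S ≤ Ystar A := le_Ystar hcS hSne
      have : S = Ystar A := AClosed.eq_of_subnIn (subnIn_restrict hS _ hSY hYH) hYcl hcS.1
      rw [← this]; exact hS
    have hnot : ¬ SubnIn ⊤ (Ystar A) := fun hs => hY (AClosed.eq_of_subnIn hs htop hYcl.1)
    obtain ⟨M, hMlt, hM⟩ := zipper ⊤ _ (Ystar A) le_top le_rfl hall hnot
    have hYM : Ystar A ≤ M := hM _ le_rfl (lt_top_iff_ne_top.mpr hY)
    have hMco : IsCoatom M := by
      refine ⟨hMlt.ne, fun b hb => ?_⟩
      by_contra hbt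
      exact absurd (hM b (hYM.trans hb.le) (lt_top_iff_ne_top.mpr hbt)) (not_le_of_gt hb)
    have hAM : A ≤ M := hYcl.1.trans hYM
    have hnormal : ∀ N : Subgroup X, A ≤ N → N ≠ ⊤ →
        Subgroup.normalizer (N : Set X) ≠ ⊤ := by
      intro N hAN hN e
      exact hN (top_le_iff.mp (htop.2 N hAN le_top (e ▸ le_rfl)))
    have hnormM : Subgroup.normalizer (M : Set X) ≤ M :=
      hM _ (hYM.trans Subgroup.le_normalizer) (lt_top_iff_ne_top.mpr (hnormal M hAM hMlt.ne))
    have hnormY : Subgroup.normalizer (Ystar A : Set X) ≤ M :=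
      hM _ Subgroup.le_normalizer (lt_top_iff_ne_top.mpr (hnormal _ hYcl.1 hY))
    have hnormA : Subgroup.normalizer (A : Set X) ≤ M := by
      refine le_trans ?_ hnormY
      apply le_normalizer_of_map_conj_le
      intro s hs
      apply le_Ystar
      · have := hYcl.map (MulAut.conj s)
        rwa [map_conj_eq_of_mem_normalizer A s hs] at this
      · exact cj_ne_top hY s
    have hsubK : ∀ K : Subgroup X, IsCoatom K → A ≤ K → K ≠ M → SubnIn K A := by
      intro K hK hAK hne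
      obtain ⟨S, hS, hcS⟩ := exists_aclosed_subnIn A _ K le_rfl hAK
      have hSne : S ≠ ⊤ := fun e => hK.1 (top_le_iff.mp (e ▸ hS.le))
      have hSY := le_Ystar hcS hSne
      by_cases hSA : S = A
      · rw [← hSA]; exact hS
      · exfalso
        have hlt : A < S := lt_of_le_of_ne hcS.1 (Ne.symm hSA)
        have hc := card_lt_of_lt hlt
        have hYS : Ystar S ≠ ⊤ := by
          intro e
          apply hY
          rw [eq_top_iff, ← e]
          apply sSup_le
          rintro H ⟨hH, hHne⟩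
          exact le_Ystar (hcS.trans hH) hHne
        have hStop : AClosed S ⊤ :=
          ⟨le_top, fun N hSN _ hn => htop.2 N (hcS.1.trans hSN) le_top hn⟩
        obtain ⟨L, -, huniq⟩ := ih S (by omega) hSne hStop hYS
        have e1 := huniq K ⟨hK, hS.le⟩
        have e2 := huniq M ⟨hMco, hSY.trans hYM⟩
        exact hne (e1.trans e2.symm)
    have hsetup : Setup A M := by
      refine ⟨htop, hMco, hAM, hnormM, hnormA, hsubK,
        fun H h hH => (le_Ystar h hH).trans hYM, ?_⟩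
      intro C₁ C₂ L hL hC1top hcardB hBL hall' H' hH' hBH'
      have hBne : C₁ ⊔ C₂ ≠ ⊤ := fun e => hL.1 (top_le_iff.mp (e ▸ hBL))
      have hBtop : AClosed (C₁ ⊔ C₂) ⊤ :=
        ⟨le_top, fun N hN _ hn => hC1top.2 N (le_sup_left.trans hN) le_top hn⟩
      have hYB : Ystar (C₁ ⊔ C₂) ≠ ⊤ := by
        intro e
        apply hL.1
        rw [eq_top_iff, ← e]
        apply sSup_le
        rintro H ⟨hH, hHne⟩
        obtain ⟨S₁, hS₁, hc₁⟩ := exists_aclosed_subnIn C₁ _ H le_rfl (le_sup_left.trans hH.1)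
        obtain ⟨S₂, hS₂, hc₂⟩ := exists_aclosed_subnIn C₂ _ H le_rfl (le_sup_right.trans hH.1)
        have hJ : SubnIn H (S₁ ⊔ S₂) := hS₁.join hS₂
        have hBJ : C₁ ⊔ C₂ ≤ S₁ ⊔ S₂ := sup_le_sup hc₁.1 hc₂.1
        have hJH : S₁ ⊔ S₂ = H := AClosed.eq_of_subnIn hJ hH hBJ
        rw [← hJH]
        exact sup_le (hall' H S₁ hHne hH.1 hS₁ (Or.inl hc₁))
          (hall' H S₂ hHne hH.1 hS₂ (Or.inr hc₂))
      obtain ⟨L', -, huniq⟩ := ih (C₁ ⊔ C₂) (by omega) hBne hBtop hYB
      exact (huniq H' ⟨hH', hBH'⟩).trans (huniq L ⟨hL, hBL⟩).symm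
    exact ⟨M, ⟨hMco, hAM⟩, fun K hK => final hsetup K hK.1 hK.2⟩

end

/-- Let G be a finite group and A a proper subgroup of G whose normal closure is G. Let Y be the join of all proper subgroups H of G that contain A and are generated by their own conjugates of A (the normal closure of A in H is H). Then either Y = G, or A is contained in exactly one maximal subgroup of G. -/
theorem result {G : Type*} [Group G] [Finite G] (A : Subgroup G) (hA : Subgroup.normalClosure (A : Set G) = ⊤) (hAG : A ≠ ⊤) :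
    sSup {H : Subgroup G | A ≤ H ∧ H ≠ ⊤ ∧ Subgroup.normalClosure ((A.subgroupOf H : Subgroup ↥H) : Set ↥H) = ⊤} = ⊤ ∨
      ∃! M : Subgroup G, IsCoatom M ∧ A ≤ M := by
  rw [or_iff_not_imp_left]
  intro hne
  have htop : AClosed A ⊤ := by
    refine ⟨le_top, fun N hAN _ hn => ?_⟩
    have hN : N.Normal := by
      refine ⟨fun n hn' g => ?_⟩
      exact (Subgroup.mem_normalizer_iff.mp (hn (Subgroup.mem_top g)) n).mp hn'
    rw [← hA]
    exact Subgroup.normalClosure_le_normal hAN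
  apply main _ A le_rfl hAG htop
  intro e
  apply hne
  have hle : Ystar A ≤ sSup {H : Subgroup G | A ≤ H ∧ H ≠ ⊤ ∧
      Subgroup.normalClosure ((A.subgroupOf H : Subgroup ↥H) : Set ↥H) = ⊤} := by
    apply sSup_le
    rintro H ⟨hH, hHne⟩
    apply le_sSup
    exact ⟨hH.1, hHne, normalClosure_subgroupOf_eq_top hH⟩
  exact top_le_iff.mp (e ▸ hle)

end Cfsg.Agent.S3947
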