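import Cfsg.Statements.S3927
import Cfsg.Agent.S3947

set_option autoImplicit false
open Cfsg

namespace Cfsg.Agent.S3927

open Cfsg.Agent.Helper72 Cfsg.Agent.Helper8.Flavell
open scoped Cfsg.Agent.Helper8.Flavell

universe u

/-- `th a b = b a b⁻¹`. -/
def th {Γ : Type*} [Group Γ] (a b : Γ) : Γ := b * a * b⁻¹

theorem th_self {Γ : Type*} [Group Γ] (a : Γ) : th a a = a := by simp [th]

theorem th_iter_self {Γ : Type*} [Group Γ] (a : Γ) (k : ℕ) : (th a)^[k] a = a :=
  Function.iterate_fixed (th_self a) k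

theorem th_iter_coe {Γ : Type*} [Group Γ] (H : Subgroup Γ) (a' : H) (k : ℕ) :
    ∀ b : H, (((th a')^[k] b : H) : Γ) = (th (a' : Γ))^[k] (b : Γ) := by
  induction k with
  | zero => intro b; rfl
  | succ k ih =>
    intro b
    rw [Function.iterate_succ_apply, Function.iterate_succ_apply, ih]
    rfl

/-- If the conjugates of `a` generate `Γ`, then so do the `k`-th iterates of `b ↦ b a b⁻¹`
on the conjugates of `a`. -/
theorem gen_aux : ∀ (n : ℕ) (Γ : Type u) [Group Γ] [Finite Γ], Nat.card Γ ≤ n → ∀ a : Γ,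
    Subgroup.normalClosure ({a} : Set Γ) = ⊤ → ∀ k : ℕ,
    Subgroup.closure ((th a)^[k] '' {b | ∃ g : Γ, b = g * a * g⁻¹}) = ⊤ := by
  intro n
  induction n with
  | zero =>
    intro Γ _ _ hcard
    have : 0 < Nat.card Γ := Nat.card_pos
    omega
  | succ n ih =>
    intro Γ _ _ hcard a ha k
    have haL : a ∈ Subgroup.closure ((th a)^[k] '' {b | ∃ g : Γ, b = g * a * g⁻¹}) :=
      Subgroup.subset_closure ⟨a, ⟨1, by simp⟩, th_iter_self a k⟩
    by_cases hA : Subgroup.zpowers a = ⊤
    · rw [eq_top_iff, ← hA, Subgroup.zpowers_le]; exact haL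
    · have hA' : Subgroup.normalClosure ((Subgroup.zpowers a : Subgroup Γ) : Set Γ) = ⊤ := by
        rw [eq_top_iff, ← ha]
        apply Subgroup.normalClosure_mono
        intro x hx
        rw [Set.mem_singleton_iff] at hx
        rw [hx]
        exact Subgroup.mem_zpowers a
      rcases Cfsg.Agent.S3947.result (Subgroup.zpowers a) hA' hA with hY | hM
      · rw [eq_top_iff, ← hY]
        apply sSup_le
        rintro H ⟨haH, hHne, hHcl⟩
        have haH' : a ∈ H := haH (Subgroup.mem_zpowers a)
        have hcardH : Nat.card H ≤ n := by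
          have h1 := card_lt_of_lt (lt_top_iff_ne_top.mpr hHne)
          rw [Subgroup.card_top] at h1
          omega
        have hncl : Subgroup.normalClosure ({(⟨a, haH'⟩ : H)} : Set H) = ⊤ := by
          rw [eq_top_iff, ← hHcl]
          apply Subgroup.normalClosure_le_normal
          intro y hy
          have hy' : (y : Γ) ∈ Subgroup.zpowers a := Subgroup.mem_subgroupOf.mp hy
          obtain ⟨m, hm⟩ := Subgroup.mem_zpowers_iff.mp hy'
          have hye : y = (⟨a, haH'⟩ : H) ^ m := by
            apply Subtype.ext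
            rw [Subgroup.coe_zpow]
            exact hm.symm
          rw [hye]
          have hmem : (⟨a, haH'⟩ : H) ∈ Subgroup.normalClosure ({(⟨a, haH'⟩ : H)} : Set H) :=
            Subgroup.subset_normalClosure (Set.mem_singleton _)
          exact Subgroup.zpow_mem _ hmem m
        have hIH : Subgroup.closure
            ((th (⟨a, haH'⟩ : H))^[k] '' {b | ∃ g : H, b = g * ⟨a, haH'⟩ * g⁻¹}) = ⊤ :=
          ih (↥H) hcardH (⟨a, haH'⟩ : H) hncl k
        intro x hx
        have hx' : (⟨x, hx⟩ : H) ∈ Subgroup.closure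
            ((th (⟨a, haH'⟩ : H))^[k] '' {b | ∃ g : H, b = g * ⟨a, haH'⟩ * g⁻¹}) := by
          rw [hIH]; trivial
        have h2 : H.subtype ⟨x, hx⟩ ∈ (Subgroup.closure
            ((th (⟨a, haH'⟩ : H))^[k] '' {b | ∃ g : H, b = g * ⟨a, haH'⟩ * g⁻¹})).map
              H.subtype := Subgroup.mem_map_of_mem _ hx'
        rw [MonoidHom.map_closure] at h2
        refine Subgroup.closure_mono ?_ h2
        rintro _ ⟨_, ⟨b, ⟨g, rfl⟩, rfl⟩, rfl⟩
        refine ⟨(g : Γ) * a * (g : Γ)⁻¹, ⟨g, rfl⟩, ?_⟩
        exact (th_iter_coe H ⟨a, haH'⟩ k (g * ⟨a, haH'⟩ * g⁻¹)).symm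
      · obtain ⟨M, ⟨hMco, hAM⟩, hMuniq⟩ := hM
        by_contra hL
        obtain ⟨M', hM'co, hLM'⟩ := exists_coatom_ge hL
        have hM'eq : M' = M :=
          hMuniq M' ⟨hM'co, (Subgroup.zpowers_le.mpr haL).trans hLM'⟩
        rw [hM'eq] at hLM'
        have haM : a ∈ M := hAM (Subgroup.mem_zpowers a)
        have hex : ∃ g : Γ, g * a * g⁻¹ ∉ M := by
          by_contra hall
          push Not at hall
          apply hMco.1
          rw [eq_top_iff, ← ha]
          unfold Subgroup.normalClosure
          rw [Subgroup.closure_le]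
          intro x hx
          rw [Group.mem_conjugatesOfSet_iff] at hx
          obtain ⟨a', ha', hconj⟩ := hx
          rw [Set.mem_singleton_iff] at ha'
          subst ha'
          obtain ⟨c, hc⟩ := isConj_iff.mp hconj
          rw [← hc]; exact hall c
        obtain ⟨g, hg⟩ := hex
        have key : ∀ j : ℕ, ∀ b : Γ, b ∉ M → (th a)^[j] b ∈ M → False := by
          intro j
          induction j with
          | zero => intro b hb h; exact hb h
          | succ j ihj =>
            intro b hb h
            rw [Function.iterate_succ_apply] at h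
            by_cases h1 : th a b ∈ M
            · have haM' : a ∈ cj(M, b⁻¹) := by
                refine ⟨th a b, h1, ?_⟩
                simp only [MulEquiv.coe_toMonoidHom, MulAut.conj_apply, th]
                group
              have hco : IsCoatom cj(M, b⁻¹) := isCoatom_cj hMco b⁻¹
              have heq : cj(M, b⁻¹) = M :=
                hMuniq _ ⟨hco, Subgroup.zpowers_le.mpr haM'⟩
              have hbn : b ∈ Subgroup.normalizer (M : Set Γ) := by
                have := mem_normalizer_of_map_conj_eq M b⁻¹ heq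
                simpa using Subgroup.inv_mem _ this
              by_cases hN : Subgroup.normalizer (M : Set Γ) = M
              · rw [hN] at hbn; exact hb hbn
              · have hlt : M < Subgroup.normalizer (M : Set Γ) :=
                  lt_of_le_of_ne Subgroup.le_normalizer (Ne.symm hN)
                have htop := hMco.2 _ hlt
                have hgn : g ∈ Subgroup.normalizer (M : Set Γ) := by rw [htop]; trivial
                exact hg ((Subgroup.mem_normalizer_iff.mp hgn a).mp haM)
            · exact ihj (th a b) h1 h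
        exact key k (g * a * g⁻¹) hg (hLM' (Subgroup.subset_closure ⟨_, ⟨g, rfl⟩, rfl⟩))

section SD

open SemidirectProduct

variable {G : Type u} [Group G] {Z : Type u} [Group Z] (φ : Z →* MulAut G) (z : Z)

theorem inl_step (c : G) :
    (inl (c * (φ z c)⁻¹) : G ⋊[φ] Z) = inl c * inr z * (inl c)⁻¹ * (inr z)⁻¹ := by
  rw [map_mul, map_inv, inl_aut, map_inv]
  group

theorem inl_iter (j : ℕ) : ∀ c : G,
    (inl ((fun c : G => c * (φ z c)⁻¹)^[j + 1] c) : G ⋊[φ] Z) =
      (th (inr z : G ⋊[φ] Z))^[j] (inl c * inr z * (inl c)⁻¹) * (inr z)⁻¹ := by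
  induction j with
  | zero => intro c; exact inl_step φ z c
  | succ j ih =>
    intro c
    have h1 : (fun c : G => c * (φ z c)⁻¹)^[j + 1 + 1] c =
        (fun c : G => c * (φ z c)⁻¹)^[j + 1] (c * (φ z c)⁻¹) :=
      Function.iterate_succ_apply _ _ _
    have h2 : (th (inr z : G ⋊[φ] Z))^[j + 1] (inl c * inr z * (inl c)⁻¹) =
        (th (inr z : G ⋊[φ] Z))^[j] (th (inr z) (inl c * inr z * (inl c)⁻¹)) :=
      Function.iterate_succ_apply _ _ _
    rw [h1, ih, h2, inl_step]
    congr 2
    simp only [th]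
    group

theorem ncl_top (hG : Subgroup.closure (Set.range (fun c : G => c * (φ z c)⁻¹)) = ⊤)
    (hz : ∀ w : Z, ∃ m : ℤ, w = z ^ m) :
    Subgroup.normalClosure ({(inr z : G ⋊[φ] Z)} : Set (G ⋊[φ] Z)) = ⊤ := by
  rw [eq_top_iff]
  intro x _
  have ha : (inr z : G ⋊[φ] Z) ∈ Subgroup.normalClosure ({(inr z : G ⋊[φ] Z)} : Set (G ⋊[φ] Z)) :=
    Subgroup.subset_normalClosure (Set.mem_singleton _)
  have hinl : ∀ c : G, (inl c : G ⋊[φ] Z) ∈
      Subgroup.normalClosure ({(inr z : G ⋊[φ] Z)} : Set (G ⋊[φ] Z)) := by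
    intro c
    have hc : c ∈ Subgroup.closure (Set.range (fun c : G => c * (φ z c)⁻¹)) := by
      rw [hG]; trivial
    induction hc using Subgroup.closure_induction with
    | mem y hy =>
      obtain ⟨d, rfl⟩ := hy
      rw [inl_step]
      exact mul_mem (Subgroup.normalClosure_normal.conj_mem _ ha _) (inv_mem ha)
    | one => rw [map_one]; exact one_mem _
    | mul y y' _ _ hy hy' => rw [map_mul]; exact mul_mem hy hy'
    | inv y _ hy => rw [map_inv]; exact inv_mem hy
  have hinr : ∀ w : Z, (inr w : G ⋊[φ] Z) ∈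
      Subgroup.normalClosure ({(inr z : G ⋊[φ] Z)} : Set (G ⋊[φ] Z)) := by
    intro w
    obtain ⟨m, rfl⟩ := hz w
    rw [map_zpow]
    exact zpow_mem ha m
  rw [← inl_left_mul_inr_right x]
  exact mul_mem (hinl _) (hinr _)

theorem sd_main [Finite G] [Finite Z]
    (hG : Subgroup.closure (Set.range (fun c : G => c * (φ z c)⁻¹)) = ⊤)
    (hz : ∀ w : Z, ∃ m : ℤ, w = z ^ m) (j : ℕ) :
    Subgroup.closure (Set.range ((fun c : G => c * (φ z c)⁻¹)^[j + 1])) = ⊤ := by
  have hfin : Finite (G ⋊[φ] Z) := Finite.of_equiv _ SemidirectProduct.equivProd.symm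
  have hncl := ncl_top φ z hG hz
  have hgen := gen_aux _ (G ⋊[φ] Z) le_rfl (inr z) hncl j
  obtain ⟨Hk, hHk⟩ : ∃ Hk, Hk =
      Subgroup.closure (Set.range ((fun c : G => c * (φ z c)⁻¹)^[j + 1])) := ⟨_, rfl⟩
  rw [← hHk]
  have hcommf : ∀ c : G, φ z ((fun c : G => c * (φ z c)⁻¹) c) =
      (fun c : G => c * (φ z c)⁻¹) (φ z c) := by
    intro c
    simp only [map_mul, map_inv]
  have hcommit : ∀ c : G, φ z ((fun c : G => c * (φ z c)⁻¹)^[j + 1] c) =
      (fun c : G => c * (φ z c)⁻¹)^[j + 1] (φ z c) := by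
    intro c
    exact (Function.Commute.iterate_right (f := fun c => φ z c)
      (g := fun c : G => c * (φ z c)⁻¹) hcommf (j + 1)) c
  have hz1 : ∀ h ∈ Hk, φ z h ∈ Hk := by
    intro h hh
    rw [hHk] at hh ⊢
    induction hh using Subgroup.closure_induction with
    | mem y hy =>
      obtain ⟨d, rfl⟩ := hy
      rw [hcommit]
      exact Subgroup.subset_closure ⟨_, rfl⟩
    | one => rw [map_one]; exact one_mem _
    | mul y y' _ _ hy hy' => rw [map_mul]; exact mul_mem hy hy'
    | inv y _ hy => rw [map_inv]; exact inv_mem hy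
  have hz2 : ∀ h ∈ Hk, (φ z)⁻¹ h ∈ Hk := by
    intro h hh
    have hinj : Function.Injective (fun x : Hk => (⟨φ z x, hz1 x x.2⟩ : Hk)) := by
      intro x y hxy
      apply Subtype.ext
      exact (φ z).injective (Subtype.ext_iff.mp hxy)
    obtain ⟨x, hx⟩ := (Finite.injective_iff_surjective.mp hinj) ⟨h, hh⟩
    have hx' : φ z x = h := Subtype.ext_iff.mp hx
    rw [← hx']
    simp only [MulAut.inv_apply_self]
    exact x.2
  have hzm : ∀ m : ℤ, ∀ h ∈ Hk, φ (z ^ m) h ∈ Hk := by
    intro m
    induction m using Int.induction_on with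
    | zero => intro h hh; simpa using hh
    | succ i ih =>
      intro h hh
      rw [zpow_add_one, map_mul]
      exact ih _ (hz1 h hh)
    | pred i ih =>
      intro h hh
      rw [zpow_sub_one, map_mul, map_inv]
      exact ih _ (hz2 h hh)
  have hinv : ∀ w : Z, ∀ h ∈ Hk, φ w h ∈ Hk := by
    intro w
    obtain ⟨m, rfl⟩ := hz w
    exact hzm m
  have hle : Subgroup.closure ((th (inr z : G ⋊[φ] Z))^[j] ''
      {b | ∃ g : G ⋊[φ] Z, b = g * inr z * g⁻¹}) ≤
      ({ carrier := {x | x.left ∈ Hk}
         mul_mem' := by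
           intro x y hx hy
           show (x * y).left ∈ Hk
           rw [SemidirectProduct.mul_left]
           exact mul_mem hx (hinv _ _ hy)
         one_mem' := by
           show (1 : G ⋊[φ] Z).left ∈ Hk
           rw [SemidirectProduct.one_left]
           exact one_mem _
         inv_mem' := by
           intro x hx
           show x⁻¹.left ∈ Hk
           rw [SemidirectProduct.inv_left]
           exact hinv _ _ (inv_mem hx) } : Subgroup (G ⋊[φ] Z)) := by
    rw [Subgroup.closure_le]
    rintro _ ⟨_, ⟨g, rfl⟩, rfl⟩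
    have hg : g * inr z * g⁻¹ = inl g.left * inr z * (inl g.left)⁻¹ := by
      obtain ⟨m, hm⟩ := hz g.right
      have hcomm : (inr g.right : G ⋊[φ] Z) * inr z = inr z * inr g.right := by
        rw [← map_mul, ← map_mul, hm]
        congr 1
        exact (Commute.zpow_left (Commute.refl z) m).eq
      have hgdecomp := inl_left_mul_inr_right g
      calc g * inr z * g⁻¹
          = (inl g.left * inr g.right) * inr z * (inl g.left * inr g.right)⁻¹ := by
            rw [hgdecomp]
        _ = inl g.left * (inr g.right * inr z) * (inr g.right)⁻¹ * (inl g.left)⁻¹ := by group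
        _ = inl g.left * (inr z * inr g.right) * (inr g.right)⁻¹ * (inl g.left)⁻¹ := by
            rw [hcomm]
        _ = inl g.left * inr z * (inl g.left)⁻¹ := by group
    rw [hg]
    have h3 := inl_iter φ z j g.left
    have h4 : (th (inr z : G ⋊[φ] Z))^[j] (inl g.left * inr z * (inl g.left)⁻¹) =
        inl ((fun c : G => c * (φ z c)⁻¹)^[j + 1] g.left) * inr z := by
      rw [h3]; group
    rw [h4]
    show (inl ((fun c : G => c * (φ z c)⁻¹)^[j + 1] g.left) * inr z : G ⋊[φ] Z).left ∈ Hk
    rw [SemidirectProduct.mul_left, SemidirectProduct.left_inl, SemidirectProduct.left_inr,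
      map_one, mul_one, hHk]
    exact Subgroup.subset_closure ⟨_, rfl⟩
  rw [hgen] at hle
  rw [eq_top_iff]
  intro c _
  have h5 := hle (Subgroup.mem_top (inl c))
  exact h5

end SD

/-- Let G be a finite group and α an automorphism of G with [G, α] = G, that is, the elements g·α(g)⁻¹ generate G. Then for every k ≥ 1 the iterated commutators [g, α, …, α] with k entries α — the values of the k-th iterate of the map c ↦ c·α(c)⁻¹ — also generate G. -/
theorem result {G : Type*} [Group G] [Finite G] (α : MulAut G) (hG : Subgroup.closure (Set.range (fun c : G => c * (α c)⁻¹)) = ⊤) (k : ℕ) (hk : 1 ≤ k) :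
    Subgroup.closure (Set.range ((fun c : G => c * (α c)⁻¹)^[k])) = ⊤ := by
  obtain ⟨j, rfl⟩ : ∃ j, k = j + 1 := ⟨k - 1, by omega⟩
  have hz : ∀ w : ↥(Subgroup.zpowers α), ∃ m : ℤ,
      w = (⟨α, Subgroup.mem_zpowers α⟩ : ↥(Subgroup.zpowers α)) ^ m := by
    intro w
    obtain ⟨m, hm⟩ := Subgroup.mem_zpowers_iff.mp w.2
    refine ⟨m, ?_⟩
    apply Subtype.ext
    rw [Subgroup.coe_zpow]
    exact hm.symm
  exact sd_main (Subgroup.zpowers α).subtype ⟨α, Subgroup.mem_zpowers α⟩ hG hz j

end Cfsg.Agent.S3927
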