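import Cfsg.Statements.S3937
import Cfsg.Agent.Helper72.Subnormal
import Cfsg.Agent.Helper22.Fitting

set_option autoImplicit false
open Cfsg

namespace Cfsg.Agent.S3937

open Cfsg.Agent.Helper72

section
variable {X : Type*} [Group X]

/-- The iterated commutator `[x, g, …, g]` with `n` entries `g`. -/
def eng (g x : X) (n : ℕ) : X :=
  (List.replicate n g).foldl (fun a b => a * b * a⁻¹ * b⁻¹) x

theorem eng_zero (g x : X) : eng g x 0 = x := rfl

theorem eng_succ (g x : X) (n : ℕ) : eng g x (n + 1) = eng g (x * g * x⁻¹ * g⁻¹) n := rfl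

/-- In an Engel sequence starting outside `M` and ending inside `M`, some term outside `M` has
its commutator with `g` inside `M`. -/
theorem last_out (g : X) (K M : Subgroup X) (hgK : g ∈ K) : ∀ (n : ℕ) (x : X), x ∈ K → x ∉ M →
    eng g x n ∈ M → ∃ c ∈ K, c ∉ M ∧ c * g * c⁻¹ * g⁻¹ ∈ M := by
  intro n
  induction n with
  | zero =>
    intro x _ hxM h
    exact absurd h hxM
  | succ n ih =>
    intro x hxK hxM h
    rw [eng_succ] at h
    by_cases hc : x * g * x⁻¹ * g⁻¹ ∈ M
    · exact ⟨x, hxK, hxM, hc⟩
    · exact ih _ (K.mul_mem (K.mul_mem (K.mul_mem hxK hgK) (K.inv_mem hxK)) (K.inv_mem hgK)) hc h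

/-- Baer's theorem, relative form: a left Engel element generates a subnormal subgroup. -/
theorem baer_rel [Finite X] (g : X) : ∀ (n : ℕ) (K : Subgroup X), Nat.card K ≤ n → g ∈ K →
    (∀ x ∈ K, ∃ m : ℕ, eng g x m = 1) → SubnIn K (Subgroup.zpowers g) := by
  intro n
  induction n with
  | zero =>
    intro K hK
    have := Nat.card_pos (α := K)
    omega
  | succ n ih =>
    intro K hcard hgK hE
    by_contra hns
    have hAK : Subgroup.zpowers g ≤ K := Subgroup.zpowers_le.mpr hgK
    have hall : ∀ H, Subgroup.zpowers g ≤ H → H < K → SubnIn H (Subgroup.zpowers g) := by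
      intro H hAH hHK
      refine ih H ?_ (hAH (Subgroup.mem_zpowers g)) (fun x hx => hE x (hHK.le hx))
      have := card_lt_of_lt hHK
      omega
    obtain ⟨M, hMK, hM⟩ := zipper K _ (Subgroup.zpowers g) hAK le_rfl hall hns
    have hAltK : Subgroup.zpowers g < K :=
      lt_of_le_of_ne hAK (fun h => hns (h ▸ SubnIn.refl _))
    have hAM : Subgroup.zpowers g ≤ M := hM _ le_rfl hAltK
    have hgM : g ∈ M := hAM (Subgroup.mem_zpowers g)
    by_cases hnorm : K ≤ Subgroup.normalizer (M : Set X)
    · exact hns (SubnIn.step K M _ hMK.le hnorm (hall M hAM hMK))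
    · have hNM : Subgroup.normalizer (M : Set X) ⊓ K ≤ M := by
        apply hM
        · exact le_inf (hAM.trans Subgroup.le_normalizer) hAK
        · refine lt_of_le_of_ne inf_le_right (fun h => hnorm ?_)
          rw [← h]
          exact inf_le_left
      obtain ⟨x, hxK, hxM⟩ : ∃ x ∈ K, x ∉ M := by
        by_contra hcon
        push Not at hcon
        exact hMK.ne (le_antisymm hMK.le hcon)
      obtain ⟨m, hm⟩ := hE x hxK
      obtain ⟨c, hcK, hcM, hfc⟩ := last_out g K M hgK m x hxK hxM (by rw [hm]; exact M.one_mem)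
      have h1 : c * g * c⁻¹ ∈ M := by
        have := M.mul_mem hfc hgM
        simpa [mul_assoc] using this
      have hM'lt : M.map (MulAut.conj c⁻¹).toMonoidHom < K :=
        map_conj_lt_of_mem hMK (K.inv_mem hcK)
      have hAM' : Subgroup.zpowers g ≤ M.map (MulAut.conj c⁻¹).toMonoidHom := by
        rw [Subgroup.zpowers_le]
        refine ⟨c * g * c⁻¹, h1, ?_⟩
        simp only [MulEquiv.coe_toMonoidHom, MulAut.conj_apply]
        group
      have hle : M.map (MulAut.conj c⁻¹).toMonoidHom ≤ M := hM _ hAM' hM'lt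
      have heq : M.map (MulAut.conj c⁻¹).toMonoidHom = M := by
        apply Subgroup.eq_of_le_of_card_ge hle
        rw [Subgroup.card_map_of_injective (MulAut.conj c⁻¹).injective]
      have hcn : c⁻¹ ∈ Subgroup.normalizer (M : Set X) := mem_normalizer_of_map_conj_eq M c⁻¹ heq
      have hcinv : c⁻¹ ∈ M := hNM ⟨hcn, K.inv_mem hcK⟩
      exact hcM (by simpa using M.inv_mem hcinv)

/-- Iterated commutators with an element of `F` descend the lower central series of `F`. -/
theorem eng_mem_lcs (F : Subgroup X) (g : X) (hg : g ∈ F) : ∀ (m k : ℕ) (c : X),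
    c ∈ F.lowerCentralSeries k → eng g c m ∈ F.lowerCentralSeries (k + m) := by
  intro m
  induction m with
  | zero =>
    intro k c hc
    exact hc
  | succ m ih =>
    intro k c hc
    rw [eng_succ]
    have h1 : c * g * c⁻¹ * g⁻¹ ∈ F.lowerCentralSeries (k + 1) := by
      rw [Subgroup.lowerCentralSeries_succ]
      exact Subgroup.commutator_mem_commutator hc hg
    have := ih (k + 1) _ h1
    rwa [show k + 1 + m = k + (m + 1) by omega] at this

end

/-- Baer's characterization of the Fitting subgroup: in a finite group G, an element g lies in the Fitting subgroup if and only if g is a left Engel element, that is, for every x there is n with [x, g, g, …, g] = 1 (n entries g, [a, b] = aba⁻¹b⁻¹). -/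
theorem result {G : Type*} [Group G] [Finite G] (g : G) :
    g ∈ Cfsg.fittingSubgroup G ↔ ∀ x : G, ∃ n : ℕ, (List.replicate n g).foldl (fun a b => a * b * a⁻¹ * b⁻¹) x = 1 := by
  constructor
  · intro hg x
    have hnorm : (Cfsg.fittingSubgroup G).Normal := Cfsg.Agent.Helper22.fittingSubgroup_normal G
    have hnil : Group.IsNilpotent ↥(Cfsg.fittingSubgroup G) :=
      Cfsg.Agent.Helper22.fittingSubgroup_isNilpotent G
    obtain ⟨N, hN⟩ := (Subgroup.isNilpotent_iff_lowerCentralSeries _).mp hnil
    have hc1 : x * g * x⁻¹ * g⁻¹ ∈ (Cfsg.fittingSubgroup G).lowerCentralSeries 0 := by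
      rw [Subgroup.lowerCentralSeries_zero]
      exact Subgroup.mul_mem _ (hnorm.conj_mem g hg x) (Subgroup.inv_mem _ hg)
    have h2 := eng_mem_lcs (Cfsg.fittingSubgroup G) g hg N 0 _ hc1
    rw [zero_add, hN, Subgroup.mem_bot] at h2
    exact ⟨N + 1, h2⟩
  · intro hE
    have h1 : SubnIn (⊤ : Subgroup G) (Subgroup.zpowers g) :=
      baer_rel g _ ⊤ le_rfl (Subgroup.mem_top g) (fun x _ => hE x)
    have h2 : (Subgroup.zpowers g).IsSubnormal := h1.isSubnormal_of Subgroup.IsSubnormal.top
    have hnilz : Group.IsNilpotent ↥(Subgroup.zpowers g) := by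
      letI : CommGroup ↥(Subgroup.zpowers g) := IsCyclic.commGroup
      exact CommGroup.isNilpotent
    have h3 : Subgroup.zpowers g ≤ Cfsg.fittingSubgroup G :=
      Cfsg.Agent.Helper22.le_fittingSubgroup_of_isSubnormal h2 hnilz
    exact h3 (Subgroup.mem_zpowers g)

end Cfsg.Agent.S3937
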