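import Cfsg.Statements.S3939

set_option autoImplicit false
open Cfsg

namespace Cfsg.Agent.S3939

universe u

/-- If `a * b = b * a * c` with `c` central then `c ^ orderOf a = 1`. -/
theorem central_pow {H : Type*} [Group H] (a b c : H) (hc : ∀ h : H, h * c = c * h)
    (h : a * b = b * a * c) : c ^ orderOf a = 1 := by
  have hs : SemiconjBy b⁻¹ a (a * c) := by
    unfold SemiconjBy
    have : b⁻¹ * a = b⁻¹ * (a * b) * b⁻¹ := by group
    rw [this, h]; group
  have ho : orderOf (a * c) = orderOf a := (hs.orderOf_eq).symm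
  have hcomm : Commute a c := (hc a)
  have h1 : (a * c) ^ orderOf a = 1 := by rw [← ho]; exact pow_orderOf_eq_one _
  rw [hcomm.mul_pow, pow_orderOf_eq_one, one_mul] at h1
  exact h1

/-- In a nilpotent group, elements of coprime orders commute. -/
theorem commute_of_coprime (H : Type*) [Group H] [Group.IsNilpotent H] :
    ∀ x y : H, Nat.Coprime (orderOf x) (orderOf y) → x * y = y * x := by
  refine Group.nilpotent_center_quotient_ind
    (P := fun H _ _ => ∀ x y : H, Nat.Coprime (orderOf x) (orderOf y) → x * y = y * x) H ?_ ?_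
  · intro H _ _ x y _
    exact Subsingleton.elim _ _
  · intro H _ _ ih x y hxy
    have hq := ih (QuotientGroup.mk x) (QuotientGroup.mk y)
      ((hxy.coprime_dvd_left (orderOf_map_dvd (QuotientGroup.mk' (Subgroup.center H)) x)).coprime_dvd_right
        (orderOf_map_dvd (QuotientGroup.mk' (Subgroup.center H)) y))
    have hq' : ((y * x : H) : H ⧸ Subgroup.center H) = ((x * y : H) : H ⧸ Subgroup.center H) := by
      simpa using hq.symm
    rw [QuotientGroup.eq] at hq'
    set c := (y * x)⁻¹ * (x * y) with hc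
    have hcz : ∀ h : H, h * c = c * h := fun h => Subgroup.mem_center_iff.1 hq' h
    have e1 : x * y = y * x * c := by rw [hc]; group
    have e2 : y * x = x * y * c⁻¹ := by rw [hc]; group
    have hcz' : ∀ h : H, h * c⁻¹ = c⁻¹ * h := fun h => by
      have := hcz h
      have h2 : h * c⁻¹ = c⁻¹ * (c * h) * c⁻¹ := by group
      rw [h2, ← this]; group
    have p1 := central_pow x y c hcz e1
    have p2 := central_pow y x c⁻¹ hcz' e2
    rw [inv_pow, inv_eq_one] at p2
    have d1 := orderOf_dvd_of_pow_eq_one p1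
    have d2 := orderOf_dvd_of_pow_eq_one p2
    have d3 : orderOf c ∣ 1 := by
      have := Nat.dvd_gcd d1 d2
      rwa [Nat.Coprime.gcd_eq_one hxy] at this
    have hc1 : c = 1 := orderOf_eq_one_iff.1 (Nat.dvd_one.1 d3)
    rw [e1, hc1, mul_one]

/-- A nontrivial normal subgroup of a nilpotent group meets the centre nontrivially. -/
theorem normal_meets_center {P : Type*} [Group P] [Group.IsNilpotent P] (N : Subgroup P)
    [hNn : N.Normal] (hN : N ≠ ⊥) : ∃ z ∈ N, z ≠ 1 ∧ ∀ h : P, h * z = z * h := by
  classical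
  obtain ⟨n, hn⟩ := Group.IsNilpotent.nilpotent' (G := P)
  have hex : ∃ i, ∃ t ∈ N, t ≠ 1 ∧ t ∈ Subgroup.upperCentralSeries P i := by
    obtain ⟨t, ht1⟩ := (Subgroup.ne_bot_iff_exists_ne_one).1 hN
    refine ⟨n, t.1, t.2, fun h => ht1 (Subtype.ext h), ?_⟩
    rw [hn]; trivial
  have hmin := fun m => Nat.find_min hex (m := m)
  obtain ⟨t, htN, ht1, htZ⟩ := Nat.find_spec hex
  cases hi : Nat.find hex with
  | zero =>
    rw [hi] at htZ
    simp at htZ
    exact absurd htZ ht1
  | succ j =>
    rw [hi] at htZ
    refine ⟨t, htN, ht1, fun h => ?_⟩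
    have h1 : t * h * t⁻¹ * h⁻¹ ∈ Subgroup.upperCentralSeries P j :=
      (Subgroup.mem_upperCentralSeries_succ_iff).1 htZ h
    by_contra hne
    apply hmin j (by omega)
    refine ⟨t * h * t⁻¹ * h⁻¹, ?_, ?_, h1⟩
    · have := N.mul_mem htN (hNn.conj_mem t⁻¹ (N.inv_mem htN) h)
      simpa [mul_assoc] using this
    · intro h0
      apply hne
      have : h * t = (t * h * t⁻¹ * h⁻¹)⁻¹ * (t * h) := by group
      rw [this, h0]; simp

/-- Key lemma: a nontrivial central element. -/
theorem exists_central {G : Type u} [Group G] [Finite G] (g : G) (hg : g ≠ 1)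
    (hnil : ∀ x : G, Group.IsNilpotent ↥(Subgroup.closure ({x, g} : Set G))) :
    ∃ z : G, z ≠ 1 ∧ z ∈ Subgroup.center G := by
  classical
  have ho1 : orderOf g ≠ 1 := fun h => hg (orderOf_eq_one_iff.1 h)
  have ho0 : orderOf g ≠ 0 := (orderOf_pos g).ne'
  set p := Nat.minFac (orderOf g) with hp
  have hpp : p.Prime := Nat.minFac_prime ho1
  have : Fact p.Prime := ⟨hpp⟩
  have hpd : p ∣ orderOf g := Nat.minFac_dvd _
  set a := g ^ (orderOf g / p) with ha
  have hoa : orderOf a = p := orderOf_pow_orderOf_div ho0 hpd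
  have ha1 : a ≠ 1 := fun h => by
    rw [h, orderOf_one] at hoa; exact hpp.one_lt.ne hoa
  -- a commutes with p'-elements
  have hcomm : ∀ y : G, Nat.Coprime (orderOf y) p → y * a = a * y := by
    intro y hy
    have := hnil y
    have hyH : y ∈ Subgroup.closure ({y, g} : Set G) := Subgroup.subset_closure (by simp)
    have hgH : g ∈ Subgroup.closure ({y, g} : Set G) := Subgroup.subset_closure (by simp)
    have haH : a ∈ Subgroup.closure ({y, g} : Set G) := Subgroup.pow_mem _ hgH _
    have := commute_of_coprime (↥(Subgroup.closure ({y, g} : Set G))) ⟨y, hyH⟩ ⟨a, haH⟩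
      (by rw [Subgroup.orderOf_mk, Subgroup.orderOf_mk, hoa]; exact hy)
    exact congrArg Subtype.val this
  -- Sylow containing a
  have hpg : IsPGroup p (Subgroup.zpowers a) :=
    IsPGroup.of_card (n := 1) (by rw [Nat.card_zpowers, hoa, pow_one])
  obtain ⟨P, hP⟩ := hpg.exists_le_sylow
  have haP : a ∈ (P : Subgroup G) := hP (Subgroup.mem_zpowers a)
  -- C
  let S : Set G := {y | Nat.Coprime (orderOf y) p}
  let C : Subgroup G := Subgroup.centralizer S
  have hCn : C.Normal := by
    constructor
    intro c hc h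
    rw [Subgroup.mem_centralizer_iff] at hc ⊢
    intro y hy
    have hy' : h⁻¹ * y * h ∈ S := by
      show Nat.Coprime (orderOf (h⁻¹ * y * h)) p
      have : SemiconjBy h⁻¹ y (h⁻¹ * y * h) := by unfold SemiconjBy; group
      rw [← this.orderOf_eq]; exact hy
    have := hc _ hy'
    have e : y * (h * c * h⁻¹) = h * ((h⁻¹ * y * h) * c) * h⁻¹ := by group
    rw [e, this]; group
  have haC : a ∈ C := by
    rw [Subgroup.mem_centralizer_iff]
    intro y hy
    exact hcomm y hy
  have : Group.IsNilpotent ↥(P : Subgroup G) := P.isPGroup'.isNilpotent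
  have : (C.subgroupOf (P : Subgroup G)).Normal := hCn.subgroupOf _
  have hT : C.subgroupOf (P : Subgroup G) ≠ ⊥ := by
    intro h
    have : (⟨a, haP⟩ : ↥(P : Subgroup G)) ∈ C.subgroupOf (P : Subgroup G) :=
      Subgroup.mem_subgroupOf.2 haC
    rw [h, Subgroup.mem_bot] at this
    exact ha1 (congrArg Subtype.val this)
  obtain ⟨z, hzT, hz1, hzc⟩ := normal_meets_center (C.subgroupOf (P : Subgroup G)) hT
  have hzC : (z : G) ∈ C := Subgroup.mem_subgroupOf.1 hzT
  refine ⟨(z : G), fun h => hz1 (Subtype.ext h), ?_⟩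
  have hcent : ∀ q : ℕ, q.Prime →
      ∃ Q : Sylow q G, (Q : Subgroup G) ≤ Subgroup.centralizer {(z : G)} := by
    intro q hq
    by_cases hqp : q = p
    · subst hqp
      refine ⟨P, fun y hy => ?_⟩
      rw [Subgroup.mem_centralizer_iff]
      intro w hw
      rw [Set.mem_singleton_iff] at hw
      subst hw
      have := hzc ⟨y, hy⟩
      exact (congrArg Subtype.val this).symm
    · have : Fact q.Prime := ⟨hq⟩
      obtain ⟨Q⟩ : Nonempty (Sylow q G) := inferInstance
      refine ⟨Q, fun y hy => ?_⟩
      rw [Subgroup.mem_centralizer_iff]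
      intro w hw
      rw [Set.mem_singleton_iff] at hw
      subst hw
      have hyS : y ∈ S := by
        show Nat.Coprime (orderOf y) p
        obtain ⟨k, hk⟩ := Q.isPGroup' ⟨y, hy⟩
        have hk' : y ^ q ^ k = 1 := congrArg Subtype.val hk
        have := orderOf_dvd_of_pow_eq_one hk'
        exact Nat.Coprime.coprime_dvd_left this
          (Nat.Coprime.pow_left _ ((Nat.coprime_primes hq hpp).2 hqp))
      exact ((Subgroup.mem_centralizer_iff.1 hzC) y hyS).symm
  have hidx : (Subgroup.centralizer {(z : G)}).index = 1 := by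
    by_contra hne
    obtain ⟨q, hq, hqd⟩ := Nat.exists_prime_and_dvd hne
    obtain ⟨Q, hQ⟩ := hcent q hq
    have : Fact q.Prime := ⟨hq⟩
    exact Q.not_dvd_index (hqd.trans (Subgroup.index_dvd_of_le hQ))
  rw [Subgroup.index_eq_one] at hidx
  rw [Subgroup.mem_center_iff]
  intro h
  have : h ∈ Subgroup.centralizer {(z : G)} := by rw [hidx]; trivial
  exact ((Subgroup.mem_centralizer_iff.1 this) z rfl).symm

theorem mem_iSup_ucs {G : Type*} [Group G] (g : G) :
    g ∈ ⨆ n : ℕ, Subgroup.upperCentralSeries G n ↔ ∃ n, g ∈ Subgroup.upperCentralSeries G n :=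
  Subgroup.mem_iSup_of_directed (Subgroup.upperCentralSeries_mono G).directed_le

theorem fwd : ∀ (n : ℕ) (G : Type u) [Group G] [Finite G], Nat.card G ≤ n → ∀ g : G,
    (∀ x : G, Group.IsNilpotent ↥(Subgroup.closure ({x, g} : Set G))) →
    g ∈ ⨆ n : ℕ, Subgroup.upperCentralSeries G n := by
  intro n
  induction n with
  | zero =>
    intro G _ _ h
    exact absurd h (by have := Nat.card_pos (α := G); omega)
  | succ n ih =>
    intro G _ _ hcard g hnil
    by_cases hg : g = 1
    · rw [hg]; exact Subgroup.one_mem _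
    obtain ⟨z, hz1, hzc⟩ := exists_central g hg hnil
    have hcne : Subgroup.center G ≠ ⊥ := fun h =>
      hz1 (by rw [h] at hzc; exact Subgroup.mem_bot.1 hzc)
    have hlt : Nat.card (G ⧸ Subgroup.center G) ≤ n := by
      have h1 := Subgroup.card_eq_card_quotient_mul_card_subgroup (Subgroup.center G)
      have h2 : 1 < Nat.card (Subgroup.center G) := (Subgroup.one_lt_card_iff_ne_bot _).2 hcne
      have h3 := Nat.card_pos (α := G ⧸ Subgroup.center G)
      nlinarith
    have hq := ih (G ⧸ Subgroup.center G) hlt (QuotientGroup.mk g) (by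
      intro xb
      obtain ⟨x, rfl⟩ := QuotientGroup.mk_surjective xb
      have := hnil x
      have hmap : (Subgroup.closure ({x, g} : Set G)).map (QuotientGroup.mk' (Subgroup.center G))
          = Subgroup.closure ({(QuotientGroup.mk x : G ⧸ Subgroup.center G),
              QuotientGroup.mk g} : Set _) := by
        rw [MonoidHom.map_closure, Set.image_pair]; rfl
      rw [← hmap]
      exact Group.nilpotent_of_surjective _
        (MonoidHom.subgroupMap_surjective (QuotientGroup.mk' (Subgroup.center G)) _))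
    rw [mem_iSup_ucs] at hq ⊢
    obtain ⟨m, hm⟩ := hq
    refine ⟨m + 1, ?_⟩
    rw [← Subgroup.comap_upperCentralSeries_quotient_center]
    exact hm

theorem bwd {G : Type*} [Group G] (g x : G) (n : ℕ)
    (hg : g ∈ Subgroup.upperCentralSeries G n) :
    Group.IsNilpotent ↥(Subgroup.closure ({x, g} : Set G)) := by
  classical
  have hcomm : ∀ a b : G, a ∈ Subgroup.closure ({x, g} : Set G) →
      b ∈ Subgroup.closure ({x, g} : Set G) →
      a * b * a⁻¹ * b⁻¹ ∈ Subgroup.upperCentralSeries G n := by
    have hle : Subgroup.closure ({x, g} : Set G) ≤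
        (Subgroup.zpowers (QuotientGroup.mk x : G ⧸ Subgroup.upperCentralSeries G n)).comap
          (QuotientGroup.mk' (Subgroup.upperCentralSeries G n)) := by
      rw [Subgroup.closure_le]
      intro y hy
      rcases hy with rfl | hy
      · exact Subgroup.mem_zpowers _
      · rw [Set.mem_singleton_iff] at hy
        subst hy
        show (QuotientGroup.mk y : G ⧸ Subgroup.upperCentralSeries G n) ∈
          Subgroup.zpowers (QuotientGroup.mk x : G ⧸ Subgroup.upperCentralSeries G n)
        rw [(QuotientGroup.eq_one_iff y).2 hg]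
        exact Subgroup.one_mem _
    intro a b ha hb
    obtain ⟨k, hk⟩ := Subgroup.mem_zpowers_iff.1 (hle ha)
    obtain ⟨l, hl⟩ := Subgroup.mem_zpowers_iff.1 (hle hb)
    rw [← QuotientGroup.eq_one_iff]
    have hk' : (QuotientGroup.mk a : G ⧸ Subgroup.upperCentralSeries G n)
        = (QuotientGroup.mk x) ^ k := hk.symm
    have hl' : (QuotientGroup.mk b : G ⧸ Subgroup.upperCentralSeries G n)
        = (QuotientGroup.mk x) ^ l := hl.symm
    simp only [QuotientGroup.mk_mul, QuotientGroup.mk_inv]
    rw [hk', hl', (Commute.zpow_zpow_self _ k l).eq]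
    group
  rw [Subgroup.nilpotent_iff_finite_ascending_central_series]
  refine ⟨n + 1, fun i => if i ≤ n then
    (Subgroup.upperCentralSeries G i).subgroupOf (Subgroup.closure ({x, g} : Set G)) else ⊤,
    ⟨?_, ?_⟩, ?_⟩
  · simp
  · intro a i ha b
    by_cases hi : i + 1 ≤ n
    · have hi' : i ≤ n := by omega
      simp only [hi, hi', if_true] at ha ⊢
      rw [Subgroup.mem_subgroupOf] at ha ⊢
      exact (Subgroup.mem_upperCentralSeries_succ_iff).1 ha b
    · by_cases hi' : i ≤ n
      · have : i = n := by omega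
        subst this
        simp only [le_refl, if_true]
        rw [Subgroup.mem_subgroupOf]
        exact hcomm a b a.2 b.2
      · simp [hi']
  · simp

/-- In a finite group G the set of elements g such that the subgroup generated by g and x is nilpotent for every x ∈ G is exactly the hypercenter of G (the last term of the upper central series). -/
theorem result {G : Type*} [Group G] [Finite G] (g : G) :
    (∀ x : G, Group.IsNilpotent ↥(Subgroup.closure ({x, g} : Set G))) ↔ g ∈ ⨆ n : ℕ, Subgroup.upperCentralSeries G n := by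
  constructor
  · intro h
    exact fwd (Nat.card G) G le_rfl g h
  · intro h x
    obtain ⟨n, hn⟩ := (mem_iSup_ucs g).1 h
    exact bwd g x n hn

end Cfsg.Agent.S3939
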