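import Cfsg.Statements.S3946
import Cfsg.Agent.Helper65.HughesThompson

set_option autoImplicit false
universe u v w
open Cfsg

namespace Cfsg.Agent.S3946

open Cfsg.Agent.Helper65

/-- If `G` has prime index `p` in `Γ` and all elements of one nontrivial coset have `p`-th power
`1`, then so do all elements outside `G`. -/
theorem pow_eq_one_of_coset {Γ : Type*} [Group Γ] [Finite Γ] (G : Subgroup Γ) [hGn : G.Normal]
    (p : ℕ) [hp : Fact p.Prime] (hidx : G.index = p) (t : Γ) (ht : t ∉ G)
    (h : ∀ x ∈ G, (x * t) ^ p = 1) : ∀ g : Γ, g ∉ G → g ^ p = 1 := by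
  intro g hg
  have hpp := hp.out
  have hcardQ : Nat.card (Γ ⧸ G) = p := by rw [← Subgroup.index_eq_card, hidx]
  have hg1 : (QuotientGroup.mk g : Γ ⧸ G) ≠ 1 := fun h1 =>
    hg ((QuotientGroup.eq_one_iff g).mp h1)
  have ht1 : (QuotientGroup.mk t : Γ ⧸ G) ≠ 1 := fun h1 =>
    ht ((QuotientGroup.eq_one_iff t).mp h1)
  have hz := zpowers_eq_top_of_prime_card hcardQ hg1
  have hmem : (QuotientGroup.mk t : Γ ⧸ G) ∈ Subgroup.zpowers (QuotientGroup.mk g : Γ ⧸ G) := by
    rw [hz]; trivial
  obtain ⟨k, hk⟩ := Subgroup.mem_zpowers_iff.mp hmem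
  have hgp : (QuotientGroup.mk g : Γ ⧸ G) ^ (p : ℤ) = 1 := by
    rw [zpow_natCast, ← hcardQ]
    exact pow_card_eq_one'
  have key : ∀ k' : ℤ, (QuotientGroup.mk g : Γ ⧸ G) ^ k' = QuotientGroup.mk t →
      g ^ (k' * p) = 1 := by
    intro k' hk'
    have h1 : g ^ k' * t⁻¹ ∈ G := by
      rw [← QuotientGroup.eq_one_iff, QuotientGroup.mk_mul, QuotientGroup.mk_zpow, hk',
        QuotientGroup.mk_inv, mul_inv_cancel]
    have h2 := h _ h1
    rw [inv_mul_cancel_right] at h2
    rw [zpow_mul, zpow_natCast]
    exact h2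
  have h1 := key k hk
  have h2 := key (k + p) (by rw [zpow_add, hgp, mul_one, hk])
  have h3 : g ^ ((p : ℤ) * p) = 1 := by
    have e : (p : ℤ) * p = (k + p) * p - k * p := by ring
    rw [e, zpow_sub, h2, h1]
    simp
  have hkp : ¬ (p : ℤ) ∣ k := by
    rintro ⟨c, rfl⟩
    rw [zpow_mul, hgp, one_zpow] at hk
    exact ht1 hk.symm
  have hcop : IsCoprime (p : ℤ) k :=
    (Nat.prime_iff_prime_int.mp hpp).irreducible.coprime_iff_not_dvd.mpr hkp
  obtain ⟨a, b, hab⟩ := hcop
  have h4 : g ^ (p : ℤ) = 1 := by
    have e : (p : ℤ) = (p * p) * a + (k * p) * b := by linear_combination (-(p : ℤ)) * hab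
    rw [e, zpow_add, zpow_mul, h3, zpow_mul, h1]
    simp
  rw [zpow_natCast] at h4
  exact h4

/-- Call an automorphism α of order n of a group G splitting when x · α(x) · α²(x) ⋯ α^(n−1)(x) = 1 for every x ∈ G. A finite group admitting a splitting automorphism of prime order is nilpotent (this contains the case of a fixed-point-free automorphism of prime order). -/
theorem result {G : Type*} [Group G] [Finite G] (α : MulAut G) (hp : (orderOf α).Prime)
    (hsplit : ∀ x : G, (((List.range (orderOf α)).map (fun i : ℕ => (α ^ i) x)).prod = 1)) : Group.IsNilpotent G := by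
  have hpF : Fact (orderOf α).Prime := ⟨hp⟩
  let A : Subgroup (MulAut G) := Subgroup.zpowers α
  let φ : A →* MulAut G := A.subtype
  have hcardA : Nat.card A = orderOf α := Nat.card_zpowers α
  have hfinA : Finite A := Nat.finite_of_card_ne_zero (by rw [hcardA]; exact hp.ne_zero)
  have hfinΓ : Finite (G ⋊[φ] A) := Finite.of_equiv _ SemidirectProduct.equivProd.symm
  let N : Subgroup (G ⋊[φ] A) := (SemidirectProduct.rightHom : G ⋊[φ] A →* A).ker
  have hidx : N.index = orderOf α := by
    rw [Subgroup.index_ker, MonoidHom.range_eq_top.mpr SemidirectProduct.rightHom_surjective,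
      Subgroup.card_top, hcardA]
  let a : A := ⟨α, Subgroup.mem_zpowers α⟩
  let t : G ⋊[φ] A := SemidirectProduct.inr a
  have ht : t ∉ N := by
    intro h
    have h1 : (SemidirectProduct.rightHom t : A) = 1 := h
    rw [SemidirectProduct.rightHom_inr] at h1
    have h2 : α = 1 := congrArg Subtype.val h1
    rw [h2, orderOf_one] at hp
    exact Nat.not_prime_one hp
  have hpow : ∀ (y : G) (k : ℕ), ((⟨y, a⟩ : G ⋊[φ] A) ^ k) =
      ⟨((List.range k).map (fun i : ℕ => (α ^ i) y)).prod, a ^ k⟩ := by
    intro y k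
    induction k with
    | zero => rfl
    | succ k ih =>
      rw [pow_succ, ih, List.range_succ, List.map_append, List.prod_append]
      apply SemidirectProduct.ext
      · rw [SemidirectProduct.mul_left]
        simp only [List.map_cons, List.map_nil, List.prod_cons, List.prod_nil, mul_one]
        rfl
      · rfl
  have hcoset : ∀ x ∈ N, (x * t) ^ orderOf α = 1 := by
    intro x hx
    have hx1 : x.right = 1 := hx
    have e : x * t = ⟨x.left, a⟩ := by
      apply SemidirectProduct.ext
      · rw [SemidirectProduct.mul_left]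
        show x.left * φ x.right 1 = x.left
        rw [map_one, mul_one]
      · rw [SemidirectProduct.mul_right, hx1, one_mul]
        rfl
    rw [e, hpow]
    apply SemidirectProduct.ext
    · exact hsplit x.left
    · show a ^ orderOf α = 1
      apply Subtype.ext
      show α ^ orderOf α = 1
      exact pow_orderOf_eq_one α
  have hall := pow_eq_one_of_coset N (orderOf α) hidx t ht hcoset
  have hnil : Group.IsNilpotent ↥N := hughes_thompson_kegel (orderOf α) N hidx hall
  let f : G →* ↥N := (SemidirectProduct.inl : G →* G ⋊[φ] A).codRestrict N (fun y => by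
    show SemidirectProduct.rightHom (SemidirectProduct.inl y : G ⋊[φ] A) = 1
    exact SemidirectProduct.rightHom_inl y)
  exact isNilpotent_of_injective f (fun y y' h =>
    SemidirectProduct.inl_injective (congrArg Subtype.val h))

end Cfsg.Agent.S3946
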