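import Cfsg.Statements.S3949

set_option autoImplicit false
open Cfsg

namespace Cfsg.Agent.S3949

/-- Let G be a finite group and α an automorphism of G of order 2 such that the elements g·α(g)⁻¹ generate G. Let j be a positive integer such that 2^j divides the order of no element inverted by α. Then the set of values of the j-th iterate of the map c ↦ c·α(c)⁻¹ is exactly the set of elements of odd order inverted by α. -/
theorem result {G : Type*} [Group G] [Finite G] (α : MulAut G) (hα : orderOf α = 2) (hG : Subgroup.closure (Set.range (fun c : G => c * (α c)⁻¹)) = ⊤)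
    (j : ℕ) (hj : ∀ g : G, α g = g⁻¹ → ¬ 2 ^ j ∣ orderOf g) :
    Set.range ((fun c : G => c * (α c)⁻¹)^[j]) = {g : G | Odd (orderOf g) ∧ α g = g⁻¹} := by
  set f : G → G := fun c : G => c * (α c)⁻¹ with hf
  -- α is an involution
  have hα2 : ∀ x : G, α (α x) = x := by
    intro x
    have h : α ^ 2 = 1 := by rw [← hα]; exact pow_orderOf_eq_one α
    have : (α ^ 2) x = x := by rw [h]; rfl
    simpa [pow_two] using this
  -- every value of f is inverted
  have hinv : ∀ c : G, α (f c) = (f c)⁻¹ := by
    intro c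
    simp only [hf, map_mul, map_inv, hα2, mul_inv_rev, inv_inv]
  -- on inverted elements f is squaring
  have hsq : ∀ g : G, α g = g⁻¹ → f g = g * g := by
    intro g hg
    simp only [hf, hg, inv_inv]
  -- iterates on inverted elements
  have hiter : ∀ (n : ℕ) (g : G), α g = g⁻¹ → f^[n] g = g ^ (2 ^ n) ∧ α (f^[n] g) = (f^[n] g)⁻¹ := by
    intro n
    induction n with
    | zero => intro g hg; simp [hg]
    | succ n ih =>
      intro g hg
      obtain ⟨h1, h2⟩ := ih g hg
      rw [Function.iterate_succ_apply']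
      refine ⟨?_, hinv _⟩
      rw [hsq _ h2, h1, ← pow_add, pow_succ, mul_two]
  -- j is positive
  have hj0 : j ≠ 0 := by
    rintro rfl
    exact hj 1 (by simp) (by simp)
  obtain ⟨k, rfl⟩ := Nat.exists_eq_succ_of_ne_zero hj0
  ext g
  simp only [Set.mem_range, Set.mem_ofPred_eq]
  constructor
  · rintro ⟨c, rfl⟩
    rw [Function.iterate_succ_apply]
    obtain ⟨h1, h2⟩ := hiter k (f c) (hinv c)
    refine ⟨?_, h2⟩
    rw [h1]
    -- order of f c is not divisible by 2^(k+1)
    have hnd := hj (f c) (hinv c)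
    have hpos : 0 < orderOf (f c) := orderOf_pos _
    rw [orderOf_pow' _ (by positivity : 2 ^ k ≠ 0)]
    -- orderOf (f c) / gcd (orderOf (f c)) (2^k) is odd
    by_contra hodd
    rw [Nat.not_odd_iff_even, even_iff_two_dvd] at hodd
    apply hnd
    set m := orderOf (f c) with hm
    -- gcd m (2^k) = 2^i for some i ≤ k
    obtain ⟨i, hi, hgi⟩ := (Nat.dvd_prime_pow Nat.prime_two).mp (Nat.gcd_dvd_right m (2 ^ k))
    rw [hgi] at hodd
    have hdvd : 2 ^ i ∣ m := hgi ▸ Nat.gcd_dvd_left m (2 ^ k)
    have h2i : 2 ^ (i + 1) ∣ m := by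
      obtain ⟨t, ht⟩ := hdvd
      rw [ht, Nat.mul_div_cancel_left _ (by positivity)] at hodd
      obtain ⟨s, hs⟩ := hodd
      exact ⟨s, by rw [ht, hs, pow_succ]; ring⟩
    -- then gcd m (2^k) ≥ 2^(min (i+1) k), so i = k
    have hik : i = k := by
      by_contra hne
      have hlt : i + 1 ≤ k := by omega
      have : 2 ^ (i + 1) ∣ Nat.gcd m (2 ^ k) := Nat.dvd_gcd h2i (pow_dvd_pow 2 hlt)
      rw [hgi] at this
      have := Nat.le_of_dvd (by positivity) this
      have : 2 ^ i < 2 ^ (i + 1) := Nat.pow_lt_pow_right (by norm_num) (by omega)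
      omega
    rw [hik] at h2i
    exact h2i
  · rintro ⟨hodd, hg⟩
    -- g = h ^ (2^(k+1)) for an inverted h of odd order, and then g = f^[k+1] h
    set m := orderOf g with hm
    have hcop : Nat.Coprime (2 ^ (k + 1)) m := by
      apply Nat.Coprime.pow_left
      rw [Nat.coprime_two_left]
      exact hodd
    obtain ⟨e, he⟩ := exists_pow_eq_self_of_coprime hcop
    refine ⟨g ^ e, ?_⟩
    have hinve : α (g ^ e) = (g ^ e)⁻¹ := by
      rw [map_pow, hg, inv_pow]
    rw [(hiter (k + 1) (g ^ e) hinve).1, ← pow_mul, mul_comm, pow_mul]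
    exact he

end Cfsg.Agent.S3949
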