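import Cfsg.Statements.S3982
import Cfsg.Agent.Helper66.PGroupMisc
import Mathlib

set_option autoImplicit false
open Cfsg

namespace Cfsg.Agent.S3982

open scoped Pointwise in
/-- Growth step: a non-Sylow `p`-subgroup normalized by an involution `t` can be enlarged to a
`p`-subgroup normalized by `t`. -/
theorem exists_larger {G : Type*} [Group G] [Finite G] (p : ℕ) [Fact p.Prime]
    (hC : ∀ g : G, g ≠ 1 → (∃ k : ℕ, orderOf g = p ^ k) →
      Odd (Nat.card ↥(Subgroup.centralizer ({g} : Set G))))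
    (S : Subgroup G) (hS : IsPGroup p S) (hS1 : S ≠ ⊥) (t : G) (ht : orderOf t = 2)
    (htS : t ∈ Subgroup.normalizer (S : Set G)) (P : Sylow p G) (hSP : S ≤ P)
    (hne : S ≠ (P : Subgroup G)) :
    ∃ S' : Subgroup G, IsPGroup p S' ∧ t ∈ Subgroup.normalizer (S' : Set G) ∧
      Nat.card S < Nat.card S' := by
  have hp : p.Prime := Fact.out
  have ht2 : t * t = 1 := by rw [← pow_two, ← ht]; exact pow_orderOf_eq_one t
  have htinv : t⁻¹ = t := inv_eq_of_mul_eq_one_right ht2
  have htt : ∀ h : G, t * (t * h * t⁻¹) * t⁻¹ = h := by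
    intro h
    rw [htinv]
    calc t * (t * h * t) * t = (t * t) * h * (t * t) := by group
      _ = h := by rw [ht2]; group
  have htS' : ∀ h, h ∈ S ↔ t * h * t⁻¹ ∈ S := Subgroup.mem_normalizer_iff.mp htS
  have hpel : ∀ x ∈ S, ∃ k, orderOf x = p ^ k := by
    intro x hx
    obtain ⟨k, hk⟩ := hS ⟨x, hx⟩
    have : x ^ p ^ k = 1 := congrArg Subtype.val hk
    exact ((Nat.dvd_prime_pow hp).mp (orderOf_dvd_of_pow_eq_one this)).imp (fun j hj => hj.2)
  have hfix : ∀ x ∈ S, t * x * t⁻¹ = x → x = 1 := by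
    intro x hx hfx
    by_contra hx1
    have hodd := hC x hx1 (hpel x hx)
    have htC : t ∈ Subgroup.centralizer ({x} : Set G) := by
      rw [Subgroup.mem_centralizer_iff]
      intro h hh
      rw [Set.mem_singleton_iff] at hh
      subst hh
      exact (mul_inv_eq_iff_eq_mul.mp hfx).symm
    have h2 : 2 ∣ Nat.card (Subgroup.centralizer ({x} : Set G)) := by
      have := orderOf_dvd_natCard (⟨t, htC⟩ : Subgroup.centralizer ({x} : Set G))
      rwa [Subgroup.orderOf_mk, ht] at this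
    exact (Nat.not_even_iff_odd.mpr hodd) (even_iff_two_dvd.mpr h2)
  have hinv := Cfsg.Agent.Helper66.inverts_of_fpf S t ht2 (fun x hx => (htS' x).mp hx) hfix
  obtain ⟨P₁, hP₁⟩ : ∃ P₁ : Subgroup G,
      P₁ = (P : Subgroup G) ⊓ Subgroup.normalizer (S : Set G) := ⟨_, rfl⟩
  have hSP₁ : S ≤ P₁ := by rw [hP₁]; exact le_inf hSP Subgroup.le_normalizer
  have hP₁N : P₁ ≤ Subgroup.normalizer (S : Set G) := by rw [hP₁]; exact inf_le_right
  have hP₁P : P₁ ≤ P := by rw [hP₁]; exact inf_le_left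
  have hP₁p : IsPGroup p P₁ := P.isPGroup'.to_le hP₁P
  obtain ⟨r, hrP, hrN, hrS⟩ :=
    Cfsg.Agent.Helper66.exists_mem_normalizer_not_mem_of_lt p S (P : Subgroup G) P.isPGroup' hSP hne
  have hrP₁ : r ∈ P₁ := by rw [hP₁]; exact Subgroup.mem_inf.mpr ⟨hrP, hrN⟩
  have hnorm : (S.subgroupOf P₁).Normal := Subgroup.normal_subgroupOf_of_le_normalizer hP₁N
  have hne' : S.subgroupOf P₁ ≠ ⊥ := by
    intro h
    apply hS1
    rw [eq_bot_iff]
    intro s hs
    have h1 : (⟨s, hSP₁ hs⟩ : P₁) ∈ S.subgroupOf P₁ := hs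
    rw [h, Subgroup.mem_bot] at h1
    rw [Subgroup.mem_bot]
    exact congrArg Subtype.val h1
  obtain ⟨z, hzS, hz1, hzc⟩ :=
    Cfsg.Agent.Helper66.exists_mem_center_of_normal p hP₁p (S.subgroupOf P₁) hne'
  have hz1' : z.1 ≠ 1 := fun h => hz1 (Subtype.ext h)
  have hzS' : z.1 ∈ S := hzS
  have hP₁C : P₁ ≤ Subgroup.centralizer ({z.1} : Set G) := by
    intro g hg
    rw [Subgroup.mem_centralizer_iff]
    intro h hh
    rw [Set.mem_singleton_iff] at hh
    subst hh
    have h1 := Subgroup.mem_center_iff.mp hzc ⟨g, hg⟩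
    exact (congrArg Subtype.val h1).symm
  obtain ⟨C, hCdef⟩ : ∃ C : Subgroup G, C = Subgroup.centralizer ({z.1} : Set G) := ⟨_, rfl⟩
  have hCodd : Odd (Nat.card C) := by rw [hCdef]; exact hC z.1 hz1' (hpel z.1 hzS')
  have htz : t * z.1 * t⁻¹ = z.1⁻¹ := hinv z.1 hzS'
  have htC : ∀ c ∈ C, t * c * t⁻¹ ∈ C := by
    intro c hc
    rw [hCdef, Subgroup.mem_centralizer_iff] at hc ⊢
    intro h hh
    rw [Set.mem_singleton_iff] at hh
    subst hh
    have hc' := hc z.1 rfl
    have h1 : (t * z.1 * t⁻¹) * (t * c * t⁻¹) = (t * c * t⁻¹) * (t * z.1 * t⁻¹) := by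
      calc (t * z.1 * t⁻¹) * (t * c * t⁻¹) = t * (z.1 * c) * t⁻¹ := by group
        _ = t * (c * z.1) * t⁻¹ := by rw [hc']
        _ = (t * c * t⁻¹) * (t * z.1 * t⁻¹) := by group
    rw [htz] at h1
    have h2 := congrArg (fun w => z.1 * w * z.1) h1
    simp only [mul_assoc, mul_inv_cancel_left, inv_mul_cancel, mul_one] at h2
    simpa only [mul_assoc] using h2.symm
  let φ : MulAut C :=
    { toFun := fun c => ⟨t * c.1 * t⁻¹, htC c.1 c.2⟩
      invFun := fun c => ⟨t * c.1 * t⁻¹, htC c.1 c.2⟩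
      left_inv := fun c => Subtype.ext (htt c.1)
      right_inv := fun c => Subtype.ext (htt c.1)
      map_mul' := fun a b => Subtype.ext (by simp [mul_assoc]) }
  have hφ2 : φ ^ 2 = 1 := by
    ext c
    rw [pow_two]
    exact congrArg Subtype.val (Subtype.ext (htt c.1) : φ (φ c) = c)
  have : Fintype (Sylow p C) := Fintype.ofFinite _
  have hcard : ¬ 2 ∣ Fintype.card (Sylow p C) := by
    intro h
    obtain ⟨S₀⟩ : Nonempty (Sylow p C) := inferInstance
    have h1 : Nat.card (Sylow p C) ∣ Nat.card C :=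
      (Sylow.card_dvd_index S₀).trans (Subgroup.index_dvd_card _)
    rw [Nat.card_eq_fintype_card] at h1
    exact (Nat.not_even_iff_odd.mpr hCodd) (even_iff_two_dvd.mpr (h.trans h1))
  have : Fact (Nat.Prime 2) := ⟨Nat.prime_two⟩
  obtain ⟨S', hS'⟩ := Equiv.Perm.exists_fixed_point_of_prime (p := 2) (n := 1) hcard
    (σ := MulAction.toPermHom (MulAut C) (Sylow p C) φ) (by
      rw [pow_one, ← map_pow, hφ2, map_one])
  have hS'' : φ • S' = S' := hS'
  refine ⟨(S' : Subgroup C).map C.subtype, S'.isPGroup'.map _, ?_, ?_⟩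
  · have hmap : ∀ h ∈ (S' : Subgroup C).map C.subtype,
        t * h * t⁻¹ ∈ (S' : Subgroup C).map C.subtype := by
      rintro _ ⟨c, hc, rfl⟩
      refine ⟨φ c, ?_, rfl⟩
      have h1 : φ • c ∈ φ • (S' : Subgroup C) := Subgroup.smul_mem_pointwise_smul c φ _ hc
      have h2 : φ • (S' : Subgroup C) = (S' : Subgroup C) := congrArg (fun X : Sylow p C => (X : Subgroup C)) hS''
      rw [h2] at h1
      exact h1
    rw [Subgroup.mem_normalizer_iff]
    intro h
    refine ⟨hmap h, fun hh => ?_⟩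
    have h2 := hmap _ hh
    rwa [htt] at h2
  · rw [Subgroup.card_map_of_injective C.subtype_injective]
    have h1 : Nat.card S < Nat.card P₁ := by
      refine lt_of_le_of_ne (Subgroup.card_le_of_le hSP₁) ?_
      intro h
      have h3 : S = P₁ := Subgroup.eq_of_le_of_card_ge hSP₁ h.ge
      exact hrS (h3 ▸ hrP₁)
    have h2 : Nat.card P₁ ∣ Nat.card S' := by
      obtain ⟨n, hn⟩ := IsPGroup.iff_card.mp hP₁p
      rw [hn]
      apply S'.pow_dvd_card_of_pow_dvd_card
      rw [← hn]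
      have h3 : P₁ ≤ C := hCdef ▸ hP₁C
      have e : P₁.subgroupOf C ≃* P₁ := Subgroup.subgroupOfEquivOfLe h3
      rw [← Nat.card_congr e.toEquiv]
      exact Subgroup.card_subgroup_dvd_card _
    exact lt_of_lt_of_le h1 (Nat.le_of_dvd Nat.card_pos h2)

/-- Let p be an odd prime and G a finite group of even order divisible by p in which the centralizer of every non-identity p-element has odd order. If some nontrivial p-subgroup of G has a normalizer of even order, then the normalizer of every Sylow p-subgroup of G has even order. -/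
theorem result {G : Type*} [Group G] [Finite G] (p : ℕ) [Fact p.Prime] (hp2 : p ≠ 2) (hpG : p ∣ Nat.card G) (h2G : 2 ∣ Nat.card G) (hC : ∀ g : G, g ≠ 1 → (∃ k : ℕ, orderOf g = p ^ k) → Odd (Nat.card ↥(Subgroup.centralizer ({g} : Set G)))) (Q : Subgroup G) (hQ : IsPGroup p ↥Q) (hQ1 : Q ≠ ⊥) (hev : Even (Nat.card ↥(Subgroup.normalizer (Q : Set G)))) (P : Sylow p G) : Even (Nat.card ↥(Subgroup.normalizer ((P : Subgroup G) : Set G))) := by
  have hp : p.Prime := Fact.out
  have : Fact (Nat.Prime 2) := ⟨Nat.prime_two⟩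
  obtain ⟨t₀, ht₀⟩ := exists_prime_orderOf_dvd_card' 2 (even_iff_two_dvd.mp hev)
  have key : ∀ (n : ℕ) (S : Subgroup G), IsPGroup p S → S ≠ ⊥ →
      Nat.card G - Nat.card S = n → ∀ t : G, orderOf t = 2 →
      t ∈ Subgroup.normalizer (S : Set G) →
      ∃ (P₀ : Sylow p G) (t' : G), orderOf t' = 2 ∧
        t' ∈ Subgroup.normalizer ((P₀ : Subgroup G) : Set G) := by
    intro n
    induction n using Nat.strong_induction_on with
    | _ n ih =>
      intro S hS hS1 hn t ht htS
      obtain ⟨P₀, hP₀⟩ := hS.exists_le_sylow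
      by_cases hne : S = (P₀ : Subgroup G)
      · exact ⟨P₀, t, ht, hne ▸ htS⟩
      · obtain ⟨S', hS', htS', hlt⟩ := exists_larger p hC S hS hS1 t ht htS P₀ hP₀ hne
        have hS'1 : S' ≠ ⊥ := by
          rintro rfl
          rw [Subgroup.card_bot] at hlt
          have := Nat.card_pos (α := S)
          omega
        have hle : Nat.card S' ≤ Nat.card G := Subgroup.card_le_card_group S'
        exact ih (Nat.card G - Nat.card S') (by omega) S' hS' hS'1 rfl t ht htS'
  obtain ⟨P₀, t', ht', ht'P⟩ := key _ Q hQ hQ1 rfl t₀.1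
    (by rw [Subgroup.orderOf_coe]; exact ht₀) t₀.2
  obtain ⟨g, hg⟩ := MulAction.exists_smul_eq G P₀ P
  have h1 : g * t' * g⁻¹ ∈ Subgroup.normalizer ((P : Subgroup G) : Set G) := by
    have h3 : t' • P₀ = P₀ := Sylow.smul_eq_iff_mem_normalizer.mpr ht'P
    refine Sylow.smul_eq_iff_mem_normalizer.mp ?_
    rw [← hg, mul_smul, mul_smul, inv_smul_smul, h3]
  have h2 : orderOf (g * t' * g⁻¹) = 2 := by
    rw [← ht']; exact MulEquiv.orderOf_eq (MulAut.conj g) t'
  rw [even_iff_two_dvd]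
  have h4 := orderOf_dvd_natCard
    (⟨g * t' * g⁻¹, h1⟩ : Subgroup.normalizer ((P : Subgroup G) : Set G))
  rwa [Subgroup.orderOf_mk, h2] at h4

end Cfsg.Agent.S3982
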