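import Cfsg.Statements.S3983
import Mathlib

set_option autoImplicit false
open scoped Pointwise

namespace Cfsg.Agent.S3983

/-- Let P be a Sylow p-subgroup of the finite group G that meets each conjugate g P g⁻¹ with g outside N_G(P) trivially, and let U be a subgroup of G of order divisible by p. Then a Sylow p-subgroup Q of U has the same property inside U: Q meets each conjugate u Q u⁻¹ with u ∈ U outside N_U(Q) trivially. -/
theorem result {G : Type*} [Group G] [Finite G] (p : ℕ) [Fact p.Prime] (P : Sylow p G) (hTI : ∀ g : G, g ∉ Subgroup.normalizer ((P : Subgroup G) : Set G) → (P : Subgroup G) ⊓ (MulAut.conj g • (P : Subgroup G)) = ⊥) (U : Subgroup G) (hU : p ∣ Nat.card ↥U) (Q : Sylow p ↥U) : ∀ u : ↥U, u ∉ Subgroup.normalizer ((Q : Subgroup ↥U) : Set ↥U) → (Q : Subgroup ↥U) ⊓ (MulAut.conj u • (Q : Subgroup ↥U)) = ⊥ := by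
  intro u hu
  have hTI' : ∀ x y : G, y ∈ P → y ≠ 1 → x⁻¹ * y * x ∈ P → ∀ h, h ∈ P ↔ x * h * x⁻¹ ∈ P := by
    intro x y hy hy1 hxy
    by_contra hcon
    have hx : x ∉ Subgroup.normalizer ((P : Subgroup G) : Set G) :=
      fun h => hcon (Subgroup.mem_normalizer_iff.mp h)
    have := hTI x hx
    have hmem : y ∈ (P : Subgroup G) ⊓ (MulAut.conj x • (P : Subgroup G)) := by
      refine Subgroup.mem_inf.mpr ⟨hy, ?_⟩
      rw [Subgroup.mem_pointwise_smul_iff_inv_smul_mem, MulAut.smul_def, ← map_inv,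
        MulAut.conj_apply, inv_inv]
      exact hxy
    rw [this, Subgroup.mem_bot] at hmem
    exact hy1 hmem
  have hQ' : IsPGroup p ((Q : Subgroup U).map U.subtype) := Q.isPGroup'.map _
  obtain ⟨P₁, hP₁⟩ := hQ'.exists_le_sylow
  obtain ⟨g, hg⟩ := MulAction.exists_smul_eq G P P₁
  have hP₁mem : ∀ h : G, h ∈ P₁ ↔ g⁻¹ * h * g ∈ P := by
    intro h
    have : (P₁ : Subgroup G) = MulAut.conj g • (P : Subgroup G) := by rw [← hg]; rfl
    show h ∈ (P₁ : Subgroup G) ↔ _
    rw [this, Subgroup.mem_pointwise_smul_iff_inv_smul_mem, MulAut.smul_def, ← map_inv,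
      MulAut.conj_apply, inv_inv]
    rfl
  have key : ∀ h : U, h ∈ Q ↔ (h : G) ∈ P₁ := by
    intro h
    constructor
    · intro hh
      exact hP₁ ⟨h, hh, rfl⟩
    · intro hh
      have hmax := Q.is_maximal' (Q := (P₁ : Subgroup G).subgroupOf U)
        (P₁.isPGroup'.comap_subtype) (by
          intro z hz
          exact hP₁ ⟨z, hz, rfl⟩)
      have : h ∈ (P₁ : Subgroup G).subgroupOf U := hh
      rw [hmax] at this
      exact this
  rw [eq_bot_iff]
  intro y hy
  rw [Subgroup.mem_bot]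
  by_contra hy1
  apply hu
  rw [Subgroup.mem_normalizer_iff]
  obtain ⟨hyQ, hyQ'⟩ := Subgroup.mem_inf.mp hy
  rw [Subgroup.mem_pointwise_smul_iff_inv_smul_mem, MulAut.smul_def, ← map_inv,
    MulAut.conj_apply, inv_inv] at hyQ'
  have h1 : g⁻¹ * (y : G) * g ∈ P := (hP₁mem _).mp ((key y).mp hyQ)
  have h2 : g⁻¹ * ((u⁻¹ * y * u : U) : G) * g ∈ P := (hP₁mem _).mp ((key _).mp hyQ')
  have h3 := hTI' (g⁻¹ * u * g) (g⁻¹ * y * g) h1 (by
      intro h; apply hy1
      have : (y : G) = 1 := by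
        have := congrArg (fun z => g * z * g⁻¹) h
        simpa [mul_assoc] using this
      exact Subtype.ext this) (by
      convert h2 using 1
      simp [mul_assoc])
  intro h
  have e1 : h ∈ (Q : Subgroup U) ↔ g⁻¹ * (h : G) * g ∈ P := (key h).trans (hP₁mem _)
  have e2 : u * h * u⁻¹ ∈ (Q : Subgroup U) ↔ g⁻¹ * ((u * h * u⁻¹ : U) : G) * g ∈ P :=
    (key _).trans (hP₁mem _)
  rw [e1, e2, h3]
  convert Iff.rfl using 2
  simp [mul_assoc]

end Cfsg.Agent.S3983
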