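import Cfsg.Statements.S3984
import Mathlib

set_option autoImplicit false
open scoped Pointwise
open Cfsg

namespace Cfsg.Agent.S3984

/-- Sylow conjugacy inside `N P₁`: a `p`-element of `N P₁` is `N`-conjugate into `P₁`. -/
theorem exists_conj_mem_sylow {G : Type*} [Group G] [Finite G] (p : ℕ) [Fact p.Prime]
    (P₁ : Sylow p G) (N : Subgroup G) [N.Normal] (c : G) (k : ℕ) (hc : c ^ p ^ k = 1)
    (hcH : c ∈ N ⊔ (P₁ : Subgroup G)) : ∃ n ∈ N, n⁻¹ * c * n ∈ (P₁ : Subgroup G) := by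
  have hp : p.Prime := Fact.out
  have hP₁H : (P₁ : Subgroup G) ≤ N ⊔ (P₁ : Subgroup G) := le_sup_right
  obtain ⟨P₂, hP₂⟩ : ∃ P₂ : Sylow p (N ⊔ (P₁ : Subgroup G) : Subgroup G),
      P₂ = P₁.subtype hP₁H := ⟨_, rfl⟩
  have hpg : IsPGroup p (Subgroup.zpowers (⟨c, hcH⟩ : (N ⊔ (P₁ : Subgroup G) : Subgroup G))) := by
    have hc' : (⟨c, hcH⟩ : (N ⊔ (P₁ : Subgroup G) : Subgroup G)) ^ p ^ k = 1 := Subtype.ext hc
    obtain ⟨j, -, hj⟩ := (Nat.dvd_prime_pow hp).mp (orderOf_dvd_of_pow_eq_one hc')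
    exact IsPGroup.of_card (n := j) (by rw [Nat.card_zpowers, hj])
  obtain ⟨P₃, hP₃⟩ := hpg.exists_le_sylow
  obtain ⟨h, hh⟩ := MulAction.exists_smul_eq (N ⊔ (P₁ : Subgroup G) : Subgroup G) P₂ P₃
  have h1 : (⟨c, hcH⟩ : (N ⊔ (P₁ : Subgroup G) : Subgroup G)) ∈
      (P₃ : Subgroup (N ⊔ (P₁ : Subgroup G) : Subgroup G)) := hP₃ (Subgroup.mem_zpowers _)
  rw [← hh] at h1
  have h2 : h⁻¹ * ⟨c, hcH⟩ * h ∈ (P₂ : Subgroup (N ⊔ (P₁ : Subgroup G) : Subgroup G)) := by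
    have h1' : (⟨c, hcH⟩ : (N ⊔ (P₁ : Subgroup G) : Subgroup G)) ∈
        MulAut.conj h • (P₂ : Subgroup (N ⊔ (P₁ : Subgroup G) : Subgroup G)) := h1
    rw [Subgroup.mem_pointwise_smul_iff_inv_smul_mem, MulAut.smul_def, ← map_inv,
      MulAut.conj_apply, inv_inv] at h1'
    exact h1'
  have h3 : (h : G)⁻¹ * c * h ∈ (P₁ : Subgroup G) := by
    rw [hP₂] at h2
    exact h2
  have h4 : (h : G) ∈ ((N ⊔ (P₁ : Subgroup G) : Subgroup G) : Set G) := h.2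
  rw [Subgroup.normal_mul] at h4
  obtain ⟨n, hn, u, hu, hnu⟩ := Set.mem_mul.mp h4
  refine ⟨n, hn, ?_⟩
  have h5 : n⁻¹ * c * n = u * ((h : G)⁻¹ * c * h) * u⁻¹ := by rw [← hnu]; group
  rw [h5]
  exact Subgroup.mul_mem _ (Subgroup.mul_mem _ hu h3) (Subgroup.inv_mem _ hu)

/-- Let P be a Sylow p-subgroup of the finite group G that meets each conjugate g P g⁻¹ with g outside N_G(P) trivially, and let N be a normal subgroup of G of order prime to p. Then every Sylow p-subgroup Q of G ⧸ N meets each conjugate x Q x⁻¹ with x outside its normalizer trivially. -/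
theorem result {G : Type*} [Group G] [Finite G] (p : ℕ) [Fact p.Prime] (P : Sylow p G) (hTI : ∀ g : G, g ∉ Subgroup.normalizer ((P : Subgroup G) : Set G) → (P : Subgroup G) ⊓ (MulAut.conj g • (P : Subgroup G)) = ⊥) (N : Subgroup G) [N.Normal] (hN : (Nat.card ↥N).Coprime p) (Q : Sylow p (G ⧸ N)) : ∀ x : G ⧸ N, x ∉ Subgroup.normalizer ((Q : Subgroup (G ⧸ N)) : Set (G ⧸ N)) → (Q : Subgroup (G ⧸ N)) ⊓ (MulAut.conj x • (Q : Subgroup (G ⧸ N))) = ⊥ := by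
  intro x hx
  have hp : p.Prime := Fact.out
  have hπ : Function.Surjective (QuotientGroup.mk' N) := QuotientGroup.mk'_surjective N
  obtain ⟨P₁, hP₁⟩ := Sylow.mapSurjective_surjective hπ p Q
  obtain ⟨g, hg⟩ := MulAction.exists_smul_eq G P P₁
  have hQeq : (Q : Subgroup (G ⧸ N)) = (P₁ : Subgroup G).map (QuotientGroup.mk' N) := by
    rw [← hP₁]; rfl
  have hP₁mem : ∀ h : G, h ∈ (P₁ : Subgroup G) ↔ g⁻¹ * h * g ∈ (P : Subgroup G) := by
    intro h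
    have : (P₁ : Subgroup G) = MulAut.conj g • (P : Subgroup G) := by rw [← hg]; rfl
    rw [this, Subgroup.mem_pointwise_smul_iff_inv_smul_mem, MulAut.smul_def, ← map_inv,
      MulAut.conj_apply, inv_inv]
  have hTI₁ : ∀ w a : G, a ∈ (P₁ : Subgroup G) → a ≠ 1 → w⁻¹ * a * w ∈ (P₁ : Subgroup G) →
      w ∈ Subgroup.normalizer ((P₁ : Subgroup G) : Set G) := by
    intro w a ha ha1 hwa
    rw [hP₁mem] at ha hwa
    have hw' : g⁻¹ * w * g ∈ Subgroup.normalizer ((P : Subgroup G) : Set G) := by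
      by_contra hcon
      have h1 := hTI _ hcon
      have h2 : g⁻¹ * a * g ∈ (P : Subgroup G) ⊓
          (MulAut.conj (g⁻¹ * w * g) • (P : Subgroup G)) := by
        refine Subgroup.mem_inf.mpr ⟨ha, ?_⟩
        rw [Subgroup.mem_pointwise_smul_iff_inv_smul_mem, MulAut.smul_def, ← map_inv,
          MulAut.conj_apply, inv_inv]
        convert hwa using 1
        group
      rw [h1, Subgroup.mem_bot] at h2
      apply ha1
      have := congrArg (fun z => g * z * g⁻¹) h2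
      simpa [mul_assoc] using this
    rw [Subgroup.mem_normalizer_iff] at hw' ⊢
    intro h
    rw [hP₁mem, hP₁mem, hw' (g⁻¹ * h * g)]
    convert Iff.rfl using 2
    group
  rw [eq_bot_iff]
  intro z hz
  rw [Subgroup.mem_bot]
  by_contra hz1
  apply hx
  obtain ⟨hzQ, hzQ'⟩ := Subgroup.mem_inf.mp hz
  rw [Subgroup.mem_pointwise_smul_iff_inv_smul_mem, MulAut.smul_def, ← map_inv,
    MulAut.conj_apply, inv_inv] at hzQ'
  obtain ⟨x₀, rfl⟩ := hπ x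
  rw [hQeq] at hzQ hzQ'
  obtain ⟨a, ha, rfl⟩ := Subgroup.mem_map.mp hzQ
  obtain ⟨b, hb, hbe⟩ := Subgroup.mem_map.mp hzQ'
  have hcH : x₀⁻¹ * a * x₀ ∈ N ⊔ (P₁ : Subgroup G) := by
    have h1 : x₀⁻¹ * a * x₀ * b⁻¹ ∈ N := by
      rw [← QuotientGroup.eq_one_iff]
      have h2 : ((x₀⁻¹ * a * x₀ * b⁻¹ : G) : G ⧸ N) =
          (QuotientGroup.mk' N x₀)⁻¹ * QuotientGroup.mk' N a * QuotientGroup.mk' N x₀ *
            (QuotientGroup.mk' N b)⁻¹ := rfl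
      rw [h2, hbe]; group
    have h3 : x₀⁻¹ * a * x₀ = (x₀⁻¹ * a * x₀ * b⁻¹) * b := by group
    rw [h3]
    exact Subgroup.mul_mem _ (Subgroup.mem_sup_left h1) (Subgroup.mem_sup_right hb)
  obtain ⟨k, hk⟩ := P₁.isPGroup' ⟨a, ha⟩
  have hak : a ^ p ^ k = 1 := congrArg Subtype.val hk
  have hck : (x₀⁻¹ * a * x₀) ^ p ^ k = 1 := by
    have h1 : x₀⁻¹ * a * x₀ = x₀⁻¹ * a * x₀⁻¹⁻¹ := by rw [inv_inv]
    rw [h1, conj_pow, hak]; group
  obtain ⟨n, hn, hmem⟩ := exists_conj_mem_sylow p P₁ N _ k hck hcH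
  have ha1 : a ≠ 1 := by
    rintro rfl
    exact hz1 (map_one _)
  have hw := hTI₁ (x₀ * n) a ha ha1 (by
    have h1 : (x₀ * n)⁻¹ * a * (x₀ * n) = n⁻¹ * (x₀⁻¹ * a * x₀) * n := by group
    rw [h1]; exact hmem)
  have h5 : QuotientGroup.mk' N (x₀ * n) = QuotientGroup.mk' N x₀ := by
    rw [map_mul]
    have : QuotientGroup.mk' N n = 1 := (QuotientGroup.eq_one_iff n).mpr hn
    rw [this, mul_one]
  have h6 := Subgroup.le_normalizer_map (H := (P₁ : Subgroup G)) (QuotientGroup.mk' N)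
    (Subgroup.mem_map_of_mem _ hw)
  rw [h5] at h6
  rw [hQeq]; exact h6

end Cfsg.Agent.S3984
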