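import Cfsg.Statements.S3985
import Cfsg.Agent.Helper66.AutRank
import Mathlib

set_option autoImplicit false
open scoped Pointwise
open Cfsg

namespace Cfsg.Agent.S3985

/-- If `y` has order prime to `p`, normalizes the cyclic `p`-group generated by `t` and fixes a
nontrivial element of it, then `y` centralizes `t`. -/
theorem conj_eq_of_fixes {G : Type*} [Group G] [Finite G] (p : ℕ) [hp : Fact p.Prime]
    (t y x : G) (n : ℕ)
    (ht : orderOf t = p ^ n) (hy : y * t * y⁻¹ ∈ Subgroup.zpowers t)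
    (hyo : Nat.Coprime (orderOf y) p)
    (hx : x ∈ Subgroup.zpowers t) (hx1 : x ≠ 1) (hxy : y * x * y⁻¹ = x) : y * t * y⁻¹ = t := by
  have hfin : IsOfFinOrder t := isOfFinOrder_of_finite t
  obtain ⟨r, hr⟩ : ∃ r : ℕ, t ^ r = y * t * y⁻¹ :=
    (Submonoid.mem_powers_iff _ _).mp (hfin.mem_powers_iff_mem_zpowers.mpr hy)
  obtain ⟨m, hm⟩ : ∃ m : ℕ, t ^ m = x :=
    (Submonoid.mem_powers_iff _ _).mp (hfin.mem_powers_iff_mem_zpowers.mpr hx)
  obtain ⟨k, rfl⟩ : ∃ k, n = k + 1 := by
    rcases n with _ | k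
    · exfalso
      rw [pow_zero, orderOf_eq_one_iff] at ht
      rw [ht, one_pow] at hm
      exact hx1 hm.symm
    · exact ⟨k, rfl⟩
  have hpow : ∀ i : ℕ, y ^ i * t * (y ^ i)⁻¹ = t ^ (r ^ i) := by
    intro i
    induction i with
    | zero => simp
    | succ i ih =>
      have h1 : y ^ (i + 1) * t * (y ^ (i + 1))⁻¹ = y * (y ^ i * t * (y ^ i)⁻¹) * y⁻¹ := by
        rw [pow_succ']; group
      rw [h1, ih, ← conj_pow, ← hr, ← pow_mul, pow_succ']
  have hr1 : 1 ≤ r := by
    rcases Nat.eq_zero_or_pos r with h0 | h0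
    · exfalso
      rw [h0, pow_zero] at hr
      have h1 : t = 1 := by
        have := congrArg (fun z => y⁻¹ * z * y) hr
        simpa [mul_assoc] using this.symm
      rw [h1, one_pow] at hm
      exact hx1 hm.symm
    · exact h0
  have hpr : p ∣ r - 1 := by
    by_contra hnd
    have h1 : t ^ (r * m) = t ^ m := by
      rw [pow_mul, hr, conj_pow, hm, hxy]
    rw [pow_eq_pow_iff_modEq, ht] at h1
    have h2 : p ^ (k + 1) ∣ r * m - m :=
      (Nat.modEq_iff_dvd' (Nat.le_mul_of_pos_left m hr1)).mp h1.symm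
    have h3 : r * m - m = (r - 1) * m := by rw [Nat.sub_mul, one_mul]
    rw [h3] at h2
    have hc : Nat.Coprime (p ^ (k + 1)) (r - 1) :=
      Nat.Coprime.pow_left _ ((Nat.Prime.coprime_iff_not_dvd hp.out).mpr hnd)
    have h4 : p ^ (k + 1) ∣ m := hc.dvd_of_dvd_mul_left h2
    rw [← ht] at h4
    rw [← hm, orderOf_dvd_iff_pow_eq_one.mp h4] at hx1
    exact hx1 rfl
  have hmod : r ^ p ^ k ≡ 1 [MOD p ^ (k + 1)] := by
    have h1 : ((p : ℕ) : ℤ) ∣ (r : ℤ) - 1 := by
      have h0 : ((r - 1 : ℕ) : ℤ) = (r : ℤ) - 1 := by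
        rw [Nat.cast_sub hr1]; rfl
      rw [← h0]; exact Int.natCast_dvd_natCast.mpr hpr
    have h2 := dvd_sub_pow_of_dvd_sub h1 k
    rw [one_pow] at h2
    apply Nat.ModEq.symm
    rw [Nat.modEq_iff_dvd]
    push_cast
    exact h2
  have h5 : y ^ p ^ k * t * (y ^ p ^ k)⁻¹ = t := by
    rw [hpow]
    have h6 : t ^ (r ^ p ^ k) = t ^ 1 := pow_eq_pow_iff_modEq.mpr (ht ▸ hmod)
    rw [h6, pow_one]
  obtain ⟨m', hm'⟩ := exists_pow_eq_self_of_coprime (x := y) (n := p ^ k)
    (Nat.Coprime.pow_left k hyo.symm)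
  have h6 : y ^ p ^ k ∈ Subgroup.centralizer ({t} : Set G) := by
    rw [Subgroup.mem_centralizer_iff]
    intro h hh
    rw [Set.mem_singleton_iff] at hh
    subst hh
    exact (mul_inv_eq_iff_eq_mul.mp h5).symm
  have h7 : y ∈ Subgroup.centralizer ({t} : Set G) := by
    rw [← hm']; exact Subgroup.pow_mem _ h6 _
  have h8 := Subgroup.mem_centralizer_iff.mp h7 t rfl
  rw [← h8]; group

/-- Let P be a cyclic Sylow p-subgroup of the finite group G. Then P meets each conjugate g P g⁻¹ with g outside N_G(P) trivially if and only if P is weakly self-centralizing: C_G(x) = C_G(P) for every non-identity x ∈ P. -/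
theorem result {G : Type*} [Group G] [Finite G] (p : ℕ) [Fact p.Prime] (P : Sylow p G) (hcyc : IsCyclic ↥(P : Subgroup G)) : (∀ g : G, g ∉ Subgroup.normalizer ((P : Subgroup G) : Set G) → (P : Subgroup G) ⊓ (MulAut.conj g • (P : Subgroup G)) = ⊥) ↔ ∀ x : G, x ∈ (P : Subgroup G) → x ≠ 1 → Subgroup.centralizer ({x} : Set G) = Subgroup.centralizer ((P : Subgroup G) : Set G) := by
  have hp : p.Prime := Fact.out
  obtain ⟨t₀, ht₀⟩ := hcyc.exists_generator
  obtain ⟨t, htdef⟩ : ∃ t : G, t = t₀.1 := ⟨_, rfl⟩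
  have htP : t ∈ (P : Subgroup G) := htdef ▸ t₀.2
  have hPt : ∀ h : G, h ∈ (P : Subgroup G) ↔ h ∈ Subgroup.zpowers t := by
    intro h
    constructor
    · intro hh
      obtain ⟨i, hi⟩ := Subgroup.mem_zpowers_iff.mp (ht₀ ⟨h, hh⟩)
      refine Subgroup.mem_zpowers_iff.mpr ⟨i, ?_⟩
      have := congrArg Subtype.val hi
      rw [htdef]
      simpa using this
    · intro hh
      exact (Subgroup.zpowers_le.mpr htP) hh
  have hcomm : ∀ a b : G, a ∈ (P : Subgroup G) → b ∈ (P : Subgroup G) → a * b = b * a := by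
    intro a b ha hb
    rw [hPt] at ha hb
    obtain ⟨i, rfl⟩ := Subgroup.mem_zpowers_iff.mp ha
    obtain ⟨j, rfl⟩ := Subgroup.mem_zpowers_iff.mp hb
    exact (Commute.zpow_zpow_self t i j)
  obtain ⟨n, hn⟩ : ∃ n, orderOf t = p ^ n := by
    obtain ⟨k, hk⟩ := P.isPGroup' t₀
    have h1 : t ^ p ^ k = 1 := by rw [htdef]; exact congrArg Subtype.val hk
    obtain ⟨j, -, hj⟩ := (Nat.dvd_prime_pow hp).mp (orderOf_dvd_of_pow_eq_one h1)
    exact ⟨j, hj⟩
  have hPle : (P : Subgroup G) ≤ Subgroup.centralizer ((P : Subgroup G) : Set G) := by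
    intro a ha
    rw [Subgroup.mem_centralizer_iff]
    intro b hb
    exact hcomm b a hb ha
  constructor
  · intro hTI x hxP hx1
    apply le_antisymm
    · intro c hc
      refine Cfsg.Agent.Helper66.mem_of_prime_pow_parts_mem _ (orderOf c) c rfl ?_
      intro y hy q k hq hyo
      have hyx : y * x * y⁻¹ = x := by
        have h1 : y ∈ Subgroup.centralizer ({x} : Set G) := (Subgroup.zpowers_le.mpr hc) hy
        have h2 := Subgroup.mem_centralizer_iff.mp h1 x rfl
        rw [← h2]; group
      have hyN : y ∈ Subgroup.normalizer ((P : Subgroup G) : Set G) := by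
        by_contra hyN
        have h1 := hTI y hyN
        have h2 : x ∈ (P : Subgroup G) ⊓ (MulAut.conj y • (P : Subgroup G)) := by
          refine Subgroup.mem_inf.mpr ⟨hxP, ?_⟩
          rw [Subgroup.mem_pointwise_smul_iff_inv_smul_mem, MulAut.smul_def, ← map_inv,
            MulAut.conj_apply, inv_inv]
          have h3 : y⁻¹ * x * y = x := by
            have := congrArg (fun z => y⁻¹ * z * y) hyx
            simpa [mul_assoc] using this.symm
          rw [h3]; exact hxP
        rw [h1, Subgroup.mem_bot] at h2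
        exact hx1 h2
      by_cases hqp : q = p
      · subst hqp
        have hpg : IsPGroup q (Subgroup.zpowers y) := by
          apply IsPGroup.of_card (n := k)
          rw [Nat.card_zpowers, hyo]
        have h1 := hpg.inf_normalizer_sylow P
        have h2 : y ∈ Subgroup.zpowers y ⊓ Subgroup.normalizer ((P : Subgroup G) : Set G) :=
          Subgroup.mem_inf.mpr ⟨Subgroup.mem_zpowers y, hyN⟩
        have h3 : y ∈ Subgroup.zpowers y ⊓ (P : Subgroup G) := h1 ▸ h2
        exact hPle (Subgroup.mem_inf.mp h3).2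
      · have hyt : y * t * y⁻¹ ∈ Subgroup.zpowers t := by
          rw [← hPt]
          exact (Subgroup.mem_normalizer_iff.mp hyN t).mp htP
        have hco : Nat.Coprime (orderOf y) p := by
          rw [hyo]
          exact Nat.Coprime.pow_left k ((Nat.coprime_primes hq hp).mpr hqp)
        have h1 := conj_eq_of_fixes p t y x n hn hyt hco ((hPt x).mp hxP) hx1 hyx
        rw [Subgroup.mem_centralizer_iff]
        intro b hb
        rw [SetLike.mem_coe, hPt] at hb
        obtain ⟨i, rfl⟩ := Subgroup.mem_zpowers_iff.mp hb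
        have hct : Commute y t := mul_inv_eq_iff_eq_mul.mp h1
        exact (hct.zpow_right i).symm.eq
    · exact Subgroup.centralizer_le (Set.singleton_subset_iff.mpr hxP)
  · intro hC g hg
    rw [eq_bot_iff]
    intro y hy
    rw [Subgroup.mem_bot]
    by_contra hy1
    apply hg
    obtain ⟨hyP, hyP'⟩ := Subgroup.mem_inf.mp hy
    have hCy := hC y hyP hy1
    have h1 : MulAut.conj g • (P : Subgroup G) ≤ Subgroup.centralizer ({y} : Set G) := by
      intro z hz
      rw [Subgroup.mem_pointwise_smul_iff_inv_smul_mem, MulAut.smul_def, ← map_inv,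
        MulAut.conj_apply, inv_inv] at hz hyP'
      have h2 := hcomm _ _ hz hyP'
      rw [Subgroup.mem_centralizer_iff]
      intro h hh
      rw [Set.mem_singleton_iff] at hh
      subst hh
      have h3 := congrArg (fun w => g * w * g⁻¹) h2
      simp only [mul_assoc, mul_inv_cancel_left, mul_inv_cancel, mul_one] at h3
      exact h3.symm
    rw [hCy] at h1
    have h2 : MulAut.conj g • (P : Subgroup G) ≤ Subgroup.normalizer ((P : Subgroup G) : Set G) :=
      h1.trans (Subgroup.centralizer_le_normalizer _)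
    have hpg : IsPGroup p (MulAut.conj g • (P : Subgroup G) : Subgroup G) := (g • P).isPGroup'
    have h3 := hpg.inf_normalizer_sylow P
    have h4 : MulAut.conj g • (P : Subgroup G) ≤ (P : Subgroup G) := by
      have h5 : MulAut.conj g • (P : Subgroup G) ⊓ Subgroup.normalizer ((P : Subgroup G) : Set G)
          = MulAut.conj g • (P : Subgroup G) := inf_eq_left.mpr h2
      have h6 : MulAut.conj g • (P : Subgroup G) ⊓ (P : Subgroup G) =
          MulAut.conj g • (P : Subgroup G) := h3.symm.trans h5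
      exact inf_eq_left.mp h6
    have h5 : (P : Subgroup G) = ((g • P : Sylow p G) : Subgroup G) :=
      (g • P).is_maximal' P.isPGroup' h4
    exact Sylow.smul_eq_iff_mem_normalizer.mp (Sylow.ext h5.symm)

end Cfsg.Agent.S3985
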