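import Cfsg.Statements.S3986
import Cfsg.Agent.Helper66.AutRank
import Mathlib

set_option autoImplicit false
open Cfsg

namespace Cfsg.Agent.S3986

/-- Let p be a prime and G a finite group. Then some Sylow p-subgroup of G is a direct factor of G (it is normal and has a normal complement) if and only if every element of p-power order commutes with every element whose order is a power of a prime other than p. -/
theorem result {G : Type*} [Group G] [Finite G] (p : ℕ) [Fact p.Prime] : (∃ (P : Sylow p G) (K : Subgroup G), (P : Subgroup G).Normal ∧ K.Normal ∧ (P : Subgroup G) ⊓ K = ⊥ ∧ (P : Subgroup G) ⊔ K = ⊤) ↔ ∀ x y : G, (∃ a : ℕ, orderOf x = p ^ a) → (∃ q b : ℕ, q.Prime ∧ q ≠ p ∧ orderOf y = q ^ b) → x * y = y * x := by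
  have hp : p.Prime := Fact.out
  constructor
  · rintro ⟨P, K, hPn, hKn, hPK, hPKtop⟩ x y ⟨a, ha⟩ ⟨q, b, hq, hqp, hb⟩
    have hdis : Disjoint (P : Subgroup G) K := disjoint_iff.mpr hPK
    have hxP : x ∈ (P : Subgroup G) := by
      have hpg : IsPGroup p (Subgroup.zpowers x) := by
        apply IsPGroup.of_card (n := a)
        rw [Nat.card_zpowers, ha]
      obtain ⟨P', hP'⟩ := hpg.exists_le_sylow
      have : P' = P := by
        have := Sylow.unique_of_normal P hPn
        exact Subsingleton.elim _ _
      rw [← this]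
      exact hP' (Subgroup.mem_zpowers x)
    have hyK : y ∈ K := by
      have hy : y ∈ (P : Subgroup G) ⊔ K := by rw [hPKtop]; trivial
      rw [← SetLike.mem_coe, Subgroup.mul_normal] at hy
      obtain ⟨u, hu, k, hk, rfl⟩ := Set.mem_mul.mp hy
      have hc : Commute u k := Subgroup.commute_of_normal_of_disjoint _ _ hPn hKn hdis u k hu hk
      have h1 : (u * k) ^ (q ^ b) = 1 := by rw [← hb]; exact pow_orderOf_eq_one _
      rw [hc.mul_pow] at h1
      have h2 : u ^ (q ^ b) ∈ (P : Subgroup G) ⊓ K := by
        refine Subgroup.mem_inf.mpr ⟨Subgroup.pow_mem _ hu _, ?_⟩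
        have : u ^ (q ^ b) = (k ^ (q ^ b))⁻¹ := eq_inv_of_mul_eq_one_left h1
        rw [this]; exact Subgroup.inv_mem _ (Subgroup.pow_mem _ hk _)
      rw [hPK, Subgroup.mem_bot] at h2
      obtain ⟨c, hc'⟩ := P.isPGroup' ⟨u, hu⟩
      have h3 : u ^ p ^ c = 1 := congrArg Subtype.val hc'
      have h4 : orderOf u ∣ Nat.gcd (q ^ b) (p ^ c) :=
        Nat.dvd_gcd (orderOf_dvd_of_pow_eq_one h2) (orderOf_dvd_of_pow_eq_one h3)
      have h5 : Nat.gcd (q ^ b) (p ^ c) = 1 :=
        Nat.Coprime.pow _ _ ((Nat.coprime_primes hq hp).mpr hqp)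
      rw [h5, Nat.dvd_one, orderOf_eq_one_iff] at h4
      rw [h4, one_mul]; exact hk
    exact (Subgroup.commute_of_normal_of_disjoint _ _ hPn hKn hdis x y hxP hyK).eq
  · intro h
    obtain ⟨P⟩ : Nonempty (Sylow p G) := inferInstance
    have hPel : ∀ x ∈ (P : Subgroup G), ∃ a, orderOf x = p ^ a := by
      intro x hx
      obtain ⟨k, hk⟩ := P.isPGroup' ⟨x, hx⟩
      have : x ^ p ^ k = 1 := congrArg Subtype.val hk
      exact ((Nat.dvd_prime_pow hp).mp (orderOf_dvd_of_pow_eq_one this)).imp (fun j hj => hj.2)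
    have hPn : (P : Subgroup G).Normal := by
      rw [← Subgroup.normalizer_eq_top_iff]
      apply Subgroup.eq_top_of_card_eq
      apply Nat.dvd_antisymm (Subgroup.card_subgroup_dvd_card _)
      rw [Nat.dvd_iff_prime_pow_dvd_dvd]
      intro q k hq hqk
      have : Fact q.Prime := ⟨hq⟩
      by_cases hqp : q = p
      · subst hqp
        exact (P.pow_dvd_card_of_pow_dvd_card hqk).trans
          (Subgroup.card_dvd_of_le Subgroup.le_normalizer)
      · obtain ⟨Q⟩ : Nonempty (Sylow q G) := inferInstance
        refine (Q.pow_dvd_card_of_pow_dvd_card hqk).trans (Subgroup.card_dvd_of_le ?_)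
        refine le_trans ?_ (Subgroup.centralizer_le_normalizer _)
        intro y hy
        rw [Subgroup.mem_centralizer_iff]
        intro x hx
        obtain ⟨j, hj⟩ := Q.isPGroup' ⟨y, hy⟩
        have h1 : y ^ q ^ j = 1 := congrArg Subtype.val hj
        obtain ⟨b, -, hb⟩ := (Nat.dvd_prime_pow hq).mp (orderOf_dvd_of_pow_eq_one h1)
        exact h x y (hPel x hx) ⟨q, b, hq, hqp, hb⟩
    have hcop : Nat.Coprime (Nat.card (P : Subgroup G)) (P : Subgroup G).index := by
      rw [P.card_eq_multiplicity]
      exact Nat.Coprime.pow_left _ ((Nat.Prime.coprime_iff_not_dvd hp).mpr P.not_dvd_index)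
    obtain ⟨K, hK⟩ := Subgroup.exists_right_complement'_of_coprime hcop
    have hKcard : Nat.card K = (P : Subgroup G).index := hK.symm.index_eq_card.symm
    have hKC : K ≤ Subgroup.centralizer ((P : Subgroup G) : Set G) := by
      intro k hk
      refine Cfsg.Agent.Helper66.mem_of_prime_pow_parts_mem _ (orderOf k) k rfl ?_
      intro y hy q b hq hyo
      have hyK : y ∈ K := (Subgroup.zpowers_le.mpr hk) hy
      rw [Subgroup.mem_centralizer_iff]
      intro x hx
      by_cases hqp : q = p
      · subst hqp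
        have h1 : orderOf y ∣ Nat.card K := by
          have := orderOf_dvd_natCard (⟨y, hyK⟩ : K)
          rwa [Subgroup.orderOf_mk] at this
        have h2 : Nat.Coprime (orderOf y) (Nat.card K) := by
          rw [hyo, hKcard]
          exact Nat.Coprime.pow_left _ ((Nat.Prime.coprime_iff_not_dvd hp).mpr P.not_dvd_index)
        have h3 : orderOf y = 1 := Nat.Coprime.eq_one_of_dvd h2 h1
        rw [orderOf_eq_one_iff] at h3
        rw [h3, one_mul, mul_one]
      · exact h x y (hPel x hx) ⟨q, b, hq, hqp, hyo⟩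
    have hKn : K.Normal := by
      rw [← Subgroup.normalizer_eq_top_iff, eq_top_iff, ← hK.sup_eq_top]
      apply sup_le
      · refine le_trans ?_ (Subgroup.centralizer_le_normalizer _)
        intro x hx
        rw [Subgroup.mem_centralizer_iff]
        intro k hk
        exact (Subgroup.mem_centralizer_iff.mp (hKC hk) x hx).symm
      · exact Subgroup.le_normalizer
    exact ⟨P, K, hPn, hKn, hK.disjoint.eq_bot, hK.sup_eq_top⟩

end Cfsg.Agent.S3986
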