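import Cfsg.Statements.S4013
import Mathlib.GroupTheory.GroupAction.ConjAct
import Mathlib.Data.Set.Card

set_option autoImplicit false
open Cfsg

namespace Cfsg.Agent.S4013

/-- Let G be a finite p-group (p prime) and N < M normal subgroups of G such that for some g ∈ M ∖ N the conjugacy class of g is exactly M ∖ N. Then p = 2 and N has index 2 in M. -/
theorem result {G : Type*} [Group G] [Finite G] (p : ℕ) [Fact p.Prime] (hG : IsPGroup p G) (N M : Subgroup G) [N.Normal] [M.Normal] (hNM : N < M) (g : G) (hgM : g ∈ M) (hgN : g ∉ N) (hcl : {h : G | IsConj g h} = (M : Set G) \ (N : Set G)) : p = 2 ∧ N.relIndex M = 2 := by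
  classical
  have hp : p.Prime := Fact.out
  -- the class has p-power size
  have hset : MulAction.orbit (ConjAct G) g = {h : G | IsConj g h} := by
    ext h
    rw [ConjAct.mem_orbit_conjAct]
    exact isConj_comm
  have hG' : IsPGroup p (ConjAct G) := hG
  obtain ⟨n, hn⟩ := hG'.card_orbit (α := G) g
  rw [hset, hcl, Nat.card_coe_set_eq, Set.ncard_sdiff (show (N : Set G) ⊆ M from hNM.le)] at hn
  have hMc : (M : Set G).ncard = Nat.card M := (Nat.card_coe_set_eq _).symm
  have hNc : (N : Set G).ncard = Nat.card N := (Nat.card_coe_set_eq _).symm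
  rw [hMc, hNc] at hn
  -- card N * relIndex = card M
  have hmul : Nat.card N * N.relIndex M = Nat.card M := by
    have := Subgroup.relIndex_mul_relIndex ⊥ N M bot_le hNM.le
    simpa [Subgroup.relIndex_bot_left] using this
  set k := N.relIndex M with hk
  have hk1 : k ≠ 1 := by
    intro h1
    rw [hk, Subgroup.relIndex_eq_one] at h1
    exact hNM.not_ge h1
  have hNpos : 0 < Nat.card N := Nat.card_pos
  have hMpos : 0 < Nat.card M := Nat.card_pos
  have hkpos : 0 < k := by
    rcases Nat.eq_zero_or_pos k with h0 | h0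
    · rw [h0, mul_zero] at hmul; omega
    · exact h0
  have hk2 : 2 ≤ k := by omega
  -- card N * (k - 1) = p ^ n
  have hn' : Nat.card N * (k - 1) = p ^ n := by
    rw [← hn, ← hmul, Nat.mul_sub, mul_one]
  -- k - 1 is a power of p
  obtain ⟨j, -, hj⟩ := (Nat.dvd_prime_pow hp).mp (Dvd.intro_left _ hn')
  -- k is a power of p
  obtain ⟨b, hb⟩ := IsPGroup.iff_card.mp (hG.to_subgroup M)
  obtain ⟨i, -, hi⟩ := (Nat.dvd_prime_pow hp).mp (hb ▸ Dvd.intro_left _ hmul)
  have hi0 : i ≠ 0 := by
    rintro rfl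
    rw [pow_zero] at hi; omega
  have hj0 : j = 0 := by
    by_contra hj0
    have h1 : p ∣ p ^ i := dvd_pow_self p hi0
    have h2 : p ∣ p ^ j := dvd_pow_self p hj0
    rw [← hi] at h1
    rw [← hj] at h2
    have h3 : p ∣ k - (k - 1) := Nat.dvd_sub h1 h2
    have h4 : k - (k - 1) = 1 := by omega
    rw [h4] at h3
    exact hp.one_lt.ne' (Nat.dvd_one.mp h3)
  rw [hj0, pow_zero] at hj
  have hk2' : k = 2 := by omega
  refine ⟨?_, hk2'⟩
  have h1 : p ∣ p ^ i := dvd_pow_self p hi0
  rw [← hi, hk2'] at h1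
  exact (Nat.prime_dvd_prime_iff_eq hp Nat.prime_two).mp h1

end Cfsg.Agent.S4013
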