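import Cfsg.Statements.S4015
import Mathlib
import Cfsg.Agent.Helper65.PLinear
import Cfsg.Agent.Helper37.DerLen

set_option autoImplicit false
open Cfsg

namespace Cfsg.Agent.S4015

open Module

/-- A faithful linear representation of `D` on a nontrivial space gives a faithful one of the
regular wreath product `D ≀ᵣ Q` on the space of functions `Q → V`. -/
theorem wreath_rep (F : Type*) [Field F] {D Q : Type*} [Group D] [Group Q] {V : Type*}
    [AddCommGroup V] [Module F V] [Nontrivial V] (ρ : D →* Module.End F V)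
    (hρ : Function.Injective ρ) :
    ∃ ρ' : (D ≀ᵣ Q) →* Module.End F (Q → V), Function.Injective ρ' := by
  classical
  let ρ' : (D ≀ᵣ Q) →* Module.End F (Q → V) :=
    { toFun := fun w =>
        { toFun := fun v x => ρ (w.left x) (v (w.right⁻¹ * x))
          map_add' := fun v v' => by
            funext x
            simp only [Pi.add_apply, map_add]
          map_smul' := fun c v => by
            funext x
            simp only [Pi.smul_apply, map_smul, RingHom.id_apply] }
      map_one' := by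
        apply LinearMap.ext
        intro v
        funext x
        show ρ ((1 : D ≀ᵣ Q).left x) (v ((1 : D ≀ᵣ Q).right⁻¹ * x)) = v x
        simp
      map_mul' := fun a b => by
        apply LinearMap.ext
        intro v
        funext x
        show ρ ((a * b).left x) (v ((a * b).right⁻¹ * x)) =
          ρ (a.left x) (ρ (b.left (a.right⁻¹ * x)) (v (b.right⁻¹ * (a.right⁻¹ * x))))
        rw [RegularWreathProduct.mul_left, RegularWreathProduct.mul_right, Pi.mul_apply, map_mul,
          mul_inv_rev, mul_assoc]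
        rfl }
  refine ⟨ρ', ?_⟩
  have hker : ∀ w : D ≀ᵣ Q, ρ' w = 1 → w = 1 := by
    intro w hw
    have hw' : ∀ (v : Q → V) (x : Q), ρ (w.left x) (v (w.right⁻¹ * x)) = v x := fun v x =>
      congrFun (congrArg (fun φ : Module.End F (Q → V) => φ v) hw) x
    obtain ⟨u, hu⟩ := exists_ne (0 : V)
    have hr : w.right = 1 := by
      by_contra hne
      have h1 := hw' (Pi.single 1 u) w.right
      rw [inv_mul_cancel, Pi.single_eq_same, Pi.single_eq_of_ne hne] at h1
      exact hu (Cfsg.Agent.S4010.rep_inj ρ _ (h1.trans (map_zero _).symm))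
    have hl : ∀ x, w.left x = 1 := by
      intro x
      apply hρ
      rw [map_one]
      apply LinearMap.ext
      intro u'
      exact hw' (fun _ => u') x
    apply RegularWreathProduct.ext
    · funext x; exact hl x
    · exact hr
  intro a b hab
  have h1 : ρ' (a⁻¹ * b) = 1 := by rw [map_mul, ← hab, ← map_mul, inv_mul_cancel, map_one]
  exact inv_mul_eq_one.mp (hker _ h1)

/-- The order of `q` modulo `p` is positive when `p ∤ q`. -/
theorem orderOf_pos_of_not_dvd (p : ℕ) [Fact p.Prime] (q : ℕ) (hpq : ¬ p ∣ q) :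
    0 < orderOf (q : ZMod p) := by
  have hq0 : (q : ZMod p) ≠ 0 := fun h => hpq ((ZMod.natCast_eq_zero_iff q p).mp h)
  rw [orderOf_pos_iff, isOfFinOrder_iff_pow_eq_one]
  have hpp : p.Prime := Fact.out
  exact ⟨p - 1, Nat.sub_pos_of_lt hpp.one_lt, ZMod.pow_card_sub_one_eq_one hq0⟩

/-- The cyclic group of order `p` acts faithfully on a space of dimension `e = ord_p(q)` over a
field with `q` elements. -/
theorem base_rep (F : Type*) [Field F] [Finite F] (p : ℕ) [Fact p.Prime]
    (hpq : ¬ p ∣ Nat.card F) :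
    ∃ (V : Type) (_ : AddCommGroup V) (_ : Module F V) (_ : FiniteDimensional F V)
      (_ : Nontrivial V), finrank F V = orderOf ((Nat.card F : ℕ) : ZMod p) ∧
      ∃ ρ : Multiplicative (ZMod p) →* Module.End F V, Function.Injective ρ := by
  have hpp : p.Prime := Fact.out
  obtain ⟨e, he⟩ : ∃ e : ℕ, e = orderOf ((Nat.card F : ℕ) : ZMod p) := ⟨_, rfl⟩
  have hepos : 0 < e := he ▸ orderOf_pos_of_not_dvd p _ hpq
  have : NeZero e := ⟨hepos.ne'⟩
  obtain ⟨ℓ, hℓ⟩ := CharP.exists F
  have : Fact ℓ.Prime := ⟨CharP.char_is_prime F ℓ⟩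
  rw [← he]
  have hcardV : Nat.card (FiniteField.Extension F ℓ e) = Nat.card F ^ e :=
    FiniteField.natCard_extension F ℓ e
  have hfr : finrank F (FiniteField.Extension F ℓ e) = e := FiniteField.finrank_extension F ℓ e
  -- an element of order `p`
  have hdvd : p ∣ Nat.card (FiniteField.Extension F ℓ e)ˣ := by
    rw [Nat.card_units, hcardV]
    have h1 : ((Nat.card F : ℕ) : ZMod p) ^ e = 1 := he ▸ pow_orderOf_eq_one _
    rw [← ZMod.natCast_eq_zero_iff, Nat.cast_sub (Nat.one_le_pow _ _ Nat.card_pos), Nat.cast_pow,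
      h1, Nat.cast_one, sub_self]
  obtain ⟨ζ, hζ⟩ := exists_prime_orderOf_dvd_card' p hdvd
  have hζp : ζ ^ p = 1 := by
    have h := pow_orderOf_eq_one ζ
    rwa [hζ] at h
  have hζdvd : ∀ k : ℕ, ζ ^ k = 1 → p ∣ k := by
    intro k hk
    have h := orderOf_dvd_of_pow_eq_one hk
    rwa [hζ] at h
  clear hζ
  -- the homomorphism from `ZMod p`
  let f₀ : ℤ →+ Additive (FiniteField.Extension F ℓ e)ˣ :=
    zmultiplesHom (Additive (FiniteField.Extension F ℓ e)ˣ) (Additive.ofMul ζ)
  have hf₀ : ∀ j : ℤ, f₀ j = Additive.ofMul (ζ ^ j) := fun j => rfl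
  have hf₀p : f₀ (p : ℤ) = 0 := by
    rw [hf₀, zpow_natCast, hζp]; rfl
  let f₁ : ZMod p →+ Additive (FiniteField.Extension F ℓ e)ˣ := ZMod.lift p ⟨f₀, hf₀p⟩
  have hf₁ : ∀ j : ℤ, f₁ (j : ZMod p) = f₀ j := fun j => ZMod.lift_coe p ⟨f₀, hf₀p⟩ j
  let φ : Multiplicative (ZMod p) →* (FiniteField.Extension F ℓ e)ˣ :=
    AddMonoidHom.toMultiplicativeLeft f₁
  have hφ : Function.Injective φ := by
    rw [injective_iff_map_eq_one]
    intro x hx
    have h1 : Multiplicative.toAdd x = ((Multiplicative.toAdd x).val : ℤ) := by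
      rw [Int.cast_natCast, ZMod.natCast_zmod_val]
    have h2 : φ x = ζ ^ (Multiplicative.toAdd x).val := by
      show Additive.toMul (f₁ (Multiplicative.toAdd x)) = _
      rw [h1, hf₁, hf₀, zpow_natCast, Int.cast_natCast, ZMod.natCast_zmod_val]
      rfl
    rw [h2] at hx
    have h3 : p ∣ (Multiplicative.toAdd x).val := hζdvd _ hx
    have h4 : (Multiplicative.toAdd x) = 0 := by
      rw [← ZMod.natCast_zmod_val (Multiplicative.toAdd x)]
      exact (ZMod.natCast_eq_zero_iff _ _).mpr h3
    exact h4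
  let ψ : (FiniteField.Extension F ℓ e)ˣ →* Module.End F (FiniteField.Extension F ℓ e) :=
    ((Algebra.lmul F (FiniteField.Extension F ℓ e) :
      FiniteField.Extension F ℓ e →ₐ[F] Module.End F (FiniteField.Extension F ℓ e)) :
      FiniteField.Extension F ℓ e →* Module.End F (FiniteField.Extension F ℓ e)).comp
      (Units.coeHom _)
  have hψ : Function.Injective ψ := by
    intro a b hab
    exact Units.ext (Algebra.lmul_injective hab)
  exact ⟨FiniteField.Extension F ℓ e, inferInstance, inferInstance, inferInstance, inferInstance,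
    hfr, ψ.comp φ, hψ.comp hφ⟩

/-- Faithful representations of the iterated wreath products of the cyclic group of order `p`,
of dimension `e * p ^ k`. -/
theorem iter_rep (F : Type*) [Field F] [Finite F] (p : ℕ) [Fact p.Prime]
    (hpq : ¬ p ∣ Nat.card F) (k : ℕ) :
    ∃ (V : Type) (_ : AddCommGroup V) (_ : Module F V) (_ : FiniteDimensional F V)
      (_ : Nontrivial V), finrank F V = orderOf ((Nat.card F : ℕ) : ZMod p) * p ^ k ∧
      ∃ ρ : IteratedWreathProduct (Multiplicative (ZMod p)) (k + 1) →* Module.End F V,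
        Function.Injective ρ := by
  induction k with
  | zero =>
    obtain ⟨V, i1, i2, i3, i4, hfr, ρ, hρ⟩ := base_rep F p hpq
    refine ⟨V, i1, i2, i3, i4, by rw [hfr, pow_zero, mul_one], ?_⟩
    let r : IteratedWreathProduct (Multiplicative (ZMod p)) 0 ≀ᵣ Multiplicative (ZMod p) →*
        Multiplicative (ZMod p) := RegularWreathProduct.rightHom
    have hr : Function.Injective r := by
      intro a b hab
      apply RegularWreathProduct.ext
      · funext x
        exact @Subsingleton.elim PUnit _ _ _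
      · exact hab
    exact ⟨ρ.comp r, hρ.comp hr⟩
  | succ k ih =>
    obtain ⟨V, i1, i2, i3, i4, hfr, ρ, hρ⟩ := ih
    obtain ⟨ρ', hρ'⟩ := wreath_rep F (Q := Multiplicative (ZMod p)) ρ hρ
    refine ⟨Multiplicative (ZMod p) → V, inferInstance, inferInstance, inferInstance,
      inferInstance, ?_, ρ', hρ'⟩
    rw [Module.finrank_pi_fintype, Finset.sum_const, Finset.card_univ, smul_eq_mul, hfr,
      Fintype.card_multiplicative, ZMod.card, pow_succ]
    ring

/-- A faithful representation of dimension at most `n` gives an embedding in `GL_n`. -/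
theorem pad_rep (F : Type*) [Field F] {W : Type*} [Group W] {V : Type*} [AddCommGroup V]
    [Module F V] [FiniteDimensional F V] (ρ : W →* Module.End F V) (hρ : Function.Injective ρ)
    (n : ℕ) (hn : finrank F V ≤ n) :
    ∃ τ : W →* Matrix.GeneralLinearGroup (Fin n) F, Function.Injective τ := by
  classical
  obtain ⟨d, hd⟩ : ∃ d, n = finrank F V + d := ⟨n - finrank F V, by omega⟩
  let ρ' : W →* Module.End F (V × (Fin d → F)) :=
    ((LinearMap.prodMapRingHom F V (Fin d → F) :
      Module.End F V × Module.End F (Fin d → F) →+* Module.End F (V × (Fin d → F))) :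
      Module.End F V × Module.End F (Fin d → F) →* Module.End F (V × (Fin d → F))).comp
      (ρ.prod 1)
  have hρ' : Function.Injective ρ' := by
    intro a b hab
    apply hρ
    apply LinearMap.ext
    intro v
    have := congrArg (fun φ : Module.End F (V × (Fin d → F)) => (φ (v, 0)).1) hab
    exact this
  have hfr : finrank F (V × (Fin d → F)) = n := by
    rw [Module.finrank_prod, Module.finrank_fin_fun, hd]
  let b : Basis (Fin n) F (V × (Fin d → F)) := Module.finBasisOfFinrankEq F _ hfr
  let τ₀ : W →* Matrix (Fin n) (Fin n) F :=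
    ((LinearMap.toMatrixAlgEquiv b : Module.End F (V × (Fin d → F)) ≃ₐ[F] _) :
        Module.End F (V × (Fin d → F)) →* Matrix (Fin n) (Fin n) F).comp ρ'
  have hτ₀ : Function.Injective τ₀ := by
    intro g h hgh
    apply hρ'
    exact (LinearMap.toMatrixAlgEquiv b).injective hgh
  refine ⟨τ₀.toHomUnits, ?_⟩
  intro g h hgh
  apply hτ₀
  have := congrArg (fun x : (Matrix (Fin n) (Fin n) F)ˣ => (x : Matrix (Fin n) (Fin n) F)) hgh
  simpa only [MonoidHom.coe_toHomUnits] using this

/-- The lower bound for the derived length. -/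
theorem lower (p : ℕ) [Fact p.Prime] (F : Type*) [Field F] [Finite F]
    (hpq : ¬ p ∣ Nat.card F) (n : ℕ) (hn : orderOf ((Nat.card F : ℕ) : ZMod p) ≤ n)
    (P : Sylow p (Matrix.GeneralLinearGroup (Fin n) F)) :
    derivedSeries ↥(P : Subgroup (Matrix.GeneralLinearGroup (Fin n) F))
      (Nat.log p (n / orderOf ((Nat.card F : ℕ) : ZMod p))) ≠ ⊥ := by
  classical
  have hpp : p.Prime := Fact.out
  obtain ⟨e, he⟩ : ∃ e : ℕ, e = orderOf ((Nat.card F : ℕ) : ZMod p) := ⟨_, rfl⟩
  have hepos : 0 < e := he ▸ orderOf_pos_of_not_dvd p _ hpq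
  obtain ⟨k, hk⟩ : ∃ k, k = Nat.log p (n / orderOf ((Nat.card F : ℕ) : ZMod p)) := ⟨_, rfl⟩
  rw [← hk]
  obtain ⟨V, i1, i2, i3, i4, hfr, ρ, hρ⟩ := iter_rep F p hpq k
  rw [← he] at hfr hn hk
  have hle : finrank F V ≤ n := by
    rw [hfr]
    have h1 : p ^ k ≤ n / e := by
      rw [hk]
      exact Nat.pow_log_le_self p (Nat.div_pos hn hepos).ne'
    calc e * p ^ k ≤ e * (n / e) := Nat.mul_le_mul_left e h1
      _ ≤ n := Nat.mul_div_le n e
  obtain ⟨f, hf⟩ := pad_rep F ρ hρ n hle
  have hGcard : Nat.card (Multiplicative (ZMod p)) = p := by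
    rw [Nat.card_eq_fintype_card, Fintype.card_multiplicative, ZMod.card]
  obtain ⟨g, hg⟩ : ∃ g : Multiplicative (ZMod p), g ≠ 1 := by
    have : Nontrivial (Multiplicative (ZMod p)) := by
      rw [← Finite.one_lt_card_iff_nontrivial, hGcard]
      exact hpp.one_lt
    exact exists_ne 1
  have hW := Cfsg.Agent.Helper37.dlsyl_iterated_ne_bot (Multiplicative (ZMod p)) g hg k
  have hWp : IsPGroup p (IteratedWreathProduct (Multiplicative (ZMod p)) (k + 1)) :=
    IsPGroup.of_card (by rw [IteratedWreathProduct.card, hGcard])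
  have hR : IsPGroup p f.range := by
    rw [MonoidHom.range_eq_map]
    exact (hWp.to_subgroup ⊤).map f
  obtain ⟨P₀, hP₀⟩ := hR.exists_le_sylow
  let f₁ : IteratedWreathProduct (Multiplicative (ZMod p)) (k + 1) →*
      ↥(P₀ : Subgroup (Matrix.GeneralLinearGroup (Fin n) F)) :=
    f.codRestrict (P₀ : Subgroup (Matrix.GeneralLinearGroup (Fin n) F)) (fun w => hP₀ ⟨w, rfl⟩)
  have hf₁ : Function.Injective f₁ := fun x y h => hf (congrArg Subtype.val h)
  have hf₂ : Function.Injective ((P₀.equiv P).toMonoidHom.comp f₁) :=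
    (P₀.equiv P).injective.comp hf₁
  intro hbot
  apply hW
  have := map_derivedSeries_le_derivedSeries ((P₀.equiv P).toMonoidHom.comp f₁) k
  rw [hbot, le_bot_iff, (Subgroup.map_eq_bot_iff_of_injective _ hf₂)] at this
  exact this

/-- The upper bound for the derived length. -/
theorem upper (p : ℕ) [Fact p.Prime] (F : Type*) [Field F] [Finite F]
    (hpq : ¬ p ∣ Nat.card F) (n : ℕ)
    (P : Sylow p (Matrix.GeneralLinearGroup (Fin n) F)) :
    derivedSeries ↥(P : Subgroup (Matrix.GeneralLinearGroup (Fin n) F))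
      (Nat.log p (n / orderOf ((Nat.card F : ℕ) : ZMod p)) + 1) = ⊥ := by
  classical
  have hpF : ((p : ℕ) : F) ≠ 0 := by
    obtain ⟨ℓ, hℓ⟩ := CharP.exists F
    have : Fact ℓ.Prime := ⟨CharP.char_is_prime F ℓ⟩
    intro h0
    have h1 : ℓ ∣ p := (CharP.cast_eq_zero_iff F ℓ p).mp h0
    have h2 : ((Nat.card F : ℕ) : F) = 0 := by
      have := Fintype.ofFinite F
      rw [Nat.card_eq_fintype_card]
      exact Nat.cast_card_eq_zero F
    have h3 : ℓ ∣ Nat.card F := (CharP.cast_eq_zero_iff F ℓ _).mp h2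
    have hpp : p.Prime := Fact.out
    have hℓp : ℓ = p := (Nat.prime_dvd_prime_iff_eq (Fact.out : ℓ.Prime) hpp).mp h1
    exact hpq (hℓp ▸ h3)
  let ρ : ↥(P : Subgroup (Matrix.GeneralLinearGroup (Fin n) F)) →*
      Module.End F (Fin n → F) :=
    ((Matrix.toLinAlgEquiv' : Matrix (Fin n) (Fin n) F ≃ₐ[F] Module.End F (Fin n → F)) :
      Matrix (Fin n) (Fin n) F →* Module.End F (Fin n → F)).comp
      ((Units.coeHom (Matrix (Fin n) (Fin n) F)).comp
        (P : Subgroup (Matrix.GeneralLinearGroup (Fin n) F)).subtype)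
  have hρ : Function.Injective ρ := by
    intro a b hab
    have h1 : ((a : Matrix.GeneralLinearGroup (Fin n) F) : Matrix (Fin n) (Fin n) F) =
        ((b : Matrix.GeneralLinearGroup (Fin n) F) : Matrix (Fin n) (Fin n) F) :=
      Matrix.toLinAlgEquiv'.injective hab
    exact Subtype.ext (Units.ext h1)
  have hmain := Cfsg.Agent.Helper65.PLinear.main_p F p hpF _ rfl n (Fin n → F)
    ↥(P : Subgroup (Matrix.GeneralLinearGroup (Fin n) F)) P.isPGroup' ρ
    (by rw [Module.finrank_fin_fun])
  rw [eq_bot_iff]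
  intro x hx
  have h1 := hmain hx
  rw [MonoidHom.mem_ker] at h1
  rw [Subgroup.mem_bot]
  apply hρ
  rw [h1, map_one]

/-- Let p be an odd prime, F a finite field with q elements where p does not divide q, and e the multiplicative order of q modulo p. Let n ≥ e and write w = ⌊n/e⌋ and k = ⌊log_p w⌋. Then a Sylow p-subgroup of GL(n, F) has derived length exactly k + 1: its (k+1)-st derived subgroup is trivial and its k-th is not. -/
theorem result (p : ℕ) [Fact p.Prime] (hp : p ≠ 2) (F : Type*) [Field F] [Fintype F] (q : ℕ) (hq : Fintype.card F = q) (hpq : ¬ p ∣ q) (n : ℕ) (hn : orderOf (q : ZMod p) ≤ n) (P : Sylow p (Matrix.GeneralLinearGroup (Fin n) F)) : derivedSeries ↥(P : Subgroup (Matrix.GeneralLinearGroup (Fin n) F)) (Nat.log p (n / orderOf (q : ZMod p)) + 1) = ⊥ ∧ derivedSeries ↥(P : Subgroup (Matrix.GeneralLinearGroup (Fin n) F)) (Nat.log p (n / orderOf (q : ZMod p))) ≠ ⊥ := by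
  have hq' : Nat.card F = q := by rw [Nat.card_eq_fintype_card, hq]
  subst hq'
  exact ⟨upper p F hpq n P, lower p F hpq n hn P⟩

end Cfsg.Agent.S4015
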