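import Mathlib
import Cfsg.Statements.S4022
import Cfsg.Agent.Helper1.SZGen

set_option autoImplicit false
open Cfsg
open scoped Pointwise

namespace Cfsg.Agent.S4022

open Cfsg.Agent.Helper1

universe u

section defs
variable (G : Type*) [Group G]

/-- any two subgroups of the same order are conjugate -/
def AllConj : Prop :=
  ∀ H K : Subgroup G, Nat.card H = Nat.card K → ∃ g : G, K = MulAut.conj g • H

/-- any two `p`-subgroups of the same order are conjugate -/
def PConj : Prop :=
  ∀ p : ℕ, p.Prime → ∀ H K : Subgroup G, IsPGroup p H → IsPGroup p K → Nat.card H = Nat.card K →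
    ∃ g : G, K = MulAut.conj g • H

/-- Sylow subgroups are cyclic with at most one exceptional prime -/
def CycExc (r : ℕ) : Prop := ∀ p : ℕ, p.Prime → p ≠ r → ∀ P : Sylow p G, IsCyclic P

end defs

/-- In a finite cyclic group, subgroups of the same order are equal. -/
theorem cyc_unique_abs {C : Type*} [Group C] [Finite C] [IsCyclic C]
    (A B : Subgroup C) (h : Nat.card A = Nat.card B) : A = B := by
  classical
  have : Fintype C := Fintype.ofFinite C
  have hpos : 0 < Nat.card A := Nat.card_pos
  have h1 := IsCyclic.card_pow_eq_one_le (α := C) hpos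
  have key : ∀ D : Subgroup C, Nat.card D = Nat.card A →
      (D : Set C) = ((Finset.univ.filter (fun a : C => a ^ Nat.card A = 1) : Finset C) : Set C) := by
    intro D hD
    apply Set.eq_of_subset_of_ncard_le
    · intro y hy
      rw [Finset.mem_coe, Finset.mem_filter]
      refine ⟨Finset.mem_univ _, ?_⟩
      have h2 : (⟨y, hy⟩ : D) ^ Nat.card D = 1 := pow_card_eq_one'
      rw [← hD]; exact congrArg Subtype.val h2
    · rw [Set.ncard_coe_finset]
      have h3 : (D : Set C).ncard = Nat.card D := Nat.card_coe_set_eq _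
      rw [h3, hD]; exact h1
    · exact Set.toFinite _
  exact SetLike.coe_injective ((key A rfl).trans (key B h.symm).symm)

/-- In a cyclic subgroup, subgroups of the same order are equal. -/
theorem cyc_unique {G : Type*} [Group G] [Finite G] {T H₁ H₂ : Subgroup G} (hT : IsCyclic T)
    (h₁ : H₁ ≤ T) (h₂ : H₂ ≤ T) (h : Nat.card H₁ = Nat.card H₂) : H₁ = H₂ := by
  have h3 : H₁.subgroupOf T = H₂.subgroupOf T :=
    cyc_unique_abs _ _ (by rw [card_subgroupOf_of_le h₁, card_subgroupOf_of_le h₂, h])
  rw [Subgroup.subgroupOf_inj, inf_of_le_left h₁, inf_of_le_left h₂] at h3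
  exact h3

theorem pconj_of_zgroup {G : Type*} [Group G] [Finite G]
    (h : ∀ p : ℕ, p.Prime → ∀ P : Sylow p G, IsCyclic P) : PConj G := by
  intro p hp H K hH hK hc
  have : Fact p.Prime := ⟨hp⟩
  obtain ⟨P, hP⟩ := hH.exists_le_sylow
  obtain ⟨Q, hQ⟩ := hK.exists_le_sylow
  obtain ⟨g, rfl⟩ := MulAction.exists_smul_eq G P Q
  refine ⟨g, ?_⟩
  have hcy := h p hp (g • P)
  have h1 : MulAut.conj g • H ≤ ((g • P : Sylow p G) : Subgroup G) := by
    rw [Sylow.coe_subgroup_smul]
    exact Subgroup.pointwise_smul_le_pointwise_smul_iff.mpr hP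
  exact cyc_unique hcy hQ h1 (by rw [card_conj_smul]; exact hc.symm)

theorem cycExc_quot {G : Type*} [Group G] [Finite G] (N : Subgroup G) [N.Normal] {r : ℕ}
    (h : CycExc G r) : CycExc (G ⧸ N) r := by
  intro p hp hpr P
  have : Fact p.Prime := ⟨hp⟩
  obtain ⟨P', rfl⟩ := Sylow.mapSurjective_surjective (QuotientGroup.mk'_surjective N) p P
  have := h p hp hpr P'
  exact isCyclic_of_surjective _
    (MonoidHom.subgroupMap_surjective (QuotientGroup.mk' N) (P' : Subgroup G))

theorem pConj_quot {G : Type*} [Group G] [Finite G] (N : Subgroup G) [N.Normal]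
    (h : PConj G) : PConj (G ⧸ N) := by
  intro p hp X Y hX hY hc
  have : Fact p.Prime := ⟨hp⟩
  have key : ∀ X : Subgroup (G ⧸ N), IsPGroup p X → ∃ P : Subgroup G, IsPGroup p P ∧
      Nat.card P = p ^ (Nat.card X * Nat.card N).factorization p ∧
      P.map (QuotientGroup.mk' N) = X := by
    intro X hX
    let P : Sylow p (X.comap (QuotientGroup.mk' N)) := default
    refine ⟨(P : Subgroup (X.comap (QuotientGroup.mk' N))).map
      (X.comap (QuotientGroup.mk' N)).subtype, P.2.map _, ?_, ?_⟩
    · rw [Subgroup.card_map_of_injective (Subgroup.subtype_injective _), P.card_eq_multiplicity,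
        card_comap_mk']
    · let f := (QuotientGroup.mk' N).subgroupComap X
      have hf : Function.Surjective f :=
        (QuotientGroup.mk' N).subgroupComap_surjective_of_surjective X
          (QuotientGroup.mk'_surjective N)
      have htop : ((P.mapSurjective hf : Sylow p X) : Subgroup X) = ⊤ := by
        have hpt : IsPGroup p (⊤ : Subgroup X) := IsPGroup.to_subgroup hX ⊤
        exact ((P.mapSurjective hf).is_maximal' hpt le_top).symm
      apply le_antisymm
      · rintro _ ⟨y, ⟨z, hz, rfl⟩, rfl⟩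
        exact z.2
      · intro x hx
        have hmem : (⟨x, hx⟩ : X) ∈ ((P.mapSurjective hf : Sylow p X) : Subgroup X) :=
          htop ▸ Subgroup.mem_top _
        obtain ⟨z, hz, hzx⟩ := hmem
        exact ⟨z, ⟨z, hz, rfl⟩, congrArg Subtype.val hzx⟩
  obtain ⟨P, hP, hPc, rfl⟩ := key X hX
  obtain ⟨Q, hQ, hQc, rfl⟩ := key Y hY
  obtain ⟨g, rfl⟩ := h p hp P Q hP hQ (by rw [hPc, hQc, hc])
  exact ⟨QuotientGroup.mk' N g, map_conj_smul _ g P⟩

theorem transfer {G : Type*} [Group G] [Finite G] (N : Subgroup G) [N.Normal]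
    (h : AllConj (G ⧸ N)) (X Y : Subgroup G) (hXY : N.relIndex X = N.relIndex Y) :
    ∃ g : G, Y ⊔ N = MulAut.conj g • X ⊔ N := by
  have hc : Nat.card (X.map (QuotientGroup.mk' N)) = Nat.card (Y.map (QuotientGroup.mk' N)) := by
    rw [← Subgroup.relIndex_ker, ← Subgroup.relIndex_ker, QuotientGroup.ker_mk', hXY]
  obtain ⟨gq, hgq⟩ := h _ _ hc
  obtain ⟨g, rfl⟩ := QuotientGroup.mk'_surjective N gq
  refine ⟨g, ?_⟩
  rw [← map_conj_smul] at hgq
  rw [← comap_map_mk', ← comap_map_mk', hgq]

theorem card_inf_mul_relIndex {G : Type*} [Group G] (N H : Subgroup G) :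
    Nat.card (H ⊓ N : Subgroup G) * N.relIndex H = Nat.card H := by
  have h1 := Subgroup.card_mul_index (N.subgroupOf H)
  have h2 : Nat.card (N.subgroupOf H) = Nat.card (H ⊓ N : Subgroup G) := by
    rw [← Subgroup.inf_subgroupOf_left, card_subgroupOf_of_le inf_le_left]
  rw [h2] at h1
  exact h1


/-- a cyclic subgroup of exponent `q` has order dividing `q` -/
theorem card_dvd_of_cyclic_exp {G : Type*} [Group G] [Finite G] (N : Subgroup G)
    (hc : IsCyclic N) (q : ℕ) (hexp : ∀ x ∈ N, x ^ q = 1) : Nat.card N ∣ q := by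
  obtain ⟨y, hy⟩ := hc.exists_generator
  have h1 : orderOf y = Nat.card N := orderOf_eq_card_of_forall_mem_zpowers hy
  rw [← h1]
  apply orderOf_dvd_of_pow_eq_one
  exact Subtype.ext (by simpa using hexp y y.2)

theorem dichotomy {G : Type*} [Group G] [Finite G] (N : Subgroup G) (q : ℕ) [Fact q.Prime]
    (hN0 : N ≠ ⊥) (hexp : ∀ x ∈ N, x ^ q = 1)
    (huniq : ∀ X : Subgroup G, Nat.card X = Nat.card N → X = N) :
    Nat.card N = q ∨ ¬ q ∣ N.index := by
  by_contra hcon
  push Not at hcon
  obtain ⟨hne, hdvd⟩ := hcon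
  have hq := (Fact.out : q.Prime)
  have hpg : IsPGroup q N := fun x => ⟨1, by
    rw [pow_one]; exact Subtype.ext (by simpa using hexp x x.2)⟩
  obtain ⟨k, hk⟩ := IsPGroup.iff_card.mp hpg
  have hGk : q ^ (k + 1) ∣ Nat.card G := by
    rw [← Subgroup.card_mul_index N, hk, pow_succ]
    exact Nat.mul_dvd_mul_left _ hdvd
  have hGk' : q ^ k ∣ Nat.card G := (pow_dvd_pow q (Nat.le_succ k)).trans hGk
  obtain ⟨N1, hN1⟩ := Sylow.exists_subgroup_card_pow_prime q hGk
  have hex : ∃ x ∈ N1, x ∉ N := by
    by_contra hno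
    push Not at hno
    have hle : N1 ≤ N := hno
    have := Subgroup.card_le_of_le hle
    rw [hN1, hk] at this
    exact absurd this (not_le.mpr (Nat.pow_lt_pow_right hq.one_lt (Nat.lt_succ_self k)))
  obtain ⟨x, hx1, hxN⟩ := hex
  have hox : orderOf x ∣ q ^ (k + 1) := hN1 ▸ Subgroup.orderOf_dvd_natCard N1 hx1
  obtain ⟨a, ha, hoa⟩ := (Nat.dvd_prime_pow hq).mp hox
  have hak : a = k + 1 := by
    by_contra hak
    have hak' : a ≤ k := by omega
    obtain ⟨K', hK', hxK'⟩ := Sylow.exists_subgroup_card_pow_prime_le q hGk'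
      (Subgroup.zpowers x) (by rw [Nat.card_zpowers, hoa]) hak'
    have := huniq K' (hK'.trans hk.symm)
    exact hxN (this ▸ hxK' (Subgroup.mem_zpowers x))
  subst hak
  have hoy : orderOf (x ^ q) = q ^ k := by
    rw [orderOf_pow_of_dvd hq.ne_zero (hoa ▸ dvd_pow_self q (Nat.succ_ne_zero k)), hoa, pow_succ,
      Nat.mul_div_cancel _ hq.pos]
  have hyN : Subgroup.zpowers (x ^ q) = N := huniq _ (by rw [Nat.card_zpowers, hoy, hk])
  have hy : (x ^ q) ^ q = 1 := hexp _ (hyN ▸ Subgroup.mem_zpowers _)
  have hd : q ^ k ∣ q := hoy ▸ orderOf_dvd_of_pow_eq_one hy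
  have hk1 : k ≤ 1 := by
    by_contra hk2
    have h2 : q ^ 2 ∣ q := (pow_dvd_pow q (by omega)).trans hd
    have h3 := Nat.le_of_dvd hq.pos h2
    nlinarith [hq.two_le]
  have hk0 : k ≠ 0 := by
    rintro rfl
    rw [pow_zero] at hk
    exact hN0 (Subgroup.card_eq_one.mp hk)
  have hk' : k = 1 := by omega
  rw [hk', pow_one] at hk
  exact hne hk

theorem card_inf_normal_sylow {G : Type*} [Group G] [Finite G] (N : Subgroup G) [N.Normal]
    (q : ℕ) [Fact q.Prime] (hN : IsPGroup q N) (hidx : ¬ q ∣ N.index) (H : Subgroup G) :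
    Nat.card (H ⊓ N : Subgroup G) = q ^ padicValNat q (Nat.card H) := by
  have h1 := card_inf_mul_relIndex N H
  have h2 : IsPGroup q (H ⊓ N : Subgroup G) := hN.to_le inf_le_right
  obtain ⟨j, hj⟩ := IsPGroup.iff_card.mp h2
  have h3 : ¬ q ∣ N.relIndex H := fun h => hidx (h.trans (Subgroup.relIndex_dvd_index_of_normal N H))
  have h4 : N.relIndex H ≠ 0 := fun h0 => h3 (h0 ▸ dvd_zero q)
  have hq := (Fact.out : q.Prime)
  rw [← h1, hj, padicValNat.mul (pow_ne_zero j hq.ne_zero) h4, padicValNat.prime_pow,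
    padicValNat.eq_zero_of_not_dvd h3, add_zero]

theorem conj_smul_eq_of_abelian {G : Type*} [Group G] (N : Subgroup G) [IsMulCommutative N]
    {a : G} (ha : a ∈ N) {D : Subgroup G} (hD : D ≤ N) : MulAut.conj a • D = D := by
  have hcomm : ∀ y ∈ N, a⁻¹ * y * a = y := by
    intro y hy
    have h1 := mul_comm' (⟨y, hy⟩ : N) ⟨a, ha⟩
    have h2 : y * a = a * y := congrArg Subtype.val h1
    rw [mul_assoc, h2, inv_mul_cancel_left]
  ext x
  rw [Subgroup.mem_pointwise_smul_iff_inv_smul_mem]
  have hx : (MulAut.conj a)⁻¹ • x = a⁻¹ * x * a := by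
    simp [MulAut.smul_def]
  rw [hx]
  constructor
  · intro h
    have hxN : x ∈ N := by
      have h1 : a * (a⁻¹ * x * a) * a⁻¹ ∈ N := N.mul_mem (N.mul_mem ha (hD h)) (N.inv_mem ha)
      have h2 : a * (a⁻¹ * x * a) * a⁻¹ = x := by group
      rwa [h2] at h1
    rwa [hcomm x hxN] at h
  · intro h
    rw [hcomm x (hD h)]
    exact h

theorem exists_compl_in {G : Type*} [Group G] [Finite G] (N : Subgroup G) [N.Normal] (q : ℕ)
    [Fact q.Prime] (hN : IsPGroup q N) (H : Subgroup G) (hH : ¬ q ∣ N.relIndex H) :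
    ∃ C : Subgroup G, C ≤ H ∧ (H ⊓ N) ⊔ C = H ∧ (Nat.card N).Coprime (Nat.card C) := by
  have hq := (Fact.out : q.Prime)
  have hpg : IsPGroup q (N.subgroupOf H) := hN.comap_subtype
  obtain ⟨j, hj⟩ := IsPGroup.iff_card.mp hpg
  obtain ⟨k, hk⟩ := IsPGroup.iff_card.mp hN
  have hcq : q.Coprime (N.relIndex H) := (Nat.Prime.coprime_iff_not_dvd hq).mpr hH
  have hcop : (Nat.card (N.subgroupOf H)).Coprime (N.subgroupOf H).index := by
    rw [hj]; exact Nat.Coprime.pow_left j hcq
  obtain ⟨C', hC'⟩ := Subgroup.exists_right_complement'_of_coprime hcop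
  refine ⟨C'.map H.subtype, Subgroup.map_subtype_le C', ?_, ?_⟩
  · have h1 := hC'.sup_eq_top
    have h2 := congrArg (Subgroup.map H.subtype) h1
    rw [Subgroup.map_sup, Subgroup.subgroupOf_map_subtype, ← MonoidHom.range_eq_map,
      H.range_subtype] at h2
    rw [inf_comm]
    exact h2
  · rw [Subgroup.card_map_of_injective H.subtype_injective, ← hC'.symm.index_eq_card, hk]
    exact Nat.Coprime.pow_left k hcq

theorem sz_rel {G : Type*} [Group G] [Finite G] (N : Subgroup G) [N.Normal] [IsMulCommutative N]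
    (q : ℕ) [Fact q.Prime] (hN : IsPGroup q N) (H K : Subgroup G) (hH : ¬ q ∣ N.relIndex H)
    (hK : ¬ q ∣ N.relIndex K) (hinf : H ⊓ N = K ⊓ N) (hsup : H ⊔ N = K ⊔ N) :
    ∃ a ∈ N, K = MulAut.conj a • H := by
  obtain ⟨C, hCH, hC, hCc⟩ := exists_compl_in N q hN H hH
  obtain ⟨E, hEK, hE, hEc⟩ := exists_compl_in N q hN K hK
  have key : ∀ X C : Subgroup G, (X ⊓ N) ⊔ C = X → N ⊔ C = X ⊔ N := by
    intro X C h
    conv_rhs => rw [← h]
    rw [sup_comm (X ⊓ N ⊔ C) N, ← sup_assoc, sup_of_le_left (inf_le_right : X ⊓ N ≤ N)]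
  have h1 : N ⊔ C = N ⊔ E := by rw [key H C hC, key K E hE, hsup]
  obtain ⟨a, ha, hconj⟩ := conj_of_sup_eq_abelian N C E hCc hEc h1
  refine ⟨a, ha, ?_⟩
  conv_rhs => rw [← hC]
  rw [Subgroup.smul_sup, hconj, conj_smul_eq_of_abelian N ha inf_le_right, hinf, hE]


theorem main (n : ℕ) : ∀ (G : Type u) [Group G] [Finite G] [Group.IsSolvable G], Nat.card G = n →
    ∀ r : ℕ, PConj G → CycExc G r → AllConj G := by
  induction n using Nat.strong_induction_on with
  | _ n ih =>
    intro G _ _ _ hn r hD hcyc H K hHK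
    by_cases htriv : (⊤ : Subgroup G) = ⊥
    · have hs : Subsingleton (Subgroup G) := by
        refine ⟨fun A B => ?_⟩
        have hA : A = ⊥ := le_bot_iff.mp (htriv ▸ le_top)
        have hB : B = ⊥ := le_bot_iff.mp (htriv ▸ le_top)
        rw [hA, hB]
      exact ⟨1, Subsingleton.elim _ _⟩
    obtain ⟨N, hNn, -, hN0, hNmin⟩ := exists_minNormal (⊤ : Subgroup G) htriv
    obtain ⟨hNc, q, hq, hexp⟩ := minNormal_elemAbelian N hN0 hNmin
    have : Fact q.Prime := ⟨hq⟩
    have hpg : IsPGroup q N := fun x => ⟨1, by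
      rw [pow_one]; exact Subtype.ext (by simpa using hexp x x.2)⟩
    obtain ⟨k, hk⟩ := IsPGroup.iff_card.mp hpg
    have huniq : ∀ X : Subgroup G, Nat.card X = Nat.card N → X = N := by
      intro X hX
      have hXp : IsPGroup q X := IsPGroup.of_card (n := k) (hX.trans hk)
      obtain ⟨g, hg⟩ := hD q hq N X hpg hXp hX.symm
      rw [hg, Subgroup.Normal.conj_smul_eq_self g N]
    have hlt : Nat.card (G ⧸ N) < n := hn ▸ card_quotient_lt N hN0
    have hQ : AllConj (G ⧸ N) := ih _ hlt (G ⧸ N) rfl r (pConj_quot N hD) (cycExc_quot N hcyc)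
    by_cases hcard : Nat.card N = q
    · -- Case 1: `N` has order `q`
      by_cases hqH : q ∣ Nat.card H
      · have hle : ∀ X : Subgroup G, q ∣ Nat.card X → N ≤ X := by
          intro X hX
          obtain ⟨x, hx⟩ := exists_prime_orderOf_dvd_card' q hX
          have h1 : Subgroup.zpowers (x : G) = N := huniq _ (by
            rw [Nat.card_zpowers, Subgroup.orderOf_coe, hx, hcard])
          rw [← h1, Subgroup.zpowers_le]
          exact x.2
        have hNH : N ≤ H := hle H hqH
        have hNK : N ≤ K := hle K (hHK ▸ hqH)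
        have hrel : N.relIndex H = N.relIndex K := by
          have e1 := card_inf_mul_relIndex N H
          have e2 := card_inf_mul_relIndex N K
          rw [inf_of_le_right hNH] at e1
          rw [inf_of_le_right hNK] at e2
          have hpos : 0 < Nat.card N := Nat.card_pos
          exact Nat.eq_of_mul_eq_mul_left hpos (e1.trans (hHK.trans e2.symm))
        obtain ⟨g, hg⟩ := transfer N hQ H K hrel
        refine ⟨g, ?_⟩
        have hNg : N ≤ MulAut.conj g • H := by
          have h1 : MulAut.conj g • N ≤ MulAut.conj g • H :=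
            Subgroup.pointwise_smul_le_pointwise_smul_iff.mpr hNH
          rwa [Subgroup.Normal.conj_smul_eq_self g N] at h1
        rw [sup_of_le_left hNK, sup_of_le_left hNg] at hg
        exact hg
      · have hqK : ¬ q ∣ Nat.card K := hHK ▸ hqH
        have cH : (Nat.card N).Coprime (Nat.card H) := by
          rw [hcard]; exact (Nat.Prime.coprime_iff_not_dvd hq).mpr hqH
        have cK : (Nat.card N).Coprime (Nat.card K) := by
          rw [hcard]; exact (Nat.Prime.coprime_iff_not_dvd hq).mpr hqK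
        have dH : H ⊓ N = ⊥ := by
          rw [inf_comm]; exact (Subgroup.disjoint_of_coprime_natCard cH).eq_bot
        have dK : K ⊓ N = ⊥ := by
          rw [inf_comm]; exact (Subgroup.disjoint_of_coprime_natCard cK).eq_bot
        have hrel : N.relIndex H = N.relIndex K := by
          have e1 := card_inf_mul_relIndex N H
          have e2 := card_inf_mul_relIndex N K
          rw [dH, Subgroup.card_bot, one_mul] at e1
          rw [dK, Subgroup.card_bot, one_mul] at e2
          rw [e1, e2, hHK]
        obtain ⟨g, hg⟩ := transfer N hQ H K hrel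
        obtain ⟨a, -, ha⟩ := conj_of_sup_eq_abelian N (MulAut.conj g • H) K
          (by rw [card_conj_smul]; exact cH) cK (by rw [sup_comm, ← hg, sup_comm])
        refine ⟨a * g, ?_⟩
        rw [map_mul, mul_smul, ha]
    · -- Case 2: `N` is a normal Sylow `q`-subgroup, and `q = r`
      have hidx : ¬ q ∣ N.index := (dichotomy N q hN0 hexp huniq).resolve_left hcard
      have hqr : q = r := by
        by_contra hqr
        obtain ⟨P, hP⟩ := hpg.exists_le_sylow
        have hPc : IsCyclic P := hcyc q hq hqr P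
        have hNcyc : IsCyclic N :=
          isCyclic_of_injective (Subgroup.inclusion hP) (Subgroup.inclusion_injective hP)
        have hd := card_dvd_of_cyclic_exp N hNcyc q hexp
        rcases (Nat.dvd_prime hq).mp hd with h1 | h1
        · exact hN0 (Subgroup.card_eq_one.mp h1)
        · exact hcard h1
      have hidxQ : ¬ q ∣ Nat.card (G ⧸ N) := by rwa [← Subgroup.index_eq_card]
      have hZ : IsZGroup (G ⧸ N) := by
        refine ⟨fun p hp P => ?_⟩
        by_cases hpr : p = r
        · have : Fact p.Prime := ⟨hp⟩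
          have h1 : Nat.card P = 1 := by
            obtain ⟨j, hj⟩ := IsPGroup.iff_card.mp P.isPGroup'
            have h2 : Nat.card P ∣ Nat.card (G ⧸ N) := Subgroup.card_subgroup_dvd_card _
            cases j with
            | zero => simpa using hj
            | succ j =>
              exfalso
              apply hidxQ
              rw [hqr, ← hpr]
              exact (dvd_pow_self p (Nat.succ_ne_zero j)).trans (hj ▸ h2)
          have : Subsingleton P := (Nat.card_eq_one_iff_unique.mp h1).1
          exact isCyclic_of_subsingleton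
        · exact cycExc_quot N hcyc p hp hpr P
      have hcinf : Nat.card (H ⊓ N : Subgroup G) = Nat.card (K ⊓ N : Subgroup G) := by
        rw [card_inf_normal_sylow N q hpg hidx H, card_inf_normal_sylow N q hpg hidx K, hHK]
      obtain ⟨g₀, hg₀⟩ := hD q hq (H ⊓ N) (K ⊓ N) (hpg.to_le inf_le_right)
        (hpg.to_le inf_le_right) hcinf
      have hH₁N : MulAut.conj g₀ • H ⊓ N = K ⊓ N := by
        rw [hg₀, Subgroup.smul_inf, Subgroup.Normal.conj_smul_eq_self g₀ N]
      have hH₁c : Nat.card (MulAut.conj g₀ • H : Subgroup G) = Nat.card K := by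
        rw [card_conj_smul]; exact hHK
      have core : ∀ H₁ : Subgroup G, H₁ ⊓ N = K ⊓ N → Nat.card H₁ = Nat.card K →
          ∃ g : G, K = MulAut.conj g • H₁ := by
        intro H₁ hH₁N hH₁c
        have hrel : N.relIndex H₁ = N.relIndex K := by
          have e1 := card_inf_mul_relIndex N H₁
          have e2 := card_inf_mul_relIndex N K
          rw [hH₁N] at e1
          have hpos : 0 < Nat.card (K ⊓ N : Subgroup G) := Nat.card_pos
          exact Nat.eq_of_mul_eq_mul_left hpos (e1.trans (hH₁c.trans e2.symm))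
        have hnorm : ∀ X : Subgroup G, X ≤ Subgroup.normalizer ((X ⊓ N : Subgroup G) : Set G) := by
          intro X h hh
          rw [mem_normalizer_iff_conj_smul_eq, Subgroup.smul_inf,
            Subgroup.Normal.conj_smul_eq_self h N, Subgroup.conj_smul_eq_self_of_mem hh]
        have hH₁M : H₁ ≤ Subgroup.normalizer ((K ⊓ N : Subgroup G) : Set G) := by
          rw [← hH₁N]; exact hnorm H₁
        have hKM : K ≤ Subgroup.normalizer ((K ⊓ N : Subgroup G) : Set G) := hnorm K
        generalize hM : Subgroup.normalizer ((K ⊓ N : Subgroup G) : Set G) = M at hH₁M hKM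
        have hMlt : Nat.card (M.map (QuotientGroup.mk' N)) < n :=
          lt_of_le_of_lt (Subgroup.card_le_card_group _) hlt
        have hMconj : AllConj (M.map (QuotientGroup.mk' N)) :=
          ih _ hMlt (M.map (QuotientGroup.mk' N)) rfl r
            (pconj_of_zgroup (fun p hp P => IsZGroup.isZGroup p hp P))
            (fun p hp _ P => IsZGroup.isZGroup p hp P)
        have hc2 : Nat.card ((H₁.map (QuotientGroup.mk' N)).subgroupOf
            (M.map (QuotientGroup.mk' N))) =
            Nat.card ((K.map (QuotientGroup.mk' N)).subgroupOf (M.map (QuotientGroup.mk' N))) := by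
          rw [card_subgroupOf_of_le (Subgroup.map_mono hH₁M),
            card_subgroupOf_of_le (Subgroup.map_mono hKM), ← Subgroup.relIndex_ker,
            ← Subgroup.relIndex_ker, QuotientGroup.ker_mk', hrel]
        obtain ⟨x, hx⟩ := hMconj _ _ hc2
        have hx' := conj_of_subgroupOf_conj (Subgroup.map_mono hH₁M) (Subgroup.map_mono hKM) x
          hx.symm
        obtain ⟨m, hmM, hmx⟩ := x.2
        rw [← hmx, ← map_conj_smul] at hx'
        have hsup : MulAut.conj m • H₁ ⊔ N = K ⊔ N := by
          rw [← comap_map_mk', ← comap_map_mk', hx']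
        have hinf : MulAut.conj m • H₁ ⊓ N = K ⊓ N := by
          have hmM' : m ∈ M := hmM
          rw [← hM, mem_normalizer_iff_conj_smul_eq] at hmM'
          have e1 : MulAut.conj m • (H₁ ⊓ N) = MulAut.conj m • H₁ ⊓ N := by
            rw [Subgroup.smul_inf, Subgroup.Normal.conj_smul_eq_self m N]
          rw [← e1, hH₁N]
          exact hmM'
        have hnd : ∀ X : Subgroup G, ¬ q ∣ N.relIndex X := fun X h =>
          hidx (h.trans (Subgroup.relIndex_dvd_index_of_normal N X))
        obtain ⟨a, -, ha⟩ := sz_rel N q hpg (MulAut.conj m • H₁) K (hnd _) (hnd _) hinf hsup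
        refine ⟨a * m, ?_⟩
        rw [map_mul, mul_smul]
        exact ha
      obtain ⟨g, hg⟩ := core (MulAut.conj g₀ • H) hH₁N hH₁c
      refine ⟨g * g₀, ?_⟩
      rw [map_mul, mul_smul]
      exact hg


/-- Let G be a finite solvable group in which, for every prime p, any two p-subgroups of the same order are conjugate, and suppose the Sylow p-subgroups of G are cyclic for all primes p with at most one exception. Then any two subgroups of G of the same order are conjugate. -/
theorem result {G : Type*} [Group G] [Finite G]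
    [Group.IsSolvable G] (hD : ∀ p : ℕ, p.Prime → ∀ H K : Subgroup G, IsPGroup p H → IsPGroup p K → Nat.card H = Nat.card K →
      ∃ g : G, K = H.map (MulAut.conj g).toMonoidHom)
    (r : ℕ) (hcyc : ∀ p : ℕ, p.Prime → p ≠ r → ∀ P : Sylow p G, IsCyclic P) :
    ∀ H K : Subgroup G, Nat.card H = Nat.card K → ∃ g : G, K = H.map (MulAut.conj g).toMonoidHom := by
  intro H K hHK
  obtain ⟨g, hg⟩ := main (Nat.card G) G rfl r hD hcyc H K hHK
  exact ⟨g, hg⟩

end Cfsg.Agent.S4022
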