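import Mathlib
import Cfsg.Statements.S4023
import Cfsg.Agent.S0016

set_option autoImplicit false
open Cfsg

namespace Cfsg.Agent.S4023

open scoped commutatorElement Pointwise

theorem zpowers_comm {G : Type*} [Group G] (g : G) (u v : Subgroup.zpowers g) : u * v = v * u := by
  obtain ⟨i, hi⟩ := Subgroup.mem_zpowers_iff.mp u.2
  obtain ⟨j, hj⟩ := Subgroup.mem_zpowers_iff.mp v.2
  apply Subtype.ext
  show (u : G) * v = v * u
  rw [← hi, ← hj, ← zpow_add, ← zpow_add, add_comm]

/-- Commutativity passes to a conjugate subgroup. -/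
theorem comm_of_map_conj {G : Type*} [Group G] (H K : Subgroup G) (g : G)
    (hK : K = H.map (MulAut.conj g).toMonoidHom)
    (hH : ∀ a ∈ H, ∀ b ∈ H, a * b = b * a) : ∀ a ∈ K, ∀ b ∈ K, a * b = b * a := by
  subst hK
  rintro _ ⟨a, ha, rfl⟩ _ ⟨b, hb, rfl⟩
  rw [← map_mul, ← map_mul, hH a ha b hb]

/-- The join of a subgroup `U` with a cyclic group of order dividing `p` normalizing it. -/
theorem card_sup_zpowers_le {Γ : Type*} [Group Γ] [Finite Γ] (U : Subgroup Γ) (w : Γ) (p : ℕ)
    (hp : 0 < p) (hw : w ^ p = 1) (hn : ∀ u ∈ U, w * u * w⁻¹ ∈ U) :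
    Nat.card ↥(Subgroup.zpowers w ⊔ U) ≤ p * Nat.card ↥U := by
  have hle : Subgroup.zpowers w ≤ Subgroup.normalizer (U : Set Γ) := by
    rw [Subgroup.zpowers_le]
    exact Subgroup.mem_normalizer_fintype hn
  have h1 : ((Subgroup.zpowers w ⊔ U : Subgroup Γ) : Set Γ)
      = (Subgroup.zpowers w : Set Γ) * (U : Set Γ) :=
    Subgroup.coe_mul_of_left_le_normalizer_right _ _ hle
  have h2 : Nat.card ↥(Subgroup.zpowers w ⊔ U)
      = Nat.card ((Subgroup.zpowers w : Set Γ) * (U : Set Γ) : Set Γ) := by
    rw [← h1]; rfl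
  rw [h2]
  refine le_trans Set.natCard_mul_le ?_
  have h3 : Nat.card (Subgroup.zpowers w : Set Γ) ≤ p := by
    have h4 : orderOf w ∣ p := orderOf_dvd_of_pow_eq_one hw
    have h5 := Nat.le_of_dvd hp h4
    have h6 : Nat.card (Subgroup.zpowers w : Set Γ) = orderOf w := Nat.card_zpowers w
    omega
  exact Nat.mul_le_mul h3 le_rfl

/-- In a nonabelian group of exponent `p` and order at least `p ^ 4` there are an abelian and a
nonabelian subgroup of order `p ^ 3`. -/
theorem exists_two_subgroups {Q : Type*} [Group Q] [Finite Q] {p : ℕ} [Fact p.Prime]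
    (hQ : IsPGroup p Q) (hexp : ∀ q : Q, q ^ p = 1) (hnc : ¬ ∀ a b : Q, a * b = b * a)
    (k : ℕ) (hk : Nat.card Q = p ^ k) (hk4 : 4 ≤ k) :
    ∃ A B : Subgroup Q, Nat.card A = p ^ 3 ∧ Nat.card B = p ^ 3 ∧
      (∀ a ∈ A, ∀ b ∈ A, a * b = b * a) ∧ ¬ (∀ a ∈ B, ∀ b ∈ B, a * b = b * a) := by
  classical
  have hp : p.Prime := Fact.out
  have hZne : ∃ g : Q, g ∉ Subgroup.center Q := by
    by_contra h
    push Not at h
    apply hnc
    intro a b
    exact (Subgroup.mem_center_iff.mp (h b) a)
  obtain ⟨g₀, hg₀⟩ := hZne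
  have hnt : Nontrivial (Q ⧸ Subgroup.center Q) :=
    ⟨⟨(g₀ : Q ⧸ Subgroup.center Q), 1, fun h => hg₀ ((QuotientGroup.eq_one_iff g₀).mp h)⟩⟩
  have hQq : IsPGroup p (Q ⧸ Subgroup.center Q) := hQ.to_quotient _
  have hcn : Nontrivial (Subgroup.center (Q ⧸ Subgroup.center Q)) := hQq.center_nontrivial
  obtain ⟨ū, hū⟩ := exists_ne (1 : Subgroup.center (Q ⧸ Subgroup.center Q))
  obtain ⟨x, hx⟩ := QuotientGroup.mk_surjective (ū : Q ⧸ Subgroup.center Q)
  have hx1 : x ∉ Subgroup.center Q := by
    intro h
    apply hū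
    apply Subtype.ext
    rw [← hx]
    exact (QuotientGroup.eq_one_iff x).mpr h
  have hx2 : ∀ g : Q, ⁅x, g⁆ ∈ Subgroup.center Q := by
    intro g
    rw [← QuotientGroup.eq_one_iff]
    have h1 := Subgroup.mem_center_iff.mp ū.2 (g : Q ⧸ Subgroup.center Q)
    rw [← hx] at h1
    rw [commutatorElement_def]
    simp only [QuotientGroup.mk_mul, QuotientGroup.mk_inv]
    rw [← h1]; group
  obtain ⟨y, hy⟩ : ∃ y : Q, x * y ≠ y * x := by
    by_contra h
    push Not at h
    apply hx1
    rw [Subgroup.mem_center_iff]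
    intro g
    exact (h g).symm
  obtain ⟨c, hc⟩ : ∃ c : Q, c = ⁅x, y⁆ := ⟨_, rfl⟩
  have hc1 : c ≠ 1 := by
    intro h
    apply hy
    rw [hc, commutatorElement_eq_one_iff_mul_comm] at h
    exact h
  have hcZ : ∀ g : Q, g * c = c * g := by
    intro g
    rw [hc]
    exact Subgroup.mem_center_iff.mp (hx2 y) g
  have hxo : orderOf x = p := by
    apply orderOf_eq_prime (hexp x)
    intro h
    apply hx1
    rw [h]; exact Subgroup.one_mem _
  have hco : orderOf c = p := orderOf_eq_prime (hexp c) hc1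
  -- the subgroup `U = ⟨x, c⟩`
  obtain ⟨U, hU⟩ : ∃ U : Subgroup Q, U = Subgroup.zpowers c ⊔ Subgroup.zpowers x := ⟨_, rfl⟩
  have hxU : x ∈ U := by rw [hU]; exact Subgroup.mem_sup_right (Subgroup.mem_zpowers x)
  have hcU : c ∈ U := by rw [hU]; exact Subgroup.mem_sup_left (Subgroup.mem_zpowers c)
  have hUx : ∀ u ∈ U, u * x = x * u := by
    have : U ≤ Subgroup.centralizer ({x} : Set Q) := by
      rw [hU]
      refine sup_le ?_ ?_
      · rw [Subgroup.zpowers_le, Subgroup.mem_centralizer_iff]
        intro w hw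
        rw [Set.mem_singleton_iff] at hw
        subst hw
        exact hcZ w
      · rw [Subgroup.zpowers_le, Subgroup.mem_centralizer_iff]
        intro w hw
        rw [Set.mem_singleton_iff] at hw
        subst hw; rfl
    intro u hu
    exact (Subgroup.mem_centralizer_iff.mp (this hu) x rfl).symm
  have hUcomm : ∀ u ∈ U, ∀ u' ∈ U, u * u' = u' * u := by
    intro u hu u' hu'
    have : U ≤ Subgroup.centralizer ({u} : Set Q) := by
      rw [hU]
      refine sup_le ?_ ?_
      · rw [Subgroup.zpowers_le, Subgroup.mem_centralizer_iff]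
        intro w hw
        rw [Set.mem_singleton_iff] at hw
        subst hw
        exact hcZ w
      · rw [Subgroup.zpowers_le, Subgroup.mem_centralizer_iff]
        intro w hw
        rw [Set.mem_singleton_iff] at hw
        subst hw
        exact hUx w hu
    exact Subgroup.mem_centralizer_iff.mp (this hu') u rfl
  have hUle : Nat.card U ≤ p * p := by
    rw [hU]
    refine le_trans (card_sup_zpowers_le (Subgroup.zpowers x) c p hp.pos (hexp c) ?_) ?_
    · intro u hu
      have : c * u * c⁻¹ = u := by rw [← hcZ u]; group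
      rw [this]; exact hu
    · rw [Nat.card_zpowers, hxo]
  have hcx : c ∉ Subgroup.zpowers x := by
    intro h
    have h1 : Subgroup.zpowers c = Subgroup.zpowers x := by
      apply Subgroup.eq_of_le_of_card_ge (Subgroup.zpowers_le.mpr h)
      rw [Nat.card_zpowers, Nat.card_zpowers, hxo, hco]
    apply hx1
    have h2 : x ∈ Subgroup.zpowers c := by rw [h1]; exact Subgroup.mem_zpowers x
    obtain ⟨i, hi⟩ := Subgroup.mem_zpowers_iff.mp h2
    rw [← hi, Subgroup.mem_center_iff]
    intro g
    have : Commute g c := hcZ g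
    exact (this.zpow_right i).eq
  have hpow : ∀ (S : Subgroup Q) (m : ℕ), p ^ m < Nat.card S → Nat.card S ≤ p ^ (m + 1) →
      Nat.card S = p ^ (m + 1) := by
    intro S m h1 h2
    obtain ⟨j, hj⟩ := IsPGroup.iff_card.mp (hQ.to_subgroup S)
    rw [hj] at h1 h2 ⊢
    have h3 : m < j := (Nat.pow_lt_pow_iff_right hp.one_lt).mp h1
    have h4 : j ≤ m + 1 := (Nat.pow_le_pow_iff_right hp.one_lt).mp h2
    have : j = m + 1 := by omega
    rw [this]
  have hlt : ∀ (S T : Subgroup Q), S ≤ T → (∃ t ∈ T, t ∉ S) → Nat.card S < Nat.card T := by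
    intro S T hST ⟨t, htT, htS⟩
    by_contra h
    push Not at h
    have := Subgroup.eq_of_le_of_card_ge hST h
    exact htS (this ▸ htT)
  have hUcard : Nat.card U = p ^ 2 := by
    have h1 : Nat.card (Subgroup.zpowers x) < Nat.card U :=
      hlt _ _ (by rw [hU]; exact le_sup_right) ⟨c, hcU, hcx⟩
    rw [Nat.card_zpowers, hxo] at h1
    apply hpow U 1
    · rw [pow_one]; exact h1
    · rw [show p ^ (1 + 1) = p * p by ring]; exact hUle
  -- the nonabelian subgroup
  have hyU : y ∉ U := fun h => hy (hUx y h).symm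
  have hyn : ∀ u ∈ U, y * u * y⁻¹ ∈ U := by
    have hle : U ≤ U.comap (MulAut.conj y).toMonoidHom := by
      rw [hU]
      refine sup_le ?_ ?_
      · rw [Subgroup.zpowers_le]
        show y * c * y⁻¹ ∈ Subgroup.zpowers c ⊔ Subgroup.zpowers x
        have : y * c * y⁻¹ = c := by rw [hcZ y]; group
        rw [this, ← hU]; exact hcU
      · rw [Subgroup.zpowers_le]
        show y * x * y⁻¹ ∈ Subgroup.zpowers c ⊔ Subgroup.zpowers x
        have : y * x * y⁻¹ = c⁻¹ * x := by rw [hc, commutatorElement_def]; group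
        rw [this, ← hU]
        exact U.mul_mem (U.inv_mem hcU) hxU
    intro u hu
    exact hle hu
  have hBcard : Nat.card ↥(Subgroup.zpowers y ⊔ U) = p ^ 3 := by
    apply hpow _ 2
    · rw [← hUcard]
      exact hlt _ _ le_sup_right ⟨y, Subgroup.mem_sup_left (Subgroup.mem_zpowers y), hyU⟩
    · refine le_trans (card_sup_zpowers_le U y p hp.pos (hexp y) hyn) ?_
      rw [hUcard]; exact le_of_eq (by ring)
  -- the abelian subgroup
  have hg : ∃ g : Q, g * x = x * g ∧ g ∉ U := by
    by_contra hcon
    push Not at hcon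
    -- the homomorphism `g ↦ ⁅x, g⁆`
    let φ : Q →* Subgroup.center Q :=
      { toFun := fun g => ⟨⁅x, g⁆, hx2 g⟩
        map_one' := by
          apply Subtype.ext
          show ⁅x, (1 : Q)⁆ = 1
          rw [commutatorElement_def]; group
        map_mul' := by
          intro g h
          apply Subtype.ext
          show ⁅x, g * h⁆ = ⁅x, g⁆ * ⁅x, h⁆
          have h1 : g⁻¹ * ⁅x, h⁆ = ⁅x, h⁆ * g⁻¹ := Subgroup.mem_center_iff.mp (hx2 h) g⁻¹
          have h2 : ⁅x, g⁆ * ⁅x, h⁆ = x * g * x⁻¹ * (g⁻¹ * ⁅x, h⁆) := by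
            rw [commutatorElement_def x g]; group
          rw [h2, h1, commutatorElement_def, commutatorElement_def]; group }
    have hker : φ.ker ≤ U := by
      intro g hg
      apply hcon
      have h1 : ⁅x, g⁆ = 1 := congrArg Subtype.val (MonoidHom.mem_ker.mp hg)
      rw [commutatorElement_eq_one_iff_mul_comm] at h1
      exact h1.symm
    have h1 : Nat.card φ.ker * Nat.card φ.range = Nat.card Q := by
      rw [← Subgroup.index_ker]; exact Subgroup.card_mul_index _
    have h2 : Nat.card φ.ker ≤ p ^ 2 := by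
      rw [← hUcard]; exact Subgroup.card_le_of_le hker
    have h3 : Nat.card φ.range ≤ Nat.card (Subgroup.center Q) := Subgroup.card_le_card_group _
    have h4 : Nat.card (Subgroup.center Q) ≤ p := by
      have h5 : Subgroup.center Q ≤ U := by
        intro z hz
        apply hcon
        exact Subgroup.mem_center_iff.mp hz x |>.symm
      have h6 : Nat.card (Subgroup.center Q) < Nat.card U := hlt _ _ h5 ⟨x, hxU, hx1⟩
      obtain ⟨j, hj⟩ := IsPGroup.iff_card.mp (hQ.to_subgroup (Subgroup.center Q))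
      rw [hj, hUcard] at h6
      have h7 : j < 2 := (Nat.pow_lt_pow_iff_right hp.one_lt).mp h6
      rw [hj]
      have h8 : j ≤ 1 := by omega
      calc p ^ j ≤ p ^ 1 := Nat.pow_le_pow_right hp.pos h8
        _ = p := pow_one p
    have h5 : Nat.card Q ≤ p ^ 2 * p := by
      rw [← h1]; exact Nat.mul_le_mul h2 (le_trans h3 h4)
    rw [hk] at h5
    have h6 : p ^ 4 ≤ p ^ k := Nat.pow_le_pow_right hp.pos hk4
    have h7 : p ^ 2 * p < p ^ 4 := by
      have : p ^ 2 * p = p ^ 3 := by ring
      rw [this]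
      exact Nat.pow_lt_pow_right hp.one_lt (by omega)
    omega
  obtain ⟨g, hgx, hgU⟩ := hg
  have hgcent : ∀ u ∈ U, g * u = u * g := by
    have : U ≤ Subgroup.centralizer ({g} : Set Q) := by
      rw [hU]
      refine sup_le ?_ ?_
      · rw [Subgroup.zpowers_le, Subgroup.mem_centralizer_iff]
        intro w hw
        rw [Set.mem_singleton_iff] at hw
        subst hw
        exact hcZ w
      · rw [Subgroup.zpowers_le, Subgroup.mem_centralizer_iff]
        intro w hw
        rw [Set.mem_singleton_iff] at hw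
        subst hw
        exact hgx
    intro u hu
    exact Subgroup.mem_centralizer_iff.mp (this hu) g rfl
  have hgn : ∀ u ∈ U, g * u * g⁻¹ ∈ U := by
    intro u hu
    have : g * u * g⁻¹ = u := by rw [hgcent u hu]; group
    rw [this]; exact hu
  have hAcard : Nat.card ↥(Subgroup.zpowers g ⊔ U) = p ^ 3 := by
    apply hpow _ 2
    · rw [← hUcard]
      exact hlt _ _ le_sup_right ⟨g, Subgroup.mem_sup_left (Subgroup.mem_zpowers g), hgU⟩
    · refine le_trans (card_sup_zpowers_le U g p hp.pos (hexp g) hgn) ?_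
      rw [hUcard]; exact le_of_eq (by ring)
  have hAg : ∀ a ∈ Subgroup.zpowers g ⊔ U, a * g = g * a := by
    have : Subgroup.zpowers g ⊔ U ≤ Subgroup.centralizer ({g} : Set Q) := by
      refine sup_le ?_ ?_
      · rw [Subgroup.zpowers_le, Subgroup.mem_centralizer_iff]
        intro w hw
        rw [Set.mem_singleton_iff] at hw
        subst hw; rfl
      · intro u hu
        rw [Subgroup.mem_centralizer_iff]
        intro w hw
        rw [Set.mem_singleton_iff] at hw
        subst hw
        exact hgcent u hu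
    intro a ha
    exact (Subgroup.mem_centralizer_iff.mp (this ha) g rfl).symm
  have hAU : ∀ a ∈ Subgroup.zpowers g ⊔ U, ∀ u ∈ U, a * u = u * a := by
    intro a ha u hu
    have : Subgroup.zpowers g ⊔ U ≤ Subgroup.centralizer ({u} : Set Q) := by
      refine sup_le ?_ ?_
      · rw [Subgroup.zpowers_le, Subgroup.mem_centralizer_iff]
        intro w hw
        rw [Set.mem_singleton_iff] at hw
        subst hw
        exact (hgcent w hu).symm
      · intro u' hu'
        rw [Subgroup.mem_centralizer_iff]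
        intro w hw
        rw [Set.mem_singleton_iff] at hw
        subst hw
        exact hUcomm w hu u' hu'
    exact (Subgroup.mem_centralizer_iff.mp (this ha) u rfl).symm
  have hAcomm : ∀ a ∈ Subgroup.zpowers g ⊔ U, ∀ b ∈ Subgroup.zpowers g ⊔ U, a * b = b * a := by
    intro a ha b hb
    have : Subgroup.zpowers g ⊔ U ≤ Subgroup.centralizer ({a} : Set Q) := by
      refine sup_le ?_ ?_
      · rw [Subgroup.zpowers_le, Subgroup.mem_centralizer_iff]
        intro w hw
        rw [Set.mem_singleton_iff] at hw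
        subst hw
        exact hAg w ha
      · intro u hu
        rw [Subgroup.mem_centralizer_iff]
        intro w hw
        rw [Set.mem_singleton_iff] at hw
        subst hw
        exact hAU w ha u hu
    exact Subgroup.mem_centralizer_iff.mp (this hb) a rfl
  refine ⟨Subgroup.zpowers g ⊔ U, Subgroup.zpowers y ⊔ U, hAcard, hBcard, hAcomm, ?_⟩
  intro h
  exact hy (h x (Subgroup.mem_sup_right hxU) y (Subgroup.mem_sup_left (Subgroup.mem_zpowers y)))

/-- Key lemma: under the conjugacy hypothesis, a `p`-subgroup with two different subgroups of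
order `p` has exponent dividing `p`. -/
theorem key' {G : Type*} [Group G] [Finite G]
    (p : ℕ) [Fact p.Prime]
    (hC : ∀ H K : Subgroup G, IsPGroup p H → IsPGroup p K → Nat.card H = Nat.card K →
      ∃ g : G, K = H.map (MulAut.conj g).toMonoidHom)
    (P : Subgroup G) (hP : IsPGroup p P)
    (hnu : ¬ ∀ H K : Subgroup P, Nat.card H = p → Nat.card K = p → H = K) :
    ∀ x ∈ P, x ^ p = 1 := by
  have hp : p.Prime := Fact.out
  push Not at hnu
  obtain ⟨H, K, hH, hK, hHK⟩ := hnu
  have hPnt : Nontrivial P := by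
    have : Nontrivial H := Finite.one_lt_card_iff_nontrivial.mp (hH ▸ hp.one_lt)
    obtain ⟨a, b, hab⟩ := this
    exact ⟨⟨(a : P), (b : P), fun h => hab (Subtype.ext h)⟩⟩
  have hZnt : Nontrivial (Subgroup.center P) := hP.center_nontrivial
  obtain ⟨n, hn0, hn⟩ := (hP.to_subgroup (Subgroup.center P)).nontrivial_iff_card.mp hZnt
  have hpdvd : p ∣ Nat.card (Subgroup.center P) := by rw [hn]; exact dvd_pow_self p (by omega)
  obtain ⟨z, hz⟩ := exists_prime_orderOf_dvd_card' p hpdvd
  have hzP : orderOf (z : P) = p := by rw [Subgroup.orderOf_coe, hz]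
  have hz₀ : orderOf ((z : P) : G) = p := by rw [Subgroup.orderOf_coe, hzP]
  have hzcomm : ∀ u ∈ P, u * ((z : P) : G) = ((z : P) : G) * u := by
    intro u hu
    have := Subgroup.mem_center_iff.mp z.2 ⟨u, hu⟩
    exact congrArg Subtype.val this
  -- a second element of order `p`
  obtain ⟨A₁, hA₁, hA₁Z⟩ : ∃ A₁ : Subgroup P, Nat.card A₁ = p ∧ A₁ ≠ Subgroup.zpowers (z : P) := by
    by_cases h : H = Subgroup.zpowers (z : P)
    · exact ⟨K, hK, fun h' => hHK (h.trans h'.symm)⟩
    · exact ⟨H, hH, h⟩
  have hZcard : Nat.card (Subgroup.zpowers (z : P)) = p := by rw [Nat.card_zpowers, hzP]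
  obtain ⟨y', hy'A, hy'Z⟩ : ∃ y' ∈ A₁, y' ∉ Subgroup.zpowers (z : P) := by
    by_contra hcon
    push Not at hcon
    exact hA₁Z (Subgroup.eq_of_le_of_card_ge hcon (by rw [hZcard, hA₁]))
  have hy'1 : y' ≠ 1 := fun h => hy'Z (h ▸ Subgroup.one_mem _)
  have hy'o : orderOf y' = p := by
    have h1 : orderOf (⟨y', hy'A⟩ : A₁) ∣ p := hA₁ ▸ orderOf_dvd_natCard _
    rw [Subgroup.orderOf_mk] at h1
    rcases (Nat.dvd_prime hp).mp h1 with h2 | h2
    · exact absurd (orderOf_eq_one_iff.mp h2) hy'1
    · exact h2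
  have hyo : orderOf (y' : G) = p := by rw [Subgroup.orderOf_coe, hy'o]
  have hyZ : (y' : G) ∉ Subgroup.zpowers ((z : P) : G) := by
    intro h
    obtain ⟨k, hk⟩ := Subgroup.mem_zpowers_iff.mp h
    apply hy'Z
    refine Subgroup.mem_zpowers_iff.mpr ⟨k, Subtype.ext ?_⟩
    rw [← hk]; simp
  -- the two cyclic subgroups meet trivially
  have hdisj : ∀ u : G, u ∈ Subgroup.zpowers ((z : P) : G) → u ∈ Subgroup.zpowers (y' : G) →
      u = 1 := by
    intro u hu1 hu2
    by_contra hu
    have h1 : Subgroup.zpowers u = Subgroup.zpowers ((z : P) : G) := by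
      apply Subgroup.eq_of_le_of_card_ge (Subgroup.zpowers_le.mpr hu1)
      rw [Nat.card_zpowers, Nat.card_zpowers, hz₀]
      have h2 : orderOf u ∣ p := by
        have := orderOf_dvd_natCard (⟨u, hu1⟩ : Subgroup.zpowers ((z : P) : G))
        rwa [Subgroup.orderOf_mk, Nat.card_zpowers, hz₀] at this
      rcases (Nat.dvd_prime hp).mp h2 with h3 | h3
      · exact absurd (orderOf_eq_one_iff.mp h3) hu
      · rw [h3]
    have h2 : Subgroup.zpowers u = Subgroup.zpowers (y' : G) := by
      apply Subgroup.eq_of_le_of_card_ge (Subgroup.zpowers_le.mpr hu2)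
      rw [h1, Nat.card_zpowers, Nat.card_zpowers, hz₀, hyo]
    apply hyZ
    rw [← h1, h2]
    exact Subgroup.mem_zpowers _
  -- the elementary abelian subgroup of order `p ^ 2`
  have hcomm : ∀ (m : Subgroup.zpowers ((z : P) : G)) (n : Subgroup.zpowers (y' : G)),
      Commute ((Subgroup.zpowers ((z : P) : G)).subtype m) ((Subgroup.zpowers (y' : G)).subtype n) := by
    intro m n
    obtain ⟨i, hi⟩ := Subgroup.mem_zpowers_iff.mp m.2
    obtain ⟨j, hj⟩ := Subgroup.mem_zpowers_iff.mp n.2
    show (m : G) * (n : G) = (n : G) * (m : G)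
    rw [← hi, ← hj]
    have h1 : Commute ((y' : G)) (((z : P) : G)) := hzcomm _ y'.2
    exact ((h1.zpow_zpow j i).eq).symm
  set f := MonoidHom.noncommCoprod (Subgroup.zpowers ((z : P) : G)).subtype
    (Subgroup.zpowers (y' : G)).subtype hcomm with hf
  have hfinj : Function.Injective f := by
    rw [hf, MonoidHom.noncommCoprod_injective]
    refine ⟨Subgroup.subtype_injective _, Subgroup.subtype_injective _, ?_⟩
    rw [Subgroup.range_subtype, Subgroup.range_subtype, Subgroup.disjoint_def]
    exact fun {u} hu1 hu2 => hdisj u hu1 hu2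
  have hEcard : Nat.card f.range = p * p := by
    rw [← Nat.card_congr (MonoidHom.ofInjective hfinj).toEquiv, Nat.card_prod, Nat.card_zpowers,
      Nat.card_zpowers, hz₀, hyo]
  have hEcomm : IsMulCommutative f.range := by
    refine ⟨⟨?_⟩⟩
    rintro ⟨_, a, rfl⟩ ⟨_, b, rfl⟩
    apply Subtype.ext
    show f a * f b = f b * f a
    rw [← map_mul, ← map_mul]
    congr 1
    exact Prod.ext (zpowers_comm _ a.1 b.1) (zpowers_comm _ a.2 b.2)
  have hEexp : ∀ e ∈ f.range, e ^ p = 1 := by
    rintro _ ⟨⟨u, v⟩, rfl⟩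
    have h1 : f (u, v) = (u : G) * (v : G) := by
      rw [hf, MonoidHom.noncommCoprod_apply]; rfl
    have hc : Commute (u : G) (v : G) := hcomm u v
    rw [h1, hc.mul_pow]
    have hu : (u : G) ^ p = 1 := by
      have := orderOf_dvd_natCard u
      rw [Nat.card_zpowers, hz₀] at this
      have h2 := orderOf_dvd_iff_pow_eq_one.mp this
      exact_mod_cast congrArg Subtype.val h2
    have hv : (v : G) ^ p = 1 := by
      have := orderOf_dvd_natCard v
      rw [Nat.card_zpowers, hyo] at this
      have h2 := orderOf_dvd_iff_pow_eq_one.mp this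
      exact_mod_cast congrArg Subtype.val h2
    rw [hu, hv, one_mul]
  -- an element of order `p ^ 2` gives a contradiction
  intro x hx
  by_contra hxp
  obtain ⟨k, hk⟩ := (IsPGroup.iff_orderOf.mp hP) ⟨x, hx⟩
  rw [Subgroup.orderOf_mk] at hk
  have hk2 : 2 ≤ k := by
    by_contra h
    apply hxp
    have h1 : orderOf x ∣ p := by
      rw [hk]
      interval_cases k
      · simp
      · simp
    exact orderOf_dvd_iff_pow_eq_one.mp h1
  obtain ⟨j, rfl⟩ : ∃ j, k = j + 2 := ⟨k - 2, by omega⟩
  have hx'o : orderOf (x ^ (p ^ j)) = p ^ (1 + 1) := by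
    apply orderOf_eq_prime_pow
    · rw [← pow_mul, ← pow_add]
      intro h
      have h1 := orderOf_dvd_of_pow_eq_one h
      rw [hk] at h1
      have h2 := Nat.le_of_dvd (pow_pos hp.pos _) h1
      have h3 : p ^ (j + 1) < p ^ (j + 2) := Nat.pow_lt_pow_right hp.one_lt (by omega)
      omega
    · have e : p ^ j * p ^ (1 + 1) = p ^ (j + 2) := by ring
      rw [← pow_mul, e, ← hk, pow_orderOf_eq_one]
  have hCcard : Nat.card (Subgroup.zpowers (x ^ (p ^ j))) = Nat.card f.range := by
    rw [Nat.card_zpowers, hx'o, hEcard]; ring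
  have hCp : IsPGroup p (Subgroup.zpowers (x ^ (p ^ j))) := by
    apply IsPGroup.of_card (n := 2)
    rw [Nat.card_zpowers, hx'o]
  have hEp : IsPGroup p f.range := by
    apply IsPGroup.of_card (n := 2)
    rw [hEcard]; ring
  obtain ⟨g, hg⟩ := hC _ _ hCp hEp hCcard
  have h1 : g * x ^ (p ^ j) * g⁻¹ ∈ f.range := by
    rw [hg]
    exact ⟨x ^ (p ^ j), Subgroup.mem_zpowers _, rfl⟩
  have h2 := hEexp _ h1
  rw [conj_pow] at h2
  have h3 : (x ^ (p ^ j)) ^ p = 1 := by
    have : (x ^ (p ^ j)) ^ p = g⁻¹ * (g * (x ^ p ^ j) ^ p * g⁻¹) * g := by group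
    rw [this, h2]; group
  have h4 := orderOf_dvd_of_pow_eq_one h3
  rw [hx'o] at h4
  have h5 := Nat.le_of_dvd hp.pos h4
  have h6 : p ^ 1 < p ^ (1 + 1) := Nat.pow_lt_pow_right hp.one_lt (by omega)
  rw [pow_one] at h6
  omega


theorem zmod_neg_eq_self {N : ℕ} [NeZero N] (i : ZMod (2 * N)) (h : -i = i) :
    i = 0 ∨ i = (N : ZMod (2 * N)) := by
  have h1 : i + i = 0 := by
    nth_rewrite 1 [← h]; exact neg_add_cancel i
  have h2 : ((i.val + i.val : ℕ) : ZMod (2 * N)) = 0 := by
    rw [Nat.cast_add, ZMod.natCast_zmod_val]; exact h1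
  rw [ZMod.natCast_eq_zero_iff] at h2
  have hN : 0 < N := Nat.pos_of_ne_zero (NeZero.ne N)
  have h3 : i.val < 2 * N := ZMod.val_lt i
  obtain ⟨k, hk⟩ := h2
  have hk2 : k < 2 := by
    by_contra hcon
    push Not at hcon
    have : 2 * N * 2 ≤ 2 * N * k := Nat.mul_le_mul_left _ hcon
    omega
  have h4 : i.val = 0 ∨ i.val = N := by
    interval_cases k
    · left; omega
    · right; omega
  rcases h4 with h4 | h4
  · left
    rw [← ZMod.natCast_zmod_val i, h4, Nat.cast_zero]
  · right
    rw [← ZMod.natCast_zmod_val i, h4]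

/-- A generalized quaternion group of order at least `16` cannot embed in a group in which
`2`-subgroups of equal order are conjugate. -/
theorem quat_contra {G : Type*} [Group G] [Finite G]
    (hC : ∀ H K : Subgroup G, IsPGroup 2 H → IsPGroup 2 K → Nat.card H = Nat.card K →
      ∃ g : G, K = H.map (MulAut.conj g).toMonoidHom)
    (n : ℕ) (hn : 2 ≤ n) (ι : QuaternionGroup (2 ^ n) →* G) (hι : Function.Injective ι) :
    False := by
  classical
  have : NeZero (2 ^ n) := ⟨pow_ne_zero _ (by norm_num)⟩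
  have : Fact (Nat.Prime 2) := ⟨Nat.prime_two⟩
  obtain ⟨m, rfl⟩ : ∃ m, n = m + 2 := ⟨n - 2, by omega⟩
  -- a cyclic subgroup of order 8
  obtain ⟨c, hc⟩ : ∃ c : QuaternionGroup (2 ^ (m + 2)),
      c = (QuaternionGroup.a 1) ^ (2 ^ m) := ⟨_, rfl⟩
  have hco : orderOf c = 8 := by
    rw [hc, orderOf_pow_of_dvd (pow_ne_zero _ (by norm_num)), QuaternionGroup.orderOf_a_one]
    · have : 2 * 2 ^ (m + 2) = 8 * 2 ^ m := by ring
      rw [this, Nat.mul_div_cancel _ (pow_pos (by norm_num) m)]
    · rw [QuaternionGroup.orderOf_a_one]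
      exact ⟨8, by ring⟩
  have hH₁card : Nat.card (Subgroup.zpowers c) = 8 := by rw [Nat.card_zpowers, hco]
  -- a subgroup of order 8 containing `xa 0`
  have hxo : orderOf (QuaternionGroup.xa 0 : QuaternionGroup (2 ^ (m + 2))) = 4 :=
    QuaternionGroup.orderOf_xa 0
  have hXcard : Nat.card (Subgroup.zpowers (QuaternionGroup.xa 0 : QuaternionGroup (2 ^ (m + 2))))
      = 2 ^ 2 := by rw [Nat.card_zpowers, hxo]; norm_num
  have hdvd : 2 ^ 3 ∣ Nat.card (QuaternionGroup (2 ^ (m + 2))) := by
    rw [Nat.card_eq_fintype_card, QuaternionGroup.card]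
    exact ⟨2 ^ (m + 1), by ring⟩
  obtain ⟨K, hKcard, hXK⟩ := Sylow.exists_subgroup_card_pow_prime_le 2 hdvd _ hXcard (by norm_num)
  -- `K` is not abelian
  have hKnc : ¬ ∀ a ∈ K, ∀ b ∈ K, a * b = b * a := by
    intro hcomm
    have hxK : (QuaternionGroup.xa 0 : QuaternionGroup (2 ^ (m + 2))) ∈ K :=
      hXK (Subgroup.mem_zpowers _)
    have hsq : (QuaternionGroup.xa 0 : QuaternionGroup (2 ^ (m + 2))) ^ 2
        = QuaternionGroup.a ((2 ^ (m + 2) : ℕ) : ZMod (2 * 2 ^ (m + 2))) := by
      rw [pow_two, QuaternionGroup.xa_mul_xa]; simp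
    have hnegN : -((2 ^ (m + 2) : ℕ) : ZMod (2 * 2 ^ (m + 2)))
        = ((2 ^ (m + 2) : ℕ) : ZMod (2 * 2 ^ (m + 2))) := by
      rw [neg_eq_iff_add_eq_zero, ← Nat.cast_add, ZMod.natCast_eq_zero_iff]
      exact ⟨1, by ring⟩
    have hcube : (QuaternionGroup.xa 0 : QuaternionGroup (2 ^ (m + 2))) ^ 3
        = QuaternionGroup.xa ((2 ^ (m + 2) : ℕ) : ZMod (2 * 2 ^ (m + 2))) := by
      rw [pow_succ _ 2, hsq, QuaternionGroup.a_mul_xa, zero_sub, hnegN]
    have hle : K ≤ Subgroup.zpowers (QuaternionGroup.xa 0 : QuaternionGroup (2 ^ (m + 2))) := by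
      intro k hk
      have h1 := hcomm k hk _ hxK
      rcases k with i | i
      · rw [QuaternionGroup.a_mul_xa, QuaternionGroup.xa_mul_a, zero_sub, zero_add] at h1
        have h2 : -i = i := by injection h1
        rcases zmod_neg_eq_self i h2 with h3 | h3
        · rw [h3]; exact Subgroup.one_mem _
        · rw [h3, ← hsq]; exact Subgroup.pow_mem _ (Subgroup.mem_zpowers _) 2
      · rw [QuaternionGroup.xa_mul_xa, QuaternionGroup.xa_mul_xa, add_zero, sub_zero] at h1
        have h2 : ((2 ^ (m + 2) : ℕ) : ZMod (2 * 2 ^ (m + 2))) - i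
            = ((2 ^ (m + 2) : ℕ) : ZMod (2 * 2 ^ (m + 2))) + i := by injection h1
        have h2' : -i = i := by
          have := congrArg (fun t => t - ((2 ^ (m + 2) : ℕ) : ZMod (2 * 2 ^ (m + 2)))) h2
          simp only [sub_sub_cancel_left, add_sub_cancel_left] at this
          exact this
        rcases zmod_neg_eq_self i h2' with h3 | h3
        · rw [h3]; exact Subgroup.mem_zpowers _
        · rw [h3, ← hcube]; exact Subgroup.pow_mem _ (Subgroup.mem_zpowers _) 3
    have := Subgroup.card_le_of_le hle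
    rw [hKcard, hXcard] at this
    norm_num at this
  -- transport to `G`
  have hcard : Nat.card ((Subgroup.zpowers c).map ι) = Nat.card (K.map ι) := by
    rw [Subgroup.card_map_of_injective hι, Subgroup.card_map_of_injective hι, hH₁card, hKcard]
    norm_num
  have hp1 : IsPGroup 2 ((Subgroup.zpowers c).map ι) := by
    apply IsPGroup.of_card (n := 3)
    rw [Subgroup.card_map_of_injective hι, hH₁card]; norm_num
  have hp2 : IsPGroup 2 (K.map ι) := by
    apply IsPGroup.of_card (n := 3)
    rw [Subgroup.card_map_of_injective hι, hKcard]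
  obtain ⟨g, hg⟩ := hC _ _ hp1 hp2 hcard
  have hH₁comm : ∀ a ∈ (Subgroup.zpowers c).map ι, ∀ b ∈ (Subgroup.zpowers c).map ι,
      a * b = b * a := by
    rintro _ ⟨a, ha, rfl⟩ _ ⟨b, hb, rfl⟩
    have := congrArg Subtype.val (zpowers_comm c ⟨a, ha⟩ ⟨b, hb⟩)
    rw [← map_mul, ← map_mul]
    exact congrArg ι this
  have hKcomm := comm_of_map_conj _ _ g hg hH₁comm
  apply hKnc
  intro a ha b hb
  apply hι
  rw [map_mul, map_mul]
  exact hKcomm _ ⟨a, ha, rfl⟩ _ ⟨b, hb, rfl⟩

/-- Let p be a prime and G a finite group in which any two p-subgroups of the same order are conjugate, with Sylow p-subgroup P. Then P is cyclic, or elementary abelian, or p = 2 and P is a quaternion group of order 8, or p is odd and P is non-abelian of order p³ and exponent p. -/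
theorem result {G : Type*} [Group G] [Finite G]
    {p : ℕ} [Fact p.Prime] (hC : ∀ H K : Subgroup G, IsPGroup p H → IsPGroup p K → Nat.card H = Nat.card K →
      ∃ g : G, K = H.map (MulAut.conj g).toMonoidHom) (P : Sylow p G) :
    IsCyclic P ∨ Cfsg.IsElementaryAbelian p (P : Subgroup G) ∨
      (p = 2 ∧ Nonempty ((P : Subgroup G) ≃* QuaternionGroup 2)) ∨
      (p ≠ 2 ∧ ¬ IsMulCommutative P ∧ Nat.card P = p ^ 3 ∧ Monoid.exponent P = p) := by
  classical
  have hp : p.Prime := Fact.out
  by_cases hu : ∀ H K : Subgroup (P : Subgroup G), Nat.card H = p → Nat.card K = p → H = K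
  · rcases Cfsg.Agent.S0016.result p P.isPGroup' hu with h | ⟨h2, n, ⟨e⟩⟩
    · exact Or.inl h
    · subst h2
      rcases Nat.lt_or_ge n 2 with hn | hn
      · interval_cases n
        · left
          have : IsCyclic (QuaternionGroup (2 ^ 0)) := by
            rw [pow_zero]; exact QuaternionGroup.quaternionGroup_one_isCyclic
          exact isCyclic_of_surjective e.symm.toMonoidHom e.symm.surjective
        · right; right; left
          exact ⟨rfl, ⟨by simpa using e⟩⟩
      · exfalso
        refine quat_contra hC n hn ((P : Subgroup G).subtype.comp e.symm.toMonoidHom) ?_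
        exact (Subgroup.subtype_injective _).comp e.symm.injective
  · have hexp := key' p hC (P : Subgroup G) P.isPGroup' hu
    by_cases hcomm : IsMulCommutative P
    · right; left
      exact ⟨hcomm, hexp⟩
    · right; right; right
      have hp2 : p ≠ 2 := by
        rintro rfl
        apply hcomm
        refine ⟨⟨fun a b => ?_⟩⟩
        apply Subtype.ext
        show (a : G) * b = b * a
        have ha : (a : G) * a = 1 := by rw [← pow_two]; exact hexp a a.2
        have hb : (b : G) * b = 1 := by rw [← pow_two]; exact hexp b b.2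
        have hab : (a : G) * b * (a * b) = 1 := by
          rw [← pow_two]; exact hexp _ (mul_mem a.2 b.2)
        calc (a : G) * b = (a : G) * ((a : G) * b * (a * b)) * b := by rw [hab]; group
          _ = ((a : G) * a) * (b * a) * (b * b) := by group
          _ = b * a := by rw [ha, hb]; group
      have hexp' : ∀ q : (P : Subgroup G), q ^ p = 1 := by
        intro q
        apply Subtype.ext
        exact hexp q q.2
      have hnc : ¬ ∀ a b : (P : Subgroup G), a * b = b * a := by
        intro h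
        exact hcomm ⟨⟨h⟩⟩
      obtain ⟨k, hk⟩ := IsPGroup.iff_card.mp P.isPGroup'
      have hk3 : 3 ≤ k := by
        by_contra hlt
        push Not at hlt
        apply hnc
        interval_cases k
        · rw [pow_zero] at hk
          have : Subsingleton (P : Subgroup G) := (Nat.card_eq_one_iff_unique.mp hk).1
          intro a b
          rw [Subsingleton.elim a 1, Subsingleton.elim b 1]
        · rw [pow_one] at hk
          have := isCyclic_of_prime_card hk
          intro a b
          exact (IsCyclic.commGroup (α := (P : Subgroup G))).mul_comm a b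
        · intro a b
          have hmc : IsMulCommutative (P : Subgroup G) :=
            IsPGroup.isMulCommutative_of_card_eq_prime_sq hk
          exact hmc.is_comm.comm a b
      have hk3' : k ≤ 3 := by
        by_contra hlt
        push Not at hlt
        obtain ⟨A, B, hA, hB, hAc, hBnc⟩ :=
          exists_two_subgroups P.isPGroup' hexp' hnc k hk (by omega)
        have hinj : Function.Injective (P : Subgroup G).subtype := Subgroup.subtype_injective _
        have hcard : Nat.card (A.map (P : Subgroup G).subtype)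
            = Nat.card (B.map (P : Subgroup G).subtype) := by
          rw [Subgroup.card_map_of_injective hinj, Subgroup.card_map_of_injective hinj, hA, hB]
        have hp1 : IsPGroup p (A.map (P : Subgroup G).subtype) := by
          apply IsPGroup.of_card (n := 3)
          rw [Subgroup.card_map_of_injective hinj, hA]
        have hp2' : IsPGroup p (B.map (P : Subgroup G).subtype) := by
          apply IsPGroup.of_card (n := 3)
          rw [Subgroup.card_map_of_injective hinj, hB]
        obtain ⟨g, hg⟩ := hC _ _ hp1 hp2' hcard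
        have hAc' : ∀ a ∈ A.map (P : Subgroup G).subtype, ∀ b ∈ A.map (P : Subgroup G).subtype,
            a * b = b * a := by
          rintro _ ⟨a, ha, rfl⟩ _ ⟨b, hb, rfl⟩
          rw [← map_mul, ← map_mul, hAc a ha b hb]
        have hBc := comm_of_map_conj _ _ g hg hAc'
        apply hBnc
        intro a ha b hb
        apply hinj
        rw [map_mul, map_mul]
        exact hBc _ ⟨a, ha, rfl⟩ _ ⟨b, hb, rfl⟩
      have hk' : k = 3 := by omega
      subst hk'
      refine ⟨hp2, hcomm, hk, ?_⟩
      have h1 : Monoid.exponent (P : Subgroup G) ∣ p :=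
        Monoid.exponent_dvd_of_forall_pow_eq_one hexp'
      rcases (Nat.dvd_prime hp).mp h1 with h2 | h2
      · exfalso
        rw [Monoid.exp_eq_one_iff] at h2
        apply hnc
        intro a b
        rw [Subsingleton.elim a 1, Subsingleton.elim b 1]
      · exact h2

end Cfsg.Agent.S4023
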