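import Mathlib
import Cfsg.Statements.S4024
import Cfsg.Agent.S4023
import Cfsg.Agent.Helper22.Transport
import Cfsg.Agent.Helper32.PPrime
import Cfsg.Agent.Helper76.PSolvable

set_option autoImplicit false
open Cfsg

namespace Cfsg.Agent.S4024

open scoped Pointwise

/-- `O_{p',p}(G)` is a characteristic subgroup. -/
theorem pPrimePCore_char (p : ℕ) (G : Type*) [Group G] :
    (Cfsg.pPrimePCore p G).Characteristic := by
  rw [Subgroup.characteristic_iff_map_le]
  intro φ
  rintro _ ⟨g, hg, rfl⟩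
  unfold Cfsg.pPrimePCore at hg ⊢
  have hg' : QuotientGroup.mk' (Cfsg.pPrimeCore p G) g ∈ Cfsg.pCore p (G ⧸ Cfsg.pPrimeCore p G) :=
    hg
  rw [Subgroup.mem_comap]
  have hchar := Cfsg.Agent.Helper22.pCore_characteristic p (G ⧸ Cfsg.pPrimeCore p G)
  have h1 := Subgroup.characteristic_iff_map_le.mp hchar
    (QuotientGroup.congr (Cfsg.pPrimeCore p G) (Cfsg.pPrimeCore p G) φ
      (Cfsg.Agent.Helper22.pPrimeCore_map_equiv p φ))
  exact h1 ⟨_, hg', rfl⟩

/-- Fusion of central elements in a group with a normal subgroup `L = K P`, `K ∩ P = 1`. -/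
theorem central_conj {G : Type*} [Group G] (K L P : Subgroup G) (hK : K.Normal) (hLn : L.Normal)
    (hPL : P ≤ L) (hL : ∀ l ∈ L, ∃ k ∈ K, ∃ y ∈ P, l = k * y)
    (hKP : ∀ x ∈ K, x ∈ P → x = 1)
    (z : G) (hz : ∀ u ∈ P, z * u = u * z) (g : G) (hw : g * z * g⁻¹ ∈ P) :
    ∀ u ∈ P, (g * z * g⁻¹) * u = u * (g * z * g⁻¹) := by
  intro u hu
  have hu' : g⁻¹ * u * g ∈ L := by
    have := hLn.conj_mem u (hPL hu) g⁻¹
    simpa using this
  obtain ⟨k, hk, y, hy, hky⟩ := hL _ hu'
  have hzy : z * y * z⁻¹ * y⁻¹ = 1 := by rw [hz y hy]; group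
  have hu2 : u = g * (k * y) * g⁻¹ := by rw [← hky]; group
  have h1 : (g * z * g⁻¹) * u * (g * z * g⁻¹)⁻¹ * u⁻¹ = g * ((z * k * z⁻¹) * k⁻¹) * g⁻¹ := by
    have : (g * z * g⁻¹) * u * (g * z * g⁻¹)⁻¹ * u⁻¹
        = g * (z * k * z⁻¹ * (z * y * z⁻¹ * y⁻¹) * k⁻¹) * g⁻¹ := by
      rw [hu2]; group
    rw [this, hzy]; group
  have h2 : (g * z * g⁻¹) * u * (g * z * g⁻¹)⁻¹ * u⁻¹ ∈ K := by
    rw [h1]
    apply hK.conj_mem
    exact K.mul_mem (hK.conj_mem k hk z) (K.inv_mem hk)
  have h3 : (g * z * g⁻¹) * u * (g * z * g⁻¹)⁻¹ * u⁻¹ ∈ P :=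
    P.mul_mem (P.mul_mem (P.mul_mem hw hu) (P.inv_mem hw)) (P.inv_mem hu)
  have h4 := hKP _ h2 h3
  calc (g * z * g⁻¹) * u
      = ((g * z * g⁻¹) * u * (g * z * g⁻¹)⁻¹ * u⁻¹) * (u * (g * z * g⁻¹)) := by group
    _ = u * (g * z * g⁻¹) := by rw [h4, one_mul]

/-- In a finite `p`-solvable group of order divisible by `p`, `p` divides `|O_{p',p}|`. -/
theorem dvd_card_pPrimePCore {p : ℕ} [hp : Fact p.Prime] (X : Type*) [Group X] [Finite X]
    (hsolv : Cfsg.IsPSolvable p X) (hdiv : p ∣ Nat.card X) :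
    p ∣ Nat.card (Cfsg.pPrimePCore p X) := by
  have hpp : p.Prime := hp.out
  have hKn : (Cfsg.pPrimeCore p X).Normal := Cfsg.Agent.Helper76.pPrimeCore_normal
  have hKc : (Nat.card (Cfsg.pPrimeCore p X)).Coprime p := Cfsg.Agent.Helper76.pPrimeCore_coprime
  have hQ : Cfsg.IsPSolvable p (X ⧸ Cfsg.pPrimeCore p X) :=
    Cfsg.Agent.Helper32.isPSolvable_quotient hpp hsolv _
  have hQbot : Cfsg.pPrimeCore p (X ⧸ Cfsg.pPrimeCore p X) = ⊥ :=
    Cfsg.Agent.Helper76.pPrimeCore_quotient_eq_bot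
  have htop : (⊤ : Subgroup (X ⧸ Cfsg.pPrimeCore p X)) ≠ ⊥ := by
    intro h
    have h1 : Cfsg.pPrimeCore p X = ⊤ := by
      rw [eq_top_iff]
      intro x _
      rw [← QuotientGroup.eq_one_iff]
      have : (x : X ⧸ Cfsg.pPrimeCore p X) ∈ (⊤ : Subgroup (X ⧸ Cfsg.pPrimeCore p X)) :=
        Subgroup.mem_top _
      rw [h, Subgroup.mem_bot] at this
      exact this
    rw [h1, Subgroup.card_top] at hKc
    exact hpp.one_lt.ne' (hKc.symm.eq_one_of_dvd hdiv)
  obtain ⟨D, hDn, -, hDne, hD⟩ :=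
    Cfsg.Agent.Helper32.exists_normal_le_of_isPSolvable hpp hQ ⊤ htop
  have hDp : IsPGroup p D := by
    rcases hD with h | h
    · exact h
    · exfalso
      apply hDne
      have : D ≤ Cfsg.pPrimeCore p (X ⧸ Cfsg.pPrimeCore p X) :=
        Cfsg.Agent.Helper76.le_pPrimeCore D hDn h
      rw [hQbot] at this
      exact le_bot_iff.mp this
  have hDle : D ≤ Cfsg.pCore p (X ⧸ Cfsg.pPrimeCore p X) :=
    Cfsg.Agent.Helper76.le_pCore D hDn hDp
  obtain ⟨d, hd, hd1⟩ := D.bot_or_exists_ne_one.resolve_left hDne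
  obtain ⟨x, rfl⟩ := QuotientGroup.mk_surjective d
  have hxL : x ∈ Cfsg.pPrimePCore p X := by
    show x ∈ (Cfsg.pCore p (X ⧸ Cfsg.pPrimeCore p X)).comap
      (QuotientGroup.mk' (Cfsg.pPrimeCore p X))
    rw [Subgroup.mem_comap]
    exact hDle hd
  have hxK : x ∉ Cfsg.pPrimeCore p X := by
    intro h
    exact hd1 ((QuotientGroup.eq_one_iff x).mpr h)
  obtain ⟨k, hk⟩ := Cfsg.Agent.Helper32.relIndex_pPrimeCore_pPrimePCore p X
  have hk0 : k ≠ 0 := by
    rintro rfl
    rw [pow_zero, Subgroup.relIndex_eq_one] at hk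
    exact hxK (hk hxL)
  have : p ∣ (Cfsg.pPrimeCore p X).relIndex (Cfsg.pPrimePCore p X) := by
    rw [hk]; exact dvd_pow_self p hk0
  exact dvd_trans this (Subgroup.relIndex_dvd_card _ _)

/-- Let p be an odd prime and G a finite group in which any two p-subgroups of the same order are conjugate, with Sylow p-subgroup P. If H is a normal p-solvable subgroup of G whose order is divisible by p, then P is abelian, and either P ≤ H or P is cyclic. -/
theorem result {G : Type*} [Group G] [Finite G]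
    {p : ℕ} [Fact p.Prime] (hp : p ≠ 2) (hC : ∀ H K : Subgroup G, IsPGroup p H → IsPGroup p K → Nat.card H = Nat.card K →
      ∃ g : G, K = H.map (MulAut.conj g).toMonoidHom) (P : Sylow p G)
    (H : Subgroup G) [H.Normal] (hsolv : Cfsg.IsPSolvable p H) (hdiv : p ∣ Nat.card H) :
    IsMulCommutative P ∧ ((P : Subgroup G) ≤ H ∨ IsCyclic P) := by
  classical
  have hpp : p.Prime := Fact.out
  -- a normal subgroup of order divisible by `p` contains all elements of order `p`
  have hnorm : ∀ (N : Subgroup G), N.Normal → p ∣ Nat.card N →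
      ∀ x ∈ (P : Subgroup G), x ^ p = 1 → x ∈ N := by
    intro N hN hdvd x hx hxp
    by_cases hx1 : x = 1
    · rw [hx1]; exact N.one_mem
    obtain ⟨h, hh⟩ := exists_prime_orderOf_dvd_card' p hdvd
    have ho : orderOf (h : G) = p := by rw [Subgroup.orderOf_coe]; exact hh
    have hxo : orderOf x = p := orderOf_eq_prime hxp hx1
    have hc1 : Nat.card (Subgroup.zpowers (h : G)) = p := by rw [Nat.card_zpowers, ho]
    have hc2 : Nat.card (Subgroup.zpowers x) = p := by rw [Nat.card_zpowers, hxo]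
    obtain ⟨g, hg⟩ := hC (Subgroup.zpowers (h : G)) (Subgroup.zpowers x)
      (IsPGroup.of_card (n := 1) (by rw [hc1, pow_one]))
      (IsPGroup.of_card (n := 1) (by rw [hc2, pow_one])) (by rw [hc1, hc2])
    have hxm : x ∈ (Subgroup.zpowers (h : G)).map (MulAut.conj g).toMonoidHom := by
      rw [← hg]; exact Subgroup.mem_zpowers x
    obtain ⟨y, hy, rfl⟩ := hxm
    have hyN : y ∈ N := (Subgroup.zpowers_le.mpr h.2) hy
    exact hN.conj_mem y hyN g
  rcases Cfsg.Agent.S4023.result hC P with hcyc | ⟨hcomm, hexp⟩ | ⟨h2, -⟩ | ⟨-, hnc, hcard, hexp⟩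
  · haveI : IsCyclic (P : Subgroup G) := hcyc
    exact ⟨inferInstanceAs (IsMulCommutative (P : Subgroup G)), Or.inr hcyc⟩
  · exact ⟨hcomm, Or.inl (fun x hx => hnorm H inferInstance hdiv x hx (hexp x hx))⟩
  · exact absurd h2 hp
  · exfalso
    have hexp' : ∀ x ∈ (P : Subgroup G), x ^ p = 1 := by
      intro x hx
      have h1 : (⟨x, hx⟩ : (P : Subgroup G)) ^ Monoid.exponent (P : Subgroup G) = 1 :=
        Monoid.pow_exponent_eq_one _
      have h2 : Monoid.exponent (P : Subgroup G) = p := hexp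
      rw [h2] at h1
      exact congrArg Subtype.val h1
    have hPH : (P : Subgroup G) ≤ H := fun x hx => hnorm H inferInstance hdiv x hx (hexp' x hx)
    -- the cores of `H`
    have hK'n : (Cfsg.pPrimeCore p ↥H).Normal := Cfsg.Agent.Helper76.pPrimeCore_normal
    have hK'char : (Cfsg.pPrimeCore p ↥H).Characteristic :=
      Cfsg.Agent.Helper22.pPrimeCore_characteristic p ↥H
    have hL'char : (Cfsg.pPrimePCore p ↥H).Characteristic := pPrimePCore_char p ↥H
    have hKn : ((Cfsg.pPrimeCore p ↥H).map H.subtype).Normal :=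
      ConjAct.normal_of_characteristic_of_normal
    have hLn : ((Cfsg.pPrimePCore p ↥H).map H.subtype).Normal :=
      ConjAct.normal_of_characteristic_of_normal
    have hLdvd : p ∣ Nat.card ((Cfsg.pPrimePCore p ↥H).map H.subtype) := by
      rw [Subgroup.card_map_of_injective (Subgroup.subtype_injective H)]
      exact dvd_card_pPrimePCore ↥H hsolv hdiv
    have hPL : (P : Subgroup G) ≤ (Cfsg.pPrimePCore p ↥H).map H.subtype :=
      fun x hx => hnorm _ hLn hLdvd x hx (hexp' x hx)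
    -- decomposition of `L`
    have hdec : ∀ l ∈ (Cfsg.pPrimePCore p ↥H).map H.subtype,
        ∃ k ∈ (Cfsg.pPrimeCore p ↥H).map H.subtype, ∃ y ∈ (P : Subgroup G), l = k * y := by
      rintro _ ⟨l', hl', rfl⟩
      have h1 := Cfsg.Agent.Helper32.pPrimePCore_eq_sup (P.subtype hPH)
      rw [h1] at hl'
      have h2 : l' ∈ ((Cfsg.pPrimeCore p ↥H ⊔
          (((P.subtype hPH : Sylow p ↥H) : Subgroup ↥H) ⊓ Cfsg.pPrimePCore p ↥H) :
            Subgroup ↥H) : Set ↥H) := hl'
      rw [Subgroup.normal_mul] at h2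
      obtain ⟨k', hk', y', hy', rfl⟩ := Set.mem_mul.mp h2
      refine ⟨H.subtype k', ⟨k', hk', rfl⟩, H.subtype y', ?_, map_mul _ _ _⟩
      have h3 : y' ∈ ((P.subtype hPH : Sylow p ↥H) : Subgroup ↥H) := hy'.1
      rw [Sylow.coe_subtype] at h3
      exact Subgroup.mem_subgroupOf.mp h3
    have hKP : ∀ x ∈ (Cfsg.pPrimeCore p ↥H).map H.subtype, x ∈ (P : Subgroup G) → x = 1 := by
      rintro _ ⟨x', hx', rfl⟩ hxP
      have hR : IsPGroup p ((P : Subgroup G).subgroupOf H) := P.isPGroup'.comap_subtype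
      have h1 : x' = 1 := Cfsg.Agent.Helper32.eq_one_of_mem_pGroup_of_mem_pPrimeCore hR
        (Subgroup.mem_subgroupOf.mpr hxP) hx'
      rw [h1, map_one]
    -- a central element and a noncentral element
    have hPnt : Nontrivial (P : Subgroup G) := by
      apply Finite.one_lt_card_iff_nontrivial.mp
      have h1 : Nat.card (P : Subgroup G) = p ^ 3 := hcard
      rw [h1]
      exact Nat.one_lt_pow (by norm_num) hpp.one_lt
    have hZnt : Nontrivial (Subgroup.center (P : Subgroup G)) := P.isPGroup'.center_nontrivial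
    obtain ⟨z', hz'⟩ := exists_ne (1 : Subgroup.center (P : Subgroup G))
    have hzc : ∀ u ∈ (P : Subgroup G), ((z' : (P : Subgroup G)) : G) * u
        = u * ((z' : (P : Subgroup G)) : G) := by
      intro u hu
      have := Subgroup.mem_center_iff.mp z'.2 ⟨u, hu⟩
      exact (congrArg Subtype.val this).symm
    have hz1 : ((z' : (P : Subgroup G)) : G) ≠ 1 := by
      intro h
      apply hz'
      apply Subtype.ext
      apply Subtype.ext
      exact h
    have hzo : orderOf ((z' : (P : Subgroup G)) : G) = p :=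
      orderOf_eq_prime (hexp' _ (z' : (P : Subgroup G)).2) hz1
    obtain ⟨y', hy'⟩ : ∃ y' : (P : Subgroup G), y' ∉ Subgroup.center (P : Subgroup G) := by
      by_contra hcon
      push Not at hcon
      apply hnc
      refine ⟨⟨fun a b => ?_⟩⟩
      exact (Subgroup.mem_center_iff.mp (hcon b) a)
    have hy1 : (y' : G) ≠ 1 := by
      intro h
      apply hy'
      have : y' = 1 := Subtype.ext h
      rw [this]; exact Subgroup.one_mem _
    have hyo : orderOf (y' : G) = p := orderOf_eq_prime (hexp' _ y'.2) hy1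
    have hc1 : Nat.card (Subgroup.zpowers ((z' : (P : Subgroup G)) : G)) = p := by
      rw [Nat.card_zpowers, hzo]
    have hc2 : Nat.card (Subgroup.zpowers (y' : G)) = p := by rw [Nat.card_zpowers, hyo]
    obtain ⟨g, hg⟩ := hC (Subgroup.zpowers ((z' : (P : Subgroup G)) : G)) (Subgroup.zpowers (y' : G))
      (IsPGroup.of_card (n := 1) (by rw [hc1, pow_one]))
      (IsPGroup.of_card (n := 1) (by rw [hc2, pow_one])) (by rw [hc1, hc2])
    have hym : (y' : G) ∈ (Subgroup.zpowers ((z' : (P : Subgroup G)) : G)).map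
        (MulAut.conj g).toMonoidHom := by
      rw [← hg]; exact Subgroup.mem_zpowers _
    obtain ⟨t, ht, hty⟩ := hym
    have hty' : g * t * g⁻¹ = (y' : G) := hty
    obtain ⟨i, rfl⟩ := Subgroup.mem_zpowers_iff.mp ht
    have htc : ∀ u ∈ (P : Subgroup G), ((z' : (P : Subgroup G)) : G) ^ i * u
        = u * ((z' : (P : Subgroup G)) : G) ^ i := by
      intro u hu
      have h1 : Commute ((z' : (P : Subgroup G)) : G) u := hzc u hu
      exact (h1.zpow_left i).eq
    have hfin := central_conj _ _ (P : Subgroup G) hKn hLn hPL hdec hKP _ htc g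
      (by rw [hty']; exact y'.2)
    apply hy'
    rw [Subgroup.mem_center_iff]
    intro u
    apply Subtype.ext
    have := hfin u u.2
    rw [hty'] at this
    exact this.symm

end Cfsg.Agent.S4024
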