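import Cfsg.Statements.S4027
import Cfsg.Agent.Helper67.TwoClosed

set_option autoImplicit false
open Cfsg

namespace Cfsg.Agent.S4027

/-- Let G be a finite group in which every element x of odd order satisfies N_G(⟨x⟩) = C_G(x). Then the Sylow 2-subgroups of G are normal. -/
theorem result {G : Type*} [Group G] [Finite G]
    (hirr : ∀ x : G, (∀ r : ℕ, r.Prime → r ∣ orderOf x → r ≠ 2) →
      Subgroup.normalizer ((Subgroup.zpowers x : Subgroup G) : Set G) ≤ Subgroup.centralizer {x}) (P : Sylow 2 G) :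
    (P : Subgroup G).Normal := by
  apply Helper67.sylow_two_normal_of_noOddInv
  intro x g hodd hinv
  have hg : g ∈ Subgroup.normalizer ((Subgroup.zpowers x : Subgroup G) : Set G) := by
    apply Helper67.mem_normalizer_of_forall_conj_mem
    intro u hu
    obtain ⟨i, rfl⟩ := Subgroup.mem_zpowers_iff.mp hu
    rw [← conj_zpow, hinv]
    exact Subgroup.zpow_mem _ (Subgroup.inv_mem _ (Subgroup.mem_zpowers x)) i
  have hx : ∀ r : ℕ, r.Prime → r ∣ orderOf x → r ≠ 2 := by
    rintro r hr hrx rfl
    exact (Nat.not_even_iff_odd.mpr hodd) (even_iff_two_dvd.mpr hrx)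
  have hc := Subgroup.mem_centralizer_singleton_iff.mp (hirr x hx hg)
  have h1 : x = x⁻¹ := by
    rw [← hinv, hc, mul_inv_cancel_right]
  have h2 : x ^ 2 = 1 := by
    rw [pow_two]; nth_rewrite 2 [h1]; exact mul_inv_cancel x
  have h3 : orderOf x ∣ 2 := orderOf_dvd_of_pow_eq_one h2
  rcases (Nat.dvd_prime Nat.prime_two).mp h3 with h4 | h4
  · exact orderOf_eq_one_iff.mp h4
  · rw [h4] at hodd; exact absurd hodd (by decide)
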