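import Cfsg.Statements.S4028
import Cfsg.Agent.Helper67.Conj

set_option autoImplicit false
open Cfsg

namespace Cfsg.Agent.S4028

open Pointwise

/-- If `x` is a `2`-element, `g` normalizes `⟨x⟩` and an odd power of `g` commutes with `x`,
then `g` commutes with `x`. -/
theorem commute_of_normalizer_two_pow {G : Type*} [Group G] [Finite G] (x g : G) (k : ℕ)
    (hx : orderOf x = 2 ^ k)
    (hg : g ∈ Subgroup.normalizer ((Subgroup.zpowers x : Subgroup G) : Set G)) (m : ℕ) (hm : Odd m)
    (hgm : Commute (g ^ m) x) : Commute g x := by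
  set H : Subgroup G := Subgroup.zpowers x with hH
  set φ := H.normalizerMonoidHom with hφ
  have hker : φ.ker = (Subgroup.centralizer (H : Set G)).subgroupOf (Subgroup.normalizer (H : Set G)) :=
    Subgroup.normalizerMonoidHom_ker H
  set gg : Subgroup.normalizer (H : Set G) := ⟨g, hg⟩ with hgg
  have hcent : ∀ y : G, Commute y x → y ∈ Subgroup.centralizer (H : Set G) := by
    intro y hy
    rw [Subgroup.mem_centralizer_iff]
    intro u hu
    obtain ⟨i, rfl⟩ := Subgroup.mem_zpowers_iff.mp hu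
    exact ((hy.zpow_right i).eq).symm
  have h1 : (φ gg) ^ m = 1 := by
    rw [← map_pow]
    have : gg ^ m ∈ φ.ker := by
      rw [hker, Subgroup.mem_subgroupOf]
      exact hcent _ hgm
    exact this
  have hcard : ∃ e : ℕ, Nat.card (MulAut H) = 2 ^ e := by
    rw [IsCyclic.card_mulAut, hH, Nat.card_zpowers, hx]
    rcases Nat.eq_zero_or_pos k with rfl | hk
    · exact ⟨0, by simp⟩
    · exact ⟨k - 1, by rw [Nat.totient_prime_pow Nat.prime_two hk]; simp⟩
  obtain ⟨e, he⟩ := hcard
  have h2 : orderOf (φ gg) ∣ 2 ^ e := he ▸ orderOf_dvd_natCard (φ gg)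
  have h3 : orderOf (φ gg) ∣ m := orderOf_dvd_of_pow_eq_one h1
  have hcop : (2 ^ e).Coprime m := Nat.Coprime.pow_left e (Nat.coprime_two_left.mpr hm)
  have h4 : orderOf (φ gg) = 1 := Nat.eq_one_of_dvd_coprimes hcop h2 h3
  have h5 : gg ∈ φ.ker := orderOf_eq_one_iff.mp h4
  rw [hker, Subgroup.mem_subgroupOf] at h5
  exact ((Subgroup.mem_centralizer_iff.mp h5) x (Subgroup.mem_zpowers x)).symm

/-- Let G be a finite group with Sylow 2-subgroup P. Then N_G(⟨x⟩) = C_G(x) holds for every 2-element x of G if and only if N_P(⟨y⟩) = C_P(y) holds for every y ∈ P (computed inside P). -/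
theorem result {G : Type*} [Group G] [Finite G] (P : Sylow 2 G) :
    (∀ x : G, (∀ r : ℕ, r.Prime → r ∣ orderOf x → r = 2) →
      Subgroup.normalizer ((Subgroup.zpowers x : Subgroup G) : Set G) ≤ Subgroup.centralizer {x}) ↔
    (∀ y : ↥(P : Subgroup G), Subgroup.normalizer ((Subgroup.zpowers y : Subgroup ↥(P : Subgroup G)) : Set ↥(P : Subgroup G)) ≤
        Subgroup.centralizer {y}) := by
  have : Fact (Nat.Prime 2) := ⟨Nat.prime_two⟩
  constructor
  · intro h y g hg
    rw [Subgroup.mem_centralizer_singleton_iff]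
    have hy2 : ∀ r : ℕ, r.Prime → r ∣ orderOf (y : G) → r = 2 := by
      intro r hr hry
      obtain ⟨k, hk⟩ := (IsPGroup.iff_orderOf.mp P.isPGroup') y
      rw [Subgroup.orderOf_coe, hk] at hry
      exact (Nat.prime_dvd_prime_iff_eq hr Nat.prime_two).mp (hr.dvd_of_dvd_pow hry)
    have hgG : (g : G) ∈ Subgroup.normalizer ((Subgroup.zpowers (y : G) : Subgroup G) : Set G) := by
      apply Helper67.mem_normalizer_of_forall_conj_mem
      intro u hu
      obtain ⟨i, rfl⟩ := Subgroup.mem_zpowers_iff.mp hu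
      have h1 : g * y ^ i * g⁻¹ ∈ Subgroup.zpowers y :=
        (Subgroup.mem_set_normalizer_iff.mp hg (y ^ i)).mp (Subgroup.zpow_mem_zpowers y i)
      obtain ⟨j, hj⟩ := Subgroup.mem_zpowers_iff.mp h1
      have h2 := congrArg (fun z : (P : Subgroup G) => (z : G)) hj
      simp only [Subgroup.coe_mul, Subgroup.coe_zpow, Subgroup.coe_inv] at h2
      rw [← h2]
      exact Subgroup.zpow_mem_zpowers _ j
    have h3 := Subgroup.mem_centralizer_singleton_iff.mp (h (y : G) hy2 hgG)
    exact Subtype.ext h3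
  · intro h x hx g hg
    rw [Subgroup.mem_centralizer_singleton_iff]
    have hxord : orderOf x = 2 ^ (orderOf x).primeFactorsList.length :=
      Nat.eq_prime_pow_of_unique_prime_dvd (orderOf_pos x).ne' (fun {d} hd hdx => hx d hd hdx)
    obtain ⟨a, m, hm, ham⟩ := Nat.exists_eq_two_pow_mul_odd (orderOf_pos g).ne'
    set u := g ^ m with hu
    have hu2 : u ^ (2 ^ a) = 1 := by
      rw [hu, ← pow_mul, mul_comm, ← ham, pow_orderOf_eq_one]
    have hun : u ∈ Subgroup.normalizer ((Subgroup.zpowers x : Subgroup G) : Set G) :=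
      Subgroup.pow_mem _ hg m
    have hxP : IsPGroup 2 (Subgroup.zpowers x) :=
      IsPGroup.of_card (n := (orderOf x).primeFactorsList.length) (by rw [Nat.card_zpowers, ← hxord])
    have huP : IsPGroup 2 (Subgroup.zpowers u) := by
      obtain ⟨i, -, hi⟩ := (Nat.dvd_prime_pow Nat.prime_two).mp (orderOf_dvd_of_pow_eq_one hu2)
      exact IsPGroup.of_card (n := i) (by rw [Nat.card_zpowers, hi])
    have hsup : IsPGroup 2 (Subgroup.zpowers x ⊔ Subgroup.zpowers u : Subgroup G) :=
      hxP.to_sup_of_normal_left' huP (by rw [Subgroup.zpowers_le]; exact hun)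
    obtain ⟨Q, hQ⟩ := hsup.exists_le_sylow
    obtain ⟨b, hb⟩ := MulAction.exists_smul_eq G Q P
    have hb' : MulAut.conj b • (Q : Subgroup G) = P := by
      have := congrArg (fun S : Sylow 2 G => (S : Subgroup G)) hb
      simpa [Sylow.coe_subgroup_smul] using this
    have hmemP : ∀ z : G, z ∈ (Q : Subgroup G) → b * z * b⁻¹ ∈ (P : Subgroup G) := by
      intro z hz
      rw [← hb', Helper67.mem_conj_smul_iff]
      have : b⁻¹ * (b * z * b⁻¹) * b = z := by group
      rw [this]; exact hz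
    have hxQ : x ∈ (Q : Subgroup G) := hQ (Subgroup.mem_sup_left (Subgroup.mem_zpowers x))
    have huQ : u ∈ (Q : Subgroup G) := hQ (Subgroup.mem_sup_right (Subgroup.mem_zpowers u))
    set x' : (P : Subgroup G) := ⟨b * x * b⁻¹, hmemP x hxQ⟩ with hx'
    set u' : (P : Subgroup G) := ⟨b * u * b⁻¹, hmemP u huQ⟩ with hu'
    have hu'n : u' ∈ Subgroup.normalizer ((Subgroup.zpowers x' : Subgroup (P : Subgroup G)) : Set (P : Subgroup G)) := by
      apply Helper67.mem_normalizer_of_forall_conj_mem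
      intro w hw
      obtain ⟨i, rfl⟩ := Subgroup.mem_zpowers_iff.mp hw
      have h1 : u * x ^ i * u⁻¹ ∈ Subgroup.zpowers x :=
        (Subgroup.mem_set_normalizer_iff.mp hun (x ^ i)).mp (Subgroup.zpow_mem_zpowers x i)
      obtain ⟨j, hj⟩ := Subgroup.mem_zpowers_iff.mp h1
      have h2 : u' * x' ^ i * u'⁻¹ = x' ^ j := by
        apply Subtype.ext
        simp only [Subgroup.coe_mul, Subgroup.coe_zpow, Subgroup.coe_inv, hx', hu', conj_zpow]
        have : u * x ^ i * u⁻¹ = x ^ j := hj.symm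
        calc b * u * b⁻¹ * (b * x ^ i * b⁻¹) * (b * u * b⁻¹)⁻¹ = b * (u * x ^ i * u⁻¹) * b⁻¹ := by group
          _ = b * x ^ j * b⁻¹ := by rw [this]
      rw [h2]
      exact Subgroup.zpow_mem_zpowers _ j
    have h3 := Subgroup.mem_centralizer_singleton_iff.mp (h x' hu'n)
    have h4 := congrArg (fun z : (P : Subgroup G) => (z : G)) h3
    simp only [Subgroup.coe_mul, hx', hu'] at h4
    have hux : u * x = x * u := by
      have h5 : b⁻¹ * (b * u * b⁻¹ * (b * x * b⁻¹)) * b = b⁻¹ * (b * x * b⁻¹ * (b * u * b⁻¹)) * b := by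
        rw [h4]
      have e1 : b⁻¹ * (b * u * b⁻¹ * (b * x * b⁻¹)) * b = u * x := by group
      have e2 : b⁻¹ * (b * x * b⁻¹ * (b * u * b⁻¹)) * b = x * u := by group
      rw [e1, e2] at h5
      exact h5
    exact (commute_of_normalizer_two_pow x g _ hxord hg m hm hux).eq
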