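import Cfsg.Statements.S4029
import Cfsg.Agent.Helper67.RealClasses

set_option autoImplicit false
open Cfsg

namespace Cfsg.Agent.S4029

open Finset

/-- Let P be a finite 2-group in which N_P(⟨y⟩) = C_P(y) for every y ∈ P. If s is the number of conjugacy classes of involutions of P, then #(P/Φ(P)) ≤ s + 1; in particular the subgroup generated by the involutions of P has order at least #(P/Φ(P)). -/
theorem result {P : Type*} [Group P] [Finite P] (hP : IsPGroup 2 P)
    (hirr : ∀ y : P, Subgroup.normalizer ((Subgroup.zpowers y : Subgroup P) : Set P) ≤ Subgroup.centralizer {y}) :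
    Nat.card (P ⧸ frattini P) ≤ Nat.card {c : ConjClasses P // ∃ y : P, ConjClasses.mk y = c ∧ orderOf y = 2} + 1 ∧
    Nat.card (P ⧸ frattini P) ≤ Nat.card (Subgroup.closure {y : P | orderOf y = 2}) := by
  classical
  have : Fintype P := Fintype.ofFinite P
  have : Fact (Nat.Prime 2) := ⟨Nat.prime_two⟩
  obtain ⟨k, hk, hk1, hk2⟩ := Helper67.exists_card_orbits_sq_one (P := P)
  have hCS := Helper67.sq_card_le_card_mul_sum_sqrt (frattini P)
    (fun x => Helper67.pow_prime_mem_frattini hP x)
  have hterm : ∀ g : P, (univ.filter (fun x : P => x ^ 2 = 1 ∧ g * x * g⁻¹ = x)).card =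
      (univ.filter (fun h : P => h ^ 2 = g ^ 2)).card := by
    intro g
    apply Finset.card_bij (fun x _ => g * x)
    · intro x hx
      simp only [mem_filter, mem_univ, true_and] at hx ⊢
      obtain ⟨hx2, hxg⟩ := hx
      have hcomm : g * x = x * g := by
        have := mul_inv_eq_iff_eq_mul.mp hxg
        exact this
      calc (g * x) ^ 2 = g * (x * g) * x := by rw [pow_two]; group
        _ = g * (g * x) * x := by rw [hcomm]
        _ = g ^ 2 * x ^ 2 := by rw [pow_two, pow_two]; group
        _ = g ^ 2 := by rw [hx2, mul_one]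
    · intro a _ b _ hab
      exact mul_left_cancel hab
    · intro h hh
      simp only [mem_filter, mem_univ, true_and] at hh
      refine ⟨g⁻¹ * h, ?_, by group⟩
      simp only [mem_filter, mem_univ, true_and]
      set x := g⁻¹ * h with hx
      have hinv : g * x * g⁻¹ = x⁻¹ := by
        have h1 : g * x * g⁻¹ = h * g⁻¹ := by rw [hx]; group
        have h2 : x⁻¹ = h⁻¹ * g := by rw [hx]; group
        rw [h1, h2]
        have h3 : h * g⁻¹ = h⁻¹ * (h ^ 2) * g⁻¹ := by group
        rw [h3, hh]; group
      have hgn : g ∈ Subgroup.normalizer ((Subgroup.zpowers x : Subgroup P) : Set P) := by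
        apply Helper67.mem_normalizer_of_forall_conj_mem
        intro u hu
        obtain ⟨i, rfl⟩ := Subgroup.mem_zpowers_iff.mp hu
        rw [← conj_zpow, hinv]
        exact Subgroup.zpow_mem _ (Subgroup.inv_mem _ (Subgroup.mem_zpowers x)) i
      have hc := Subgroup.mem_centralizer_singleton_iff.mp (hirr x hgn)
      have hgx : g * x * g⁻¹ = x := by rw [hc, mul_inv_cancel_right]
      refine ⟨?_, hgx⟩
      have : x = x⁻¹ := by rw [← hinv, hgx]
      rw [pow_two]; nth_rewrite 2 [this]; exact mul_inv_cancel x
  have hsum : ∑ g : P, (univ.filter (fun h : P => h ^ 2 = g ^ 2)).card = k * Fintype.card P := by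
    rw [← hk]
    exact Finset.sum_congr rfl (fun g _ => (hterm g).symm)
  rw [hsum] at hCS
  have hcardP : Fintype.card P = Nat.card P := (Nat.card_eq_fintype_card).symm
  rw [hcardP] at hCS
  have hPpos : 0 < Nat.card P := Nat.card_pos
  have hkey : Nat.card P ≤ Nat.card (frattini P) * k := by
    have h1 : Nat.card P * Nat.card P ≤ (Nat.card (frattini P) * k) * Nat.card P := by
      calc Nat.card P * Nat.card P = Nat.card P ^ 2 := (pow_two _).symm
        _ ≤ Nat.card (frattini P) * (k * Nat.card P) := hCS
        _ = (Nat.card (frattini P) * k) * Nat.card P := by ring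
    exact Nat.le_of_mul_le_mul_right h1 hPpos
  have hquot : Nat.card (P ⧸ frattini P) ≤ k := by
    have h1 := Subgroup.card_eq_card_quotient_mul_card_subgroup (frattini P)
    rw [h1, mul_comm] at hkey
    exact Nat.le_of_mul_le_mul_left hkey Nat.card_pos
  exact ⟨hquot.trans hk1, hquot.trans hk2⟩
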