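import Cfsg.Statements.S4032
import Cfsg.Agent.Helper67.Basic

set_option autoImplicit false
open Cfsg

namespace Cfsg.Agent.S4032

/-- Let π be a set of primes and G a finite group in which N_G(⟨x⟩) = C_G(x) for every π-element x. If N is a normal subgroup of G whose order is divisible by no prime of π, then G/N has the same property: N_{G/N}(⟨y⟩) = C_{G/N}(y) for every π-element y of G/N. -/
theorem result {G : Type*} [Group G] [Finite G] (π : Set ℕ)
    (hirr : ∀ x : G, (∀ r : ℕ, r.Prime → r ∣ orderOf x → r ∈ π) →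
      Subgroup.normalizer ((Subgroup.zpowers x : Subgroup G) : Set G) ≤ Subgroup.centralizer {x})
    (N : Subgroup G) [N.Normal] (hN : ∀ r : ℕ, r.Prime → r ∣ Nat.card N → r ∉ π) :
    ∀ y : G ⧸ N, (∀ r : ℕ, r.Prime → r ∣ orderOf y → r ∈ π) →
      Subgroup.normalizer ((Subgroup.zpowers y : Subgroup (G ⧸ N)) : Set (G ⧸ N)) ≤ Subgroup.centralizer {y} := by
  intro y hy gbar hgbar
  rw [Subgroup.mem_centralizer_singleton_iff]
  have hcomm : Commute gbar y := by
    apply Helper67.commute_of_prime_pow_parts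
    intro p k hp hpk
    rcases Nat.eq_zero_or_pos k with rfl | hk
    · simp [pow_orderOf_eq_one]
    have hpπ : p ∈ π := hy p hp ((dvd_pow_self p hk.ne').trans hpk)
    have : Fact p.Prime := ⟨hp⟩
    set z := y ^ (orderOf y / p ^ k) with hz
    have hzord : orderOf z = p ^ k := orderOf_pow_orderOf_div (orderOf_pos y).ne' hpk
    -- gbar normalizes zpowers z
    have hconj : ∃ j : ℤ, gbar * z * gbar⁻¹ = z ^ j := by
      have h1 : gbar * y * gbar⁻¹ ∈ Subgroup.zpowers y :=
        (Subgroup.mem_set_normalizer_iff.mp hgbar y).mp (Subgroup.mem_zpowers y)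
      obtain ⟨j, hj⟩ := Subgroup.mem_zpowers_iff.mp h1
      refine ⟨j, ?_⟩
      rw [hz, ← conj_pow, ← hj]
      simp only [← zpow_natCast, ← zpow_mul]
      congr 1; ring
    obtain ⟨j, hj⟩ := hconj
    obtain ⟨z₁, hz₁⟩ := QuotientGroup.mk_surjective z
    obtain ⟨g, hg⟩ := QuotientGroup.mk_surjective gbar
    have hz₁N : z₁ ^ (p ^ k) ∈ N := by
      rw [← QuotientGroup.eq_one_iff, QuotientGroup.mk_pow, hz₁, ← hzord, pow_orderOf_eq_one]
    set m := orderOf (z₁ ^ (p ^ k)) with hm
    have hmN : m ∣ Nat.card N := by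
      have := orderOf_dvd_natCard (⟨z₁ ^ (p ^ k), hz₁N⟩ : N)
      rwa [Subgroup.orderOf_mk] at this
    have hpN : ¬ p ∣ Nat.card N := fun h => hN p hp h hpπ
    have hmp : m.Coprime p := by
      rw [Nat.coprime_comm, Nat.Prime.coprime_iff_not_dvd hp]
      exact fun h => hpN (h.trans hmN)
    set w := z₁ ^ m with hw
    have hwpow : w ^ (p ^ k) = 1 := by
      rw [hw, ← pow_mul, mul_comm, pow_mul, hm, pow_orderOf_eq_one]
    have hword : orderOf w ∣ p ^ k := orderOf_dvd_of_pow_eq_one hwpow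
    have hwP : IsPGroup p (Subgroup.zpowers w) := by
      obtain ⟨i, -, hi⟩ := (Nat.dvd_prime_pow hp).mp hword
      exact IsPGroup.of_card (n := i) (by rw [Nat.card_zpowers, hi])
    have hmkw : (QuotientGroup.mk w : G ⧸ N) = z ^ m := by
      rw [hw, QuotientGroup.mk_pow, hz₁]
    obtain ⟨c, hc⟩ := exists_pow_eq_self_of_coprime (x := z) (n := m)
      (by rw [hzord]; exact Nat.Coprime.pow_right k hmp)
    have hDcop : (Nat.card N).Coprime p := by
      rw [Nat.coprime_comm, Nat.Prime.coprime_iff_not_dvd hp]; exact hpN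
    obtain ⟨d, hd, hdg⟩ := Helper67.exists_mem_normal_conj N (Subgroup.zpowers w) hwP hDcop g (by
      intro u hu
      obtain ⟨i, rfl⟩ := Subgroup.mem_zpowers_iff.mp hu
      have h1 : (QuotientGroup.mk (g * w ^ i * g⁻¹) : G ⧸ N) = QuotientGroup.mk (w ^ (i * j)) := by
        rw [QuotientGroup.mk_mul, QuotientGroup.mk_mul, QuotientGroup.mk_inv, QuotientGroup.mk_zpow,
          QuotientGroup.mk_zpow, hg, hmkw, ← conj_zpow, ← conj_pow, hj]
        simp only [← zpow_natCast, ← zpow_mul]
        congr 1; ring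
      have h2 : g * w ^ i * g⁻¹ / w ^ (i * j) ∈ N := QuotientGroup.eq_iff_div_mem.mp h1
      have h3 : g * w ^ i * g⁻¹ = (g * w ^ i * g⁻¹ / w ^ (i * j)) * w ^ (i * j) :=
        (div_mul_cancel _ _).symm
      rw [h3]
      exact Subgroup.mul_mem_sup h2 (Subgroup.zpow_mem_zpowers w _))
    have hwπ : ∀ r : ℕ, r.Prime → r ∣ orderOf w → r ∈ π := by
      intro r hr hrw
      have : r = p := (Nat.prime_dvd_prime_iff_eq hr hp).mp (hr.dvd_of_dvd_pow (hrw.trans hword))
      rw [this]; exact hpπ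
    have h4 := Subgroup.mem_centralizer_singleton_iff.mp (hirr w hwπ hdg)
    have h5 := congrArg (QuotientGroup.mk : G → G ⧸ N) h4
    have hd1 : (QuotientGroup.mk d : G ⧸ N) = 1 := (QuotientGroup.eq_one_iff d).mpr hd
    simp only [QuotientGroup.mk_mul, QuotientGroup.mk_inv, hd1, hg, hmkw, inv_one, one_mul] at h5
    have h6 : Commute gbar (z ^ m) := h5
    rw [← hc]
    exact h6.pow_right c
  exact hcomm.eq
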