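import Cfsg.Statements.S4034
import Cfsg.Agent.Helper67.PRegular

set_option autoImplicit false
open Cfsg

namespace Cfsg.Agent.S4034

/-- Let G be a finite group and p a prime. Every conjugacy class of p-regular elements of G (elements of order prime to p) has p-power size if and only if G has an abelian p-complement, i.e. an abelian subgroup of order prime to p and p-power index. -/
theorem result {G : Type*} [Group G] [Finite G] {p : ℕ} (hp : p.Prime) :
    (∀ x : G, (orderOf x).Coprime p → ∃ k : ℕ, (ConjClasses.mk x).carrier.ncard = p ^ k) ↔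
    (∃ H : Subgroup G, IsMulCommutative H ∧ ¬ p ∣ Nat.card H ∧ ∃ k : ℕ, H.index = p ^ k) := by
  constructor
  · intro h
    apply Helper67.PReg.exists_abelian_compl hp
    intro x hx
    obtain ⟨k, hk⟩ := h x hx
    exact ⟨k, by rw [← Helper67.ncard_conjClass_eq_index]; exact hk⟩
  · rintro ⟨H, hHab, hHp, hidx⟩ x hx
    rw [Helper67.ncard_conjClass_eq_index]
    have hab : ∀ a ∈ H, ∀ b ∈ H, a * b = b * a := by
      intro a ha b hb
      have := hHab.is_comm.comm (⟨a, ha⟩ : H) ⟨b, hb⟩
      exact congrArg Subtype.val this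
    obtain ⟨g, hg⟩ := Helper67.exists_conj_mem_of_abelian_compl_aux hp (Nat.card G) G rfl H hab
      hidx x hx
    obtain ⟨k, hk⟩ := hidx
    have hle : H.map (MulAut.conj g).toMonoidHom ≤ Subgroup.centralizer {x} := by
      rintro _ ⟨a, ha, rfl⟩
      rw [Subgroup.mem_centralizer_singleton_iff]
      simp only [MulEquiv.coe_toMonoidHom, MulAut.conj_apply]
      have := hab a ha _ hg
      calc g * a * g⁻¹ * x = g * (a * (g⁻¹ * x * g)) * g⁻¹ := by group
        _ = g * ((g⁻¹ * x * g) * a) * g⁻¹ := by rw [this]
        _ = x * (g * a * g⁻¹) := by group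
    have hidx' : (H.map (MulAut.conj g).toMonoidHom).index = p ^ k := by
      rw [Subgroup.index_map_of_bijective (MulAut.conj g).bijective, hk]
    have hdvd : (Subgroup.centralizer {x}).index ∣ p ^ k := by
      rw [← hidx']; exact Subgroup.index_dvd_of_le hle
    obtain ⟨j, -, hj⟩ := (Nat.dvd_prime_pow hp).mp hdvd
    exact ⟨j, hj⟩

end Cfsg.Agent.S4034
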