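import Cfsg.Statements.S4035
import Cfsg.Agent.Helper67.Conj

set_option autoImplicit false
open Cfsg

namespace Cfsg.Agent.S4035

open Pointwise

/-- Let G be a finite group and p a prime such that p divides the size of no conjugacy class of p-regular elements (elements of order prime to p). Then G is the internal direct product of a Sylow p-subgroup P and a normal subgroup H of order prime to p: P is normal, P ⊓ H = 1 and PH = G. -/
theorem result {G : Type*} [Group G] [Finite G] {p : ℕ} [Fact p.Prime]
    (h : ∀ x : G, (orderOf x).Coprime p → ¬ p ∣ (ConjClasses.mk x).carrier.ncard) (P : Sylow p G) :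
    (P : Subgroup G).Normal ∧ ∃ H : Subgroup G, H.Normal ∧ ¬ p ∣ Nat.card H ∧
      (P : Subgroup G) ⊓ H = ⊥ ∧ (P : Subgroup G) ⊔ H = ⊤ := by
  classical
  have hp := (Fact.out : p.Prime)
  set C : Subgroup G := Subgroup.centralizer ((P : Subgroup G) : Set G) with hC
  set M : Subgroup G := (P : Subgroup G) ⊔ C with hM
  have hcover : ∀ g : G, ∃ b : G, g ∈ MulAut.conj b • M := by
    intro g
    obtain ⟨a, m, hm, hn⟩ := Nat.exists_eq_pow_mul_and_not_dvd (orderOf_pos g).ne' p hp.ne_one
    set v := g ^ (p ^ a) with hv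
    set u := g ^ m with hu
    have hvord : orderOf v = m := by
      rw [hv, orderOf_pow_of_dvd (pow_ne_zero a hp.ne_zero) (hn ▸ Dvd.intro _ rfl), hn,
        Nat.mul_div_cancel_left _ (pow_pos hp.pos a)]
    have hvcop : (orderOf v).Coprime p := by
      rw [hvord, Nat.coprime_comm, hp.coprime_iff_not_dvd]; exact hm
    have hidx : ¬ p ∣ (Subgroup.centralizer ({v} : Set G)).index := by
      rw [← Helper67.ncard_conjClass_eq_index]; exact h v hvcop
    set Cv : Subgroup G := Subgroup.centralizer ({v} : Set G) with hCv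
    have huCv : u ∈ Cv := by
      rw [hCv, Subgroup.mem_centralizer_singleton_iff, hu, hv, ← pow_add, ← pow_add, add_comm]
    have hupow : u ^ (p ^ a) = 1 := by
      rw [hu, ← pow_mul, mul_comm, ← hn, pow_orderOf_eq_one]
    have huP : IsPGroup p (Subgroup.zpowers u) := by
      obtain ⟨i, -, hi⟩ := (Nat.dvd_prime_pow hp).mp (orderOf_dvd_of_pow_eq_one hupow)
      exact IsPGroup.of_card (n := i) (by rw [Nat.card_zpowers, hi])
    obtain ⟨Q, hQ⟩ := (huP.comap_subtype (K := Cv)).exists_le_sylow
    set Q' : Subgroup G := (Q : Subgroup Cv).map Cv.subtype with hQ'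
    have hQ'p : IsPGroup p Q' := Q.isPGroup'.map _
    have hQ'idx : ¬ p ∣ Q'.index := by
      rw [hQ', Subgroup.index_map_subtype]
      exact hp.not_dvd_mul Q.not_dvd_index hidx
    obtain ⟨b, hb⟩ := MulAction.exists_smul_eq G P (hQ'p.toSylow hQ'idx)
    have hb' : MulAut.conj b • (P : Subgroup G) = Q' := by
      have := congrArg (fun S : Sylow p G => (S : Subgroup G)) hb
      simpa [Sylow.coe_subgroup_smul] using this
    refine ⟨b, ?_⟩
    have huQ' : u ∈ Q' := by
      rw [hQ']
      refine ⟨⟨u, huCv⟩, hQ ?_, rfl⟩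
      exact Subgroup.mem_subgroupOf.mpr (Subgroup.mem_zpowers u)
    have hu_mem : u ∈ MulAut.conj b • M := by
      have h1 : u ∈ MulAut.conj b • (P : Subgroup G) := hb' ▸ huQ'
      rw [Helper67.mem_conj_smul_iff] at h1 ⊢
      exact Subgroup.mem_sup_left h1
    have hv_mem : v ∈ MulAut.conj b • M := by
      rw [Helper67.mem_conj_smul_iff]
      apply Subgroup.mem_sup_right
      rw [hC, Subgroup.mem_centralizer_iff]
      intro x hx
      have hx' : b * x * b⁻¹ ∈ Q' := by
        rw [← hb', Helper67.mem_conj_smul_iff]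
        have h5 : b⁻¹ * (b * x * b⁻¹) * b = x := by group
        rw [h5]; exact hx
      obtain ⟨y, -, hy⟩ := hx'
      have hyv : (y : G) * v = v * (y : G) := (Subgroup.mem_centralizer_singleton_iff.mp y.2)
      have hxy : x = b⁻¹ * (y : G) * b := by
        have : (y : G) = b * x * b⁻¹ := hy
        rw [this]; group
      rw [hxy]
      calc b⁻¹ * (y : G) * b * (b⁻¹ * v * b) = b⁻¹ * ((y : G) * v) * b := by group
        _ = b⁻¹ * (v * (y : G)) * b := by rw [hyv]
        _ = b⁻¹ * v * b * (b⁻¹ * (y : G) * b) := by group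
    have hcop : m.Coprime (p ^ a) := by
      apply Nat.Coprime.pow_right
      rw [Nat.coprime_comm, hp.coprime_iff_not_dvd]; exact hm
    exact Helper67.mem_of_coprime_pow_mem _ g hcop hu_mem hv_mem
  have hMtop : M = ⊤ := by
    by_contra hne
    obtain ⟨g, hg⟩ := Helper67.exists_not_mem_conj M hne
    obtain ⟨b, hb⟩ := hcover g
    exact hg b hb
  have hPn : (P : Subgroup G).Normal := by
    rw [← Subgroup.normalizer_eq_top_iff, eq_top_iff, ← hMtop]
    exact sup_le Subgroup.le_normalizer (Subgroup.centralizer_le_normalizer _)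
  refine ⟨hPn, ?_⟩
  obtain ⟨K, hK⟩ := Subgroup.exists_right_complement'_of_coprime (N := (P : Subgroup G))
    P.card_coprime_index
  have hKcard : Nat.card K = (P : Subgroup G).index := hK.symm.index_eq_card.symm
  have hKp : ¬ p ∣ Nat.card K := by rw [hKcard]; exact P.not_dvd_index
  have hKC : K ≤ C := by
    intro k hk
    have hkM : k ∈ M := hMtop ▸ Subgroup.mem_top k
    rw [hM, ← SetLike.mem_coe, Subgroup.normal_mul] at hkM
    obtain ⟨u, hu, c, hc, rfl⟩ := Set.mem_mul.mp hkM
    set φ : G →* MulAut (P : Subgroup G) := MulAut.conjNormal with hφ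
    have hφc : φ c = 1 := by
      ext x
      simp only [hφ, MulAut.conjNormal_apply, MulAut.one_apply]
      have := Subgroup.mem_centralizer_iff.mp hc x x.2
      rw [← this, mul_inv_cancel_right]
    have hφk : φ (u * c) = φ u := by rw [map_mul, hφc, mul_one]
    have h1 : orderOf (φ (u * c)) ∣ Nat.card K := (orderOf_map_dvd φ (u * c)).trans (by
      have := orderOf_dvd_natCard (⟨u * c, hk⟩ : K)
      rwa [Subgroup.orderOf_mk] at this)
    have h2 : ∃ e, orderOf (φ u) ∣ p ^ e := by
      obtain ⟨e, he⟩ := P.isPGroup' ⟨u, hu⟩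
      refine ⟨e, (orderOf_map_dvd φ u).trans (orderOf_dvd_of_pow_eq_one ?_)⟩
      simpa using congrArg Subtype.val he
    obtain ⟨e, h2⟩ := h2
    rw [hφk] at h1
    have hcop : (Nat.card K).Coprime (p ^ e) := by
      apply Nat.Coprime.pow_right
      rw [Nat.coprime_comm, hp.coprime_iff_not_dvd]; exact hKp
    have h3 : orderOf (φ u) = 1 := by
      have := Nat.dvd_gcd h1 h2
      rwa [hcop, Nat.dvd_one] at this
    have h4 : φ (u * c) = 1 := by rw [hφk]; exact orderOf_eq_one_iff.mp h3
    rw [hC, Subgroup.mem_centralizer_iff]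
    intro x hx
    have := congrArg (fun f : MulAut (P : Subgroup G) => ((f ⟨x, hx⟩ : (P : Subgroup G)) : G)) h4
    simp only [hφ, MulAut.conjNormal_apply, MulAut.one_apply] at this
    exact (mul_inv_eq_iff_eq_mul.mp this).symm
  refine ⟨K, ?_, hKp, ?_, hK.sup_eq_top⟩
  · rw [← Subgroup.normalizer_eq_top_iff, eq_top_iff, ← hK.sup_eq_top]
    refine sup_le ?_ Subgroup.le_normalizer
    refine le_trans ?_ (Subgroup.centralizer_le_normalizer _)
    rw [Subgroup.le_centralizer_iff]
    exact hKC
  · exact disjoint_iff.mp hK.disjoint
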