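import Cfsg.Statements.S4036

set_option autoImplicit false
open Cfsg

namespace Cfsg.Agent.S4036

/-- Let P be a finite abelian p-group and K a group of automorphisms of P (a subgroup of Aut P) whose order is divisible by p. If all non-identity elements of K have the same fixed-point subgroup on P, then K has no non-trivial normal subgroup of order prime to p. -/
theorem result {P : Type*} [CommGroup P] [Finite P] {p : ℕ}
    [Fact p.Prime] (hP : IsPGroup p P) (K : Subgroup (MulAut P)) (hK : p ∣ Nat.card K)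
    (hfix : ∀ x y : MulAut P, x ∈ K → y ∈ K → x ≠ 1 → y ≠ 1 → ∀ v : P, x v = v ↔ y v = v) :
    ∀ N : Subgroup ↥K, N.Normal → ¬ p ∣ Nat.card N → N = ⊥ := by
  classical
  intro N hNn hNp
  by_contra hne
  have hp := (Fact.out : p.Prime)
  have : Fintype N := Fintype.ofFinite N
  have : Fintype P := Fintype.ofFinite P
  obtain ⟨n₁, hn₁⟩ := Subgroup.ne_bot_iff_exists_ne_one.mp hne
  obtain ⟨k, hk⟩ := exists_prime_orderOf_dvd_card' (G := K) p hK
  -- the norm map
  set τ : P → P := fun v => ∏ n : N, ((n : K) : MulAut P) v with hτ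
  have hτmul : ∀ a b : P, τ (a * b) = τ a * τ b := by
    intro a b
    simp only [hτ, map_mul, Finset.prod_mul_distrib]
  have hτinv : ∀ a : P, τ a⁻¹ = (τ a)⁻¹ := by
    intro a
    simp only [hτ, map_inv, Finset.prod_inv_distrib]
  have hτone : τ 1 = 1 := by simp [hτ]
  have hτact : ∀ (n₀ : N) (v : P), τ (((n₀ : K) : MulAut P) v) = τ v := by
    intro n₀ v
    simp only [hτ]
    apply Fintype.prod_equiv (Equiv.mulRight n₀)
    intro n
    simp [MulAut.mul_apply]
  -- the commutator subgroup [P, N]
  set S : Set P := {w : P | ∃ n : N, ∃ v : P, w = ((n : K) : MulAut P) v * v⁻¹} with hS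
  set V : Subgroup P := Subgroup.closure S with hV
  have hτV : ∀ w ∈ V, τ w = 1 := by
    intro w hw
    induction hw using Subgroup.closure_induction with
    | mem x hx =>
      obtain ⟨n, v, rfl⟩ := hx
      rw [hτmul, hτinv, hτact, mul_inv_cancel]
    | one => exact hτone
    | mul x y _ _ hx hy => rw [hτmul, hx, hy, one_mul]
    | inv x _ hx => rw [hτinv, hx, inv_one]
  -- k maps V into V
  have hkS : ∀ w ∈ S, ((k : K) : MulAut P) w ∈ S := by
    rintro w ⟨n, v, rfl⟩
    have hconj : k * (n : K) * k⁻¹ ∈ N := hNn.conj_mem (n : K) n.2 k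
    refine ⟨⟨k * (n : K) * k⁻¹, hconj⟩, ((k : K) : MulAut P) v, ?_⟩
    simp [MulAut.mul_apply]
  have hkV : ∀ w ∈ V, ((k : K) : MulAut P) w ∈ V := by
    intro w hw
    induction hw using Subgroup.closure_induction with
    | mem x hx => exact Subgroup.subset_closure (hkS x hx)
    | one => rw [map_one]; exact Subgroup.one_mem _
    | mul x y _ _ hx hy => rw [map_mul]; exact Subgroup.mul_mem _ hx hy
    | inv x _ hx => rw [map_inv]; exact Subgroup.inv_mem _ hx
  -- V is nontrivial
  have hVne : V ≠ ⊥ := by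
    intro hbot
    apply hn₁
    apply Subtype.ext
    apply Subtype.ext
    ext v
    have hmem : ((n₁ : K) : MulAut P) v * v⁻¹ ∈ V := Subgroup.subset_closure ⟨n₁, v, rfl⟩
    rw [hbot, Subgroup.mem_bot] at hmem
    simpa using mul_inv_eq_one.mp hmem
  -- fixed points of k on V
  let f : Function.End V := fun v => ⟨((k : K) : MulAut P) v.1, hkV v.1 v.2⟩
  have hfpow : ∀ (j : ℕ) (v : V), ((f ^ j) v : P) = (((k : K) : MulAut P) ^ j) v.1 := by
    intro j
    induction j with
    | zero => intro v; rfl
    | succ j ih =>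
      intro v
      have h1 : (f ^ (j + 1)) v = (f ^ j) (f v) := by rw [pow_succ]; rfl
      rw [h1, ih, pow_succ, MulAut.mul_apply]
  have hkp : ((k : K) : MulAut P) ^ p = 1 := by
    have : k ^ p = 1 := by rw [← hk, pow_orderOf_eq_one]
    have := congrArg (fun z : K => (z : MulAut P)) this
    simpa using this
  have hfp : f ^ p ^ 1 = 1 := by
    rw [pow_one]
    funext v
    apply Subtype.ext
    rw [hfpow, hkp]
    rfl
  have hmod := Equiv.Perm.card_fixedPoints_modEq (f := f) (p := p) (n := 1) hfp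
  have hVcard : p ∣ Fintype.card V := by
    have hVp : IsPGroup p V := hP.to_subgroup V
    rcases hVp.card_eq_or_dvd with h1 | h1
    · exact absurd (Subgroup.card_eq_one.mp h1) hVne
    · rwa [Nat.card_eq_fintype_card] at h1
  have hfixcard : p ∣ Fintype.card (Function.fixedPoints f) :=
    (Nat.modEq_zero_iff_dvd.mp ((hmod.symm).trans (Nat.modEq_zero_iff_dvd.mpr hVcard)))
  have hone : (1 : V) ∈ Function.fixedPoints f := by
    show f 1 = 1
    apply Subtype.ext
    simp [f]
  have hex : ∃ v : V, v ∈ Function.fixedPoints f ∧ v ≠ 1 := by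
    by_contra hcon
    push Not at hcon
    have hsub : Subsingleton (Function.fixedPoints f) :=
      ⟨fun a b => Subtype.ext ((hcon a.1 a.2).trans (hcon b.1 b.2).symm)⟩
    have hle : Fintype.card (Function.fixedPoints f) ≤ 1 := Fintype.card_le_one_iff_subsingleton.mpr hsub
    have hpos : 0 < Fintype.card (Function.fixedPoints f) := Fintype.card_pos_iff.mpr ⟨⟨1, hone⟩⟩
    have := Nat.le_of_dvd hpos hfixcard
    exact absurd (this.trans hle) (not_le.mpr hp.one_lt)
  obtain ⟨v, hvfix, hv1⟩ := hex
  have hkv : ((k : K) : MulAut P) v.1 = v.1 := congrArg Subtype.val hvfix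
  have hk1 : ((k : K) : MulAut P) ≠ 1 := by
    intro h1
    have : k = 1 := Subtype.ext h1
    rw [this, orderOf_one] at hk
    exact hp.one_lt.ne hk
  -- every n ∈ N fixes v
  have hNv : ∀ n : N, ((n : K) : MulAut P) v.1 = v.1 := by
    intro n
    by_cases hn1 : ((n : K) : MulAut P) = 1
    · rw [hn1]; rfl
    · exact (hfix _ _ k.2 (n : K).2 hk1 hn1 v.1).mp hkv
  have hτv : τ v.1 = v.1 ^ Fintype.card N := by
    simp only [hτ, hNv, Finset.prod_const, Finset.card_univ]
  have hv2 : v.1 ^ Fintype.card N = 1 := by rw [← hτv]; exact hτV v.1 v.2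
  obtain ⟨e, he⟩ := hP v.1
  have hcop : (Fintype.card N).Coprime (p ^ e) := by
    apply Nat.Coprime.pow_right
    rw [Nat.coprime_comm, hp.coprime_iff_not_dvd, ← Nat.card_eq_fintype_card]
    exact hNp
  have hord : orderOf v.1 = 1 :=
    Nat.eq_one_of_dvd_coprimes hcop (orderOf_dvd_of_pow_eq_one hv2) (orderOf_dvd_of_pow_eq_one he)
  exact hv1 (Subtype.ext (orderOf_eq_one_iff.mp hord))
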