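import Cfsg.Statements.S4037
import Cfsg.Agent.Helper72.Kazarin

set_option autoImplicit false
open Cfsg

namespace Cfsg.Agent.S4037

/-- The size of a conjugacy class is the index of the centralizer. -/
theorem ncard_conjClass_eq_index' {G : Type*} [Group G] [Finite G] (x : G) :
    (ConjClasses.mk x).carrier.ncard = (Subgroup.centralizer ({x} : Set G)).index := by
  rw [← ConjAct.orbit_eq_carrier_conjClasses, ← MulAction.index_stabilizer]
  have h1 := Subgroup.index_mul_card (MulAction.stabilizer (ConjAct G) x)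
  have h2 := Subgroup.index_mul_card (Subgroup.centralizer ({x} : Set G))
  rw [Subgroup.nat_card_centralizer_nat_card_stabilizer] at h2
  have h3 : Nat.card (ConjAct G) = Nat.card G := rfl
  rw [h3, ← h2] at h1
  have hpos : 0 < Nat.card (MulAction.stabilizer (ConjAct G) x) := by
    rw [← Subgroup.nat_card_centralizer_nat_card_stabilizer]; exact Nat.card_pos
  exact Nat.eq_of_mul_eq_mul_right hpos h1

/-- If an element x of a finite group G has a conjugacy class of prime-power size, then the normal closure of x in G (the subgroup generated by the conjugacy class of x) is solvable. -/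
theorem result {G : Type*} [Group G] [Finite G]
    (x : G) {p : ℕ} (hp : p.Prime) (k : ℕ) (hx : (ConjClasses.mk x).carrier.ncard = p ^ k) :
    Group.IsSolvable ↥(Subgroup.normalClosure ({x} : Set G)) := by
  haveI : Fact p.Prime := ⟨hp⟩
  have hidx : (Subgroup.centralizer ({x} : Set G)).index = p ^ k := by
    rw [← ncard_conjClass_eq_index', hx]
  have hOn : (Cfsg.pCore p G).Normal := Cfsg.Agent.Helper72.pCore_normal p
  have hOp : IsPGroup p (Cfsg.pCore p G) := Cfsg.Agent.Helper72.pCore_isPGroup p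
  -- the image of the normal closure modulo `O_p(G)` is abelian
  have hmap : (Subgroup.normalClosure ({x} : Set G)).map (QuotientGroup.mk' (Cfsg.pCore p G))
      = Subgroup.closure ((QuotientGroup.mk' (Cfsg.pCore p G)) '' Group.conjugatesOfSet ({x} : Set G)) := by
    rw [Subgroup.normalClosure, MonoidHom.map_closure]
  have hgen : ∀ a ∈ (QuotientGroup.mk' (Cfsg.pCore p G)) '' Group.conjugatesOfSet ({x} : Set G),
      ∀ b ∈ (QuotientGroup.mk' (Cfsg.pCore p G)) '' Group.conjugatesOfSet ({x} : Set G),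
      a * b = b * a := by
    rintro _ ⟨a, ha, rfl⟩ _ ⟨b, hb, rfl⟩
    rw [Group.mem_conjugatesOfSet_iff] at ha hb
    obtain ⟨a', ha', ha⟩ := ha
    obtain ⟨b', hb', hb⟩ := hb
    rw [Set.mem_singleton_iff] at ha' hb'
    rw [ha'] at ha
    rw [hb'] at hb
    obtain ⟨c, rfl⟩ := isConj_iff.mp ha
    obtain ⟨d, rfl⟩ := isConj_iff.mp hb
    have hmem := Cfsg.Agent.Helper72.commutator_conj_mem_pCore p x ⟨k, hidx⟩ c d
    rw [← QuotientGroup.eq_one_iff] at hmem
    have h1 : QuotientGroup.mk' (Cfsg.pCore p G) (c * x * c⁻¹) *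
        QuotientGroup.mk' (Cfsg.pCore p G) (d * x * d⁻¹) *
        (QuotientGroup.mk' (Cfsg.pCore p G) (c * x * c⁻¹))⁻¹ *
        (QuotientGroup.mk' (Cfsg.pCore p G) (d * x * d⁻¹))⁻¹ = 1 := by
      rw [← map_inv, ← map_inv, ← map_mul, ← map_mul, ← map_mul]
      exact hmem
    calc QuotientGroup.mk' (Cfsg.pCore p G) (c * x * c⁻¹) *
          QuotientGroup.mk' (Cfsg.pCore p G) (d * x * d⁻¹)
        = (QuotientGroup.mk' (Cfsg.pCore p G) (c * x * c⁻¹) *
            QuotientGroup.mk' (Cfsg.pCore p G) (d * x * d⁻¹) *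
            (QuotientGroup.mk' (Cfsg.pCore p G) (c * x * c⁻¹))⁻¹ *
            (QuotientGroup.mk' (Cfsg.pCore p G) (d * x * d⁻¹))⁻¹) *
            (QuotientGroup.mk' (Cfsg.pCore p G) (d * x * d⁻¹) *
            QuotientGroup.mk' (Cfsg.pCore p G) (c * x * c⁻¹)) := by group
      _ = QuotientGroup.mk' (Cfsg.pCore p G) (d * x * d⁻¹) *
            QuotientGroup.mk' (Cfsg.pCore p G) (c * x * c⁻¹) := by rw [h1, one_mul]
  have hcl := Subgroup.isMulCommutative_closure hgen
  rw [← hmap] at hcl
  -- the two homomorphisms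
  let f : ↥((Cfsg.pCore p G).subgroupOf (Subgroup.normalClosure ({x} : Set G))) →*
      ↥(Subgroup.normalClosure ({x} : Set G)) := Subgroup.subtype _
  let g : ↥(Subgroup.normalClosure ({x} : Set G)) →*
      ↥((Subgroup.normalClosure ({x} : Set G)).map (QuotientGroup.mk' (Cfsg.pCore p G))) :=
    (QuotientGroup.mk' (Cfsg.pCore p G)).subgroupMap (Subgroup.normalClosure ({x} : Set G))
  have hfg : g.ker ≤ f.range := by
    intro y hy
    rw [MonoidHom.mem_ker] at hy
    have hy' : QuotientGroup.mk' (Cfsg.pCore p G) (y : G) = 1 := by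
      have := congrArg Subtype.val hy
      simpa [g] using this
    have hyO : (y : G) ∈ Cfsg.pCore p G := (QuotientGroup.eq_one_iff (y : G)).mp hy'
    exact ⟨⟨y, hyO⟩, rfl⟩
  have hs1 : Group.IsSolvable
      ↥((Cfsg.pCore p G).subgroupOf (Subgroup.normalClosure ({x} : Set G))) := by
    have hpg : IsPGroup p
        ↥((Cfsg.pCore p G).subgroupOf (Subgroup.normalClosure ({x} : Set G))) :=
      hOp.comap_subtype
    haveI := hpg.isNilpotent
    infer_instance
  have hs2 : Group.IsSolvable
      ↥((Subgroup.normalClosure ({x} : Set G)).map (QuotientGroup.mk' (Cfsg.pCore p G))) :=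
    Group.isSolvable_of_comm (fun a b => hcl.is_comm.comm a b)
  exact Group.isSolvable_of_ker_le_range f g hfg

end Cfsg.Agent.S4037
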