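-- Statement S4039: a finite group with a nilpotent maximal subgroup of class at most 2 is solvable.
import Cfsg.Statements.S4039
import Cfsg.Agent.Helper70.NilMax
import Cfsg.Agent.Helper70.FrobPrime2

set_option autoImplicit false
open Cfsg

namespace Cfsg.Agent.S4039

open Subgroup Cfsg.Agent.Helper70

universe u

/-- Class at most two, elementwise: commutators are central. -/
def Cl2 (Γ : Type u) [Group Γ] : Prop :=
  ∀ x y z : Γ, (x * y * x⁻¹ * y⁻¹) * z = z * (x * y * x⁻¹ * y⁻¹)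

theorem cl2_of_surjective (Γ Γ' : Type u) [Group Γ] [Group Γ'] (f : Γ →* Γ')
    (hf : Function.Surjective f) (h : Cl2 Γ) : Cl2 Γ' := by
  intro x y z
  obtain ⟨a, rfl⟩ := hf x
  obtain ⟨b, rfl⟩ := hf y
  obtain ⟨c, rfl⟩ := hf z
  have := congrArg f (h a b c)
  simpa using this

section Main

variable {G : Type u} [Group G] [Finite G] {M : Subgroup G} (hM : IsCoatom M)
  [hnil : Group.IsNilpotent M] (hcl : Cl2 M)
  (hcf : ∀ X : Subgroup G, X.Normal → X ≤ M → X = ⊥) {p : ℕ} [Fact p.Prime] (P : Sylow p G)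
  (hPM : (P : Subgroup G) ≤ M) (hPb : (P : Subgroup G) ≠ ⊥)

omit [Finite G] hnil [Fact (Nat.Prime p)] in
include hcl hPM in
/-- Commutators of elements of `P` lie in the centre of `P`. -/
theorem comm_mem_center (u d : G) (hu : u ∈ (P : Subgroup G)) (hd : d ∈ (P : Subgroup G)) :
    u * d * u⁻¹ * d⁻¹ ∈ (P : Subgroup G) ⊓ centralizer ((P : Subgroup G) : Set G) := by
  refine Subgroup.mem_inf.mpr ⟨Subgroup.mul_mem _ (Subgroup.mul_mem _ (Subgroup.mul_mem _ hu hd)
    (Subgroup.inv_mem _ hu)) (Subgroup.inv_mem _ hd), ?_⟩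
  rw [mem_centralizer_iff]
  intro z hz
  have := congrArg Subtype.val (hcl ⟨u, hPM hu⟩ ⟨d, hPM hd⟩ ⟨z, hPM hz⟩)
  simpa using this.symm

include hPM in
/-- `M` centralizes the centre of `P`. -/
theorem center_commute (m : G) (hm : m ∈ M) (z : G)
    (hz : z ∈ (P : Subgroup G) ⊓ centralizer ((P : Subgroup G) : Set G)) : z * m = m * z := by
  obtain ⟨u, hu, a, ha, hcop, rfl⟩ := nm_decomp M P hPM m hm
  have h1 : z * a = a * z := nm_commute M P hPM a ha hcop z hz.1
  have h2 : u * z = z * u := (mem_centralizer_iff.mp hz.2) u hu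
  calc z * (a * u) = (z * a) * u := by group
    _ = a * (z * u) := by rw [h1]; group
    _ = a * u * z := by rw [← h2]; group

include hM hcf hPM in
/-- The centralizer of a nontrivial element of `Z(P)` is `M`. -/
theorem mem_of_commute (w : G)
    (hw : w ∈ (P : Subgroup G) ⊓ centralizer ((P : Subgroup G) : Set G)) (hw1 : w ≠ 1) (x : G)
    (hx : x * w = w * x) : x ∈ M := by
  have hle : M ≤ centralizer ({w} : Set G) := by
    intro m hm
    rw [mem_centralizer_iff]
    intro y hy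
    rw [Set.mem_singleton_iff] at hy
    rw [hy]
    exact center_commute P hPM m hm w hw
  have hxC : x ∈ centralizer ({w} : Set G) := by
    rw [mem_centralizer_iff]
    intro y hy
    rw [Set.mem_singleton_iff] at hy
    rw [hy]; exact hx.symm
  by_contra hxM
  have hlt : M < centralizer ({w} : Set G) :=
    lt_of_le_of_ne hle (fun h => hxM (h ▸ hxC))
  have htop := hM.2 _ hlt
  have hcomm : ∀ g : G, g * w = w * g := by
    intro g
    have hg : g ∈ centralizer ({w} : Set G) := by rw [htop]; trivial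
    exact ((mem_centralizer_iff.mp hg) w rfl).symm
  have hn : (zpowers w).Normal := by
    constructor
    intro n hn g
    obtain ⟨k, rfl⟩ := mem_zpowers_iff.mp hn
    have h1 : Commute g (w ^ k) := (show Commute g w from hcomm g).zpow_right k
    have h2 : g * w ^ k * g⁻¹ = w ^ k := by rw [h1.eq]; group
    rw [h2]; exact zpow_mem (mem_zpowers w) k
  have hzM : zpowers w ≤ M := by
    rw [zpowers_le]; exact hPM hw.1
  have := hcf _ hn hzM
  rw [zpowers_eq_bot] at this
  exact hw1 this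

include hcl hPM in
/-- `M` normalizes `P ∩ P^s` as soon as this intersection contains `Z(P)`. -/
theorem le_normalizer_inf (s : G)
    (hs : ∀ z ∈ (P : Subgroup G) ⊓ centralizer ((P : Subgroup G) : Set G),
      s⁻¹ * z * s ∈ (P : Subgroup G)) :
    M ≤ normalizer (((P : Subgroup G) ⊓ ((s • P : Sylow p G) : Subgroup G) : Subgroup G) :
      Set G) := by
  have hZD : (P : Subgroup G) ⊓ centralizer ((P : Subgroup G) : Set G) ≤
      (P : Subgroup G) ⊓ ((s • P : Sylow p G) : Subgroup G) := by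
    intro z hz
    refine Subgroup.mem_inf.mpr ⟨hz.1, ?_⟩
    rw [sylow_mem_smul_iff]
    exact hs z hz
  have key : ∀ m ∈ M, ∀ d ∈ (P : Subgroup G) ⊓ ((s • P : Sylow p G) : Subgroup G),
      m * d * m⁻¹ ∈ (P : Subgroup G) ⊓ ((s • P : Sylow p G) : Subgroup G) := by
    intro m hm d hd
    obtain ⟨u, hu, a, ha, hcop, rfl⟩ := nm_decomp M P hPM m hm
    have h1 : u * d * u⁻¹ ∈ (P : Subgroup G) ⊓ ((s • P : Sylow p G) : Subgroup G) := by
      have h2 : u * d * u⁻¹ = (u * d * u⁻¹ * d⁻¹) * d := by group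
      rw [h2]
      exact Subgroup.mul_mem _ (hZD (comm_mem_center hcl P hPM u d hu hd.1)) hd
    have h3 : (u * d * u⁻¹) * a = a * (u * d * u⁻¹) :=
      nm_commute M P hPM a ha hcop _ h1.1
    have h4 : a * u * d * (a * u)⁻¹ = u * d * u⁻¹ := by
      calc a * u * d * (a * u)⁻¹ = (a * (u * d * u⁻¹)) * a⁻¹ := by group
        _ = u * d * u⁻¹ := by rw [← h3]; group
    rw [h4]; exact h1
  intro m hm
  rw [mem_normalizer_iff]
  intro x
  constructor
  · exact key m hm x
  · intro hx
    have := key m⁻¹ (M.inv_mem hm) _ hx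
    have h2 : m⁻¹ * (m * x * m⁻¹) * m⁻¹⁻¹ = x := by group
    rwa [h2] at this

include hM hcl hcf hPM hPb in
/-- An element conjugating `Z(P)` into `P` lies in `M`. -/
theorem mem_of_conj_center (t : G)
    (ht : ∀ z ∈ (P : Subgroup G) ⊓ centralizer ((P : Subgroup G) : Set G),
      t * z * t⁻¹ ∈ (P : Subgroup G)) : t ∈ M := by
  have hp := (Fact.out : p.Prime)
  have hNP : normalizer ((P : Subgroup G) : Set G) = M :=
    nm_normalizer_eq hM hcf P hPM hPb (nm_le_normalizer M P hPM)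
  -- a nontrivial central element
  have hZb : (P : Subgroup G) ⊓ centralizer ((P : Subgroup G) : Set G) ≠ ⊥ := by
    have : Nontrivial (P : Subgroup G) := (Subgroup.nontrivial_iff_ne_bot _).mpr hPb
    have h1 : Nontrivial (Subgroup.center (P : Subgroup G)) := P.isPGroup'.center_nontrivial
    obtain ⟨z, hz⟩ := exists_ne (1 : Subgroup.center (P : Subgroup G))
    intro hbot
    have h2 : ((z : (P : Subgroup G)) : G) ∈
        (P : Subgroup G) ⊓ centralizer ((P : Subgroup G) : Set G) := by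
      refine Subgroup.mem_inf.mpr ⟨(z : (P : Subgroup G)).2, ?_⟩
      rw [mem_centralizer_iff]
      intro y hy
      have := (Subgroup.mem_center_iff.mp z.2) ⟨y, hy⟩
      exact congrArg Subtype.val this
    rw [hbot, Subgroup.mem_bot] at h2
    apply hz
    apply Subtype.ext
    apply Subtype.ext
    exact h2
  obtain ⟨w, hwZ, hw1⟩ : ∃ w ∈ (P : Subgroup G) ⊓ centralizer ((P : Subgroup G) : Set G),
      w ≠ 1 := by
    by_contra hcon
    push Not at hcon
    exact hZb (eq_bot_iff.mpr fun x hx => Subgroup.mem_bot.mpr (hcon x hx))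
  -- `Z(P) ≤ P^t`
  have hZt : ∀ z ∈ (P : Subgroup G) ⊓ centralizer ((P : Subgroup G) : Set G),
      t⁻¹ * z * t ∈ (P : Subgroup G) := by
    intro z hz
    have h1 : (t * w * t⁻¹) * z = z * (t * w * t⁻¹) :=
      (mem_centralizer_iff.mp hz.2) _ (ht w hwZ)
    have h2 : (t⁻¹ * z * t) * w = w * (t⁻¹ * z * t) := by
      calc (t⁻¹ * z * t) * w = t⁻¹ * (z * (t * w * t⁻¹)) * t := by group
        _ = t⁻¹ * ((t * w * t⁻¹) * z) * t := by rw [h1]
        _ = w * (t⁻¹ * z * t) := by group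
    have h3 : t⁻¹ * z * t ∈ M := mem_of_commute hM hcf P hPM w hwZ hw1 _ h2
    obtain ⟨k, hk⟩ := P.isPGroup' ⟨z, hz.1⟩
    have hzk : z ^ p ^ k = 1 := by simpa using congrArg Subtype.val hk
    apply nm_mem_sylow M P hPM _ h3 k
    have h4 : (t⁻¹ * z * t) ^ p ^ k = t⁻¹ * z ^ p ^ k * t := by
      have := conj_pow (a := t⁻¹) (b := z) (i := p ^ k)
      simpa using this
    rw [h4, hzk]; group
  have hMD := le_normalizer_inf hcl P hPM t hZt
  have hMD' := le_normalizer_inf hcl P hPM t⁻¹ (by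
    intro z hz
    rw [inv_inv]
    exact ht z hz)
  have hDD' : ∀ x : G, x ∈ (P : Subgroup G) ⊓ ((t • P : Sylow p G) : Subgroup G) ↔
      t⁻¹ * x * t ∈ (P : Subgroup G) ⊓ ((t⁻¹ • P : Sylow p G) : Subgroup G) := by
    intro x
    rw [Subgroup.mem_inf, Subgroup.mem_inf, sylow_mem_smul_iff, sylow_mem_smul_iff]
    have : t⁻¹⁻¹ * (t⁻¹ * x * t) * t⁻¹ = x := by group
    rw [this]
    exact and_comm
  by_contra htM
  by_cases hND : normalizer (((P : Subgroup G) ⊓ ((t • P : Sylow p G) : Subgroup G) :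
      Subgroup G) : Set G) = M
  · have hconj : ∀ u ∈ (P : Subgroup G), t * u * t⁻¹ ∈ (P : Subgroup G) := by
      intro u hu
      have h1 : t * u * t⁻¹ ∈ normalizer (((P : Subgroup G) ⊓
          ((t • P : Sylow p G) : Subgroup G) : Subgroup G) : Set G) := by
        rw [mem_normalizer_iff]
        intro x
        have hu' := mem_normalizer_iff.mp (hMD' (hPM hu)) (t⁻¹ * x * t)
        rw [hDD' x, hu', hDD']
        have : t⁻¹ * (t * u * t⁻¹ * x * (t * u * t⁻¹)⁻¹) * t = u * (t⁻¹ * x * t) * u⁻¹ := by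
          group
        rw [this]
      rw [hND] at h1
      obtain ⟨k, hk⟩ := P.isPGroup' ⟨u, hu⟩
      have huk : u ^ p ^ k = 1 := by simpa using congrArg Subtype.val hk
      apply nm_mem_sylow M P hPM _ h1 k
      rw [conj_pow, huk]; group
    have hle : ((t • P : Sylow p G) : Subgroup G) ≤ (P : Subgroup G) := by
      intro x hx
      rw [sylow_mem_smul_iff] at hx
      have := hconj _ hx
      have h2 : t * (t⁻¹ * x * t) * t⁻¹ = x := by group
      rwa [h2] at this
    have heq : (t • P : Sylow p G) = P := Sylow.ext ((t • P).is_maximal' P.isPGroup' hle).symm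
    have : t ∈ normalizer ((P : Subgroup G) : Set G) := Sylow.smul_eq_iff_mem_normalizer.mp heq
    rw [hNP] at this
    exact htM this
  · have hlt : M < normalizer (((P : Subgroup G) ⊓ ((t • P : Sylow p G) : Subgroup G) :
        Subgroup G) : Set G) := lt_of_le_of_ne hMD (Ne.symm hND)
    have htop := hM.2 _ hlt
    have hbot := hcf _ (normalizer_eq_top_iff.mp htop) (inf_le_left.trans hPM)
    have hwD : w ∈ (P : Subgroup G) ⊓ ((t • P : Sylow p G) : Subgroup G) := by
      refine Subgroup.mem_inf.mpr ⟨hwZ.1, ?_⟩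
      rw [sylow_mem_smul_iff]
      exact hZt w hwZ
    rw [hbot, Subgroup.mem_bot] at hwD
    exact hw1 hwD

include hM hcl hcf hPM hPb in
/-- Frobenius' condition holds. -/
theorem frobCond : FrobCond p G := by
  have hp := (Fact.out : p.Prime)
  by_contra hF
  obtain ⟨Q, g, r, hQP, hr, hrp, hgN, hgr, hgC, hSyl⟩ := exists_prime_action_in_sylow hF P
  have hXC : ((P : Subgroup G) ⊓ centralizer ((P : Subgroup G) : Set G)).map
      (MulAut.conj g).toMonoidHom ≤ centralizer (Q : Set G) := by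
    rintro _ ⟨z, hz, rfl⟩
    show g * z * g⁻¹ ∈ centralizer (Q : Set G)
    rw [mem_centralizer_iff]
    intro y hy
    have hy' : g⁻¹ * y * g ∈ Q := by
      have := (mem_normalizer_iff.mp (inv_mem hgN) y).mp hy
      simpa using this
    have h1 : (g⁻¹ * y * g) * z = z * (g⁻¹ * y * g) :=
      (mem_centralizer_iff.mp hz.2) _ (hQP hy')
    calc y * (g * z * g⁻¹) = g * ((g⁻¹ * y * g) * z) * g⁻¹ := by group
      _ = g * (z * (g⁻¹ * y * g)) * g⁻¹ := by rw [h1]
      _ = g * z * g⁻¹ * y := by group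
  have hXp : IsPGroup p (((P : Subgroup G) ⊓ centralizer ((P : Subgroup G) : Set G)).map
      (MulAut.conj g).toMonoidHom) := (P.isPGroup'.to_le inf_le_left).map _
  obtain ⟨c, hc, hcX⟩ := hSyl _ hXC hXp
  have ht : ∀ z ∈ (P : Subgroup G) ⊓ centralizer ((P : Subgroup G) : Set G),
      (c * g) * z * (c * g)⁻¹ ∈ (P : Subgroup G) := by
    intro z hz
    have := hcX (g * z * g⁻¹) ⟨z, hz, rfl⟩
    have h2 : c * g * z * (c * g)⁻¹ = c * (g * z * g⁻¹) * c⁻¹ := by group
    rw [h2]; exact this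
  have htM : c * g ∈ M := mem_of_conj_center hM hcl hcf P hPM hPb (c * g) ht
  obtain ⟨u, hu, a, ha, hcop, hdec⟩ := nm_decomp M P hPM (c * g) htM
  have hact : ∀ y ∈ Q, g * y * g⁻¹ = u * y * u⁻¹ := by
    intro y hy
    have hgy : g * y * g⁻¹ ∈ Q := (mem_normalizer_iff.mp hgN y).mp hy
    have h1 : (g * y * g⁻¹) * c = c * (g * y * g⁻¹) := (mem_centralizer_iff.mp hc) _ hgy
    have h2 : (c * g) * y * (c * g)⁻¹ = g * y * g⁻¹ := by
      calc (c * g) * y * (c * g)⁻¹ = (c * (g * y * g⁻¹)) * c⁻¹ := by group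
        _ = g * y * g⁻¹ := by rw [← h1]; group
    have h3 : (u * y * u⁻¹) * a = a * (u * y * u⁻¹) :=
      nm_commute M P hPM a ha hcop _ (Subgroup.mul_mem _ (Subgroup.mul_mem _ hu (hQP hy))
        (Subgroup.inv_mem _ hu))
    rw [← h2, hdec]
    calc a * u * y * (a * u)⁻¹ = (a * (u * y * u⁻¹)) * a⁻¹ := by group
      _ = u * y * u⁻¹ := by rw [← h3]; group
  have hpow : ∀ (j : ℕ), ∀ y ∈ Q, g ^ j * y * (g ^ j)⁻¹ = u ^ j * y * (u ^ j)⁻¹ := by
    intro j
    induction j with
    | zero => intro y _; simp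
    | succ j ih =>
      intro y hy
      have hgy : g * y * g⁻¹ ∈ Q := (mem_normalizer_iff.mp hgN y).mp hy
      calc g ^ (j + 1) * y * (g ^ (j + 1))⁻¹ = g ^ j * (g * y * g⁻¹) * (g ^ j)⁻¹ := by
            rw [pow_succ]; group
        _ = u ^ j * (g * y * g⁻¹) * (u ^ j)⁻¹ := ih _ hgy
        _ = u ^ j * (u * y * u⁻¹) * (u ^ j)⁻¹ := by rw [hact y hy]
        _ = u ^ (j + 1) * y * (u ^ (j + 1))⁻¹ := by rw [pow_succ]; group
  obtain ⟨k, hk⟩ := P.isPGroup' ⟨u, hu⟩
  have huk : u ^ p ^ k = 1 := by simpa using congrArg Subtype.val hk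
  have hgk : g ^ p ^ k ∈ centralizer (Q : Set G) := by
    rw [mem_centralizer_iff]
    intro y hy
    have := hpow (p ^ k) y hy
    rw [huk] at this
    have h2 : g ^ p ^ k * y * (g ^ p ^ k)⁻¹ = y := by rw [this]; group
    calc y * g ^ p ^ k = (g ^ p ^ k * y * (g ^ p ^ k)⁻¹) * g ^ p ^ k := by rw [h2]
      _ = g ^ p ^ k * y := by group
  have hcop' : (p ^ k).Coprime r :=
    Nat.Coprime.pow_left k ((Nat.coprime_primes hp hr).mpr (Ne.symm hrp))
  have hbez : ((p ^ k : ℕ) : ℤ) * Nat.gcdA (p ^ k) r + (r : ℤ) * Nat.gcdB (p ^ k) r = 1 := by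
    have := Nat.gcd_eq_gcd_ab (p ^ k) r
    rw [hcop'.gcd_eq_one] at this
    exact_mod_cast this.symm
  apply hgC
  have h1 : g = (g ^ p ^ k) ^ Nat.gcdA (p ^ k) r * (g ^ r) ^ Nat.gcdB (p ^ k) r := by
    rw [← zpow_natCast g (p ^ k), ← zpow_natCast g r, ← zpow_mul, ← zpow_mul, ← zpow_add, hbez,
      zpow_one]
  rw [h1]
  exact Subgroup.mul_mem _ (Subgroup.zpow_mem _ hgk _) (Subgroup.zpow_mem _ hgr _)

end Main

open scoped commutatorElement in
/-- Nilpotency class at most two gives the elementwise condition. -/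
theorem cl2_of_class {G : Type u} [Group G] (M : Subgroup G) [hnil : Group.IsNilpotent M]
    (hcl : Group.nilpotencyClass ↥M ≤ 2) : Cl2 M := by
  have h1 : (⊤ : Subgroup M).lowerCentralSeries 2 = ⊥ :=
    Subgroup.lowerCentralSeries_eq_bot_iff_nilpotencyClass_le.mpr hcl
  intro x y z
  have h2 : ⁅⁅x, y⁆, z⁆ ∈ (⊤ : Subgroup M).lowerCentralSeries 2 := by
    rw [Subgroup.lowerCentralSeries_succ, Subgroup.lowerCentralSeries_succ,
      Subgroup.lowerCentralSeries_zero]
    exact Subgroup.commutator_mem_commutator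
      (Subgroup.commutator_mem_commutator (Subgroup.mem_top x) (Subgroup.mem_top y))
      (Subgroup.mem_top z)
  rw [h1, Subgroup.mem_bot, commutatorElement_def, commutatorElement_def] at h2
  have h3 := mul_inv_eq_one.mp h2
  have h4 := mul_inv_eq_iff_eq_mul.mp h3
  exact h4

/-- A finite group possessing a maximal subgroup that is nilpotent of class at most 2 is solvable. -/
theorem result {G : Type*} [Group G] [Finite G]
    (M : Subgroup G) (hmax : IsCoatom M) (hnil : Group.IsNilpotent M) (hcl : Group.nilpotencyClass ↥M ≤ 2) :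
    Group.IsSolvable G := by
  have hcl2 : Cl2 M := cl2_of_class M hcl
  refine solvable_of_nilpotent_coatom_aux (fun Γ _ => Cl2 Γ) ?_ ?_ (Nat.card G) G rfl
    M hmax hnil hcl2
  · intro Γ Γ' _ _ _ f hf h
    exact cl2_of_surjective Γ Γ' f hf h
  · intro G' _ _ M' hM' hnil' hcl' hcf p _ P hPM hPb
    exact (frobCond hM' hcl' hcf P hPM hPb).hasNPC

end Cfsg.Agent.S4039
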