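-- Statement S4040: a finite group with a nilpotent maximal subgroup of odd order is solvable (Thompson).
import Cfsg.Statements.S4040
import Cfsg.Agent.S0108
import Cfsg.Agent.Helper70.NilMax
import Cfsg.Agent.Helper70.FrobComp2
import Cfsg.Agent.Helper19.ThompsonJ

set_option autoImplicit false
open Cfsg

namespace Cfsg.Agent.S4040

open Subgroup Cfsg.Agent.Helper70 Cfsg.Agent.Helper19

universe u

/-- Normal `p`-complements in the core-free case, from Thompson's theorem. -/
theorem npc_of_odd (G : Type u) [Group G] [Finite G] (M : Subgroup G) (hM : IsCoatom M)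
    (hnil : Group.IsNilpotent M) (hodd : Odd (Nat.card M))
    (hcf : ∀ X : Subgroup G, X.Normal → X ≤ M → X = ⊥) (p : ℕ) [Fact p.Prime] (P : Sylow p G)
    (hPM : (P : Subgroup G) ≤ M) (hPb : (P : Subgroup G) ≠ ⊥) : HasNPC p G := by
  have hp2 : p ≠ 2 := by
    rintro rfl
    have h1 : 2 ∣ Nat.card (P : Subgroup G) := by
      obtain ⟨n, hn⟩ := IsPGroup.iff_card.mp P.isPGroup'
      rw [hn]
      have : n ≠ 0 := by
        rintro rfl
        rw [pow_zero] at hn
        exact hPb (Subgroup.card_eq_one.mp hn)
      exact dvd_pow_self 2 this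
    have h2 : 2 ∣ Nat.card M := h1.trans (Subgroup.card_dvd_of_le hPM)
    exact (Nat.not_even_iff_odd.mpr hodd) (even_iff_two_dvd.mpr h2)
  have hMN := nm_le_normalizer M P hPM
  have hJ : normalizer (Cfsg.thompsonSubgroupOf p (P : Subgroup G) : Set G) = M := by
    rw [thompsonSubgroupOf_eq_JJ]
    exact nm_normalizer_eq hM hcf _ ((JJ_le p _).trans hPM) (JJ_ne_bot P.isPGroup' hPb)
      (hMN.trans (normalizer_le_normalizer_JJ p _))
  have hZ : normalizer (((P : Subgroup G) ⊓ centralizer ((P : Subgroup G) : Set G) :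
      Subgroup G) : Set G) = M :=
    nm_normalizer_eq hM hcf _ (inf_le_left.trans hPM) (center_ne_bot P.isPGroup' hPb)
      (hMN.trans (normalizer_le_normalizer_center _))
  rw [← hasNormalPComplement_iff_hasNPC, Cfsg.Agent.S0108.result hp2 P]
  constructor
  · rw [hJ]
    exact hasNormalPComplement_iff_hasNPC.mpr (hasNPC_of_isNilpotent p)
  · have hle : centralizer (((P : Subgroup G) ⊓ centralizer ((P : Subgroup G) : Set G) :
        Subgroup G) : Set G) ≤ M := by
      rw [← hZ]; exact Subgroup.centralizer_le_normalizer _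
    have h0 : Group.IsNilpotent ((centralizer (((P : Subgroup G) ⊓
        centralizer ((P : Subgroup G) : Set G) : Subgroup G) : Set G)).subgroupOf M) :=
      inferInstance
    have h1 : Group.IsNilpotent (centralizer (((P : Subgroup G) ⊓
        centralizer ((P : Subgroup G) : Set G) : Subgroup G) : Set G)) :=
      Group.nilpotent_of_mulEquiv (Subgroup.subgroupOfEquivOfLe hle)
    exact hasNormalPComplement_iff_hasNPC.mpr (hasNPC_of_isNilpotent p)

/-- A finite group possessing a maximal subgroup that is nilpotent of odd order is solvable. -/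
theorem result {G : Type*} [Group G] [Finite G]
    (M : Subgroup G) (hmax : IsCoatom M) (hnil : Group.IsNilpotent M) (hodd : Odd (Nat.card M)) :
    Group.IsSolvable G := by
  refine solvable_of_nilpotent_coatom_aux (fun Γ _ => Odd (Nat.card Γ)) ?_ ?_ (Nat.card G) G rfl
    M hmax hnil hodd
  · intro Γ Γ' _ _ _ f hf h
    exact Odd.of_dvd_nat h (Subgroup.card_dvd_of_surjective f hf)
  · intro G' _ _ M' hM' hnil' hodd' hcf p _ P hPM hPb
    exact npc_of_odd G' M' hM' hnil' hodd' hcf p P hPM hPb

end Cfsg.Agent.S4040
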