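-- Statement S4043: conjugacy of complements with normal p-complements and trivial fixed points.
import Cfsg.Statements.S4043
import Cfsg.Agent.Helper35.SZ
import Cfsg.Agent.Helper67.Conj

set_option autoImplicit false
open Cfsg

namespace Cfsg.Agent.S4043

open scoped Pointwise

/-- Data extracted from a normal `p`-complement of a subgroup `A`. -/
theorem exists_data {G : Type*} [Group G] [Finite G] {p : ℕ} [Fact p.Prime] (A : Subgroup G)
    (hAp : Cfsg.HasNormalPComplement p A) :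
    ∃ K Q : Subgroup G, K ≤ A ∧ Q ≤ A ∧ IsPGroup p Q ∧ (Nat.card K).Coprime p ∧
      (∀ a ∈ A, ∀ k ∈ K, a * k * a⁻¹ ∈ K) ∧ (∀ a ∈ A, ∃ k ∈ K, ∃ q ∈ Q, a = k * q) ∧
      (∀ a ∈ A, (orderOf a).Coprime p → a ∈ K) := by
  have hp : p.Prime := Fact.out
  obtain ⟨P, K', hK'n, hK'c⟩ := hAp
  have hidx : (P : Subgroup A).index = Nat.card K' := hK'c.index_eq_card
  have hidx' : K'.index = Nat.card (P : Subgroup A) := hK'c.symm.index_eq_card
  refine ⟨K'.map A.subtype, (P : Subgroup A).map A.subtype, ?_, ?_, ?_, ?_, ?_, ?_, ?_⟩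
  · rintro _ ⟨x, _, rfl⟩; exact x.2
  · rintro _ ⟨x, _, rfl⟩; exact x.2
  · exact P.2.map A.subtype
  · rw [Subgroup.card_map_of_injective A.subtype_injective, ← hidx]
    exact ((Nat.Prime.coprime_iff_not_dvd hp).mpr P.not_dvd_index).symm
  · rintro a ha _ ⟨k, hk, rfl⟩
    exact ⟨⟨a, ha⟩ * k * ⟨a, ha⟩⁻¹, hK'n.conj_mem k hk ⟨a, ha⟩, rfl⟩
  · intro a ha
    obtain ⟨k, hk, q, hq, h⟩ := Helper35.exists_mul_of_isComplement' hK'c ⟨a, ha⟩
    exact ⟨k, ⟨k, hk, rfl⟩, q, ⟨q, hq, rfl⟩, congrArg Subtype.val h⟩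
  · intro a ha hcop
    obtain ⟨k, hk⟩ := IsPGroup.iff_card.mp P.2
    have h1 : (⟨a, ha⟩ : A) ^ (p ^ k) ∈ K' := by
      rw [← hk, ← hidx']
      exact Subgroup.pow_index_mem K' _
    have h2 : (⟨a, ha⟩ : A) ^ (orderOf a) ∈ K' := by
      have : (⟨a, ha⟩ : A) ^ (orderOf a) = 1 := Subtype.ext (by simp [pow_orderOf_eq_one])
      rw [this]; exact K'.one_mem
    have h3 : (⟨a, ha⟩ : A) ∈ K' :=
      Helper67.mem_of_coprime_pow_mem K' _ (Nat.Coprime.pow_left k hcop.symm) h1 h2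
    exact ⟨⟨a, ha⟩, h3, rfl⟩

/-- A `p`-group `Q` normalizing a nontrivial `p`-group `C` centralizes a nontrivial element. -/
theorem exists_fixed_ne_one {G : Type*} [Group G] [Finite G] {p : ℕ} [Fact p.Prime]
    (Q C : Subgroup G) (hQ : IsPGroup p Q) (hCp : IsPGroup p C) (hne : C ≠ ⊥)
    (hnorm : ∀ q ∈ Q, ∀ c ∈ C, q * c * q⁻¹ ∈ C) :
    ∃ c ∈ C, c ≠ 1 ∧ ∀ q ∈ Q, q * c * q⁻¹ = c := by
  let _ : MulAction Q C :=
    { smul := fun q c => ⟨q * c * q⁻¹, hnorm q q.2 c c.2⟩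
      one_smul := fun c => Subtype.ext (by show ((1 : Q) : G) * c * ((1 : Q) : G)⁻¹ = c; simp)
      mul_smul := fun q r c => Subtype.ext (by
        show ((q * r : Q) : G) * c * ((q * r : Q) : G)⁻¹ = q * (r * c * (r : G)⁻¹) * (q : G)⁻¹
        simp [mul_assoc]) }
  have hfix : (1 : C) ∈ MulAction.fixedPoints Q C := fun q =>
    Subtype.ext (by show (q : G) * ((1 : C) : G) * (q : G)⁻¹ = ((1 : C) : G); simp)
  have hdvd : p ∣ Nat.card C := by
    obtain ⟨n, hn⟩ := IsPGroup.iff_card.mp hCp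
    rcases n with _ | n
    · exfalso; apply hne; exact Subgroup.card_eq_one.mp (by simpa using hn)
    · rw [hn]; exact dvd_pow_self p (Nat.succ_ne_zero n)
  obtain ⟨b, hb, hne'⟩ := hQ.exists_fixed_point_of_prime_dvd_card_of_fixed_point C hdvd hfix
  refine ⟨b, b.2, ?_, ?_⟩
  · intro h; apply hne'; exact Subtype.ext h.symm
  · intro q hq
    exact congrArg Subtype.val (hb ⟨q, hq⟩)

/-- `p'`-subgroups lie in `N` times the normal `p`-complement of a complement of `N`. -/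
theorem le_sup_of_coprime {G : Type*} [Group G] [Finite G] {p : ℕ} [Fact p.Prime]
    (N : Subgroup G) [N.Normal] (B K' L : Subgroup G) (hB : B.IsComplement' N)
    (hLcop : (Nat.card L).Coprime p) (hmem : ∀ a ∈ B, (orderOf a).Coprime p → a ∈ K') :
    L ≤ N ⊔ K' := by
  intro x hx
  have hBN : B ⊓ N = ⊥ := disjoint_iff.mp hB.disjoint
  obtain ⟨a, ha, n, hn, rfl⟩ := Helper35.exists_mul_of_isComplement' hB x
  have h1 : a ^ orderOf (a * n) ∈ N := by
    rw [← QuotientGroup.eq_one_iff]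
    have : ((a * n : G) : G ⧸ N) = (a : G ⧸ N) := by
      rw [QuotientGroup.mk_mul, (QuotientGroup.eq_one_iff n).mpr hn, mul_one]
    rw [QuotientGroup.mk_pow, ← this, ← QuotientGroup.mk_pow, pow_orderOf_eq_one]
    rfl
  have h2 : a ^ orderOf (a * n) ∈ B ⊓ N := ⟨B.pow_mem ha _, h1⟩
  rw [hBN, Subgroup.mem_bot] at h2
  have h3 : orderOf a ∣ orderOf (a * n) := orderOf_dvd_of_pow_eq_one h2
  have h4 : orderOf (a * n) ∣ Nat.card L := by
    have := orderOf_dvd_natCard (⟨a * n, hx⟩ : L)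
    rwa [Subgroup.orderOf_mk] at this
  have h5 : (orderOf a).Coprime p := Nat.Coprime.coprime_dvd_left (h3.trans h4) hLcop
  exact Subgroup.mul_mem _ (Subgroup.mem_sup_right (hmem a ha h5)) (Subgroup.mem_sup_left hn)

/-- Let G be a finite group that is the semidirect product of a normal p-subgroup N by a subgroup A, and also of N by a subgroup A₁, where p is a prime and A and A₁ both have normal p-complements. If C_N(A) = C_N(A₁) = 1, then A₁ is conjugate to A by an element of N. -/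
theorem result {G : Type*} [Group G] [Finite G] {p : ℕ}
    [Fact p.Prime] (N : Subgroup G) [N.Normal] (hN : IsPGroup p N) (A A₁ : Subgroup G)
    (hA : A.IsComplement' N) (hA₁ : A₁.IsComplement' N)
    (hAp : Cfsg.HasNormalPComplement p A) (hA₁p : Cfsg.HasNormalPComplement p A₁)
    (hC : ∀ n : G, n ∈ N → (∀ a : G, a ∈ A → a * n * a⁻¹ = n) → n = 1)
    (hC₁ : ∀ n : G, n ∈ N → (∀ a : G, a ∈ A₁ → a * n * a⁻¹ = n) → n = 1) :
    ∃ n : G, n ∈ N ∧ A₁ = A.map (MulAut.conj n).toMonoidHom := by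
  classical
  have hp : p.Prime := Fact.out
  have hNn : N.Normal := inferInstance
  obtain ⟨K, Q, hKA, hQA, hQp, hKcop, hKn, hKQ, hKmem⟩ := exists_data A hAp
  obtain ⟨K₁, Q₁, hK₁A, hQ₁A, hQ₁p, hK₁cop, hK₁n, hK₁Q, hK₁mem⟩ := exists_data A₁ hA₁p
  have hAN : A ⊓ N = ⊥ := disjoint_iff.mp hA.disjoint
  have hA₁N : A₁ ⊓ N = ⊥ := disjoint_iff.mp hA₁.disjoint
  have h1 : K₁ ≤ N ⊔ K := le_sup_of_coprime N A K K₁ hA hK₁cop hKmem
  have h2 : K ≤ N ⊔ K₁ := le_sup_of_coprime N A₁ K₁ K hA₁ hKcop hK₁mem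
  have hM : N ⊔ K = N ⊔ K₁ := le_antisymm (sup_le le_sup_left h2) (sup_le le_sup_left h1)
  have hNM : N ≤ N ⊔ K := le_sup_left
  have hKM : K ≤ N ⊔ K := le_sup_right
  have hK₁M : K₁ ≤ N ⊔ K := h1
  have hMnorm : N ⊔ K ≤ Subgroup.normalizer (N : Set G) := by
    rw [Subgroup.normalizer_eq_top_iff.mpr hNn]; exact le_top
  have hNK : N ⊓ K = ⊥ := by
    rw [eq_bot_iff]; intro x ⟨hxN, hxK⟩
    have : x ∈ A ⊓ N := ⟨hKA hxK, hxN⟩
    rwa [hAN] at this
  have hNK₁ : N ⊓ K₁ = ⊥ := by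
    rw [eq_bot_iff]; intro x ⟨hxN, hxK⟩
    have : x ∈ A₁ ⊓ N := ⟨hK₁A hxK, hxN⟩
    rwa [hA₁N] at this
  have hc : (N.subgroupOf (N ⊔ K)).IsComplement' (K.subgroupOf (N ⊔ K)) :=
    Helper35.isComplement'_subgroupOf hNM hMnorm hKM hNK
      (fun l hl => Helper35.exists_mul_of_mem_sup_normal hl)
  have hc₁ : (N.subgroupOf (N ⊔ K)).IsComplement' (K₁.subgroupOf (N ⊔ K)) :=
    Helper35.isComplement'_subgroupOf hNM hMnorm hK₁M hNK₁
      (fun l hl => Helper35.exists_mul_of_mem_sup_normal (by rw [← hM]; exact hl))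
  have hnorm' : (N.subgroupOf (N ⊔ K)).Normal := inferInstance
  have hcop : (Nat.card (N.subgroupOf (N ⊔ K))).Coprime (N.subgroupOf (N ⊔ K)).index := by
    rw [hc.symm.index_eq_card, Helper35.card_subgroupOf_of_le hNM,
      Helper35.card_subgroupOf_of_le hKM]
    obtain ⟨k, hk⟩ := IsPGroup.iff_card.mp hN
    rw [hk]; exact (Nat.Coprime.pow_left k hKcop.symm)
  have hsolv : Group.IsSolvable (N.subgroupOf (N ⊔ K)) := by
    have h : IsPGroup p (N.subgroupOf (N ⊔ K)) := hN.comap_subtype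
    have := h.isNilpotent
    infer_instance
  obtain ⟨n, hn, hnK⟩ := Helper35.sz_conj (N.subgroupOf (N ⊔ K)) hcop (Or.inl hsolv) _ _ hc hc₁
  have hconj : MulAut.conj (n : G) • K = K₁ := Helper35.conj_smul_eq_of_subgroupOf hKM hK₁M n hnK
  have hnN : (n : G) ∈ N := hn
  refine ⟨n, hnN, ?_⟩
  -- the centralizer of `K₁` in `N` is trivial
  have hCtriv : ∀ m ∈ N, (∀ k ∈ K₁, m * k = k * m) → m = 1 := by
    intro m hm hmc
    by_contra hne
    let C : Subgroup G := N ⊓ Subgroup.centralizer (K₁ : Set G)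
    have hmC : m ∈ C := ⟨hm, fun k hk => (hmc k hk).symm⟩
    have hCne : C ≠ ⊥ := fun h => hne (by rw [h] at hmC; exact hmC)
    have hCp : IsPGroup p C := hN.to_le inf_le_left
    have hQnorm : ∀ q ∈ Q₁, ∀ c ∈ C, q * c * q⁻¹ ∈ C := by
      intro q hq c ⟨hcN, hcK⟩
      refine ⟨hNn.conj_mem c hcN q, ?_⟩
      show q * c * q⁻¹ ∈ Subgroup.centralizer (K₁ : Set G)
      rw [Subgroup.mem_centralizer_iff]
      intro k hk
      have hk' : q⁻¹ * k * q⁻¹⁻¹ ∈ K₁ := hK₁n q⁻¹ (A₁.inv_mem (hQ₁A hq)) k hk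
      have := hcK _ hk'
      calc k * (q * c * q⁻¹) = q * ((q⁻¹ * k * q⁻¹⁻¹) * c) * q⁻¹ := by group
        _ = q * (c * (q⁻¹ * k * q⁻¹⁻¹)) * q⁻¹ := by rw [this]
        _ = q * c * q⁻¹ * k := by group
    obtain ⟨c, hcC, hc1, hcfix⟩ := exists_fixed_ne_one Q₁ C hQ₁p hCp hCne hQnorm
    apply hc1
    apply hC₁ c hcC.1
    intro a ha
    obtain ⟨k, hk, q, hq, rfl⟩ := hK₁Q a ha
    have h1 := hcfix q hq
    have h2 : k * c = c * k := hcC.2 k hk
    calc k * q * c * (k * q)⁻¹ = k * (q * c * q⁻¹) * k⁻¹ := by group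
      _ = k * c * k⁻¹ := by rw [h1]
      _ = c := by rw [h2]; group
  have hle : A.map (MulAut.conj (n : G)).toMonoidHom ≤ A₁ := by
    rintro _ ⟨a, ha, rfl⟩
    show (n : G) * a * (n : G)⁻¹ ∈ A₁
    obtain ⟨a₁, ha₁, m, hm, hg⟩ := Helper35.exists_mul_of_isComplement' hA₁ ((n : G) * a * (n : G)⁻¹)
    have hgnorm : ∀ k ∈ K₁, (n : G) * a * (n : G)⁻¹ * k * ((n : G) * a * (n : G)⁻¹)⁻¹ ∈ K₁ := by
      intro k hk
      rw [← hconj] at hk ⊢
      rw [Helper35.mem_conj_smul] at hk ⊢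
      have := hKn a ha _ hk
      convert this using 1
      group
    have hmnorm : ∀ k ∈ K₁, m * k * m⁻¹ ∈ K₁ := by
      intro k hk
      have hm_eq : m = a₁⁻¹ * ((n : G) * a * (n : G)⁻¹) := by rw [hg]; group
      have := hK₁n a₁⁻¹ (A₁.inv_mem ha₁) _ (hgnorm k hk)
      rw [hm_eq]; convert this using 1; group
    have hmcent : ∀ k ∈ K₁, m * k = k * m := by
      intro k hk
      have h1 : m * k * m⁻¹ * k⁻¹ ∈ K₁ := K₁.mul_mem (hmnorm k hk) (K₁.inv_mem hk)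
      have h2 : m * k * m⁻¹ * k⁻¹ ∈ N := by
        have : m * (k * m⁻¹ * k⁻¹) ∈ N := N.mul_mem hm (hNn.conj_mem _ (N.inv_mem hm) k)
        convert this using 1; group
      have h3 : m * k * m⁻¹ * k⁻¹ ∈ N ⊓ K₁ := ⟨h2, h1⟩
      rw [hNK₁, Subgroup.mem_bot] at h3
      calc m * k = (m * k * m⁻¹ * k⁻¹) * (k * m) := by group
        _ = k * m := by rw [h3, one_mul]
    have hm1 : m = 1 := hCtriv m hm hmcent
    rw [hg, hm1, mul_one]
    exact ha₁
  refine (Subgroup.eq_of_le_of_card_ge hle ?_).symm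
  rw [Subgroup.card_map_of_injective (MulAut.conj (n : G)).injective]
  have e1 : N.index = Nat.card A := hA.index_eq_card
  have e2 : N.index = Nat.card A₁ := hA₁.index_eq_card
  rw [← e1, ← e2]

end Cfsg.Agent.S4043
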