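import Cfsg.Statements.S4049
import Cfsg.Agent.Helper67.TwoClosed

set_option autoImplicit false
open Cfsg

namespace Cfsg.Agent.S4049

/-- Let G be a finite group such that N_G(H)/C_G(H) has odd order for every nontrivial subgroup H of odd order. Then the Sylow 2-subgroups of G are normal. -/
theorem result {G : Type*} [Group G] [Finite G]
    (hhom : ∀ H : Subgroup G, H ≠ ⊥ → ¬ 2 ∣ Nat.card ↥H →
        ¬ 2 ∣ (Subgroup.centralizer (H : Set G)).relIndex (Subgroup.normalizer (H : Set G))) (P : Sylow 2 G) :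
    (P : Subgroup G).Normal := by
  apply Helper67.sylow_two_normal_of_noOddInv
  intro x g hodd hinv
  by_contra hx1
  set H : Subgroup G := Subgroup.zpowers x with hH
  have hHne : H ≠ ⊥ := by
    rw [hH, Ne, Subgroup.zpowers_eq_bot]; exact hx1
  have hHodd : ¬ 2 ∣ Nat.card H := by
    rw [hH, Nat.card_zpowers]
    exact fun h2 => (Nat.not_even_iff_odd.mpr hodd) (even_iff_two_dvd.mpr h2)
  have hg : g ∈ Subgroup.normalizer (H : Set G) := by
    apply Helper67.mem_normalizer_of_forall_conj_mem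
    intro u hu
    obtain ⟨i, rfl⟩ := Subgroup.mem_zpowers_iff.mp hu
    rw [← conj_zpow, hinv]
    exact Subgroup.zpow_mem _ (Subgroup.inv_mem _ (Subgroup.mem_zpowers x)) i
  apply hhom H hHne hHodd
  -- the image of g in Aut(H) has order 2
  set φ := H.normalizerMonoidHom with hφ
  have hker : φ.ker = (Subgroup.centralizer (H : Set G)).subgroupOf (Subgroup.normalizer (H : Set G)) :=
    Subgroup.normalizerMonoidHom_ker H
  have hrel : (Subgroup.centralizer (H : Set G)).relIndex (Subgroup.normalizer (H : Set G)) =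
      Nat.card φ.range := by
    rw [Subgroup.relIndex, ← hker, Subgroup.index_ker]
  rw [hrel]
  have hxinv : x ≠ x⁻¹ := by
    intro h1
    have h2 : x ^ 2 = 1 := by
      rw [pow_two]; nth_rewrite 2 [h1]; exact mul_inv_cancel x
    have h3 : orderOf x ∣ 2 := orderOf_dvd_of_pow_eq_one h2
    rcases (Nat.dvd_prime Nat.prime_two).mp h3 with h4 | h4
    · exact hx1 (orderOf_eq_one_iff.mp h4)
    · rw [h4] at hodd; exact absurd hodd (by decide)
  have hgC : g ∉ Subgroup.centralizer (H : Set G) := by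
    intro hgc
    have := Subgroup.mem_centralizer_iff.mp hgc x (Subgroup.mem_zpowers x)
    apply hxinv
    rw [← hinv, ← this, mul_inv_cancel_right]
  have hg2C : g ^ 2 ∈ Subgroup.centralizer (H : Set G) := by
    rw [Subgroup.mem_centralizer_iff]
    intro u hu
    obtain ⟨i, rfl⟩ := Subgroup.mem_zpowers_iff.mp hu
    have h1 : g ^ 2 * x * (g ^ 2)⁻¹ = x := by
      have : g ^ 2 * x * (g ^ 2)⁻¹ = g * (g * x * g⁻¹) * g⁻¹ := by rw [pow_two]; group
      rw [this, hinv, ← inv_inv (g * x⁻¹ * g⁻¹)]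
      have : (g * x⁻¹ * g⁻¹)⁻¹ = g * x * g⁻¹ := by group
      rw [this, hinv, inv_inv]
    have h2 : g ^ 2 * x ^ i * (g ^ 2)⁻¹ = x ^ i := by rw [← conj_zpow, h1]
    calc x ^ i * g ^ 2 = (g ^ 2 * x ^ i * (g ^ 2)⁻¹) * g ^ 2 := by rw [h2]
      _ = g ^ 2 * x ^ i := by group
  set gg : Subgroup.normalizer (H : Set G) := ⟨g, hg⟩ with hgg
  have h1 : φ gg ≠ 1 := by
    intro h1
    have : gg ∈ φ.ker := h1
    rw [hker, Subgroup.mem_subgroupOf] at this
    exact hgC this
  have h2 : (φ gg) ^ 2 = 1 := by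
    rw [← map_pow]
    have : gg ^ 2 ∈ φ.ker := by
      rw [hker, Subgroup.mem_subgroupOf]; exact hg2C
    exact this
  have h3 : orderOf (φ gg) = 2 := orderOf_eq_prime h2 h1
  have h4 := orderOf_dvd_natCard (⟨φ gg, gg, rfl⟩ : φ.range)
  rw [← Subgroup.orderOf_coe] at h4
  simpa [h3] using h4
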