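import Cfsg.Statements.S4050
import Cfsg.Agent.Helper67.PiSep

set_option autoImplicit false
open Cfsg

namespace Cfsg.Agent.S4050

open Helper67 in
/-- the reverse direction: a `π`-separable group satisfying the homogeneity hypothesis. -/
theorem backward {G : Type*} [Group G] [Finite G] (π : Set ℕ)
    (n : ℕ) (H : Fin (n + 1) → Subgroup G) (h0 : H 0 = ⊥) (hlast : H (Fin.last n) = ⊤)
    (hmono : Monotone H) (hnorm : ∀ i, (H i).Normal)
    (hfac : ∀ i : Fin n, (∀ q : ℕ, q.Prime → q ∣ (H i.castSucc).relIndex (H i.succ) → q ∈ π) ∨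
        (∀ q : ℕ, q.Prime → q ∣ (H i.castSucc).relIndex (H i.succ) → q ∉ π))
    (hhom : ∀ H : Subgroup G, H ≠ ⊥ → (∀ p : ℕ, p.Prime → p ∣ Nat.card ↥H → p ∉ π) →
        ∀ p : ℕ, p.Prime → p ∣ (Subgroup.centralizer (H : Set G)).relIndex (Subgroup.normalizer (H : Set G)) → p ∉ π) :
    ∃ K : Subgroup G, ∀ x : G, x ∈ K ↔ PiElt π x := by
  have key : ∀ i : ℕ, ∀ hi : i < n + 1, ∃ R : Subgroup G, ∀ x : G, x ∈ R ↔ x ∈ H ⟨i, hi⟩ ∧ PiElt π x := by
    intro i
    induction i with
    | zero =>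
      intro hi
      refine ⟨⊥, fun x => ?_⟩
      have : H ⟨0, hi⟩ = ⊥ := h0
      rw [this]
      constructor
      · intro hx
        refine ⟨hx, ?_⟩
        rw [Subgroup.mem_bot] at hx
        intro p hp hpd
        rw [hx, orderOf_one] at hpd
        exact absurd (Nat.dvd_one.mp hpd) hp.ne_one
      · exact fun h => h.1
    | succ i ih =>
      intro hi
      have hi' : i < n := by omega
      obtain ⟨Q, hQ⟩ := ih (by omega)
      have hN : (H (⟨i, hi'⟩ : Fin n).castSucc).Normal := hnorm _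
      have hle : H (⟨i, hi'⟩ : Fin n).castSucc ≤ H (⟨i, hi'⟩ : Fin n).succ :=
        hmono (Fin.castSucc_lt_succ).le
      rcases hfac ⟨i, hi'⟩ with hπ | hπ'
      · exact step_pi π hhom Q (H (⟨i, hi'⟩ : Fin n).castSucc) (H (⟨i, hi'⟩ : Fin n).succ) hQ hle hπ
      · refine ⟨Q, fun x => ?_⟩
        rw [hQ]
        constructor
        · rintro ⟨hx, hxπ⟩
          exact ⟨hle hx, hxπ⟩
        · rintro ⟨hx, hxπ⟩
          refine ⟨?_, hxπ⟩
          have h1 : x ^ (H (⟨i, hi'⟩ : Fin n).castSucc).relIndex (H (⟨i, hi'⟩ : Fin n).succ) ∈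
              H (⟨i, hi'⟩ : Fin n).castSucc := Subgroup.pow_relIndex_mem _ hx
          have h2 : (QuotientGroup.mk' (H (⟨i, hi'⟩ : Fin n).castSucc) x) = 1 := by
            apply eq_one_of_piElt_of_dvd (hxπ.map _) hπ'
            apply orderOf_dvd_of_pow_eq_one
            rw [← map_pow]
            exact (QuotientGroup.eq_one_iff _).mpr h1
          exact (QuotientGroup.eq_one_iff x).mp h2
  obtain ⟨R, hR⟩ := key n (by omega)
  refine ⟨R, fun x => ?_⟩
  rw [hR]
  have : H ⟨n, by omega⟩ = ⊤ := hlast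
  rw [this]
  simp

open Helper67 in
/-- the forward direction. -/
theorem forward {G : Type*} [Group G] [Finite G] (π : Set ℕ)
    (K : Subgroup G) (hK : ∀ x : G, x ∈ K ↔ PiElt π x) :
    ((∃ (n : ℕ) (H : Fin (n + 1) → Subgroup G), H 0 = ⊥ ∧ H (Fin.last n) = ⊤ ∧ Monotone H ∧ (∀ i, (H i).Normal) ∧
      ∀ i : Fin n, (∀ q : ℕ, q.Prime → q ∣ (H i.castSucc).relIndex (H i.succ) → q ∈ π) ∨
        (∀ q : ℕ, q.Prime → q ∣ (H i.castSucc).relIndex (H i.succ) → q ∉ π)) ∧
     (∀ H : Subgroup G, H ≠ ⊥ → (∀ p : ℕ, p.Prime → p ∣ Nat.card ↥H → p ∉ π) →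
        ∀ p : ℕ, p.Prime → p ∣ (Subgroup.centralizer (H : Set G)).relIndex (Subgroup.normalizer (H : Set G)) → p ∉ π)) := by
  have hKn : K.Normal := by
    refine ⟨fun x hx g => ?_⟩
    rw [hK] at hx ⊢
    exact hx.conj g
  have hKπ : ∀ p : ℕ, p.Prime → p ∣ Nat.card K → p ∈ π :=
    card_pi_of_forall_piElt K (fun x hx => (hK x).mp hx)
  have hKπ' : ∀ p : ℕ, p.Prime → p ∣ K.index → p ∉ π := by
    intro p hp hpd hpπ
    have : Fact p.Prime := ⟨hp⟩
    obtain P : Sylow p G := default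
    have hPK : (P : Subgroup G) ≤ K := by
      intro x hx
      rw [hK]
      obtain ⟨k, hk⟩ := P.isPGroup' ⟨x, hx⟩
      have hk' : x ^ p ^ k = 1 := by simpa using congrArg Subtype.val hk
      exact piElt_of_prime_pow hp hpπ hk'
    exact P.not_dvd_index (hpd.trans (Subgroup.index_dvd_of_le hPK))
  refine ⟨⟨2, ![⊥, K, ⊤], rfl, rfl, ?_, ?_, ?_⟩, ?_⟩
  · rw [Fin.monotone_iff_le_succ]
    intro i
    fin_cases i
    · exact bot_le
    · exact le_top
  · intro i
    fin_cases i
    · exact Subgroup.normal_bot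
    · exact hKn
    · exact Subgroup.normal_top
  · intro i
    fin_cases i
    · left
      intro q hq hqd
      have : (⊥ : Subgroup G).relIndex K = Nat.card K := Subgroup.relIndex_bot_left K
      exact hKπ q hq (by rw [← this]; exact hqd)
    · right
      intro q hq hqd
      have : K.relIndex ⊤ = K.index := Subgroup.relIndex_top_right K
      exact hKπ' q hq (by rw [← this]; exact hqd)
  · intro H hbot hH p hp hpd hpπ
    have : Fact p.Prime := ⟨hp⟩
    set C' := (Subgroup.centralizer (H : Set G)).subgroupOf (Subgroup.normalizer (H : Set G))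
      with hC'
    have hpd' : p ∣ Nat.card (Subgroup.normalizer (H : Set G) ⧸ C') := by
      rw [← Subgroup.index_eq_card]; exact hpd
    obtain ⟨y, hy⟩ := exists_prime_orderOf_dvd_card' p hpd'
    have hy1 : y ^ p ^ 1 = 1 := by rw [pow_one, ← hy, pow_orderOf_eq_one]
    obtain ⟨g, l, hgl, hgy⟩ := exists_lift_prime_pow (QuotientGroup.mk' C')
      (QuotientGroup.mk'_surjective C') hp y 1 hy1
    have hgl' : (g : G) ^ p ^ l = 1 := by simpa using congrArg Subtype.val hgl
    have hgK : (g : G) ∈ K := (hK _).mpr (piElt_of_prime_pow hp hpπ hgl')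
    have hgC : (g : G) ∈ Subgroup.centralizer (H : Set G) := by
      rw [Subgroup.mem_centralizer_iff]
      intro t ht
      have h1 : (g : G) * t * (g : G)⁻¹ * t⁻¹ ∈ K := by
        have e : (g : G) * t * (g : G)⁻¹ * t⁻¹ = (g : G) * (t * (g : G)⁻¹ * t⁻¹) := by group
        rw [e]
        exact K.mul_mem hgK (hKn.conj_mem _ (K.inv_mem hgK) t)
      have h2 : (g : G) * t * (g : G)⁻¹ * t⁻¹ ∈ H :=
        H.mul_mem ((Subgroup.mem_set_normalizer_iff.mp g.2 t).mp ht) (H.inv_mem ht)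
      have h3 : (g : G) * t * (g : G)⁻¹ * t⁻¹ = 1 := by
        apply eq_one_of_piElt_of_dvd ((hK _).mp h1) hH
        have := orderOf_dvd_natCard (⟨_, h2⟩ : H)
        rwa [Subgroup.orderOf_mk] at this
      calc t * (g : G) = ((g : G) * t * (g : G)⁻¹ * t⁻¹)⁻¹ * ((g : G) * t) := by group
        _ = (g : G) * t := by rw [h3, inv_one, one_mul]
    have hy2 : y = 1 := by
      rw [← hgy]
      exact (QuotientGroup.eq_one_iff g).mpr (Subgroup.mem_subgroupOf.mpr hgC)
    rw [hy2, orderOf_one] at hy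
    exact hp.ne_one hy.symm

/-- Let π be a set of primes and G a finite group. The π-elements of G (elements whose order is divisible only by primes of π) form a subgroup if and only if G is π-separable (it has a chain of normal subgroups from 1 to G with each successive index divisible only by primes in π or only by primes outside π) and N_G(H)/C_G(H) is a π'-group for every nontrivial π'-subgroup H of G. -/
theorem result {G : Type*} [Group G] [Finite G] (π : Set ℕ)
    (hπ : ∀ p ∈ π, p.Prime) :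
    (∃ K : Subgroup G, ∀ x : G, x ∈ K ↔ ∀ p : ℕ, p.Prime → p ∣ orderOf x → p ∈ π) ↔
    ((∃ (n : ℕ) (H : Fin (n + 1) → Subgroup G), H 0 = ⊥ ∧ H (Fin.last n) = ⊤ ∧ Monotone H ∧ (∀ i, (H i).Normal) ∧
      ∀ i : Fin n, (∀ q : ℕ, q.Prime → q ∣ (H i.castSucc).relIndex (H i.succ) → q ∈ π) ∨
        (∀ q : ℕ, q.Prime → q ∣ (H i.castSucc).relIndex (H i.succ) → q ∉ π)) ∧
     (∀ H : Subgroup G, H ≠ ⊥ → (∀ p : ℕ, p.Prime → p ∣ Nat.card ↥H → p ∉ π) →
        ∀ p : ℕ, p.Prime → p ∣ (Subgroup.centralizer (H : Set G)).relIndex (Subgroup.normalizer (H : Set G)) → p ∉ π)) := by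
  constructor
  · rintro ⟨K, hK⟩
    exact forward π K hK
  · rintro ⟨⟨n, H, h0, hlast, hmono, hnorm, hfac⟩, hhom⟩
    exact backward π n H h0 hlast hmono hnorm hfac hhom

end Cfsg.Agent.S4050
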