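import Cfsg.Statements.S4051
import Cfsg.Agent.Helper67.PiSep

set_option autoImplicit false
open Cfsg

namespace Cfsg.Agent.S4051

/-- Let π be a set of primes and G a finite group such that N_G(H)/C_G(H) is a π'-group for every nontrivial π'-subgroup H of G. If K is a normal subgroup of G such that the π-elements of K form a subgroup and the π-elements of G/K form a subgroup, then the π-elements of G form a subgroup. -/
theorem result {G : Type*} [Group G] [Finite G] (π : Set ℕ)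
    (hπ : ∀ p ∈ π, p.Prime) (hhom : (∀ H : Subgroup G, H ≠ ⊥ → (∀ p : ℕ, p.Prime → p ∣ Nat.card ↥H → p ∉ π) →
        ∀ p : ℕ, p.Prime → p ∣ (Subgroup.centralizer (H : Set G)).relIndex (Subgroup.normalizer (H : Set G)) → p ∉ π))
    (K : Subgroup G) [K.Normal]
    (hK : ∃ L : Subgroup ↥K, ∀ x : ↥K, x ∈ L ↔ ∀ p : ℕ, p.Prime → p ∣ orderOf x → p ∈ π)
    (hQ : ∃ L : Subgroup (G ⧸ K), ∀ x : G ⧸ K, x ∈ L ↔ ∀ p : ℕ, p.Prime → p ∣ orderOf x → p ∈ π) :
    (∃ K : Subgroup G, ∀ x : G, x ∈ K ↔ ∀ p : ℕ, p.Prime → p ∣ orderOf x → p ∈ π) := by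
  obtain ⟨L, hL⟩ := hK
  obtain ⟨L', hL'⟩ := hQ
  set Q : Subgroup G := L.map K.subtype with hQdef
  have hQ : ∀ x, x ∈ Q ↔ x ∈ K ∧ Helper67.PiElt π x := by
    intro x
    constructor
    · rintro ⟨y, hy, rfl⟩
      refine ⟨y.2, ?_⟩
      have := (hL y).mp hy
      intro p hp hpd
      rw [Subgroup.coe_subtype, Subgroup.orderOf_coe] at hpd
      exact this p hp hpd
    · rintro ⟨hxK, hxπ⟩
      refine ⟨⟨x, hxK⟩, (hL _).mpr ?_, rfl⟩
      intro p hp hpd
      rw [Subgroup.orderOf_mk] at hpd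
      exact hxπ p hp hpd
  set M : Subgroup G := L'.comap (QuotientGroup.mk' K) with hM
  have hKM : K ≤ M := by
    intro x hx
    rw [hM, Subgroup.mem_comap]
    have : QuotientGroup.mk' K x = 1 := (QuotientGroup.eq_one_iff x).mpr hx
    rw [this]; exact L'.one_mem
  have hrel : K.relIndex M = Nat.card L' := by
    have h1 : K = (⊥ : Subgroup (G ⧸ K)).comap (QuotientGroup.mk' K) := by
      rw [MonoidHom.comap_bot, QuotientGroup.ker_mk']
    rw [hM]; nth_rewrite 1 [h1]
    rw [Subgroup.relIndex_comap,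
      Subgroup.map_comap_eq_self_of_surjective (QuotientGroup.mk'_surjective K),
      Subgroup.relIndex_bot_left]
  have hMK : ∀ p : ℕ, p.Prime → p ∣ K.relIndex M → p ∈ π := by
    rw [hrel]
    exact Helper67.card_pi_of_forall_piElt L' (fun x hx => (hL' x).mp hx)
  obtain ⟨R, hR⟩ := Helper67.step_pi π hhom Q K M hQ hKM hMK
  refine ⟨R, fun x => ?_⟩
  rw [hR]
  constructor
  · exact fun h => h.2
  · intro h
    refine ⟨?_, h⟩
    rw [hM, Subgroup.mem_comap, hL']
    exact Helper67.PiElt.map h (QuotientGroup.mk' K)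

end Cfsg.Agent.S4051
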