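import Cfsg.Statements.S4056
import Cfsg.Agent.Helper47.Coprime

set_option autoImplicit false
open Cfsg

namespace Cfsg.Agent.S4056

open scoped commutatorElement

/-- Collection formulas in a group where `c = y⁻¹ x⁻¹ y x` is central. -/
theorem collect {P : Type*} [Group P] (x y c : P) (hc : ∀ g : P, g * c = c * g)
    (h1 : y * x = x * y * c) :
    y * x ^ 2 = x ^ 2 * y * c ^ 2 ∧ (x * y) ^ 4 = x ^ 4 * y ^ 4 * c ^ 6 := by
  have e1 : y * x ^ 2 = x ^ 2 * y * c ^ 2 := by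
    calc y * x ^ 2 = (y * x) * x := by rw [pow_two, mul_assoc]
      _ = x * y * c * x := by rw [h1]
      _ = x * (y * x) * c := by rw [mul_assoc (x * y), ← hc x]; group
      _ = x * (x * y * c) * c := by rw [h1]
      _ = x ^ 2 * y * c ^ 2 := by simp only [pow_succ, pow_zero, one_mul, mul_assoc]
  have e2 : (x * y) ^ 2 = x ^ 2 * y ^ 2 * c := by
    calc (x * y) ^ 2 = x * (y * x) * y := by rw [pow_two]; group
      _ = x * (x * y * c) * y := by rw [h1]
      _ = x * x * y * (c * y) := by group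
      _ = x * x * y * (y * c) := by rw [hc y]
      _ = x ^ 2 * y ^ 2 * c := by simp only [pow_succ, pow_zero, one_mul, mul_assoc]
  have hc2 : ∀ g : P, g * c ^ 2 = c ^ 2 * g := by
    intro g
    rw [pow_two, ← mul_assoc, hc g, mul_assoc, hc g, ← mul_assoc]
  have e3 : y ^ 2 * x ^ 2 = x ^ 2 * y ^ 2 * c ^ 4 := by
    calc y ^ 2 * x ^ 2 = y * (y * x ^ 2) := by rw [pow_two, mul_assoc]
      _ = y * (x ^ 2 * y * c ^ 2) := by rw [e1]
      _ = (y * x ^ 2) * y * c ^ 2 := by group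
      _ = x ^ 2 * y * c ^ 2 * y * c ^ 2 := by rw [e1]
      _ = x ^ 2 * y * (c ^ 2 * y) * c ^ 2 := by group
      _ = x ^ 2 * y * (y * c ^ 2) * c ^ 2 := by rw [hc2 y]
      _ = x ^ 2 * y ^ 2 * c ^ 4 := by simp only [pow_succ, pow_zero, one_mul, mul_assoc]
  refine ⟨e1, ?_⟩
  have hcc : ∀ g : P, c * g = g * c := fun g => (hc g).symm
  calc (x * y) ^ 4 = (x * y) ^ 2 * (x * y) ^ 2 := by rw [← pow_add]
    _ = x ^ 2 * y ^ 2 * c * (x ^ 2 * y ^ 2 * c) := by rw [e2]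
    _ = x ^ 2 * y ^ 2 * (c * x ^ 2) * y ^ 2 * c := by group
    _ = x ^ 2 * y ^ 2 * (x ^ 2 * c) * y ^ 2 * c := by rw [hcc (x ^ 2)]
    _ = x ^ 2 * (y ^ 2 * x ^ 2) * (c * y ^ 2) * c := by group
    _ = x ^ 2 * (x ^ 2 * y ^ 2 * c ^ 4) * (y ^ 2 * c) * c := by rw [e3, hcc (y ^ 2)]
    _ = x ^ 4 * y ^ 2 * (c ^ 4 * y ^ 2) * c ^ 2 := by simp only [pow_succ, pow_zero, one_mul, mul_assoc]
    _ = x ^ 4 * y ^ 2 * (y ^ 2 * c ^ 4) * c ^ 2 := by
      have : c ^ 4 * y ^ 2 = y ^ 2 * c ^ 4 := by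
        have h4 : ∀ g : P, g * c ^ 4 = c ^ 4 * g := by
          intro g
          have e : c ^ 4 = c ^ 2 * c ^ 2 := by rw [← pow_add]
          rw [e, ← mul_assoc, hc2 g, mul_assoc, hc2 g, ← mul_assoc]
        exact (h4 (y ^ 2)).symm
      rw [this]
    _ = x ^ 4 * y ^ 4 * c ^ 6 := by simp only [pow_succ, pow_zero, one_mul, mul_assoc]

/-- In a finite 2-group of nilpotency class at most 2 and exponent dividing 4, the Frattini subgroup lies in the centre and is elementary abelian. -/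
theorem result {P : Type*} [Group P] [Finite P] (hP : IsPGroup 2 P)
    (hcl : Group.nilpotencyClass P ≤ 2) (hexp : Monoid.exponent P ∣ 4) :
    frattini P ≤ Subgroup.center P ∧ Cfsg.IsElementaryAbelian 2 (frattini P) := by
  classical
  have hnil : Group.IsNilpotent P := hP.isNilpotent
  have hcc : ∀ x y z : P, z * ⁅x, y⁆ = ⁅x, y⁆ * z := by
    intro x y z
    have h1 : (⊤ : Subgroup P).lowerCentralSeries 2 = ⊥ :=
      Subgroup.lowerCentralSeries_eq_bot_iff_nilpotencyClass_le.mpr hcl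
    have h2 : ⁅⁅x, y⁆, z⁆ ∈ (⊤ : Subgroup P).lowerCentralSeries 2 := by
      rw [Subgroup.lowerCentralSeries_succ, Subgroup.lowerCentralSeries_succ,
        Subgroup.lowerCentralSeries_zero]
      exact Subgroup.commutator_mem_commutator
        (Subgroup.commutator_mem_commutator (Subgroup.mem_top x) (Subgroup.mem_top y))
        (Subgroup.mem_top z)
    rw [h1, Subgroup.mem_bot] at h2
    exact (commutatorElement_eq_one_iff_mul_comm.mp h2).symm
  have hx4 : ∀ x : P, x ^ 4 = 1 := by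
    intro x
    obtain ⟨k, hk⟩ := hexp
    rw [hk, pow_mul, Monoid.pow_exponent_eq_one, one_pow]
  have hkey : ∀ x y : P, ⁅y⁻¹, x⁻¹⁆ ^ 2 = 1 ∧ y * x ^ 2 = x ^ 2 * y := by
    intro x y
    have h1 : y * x = x * y * ⁅y⁻¹, x⁻¹⁆ := by rw [commutatorElement_def]; group
    obtain ⟨e1, e2⟩ := collect x y ⁅y⁻¹, x⁻¹⁆ (hcc y⁻¹ x⁻¹) h1
    rw [hx4, hx4, hx4, one_mul, one_mul] at e2
    have h2 : ⁅y⁻¹, x⁻¹⁆ ^ 2 = 1 := by
      have h3 : ⁅y⁻¹, x⁻¹⁆ ^ 6 = ⁅y⁻¹, x⁻¹⁆ ^ 4 * ⁅y⁻¹, x⁻¹⁆ ^ 2 := by rw [← pow_add]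
      rw [h3, hx4, one_mul] at e2
      exact e2.symm
    refine ⟨h2, ?_⟩
    rw [e1, h2, mul_one]
  have hcomm2 : ∀ a b : P, ⁅a, b⁆ ^ 2 = 1 := by
    intro a b
    have := (hkey b⁻¹ a⁻¹).1
    rwa [inv_inv, inv_inv] at this
  let N : Subgroup P :=
    { carrier := {z | z ∈ Subgroup.center P ∧ z ^ 2 = 1}
      one_mem' := ⟨Subgroup.one_mem _, one_pow 2⟩
      mul_mem' := by
        rintro a b ⟨ha1, ha2⟩ ⟨hb1, hb2⟩
        refine ⟨Subgroup.mul_mem _ ha1 hb1, ?_⟩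
        have hab : Commute a b := (Subgroup.mem_center_iff.mp hb1 a)
        rw [hab.mul_pow, ha2, hb2, one_mul]
      inv_mem' := by
        rintro a ⟨ha1, ha2⟩
        exact ⟨Subgroup.inv_mem _ ha1, by rw [inv_pow, ha2, inv_one]⟩ }
  have hNn : N.Normal := by
    constructor
    rintro z ⟨hz1, hz2⟩ g
    have h1 : g * z * g⁻¹ = z := by
      rw [Subgroup.mem_center_iff.mp hz1 g]; group
    rw [h1]; exact ⟨hz1, hz2⟩
  have hsqN : ∀ x : P, x ^ 2 ∈ N := by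
    intro x
    refine ⟨?_, by rw [← pow_mul]; exact hx4 x⟩
    rw [Subgroup.mem_center_iff]
    intro y
    exact (hkey x y).2
  have hcN : ∀ x y : P, ⁅x, y⁆ ∈ N := by
    intro x y
    exact ⟨Subgroup.mem_center_iff.mpr (fun z => hcc x y z), hcomm2 x y⟩
  let instC : CommGroup (P ⧸ N) :=
    { (inferInstance : Group (P ⧸ N)) with
      mul_comm := by
        intro a b
        obtain ⟨x, rfl⟩ := QuotientGroup.mk_surjective a
        obtain ⟨y, rfl⟩ := QuotientGroup.mk_surjective b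
        rw [← QuotientGroup.mk_mul, ← QuotientGroup.mk_mul, QuotientGroup.eq]
        have h1 : (x * y)⁻¹ * (y * x) = ⁅y⁻¹, x⁻¹⁆ := by rw [commutatorElement_def]; group
        rw [h1]; exact hcN _ _ }
  have hle : frattini P ≤ N := by
    have h1 := Cfsg.Agent.Helper47.frattini_le_ker (A := P ⧸ N) 2 (QuotientGroup.mk' N) (by
      intro x
      show (QuotientGroup.mk x : P ⧸ N) ^ 2 = 1
      rw [← QuotientGroup.mk_pow, QuotientGroup.eq_one_iff]
      exact hsqN x)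
    rwa [QuotientGroup.ker_mk'] at h1
  refine ⟨fun z hz => (hle hz).1, ⟨⟨fun a b => ?_⟩⟩, fun a ha => (hle ha).2⟩
  apply Subtype.ext
  exact (Subgroup.mem_center_iff.mp (hle b.2).1 a)

end Cfsg.Agent.S4056
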