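import Cfsg.Statements.S4058
import Cfsg.Agent.Helper29.InvolutionCount

set_option autoImplicit false
open Cfsg

namespace Cfsg.Agent.S4058

/-- Let G be a finite 2-group with #(G/Φ(G)) ≥ 2^(2k+1). Then the number of elements x of G with x² = 1 is divisible by 2^(k+1). -/
theorem result {G : Type*} [Group G] [Finite G] (hG : IsPGroup 2 G) (k : ℕ)
    (hgen : 2 ^ (2 * k + 1) ≤ Nat.card (G ⧸ frattini G)) :
    2 ^ (k + 1) ∣ Nat.card {x : G // x ^ 2 = 1} := by
  exact Cfsg.Agent.Helper29.two_pow_dvd_card_sq_eq_one hG k hgen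

end Cfsg.Agent.S4058
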