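import Cfsg.Statements.S4065

set_option autoImplicit false
open Cfsg

namespace Cfsg.Agent.S4065

/-- commuting with a non-scalar `2 × 2` matrix over a field is a transitive relation. -/
theorem mat_comm_trans {F : Type*} [Field F] (A B C : Matrix (Fin 2) (Fin 2) F)
    (hB : ¬ (B 0 1 = 0 ∧ B 1 0 = 0 ∧ B 0 0 = B 1 1)) (hAB : A * B = B * A) (hBC : B * C = C * B) :
    A * C = C * A := by
  have h00 := congrFun (congrFun hAB 0) 0
  have h01 := congrFun (congrFun hAB 0) 1
  have h10 := congrFun (congrFun hAB 1) 0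
  have h11 := congrFun (congrFun hAB 1) 1
  have k00 := congrFun (congrFun hBC 0) 0
  have k01 := congrFun (congrFun hBC 0) 1
  have k10 := congrFun (congrFun hBC 1) 0
  have k11 := congrFun (congrFun hBC 1) 1
  simp only [Matrix.mul_apply, Fin.sum_univ_two] at h00 h01 h10 h11 k00 k01 k10 k11
  ext i j
  fin_cases i <;> fin_cases j <;>
    simp only [Matrix.mul_apply, Fin.sum_univ_two, Fin.zero_eta, Fin.mk_one] <;> grind

/-- in characteristic two the centre of `SL₂` is trivial. -/
theorem center_eq_bot {F : Type*} [Field F] [CharP F 2] :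
    Subgroup.center (Matrix.SpecialLinearGroup (Fin 2) F) = ⊥ := by
  rw [Subgroup.eq_bot_iff_forall]
  intro A hA
  obtain ⟨r, hr, hrA⟩ := Matrix.SpecialLinearGroup.mem_center_iff.mp hA
  have hr2 : r ^ 2 = 1 := by simpa using hr
  have h2 : (2 : F) = 0 := CharP.cast_eq_zero F 2
  have hr1 : r = 1 := by
    have : (r - 1) ^ 2 = 0 := by
      linear_combination hr2 + (1 - r) * h2
    have := pow_eq_zero_iff (n := 2) (by norm_num) |>.mp this
    exact sub_eq_zero.mp this
  apply Subtype.ext
  rw [← hrA, hr1]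
  simp

/-- in characteristic two, commuting with a nontrivial element of `PSL₂` is transitive. -/
theorem psl_comm_trans {F : Type*} [Field F] [CharP F 2]
    (a b c : Matrix.ProjectiveSpecialLinearGroup (Fin 2) F) (hb : b ≠ 1)
    (hab : a * b = b * a) (hbc : b * c = c * b) : a * c = c * a := by
  obtain ⟨A, rfl⟩ := QuotientGroup.mk_surjective a
  obtain ⟨B, rfl⟩ := QuotientGroup.mk_surjective b
  obtain ⟨C, rfl⟩ := QuotientGroup.mk_surjective c
  have hinj : ∀ X Y : Matrix.SpecialLinearGroup (Fin 2) F,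
      (X : Matrix.ProjectiveSpecialLinearGroup (Fin 2) F) = Y → X = Y := by
    intro X Y h
    have := QuotientGroup.eq.mp h
    rw [center_eq_bot, Subgroup.mem_bot] at this
    exact inv_mul_eq_one.mp this
  have hAB : A * B = B * A := hinj _ _ (by rw [QuotientGroup.mk_mul, QuotientGroup.mk_mul, hab])
  have hBC : B * C = C * B := hinj _ _ (by rw [QuotientGroup.mk_mul, QuotientGroup.mk_mul, hbc])
  have hB : ¬ ((B : Matrix (Fin 2) (Fin 2) F) 0 1 = 0 ∧ (B : Matrix (Fin 2) (Fin 2) F) 1 0 = 0 ∧
      (B : Matrix (Fin 2) (Fin 2) F) 0 0 = (B : Matrix (Fin 2) (Fin 2) F) 1 1) := by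
    rintro ⟨h1, h2, h3⟩
    apply hb
    have hcen : B ∈ Subgroup.center (Matrix.SpecialLinearGroup (Fin 2) F) := by
      rw [Matrix.SpecialLinearGroup.mem_center_iff]
      have hdet := B.2
      rw [Matrix.det_fin_two, h1, h2, ← h3] at hdet
      refine ⟨(B : Matrix (Fin 2) (Fin 2) F) 0 0, ?_, ?_⟩
      · simp only [Fintype.card_fin]
        rw [pow_two]; simpa using hdet
      · ext i j
        fin_cases i <;> fin_cases j <;> simp [h1, h2, h3]
    exact (QuotientGroup.eq_one_iff B).mpr hcen
  have hAC : A * C = C * A := by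
    apply Subtype.ext
    have e1 := congrArg Subtype.val hAB
    have e2 := congrArg Subtype.val hBC
    simp only [Matrix.SpecialLinearGroup.coe_mul] at e1 e2 ⊢
    exact mat_comm_trans _ _ _ hB e1 e2
  rw [← QuotientGroup.mk_mul, ← QuotientGroup.mk_mul, hAC]

/-- Let F be a finite field with 2ⁿ elements, n ≥ 2. In PSL₂(F) the centralizer of every element meets each of its conjugates by elements outside its normalizer trivially. -/
theorem result (n : ℕ) (hn : 2 ≤ n)
    (x : Matrix.ProjectiveSpecialLinearGroup (Fin 2) (GaloisField 2 n)) :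
    Cfsg.IsTISubset (Subgroup.centralizer ({x} : Set (Matrix.ProjectiveSpecialLinearGroup (Fin 2) (GaloisField 2 n))) :
      Set (Matrix.ProjectiveSpecialLinearGroup (Fin 2) (GaloisField 2 n))) := by
  have : Fact (Nat.Prime 2) := ⟨Nat.prime_two⟩
  intro g hg y hy hgy
  by_contra hy1
  apply hg
  have hyx : y * x = x * y := Subgroup.mem_centralizer_singleton_iff.mp hy
  have hgyx : g * y * g⁻¹ * x = x * (g * y * g⁻¹) := Subgroup.mem_centralizer_singleton_iff.mp hgy
  have hgy1 : g * y * g⁻¹ ≠ 1 := by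
    intro h
    apply hy1
    have : y = g⁻¹ * (g * y * g⁻¹) * g := by group
    rw [this, h]; group
  rw [Subgroup.mem_set_normalizer_iff]
  intro h
  by_cases hx1 : x = 1
  · subst hx1
    simp [Subgroup.mem_centralizer_singleton_iff]
  simp only [SetLike.mem_coe, Subgroup.mem_centralizer_singleton_iff]
  constructor
  · intro hh
    have h1 : h * y = y * h := psl_comm_trans h x y hx1 hh hyx.symm
    have h2 : g * h * g⁻¹ * (g * y * g⁻¹) = g * y * g⁻¹ * (g * h * g⁻¹) := by
      have e1 : g * h * g⁻¹ * (g * y * g⁻¹) = g * (h * y) * g⁻¹ := by group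
      have e2 : g * y * g⁻¹ * (g * h * g⁻¹) = g * (y * h) * g⁻¹ := by group
      rw [e1, e2, h1]
    exact psl_comm_trans _ _ _ hgy1 h2 hgyx
  · intro hh
    have h2 : g * h * g⁻¹ * (g * y * g⁻¹) = g * y * g⁻¹ * (g * h * g⁻¹) :=
      psl_comm_trans _ _ _ hx1 hh hgyx.symm
    have h1 : h * y = y * h := by
      have e1 : h * y = g⁻¹ * (g * h * g⁻¹ * (g * y * g⁻¹)) * g := by group
      have e2 : y * h = g⁻¹ * (g * y * g⁻¹ * (g * h * g⁻¹)) * g := by group
      rw [e1, e2, h2]
    exact psl_comm_trans _ _ _ hy1 h1 hyx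

end Cfsg.Agent.S4065
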