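import Cfsg.Statements.S4066
import Cfsg.Agent.Helper67.PElt

set_option autoImplicit false
open Cfsg

namespace Cfsg.Agent.S4066

/-- the closure of a set of pairwise commuting elements is commutative. -/
theorem closure_comm {G : Type*} [Group G] (S : Set G)
    (hcomm : ∀ u ∈ S, ∀ v ∈ S, u * v = v * u) :
    ∀ a ∈ Subgroup.closure S, ∀ b ∈ Subgroup.closure S, a * b = b * a := by
  have h1 : Subgroup.closure S ≤ Subgroup.centralizer S := by
    rw [Subgroup.closure_le]
    intro u hu
    exact Subgroup.mem_centralizer_iff.mpr (fun v hv => hcomm v hv u hu)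
  have h2 : Subgroup.closure S ≤ Subgroup.centralizer (Subgroup.closure S : Set G) := by
    rw [Subgroup.closure_le]
    intro u hu
    refine Subgroup.mem_centralizer_iff.mpr (fun v hv => ?_)
    exact (Subgroup.mem_centralizer_iff.mp (h1 hv) u hu).symm
  intro a ha b hb
  exact (Subgroup.mem_centralizer_iff.mp (h2 hb) a ha)

/-- the closure of a set of pairwise commuting `p`-elements is a `p`-group. -/
theorem isPGroup_closure {G : Type*} [Group G] {p : ℕ} (S : Set G)
    (hcomm : ∀ u ∈ S, ∀ v ∈ S, u * v = v * u) (hp : ∀ u ∈ S, ∃ k : ℕ, u ^ p ^ k = 1) :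
    IsPGroup p (Subgroup.closure S) := by
  have hc := closure_comm S hcomm
  have key : ∀ g ∈ Subgroup.closure S, ∃ k : ℕ, g ^ p ^ k = 1 := by
    intro g hg
    induction hg using Subgroup.closure_induction with
    | mem x hx => exact hp x hx
    | one => exact ⟨0, one_pow _⟩
    | mul x y hx hy ihx ihy =>
      obtain ⟨k, hk⟩ := ihx
      obtain ⟨l, hl⟩ := ihy
      refine ⟨k + l, ?_⟩
      have hxy : Commute x y := hc x hx y hy
      rw [hxy.mul_pow, pow_add, pow_mul, hk, one_pow, one_mul, mul_comm, pow_mul, hl, one_pow]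
    | inv x hx ih =>
      obtain ⟨k, hk⟩ := ih
      exact ⟨k, by rw [inv_pow, hk, inv_one]⟩
  intro g
  obtain ⟨k, hk⟩ := key g.1 g.2
  exact ⟨k, Subtype.ext (by simpa using hk)⟩

/-- if conjugation by `g` maps `S` into `S`, it maps the closure into the closure. -/
theorem closure_conj_mem {G : Type*} [Group G] (S : Set G) (g : G)
    (h : ∀ u ∈ S, g * u * g⁻¹ ∈ S) :
    ∀ u ∈ Subgroup.closure S, g * u * g⁻¹ ∈ Subgroup.closure S := by
  intro u hu
  induction hu using Subgroup.closure_induction with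
  | mem x hx => exact Subgroup.subset_closure (h x hx)
  | one => simp
  | mul x y hx hy ihx ihy =>
    have : g * (x * y) * g⁻¹ = (g * x * g⁻¹) * (g * y * g⁻¹) := by group
    rw [this]; exact Subgroup.mul_mem _ ihx ihy
  | inv x hx ih =>
    have : g * x⁻¹ * g⁻¹ = (g * x * g⁻¹)⁻¹ := by group
    rw [this]; exact Subgroup.inv_mem _ ih

/-- a nontrivial Sylow subgroup has a nontrivial central element. -/
theorem exists_central {G : Type*} [Group G] [Finite G] {p : ℕ} [Fact p.Prime] (P : Sylow p G)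
    (y : G) (hy : y ∈ (P : Subgroup G)) (hy1 : y ≠ 1) :
    ∃ z ∈ (P : Subgroup G), z ≠ 1 ∧ ∀ g ∈ (P : Subgroup G), g * z = z * g := by
  have hnt : Nontrivial (P : Subgroup G) :=
    ⟨⟨⟨y, hy⟩, 1, fun h => hy1 (by simpa using congrArg Subtype.val h)⟩⟩
  have hc := P.isPGroup'.center_nontrivial
  obtain ⟨z, hz⟩ := exists_ne (1 : Subgroup.center (P : Subgroup G))
  refine ⟨(z : (P : Subgroup G)), (z : (P : Subgroup G)).2, ?_, ?_⟩
  · intro h
    apply hz
    apply Subtype.ext
    apply Subtype.ext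
    simpa using h
  · intro g hg
    have := Subgroup.mem_center_iff.mp z.2 ⟨g, hg⟩
    simpa using congrArg Subtype.val this

/-- Let G be a finite group in which the centralizer of every element meets each of its conjugates by elements outside its normalizer trivially. Then any two distinct Sylow p-subgroups of G, for any prime p, intersect trivially. -/
theorem result {G : Type*} [Group G] [Finite G] (hTI : ∀ x : G, Cfsg.IsTISubset (Subgroup.centralizer ({x} : Set G) : Set G))
    {p : ℕ} [Fact p.Prime] (P Q : Sylow p G) (hPQ : P ≠ Q) : (P : Subgroup G) ⊓ (Q : Subgroup G) = ⊥ := by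
  -- key fact
  have K : ∀ a b g : G, b ≠ 1 → b * a = a * b → g * b = b * g →
      g ∈ Subgroup.normalizer (Subgroup.centralizer ({a} : Set G) : Set G) := by
    intro a b g hb hba hgb
    by_contra hg
    apply hb
    apply hTI a g hg b
    · exact Subgroup.mem_centralizer_singleton_iff.mpr hba
    · have : g * b * g⁻¹ = b := by rw [hgb, mul_inv_cancel_right]
      rw [this]; exact Subgroup.mem_centralizer_singleton_iff.mpr hba
  by_contra hne
  obtain ⟨⟨y, hy⟩, hy1'⟩ := (Subgroup.ne_bot_iff_exists_ne_one.mp hne)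
  have hy1 : y ≠ 1 := fun h => hy1' (Subtype.ext h)
  have hyP : y ∈ (P : Subgroup G) := (Subgroup.mem_inf.mp hy).1
  have hyQ : y ∈ (Q : Subgroup G) := (Subgroup.mem_inf.mp hy).2
  obtain ⟨z, hzP, hz1, hzc⟩ := exists_central P y hyP hy1
  obtain ⟨z', hzQ, hz1', hzc'⟩ := exists_central Q y hyQ hy1
  have hpel : ∀ (R : Sylow p G), ∀ t ∈ (R : Subgroup G), ∃ k : ℕ, t ^ p ^ k = 1 := by
    intro R t ht
    obtain ⟨k, hk⟩ := R.isPGroup' ⟨t, ht⟩
    exact ⟨k, by simpa using congrArg Subtype.val hk⟩
  set H : Subgroup G := Subgroup.centralizer ({z} : Set G) with hH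
  have hPH : (P : Subgroup G) ≤ H := by
    intro g hg
    exact Subgroup.mem_centralizer_singleton_iff.mpr (hzc g hg)
  -- `p`-elements of the normalizer of `H` lie in `H`
  have L : ∀ t ∈ Subgroup.normalizer (H : Set G), (∃ k : ℕ, t ^ p ^ k = 1) → t ∈ H := by
    intro t ht ⟨k, hk⟩
    refine Helper67.mem_of_sylow_le_of_normalized P H (Subgroup.normalizer (H : Set G)) hPH
      Subgroup.le_normalizer ?_ t ht k hk
    intro m hm c hc
    exact (Subgroup.mem_set_normalizer_iff.mp hm c).mp hc
  have hz'H : z' ∈ H := by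
    apply L z' _ (hpel Q z' hzQ)
    exact K z y z' hy1 (hzc y hyP) (hzc' y hyQ).symm
  have hz'z : z' * z = z * z' := Subgroup.mem_centralizer_singleton_iff.mp hz'H
  have hQH : (Q : Subgroup G) ≤ H := by
    intro q hq
    apply L q _ (hpel Q q hq)
    exact K z z' q hz1' hz'z (hzc' q hq)
  -- every element of `Q` lies in `P`
  have hQP : (Q : Subgroup G) ≤ (P : Subgroup G) := by
    intro x hxQ
    by_cases hx1 : x = 1
    · rw [hx1]; exact Subgroup.one_mem _
    have hxz : x * z = z * x := Subgroup.mem_centralizer_singleton_iff.mp (hQH hxQ)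
    have hHN : ∀ h ∈ H, (h * x * h⁻¹) * x = x * (h * x * h⁻¹) := by
      intro h hh
      have h1 : h ∈ Subgroup.normalizer (Subgroup.centralizer ({x} : Set G) : Set G) :=
        K x z h hz1 hxz.symm (Subgroup.mem_centralizer_singleton_iff.mp hh)
      have h2 : x ∈ Subgroup.centralizer ({x} : Set G) :=
        Subgroup.mem_centralizer_singleton_iff.mpr rfl
      exact Subgroup.mem_centralizer_singleton_iff.mp
        ((Subgroup.mem_set_normalizer_iff.mp h1 x).mp h2)
    set S : Set G := {u | ∃ h ∈ (P : Subgroup G), u = h * x * h⁻¹} with hS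
    have hcomm : ∀ u ∈ S, ∀ v ∈ S, u * v = v * u := by
      rintro u ⟨h, hh, rfl⟩ v ⟨h', hh', rfl⟩
      have h3 := hHN (h'⁻¹ * h) (Subgroup.mul_mem _ (Subgroup.inv_mem _ (hPH hh')) (hPH hh))
      have e1 : h * x * h⁻¹ * (h' * x * h'⁻¹) = h' * ((h'⁻¹ * h) * x * (h'⁻¹ * h)⁻¹ * x) * h'⁻¹ := by
        group
      have e2 : h' * x * h'⁻¹ * (h * x * h⁻¹) = h' * (x * ((h'⁻¹ * h) * x * (h'⁻¹ * h)⁻¹)) * h'⁻¹ := by
        group
      rw [e1, e2, h3]
    have hpS : ∀ u ∈ S, ∃ k : ℕ, u ^ p ^ k = 1 := by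
      rintro u ⟨h, hh, rfl⟩
      obtain ⟨k, hk⟩ := hpel Q x hxQ
      exact ⟨k, by rw [conj_pow, hk, mul_one, mul_inv_cancel]⟩
    have hA : IsPGroup p (Subgroup.closure S) := isPGroup_closure S hcomm hpS
    have hnorm : (P : Subgroup G) ≤ Subgroup.normalizer ((Subgroup.closure S : Subgroup G) : Set G) := by
      intro g hg
      apply Helper67.mem_normalizer_of_forall_conj_mem
      apply closure_conj_mem
      rintro u ⟨h, hh, rfl⟩
      exact ⟨g * h, Subgroup.mul_mem _ hg hh, by group⟩
    have hsup : IsPGroup p ((P : Subgroup G) ⊔ Subgroup.closure S : Subgroup G) :=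
      IsPGroup.to_sup_of_normal_right' P.isPGroup' hA hnorm
    have heq := P.is_maximal' hsup le_sup_left
    have hxS : x ∈ S := ⟨1, Subgroup.one_mem _, by simp⟩
    have : x ∈ (P : Subgroup G) ⊔ Subgroup.closure S :=
      (le_sup_right : Subgroup.closure S ≤ _) (Subgroup.subset_closure hxS)
    rwa [heq] at this
  apply hPQ
  have := Q.is_maximal' P.isPGroup' hQP
  exact Sylow.ext this

end Cfsg.Agent.S4066
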