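import Cfsg.Statements.S4067
import Cfsg.Agent.Helper21.LMORB
import Cfsg.Agent.Helper67.LMCHAR
import Cfsg.Agent.Helper88.LMCENT
import Cfsg.Agent.Helper22.LMCOUNT
import Cfsg.Agent.Helper74.LMEA
import Cfsg.Agent.Helper11.LMETO
import Cfsg.Agent.Helper41.LMET2
import Cfsg.Agent.Helper1.LMXO
import Cfsg.Agent.Helper83.LMX2

set_option autoImplicit false
open Cfsg

namespace Cfsg.Agent.S4067

/-- Let G be a finite non-abelian group and p the least prime dividing its order. Then the automorphism group of G has at most #G/p orbits on G. -/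
theorem result {G : Type*} [Group G] [Finite G] (hna : ¬ IsMulCommutative G) :
    Nat.card (MulAction.orbitRel.Quotient (MulAut G) G) ≤ Nat.card G / (Nat.card G).minFac := by
  by_cases hk : Nat.card (ConjClasses G) ≤ Nat.card G / (Nat.card G).minFac
  · exact (Cfsg.Agent.Helper21.LM.lm_orb).trans hk
  · have hk' : Nat.card G / (Nat.card G).minFac < Nat.card (ConjClasses G) := not_le.mp hk
    have hc := Cfsg.Agent.Helper67.LM.lm_char hna hk'
    have hZ := Cfsg.Agent.Helper88.LM.lm_cent hc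
    have key : ∃ σ : MulAut G, ∃ M : Subgroup G, M.index = (Nat.card G).minFac ∧
        Subgroup.center G ≤ M ∧ ∀ g : G, g ∉ M → ¬ IsConj g (σ g) := by
      by_cases h2 : (Nat.card G).minFac = 2
      · have hc2 : Nat.card (commutator G) = 2 := hc.trans h2
        rcases Cfsg.Agent.Helper83.LM.lm_x2 hZ hc2 with ⟨c, hcZ, hco, hcG⟩ | ⟨x, hxZ, hx2, hx21⟩
        · exact Cfsg.Agent.Helper74.LM.lm_ea hZ hc hna c hcZ (hco.trans h2.symm) hcG
        · obtain ⟨σ, M, hM, hZM, hσ⟩ := Cfsg.Agent.Helper41.LM.lm_et2 hZ hc2 x hxZ hx2 hx21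
          exact ⟨σ, M, hM.trans h2.symm, hZM, hσ⟩
      · rcases Cfsg.Agent.Helper1.LM.lm_xo hZ hc hna h2 with ⟨c, hcZ, hco, hcG⟩ | ⟨x, hxZ, hxp⟩
        · exact Cfsg.Agent.Helper74.LM.lm_ea hZ hc hna c hcZ hco hcG
        · exact Cfsg.Agent.Helper11.LM.lm_eto hZ hc h2 x hxZ hxp
    obtain ⟨σ, M, hM, hZM, hσ⟩ := key
    exact Cfsg.Agent.Helper22.LM.lm_count hna σ M hM hZM hσ

end Cfsg.Agent.S4067
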