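-- Statement S4071: solvable non-nilpotent groups in which every nonabelian subgroup is
-- self-normalizing.
import Cfsg.Statements.S4071
import Cfsg.Agent.Helper67.TwoClosed

set_option autoImplicit false
open Cfsg

namespace Cfsg.Agent.S4071

open scoped commutatorElement

/-- If `k` centralizes no nonidentity element of `A` and `B ≤ A` is stable under
`d ↦ d (k d⁻¹ k⁻¹)`, then `b ∈ A` with `b (k b⁻¹ k⁻¹) ∈ B` lies in `B`. -/
theorem mem_of_delta_mem {G : Type*} [Group G] [Finite G] (A B : Subgroup G) (hBA : B ≤ A)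
    (k : G) (hfix : ∀ a ∈ A, k * a * k⁻¹ = a → a = 1)
    (hB : ∀ d ∈ B, d * (k * d⁻¹ * k⁻¹) ∈ B) (b : G) (hb : b ∈ A)
    (hbB : b * (k * b⁻¹ * k⁻¹) ∈ B) : b ∈ B := by
  have key : ∀ a c : G, a ∈ A → c ∈ A → a * (k * a⁻¹ * k⁻¹) = c * (k * c⁻¹ * k⁻¹) → a = c := by
    intro a c ha hc h1
    have h2 : k * (c⁻¹ * a) * k⁻¹ = c⁻¹ * a := by
      calc k * (c⁻¹ * a) * k⁻¹
          = c⁻¹ * (c * (k * c⁻¹ * k⁻¹)) * (k * a⁻¹ * k⁻¹)⁻¹ := by group
        _ = c⁻¹ * (a * (k * a⁻¹ * k⁻¹)) * (k * a⁻¹ * k⁻¹)⁻¹ := by rw [h1]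
        _ = c⁻¹ * a := by group
    have h3 := hfix _ (A.mul_mem (A.inv_mem hc) ha) h2
    calc a = c * (c⁻¹ * a) := by group
      _ = c := by rw [h3, mul_one]
  let f : B → B := fun d => ⟨d * (k * (d : G)⁻¹ * k⁻¹), hB d d.2⟩
  have hinj : Function.Injective f := by
    intro a c hac
    have h1 : (a : G) * (k * (a : G)⁻¹ * k⁻¹) = c * (k * (c : G)⁻¹ * k⁻¹) :=
      congrArg Subtype.val hac
    exact Subtype.ext (key a c (hBA a.2) (hBA c.2) h1)
  have hsurj : Function.Surjective f := Finite.injective_iff_surjective.mp hinj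
  obtain ⟨d, hd⟩ := hsurj ⟨_, hbB⟩
  have h1 : (d : G) * (k * (d : G)⁻¹ * k⁻¹) = b * (k * b⁻¹ * k⁻¹) := congrArg Subtype.val hd
  have := key d b (hBA d.2) hb h1
  rw [← this]; exact d.2

/-- The structure implies that every nonabelian subgroup is self-normalizing. -/
theorem backward {G : Type*} [Group G] [Finite G] (x : G) (A : Subgroup G) (p : ℕ) (hp : p.Prime)
    (hAn : A.Normal) (hAc : ∀ a ∈ A, ∀ b ∈ A, a * b = b * a) (k : ℕ) (hxo : orderOf x = p ^ k)
    (hc : (Subgroup.zpowers x).IsComplement' A) (hxp : x ^ p ∈ Subgroup.center G)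
    (hfpf : ∀ a : G, a ∈ A → a ≠ 1 → x * a * x⁻¹ ≠ a)
    (H : Subgroup G) (hH : ∃ u ∈ H, ∃ v ∈ H, u * v ≠ v * u) :
    Subgroup.normalizer (H : Set G) = H := by
  apply le_antisymm _ Subgroup.le_normalizer
  have hdec : ∀ g : G, ∃ i : ℕ, ∃ a ∈ A, g = x ^ i * a := by
    intro g
    obtain ⟨⟨⟨k', hk'⟩, ⟨a, ha⟩⟩, rfl⟩ := hc.2 g
    obtain ⟨i, rfl⟩ := (Submonoid.mem_powers_iff _ _).mp
      ((mem_powers_iff_mem_zpowers (x := x)).mpr hk')
    exact ⟨i, a, ha, rfl⟩
  have hex : ∃ i : ℕ, ∃ a ∈ A, ¬ p ∣ i ∧ x ^ i * a ∈ H := by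
    by_contra hcon
    push Not at hcon
    obtain ⟨u, hu, v, hv, huv⟩ := hH
    obtain ⟨i, a, ha, rfl⟩ := hdec u
    obtain ⟨j, b, hb, rfl⟩ := hdec v
    have hi : p ∣ i := by by_contra h; exact hcon i a ha h hu
    have hj : p ∣ j := by by_contra h; exact hcon j b hb h hv
    obtain ⟨i', rfl⟩ := hi
    obtain ⟨j', rfl⟩ := hj
    apply huv
    have hz1 : ∀ g : G, g * x ^ (p * i') = x ^ (p * i') * g := by
      have : x ^ (p * i') ∈ Subgroup.center G := by
        rw [pow_mul]; exact Subgroup.pow_mem _ hxp i'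
      exact Subgroup.mem_center_iff.mp this
    have hz2 : ∀ g : G, g * x ^ (p * j') = x ^ (p * j') * g := by
      have : x ^ (p * j') ∈ Subgroup.center G := by
        rw [pow_mul]; exact Subgroup.pow_mem _ hxp j'
      exact Subgroup.mem_center_iff.mp this
    calc x ^ (p * i') * a * (x ^ (p * j') * b)
        = x ^ (p * i') * ((a * x ^ (p * j')) * b) := by group
      _ = x ^ (p * i') * ((x ^ (p * j') * a) * b) := by rw [hz2 a]
      _ = (x ^ (p * j') * x ^ (p * i')) * (b * a) := by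
          rw [hz1 (x ^ (p * j')), ← hAc a ha b hb]; group
      _ = x ^ (p * j') * ((b * x ^ (p * i')) * a) := by rw [hz1 b]; group
      _ = x ^ (p * j') * b * (x ^ (p * i') * a) := by group
  obtain ⟨i, a, ha, hpi, hh⟩ := hex
  have hicop : i.Coprime (orderOf x) := by
    rw [hxo]; exact Nat.Coprime.pow_right k ((Nat.Prime.coprime_iff_not_dvd hp).mpr hpi).symm
  obtain ⟨j, hj⟩ := exists_pow_eq_self_of_coprime hicop
  have hmod : ∀ (g : G) (b : G), b ∈ A → ∀ n : ℕ, ∃ b' ∈ A, (g * b) ^ n = g ^ n * b' := by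
    intro g b hb n
    induction n with
    | zero => exact ⟨1, A.one_mem, by simp⟩
    | succ n ih =>
      obtain ⟨b', hb', h⟩ := ih
      refine ⟨g⁻¹ * b' * g * b, A.mul_mem (by
        have := hAn.conj_mem b' hb' g⁻¹
        simpa using this) hb, ?_⟩
      rw [pow_succ, h, pow_succ]; group
  obtain ⟨a', ha', hpow⟩ := hmod (x ^ i) a ha j
  rw [hj] at hpow
  have hh' : x * a' ∈ H := by rw [← hpow]; exact H.pow_mem hh j
  intro g hg
  have hdec' : ∃ n : ℕ, ∃ b ∈ A, g = (x * a') ^ n * b := by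
    obtain ⟨n, b, hb, rfl⟩ := hdec g
    obtain ⟨b', hb', h⟩ := hmod x a' ha' n
    refine ⟨n, b'⁻¹ * b, A.mul_mem (A.inv_mem hb') hb, ?_⟩
    rw [h]; group
  obtain ⟨n, b, hb, rfl⟩ := hdec'
  have hbN : b ∈ Subgroup.normalizer (H : Set G) := by
    have h1 : ((x * a') ^ n)⁻¹ ∈ Subgroup.normalizer (H : Set G) :=
      Subgroup.inv_mem _ (Subgroup.le_normalizer (H.pow_mem hh' n))
    have := Subgroup.mul_mem _ h1 hg
    simpa using this
  suffices hbH : b ∈ H from H.mul_mem (H.pow_mem hh' n) hbH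
  have hδ : ∀ d ∈ A, d * (x * a') * d⁻¹ * (x * a')⁻¹ = d * (x * d⁻¹ * x⁻¹) := by
    intro d hd
    have : a' * d⁻¹ * a'⁻¹ = d⁻¹ := by rw [hAc a' ha' d⁻¹ (A.inv_mem hd)]; group
    calc d * (x * a') * d⁻¹ * (x * a')⁻¹ = d * (x * (a' * d⁻¹ * a'⁻¹) * x⁻¹) := by group
      _ = d * (x * d⁻¹ * x⁻¹) := by rw [this]
  have hfix : ∀ a ∈ A, x * a * x⁻¹ = a → a = 1 := by
    intro a ha hxa
    by_contra ha1
    exact hfpf a ha ha1 hxa
  have hbB := mem_of_delta_mem A (H ⊓ A) inf_le_right x hfix (by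
    intro d hd
    refine ⟨?_, A.mul_mem hd.2 (hAn.conj_mem _ (A.inv_mem hd.2) x)⟩
    rw [← hδ d hd.2]
    exact H.mul_mem (H.mul_mem (H.mul_mem hd.1 hh') (H.inv_mem hd.1)) (H.inv_mem hh')) b hb (by
    refine ⟨?_, A.mul_mem hb (hAn.conj_mem _ (A.inv_mem hb) x)⟩
    rw [← hδ b hb]
    have hc1 : b * (x * a') * b⁻¹ ∈ H := (Subgroup.mem_normalizer_iff.mp hbN (x * a')).mp hh'
    exact H.mul_mem hc1 (H.inv_mem hh'))
  exact hbB.1

/-- Self-normalizing nonabelian subgroups force the structure. -/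
theorem forward {G : Type*} [Group G] [Finite G] [Group.IsSolvable G]
    (hnn : ¬ Group.IsNilpotent G)
    (hS : ∀ H : Subgroup G, (∃ u ∈ H, ∃ v ∈ H, u * v ≠ v * u) →
      Subgroup.normalizer (H : Set G) = H) :
    ∃ (x : G) (A : Subgroup G) (p : ℕ), p.Prime ∧ A.Normal ∧ (∀ a ∈ A, ∀ b ∈ A, a * b = b * a) ∧
      (∃ k : ℕ, orderOf x = p ^ k) ∧ ¬ p ∣ Nat.card A ∧ (Subgroup.zpowers x).IsComplement' A ∧
      x ^ p ∈ Subgroup.center G ∧ ∀ a : G, a ∈ A → a ≠ 1 → x * a * x⁻¹ ≠ a := by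
  classical
  have hGnt : Nontrivial G := by
    by_contra h
    rw [not_nontrivial_iff_subsingleton] at h
    exact hnn inferInstance
  have hcomm_lt : commutator G < ⊤ := Group.IsSolvable.commutator_lt_top_of_nontrivial G
  have hne : Nonempty {K : Subgroup G // commutator G ≤ K ∧ K ≠ ⊤} :=
    ⟨⟨commutator G, le_rfl, hcomm_lt.ne⟩⟩
  obtain ⟨⟨N, hGN, hNtop⟩, hNmax⟩ := Finite.exists_max
    (fun K : {K : Subgroup G // commutator G ≤ K ∧ K ≠ ⊤} => Nat.card (K : Subgroup G))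
  have hnormal_of_le : ∀ K : Subgroup G, commutator G ≤ K → K.Normal := by
    intro K hK
    refine ⟨fun n hn g => ?_⟩
    have h1 : ⁅g, n⁆ ∈ K := hK (by
      rw [commutator_def]
      exact Subgroup.commutator_mem_commutator (Subgroup.mem_top g) (Subgroup.mem_top n))
    have : g * n * g⁻¹ = ⁅g, n⁆ * n := by rw [commutatorElement_def]; group
    rw [this]; exact K.mul_mem h1 hn
  have hNn : N.Normal := hnormal_of_le N hGN
  have hidx1 : N.index ≠ 1 := fun h => hNtop (Subgroup.index_eq_one.mp h)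
  obtain ⟨p, hp, hpd⟩ := Nat.exists_prime_and_dvd hidx1
  have hFp : Fact p.Prime := ⟨hp⟩
  have hNidx : N.index = p := by
    have hpd' : p ∣ Nat.card (G ⧸ N) := by rwa [← Subgroup.index_eq_card]
    obtain ⟨gb, hgb⟩ := exists_prime_orderOf_dvd_card' p hpd'
    have hNK : N ≤ (Subgroup.zpowers gb).comap (QuotientGroup.mk' N) := by
      intro n hn
      show QuotientGroup.mk' N n ∈ Subgroup.zpowers gb
      have : QuotientGroup.mk' N n = 1 := (QuotientGroup.eq_one_iff n).mpr hn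
      rw [this]; exact Subgroup.one_mem _
    have hKtop : (Subgroup.zpowers gb).comap (QuotientGroup.mk' N) = ⊤ := by
      by_contra hK
      have h1 := hNmax ⟨_, hGN.trans hNK, hK⟩
      have h2 : N = (Subgroup.zpowers gb).comap (QuotientGroup.mk' N) :=
        Subgroup.eq_of_le_of_card_ge hNK h1
      obtain ⟨g, rfl⟩ := QuotientGroup.mk_surjective gb
      have hgK : g ∈ (Subgroup.zpowers (QuotientGroup.mk g : G ⧸ N)).comap (QuotientGroup.mk' N) :=
        Subgroup.mem_zpowers _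
      rw [← h2] at hgK
      have : (QuotientGroup.mk g : G ⧸ N) = 1 := (QuotientGroup.eq_one_iff g).mpr hgK
      rw [this, orderOf_one] at hgb
      exact hp.one_lt.ne hgb
    have hztop : Subgroup.zpowers gb = ⊤ := by
      rw [← Subgroup.map_comap_eq_self_of_surjective (QuotientGroup.mk'_surjective N)
        (Subgroup.zpowers gb), hKtop]
      exact Subgroup.map_top_of_surjective _ (QuotientGroup.mk'_surjective N)
    rw [Subgroup.index_eq_card, ← Subgroup.card_top (G := G ⧸ N), ← hztop, Nat.card_zpowers, hgb]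
  have hNab : ∀ a ∈ N, ∀ b ∈ N, a * b = b * a := by
    by_contra h
    push Not at h
    have := hS N h
    rw [Subgroup.normalizer_eq_top_iff.mpr hNn] at this
    exact hNtop this.symm
  obtain ⟨e, m, hm, hNcard⟩ := Nat.exists_eq_pow_mul_and_not_dvd (Nat.card_pos (α := N)).ne' p
    hp.ne_one
  obtain ⟨A, hAmem⟩ : ∃ A : Subgroup G, ∀ a, a ∈ A ↔ a ∈ N ∧ a ^ m = 1 :=
    ⟨{ carrier := {a | a ∈ N ∧ a ^ m = 1}
       one_mem' := ⟨N.one_mem, one_pow m⟩
       mul_mem' := fun {a b} ha hb => ⟨N.mul_mem ha.1 hb.1, by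
         have hc : Commute a b := hNab a ha.1 b hb.1
         rw [hc.mul_pow, ha.2, hb.2, one_mul]⟩
       inv_mem' := fun {a} ha => ⟨N.inv_mem ha.1, by rw [inv_pow, ha.2, inv_one]⟩ },
      fun a => Iff.rfl⟩
  have hAN : A ≤ N := fun a ha => ((hAmem a).mp ha).1
  have hAn : A.Normal := by
    refine ⟨fun a ha g => ?_⟩
    rw [hAmem] at ha ⊢
    exact ⟨hNn.conj_mem a ha.1 g, by rw [conj_pow, ha.2]; group⟩
  have hAab : ∀ a ∈ A, ∀ b ∈ A, a * b = b * a := fun a ha b hb => hNab a (hAN ha) b (hAN hb)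
  have hpA : ¬ p ∣ Nat.card A := by
    intro hd
    obtain ⟨⟨a, ha⟩, hao⟩ := exists_prime_orderOf_dvd_card' p hd
    rw [Subgroup.orderOf_mk] at hao
    have : p ∣ m := by rw [← hao]; exact orderOf_dvd_of_pow_eq_one ((hAmem a).mp ha).2
    exact hm this
  have hpowA : ∀ g : G, g ^ (p ^ (e + 1)) ∈ A := by
    intro g
    have h1 : g ^ p ∈ N := by rw [← hNidx]; exact Subgroup.pow_index_mem N g
    have h2 : (⟨g ^ p, h1⟩ : N) ^ Nat.card N = 1 := pow_card_eq_one'
    have h3 : (g ^ p) ^ Nat.card N = 1 := congrArg Subtype.val h2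
    rw [hAmem, pow_succ, pow_mul']
    refine ⟨N.pow_mem h1 _, ?_⟩
    rw [← pow_mul, ← hNcard]; exact h3
  have hGA : IsPGroup p (G ⧸ A) := by
    intro gb
    obtain ⟨g, rfl⟩ := QuotientGroup.mk_surjective gb
    exact ⟨e + 1, by rw [← QuotientGroup.mk_pow]; exact (QuotientGroup.eq_one_iff _).mpr (hpowA g)⟩
  obtain ⟨t, ht⟩ := IsPGroup.iff_card.mp hGA
  have hAidx : A.index = p ^ t := by rw [Subgroup.index_eq_card, ht]
  have hGcard : Nat.card A * p ^ t = Nat.card G := by rw [← hAidx]; exact A.card_mul_index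
  have hcopA : (p ^ t).Coprime (Nat.card A) :=
    Nat.Coprime.pow_left t ((Nat.Prime.coprime_iff_not_dvd hp).mpr hpA)
  obtain ⟨P⟩ : Nonempty (Sylow p G) := inferInstance
  have hPcard : Nat.card (P : Subgroup G) = p ^ t := by
    have h1 : p ^ t ∣ Nat.card (P : Subgroup G) :=
      P.pow_dvd_card_of_pow_dvd_card (by rw [← hGcard]; exact dvd_mul_left _ _)
    obtain ⟨s, hs⟩ := IsPGroup.iff_card.mp P.2
    have h2 : Nat.card (P : Subgroup G) ∣ p ^ t := by
      have h3 : Nat.card (P : Subgroup G) ∣ Nat.card A * p ^ t := by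
        rw [hGcard]; exact Subgroup.card_subgroup_dvd_card _
      have h4 : (Nat.card (P : Subgroup G)).Coprime (Nat.card A) := by
        rw [hs]; exact Nat.Coprime.pow_left s ((Nat.Prime.coprime_iff_not_dvd hp).mpr hpA)
      exact h4.dvd_of_dvd_mul_left h3
    exact Nat.dvd_antisymm h2 h1
  have hPN : ¬ (P : Subgroup G) ≤ N := by
    intro h
    have := Subgroup.index_dvd_of_le h
    rw [hNidx] at this
    exact P.not_dvd_index this
  obtain ⟨x, hxP, hxN⟩ := SetLike.not_le_iff_exists.mp hPN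
  have hxpN : x ^ p ∈ N := by rw [← hNidx]; exact Subgroup.pow_index_mem N x
  have hdecN : ∀ g : G, ∃ i : ℕ, ∃ n ∈ N, g = x ^ i * n := by
    intro g
    have hxb : (QuotientGroup.mk x : G ⧸ N) ≠ 1 := fun h => hxN ((QuotientGroup.eq_one_iff x).mp h)
    have hcard : Nat.card (G ⧸ N) = p := by rw [← Subgroup.index_eq_card, hNidx]
    have hz : Subgroup.zpowers (QuotientGroup.mk x : G ⧸ N) = ⊤ :=
      zpowers_eq_top_of_prime_card hcard hxb
    have hg : (QuotientGroup.mk g : G ⧸ N) ∈ Subgroup.zpowers (QuotientGroup.mk x : G ⧸ N) := by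
      rw [hz]; exact Subgroup.mem_top _
    obtain ⟨i, hi⟩ := (Submonoid.mem_powers_iff _ _).mp (mem_powers_iff_mem_zpowers.mpr hg)
    refine ⟨i, (x ^ i)⁻¹ * g, ?_, by group⟩
    rw [← QuotientGroup.eq_one_iff, QuotientGroup.mk_mul, QuotientGroup.mk_inv,
      QuotientGroup.mk_pow, hi, inv_mul_cancel]
  have hxA : ∃ a ∈ A, x * a ≠ a * x := by
    by_contra h
    push Not at h
    apply hnn
    have hAcen : A ≤ Subgroup.center G := by
      intro a ha
      rw [Subgroup.mem_center_iff]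
      intro g
      obtain ⟨i, n, hn, rfl⟩ := hdecN g
      have h1 : x ^ i * a = a * x ^ i := ((show Commute x a from h a ha).pow_left i).eq
      calc x ^ i * n * a = x ^ i * (n * a) := by group
        _ = x ^ i * (a * n) := by rw [hNab n hn a (hAN ha)]
        _ = (x ^ i * a) * n := by group
        _ = a * (x ^ i * n) := by rw [h1]; group
    have : Group.IsNilpotent (G ⧸ A) := hGA.isNilpotent
    exact Subgroup.isNilpotent_of_ker_le_center (QuotientGroup.mk' A)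
      (by rw [QuotientGroup.ker_mk']; exact hAcen)
  have hdisj : ∀ g, g ∈ (P : Subgroup G) → g ∈ A → g = 1 := by
    intro g hgP hgA
    have h1 : orderOf g ∣ Nat.card (P : Subgroup G) := by
      have := orderOf_dvd_natCard (⟨g, hgP⟩ : (P : Subgroup G))
      rwa [Subgroup.orderOf_mk] at this
    have h2 : orderOf g ∣ Nat.card A := by
      have := orderOf_dvd_natCard (⟨g, hgA⟩ : A)
      rwa [Subgroup.orderOf_mk] at this
    rw [hPcard] at h1
    exact orderOf_eq_one_iff.mp (Nat.eq_one_of_dvd_coprimes hcopA h1 h2)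
  have hH1 : Subgroup.normalizer ((A ⊔ Subgroup.zpowers x : Subgroup G) : Set G)
      = A ⊔ Subgroup.zpowers x := by
    apply hS
    obtain ⟨a, ha, hxa⟩ := hxA
    exact ⟨x, Subgroup.mem_sup_right (Subgroup.mem_zpowers x), a, Subgroup.mem_sup_left ha, hxa⟩
  have hPx : (P : Subgroup G) = Subgroup.zpowers x := by
    have hle : Subgroup.zpowers x ≤ (P : Subgroup G) := by rw [Subgroup.zpowers_le]; exact hxP
    by_contra hne
    have hPnil : Group.IsNilpotent (P : Subgroup G) := P.2.isNilpotent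
    have hlt : (Subgroup.zpowers x).subgroupOf (P : Subgroup G) < ⊤ := by
      rw [lt_top_iff_ne_top]
      intro h
      apply hne
      apply le_antisymm _ hle
      intro g hg
      have : (⟨g, hg⟩ : (P : Subgroup G)) ∈ (Subgroup.zpowers x).subgroupOf (P : Subgroup G) := by
        rw [h]; exact Subgroup.mem_top _
      exact this
    have hnc := Group.normalizerCondition_of_isNilpotent (G := (P : Subgroup G)) _ hlt
    obtain ⟨z, hzn, hznot⟩ := SetLike.exists_of_lt hnc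
    have hzN : (z : G) ∈ Subgroup.normalizer ((A ⊔ Subgroup.zpowers x : Subgroup G) : Set G) := by
      apply Helper67.mem_normalizer_of_forall_conj_mem
      intro u hu
      rw [← SetLike.mem_coe, Subgroup.normal_mul] at hu
      obtain ⟨a, ha, c, hc, rfl⟩ := Set.mem_mul.mp hu
      have h1 : (z : G) * a * (z : G)⁻¹ ∈ A := hAn.conj_mem a ha z
      have h2 : (z : G) * c * (z : G)⁻¹ ∈ Subgroup.zpowers x :=
        (Subgroup.mem_normalizer_iff.mp hzn ⟨c, hle hc⟩).mp hc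
      have : (z : G) * (a * c) * (z : G)⁻¹
          = ((z : G) * a * (z : G)⁻¹) * ((z : G) * c * (z : G)⁻¹) := by group
      rw [this]
      exact Subgroup.mul_mem _ (Subgroup.mem_sup_left h1) (Subgroup.mem_sup_right h2)
    rw [hH1, ← SetLike.mem_coe, Subgroup.normal_mul] at hzN
    obtain ⟨a, ha, c, hc, hac⟩ := Set.mem_mul.mp hzN
    have haP : a ∈ (P : Subgroup G) := by
      have : a = (z : G) * c⁻¹ := by rw [← hac]; group
      rw [this]; exact Subgroup.mul_mem _ z.2 (Subgroup.inv_mem _ (hle hc))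
    have ha1 := hdisj a haP ha
    apply hznot
    show (z : G) ∈ Subgroup.zpowers x
    rw [← hac, ha1, one_mul]; exact hc
  have hxo : orderOf x = p ^ t := by rw [← Nat.card_zpowers, ← hPx, hPcard]
  have hcompl : (Subgroup.zpowers x).IsComplement' A := by
    apply Subgroup.isComplement'_of_coprime
    · rw [Nat.card_zpowers, hxo, mul_comm]; exact hGcard
    · rw [Nat.card_zpowers, hxo]; exact hcopA
  have hxpc : x ^ p ∈ Subgroup.center G := by
    rw [Subgroup.mem_center_iff]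
    intro g
    obtain ⟨i, n, hn, rfl⟩ := hdecN g
    have h1 : x ^ i * x ^ p = x ^ p * x ^ i := by rw [← pow_add, ← pow_add, add_comm]
    calc x ^ i * n * x ^ p = x ^ i * (n * x ^ p) := by group
      _ = x ^ i * (x ^ p * n) := by rw [hNab n hn _ hxpN]
      _ = (x ^ i * x ^ p) * n := by group
      _ = x ^ p * (x ^ i * n) := by rw [h1]; group
  have hL : ∀ a c : G, c ∈ A → x * a * x⁻¹ = c⁻¹ * a → x * c * x⁻¹ = c → c = 1 := by
    intro a c hc h1 h2
    have hpow : ∀ j : ℕ, x ^ j * a * (x ^ j)⁻¹ = (c ^ j)⁻¹ * a := by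
      intro j
      induction j with
      | zero => simp
      | succ j ih =>
        have hcj : x * (c ^ j)⁻¹ * x⁻¹ = (c ^ j)⁻¹ := by
          have : x * c ^ j * x⁻¹ = c ^ j := by rw [← conj_pow, h2]
          calc x * (c ^ j)⁻¹ * x⁻¹ = (x * c ^ j * x⁻¹)⁻¹ := by group
            _ = (c ^ j)⁻¹ := by rw [this]
        calc x ^ (j + 1) * a * (x ^ (j + 1))⁻¹
            = x * (x ^ j * a * (x ^ j)⁻¹) * x⁻¹ := by rw [pow_succ']; group
          _ = x * ((c ^ j)⁻¹ * a) * x⁻¹ := by rw [ih]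
          _ = (x * (c ^ j)⁻¹ * x⁻¹) * (x * a * x⁻¹) := by group
          _ = (c ^ j)⁻¹ * (c⁻¹ * a) := by rw [hcj, h1]
          _ = (c ^ (j + 1))⁻¹ * a := by rw [pow_succ']; group
    have h3 := hpow (orderOf x)
    rw [pow_orderOf_eq_one, one_mul, inv_one, mul_one] at h3
    have h4 : c ^ orderOf x = 1 := by
      have : (c ^ orderOf x)⁻¹ = 1 := by
        calc (c ^ orderOf x)⁻¹ = ((c ^ orderOf x)⁻¹ * a) * a⁻¹ := by group
          _ = a * a⁻¹ := by rw [← h3]
          _ = 1 := mul_inv_cancel a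
      exact inv_eq_one.mp this
    have h5 : orderOf c ∣ p ^ t := by rw [← hxo]; exact orderOf_dvd_of_pow_eq_one h4
    have h6 : orderOf c ∣ Nat.card A := by
      have := orderOf_dvd_natCard (⟨c, hc⟩ : A)
      rwa [Subgroup.orderOf_mk] at this
    exact orderOf_eq_one_iff.mp (Nat.eq_one_of_dvd_coprimes hcopA h5 h6)
  have hδmem : ∀ a ∈ A, a * (x * a⁻¹ * x⁻¹) ∈ A := fun a ha =>
    A.mul_mem ha (hAn.conj_mem _ (A.inv_mem ha) x)
  have hfpf : ∀ a : G, a ∈ A → a ≠ 1 → x * a * x⁻¹ ≠ a := by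
    intro c hcA hc1 hcx
    obtain ⟨D, hDmem⟩ : ∃ D : Subgroup G, ∀ d, d ∈ D ↔ ∃ a ∈ A, d = a * (x * a⁻¹ * x⁻¹) := by
      refine ⟨{ carrier := {d | ∃ a ∈ A, d = a * (x * a⁻¹ * x⁻¹)}
                one_mem' := ⟨1, A.one_mem, by group⟩
                mul_mem' := ?_
                inv_mem' := ?_ }, fun d => Iff.rfl⟩
      · rintro _ _ ⟨a, ha, rfl⟩ ⟨b, hb, rfl⟩
        refine ⟨a * b, A.mul_mem ha hb, ?_⟩
        have h1 : (x * a⁻¹ * x⁻¹) * b = b * (x * a⁻¹ * x⁻¹) :=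
          hAab _ (hAn.conj_mem _ (A.inv_mem ha) x) b hb
        have h2 : a⁻¹ * b⁻¹ = b⁻¹ * a⁻¹ := hAab _ (A.inv_mem ha) _ (A.inv_mem hb)
        calc a * (x * a⁻¹ * x⁻¹) * (b * (x * b⁻¹ * x⁻¹))
            = a * ((x * a⁻¹ * x⁻¹) * b) * (x * b⁻¹ * x⁻¹) := by group
          _ = a * (b * (x * a⁻¹ * x⁻¹)) * (x * b⁻¹ * x⁻¹) := by rw [h1]
          _ = a * b * (x * (a⁻¹ * b⁻¹) * x⁻¹) := by group
          _ = a * b * (x * (b⁻¹ * a⁻¹) * x⁻¹) := by rw [h2]
          _ = a * b * (x * (a * b)⁻¹ * x⁻¹) := by group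
      · rintro _ ⟨a, ha, rfl⟩
        refine ⟨a⁻¹, A.inv_mem ha, ?_⟩
        have h1 : (x * a * x⁻¹) * a⁻¹ = a⁻¹ * (x * a * x⁻¹) :=
          hAab _ (hAn.conj_mem _ ha x) _ (A.inv_mem ha)
        calc (a * (x * a⁻¹ * x⁻¹))⁻¹ = (x * a * x⁻¹) * a⁻¹ := by group
          _ = a⁻¹ * (x * a * x⁻¹) := h1
          _ = a⁻¹ * (x * a⁻¹⁻¹ * x⁻¹) := by group
    have hDA : D ≤ A := by
      intro d hd
      obtain ⟨a, ha, rfl⟩ := (hDmem d).mp hd
      exact hδmem a ha
    have hDn : D.Normal := by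
      refine ⟨fun d hd g => ?_⟩
      obtain ⟨a, ha, rfl⟩ := (hDmem d).mp hd
      obtain ⟨⟨⟨k', hk'⟩, ⟨b, hb⟩⟩, rfl⟩ := hcompl.2 g
      rw [hDmem]
      refine ⟨k' * a * k'⁻¹, hAn.conj_mem a ha k', ?_⟩
      have hkx : k' * x = x * k' := by
        obtain ⟨i, rfl⟩ := Subgroup.mem_zpowers_iff.mp hk'
        exact ((Commute.refl x).zpow_left i).eq
      have hb' : b * (a * (x * a⁻¹ * x⁻¹)) * b⁻¹ = a * (x * a⁻¹ * x⁻¹) := by
        rw [hAab b hb _ (hδmem a ha)]; group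
      show k' * b * (a * (x * a⁻¹ * x⁻¹)) * (k' * b)⁻¹ = _
      calc k' * b * (a * (x * a⁻¹ * x⁻¹)) * (k' * b)⁻¹
          = k' * (b * (a * (x * a⁻¹ * x⁻¹)) * b⁻¹) * k'⁻¹ := by group
        _ = k' * (a * (x * a⁻¹ * x⁻¹)) * k'⁻¹ := by rw [hb']
        _ = (k' * a * k'⁻¹) * ((k' * x) * a⁻¹ * (k' * x)⁻¹) := by group
        _ = (k' * a * k'⁻¹) * ((x * k') * a⁻¹ * (x * k')⁻¹) := by rw [hkx]
        _ = k' * a * k'⁻¹ * (x * (k' * a * k'⁻¹)⁻¹ * x⁻¹) := by group
    have hH'na : ∃ u ∈ D ⊔ Subgroup.zpowers x, ∃ v ∈ D ⊔ Subgroup.zpowers x, u * v ≠ v * u := by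
      by_contra hab
      push Not at hab
      obtain ⟨a, ha, hxa⟩ := hxA
      apply hxa
      have hc' : a * (x * a⁻¹ * x⁻¹) ∈ D := (hDmem _).mpr ⟨a, ha, rfl⟩
      have hcomm := hab x (Subgroup.mem_sup_right (Subgroup.mem_zpowers x)) _
        (Subgroup.mem_sup_left hc')
      have h1 : x * a * x⁻¹ = (a * (x * a⁻¹ * x⁻¹))⁻¹ * a := by group
      have h2 : x * (a * (x * a⁻¹ * x⁻¹)) * x⁻¹ = a * (x * a⁻¹ * x⁻¹) := by rw [hcomm]; group
      have h3 := hL a _ (hδmem a ha) h1 h2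
      calc x * a = (a * (x * a⁻¹ * x⁻¹))⁻¹ * a * x := by group
        _ = a * x := by rw [h3]; group
    have hH' := hS _ hH'na
    have hcent : D ⊔ Subgroup.zpowers x ≤ Subgroup.centralizer {c} := by
      apply sup_le
      · intro d hd
        rw [Subgroup.mem_centralizer_iff]
        intro h hh
        rw [Set.mem_singleton_iff] at hh
        rw [hh]
        exact hAab _ hcA d (hDA hd)
      · rw [Subgroup.zpowers_le, Subgroup.mem_centralizer_iff]
        intro h hh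
        rw [Set.mem_singleton_iff] at hh
        rw [hh]
        calc c * x = (x * c * x⁻¹) * x := by rw [hcx]
          _ = x * c := by group
    have hcN : c ∈ Subgroup.normalizer ((D ⊔ Subgroup.zpowers x : Subgroup G) : Set G) := by
      apply Helper67.mem_normalizer_of_forall_conj_mem
      intro u hu
      have := Subgroup.mem_centralizer_iff.mp (hcent hu) c rfl
      have h1 : c * u * c⁻¹ = u := by rw [this]; group
      rw [h1]; exact hu
    rw [hH', ← SetLike.mem_coe, Subgroup.normal_mul] at hcN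
    obtain ⟨d, hd, k', hk', hdk⟩ := Set.mem_mul.mp hcN
    have hk'A : k' ∈ A := by
      have : k' = d⁻¹ * c := by rw [← hdk]; group
      rw [this]; exact A.mul_mem (A.inv_mem (hDA hd)) hcA
    have hk'1 : k' = 1 := hdisj k' (by rw [hPx]; exact hk') hk'A
    rw [hk'1, mul_one] at hdk
    rw [← hdk] at hc1 hcx
    obtain ⟨a, ha, rfl⟩ := (hDmem d).mp hd
    apply hc1
    exact hL a _ (hδmem a ha) (by group) hcx
  exact ⟨x, A, p, hp, hAn, hAab, ⟨t, hxo⟩, hpA, hcompl, hxpc, hfpf⟩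

/-- Let G be a finite solvable non-nilpotent group. Every non-abelian subgroup of G is self-normalizing if and only if G is a semidirect product ⟨x⟩ ⋉ A in which ⟨x⟩ is a p-group for some prime p, A is a normal abelian subgroup of order prime to p, x^p is central in G, and x acts fixed-point-freely on A (no non-identity element of A commutes with x). -/
theorem result {G : Type*} [Group G] [Finite G]
    [Group.IsSolvable G] (hnn : ¬ Group.IsNilpotent G) :
    (∀ H : Subgroup G, ¬ IsMulCommutative H → Subgroup.normalizer (H : Set G) = H) ↔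
    ∃ (x : G) (A : Subgroup G) (p : ℕ), p.Prime ∧ A.Normal ∧ IsMulCommutative A ∧ (∃ k : ℕ, orderOf x = p ^ k) ∧
      ¬ p ∣ Nat.card A ∧ (Subgroup.zpowers x).IsComplement' A ∧ x ^ p ∈ Subgroup.center G ∧
      ∀ a : G, a ∈ A → a ≠ 1 → x * a * x⁻¹ ≠ a := by
  classical
  constructor
  · intro hS
    have hS' : ∀ H : Subgroup G, (∃ u ∈ H, ∃ v ∈ H, u * v ≠ v * u) →
        Subgroup.normalizer (H : Set G) = H := by
      rintro H ⟨u, hu, v, hv, huv⟩
      apply hS H
      intro hc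
      exact huv (congrArg Subtype.val (hc.is_comm.comm ⟨u, hu⟩ ⟨v, hv⟩))
    obtain ⟨x, A, p, hp, hAn, hAab, hk, hpA, hc, hxp, hfpf⟩ := forward hnn hS'
    exact ⟨x, A, p, hp, hAn, ⟨⟨fun a b => Subtype.ext (hAab a a.2 b b.2)⟩⟩, hk, hpA, hc, hxp, hfpf⟩
  · rintro ⟨x, A, p, hp, hAn, hAc, ⟨k, hxo⟩, hpA, hc, hxp, hfpf⟩ H hH
    apply backward x A p hp hAn
      (fun a ha b hb => congrArg Subtype.val (hAc.is_comm.comm ⟨a, ha⟩ ⟨b, hb⟩)) k hxo hc hxp hfpf H
    by_contra hcon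
    push Not at hcon
    exact hH ⟨⟨fun a b => Subtype.ext (hcon a a.2 b b.2)⟩⟩

end Cfsg.Agent.S4071
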