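-- Statement S4072: every nonabelian subgroup self-normalizing implies solvable or simple.
import Cfsg.Statements.S4072
import Cfsg.Agent.Helper67.RealClasses
import Cfsg.Agent.Helper67.TwoClosed

set_option autoImplicit false
open Cfsg

namespace Cfsg.Agent.S4072

open scoped commutatorElement

/-- In a finite nonabelian `p`-group all of whose proper subgroups are abelian, a nontrivial
commutator `c` has order `p` and generates the commutator subgroup. -/
theorem minimal_nonabelian {P : Type*} [Group P] [Finite P] {p : ℕ} [Fact p.Prime]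
    (hP : IsPGroup p P) (hmin : ∀ H : Subgroup P, H ≠ ⊤ → ∀ x ∈ H, ∀ y ∈ H, x * y = y * x)
    (a b : P) (hab : a * b ≠ b * a) :
    (a * b * a⁻¹ * b⁻¹) ^ p = 1 ∧ commutator P ≤ Subgroup.zpowers (a * b * a⁻¹ * b⁻¹) := by
  have hnil : Group.IsNilpotent P := hP.isNilpotent
  have hgen : Subgroup.closure {a, b} = ⊤ := by
    by_contra h
    exact hab (hmin _ h a (Subgroup.subset_closure (by simp)) b (Subgroup.subset_closure (by simp)))
  have hncyc : ∀ x : P, Subgroup.zpowers x ≠ ⊤ := by
    intro x hx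
    apply hab
    have ha : a ∈ Subgroup.zpowers x := hx ▸ Subgroup.mem_top a
    have hb : b ∈ Subgroup.zpowers x := hx ▸ Subgroup.mem_top b
    obtain ⟨i, rfl⟩ := Subgroup.mem_zpowers_iff.mp ha
    obtain ⟨j, rfl⟩ := Subgroup.mem_zpowers_iff.mp hb
    rw [← zpow_add, ← zpow_add, add_comm]
  have hcoat : ∀ x : P, ∃ M : Subgroup P, IsCoatom M ∧ x ∈ M := by
    intro x
    obtain ⟨M, hM, hle⟩ := (eq_top_or_exists_le_coatom (Subgroup.zpowers x)).resolve_left (hncyc x)
    exact ⟨M, hM, hle (Subgroup.mem_zpowers x)⟩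
  obtain ⟨Ma, hMa, haMa⟩ := hcoat a
  obtain ⟨Mb, hMb, hbMb⟩ := hcoat b
  have hMan : Ma.Normal :=
    Subgroup.NormalizerCondition.normal_of_coatom Ma Group.normalizerCondition_of_isNilpotent hMa
  have hMbn : Mb.Normal :=
    Subgroup.NormalizerCondition.normal_of_coatom Mb Group.normalizerCondition_of_isNilpotent hMb
  have h1 : a * (b * a⁻¹ * b⁻¹) = (b * a⁻¹ * b⁻¹) * a :=
    hmin Ma hMa.1 a haMa _ (hMan.conj_mem _ (Ma.inv_mem haMa) b)
  have h2 : b * (a * b * a⁻¹) = (a * b * a⁻¹) * b :=
    hmin Mb hMb.1 b hbMb _ (hMbn.conj_mem _ hbMb a)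
  generalize hc : a * b * a⁻¹ * b⁻¹ = c
  have hca : c * a = a * c := by
    calc c * a = a * ((b * a⁻¹ * b⁻¹) * a) := by rw [← hc]; group
      _ = a * (a * (b * a⁻¹ * b⁻¹)) := by rw [h1]
      _ = a * c := by rw [← hc]; group
  have hcb : c * b = b * c := by
    calc c * b = (a * b * a⁻¹) * b * b⁻¹ := by rw [← hc]; group
      _ = b * (a * b * a⁻¹) * b⁻¹ := by rw [h2]
      _ = b * c := by rw [← hc]; group
  have hcz : ∀ g : P, g * c = c * g := by
    have hle : Subgroup.closure {a, b} ≤ Subgroup.centralizer {c} := by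
      rw [Subgroup.closure_le]
      rintro x (rfl | rfl)
      · rw [SetLike.mem_coe, Subgroup.mem_centralizer_iff]
        rintro _ rfl; exact hca
      · rw [SetLike.mem_coe, Subgroup.mem_centralizer_iff]
        rintro _ rfl; exact hcb
    rw [hgen] at hle
    intro g
    have := hle (Subgroup.mem_top g)
    rw [Subgroup.mem_centralizer_iff] at this
    exact (this c rfl).symm
  have hpow : ∀ k : ℕ, a ^ k * b * (a ^ k)⁻¹ * b⁻¹ = c ^ k := by
    intro k
    induction k with
    | zero => simp
    | succ k ih =>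
      calc a ^ (k + 1) * b * (a ^ (k + 1))⁻¹ * b⁻¹
          = a ^ k * (a * b * a⁻¹ * b⁻¹) * b * (a ^ k)⁻¹ * b⁻¹ := by rw [pow_succ]; group
        _ = (a ^ k * c) * b * (a ^ k)⁻¹ * b⁻¹ := by rw [hc]
        _ = c * (a ^ k * b * (a ^ k)⁻¹ * b⁻¹) := by rw [hcz (a ^ k)]; group
        _ = c ^ (k + 1) := by rw [ih, pow_succ']
  have hcp : c ^ p = 1 := by
    rw [← hpow p]
    have hapb : a ^ p * b = b * a ^ p :=
      hmin Mb hMb.1 _ (Helper67.pow_prime_mem_of_isCoatom hP Mb hMb a) b hbMb
    rw [hapb]; group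
  refine ⟨hcp, ?_⟩
  have hTn : (Subgroup.zpowers c).Normal := by
    refine ⟨fun n hn g => ?_⟩
    obtain ⟨j, rfl⟩ := Subgroup.mem_zpowers_iff.mp hn
    have : g * c ^ j * g⁻¹ = c ^ j := by
      have hcomm : Commute g c := hcz g
      rw [(hcomm.zpow_right j).eq]; group
    rw [this]; exact Subgroup.zpow_mem _ (Subgroup.mem_zpowers c) j
  have hab' : (QuotientGroup.mk a : P ⧸ Subgroup.zpowers c) * QuotientGroup.mk b
      = QuotientGroup.mk b * QuotientGroup.mk a := by
    have h : ((a * b * a⁻¹ * b⁻¹ : P) : P ⧸ Subgroup.zpowers c) = 1 :=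
      (QuotientGroup.eq_one_iff _).mpr (by rw [hc]; exact Subgroup.mem_zpowers c)
    simp only [QuotientGroup.mk_mul, QuotientGroup.mk_inv] at h
    calc (QuotientGroup.mk a : P ⧸ Subgroup.zpowers c) * QuotientGroup.mk b
        = ((QuotientGroup.mk a : P ⧸ Subgroup.zpowers c) * QuotientGroup.mk b
            * (QuotientGroup.mk a)⁻¹ * (QuotientGroup.mk b)⁻¹)
            * (QuotientGroup.mk b * QuotientGroup.mk a) := by group
      _ = QuotientGroup.mk b * QuotientGroup.mk a := by rw [h, one_mul]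
  have hgen' : Subgroup.closure {(QuotientGroup.mk a : P ⧸ Subgroup.zpowers c),
      (QuotientGroup.mk b : P ⧸ Subgroup.zpowers c)} = ⊤ := by
    have := MonoidHom.map_closure (QuotientGroup.mk' (Subgroup.zpowers c)) {a, b}
    rw [hgen, Subgroup.map_top_of_surjective _ (QuotientGroup.mk'_surjective _)] at this
    rw [this, Set.image_pair]
    rfl
  have hQ : ∀ u v : P ⧸ Subgroup.zpowers c, u * v = v * u := by
    have hcomm : ∀ x ∈ ({(QuotientGroup.mk a : P ⧸ Subgroup.zpowers c),
        (QuotientGroup.mk b : P ⧸ Subgroup.zpowers c)} : Set _), ∀ y ∈ ({(QuotientGroup.mk a :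
        P ⧸ Subgroup.zpowers c), (QuotientGroup.mk b : P ⧸ Subgroup.zpowers c)} : Set _),
        x * y = y * x := by
      rintro x (rfl | rfl) y (rfl | rfl)
      · rfl
      · exact hab'
      · exact hab'.symm
      · rfl
    intro u v
    have hu : u ∈ Subgroup.closure {(QuotientGroup.mk a : P ⧸ Subgroup.zpowers c),
        (QuotientGroup.mk b : P ⧸ Subgroup.zpowers c)} := hgen' ▸ Subgroup.mem_top u
    have hv : v ∈ Subgroup.closure {(QuotientGroup.mk a : P ⧸ Subgroup.zpowers c),
        (QuotientGroup.mk b : P ⧸ Subgroup.zpowers c)} := hgen' ▸ Subgroup.mem_top v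
    have := (Subgroup.isMulCommutative_closure hcomm).is_comm.comm ⟨u, hu⟩ ⟨v, hv⟩
    exact congrArg Subtype.val this
  rw [commutator_def, Subgroup.commutator_le]
  intro x _ y _
  rw [← QuotientGroup.eq_one_iff, commutatorElement_def]
  simp only [QuotientGroup.mk_mul, QuotientGroup.mk_inv]
  rw [hQ (QuotientGroup.mk x) (QuotientGroup.mk y)]; group

/-- A maximal normal subgroup `N` of a perfect group: the quotient has no nontrivial Sylow
subgroup whose normalizer lies in its centralizer. -/
theorem no_sylow_quotient {G : Type*} [Group G] [Finite G] (N : Subgroup G) [N.Normal]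
    (hmax : ∀ K : Subgroup G, K.Normal → N ≤ K → K = N ∨ K = ⊤) (hNtop : N ≠ ⊤)
    (hperf : commutator G = ⊤) {r : ℕ} [Fact r.Prime] (R : Sylow r (G ⧸ N))
    (hR : (R : Subgroup (G ⧸ N)) ≠ ⊥)
    (hnc : Subgroup.normalizer ((R : Subgroup (G ⧸ N)) : Set (G ⧸ N))
      ≤ Subgroup.centralizer ((R : Subgroup (G ⧸ N)) : Set (G ⧸ N))) : False := by
  have hcompl := MonoidHom.ker_transferSylow_isComplement' R hnc
  generalize hKb : (MonoidHom.transferSylow R hnc).ker = Kb at hcompl
  have hKbn : Kb.Normal := by rw [← hKb]; exact MonoidHom.normal_ker _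
  have hsurj := QuotientGroup.mk'_surjective N
  have hK := hmax (Kb.comap (QuotientGroup.mk' N)) (hKbn.comap _) (by
    intro x hx
    rw [Subgroup.mem_comap]
    have : QuotientGroup.mk' N x = 1 := (QuotientGroup.eq_one_iff x).mpr hx
    rw [this]; exact Kb.one_mem)
  have hcard := hcompl.card_mul_card
  rcases hK with hK | hK
  · have hKbbot : Kb = ⊥ := by
      rw [← Subgroup.map_comap_eq_self_of_surjective hsurj Kb, hK, eq_bot_iff]
      rintro _ ⟨x, hx, rfl⟩
      exact (QuotientGroup.eq_one_iff x).mpr hx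
    have hRtop : (R : Subgroup (G ⧸ N)) = ⊤ := by
      rw [hKbbot, Subgroup.card_bot, one_mul] at hcard
      exact Subgroup.eq_top_of_card_eq _ hcard
    have hcomm : ∀ u v : G ⧸ N, u * v = v * u := by
      intro u v
      have hu : u ∈ Subgroup.normalizer ((R : Subgroup (G ⧸ N)) : Set (G ⧸ N)) := by
        rw [hRtop, Subgroup.normalizer_eq_top_iff.mpr inferInstance]; exact Subgroup.mem_top u
      have := hnc hu
      rw [hRtop, Subgroup.mem_centralizer_iff] at this
      exact (this v (Subgroup.mem_top v)).symm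
    apply hNtop
    rw [eq_top_iff, ← hperf, commutator_def, Subgroup.commutator_le]
    intro x _ y _
    rw [← QuotientGroup.eq_one_iff, commutatorElement_def]
    simp only [QuotientGroup.mk_mul, QuotientGroup.mk_inv]
    rw [hcomm x y]; group
  · have hKbtop : Kb = ⊤ := by
      rw [← Subgroup.map_comap_eq_self_of_surjective hsurj Kb, hK]
      exact Subgroup.map_top_of_surjective _ hsurj
    apply hR
    rw [hKbtop, Subgroup.card_top] at hcard
    have hpos : 0 < Nat.card (G ⧸ N) := Nat.card_pos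
    have h1 : Nat.card (R : Subgroup (G ⧸ N)) = 1 := by
      have : Nat.card (G ⧸ N) * Nat.card (R : Subgroup (G ⧸ N)) = Nat.card (G ⧸ N) * 1 := by
        rw [mul_one]; exact hcard
      exact Nat.eq_of_mul_eq_mul_left hpos this
    exact Subgroup.card_eq_one.mp h1

/-- A finite group in which every non-abelian subgroup is self-normalizing is solvable or simple. -/
theorem result {G : Type*} [Group G] [Finite G] (hS : ∀ H : Subgroup G, ¬ IsMulCommutative H → Subgroup.normalizer (H : Set G) = H) :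
    Group.IsSolvable G ∨ IsSimpleGroup G := by
  classical
  by_contra hcon
  push Not at hcon
  obtain ⟨hns, hnsimp⟩ := hcon
  -- noncommutative subgroups are self-normalizing (elementwise form)
  have hS' : ∀ H : Subgroup G, (∃ x ∈ H, ∃ y ∈ H, x * y ≠ y * x) →
      Subgroup.normalizer (H : Set G) = H := by
    rintro H ⟨x, hx, y, hy, hxy⟩
    apply hS H
    intro hc
    apply hxy
    have := hc.is_comm.comm ⟨x, hx⟩ ⟨y, hy⟩
    exact congrArg Subtype.val this
  have hnormal : ∀ H : Subgroup G, H.Normal → H ≠ ⊤ → ∀ x ∈ H, ∀ y ∈ H, x * y = y * x := by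
    intro H hHn hHtop
    by_contra hH
    push Not at hH
    apply hHtop
    have h := hS' H hH
    rw [Subgroup.normalizer_eq_top_iff.mpr hHn] at h
    exact h.symm
  have hperf : commutator G = ⊤ := by
    by_contra h
    apply hns
    have hcomm := hnormal (commutator G) inferInstance h
    rw [Group.isSolvable_def]
    refine ⟨2, ?_⟩
    rw [derivedSeries_succ, derivedSeries_one, eq_bot_iff, Subgroup.commutator_le]
    intro x hx y hy
    rw [Subgroup.mem_bot, commutatorElement_eq_one_iff_commute]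
    exact hcomm x hx y hy
  have hnt : Nontrivial G := by
    by_contra h
    rw [not_nontrivial_iff_subsingleton] at h
    apply hns
    infer_instance
  have hex : ∃ N₀ : Subgroup G, N₀.Normal ∧ N₀ ≠ ⊥ ∧ N₀ ≠ ⊤ := by
    by_contra h
    push Not at h
    apply hnsimp
    exact ⟨fun H hH => by
      by_contra hc
      push Not at hc
      exact hc.2 (h H hH hc.1)⟩
  obtain ⟨N₀, hN₀n, hN₀bot, hN₀top⟩ := hex
  have hne : Nonempty {K : Subgroup G // K.Normal ∧ N₀ ≤ K ∧ K ≠ ⊤} :=
    ⟨⟨N₀, hN₀n, le_rfl, hN₀top⟩⟩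
  obtain ⟨⟨N, hNn, hN₀N, hNtop⟩, hNmax⟩ :=
    Finite.exists_max (fun K : {K : Subgroup G // K.Normal ∧ N₀ ≤ K ∧ K ≠ ⊤} =>
      Nat.card (K : Subgroup G))
  have hmax : ∀ K : Subgroup G, K.Normal → N ≤ K → K = N ∨ K = ⊤ := by
    intro K hKn hNK
    by_contra hc
    push Not at hc
    have := hNmax ⟨K, hKn, hN₀N.trans hNK, hc.2⟩
    exact hc.1 (Subgroup.eq_of_le_of_card_ge hNK this).symm
  have hNbot : N ≠ ⊥ := fun h => hN₀bot (by rw [h] at hN₀N; exact le_bot_iff.mp hN₀N)
  have hNab := hnormal N hNn hNtop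
  have hsurj := QuotientGroup.mk'_surjective N
  -- self-normalizing subgroups of the quotient
  have hL1 : ∀ Rb : Subgroup (G ⧸ N),
      (∃ x ∈ Rb.comap (QuotientGroup.mk' N), ∃ y ∈ Rb.comap (QuotientGroup.mk' N), x * y ≠ y * x) →
      Subgroup.normalizer (Rb : Set (G ⧸ N)) = Rb := by
    intro Rb h
    have h1 := hS' _ h
    have h2 := Subgroup.comap_normalizer_eq_of_surjective Rb hsurj
    have h3 : (Subgroup.normalizer (Rb : Set (G ⧸ N))).comap (QuotientGroup.mk' N)
        = Rb.comap (QuotientGroup.mk' N) := by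
      rw [h2]; exact h1
    exact Subgroup.comap_injective hsurj h3
  have hCn : (Subgroup.centralizer (N : Set G)).Normal := inferInstance
  have hNC : N ≤ Subgroup.centralizer (N : Set G) := fun x hx y hy => hNab y hy x hx
  rcases hmax _ hCn hNC with hC | hC
  · -- the centralizer of `N` is `N`
    have hidx : N.index ≠ 1 := fun h => hNtop (Subgroup.index_eq_one.mp h)
    obtain ⟨r, hr, hrdvd⟩ := Nat.exists_prime_and_dvd hidx
    have : Fact r.Prime := ⟨hr⟩
    have hrdvd' : r ∣ Nat.card (G ⧸ N) := by rwa [← Subgroup.index_eq_card]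
    obtain ⟨R⟩ : Nonempty (Sylow r (G ⧸ N)) := inferInstance
    have hRne : (R : Subgroup (G ⧸ N)) ≠ ⊥ := R.ne_bot_of_dvd_card hrdvd'
    have hRnt : Nontrivial (R : Subgroup (G ⧸ N)) := (Subgroup.nontrivial_iff_ne_bot _).mpr hRne
    have hcen : Nontrivial (Subgroup.center (R : Subgroup (G ⧸ N))) := R.2.center_nontrivial
    obtain ⟨z, hz1⟩ := exists_ne (1 : Subgroup.center (R : Subgroup (G ⧸ N)))
    have hzb1 : ((z : (R : Subgroup (G ⧸ N))) : G ⧸ N) ≠ 1 := by
      intro h
      apply hz1
      exact Subtype.ext (Subtype.ext h)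
    have hzR : ((z : (R : Subgroup (G ⧸ N))) : G ⧸ N) ∈ (R : Subgroup (G ⧸ N)) := (z : R).2
    have hzc : ∀ u ∈ (R : Subgroup (G ⧸ N)), u * ((z : (R : Subgroup (G ⧸ N))) : G ⧸ N)
        = ((z : (R : Subgroup (G ⧸ N))) : G ⧸ N) * u := by
      intro u hu
      have := Subgroup.mem_center_iff.mp z.2 ⟨u, hu⟩
      exact congrArg Subtype.val this
    generalize ((z : (R : Subgroup (G ⧸ N))) : G ⧸ N) = zb at hzb1 hzR hzc
    obtain ⟨x, rfl⟩ := QuotientGroup.mk_surjective zb
    have hxN : x ∉ N := fun h => hzb1 ((QuotientGroup.eq_one_iff x).mpr h)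
    have hxC : x ∉ Subgroup.centralizer (N : Set G) := by rw [hC]; exact hxN
    rw [Subgroup.mem_centralizer_iff] at hxC
    push Not at hxC
    obtain ⟨n, hn, hnx⟩ := hxC
    have hnorm := hL1 (Subgroup.zpowers (QuotientGroup.mk x : G ⧸ N)) ⟨n, by
      rw [Subgroup.mem_comap]
      have : QuotientGroup.mk' N n = 1 := (QuotientGroup.eq_one_iff n).mpr hn
      rw [this]; exact Subgroup.one_mem _, x, by
      rw [Subgroup.mem_comap]; exact Subgroup.mem_zpowers _, hnx⟩
    have hRle : (R : Subgroup (G ⧸ N)) ≤ Subgroup.zpowers (QuotientGroup.mk x : G ⧸ N) := by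
      intro u hu
      rw [← hnorm]
      apply Subgroup.centralizer_le_normalizer
      rw [Subgroup.mem_centralizer_iff]
      intro h hh
      obtain ⟨j, rfl⟩ := Subgroup.mem_zpowers_iff.mp hh
      have hcomm : Commute u (QuotientGroup.mk x : G ⧸ N) := hzc u hu
      exact (hcomm.zpow_right j).eq.symm
    have hReq : (R : Subgroup (G ⧸ N)) = Subgroup.zpowers (QuotientGroup.mk x : G ⧸ N) :=
      le_antisymm hRle (by rw [Subgroup.zpowers_le]; exact hzR)
    refine no_sylow_quotient N hmax hNtop hperf R hRne ?_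
    rw [hReq, hnorm]
    intro v hv
    rw [Subgroup.mem_centralizer_iff]
    intro h hh
    obtain ⟨i, rfl⟩ := Subgroup.mem_zpowers_iff.mp hh
    obtain ⟨j, rfl⟩ := Subgroup.mem_zpowers_iff.mp hv
    rw [← zpow_add, ← zpow_add, add_comm]
  · -- `N` is central
    have hNcen : ∀ n ∈ N, ∀ g : G, g * n = n * g := by
      intro n hn g
      have hg : g ∈ Subgroup.centralizer (N : Set G) := by rw [hC]; exact Subgroup.mem_top g
      rw [Subgroup.mem_centralizer_iff] at hg
      exact (hg n hn).symm
    have hcardN : Nat.card N ≠ 1 := fun h => hNbot (Subgroup.card_eq_one.mp h)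
    obtain ⟨p, hp, hpdvd⟩ := Nat.exists_prime_and_dvd hcardN
    have : Fact p.Prime := ⟨hp⟩
    obtain ⟨⟨z, hzN⟩, hzord⟩ := exists_prime_orderOf_dvd_card' p hpdvd
    rw [Subgroup.orderOf_mk] at hzord
    have hz1 : z ≠ 1 := by
      intro h; rw [h, orderOf_one] at hzord; exact hp.one_lt.ne hzord
    have hzpp : z ^ p = 1 := by rw [← hzord]; exact pow_orderOf_eq_one z
    have hzp : IsPGroup p (Subgroup.zpowers z) := by
      rw [IsPGroup.iff_card]
      exact ⟨1, by rw [Nat.card_zpowers, hzord, pow_one]⟩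
    obtain ⟨P, hzP⟩ := hzp.exists_le_sylow
    have hzP' : z ∈ (P : Subgroup G) := hzP (Subgroup.mem_zpowers z)
    -- transfer into the abelianization of `P`
    have hkey : ∀ (k : ℕ) (g₀ : G), g₀⁻¹ * z ^ k * g₀ ∈ (P : Subgroup G) →
        g₀⁻¹ * z ^ k * g₀ = z ^ k := by
      intro k g₀ _
      have := hNcen (z ^ k) (N.pow_mem hzN k) g₀
      rw [mul_assoc, ← this]; group
    have htr := MonoidHom.transfer_eq_pow (Abelianization.of : (P : Subgroup G) →* _) z hkey
    have htr1 : MonoidHom.transfer (Abelianization.of : (P : Subgroup G) →* _) z = 1 := by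
      have hle := Abelianization.commutator_subset_ker
        (MonoidHom.transfer (Abelianization.of : (P : Subgroup G) →* _))
      rw [hperf] at hle
      exact hle (Subgroup.mem_top z)
    rw [htr1] at htr
    have hmemc : (⟨z, hzP'⟩ : (P : Subgroup G)) ^ (P : Subgroup G).index
        ∈ commutator (P : Subgroup G) := by
      rw [← Abelianization.ker_of, MonoidHom.mem_ker]
      exact htr.symm
    have hzc : (⟨z, hzP'⟩ : (P : Subgroup G)) ∈ commutator (P : Subgroup G) := by
      refine Helper67.mem_of_coprime_pow_mem _ _ (a := (P : Subgroup G).index) (b := p)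
        ?_ hmemc ?_
      · exact ((Nat.Prime.coprime_iff_not_dvd hp).mpr P.not_dvd_index).symm
      · have : (⟨z, hzP'⟩ : (P : Subgroup G)) ^ p = 1 := Subtype.ext hzpp
        rw [this]; exact Subgroup.one_mem _
    have hzP1 : (⟨z, hzP'⟩ : (P : Subgroup G)) ≠ 1 := fun h => hz1 (congrArg Subtype.val h)
    -- `P` is not commutative
    have hPnc : ∃ a b : (P : Subgroup G), a * b ≠ b * a := by
      by_contra h
      push Not at h
      apply hzP1
      have hbot : commutator (P : Subgroup G) ≤ ⊥ := by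
        rw [commutator_def, Subgroup.commutator_le]
        intro x _ y _
        rw [Subgroup.mem_bot, commutatorElement_eq_one_iff_commute]
        exact h x y
      exact Subgroup.mem_bot.mp (hbot hzc)
    obtain ⟨a, b, hab⟩ := hPnc
    have hPG : ∃ x ∈ (P : Subgroup G), ∃ y ∈ (P : Subgroup G), x * y ≠ y * x :=
      ⟨a, a.2, b, b.2, fun h => hab (Subtype.ext h)⟩
    have hPnorm := hS' P hPG
    have hNP : N ≤ (P : Subgroup G) := by
      intro n hn
      rw [← hPnorm]
      apply Helper67.mem_normalizer_of_forall_conj_mem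
      intro x hx
      have : n * x * n⁻¹ = x := by
        rw [← hNcen n hn x]; group
      rw [this]; exact hx
    -- minimality
    have hPnil : Group.IsNilpotent (P : Subgroup G) := P.2.isNilpotent
    have hmin : ∀ H : Subgroup (P : Subgroup G), H ≠ ⊤ → ∀ x ∈ H, ∀ y ∈ H, x * y = y * x := by
      intro H hH
      by_contra hc
      push Not at hc
      obtain ⟨x, hx, y, hy, hxy⟩ := hc
      apply hH
      apply (normalizerCondition_iff_only_full_group_self_normalizing.mp
        Group.normalizerCondition_of_isNilpotent) H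
      apply le_antisymm _ Subgroup.le_normalizer
      intro g hg
      have hQ := hS' (H.map (P : Subgroup G).subtype) ⟨x, ⟨x, hx, rfl⟩, y, ⟨y, hy, rfl⟩,
        fun h => hxy (Subtype.ext h)⟩
      have hgQ : (g : G) ∈ Subgroup.normalizer ((H.map (P : Subgroup G).subtype : Subgroup G) : Set G) := by
        apply Helper67.mem_normalizer_of_forall_conj_mem
        rintro _ ⟨h, hh, rfl⟩
        rw [Subgroup.mem_normalizer_iff] at hg
        exact ⟨g * h * g⁻¹, (hg h).mp hh, rfl⟩
      rw [hQ] at hgQ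
      obtain ⟨g', hg', hgg'⟩ := hgQ
      have : g' = g := Subtype.ext hgg'
      rw [← this]; exact hg'
    obtain ⟨hcp, hcle⟩ := minimal_nonabelian P.2 hmin a b hab
    have hc1 : a * b * a⁻¹ * b⁻¹ ≠ 1 := by
      intro h
      apply hab
      calc a * b = (a * b * a⁻¹ * b⁻¹) * (b * a) := by group
        _ = b * a := by rw [h, one_mul]
    generalize a * b * a⁻¹ * b⁻¹ = c at hcp hcle hc1
    have hzc' : (⟨z, hzP'⟩ : (P : Subgroup G)) ∈ Subgroup.zpowers c := hcle hzc
    have hzpow : Subgroup.zpowers (⟨z, hzP'⟩ : (P : Subgroup G)) = Subgroup.zpowers c := by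
      apply Subgroup.eq_of_le_of_card_ge
      · rw [Subgroup.zpowers_le]; exact hzc'
      · rw [Nat.card_zpowers, Nat.card_zpowers, orderOf_eq_prime hcp hc1, Subgroup.orderOf_mk,
          hzord]
    have hcN : (c : G) ∈ N := by
      have : c ∈ Subgroup.zpowers (⟨z, hzP'⟩ : (P : Subgroup G)) := by
        rw [hzpow]; exact Subgroup.mem_zpowers c
      obtain ⟨j, rfl⟩ := Subgroup.mem_zpowers_iff.mp this
      rw [Subgroup.coe_zpow]
      exact N.zpow_mem hzN j
    have hcommN : ∀ x ∈ (P : Subgroup G), ∀ y ∈ (P : Subgroup G), x * y * x⁻¹ * y⁻¹ ∈ N := by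
      intro x hx y hy
      have h1 : ⁅(⟨x, hx⟩ : (P : Subgroup G)), ⟨y, hy⟩⁆ ∈ commutator (P : Subgroup G) := by
        rw [commutator_def]
        exact Subgroup.commutator_mem_commutator (Subgroup.mem_top _) (Subgroup.mem_top _)
      obtain ⟨j, hj⟩ := Subgroup.mem_zpowers_iff.mp (hcle h1)
      have h2 : x * y * x⁻¹ * y⁻¹ = (c : G) ^ j := by
        have := congrArg Subtype.val hj
        rw [Subgroup.coe_zpow] at this
        rw [this]; rfl
      rw [h2]; exact N.zpow_mem hcN j
    -- the image of `P` in the quotient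
    have hPb : ((P.mapSurjective hsurj : Sylow p (G ⧸ N)) : Subgroup (G ⧸ N))
        = (P : Subgroup G).map (QuotientGroup.mk' N) := Sylow.coe_mapSurjective hsurj P
    have hcomap : ((P : Subgroup G).map (QuotientGroup.mk' N)).comap (QuotientGroup.mk' N)
        = (P : Subgroup G) := by
      apply Subgroup.comap_map_eq_self
      rw [QuotientGroup.ker_mk']; exact hNP
    have hnormb := hL1 ((P : Subgroup G).map (QuotientGroup.mk' N)) (by rw [hcomap]; exact hPG)
    refine no_sylow_quotient N hmax hNtop hperf (P.mapSurjective hsurj) ?_ ?_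
    · rw [hPb]
      intro h
      have hPN : (P : Subgroup G) ≤ N := by
        intro x hx
        have : QuotientGroup.mk' N x ∈ (P : Subgroup G).map (QuotientGroup.mk' N) := ⟨x, hx, rfl⟩
        rw [h, Subgroup.mem_bot] at this
        exact (QuotientGroup.eq_one_iff x).mp this
      exact hab (Subtype.ext (hNab a (hPN a.2) b (hPN b.2)))
    · rw [hPb, hnormb]
      rintro _ ⟨x, hx, rfl⟩
      rw [Subgroup.mem_centralizer_iff]
      rintro _ ⟨y, hy, rfl⟩
      have h := (QuotientGroup.eq_one_iff _).mpr (hcommN y hy x hx)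
      simp only [QuotientGroup.mk_mul, QuotientGroup.mk_inv] at h
      show (QuotientGroup.mk y : G ⧸ N) * QuotientGroup.mk x = QuotientGroup.mk x * QuotientGroup.mk y
      calc (QuotientGroup.mk y : G ⧸ N) * QuotientGroup.mk x
          = ((QuotientGroup.mk y : G ⧸ N) * QuotientGroup.mk x * (QuotientGroup.mk y)⁻¹
              * (QuotientGroup.mk x)⁻¹) * (QuotientGroup.mk x * QuotientGroup.mk y) := by group
        _ = QuotientGroup.mk x * QuotientGroup.mk y := by rw [h, one_mul]

end Cfsg.Agent.S4072
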