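-- Statement S4074: self-normalizing non-abelian subgroups of dihedral groups.
import Cfsg.Statements.S4074
import Cfsg.Agent.Helper67.TwoClosed
import Cfsg.Agent.Helper67.Conj

set_option autoImplicit false
open Cfsg

namespace Cfsg.Agent.S4074

open DihedralGroup in
/-- The subgroup of `DihedralGroup n` (for even `n`) consisting of the `r i` and `sr i` with `i` even. -/
def evenSub (n : ℕ) (h2 : 2 ∣ n) : Subgroup (DihedralGroup n) where
  carrier := {g | match g with
    | r i => ZMod.castHom h2 (ZMod 2) i = 0
    | sr i => ZMod.castHom h2 (ZMod 2) i = 0}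
  mul_mem' := by
    intro a b ha hb
    rcases a with i | i <;> rcases b with j | j <;>
      simp only [Set.mem_ofPred_eq, r_mul_r, r_mul_sr, sr_mul_r, sr_mul_sr, map_add, map_sub] at ha hb ⊢ <;>
      simp [ha, hb]
  one_mem' := by
    show (match (1 : DihedralGroup n) with
      | r i => ZMod.castHom h2 (ZMod 2) i = 0
      | sr i => ZMod.castHom h2 (ZMod 2) i = 0)
    rw [one_def]
    simp
  inv_mem' := by
    intro a ha
    rcases a with i | i <;>
      simp only [Set.mem_ofPred_eq, inv_r, inv_sr, map_neg] at ha ⊢ <;>
      simp [ha]

open DihedralGroup in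
theorem r_mem_evenSub (n : ℕ) (h2 : 2 ∣ n) (i : ZMod n) :
    r i ∈ evenSub n h2 ↔ ZMod.castHom h2 (ZMod 2) i = 0 := Iff.rfl

open DihedralGroup in
theorem sr_mem_evenSub (n : ℕ) (h2 : 2 ∣ n) (i : ZMod n) :
    sr i ∈ evenSub n h2 ↔ ZMod.castHom h2 (ZMod 2) i = 0 := Iff.rfl

open DihedralGroup in
/-- For n > 2, every non-abelian subgroup of the dihedral group of order 2n is self-normalizing if and only if n = 4 or n is odd. -/
theorem result (n : ℕ) (hn : 2 < n) :
    (∀ H : Subgroup (DihedralGroup n), ¬ IsMulCommutative H → Subgroup.normalizer (H : Set (DihedralGroup n)) = H) ↔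
    (n = 4 ∨ Odd n) := by
  have hne : NeZero n := ⟨by omega⟩
  constructor
  · intro hall
    by_contra hcon
    push Not at hcon
    obtain ⟨hn4, hodd⟩ := hcon
    have heven : Even n := Nat.not_odd_iff_even.mp hodd
    have h2 : 2 ∣ n := heven.two_dvd
    have hn6 : 6 ≤ n := by
      obtain ⟨k, hk⟩ := h2
      omega
    -- the subgroup of even elements
    have hnc : ¬ IsMulCommutative (evenSub n h2) := by
      intro hc
      have hr : r (2 : ZMod n) ∈ evenSub n h2 := by
        rw [r_mem_evenSub, map_ofNat]
        decide
      have hs : sr (0 : ZMod n) ∈ evenSub n h2 := by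
        rw [sr_mem_evenSub]; simp
      have hcomm := hc.is_comm.comm (⟨_, hr⟩ : evenSub n h2) ⟨_, hs⟩
      have h3 := congrArg Subtype.val hcomm
      simp only [Subgroup.coe_mul, r_mul_sr, sr_mul_r] at h3
      have h4 : (0 : ZMod n) - 2 = 0 + 2 := by
        injection h3
      have h5 : ((4 : ℕ) : ZMod n) = 0 := by
        have : (4 : ZMod n) = 0 := by linear_combination -h4
        exact_mod_cast this
      rw [ZMod.natCast_eq_zero_iff] at h5
      have := Nat.le_of_dvd (by norm_num) h5
      omega
    have hself := hall _ hnc
    have hmem : r (1 : ZMod n) ∈ Subgroup.normalizer ((evenSub n h2 : Subgroup (DihedralGroup n)) : Set (DihedralGroup n)) := by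
      apply Cfsg.Agent.Helper67.mem_normalizer_of_forall_conj_mem
      intro x hx
      rcases x with i | i
      · rw [r_mem_evenSub] at hx
        rw [inv_r, r_mul_r, r_mul_r, r_mem_evenSub]
        simp [hx]
      · rw [sr_mem_evenSub] at hx
        rw [inv_r, r_mul_sr, sr_mul_r, sr_mem_evenSub, map_add, map_sub, map_neg, map_one, hx]
        decide
    rw [hself] at hmem
    rw [r_mem_evenSub, map_one] at hmem
    exact absurd hmem (by decide)
  · rintro (rfl | hodd)
    · -- n = 4: a non-abelian subgroup is everything
      intro H hH
      have hcard : Nat.card (DihedralGroup 4) = 8 := by rw [nat_card]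
      have hdvd : Nat.card H ∣ 8 := by
        rw [← hcard]; exact Subgroup.card_subgroup_dvd_card H
      have hle : Nat.card H ≤ 8 := Nat.le_of_dvd (by norm_num) hdvd
      have hpos : 0 < Nat.card H := Nat.card_pos
      have h8 : Nat.card H = 8 := by
        by_contra h8
        apply hH
        have hcases : Nat.card H = 1 ∨ Nat.card H = 2 ∨ Nat.card H = 4 := by
          interval_cases (Nat.card H) <;> simp_all
        rcases hcases with h1 | h2 | h4
        · have : Subsingleton H := (Nat.card_eq_one_iff_unique.mp h1).1
          exact ⟨⟨fun a b => Subsingleton.elim _ _⟩⟩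
        · have hprime : Fact (Nat.Prime 2) := ⟨Nat.prime_two⟩
          have hcyc : IsCyclic H := isCyclic_of_prime_card h2
          exact hcyc.isMulCommutative
        · have hprime : Fact (Nat.Prime 2) := ⟨Nat.prime_two⟩
          have h4' : Nat.card H = 2 ^ 2 := by rw [h4]; norm_num
          exact IsPGroup.isMulCommutative_of_card_eq_prime_sq h4'
      have htop : H = ⊤ := by
        apply Subgroup.eq_top_of_card_eq
        rw [h8, hcard]
      rw [htop]
      ext g
      simp [Subgroup.mem_set_normalizer_iff]
    · -- n odd
      intro H hH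
      apply le_antisymm _ Subgroup.le_normalizer
      -- H contains a reflection
      have hrefl : ∃ i : ZMod n, sr i ∈ H := by
        by_contra hno
        push Not at hno
        apply hH
        refine ⟨⟨fun a b => ?_⟩⟩
        obtain ⟨a, ha⟩ := a
        obtain ⟨b, hb⟩ := b
        apply Subtype.ext
        simp only [Subgroup.coe_mul]
        rcases a with i | i
        · rcases b with j | j
          · rw [r_mul_r, r_mul_r, add_comm]
          · exact absurd hb (hno j)
        · exact absurd ha (hno i)
      obtain ⟨i, hi⟩ := hrefl
      have hcop : Nat.Coprime 2 n := Nat.coprime_two_left.mpr hodd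
      -- key: if r (2 * j) ∈ H then r j ∈ H
      have key : ∀ j : ZMod n, r ((2 : ZMod n) * j) ∈ H → r j ∈ H := by
        intro j hj
        apply Cfsg.Agent.Helper67.mem_of_coprime_pow_mem H (r j) hcop
        · rw [r_pow]
          have : j * ((2 : ℕ) : ZMod n) = 2 * j := by push_cast; ring
          rw [this]; exact hj
        · rw [r_pow]
          have : j * ((n : ℕ) : ZMod n) = 0 := by simp
          rw [this, r_zero]; exact H.one_mem
      intro g hg
      rw [Subgroup.mem_set_normalizer_iff] at hg
      have hconj := (hg (sr i)).mp hi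
      rcases g with j | j
      · rw [inv_r, r_mul_sr, sr_mul_r] at hconj
        have h1 : sr (i - j + -j) * sr i ∈ H := H.mul_mem hconj hi
        rw [sr_mul_sr] at h1
        apply key
        have : i - (i - j + -j) = 2 * j := by ring
        rw [this] at h1; exact h1
      · rw [inv_sr, sr_mul_sr, r_mul_sr] at hconj
        have h1 : sr i * sr (j - (i - j)) ∈ H := H.mul_mem hi hconj
        rw [sr_mul_sr] at h1
        have h2 : r (j - i) ∈ H := by
          apply key
          have : j - (i - j) - i = 2 * (j - i) := by ring
          rw [this] at h1; exact h1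
        have h3 : sr i * r (j - i) ∈ H := H.mul_mem hi h2
        rw [sr_mul_r] at h3
        have : i + (j - i) = j := by ring
        rw [this] at h3; exact h3

end Cfsg.Agent.S4074
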