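import Cfsg.Statements.S4075

set_option autoImplicit false
open Cfsg

namespace Cfsg.Agent.S4075

/-- Let G be a finite nilpotent group. Every non-abelian subgroup of G is self-normalizing if and only if G is abelian or G is a minimal non-abelian p-group for some prime p (non-abelian of prime-power order with every proper subgroup abelian). -/
theorem result {G : Type*} [Group G] [Finite G]
    [Group.IsNilpotent G] :
    (∀ H : Subgroup G, ¬ IsMulCommutative H → Subgroup.normalizer (H : Set G) = H) ↔
    (IsMulCommutative G ∨ (IsPrimePow (Nat.card G) ∧ ¬ IsMulCommutative G ∧ ∀ H : Subgroup G, H ≠ ⊤ → IsMulCommutative H)) := by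
  constructor
  · intro h
    by_cases hc : IsMulCommutative G
    · exact Or.inl hc
    · right
      have hprop : ∀ H : Subgroup G, H ≠ ⊤ → IsMulCommutative H := by
        intro H hH
        by_contra hnc
        exact hH ((normalizerCondition_iff_only_full_group_self_normalizing.mp
          Group.normalizerCondition_of_isNilpotent) H (h H hnc))
      refine ⟨?_, hc, hprop⟩
      by_contra hpp
      apply hc
      have hsyl : ∀ (p : ℕ) [Fact p.Prime] (P : Sylow p G), IsMulCommutative (P : Subgroup G) := by
        intro p hp P
        apply hprop
        intro htop
        apply hpp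
        obtain ⟨n, hn⟩ := IsPGroup.iff_card.mp P.isPGroup'
        have hcard : Nat.card G = p ^ n := by
          rw [← hn, htop, Subgroup.card_top]
        rw [hcard]
        have hn0 : n ≠ 0 := by
          rintro rfl
          apply hc
          have : Subsingleton G := (Nat.card_eq_one_iff_unique.mp (by simpa using hcard)).1
          exact ⟨⟨fun a b => Subsingleton.elim _ _⟩⟩
        exact (hp.out.prime.isPrimePow).pow hn0
      let e := Sylow.directProductOfNormal (G := G) (fun {p} _ P => inferInstance)
      refine ⟨⟨fun a b => ?_⟩⟩
      have key : ∀ x y : (∀ p : (Nat.card G).primeFactors, ∀ P : Sylow p G, (P : Subgroup G)),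
          x * y = y * x := by
        intro x y
        funext p P
        have : Fact (p : ℕ).Prime := ⟨Nat.prime_of_mem_primeFactors p.2⟩
        have := hsyl p P
        exact mul_comm' (x p P) (y p P)
      have := key (e.symm a) (e.symm b)
      have h2 := congrArg e this
      simpa using h2
  · rintro (hc | ⟨-, -, hprop⟩) H hH
    · exact absurd (by infer_instance) hH
    · have : H = ⊤ := by
        by_contra hne
        exact hH (hprop H hne)
      subst this
      ext g
      simp [Subgroup.mem_set_normalizer_iff]
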