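-- Statement S4080: an automorphism of order p of C_{p^2} x C_{p^2} (p > 3) fixes the elements of order p.
import Cfsg.Statements.S4080

set_option autoImplicit false
open Cfsg

namespace Cfsg.Agent.S4080

section core
variable {M : Type*} [AddCommGroup M]

theorem end_pow_succ_apply (U : AddMonoid.End M) (k : ℕ) (m : M) :
    (U ^ (k + 1)) m = (U ^ k) (U m) := by
  rw [pow_succ]; rfl

theorem end_pow_add_apply (U : AddMonoid.End M) (j k : ℕ) (m : M) :
    (U ^ (j + k)) m = (U ^ j) ((U ^ k) m) := by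
  rw [pow_add]; rfl

theorem end_pow_two_apply (U : AddMonoid.End M) (m : M) :
    (U ^ 2) m = U (U m) := by
  rw [pow_two]; rfl

/-- Abstract form: `M` abelian of order `p^4`, exponent `p^2`, with `Ω₁(M) = pM`; an
endomorphism `f` with `f^p = 1` fixes `Ω₁(M)` pointwise (for `p > 3`). -/
theorem core (p : ℕ) [hp : Fact p.Prime] (h3 : 3 < p) [Finite M]
    (H1 : ∀ m : M, (p ^ 2) • m = 0)
    (H2 : ∀ m : M, p • m = 0 → ∃ y : M, m = p • y)
    (H3 : Nat.card M = p ^ 4)
    (f : AddMonoid.End M) (hf : f ^ p = 1) (z : M) (hz : p • z = 0) : f z = z := by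
  classical
  set U : AddMonoid.End M := f - 1 with hU
  have hUapp : ∀ m, U m = f m - m := fun m => rfl
  have hfU : U + 1 = f := by rw [hU]; abel
  let φ : M →+ M := nsmulAddMonoidHom p
  have hφ : ∀ m, φ m = p • m := fun m => rfl
  let Ω : AddSubgroup M := φ.ker
  have hΩ : ∀ m, m ∈ Ω ↔ p • m = 0 := fun m => by
    show m ∈ φ.ker ↔ _
    rw [AddMonoidHom.mem_ker, hφ]
  have hmapΩ : ∀ (g : AddMonoid.End M) m, m ∈ Ω → g m ∈ Ω := by
    intro g m hm
    rw [hΩ] at hm ⊢
    rw [← map_nsmul, hm, map_zero]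
  have hpΩ : ∀ m, p • m ∈ Ω := by
    intro m
    rw [hΩ, ← mul_nsmul, ← pow_two]
    exact H1 m
  have hker_range : φ.range = Ω := by
    ext m
    constructor
    · rintro ⟨y, rfl⟩; exact hpΩ y
    · intro hm
      obtain ⟨y, hy⟩ := H2 m ((hΩ m).mp hm)
      exact ⟨y, hy.symm⟩
  have hcardΩ : Nat.card Ω = p ^ 2 := by
    have h1 : Ω.index = Nat.card φ.range := AddSubgroup.index_ker φ
    have h2 := AddSubgroup.card_mul_index Ω
    rw [h1, hker_range, H3] at h2
    have : Nat.card Ω * Nat.card Ω = p ^ 2 * p ^ 2 := by rw [h2]; ring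
    exact Nat.mul_self_inj.mp this
  -- U^p kills Ω
  have hUp : ∀ z ∈ Ω, (U ^ p) z = 0 := by
    intro z hz
    obtain ⟨r, hr⟩ := (Commute.one_right U).exists_add_pow_prime_eq hp.out
    rw [hfU, hf, one_pow] at hr
    have h4 : U ^ p = - ((p : AddMonoid.End M) * U * 1 * r) := by
      have h5 : U ^ p + (p : AddMonoid.End M) * U * 1 * r = 0 := by
        have h6 : (1 : AddMonoid.End M) = 1 + (U ^ p + (p : AddMonoid.End M) * U * 1 * r) :=
          calc (1 : AddMonoid.End M) = U ^ p + 1 + (p : AddMonoid.End M) * U * 1 * r := hr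
            _ = 1 + (U ^ p + (p : AddMonoid.End M) * U * 1 * r) := by abel
        exact (add_eq_left.mp h6.symm)
      exact eq_neg_of_add_eq_zero_left h5
    rw [h4]
    show -(p • U (r z)) = 0
    have : U (r z) ∈ Ω := hmapΩ U _ (hmapΩ r z hz)
    rw [hΩ] at this
    rw [this, neg_zero]
  -- U^2 kills Ω
  have hU2 : ∀ z ∈ Ω, U (U z) = 0 := by
    let U' : M →+ M := U
    have hU' : ∀ m, U' m = U m := fun m => rfl
    let K1 : AddSubgroup M := Ω ⊓ U'.ker
    let K2 : AddSubgroup M := Ω ⊓ (U'.comp U').ker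
    have hK1 : ∀ m, m ∈ K1 ↔ m ∈ Ω ∧ U m = 0 := fun m =>
      AddSubgroup.mem_inf.trans (and_congr Iff.rfl AddMonoidHom.mem_ker)
    have hK2 : ∀ m, m ∈ K2 ↔ m ∈ Ω ∧ U (U m) = 0 := fun m =>
      AddSubgroup.mem_inf.trans (and_congr Iff.rfl AddMonoidHom.mem_ker)
    have hK1Ω : K1 ≤ Ω := inf_le_left
    have hK2Ω : K2 ≤ Ω := inf_le_left
    have hK12 : K1 ≤ K2 := by
      intro m hm
      rw [hK1] at hm
      rw [hK2]
      exact ⟨hm.1, by rw [hm.2, map_zero]⟩
    have factA : (∀ z ∈ Ω, U z = 0 → z = 0) → ∀ k : ℕ, ∀ z ∈ Ω, (U ^ k) z = 0 → z = 0 := by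
      intro h k
      induction k with
      | zero => intro z _ hz0; simpa using hz0
      | succ k ih =>
        intro z hz hz0
        rw [end_pow_succ_apply] at hz0
        exact h z hz (ih (U z) (hmapΩ U z hz) hz0)
    have factB : (∀ z ∈ Ω, U (U z) = 0 → U z = 0) →
        ∀ k : ℕ, ∀ z ∈ Ω, (U ^ (k + 1)) z = 0 → U z = 0 := by
      intro h k
      induction k with
      | zero => intro z _ hz0; simpa using hz0
      | succ k ih =>
        intro z hz hz0
        rw [end_pow_succ_apply] at hz0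
        exact h z hz (ih (U z) (hmapΩ U z hz) hz0)
    have hd1 : Nat.card K1 ∣ p ^ 2 := hcardΩ ▸ AddSubgroup.card_dvd_of_le hK1Ω
    have hd2 : Nat.card K2 ∣ p ^ 2 := hcardΩ ▸ AddSubgroup.card_dvd_of_le hK2Ω
    have hd12 : Nat.card K1 ∣ Nat.card K2 := AddSubgroup.card_dvd_of_le hK12
    obtain ⟨i, hi, hci⟩ := (Nat.dvd_prime_pow hp.out).1 hd1
    obtain ⟨j, hj, hcj⟩ := (Nat.dvd_prime_pow hp.out).1 hd2
    have hp1 : 1 < p := hp.out.one_lt
    intro z hz
    have case2 : K1 = Ω → U (U z) = 0 := by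
      intro h
      have : z ∈ K1 := h ▸ hz
      rw [hK1] at this
      rw [this.2, map_zero]
    have case22 : K2 = Ω → U (U z) = 0 := by
      intro h
      have : z ∈ K2 := h ▸ hz
      rw [hK2] at this
      exact this.2
    have hi' : i = 0 ∨ i = 1 ∨ i = 2 := by omega
    rcases hi' with rfl | rfl | rfl
    · -- K1 trivial
      have hbot : K1 = ⊥ := AddSubgroup.eq_bot_of_card_eq K1 (by simpa using hci)
      have hA : ∀ z ∈ Ω, U z = 0 → z = 0 := by
        intro w hw hw0
        have : w ∈ K1 := (hK1 w).mpr ⟨hw, hw0⟩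
        rw [hbot] at this
        simpa using this
      have hz0 := factA hA p z hz (hUp z hz)
      rw [hz0, map_zero, map_zero]
    · have hj' : j = 0 ∨ j = 1 ∨ j = 2 := by omega
      rcases hj' with rfl | rfl | rfl
      · exfalso
        rw [hci, hcj] at hd12
        simp only [pow_one, pow_zero] at hd12
        have := Nat.le_of_dvd (by norm_num) hd12
        omega
      · have h12 : K1 = K2 := by
          apply AddSubgroup.eq_of_le_of_card_ge hK12
          rw [hci, hcj]
        have hB : ∀ z ∈ Ω, U (U z) = 0 → U z = 0 := by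
          intro w hw hw0
          have : w ∈ K2 := (hK2 w).mpr ⟨hw, hw0⟩
          rw [← h12, hK1] at this
          exact this.2
        have hpp : p = (p - 1) + 1 := by omega
        have hUz := hUp z hz
        rw [hpp] at hUz
        have := factB hB (p - 1) z hz hUz
        rw [this, map_zero]
      · apply case22
        apply AddSubgroup.eq_of_le_of_card_ge hK2Ω
        rw [hcardΩ, hcj]
    · apply case2
      apply AddSubgroup.eq_of_le_of_card_ge hK1Ω
      rw [hcardΩ, hci]
  -- binomial expansion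
  have hpU : ∀ y, p • U y = 0 := by
    intro y
    have hexp := (Commute.one_right U).add_pow p
    rw [hfU, hf] at hexp
    let ev : AddMonoid.End M →+ M :=
      { toFun := fun g => g y, map_zero' := rfl, map_add' := fun _ _ => rfl }
    have hev : ∀ g, ev g = g y := fun g => rfl
    have h5 := congrArg ev hexp
    rw [map_sum] at h5
    have hterm : ∀ m : ℕ, ev (U ^ m * 1 ^ (p - m) * ((p.choose m : ℕ) : AddMonoid.End M)) =
        (p.choose m) • (U ^ m) y := by
      intro m
      rw [one_pow, mul_one, hev]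
      show (U ^ m) ((p.choose m) • y) = _
      rw [map_nsmul]
    simp only [hterm] at h5
    have hsplit : ∀ (g : ℕ → M), ∑ m ∈ Finset.range (p + 1), g m =
        g 0 + g 1 + ∑ m ∈ Finset.range (p - 1), g (m + 2) := by
      intro g
      have : p + 1 = (p - 1) + 1 + 1 := by omega
      rw [this, Finset.sum_range_succ', Finset.sum_range_succ']
      abel
    rw [hsplit] at h5
    have hΩ2 : ∀ w, U (U (p • w)) = 0 := fun w => hU2 _ (hpΩ w)
    have hUUΩ : ∀ w, U (U w) ∈ Ω := by
      intro w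
      rw [hΩ, ← map_nsmul, ← map_nsmul]
      exact hΩ2 w
    have hzero : ∑ m ∈ Finset.range (p - 1), (p.choose (m + 2)) • (U ^ (m + 2)) y = 0 := by
      apply Finset.sum_eq_zero
      intro m hm
      rw [Finset.mem_range] at hm
      by_cases hlt : m + 2 < p
      · obtain ⟨c, hc⟩ := hp.out.dvd_choose_self (by omega : m + 2 ≠ 0) hlt
        have hpy : p • (U ^ (m + 2)) y = 0 := by
          rw [← map_nsmul, end_pow_add_apply, end_pow_two_apply, hΩ2, map_zero]
        rw [hc, mul_nsmul, hpy, nsmul_zero]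
      · have hmp : m + 2 = p := by omega
        obtain ⟨m', rfl⟩ : ∃ m', m = m' + 2 := ⟨m - 2, by omega⟩
        rw [end_pow_add_apply, end_pow_add_apply, end_pow_two_apply, end_pow_two_apply,
          hU2 _ (hUUΩ y), map_zero, nsmul_zero]
    rw [hzero] at h5
    simp only [Nat.choose_zero_right, pow_zero, one_nsmul, Nat.choose_one_right, pow_one,
      add_zero] at h5
    have h6 : (1 : AddMonoid.End M) y = y := rfl
    rw [hev, h6] at h5
    have h7 : y + p • U y = y := h5.symm
    exact add_eq_left.mp h7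
  obtain ⟨y, rfl⟩ := H2 z hz
  have h8 : U (p • y) = 0 := by rw [map_nsmul]; exact hpU y
  rw [hUapp] at h8
  exact sub_eq_zero.mp h8

end core

theorem zmod_div (p : ℕ) [hp : Fact p.Prime] (x : ZMod (p ^ 2)) (h : p • x = 0) :
    ∃ y : ZMod (p ^ 2), x = p • y := by
  have hne : NeZero (p ^ 2) := ⟨pow_ne_zero 2 hp.out.ne_zero⟩
  have h1 : ((p * x.val : ℕ) : ZMod (p ^ 2)) = 0 := by
    push_cast
    rw [ZMod.natCast_zmod_val]
    simpa [nsmul_eq_mul] using h
  rw [ZMod.natCast_eq_zero_iff] at h1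
  have h2 : p ∣ x.val := by
    have h1' : p * p ∣ p * x.val := (dvd_of_eq (pow_two p).symm).trans h1
    exact (Nat.mul_dvd_mul_iff_left hp.out.pos).mp h1'
  obtain ⟨k, hk⟩ := h2
  refine ⟨(k : ZMod (p ^ 2)), ?_⟩
  rw [nsmul_eq_mul, ← Nat.cast_mul, ← hk, ZMod.natCast_zmod_val]

/-- Let p > 3 be a prime and L the direct product of two cyclic groups of order p². Every automorphism of L of order p fixes every element of order p of L. -/
theorem result {p : ℕ} [Fact p.Prime] (hp : 3 < p)
    (a : MulAut (Multiplicative (ZMod (p ^ 2) × ZMod (p ^ 2)))) (ha : orderOf a = p)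
    (x : Multiplicative (ZMod (p ^ 2) × ZMod (p ^ 2))) (hx : orderOf x = p) : a x = x := by
  have hpp : p.Prime := Fact.out
  have hne : NeZero (p ^ 2) := ⟨pow_ne_zero 2 hpp.ne_zero⟩
  let f : AddMonoid.End (ZMod (p ^ 2) × ZMod (p ^ 2)) :=
    AddMonoidHom.mk' (fun m => Multiplicative.toAdd (a (Multiplicative.ofAdd m)))
      (by intro u v; simp [ofAdd_add, map_mul, toAdd_mul])
  have hfapp : ∀ m, f m = Multiplicative.toAdd (a (Multiplicative.ofAdd m)) := fun m => rfl
  have hfk : ∀ (k : ℕ) m, (f ^ k) m = Multiplicative.toAdd ((a ^ k) (Multiplicative.ofAdd m)) := by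
    intro k
    induction k with
    | zero => intro m; rfl
    | succ k ih =>
      intro m
      rw [end_pow_succ_apply, ih]
      have h1 : (a ^ (k + 1)) (Multiplicative.ofAdd m) = (a ^ k) (a (Multiplicative.ofAdd m)) := by
        rw [pow_succ a k]; rfl
      rw [h1]
      rfl
  have hf : f ^ p = 1 := by
    apply DFunLike.ext
    intro m
    have hap : a ^ p = 1 := by
      have := pow_orderOf_eq_one a
      rwa [ha] at this
    rw [hfk, hap]
    rfl
  have hxp : x ^ p = 1 := by
    have := pow_orderOf_eq_one x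
    rwa [hx] at this
  have hz : p • Multiplicative.toAdd x = 0 := by
    have := congrArg Multiplicative.toAdd hxp
    rw [toAdd_pow] at this
    exact this
  have H1 : ∀ m : ZMod (p ^ 2) × ZMod (p ^ 2), (p ^ 2) • m = 0 := by
    intro m
    ext
    · simp [nsmul_eq_mul]
      rw [show ((p : ZMod (p ^ 2)) ^ 2) = ((p ^ 2 : ℕ) : ZMod (p ^ 2)) by push_cast; rfl,
        ZMod.natCast_self, zero_mul]
    · simp [nsmul_eq_mul]
      rw [show ((p : ZMod (p ^ 2)) ^ 2) = ((p ^ 2 : ℕ) : ZMod (p ^ 2)) by push_cast; rfl,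
        ZMod.natCast_self, zero_mul]
  have H2 : ∀ m : ZMod (p ^ 2) × ZMod (p ^ 2), p • m = 0 → ∃ y, m = p • y := by
    rintro ⟨u, v⟩ h
    have hu : p • u = 0 := congrArg Prod.fst h
    have hv : p • v = 0 := congrArg Prod.snd h
    obtain ⟨u', rfl⟩ := zmod_div p u hu
    obtain ⟨v', rfl⟩ := zmod_div p v hv
    exact ⟨(u', v'), rfl⟩
  have H3 : Nat.card (ZMod (p ^ 2) × ZMod (p ^ 2)) = p ^ 4 := by
    rw [Nat.card_prod, Nat.card_zmod]; ring
  have := core p hp H1 H2 H3 f hf (Multiplicative.toAdd x) hz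
  rw [hfapp] at this
  exact this

end Cfsg.Agent.S4080
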