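-- Statement S4081: finite groups (not of prime power order) whose automorphism group has
-- exactly three orbits.
import Cfsg.Statements.S4081
import Cfsg.Agent.Helper67.ElemAbAction
import Cfsg.Agent.Helper67.PElt
import Cfsg.Agent.Helper3.Burnside2

set_option autoImplicit false
open Cfsg

namespace Cfsg.Agent.S4081

open Cfsg.Agent.Helper67
open scoped commutatorElement

/-- The structure implies three orbits. -/
theorem backward {G : Type*} [Group G] [Finite G] (p q n : ℕ) [hp : Fact p.Prime]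
    [hq : Fact q.Prime] (hpq : p ≠ q) (hn : 1 ≤ n) (hcard : Nat.card G = p ^ n * q)
    (hSyl : ∀ P : Sylow p G, (P : Subgroup G).Normal ∧
      Cfsg.IsElementaryAbelian p (P : Subgroup G))
    (hprim : orderOf (p : ZMod q) = q - 1)
    (hfpf : ∀ x y : G, orderOf x = q → orderOf y = p → x * y * x⁻¹ ≠ y) :
    Nat.card (MulAction.orbitRel.Quotient (MulAut G) G) = 3 := by
  classical
  have hp' := hp.out
  have hq' := hq.out
  have hcop : p.Coprime q := (Nat.coprime_primes hp' hq').mpr hpq
  obtain ⟨S⟩ : Nonempty (Sylow p G) := inferInstance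
  obtain ⟨hSn, hSc, hSe⟩ := hSyl S
  obtain ⟨E, hEP⟩ : ∃ E : ElemAb p G, E.P = (S : Subgroup G) := ⟨⟨S, hSn,
    fun a ha b hb => congrArg Subtype.val (hSc.is_comm.comm ⟨a, ha⟩ ⟨b, hb⟩), hSe⟩, rfl⟩
  have hPcard : Nat.card (S : Subgroup G) = p ^ n := by
    have h1 : p ^ n ∣ Nat.card (S : Subgroup G) :=
      S.pow_dvd_card_of_pow_dvd_card (by rw [hcard]; exact dvd_mul_right _ _)
    obtain ⟨k, hk⟩ := IsPGroup.iff_card.mp S.2
    have h2 : Nat.card (S : Subgroup G) ∣ p ^ n := by
      have h3 : Nat.card (S : Subgroup G) ∣ p ^ n * q := by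
        rw [← hcard]; exact Subgroup.card_subgroup_dvd_card _
      have h4 : (Nat.card (S : Subgroup G)).Coprime q := by
        rw [hk]; exact Nat.Coprime.pow_left k hcop
      exact h4.dvd_of_dvd_mul_right h3
    exact Nat.dvd_antisymm h2 h1
  have hidx : (S : Subgroup G).index = q := by
    have := (S : Subgroup G).card_mul_index
    rw [hPcard, hcard] at this
    exact Nat.eq_of_mul_eq_mul_left (pow_pos hp'.pos n) this
  have hndvd : ¬ p ∣ (S : Subgroup G).index := by
    rw [hidx]; exact fun h => hpq ((Nat.prime_dvd_prime_iff_eq hp' hq').mp h)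
  have hmemP : ∀ g : G, g ^ p = 1 → g ∈ (S : Subgroup G) := fun g hg =>
    mem_of_prime_pow_of_not_dvd_index hp' _ hndvd g 1 (by rwa [pow_one])
  have hfix : ∀ c : G, orderOf c = q → ∀ a ∈ (S : Subgroup G), c * a * c⁻¹ = a → a = 1 := by
    intro c hc a ha hca
    by_contra ha1
    exact hfpf c a hc (orderOf_eq_prime (hSe a ha) ha1) hca
  obtain ⟨x, hx⟩ := exists_prime_orderOf_dvd_card' q (by rw [hcard]; exact dvd_mul_left _ _)
  obtain ⟨y₀, hy₀⟩ := exists_prime_orderOf_dvd_card' p (by
    rw [hcard]; exact dvd_mul_of_dvd_left (dvd_pow_self p (by omega)) _)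
  have hy₀P : y₀ ∈ (S : Subgroup G) := hmemP y₀ (by rw [← hy₀]; exact pow_orderOf_eq_one y₀)
  have hcompl : (S : Subgroup G).IsComplement' (Subgroup.zpowers x) := by
    apply Subgroup.isComplement'_of_coprime
    · rw [hPcard, Nat.card_zpowers, hx, hcard]
    · rw [hPcard, Nat.card_zpowers, hx]; exact Nat.Coprime.pow_left n hcop
  have hirr : Irreducible (Polynomial.cyclotomic q (ZMod p)) := irreducible_of_orderOf hpq hprim
  rw [← hEP] at hmemP hfix hy₀P hcompl
  clear hPcard hidx hndvd hSe hSc hSn hEP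
  have hsum : ∀ c : G, orderOf c = q → ∑ i ∈ Finset.range q, (E.Θ c) ^ i = 0 := fun c hc =>
    E.sum_pow_eq_zero c q (by rw [← hc]; exact pow_orderOf_eq_one c) (hfix c hc)
  have horbP : ∀ y : G, y ∈ E.P → y ≠ 1 → ∃ σ : MulAut G, σ • y₀ = y := by
    intro y hy hy1
    have hv : E.vec y₀ hy₀P ≠ 0 := by
      intro h
      have := congrArg E.val h
      rw [E.val_vec, E.val_zero] at this
      rw [this, orderOf_one] at hy₀
      exact hp'.one_lt.ne hy₀
    have hw : E.vec y hy ≠ 0 := by
      intro h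
      have := congrArg E.val h
      rw [E.val_vec, E.val_zero] at this
      exact hy1 this
    obtain ⟨ψ, hψ, hψv⟩ := exists_commuting hirr (E.Θ x) (hsum x hx) _ _ hv hw
    obtain ⟨σ, -, hσ⟩ := E.exists_mulAut_of_addEquiv x hcompl 1 (Nat.coprime_one_left _) ψ
      (by intro v; rw [pow_one]; exact hψ v)
    refine ⟨σ, ?_⟩
    show σ y₀ = y
    have := hσ (E.vec y₀ hy₀P)
    rw [E.val_vec, hψv, E.val_vec] at this
    exact this
  have horbQ : ∀ g : G, g ∉ E.P → ∃ σ : MulAut G, σ • x = g := by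
    intro g hg
    obtain ⟨⟨u, k⟩, hgk⟩ := hcompl.2 g
    have hgk' : (u : G) * (k : G) = g := hgk
    have hk1 : (k : G) ≠ 1 := by
      intro h
      apply hg
      rw [← hgk', h, mul_one]; exact u.2
    obtain ⟨i, hi⟩ : ∃ i : ℕ, x ^ i = (k : G) :=
      (Submonoid.mem_powers_iff _ _).mp ((mem_powers_iff_mem_zpowers (x := x)).mpr k.2)
    have hiq : ¬ q ∣ i := by
      intro hd
      apply hk1
      rw [← hi]
      exact orderOf_dvd_iff_pow_eq_one.mp (by rw [hx]; exact hd)
    have hicop : i.Coprime q := ((Nat.Prime.coprime_iff_not_dvd hq').mpr hiq).symm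
    have hko : orderOf (x ^ i) = q := by
      rw [Nat.Coprime.orderOf_pow (by rw [hx]; exact hicop.symm), hx]
    have hXi : ∑ l ∈ Finset.range q, ((E.Θ x) ^ i) ^ l = 0 := by
      rw [← map_pow]; exact hsum (x ^ i) hko
    obtain ⟨φ, hφ⟩ := exists_intertwiner hirr (E.Θ x) ((E.Θ x) ^ i) (hsum x hx) hXi
    obtain ⟨τ, hτx, -⟩ := E.exists_mulAut_of_addEquiv x hcompl i (by rw [hx]; exact hicop) φ
      (by intro v; rw [map_pow]; exact hφ v)
    obtain ⟨a, ha, hak⟩ := exists_conj_eq_mul E.P (x ^ i) (hfix (x ^ i) hko) u u.2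
    refine ⟨MulAut.conj a * τ, ?_⟩
    show a * τ x * a⁻¹ = g
    rw [hτx, hak, hi, hgk']
  apply card_orbits_eq_three (1 : G) y₀ x
  · intro σ h
    have h1 : σ • (1 : G) = 1 := map_one σ
    rw [h1] at h
    rw [← h, orderOf_one] at hy₀
    exact hp'.one_lt.ne hy₀
  · intro σ h
    have h1 : σ • (1 : G) = 1 := map_one σ
    rw [h1] at h
    rw [← h, orderOf_one] at hx
    exact hq'.one_lt.ne hx
  · intro σ h
    have h1 : orderOf (σ y₀) = orderOf y₀ := MulEquiv.orderOf_eq σ y₀
    have h2 : σ y₀ = x := h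
    rw [h2, hx, hy₀] at h1
    exact hpq h1.symm
  · intro g
    by_cases hg1 : g = 1
    · left; exact ⟨1, by rw [hg1]; rfl⟩
    · by_cases hgP : g ∈ E.P
      · right; left; exact horbP g hgP hg1
      · right; right; exact horbQ g hgP

/-- The forward direction, once the primes are named so that the characteristic abelian
subgroup `A` contains an element of order `p`. -/
theorem forward_aux {G : Type*} [Group G] [Finite G] (p q : ℕ) [hp : Fact p.Prime]
    [hq : Fact q.Prime] (hpq : p ≠ q)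
    (hord : ∀ g : G, orderOf g = 1 ∨ orderOf g = p ∨ orderOf g = q)
    (hporb : ∀ g h : G, orderOf g = p → orderOf h = p → ∃ σ : MulAut G, σ g = h)
    (hqorb : ∀ g h : G, orderOf g = q → orderOf h = q → ∃ σ : MulAut G, σ g = h)
    (x : G) (hx : orderOf x = q)
    (A : Subgroup G) [hAchar : A.Characteristic] (hAab : ∀ a ∈ A, ∀ b ∈ A, a * b = b * a)
    (a₀ : G) (ha₀A : a₀ ∈ A) (ha₀ : orderOf a₀ = p) :
    ∃ n : ℕ, 1 ≤ n ∧ Nat.card G = p ^ n * q ∧
      (∀ P : Sylow p G, (P : Subgroup G).Normal ∧ Cfsg.IsElementaryAbelian p (P : Subgroup G)) ∧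
      orderOf (p : ZMod q) = q - 1 ∧
      ∀ x y : G, orderOf x = q → orderOf y = p → x * y * x⁻¹ ≠ y := by
  classical
  have hp' := hp.out
  have hq' := hq.out
  have hcop : p.Coprime q := (Nat.coprime_primes hp' hq').mpr hpq
  have hfpf : ∀ x y : G, orderOf x = q → orderOf y = p → x * y * x⁻¹ ≠ y := by
    intro x y hx hy h
    have hcomm : Commute x y := by
      show x * y = y * x
      calc x * y = (x * y * x⁻¹) * x := by group
        _ = y * x := by rw [h]
    have ho := hcomm.orderOf_mul_eq_mul_orderOf_of_coprime (by rw [hx, hy]; exact hcop.symm)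
    rw [hx, hy] at ho
    have h2p := hp'.two_le
    have h2q := hq'.two_le
    rcases hord (x * y) with h1 | h1 | h1
    · rw [h1] at ho; nlinarith
    · rw [h1] at ho; nlinarith
    · rw [h1] at ho; nlinarith
  have hA_iff : ∀ g : G, g ∈ A ↔ g ^ p = 1 := by
    intro g
    constructor
    · intro hg
      rcases hord g with h | h | h
      · rw [orderOf_eq_one_iff.mp h, one_pow]
      · rw [← h]; exact pow_orderOf_eq_one g
      · exfalso
        exact hfpf g a₀ h ha₀ (by rw [hAab g hg a₀ ha₀A]; group)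
    · intro hg
      by_cases hg1 : g = 1
      · rw [hg1]; exact A.one_mem
      · have hgo : orderOf g = p := orderOf_eq_prime hg hg1
        obtain ⟨σ, hσ⟩ := hporb a₀ g ha₀ hgo
        rw [← hσ]
        have := Subgroup.characteristic_iff_map_eq.mp hAchar σ
        rw [← this]
        exact ⟨a₀, ha₀A, rfl⟩
  have hAn : A.Normal := inferInstance
  have hpel : ∀ (g : G) (k : ℕ), g ^ (p ^ k) = 1 → g ∈ A := by
    intro g k hg
    rw [hA_iff]
    rcases hord g with h | h | h
    · rw [orderOf_eq_one_iff.mp h, one_pow]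
    · rw [← h]; exact pow_orderOf_eq_one g
    · exfalso
      have : q ∣ p ^ k := by rw [← h]; exact orderOf_dvd_of_pow_eq_one hg
      exact hpq ((Nat.prime_dvd_prime_iff_eq hq' hp').mp (hq'.dvd_of_dvd_pow this)).symm
  have hAp : IsPGroup p A := by
    intro a
    exact ⟨1, Subtype.ext (by rw [pow_one]; exact (hA_iff a).mp a.2)⟩
  have hSyl : ∀ P : Sylow p G, (P : Subgroup G) = A := by
    intro P
    apply le_antisymm
    · intro g hg
      obtain ⟨k, hk⟩ := P.2 ⟨g, hg⟩
      exact hpel g k (congrArg Subtype.val hk)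
    · exact hAp.le_sylow_of_normal P
  obtain ⟨n, hn⟩ := IsPGroup.iff_card.mp hAp
  have hn1 : 1 ≤ n := by
    by_contra h
    have h0 : n = 0 := by omega
    rw [h0, pow_zero] at hn
    have hbot := Subgroup.card_eq_one.mp hn
    rw [hbot, Subgroup.mem_bot] at ha₀A
    rw [ha₀A, orderOf_one] at ha₀
    exact hp'.one_lt.ne ha₀
  have hfix : ∀ c : G, orderOf c = q → ∀ a ∈ A, c * a * c⁻¹ = a → a = 1 := by
    intro c hc a ha hca
    by_contra ha1
    exact hfpf c a hc (orderOf_eq_prime ((hA_iff a).mp ha) ha1) hca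
  have hσA : ∀ (σ : MulAut G) (a : G), a ∈ A → σ a ∈ A := by
    intro σ a ha
    rw [hA_iff] at ha ⊢
    rw [← map_pow, ha, map_one]
  obtain ⟨E, hEP⟩ : ∃ E : ElemAb p G, E.P = A :=
    ⟨⟨A, hAn, hAab, fun a ha => (hA_iff a).mp ha⟩, rfl⟩
  subst hEP
  obtain ⟨Q⟩ : Nonempty (Sylow q G) := inferInstance
  have hQord : ∀ c ∈ (Q : Subgroup G), c ≠ 1 → orderOf c = q := by
    intro c hc hc1
    obtain ⟨k, hk⟩ := Q.2 ⟨c, hc⟩
    have hk' : c ^ (q ^ k) = 1 := congrArg Subtype.val hk
    rcases hord c with h | h | h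
    · exact absurd (orderOf_eq_one_iff.mp h) hc1
    · exfalso
      have : p ∣ q ^ k := by rw [← h]; exact orderOf_dvd_of_pow_eq_one hk'
      exact hpq ((Nat.prime_dvd_prime_iff_eq hp' hq').mp (hp'.dvd_of_dvd_pow this))
    · exact h
  have hQcard : Nat.card (Q : Subgroup G) = q := by
    have hqdvd : q ∣ Nat.card G := by rw [← hx]; exact orderOf_dvd_natCard x
    have hQne : (Q : Subgroup G) ≠ ⊥ := Q.ne_bot_of_dvd_card hqdvd
    have hQnt : Nontrivial (Q : Subgroup G) := (Subgroup.nontrivial_iff_ne_bot _).mpr hQne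
    have hcen : Nontrivial (Subgroup.center (Q : Subgroup G)) := Q.2.center_nontrivial
    obtain ⟨z, hz1⟩ := exists_ne (1 : Subgroup.center (Q : Subgroup G))
    have hzb1 : ((z : (Q : Subgroup G)) : G) ≠ 1 := fun h => hz1 (Subtype.ext (Subtype.ext h))
    have hzQ : ((z : (Q : Subgroup G)) : G) ∈ (Q : Subgroup G) := (z : Q).2
    have hzc : ∀ u ∈ (Q : Subgroup G),
        ((z : (Q : Subgroup G)) : G) * u = u * ((z : (Q : Subgroup G)) : G) := by
      intro u hu
      have := Subgroup.mem_center_iff.mp z.2 ⟨u, hu⟩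
      exact (congrArg Subtype.val this).symm
    generalize ((z : (Q : Subgroup G)) : G) = z' at hzb1 hzQ hzc
    have hzo : orderOf z' = q := hQord z' hzQ hzb1
    have hQz : (Q : Subgroup G) = Subgroup.zpowers z' := by
      apply le_antisymm _ (by rw [Subgroup.zpowers_le]; exact hzQ)
      intro u hu
      by_contra hunot
      have hu1 : u ≠ 1 := fun h => hunot (by rw [h]; exact Subgroup.one_mem _)
      have huo : orderOf u = q := hQord u hu hu1
      have key := E.eq_one_of_pair hq' hpq z' u (hzc u hu)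
        (by rw [← hzo]; exact pow_orderOf_eq_one z') (by rw [← huo]; exact pow_orderOf_eq_one u)
        (by
          intro j hj
          apply hfix
          apply hQord _ (Subgroup.mul_mem _ hzQ (Subgroup.pow_mem _ hu j))
          intro h
          have hz'u : z' ∈ Subgroup.zpowers u := by
            have : z' = (u ^ j)⁻¹ := eq_inv_of_mul_eq_one_left h
            rw [this]
            exact Subgroup.inv_mem _ (Subgroup.pow_mem _ (Subgroup.mem_zpowers u) j)
          have hle : Subgroup.zpowers z' ≤ Subgroup.zpowers u := by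
            rw [Subgroup.zpowers_le]; exact hz'u
          have heq : Subgroup.zpowers z' = Subgroup.zpowers u :=
            Subgroup.eq_of_le_of_card_ge hle (by rw [Nat.card_zpowers, Nat.card_zpowers, hzo, huo])
          apply hunot
          rw [heq]; exact Subgroup.mem_zpowers u)
        (by
          intro i hi0 hiq
          apply hfix
          apply hQord _ (Subgroup.pow_mem _ hu i)
          intro h
          have : q ∣ i := by rw [← huo]; exact orderOf_dvd_of_pow_eq_one h
          exact absurd (Nat.le_of_dvd hi0 this) (by omega))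
      have := key a₀ ha₀A
      rw [this, orderOf_one] at ha₀
      exact hp'.one_lt.ne ha₀
    rw [hQz, Nat.card_zpowers, hzo]
  have hGcard : Nat.card G = p ^ n * q := by
    obtain ⟨P⟩ : Nonempty (Sylow p G) := inferInstance
    have hPA := hSyl P
    have hnd : ¬ p ∣ E.P.index := by rw [← hPA]; exact P.not_dvd_index
    have hmul : Nat.card E.P * E.P.index = Nat.card G := E.P.card_mul_index
    have hm0 : E.P.index ≠ 0 := Subgroup.index_ne_zero_of_finite
    have hpow : E.P.index = q ^ (E.P.index.primeFactorsList.length) :=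
      Nat.eq_prime_pow_of_unique_prime_dvd hm0 (by
        intro r hr hrd
        have : Fact r.Prime := ⟨hr⟩
        obtain ⟨g, hg⟩ := exists_prime_orderOf_dvd_card' (G := G) r
          (by rw [← hmul]; exact dvd_mul_of_dvd_right hrd _)
        rcases hord g with h | h | h
        · rw [hg] at h; exact absurd h hr.one_lt.ne'
        · rw [hg] at h; exact absurd (h ▸ hrd) hnd
        · rw [hg] at h; exact h)
    generalize E.P.index.primeFactorsList.length = c at hpow
    have hc1 : c = 1 := by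
      have h1 : q ^ c ∣ Nat.card G := by rw [← hmul, hpow]; exact dvd_mul_left _ _
      have h2 := Q.pow_dvd_card_of_pow_dvd_card h1
      rw [hQcard] at h2
      have hc_le : c ≤ 1 := by
        by_contra hgt
        push Not at hgt
        have h3 : q ^ 2 ∣ q := (pow_dvd_pow q hgt).trans h2
        have h4 := Nat.le_of_dvd hq'.pos h3
        nlinarith [hq'.one_lt]
      have hc_pos : c ≠ 0 := by
        rintro rfl
        rw [pow_zero] at hpow
        have hAtop : E.P = ⊤ := Subgroup.index_eq_one.mp hpow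
        have hxA : x ∈ E.P := by rw [hAtop]; exact Subgroup.mem_top x
        have hxp := (hA_iff x).mp hxA
        have hqp : q ∣ p := by rw [← hx]; exact orderOf_dvd_of_pow_eq_one hxp
        exact hpq ((Nat.prime_dvd_prime_iff_eq hq' hp').mp hqp).symm
      omega
    rw [← hmul, hn, hpow, hc1, pow_one]
  have hcompl : E.P.IsComplement' (Subgroup.zpowers x) := by
    apply Subgroup.isComplement'_of_coprime
    · rw [hn, Nat.card_zpowers, hx, hGcard]
    · rw [hn, Nat.card_zpowers, hx]; exact Nat.Coprime.pow_left n hcop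
  have hsum : ∀ c : G, orderOf c = q → ∑ i ∈ Finset.range q, (E.Θ c) ^ i = 0 := fun c hc =>
    E.sum_pow_eq_zero c q (by rw [← hc]; exact pow_orderOf_eq_one c) (hfix c hc)
  have key : ∀ (σ : MulAut G) (j : ℕ), σ x = x ^ j →
      ∃ φ : Additive E.P ≃+ Additive E.P, (∀ v, φ (E.Θ x v) = ((E.Θ x) ^ j) (φ v)) ∧
        ∀ v, E.val (φ v) = σ (E.val v) := by
    intro σ j hσ
    obtain ⟨φ, hφ⟩ := E.exists_addEquiv_of_mulAut σ (hσA σ)
    refine ⟨φ, fun v => ?_, hφ⟩
    apply E.val_injective
    rw [hφ, E.val_Θ, ← map_pow, E.val_Θ, hφ, map_mul, map_mul, map_inv, hσ]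
  have hirr : Irreducible (Polynomial.cyclotomic q (ZMod p)) := by
    have hnt : Nontrivial (Additive E.P) := by
      refine ⟨⟨E.vec a₀ ha₀A, 0, fun h => ?_⟩⟩
      have := congrArg E.val h
      rw [E.val_vec, E.val_zero] at this
      rw [this, orderOf_one] at ha₀
      exact hp'.one_lt.ne ha₀
    apply cyclotomic_irreducible_of_transitive hpq (E.Θ x) (hsum x hx)
    · intro j hj0 hjq
      have hjo : orderOf (x ^ j) = q := by
        rw [Nat.Coprime.orderOf_pow (by rw [hx]; exact Nat.coprime_of_lt_prime hj0.ne' hjq hq'), hx]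
      obtain ⟨σ, hσ⟩ := hqorb x (x ^ j) hx hjo
      obtain ⟨φ, hφ, -⟩ := key σ j hσ
      exact ⟨φ, hφ⟩
    · intro v w hv hw
      have hvo : orderOf (E.val v) = p := orderOf_eq_prime ((hA_iff _).mp (E.val_mem v))
        (fun h => hv ((E.val_eq_one_iff v).mp h))
      have hwo : orderOf (E.val w) = p := orderOf_eq_prime ((hA_iff _).mp (E.val_mem w))
        (fun h => hw ((E.val_eq_one_iff w).mp h))
      obtain ⟨σ, hσ⟩ := hporb _ _ hvo hwo
      obtain ⟨⟨u, k⟩, huk⟩ := hcompl.2 (σ x)
      have huk' : (u : G) * (k : G) = σ x := huk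
      have hσxo : orderOf (σ x) = q := by rw [MulEquiv.orderOf_eq, hx]
      have hk1 : (k : G) ≠ 1 := by
        intro h
        have h1 : σ x ∈ E.P := by rw [← huk', h, mul_one]; exact u.2
        have h2 := (hA_iff _).mp h1
        have hqp : q ∣ p := by rw [← hσxo]; exact orderOf_dvd_of_pow_eq_one h2
        exact hpq ((Nat.prime_dvd_prime_iff_eq hq' hp').mp hqp).symm
      obtain ⟨i, hi⟩ : ∃ i : ℕ, x ^ i = (k : G) :=
        (Submonoid.mem_powers_iff _ _).mp ((mem_powers_iff_mem_zpowers (x := x)).mpr k.2)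
      have hi' : x ^ (i % q) = (k : G) := by rw [← hi, ← hx, pow_mod_orderOf]
      have hj0 : 0 < i % q := by
        rcases Nat.eq_zero_or_pos (i % q) with h | h
        · rw [h, pow_zero] at hi'; exact absurd hi'.symm hk1
        · exact h
      have hjq : i % q < q := Nat.mod_lt _ hq'.pos
      have hko : orderOf (x ^ (i % q)) = q := by
        rw [Nat.Coprime.orderOf_pow (by rw [hx]; exact Nat.coprime_of_lt_prime hj0.ne' hjq hq'), hx]
      obtain ⟨a, ha, hak⟩ := exists_conj_eq_mul E.P (x ^ (i % q)) (hfix _ hko) u u.2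
      have hσ'x : (MulAut.conj a⁻¹ * σ) x = x ^ (i % q) := by
        show a⁻¹ * σ x * a⁻¹⁻¹ = _
        rw [← huk', ← hi', ← hak]; group
      obtain ⟨φ, hφ, hφval⟩ := key (MulAut.conj a⁻¹ * σ) (i % q) hσ'x
      refine ⟨i % q, hj0, hjq, φ, hφ, ?_⟩
      apply E.val_injective
      rw [hφval]
      show a⁻¹ * σ (E.val v) * a⁻¹⁻¹ = E.val w
      rw [hσ, inv_inv, hAab a⁻¹ (E.P.inv_mem ha) _ (E.val_mem w)]; group
  refine ⟨n, hn1, hGcard, ?_, orderOf_eq_of_irreducible hpq hirr, hfpf⟩
  intro P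
  rw [hSyl P]
  exact ⟨hAn, ⟨⟨fun a b => Subtype.ext (hAab a a.2 b b.2)⟩⟩, fun a ha => (hA_iff a).mp ha⟩

/-- Let G be a finite group whose order is not a prime power. Then the automorphism group of G has exactly three orbits on G if and only if there are distinct primes p, q with #G = pⁿ·q (n ≥ 1) such that G has a normal elementary abelian Sylow p-subgroup P, p is a primitive root modulo q (the multiplicative order of p mod q is q − 1), and every element of order q of G acts on P without non-identity fixed points. -/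
theorem result {G : Type*} [Group G] [Finite G] (hnpp : ¬ IsPrimePow (Nat.card G)) (hnt : Nat.card G ≠ 1) :
    Nat.card (MulAction.orbitRel.Quotient (MulAut G) G) = 3 ↔
    ∃ (p q n : ℕ) (_ : Fact p.Prime) (_ : Fact q.Prime), p ≠ q ∧ 1 ≤ n ∧ Nat.card G = p ^ n * q ∧
      (∀ P : Sylow p G, (P : Subgroup G).Normal ∧ Cfsg.IsElementaryAbelian p (P : Subgroup G)) ∧
      orderOf (p : ZMod q) = q - 1 ∧
      ∀ x y : G, orderOf x = q → orderOf y = p → x * y * x⁻¹ ≠ y := by
  classical
  constructor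
  · intro h3
    obtain ⟨p₀, hp₀, hp₀d⟩ := Nat.exists_prime_and_dvd hnt
    have hex : ∃ q₀, q₀.Prime ∧ q₀ ∣ Nat.card G ∧ q₀ ≠ p₀ := by
      by_contra h
      push Not at h
      apply hnpp
      have hpow := Nat.eq_prime_pow_of_unique_prime_dvd (Nat.card_pos (α := G)).ne'
        (fun {d} hd hdd => h d hd hdd)
      rw [isPrimePow_nat_iff]
      refine ⟨p₀, _, hp₀, ?_, hpow.symm⟩
      by_contra hk
      have hk0 : (Nat.card G).primeFactorsList.length = 0 := by omega
      rw [hk0, pow_zero] at hpow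
      exact hnt hpow
    obtain ⟨q₀, hq₀, hq₀d, hq₀p⟩ := hex
    have hFp : Fact p₀.Prime := ⟨hp₀⟩
    have hFq : Fact q₀.Prime := ⟨hq₀⟩
    obtain ⟨a₀, ha₀⟩ := exists_prime_orderOf_dvd_card' (G := G) p₀ hp₀d
    obtain ⟨b₀, hb₀⟩ := exists_prime_orderOf_dvd_card' (G := G) q₀ hq₀d
    have hord_inv : ∀ (σ : MulAut G) (g : G), orderOf (σ • g) = orderOf g :=
      fun σ g => MulEquiv.orderOf_eq σ g
    have hcover := exists_smul_eq_of_card_three h3 (1 : G) a₀ b₀
      (by
        intro σ h
        have h1 := hord_inv σ 1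
        rw [h, ha₀, orderOf_one] at h1
        exact hp₀.one_lt.ne' h1)
      (by
        intro σ h
        have h1 := hord_inv σ 1
        rw [h, hb₀, orderOf_one] at h1
        exact hq₀.one_lt.ne' h1)
      (by
        intro σ h
        have h1 := hord_inv σ a₀
        rw [h, hb₀, ha₀] at h1
        exact hq₀p h1)
    have hord : ∀ g : G, orderOf g = 1 ∨ orderOf g = p₀ ∨ orderOf g = q₀ := by
      intro g
      rcases hcover g with ⟨σ, h⟩ | ⟨σ, h⟩ | ⟨σ, h⟩
      · left; rw [← h, hord_inv, orderOf_one]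
      · right; left; rw [← h, hord_inv, ha₀]
      · right; right; rw [← h, hord_inv, hb₀]
    have hporb : ∀ g h : G, orderOf g = p₀ → orderOf h = p₀ → ∃ σ : MulAut G, σ g = h := by
      have aux : ∀ g : G, orderOf g = p₀ → ∃ σ : MulAut G, σ a₀ = g := by
        intro g hg
        rcases hcover g with ⟨σ, h⟩ | ⟨σ, h⟩ | ⟨σ, h⟩
        · exfalso; rw [← h, hord_inv, orderOf_one] at hg; exact hp₀.one_lt.ne hg
        · exact ⟨σ, h⟩
        · exfalso; rw [← h, hord_inv, hb₀] at hg; exact hq₀p hg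
      intro g h hg hh
      obtain ⟨σ₁, h1⟩ := aux g hg
      obtain ⟨σ₂, h2⟩ := aux h hh
      refine ⟨σ₂ * σ₁⁻¹, ?_⟩
      rw [← h1, ← h2]
      show σ₂ (σ₁⁻¹ (σ₁ a₀)) = σ₂ a₀
      rw [MulAut.inv_apply_self]
    have hqorb : ∀ g h : G, orderOf g = q₀ → orderOf h = q₀ → ∃ σ : MulAut G, σ g = h := by
      have aux : ∀ g : G, orderOf g = q₀ → ∃ σ : MulAut G, σ b₀ = g := by
        intro g hg
        rcases hcover g with ⟨σ, h⟩ | ⟨σ, h⟩ | ⟨σ, h⟩
        · exfalso; rw [← h, hord_inv, orderOf_one] at hg; exact hq₀.one_lt.ne hg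
        · exfalso; rw [← h, hord_inv, ha₀] at hg; exact hq₀p hg.symm
        · exact ⟨σ, h⟩
      intro g h hg hh
      obtain ⟨σ₁, h1⟩ := aux g hg
      obtain ⟨σ₂, h2⟩ := aux h hh
      refine ⟨σ₂ * σ₁⁻¹, ?_⟩
      rw [← h1, ← h2]
      show σ₂ (σ₁⁻¹ (σ₁ b₀)) = σ₂ b₀
      rw [MulAut.inv_apply_self]
    -- the order of `G` is `p₀ ^ a * q₀ ^ b`
    have hsolv : Group.IsSolvable G := by
      obtain ⟨a, m, hm, hcard⟩ := Nat.exists_eq_pow_mul_and_not_dvd (Nat.card_pos (α := G)).ne' p₀
        hp₀.ne_one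
      have hm0 : m ≠ 0 := by
        rintro rfl
        rw [mul_zero] at hcard
        exact (Nat.card_pos (α := G)).ne' hcard
      have hmpow := Nat.eq_prime_pow_of_unique_prime_dvd (p := q₀) hm0 (by
        intro r hr hrd
        have : Fact r.Prime := ⟨hr⟩
        obtain ⟨g, hg⟩ := exists_prime_orderOf_dvd_card' (G := G) r
          (by rw [hcard]; exact dvd_mul_of_dvd_right hrd _)
        rcases hord g with h | h | h
        · rw [hg] at h; exact absurd h hr.one_lt.ne'
        · rw [hg] at h; exact absurd (h ▸ hrd) hm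
        · rw [hg] at h; exact h)
      exact Helper3.isSolvable_of_card_eq p₀ q₀ a _ hp₀ hq₀ (by rw [hcard, ← hmpow])
    have hGnt : Nontrivial G := by
      rw [← Finite.one_lt_card_iff_nontrivial]
      have := Nat.card_pos (α := G)
      omega
    -- the last nontrivial term of the derived series
    obtain ⟨k, hk⟩ := (Group.isSolvable_def G).mp hsolv
    have hfind : ∃ k, derivedSeries G k = ⊥ := ⟨k, hk⟩
    have hmin : ∀ {m : ℕ}, m < Nat.find hfind → ¬ derivedSeries G m = ⊥ :=
      fun {m} hm => Nat.find_min hfind hm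
    have hspec := Nat.find_spec hfind
    have hk0 : Nat.find hfind ≠ 0 := by
      intro h0
      rw [h0, derivedSeries_zero] at hspec
      exact top_ne_bot hspec
    obtain ⟨j, hj⟩ := Nat.exists_eq_succ_of_ne_zero hk0
    have hAne : derivedSeries G j ≠ ⊥ := hmin (by rw [hj]; exact Nat.lt_succ_self j)
    have hAab : ∀ a ∈ derivedSeries G j, ∀ b ∈ derivedSeries G j, a * b = b * a := by
      intro a ha b hb
      rw [hj, derivedSeries_succ] at hspec
      have : ⁅a, b⁆ ∈ (⊥ : Subgroup G) := by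
        rw [← hspec]; exact Subgroup.commutator_mem_commutator ha hb
      rw [Subgroup.mem_bot, commutatorElement_eq_one_iff_commute] at this
      exact this
    have hAcard : Nat.card (derivedSeries G j) ≠ 1 := fun h => hAne (Subgroup.card_eq_one.mp h)
    obtain ⟨r, hr, hrd⟩ := Nat.exists_prime_and_dvd hAcard
    have hFr : Fact r.Prime := ⟨hr⟩
    obtain ⟨⟨a, haA⟩, ha⟩ := exists_prime_orderOf_dvd_card' (G := derivedSeries G j) r hrd
    rw [Subgroup.orderOf_mk] at ha
    rcases hord a with h | h | h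
    · rw [ha] at h; exact absurd h hr.one_lt.ne'
    · rw [ha] at h
      obtain ⟨n, hn1, hc, hS, hprim, hfpf⟩ := forward_aux p₀ q₀ (Ne.symm hq₀p) hord hporb hqorb
        b₀ hb₀ (derivedSeries G j) hAab a haA (by rw [ha, h])
      exact ⟨p₀, q₀, n, hFp, hFq, Ne.symm hq₀p, hn1, hc, hS, hprim, hfpf⟩
    · rw [ha] at h
      obtain ⟨n, hn1, hc, hS, hprim, hfpf⟩ := forward_aux q₀ p₀ hq₀p
        (fun g => (hord g).imp id Or.symm) hqorb hporb
        a₀ ha₀ (derivedSeries G j) hAab a haA (by rw [ha, h])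
      exact ⟨q₀, p₀, n, hFq, hFp, hq₀p, hn1, hc, hS, hprim, hfpf⟩
  · rintro ⟨p, q, n, hFp, hFq, hpq, hn, hcard, hSyl, hprim, hfpf⟩
    exact backward p q n hpq hn hcard hSyl hprim hfpf

end Cfsg.Agent.S4081
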