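import Cfsg.Statements.S4082
import Cfsg.Agent.Helper67.TwoClosed
import Cfsg.Agent.Helper67.Conj
import Cfsg.Agent.Helper67.PElt
import Cfsg.Agent.Helper20.FusionTools
import Cfsg.Agent.Helper20.Recog

set_option autoImplicit false
open Cfsg

namespace Cfsg.Agent.S4082

open Cfsg.Agent.Helper67

/-- Iterated conjugation of an element mapped to a power of itself. -/
theorem conj_pow_iter {G : Type*} [Group G] (x s : G) (c : ℕ) (h : x * s * x⁻¹ = s ^ c) (l : ℕ) :
    x ^ l * s * (x ^ l)⁻¹ = s ^ (c ^ l) := by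
  induction l with
  | zero => simp
  | succ l ih =>
    have e : x ^ (l + 1) * s * (x ^ (l + 1))⁻¹ = x * (x ^ l * s * (x ^ l)⁻¹) * x⁻¹ := by
      rw [pow_succ']; group
    rw [e, ih, ← conj_pow, h, ← pow_mul, pow_succ']

/-- A subgroup generated by a normal `p`-subgroup and one more element satisfies the two
hypotheses of the statement. -/
theorem pbc {G : Type*} [Group G] [Finite G] {p : ℕ} [Fact p.Prime] (H Q : Subgroup G)
    (hQH : Q ≤ H) (hQ : IsPGroup p Q) (w : G) (hwH : w ∈ H)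
    (hn : ∀ h ∈ H, ∀ q ∈ Q, h * q * h⁻¹ ∈ Q)
    (hgen : ∀ h ∈ H, ∃ q ∈ Q, ∃ i : ℤ, h = q * w ^ i) :
    (∀ S : Sylow p ↥H, (S : Subgroup ↥H).Normal) ∧
    (∀ (S : Sylow p ↥H) [(S : Subgroup ↥H).Normal], IsCyclic (↥H ⧸ (S : Subgroup ↥H))) := by
  have hQ'n : (Q.subgroupOf H).Normal := by
    constructor
    intro q hq h
    rw [Subgroup.mem_subgroupOf] at hq ⊢
    exact hn h h.2 q hq
  have hQ'p : IsPGroup p (Q.subgroupOf H) := hQ.comap_subtype
  have hle : ∀ S : Sylow p ↥H, Q.subgroupOf H ≤ S := fun S => hQ'p.le_sylow_of_normal S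
  have hdec : ∀ γ : ↥H, ∃ q ∈ Q.subgroupOf H, ∃ i : ℤ, γ = q * (⟨w, hwH⟩ : ↥H) ^ i := by
    intro γ
    obtain ⟨q, hq, i, hi⟩ := hgen γ γ.2
    refine ⟨⟨q, hQH hq⟩, Subgroup.mem_subgroupOf.mpr hq, i, ?_⟩
    apply Subtype.ext
    rw [Subgroup.coe_mul, Subgroup.coe_zpow]
    exact hi
  constructor
  · intro S
    constructor
    intro s hs γ
    obtain ⟨q, hq, i, hi⟩ := hdec γ
    obtain ⟨q₂, hq₂, j, hj⟩ := hdec s
    have hwj : (⟨w, hwH⟩ : ↥H) ^ j ∈ (S : Subgroup ↥H) := by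
      have h1 : (⟨w, hwH⟩ : ↥H) ^ j = q₂⁻¹ * s := by rw [hj]; group
      rw [h1]
      exact Subgroup.mul_mem _ (Subgroup.inv_mem _ (hle S hq₂)) hs
    have h2 : γ * s * γ⁻¹ = q * ((⟨w, hwH⟩ : ↥H) ^ i * q₂ * ((⟨w, hwH⟩ : ↥H) ^ i)⁻¹)
        * (⟨w, hwH⟩ : ↥H) ^ j * q⁻¹ := by
      rw [hi, hj]
      have h3 : (⟨w, hwH⟩ : ↥H) ^ j * ((⟨w, hwH⟩ : ↥H) ^ i)⁻¹
          = ((⟨w, hwH⟩ : ↥H) ^ i)⁻¹ * (⟨w, hwH⟩ : ↥H) ^ j := by
        rw [← zpow_neg, ← zpow_add, ← zpow_add, add_comm]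
      calc q * (⟨w, hwH⟩ : ↥H) ^ i * (q₂ * (⟨w, hwH⟩ : ↥H) ^ j) * (q * (⟨w, hwH⟩ : ↥H) ^ i)⁻¹
          = q * (⟨w, hwH⟩ : ↥H) ^ i * q₂ * ((⟨w, hwH⟩ : ↥H) ^ j * ((⟨w, hwH⟩ : ↥H) ^ i)⁻¹) * q⁻¹ := by
            group
        _ = q * ((⟨w, hwH⟩ : ↥H) ^ i * q₂ * ((⟨w, hwH⟩ : ↥H) ^ i)⁻¹)
            * (⟨w, hwH⟩ : ↥H) ^ j * q⁻¹ := by rw [h3]; group
    rw [h2]
    exact Subgroup.mul_mem _ (Subgroup.mul_mem _ (Subgroup.mul_mem _ (hle S hq)
      (hle S (hQ'n.conj_mem q₂ hq₂ _))) hwj) (Subgroup.inv_mem _ (hle S hq))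
  · intro S _
    refine ⟨⟨QuotientGroup.mk ⟨w, hwH⟩, fun y => ?_⟩⟩
    obtain ⟨γ, rfl⟩ := QuotientGroup.mk_surjective y
    obtain ⟨q, hq, i, hi⟩ := hdec γ
    refine Subgroup.mem_zpowers_iff.mpr ⟨i, ?_⟩
    rw [hi, QuotientGroup.mk_mul, QuotientGroup.mk_zpow,
      (QuotientGroup.eq_one_iff q).mpr (hle S hq), one_mul]

/-- A `p`-element normalizing a subgroup of order `p` centralizes it. -/
theorem centralizes_of_p_elt {G : Type*} [Group G] [Finite G] {p : ℕ} [Fact p.Prime]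
    (Q : Subgroup G) (hQ : Nat.card Q = p) (w : G) (k : ℕ) (hk : w ^ (p ^ k) = 1)
    (hw : ∀ q ∈ Q, w * q * w⁻¹ ∈ Q) : ∀ q ∈ Q, q * w = w * q := by
  have hpP : p.Prime := Fact.out
  by_cases hQb : ∀ q ∈ Q, q = 1
  · intro q hq; rw [hQb q hq, one_mul, mul_one]
  push Not at hQb
  obtain ⟨q₁, hq₁, hq₁1⟩ := hQb
  have hq₁o : orderOf q₁ = p := by
    have h1 : orderOf (⟨q₁, hq₁⟩ : Q) ∣ Nat.card Q := orderOf_dvd_natCard _
    rw [Subgroup.orderOf_mk, hQ] at h1
    rcases (Nat.dvd_prime hpP).mp h1 with h2 | h2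
    · exact absurd (orderOf_eq_one_iff.mp h2) hq₁1
    · exact h2
  have hQz : Subgroup.zpowers q₁ = Q := by
    apply Subgroup.eq_of_le_of_card_ge (by rw [Subgroup.zpowers_le]; exact hq₁)
    rw [Nat.card_zpowers, hq₁o, hQ]
  have h1 : w * q₁ * w⁻¹ ∈ Subgroup.zpowers q₁ := by rw [hQz]; exact hw q₁ hq₁
  rw [← mem_powers_iff_mem_zpowers] at h1
  obtain ⟨c, hc⟩ := (Submonoid.mem_powers_iff _ _).mp h1
  have h2 := conj_pow_iter w q₁ c hc.symm (p ^ k)
  rw [hk, one_mul, inv_one, mul_one] at h2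
  have h3 : c ^ (p ^ k) ≡ 1 [MOD p] := by
    have h4 := (pow_eq_pow_iff_modEq (x := q₁) (n := c ^ (p ^ k)) (m := 1)).mp
      (by rw [← h2, pow_one])
    rwa [hq₁o] at h4
  have h5 : c ≡ 1 [MOD p] := by
    rw [← ZMod.natCast_eq_natCast_iff] at h3 ⊢
    rw [Nat.cast_pow, ZMod.pow_card_pow] at h3
    exact h3
  have h6 : w * q₁ * w⁻¹ = q₁ := by
    rw [← hc]
    have h7 := (pow_eq_pow_iff_modEq (x := q₁) (n := c) (m := 1)).mpr (by rw [hq₁o]; exact h5)
    rw [h7, pow_one]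
  have h8 : Commute q₁ w := by
    show q₁ * w = w * q₁
    calc q₁ * w = (w * q₁ * w⁻¹) * w := by rw [h6]
      _ = w * q₁ := by group
  intro q hq
  rw [← hQz] at hq
  obtain ⟨i, rfl⟩ := Subgroup.mem_zpowers_iff.mp hq
  exact (h8.zpow_left i).eq

/-- The trichotomy for an element normalizing a `p`-subgroup in a group with restricted
`p`-by-cyclic subgroups. -/
theorem trichotomy {G : Type*} [Group G] [Finite G] {p : ℕ} [Fact p.Prime] (hp : p ≠ 2)
    (hR : ∀ H : Subgroup G, (∀ S : Sylow p ↥H, (S : Subgroup ↥H).Normal) →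
        (∀ (S : Sylow p ↥H) [(S : Subgroup ↥H).Normal], IsCyclic (↥H ⧸ (S : Subgroup ↥H))) →
        IsCyclic H ∨ (∃ n : ℕ, Nonempty (H ≃* DihedralGroup (p ^ n))))
    (Q : Subgroup G) (hQ : IsPGroup p Q) (w : G) (hw : ∀ q ∈ Q, w * q * w⁻¹ ∈ Q) :
    (∀ q ∈ Q, w * q = q * w) ∨ (∃ k : ℕ, w ^ (p ^ k) = 1) ∨
      (w ^ 2 = 1 ∧ ∀ q ∈ Q, w * q * w⁻¹ = q⁻¹) := by
  have hpP : p.Prime := Fact.out
  have hwN : w ∈ Subgroup.normalizer (Q : Set G) := mem_normalizer_of_forall_conj_mem Q w hw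
  set H := Q ⊔ Subgroup.zpowers w with hH
  have hQH : Q ≤ H := le_sup_left
  have hwH : w ∈ H := (le_sup_right : Subgroup.zpowers w ≤ H) (Subgroup.mem_zpowers w)
  have hzN : Subgroup.zpowers w ≤ Subgroup.normalizer (Q : Set G) := by
    rw [Subgroup.zpowers_le]; exact hwN
  have hgen : ∀ h ∈ H, ∃ q ∈ Q, ∃ i : ℤ, h = q * w ^ i := by
    intro h hh
    have h1 : h ∈ ((Q ⊔ Subgroup.zpowers w : Subgroup G) : Set G) := hh
    rw [Subgroup.coe_mul_of_right_le_normalizer_left Q _ hzN] at h1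
    obtain ⟨q, hq, z, hz, rfl⟩ := h1
    obtain ⟨i, rfl⟩ := Subgroup.mem_zpowers_iff.mp hz
    exact ⟨q, hq, i, rfl⟩
  have hn : ∀ h ∈ H, ∀ q ∈ Q, h * q * h⁻¹ ∈ Q := by
    intro h hh q hq
    have hhN : h ∈ Subgroup.normalizer (Q : Set G) := (sup_le Subgroup.le_normalizer hzN) hh
    exact (Subgroup.mem_set_normalizer_iff.mp hhN q).mp hq
  obtain ⟨h1, h2⟩ := pbc H Q hQH hQ w hwH hn hgen
  rcases hR H h1 h2 with hcyc | ⟨n, ⟨e⟩⟩
  · left
    intro q hq
    obtain ⟨g, hg⟩ := hcyc.exists_generator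
    obtain ⟨a, ha⟩ := Subgroup.mem_zpowers_iff.mp (hg ⟨w, hwH⟩)
    obtain ⟨b, hb⟩ := Subgroup.mem_zpowers_iff.mp (hg ⟨q, hQH hq⟩)
    have h3 : (⟨w, hwH⟩ : H) * ⟨q, hQH hq⟩ = ⟨q, hQH hq⟩ * ⟨w, hwH⟩ := by
      rw [← ha, ← hb, ← zpow_add, ← zpow_add, add_comm]
    exact congrArg Subtype.val h3
  · right
    rcases hew : e ⟨w, hwH⟩ with i | i
    · left
      refine ⟨n, ?_⟩
      have h3 : (e ⟨w, hwH⟩) ^ (p ^ n) = 1 := by
        rw [hew, DihedralGroup.r_pow]
        have h4 : ((p ^ n : ℕ) : ZMod (p ^ n)) = 0 := ZMod.natCast_self _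
        rw [h4, mul_zero, DihedralGroup.r_zero]
      rw [← map_pow] at h3
      have h4 : (⟨w, hwH⟩ : H) ^ (p ^ n) = 1 := e.injective (by rw [h3, map_one])
      have h5 := congrArg Subtype.val h4
      simpa using h5
    · right
      have hw2 : (⟨w, hwH⟩ : H) * ⟨w, hwH⟩ = 1 := by
        apply e.injective
        rw [map_mul, hew, DihedralGroup.sr_mul_self, map_one]
      refine ⟨by rw [pow_two]; exact congrArg Subtype.val hw2, ?_⟩
      intro q hq
      rcases heq : e ⟨q, hQH hq⟩ with j | j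
      · have h5 : (⟨q, hQH hq⟩ : H) * ⟨w, hwH⟩ * ⟨q, hQH hq⟩ = ⟨w, hwH⟩ := by
          apply e.injective
          rw [map_mul, map_mul, hew, heq, DihedralGroup.r_mul_sr, DihedralGroup.sr_mul_r]
          congr 1; ring
        have h6 : q * w * q = w := congrArg Subtype.val h5
        calc w * q * w⁻¹ = q⁻¹ * (q * w * q) * w⁻¹ := by group
          _ = q⁻¹ := by rw [h6]; group
      · exfalso
        have hq2 : (⟨q, hQH hq⟩ : H) * ⟨q, hQH hq⟩ = 1 := by
          apply e.injective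
          rw [map_mul, heq, DihedralGroup.sr_mul_self, map_one]
        have hq2' : q ^ 2 = 1 := by rw [pow_two]; exact congrArg Subtype.val hq2
        obtain ⟨k, hk⟩ := hQ ⟨q, hq⟩
        have hk' : q ^ (p ^ k) = 1 := by
          have := congrArg Subtype.val hk
          simpa using this
        have hq1 : q = 1 := by
          have h7 := mem_of_coprime_pow_mem (⊥ : Subgroup G) q (a := 2) (b := p ^ k)
            (Nat.Coprime.pow_right k ((Nat.coprime_primes Nat.prime_two hpP).mpr (Ne.symm hp)))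
            (by rw [hq2']; exact Subgroup.one_mem _) (by rw [hk']; exact Subgroup.one_mem _)
          exact Subgroup.mem_bot.mp h7
        have h8 : e ⟨q, hQH hq⟩ = 1 := by
          have h9 : (⟨q, hQH hq⟩ : H) = 1 := Subtype.ext hq1
          rw [h9, map_one]
        rw [heq, DihedralGroup.one_def] at h8
        cases h8

/-- The core of the converse: a subgroup `H` with a normal subgroup `S₁ ≤ P` and a generator `x`
of order prime to `p` modulo `S₁`. -/
theorem int_lemma {G : Type*} [Group G] [Finite G] {p : ℕ} [Fact p.Prime] (P : Sylow p G)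
    (hPc : IsCyclic P)
    (hcase : Subgroup.normalizer ((P : Subgroup G) : Set G) = Subgroup.centralizer ((P : Subgroup G) : Set G) ∨
       ((Subgroup.centralizer ((P : Subgroup G) : Set G)).relIndex (Subgroup.normalizer ((P : Subgroup G) : Set G)) = 2 ∧
        ∀ Q : Subgroup G, Q ≤ P → Nat.card Q = p →
          IsMulCommutative ↥(Subgroup.centralizer (Q : Set G)) ∧
          ∀ x : G, x ∈ Subgroup.normalizer (Q : Set G) → x ∉ Subgroup.centralizer (Q : Set G) →
            orderOf x = 2 ∧ ∀ c : G, c ∈ Subgroup.centralizer (Q : Set G) → x * c * x⁻¹ = c⁻¹))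
    (H S₁ : Subgroup G) (hS₁H : S₁ ≤ H) (hS₁P : S₁ ≤ P)
    (hn : ∀ h ∈ H, ∀ s ∈ S₁, h * s * h⁻¹ ∈ S₁)
    (x : G) (hxH : x ∈ H) (hxo : (orderOf x).Coprime p)
    (hgen : ∀ h ∈ H, ∃ s ∈ S₁, ∃ i : ℤ, h = s * x ^ i) :
    IsCyclic H ∨ ∃ n : ℕ, Nonempty (H ≃* DihedralGroup (p ^ n)) := by
  classical
  have hpP : p.Prime := Fact.out
  have hPcomm : ∀ a ∈ (P : Subgroup G), ∀ b ∈ (P : Subgroup G), a * b = b * a := by
    intro a ha b hb
    obtain ⟨g, hg⟩ := hPc.exists_generator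
    obtain ⟨i, hi⟩ := Subgroup.mem_zpowers_iff.mp (hg ⟨a, ha⟩)
    obtain ⟨j, hj⟩ := Subgroup.mem_zpowers_iff.mp (hg ⟨b, hb⟩)
    have h3 : (⟨a, ha⟩ : P) * ⟨b, hb⟩ = ⟨b, hb⟩ * ⟨a, ha⟩ := by
      rw [← hi, ← hj, ← zpow_add, ← zpow_add, add_comm]
    exact congrArg Subtype.val h3
  have hS₁c : IsCyclic S₁ := by
    have h1 : IsCyclic (S₁.subgroupOf P) := inferInstance
    exact isCyclic_of_surjective (Subgroup.subgroupOfEquivOfLe hS₁P) (MulEquiv.surjective _)
  obtain ⟨s₁', hs₁'⟩ := hS₁c.exists_generator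
  set s₁ : G := (s₁' : G) with hs₁def
  have hs₁S : s₁ ∈ S₁ := s₁'.2
  have hS₁gen : ∀ s ∈ S₁, ∃ a : ℕ, s = s₁ ^ a := by
    intro s hs
    have h1 := hs₁' ⟨s, hs⟩
    rw [← mem_powers_iff_mem_zpowers] at h1
    obtain ⟨a, ha⟩ := (Submonoid.mem_powers_iff _ _).mp h1
    refine ⟨a, ?_⟩
    have h2 := congrArg Subtype.val ha
    simpa using h2.symm
  have hS₁p : IsPGroup p S₁ := P.isPGroup'.to_le hS₁P
  obtain ⟨n, hn'⟩ := IsPGroup.iff_card.mp hS₁p
  have hs₁o : orderOf s₁ = p ^ n := by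
    rw [← hn', hs₁def, Subgroup.orderOf_coe]
    exact orderOf_eq_card_of_forall_mem_zpowers hs₁'
  obtain ⟨c, hc⟩ := hS₁gen _ (hn x hxH s₁ hs₁S)
  by_cases hA : x * s₁ * x⁻¹ = s₁
  · left
    have hcomm : Commute s₁ x := by
      show s₁ * x = x * s₁
      calc s₁ * x = (x * s₁ * x⁻¹) * x := by rw [hA]
        _ = x * s₁ := by group
    set g := s₁ * x with hg
    have hxg : x ∈ Subgroup.zpowers g := by
      have h1 : g ^ (p ^ n) = x ^ (p ^ n) := by
        rw [hg, hcomm.mul_pow, ← hs₁o, pow_orderOf_eq_one, one_mul]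
      obtain ⟨m, hm⟩ := exists_pow_eq_self_of_coprime (x := x) (n := p ^ n)
        (Nat.Coprime.pow_left n hxo.symm)
      rw [← hm, ← h1]
      exact Subgroup.pow_mem _ (Subgroup.pow_mem _ (Subgroup.mem_zpowers g) _) _
    have hsg : s₁ ∈ Subgroup.zpowers g := by
      have h1 : s₁ = g * x⁻¹ := by rw [hg]; group
      rw [h1]; exact Subgroup.mul_mem _ (Subgroup.mem_zpowers g) (Subgroup.inv_mem _ hxg)
    have hgH : g ∈ H := H.mul_mem (hS₁H hs₁S) hxH
    refine ⟨⟨⟨g, hgH⟩, fun h => ?_⟩⟩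
    obtain ⟨s, hs, i, hi⟩ := hgen h h.2
    obtain ⟨a, ha⟩ := hS₁gen s hs
    have h1 : (h : G) ∈ Subgroup.zpowers g := by
      rw [hi, ha]
      exact Subgroup.mul_mem _ (Subgroup.pow_mem _ hsg _) (Subgroup.zpow_mem _ hxg _)
    obtain ⟨k, hk⟩ := Subgroup.mem_zpowers_iff.mp h1
    refine Subgroup.mem_zpowers_iff.mpr ⟨k, ?_⟩
    apply Subtype.ext
    rw [Subgroup.coe_zpow]
    exact hk
  · right
    have hn0 : n ≠ 0 := by
      rintro rfl
      rw [pow_zero, orderOf_eq_one_iff] at hs₁o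
      apply hA; rw [hs₁o]; group
    obtain ⟨n', rfl⟩ : ∃ n', n = n' + 1 := ⟨n - 1, by omega⟩
    set q₀ := s₁ ^ (p ^ n') with hq₀
    have hq₀o : orderOf q₀ = p := by
      rw [hq₀, orderOf_pow_of_dvd (pow_ne_zero _ hpP.ne_zero)
        (by rw [hs₁o]; exact pow_dvd_pow p (by omega)), hs₁o, pow_succ,
        Nat.mul_div_cancel_left _ (pow_pos hpP.pos _)]
    set Q := Subgroup.zpowers q₀ with hQ
    have hQcard : Nat.card Q = p := by rw [hQ, Nat.card_zpowers, hq₀o]
    have hQS : Q ≤ S₁ := by rw [hQ, Subgroup.zpowers_le]; exact S₁.pow_mem hs₁S _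
    have hQP : Q ≤ P := hQS.trans hS₁P
    have hxq₀ : x * q₀ * x⁻¹ = q₀ ^ c := by
      rw [hq₀, ← conj_pow, hc, ← pow_mul, ← pow_mul, mul_comm]
    have hxNQ : x ∈ Subgroup.normalizer (Q : Set G) := by
      apply mem_normalizer_of_forall_conj_mem
      intro q hq
      obtain ⟨i, rfl⟩ := Subgroup.mem_zpowers_iff.mp hq
      rw [← conj_zpow, hxq₀]
      exact Subgroup.zpow_mem _ (Subgroup.pow_mem _ (Subgroup.mem_zpowers q₀) _) _
    have hxCQ : x ∉ Subgroup.centralizer (Q : Set G) := by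
      intro hcen
      apply hA
      have h1 : q₀ * x = x * q₀ :=
        (Subgroup.mem_centralizer_iff.mp hcen) q₀ (Subgroup.mem_zpowers q₀)
      have h2 : x * q₀ * x⁻¹ = q₀ := by rw [← h1]; group
      rw [hxq₀] at h2
      have h3 : c ≡ 1 [MOD p] := by
        have h4 := (pow_eq_pow_iff_modEq (x := q₀) (n := c) (m := 1)).mp (by rw [h2, pow_one])
        rwa [hq₀o] at h4
      have h4 : c ^ (p ^ n') ≡ 1 [MOD p ^ (n' + 1)] := by
        have h5 : (p : ℤ) ∣ (c : ℤ) - 1 := by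
          have h6 := (Nat.modEq_iff_dvd.mp h3.symm)
          simpa using h6
        have h6 := dvd_sub_pow_of_dvd_sub h5 n'
        rw [one_pow] at h6
        apply Nat.ModEq.symm
        rw [Nat.modEq_iff_dvd]
        push_cast
        exact h6
      have h7 := conj_pow_iter x s₁ c hc (p ^ n')
      have h8 : s₁ ^ (c ^ (p ^ n')) = s₁ := by
        have h9 := (pow_eq_pow_iff_modEq (x := s₁) (n := c ^ (p ^ n')) (m := 1)).mpr
          (by rw [hs₁o]; exact h4)
        rw [h9, pow_one]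
      rw [h8] at h7
      obtain ⟨m, hm⟩ := exists_pow_eq_self_of_coprime (x := x) (n := p ^ n')
        (Nat.Coprime.pow_left n' hxo.symm)
      have h9 : Commute (x ^ (p ^ n')) s₁ := by
        show x ^ (p ^ n') * s₁ = s₁ * x ^ (p ^ n')
        calc x ^ (p ^ n') * s₁ = (x ^ (p ^ n') * s₁ * (x ^ (p ^ n'))⁻¹) * x ^ (p ^ n') := by group
          _ = s₁ * x ^ (p ^ n') := by rw [h7]
      have h10 : Commute x s₁ := by rw [← hm]; exact h9.pow_left m
      calc x * s₁ * x⁻¹ = s₁ * x * x⁻¹ := by rw [h10.eq]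
        _ = s₁ := by group
    have hPQ : (P : Subgroup G) ≤ Subgroup.centralizer (Q : Set G) := by
      intro u hu; rw [Subgroup.mem_centralizer_iff]; intro q hq; exact hPcomm q (hQP hq) u hu
    rcases hcase with hNC | ⟨-, hQall⟩
    · exfalso
      apply hxCQ
      have hconjP : ∀ u ∈ (P : Subgroup G), x * u * x⁻¹ ∈ Subgroup.centralizer (Q : Set G) := by
        intro u hu
        rw [Subgroup.mem_centralizer_iff]
        intro q hq
        have hq' : x⁻¹ * q * x ∈ Q := by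
          have h1 := (Subgroup.mem_set_normalizer_iff.mp (Subgroup.inv_mem _ hxNQ) q).mp hq
          simpa using h1
        have h1 := hPcomm (x⁻¹ * q * x) (hQP hq') u hu
        calc q * (x * u * x⁻¹) = x * ((x⁻¹ * q * x) * u) * x⁻¹ := by group
          _ = x * (u * (x⁻¹ * q * x)) * x⁻¹ := by rw [h1]
          _ = x * u * x⁻¹ * q := by group
      set Px : Subgroup G := (P : Subgroup G).map (MulAut.conj x).toMonoidHom with hPx
      have hPxC : Px ≤ Subgroup.centralizer (Q : Set G) := by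
        rintro _ ⟨u, hu, rfl⟩
        have h1 := hconjP u hu
        simpa using h1
      have hPxp : IsPGroup p Px := P.isPGroup'.map _
      obtain ⟨c₁, hc₁, hc₁P⟩ := Cfsg.Agent.Helper20.exists_conj_le_sylow_of_le P
        (Subgroup.centralizer (Q : Set G)) hPQ Px hPxC hPxp
      have h1 : c₁⁻¹ * x ∈ Subgroup.normalizer ((P : Subgroup G) : Set G) := by
        apply mem_normalizer_of_forall_conj_mem
        intro u hu
        have h2 := hc₁P (x * u * x⁻¹) ⟨u, hu, by simp⟩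
        have e : c₁⁻¹ * x * u * (c₁⁻¹ * x)⁻¹ = c₁⁻¹ * (x * u * x⁻¹) * c₁ := by group
        rw [e]; exact h2
      rw [hNC] at h1
      have h2 : c₁⁻¹ * x ∈ Subgroup.centralizer (Q : Set G) :=
        Subgroup.centralizer_le hQP h1
      have h3 : x = c₁ * (c₁⁻¹ * x) := by group
      rw [h3]; exact Subgroup.mul_mem _ hc₁ h2
    · obtain ⟨-, hx2⟩ := hQall Q hQP hQcard
      obtain ⟨hxo2, hxinv⟩ := hx2 x hxNQ hxCQ
      have hxx : x * x = 1 := by rw [← pow_two, ← hxo2]; exact pow_orderOf_eq_one x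
      have hxs : x * s₁ * x⁻¹ = s₁⁻¹ := hxinv s₁ (hPQ (hS₁P hs₁S))
      have hxz : x ∉ Subgroup.zpowers s₁ := by
        intro h
        apply hxCQ
        exact hPQ (hS₁P ((Subgroup.zpowers_le.mpr hs₁S) h))
      have hNZ : NeZero (p ^ (n' + 1)) := ⟨pow_ne_zero _ hpP.ne_zero⟩
      refine ⟨n' + 1, Cfsg.Agent.Helper20.nonempty_mulEquiv_dihedral_of H (p ^ (n' + 1)) s₁ x
        (hS₁H hs₁S) hxH hs₁o hxx hxs hxz ?_⟩
      intro g hg
      obtain ⟨s, hs, i, hi⟩ := hgen g hg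
      obtain ⟨a, ha⟩ := hS₁gen s hs
      have hxi : x ^ i = 1 ∨ x ^ i = x := by
        rcases Int.emod_two_eq_zero_or_one i with h0 | h1
        · left
          obtain ⟨k, hk⟩ : ∃ k, i = 2 * k := ⟨i / 2, by omega⟩
          rw [hk, zpow_mul, zpow_ofNat, pow_two, hxx, one_zpow]
        · right
          obtain ⟨k, hk⟩ : ∃ k, i = 2 * k + 1 := ⟨i / 2, by omega⟩
          rw [hk, zpow_add, zpow_mul, zpow_ofNat, pow_two, hxx, one_zpow, one_mul, zpow_one]
      rcases hxi with h0 | h1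
      · exact ⟨a, Or.inl (by rw [hi, h0, mul_one, ha])⟩
      · refine ⟨(p ^ (n' + 1) - 1) * a, Or.inr ?_⟩
        rw [hi, h1, ha]
        have hinv : s₁⁻¹ = s₁ ^ (p ^ (n' + 1) - 1) := by
          have h2 : s₁ ^ (p ^ (n' + 1) - 1) * s₁ = 1 := by
            rw [← pow_succ, Nat.sub_add_cancel (Nat.one_le_pow _ _ hpP.pos), ← hs₁o,
              pow_orderOf_eq_one]
          exact (eq_inv_of_mul_eq_one_left h2).symm
        have h2 : x * s₁ ^ a * x⁻¹ = (s₁ ^ a)⁻¹ := by rw [← conj_pow, hxs, inv_pow]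
        have hxi' : x⁻¹ = x := inv_eq_of_mul_eq_one_left hxx
        calc s₁ ^ a * x = x * x * s₁ ^ a * x⁻¹ := by rw [hxx, one_mul, hxi']
          _ = x * (x * s₁ ^ a * x⁻¹) := by group
          _ = x * (s₁ ^ a)⁻¹ := by rw [h2]
          _ = x * s₁ ^ ((p ^ (n' + 1) - 1) * a) := by rw [← inv_pow, hinv, ← pow_mul]

/-- Let p be an odd prime and G a finite group with Sylow p-subgroup P. Say that G has restricted p-by-cyclic subgroups when every subgroup H of G whose Sylow p-subgroup is normal in H with cyclic quotient is itself cyclic or dihedral of order 2pⁿ for some n. Then G has restricted p-by-cyclic subgroups if and only if P is cyclic and one of the following holds: (1) N_G(P) = C_G(P); or (2) N_G(P)/C_G(P) has order 2 and, for the subgroup Q of order p of P, the centralizer C_G(Q) is abelian and every element of N_G(Q) outside C_G(Q) is an involution inverting every element of C_G(Q). -/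
theorem result {G : Type*} [Group G] [Finite G] {p : ℕ}
    [Fact p.Prime] (hp : p ≠ 2) (P : Sylow p G) :
    (∀ H : Subgroup G, (∀ S : Sylow p ↥H, (S : Subgroup ↥H).Normal) →
        (∀ (S : Sylow p ↥H) [(S : Subgroup ↥H).Normal], IsCyclic (↥H ⧸ (S : Subgroup ↥H))) →
        IsCyclic H ∨ (∃ n : ℕ, Nonempty (H ≃* DihedralGroup (p ^ n)))) ↔
    (IsCyclic P ∧
      (Subgroup.normalizer ((P : Subgroup G) : Set G) = Subgroup.centralizer ((P : Subgroup G) : Set G) ∨
       ((Subgroup.centralizer ((P : Subgroup G) : Set G)).relIndex (Subgroup.normalizer ((P : Subgroup G) : Set G)) = 2 ∧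
        ∀ Q : Subgroup G, Q ≤ P → Nat.card Q = p →
          IsMulCommutative ↥(Subgroup.centralizer (Q : Set G)) ∧
          ∀ x : G, x ∈ Subgroup.normalizer (Q : Set G) → x ∉ Subgroup.centralizer (Q : Set G) →
            orderOf x = 2 ∧ ∀ c : G, c ∈ Subgroup.centralizer (Q : Set G) → x * c * x⁻¹ = c⁻¹))) := by
  classical
  have hpP : p.Prime := Fact.out
  constructor
  · intro hR
    have hPc : IsCyclic P := by
      have hgenP : ∀ h ∈ (P : Subgroup G), ∃ q ∈ (P : Subgroup G), ∃ i : ℤ,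
          h = q * (1 : G) ^ i := fun h hh => ⟨h, hh, 0, by simp⟩
      obtain ⟨h1, h2⟩ := pbc (P : Subgroup G) P le_rfl P.isPGroup' 1 (Subgroup.one_mem _)
        (fun h hh q hq => (P : Subgroup G).mul_mem ((P : Subgroup G).mul_mem hh hq)
          ((P : Subgroup G).inv_mem hh)) hgenP
      rcases hR P h1 h2 with hc | ⟨n, ⟨e⟩⟩
      · exact hc
      · exfalso
        have hc1 : Nat.card P = 2 * p ^ n := by
          rw [Nat.card_congr e.toEquiv, DihedralGroup.nat_card]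
        obtain ⟨k, hk⟩ := IsPGroup.iff_card.mp P.isPGroup'
        rw [hk] at hc1
        have h3 : 2 ∣ p ^ k := ⟨p ^ n, hc1⟩
        have h4 := Nat.Prime.dvd_of_dvd_pow Nat.prime_two h3
        exact hp ((Nat.prime_dvd_prime_iff_eq Nat.prime_two hpP).mp h4).symm
    refine ⟨hPc, ?_⟩
    have hPcomm : ∀ a ∈ (P : Subgroup G), ∀ b ∈ (P : Subgroup G), a * b = b * a := by
      intro a ha b hb
      obtain ⟨g, hg⟩ := hPc.exists_generator
      obtain ⟨i, hi⟩ := Subgroup.mem_zpowers_iff.mp (hg ⟨a, ha⟩)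
      obtain ⟨j, hj⟩ := Subgroup.mem_zpowers_iff.mp (hg ⟨b, hb⟩)
      have h3 : (⟨a, ha⟩ : P) * ⟨b, hb⟩ = ⟨b, hb⟩ * ⟨a, ha⟩ := by
        rw [← hi, ← hj, ← zpow_add, ← zpow_add, add_comm]
      exact congrArg Subtype.val h3
    have hb : ∀ x ∈ Subgroup.normalizer ((P : Subgroup G) : Set G),
        x ∉ Subgroup.centralizer ((P : Subgroup G) : Set G) →
        x ^ 2 = 1 ∧ ∀ u ∈ (P : Subgroup G), x * u * x⁻¹ = u⁻¹ := by
      intro x hxN hxC
      have hxn : ∀ q ∈ (P : Subgroup G), x * q * x⁻¹ ∈ (P : Subgroup G) :=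
        fun q hq => (Subgroup.mem_set_normalizer_iff.mp hxN q).mp hq
      rcases trichotomy hp hR P P.isPGroup' x hxn with h1 | ⟨k, hk⟩ | h3
      · exfalso; apply hxC; rw [Subgroup.mem_centralizer_iff]
        intro u hu; exact (h1 u hu).symm
      · exfalso
        apply hxC
        have hxP : x ∈ (P : Subgroup G) := by
          have hP' := isPGroup_zpowers_of_pow_eq_one hpP hk
          have h1 := hP'.inf_normalizer_sylow P
          have h2 : x ∈ Subgroup.zpowers x ⊓ Subgroup.normalizer ((P : Subgroup G) : Set G) :=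
            ⟨Subgroup.mem_zpowers x, hxN⟩
          have h3 : x ∈ Subgroup.zpowers x ⊓ (P : Subgroup G) := by rw [← h1]; exact h2
          exact h3.2
        rw [Subgroup.mem_centralizer_iff]; intro u hu; exact hPcomm u hu x hxP
      · exact h3
    by_cases hNC : Subgroup.normalizer ((P : Subgroup G) : Set G)
        ≤ Subgroup.centralizer ((P : Subgroup G) : Set G)
    · left; exact le_antisymm hNC (Subgroup.centralizer_le_normalizer _)
    · right
      obtain ⟨x₀, hx₀N, hx₀C⟩ := SetLike.not_le_iff_exists.mp hNC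
      obtain ⟨hx₀2, hx₀i⟩ := hb x₀ hx₀N hx₀C
      constructor
      · rw [Subgroup.relIndex, Subgroup.index_eq_two_iff]
        refine ⟨⟨x₀, hx₀N⟩, fun b => ?_⟩
        simp only [Subgroup.mem_subgroupOf, Subgroup.coe_mul]
        by_cases hbC : (b : G) ∈ Subgroup.centralizer ((P : Subgroup G) : Set G)
        · right
          refine ⟨hbC, fun h => hx₀C ?_⟩
          have h1 : x₀ = (b : G)⁻¹ * ((b : G) * x₀) := by group
          rw [h1]; exact Subgroup.mul_mem _ (Subgroup.inv_mem _ hbC) h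
        · left
          refine ⟨?_, hbC⟩
          obtain ⟨-, hbi⟩ := hb b b.2 hbC
          rw [Subgroup.mem_centralizer_iff]
          intro u hu
          have h1 := hx₀i u hu
          have h2 := hbi u⁻¹ (inv_mem hu)
          have h3 : (b : G) * x₀ * u * ((b : G) * x₀)⁻¹ = u := by
            calc (b : G) * x₀ * u * ((b : G) * x₀)⁻¹
                = (b : G) * (x₀ * u * x₀⁻¹) * (b : G)⁻¹ := by group
              _ = u := by rw [h1, h2, inv_inv]
          calc u * ((b : G) * x₀)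
              = ((b : G) * x₀ * u * ((b : G) * x₀)⁻¹) * ((b : G) * x₀) := by rw [h3]
            _ = (b : G) * x₀ * u := by group
      · intro Q hQP hQcard
        have hQp : IsPGroup p Q := P.isPGroup'.to_le hQP
        obtain ⟨q₁, hq₁, hq₁1⟩ : ∃ q₁ ∈ Q, q₁ ≠ 1 := by
          by_contra hcon
          push Not at hcon
          have h1 : Q = ⊥ := (Subgroup.eq_bot_iff_forall Q).mpr hcon
          rw [h1, Subgroup.card_bot] at hQcard
          exact hpP.one_lt.ne hQcard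
        have hw : ∀ w ∈ Subgroup.normalizer (Q : Set G), w ∉ Subgroup.centralizer (Q : Set G) →
            w ^ 2 = 1 := by
          intro w hwN hwC
          have hwn : ∀ q ∈ Q, w * q * w⁻¹ ∈ Q :=
            fun q hq => (Subgroup.mem_set_normalizer_iff.mp hwN q).mp hq
          rcases trichotomy hp hR Q hQp w hwn with h1 | ⟨k, hk⟩ | h3
          · exfalso; apply hwC; rw [Subgroup.mem_centralizer_iff]
            intro u hu; exact (h1 u hu).symm
          · exfalso; apply hwC; rw [Subgroup.mem_centralizer_iff]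
            exact centralizes_of_p_elt Q hQcard w k hk hwn
          · exact h3.1
        have hx₀NQ : x₀ ∈ Subgroup.normalizer (Q : Set G) := by
          apply mem_normalizer_of_forall_conj_mem
          intro q hq
          rw [hx₀i q (hQP hq)]; exact Q.inv_mem hq
        have hx₀CQ : x₀ ∉ Subgroup.centralizer (Q : Set G) := by
          intro h
          have h1 := (Subgroup.mem_centralizer_iff.mp h) q₁ hq₁
          have h2 := hx₀i q₁ (hQP hq₁)
          have h3 : q₁ = q₁⁻¹ := by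
            rw [← h2, ← h1]; group
          have h4 : q₁ ^ 2 = 1 := by
            rw [pow_two]
            calc q₁ * q₁ = q₁ * q₁⁻¹ := by rw [← h3]
              _ = 1 := mul_inv_cancel q₁
          obtain ⟨k, hk⟩ := hQp ⟨q₁, hq₁⟩
          have hk' : q₁ ^ (p ^ k) = 1 := by
            have := congrArg Subtype.val hk
            simpa using this
          have h7 := mem_of_coprime_pow_mem (⊥ : Subgroup G) q₁ (a := 2) (b := p ^ k)
            (Nat.Coprime.pow_right k ((Nat.coprime_primes Nat.prime_two hpP).mpr (Ne.symm hp)))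
            (by rw [h4]; exact Subgroup.one_mem _) (by rw [hk']; exact Subgroup.one_mem _)
          exact hq₁1 (Subgroup.mem_bot.mp h7)
        have hinvQ : ∀ w ∈ Subgroup.normalizer (Q : Set G),
            w ∉ Subgroup.centralizer (Q : Set G) →
            ∀ c ∈ Subgroup.centralizer (Q : Set G), w * c * w⁻¹ = c⁻¹ := by
          intro w hwN hwC c hc
          have h1 := hw w hwN hwC
          have hwcN : w * c ∈ Subgroup.normalizer (Q : Set G) :=
            Subgroup.mul_mem _ hwN (Subgroup.centralizer_le_normalizer _ hc)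
          have hwcC : w * c ∉ Subgroup.centralizer (Q : Set G) := by
            intro h
            apply hwC
            have h2 := Subgroup.mul_mem _ h (Subgroup.inv_mem _ hc)
            simpa using h2
          have h2 := hw (w * c) hwcN hwcC
          have hwi : w⁻¹ = w := by
            rw [inv_eq_iff_mul_eq_one, ← pow_two]; exact h1
          rw [hwi]
          rw [pow_two] at h2
          exact eq_inv_of_mul_eq_one_left (by rw [← h2]; group)
        refine ⟨⟨⟨fun a b => ?_⟩⟩, fun x hxN hxC => ⟨?_, hinvQ x hxN hxC⟩⟩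
        · apply Subtype.ext
          have ha := hinvQ x₀ hx₀NQ hx₀CQ a a.2
          have hb' := hinvQ x₀ hx₀NQ hx₀CQ b b.2
          have hab := hinvQ x₀ hx₀NQ hx₀CQ ((a : G) * b) (Subgroup.mul_mem _ a.2 b.2)
          have h2 : x₀ * ((a : G) * b) * x₀⁻¹ = (x₀ * a * x₀⁻¹) * (x₀ * b * x₀⁻¹) := by group
          rw [h2, ha, hb', mul_inv_rev] at hab
          have h3 := congrArg Inv.inv hab
          rw [mul_inv_rev, mul_inv_rev, inv_inv, inv_inv] at h3
          exact h3.symm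
        · apply orderOf_eq_prime (hw x hxN hxC)
          intro h1; apply hxC; rw [h1]; exact Subgroup.one_mem _
  · rintro ⟨hPc, hcase⟩ H h1 h2
    obtain ⟨S₀⟩ : Nonempty (Sylow p ↥H) := inferInstance
    have hS₀n : (S₀ : Subgroup ↥H).Normal := h1 S₀
    have hcyc : IsCyclic (↥H ⧸ (S₀ : Subgroup ↥H)) := h2 S₀
    obtain ⟨xb, hxb⟩ := hcyc.exists_generator
    obtain ⟨x₀, rfl⟩ := QuotientGroup.mk_surjective xb
    obtain ⟨y₀, hy₀o, hy₀⟩ : ∃ y₀ : ↥H, (orderOf y₀).Coprime p ∧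
        (QuotientGroup.mk y₀ : ↥H ⧸ (S₀ : Subgroup ↥H)) = QuotientGroup.mk x₀ := by
      have hjp : ¬ p ∣ Nat.card (↥H ⧸ (S₀ : Subgroup ↥H)) := S₀.not_dvd_index
      obtain ⟨a, m', hm', ham⟩ :=
        Nat.exists_eq_pow_mul_and_not_dvd (orderOf_pos x₀).ne' p hpP.ne_one
      by_cases hj1 : Nat.card (↥H ⧸ (S₀ : Subgroup ↥H)) = 1
      · refine ⟨1, by simp, ?_⟩
        have hsub : Subsingleton (↥H ⧸ (S₀ : Subgroup ↥H)) :=
          (Nat.card_eq_one_iff_unique.mp hj1).1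
        exact Subsingleton.elim _ _
      · have hcop : Nat.Coprime (p ^ a) (Nat.card (↥H ⧸ (S₀ : Subgroup ↥H))) :=
          Nat.Coprime.pow_left a ((Nat.Prime.coprime_iff_not_dvd hpP).mpr hjp)
        have hjpos : 0 < Nat.card (↥H ⧸ (S₀ : Subgroup ↥H)) := Nat.card_pos
        obtain ⟨t, -, ht⟩ := Nat.exists_mul_mod_eq_one_of_coprime hcop (by omega)
        refine ⟨x₀ ^ (p ^ a * t), ?_, ?_⟩
        · have h3 : (x₀ ^ (p ^ a * t)) ^ m' = 1 := by
            rw [← pow_mul]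
            have e : p ^ a * t * m' = (p ^ a * m') * t := by ring
            rw [e, ← ham, pow_mul, pow_orderOf_eq_one, one_pow]
          exact Nat.Coprime.coprime_dvd_left (orderOf_dvd_of_pow_eq_one h3)
            ((Nat.Prime.coprime_iff_not_dvd hpP).mpr hm').symm
        · rw [QuotientGroup.mk_pow]
          have h4 : (QuotientGroup.mk x₀ : ↥H ⧸ (S₀ : Subgroup ↥H))
              ^ Nat.card (↥H ⧸ (S₀ : Subgroup ↥H)) = 1 := pow_card_eq_one'
          rw [← Nat.mod_add_div (p ^ a * t) (Nat.card (↥H ⧸ (S₀ : Subgroup ↥H))), ht, pow_add,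
            pow_one, pow_mul, h4, one_pow, mul_one]
    set S₁ : Subgroup G := (S₀ : Subgroup ↥H).map H.subtype with hS₁
    set x : G := (y₀ : G) with hx
    have hS₁H : S₁ ≤ H := by rintro _ ⟨s, -, rfl⟩; exact s.2
    have hS₁p : IsPGroup p S₁ := S₀.isPGroup'.map _
    have hmemS₁ : ∀ (h : ↥H), (h : G) ∈ S₁ ↔ h ∈ (S₀ : Subgroup ↥H) := by
      intro h; constructor
      · rintro ⟨s, hs, hsh⟩
        have h3 : s = h := Subtype.ext hsh
        rwa [← h3]
      · intro hh; exact ⟨h, hh, rfl⟩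
    have hnS₁ : ∀ h ∈ H, ∀ s ∈ S₁, h * s * h⁻¹ ∈ S₁ := by
      intro h hh s hs
      have hsH := hS₁H hs
      have h3 := hS₀n.conj_mem ⟨s, hsH⟩ ((hmemS₁ ⟨s, hsH⟩).mp hs) ⟨h, hh⟩
      exact (hmemS₁ _).mpr h3
    have hgen : ∀ h ∈ H, ∃ s ∈ S₁, ∃ i : ℤ, h = s * x ^ i := by
      intro h hh
      have h3 := hxb (QuotientGroup.mk ⟨h, hh⟩)
      rw [← hy₀] at h3
      obtain ⟨i, hi⟩ := Subgroup.mem_zpowers_iff.mp h3
      rw [← QuotientGroup.mk_zpow, QuotientGroup.eq] at hi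
      have h4 : (⟨h, hh⟩ : ↥H) * (y₀ ^ i)⁻¹ ∈ (S₀ : Subgroup ↥H) := by
        have h5 := hS₀n.conj_mem _ hi (y₀ ^ i)
        have e : y₀ ^ i * ((y₀ ^ i)⁻¹ * ⟨h, hh⟩) * (y₀ ^ i)⁻¹ = ⟨h, hh⟩ * (y₀ ^ i)⁻¹ := by group
        rwa [e] at h5
      refine ⟨h * (x ^ i)⁻¹, ?_, i, by group⟩
      have h5 := (hmemS₁ _).mpr h4
      simpa using h5
    have hxH : x ∈ H := y₀.2
    have hxo : (orderOf x).Coprime p := by rw [hx, Subgroup.orderOf_coe]; exact hy₀o
    obtain ⟨c, -, hc⟩ :=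
      Cfsg.Agent.Helper20.exists_conj_le_sylow_of_le P ⊤ le_top S₁ le_top hS₁p
    let φ : G ≃* G := MulAut.conj c⁻¹
    have hφ : ∀ y, φ y = c⁻¹ * y * c := by intro y; simp [φ]
    have key := int_lemma P hPc hcase (H.map φ.toMonoidHom) (S₁.map φ.toMonoidHom)
      (Subgroup.map_mono hS₁H)
      (by
        rintro _ ⟨s, hs, rfl⟩
        have h3 := hc s hs
        rw [← hφ] at h3
        exact h3)
      (by
        rintro _ ⟨h, hh, rfl⟩ _ ⟨s, hs, rfl⟩
        exact ⟨h * s * h⁻¹, hnS₁ h hh s hs, by simp⟩)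
      (φ x) ⟨x, hxH, rfl⟩ (by rw [MulEquiv.orderOf_eq]; exact hxo)
      (by
        rintro _ ⟨h, hh, rfl⟩
        obtain ⟨s, hs, i, hi⟩ := hgen h hh
        exact ⟨φ s, ⟨s, hs, rfl⟩, i, by rw [hi]; simp⟩)
    let e := Subgroup.equivMapOfInjective H φ.toMonoidHom φ.injective
    rcases key with hc' | ⟨n, ⟨e'⟩⟩
    · left
      exact isCyclic_of_surjective e.symm e.symm.surjective
    · right; exact ⟨n, ⟨e.trans e'⟩⟩

end Cfsg.Agent.S4082
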