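import Cfsg.Statements.S4083
import Cfsg.Agent.Helper29.DihLike2

set_option autoImplicit false
open Cfsg

namespace Cfsg.Agent.S4083

/-- Let G be a finite group with Sylow 2-subgroup P. Every subgroup H of G whose Sylow 2-subgroup is normal in H with cyclic quotient is cyclic, dihedral of 2-power order, or isomorphic to the alternating group of degree 4, if and only if either P is cyclic, or P is dihedral (of order at least 4) and every elementary abelian subgroup K of order 4 of P satisfies C_G(K) = K. -/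
theorem result {G : Type*} [Group G] [Finite G] (P : Sylow 2 G) :
    (∀ H : Subgroup G, (∀ S : Sylow 2 ↥H, (S : Subgroup ↥H).Normal) →
        (∀ (S : Sylow 2 ↥H) [(S : Subgroup ↥H).Normal], IsCyclic (↥H ⧸ (S : Subgroup ↥H))) →
        IsCyclic H ∨ (∃ n : ℕ, Nonempty (H ≃* DihedralGroup (2 ^ n))) ∨ Nonempty (H ≃* alternatingGroup (Fin 4))) ↔
    (IsCyclic P ∨
      ((∃ n : ℕ, 1 ≤ n ∧ Nonempty ((P : Subgroup G) ≃* DihedralGroup (2 ^ n))) ∧
        ∀ K : Subgroup G, K ≤ P → Nat.card K = 4 → (∀ k ∈ K, k ^ 2 = 1) → Subgroup.centralizer (K : Set G) = K)) := by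
  haveI : Fact (Nat.Prime 2) := ⟨Nat.prime_two⟩
  constructor
  · intro hL
    have hyp1 : ∀ S : Sylow 2 ↥(P : Subgroup G), (S : Subgroup ↥(P : Subgroup G)).Normal := by
      intro S
      have htop : (S : Subgroup ↥(P : Subgroup G)) = ⊤ :=
        (S.is_maximal' (P.isPGroup'.to_subgroup ⊤) le_top).symm
      rw [htop]
      infer_instance
    have hyp2 : ∀ (S : Sylow 2 ↥(P : Subgroup G)) [(S : Subgroup ↥(P : Subgroup G)).Normal],
        IsCyclic (↥(P : Subgroup G) ⧸ (S : Subgroup ↥(P : Subgroup G))) := by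
      intro S _
      have htop : (S : Subgroup ↥(P : Subgroup G)) = ⊤ :=
        (S.is_maximal' (P.isPGroup'.to_subgroup ⊤) le_top).symm
      haveI : Subsingleton (↥(P : Subgroup G) ⧸ (S : Subgroup ↥(P : Subgroup G))) := by
        refine ⟨fun a b => ?_⟩
        obtain ⟨a, rfl⟩ := QuotientGroup.mk_surjective a
        obtain ⟨b, rfl⟩ := QuotientGroup.mk_surjective b
        exact QuotientGroup.eq.mpr (htop ▸ Subgroup.mem_top _)
      exact isCyclic_of_subsingleton
    have hKlein := fun (K : Subgroup G) (_ : K ≤ (P : Subgroup G)) (h4 : Nat.card K = 4)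
      (hexp : ∀ k ∈ K, k ^ 2 = 1) => Helper29.klein_cent_of_hyp hL K h4 hexp
    rcases hL (P : Subgroup G) hyp1 hyp2 with hc | ⟨n, ⟨e⟩⟩ | ⟨⟨e⟩⟩
    · exact Or.inl hc
    · rcases Nat.eq_zero_or_pos n with rfl | hn
      · left
        have h2 : Nat.card (P : Subgroup G) = 2 := by
          rw [Nat.card_congr e.toEquiv, DihedralGroup.nat_card]; norm_num
        exact isCyclic_of_prime_card h2
      · exact Or.inr ⟨⟨n, hn, ⟨e⟩⟩, hKlein⟩
    · exfalso
      have h12 : Nat.card (P : Subgroup G) = 12 := by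
        rw [Nat.card_congr e.toEquiv, nat_card_alternatingGroup]; simp [Nat.factorial]
      obtain ⟨k, hk⟩ := (IsPGroup.iff_card.mp P.isPGroup')
      rw [h12] at hk
      have h3 : 3 ∣ 2 ^ k := by rw [← hk]; norm_num
      have h4 := (Nat.Prime.dvd_of_dvd_pow (by norm_num : Nat.Prime 3) h3)
      omega
  · intro hR H h1 h2
    obtain ⟨S, h₁, d, T⟩ := Helper29.exists_twoByCyc H h1 h2
    exact T.main (Helper29.local_hyp_of_sylow P hR S T.two)

end Cfsg.Agent.S4083
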