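import Mathlib
import Cfsg.Statements.S4084

set_option autoImplicit false
open Cfsg

namespace Cfsg.Agent.S4084

/-- the double centralizer of an element -/
def dc {G : Type*} [Group G] (g : G) : Subgroup G :=
  Subgroup.centralizer (Subgroup.centralizer ({g} : Set G) : Set G)

theorem mem_dc_iff {G : Type*} [Group G] (g y : G) :
    y ∈ dc g ↔ ∀ z : G, Commute z g → Commute z y := by
  unfold dc
  rw [Subgroup.mem_centralizer_iff]
  constructor
  · intro h z hz
    exact h z (by rw [SetLike.mem_coe, Subgroup.mem_centralizer_iff]; rintro w rfl; exact hz.eq.symm)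
  · intro h z hz
    rw [SetLike.mem_coe, Subgroup.mem_centralizer_iff] at hz
    exact (h z (hz g rfl).symm).eq

theorem self_mem_dc {G : Type*} [Group G] (g : G) : g ∈ dc g := by
  rw [mem_dc_iff]; intro z hz; exact hz

theorem commute_of_mem_dc {G : Type*} [Group G] (g : G) {a b : G} (ha : a ∈ dc g) (hb : b ∈ dc g) :
    Commute a b := by
  rw [mem_dc_iff] at ha hb
  exact hb a ((ha g (Commute.refl g)).symm)

theorem aux {G H : Type*} [Group G] [Finite G] [Group H] [Finite H] (e : G ≃ H)
    (he : ∀ x y : G, Commute x y ↔ Commute (e x) (e y))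
    {p q : ℕ} (hp : p.Prime) (hq : q.Prime) (hpq : p ≠ q) :
    (∃ g : G, orderOf g = p * q) → (∃ h : H, orderOf h = p * q) := by
  rintro ⟨g, hg⟩
  have hmem : ∀ y : G, y ∈ dc g ↔ e y ∈ dc (e g) := by
    intro y
    rw [mem_dc_iff, mem_dc_iff]
    constructor
    · intro h w hw
      obtain ⟨z, rfl⟩ := e.surjective w
      exact (he z y).1 (h z ((he z g).2 hw))
    · intro h z hz
      exact (he z y).2 (h (e z) ((he z g).1 hz))
  have hcard : Nat.card (dc g) = Nat.card (dc (e g)) :=
    Nat.card_congr (Equiv.subtypeEquiv e hmem)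
  have hdvd : p * q ∣ Nat.card (dc (e g)) := by
    rw [← hcard, ← hg]
    have := orderOf_dvd_natCard (⟨g, self_mem_dc g⟩ : dc g)
    rwa [Subgroup.orderOf_mk] at this
  haveI : Fact p.Prime := ⟨hp⟩
  haveI : Fact q.Prime := ⟨hq⟩
  obtain ⟨b1, hb1⟩ := exists_prime_orderOf_dvd_card' (G := dc (e g)) p ((dvd_mul_right p q).trans hdvd)
  obtain ⟨b2, hb2⟩ := exists_prime_orderOf_dvd_card' (G := dc (e g)) q ((dvd_mul_left q p).trans hdvd)
  have hcomm : Commute b1 b2 := by
    have := commute_of_mem_dc (e g) b1.2 b2.2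
    exact Subtype.ext this.eq
  have hcop : Nat.Coprime (orderOf b1) (orderOf b2) := by
    rw [hb1, hb2]; exact (Nat.coprime_primes hp hq).2 hpq
  refine ⟨((b1 * b2 : dc (e g)) : H), ?_⟩
  rw [Subgroup.orderOf_coe, hcomm.orderOf_mul_eq_mul_orderOf_of_coprime hcop, hb1, hb2]

/-- Let G and H be finite groups whose commuting graphs are isomorphic: there is a bijection e : G → H with x, y commuting exactly when e(x), e(y) commute. Then G and H have the same prime graph: for distinct primes p, q, G has an element of order pq if and only if H does (and #G = #H, so the prime divisors agree). -/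
theorem result {G H : Type*} [Group G] [Finite G] [Group H] [Finite H] (e : G ≃ H)
    (he : ∀ x y : G, Commute x y ↔ Commute (e x) (e y))
    {p q : ℕ} (hp : p.Prime) (hq : q.Prime) (hpq : p ≠ q) :
    (∃ g : G, orderOf g = p * q) ↔ (∃ h : H, orderOf h = p * q) := by
  refine ⟨aux e he hp hq hpq, aux e.symm ?_ hp hq hpq⟩
  intro x y
  rw [he]
  simp

end Cfsg.Agent.S4084
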