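import Mathlib
import Cfsg.Statements.S4086

set_option autoImplicit false
open Cfsg

namespace Cfsg.Agent.S4086

theorem zpow_mem_zpowers_zpow_of_gcd_dvd {G : Type*} [Group G] (g : G) (a b : ℤ)
    (h : (Int.gcd b (orderOf g) : ℤ) ∣ a) : g ^ a ∈ Subgroup.zpowers (g ^ b) := by
  obtain ⟨c, hc⟩ := h
  have hbez := Int.gcd_eq_gcd_ab b (orderOf g)
  rw [Subgroup.mem_zpowers_iff]
  refine ⟨Int.gcdA b (orderOf g) * c, ?_⟩
  rw [hc, hbez, ← zpow_mul, add_mul, zpow_add, mul_assoc (orderOf g : ℤ), zpow_mul g (orderOf g : ℤ),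
    zpow_natCast, pow_orderOf_eq_one, one_zpow, mul_one, mul_assoc]

theorem comparable_of_primePow {G : Type*} [Group G] (z : G) (p k : ℕ) (hp : p.Prime)
    (hz : orderOf z = p ^ k) (a b : ℤ) :
    z ^ a ∈ Subgroup.zpowers (z ^ b) ∨ z ^ b ∈ Subgroup.zpowers (z ^ a) := by
  have h1 : Int.gcd a (orderOf z) ∣ p ^ k := by
    rw [← hz]; exact Int.natCast_dvd_natCast.1 (Int.gcd_dvd_right a (orderOf z))
  have h2 : Int.gcd b (orderOf z) ∣ p ^ k := by
    rw [← hz]; exact Int.natCast_dvd_natCast.1 (Int.gcd_dvd_right b (orderOf z))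
  obtain ⟨s, -, hs⟩ := (Nat.dvd_prime_pow hp).1 h1
  obtain ⟨t, -, ht⟩ := (Nat.dvd_prime_pow hp).1 h2
  rcases le_total t s with hts | hst
  · left
    apply zpow_mem_zpowers_zpow_of_gcd_dvd
    rw [ht]
    have h3 : ((p ^ t : ℕ) : ℤ) ∣ ((p ^ s : ℕ) : ℤ) := Int.natCast_dvd_natCast.2 (pow_dvd_pow p hts)
    exact h3.trans (hs ▸ Int.gcd_dvd_left a (orderOf z))
  · right
    apply zpow_mem_zpowers_zpow_of_gcd_dvd
    rw [hs]
    have h3 : ((p ^ s : ℕ) : ℤ) ∣ ((p ^ t : ℕ) : ℤ) := Int.natCast_dvd_natCast.2 (pow_dvd_pow p hst)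
    exact h3.trans (ht ▸ Int.gcd_dvd_left b (orderOf z))

/-- For a finite group G the following are equivalent: every non-identity element has prime-power order; whenever two elements generate a cyclic subgroup, one of them is a power of the other (the enhanced power graph of G coincides with its power graph). -/
theorem result {G : Type*} [Group G] [Finite G] :
    (∀ g : G, g ≠ 1 → IsPrimePow (orderOf g)) ↔
    (∀ x y : G, IsCyclic ↥(Subgroup.closure ({x, y} : Set G)) → (x ∈ Subgroup.zpowers y ∨ y ∈ Subgroup.zpowers x)) := by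
  constructor
  · intro h x y hcyc
    obtain ⟨⟨z, hz⟩, hgen⟩ := hcyc.exists_generator
    have hx : x ∈ Subgroup.closure ({x, y} : Set G) := Subgroup.subset_closure (by simp)
    have hy : y ∈ Subgroup.closure ({x, y} : Set G) := Subgroup.subset_closure (by simp)
    obtain ⟨a, ha⟩ := Subgroup.mem_zpowers_iff.1 (hgen ⟨x, hx⟩)
    obtain ⟨b, hb⟩ := Subgroup.mem_zpowers_iff.1 (hgen ⟨y, hy⟩)
    have ha' : z ^ a = x := by simpa using congrArg Subtype.val ha
    have hb' : z ^ b = y := by simpa using congrArg Subtype.val hb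
    by_cases hz1 : z = 1
    · left
      rw [← ha', hz1, one_zpow]
      exact one_mem _
    · obtain ⟨p, k, hp, -, hpk⟩ := h z hz1
      rw [← ha', ← hb']
      exact comparable_of_primePow z p k hp.nat_prime hpk.symm a b
  · intro h g hg
    by_contra hnpp
    have hn0 : orderOf g ≠ 0 := (orderOf_pos g).ne'
    have hn1 : orderOf g ≠ 1 := by
      rw [Ne, orderOf_eq_one_iff]; exact hg
    set n := orderOf g with hn
    set p := n.minFac with hpdef
    have hp : p.Prime := Nat.minFac_prime hn1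
    set a := p ^ n.factorization p with hadef
    set b := n / a with hbdef
    have hab : a * b = n := Nat.ordProj_mul_ordCompl_eq_self n p
    have hcop : Nat.Coprime a b := (Nat.coprime_ordCompl hp hn0).pow_left _
    have ha0 : a ≠ 0 := pow_ne_zero _ hp.ne_zero
    have hb0 : b ≠ 0 := by
      intro hb; rw [hb, mul_zero] at hab; exact hn0 hab.symm
    have hfpos : 0 < n.factorization p := hp.factorization_pos_of_dvd hn0 (Nat.minFac_dvd n)
    have ha1 : a ≠ 1 := (Nat.one_lt_pow hfpos.ne' hp.one_lt).ne'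
    have hb1 : b ≠ 1 := by
      intro hb
      apply hnpp
      rw [hb, mul_one] at hab
      rw [← hab]
      exact ⟨p, n.factorization p, hp.prime, hfpos, rfl⟩
    have hoa : orderOf (g ^ a) = b := by
      rw [orderOf_pow, ← hn, Nat.gcd_eq_right ⟨b, hab.symm⟩]
    have hob : orderOf (g ^ b) = a := by
      rw [orderOf_pow, ← hn, Nat.gcd_eq_right ⟨a, by rw [mul_comm]; exact hab.symm⟩]
      exact Nat.div_eq_of_eq_mul_right (Nat.pos_of_ne_zero hb0) (by rw [mul_comm]; exact hab.symm)
    have hle : Subgroup.closure ({g ^ a, g ^ b} : Set G) ≤ Subgroup.zpowers g := by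
      rw [Subgroup.closure_le]
      rintro w (rfl | rfl)
      · exact Subgroup.pow_mem _ (Subgroup.mem_zpowers g) _
      · exact Subgroup.pow_mem _ (Subgroup.mem_zpowers g) _
    have hcyc : IsCyclic ↥(Subgroup.closure ({g ^ a, g ^ b} : Set G)) := Subgroup.isCyclic_of_le hle
    rcases h (g ^ a) (g ^ b) hcyc with h1 | h1
    · have := orderOf_dvd_of_mem_zpowers h1
      rw [hoa, hob] at this
      exact hb1 (Nat.Coprime.eq_one_of_dvd hcop.symm this)
    · have := orderOf_dvd_of_mem_zpowers h1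
      rw [hoa, hob] at this
      exact ha1 (Nat.Coprime.eq_one_of_dvd hcop this)

end Cfsg.Agent.S4086
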