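import Cfsg.Statements.S4088
import Cfsg.Agent.Helper8.Casolo

set_option autoImplicit false
open Cfsg

namespace Cfsg.Agent.S4088

open Cfsg.Agent.Helper72 Cfsg.Agent.Helper8.Flavell Cfsg.Agent.Helper8.Casolo
open scoped Cfsg.Agent.Helper8.Flavell

attribute [local instance] Fintype.ofFinite

/-- Let G be a finite group, p a prime dividing the order of G, H a p-subgroup of G and P a Sylow p-subgroup of G. Call the subnormalizer of H the set of elements g of G such that H is subnormal in the subgroup generated by H and g. Then the number of elements of the subnormalizer of H equals the number of Sylow p-subgroups of G containing H times the order of N_G(P), and also equals the number of conjugates of H contained in P times the order of N_G(H). -/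
theorem result {G : Type*} [Group G] [Finite G] (p : ℕ) [Fact p.Prime]
    (hp : p ∣ Nat.card G) (H : Subgroup G) (hH : IsPGroup p H) (P : Sylow p G) :
    Nat.card {g : G // ((H).subgroupOf (H ⊔ Subgroup.zpowers g)).IsSubnormal} =
        Nat.card {Q : Sylow p G // H ≤ (Q : Subgroup G)} * Nat.card (Subgroup.normalizer ((P : Subgroup G) : Set G)) ∧
    Nat.card {g : G // ((H).subgroupOf (H ⊔ Subgroup.zpowers g)).IsSubnormal} =
        Nat.card {K : Subgroup G // K ≤ (P : Subgroup G) ∧ ∃ g : G, K = H.map (MulAut.conj g).toMonoidHom} *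
          Nat.card (Subgroup.normalizer (H : Set G)) := by
  classical
  have h1 : Nat.card {g : G // ((H).subgroupOf (H ⊔ Subgroup.zpowers g)).IsSubnormal} =
      Nat.card {Q : Sylow p G // H ≤ (Q : Subgroup G)} *
        Nat.card (Subgroup.normalizer ((P : Subgroup G) : Set G)) := by
    have hA := Nat.subtype_card
      (p := fun g : G => ((H).subgroupOf (H ⊔ Subgroup.zpowers g)).IsSubnormal)
      (Finset.univ.filter (fun g : G => ∃ V ∈ PP p ⊤ g, H ≤ V))
      (fun g => by
        rw [Finset.mem_filter, subnormal_iff p H hH g]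
        simp)
    rw [hA, card_sylow_ge p H]
    have hB := casolo_count p H
    have hC : ∑ Q ∈ Finset.univ.filter (fun Q : Subgroup G => IsMaxP p ⊤ Q ∧ H ≤ Q),
        (Nat.card ↥(Subgroup.normalizer (Q : Set G)) : ℤ) =
        ∑ Q ∈ Finset.univ.filter (fun Q : Subgroup G => IsMaxP p ⊤ Q ∧ H ≤ Q),
        (Nat.card ↥(Subgroup.normalizer ((P : Subgroup G) : Set G)) : ℤ) := by
      apply Finset.sum_congr rfl
      intro Q hQ
      rw [Finset.mem_filter] at hQ
      rw [card_normalizer_isMaxP p P hQ.2.1]
    rw [hC, Finset.sum_const] at hB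
    have hD : ((Finset.univ.filter (fun g : G => ∃ V ∈ PP p ⊤ g, H ≤ V)).card : ℤ) =
        (((Finset.univ.filter (fun Q : Subgroup G => IsMaxP p ⊤ Q ∧ H ≤ Q)).card *
          Nat.card ↥(Subgroup.normalizer ((P : Subgroup G) : Set G)) : ℕ) : ℤ) := by
      rw [hB]; simp
    exact_mod_cast hD
  refine ⟨h1, ?_⟩
  rw [h1, card_sylow_ge p H, double_count p H P]
  congr 1
  exact (Nat.subtype_card
    (p := fun K : Subgroup G => K ≤ (P : Subgroup G) ∧
      ∃ g : G, K = H.map (MulAut.conj g).toMonoidHom)
    (Finset.univ.filter (fun K : Subgroup G => K ≤ (P : Subgroup G) ∧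
      ∃ g : G, K = cj(H, g))) (fun K => by rw [Finset.mem_filter]; simp)).symm

end Cfsg.Agent.S4088
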