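import Mathlib
import Cfsg.Statements.S4089
import Cfsg.Agent.Helper68.Subn

set_option autoImplicit false
open Cfsg

namespace Cfsg.Agent.S4089

open Subgroup Cfsg.Agent.Helper68

/-- Let G be a finite group, p a prime and H a p-subgroup of G. Then the set of elements g of G such that H is subnormal in the subgroup generated by H and g is the union of the normalizers N_G(R) over the subgroups R of G containing H with R = O_p(N_G(R)); and this set does not change when H is replaced by the intersection of all Sylow p-subgroups of G containing H. -/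
theorem result {G : Type*} [Group G] [Finite G] (p : ℕ) [Fact p.Prime]
    (H : Subgroup G) (hH : IsPGroup p H) :
    {g : G | ((H).subgroupOf (H ⊔ Subgroup.zpowers g)).IsSubnormal} =
      {g : G | ∃ R : Subgroup G, H ≤ R ∧ (Cfsg.pCore p (Subgroup.normalizer (R : Set G))).map (Subgroup.normalizer (R : Set G)).subtype = R ∧ g ∈ Subgroup.normalizer (R : Set G)} ∧
    ∀ g : G, (((H).subgroupOf (H ⊔ Subgroup.zpowers g)).IsSubnormal ↔
      (((sInf {K : Subgroup G | ∃ Q : Sylow p G, H ≤ (Q : Subgroup G) ∧ K = (Q : Subgroup G)})).subgroupOf ((sInf {K : Subgroup G | ∃ Q : Sylow p G, H ≤ (Q : Subgroup G) ∧ K = (Q : Subgroup G)}) ⊔ Subgroup.zpowers g)).IsSubnormal) := by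
  have hrad : ∀ (R : Subgroup G), Op p (normalizer (R : Set G)) = R → IsPGroup p R := by
    intro R hR
    rw [← hR]; exact Op_isPGroup p _
  constructor
  · ext g
    constructor
    · intro hg
      exact exists_radical hH hg
    · rintro ⟨R, hHR, hR, hg⟩
      exact subnormal_of_le_radical hHR (hrad R hR) hg
  · intro g
    set I := sInf {K : Subgroup G | ∃ Q : Sylow p G, H ≤ (Q : Subgroup G) ∧ K = (Q : Subgroup G)}
      with hI
    have hHI : H ≤ I := by
      apply le_sInf
      rintro K ⟨Q, hQ, rfl⟩
      exact hQ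
    obtain ⟨Q₀, hQ₀⟩ := hH.exists_le_sylow
    have hIp : IsPGroup p I := Q₀.2.to_le (sInf_le ⟨Q₀, hQ₀, rfl⟩)
    constructor
    · intro hg
      obtain ⟨R, hHR, hR, hgR⟩ := exists_radical hH hg
      have h1 : I ≤ sInf {K : Subgroup G | ∃ Q : Sylow p G, R ≤ (Q : Subgroup G) ∧ K = (Q : Subgroup G)} := by
        apply le_sInf
        rintro K ⟨Q, hQ, rfl⟩
        exact sInf_le ⟨Q, hHR.trans hQ, rfl⟩
      have hIR : I ≤ R := h1.trans (sInf_sylow_le_radical hR)
      exact subnormal_of_le_radical hIR (hrad R hR) hgR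
    · intro hg
      set J := I ⊔ zpowers g with hJ
      have h1 : I ≤ Op p J := le_Op_of_subnormal le_sup_left hIp hg
      have hgJ : g ∈ J := mem_sup_right (mem_zpowers g)
      exact subnormal_of_le_radical (hHI.trans h1) (Op_isPGroup p J) (le_normalizer_Op p J hgJ)

end Cfsg.Agent.S4089
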