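-- Statement S4090: Casolo's formula for the subnormalizer of a p-subgroup in a p-solvable group.
import Cfsg.Statements.S4090
import Cfsg.Agent.Helper67.Subnormalizer

set_option autoImplicit false
open Cfsg

namespace Cfsg.Agent.S4090

open Subgroup Cfsg.Agent.Helper67

universe u

/-- The formula in terms of `subnSet`, by induction on the length of the chain. -/
theorem core (p : ℕ) [Fact p.Prime] : ∀ (n : ℕ) {G : Type u} [Group G] [Finite G]
    (H : Subgroup G) (_ : IsPGroup p H) (P : Sylow p G)
    (M : Fin (n + 1) → Subgroup G) (_ : M 0 = ⊥) (_ : M (Fin.last n) = ⊤) (_ : Monotone M)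
    (_ : ∀ i, (M i).Normal)
    (_ : ∀ i : Fin n, (∃ m : ℕ, (M i.castSucc).relIndex (M i.succ) = p ^ m) ∨
      ((M i.castSucc).relIndex (M i.succ)).Coprime p),
    Nat.card (subnSet p H) = Nat.card (P : Subgroup G) *
      ∏ i : Fin n, (if ((M i.castSucc).relIndex (M i.succ)).Coprime p then
        Nat.card {u : G // u ∈ M i.succ ∧ ∀ h ∈ H, h * u * h⁻¹ * u⁻¹ ∈ M i.castSucc} /
          Nat.card (M i.castSucc)
        else 1) := by
  have hpp : p.Prime := Fact.out
  intro n
  induction n with
  | zero =>
    intro G _ _ H hH P M h0 hn hmono hnormal hfac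
    have hbt : (⊥ : Subgroup G) = ⊤ := by
      rw [← h0, ← hn]; rfl
    have hsub : Subsingleton G := by
      constructor
      intro a b
      have ha : a ∈ (⊥ : Subgroup G) := by rw [hbt]; exact Subgroup.mem_top a
      have hb : b ∈ (⊥ : Subgroup G) := by rw [hbt]; exact Subgroup.mem_top b
      rw [Subgroup.mem_bot] at ha hb
      rw [ha, hb]
    have h1 : (1 : G) ∈ subnSet p H := ⟨H, hH, le_rfl, Subgroup.one_mem _⟩
    have h2 : Nat.card (subnSet p H) = 1 := Nat.card_of_subsingleton (⟨1, h1⟩ : subnSet p H)
    have h3 : Nat.card (P : Subgroup G) = 1 :=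
      Nat.card_of_subsingleton (1 : (P : Subgroup G))
    rw [h2, h3]
    simp
  | succ n ih =>
    intro G _ _ H hH P M h0 hn hmono hnormal hfac
    have hNn : (M 1).Normal := hnormal 1
    set π := QuotientGroup.mk' (M 1) with hπ
    have hπs : Function.Surjective π := QuotientGroup.mk'_surjective (M 1)
    have hker : π.ker = M 1 := QuotientGroup.ker_mk' (M 1)
    let M' : Fin (n + 1) → Subgroup (G ⧸ M 1) := fun i => (M i.succ).map π
    have hM'def : ∀ i, M' i = (M i.succ).map π := fun i => rfl
    have h0' : M' 0 = ⊥ := by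
      rw [hM'def, Fin.succ_zero_eq_one]
      exact QuotientGroup.map_mk'_self (M 1)
    have hn' : M' (Fin.last n) = ⊤ := by
      rw [hM'def, Fin.succ_last, hn]
      exact Subgroup.map_top_of_surjective π hπs
    have hmono' : Monotone M' := fun i j hij =>
      Subgroup.map_mono (hmono (Fin.succ_le_succ_iff.mpr hij))
    have hnormal' : ∀ i, (M' i).Normal := fun i => (hnormal i.succ).map π hπs
    have hle1 : ∀ i : Fin (n + 1), M 1 ≤ M i.succ := by
      intro i
      apply hmono
      rw [← Fin.succ_zero_eq_one]
      exact Fin.succ_le_succ_iff.mpr (Fin.zero_le i)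
    have hrel : ∀ i : Fin n, (M' i.castSucc).relIndex (M' i.succ) =
        (M i.succ.castSucc).relIndex (M i.succ.succ) := by
      intro i
      rw [hM'def, hM'def, Fin.succ_castSucc, ← Subgroup.relIndex_comap,
        Subgroup.comap_map_eq_self (by rw [hker]; rw [← Fin.succ_castSucc]; exact hle1 _)]
    have hfac' : ∀ i : Fin n, (∃ m : ℕ, (M' i.castSucc).relIndex (M' i.succ) = p ^ m) ∨
        ((M' i.castSucc).relIndex (M' i.succ)).Coprime p := by
      intro i
      rw [hrel i]
      exact hfac i.succ
    obtain ⟨P'⟩ : Nonempty (Sylow p (G ⧸ M 1)) := inferInstance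
    have hIH := ih (H.map π) (hH.map π) P' M' h0' hn' hmono' hnormal' hfac'
    -- the factors with index ≥ 1 agree
    have hNpos : 0 < Nat.card (M 1) := Nat.card_pos
    have hterm : ∀ i : Fin n,
        (if ((M i.succ.castSucc).relIndex (M i.succ.succ)).Coprime p then
          Nat.card {u : G // u ∈ M i.succ.succ ∧ ∀ h ∈ H, h * u * h⁻¹ * u⁻¹ ∈ M i.succ.castSucc} /
            Nat.card (M i.succ.castSucc)
          else 1) =
        (if ((M' i.castSucc).relIndex (M' i.succ)).Coprime p then
          Nat.card {u : G ⧸ M 1 // u ∈ M' i.succ ∧ ∀ h ∈ H.map π, h * u * h⁻¹ * u⁻¹ ∈ M' i.castSucc} /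
            Nat.card (M' i.castSucc)
          else 1) := by
      intro i
      rw [hrel i]
      by_cases hc : ((M i.succ.castSucc).relIndex (M i.succ.succ)).Coprime p
      · rw [if_pos hc, if_pos hc]
        have hA : M 1 ≤ M i.succ.castSucc := by
          rw [← Fin.succ_castSucc]; exact hle1 _
        have hB : M 1 ≤ M i.succ.succ := hle1 _
        have hM'c : M' i.castSucc = (M i.succ.castSucc).map π := by
          rw [hM'def, Fin.succ_castSucc]
        have hden : Nat.card (M i.succ.castSucc) =
            Nat.card (M 1) * Nat.card (M' i.castSucc) := by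
          rw [hM'c]
          exact subn_card_eq_card_mul_card_map (M 1) _ hA
        have hnum : Nat.card {u : G // u ∈ M i.succ.succ ∧
              ∀ h ∈ H, h * u * h⁻¹ * u⁻¹ ∈ M i.succ.castSucc} =
            Nat.card (M 1) * Nat.card {u : G ⧸ M 1 // u ∈ M' i.succ ∧
              ∀ h ∈ H.map π, h * u * h⁻¹ * u⁻¹ ∈ M' i.castSucc} := by
          have h1 := subn_card_eq_mul_of_fibers π
            {u : G | u ∈ M i.succ.succ ∧ ∀ h ∈ H, h * u * h⁻¹ * u⁻¹ ∈ M i.succ.castSucc}
            {u : G ⧸ M 1 | u ∈ M' i.succ ∧ ∀ h ∈ H.map π, h * u * h⁻¹ * u⁻¹ ∈ M' i.castSucc}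
            (Nat.card (M 1)) (by
              rintro a ⟨ha1, ha2⟩
              refine ⟨Subgroup.mem_map_of_mem π ha1, ?_⟩
              rintro h' ⟨h, hh, rfl⟩
              rw [hM'c]
              have h3 := Subgroup.mem_map_of_mem π (ha2 h hh)
              rw [map_mul, map_mul, map_mul, map_inv, map_inv] at h3
              exact h3) (by
              rintro c ⟨hc1, hc2⟩
              obtain ⟨g1, rfl⟩ := hπs c
              apply subn_card_fiber
              intro g hg
              refine ⟨?_, ?_⟩
              · apply subn_mem_of_map_mem hB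
                rw [hg]; exact hc1
              · intro h hh
                apply subn_mem_of_map_mem hA
                have h3 := hc2 (π h) (Subgroup.mem_map_of_mem π hh)
                rw [hM'c] at h3
                rw [map_mul, map_mul, map_mul, map_inv, map_inv, hg]
                exact h3)
          exact h1
        rw [hnum, hden, Nat.mul_div_mul_left _ _ hNpos]
      · rw [if_neg hc, if_neg hc]
    rw [Fin.prod_univ_succ]
    have hprod : (∏ i : Fin n, (if ((M i.succ.castSucc).relIndex (M i.succ.succ)).Coprime p then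
          Nat.card {u : G // u ∈ M i.succ.succ ∧ ∀ h ∈ H, h * u * h⁻¹ * u⁻¹ ∈ M i.succ.castSucc} /
            Nat.card (M i.succ.castSucc)
          else 1)) =
        ∏ i : Fin n, (if ((M' i.castSucc).relIndex (M' i.succ)).Coprime p then
          Nat.card {u : G ⧸ M 1 // u ∈ M' i.succ ∧ ∀ h ∈ H.map π, h * u * h⁻¹ * u⁻¹ ∈ M' i.castSucc} /
            Nat.card (M' i.castSucc)
          else 1) := Finset.prod_congr rfl (fun i _ => hterm i)
    rw [hprod]
    -- the first factor
    have hcs0 : (0 : Fin (n + 1)).castSucc = 0 := rfl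
    have hs0 : (0 : Fin (n + 1)).succ = 1 := rfl
    rw [hcs0, hs0, h0, Subgroup.relIndex_bot_left]
    -- Sylow orders
    have hcardG : Nat.card G = Nat.card (G ⧸ M 1) * Nat.card (M 1) :=
      Subgroup.card_eq_card_quotient_mul_card_subgroup (M 1)
    have hQpos : 0 < Nat.card (G ⧸ M 1) := Nat.card_pos
    have hPcard : Nat.card (P : Subgroup G) =
        p ^ ((Nat.card (G ⧸ M 1)).factorization p + (Nat.card (M 1)).factorization p) := by
      rw [Sylow.card_eq_multiplicity, hcardG, Nat.factorization_mul hQpos.ne' hNpos.ne']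
      rfl
    have hP'card : Nat.card (P' : Subgroup (G ⧸ M 1)) = p ^ ((Nat.card (G ⧸ M 1)).factorization p) :=
      Sylow.card_eq_multiplicity P'
    by_cases hc : (Nat.card (M 1)).Coprime p
    · rw [if_pos hc]
      have hR2 := subn_card_of_normal_p'group (M 1) hc H hH
      have hv : (Nat.card (M 1)).factorization p = 0 := by
        apply Nat.factorization_eq_zero_of_not_dvd
        exact (Nat.Prime.coprime_iff_not_dvd hpp).mp hc.symm
      have hPP' : Nat.card (P : Subgroup G) = Nat.card (P' : Subgroup (G ⧸ M 1)) := by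
        rw [hPcard, hP'card, hv, add_zero]
      have hfirst : Nat.card {u : G // u ∈ M 1 ∧ ∀ h ∈ H, h * u * h⁻¹ * u⁻¹ ∈ (⊥ : Subgroup G)} /
          Nat.card (⊥ : Subgroup G) = Nat.card ↥(M 1 ⊓ centralizer (H : Set G)) := by
        rw [Subgroup.card_bot, Nat.div_one]
        apply Nat.card_congr
        apply Equiv.subtypeEquivRight
        intro u
        rw [Subgroup.mem_inf, Subgroup.mem_centralizer_iff]
        apply and_congr Iff.rfl
        constructor
        · intro h1 h hh
          have h2 := h1 h hh
          rw [Subgroup.mem_bot] at h2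
          have h3 : h * u * h⁻¹ * u⁻¹ * u * h = h * u := by group
          rw [h2, one_mul] at h3
          exact h3.symm
        · intro h1 h hh
          rw [Subgroup.mem_bot, h1 h hh]
          group
      rw [hfirst, hR2, hIH, hPP']
      ring
    · rw [if_neg hc]
      obtain ⟨m, hm⟩ : ∃ m : ℕ, Nat.card (M 1) = p ^ m := by
        rcases hfac 0 with ⟨m, hm⟩ | hcop
        · refine ⟨m, ?_⟩
          rw [hcs0, hs0, h0, Subgroup.relIndex_bot_left] at hm
          exact hm
        · rw [hcs0, hs0, h0, Subgroup.relIndex_bot_left] at hcop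
          exact absurd hcop hc
      have hNp : IsPGroup p (M 1) := IsPGroup.of_card hm
      have hR1 := subn_card_of_normal_pgroup (M 1) hNp H
      have hv : (Nat.card (M 1)).factorization p = m := by
        rw [hm, Nat.factorization_pow, Nat.Prime.factorization hpp]
        simp
      have hPP' : Nat.card (P : Subgroup G) =
          Nat.card (M 1) * Nat.card (P' : Subgroup (G ⧸ M 1)) := by
        rw [hPcard, hP'card, hv, hm, pow_add, mul_comm]
      rw [hR1, hIH, hPP']
      ring

/-- Let G be a finite p-solvable group, H a p-subgroup of G and P a Sylow p-subgroup, and fix a chain of normal subgroups 1 = M₀ ≤ M₁ ≤ ⋯ ≤ Mₙ = G of G each of whose factors is a p-group or a p'-group. Then the number of elements g of G such that H is subnormal in the subgroup generated by H and g equals the order of P times the product, over the factors Mᵢ₊₁/Mᵢ of order prime to p, of the order of the centralizer of H in Mᵢ₊₁/Mᵢ (counted as the number of u ∈ Mᵢ₊₁ with [h, u] ∈ Mᵢ for all h ∈ H, divided by the order of Mᵢ). -/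
theorem result {G : Type*} [Group G] [Finite G] (p : ℕ) [Fact p.Prime]
    (hG : Cfsg.IsPSolvable p G) (H : Subgroup G) (hH : IsPGroup p H) (P : Sylow p G)
    (n : ℕ) (M : Fin (n + 1) → Subgroup G) (h0 : M 0 = ⊥) (hn : M (Fin.last n) = ⊤) (hmono : Monotone M)
    (hnormal : ∀ i, (M i).Normal)
    (hfac : ∀ i : Fin n, (∃ m : ℕ, (M i.castSucc).relIndex (M i.succ) = p ^ m) ∨ ((M i.castSucc).relIndex (M i.succ)).Coprime p) :
    Nat.card {g : G // ((H).subgroupOf (H ⊔ Subgroup.zpowers g)).IsSubnormal} =
      Nat.card (P : Subgroup G) *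
        ∏ i : Fin n, (if ((M i.castSucc).relIndex (M i.succ)).Coprime p then
          Nat.card {u : G // u ∈ M i.succ ∧ ∀ h ∈ H, h * u * h⁻¹ * u⁻¹ ∈ M i.castSucc} / Nat.card (M i.castSucc)
          else 1) := by
  have h1 : Nat.card {g : G // ((H).subgroupOf (H ⊔ Subgroup.zpowers g)).IsSubnormal} =
      Nat.card (subnSet p H) :=
    Nat.card_congr (Equiv.subtypeEquivRight (fun g => subn_iff H hH g))
  rw [h1]
  exact core p n H hH P M h0 hn hmono hnormal hfac

end Cfsg.Agent.S4090
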