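import Mathlib
import Cfsg.Statements.S4092
import Cfsg.Agent.Helper68.Frobenius

set_option autoImplicit false
open Cfsg

namespace Cfsg.Agent.S4092

/-- Let G be a finite group, p a prime and P a Sylow p-subgroup of G that is not normal in G. Then G has at least p·#P elements of p-power order (the identity included). -/
theorem result {G : Type*} [Group G] [Finite G] (p : ℕ) [Fact p.Prime]
    (P : Sylow p G) (hP : ¬ (P : Subgroup G).Normal) :
    p * Nat.card (P : Subgroup G) ≤ Nat.card {g : G // ∃ k : ℕ, orderOf g = p ^ k} := by
  exact Cfsg.Agent.Helper68.mul_card_sylow_le_card_pEl p G P hP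

end Cfsg.Agent.S4092
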