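import Mathlib
import Cfsg.Statements.S4093
import Cfsg.Agent.Helper68.Basic

set_option autoImplicit false
open Cfsg
open scoped BigOperators

namespace Cfsg.Agent.S4093

open Subgroup Cfsg.Agent.Helper68

variable {G : Type*} [Group G] [Finite G] (p : ℕ) [Fact p.Prime]

/-- `g` has `p`-power order -/
def IsPElt (g : G) : Prop := ∃ k : ℕ, orderOf g = p ^ k

omit [Finite G] [Fact p.Prime] in
theorem isPElt_conj (g m : G) (h : IsPElt p g) : IsPElt p (m * g * m⁻¹) := by
  obtain ⟨k, hk⟩ := h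
  refine ⟨k, ?_⟩
  rw [← hk, ← MulAut.conj_apply]
  exact MulEquiv.orderOf_eq (MulAut.conj m) g

theorem conj_of_isPElt (P : Sylow p G) (N : Subgroup G) [N.Normal]
    (hNP : N.IsComplement' (P : Subgroup G)) (n : N) (x : (P : Subgroup G))
    (h : IsPElt p ((n : G) * x)) : ∃ m ∈ N, m * (x : G) * m⁻¹ = n * x := by
  obtain ⟨k, hk⟩ := h
  set g : G := (n : G) * x with hg
  have hpg : IsPGroup p (zpowers g) := IsPGroup.of_card (n := k) (by rw [Nat.card_zpowers, hk])
  obtain ⟨Q, hQ⟩ := hpg.exists_le_sylow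
  obtain ⟨h, hh⟩ := MulAction.exists_smul_eq G P Q
  have hgQ : g ∈ (Q : Subgroup G) := hQ (mem_zpowers g)
  rw [← hh, Sylow.coe_subgroup_smul, mem_smul_pointwise_iff_exists] at hgQ
  obtain ⟨x', hx'P, hx'⟩ := hgQ
  rw [MulAut.smul_def, MulAut.conj_apply] at hx'
  obtain ⟨⟨m, y⟩, hmy⟩ := hNP.2 h
  simp only at hmy
  set x'' : G := (y : G) * x' * (y : G)⁻¹ with hx''
  have hx''P : x'' ∈ (P : Subgroup G) := mul_mem (mul_mem y.2 hx'P) (inv_mem y.2)
  have hg2 : g = m * x'' * (m : G)⁻¹ := by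
    rw [← hx', ← hmy, hx'']; group
  have hmem : (m : G) * x'' * (m : G)⁻¹ * x''⁻¹ ∈ N := by
    have : (m : G) * x'' * (m : G)⁻¹ * x''⁻¹ = m * (x'' * (m : G)⁻¹ * x''⁻¹) := by group
    rw [this]
    exact mul_mem m.2 (Subgroup.Normal.conj_mem inferInstance _ (inv_mem m.2) x'')
  have heq : (m : G) * x'' * (m : G)⁻¹ * x''⁻¹ * x'' = (n : G) * x := by
    rw [← hg, hg2]; group
  have := hNP.1 (a₁ := (⟨(m : G) * x'' * (m : G)⁻¹ * x''⁻¹, hmem⟩, ⟨x'', hx''P⟩)) (a₂ := (n, x)) heq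
  have hx : x'' = (x : G) := congrArg (fun z => (z.2 : G)) this
  refine ⟨m, m.2, ?_⟩
  rw [hg2, hx]

theorem card_fiber (P : Sylow p G) (N : Subgroup G) [N.Normal]
    (hNP : N.IsComplement' (P : Subgroup G)) (x : (P : Subgroup G)) :
    Nat.card {n : N // IsPElt p ((n : G) * x)} =
      Nat.card N / Nat.card ↥(N ⊓ centralizer ({(x : G)} : Set G)) := by
  rw [← card_conjOrbit N (x : G)]
  have hxp : IsPElt p (x : G) := by
    obtain ⟨k, hk⟩ := (P.2 x)
    obtain ⟨j, -, hj⟩ := (Nat.dvd_prime_pow (Fact.out (p := p.Prime))).1 (orderOf_dvd_of_pow_eq_one hk)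
    exact ⟨j, by rw [← hj, Subgroup.orderOf_coe]⟩
  refine Nat.card_congr (Equiv.ofBijective
    (fun n => ⟨(n.1 : G) * x, by
      obtain ⟨m, hm, hmx⟩ := conj_of_isPElt p P N hNP n.1 x n.2
      exact ⟨m, hm, hmx⟩⟩) ⟨?_, ?_⟩)
  · intro a b hab
    have := congrArg Subtype.val hab
    simp only at this
    exact Subtype.ext (Subtype.ext (mul_right_cancel this))
  · rintro ⟨y, m, hm, hmy⟩
    have hmem : m * (x : G) * m⁻¹ * (x : G)⁻¹ ∈ N := by
      have : m * (x : G) * m⁻¹ * (x : G)⁻¹ = m * ((x : G) * m⁻¹ * (x : G)⁻¹) := by group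
      rw [this]
      exact mul_mem hm (Subgroup.Normal.conj_mem inferInstance _ (inv_mem hm) x)
    refine ⟨⟨⟨m * (x : G) * m⁻¹ * (x : G)⁻¹, hmem⟩, ?_⟩, ?_⟩
    · simp only
      have : m * (x : G) * m⁻¹ * (x : G)⁻¹ * x = m * x * m⁻¹ := by group
      rw [this]
      exact isPElt_conj p _ m hxp
    · apply Subtype.ext
      simp only
      rw [← hmy]; group

/-- Let G be a finite group with a normal subgroup N complementing a Sylow p-subgroup P (a normal p-complement). Then the number of elements of G of p-power order equals the sum over x ∈ P of the index of C_N(x) in N. -/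
theorem result {G : Type*} [Group G] [Finite G] (p : ℕ) [Fact p.Prime]
    (P : Sylow p G) (N : Subgroup G) [N.Normal] (hNP : N.IsComplement' (P : Subgroup G)) :
    Nat.card {g : G // ∃ k : ℕ, orderOf g = p ^ k} =
      ∑ᶠ x : (P : Subgroup G), Nat.card N / Nat.card ↥(N ⊓ Subgroup.centralizer ({(x : G)} : Set G)) := by
  classical
  have : Fintype (P : Subgroup G) := Fintype.ofFinite _
  rw [finsum_eq_sum_of_fintype]
  have h1 : Nat.card {g : G // ∃ k : ℕ, orderOf g = p ^ k} =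
      Nat.card (Σ x : (P : Subgroup G), {n : N // IsPElt p ((n : G) * x)}) := by
    symm
    refine Nat.card_congr (Equiv.ofBijective (fun z => ⟨(z.2.1 : G) * z.1, z.2.2⟩) ⟨?_, ?_⟩)
    · rintro ⟨x, n, hn⟩ ⟨x', n', hn'⟩ hab
      have h2 := congrArg Subtype.val hab
      simp only at h2
      have h3 := hNP.1 (a₁ := (n, x)) (a₂ := (n', x')) h2
      have hn : n = n' := congrArg Prod.fst h3
      have hx : x = x' := congrArg Prod.snd h3
      subst hn; subst hx
      rfl
    · rintro ⟨g, hg⟩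
      obtain ⟨⟨n, x⟩, hnx⟩ := hNP.2 g
      simp only at hnx
      exact ⟨⟨x, n, by unfold IsPElt; rw [hnx]; exact hg⟩, Subtype.ext hnx⟩
  rw [h1, Nat.card_sigma]
  exact Finset.sum_congr rfl (fun x _ => card_fiber p P N hNP x)

end Cfsg.Agent.S4093
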