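import Mathlib
import Cfsg.Statements.S4097
import Cfsg.Agent.Helper29.FrobConj
import Cfsg.Agent.Helper21.Coprime
import Cfsg.Agent.Helper35.SZ

set_option autoImplicit false
open Cfsg

namespace Cfsg.Agent.S4097

open Subgroup
open scoped Pointwise

universe u

/-- If `A` lies in a normal abelian subgroup, the hypothesis forces `A` to be central. -/
theorem le_center_of_le_normal_abelian {G : Type u} [Group G]
    (A : Subgroup G)
    (hc : ∀ S : Subgroup G, A ≤ S → Group.IsSolvable S → ∀ a ∈ A, ∀ s ∈ S, a * s = s * a)
    (N : Subgroup G) [hN : N.Normal] (hNc : ∀ x ∈ N, ∀ y ∈ N, x * y = y * x) (hAN : A ≤ N) :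
    A ≤ Subgroup.center G := by
  intro a ha
  rw [Subgroup.mem_center_iff]
  intro g
  have hn : zpowers g ≤ normalizer (N : Set G) := by
    rw [Subgroup.normalizer_eq_top]; exact le_top
  have hX : Group.IsSolvable N :=
    Group.isSolvable_of_comm (fun x y => Subtype.ext (hNc x x.2 y y.2))
  have hY : Group.IsSolvable (zpowers g) :=
    Group.isSolvable_of_comm (fun x y => mul_comm' x y)
  have hS := Cfsg.Agent.Helper21.isSolvable_sup hn hX hY
  exact (hc (N ⊔ zpowers g) (hAN.trans le_sup_left) hS a ha g
    ((le_sup_right : zpowers g ≤ N ⊔ zpowers g) (Subgroup.mem_zpowers g))).symm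

theorem main : ∀ (n : ℕ) (G : Type u) [Group G] [Finite G], Nat.card G = n →
    ∀ (A : Subgroup G), Group.IsSolvable A →
    (∀ S : Subgroup G, A ≤ S → Group.IsSolvable S → ∀ a ∈ A, ∀ s ∈ S, a * s = s * a) →
    A ≤ Subgroup.center G := by
  intro n
  induction n using Nat.strong_induction_on with
  | _ n IH =>
  intro G _ _ hn A hA hc
  -- Step 1: `A` is central in every proper subgroup containing it
  have step1 : ∀ H : Subgroup G, H ≠ ⊤ → A ≤ H → ∀ a ∈ A, ∀ h ∈ H, a * h = h * a := by
    intro H hH hAH a ha h hh
    have hlt : Nat.card H < n := by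
      rw [← hn]
      refine lt_of_le_of_ne (Subgroup.card_le_card_group H) ?_
      intro he
      exact hH (Subgroup.eq_top_of_card_eq H he)
    have hsolv : Group.IsSolvable (A.subgroupOf H) :=
      Group.isSolvable_of_surjective (f := ((Subgroup.subgroupOfEquivOfLe hAH).symm :
        A ≃* A.subgroupOf H).toMonoidHom) (MulEquiv.surjective _)
    have key := IH (Nat.card H) hlt H rfl (A.subgroupOf H) hsolv (by
      intro S' hAS' hS' a' ha' s' hs'
      have hS : Group.IsSolvable (S'.map H.subtype) :=
        Group.isSolvable_of_surjective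
          (f := ((S'.equivMapOfInjective H.subtype H.subtype_injective) :
            S' ≃* S'.map H.subtype).toMonoidHom) (MulEquiv.surjective _)
      have hAS : A ≤ S'.map H.subtype := by
        intro b hb
        exact ⟨⟨b, hAH hb⟩, hAS' (Subgroup.mem_subgroupOf.mpr hb), rfl⟩
      have := hc (S'.map H.subtype) hAS hS (a' : G) (Subgroup.mem_subgroupOf.mp ha') (s' : G)
        ⟨s', hs', rfl⟩
      exact Subtype.ext this)
    have h1 : (⟨a, hAH ha⟩ : H) ∈ Subgroup.center H :=
      key (Subgroup.mem_subgroupOf.mpr ha)
    have h2 := (Subgroup.mem_center_iff.mp h1) ⟨h, hh⟩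
    exact (congrArg (fun t : H => (t : G)) h2).symm
  by_cases hZ : Subgroup.center G = ⊥
  · -- Step 3: trivial centre
    by_cases hAbot : A = ⊥
    · rw [hAbot]; exact bot_le
    exfalso
    have hAab : ∀ a ∈ A, ∀ b ∈ A, a * b = b * a := hc A le_rfl hA
    have hAM : A ≤ centralizer (A : Set G) := by
      intro a ha
      rw [Subgroup.mem_centralizer_iff]
      intro b hb
      exact hAab b hb a ha
    have hNA : ∀ (N : Subgroup G) [N.Normal], (∀ x ∈ N, ∀ y ∈ N, x * y = y * x) → A ≤ N →
        False := by
      intro N _ hNc hAN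
      have := le_center_of_le_normal_abelian A hc N hNc hAN
      rw [hZ] at this
      exact hAbot (le_bot_iff.mp this)
    have hMtop : centralizer (A : Set G) ≠ ⊤ := by
      intro hM
      apply hAbot
      rw [← le_bot_iff, ← hZ]
      intro a ha
      rw [Subgroup.mem_center_iff]
      intro g
      have hg : g ∈ centralizer (A : Set G) := by rw [hM]; exact Subgroup.mem_top g
      exact ((Subgroup.mem_centralizer_iff.mp hg) a ha).symm
    have h3c : ∀ H : Subgroup G, H ≠ ⊤ → A ≤ H → H ≤ centralizer (A : Set G) := by
      intro H hH hAH h hh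
      rw [Subgroup.mem_centralizer_iff]
      intro a ha
      exact step1 H hH hAH a ha h hh
    generalize hMdef : centralizer (A : Set G) = M at hAM hMtop h3c
    have hMmem : ∀ x : G, x ∈ M ↔ ∀ a ∈ A, a * x = x * a := by
      intro x; rw [← hMdef, Subgroup.mem_centralizer_iff]; exact Iff.rfl
    -- normalizer of M is M
    have hNM : normalizer (M : Set G) ≤ M := by
      by_cases hNt : normalizer (M : Set G) = ⊤
      · exfalso
        have hMn : M.Normal := Subgroup.normalizer_eq_top_iff.mp hNt
        refine hNA (M ⊓ centralizer (M : Set G)) ?_ ?_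
        · intro x hx y hy
          exact ((Subgroup.mem_centralizer_iff.mp hx.2) y hy.1).symm
        · intro a ha
          refine ⟨hAM ha, ?_⟩
          show a ∈ centralizer (M : Set G)
          rw [Subgroup.mem_centralizer_iff]
          intro m hm
          exact ((hMmem m).mp hm a ha).symm
      · exact h3c _ hNt (hAM.trans Subgroup.le_normalizer)
    -- two conjugates generate
    have h4a : ∀ g : G, g ∉ M → A ⊔ MulAut.conj g • A = ⊤ := by
      intro g hg
      by_contra hT
      have hTM := h3c _ hT le_sup_left
      have hgA : MulAut.conj g • A ≤ M := le_sup_right.trans hTM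
      have hAgM : A ≤ MulAut.conj g • M := by
        intro a ha
        rw [Cfsg.Agent.Helper35.mem_conj_smul, hMmem]
        intro b hb
        have hb' : g * b * g⁻¹ ∈ MulAut.conj g • A := by
          rw [Cfsg.Agent.Helper35.mem_conj_smul]
          have : g⁻¹ * (g * b * g⁻¹) * g = b := by group
          rw [this]; exact hb
        have h1 := (hMmem _).mp (hgA hb') a ha
        -- h1 : a * (g b g⁻¹) = (g b g⁻¹) * a
        have h2 : b * (g⁻¹ * a * g) = g⁻¹ * ((g * b * g⁻¹) * a) * g := by group
        have h3 : (g⁻¹ * a * g) * b = g⁻¹ * (a * (g * b * g⁻¹)) * g := by group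
        rw [h2, h3, h1]
      have hgMtop : MulAut.conj g • M ≠ ⊤ := by
        intro h
        apply hMtop
        rw [eq_top_iff]
        intro x _
        have hx : g * x * g⁻¹ ∈ MulAut.conj g • M := by rw [h]; exact Subgroup.mem_top _
        rw [Cfsg.Agent.Helper35.mem_conj_smul] at hx
        have : g⁻¹ * (g * x * g⁻¹) * g = x := by group
        rwa [this] at hx
      have hle := h3c _ hgMtop hAgM
      have heq : MulAut.conj g • M = M :=
        Subgroup.eq_of_le_of_card_ge hle (by rw [Cfsg.Agent.Helper35.card_conj_smul])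
      exact hg (hNM ((Cfsg.Agent.Helper35.mem_normalizer_iff_conj_smul_eq).mpr heq))
    -- M is a Frobenius complement
    have hFrob : Cfsg.IsFrobeniusComplement M := by
      refine ⟨?_, hMtop, ?_⟩
      · intro hM
        exact hAbot (le_bot_iff.mp (hM ▸ hAM))
      · intro g hg
        rw [eq_bot_iff]
        intro x hx
        rw [Subgroup.mem_bot]
        have hxM : x ∈ M := hx.1
        have hxg : g⁻¹ * x * g ∈ M := (Cfsg.Agent.Helper35.mem_conj_smul).mp hx.2
        have hle : A ⊔ MulAut.conj g • A ≤ centralizer ({x} : Set G) := by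
          refine sup_le ?_ ?_
          · intro a ha
            rw [Subgroup.mem_centralizer_singleton_iff]
            exact (hMmem x).mp hxM a ha
          · intro c hc'
            rw [Cfsg.Agent.Helper35.mem_conj_smul] at hc'
            rw [Subgroup.mem_centralizer_singleton_iff]
            have h1 := (hMmem _).mp hxg _ hc'
            -- h1 : (g⁻¹ c g) * (g⁻¹ x g) = (g⁻¹ x g) * (g⁻¹ c g)
            have h2 : c * x = g * ((g⁻¹ * c * g) * (g⁻¹ * x * g)) * g⁻¹ := by group
            have h3 : x * c = g * ((g⁻¹ * x * g) * (g⁻¹ * c * g)) * g⁻¹ := by group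
            rw [h2, h3, h1]
        rw [h4a g hg] at hle
        have hxc : x ∈ Subgroup.center G := by
          rw [Subgroup.mem_center_iff]
          intro y
          exact Subgroup.mem_centralizer_singleton_iff.mp (hle (Subgroup.mem_top y))
        rw [hZ] at hxc
        exact Subgroup.mem_bot.mp hxc
    obtain ⟨N, -, hF⟩ := Cfsg.Agent.Helper29.exists_frobPair M hFrob
    obtain ⟨Z, hZne, hZN, hZc, hZinv⟩ := hF.exists_invariant_abelian
    have hAZ : A ≤ normalizer (Z : Set G) := by
      intro a ha
      rw [Subgroup.mem_normalizer_iff]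
      intro z
      constructor
      · exact hZinv a (hAM ha) z
      · intro h
        have := hZinv a⁻¹ (M.inv_mem (hAM ha)) _ h
        have e : a⁻¹ * (a * z * a⁻¹) * a⁻¹⁻¹ = z := by group
        rwa [e] at this
    have hSsolv : Group.IsSolvable ↥(Z ⊔ A) :=
      Cfsg.Agent.Helper21.isSolvable_sup hAZ
        (Group.isSolvable_of_comm (fun x y => Subtype.ext (hZc x x.2 y y.2))) hA
    obtain ⟨⟨a, ha⟩, ha1⟩ := (Subgroup.ne_bot_iff_exists_ne_one).mp hAbot
    obtain ⟨⟨z, hz⟩, hz1⟩ := (Subgroup.ne_bot_iff_exists_ne_one).mp hZne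
    have ha1' : a ≠ 1 := fun h => ha1 (Subtype.ext h)
    have hz1' : z ≠ 1 := fun h => hz1 (Subtype.ext h)
    have hcomm := hc (Z ⊔ A) le_sup_right hSsolv a ha z ((le_sup_left : Z ≤ Z ⊔ A) hz)
    have haN : a ∉ N := fun h => ha1' (hF.disjoint h (hAM ha))
    exact hz1' (hF.eq_one_of_commute haN (hZN hz) hcomm)
  · -- Step 2: nontrivial centre, pass to the quotient
    have hlt : Nat.card (G ⧸ Subgroup.center G) < n := by
      have h1 := Subgroup.card_eq_card_quotient_mul_card_subgroup (Subgroup.center G)
      have h2 : 1 < Nat.card (Subgroup.center G) := (Subgroup.one_lt_card_iff_ne_bot _).mpr hZ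
      have h3 : 0 < Nat.card (G ⧸ Subgroup.center G) := Nat.card_pos
      rw [← hn, h1]
      nlinarith
    have hsolvA : Group.IsSolvable (A.map (QuotientGroup.mk' (Subgroup.center G))) :=
      Group.isSolvable_of_surjective (f := (QuotientGroup.mk' (Subgroup.center G)).subgroupMap A)
        (MonoidHom.subgroupMap_surjective _ _)
    have key := IH _ hlt (G ⧸ Subgroup.center G) rfl
      (A.map (QuotientGroup.mk' (Subgroup.center G))) hsolvA (by
      intro S' hAS' hS' a' ha' s' hs'
      have hZS : Subgroup.center G ≤ S'.comap (QuotientGroup.mk' (Subgroup.center G)) := by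
        intro z hz
        rw [Subgroup.mem_comap]
        have : (QuotientGroup.mk' (Subgroup.center G)) z = 1 := by
          rw [QuotientGroup.mk'_apply, QuotientGroup.eq_one_iff]; exact hz
        rw [this]; exact S'.one_mem
      have hZsolv : Group.IsSolvable (Subgroup.center G) :=
        Group.isSolvable_of_comm (fun x y => Subtype.ext ((Subgroup.mem_center_iff.mp y.2 x)))
      have hS : Group.IsSolvable (S'.comap (QuotientGroup.mk' (Subgroup.center G))) := by
        refine Group.isSolvable_of_ker_le_range (Subgroup.inclusion hZS)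
          ((QuotientGroup.mk' (Subgroup.center G)).subgroupComap S') ?_
        intro x hx
        rw [MonoidHom.mem_ker] at hx
        have hx' : (QuotientGroup.mk' (Subgroup.center G)) (x : G) = 1 :=
          congrArg (fun t : S' => (t : G ⧸ Subgroup.center G)) hx
        rw [QuotientGroup.mk'_apply, QuotientGroup.eq_one_iff] at hx'
        exact ⟨⟨x, hx'⟩, Subtype.ext rfl⟩
      have hAS : A ≤ S'.comap (QuotientGroup.mk' (Subgroup.center G)) :=
        Subgroup.map_le_iff_le_comap.mp hAS'
      obtain ⟨a, ha, rfl⟩ := ha'
      obtain ⟨s, rfl⟩ := QuotientGroup.mk'_surjective (Subgroup.center G) s'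
      have := hc _ hAS hS a ha s (Subgroup.mem_comap.mpr hs')
      rw [← map_mul, ← map_mul, this])
    -- the preimage of the image of A is a normal abelian subgroup
    have hAn : (A.map (QuotientGroup.mk' (Subgroup.center G))).Normal := by
      constructor
      intro x hx g
      have hxc := Subgroup.mem_center_iff.mp (key hx) g
      have : g * x * g⁻¹ = x := by rw [hxc, mul_inv_cancel_right]
      rw [this]; exact hx
    have hNn : ((A.map (QuotientGroup.mk' (Subgroup.center G))).comap
        (QuotientGroup.mk' (Subgroup.center G))).Normal := hAn.comap _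
    have hAab : ∀ a ∈ A, ∀ b ∈ A, a * b = b * a := hc A le_rfl hA
    refine le_center_of_le_normal_abelian A hc
      ((A.map (QuotientGroup.mk' (Subgroup.center G))).comap
        (QuotientGroup.mk' (Subgroup.center G))) ?_ (Subgroup.le_comap_map _ _)
    intro x hx y hy
    obtain ⟨a, ha, hax⟩ := Subgroup.mem_comap.mp hx
    obtain ⟨b, hb, hby⟩ := Subgroup.mem_comap.mp hy
    rw [QuotientGroup.mk'_apply, QuotientGroup.mk'_apply, QuotientGroup.eq] at hax hby
    have hz1 : ∀ g : G, Commute (a⁻¹ * x) g := fun g => ((Subgroup.mem_center_iff.mp hax) g).symm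
    have hz2 : ∀ g : G, Commute (b⁻¹ * y) g := fun g => ((Subgroup.mem_center_iff.mp hby) g).symm
    have hab : Commute a b := hAab a ha b hb
    have hx' : x = a * (a⁻¹ * x) := by group
    have hy' : y = b * (b⁻¹ * y) := by group
    have : Commute (a * (a⁻¹ * x)) (b * (b⁻¹ * y)) :=
      Commute.mul_left (Commute.mul_right hab (hz2 a).symm) (hz1 _)
    rw [hx', hy']
    exact this.eq

/-- Let A be a solvable subgroup of a finite group G such that A lies in the centre of every solvable subgroup of G containing A. Then A lies in the centre of G. -/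
theorem result {G : Type*} [Group G] [Finite G]
    (A : Subgroup G) (hA : Group.IsSolvable A)
    (hc : ∀ S : Subgroup G, A ≤ S → Group.IsSolvable S → ∀ a ∈ A, ∀ s ∈ S, a * s = s * a) : A ≤ Subgroup.center G := by
  exact main _ G rfl A hA hc

end Cfsg.Agent.S4097
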