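import Mathlib
import Cfsg.Statements.S4106
import Cfsg.Agent.Helper68.PiElt

set_option autoImplicit false
open Cfsg

namespace Cfsg.Agent.S4106

open Subgroup Cfsg.Agent.Helper68

/-- Let G be a finite group, π a set of primes and m the π-part of the order of G. Then the number of conjugacy classes of G consisting of π-elements (elements whose order is divisible only by primes in π) is at most m. -/
theorem result {G : Type*} [Group G] [Finite G]
    (π : Set ℕ) (hπ : ∀ q ∈ π, q.Prime)
    (m : ℕ) (hm : m ∣ Nat.card G) (hmπ : ∀ q : ℕ, q.Prime → q ∣ m → q ∈ π)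
    (hm' : ∀ q ∈ π, ¬ q ∣ Nat.card G / m) :
    Nat.card {C : ConjClasses G // ∀ q : ℕ, q.Prime → (∃ g : G, ConjClasses.mk g = C ∧ q ∣ orderOf g) → q ∈ π} ≤ m := by
  classical
  have hn0 : Nat.card G ≠ 0 := Nat.card_pos.ne'
  set T : Finset ℕ := (Nat.card G).primeFactors.filter (· ∈ π) with hTdef
  have hT : ∀ q ∈ T, q.Prime := fun q hq =>
    Nat.prime_of_mem_primeFactors (Finset.mem_filter.1 hq).1
  have hsub : ∀ C : ConjClasses G,
      (∀ q : ℕ, q.Prime → (∃ g : G, ConjClasses.mk g = C ∧ q ∣ orderOf g) → q ∈ π) →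
        IsPiClass (T : Set ℕ) C := by
    intro C hC q hq hex
    have h1 := hC q hq hex
    obtain ⟨g, -, hqg⟩ := hex
    have h2 : q ∣ Nat.card G := hqg.trans (orderOf_dvd_natCard g)
    rw [Finset.mem_coe, hTdef, Finset.mem_filter, Nat.mem_primeFactors]
    exact ⟨⟨hq, h2, hn0⟩, h1⟩
  have hle : Nat.card {C : ConjClasses G // ∀ q : ℕ, q.Prime →
      (∃ g : G, ConjClasses.mk g = C ∧ q ∣ orderOf g) → q ∈ π} ≤
      Nat.card {C : ConjClasses G // IsPiClass (T : Set ℕ) C} :=
    Nat.card_le_card_of_injective (fun C => ⟨C.1, hsub C.1 C.2⟩)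
      (fun a b h => Subtype.ext (by
        have h2 := congrArg Subtype.val h
        exact h2))
  refine hle.trans ((card_piClass_le T hT G).trans ?_)
  obtain ⟨r, hr⟩ := hm
  have hm0 : m ≠ 0 := by
    rintro rfl
    rw [zero_mul] at hr
    exact hn0 hr
  have hr0 : r ≠ 0 := by
    rintro rfl
    rw [mul_zero] at hr
    exact hn0 hr
  have hdiv : Nat.card G / m = r := by
    rw [hr]; exact Nat.mul_div_cancel_left r (Nat.pos_of_ne_zero hm0)
  have hpart : piPart T (Nat.card G) = piPart T m := by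
    unfold piPart
    apply Finset.prod_congr rfl
    intro q hq
    have hqπ : q ∈ π := (Finset.mem_filter.1 hq).2
    have hqr : ¬ q ∣ r := by rw [← hdiv]; exact hm' q hqπ
    rw [hr, Nat.factorization_mul hm0 hr0]
    simp [Nat.factorization_eq_zero_of_not_dvd hqr]
  rw [hpart]
  exact Nat.le_of_dvd (Nat.pos_of_ne_zero hm0) (piPart_dvd T hT m)

end Cfsg.Agent.S4106
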