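import Mathlib
import Cfsg.Statements.S4107
import Cfsg.Agent.Helper68.Nilp

set_option autoImplicit false
open Cfsg

namespace Cfsg.Agent.S4107

open Subgroup Cfsg.Agent.Helper68 in
theorem key {G : Type*} [Group G] [Finite G] (N : Subgroup G) [hNn : N.Normal] (hN1 : N ≠ ⊥)
    (heq : ∀ x : G, x ∉ N → ∀ n ∈ N, orderOf (x * n) = orderOf x)
    (hF : ¬ Cfsg.fittingSubgroup G ≤ N) :
    ∃ (p : ℕ) (_ : Fact p.Prime), IsPGroup p N ∧
      ∀ K : Subgroup G, K.Normal → Group.IsNilpotent K → IsPGroup p K := by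
  unfold Cfsg.fittingSubgroup at hF
  rw [sSup_le_iff, not_forall] at hF
  obtain ⟨K, hK⟩ := hF
  rw [Classical.not_imp] at hK
  obtain ⟨⟨hKn, hKnil⟩, hKN⟩ := hK
  obtain ⟨k, hkK, hkN⟩ := SetLike.not_le_iff_exists.1 hKN
  obtain ⟨p, hp, x, hxk, hxp, hxN⟩ := exists_pEl_not_mem N _ k rfl hkN
  have hpp : p.Prime := hp.out
  obtain ⟨P, hPn, hPp, hPK, hPall⟩ := exists_normal_pgroup_of_nilpotent p K hKnil
  have hxP : x ∈ P := hPall x ((zpowers_le.2 hkK) hxk) hxp
  have hNp : IsPGroup p N := by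
    apply isPGroup_of_forall_pprime_eq_one
    intro y hy hpy
    have h1 : orderOf (x * y) = orderOf x := heq x hxN y hy
    obtain ⟨i, hi⟩ := hxp
    have h2 : (x * y) ^ p ^ i = 1 := by rw [← hi, ← h1, pow_orderOf_eq_one]
    have h3 : y ^ p ^ i ∈ P := by
      have e : (QuotientGroup.mk' P) ((x * y) ^ p ^ i) = 1 := by rw [h2, map_one]
      have ex : (QuotientGroup.mk' P) x = 1 := (QuotientGroup.eq_one_iff x).2 hxP
      rw [map_pow, map_mul, ex, one_mul, ← map_pow] at e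
      exact (QuotientGroup.eq_one_iff _).1 e
    obtain ⟨j, hj⟩ := hPp ⟨_, h3⟩
    have h4 : y ^ p ^ (i + j) = 1 := by
      rw [pow_add, pow_mul]; exact congrArg Subtype.val hj
    have h5 : orderOf y ∣ p ^ (i + j) := orderOf_dvd_of_pow_eq_one h4
    have hcop : Nat.Coprime (orderOf y) (p ^ (i + j)) :=
      Nat.Coprime.pow_right _ ((Nat.Prime.coprime_iff_not_dvd hpp).2 hpy).symm
    exact orderOf_eq_one_iff.1 (Nat.Coprime.eq_one_of_dvd hcop h5)
  refine ⟨p, hp, hNp, ?_⟩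
  intro K' hK'n hK'nil
  apply isPGroup_of_forall_pprime_eq_one
  intro c hc hpc
  by_contra hc1
  have ho : orderOf c ≠ 1 := fun h => hc1 (orderOf_eq_one_iff.1 h)
  obtain ⟨q, hq, hqc⟩ := Nat.exists_prime_and_dvd ho
  have hqp : q ≠ p := by rintro rfl; exact hpc hqc
  have : Fact q.Prime := ⟨hq⟩
  set z := c ^ (orderOf c / q) with hz
  have hzo : orderOf z = q := orderOf_pow_orderOf_div (orderOf_pos c).ne' hqc
  have hzK : z ∈ K' := pow_mem hc _
  obtain ⟨Q, hQn, hQq, hQK, hQall⟩ := exists_normal_pgroup_of_nilpotent q K' hK'nil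
  have hzQ : z ∈ Q := hQall z hzK ⟨1, by rw [hzo, pow_one]⟩
  have hzN : z ∉ N := by
    intro hzN
    obtain ⟨j, hj⟩ := hNp ⟨z, hzN⟩
    have hj' : z ^ p ^ j = 1 := congrArg Subtype.val hj
    have h6 := orderOf_dvd_of_pow_eq_one hj'
    rw [hzo] at h6
    exact hqp ((Nat.prime_dvd_prime_iff_eq hq hpp).1 (hq.dvd_of_dvd_pow h6))
  apply hN1
  rw [eq_bot_iff]
  intro n hn
  rw [mem_bot]
  have hcomm : Commute z n := by
    have h1 : z * n * z⁻¹ * n⁻¹ ∈ Q := by
      have e : z * n * z⁻¹ * n⁻¹ = z * (n * z⁻¹ * n⁻¹) := by group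
      rw [e]
      exact mul_mem hzQ (hQn.conj_mem _ (inv_mem hzQ) n)
    have h2 : z * n * z⁻¹ * n⁻¹ ∈ N := mul_mem (hNn.conj_mem n hn z) (inv_mem hn)
    obtain ⟨a, ha⟩ := hQq ⟨_, h1⟩
    obtain ⟨b, hb⟩ := hNp ⟨_, h2⟩
    have ha' : (z * n * z⁻¹ * n⁻¹) ^ q ^ a = 1 := congrArg Subtype.val ha
    have hb' : (z * n * z⁻¹ * n⁻¹) ^ p ^ b = 1 := congrArg Subtype.val hb
    have hcop : Nat.Coprime (q ^ a) (p ^ b) :=
      Nat.Coprime.pow _ _ ((Nat.coprime_primes hq hpp).2 hqp)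
    have h3 : orderOf (z * n * z⁻¹ * n⁻¹) = 1 :=
      Nat.eq_one_of_dvd_coprimes hcop (orderOf_dvd_of_pow_eq_one ha')
        (orderOf_dvd_of_pow_eq_one hb')
    rw [orderOf_eq_one_iff] at h3
    have e : z * n = (z * n * z⁻¹ * n⁻¹) * n * z := by group
    show z * n = n * z
    rw [e, h3, one_mul]
  have h1 := heq z hzN n hn
  obtain ⟨b, hb⟩ := hNp ⟨n, hn⟩
  have hb' : n ^ p ^ b = 1 := congrArg Subtype.val hb
  have hcop : Nat.Coprime (orderOf z) (orderOf n) := by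
    rw [hzo]
    exact Nat.Coprime.coprime_dvd_right (orderOf_dvd_of_pow_eq_one hb')
      (Nat.Coprime.pow_right _ ((Nat.coprime_primes hq hpp).2 hqp))
  rw [hcomm.orderOf_mul_eq_mul_orderOf_of_coprime hcop, hzo] at h1
  have h7 : orderOf n = 1 := Nat.eq_of_mul_eq_mul_left hq.pos (h1.trans (mul_one q).symm)
  exact orderOf_eq_one_iff.1 h7

/-- Let G be a finite group and N a proper non-trivial normal subgroup such that for every x outside N all elements of the coset xN have the same order as x. Then N ≤ F(G) or F(G) ≤ N, where F(G) is the Fitting subgroup; and if N is properly contained in F(G) then F(G) has prime-power order. -/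
theorem result {G : Type*} [Group G] [Finite G] (N : Subgroup G) [N.Normal] (hN1 : N ≠ ⊥) (hN2 : N ≠ ⊤)
    (heq : ∀ x : G, x ∉ N → ∀ n ∈ N, orderOf (x * n) = orderOf x) :
    (N ≤ Cfsg.fittingSubgroup G ∨ Cfsg.fittingSubgroup G ≤ N) ∧
    (N < Cfsg.fittingSubgroup G → IsPrimePow (Nat.card (Cfsg.fittingSubgroup G))) := by
  constructor
  · by_cases hF : Cfsg.fittingSubgroup G ≤ N
    · exact Or.inr hF
    · left
      obtain ⟨p, hp, hNp, -⟩ := key N hN1 heq hF
      exact le_sSup ⟨inferInstance, hNp.isNilpotent⟩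
  · intro hlt
    have hF : ¬ Cfsg.fittingSubgroup G ≤ N := not_le_of_gt hlt
    obtain ⟨p, hp, hNp, hall⟩ := key N hN1 heq hF
    have hFp : IsPGroup p (Cfsg.fittingSubgroup G) := by
      have hle : Cfsg.fittingSubgroup G ≤ Cfsg.pCore p G := by
        apply sSup_le
        rintro K ⟨hKn, hKnil⟩
        exact le_sSup ⟨hKn, hall K hKn hKnil⟩
      exact (Cfsg.Agent.Helper68.pcore_isPGroup p G).to_le hle
    obtain ⟨k, hk⟩ := IsPGroup.iff_card.1 hFp
    rw [hk]
    have hk0 : k ≠ 0 := by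
      rintro rfl
      rw [pow_zero] at hk
      have h8 : Cfsg.fittingSubgroup G = ⊥ := Subgroup.card_eq_one.1 hk
      rw [h8] at hlt
      exact not_lt_bot hlt
    exact (hp.out.isPrimePow).pow hk0

end Cfsg.Agent.S4107
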