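import Mathlib
import Cfsg.Statements.S4108

set_option autoImplicit false
open Cfsg

namespace Cfsg.Agent.S4108

open Subgroup
open scoped Pointwise

/-- Let G be a finite group, p a prime and N a proper non-trivial normal p-subgroup such that for every x outside N all elements of the coset xN have the same order as x. Then every non-trivial subgroup H of G of order prime to p acts fixed-point-freely on N: NH is a Frobenius group with complement H and kernel N. -/
theorem result {G : Type*} [Group G] [Finite G] (N : Subgroup G) [N.Normal] (hN1 : N ≠ ⊥) (hN2 : N ≠ ⊤)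
    (heq : ∀ x : G, x ∉ N → ∀ n ∈ N, orderOf (x * n) = orderOf x)
    (p : ℕ) [Fact p.Prime] (hNp : IsPGroup p N) :
    ∀ H : Subgroup G, H ≠ ⊥ → (Nat.card H).Coprime p →
      Cfsg.IsFrobeniusComplement (H.subgroupOf (N ⊔ H)) ∧ Cfsg.frobeniusKernel (H.subgroupOf (N ⊔ H)) = (N.subgroupOf (N ⊔ H) : Set ↥(N ⊔ H)) := by
  intro H hH1 hHcop
  have hNnorm : N.Normal := inferInstance
  -- orders of elements of `H` and `N` are coprime
  have hordcop : ∀ h ∈ H, ∀ n ∈ N, Nat.Coprime (orderOf h) (orderOf n) := by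
    intro h hh n hn
    have h1 : orderOf h ∣ Nat.card H := by
      have := orderOf_dvd_natCard (⟨h, hh⟩ : H); rwa [Subgroup.orderOf_mk] at this
    obtain ⟨k, hk⟩ := hNp ⟨n, hn⟩
    have h2 : orderOf n ∣ p ^ k := by
      apply orderOf_dvd_of_pow_eq_one
      simpa using congrArg Subtype.val hk
    exact Nat.Coprime.coprime_dvd_right h2 ((Nat.Coprime.coprime_dvd_left h1 hHcop).pow_right k)
  have hHN : ∀ x, x ∈ H → x ∈ N → x = 1 := by
    intro x hxH hxN
    have h3 := hordcop x hxH x hxN
    rw [Nat.coprime_self] at h3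
    exact orderOf_eq_one_iff.1 h3
  have hcomm : ∀ h ∈ H, h ≠ 1 → ∀ n ∈ N, h * n = n * h → n = 1 := by
    intro h hh hh1 n hn hc
    have hhN : h ∉ N := fun hN => hh1 (hHN h hh hN)
    have h1 := heq h hhN n hn
    have h2 := (show Commute h n from hc).orderOf_mul_eq_mul_orderOf_of_coprime (hordcop h hh n hn)
    rw [h1] at h2
    have hpos : 0 < orderOf h := orderOf_pos h
    have h3 : orderOf n = 1 := by
      have : orderOf h * 1 = orderOf h * orderOf n := by rw [mul_one]; exact h2
      exact (Nat.eq_of_mul_eq_mul_left hpos this).symm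
    exact orderOf_eq_one_iff.1 h3
  -- decomposition of the elements of `N ⊔ H`
  have hdec : ∀ g : G, g ∈ N ⊔ H → ∃ n ∈ N, ∃ h ∈ H, n * h = g := by
    intro g hg
    have : g ∈ ((N ⊔ H : Subgroup G) : Set G) := hg
    rw [Subgroup.normal_mul] at this
    exact Set.mem_mul.1 this
  have hNle : N ≤ N ⊔ H := le_sup_left
  have hHle : H ≤ N ⊔ H := le_sup_right
  -- every element of `hN` is an `N`-conjugate of `h`
  have hconj : ∀ h ∈ H, h ≠ 1 → ∀ n ∈ N, ∃ m ∈ N, m * h * m⁻¹ = n * h := by
    intro h hh hh1 n hn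
    let f : N → N := fun m => ⟨(m : G) * h * (m : G)⁻¹ * h⁻¹, by
      have : (m : G) * h * (m : G)⁻¹ * h⁻¹ = m * (h * (m : G)⁻¹ * h⁻¹) := by group
      rw [this]
      exact mul_mem m.2 (hNnorm.conj_mem _ (inv_mem m.2) h)⟩
    have hinj : Function.Injective f := by
      intro a b hab
      have h1 : (a : G) * h * (a : G)⁻¹ * h⁻¹ = (b : G) * h * (b : G)⁻¹ * h⁻¹ := congrArg Subtype.val hab
      have h2 : h * ((b : G)⁻¹ * a) = ((b : G)⁻¹ * a) * h := by
        have h3 : (a : G) * h * (a : G)⁻¹ = (b : G) * h * (b : G)⁻¹ := mul_right_cancel h1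
        have h4 : h * ((b : G)⁻¹ * a) = (b : G)⁻¹ * ((b : G) * h * (b : G)⁻¹) * a := by group
        rw [h4, ← h3]; group
      have h5 := hcomm h hh hh1 _ (mul_mem (inv_mem b.2) a.2) h2
      apply Subtype.ext
      have : (a : G) = b * ((b : G)⁻¹ * a) := by group
      rw [this, h5, mul_one]
    obtain ⟨m, hm⟩ := (Finite.injective_iff_surjective.1 hinj) ⟨n, hn⟩
    refine ⟨m, m.2, ?_⟩
    have h1 : (m : G) * h * (m : G)⁻¹ * h⁻¹ = n := congrArg Subtype.val hm
    rw [← h1]; group
  refine ⟨⟨?_, ?_, ?_⟩, ?_⟩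
  · -- `H ≠ ⊥`
    intro hbot
    apply hH1
    rw [eq_bot_iff]
    intro x hx
    have : (⟨x, hHle hx⟩ : ↥(N ⊔ H)) ∈ H.subgroupOf (N ⊔ H) := by
      rw [mem_subgroupOf]; exact hx
    rw [hbot, mem_bot] at this
    rw [mem_bot]
    exact congrArg Subtype.val this
  · -- `H ≠ ⊤`
    intro htop
    apply hN1
    rw [eq_bot_iff]
    intro x hx
    have : (⟨x, hNle hx⟩ : ↥(N ⊔ H)) ∈ H.subgroupOf (N ⊔ H) := by
      rw [htop]; exact mem_top _
    rw [mem_subgroupOf] at this
    rw [mem_bot]
    exact hHN x this hx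
  · intro g hg
    rw [eq_bot_iff]
    intro y hy
    rw [mem_inf] at hy
    obtain ⟨hy1, hy2⟩ := hy
    rw [mem_smul_pointwise_iff_exists] at hy2
    obtain ⟨y', hy', hyy'⟩ := hy2
    rw [MulAut.smul_def, MulAut.conj_apply] at hyy'
    rw [mem_subgroupOf] at hy1 hy' hg
    obtain ⟨n, hn, h, hh, hnh⟩ := hdec g g.2
    have hyy'' : (g : G) * y' * (g : G)⁻¹ = y := by
      have := congrArg Subtype.val hyy'
      simpa using this
    set y'' : G := h * y' * h⁻¹ with hy''
    have hy''H : y'' ∈ H := mul_mem (mul_mem hh hy') (inv_mem hh)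
    have h1 : (y : G) = n * y'' * n⁻¹ := by
      rw [← hyy'', ← hnh, hy'']; group
    have h2 : (y : G) * y''⁻¹ ∈ N := by
      have : (y : G) * y''⁻¹ = n * (y'' * n⁻¹ * y''⁻¹) := by rw [h1]; group
      rw [this]
      exact mul_mem hn (hNnorm.conj_mem _ (inv_mem hn) y'')
    have h3 : (y : G) * y''⁻¹ = 1 := hHN _ (mul_mem hy1 (inv_mem hy''H)) h2
    have h4 : (y : G) = y'' := by
      have : (y : G) = (y : G) * y''⁻¹ * y'' := by group
      rw [this, h3, one_mul]
    rw [mem_bot]
    apply Subtype.ext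
    rw [coe_one]
    by_contra hy1'
    have h5 : (y : G) * n = n * y := by
      nth_rewrite 1 [h1]
      rw [← h4]; group
    have h6 := hcomm y hy1 hy1' n hn h5
    apply hg
    rw [← hnh, h6, one_mul]
    exact hh
  · ext x
    simp only [frobeniusKernel, Set.mem_setOf_eq, SetLike.mem_coe, mem_subgroupOf]
    constructor
    · rintro (rfl | hx)
      · exact one_mem _
      · by_contra hxN
        obtain ⟨n, hn, h, hh, hnh⟩ := hdec x x.2
        have hh1 : h ≠ 1 := by
          rintro rfl
          apply hxN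
          rw [← hnh, mul_one]; exact hn
        obtain ⟨m, hm, hmh⟩ := hconj h hh hh1 n hn
        apply hx ⟨m, hNle hm⟩
        rw [mem_smul_pointwise_iff_exists]
        refine ⟨⟨h, hHle hh⟩, ?_, ?_⟩
        · rw [mem_subgroupOf]; exact hh
        · rw [MulAut.smul_def, MulAut.conj_apply]
          apply Subtype.ext
          simp only [coe_mul, InvMemClass.coe_inv]
          rw [hmh, hnh]
    · intro hxN
      by_cases hx1 : x = 1
      · left; exact hx1
      · right
        intro g hxg
        rw [mem_smul_pointwise_iff_exists] at hxg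
        obtain ⟨y, hy, hyx⟩ := hxg
        rw [MulAut.smul_def, MulAut.conj_apply] at hyx
        rw [mem_subgroupOf] at hy
        have h1 : (y : G) = (g : G)⁻¹ * x * g := by
          rw [← hyx]; simp only [coe_mul, InvMemClass.coe_inv]; group
        have h2 : (y : G) ∈ N := by
          rw [h1]
          have := hNnorm.conj_mem _ hxN (g : G)⁻¹
          simpa using this
        have h3 := hHN _ hy h2
        apply hx1
        rw [← hyx]
        have : y = 1 := Subtype.ext h3
        rw [this]; group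

end Cfsg.Agent.S4108
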