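import Mathlib
import Cfsg.Statements.S4112
import Cfsg.Agent.Helper68.PGroup

set_option autoImplicit false
open Cfsg

namespace Cfsg.Agent.S4112

open Subgroup Cfsg.Agent.Helper68

variable {G : Type*} [Group G] [Finite G] (N M : Subgroup G) [N.Normal] [M.Normal]

/-- (1) implies (2) -/
theorem coprime_of_cent (h1 : ∀ x ∈ M, x ≠ 1 → centralizer ({x} : Set G) ≤ N) :
    N.index.Coprime (Nat.card M) := by
  by_contra hnc
  obtain ⟨p, hp, hpN, hpM⟩ := Nat.Prime.not_coprime_iff_dvd.1 hnc
  have : Fact p.Prime := ⟨hp⟩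
  obtain ⟨P⟩ : Nonempty (Sylow p G) := inferInstance
  obtain ⟨x, hxM, hx1, hxP⟩ := exists_central_in_normal p P M hpM
  have hPN : (P : Subgroup G) ≤ N := by
    intro g hg
    apply h1 x hxM hx1
    rw [mem_centralizer_iff]
    rintro y rfl
    exact (hxP g hg).symm
  exact P.not_dvd_index (hpN.trans (index_dvd_of_le hPN))

/-- (2) implies (1), for elements of prime order -/
theorem cent_le_of_prime (hcam : ∀ g : G, g ∉ N → ∀ m ∈ M, ∃ x : G, x * g * x⁻¹ = g * m)
    (hcop : N.index.Coprime (Nat.card M)) (x : G) (hx : x ∈ M) (r : ℕ) (hr : r.Prime)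
    (hxr : orderOf x = r) : ∀ (n : ℕ) (g : G), orderOf g = n → g * x = x * g → g ∈ N := by
  intro n
  induction n using Nat.strong_induction_on with
  | _ n ih =>
    intro g hgn hgx
    by_contra hgN
    obtain ⟨y, hy⟩ := hcam g hgN x hx
    have hord : orderOf (g * x) = n := by
      rw [← hy, ← MulAut.conj_apply, MulEquiv.orderOf_eq, hgn]
    have hpow : (g * x) ^ n = x ^ n := by
      rw [(show Commute g x from hgx).mul_pow, ← hgn, pow_orderOf_eq_one, one_mul]
    have hxn : x ^ n = 1 := by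
      rw [← hpow, ← hord, pow_orderOf_eq_one]
    have hrn : r ∣ n := hxr ▸ orderOf_dvd_of_pow_eq_one hxn
    have hnpos : 0 < n := hgn ▸ orderOf_pos g
    have hlt : orderOf (g ^ r) < n := by
      rw [orderOf_pow, hgn, Nat.gcd_eq_right hrn]
      exact Nat.div_lt_self hnpos hr.one_lt
    have hgr : g ^ r ∈ N := ih _ hlt (g ^ r) rfl ((show Commute g x from hgx).pow_left r).eq
    have hgi : g ^ N.index ∈ N := N.pow_index_mem g
    have hrM : r ∣ Nat.card M := by
      have := orderOf_dvd_natCard (⟨x, hx⟩ : M)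
      rwa [Subgroup.orderOf_mk, hxr] at this
    have hcop' : Nat.Coprime r N.index := (Nat.Coprime.coprime_dvd_right hrM hcop).symm
    have hbez := Nat.gcd_eq_gcd_ab r N.index
    rw [hcop'] at hbez
    apply hgN
    have : g = (g ^ r) ^ (Nat.gcdA r N.index) * (g ^ N.index) ^ (Nat.gcdB r N.index) := by
      rw [← zpow_natCast g r, ← zpow_natCast g N.index, ← zpow_mul, ← zpow_mul, ← zpow_add, ← hbez]
      simp
    rw [this]
    exact mul_mem (zpow_mem hgr _) (zpow_mem hgi _)

/-- (2) implies (1) -/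
theorem cent_le (hcam : ∀ g : G, g ∉ N → ∀ m ∈ M, ∃ x : G, x * g * x⁻¹ = g * m)
    (hcop : N.index.Coprime (Nat.card M)) (x : G) (hx : x ∈ M) (hx1 : x ≠ 1) :
    centralizer ({x} : Set G) ≤ N := by
  intro g hg
  rw [mem_centralizer_iff] at hg
  have hgx : Commute g x := (hg x rfl).symm
  have hn1 : orderOf x ≠ 1 := by rw [Ne, orderOf_eq_one_iff]; exact hx1
  have hr : (orderOf x).minFac.Prime := Nat.minFac_prime hn1
  have hx' : orderOf (x ^ (orderOf x / (orderOf x).minFac)) = (orderOf x).minFac :=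
    orderOf_pow_orderOf_div (orderOf_pos x).ne' (Nat.minFac_dvd _)
  exact cent_le_of_prime N M hcam hcop _ (pow_mem hx _) _ hr hx' _ g rfl (hgx.pow_right _).eq

/-- (2) implies (3) -/
theorem exists_supp (hMN : M ≤ N) (hcop : N.index.Coprime (Nat.card M)) :
    ∃ H : Subgroup G, H ⊔ N = ⊤ ∧ H ⊓ M = ⊥ := by
  obtain ⟨H, hH, hmin⟩ := Set.exists_min_image {H : Subgroup G | H ⊔ N = ⊤}
    (fun H => Nat.card H) (Set.toFinite _) ⟨⊤, top_sup_eq _⟩
  refine ⟨H, hH, ?_⟩
  by_contra hbot
  have hcard : Nat.card ↥(H ⊓ M) ≠ 1 := by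
    intro h
    exact hbot ((H ⊓ M).card_eq_one.1 h)
  set q := (Nat.card ↥(H ⊓ M)).minFac with hqdef
  have hq : q.Prime := Nat.minFac_prime hcard
  have : Fact q.Prime := ⟨hq⟩
  have hqHM : q ∣ Nat.card ↥(H ⊓ M) := Nat.minFac_dvd _
  have hqM : q ∣ Nat.card M := hqHM.trans (card_dvd_of_le inf_le_right)
  have hqN : ¬ q ∣ N.index := by
    intro h
    have := Nat.Coprime.coprime_dvd_left h (Nat.Coprime.coprime_dvd_right hqM hcop)
    rw [Nat.coprime_self] at this
    exact hq.one_lt.ne' this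
  -- work inside `H`
  have h1 : q ∣ Nat.card (N.subgroupOf H) := by
    have : Nat.card (N.subgroupOf H) = Nat.card ↥(H ⊓ N) := by
      rw [← inf_subgroupOf_left N H]
      exact Nat.card_congr (subgroupOfEquivOfLe inf_le_left).toEquiv
    rw [this]
    exact hqHM.trans (card_dvd_of_le (inf_le_inf_left H hMN))
  have h2 : ¬ q ∣ (N.subgroupOf H).index := by
    have h3 : (N.subgroupOf H).index = N.index := by
      have h4 := relIndex_sup_right (H := H) (K := N)
      rw [hH, relIndex_top_right] at h4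
      exact h4.symm
    rw [h3]; exact hqN
  obtain ⟨K, hK1, hK2⟩ := exists_proper_supplement (N.subgroupOf H) q h1 h2
  have hK3 : K.map H.subtype ⊔ N = ⊤ := by
    have h3 : (K ⊔ N.subgroupOf H).map H.subtype = H := by
      rw [hK2, ← MonoidHom.range_eq_map, range_subtype]
    rw [Subgroup.map_sup, subgroupOf_map_subtype] at h3
    rw [eq_top_iff, ← hH]
    refine sup_le ?_ le_sup_right
    calc H = K.map H.subtype ⊔ N ⊓ H := h3.symm
      _ ≤ K.map H.subtype ⊔ N := sup_le_sup_left inf_le_left _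
  have hK4 := hmin _ hK3
  have hK5 : Nat.card (K.map H.subtype) = Nat.card K := card_map_of_injective H.subtype_injective
  rw [hK5] at hK4
  exact hK1 (eq_top_of_le_card K hK4)

/-- Let G be a finite group and M ≤ N non-trivial proper normal subgroups such that for every g outside N the conjugacy class of g is a union of cosets of M (equivalently gm is conjugate to g for every m ∈ M). Then (1) and (2) below are equivalent, and they imply (3): (1) every g outside N acts fixed-point-freely on M, that is C_G(x) ≤ N for every x ∈ M, x ≠ 1; (2) the index of N in G is coprime to the order of M; (3) there is a subgroup H of G with HN = G and H ∩ M = 1. -/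
theorem result {G : Type*} [Group G] [Finite G] (N M : Subgroup G) [N.Normal] [M.Normal] (hMN : M ≤ N) (hM1 : M ≠ ⊥) (hN2 : N ≠ ⊤)
    (hcam : ∀ g : G, g ∉ N → ∀ m ∈ M, ∃ x : G, x * g * x⁻¹ = g * m) :
    ((∀ x ∈ M, x ≠ 1 → Subgroup.centralizer ({x} : Set G) ≤ N) ↔ N.index.Coprime (Nat.card M)) ∧
    ((∀ x ∈ M, x ≠ 1 → Subgroup.centralizer ({x} : Set G) ≤ N) → ∃ H : Subgroup G, H ⊔ N = ⊤ ∧ H ⊓ M = ⊥) := by
  refine ⟨⟨coprime_of_cent N M, fun hcop x hx hx1 => cent_le N M hcam hcop x hx hx1⟩, ?_⟩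
  intro h
  exact exists_supp N M hMN (coprime_of_cent N M h)

end Cfsg.Agent.S4112
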