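import Cfsg.Statements.S4115
import Cfsg.Agent.Helper66.TIHall2

set_option autoImplicit false
universe u
open Cfsg

namespace Cfsg.Agent.S4115

open Subgroup Cfsg.Agent.Helper66 in
/-- From the normaliser up to `G`, by the Frobenius–Wielandt theorem. -/
theorem fwd_aux {G : Type u} [Group G] [Finite G] (H M : Subgroup G)
    (hM : M = normalizer (H : Set G)) (hTI : Cfsg.IsTISubset (H : Set G))
    (hHall : (Nat.card H).Coprime (H.subgroupOf M).index) (K : Subgroup M) (hKn : K.Normal)
    (hKH : K.IsComplement' (H.subgroupOf M)) : ∃ N : Subgroup G, N.Normal ∧ N.IsComplement' H := by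
  have hHM : H ≤ M := by rw [hM]; exact le_normalizer
  have hHall' : (Nat.card H).Coprime (H.subgroupOf (normalizer (H : Set G))).index := by
    rw [← hM]; exact hHall
  set Z : Subgroup G := K.map M.subtype with hZ
  have hZM : Z ≤ M := Subgroup.map_subtype_le _
  have hZn : M ≤ normalizer (Z : Set G) := by
    apply Cfsg.Agent.Helper35.le_normalizer_of_forall_conj_mem
    rintro m hm z ⟨k, hk, rfl⟩
    exact ⟨_, hKn.conj_mem k hk ⟨m, hm⟩, rfl⟩
  have hcardK : Nat.card K = (H.subgroupOf M).index := hKH.index_eq_card.symm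
  have hcardZ : Nat.card Z = Nat.card K := Subgroup.card_map_of_injective M.subtype_injective
  have hcopZ : (Nat.card H).Coprime (Nat.card Z) := by
    rw [hcardZ, hcardK]; exact hHall
  have hMcard : Nat.card M = Nat.card Z * Nat.card H := by
    rw [hcardZ, ← hKH.card_mul_card, Cfsg.Agent.Helper35.card_subgroupOf_of_le hHM]
  have hZrel : Z.relIndex M = Nat.card H := by
    show ((K.map M.subtype).comap M.subtype).index = Nat.card H
    rw [Subgroup.comap_map_eq_self_of_injective M.subtype_injective, hKH.symm.index_eq_card,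
      Cfsg.Agent.Helper35.card_subgroupOf_of_le hHM]
  have hpowM : ∀ y ∈ M, (y ^ Nat.card Z) ^ Nat.card H = 1 := by
    intro y hy
    rw [← pow_mul, ← hMcard]
    have := pow_card_eq_one' (G := M) (x := ⟨y, hy⟩)
    exact congrArg Subtype.val this
  have hF : ∀ x : G, x ∉ M → ∀ m : G, m ∈ M → x⁻¹ * m * x ∈ M → m ∈ Z := by
    intro x hx m hm hxm
    by_contra hmZ
    have h1 : m ^ Nat.card Z ∈ H :=
      tiH2_mem_of_pow hHall' (hM ▸ M.pow_mem hm _) (hpowM m hm)
    have h2 : m ^ Nat.card Z ≠ 1 := by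
      intro h
      apply hmZ
      exact mem_of_pow_eq_one_of_coprime_relIndex (N := Z) (K := M) hZn
        (by rw [hZrel]; exact hcopZ.symm) hm h
    have h3 : x⁻¹ * m ^ Nat.card Z * x⁻¹⁻¹ ∈ H := by
      have e : x⁻¹ * m ^ Nat.card Z * x⁻¹⁻¹ = (x⁻¹ * m * x) ^ Nat.card Z := by
        have := conj_pow (a := x⁻¹) (b := m) (i := Nat.card Z)
        simpa using this.symm
      rw [e]
      exact tiH2_mem_of_pow hHall' (hM ▸ M.pow_mem hxm _) (hpowM _ hxm)
    have h4 := tiH_mem_normalizer hTI h1 h2 h3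
    rw [← hM] at h4
    exact hx (by simpa using M.inv_mem h4)
  obtain ⟨N, hNn, hNM, hNsup⟩ := frobenius_wielandt M Z hZM hZn hF
  refine ⟨N, hNn, ?_⟩
  have hZN : Z ≤ N := by rw [← hNM]; exact inf_le_left
  apply Cfsg.Agent.Helper35.isComplement'_of_normal
  · rw [eq_bot_iff]
    rintro x ⟨hxN, hxH⟩
    have hxZ : x ∈ Z := by
      rw [← hNM]; exact ⟨hxN, hHM hxH⟩
    have h1 : x ∈ Z ⊓ H := ⟨hxZ, hxH⟩
    rw [(Subgroup.disjoint_of_coprime_natCard hcopZ.symm).eq_bot] at h1
    exact h1
  · rw [eq_top_iff, ← hNsup]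
    apply sup_le le_sup_left
    intro m hm
    obtain ⟨k, hk, h, hh, hmk⟩ := Cfsg.Agent.Helper35.exists_mul_of_isComplement' hKH ⟨m, hm⟩
    have e : m = (k : G) * (h : G) := congrArg Subtype.val hmk
    rw [e]
    exact Subgroup.mul_mem _ (Subgroup.mem_sup_left (hZN ⟨k, hk, rfl⟩))
      (Subgroup.mem_sup_right (Subgroup.mem_subgroupOf.mp hh))

open Subgroup Cfsg.Agent.Helper66 in
/-- Let G be a finite group and H a subgroup that meets each of its conjugates by elements outside N_G(H) trivially and whose order is coprime to its index in N_G(H). Then H has a normal complement in N_G(H) if and only if H has a normal complement in G. Moreover, if H is not normal in G and has a normal complement in N_G(H), then H is isomorphic to a Frobenius complement of some finite Frobenius group. -/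
theorem result {G : Type u} [Group G] [Finite G] (H : Subgroup G)
    (hTI : Cfsg.IsTISubset (H : Set G)) (hHall : (Nat.card H).Coprime (H.subgroupOf (Subgroup.normalizer (H : Set G))).index) :
    ((∃ K : Subgroup (Subgroup.normalizer (H : Set G)), K.Normal ∧ K.IsComplement' (H.subgroupOf (Subgroup.normalizer (H : Set G)))) ↔
      (∃ N : Subgroup G, N.Normal ∧ N.IsComplement' H)) ∧
    (¬ H.Normal → (∃ K : Subgroup (Subgroup.normalizer (H : Set G)), K.Normal ∧ K.IsComplement' (H.subgroupOf (Subgroup.normalizer (H : Set G)))) →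
      ∃ (F : Type u) (_ : Group F) (_ : Finite F) (C : Subgroup F), Cfsg.IsFrobeniusComplement C ∧ Nonempty (H ≃* C)) := by
  have hHM : H ≤ normalizer (H : Set G) := le_normalizer
  -- from `G` down to the normaliser
  have hback : (∃ N : Subgroup G, N.Normal ∧ N.IsComplement' H) →
      ∃ K : Subgroup (normalizer (H : Set G)), K.Normal ∧
        K.IsComplement' (H.subgroupOf (normalizer (H : Set G))) := by
    rintro ⟨N, hNn, hNH⟩
    refine ⟨N.subgroupOf (normalizer (H : Set G)), Subgroup.normal_subgroupOf, ?_⟩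
    apply Subgroup.isComplement'_of_disjoint_and_mul_eq_univ
    · rw [disjoint_iff, eq_bot_iff]
      rintro x ⟨hx1, hx2⟩
      rw [Subgroup.mem_bot]
      have h1 : (x : G) ∈ N ⊓ H := ⟨Subgroup.mem_subgroupOf.mp hx1, Subgroup.mem_subgroupOf.mp hx2⟩
      rw [hNH.disjoint.eq_bot, Subgroup.mem_bot] at h1
      exact Subtype.ext h1
    · rw [Set.eq_univ_iff_forall]
      intro m
      obtain ⟨n, hn, h, hh, hm⟩ := Cfsg.Agent.Helper35.exists_mul_of_isComplement' hNH (m : G)
      have hnM : n ∈ normalizer (H : Set G) := by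
        have := (normalizer (H : Set G)).mul_mem m.2 ((normalizer (H : Set G)).inv_mem (hHM hh))
        have e : (m : G) * h⁻¹ = n := by rw [hm]; group
        rwa [e] at this
      exact Set.mem_mul.mpr ⟨⟨n, hnM⟩, Subgroup.mem_subgroupOf.mpr hn, ⟨h, hHM hh⟩,
        Subgroup.mem_subgroupOf.mpr hh, Subtype.ext hm.symm⟩
  have hfwd : (∃ K : Subgroup (normalizer (H : Set G)), K.Normal ∧
      K.IsComplement' (H.subgroupOf (normalizer (H : Set G)))) →
      ∃ N : Subgroup G, N.Normal ∧ N.IsComplement' H := fun ⟨K, hKn, hKH⟩ =>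
    fwd_aux H _ rfl hTI hHall K hKn hKH
  refine ⟨⟨hfwd, hback⟩, ?_⟩
  intro hHn hK
  obtain ⟨N, hNn, hNH⟩ := hfwd hK
  have hH1 : H ≠ ⊥ := by
    intro h
    apply hHn
    rw [h]
    infer_instance
  have hcardN : Nat.card N = H.index := hNH.index_eq_card.symm
  have hcopNH : (Nat.card H).Coprime (Nat.card N) := by
    rw [hcardN]; exact tiH_coprime_index hTI hHall
  have hNM : ¬ N ≤ normalizer (H : Set G) := by
    intro h
    apply hHn
    rw [← normalizer_eq_top_iff, eq_top_iff, ← hNH.sup_eq_top]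
    exact sup_le h hHM
  have hrel1 : (N ⊓ normalizer (H : Set G)).relIndex N ≠ 1 := by
    intro h
    rw [Subgroup.relIndex_eq_one] at h
    exact hNM (h.trans inf_le_right)
  set q := ((N ⊓ normalizer (H : Set G)).relIndex N).minFac with hq
  have hqp : q.Prime := Nat.minFac_prime hrel1
  have hqdvd : q ∣ (N ⊓ normalizer (H : Set G)).relIndex N := Nat.minFac_dvd _
  have : Fact q.Prime := ⟨hqp⟩
  obtain ⟨Q, hQmem, hHQ⟩ := tiH2_exists_invariant_sylow hTI hHall hNH q
  have hQN : Q ≤ N := hQmem.1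
  have hQM : ¬ Q ≤ normalizer (H : Set G) := by
    intro h
    have hQK : Q ≤ N ⊓ normalizer (H : Set G) := le_inf hQN h
    have h1 : Nat.card Q ∣ Nat.card (N ⊓ normalizer (H : Set G) : Subgroup G) :=
      Subgroup.card_dvd_of_le hQK
    have h2 := Cfsg.Agent.Helper35.card_mul_relIndex_of_le
      (inf_le_left : N ⊓ normalizer (H : Set G) ≤ N)
    have h3 : q ^ ((Nat.card N).factorization q + 1) ∣ Nat.card N := by
      have h4 : Nat.card Q * q ∣ Nat.card (N ⊓ normalizer (H : Set G) : Subgroup G)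
          * (N ⊓ normalizer (H : Set G)).relIndex N := Nat.mul_dvd_mul h1 hqdvd
      rw [h2, hQmem.2] at h4
      rw [pow_succ]; exact h4
    exact Nat.pow_succ_factorization_not_dvd Nat.card_pos.ne' hqp h3
  have hHNn : H ≤ normalizer (N : Set G) := by
    rw [normalizer_eq_top_iff.mpr hNn]; exact le_top
  have hHNbot : H ⊓ N = ⊥ := (Subgroup.disjoint_of_coprime_natCard hcopNH).eq_bot
  exact exists_frobenius_of_fpf_section (A := H) (Q := Q) (C := Q ⊓ normalizer (H : Set G))
    (Cfsg.Agent.Helper35.isPGroup_of_mem_sylowSet hQmem) hHQ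
    (Nat.Coprime.coprime_dvd_right (Subgroup.card_dvd_of_le hQN) hcopNH) hH1 inf_le_left
    (fun h => hQM (h.trans inf_le_right))
    (fun c hc a ha => by
      have hcen := Cfsg.Agent.Helper35.mem_centralizer_of_mem_normalizer hHNn hHNbot
        (hQN hc.1) hc.2
      exact (Subgroup.mem_centralizer_iff.mp hcen) a ha)
    (fun a ha ha1 y hy hcomm => ⟨hy, tiH_mem_normalizer hTI ha ha1 (by
      rw [hcomm, mul_inv_cancel_right]; exact ha)⟩)

end Cfsg.Agent.S4115
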