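import Mathlib
import Cfsg.Statements.S4116
import Cfsg.Agent.Helper68.Frob

set_option autoImplicit false
open Cfsg

namespace Cfsg.Agent.S4116

open Subgroup Cfsg.Agent.Helper68

variable {G : Type*} [Group G]

theorem mem_cj (H : Subgroup G) (g x : G) :
    x ∈ H.map (MulAut.conj g).toMonoidHom ↔ g⁻¹ * x * g ∈ H := by
  rw [mem_map]
  constructor
  · rintro ⟨y, hy, rfl⟩
    rw [MulEquiv.coe_toMonoidHom, MulAut.conj_apply]
    have : g⁻¹ * (g * y * g⁻¹) * g = y := by group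
    rw [this]; exact hy
  · intro h
    refine ⟨g⁻¹ * x * g, h, ?_⟩
    rw [MulEquiv.coe_toMonoidHom, MulAut.conj_apply]
    group

/-- a `π`-element normalizing the Hall subgroup `H` lies in `H` -/
theorem pi_normalizer [Finite G] (H : Subgroup G) (hHall : (Nat.card H).Coprime H.index) (k : G)
    (hk : ∀ q : ℕ, q.Prime → q ∣ orderOf k → q ∣ Nat.card H)
    (hkN : k ∈ normalizer (H : Set G)) : k ∈ H := by
  have hcop : Nat.Coprime (orderOf k) H.index := by
    by_contra h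
    obtain ⟨q, hq, h1, h2⟩ := Nat.Prime.not_coprime_iff_dvd.1 h
    have := Nat.Coprime.coprime_dvd_left (hk q hq h1) (Nat.Coprime.coprime_dvd_right h2 hHall)
    rw [Nat.coprime_self] at this
    exact hq.one_lt.ne' this
  set L := normalizer (H : Set G) with hL
  set H' := H.subgroupOf L with hH'
  have h1 : (⟨k, hkN⟩ : L) ^ H'.index ∈ H' := H'.pow_index_mem _
  have h2 : H'.index ∣ H.index := ⟨L.index, (relIndex_mul_index (le_normalizer (H := H))).symm⟩
  have hcop' : Nat.Coprime (orderOf k) H'.index := Nat.Coprime.coprime_dvd_right h2 hcop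
  have h3 : k ^ H'.index ∈ H := by
    rw [hH', mem_subgroupOf] at h1
    simpa using h1
  obtain ⟨m, hm⟩ := exists_pow_eq_self_of_coprime hcop'.symm
  rw [← hm]
  exact pow_mem h3 m

theorem ti_normalizer (H : Subgroup G) (hTI : Cfsg.IsTISubset (H : Set G)) (x c d : G)
    (hx : x ≠ 1) (hc : c⁻¹ * x * c ∈ H) (hd : d⁻¹ * x * d ∈ H) :
    d⁻¹ * c ∈ normalizer (H : Set G) := by
  by_contra hn
  have h1 : (d⁻¹ * c) * (c⁻¹ * x * c) * (d⁻¹ * c)⁻¹ ∈ (H : Set G) := by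
    have : (d⁻¹ * c) * (c⁻¹ * x * c) * (d⁻¹ * c)⁻¹ = d⁻¹ * x * d := by group
    rw [this]; exact hd
  have h2 := hTI (d⁻¹ * c) hn (c⁻¹ * x * c) hc h1
  apply hx
  have : x = c * (c⁻¹ * x * c) * c⁻¹ := by group
  rw [this, h2]; group

theorem pi_conj [Finite G] (H : Subgroup G) (hHall : (Nat.card H).Coprime H.index)
    (hTI : Cfsg.IsTISubset (H : Set G)) (k : G)
    (hk : ∀ q : ℕ, q.Prime → q ∣ orderOf k → q ∣ Nat.card H) (x g : G) (hx : x ≠ 1)
    (h1 : g⁻¹ * x * g ∈ H) (h2 : g⁻¹ * (k⁻¹ * x * k) * g ∈ H) : g⁻¹ * k * g ∈ H := by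
  have h3 : (k * g)⁻¹ * x * (k * g) ∈ H := by
    have : (k * g)⁻¹ * x * (k * g) = g⁻¹ * (k⁻¹ * x * k) * g := by group
    rw [this]; exact h2
  have h4 := ti_normalizer H hTI x g (k * g) hx h1 h3
  have h5 : orderOf ((k * g)⁻¹ * g) = orderOf k := by
    have : (k * g)⁻¹ * g = MulAut.conj g⁻¹ k⁻¹ := by
      rw [MulAut.conj_apply]; group
    rw [this, MulEquiv.orderOf_eq, orderOf_inv]
  have h6 := pi_normalizer H hHall ((k * g)⁻¹ * g) (by rw [h5]; exact hk) h4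
  have h7 : g⁻¹ * k * g = ((k * g)⁻¹ * g)⁻¹ := by group
  rw [h7]
  exact inv_mem h6

theorem exists_conj [Finite G] (H : Subgroup G) (hHall : (Nat.card H).Coprime H.index)
    (hTI : Cfsg.IsTISubset (H : Set G)) (k : G) (hk1 : k ≠ 1)
    (hk : ∀ q : ℕ, q.Prime → q ∣ orderOf k → q ∣ Nat.card H) : ∃ g : G, g⁻¹ * k * g ∈ H := by
  have hn1 : orderOf k ≠ 1 := by rw [Ne, orderOf_eq_one_iff]; exact hk1
  set q := (orderOf k).minFac with hq
  have hqp : q.Prime := Nat.minFac_prime hn1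
  have : Fact q.Prime := ⟨hqp⟩
  have hqk : q ∣ orderOf k := Nat.minFac_dvd _
  set z := k ^ (orderOf k / q) with hz
  have hzq : orderOf z = q := orderOf_pow_orderOf_div (orderOf_pos k).ne' hqk
  have hqH : q ∣ Nat.card H := hk q hqp hqk
  have hqi : ¬ q ∣ Nat.card (G ⧸ H) := by
    intro h
    have := Nat.Coprime.coprime_dvd_left hqH (Nat.Coprime.coprime_dvd_right h hHall)
    rw [Nat.coprime_self] at this
    exact hqp.one_lt.ne' this
  have hpz : IsPGroup q (zpowers z) := IsPGroup.of_card (n := 1) (by rw [Nat.card_zpowers, hzq, pow_one])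
  obtain ⟨c, hc⟩ := hpz.nonempty_fixed_point_of_prime_not_dvd_card (G ⧸ H) hqi
  obtain ⟨g, rfl⟩ := QuotientGroup.mk_surjective c
  have h1 := hc ⟨z, mem_zpowers z⟩
  have h2 : ((z * g : G) : G ⧸ H) = (g : G ⧸ H) := h1
  have h3 : (z * g)⁻¹ * g ∈ H := QuotientGroup.eq.1 h2
  have h4 : g⁻¹ * z * g ∈ H := by
    have : g⁻¹ * z * g = ((z * g)⁻¹ * g)⁻¹ := by group
    rw [this]; exact inv_mem h3
  have hz1 : z ≠ 1 := by
    intro h
    rw [h, orderOf_one] at hzq
    exact hqp.one_lt.ne' hzq.symm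
  refine ⟨g, pi_conj H hHall hTI k hk z g hz1 h4 ?_⟩
  have : k⁻¹ * z * k = z := by
    rw [hz]
    have : Commute k (k ^ (orderOf k / q)) := Commute.pow_right (Commute.refl k) _
    rw [mul_assoc, ← this.eq]; group
  rw [this]; exact h4

/-- Let G be a finite group with a subgroup H whose order is coprime to its index (a Hall subgroup) and which meets each of its conjugates by elements outside N_G(H) trivially. Then every subgroup of G whose order is divisible only by primes dividing the order of H lies in a conjugate of H. -/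
theorem result {G : Type*} [Group G] [Finite G] (H : Subgroup G)
    (hHall : (Nat.card H).Coprime H.index) (hTI : Cfsg.IsTISubset (H : Set G))
    (K : Subgroup G) (hK : ∀ q : ℕ, q.Prime → q ∣ Nat.card K → q ∣ Nat.card H) :
    ∃ g : G, K ≤ H.map (MulAut.conj g).toMonoidHom := by
  by_contra hne
  push_neg at hne
  have hKpi : ∀ k ∈ K, ∀ q : ℕ, q.Prime → q ∣ orderOf k → q ∣ Nat.card H := by
    intro k hk q hq hqk
    apply hK q hq
    have := orderOf_dvd_natCard (⟨k, hk⟩ : K)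
    rw [Subgroup.orderOf_mk] at this
    exact hqk.trans this
  -- the subgroups `K ∩ H^g` of `K`
  set K₁ : G → Subgroup K := fun g => (H.map (MulAut.conj g).toMonoidHom).subgroupOf K with hK₁
  have hmemK₁ : ∀ (g : G) (k : K), k ∈ K₁ g ↔ g⁻¹ * (k : G) * g ∈ H := by
    intro g k
    rw [hK₁]
    simp only [mem_subgroupOf]
    exact mem_cj H g k
  have hfrob : ∀ g : G, ∀ k : K, k ∉ K₁ g → ∀ x ∈ K₁ g, k * x * k⁻¹ ∈ K₁ g → x = 1 := by
    intro g k hk x hx hkx
    by_contra hx1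
    apply hk
    rw [hmemK₁] at hx hkx ⊢
    have hx1' : (x : G) ≠ 1 := fun h => hx1 (Subtype.ext h)
    have h1 := pi_conj H hHall hTI (k : G)⁻¹ (by rw [orderOf_inv]; exact hKpi k k.2) x g hx1' hx
      (by
        have : ((k : G)⁻¹)⁻¹ * (x : G) * (k : G)⁻¹ = ((k * x * k⁻¹ : K) : G) := by
          simp
        rw [this]; exact hkx)
    have : g⁻¹ * (k : G) * g = (g⁻¹ * (k : G)⁻¹ * g)⁻¹ := by group
    rw [this]; exact inv_mem h1
  have hcount : ∀ g : G, (conjUnion (K₁ g)).ncard + (K₁ g).index = Nat.card K :=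
    fun g => frob_count (K₁ g) (hfrob g)
  have hidx : ∀ g : G, 2 ≤ (K₁ g).index := by
    intro g
    have h1 : (K₁ g).index ≠ 1 := by
      rw [Ne, index_eq_one, hK₁]
      simp only [subgroupOf_eq_top]
      exact hne g
    have h2 : (K₁ g).index ≠ 0 := index_ne_zero_of_finite
    omega
  have hbig : ∀ g : G, K₁ g ≠ ⊥ → Nat.card K ≤ 2 * (conjUnion (K₁ g)).ncard := by
    intro g hg
    have h1 := (K₁ g).index_mul_card
    have h2 : 2 ≤ Nat.card (K₁ g) := (one_lt_card_iff_ne_bot (H := K₁ g)).2 hg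
    have h3 := hcount g
    nlinarith
  have hsub : ∀ g : G, conjUnion (K₁ g) ⊆ ({1}ᶜ : Set K) := by
    intro g y hy
    exact hy.1
  have hcompl : ({1}ᶜ : Set K).ncard + 1 = Nat.card K := by
    have := Set.ncard_add_ncard_compl ({1} : Set K)
    rw [Set.ncard_singleton] at this
    omega
  have hKbot : K ≠ ⊥ := by
    rintro rfl
    exact hne 1 bot_le
  obtain ⟨k₁, hk₁⟩ := (ne_bot_iff_exists_ne_one (H := K)).1 hKbot
  obtain ⟨g₁, hg₁⟩ := exists_conj H hHall hTI (k₁ : G) (fun h => hk₁ (Subtype.ext h)) (hKpi k₁ k₁.2)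
  have hg₁bot : K₁ g₁ ≠ ⊥ := by
    intro h
    have : k₁ ∈ K₁ g₁ := (hmemK₁ g₁ k₁).2 hg₁
    rw [h, mem_bot] at this
    exact hk₁ this
  -- an element outside all conjugates of `K₁ g₁`
  have hex : ∃ k₂ : K, k₂ ≠ 1 ∧ k₂ ∉ conjUnion (K₁ g₁) := by
    by_contra hall
    push_neg at hall
    have h1 : conjUnion (K₁ g₁) = ({1}ᶜ : Set K) :=
      Set.Subset.antisymm (hsub g₁) (fun y hy => hall y hy)
    have h2 := hcount g₁
    rw [h1] at h2
    have h3 := hidx g₁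
    omega
  obtain ⟨k₂, hk₂, hk₂U⟩ := hex
  obtain ⟨g₂, hg₂⟩ := exists_conj H hHall hTI (k₂ : G) (fun h => hk₂ (Subtype.ext h)) (hKpi k₂ k₂.2)
  have hg₂bot : K₁ g₂ ≠ ⊥ := by
    intro h
    have : k₂ ∈ K₁ g₂ := (hmemK₁ g₂ k₂).2 hg₂
    rw [h, mem_bot] at this
    exact hk₂ this
  have hdisj : Disjoint (conjUnion (K₁ g₁)) (conjUnion (K₁ g₂)) := by
    rw [Set.disjoint_left]
    rintro y ⟨hy1, a, ha⟩ ⟨-, b, hb⟩
    apply hk₂U
    refine ⟨hk₂, b⁻¹ * a, ?_⟩
    rw [hmemK₁] at ha hb ⊢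
    have hy1' : (y : G) ≠ 1 := fun h => hy1 (Subtype.ext h)
    have hc : ((a : G) * g₁)⁻¹ * (y : G) * ((a : G) * g₁) ∈ H := by
      have : ((a : G) * g₁)⁻¹ * (y : G) * ((a : G) * g₁) = g₁⁻¹ * ((a⁻¹ * y * a : K) : G) * g₁ := by
        simp only [coe_mul, InvMemClass.coe_inv]; group
      rw [this]; exact ha
    have hd : ((b : G) * g₂)⁻¹ * (y : G) * ((b : G) * g₂) ∈ H := by
      have : ((b : G) * g₂)⁻¹ * (y : G) * ((b : G) * g₂) = g₂⁻¹ * ((b⁻¹ * y * b : K) : G) * g₂ := by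
        simp only [coe_mul, InvMemClass.coe_inv]; group
      rw [this]; exact hb
    have hn := ti_normalizer H hTI (y : G) ((a : G) * g₁) ((b : G) * g₂) hy1' hc hd
    have hn' := (mem_normalizer_iff''.1 hn (g₂⁻¹ * (k₂ : G) * g₂)).1 hg₂
    have : g₁⁻¹ * (((b⁻¹ * a)⁻¹ * k₂ * (b⁻¹ * a) : K) : G) * g₁ =
        (((b : G) * g₂)⁻¹ * ((a : G) * g₁))⁻¹ * (g₂⁻¹ * (k₂ : G) * g₂) *
          (((b : G) * g₂)⁻¹ * ((a : G) * g₁)) := by
      simp only [coe_mul, InvMemClass.coe_inv]; group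
    rw [this]; exact hn'
  have h1 := hbig g₁ hg₁bot
  have h2 := hbig g₂ hg₂bot
  have h3 : (conjUnion (K₁ g₁) ∪ conjUnion (K₁ g₂)).ncard =
      (conjUnion (K₁ g₁)).ncard + (conjUnion (K₁ g₂)).ncard := Set.ncard_union_eq hdisj
  have h4 : (conjUnion (K₁ g₁) ∪ conjUnion (K₁ g₂)).ncard ≤ ({1}ᶜ : Set K).ncard :=
    Set.ncard_le_ncard (Set.union_subset (hsub g₁) (hsub g₂))
  omega

end Cfsg.Agent.S4116
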