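import Mathlib
import Cfsg.Statements.S4117
import Cfsg.Agent.Helper68.ZAct

set_option autoImplicit false
open Cfsg

namespace Cfsg.Agent.S4117

open Subgroup
open scoped commutatorElement

section
variable {G A : Type*} [Group G] [Group A] [MulDistribMulAction A G]

theorem normal_closure_commSet :
    (Subgroup.closure {y : G | ∃ (a : A) (g : G), y = g⁻¹ * a • g}).Normal := by
  constructor
  intro n hn h
  induction hn using Subgroup.closure_induction with
  | mem x hx =>
    obtain ⟨a, g, rfl⟩ := hx
    have e : h * (g⁻¹ * a • g) * h⁻¹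
        = ((g * h⁻¹)⁻¹ * a • (g * h⁻¹)) * ((h⁻¹)⁻¹ * a • h⁻¹)⁻¹ := by
      rw [smul_mul']; group
    rw [e]
    exact Subgroup.mul_mem _ (Subgroup.subset_closure ⟨a, _, rfl⟩)
      (Subgroup.inv_mem _ (Subgroup.subset_closure ⟨a, _, rfl⟩))
  | one => simp
  | mul x y _ _ ihx ihy =>
    have e : h * (x * y) * h⁻¹ = (h * x * h⁻¹) * (h * y * h⁻¹) := by group
    rw [e]; exact Subgroup.mul_mem _ ihx ihy
  | inv x _ ihx =>
    have e : h * x⁻¹ * h⁻¹ = (h * x * h⁻¹)⁻¹ := by group
    rw [e]; exact Subgroup.inv_mem _ ihx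

/-- The semidirect product of `G` by `A`. -/
abbrev Gam (G A : Type*) [Group G] [Group A] [MulDistribMulAction A G] :=
  G ⋊[MulDistribMulAction.toMulAut A G] A

theorem inr_mul_inl (a : A) (g : G) :
    (SemidirectProduct.inr a : Gam G A) * SemidirectProduct.inl g
      = SemidirectProduct.inl (a • g) * SemidirectProduct.inr a := by
  ext <;> simp

theorem commutator_inl_inr (g : G) (a : A) :
    ⁅(SemidirectProduct.inl g : Gam G A), (SemidirectProduct.inr a : Gam G A)⁆
      = SemidirectProduct.inl (g * a • g⁻¹) := by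
  rw [commutatorElement_def, ← map_inv, mul_assoc (SemidirectProduct.inl g), inr_mul_inl, map_mul]
  group

theorem commutator_range_eq :
    (⁅(SemidirectProduct.inl : G →* Gam G A).range,
      (SemidirectProduct.inr : A →* Gam G A).range⁆ : Subgroup (Gam G A))
      = (Subgroup.closure {y : G | ∃ (a : A) (g : G), y = g⁻¹ * a • g}).map
          SemidirectProduct.inl := by
  rw [Subgroup.commutator_def, MonoidHom.map_closure]
  congr 1
  ext z
  constructor
  · rintro ⟨_, ⟨g, rfl⟩, _, ⟨a, rfl⟩, rfl⟩
    refine ⟨(g⁻¹)⁻¹ * a • g⁻¹, ⟨a, g⁻¹, rfl⟩, ?_⟩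
    rw [commutator_inl_inr, inv_inv]
  · rintro ⟨_, ⟨a, g, rfl⟩, rfl⟩
    refine ⟨SemidirectProduct.inl g⁻¹, ⟨g⁻¹, rfl⟩, SemidirectProduct.inr a, ⟨a, rfl⟩, ?_⟩
    rw [commutator_inl_inr, inv_inv]

theorem inl_mem_centralizer_iff (g : G) :
    (SemidirectProduct.inl g : Gam G A) ∈
      centralizer (((SemidirectProduct.inr : A →* Gam G A).range : Subgroup (Gam G A)) :
        Set (Gam G A)) ↔ ∀ a : A, a • g = g := by
  rw [Subgroup.mem_centralizer_iff]
  constructor
  · intro h a
    have := h (SemidirectProduct.inr a) ⟨a, rfl⟩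
    rw [inr_mul_inl] at this
    exact SemidirectProduct.inl_injective (mul_right_cancel this)
  · rintro h _ ⟨a, rfl⟩
    rw [inr_mul_inl, h a]

end

/-- Let A be a finite group acting on the finite group G by automorphisms with the orders of A and G coprime, and suppose every Sylow subgroup of G is cyclic. Then the fixed-point subgroup C_G(A) is a Hall subgroup of G (its order is coprime to its index), the subgroup [G, A] generated by the elements g⁻¹·a(g) is cyclic and normal with [G, A] ∩ C_G(A) = 1 and [G, A]·C_G(A) = G. -/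
theorem result {G A : Type*} [Group G] [Finite G] [Group A] [Finite A]
    [MulDistribMulAction A G] (hcop : (Nat.card A).Coprime (Nat.card G))
    (hcyc : ∀ (p : ℕ) [Fact p.Prime] (P : Sylow p G), IsCyclic (P : Subgroup G)) :
    (Nat.card (MulAction.fixedPoints A G : Set G)).Coprime (Nat.card G / Nat.card (MulAction.fixedPoints A G : Set G)) ∧
    IsCyclic (Subgroup.closure {y : G | ∃ (a : A) (g : G), y = g⁻¹ * a • g}) ∧
    (Subgroup.closure {y : G | ∃ (a : A) (g : G), y = g⁻¹ * a • g}).Normal ∧
    (Subgroup.closure {y : G | ∃ (a : A) (g : G), y = g⁻¹ * a • g} : Set G) ∩ MulAction.fixedPoints A G = {1} ∧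
    Subgroup.closure {y : G | ∃ (a : A) (g : G), y = g⁻¹ * a • g} ⊔ Subgroup.closure (MulAction.fixedPoints A G) = ⊤ := by
  classical
  have hZ : IsZGroup G := ⟨fun p hp P => by have := Fact.mk hp; exact hcyc p P⟩
  have hnormal := normal_closure_commSet (G := G) (A := A)
  generalize hLdef : Subgroup.closure {y : G | ∃ (a : A) (g : G), y = g⁻¹ * a • g} = L at hnormal ⊢
  have hinj : Function.Injective (SemidirectProduct.inl : G →* Gam G A) :=
    SemidirectProduct.inl_injective
  have hfin : Finite (Gam G A) := Finite.of_equiv _ SemidirectProduct.equivProd.symm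
  have hKn : ((SemidirectProduct.inl : G →* Gam G A).range).Normal := by
    rw [SemidirectProduct.range_inl_eq_ker_rightHom]; infer_instance
  have hAK : (SemidirectProduct.inr : A →* Gam G A).range ≤
      normalizer (((SemidirectProduct.inl : G →* Gam G A).range : Subgroup (Gam G A)) :
        Set (Gam G A)) := by
    rw [Subgroup.normalizer_eq_top]; exact le_top
  have hcardK : Nat.card (SemidirectProduct.inl : G →* Gam G A).range = Nat.card G :=
    Nat.card_congr (Equiv.ofInjective _ hinj).symm
  have hcardA : Nat.card (SemidirectProduct.inr : A →* Gam G A).range = Nat.card A :=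
    Nat.card_congr (Equiv.ofInjective _ SemidirectProduct.inr_injective).symm
  have hZK : IsZGroup (SemidirectProduct.inl : G →* Gam G A).range :=
    IsZGroup.of_injective (f := ((MonoidHom.ofInjective hinj).symm :
      (SemidirectProduct.inl : G →* Gam G A).range ≃* G).toMonoidHom) (MulEquiv.injective _)
  obtain ⟨hcyc', hinf, hprod, hcopr⟩ :=
    Helper68.zgroup_coprime_internal hAK (by rw [hcardK, hcardA]; exact hcop)
  rw [commutator_range_eq, hLdef] at hcyc' hinf hprod hcopr
  have hCmap : (SemidirectProduct.inl : G →* Gam G A).range ⊓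
      centralizer (((SemidirectProduct.inr : A →* Gam G A).range : Subgroup (Gam G A)) :
        Set (Gam G A)) = (FixedPoints.subgroup A G).map SemidirectProduct.inl := by
    ext z
    constructor
    · rintro ⟨⟨g, rfl⟩, hz⟩
      exact ⟨g, (inl_mem_centralizer_iff g).mp hz, rfl⟩
    · rintro ⟨g, hg, rfl⟩
      exact ⟨⟨g, rfl⟩, (inl_mem_centralizer_iff g).mpr hg⟩
  rw [hCmap] at hprod hcopr
  rw [Subgroup.card_map_of_injective hinj, Subgroup.card_map_of_injective hinj] at hcopr
  have hprod' : ∀ g : G, ∃ l ∈ L, ∃ c ∈ FixedPoints.subgroup A G, g = l * c := by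
    intro g
    obtain ⟨_, ⟨l, hl, rfl⟩, _, ⟨c, hc, rfl⟩, h⟩ := hprod (SemidirectProduct.inl g) ⟨g, rfl⟩
    refine ⟨l, hl, c, hc, ?_⟩
    rw [← map_mul] at h
    exact hinj h
  have hdisj : ∀ g ∈ L, (∀ a : A, a • g = g) → g = 1 := by
    intro g hgL hgfix
    have : (SemidirectProduct.inl g : Gam G A) ∈ (L.map SemidirectProduct.inl) ⊓
        centralizer (((SemidirectProduct.inr : A →* Gam G A).range : Subgroup (Gam G A)) :
        Set (Gam G A)) := ⟨⟨g, hgL, rfl⟩, (inl_mem_centralizer_iff g).mpr hgfix⟩
    rw [hinf, Subgroup.mem_bot] at this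
    exact hinj (this.trans (map_one _).symm)
  have hcompl : L.IsComplement' (FixedPoints.subgroup A G) := by
    apply Subgroup.isComplement'_of_disjoint_and_mul_eq_univ
    · rw [Subgroup.disjoint_def]
      intro x hx hx'
      exact hdisj x hx hx'
    · rw [Set.eq_univ_iff_forall]
      intro g
      obtain ⟨l, hl, c, hc, rfl⟩ := hprod' g
      exact Set.mul_mem_mul hl hc
  have hcard := hcompl.card_mul_card
  refine ⟨?_, ?_, hnormal, ?_, ?_⟩
  · show (Nat.card (FixedPoints.subgroup A G)).Coprime
      (Nat.card G / Nat.card (FixedPoints.subgroup A G))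
    rw [← hcard, Nat.mul_div_cancel _ Nat.card_pos]
    exact hcopr
  · exact isCyclic_of_surjective (L.equivMapOfInjective _ hinj).symm (MulEquiv.surjective _)
  · ext g
    constructor
    · rintro ⟨hgL, hgfix⟩
      exact hdisj g hgL hgfix
    · intro hg
      rw [Set.mem_singleton_iff] at hg
      subst hg
      exact ⟨L.one_mem, fun a => smul_one a⟩
  · rw [eq_top_iff]
    intro g _
    obtain ⟨l, hl, c, hc, rfl⟩ := hprod' g
    exact Subgroup.mul_mem _ (le_sup_left (α := Subgroup G) hl)
      (le_sup_right (α := Subgroup G) (Subgroup.subset_closure hc))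

end Cfsg.Agent.S4117
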