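import Mathlib
import Cfsg.Statements.S4127
import Cfsg.Agent.Helper68.PComp

set_option autoImplicit false
open Cfsg

namespace Cfsg.Agent.S4127

/-- Let G be a finite group, p a prime and p^a the largest power of p dividing the size of any conjugacy class of G. If some element of p-power order has a conjugacy class of size exactly p^a, then G has a normal p-complement. -/
theorem result {G : Type*} [Group G] [Finite G] (p : ℕ) [Fact p.Prime]
    (a : ℕ) (hmax : ∀ y : G, ¬ p ^ (a + 1) ∣ (Subgroup.centralizer ({y} : Set G)).index)
    (hx : ∃ x : G, (∃ k : ℕ, orderOf x = p ^ k) ∧ (Subgroup.centralizer ({x} : Set G)).index = p ^ a) :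
    Cfsg.HasNormalPComplement p G := by
  obtain ⟨x, hx1, hx2⟩ := hx
  exact Cfsg.Agent.Helper68.normal_pcomplement_of_class p a hmax x hx1 hx2

end Cfsg.Agent.S4127
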