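import Cfsg.Statements.S4138
import Cfsg.Agent.Helper72.TwoLargest

set_option autoImplicit false
open Cfsg

namespace Cfsg.Agent.S4138
open Cfsg.Agent.Helper72
open scoped Pointwise

/-- Let G be a finite group whose two largest conjugacy class sizes m > n > 1 are coprime, and let x, y ∈ G have classes of sizes n and m respectively. Then C_G(x) and C_G(y) are abelian, and G/Z(G) is a Frobenius group with kernel C_G(x)/Z(G) and complement C_G(y)/Z(G). -/
theorem result {G : Type*} [Group G] [Finite G] (m n : ℕ) (hmn : n < m) (hn : 1 < n)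
    (hcop : m.Coprime n) (htop : ∀ z : G, (Subgroup.centralizer ({z} : Set G)).index ≤ m) (hsecond : ∀ z : G, (Subgroup.centralizer ({z} : Set G)).index < m → (Subgroup.centralizer ({z} : Set G)).index ≤ n)
    (x y : G) (hx : (Subgroup.centralizer ({x} : Set G)).index = n) (hy : (Subgroup.centralizer ({y} : Set G)).index = m) :
    IsMulCommutative (Subgroup.centralizer ({x} : Set G)) ∧ IsMulCommutative (Subgroup.centralizer ({y} : Set G)) ∧
    Cfsg.IsFrobeniusComplement ((Subgroup.centralizer ({y} : Set G)).map (QuotientGroup.mk' (Subgroup.center G))) ∧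
    Cfsg.frobeniusKernel ((Subgroup.centralizer ({y} : Set G)).map (QuotientGroup.mk' (Subgroup.center G))) =
      ((Subgroup.centralizer ({x} : Set G)).map (QuotientGroup.mk' (Subgroup.center G)) : Set (G ⧸ Subgroup.center G)) := by
  have hTL : TL m n G := ⟨hmn, hn, hcop, htop, hsecond, ⟨x, hx⟩, ⟨y, hy⟩⟩
  have hxn : cgCs x = n := hx
  have hym : cgCs y = m := hy
  have hKx : Subgroup.centralizer ({x} : Set G) = tlK n G := hTL.cent_eq_K hxn
  have hKn : (tlK n G).Normal := hTL.pre.K_normal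
  have hZK := hTL.center_le_K
  have hZy : Subgroup.center G ≤ Subgroup.centralizer ({y} : Set G) :=
    Subgroup.center_le_centralizer _
  have hyz : y ∉ Subgroup.center G := by
    intro hz
    have h1 := (cgCs_eq_one_iff y).mpr hz
    omega
  have hxz : x ∉ Subgroup.center G := by
    intro hz
    have h1 := (cgCs_eq_one_iff x).mpr hz
    omega
  have hsurj := QuotientGroup.mk'_surjective (Subgroup.center G)
  have hmemH : ∀ g : G, QuotientGroup.mk' (Subgroup.center G) g
      ∈ (Subgroup.centralizer ({y} : Set G)).map (QuotientGroup.mk' (Subgroup.center G))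
      ↔ Commute g y := by
    intro g
    constructor
    · rintro ⟨c, hc, hcg⟩
      have h1 : c⁻¹ * g ∈ Subgroup.center G := QuotientGroup.eq.mp hcg
      have h2 : g = c * (c⁻¹ * g) := by group
      have h3 := (Subgroup.centralizer ({y} : Set G)).mul_mem hc (hZy h1)
      rw [← h2, Subgroup.mem_centralizer_singleton_iff] at h3
      exact h3
    · intro hg
      exact Subgroup.mem_map_of_mem _ (Subgroup.mem_centralizer_singleton_iff.mpr hg.eq)
  have hmemK : ∀ g : G, QuotientGroup.mk' (Subgroup.center G) g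
      ∈ (tlK n G).map (QuotientGroup.mk' (Subgroup.center G)) ↔ g ∈ tlK n G := by
    intro g
    constructor
    · rintro ⟨k, hk, hkg⟩
      have h1 : k⁻¹ * g ∈ Subgroup.center G := QuotientGroup.eq.mp hkg
      have h2 : g = k * (k⁻¹ * g) := by group
      rw [h2]
      exact (tlK n G).mul_mem hk (hZK h1)
    · intro hg
      exact Subgroup.mem_map_of_mem _ hg
  have hconjH : ∀ g a : G, QuotientGroup.mk' (Subgroup.center G) a
      ∈ MulAut.conj (QuotientGroup.mk' (Subgroup.center G) g)
        • (Subgroup.centralizer ({y} : Set G)).map (QuotientGroup.mk' (Subgroup.center G))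
      ↔ Commute (g⁻¹ * a * g) y := by
    intro g a
    rw [Helper67.mem_conj_smul_iff, ← map_inv, ← map_mul, ← map_mul, hmemH]
  refine ⟨?_, ?_, ⟨?_, ?_, ?_⟩, ?_⟩
  · refine ⟨⟨fun a b => Subtype.ext ?_⟩⟩
    exact hTL.pre.K_comm a (hKx.le a.2) b (hKx.le b.2)
  · refine ⟨⟨fun a b => Subtype.ext ?_⟩⟩
    have ha : Commute (a : G) y := Subgroup.mem_centralizer_singleton_iff.mp a.2
    have hb : Commute (b : G) y := Subgroup.mem_centralizer_singleton_iff.mp b.2
    exact (hTL.cent_comm hym hb ha).eq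
  · intro hbot
    have h1 : QuotientGroup.mk' (Subgroup.center G) y
        ∈ (Subgroup.centralizer ({y} : Set G)).map (QuotientGroup.mk' (Subgroup.center G)) :=
      (hmemH y).mpr (Commute.refl y)
    rw [hbot, Subgroup.mem_bot] at h1
    exact hyz ((QuotientGroup.eq_one_iff y).mp h1)
  · intro htop'
    have h1 : QuotientGroup.mk' (Subgroup.center G) x
        ∈ (Subgroup.centralizer ({y} : Set G)).map (QuotientGroup.mk' (Subgroup.center G)) := by
      rw [htop']; trivial
    exact hxz (hTL.K_inf_cent' hym (tl_mem_K hxn) ((hmemH x).mp h1))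
  · intro gb hgb
    obtain ⟨g, rfl⟩ := hsurj gb
    rw [eq_bot_iff]
    intro ab hab
    obtain ⟨hab1, hab2⟩ := Subgroup.mem_inf.mp hab
    obtain ⟨c, rfl⟩ := hsurj ab
    rw [hmemH] at hab1
    rw [hconjH] at hab2
    rw [Subgroup.mem_bot]
    by_contra hc1
    have hcz : c ∉ Subgroup.center G := fun hz => hc1 ((QuotientGroup.eq_one_iff c).mpr hz)
    apply hgb
    rw [hmemH]
    -- `b = g⁻¹ c g` has class size `m`; `y` and `g⁻¹ y g` both commute with it
    have hbz : g⁻¹ * c * g ∉ Subgroup.center G := by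
      intro hz
      apply hcz
      have h1 := (inferInstance : (Subgroup.center G).Normal).conj_mem _ hz g
      have h2 : g * (g⁻¹ * c * g) * g⁻¹ = c := by group
      rw [h2] at h1; exact h1
    have hbm : cgCs (g⁻¹ * c * g) = m := hTL.cs_of_cent hym hab2 hbz
    have hyb : Commute y (g⁻¹ * c * g) := hab2.symm
    have hy'b : Commute (g⁻¹ * y * g) (g⁻¹ * c * g) := by
      have h1 : Commute y c := hab1.symm
      show g⁻¹ * y * g * (g⁻¹ * c * g) = g⁻¹ * c * g * (g⁻¹ * y * g)
      calc g⁻¹ * y * g * (g⁻¹ * c * g) = g⁻¹ * (y * c) * g := by group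
        _ = g⁻¹ * (c * y) * g := by rw [h1.eq]
        _ = g⁻¹ * c * g * (g⁻¹ * y * g) := by group
    have hy'y : Commute (g⁻¹ * y * g) y := hTL.cent_comm hbm hyb hy'b
    obtain ⟨k, hk, c₀, hc₀, hgk⟩ := hTL.exists_mul hym g⁻¹
    have hkinv : k⁻¹ ∈ tlK n G := (tlK n G).inv_mem hk
    have hconj : g⁻¹ * y * g = k * y * k⁻¹ := by
      have h1 : g = (k * c₀)⁻¹ := by rw [← hgk, inv_inv]
      have h2 : c₀ * y * c₀⁻¹ = y := by rw [hc₀.eq]; group
      calc g⁻¹ * y * g = (k * c₀) * y * (k * c₀)⁻¹ := by rw [hgk, ← h1]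
        _ = k * (c₀ * y * c₀⁻¹) * k⁻¹ := by group
        _ = k * y * k⁻¹ := by rw [h2]
    have hz1 : k⁻¹⁻¹ * y * k⁻¹ * y⁻¹ = 1 := by
      apply hTL.psi_eq_one hym hkinv
      have h1 : k⁻¹⁻¹ * y * k⁻¹ * y⁻¹ = (g⁻¹ * y * g) * y⁻¹ := by rw [hconj]; group
      rw [h1]
      exact hy'y.mul_left (Commute.refl y).inv_left
    have hky : Commute k y := by
      have h2 : k * y * k⁻¹ = y := by
        calc k * y * k⁻¹ = (k⁻¹⁻¹ * y * k⁻¹ * y⁻¹) * y := by group
          _ = y := by rw [hz1, one_mul]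
      show k * y = y * k
      calc k * y = (k * y * k⁻¹) * k := by group
        _ = y * k := by rw [h2]
    have hginv : Commute g⁻¹ y := by rw [hgk]; exact hky.mul_left hc₀
    have h3 := hginv.inv_left
    rw [inv_inv] at h3
    exact h3
  · rw [hKx]
    ext ab
    obtain ⟨g, rfl⟩ := hsurj ab
    rw [SetLike.mem_coe, hmemK]
    constructor
    · intro hker
      rcases hker with h1 | h1
      · have h2 : g ∈ Subgroup.center G := (QuotientGroup.eq_one_iff g).mp h1
        exact hZK h2
      · by_contra hgK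
        obtain ⟨k, hk, c, hc, rfl⟩ := hTL.exists_mul hym g
        have hcz : c ∉ Subgroup.center G := by
          intro hz
          exact hgK ((tlK n G).mul_mem hk (hZK hz))
        have hcm : cgCs c = m := hTL.cs_of_cent hym hc hcz
        have hfix : ∀ k' ∈ tlK n G, Commute (k'⁻¹ * c * k' * c⁻¹) c → k'⁻¹ * c * k' * c⁻¹ = 1 :=
          fun k' hk' hc' => hTL.psi_eq_one hcm hk' hc'
        obtain ⟨b, hbK, hcomm⟩ := cg_fitting (tlK n G) hTL.pre.K_comm c hfix hk
        have hbc : b⁻¹ * c * b * c⁻¹ ∈ tlK n G := by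
          have h2 : c * b * c⁻¹ ∈ tlK n G := hKn.conj_mem b hbK c
          have h3 := (tlK n G).mul_mem ((tlK n G).inv_mem hbK) h2
          have h4 : b⁻¹ * (c * b * c⁻¹) = b⁻¹ * c * b * c⁻¹ := by group
          rw [h4] at h3; exact h3
        have hk1K : k * (b⁻¹ * c * b * c⁻¹)⁻¹ ∈ tlK n G :=
          (tlK n G).mul_mem hk ((tlK n G).inv_mem hbc)
        have hk1z : k * (b⁻¹ * c * b * c⁻¹)⁻¹ ∈ Subgroup.center G :=
          hTL.K_inf_cent' hcm hk1K hcomm
        apply h1 (QuotientGroup.mk' (Subgroup.center G) b⁻¹)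
        rw [hconjH]
        have h5 : b⁻¹⁻¹ * (k * c) * b⁻¹ = (k * (b⁻¹ * c * b * c⁻¹)⁻¹) * c := by
          have h6 : b * (k * (b⁻¹ * c * b * c⁻¹)⁻¹) = (k * (b⁻¹ * c * b * c⁻¹)⁻¹) * b :=
            Subgroup.mem_center_iff.mp hk1z b
          calc b⁻¹⁻¹ * (k * c) * b⁻¹
              = (b * (k * (b⁻¹ * c * b * c⁻¹)⁻¹)) * (b⁻¹ * c) := by group
            _ = ((k * (b⁻¹ * c * b * c⁻¹)⁻¹) * b) * (b⁻¹ * c) := by rw [h6]
            _ = (k * (b⁻¹ * c * b * c⁻¹)⁻¹) * c := by group
        rw [h5]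
        have h7 : Commute (k * (b⁻¹ * c * b * c⁻¹)⁻¹) y :=
          (Subgroup.mem_center_iff.mp hk1z y).symm
        exact h7.mul_left hc
    · intro hgK
      by_cases hgz : g ∈ Subgroup.center G
      · left
        exact (QuotientGroup.eq_one_iff g).mpr hgz
      · right
        intro gb'
        obtain ⟨g', rfl⟩ := hsurj gb'
        rw [hconjH]
        intro hcomm
        apply hgz
        have h1 : g'⁻¹ * g * g'⁻¹⁻¹ ∈ tlK n G := hKn.conj_mem g hgK g'⁻¹
        rw [inv_inv] at h1
        have h2 := hTL.K_inf_cent' hym h1 hcomm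
        have h3 := (inferInstance : (Subgroup.center G).Normal).conj_mem _ h2 g'
        have h4 : g' * (g'⁻¹ * g * g') * g'⁻¹ = g := by group
        rw [h4] at h3; exact h3

end Cfsg.Agent.S4138
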