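import Mathlib
import Cfsg.Statements.S4142

set_option autoImplicit false
open Cfsg

namespace Cfsg.Agent.S4142

open Subgroup

variable {G : Type*} [Group G] [Finite G] (N : Subgroup G) [N.Normal]

/-- the set of `n ∈ N` such that `g * n` is conjugate to `g` -/
def camSet (g : G) : Set G := {n | n ∈ N ∧ ∃ x : G, x * g * x⁻¹ = g * n}

/-- the preimage of the centralizer of `gN` -/
def preC (g : G) : Subgroup G :=
  (centralizer ({(QuotientGroup.mk g : G ⧸ N)} : Set (G ⧸ N))).comap (QuotientGroup.mk' N)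

theorem mem_preC_iff (g x : G) : x ∈ preC N g ↔ g⁻¹ * x * g * x⁻¹ ∈ N := by
  unfold preC
  rw [mem_comap, mem_centralizer_iff]
  simp only [Set.mem_singleton_iff, forall_eq, QuotientGroup.mk'_apply]
  rw [← QuotientGroup.mk_mul, ← QuotientGroup.mk_mul, QuotientGroup.eq]
  constructor
  · intro h
    have h3 : g⁻¹ * x * g * x⁻¹ = x * ((g * x)⁻¹ * (x * g)) * x⁻¹ := by group
    rw [h3]
    exact Subgroup.Normal.conj_mem inferInstance _ h x
  · intro h
    have h3 : (g * x)⁻¹ * (x * g) = x⁻¹ * (g⁻¹ * x * g * x⁻¹) * x⁻¹⁻¹ := by group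
    rw [h3]
    exact Subgroup.Normal.conj_mem inferInstance _ h x⁻¹

theorem centralizer_le_preC (g : G) : centralizer ({g} : Set G) ≤ preC N g := by
  intro x hx
  rw [mem_centralizer_iff] at hx
  have := hx g rfl
  rw [mem_preC_iff]
  have h3 : g⁻¹ * x * g * x⁻¹ = g⁻¹ * (x * g) * x⁻¹ := by group
  rw [h3, ← this]
  simp

theorem card_camSet (g : G) :
    Nat.card (camSet N g) = (centralizer ({g} : Set G)).relIndex (preC N g) := by
  unfold relIndex index
  symm
  let K := (centralizer ({g} : Set G)).subgroupOf (preC N g)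
  have hwd : ∀ a b : preC N g, QuotientGroup.leftRel K a b →
      (⟨g⁻¹ * (a : G) * g * (a : G)⁻¹, ⟨(mem_preC_iff N g a).1 a.2, ⟨a, by group⟩⟩⟩ : camSet N g) =
      ⟨g⁻¹ * (b : G) * g * (b : G)⁻¹, ⟨(mem_preC_iff N g b).1 b.2, ⟨b, by group⟩⟩⟩ := by
    intro a b hab
    rw [QuotientGroup.leftRel_apply, mem_subgroupOf, mem_centralizer_iff] at hab
    have h1 := hab g rfl
    simp only [coe_mul, InvMemClass.coe_inv] at h1
    apply Subtype.ext
    simp only
    have h2 : (b : G) = a * ((a : G)⁻¹ * b) := by group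
    rw [h2]
    have h3 : g⁻¹ * (↑a * ((a : G)⁻¹ * ↑b)) * g * (↑a * ((a : G)⁻¹ * ↑b))⁻¹
        = g⁻¹ * ↑a * (((a : G)⁻¹ * ↑b) * g) * ((a : G)⁻¹ * ↑b)⁻¹ * (a : G)⁻¹ := by group
    rw [h3, ← h1]
    group
  refine Nat.card_congr (Equiv.ofBijective (fun q => Quotient.liftOn' q _ hwd) ⟨?_, ?_⟩)
  · intro q1 q2
    refine Quotient.inductionOn₂' q1 q2 ?_
    intro a b hab
    simp only [Quotient.liftOn'_mk''] at hab
    have h1 := congrArg Subtype.val hab
    simp only at h1
    apply Quotient.sound'
    rw [QuotientGroup.leftRel_apply, mem_subgroupOf, mem_centralizer_iff]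
    intro y hy
    rw [Set.mem_singleton_iff] at hy
    subst hy
    simp only [coe_mul, InvMemClass.coe_inv]
    have h2 : (a : G) * y * (a : G)⁻¹ = b * y * (b : G)⁻¹ := by
      have : y * (y⁻¹ * ↑a * y * (a : G)⁻¹) = y * (y⁻¹ * ↑b * y * (b : G)⁻¹) := by rw [h1]
      simpa [mul_assoc] using this
    have h4 : y * ((a : G)⁻¹ * ↑b) = (a : G)⁻¹ * (a * y * (a : G)⁻¹) * b := by group
    rw [h4, h2]
    group
  · rintro ⟨n, hn, x, hx⟩
    have hxD : x ∈ preC N g := by
      rw [mem_preC_iff]
      have : g⁻¹ * x * g * x⁻¹ = g⁻¹ * (x * g * x⁻¹) := by group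
      rw [this, hx]
      simpa using hn
    refine ⟨Quotient.mk'' ⟨x, hxD⟩, ?_⟩
    simp only [Quotient.liftOn'_mk'']
    apply Subtype.ext
    simp only
    have : g⁻¹ * x * g * x⁻¹ = g⁻¹ * (x * g * x⁻¹) := by group
    rw [this, hx]
    simp

theorem card_relation (g : G) :
    Nat.card (centralizer ({g} : Set G)) * (centralizer ({g} : Set G)).relIndex (preC N g) =
      Nat.card N * Nat.card (centralizer ({(QuotientGroup.mk g : G ⧸ N)} : Set (G ⧸ N))) := by
  have h1 := relIndex_mul_index (centralizer_le_preC N g)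
  have h2 : (preC N g).index = (centralizer ({(QuotientGroup.mk g : G ⧸ N)} : Set (G ⧸ N))).index :=
    index_comap_of_surjective _ (QuotientGroup.mk'_surjective N)
  have h3 := (centralizer ({g} : Set G)).card_mul_index
  have h4 := (centralizer ({(QuotientGroup.mk g : G ⧸ N)} : Set (G ⧸ N))).card_mul_index
  have h5 := Subgroup.card_eq_card_quotient_mul_card_subgroup N
  have h6 : (preC N g).index ≠ 0 := index_ne_zero_of_finite
  rw [h2] at h1 h6
  apply mul_right_cancel₀ h6
  calc Nat.card (centralizer ({g} : Set G)) * (centralizer ({g} : Set G)).relIndex (preC N g) *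
        (centralizer ({(QuotientGroup.mk g : G ⧸ N)} : Set (G ⧸ N))).index
      = Nat.card (centralizer ({g} : Set G)) * (centralizer ({g} : Set G)).index := by
        rw [mul_assoc, h1]
    _ = Nat.card G := h3
    _ = Nat.card N * Nat.card (G ⧸ N) := by rw [h5, mul_comm]
    _ = _ := by rw [← h4, mul_assoc]

theorem key (g : G) :
    (∀ n ∈ N, ∃ x : G, x * g * x⁻¹ = g * n) ↔
      Nat.card (centralizer ({g} : Set G)) =
        Nat.card (centralizer ({(QuotientGroup.mk g : G ⧸ N)} : Set (G ⧸ N))) := by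
  have hrel := card_relation N g
  rw [← card_camSet] at hrel
  have hsub : camSet N g ⊆ (N : Set G) := fun n hn => hn.1
  have hCpos : 0 < Nat.card (centralizer ({g} : Set G)) := Nat.card_pos
  have hNpos : 0 < Nat.card N := Nat.card_pos
  constructor
  · intro h
    have hS : camSet N g = (N : Set G) := Set.Subset.antisymm hsub (fun n hn => ⟨hn, h n hn⟩)
    rw [hS] at hrel
    have : Nat.card ((N : Set G)) = Nat.card N := rfl
    rw [this, mul_comm] at hrel
    exact Nat.eq_of_mul_eq_mul_left hNpos hrel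
  · intro h
    rw [← h, mul_comm] at hrel
    have hcard : Nat.card (camSet N g) = Nat.card N := Nat.eq_of_mul_eq_mul_right hCpos hrel
    have hS : camSet N g = (N : Set G) := by
      apply Set.eq_of_subset_of_ncard_le hsub
      rw [← Nat.card_coe_set_eq, ← Nat.card_coe_set_eq, hcard]
      rfl
    intro n hn
    have : n ∈ camSet N g := by rw [hS]; exact hn
    exact this.2

/-- Let G be a finite group and N a normal subgroup. Then the conjugacy class of every element g outside N is a union of cosets of N (gn is conjugate to g for all n ∈ N) if and only if for every g outside N the centralizer of g in G has the same order as the centralizer of gN in G/N. -/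
theorem result {G : Type*} [Group G] [Finite G] (N : Subgroup G) [N.Normal] :
    (∀ g : G, g ∉ N → ∀ n ∈ N, ∃ x : G, x * g * x⁻¹ = g * n) ↔
      ∀ g : G, g ∉ N → Nat.card (Subgroup.centralizer ({g} : Set G)) =
        Nat.card (Subgroup.centralizer ({(QuotientGroup.mk g : G ⧸ N)} : Set (G ⧸ N))) := by
  constructor
  · intro h g hg
    exact (key N g).1 (h g hg)
  · intro h g hg
    exact (key N g).2 (h g hg)

end Cfsg.Agent.S4142
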