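import Cfsg.Statements.S4145
import Cfsg.Agent.Helper69.CyclicSylow

set_option autoImplicit false
open Cfsg

namespace Cfsg.Agent.S4145

open Cfsg.Agent.Helper69

/-- Let G be a finite group with a cyclic Sylow p-subgroup and H a normal subgroup such that p divides both the order of H and the index of H. Then H has a normal p-complement and G is p-solvable. -/
theorem result {G : Type*} [Group G] [Finite G] (p : ℕ) [Fact p.Prime]
    (P : Sylow p G) (hP : IsCyclic (P : Subgroup G)) (H : Subgroup G) [H.Normal] (h1 : p ∣ Nat.card H) (h2 : p ∣ H.index) :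
    Cfsg.HasNormalPComplement p H ∧ Cfsg.IsPSolvable p G := by
  constructor
  · obtain ⟨S⟩ : Nonempty (Sylow p H) := inferInstance
    obtain ⟨N, hN, hc⟩ := exists_normal_complement_of_cyclic_sylow P hP H S h2
    exact ⟨S, N, hN, hc⟩
  · exact isPSolvable_of_cyclic_sylow P hP H h1 h2

end Cfsg.Agent.S4145
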