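import Cfsg.Statements.S4150
import Cfsg.Agent.Helper91.AltGenC
import Cfsg.Agent.Lead.PrimeGap
import Cfsg.Agent.Helper58.Twin7
import Cfsg.Agent.Helper58.Twin13

set_option autoImplicit false
open Cfsg

namespace Cfsg.Agent.S4150

/-- Let m ≥ 5. Then there are primes p < q with m/2 ≤ p and q ≤ m such that any two elements x, y of the alternating group of degree m with x of order p and y of order q generate a subgroup isomorphic to an alternating group of some degree d ≥ 5. -/
theorem result (m : ℕ) (hm : 5 ≤ m) :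
    ∃ p q : ℕ, p.Prime ∧ q.Prime ∧ m ≤ 2 * p ∧ p < q ∧ q ≤ m ∧
      ∀ x y : alternatingGroup (Fin m), orderOf x = p → orderOf y = q →
        ∃ d : ℕ, 5 ≤ d ∧ Nonempty (Subgroup.closure ({x, y} : Set (alternatingGroup (Fin m))) ≃* alternatingGroup (Fin d)) := by
  have h7 : Cfsg.Agent.Helper91.AltGen.Twin7 := by
    intro α _ _ hα G x y hx hy hxc hxs hyc hys
    exact Cfsg.Agent.Helper58.twin7 hα G hx hy hxc hxs hyc hys
  have h13 : Cfsg.Agent.Helper91.AltGen.Twin13 := by
    intro α _ _ hα G hG x y hx hy hxc hxs hyc hys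
    exact Cfsg.Agent.Helper58.twin13 hα G hG hx hy hxc hxs hyc hys
  have h6 : Cfsg.Agent.Helper91.AltGen.Deg6 := Cfsg.Agent.Helper91.AltGen.deg6
  by_cases h17 : 17 ≤ m
  · obtain ⟨p, q, hp, hq, h2p, hpq, hqm⟩ := Cfsg.Agent.Lead.exists_two_primes_gap m h17
    exact ⟨p, q, hp, hq, by omega, by omega, hqm, fun x y hx hy =>
      Cfsg.Agent.Helper91.AltGen.gen_iso h7 h13 h6 hp hq (by omega) (by omega) (by omega)
        (Or.inr (Or.inr (Or.inr hpq))) (by omega) x y hx hy⟩
  · by_cases h6' : m ≤ 6
    · exact ⟨3, 5, by norm_num, by norm_num, by omega, by norm_num, by omega, fun x y hx hy =>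
        Cfsg.Agent.Helper91.AltGen.gen_iso h7 h13 h6 (by norm_num) (by norm_num) (by omega)
          (by norm_num) (by norm_num) (Or.inl rfl) (fun _ => Or.inl rfl) x y hx hy⟩
    · by_cases h10 : m ≤ 10
      · exact ⟨5, 7, by norm_num, by norm_num, by omega, by norm_num, by omega, fun x y hx hy =>
          Cfsg.Agent.Helper91.AltGen.gen_iso h7 h13 h6 (by norm_num) (by norm_num) (by omega)
            (by norm_num) (by norm_num) (Or.inr (Or.inl ⟨rfl, rfl⟩)) (fun h => Or.inr (by omega))
            x y hx hy⟩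
      · by_cases h14 : m ≤ 14
        · exact ⟨7, 11, by norm_num, by norm_num, by omega, by norm_num, by omega,
            fun x y hx hy =>
            Cfsg.Agent.Helper91.AltGen.gen_iso h7 h13 h6 (by norm_num) (by norm_num) (by omega)
              (by norm_num) (by norm_num) (Or.inr (Or.inr (Or.inr (by norm_num))))
              (fun h => Or.inr (by omega)) x y hx hy⟩
        · exact ⟨11, 13, by norm_num, by norm_num, by omega, by norm_num, by omega,
            fun x y hx hy =>
            Cfsg.Agent.Helper91.AltGen.gen_iso h7 h13 h6 (by norm_num) (by norm_num) (by omega)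
              (by norm_num) (by norm_num) (Or.inr (Or.inr (Or.inl ⟨rfl, rfl⟩)))
              (fun h => Or.inr (by omega)) x y hx hy⟩

end Cfsg.Agent.S4150
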