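import Cfsg.Statements.S4151
import Cfsg.Agent.Helper66.TIHall

set_option autoImplicit false
open Cfsg

namespace Cfsg.Agent.S4151

open Subgroup Cfsg.Agent.Helper66
open scoped Pointwise commutatorElement

/-- `H` normalises `⁅H, Q⁆`. -/
theorem le_normalizer_commutator_left {G : Type*} [Group G] (H Q : Subgroup G) :
    H ≤ normalizer ((⁅H, Q⁆ : Subgroup G) : Set G) := by
  apply Cfsg.Agent.Helper35.le_normalizer_of_forall_conj_mem
  intro a ha x hx
  have hle : (⁅H, Q⁆ : Subgroup G) ≤ MulAut.conj a⁻¹ • (⁅H, Q⁆ : Subgroup G) := by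
    rw [Subgroup.commutator_le]
    intro h hh q hq
    rw [Cfsg.Agent.Helper35.mem_conj_smul, inv_inv]
    have h1 : a * ⁅h, q⁆ * a⁻¹ = ⁅a * h, q⁆ * ⁅a, q⁆⁻¹ := by
      simp only [commutatorElement_def]; group
    rw [h1]
    exact Subgroup.mul_mem _ (Subgroup.commutator_mem_commutator (H.mul_mem ha hh) hq)
      (Subgroup.inv_mem _ (Subgroup.commutator_mem_commutator ha hq))
  have h2 := hle hx
  rwa [Cfsg.Agent.Helper35.mem_conj_smul, inv_inv] at h2

/-- Let G be a finite group and H a non-normal subgroup meeting each of its conjugates by elements outside N_G(H) trivially, with the order of H coprime to its index in N_G(H), such that G is π-separable for π the set of primes dividing the order of H (G has a chain of normal subgroups from 1 to G each of whose factors has order divisible only by primes dividing the order of H or coprime to it). Suppose a Sylow 2-subgroup of H is abelian and Q is a complement of H in N_G(H). Then C_H(Q), the subgroup of elements of H commuting with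 Q, has order coprime to its index in G and has a normal complement in G. -/
theorem result {G : Type*} [Group G] [Finite G] (H : Subgroup G)
    (hTI : Cfsg.IsTISubset (H : Set G)) (hnn : ¬ H.Normal)
    (hHall : (Nat.card H).Coprime (H.subgroupOf (Subgroup.normalizer (H : Set G))).index)
    (hsep : ∃ (n : ℕ) (M : Fin (n + 1) → Subgroup G), M 0 = ⊥ ∧ M (Fin.last n) = ⊤ ∧ Monotone M ∧ (∀ i, (M i).Normal) ∧
      ∀ i : Fin n, (∀ q : ℕ, q.Prime → q ∣ (M i.castSucc).relIndex (M i.succ) → q ∣ Nat.card H) ∨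
        ((M i.castSucc).relIndex (M i.succ)).Coprime (Nat.card H))
    (h2 : ∀ P : Sylow 2 H, IsMulCommutative (P : Subgroup H))
    (Q : Subgroup G) (hQ : Q ≤ Subgroup.normalizer (H : Set G)) (hQH : Q ⊓ H = ⊥) (hQH' : Q ⊔ H = Subgroup.normalizer (H : Set G)) :
    (Nat.card ↥(H ⊓ Subgroup.centralizer (Q : Set G))).Coprime (H ⊓ Subgroup.centralizer (Q : Set G)).index ∧
    ∃ N : Subgroup G, N.Normal ∧ N.IsComplement' (H ⊓ Subgroup.centralizer (Q : Set G)) := by
  classical
  have hHcop := tiH_coprime_index hTI hHall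
  obtain ⟨hOn, hOc⟩ := sSup_normal_coprime (G := G) (Nat.card H)
  have hOmax : ∀ K : Subgroup G, K.Normal → (Nat.card K).Coprime (Nat.card H) →
      K ≤ sSup {K : Subgroup G | K.Normal ∧ (Nat.card K).Coprime (Nat.card H)} :=
    fun K h1 h2 => le_sSup ⟨h1, h2⟩
  generalize sSup {K : Subgroup G | K.Normal ∧ (Nat.card K).Coprime (Nat.card H)} = O at hOn hOc hOmax
  have hH1 : H ≠ ⊥ := by
    rintro rfl; exact hnn Subgroup.normal_bot
  obtain ⟨L, hL, hOL, hHL⟩ := tiH_sep_structure hHcop hsep hH1 hOn hOc hOmax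
  have hnc := tiH_not_le_centralizer hTI hnn hOn hOc hL hOL hHL
  have habel : ∀ E : Subgroup G, E ≤ H → (∀ a ∈ E, ∀ b ∈ E, a * b = b * a) →
      ∃ a ∈ E, zpowers a = E := fun E hE hab => tiH_abelian_cyclic hTI hOn hOc hnc hE hab
  have hZ : IsZGroup H := isZGroup_of_abelian_cyclic habel h2
  have hsolv : Group.IsSolvable H := inferInstance
  have htop := tiH_sup_normalizer_eq_top hTI hOn hOc hL hOL hHL hsolv
  have hHQ : H ⊓ Q = ⊥ := by rw [inf_comm]; exact hQH
  have hcardM : Nat.card (normalizer (H : Set G)) = Nat.card H * Nat.card Q := by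
    rw [← hQH', sup_comm]; exact Cfsg.Agent.Helper35.card_sup_of_le_normalizer hQ hHQ
  have hQcop : (Nat.card Q).Coprime (Nat.card H) := by
    have h1 : Nat.card H * H.relIndex (normalizer (H : Set G)) =
        Nat.card (normalizer (H : Set G)) :=
      Cfsg.Agent.Helper35.card_mul_relIndex_of_le le_normalizer
    have h2 : Nat.card Q = H.relIndex (normalizer (H : Set G)) := by
      apply Nat.eq_of_mul_eq_mul_left (Nat.card_pos (α := H))
      rw [← hcardM, h1]
    rw [h2]; exact hHall.symm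
  have hpart1 := zg_centralizer_hall hQ hQcop hHcop
  refine ⟨hpart1, ?_⟩
  have hR0 := zg_commutator_inf_centralizer hQ hQcop
  have hRH : (⁅H, Q⁆ : Subgroup G) ≤ H := Cfsg.Agent.Helper35.commutator_le_of_le_normalizer hQ
  have hQR : Q ≤ normalizer ((⁅H, Q⁆ : Subgroup G) : Set G) :=
    Cfsg.Agent.Helper35.le_normalizer_commutator hQ
  have hHR : H ≤ normalizer ((⁅H, Q⁆ : Subgroup G) : Set G) := le_normalizer_commutator_left H Q
  have hRH₀ : (⁅H, Q⁆ : Subgroup G) ⊓ (H ⊓ centralizer (Q : Set G)) = ⊥ := by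
    rw [eq_bot_iff]
    intro x hx
    have h1 : x ∈ (⁅H, Q⁆ : Subgroup G) ⊓ centralizer (Q : Set G) := ⟨hx.1, hx.2.2⟩
    rw [hR0] at h1
    exact h1
  have hHsup : H ≤ (⁅H, Q⁆ : Subgroup G) ⊔ (H ⊓ centralizer (Q : Set G)) := by
    intro k hk
    obtain ⟨n, hn, c, hc, rfl⟩ :=
      Cfsg.Agent.Helper35.exists_commutator_mul_fixed hQ hQcop (Or.inr hsolv) hk
    exact Subgroup.mul_mem_sup hn hc
  have hH₀R : H ⊓ centralizer (Q : Set G) ≤ normalizer ((⁅H, Q⁆ : Subgroup G) : Set G) :=
    inf_le_left.trans hHR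
  -- the normal complement
  have hNnorm : (O ⊔ ((⁅H, Q⁆ : Subgroup G) ⊔ Q)).Normal := by
    rw [← Subgroup.normalizer_eq_top_iff, eq_top_iff, ← htop]
    have key : ∀ g : G, MulAut.conj g • (⁅H, Q⁆ : Subgroup G) = ⁅H, Q⁆ → MulAut.conj g • Q = Q →
        g ∈ normalizer ((O ⊔ ((⁅H, Q⁆ : Subgroup G) ⊔ Q) : Subgroup G) : Set G) := by
      intro g h1 h2
      rw [Cfsg.Agent.Helper35.mem_normalizer_iff_conj_smul_eq, Subgroup.smul_sup,
        Subgroup.smul_sup, Cfsg.Agent.Helper35.conj_smul_normal, h1, h2]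
    refine sup_le (le_sup_left.trans le_normalizer) ?_
    rw [← hQH']
    refine sup_le ?_ ?_
    · intro q hq
      exact key q (Cfsg.Agent.Helper35.conj_smul_eq_self_of_mem_normalizer (hQR hq))
        (Cfsg.Agent.Helper35.conj_smul_eq_self_of_mem hq)
    · refine hHsup.trans (sup_le ?_ ?_)
      · exact (le_sup_left.trans le_sup_right).trans le_normalizer
      · intro c hc
        refine key c (Cfsg.Agent.Helper35.conj_smul_eq_self_of_mem_normalizer (hH₀R hc))
          (Cfsg.Agent.Helper35.conj_smul_eq_self_of_mem_normalizer ?_)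
        exact Subgroup.centralizer_le_normalizer _ hc.2
  refine ⟨O ⊔ ((⁅H, Q⁆ : Subgroup G) ⊔ Q), hNnorm, ?_⟩
  apply Cfsg.Agent.Helper35.isComplement'_of_normal
  · -- trivial intersection by coprimality
    have hRQ : (⁅H, Q⁆ : Subgroup G) ⊓ Q = ⊥ := by
      rw [eq_bot_iff, ← hHQ]
      exact inf_le_inf_right Q hRH
    have hcardRQ := Cfsg.Agent.Helper35.card_sup_of_le_normalizer hQR hRQ
    have hcardN : Nat.card (O ⊔ ((⁅H, Q⁆ : Subgroup G) ⊔ Q) : Subgroup G) ∣
        Nat.card O * (Nat.card (⁅H, Q⁆ : Subgroup G) * Nat.card Q) := by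
      rw [← Cfsg.Agent.Helper35.card_mul_relIndex_of_le
        (le_sup_left : O ≤ O ⊔ ((⁅H, Q⁆ : Subgroup G) ⊔ Q)), Subgroup.relIndex_sup_left, ← hcardRQ]
      exact Nat.mul_dvd_mul_left _ (Subgroup.relIndex_dvd_card _ _)
    have hcardH : Nat.card (⁅H, Q⁆ : Subgroup G) * Nat.card (H ⊓ centralizer (Q : Set G) : Subgroup G)
        = Nat.card H := by
      rw [← Cfsg.Agent.Helper35.card_sup_of_le_normalizer hH₀R hRH₀]
      congr 2
      exact le_antisymm (sup_le hRH inf_le_left) hHsup
    have hH₀H : Nat.card (H ⊓ centralizer (Q : Set G) : Subgroup G) ∣ Nat.card H :=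
      Subgroup.card_dvd_of_le inf_le_left
    have hc1 : (Nat.card O).Coprime (Nat.card (H ⊓ centralizer (Q : Set G) : Subgroup G)) :=
      Nat.Coprime.coprime_dvd_right hH₀H hOc
    have hc2 : (Nat.card Q).Coprime (Nat.card (H ⊓ centralizer (Q : Set G) : Subgroup G)) :=
      Nat.Coprime.coprime_dvd_right hH₀H hQcop
    have hc3 : (Nat.card (⁅H, Q⁆ : Subgroup G)).Coprime
        (Nat.card (H ⊓ centralizer (Q : Set G) : Subgroup G)) := by
      have h1 : (H ⊓ centralizer (Q : Set G)).relIndex H * H.index =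
          (H ⊓ centralizer (Q : Set G)).index := Subgroup.relIndex_mul_index inf_le_left
      have h2 : Nat.card (H ⊓ centralizer (Q : Set G) : Subgroup G) *
          (H ⊓ centralizer (Q : Set G)).relIndex H = Nat.card H :=
        Cfsg.Agent.Helper35.card_mul_relIndex_of_le inf_le_left
      have h3 : (H ⊓ centralizer (Q : Set G)).relIndex H = Nat.card (⁅H, Q⁆ : Subgroup G) := by
        apply Nat.eq_of_mul_eq_mul_left
          (Nat.card_pos (α := (H ⊓ centralizer (Q : Set G) : Subgroup G)))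
        rw [h2, ← hcardH, mul_comm]
      have h4 : Nat.card (⁅H, Q⁆ : Subgroup G) ∣ (H ⊓ centralizer (Q : Set G)).index := by
        rw [← h1, h3]; exact dvd_mul_right _ _
      exact (Nat.Coprime.coprime_dvd_right h4 hpart1).symm
    have hcop : (Nat.card (O ⊔ ((⁅H, Q⁆ : Subgroup G) ⊔ Q) : Subgroup G)).Coprime
        (Nat.card (H ⊓ centralizer (Q : Set G) : Subgroup G)) :=
      Nat.Coprime.coprime_dvd_left hcardN
        (Nat.Coprime.mul_left hc1 (Nat.Coprime.mul_left hc3 hc2))
    exact disjoint_iff.mp (Subgroup.disjoint_of_coprime_natCard hcop)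
  · rw [eq_top_iff, ← htop]
    refine sup_le (le_sup_left.trans le_sup_left) ?_
    rw [← hQH']
    refine sup_le ((le_sup_right.trans le_sup_right).trans le_sup_left) ?_
    exact hHsup.trans (sup_le_sup_right ((le_sup_left.trans le_sup_right)) _)

end Cfsg.Agent.S4151
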