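import Cfsg.Statements.S4153

set_option autoImplicit false
open Cfsg

namespace Cfsg.Agent.S4153

/-- Let G be a finite group, p a prime, N a normal subgroup, P a Sylow p-subgroup of G and P̄ a Sylow p-subgroup of G/N. Count the elements of p-power order, the identity included. Then (number of such elements of G/N)/#P̄ ≤ (number of such elements of G)/#P, stated as a cross-multiplied inequality, with equality when N is central. -/
theorem result {G : Type*} [Group G] [Finite G] (p : ℕ) [Fact p.Prime] (N : Subgroup G) [N.Normal]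
    (P : Sylow p G) (Pbar : Sylow p (G ⧸ N)) :
    Nat.card {g : (G ⧸ N) // ∃ k : ℕ, orderOf g = p ^ k} * Nat.card (P : Subgroup G) ≤ Nat.card {g : G // ∃ k : ℕ, orderOf g = p ^ k} * Nat.card (Pbar : Subgroup (G ⧸ N)) ∧
    (N ≤ Subgroup.center G → Nat.card {g : (G ⧸ N) // ∃ k : ℕ, orderOf g = p ^ k} * Nat.card (P : Subgroup G) = Nat.card {g : G // ∃ k : ℕ, orderOf g = p ^ k} * Nat.card (Pbar : Subgroup (G ⧸ N))) := by
  classical
  have hp : p.Prime := Fact.out
  let π : G →* G ⧸ N := QuotientGroup.mk' N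
  have hπ : Function.Surjective π := QuotientGroup.mk'_surjective N
  have hpelt : ∀ (Q : Sylow p G) (g : G), g ∈ (Q : Subgroup G) → ∃ k : ℕ, orderOf g = p ^ k := by
    intro Q g hg
    obtain ⟨k, hk⟩ := Q.isPGroup' ⟨g, hg⟩
    have h1 : g ^ (p ^ k) = 1 := by
      have := congrArg Subtype.val hk
      simpa using this
    obtain ⟨j, -, hj⟩ := (Nat.dvd_prime_pow hp).mp (orderOf_dvd_of_pow_eq_one h1)
    exact ⟨j, hj⟩
  have key : ∀ y : {g : G ⧸ N // ∃ k : ℕ, orderOf g = p ^ k},
      Nat.card (P : Subgroup G) ≤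
        Nat.card {g : {g : G // ∃ k : ℕ, orderOf g = p ^ k} // π g.1 = y.1} *
          Nat.card (Pbar : Subgroup (G ⧸ N)) ∧
      (N ≤ Subgroup.center G → Nat.card (P : Subgroup G) =
        Nat.card {g : {g : G // ∃ k : ℕ, orderOf g = p ^ k} // π g.1 = y.1} *
          Nat.card (Pbar : Subgroup (G ⧸ N))) := by
    rintro ⟨y, k, hk⟩
    have hpg : IsPGroup p (Subgroup.zpowers y) :=
      IsPGroup.of_card (n := k) (by rw [Nat.card_zpowers, hk])
    obtain ⟨Qb, hQb⟩ := hpg.exists_le_sylow
    obtain ⟨P₁, hP₁⟩ := Sylow.mapSurjective_surjective hπ p Qb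
    have hy : y ∈ (P₁ : Subgroup G).map π := by
      have h1 : y ∈ (Qb : Subgroup (G ⧸ N)) := hQb (Subgroup.mem_zpowers y)
      rw [← hP₁, Sylow.coe_mapSurjective] at h1
      exact h1
    obtain ⟨x, hx, hxy⟩ := hy
    have hc1 : Nat.card (P₁ : Subgroup G) = Nat.card (P : Subgroup G) := by
      rw [Sylow.card_eq_multiplicity, Sylow.card_eq_multiplicity]
    have hc2 : Nat.card ((P₁ : Subgroup G).map π) = Nat.card (Pbar : Subgroup (G ⧸ N)) := by
      rw [← Sylow.coe_mapSurjective hπ, Sylow.card_eq_multiplicity, Sylow.card_eq_multiplicity]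
    have hc3 : Nat.card (N.subgroupOf (P₁ : Subgroup G)) * Nat.card ((P₁ : Subgroup G).map π) =
        Nat.card (P₁ : Subgroup G) := by
      have h1 := Subgroup.card_mul_index (N.subgroupOf (P₁ : Subgroup G))
      have h2 : (N.subgroupOf (P₁ : Subgroup G)).index = Nat.card ((P₁ : Subgroup G).map π) := by
        have := Subgroup.relIndex_ker (K := (P₁ : Subgroup G)) π
        rw [QuotientGroup.ker_mk'] at this
        exact this
      rw [h2] at h1; exact h1
    let ι : N.subgroupOf (P₁ : Subgroup G) →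
        {g : {g : G // ∃ k : ℕ, orderOf g = p ^ k} // π g.1 = y} :=
      fun n => ⟨⟨x * (n.1 : G), hpelt P₁ _ ((P₁ : Subgroup G).mul_mem hx n.1.2)⟩, by
        show π (x * (n.1 : G)) = y
        rw [map_mul, hxy]
        have : π (n.1 : G) = 1 := (QuotientGroup.eq_one_iff _).mpr (Subgroup.mem_subgroupOf.mp n.2)
        rw [this, mul_one]⟩
    have hι : Function.Injective ι := by
      intro n₁ n₂ h
      have h1 : x * (n₁.1 : G) = x * (n₂.1 : G) := congrArg (fun z => (z.1.1 : G)) h
      exact Subtype.ext (Subtype.ext (mul_left_cancel h1))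
    constructor
    · have h1 := Nat.card_le_card_of_injective ι hι
      calc Nat.card (P : Subgroup G)
          = Nat.card (N.subgroupOf (P₁ : Subgroup G)) * Nat.card (Pbar : Subgroup (G ⧸ N)) := by
            rw [← hc1, ← hc3, hc2]
        _ ≤ _ := Nat.mul_le_mul_right _ h1
    · intro hcen
      have hsurj : Function.Surjective ι := by
        rintro ⟨⟨g, b, hb⟩, hg⟩
        have hg' : π g = y := hg
        obtain ⟨a, ha⟩ := hpelt P₁ x hx
        have hnN : x⁻¹ * g ∈ N := by
          apply (QuotientGroup.eq_one_iff _).mp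
          show π (x⁻¹ * g) = 1
          rw [map_mul, map_inv, hxy, hg', inv_mul_cancel]
        have hncen := hcen hnN
        have hcomm : Commute x (x⁻¹ * g) := (Subgroup.mem_center_iff.mp hncen x)
        have hpow : (x⁻¹ * g) ^ (p ^ (a + b)) = 1 := by
          have h1 : g = x * (x⁻¹ * g) := by group
          have h2 : g ^ (p ^ (a + b)) = 1 := by
            rw [pow_add, pow_mul', ← hb, pow_orderOf_eq_one, one_pow]
          have h3 : x ^ (p ^ (a + b)) = 1 := by
            rw [pow_add, pow_mul, ← ha, pow_orderOf_eq_one, one_pow]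
          rw [h1, hcomm.mul_pow, h3, one_mul] at h2
          exact h2
        have hnP : x⁻¹ * g ∈ (P₁ : Subgroup G) := by
          obtain ⟨j, -, hj⟩ := (Nat.dvd_prime_pow hp).mp (orderOf_dvd_of_pow_eq_one hpow)
          have hZ : IsPGroup p (Subgroup.zpowers (x⁻¹ * g)) :=
            IsPGroup.of_card (n := j) (by rw [Nat.card_zpowers, hj])
          have hnorm : (Subgroup.zpowers (x⁻¹ * g)).Normal := by
            refine ⟨fun z hz c => ?_⟩
            have hzc : z ∈ Subgroup.center G :=
              (Subgroup.zpowers_le.mpr hncen) hz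
            have : c * z * c⁻¹ = z := by
              rw [Subgroup.mem_center_iff.mp hzc c, mul_assoc, mul_inv_cancel, mul_one]
            rw [this]; exact hz
          have hsup : IsPGroup p ↥((P₁ : Subgroup G) ⊔ Subgroup.zpowers (x⁻¹ * g)) :=
            IsPGroup.to_sup_of_normal_right P₁.isPGroup' hZ
          have hmax := P₁.is_maximal' hsup le_sup_left
          have : x⁻¹ * g ∈ (P₁ : Subgroup G) ⊔ Subgroup.zpowers (x⁻¹ * g) :=
            (le_sup_right : Subgroup.zpowers (x⁻¹ * g) ≤ _) (Subgroup.mem_zpowers _)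
          rw [hmax] at this
          exact this
        refine ⟨⟨⟨x⁻¹ * g, hnP⟩, Subgroup.mem_subgroupOf.mpr hnN⟩, ?_⟩
        apply Subtype.ext; apply Subtype.ext
        show x * (x⁻¹ * g) = g
        group
      have h1 := Nat.card_congr (Equiv.ofBijective ι ⟨hι, hsurj⟩)
      rw [← h1, ← hc2, hc3, hc1]
  have hf : ∀ g : {g : G // ∃ k : ℕ, orderOf g = p ^ k}, ∃ k : ℕ, orderOf (π g.1) = p ^ k := by
    rintro ⟨g, k, hk⟩
    have h1 : orderOf (π g) ∣ p ^ k := by rw [← hk]; exact orderOf_map_dvd π g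
    obtain ⟨j, -, hj⟩ := (Nat.dvd_prime_pow hp).mp h1
    exact ⟨j, hj⟩
  let f : {g : G // ∃ k : ℕ, orderOf g = p ^ k} → {g : G ⧸ N // ∃ k : ℕ, orderOf g = p ^ k} :=
    fun g => ⟨π g.1, hf g⟩
  let _ := Fintype.ofFinite {g : G ⧸ N // ∃ k : ℕ, orderOf g = p ^ k}
  have hsum : Nat.card {g : G // ∃ k : ℕ, orderOf g = p ^ k} =
      ∑ y : {g : G ⧸ N // ∃ k : ℕ, orderOf g = p ^ k},
        Nat.card {g : {g : G // ∃ k : ℕ, orderOf g = p ^ k} // π g.1 = y.1} := by
    rw [← Nat.card_sigma]
    apply Nat.card_congr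
    exact (Equiv.sigmaFiberEquiv f).symm.trans (Equiv.sigmaCongrRight (fun y =>
      Equiv.subtypeEquivRight (fun g => Subtype.ext_iff)))
  have hEb : Nat.card {g : G ⧸ N // ∃ k : ℕ, orderOf g = p ^ k} * Nat.card (P : Subgroup G) =
      ∑ _y : {g : G ⧸ N // ∃ k : ℕ, orderOf g = p ^ k}, Nat.card (P : Subgroup G) := by
    rw [Finset.sum_const, Finset.card_univ, Nat.card_eq_fintype_card, smul_eq_mul]
  constructor
  · rw [hEb, hsum, Finset.sum_mul]
    exact Finset.sum_le_sum (fun y _ => (key y).1)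
  · intro hcen
    rw [hEb, hsum, Finset.sum_mul]
    exact Finset.sum_congr rfl (fun y _ => (key y).2 hcen)

end Cfsg.Agent.S4153
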