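import Cfsg.Statements.S4154
import Mathlib

set_option autoImplicit false
open Cfsg

namespace Cfsg.Agent.S4154

/-- The fixed points of an endomorphism, as a subgroup. -/
def fixSub {Q : Type*} [Group Q] (β : Q →* Q) : Subgroup Q where
  carrier := {q | β q = q}
  mul_mem' := by
    intro a b ha hb
    simp only [Set.mem_setOf_eq] at ha hb ⊢
    rw [map_mul, ha, hb]
  one_mem' := by simp
  inv_mem' := by
    intro a ha
    simp only [Set.mem_setOf_eq] at ha ⊢
    rw [map_inv, ha]

theorem mem_fixSub {Q : Type*} [Group Q] (β : Q →* Q) (q : Q) : q ∈ fixSub β ↔ β q = q := Iff.rfl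

/-- Orbit–stabilizer for twisted conjugation: `#Fix(β) * #{q⁻¹ β(q)} = #Q`. -/
theorem card_fix_mul_card_range {Q : Type*} [Group Q] [Finite Q] (β : Q →* Q) :
    Nat.card (fixSub β) * Nat.card (Set.range fun q : Q => q⁻¹ * β q) = Nat.card Q := by
  classical
  rw [Subgroup.card_eq_card_quotient_mul_card_subgroup (fixSub β), mul_comm]
  congr 1
  symm
  -- the map Q ⧸ Fix → range
  let g : Q ⧸ fixSub β → Set.range (fun q : Q => q⁻¹ * β q) :=
    Quotient.lift (fun q : Q => (⟨(q⁻¹)⁻¹ * β q⁻¹, ⟨q⁻¹, rfl⟩⟩ : Set.range (fun q : Q => q⁻¹ * β q)))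
      (by
        intro a b hab
        have hab' : a⁻¹ * b ∈ fixSub β := QuotientGroup.leftRel_apply.mp hab
        rw [mem_fixSub, map_mul, map_inv] at hab'
        apply Subtype.ext
        simp only [inv_inv, map_inv]
        -- a β(a)⁻¹ = b β(b)⁻¹
        have h1 : β b = β a * (a⁻¹ * b) := by rw [← hab']; group
        rw [h1]; group)
  have hg : ∀ q : Q, g (QuotientGroup.mk q) = ⟨(q⁻¹)⁻¹ * β q⁻¹, ⟨q⁻¹, rfl⟩⟩ := fun q => rfl
  apply Nat.card_congr
  refine Equiv.ofBijective g ⟨?_, ?_⟩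
  · intro x y hxy
    induction x using QuotientGroup.induction_on with | _ a => ?_
    induction y using QuotientGroup.induction_on with | _ b => ?_
    rw [hg, hg] at hxy
    have h1 : (a⁻¹)⁻¹ * β a⁻¹ = (b⁻¹)⁻¹ * β b⁻¹ := congrArg Subtype.val hxy
    simp only [inv_inv, map_inv] at h1
    apply QuotientGroup.eq.mpr
    rw [mem_fixSub, map_mul, map_inv]
    have h2 : β b = (a * (β a)⁻¹)⁻¹ * b := by rw [h1]; group
    rw [h2]; group
  · rintro ⟨_, ⟨q, rfl⟩⟩
    refine ⟨QuotientGroup.mk q⁻¹, ?_⟩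
    rw [hg]
    apply Subtype.ext
    simp

/-- Let G be a finite group and α an automorphism of G such that every element of G is the product of an element fixed by α and an element of the form g⁻¹α(g). If N is a normal α-invariant subgroup, then the automorphism ᾱ induced on G/N has the same property, and every coset fixed by ᾱ contains an element fixed by α (so the fixed points of ᾱ are the images of the fixed points of α). -/
theorem result {G : Type*} [Group G] [Finite G] (α : MulAut G)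
    (hccp : ∀ x : G, ∃ c g : G, α c = c ∧ x = c * (g⁻¹ * α g))
    (N : Subgroup G) [N.Normal] (hN : ∀ n ∈ N, α n ∈ N) :
    (∀ x : G, ∃ c g : G, c⁻¹ * α c ∈ N ∧ x⁻¹ * (c * (g⁻¹ * α g)) ∈ N) ∧
    (∀ x : G, x⁻¹ * α x ∈ N → ∃ c : G, α c = c ∧ c⁻¹ * x ∈ N) := by
  classical
  constructor
  · intro x
    obtain ⟨c, g, hc, hx⟩ := hccp x
    refine ⟨c, g, ?_, ?_⟩
    · rw [hc, inv_mul_cancel]; exact N.one_mem
    · rw [← hx, inv_mul_cancel]; exact N.one_mem
  · intro x hx
    -- the induced endomorphism of the quotient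
    let β : G ⧸ N →* G ⧸ N := QuotientGroup.map N N α.toMonoidHom (fun n hn => hN n hn)
    have hβ : ∀ g : G, β (QuotientGroup.mk g) = QuotientGroup.mk (α g) := fun g => rfl
    let A := fixSub β
    let B := Set.range (fun q : G ⧸ N => q⁻¹ * β q)
    let μ : A × B → G ⧸ N := fun p => (p.1 : G ⧸ N) * (p.2 : G ⧸ N)
    have hcfix : ∀ c : G, α c = c → (QuotientGroup.mk c : G ⧸ N) ∈ A := by
      intro c hc
      rw [mem_fixSub, hβ, hc]
    have hsurj : Function.Surjective μ := by
      intro q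
      induction q using QuotientGroup.induction_on with | _ y => ?_
      obtain ⟨c, g, hc, hy⟩ := hccp y
      refine ⟨(⟨QuotientGroup.mk c, hcfix c hc⟩,
        ⟨(QuotientGroup.mk g : G ⧸ N)⁻¹ * β (QuotientGroup.mk g), ⟨_, rfl⟩⟩), ?_⟩
      show (QuotientGroup.mk c : G ⧸ N) * ((QuotientGroup.mk g : G ⧸ N)⁻¹ * β (QuotientGroup.mk g)) = _
      rw [hβ, hy]
      simp
    have hcard : Nat.card (A × B) = Nat.card (G ⧸ N) := by
      rw [Nat.card_prod]
      exact card_fix_mul_card_range β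
    letI := Fintype.ofFinite (A × B)
    letI := Fintype.ofFinite (G ⧸ N)
    have hbij : Function.Bijective μ := by
      rw [Fintype.bijective_iff_surjective_and_card]
      refine ⟨hsurj, ?_⟩
      rw [← Nat.card_eq_fintype_card, ← Nat.card_eq_fintype_card, hcard]
    obtain ⟨c, g, hc, hxe⟩ := hccp x
    have hxA : (QuotientGroup.mk x : G ⧸ N) ∈ A := by
      rw [mem_fixSub, hβ]
      exact (QuotientGroup.eq.mpr hx).symm
    have h1 : μ (⟨QuotientGroup.mk c, hcfix c hc⟩,
        ⟨(QuotientGroup.mk g : G ⧸ N)⁻¹ * β (QuotientGroup.mk g), ⟨_, rfl⟩⟩) =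
        μ (⟨QuotientGroup.mk x, hxA⟩, ⟨1, ⟨1, by simp⟩⟩) := by
      show (QuotientGroup.mk c : G ⧸ N) * ((QuotientGroup.mk g : G ⧸ N)⁻¹ * β (QuotientGroup.mk g))
        = (QuotientGroup.mk x : G ⧸ N) * 1
      rw [hβ, mul_one]
      conv_rhs => rw [hxe]
      simp
    have h2 := hbij.1 h1
    have h3 : (QuotientGroup.mk c : G ⧸ N) = QuotientGroup.mk x := by
      have := congrArg (fun p : A × B => (p.1 : G ⧸ N)) h2
      exact this
    exact ⟨c, hc, QuotientGroup.eq.mp h3⟩

end Cfsg.Agent.S4154
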