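import Mathlib
import Cfsg.Agent.Helper1.FpfSylow
import Cfsg.Agent.S0016
import Cfsg.Agent.Helper25.CN3
import Cfsg.Agent.Helper71.Frobenius
import Cfsg.Statements.S4155

set_option autoImplicit false
open Cfsg

namespace Cfsg.Agent.S4155

/-- A `q`-group acting on a nontrivial finite group with every nonidentity element acting without
fixed points has at most one subgroup of order `q`. -/
theorem unique_of_fpf_action {Γ K : Type*} [Group Γ] [Group K] [Finite Γ] [Finite K]
    [Nontrivial K] (φ : Γ →* MulAut K) (q : ℕ) [Fact q.Prime] (hΓ : IsPGroup q Γ)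
    (hfree : ∀ h : Γ, h ≠ 1 → ∀ k : K, φ h k = k → k = 1)
    (A B : Subgroup Γ) (hA : Nat.card A = q) (hB : Nat.card B = q) : A = B := by
  haveI := Cfsg.Agent.Helper71.finite_semidirectProduct φ
  have hinj : Function.Injective (SemidirectProduct.inr : Γ →* K ⋊[φ] Γ) :=
    SemidirectProduct.inr_injective
  have key := Cfsg.Agent.Helper1.fpf_eq_of_card_prime (G := K ⋊[φ] Γ)
    (SemidirectProduct.inl : K →* K ⋊[φ] Γ).range (SemidirectProduct.inr : Γ →* K ⋊[φ] Γ).range
    ?_ ?_ ?_ q ?_ (A.map SemidirectProduct.inr) (B.map SemidirectProduct.inr) ?_ ?_ ?_ ?_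
  · exact Subgroup.map_injective hinj key
  · obtain ⟨k, hk⟩ := exists_ne (1 : K)
    intro hbot
    have hmem : (SemidirectProduct.inl k : K ⋊[φ] Γ) ∈
        (SemidirectProduct.inl : K →* K ⋊[φ] Γ).range := ⟨k, rfl⟩
    rw [hbot, Subgroup.mem_bot] at hmem
    exact hk (SemidirectProduct.inl_injective (by rw [hmem, map_one]))
  · haveI : ((SemidirectProduct.inl : K →* K ⋊[φ] Γ).range).Normal := by
      rw [SemidirectProduct.range_inl_eq_ker_rightHom]; infer_instance
    rw [Subgroup.normalizer_eq_top_iff.mpr inferInstance]; exact le_top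
  · rintro _ ⟨γ, rfl⟩ hne
    have hγ : γ ≠ 1 := by rintro rfl; exact hne (map_one _)
    rw [eq_bot_iff]
    intro x hx
    obtain ⟨⟨k, rfl⟩, hx2⟩ := Subgroup.mem_inf.mp hx
    rw [Subgroup.mem_bot]
    have hc : (SemidirectProduct.inr γ : K ⋊[φ] Γ) * SemidirectProduct.inl k =
        SemidirectProduct.inl k * SemidirectProduct.inr γ :=
      (Subgroup.mem_centralizer_iff.mp hx2) _ rfl
    have hl := congrArg SemidirectProduct.left hc
    simp at hl
    rw [hfree γ hγ k hl, map_one]
  · exact hΓ.of_surjective (SemidirectProduct.inr : Γ →* K ⋊[φ] Γ).rangeRestrict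
      (MonoidHom.rangeRestrict_surjective _)
  · exact Subgroup.map_le_range _ _
  · exact Subgroup.map_le_range _ _
  · rw [Subgroup.card_map_of_injective hinj, hA]
  · rw [Subgroup.card_map_of_injective hinj, hB]

theorem order_lemma {G : Type*} [Group G] (N : Subgroup G)
    (heq : ∀ x : G, x ∉ N → ∀ n ∈ N, orderOf (x * n) = orderOf x) (q r : ℕ) (hq : q.Prime)
    (hr : r.Prime) (hqr : q ≠ r) (y k : G) (hy : y ∉ N) (hk : k ∈ N) (a b : ℕ)
    (hya : orderOf y = q ^ a) (hkb : orderOf k = r ^ b) (hc : Commute y k) : k = 1 := by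
  have h1 := heq y hy k hk
  have hcop : (orderOf y).Coprime (orderOf k) := by
    rw [hya, hkb]; exact Nat.Coprime.pow _ _ ((Nat.coprime_primes hq hr).mpr hqr)
  rw [hc.orderOf_mul_eq_mul_orderOf_of_coprime hcop] at h1
  have hpos : 0 < orderOf y := by rw [hya]; exact pow_pos hq.pos a
  have h2 : orderOf k = 1 := Nat.eq_of_mul_eq_mul_left hpos (h1.trans (mul_one _).symm)
  exact orderOf_eq_one_iff.mp h2

theorem exists_q_power {G : Type*} [Group G] [Finite G] (N : Subgroup G) [N.Normal] (q : ℕ)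
    (hq : q.Prime) (x : G) (hx : q ∣ orderOf (QuotientGroup.mk' N x)) :
    ∃ m a : ℕ, x ^ m ∉ N ∧ orderOf (x ^ m) = q ^ a := by
  obtain ⟨a, m, hm, hxm⟩ := Nat.exists_eq_pow_mul_and_not_dvd (orderOf_pos x).ne' q hq.ne_one
  have hm0 : m ≠ 0 := by rintro rfl; exact hm (dvd_zero q)
  refine ⟨m, a, ?_, ?_⟩
  · intro hN
    have h1 : (QuotientGroup.mk' N x) ^ m = 1 := by
      rw [← map_pow]; exact (QuotientGroup.eq_one_iff _).mpr hN
    exact hm (hx.trans (orderOf_dvd_of_pow_eq_one h1))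
  · rw [orderOf_pow_of_dvd hm0 (Dvd.intro_left _ hxm.symm), hxm,
      Nat.mul_div_cancel _ (Nat.pos_of_ne_zero hm0)]

theorem exists_normal_sylow {G : Type*} [Group G] [Finite G] (M : Subgroup G) [M.Normal]
    (hM : Group.IsNilpotent M) (q : ℕ) [Fact q.Prime] :
    ∃ S : Subgroup G, S.Normal ∧ S ≤ M ∧ IsPGroup q S ∧
      ∀ y ∈ M, (∃ a, orderOf y = q ^ a) → y ∈ S := by
  obtain ⟨P⟩ := (inferInstance : Nonempty (Sylow q M))
  have hPn : (P : Subgroup M).Normal := inferInstance
  haveI : (P : Subgroup M).Characteristic := P.characteristic_of_normal hPn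
  refine ⟨(P : Subgroup M).map M.subtype, inferInstance, Subgroup.map_subtype_le _, P.2.map _, ?_⟩
  rintro y hy ⟨a, ha⟩
  have hz : IsPGroup q (Subgroup.zpowers (⟨y, hy⟩ : M)) := by
    apply IsPGroup.of_card (n := a)
    rw [Nat.card_zpowers, ← ha]; exact Subgroup.orderOf_mk y hy
  obtain ⟨P', hP'⟩ := hz.exists_le_sylow
  haveI := P.unique_of_normal hPn
  have hPP : P' = P := Subsingleton.elim _ _
  rw [hPP] at hP'
  exact ⟨⟨y, hy⟩, hP' (Subgroup.mem_zpowers _), rfl⟩

theorem exists_central_pgroup {G : Type*} [Group G] [Finite G] (N : Subgroup G) [N.Normal]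
    (hN1 : N ≠ ⊥) (hnil : Group.IsNilpotent N) (hnpp : ¬ IsPrimePow (Nat.card N)) (q : ℕ)
    (hq : q.Prime) :
    ∃ (r : ℕ) (K : Subgroup G), r.Prime ∧ r ≠ q ∧ K.Normal ∧ K ≠ ⊥ ∧ K ≤ N ∧ IsPGroup r K ∧
      ∀ k ∈ K, ∀ n ∈ N, n * k = k * n := by
  have hr : ∃ r : ℕ, r.Prime ∧ r ∣ Nat.card N ∧ r ≠ q := by
    by_contra hcon
    push Not at hcon
    have h1 := Nat.eq_prime_pow_of_unique_prime_dvd (p := q) (Nat.card_pos (α := N)).ne'
      (fun {d} hd hdn => hcon d hd hdn)
    apply hnpp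
    rw [isPrimePow_nat_iff]
    refine ⟨q, _, hq, ?_, h1.symm⟩
    rcases Nat.eq_zero_or_pos (Nat.card N).primeFactorsList.length with h0 | h0
    · rw [h0, pow_zero] at h1
      exact absurd (Subgroup.card_eq_one.mp h1) hN1
    · exact h0
  obtain ⟨r, hrp, hrN, hrq⟩ := hr
  haveI : Fact r.Prime := ⟨hrp⟩
  obtain ⟨R, hRn, hRN, hRp, hRall⟩ := exists_normal_sylow N hnil r
  haveI := hRn
  obtain ⟨x, hx⟩ := exists_prime_orderOf_dvd_card' r hrN
  have hxR : (x : G) ∈ R := hRall _ x.2 ⟨1, by rw [pow_one, ← hx]; exact (Subgroup.orderOf_coe x)⟩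
  have hx1 : x ≠ 1 := by
    rintro rfl
    rw [orderOf_one] at hx
    exact hrp.one_lt.ne hx
  have hne : R.subgroupOf N ≠ ⊥ := by
    intro hbot
    have : x ∈ R.subgroupOf N := Subgroup.mem_subgroupOf.mpr hxR
    rw [hbot, Subgroup.mem_bot] at this
    exact hx1 this
  haveI : Group.IsNilpotent N := hnil
  obtain ⟨h, hhH, hh1, hhc⟩ :=
    Cfsg.Agent.Helper25.exists_mem_center_of_normal_of_isNilpotent (R.subgroupOf N) hne
  refine ⟨r, R ⊓ Subgroup.centralizer (N : Set G), hrp, hrq, inferInstance, ?_,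
    inf_le_left.trans hRN, hRp.to_le inf_le_left, ?_⟩
  · intro hbot
    have hmem : (h : G) ∈ R ⊓ Subgroup.centralizer (N : Set G) := by
      refine Subgroup.mem_inf.mpr ⟨Subgroup.mem_subgroupOf.mp hhH, ?_⟩
      rw [Subgroup.mem_centralizer_iff]
      intro n hn
      have := (Subgroup.mem_center_iff.mp hhc) ⟨n, hn⟩
      exact congrArg Subtype.val this
    rw [hbot, Subgroup.mem_bot] at hmem
    exact hh1 (Subtype.ext hmem)
  · intro k hk n hn
    exact (Subgroup.mem_centralizer_iff.mp (Subgroup.mem_inf.mp hk).2) n hn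

/-- Let G be a finite group and N a proper non-trivial normal nilpotent subgroup whose order is not a prime power, such that for every x outside N all elements of the coset xN have the same order as x. Then N is the Fitting subgroup of G, and for every prime q every Sylow q-subgroup of G/N is cyclic or generalized quaternion. -/
theorem result {G : Type*} [Group G] [Finite G] (N : Subgroup G) [N.Normal] (hN1 : N ≠ ⊥) (hN2 : N ≠ ⊤)
    (heq : ∀ x : G, x ∉ N → ∀ n ∈ N, orderOf (x * n) = orderOf x)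
    (hnil : Group.IsNilpotent N) (hnpp : ¬ IsPrimePow (Nat.card N)) :
    N = Cfsg.fittingSubgroup G ∧
    ∀ (q : ℕ) [Fact q.Prime] (Q : Sylow q (G ⧸ N)), IsCyclic (Q : Subgroup (G ⧸ N)) ∨ ∃ n : ℕ, Nonempty ((Q : Subgroup (G ⧸ N)) ≃* QuaternionGroup (2 ^ n)) := by
  have hK := exists_central_pgroup N hN1 hnil hnpp
  constructor
  · apply le_antisymm
    · exact le_sSup ⟨inferInstance, hnil⟩
    · apply sSup_le
      rintro M ⟨hMn, hMnil⟩
      by_contra hMN
      obtain ⟨x, hxM, hxN⟩ := SetLike.not_le_iff_exists.mp hMN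
      have hmk : QuotientGroup.mk' N x ≠ 1 := fun h => hxN ((QuotientGroup.eq_one_iff x).mp h)
      have hord : orderOf (QuotientGroup.mk' N x) ≠ 1 := fun h => hmk (orderOf_eq_one_iff.mp h)
      obtain ⟨q, hq, hqd⟩ := Nat.exists_prime_and_dvd hord
      haveI : Fact q.Prime := ⟨hq⟩
      obtain ⟨m, a, hyN, hya⟩ := exists_q_power N q hq x hqd
      obtain ⟨r, K, hr, hrq, hKn, hKne, hKN, hKp, hKc⟩ := hK q hq
      haveI : Fact r.Prime := ⟨hr⟩
      haveI := hMn
      obtain ⟨S, hSn, hSM, hSp, hSall⟩ := exists_normal_sylow M hMnil q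
      have hyS : x ^ m ∈ S := hSall _ (M.pow_mem hxM m) ⟨a, hya⟩
      have hdisj : Disjoint S K := IsPGroup.disjoint_of_ne q r hrq.symm S K hSp hKp
      obtain ⟨k, hk1⟩ := (Subgroup.ne_bot_iff_exists_ne_one.mp hKne)
      have hc : Commute (x ^ m) (k : G) :=
        Subgroup.commute_of_normal_of_disjoint S K hSn hKn hdisj _ _ hyS k.2
      obtain ⟨b, hb⟩ := (IsPGroup.iff_orderOf.mp hKp) k
      rw [← Subgroup.orderOf_coe] at hb
      apply hk1
      exact Subtype.ext
        (order_lemma N heq q r hq hr hrq.symm (x ^ m) k hyN (hKN k.2) a b hya hb hc)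
  · intro q hqF Q
    have hq := hqF.out
    obtain ⟨r, K, hr, hrq, hKn, hKne, hKN, hKp, hKc⟩ := hK q hq
    haveI := hKn
    haveI : Fact r.Prime := ⟨hr⟩
    have hker : N ≤ (MulAut.conjNormal : G →* MulAut K).ker := by
      intro n hn
      rw [MonoidHom.mem_ker]
      ext k
      rw [MulAut.conjNormal_apply]
      have := hKc k k.2 n hn
      rw [this]; simp
    haveI : Nontrivial K := (Subgroup.nontrivial_iff_ne_bot K).mpr hKne
    have hfree : ∀ h : (Q : Subgroup (G ⧸ N)), h ≠ 1 → ∀ k : K,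
        ((QuotientGroup.lift N (MulAut.conjNormal : G →* MulAut K) hker).comp
          (Q : Subgroup (G ⧸ N)).subtype) h k = k → k = 1 := by
      intro h hh k hk
      obtain ⟨y, hy⟩ := QuotientGroup.mk'_surjective N (h : G ⧸ N)
      have hyk : y * (k : G) * y⁻¹ = k := by
        have h1 := congrArg Subtype.val hk
        rw [MonoidHom.comp_apply, Subgroup.coe_subtype, ← hy, QuotientGroup.mk'_apply,
          QuotientGroup.lift_mk, MulAut.conjNormal_apply] at h1
        exact h1
      have hne : (h : G ⧸ N) ≠ 1 := fun h1 => hh (Subtype.ext h1)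
      obtain ⟨b, hb⟩ := (IsPGroup.iff_orderOf.mp Q.2) h
      have hb' : orderOf (QuotientGroup.mk' N y) = q ^ b := by
        rw [hy, ← hb, Subgroup.orderOf_coe]
      have hb0 : b ≠ 0 := by
        rintro rfl
        rw [pow_zero, orderOf_eq_one_iff] at hb'
        exact hne (hy ▸ hb')
      have hqd : q ∣ orderOf (QuotientGroup.mk' N y) := by rw [hb']; exact dvd_pow_self q hb0
      obtain ⟨m, a, hyN, hya⟩ := exists_q_power N q hq y hqd
      have hc0 : Commute y (k : G) := by
        show y * k = k * y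
        calc y * k = (y * k * y⁻¹) * y := by group
          _ = k * y := by rw [hyk]
      have hc : Commute (y ^ m) (k : G) := hc0.pow_left m
      obtain ⟨j, hj⟩ := (IsPGroup.iff_orderOf.mp hKp) k
      rw [← Subgroup.orderOf_coe] at hj
      exact Subtype.ext
        (order_lemma N heq q r hq hr hrq.symm (y ^ m) k hyN (hKN k.2) a j hya hj hc)
    have huniq := unique_of_fpf_action _ q Q.2 hfree
    exact (Cfsg.Agent.S0016.result q Q.2 (fun A B hA hB => huniq A B hA hB)).imp id
      (fun h => h.2)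

end Cfsg.Agent.S4155
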