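import Cfsg.Statements.S4156

set_option autoImplicit false
open Cfsg

namespace Cfsg.Agent.S4156

section Aux

variable (n : ℕ) (F : Type*) [Field F]

/-- Extension of a vector of length `n` to a sum-zero vector of length `n + 1`. -/
noncomputable def ext : (Fin n → F) →ₗ[F] (Fin (n + 1) → F) where
  toFun w := Fin.snoc (α := fun _ => F) w (-∑ i, w i)
  map_add' := by
    intro w₁ w₂
    funext x
    refine Fin.lastCases ?_ (fun j => ?_) x
    · simp [Fin.snoc_last, Finset.sum_add_distrib]; ring
    · simp [Fin.snoc_castSucc]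
  map_smul' := by
    intro c w
    funext x
    refine Fin.lastCases ?_ (fun j => ?_) x
    · simp [Finset.mul_sum]
    · simp

/-- Restriction to the first `n` coordinates. -/
noncomputable def res : (Fin (n + 1) → F) →ₗ[F] (Fin n → F) :=
  LinearMap.funLeft F F (Fin.castSucc : Fin n → Fin (n + 1))

/-- The permutation action on vectors of length `n + 1`. -/
noncomputable def perm (σ : Equiv.Perm (Fin (n + 1))) : (Fin (n + 1) → F) →ₗ[F] (Fin (n + 1) → F) :=
  LinearMap.funLeft F F (⇑σ⁻¹)

variable {n F}

theorem ext_castSucc (w : Fin n → F) (j : Fin n) : ext n F w (Fin.castSucc j) = w j := by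
  show Fin.snoc (α := fun _ => F) w (-∑ i, w i) (Fin.castSucc j) = w j
  rw [Fin.snoc_castSucc]

theorem ext_last (w : Fin n → F) : ext n F w (Fin.last n) = -∑ i, w i := by
  show Fin.snoc (α := fun _ => F) w (-∑ i, w i) (Fin.last n) = _
  rw [Fin.snoc_last]

theorem res_apply (v : Fin (n + 1) → F) (j : Fin n) : res n F v j = v (Fin.castSucc j) := rfl

theorem perm_apply (σ : Equiv.Perm (Fin (n + 1))) (v : Fin (n + 1) → F) (x : Fin (n + 1)) :
    perm n F σ v x = v (σ⁻¹ x) := rfl

theorem res_ext (w : Fin n → F) : res n F (ext n F w) = w := by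
  funext j
  rw [res_apply, ext_castSucc]

theorem sum_ext (w : Fin n → F) : ∑ x, ext n F w x = 0 := by
  rw [Fin.sum_univ_castSucc, ext_last]
  simp only [ext_castSucc]
  ring

theorem ext_res (v : Fin (n + 1) → F) (hv : ∑ x, v x = 0) : ext n F (res n F v) = v := by
  funext x
  refine Fin.lastCases ?_ (fun j => ?_) x
  · rw [ext_last]
    rw [Fin.sum_univ_castSucc] at hv
    simp only [res_apply]
    linear_combination (-1 : F) * hv
  · rw [ext_castSucc, res_apply]

theorem sum_perm (σ : Equiv.Perm (Fin (n + 1))) (v : Fin (n + 1) → F) :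
    ∑ x, perm n F σ v x = ∑ x, v x := by
  simp only [perm_apply]
  exact Equiv.sum_comp σ⁻¹ v

theorem perm_mul (σ τ : Equiv.Perm (Fin (n + 1))) (v : Fin (n + 1) → F) :
    perm n F (σ * τ) v = perm n F σ (perm n F τ v) := by
  funext x
  simp only [perm_apply, mul_inv_rev, Equiv.Perm.mul_apply]

theorem perm_one (v : Fin (n + 1) → F) : perm n F 1 v = v := by
  funext x
  simp only [perm_apply, inv_one, Equiv.Perm.one_apply]

variable (n F)

/-- The action on vectors of length `n`, as a monoid homomorphism to endomorphisms. -/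
noncomputable def T : Equiv.Perm (Fin (n + 1)) →* Module.End F (Fin n → F) where
  toFun σ := res n F ∘ₗ perm n F σ ∘ₗ ext n F
  map_one' := by
    apply LinearMap.ext
    intro w
    show res n F (perm n F 1 (ext n F w)) = w
    rw [perm_one, res_ext]
  map_mul' := by
    intro σ τ
    apply LinearMap.ext
    intro w
    show res n F (perm n F (σ * τ) (ext n F w)) =
      res n F (perm n F σ (ext n F (res n F (perm n F τ (ext n F w)))))
    rw [perm_mul, ext_res _ (by rw [sum_perm, sum_ext])]

variable {n F}

theorem T_apply (σ : Equiv.Perm (Fin (n + 1))) (w : Fin n → F) :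
    T n F σ w = res n F (perm n F σ (ext n F w)) := rfl

/-- A permutation acting as a scalar is trivial (for `n ≥ 2`). -/
theorem eq_one_of_scalar (hn : 2 ≤ n) (σ : Equiv.Perm (Fin (n + 1))) (r : F)
    (h : ∀ w : Fin n → F, T n F σ w = r • w) : σ = 1 := by
  classical
  by_contra hne
  obtain ⟨i, hi⟩ : ∃ i, σ i ≠ i := by
    by_contra hcon
    push Not at hcon
    exact hne (Equiv.ext hcon)
  obtain ⟨k, -, hk⟩ := Finset.exists_mem_notMem_of_card_lt_card
    (s := ({i, σ i} : Finset (Fin (n + 1)))) (t := Finset.univ) (by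
      have := Finset.card_le_two (a := i) (b := σ i)
      rw [Finset.card_univ, Fintype.card_fin]
      omega)
  rw [Finset.mem_insert, Finset.mem_singleton] at hk
  push Not at hk
  obtain ⟨hki, hkj⟩ := hk
  let v : Fin (n + 1) → F := Pi.single i 1 - Pi.single k 1
  have hv : ∑ x, v x = 0 := by
    simp [v, Finset.sum_sub_distrib]
  have h1 := h (res n F v)
  rw [T_apply, ext_res v hv] at h1
  have h2 := congrArg (ext n F) h1
  rw [ext_res _ (by rw [sum_perm, hv]), map_smul, ext_res v hv] at h2
  have h3 := congrFun h2 (σ i)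
  have h4 : σ⁻¹ (σ i) = i := by simp
  rw [perm_apply, h4] at h3
  simp only [v, Pi.smul_apply, Pi.sub_apply, Pi.single_eq_same, smul_eq_mul] at h3
  rw [Pi.single_eq_of_ne (Ne.symm hki), Pi.single_eq_of_ne hi, Pi.single_eq_of_ne (Ne.symm hkj)] at h3
  simp at h3

end Aux

/-- Let n ≥ 5 and F a finite field. Then the projective special linear group PSL_n(F) contains a subgroup isomorphic to the alternating group of degree n + 1. -/
theorem result (n : ℕ) (hn : 5 ≤ n) (F : Type*) [Field F] [Finite F] :
    ∃ f : alternatingGroup (Fin (n + 1)) →* Matrix.ProjectiveSpecialLinearGroup (Fin n) F, Function.Injective f := by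
  classical
  -- the matrix representation
  let M : alternatingGroup (Fin (n + 1)) →* Matrix (Fin n) (Fin n) F :=
    ((LinearMap.toMatrixAlgEquiv' (R := F) (n := Fin n)).toMulEquiv.toMonoidHom.comp (T n F)).comp
      (alternatingGroup (Fin (n + 1))).subtype
  have hM : ∀ g : alternatingGroup (Fin (n + 1)), M g = LinearMap.toMatrix' (T n F g.1) := fun g => rfl
  let δ : alternatingGroup (Fin (n + 1)) →* Fˣ := (Matrix.detMonoidHom.comp M).toHomUnits
  have hδ : ∀ g, δ g = 1 := by
    intro g
    have h1 : commutator (alternatingGroup (Fin (n + 1))) ≤ δ.ker :=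
      Abelianization.commutator_subset_ker δ
    rw [commutator_alternatingGroup_eq_top (by rw [Nat.card_eq_fintype_card, Fintype.card_fin]; omega)] at h1
    exact MonoidHom.mem_ker.mp (h1 (Subgroup.mem_top g))
  have hdet : ∀ g, (M g).det = 1 := by
    intro g
    have h1 : ((δ g : Fˣ) : F) = (M g).det := rfl
    rw [← h1, hδ g, Units.val_one]
  let Ψ : alternatingGroup (Fin (n + 1)) →* Matrix.SpecialLinearGroup (Fin n) F :=
    { toFun := fun g => ⟨M g, hdet g⟩
      map_one' := Subtype.ext (map_one M)
      map_mul' := fun a b => Subtype.ext (map_mul M a b) }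
  refine ⟨(QuotientGroup.mk' _).comp Ψ, ?_⟩
  rw [injective_iff_map_eq_one]
  intro g hg
  have hcen : Ψ g ∈ Subgroup.center (Matrix.SpecialLinearGroup (Fin n) F) :=
    (QuotientGroup.eq_one_iff _).mp hg
  obtain ⟨r, -, hr⟩ := Matrix.SpecialLinearGroup.mem_center_iff.mp hcen
  have hr' : Matrix.scalar (Fin n) r = M g := hr
  have hall : ∀ w : Fin n → F, T n F g.1 w = r • w := by
    intro w
    have h1 : (M g).mulVec w = T n F g.1 w := by
      rw [hM, LinearMap.toMatrix'_mulVec]
    rw [← h1, ← hr']
    simp [Matrix.scalar_apply]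
  have := eq_one_of_scalar (by omega) g.1 r hall
  exact Subtype.ext this

end Cfsg.Agent.S4156
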