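import Cfsg.Statements.S4160
import Mathlib

set_option autoImplicit false
open Cfsg

namespace Cfsg.Agent.S4160

section Aux

variable {G : Type*} [Group G]

/-- Elements conjugate into `A`. -/
def U (A : Subgroup G) : Set G := {x : G | ∃ g : G, g⁻¹ * x * g ∈ A}

theorem one_mem_U (A : Subgroup G) : (1 : G) ∈ U A := ⟨1, by simp⟩

variable [Finite G]

theorem ncard_U_le (A : Subgroup G) :
    (U A).ncard ≤ (Subgroup.normalizer (A : Set G)).index * Nat.card A := by
  classical
  let N := Subgroup.normalizer (A : Set G)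
  let f : (G ⧸ N) × A → G := fun ca => ca.1.out * (ca.2 : G) * (ca.1.out)⁻¹
  have hsub : U A ⊆ Set.range f := by
    rintro x ⟨g, hg⟩
    obtain ⟨n, hn⟩ := QuotientGroup.mk_out_eq_mul N g
    have hnA : (n : G)⁻¹ * (g⁻¹ * x * g) * (n : G) ∈ A := by
      have hn' : (n : G)⁻¹ ∈ N := N.inv_mem n.2
      have := (Subgroup.mem_normalizer_iff.mp hn' (g⁻¹ * x * g)).mp hg
      simpa using this
    refine ⟨((g : G ⧸ N), ⟨_, hnA⟩), ?_⟩
    show (QuotientGroup.mk g : G ⧸ N).out * ((n : G)⁻¹ * (g⁻¹ * x * g) * (n : G))
      * ((QuotientGroup.mk g : G ⧸ N).out)⁻¹ = x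
    rw [hn]; group
  calc (U A).ncard ≤ (Set.range f).ncard := Set.ncard_le_ncard hsub (Set.toFinite _)
    _ = Nat.card (Set.range f) := (Nat.card_coe_set_eq _).symm
    _ ≤ Nat.card ((G ⧸ N) × A) := Finite.card_range_le f
    _ = N.index * Nat.card A := by rw [Nat.card_prod]; rfl

theorem two_mul_le_of_normalizer_ne (A : Subgroup G)
    (hA : ¬ Subgroup.normalizer (A : Set G) ≤ A) :
    2 * ((Subgroup.normalizer (A : Set G)).index * Nat.card A) ≤ Nat.card G := by
  have hle : A ≤ Subgroup.normalizer (A : Set G) := Subgroup.le_normalizer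
  have h1 := Subgroup.relIndex_mul_index hle
  have h2 : Nat.card A * A.index = Nat.card G := A.card_mul_index
  have h3 : A.relIndex (Subgroup.normalizer (A : Set G)) ≠ 1 :=
    fun h => hA (Subgroup.relIndex_eq_one.mp h)
  have h4 : A.relIndex (Subgroup.normalizer (A : Set G)) ≠ 0 :=
    (Subgroup.index_ne_zero_of_finite : (A.subgroupOf (Subgroup.normalizer (A : Set G))).index ≠ 0)
  have h5 : 2 ≤ A.relIndex (Subgroup.normalizer (A : Set G)) := by omega
  calc 2 * ((Subgroup.normalizer (A : Set G)).index * Nat.card A)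
      ≤ A.relIndex (Subgroup.normalizer (A : Set G))
        * ((Subgroup.normalizer (A : Set G)).index * Nat.card A) := Nat.mul_le_mul_right _ h5
    _ = Nat.card A * (A.relIndex (Subgroup.normalizer (A : Set G))
        * (Subgroup.normalizer (A : Set G)).index) := by ring
    _ = Nat.card G := by rw [h1, h2]

theorem mem_U_centralizer_of_not_dvd {p : ℕ} [Fact p.Prime] (P : Sylow p G) (x : G)
    (hx : ¬ p ∣ (Subgroup.centralizer ({x} : Set G)).index) :
    x ∈ U (Subgroup.centralizer ((P : Subgroup G) : Set G)) := by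
  obtain ⟨S⟩ := (inferInstance : Nonempty (Sylow p (Subgroup.centralizer ({x} : Set G))))
  have hcard : Nat.card ((S : Subgroup _).map (Subgroup.centralizer ({x} : Set G)).subtype)
      = p ^ (Nat.card G).factorization p := by
    rw [Subgroup.card_map_of_injective (Subgroup.subtype_injective _), S.card_eq_multiplicity]
    congr 1
    have h1 : Nat.card (Subgroup.centralizer ({x} : Set G))
        * (Subgroup.centralizer ({x} : Set G)).index = Nat.card G := Subgroup.card_mul_index _
    rw [← h1, Nat.factorization_mul Nat.card_pos.ne' Subgroup.index_ne_zero_of_finite]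
    simp [Nat.factorization_eq_zero_of_not_dvd hx]
  have hP'C : ((Sylow.ofCard _ hcard : Sylow p G) : Subgroup G)
      ≤ Subgroup.centralizer ({x} : Set G) := Subgroup.map_subtype_le _
  obtain ⟨g, hg⟩ := MulAction.exists_smul_eq G P (Sylow.ofCard _ hcard)
  refine ⟨g, ?_⟩
  rw [Subgroup.mem_centralizer_iff]
  intro y hy
  have hy' : g * y * g⁻¹ ∈ ((Sylow.ofCard _ hcard : Sylow p G) : Subgroup G) := by
    rw [← hg, Sylow.coe_subgroup_smul]
    exact Subgroup.smul_mem_pointwise_smul y (MulAut.conj g) _ hy
  have hc := hP'C hy'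
  rw [Subgroup.mem_centralizer_singleton_iff] at hc
  calc y * (g⁻¹ * x * g) = g⁻¹ * (g * y * g⁻¹ * x) * g := by group
    _ = g⁻¹ * (x * (g * y * g⁻¹)) * g := by rw [hc]
    _ = g⁻¹ * x * g * y := by group

theorem hasNormalPComplement_of_normalizer_le {p : ℕ} [Fact p.Prime] (P : Sylow p G)
    (h : Subgroup.normalizer
        ((Subgroup.centralizer ((P : Subgroup G) : Set G) : Subgroup G) : Set G)
      ≤ Subgroup.centralizer ((P : Subgroup G) : Set G)) : Cfsg.HasNormalPComplement p G := by
  have hP : Subgroup.normalizer ((P : Subgroup G) : Set G)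
      ≤ Subgroup.centralizer ((P : Subgroup G) : Set G) := by
    intro g hg
    apply h
    rw [Subgroup.mem_normalizer_iff]
    intro c
    rw [Subgroup.mem_centralizer_iff, Subgroup.mem_centralizer_iff]
    constructor
    · intro hc y hy
      have hy' : g⁻¹ * y * g ∈ (P : Subgroup G) := by
        have := (Subgroup.mem_normalizer_iff.mp (inv_mem hg) y).mp hy
        simpa using this
      have := hc _ hy'
      calc y * (g * c * g⁻¹) = g * (g⁻¹ * y * g * c) * g⁻¹ := by group
        _ = g * (c * (g⁻¹ * y * g)) * g⁻¹ := by rw [this]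
        _ = g * c * g⁻¹ * y := by group
    · intro hc y hy
      have hy' : g * y * g⁻¹ ∈ (P : Subgroup G) := (Subgroup.mem_normalizer_iff.mp hg y).mp hy
      have := hc _ hy'
      calc y * c = g⁻¹ * (g * y * g⁻¹ * (g * c * g⁻¹)) * g := by group
        _ = g⁻¹ * (g * c * g⁻¹ * (g * y * g⁻¹)) * g := by rw [this]
        _ = c * y := by group
  exact ⟨P, _, inferInstance, MonoidHom.ker_transferSylow_isComplement' P hP⟩

end Aux

/-- Let G be a finite group and p ≠ q primes each dividing the size of some conjugacy class of G, such that no conjugacy class size is divisible by pq. Then G has a normal p-complement or a normal q-complement. -/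
theorem result {G : Type*} [Group G] [Finite G] (p q : ℕ) (hp : p.Prime) (hq : q.Prime) (hpq : p ≠ q)
    (hp' : ∃ x : G, p ∣ (Subgroup.centralizer ({x} : Set G)).index) (hq' : ∃ x : G, q ∣ (Subgroup.centralizer ({x} : Set G)).index) (h : ∀ x : G, ¬ p * q ∣ (Subgroup.centralizer ({x} : Set G)).index) :
    Cfsg.HasNormalPComplement p G ∨ Cfsg.HasNormalPComplement q G := by
  haveI : Fact p.Prime := ⟨hp⟩
  haveI : Fact q.Prime := ⟨hq⟩
  obtain ⟨P⟩ := (inferInstance : Nonempty (Sylow p G))
  obtain ⟨Q⟩ := (inferInstance : Nonempty (Sylow q G))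
  by_cases hNA : Subgroup.normalizer
      ((Subgroup.centralizer ((P : Subgroup G) : Set G) : Subgroup G) : Set G)
      ≤ Subgroup.centralizer ((P : Subgroup G) : Set G)
  · exact Or.inl (hasNormalPComplement_of_normalizer_le P hNA)
  by_cases hNB : Subgroup.normalizer
      ((Subgroup.centralizer ((Q : Subgroup G) : Set G) : Subgroup G) : Set G)
      ≤ Subgroup.centralizer ((Q : Subgroup G) : Set G)
  · exact Or.inr (hasNormalPComplement_of_normalizer_le Q hNB)
  exfalso
  have hcover : U (Subgroup.centralizer ((P : Subgroup G) : Set G))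
      ∪ U (Subgroup.centralizer ((Q : Subgroup G) : Set G)) = Set.univ := by
    rw [Set.eq_univ_iff_forall]
    intro x
    by_cases hpx : p ∣ (Subgroup.centralizer ({x} : Set G)).index
    · right
      apply mem_U_centralizer_of_not_dvd Q x
      intro hqx
      exact h x (Nat.Coprime.mul_dvd_of_dvd_of_dvd ((Nat.coprime_primes hp hq).mpr hpq) hpx hqx)
    · left
      exact mem_U_centralizer_of_not_dvd P x hpx
  have h1 := Set.ncard_union_add_ncard_inter (U (Subgroup.centralizer ((P : Subgroup G) : Set G)))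
    (U (Subgroup.centralizer ((Q : Subgroup G) : Set G)))
  rw [hcover, Set.ncard_univ] at h1
  have h2 : 0 < (U (Subgroup.centralizer ((P : Subgroup G) : Set G))
      ∩ U (Subgroup.centralizer ((Q : Subgroup G) : Set G))).ncard :=
    (Set.ncard_pos).mpr ⟨1, one_mem_U _, one_mem_U _⟩
  have h3 := ncard_U_le (Subgroup.centralizer ((P : Subgroup G) : Set G))
  have h4 := ncard_U_le (Subgroup.centralizer ((Q : Subgroup G) : Set G))
  have h5 := two_mul_le_of_normalizer_ne _ hNA
  have h6 := two_mul_le_of_normalizer_ne _ hNB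
  omega

end Cfsg.Agent.S4160
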