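import Cfsg.Statements.S4168
import Mathlib

set_option autoImplicit false
open Cfsg

namespace Cfsg.Agent.S4168

/-- Let L be a finite quasisimple group (perfect with L/Z(L) simple). Then every prime dividing the order of the centre Z(L) also divides the order of L/Z(L). -/
theorem result {L : Type*} [Group L] [Finite L] (hL : Cfsg.IsQuasisimple L)
    (p : ℕ) (hp : p.Prime) (hdiv : p ∣ Nat.card (Subgroup.center L)) : p ∣ (Subgroup.center L).index := by
  classical
  have hperf : Group.IsPerfect L := hL.1
  have hcomm : ∀ a b : Subgroup.center L, a * b = b * a := by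
    intro a b
    apply Subtype.ext
    have := Subgroup.mem_center_iff.mp a.2 (b : L)
    simp only [Subgroup.coe_mul]
    exact this.symm
  have hker : commutator L ≤ (MonoidHom.transferCenterPow L).ker := by
    rw [commutator_def, Subgroup.commutator_le]
    intro g₁ _ g₂ _
    rw [MonoidHom.mem_ker, commutatorElement_def, map_mul, map_mul, map_mul, map_inv, map_inv]
    rw [hcomm ((MonoidHom.transferCenterPow L) g₁) ((MonoidHom.transferCenterPow L) g₂)]
    group
  have hφ : ∀ g : L, MonoidHom.transferCenterPow L g = 1 := by
    intro g
    have hg : g ∈ commutator L := by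
      rw [hperf.commutator_eq_top]; trivial
    exact MonoidHom.mem_ker.mp (hker hg)
  have hpow : ∀ g : L, g ^ (Subgroup.center L).index = 1 := by
    intro g
    have := congrArg Subtype.val (hφ g)
    rwa [MonoidHom.transferCenterPow_apply] at this
  haveI := Fact.mk hp
  obtain ⟨z, hz⟩ := exists_prime_orderOf_dvd_card' p hdiv
  have h1 : (z : L) ^ (Subgroup.center L).index = 1 := hpow z
  have h2 : orderOf (z : L) ∣ (Subgroup.center L).index := orderOf_dvd_of_pow_eq_one h1
  rwa [Subgroup.orderOf_coe, hz] at h2

end Cfsg.Agent.S4168
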