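import Cfsg.Statements.S4176
import Cfsg.Agent.Helper69.RepOrbit
import Cfsg.Agent.Helper69.HallPrime

set_option autoImplicit false
open Cfsg

namespace Cfsg.Agent.S4176

open Cfsg.Agent.Helper69

/-- Let k be a field of prime characteristic p, H a finite p-soluble group and ρ a k-linear representation of H on V. Let a be a vector that is fixed by some Sylow p-subgroup of H and whose H-orbit spans V. Then the space of H-fixed vectors has dimension at most 1, and every vector b whose H-orbit has size coprime to the size of the orbit of a is fixed by H. -/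
theorem result {k V H : Type*} [Field k] (p : ℕ) [Fact p.Prime] [CharP k p] [AddCommGroup V] [Module k V]
    [Group H] [Finite H] (hsol : Cfsg.IsPSolvable p H) (ρ : Representation k H V) (a : V)
    (hfix : ∃ P : Sylow p H, ∀ x : H, x ∈ (P : Subgroup H) → ρ x a = a)
    (hspan : Submodule.span k {u : V | ∃ h : H, ρ h a = u} = ⊤) :
    Module.finrank k ρ.invariants ≤ 1 ∧
    ∀ b : V, (Nat.card {u : V | ∃ h : H, ρ h a = u}).Coprime (Nat.card {u : V | ∃ h : H, ρ h b = u}) → ∀ h : H, ρ h b = b := by
  have hp : p.Prime := Fact.out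
  have hcast : ∀ d : ℕ, d.Coprime p → (d : k) ≠ 0 := by
    intro d hd h0
    have h1 : p ∣ d := (CharP.cast_eq_zero_iff k p d).mp h0
    have h2 : p ∣ Nat.gcd d p := Nat.dvd_gcd h1 dvd_rfl
    rw [hd] at h2
    exact hp.one_lt.ne' (Nat.dvd_one.mp h2)
  obtain ⟨P, hP⟩ := hfix
  have hPle : (P : Subgroup H) ≤ repStab ρ a := fun x hx => (mem_repStab ρ a x).mpr (hP x hx)
  have hm : ((repStab ρ a).index).Coprime p := by
    have h1 : (repStab ρ a).index ∣ (P : Subgroup H).index := Subgroup.index_dvd_of_le hPle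
    have h2 : ¬ p ∣ (P : Subgroup H).index := P.not_dvd_index
    rw [Nat.coprime_comm, hp.coprime_iff_not_dvd]
    exact fun h3 => h2 (h3.trans h1)
  have hO : (Nat.card {u : V | ∃ h : H, ρ h a = u} : k) ≠ 0 := by
    rw [← index_repStab]; exact hcast _ hm
  constructor
  · obtain ⟨Q, -, hQ, j, hj⟩ := exists_pComplement_le hp hsol ⊤
    rw [Subgroup.index_top, one_mul] at hj
    have htrans : ∀ h : H, ∃ x ∈ Q, ρ x a = ρ h a := by
      intro h
      obtain ⟨x, hx, hxh⟩ := exists_mem_mul_of_coprime_index (repStab ρ a) Q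
        (by rw [hj]; exact Nat.Coprime.pow_right j hm) h
      refine ⟨x, hx, ?_⟩
      rw [mem_repStab] at hxh
      have : h = x * (x⁻¹ * h) := by group
      rw [this, rep_mul_apply, hxh]
    obtain ⟨s, hs, hall⟩ := rep_core ρ a hspan Q (hcast _ hQ) hO htrans
    exact finrank_invariants_le_one_of ρ s hs (fun w hw => hall w (fun x _ => hw x))
  · intro b hcop
    obtain ⟨Q, hQle, hQ, j, hj⟩ := exists_pComplement_le hp hsol (repStab ρ b)
    have htrans : ∀ h : H, ∃ x ∈ Q, ρ x a = ρ h a := by
      intro h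
      obtain ⟨x, hx, hxh⟩ := exists_mem_mul_of_coprime_index (repStab ρ a) Q
        (by
          rw [hj]
          refine Nat.Coprime.mul_right ?_ (Nat.Coprime.pow_right j hm)
          rw [index_repStab, index_repStab]; exact hcop) h
      refine ⟨x, hx, ?_⟩
      rw [mem_repStab] at hxh
      have : h = x * (x⁻¹ * h) := by group
      rw [this, rep_mul_apply, hxh]
    obtain ⟨s, hs, hall⟩ := rep_core ρ a hspan Q (hcast _ hQ) hO htrans
    obtain ⟨μ, hμ⟩ := hall b (fun x hx => (mem_repStab ρ b x).mp (hQle hx))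
    intro h
    rw [hμ, map_smul, hs]

end Cfsg.Agent.S4176
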