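import Cfsg.Statements.S4177
import Cfsg.Agent.Helper69.RepOrbit

set_option autoImplicit false
open Cfsg

namespace Cfsg.Agent.S4177

open Cfsg.Agent.Helper69

/-- Let k be a field whose characteristic does not divide the order of the finite group H (for instance a field of characteristic zero), and ρ a k-linear representation of H on V. Let a be a vector whose H-orbit spans V. Then the space of H-fixed vectors has dimension at most 1, and every vector b whose H-orbit has size coprime to the size of the orbit of a is fixed by H. -/
theorem result {k V H : Type*} [Field k] [AddCommGroup V] [Module k V] [Group H] [Finite H]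
    (hchar : ¬ ringChar k ∣ Nat.card H) (ρ : Representation k H V) (a : V)
    (hspan : Submodule.span k {u : V | ∃ h : H, ρ h a = u} = ⊤) :
    Module.finrank k ρ.invariants ≤ 1 ∧
    ∀ b : V, (Nat.card {u : V | ∃ h : H, ρ h a = u}).Coprime (Nat.card {u : V | ∃ h : H, ρ h b = u}) → ∀ h : H, ρ h b = b := by
  have hdvd : ∀ d : ℕ, d ∣ Nat.card H → (d : k) ≠ 0 := by
    intro d hd h0
    exact hchar (((ringChar.spec k d).mp h0).trans hd)
  have hO : (Nat.card {u : V | ∃ h : H, ρ h a = u} : k) ≠ 0 := by
    apply hdvd
    rw [← index_repStab]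
    exact Subgroup.index_dvd_card _
  constructor
  · obtain ⟨s, hs, hall⟩ := rep_core ρ a hspan ⊤
      (by rw [Subgroup.card_top]; exact hdvd _ dvd_rfl) hO
      (fun h => ⟨h, Subgroup.mem_top h, rfl⟩)
    exact finrank_invariants_le_one_of ρ s hs (fun w hw => hall w (fun x _ => hw x))
  · intro b hcop
    obtain ⟨s, hs, hall⟩ := rep_core ρ a hspan (repStab ρ b)
      (hdvd _ (Subgroup.card_subgroup_dvd_card _)) hO
      (rep_trans_of_coprime ρ a b hcop)
    obtain ⟨μ, hμ⟩ := hall b (fun x hx => (mem_repStab ρ b x).mp hx)
    intro h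
    rw [hμ, map_smul, hs]

end Cfsg.Agent.S4177
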