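import Cfsg.Statements.S4178
import Mathlib

set_option autoImplicit false
open Cfsg

namespace Cfsg.Agent.S4178

/-- Number of nonzero vectors of a finite vector space. -/
theorem card_ne_zero {F U : Type*} [Field F] [Fintype F] [AddCommGroup U] [Module F U]
    [FiniteDimensional F U] :
    Nat.card {u : U // u ≠ 0} = Fintype.card F ^ Module.finrank F U - 1 := by
  classical
  have : Finite U := Module.finite_of_finite F
  let _ := Fintype.ofFinite U
  rw [← Nat.card_eq_fintype_card (α := F), ← Module.natCard_eq_pow_finrank (K := F) (V := U),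
    Nat.card_eq_fintype_card, Nat.card_eq_fintype_card]
  rw [Fintype.card_subtype_compl (fun u : U => u = 0)]
  simp

/-- A map out of a group whose fibres lie in cosets of `R` bounds the index of `R`. -/
theorem index_le_of_map {G X : Type*} [Group G] [Finite X] (R : Subgroup G) (φ : G → X)
    (h : ∀ g₁ g₂, φ g₁ = φ g₂ → g₂⁻¹ * g₁ ∈ R) : R.index ≤ Nat.card X := by
  rw [Subgroup.index_eq_card]
  refine Nat.card_le_card_of_injective (fun q : G ⧸ R => φ q.out) ?_
  intro q₁ q₂ hq
  have := h _ _ hq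
  rw [← QuotientGroup.out_eq' q₁, ← QuotientGroup.out_eq' q₂]
  exact (QuotientGroup.eq.mpr this).symm

theorem inv_mul_apply_of_eq {F V : Type*} [Field F] [AddCommGroup V] [Module F V]
    (H : Subgroup (V ≃ₗ[F] V)) (h₁ h₂ : ↥H) (v : V) :
    ((h₂⁻¹ * h₁ : ↥H) : V ≃ₗ[F] V) v = ((h₂⁻¹ : ↥H) : V ≃ₗ[F] V) ((h₁ : V ≃ₗ[F] V) v) := by
  rw [Subgroup.coe_mul, LinearEquiv.mul_apply]

theorem inv_apply_self {F V : Type*} [Field F] [AddCommGroup V] [Module F V]
    (H : Subgroup (V ≃ₗ[F] V)) (h : ↥H) (v : V) :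
    ((h⁻¹ : ↥H) : V ≃ₗ[F] V) ((h : V ≃ₗ[F] V) v) = v := by
  rw [← LinearEquiv.mul_apply, ← Subgroup.coe_mul, inv_mul_cancel, Subgroup.coe_one]
  rfl

/-- If `g` preserves `W`, `v ∉ W` and `g v - v ∈ W`, then `g` fixes a nonzero vector. -/
theorem exists_fixed_of_quotient_fixed {F V : Type*} [Field F] [AddCommGroup V] [Module F V]
    [FiniteDimensional F V] (g : V ≃ₗ[F] V) (W : Submodule F V) (hW : ∀ w ∈ W, g w ∈ W)
    (v : V) (hv : v ∉ W) (hgv : g v - v ∈ W) : ∃ u : V, u ≠ 0 ∧ g u = u := by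
  by_contra hcon
  push Not at hcon
  -- T = (g - 1) restricted to W
  let T : W →ₗ[F] W := ((g : V →ₗ[F] V) - LinearMap.id).restrict
    (p := W) (q := W) (fun w hw => W.sub_mem (hW w hw) hw)
  have hTapp : ∀ w : W, ((T w : W) : V) = g (w : V) - (w : V) := fun w => rfl
  have hinj : Function.Injective T := by
    rw [← LinearMap.ker_eq_bot, LinearMap.ker_eq_bot']
    intro w hw
    have h1 : g (w : V) - (w : V) = 0 := by rw [← hTapp, hw]; rfl
    by_contra hne
    exact hcon (w : V) (fun h0 => hne (Subtype.ext h0)) (sub_eq_zero.mp h1)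
  have hsurj : Function.Surjective T := LinearMap.injective_iff_surjective.mp hinj
  obtain ⟨w, hw⟩ := hsurj ⟨g v - v, hgv⟩
  have h2 : g (w : V) - (w : V) = g v - v := by rw [← hTapp, hw]
  have h3 : g (v - (w : V)) = v - (w : V) := by
    rw [map_sub]
    have h4 : g v - g (w : V) - (v - (w : V)) = (g v - v) - (g (w : V) - (w : V)) := by abel
    have : g v - g (w : V) - (v - (w : V)) = 0 := by
      rw [h4, h2, sub_self]
    exact sub_eq_zero.mp this
  refine hcon (v - (w : V)) ?_ h3
  intro h0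
  apply hv
  have : v = (w : V) := sub_eq_zero.mp h0
  rw [this]
  exact w.2

/-- Let F be a finite field with q elements, V a non-zero finite-dimensional F-space of dimension d, H a group of invertible linear maps of V, and R the subgroup of H generated by the elements of H that fix some non-zero vector (have eigenvalue 1). Then the index of R in H is at most q^d − 1; and if H leaves invariant some proper non-zero subspace, the index is at most q^(d/2) − 1. -/
theorem result {F V : Type*} [Field F] [Fintype F] [AddCommGroup V] [Module F V] [FiniteDimensional F V] [Nontrivial V]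
    (H : Subgroup (V ≃ₗ[F] V)) :
    (Subgroup.closure {h : ↥H | ∃ v : V, v ≠ 0 ∧ (h : V ≃ₗ[F] V) v = v}).index ≤ Fintype.card F ^ Module.finrank F V - 1 ∧
    ((∃ W : Submodule F V, W ≠ ⊥ ∧ W ≠ ⊤ ∧ ∀ h ∈ H, ∀ w ∈ W, h w ∈ W) →
      ((Subgroup.closure {h : ↥H | ∃ v : V, v ≠ 0 ∧ (h : V ≃ₗ[F] V) v = v}).index : ℝ) ≤ Real.sqrt ((Fintype.card F : ℝ) ^ Module.finrank F V) - 1) := by
  classical
  have : Finite V := Module.finite_of_finite F
  set R := Subgroup.closure {h : ↥H | ∃ v : V, v ≠ 0 ∧ (h : V ≃ₗ[F] V) v = v} with hR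
  have hmemR : ∀ g : ↥H, (∃ v : V, v ≠ 0 ∧ (g : V ≃ₗ[F] V) v = v) → g ∈ R := fun g hg =>
    Subgroup.subset_closure hg
  constructor
  · obtain ⟨v, hv⟩ := exists_ne (0 : V)
    rw [← card_ne_zero (F := F) (U := V)]
    refine index_le_of_map R
      (fun h : ↥H => (⟨(h : V ≃ₗ[F] V) v, (LinearEquiv.map_ne_zero_iff _).mpr hv⟩ : {u : V // u ≠ 0})) ?_
    intro g₁ g₂ hg
    have hg' : (g₁ : V ≃ₗ[F] V) v = (g₂ : V ≃ₗ[F] V) v := congrArg Subtype.val hg
    refine hmemR _ ⟨v, hv, ?_⟩
    rw [inv_mul_apply_of_eq, hg', inv_apply_self]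
  · rintro ⟨W, hWbot, hWtop, hWinv⟩
    -- a bound of the form q^m - 1 with 2 m ≤ d suffices
    have hkey : ∃ m : ℕ, 2 * m ≤ Module.finrank F V ∧ R.index ≤ Fintype.card F ^ m - 1 := by
      by_cases hcase : 2 * Module.finrank F W ≤ Module.finrank F V
      · refine ⟨Module.finrank F W, hcase, ?_⟩
        obtain ⟨v, hvW, hv⟩ := Submodule.exists_mem_ne_zero_of_ne_bot hWbot
        rw [← card_ne_zero (F := F) (U := W)]
        have : Finite W := Module.finite_of_finite F
        refine index_le_of_map R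
          (fun h : ↥H => (⟨⟨(h : V ≃ₗ[F] V) v, hWinv _ h.2 v hvW⟩, fun h0 =>
            (LinearEquiv.map_ne_zero_iff (h : V ≃ₗ[F] V)).mpr hv (congrArg Subtype.val h0)⟩ :
              {u : W // u ≠ 0})) ?_
        intro g₁ g₂ hg
        have hg' : (g₁ : V ≃ₗ[F] V) v = (g₂ : V ≃ₗ[F] V) v :=
          congrArg (fun x : {u : W // u ≠ 0} => ((x : W) : V)) hg
        refine hmemR _ ⟨v, hv, ?_⟩
        rw [inv_mul_apply_of_eq, hg', inv_apply_self]
      · push Not at hcase
        have hdim := Submodule.finrank_quotient_add_finrank W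
        refine ⟨Module.finrank F (V ⧸ W), by omega, ?_⟩
        have hex : ∃ v : V, v ∉ W := by
          by_contra hall
          push Not at hall
          exact hWtop ((Submodule.eq_top_iff').mpr hall)
        obtain ⟨v, hv⟩ := hex
        rw [← card_ne_zero (F := F) (U := V ⧸ W)]
        have : Finite (V ⧸ W) := Module.finite_of_finite F
        have hne : ∀ h : ↥H, (Submodule.Quotient.mk ((h : V ≃ₗ[F] V) v) : V ⧸ W) ≠ 0 := by
          intro h h0
          rw [Submodule.Quotient.mk_eq_zero] at h0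
          apply hv
          have := hWinv _ (h⁻¹).2 _ h0
          rwa [inv_apply_self] at this
        refine index_le_of_map R
          (fun h : ↥H => (⟨Submodule.Quotient.mk ((h : V ≃ₗ[F] V) v), hne h⟩ :
              {u : V ⧸ W // u ≠ 0})) ?_
        intro g₁ g₂ hg
        have hg' : (Submodule.Quotient.mk ((g₁ : V ≃ₗ[F] V) v) : V ⧸ W)
            = Submodule.Quotient.mk ((g₂ : V ≃ₗ[F] V) v) := congrArg Subtype.val hg
        rw [Submodule.Quotient.eq] at hg'
        -- apply g₂⁻¹
        have h1 := hWinv _ (g₂⁻¹).2 _ hg'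
        rw [map_sub, inv_apply_self, ← inv_mul_apply_of_eq] at h1
        exact hmemR _ (exists_fixed_of_quotient_fixed _ W
          (fun w hw => hWinv _ (g₂⁻¹ * g₁).2 w hw) v hv h1)
    obtain ⟨m, hm, hidx⟩ := hkey
    have hq : (1 : ℝ) ≤ (Fintype.card F : ℝ) := by
      exact_mod_cast Fintype.card_pos
    have h1 : (R.index : ℝ) ≤ (Fintype.card F : ℝ) ^ m - 1 := by
      have h1' : 1 ≤ Fintype.card F ^ m := Nat.one_le_pow _ _ Fintype.card_pos
      have : ((Fintype.card F ^ m - 1 : ℕ) : ℝ) = (Fintype.card F : ℝ) ^ m - 1 := by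
        rw [Nat.cast_sub h1']; simp
      rw [← this]
      exact_mod_cast hidx
    have h2 : (Fintype.card F : ℝ) ^ m ≤ Real.sqrt ((Fintype.card F : ℝ) ^ Module.finrank F V) := by
      rw [Real.le_sqrt (by positivity) (by positivity), ← pow_mul]
      exact pow_le_pow_right₀ hq (by omega)
    linarith

end Cfsg.Agent.S4178
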