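import Cfsg.Statements.S4182

set_option autoImplicit false
open Cfsg

namespace Cfsg.Agent.S4182

open scoped Pointwise

universe u v

section Aux

variable {G : Type*} [Group G]

/-- The set of `p`-elements. -/
def pel (p : ℕ) (G : Type*) [Group G] : Set G := {g : G | ∃ k : ℕ, orderOf g = p ^ k}

/-- A subgroup generated by its `p`-elements. -/
def IsPGen (p : ℕ) (H : Subgroup G) : Prop :=
  Subgroup.closure (pel p G ∩ (H : Set G)) = H

theorem closure_pel_inter_le (p : ℕ) (H : Subgroup G) :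
    Subgroup.closure (pel p G ∩ (H : Set G)) ≤ H :=
  (Subgroup.closure_le H).mpr Set.inter_subset_right

theorem isPGen_sup {p : ℕ} {H₁ H₂ : Subgroup G} (h₁ : IsPGen p H₁) (h₂ : IsPGen p H₂) :
    IsPGen p (H₁ ⊔ H₂) := by
  apply le_antisymm (closure_pel_inter_le p _)
  apply sup_le
  · calc H₁ = Subgroup.closure (pel p G ∩ (H₁ : Set G)) := h₁.symm
      _ ≤ _ := Subgroup.closure_mono
        (Set.inter_subset_inter_right _ (SetLike.coe_subset_coe.mpr le_sup_left))
  · calc H₂ = Subgroup.closure (pel p G ∩ (H₂ : Set G)) := h₂.symm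
      _ ≤ _ := Subgroup.closure_mono
        (Set.inter_subset_inter_right _ (SetLike.coe_subset_coe.mpr le_sup_right))

theorem isPGen_zpowers {p : ℕ} {g : G} (hg : g ∈ pel p G) : IsPGen p (Subgroup.zpowers g) := by
  apply le_antisymm (closure_pel_inter_le p _)
  rw [Subgroup.zpowers_le]
  exact Subgroup.subset_closure ⟨hg, Subgroup.mem_zpowers g⟩

theorem isPGen_conj {p : ℕ} {H : Subgroup G} (h : IsPGen p H) (a : G) :
    IsPGen p (MulAut.conj a • H) := by
  apply le_antisymm (closure_pel_inter_le p _)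
  have h' : Subgroup.closure (pel p G ∩ (H : Set G)) = H := h
  calc MulAut.conj a • H = MulAut.conj a • Subgroup.closure (pel p G ∩ (H : Set G)) := by rw [h']
    _ = Subgroup.closure (MulAut.conj a • (pel p G ∩ (H : Set G))) := Subgroup.smul_closure _ _
    _ ≤ _ := by
      apply Subgroup.closure_mono
      rintro _ ⟨x, ⟨⟨k, hk⟩, hxH⟩, rfl⟩
      refine ⟨⟨k, ?_⟩, Subgroup.smul_mem_pointwise_smul x _ H hxH⟩
      show orderOf (MulAut.conj a x) = p ^ k
      rw [MulEquiv.orderOf_eq]; exact hk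

theorem closure_pel_subtype {p : ℕ} {H : Subgroup G} (h : IsPGen p H) :
    Subgroup.closure (pel p H) = ⊤ := by
  apply Subgroup.map_injective H.subtype_injective
  rw [MonoidHom.map_closure, ← MonoidHom.range_eq_map, Subgroup.range_subtype]
  have : (H.subtype '' pel p H) = pel p G ∩ (H : Set G) := by
    ext x
    constructor
    · rintro ⟨y, ⟨k, hk⟩, rfl⟩
      exact ⟨⟨k, by rw [← hk]; exact Subgroup.orderOf_coe y⟩, y.2⟩
    · rintro ⟨⟨k, hk⟩, hx⟩
      exact ⟨⟨x, hx⟩, ⟨k, by rw [← hk]; exact (Subgroup.orderOf_coe ⟨x, hx⟩).symm⟩, rfl⟩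
  rw [this]; exact h

theorem conj_pow_smul_of_smul {g : G} {M : Subgroup G} (h : MulAut.conj g • M = M) (s : ℕ) :
    MulAut.conj (g ^ s) • M = M := by
  induction s with
  | zero => simp
  | succ s ih => rw [pow_succ, map_mul, mul_smul, h, ih]

/-- Proper subgroups generated by their `p`-elements. -/
def PS (p : ℕ) (G : Type*) [Group G] : Set (Subgroup G) := {H | IsPGen p H ∧ H ≠ ⊤}

theorem ps_conj {p : ℕ} {H : Subgroup G} (h : H ∈ PS p G) (a : G) :
    MulAut.conj a • H ∈ PS p G := by
  refine ⟨isPGen_conj h.1 a, fun htop => h.2 ?_⟩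
  rw [eq_top_iff]
  intro x _
  have : MulAut.conj a • x ∈ MulAut.conj a • H := by rw [htop]; trivial
  exact (Subgroup.smul_mem_pointwise_smul_iff).mp this

theorem maximal_conj {p : ℕ} {M : Subgroup G} (h : Maximal (· ∈ PS p G) M) (a : G) :
    Maximal (· ∈ PS p G) (MulAut.conj a • M) := by
  refine ⟨ps_conj h.1 a, fun y hy hle => ?_⟩
  have h1 : M ≤ (MulAut.conj a)⁻¹ • y := Subgroup.pointwise_smul_subset_iff.mp hle
  have h2 : (MulAut.conj a)⁻¹ • y ∈ PS p G := by
    rw [← map_inv]; exact ps_conj hy a⁻¹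
  have h3 := h.2 h2 h1
  exact Subgroup.subset_pointwise_smul_iff.mpr h3

theorem maximal_eq_of_le {p : ℕ} {M₁ M₂ K : Subgroup G} (h₁ : Maximal (· ∈ PS p G) M₁)
    (h₂ : Maximal (· ∈ PS p G) M₂) (hK : K ≠ ⊤) (l₁ : M₁ ≤ K) (l₂ : M₂ ≤ K) : M₁ = M₂ := by
  have hsup : M₁ ⊔ M₂ ∈ PS p G :=
    ⟨isPGen_sup h₁.1.1 h₂.1.1, fun htop => hK (top_le_iff.mp (htop ▸ sup_le l₁ l₂))⟩
  exact le_antisymm (le_sup_left.trans (h₂.2 hsup le_sup_right))
    (le_sup_right.trans (h₁.2 hsup le_sup_left))

theorem conj_smul_eq_of_card_le (p : ℕ) [Fact p.Prime] {ι : Type*} [Fintype ι]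
    (f : Subgroup G → ι)
    (f_inj : ∀ M₁ M₂, Maximal (· ∈ PS p G) M₁ → Maximal (· ∈ PS p G) M₂ → f M₁ = f M₂ → M₁ = M₂)
    (hcard : Fintype.card ι ≤ p) {g : G} (hg : g ∈ pel p G) {M₀ M : Subgroup G}
    (hM₀ : Maximal (· ∈ PS p G) M₀) (hgM₀ : g ∈ M₀) (hM : Maximal (· ∈ PS p G) M) :
    MulAut.conj g • M = M := by
  by_contra hne
  have hp : p.Prime := Fact.out
  have key : ∀ d : ℕ, 0 < d → d < p → MulAut.conj (g ^ d) • M ≠ M := by
    intro d hd0 hdp hfix
    obtain ⟨k, hk⟩ := hg
    have hcop : Nat.Coprime d (orderOf g) := by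
      rw [hk]
      apply Nat.Coprime.pow_right
      exact Nat.Coprime.symm ((Nat.Prime.coprime_iff_not_dvd hp).mpr
        (fun hdvd => by have := Nat.le_of_dvd hd0 hdvd; omega))
    obtain ⟨m, hm⟩ := exists_pow_eq_self_of_coprime hcop
    have := conj_pow_smul_of_smul hfix m
    rw [hm] at this
    exact hne this
  let F : Option (Fin p) → Subgroup G :=
    fun o => o.elim M₀ (fun j => MulAut.conj (g ^ (j : ℕ)) • M)
  have hFmax : ∀ o, Maximal (· ∈ PS p G) (F o) := by
    rintro (_ | j)
    · exact hM₀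
    · exact maximal_conj hM _
  have hFinj : Function.Injective F := by
    have h1 : ∀ j : Fin p, MulAut.conj (g ^ (j : ℕ)) • M ≠ M₀ := by
      intro j hj
      have hM0fix : MulAut.conj (g ^ (j : ℕ)) • M₀ = M₀ :=
        Subgroup.conj_smul_eq_self_of_mem (pow_mem hgM₀ _)
      have : M = M₀ := by
        apply smul_left_cancel (MulAut.conj (g ^ (j : ℕ)))
        rw [hj, hM0fix]
      apply hne
      rw [this]
      exact Subgroup.conj_smul_eq_self_of_mem hgM₀
    have h2 : ∀ j j' : Fin p, (j : ℕ) < j' →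
        MulAut.conj (g ^ (j : ℕ)) • M ≠ MulAut.conj (g ^ (j' : ℕ)) • M := by
      intro j j' hlt heq
      apply key ((j' : ℕ) - j) (by omega) (by have := j'.2; omega)
      have e : g ^ (j' : ℕ) = g ^ (j : ℕ) * g ^ ((j' : ℕ) - j) := by
        rw [← pow_add]; congr 1; omega
      rw [e, map_mul, mul_smul] at heq
      exact (smul_left_cancel _ heq).symm
    rintro (_ | j) (_ | j') h
    · rfl
    · exact absurd h.symm (h1 j')
    · exact absurd h (h1 j)
    · have h' : MulAut.conj (g ^ (j : ℕ)) • M = MulAut.conj (g ^ (j' : ℕ)) • M := h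
      rcases lt_trichotomy (j : ℕ) j' with hlt | heq | hgt
      · exact absurd h' (h2 j j' hlt)
      · rw [Fin.ext heq]
      · exact absurd h'.symm (h2 j' j hgt)
  have hinj : Function.Injective (f ∘ F) := by
    intro a b hab
    exact hFinj (f_inj _ _ (hFmax a) (hFmax b) hab)
  have := Fintype.card_le_of_injective _ hinj
  rw [Fintype.card_option, Fintype.card_fin] at this
  omega

end Aux

theorem main (p : ℕ) [Fact p.Prime] {ι : Type v} [Fintype ι] :
    ∀ n : ℕ, ∀ (G : Type u) [Group G] [Finite G], Nat.card G = n →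
      Subgroup.closure (pel p G) = ⊤ → ∀ K : ι → Subgroup G, (∀ i, K i ≠ ⊤) →
      (∀ g ∈ pel p G, ∃ i, g ∈ K i) → p + 1 ≤ Fintype.card ι := by
  intro n
  induction n using Nat.strong_induction_on with
  | _ n ih =>
    intro G _ _ hn hgen K hK hcov
    by_contra hlt
    have hcard : Fintype.card ι ≤ p := by omega
    have hp : p.Prime := Fact.out
    -- Step A
    have hA : ∀ H : Subgroup G, H ∈ PS p G → ∃ i, H ≤ K i := by
      intro H hH
      by_contra hno
      push Not at hno
      have hlt' : Nat.card H < n := by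
        rw [← hn]
        by_contra hge
        exact hH.2 (Subgroup.eq_top_of_le_card H (by omega))
      have := ih (Nat.card H) hlt' H rfl (closure_pel_subtype hH.1)
        (fun i => (K i).subgroupOf H)
        (fun i h => hno i (Subgroup.subgroupOf_eq_top.mp h))
        (fun g hg => by
          obtain ⟨k, hk⟩ := hg
          obtain ⟨i, hi⟩ := hcov (g : G) ⟨k, by rw [← hk]; exact Subgroup.orderOf_coe g⟩
          exact ⟨i, Subgroup.mem_subgroupOf.mpr hi⟩)
      omega
    obtain ⟨i₀, -⟩ := hcov 1 ⟨0, by simp⟩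
    haveI : Nonempty ι := ⟨i₀⟩
    choose! f hf using hA
    have f_inj : ∀ M₁ M₂, Maximal (· ∈ PS p G) M₁ → Maximal (· ∈ PS p G) M₂ →
        f M₁ = f M₂ → M₁ = M₂ := by
      intro M₁ M₂ h₁ h₂ h
      exact maximal_eq_of_le h₁ h₂ (hK (f M₁)) (hf M₁ h₁.1) (h ▸ hf M₂ h₂.1)
    -- every p-element lies in a maximal member
    have hB0 : ∀ g ∈ pel p G, ∃ M, Maximal (· ∈ PS p G) M ∧ g ∈ M := by
      intro g hg
      have hz : Subgroup.zpowers g ∈ PS p G := by
        refine ⟨isPGen_zpowers hg, fun htop => ?_⟩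
        obtain ⟨i, hi⟩ := hcov g hg
        apply hK i
        rw [eq_top_iff, ← htop, Subgroup.zpowers_le]
        exact hi
      obtain ⟨M, hle, hM⟩ := (Set.toFinite (PS p G)).exists_le_maximal hz
      exact ⟨M, hM, hle (Subgroup.mem_zpowers g)⟩
    -- maximal members are normal
    have hnormal : ∀ M, Maximal (· ∈ PS p G) M → M.Normal := by
      intro M hM
      rw [← Subgroup.normalizer_eq_top_iff, eq_top_iff, ← hgen, Subgroup.closure_le]
      intro g hg
      obtain ⟨M₀, hM₀, hgM₀⟩ := hB0 g hg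
      have hfix := conj_smul_eq_of_card_le p f f_inj hcard hg hM₀ hgM₀ hM
      rw [SetLike.mem_coe, Subgroup.mem_normalizer_iff]
      intro x
      have h1 : MulAut.conj g • x ∈ MulAut.conj g • M ↔ x ∈ M :=
        Subgroup.smul_mem_pointwise_smul_iff
      rw [hfix] at h1
      exact h1.symm
    -- structure of the quotient by a maximal member
    have hE : ∀ M, Maximal (· ∈ PS p G) M →
        (∃ k : ℕ, ∀ x : G, x ^ (p ^ k) ∈ M) ∧ Nat.card M * p ≤ Nat.card G := by
      intro M hM
      haveI := hnormal M hM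
      obtain ⟨g, hg, hgM⟩ : ∃ g ∈ pel p G, g ∉ M := by
        by_contra hall
        push Not at hall
        apply hM.1.2
        rw [eq_top_iff, ← hgen, Subgroup.closure_le]
        exact hall
      have htop : M ⊔ Subgroup.zpowers g = ⊤ := by
        by_contra hne
        have hmem : M ⊔ Subgroup.zpowers g ∈ PS p G :=
          ⟨isPGen_sup hM.1.1 (isPGen_zpowers hg), hne⟩
        have := hM.2 hmem le_sup_left
        exact hgM (this ((le_sup_right : Subgroup.zpowers g ≤ M ⊔ Subgroup.zpowers g)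
          (Subgroup.mem_zpowers g)))
      obtain ⟨k, hk⟩ := hg
      have hz : Subgroup.zpowers (QuotientGroup.mk' M g) = ⊤ := by
        have h1 : Subgroup.map (QuotientGroup.mk' M) (M ⊔ Subgroup.zpowers g) = ⊤ := by
          rw [htop, ← MonoidHom.range_eq_map, MonoidHom.range_eq_top]
          exact QuotientGroup.mk'_surjective M
        rw [Subgroup.map_sup, MonoidHom.map_zpowers, QuotientGroup.map_mk'_self] at h1
        simpa using h1
      have hpow : ∀ y : G ⧸ M, y ^ (p ^ k) = 1 := by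
        intro y
        have : y ∈ Subgroup.zpowers (QuotientGroup.mk' M g) := by rw [hz]; trivial
        obtain ⟨z, rfl⟩ := this
        rw [← zpow_natCast, ← zpow_mul, mul_comm, zpow_mul, zpow_natCast, ← map_pow, ← hk,
          pow_orderOf_eq_one, map_one, one_zpow]
      refine ⟨⟨k, fun x => ?_⟩, ?_⟩
      · have := hpow (QuotientGroup.mk' M x)
        rw [← map_pow] at this
        exact (QuotientGroup.eq_one_iff _).mp this
      · have hgne : (QuotientGroup.mk' M g) ≠ 1 :=
          fun h => hgM ((QuotientGroup.eq_one_iff g).mp h)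
        have hdvd : orderOf (QuotientGroup.mk' M g) ∣ p ^ k :=
          orderOf_dvd_of_pow_eq_one (hpow _)
        obtain ⟨j, hj, hjo⟩ := (Nat.dvd_prime_pow hp).mp hdvd
        have hj0 : j ≠ 0 := by
          rintro rfl
          rw [pow_zero, orderOf_eq_one_iff] at hjo
          exact hgne hjo
        have hpd : p ∣ M.index := by
          calc p ∣ p ^ j := dvd_pow_self p hj0
            _ = orderOf (QuotientGroup.mk' M g) := hjo.symm
            _ ∣ Nat.card (G ⧸ M) := orderOf_dvd_natCard _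
        have hple : p ≤ M.index := Nat.le_of_dvd (Nat.pos_of_ne_zero M.index_ne_zero_of_finite) hpd
        calc Nat.card M * p ≤ Nat.card M * M.index := Nat.mul_le_mul_left _ hple
          _ = Nat.card G := M.card_mul_index
    -- every element lies in a maximal member
    have hF : ∀ x : G, ∃ M, Maximal (· ∈ PS p G) M ∧ x ∈ M := by
      intro x
      obtain ⟨e, n', hn', hx⟩ :=
        Nat.exists_eq_pow_mul_and_not_dvd (orderOf_pos x).ne' p hp.ne_one
      have hn'0 : n' ≠ 0 := by rintro rfl; simp at hn'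
      have hy : x ^ n' ∈ pel p G := by
        refine ⟨e, ?_⟩
        rw [orderOf_pow_of_dvd hn'0 (hx ▸ dvd_mul_left _ _), hx,
          Nat.mul_div_cancel _ (Nat.pos_of_ne_zero hn'0)]
      obtain ⟨M, hM, hyM⟩ := hB0 _ hy
      refine ⟨M, hM, ?_⟩
      haveI := hnormal M hM
      obtain ⟨⟨k, hk⟩, -⟩ := hE M hM
      have h1 : (QuotientGroup.mk' M x) ^ n' = 1 := by
        rw [← map_pow]; exact (QuotientGroup.eq_one_iff _).mpr hyM
      have h2 : (QuotientGroup.mk' M x) ^ (p ^ k) = 1 := by
        rw [← map_pow]; exact (QuotientGroup.eq_one_iff _).mpr (hk x)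
      have hcop : Nat.Coprime n' (p ^ k) :=
        Nat.Coprime.pow_right _ (Nat.Coprime.symm ((Nat.Prime.coprime_iff_not_dvd hp).mpr hn'))
      have h3 : orderOf (QuotientGroup.mk' M x) ∣ Nat.gcd n' (p ^ k) :=
        Nat.dvd_gcd (orderOf_dvd_of_pow_eq_one h1) (orderOf_dvd_of_pow_eq_one h2)
      rw [hcop.gcd_eq_one, Nat.dvd_one, orderOf_eq_one_iff] at h3
      exact (QuotientGroup.eq_one_iff x).mp h3
    -- counting
    classical
    haveI : Fintype G := Fintype.ofFinite G
    let ℳ : Finset (Subgroup G) := (Set.toFinite {M | Maximal (· ∈ PS p G) M}).toFinset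
    have hℳ : ∀ M, M ∈ ℳ ↔ Maximal (· ∈ PS p G) M := fun M => by simp [ℳ]
    have hℳcard : ℳ.card ≤ p := by
      refine le_trans ?_ hcard
      rw [← Finset.card_univ]
      exact Finset.card_le_card_of_injOn f (fun _ _ => Finset.mem_univ _)
        (fun M₁ h₁ M₂ h₂ h => f_inj M₁ M₂ ((hℳ M₁).mp h₁) ((hℳ M₂).mp h₂) h)
    have hsub : (Finset.univ.erase (1 : G)) ⊆
        ℳ.biUnion (fun M => (Finset.univ.filter (· ∈ M)).erase 1) := by
      intro x hx
      obtain ⟨M, hM, hxM⟩ := hF x
      rw [Finset.mem_biUnion]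
      exact ⟨M, (hℳ M).mpr hM,
        Finset.mem_erase.mpr ⟨(Finset.mem_erase.mp hx).1, by simp [hxM]⟩⟩
    have h2 := (Finset.card_le_card hsub).trans Finset.card_biUnion_le
    have h3 : ∀ M ∈ ℳ, ((Finset.univ.filter (· ∈ M)).erase (1 : G)).card ≤ Nat.card G / p - 1 := by
      intro M hM
      rw [Finset.card_erase_of_mem (by simp [M.one_mem])]
      have hcardM : (Finset.univ.filter (· ∈ M)).card = Nat.card M := by
        rw [Nat.card_eq_fintype_card, Fintype.card_subtype]
      rw [hcardM]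
      have := (hE M ((hℳ M).mp hM)).2
      have : Nat.card M ≤ Nat.card G / p := (Nat.le_div_iff_mul_le hp.pos).mpr this
      omega
    have h4 : ∑ M ∈ ℳ, ((Finset.univ.filter (· ∈ M)).erase (1 : G)).card
        ≤ ℳ.card * (Nat.card G / p - 1) := by
      calc _ ≤ ∑ _M ∈ ℳ, (Nat.card G / p - 1) := Finset.sum_le_sum h3
        _ = ℳ.card * (Nat.card G / p - 1) := by rw [Finset.sum_const, smul_eq_mul]
    have h5 : (Finset.univ.erase (1 : G)).card = Nat.card G - 1 := by
      rw [Finset.card_erase_of_mem (Finset.mem_univ _), Finset.card_univ,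
        Nat.card_eq_fintype_card]
    obtain ⟨M₁, hM₁, -⟩ := hF 1
    have h6 := (hE M₁ hM₁).2
    have h7 : 0 < Nat.card M₁ := Nat.card_pos
    have hc1 : 1 ≤ Nat.card G / p := (Nat.le_div_iff_mul_le hp.pos).mpr (by nlinarith)
    have hpc : p * (Nat.card G / p) ≤ Nat.card G := Nat.mul_div_le _ p
    have h8 : Nat.card G - 1 ≤ p * (Nat.card G / p - 1) := by
      rw [← h5]
      exact h2.trans (h4.trans (Nat.mul_le_mul_right _ hℳcard))
    obtain ⟨c', hc'⟩ : ∃ c', Nat.card G / p = c' + 1 := ⟨Nat.card G / p - 1, by omega⟩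
    rw [hc'] at hpc h8
    have := hp.two_le
    rw [Nat.add_sub_cancel] at h8
    rw [mul_add, mul_one] at hpc
    omega

/-- Let p be a prime and G a finite group generated by its p-elements. If a finite family of proper subgroups of G covers the set of p-elements of G (every element of p-power order lies in one of them), then the family has at least p + 1 members. -/
theorem result {G : Type*} [Group G] [Finite G] (p : ℕ) [Fact p.Prime] (hgen : Subgroup.closure {g : G | ∃ k : ℕ, orderOf g = p ^ k} = ⊤)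
    {ι : Type*} [Fintype ι] (K : ι → Subgroup G) (hK : ∀ i, K i ≠ ⊤)
    (hcov : ∀ g : G, (∃ k : ℕ, orderOf g = p ^ k) → ∃ i, g ∈ K i) :
    p + 1 ≤ Fintype.card ι :=
  main p (Nat.card G) G rfl hgen K hK hcov

end Cfsg.Agent.S4182
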