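import Cfsg.Statements.S4184
import Mathlib

set_option autoImplicit false
open Cfsg

namespace Cfsg.Agent.S4184

section Aux

variable {G : Type*} [Group G]

/-- The size of the conjugacy class of `g` (index of the centralizer). -/
noncomputable def cs (g : G) : ℕ := (Subgroup.centralizer ({g} : Set G)).index

/-- `s` has the same `r`-part as `m` for every prime `r` outside `B`. -/
def K (B : Set ℕ) (m s : ℕ) : Prop :=
  ∀ r : ℕ, r.Prime → r ∉ B → s.factorization r = m.factorization r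

theorem K_mono {B : Set ℕ} {m s s' : ℕ} (hm : m ≠ 0) (h1 : s ∣ s') (h2 : s' ∣ m) (h : K B m s) :
    K B m s' := by
  intro r hr hrB
  have hs' : s' ≠ 0 := fun h0 => hm (by rw [h0] at h2; exact zero_dvd_iff.mp h2)
  have hs : s ≠ 0 := fun h0 => hs' (by rw [h0] at h1; exact zero_dvd_iff.mp h1)
  have e1 := (Nat.factorization_le_iff_dvd hs hs').mpr h1 r
  have e2 := (Nat.factorization_le_iff_dvd hs' hm).mpr h2 r
  have e3 := h r hr hrB
  omega

theorem eq_of_K_of_K_compl {B : Set ℕ} {m s : ℕ} (hm : m ≠ 0) (hs : s ≠ 0) (h1 : K B m s)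
    (h2 : K Bᶜ m s) : s = m := by
  apply Nat.eq_of_factorization_eq hs hm
  intro r
  by_cases hr : r.Prime
  · by_cases hB : r ∈ B
    · exact h2 r hr (fun h => (Set.mem_compl_iff _ _).mp h hB)
    · exact h1 r hr hB
  · rw [Nat.factorization_eq_zero_of_not_prime _ hr, Nat.factorization_eq_zero_of_not_prime _ hr]

theorem cs_one : cs (1 : G) = 1 := by
  unfold cs
  rw [Subgroup.index_eq_one, eq_top_iff]
  intro x _
  rw [Subgroup.mem_centralizer_singleton_iff]; simp

theorem eq_one_of_cs_eq_one (hZ : Subgroup.center G = ⊥) {g : G} (h : cs g = 1) : g = 1 := by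
  unfold cs at h
  rw [Subgroup.index_eq_one] at h
  have hg : g ∈ Subgroup.center G := by
    rw [Subgroup.mem_center_iff]
    intro x
    have hx : x ∈ Subgroup.centralizer ({g} : Set G) := by rw [h]; trivial
    rwa [Subgroup.mem_centralizer_singleton_iff] at hx
  rw [hZ] at hg
  exact hg

theorem cs_conj (g z : G) : cs (g * z * g⁻¹) = cs z := by
  unfold cs
  have : Subgroup.centralizer ({g * z * g⁻¹} : Set G)
      = (Subgroup.centralizer ({z} : Set G)).comap ((MulAut.conj g⁻¹ : G ≃* G) : G →* G) := by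
    ext x
    rw [Subgroup.mem_comap, Subgroup.mem_centralizer_singleton_iff,
      Subgroup.mem_centralizer_singleton_iff]
    show x * (g * z * g⁻¹) = g * z * g⁻¹ * x ↔ (g⁻¹ * x * g⁻¹⁻¹) * z = z * (g⁻¹ * x * g⁻¹⁻¹)
    rw [inv_inv]
    constructor
    · intro h
      calc g⁻¹ * x * g * z = g⁻¹ * (x * (g * z * g⁻¹)) * g := by group
        _ = g⁻¹ * (g * z * g⁻¹ * x) * g := by rw [h]
        _ = z * (g⁻¹ * x * g) := by group
    · intro h
      calc x * (g * z * g⁻¹) = g * (g⁻¹ * x * g * z) * g⁻¹ := by group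
        _ = g * (z * (g⁻¹ * x * g)) * g⁻¹ := by rw [h]
        _ = g * z * g⁻¹ * x := by group
  rw [this]
  exact Subgroup.index_comap_of_surjective _ (MulAut.conj g⁻¹).surjective

theorem centralizer_mul_le {g h : G} (hc : Commute g h)
    (hcop : (orderOf g).Coprime (orderOf h)) :
    Subgroup.centralizer ({g * h} : Set G) ≤ Subgroup.centralizer ({g} : Set G) := by
  intro x hx
  rw [Subgroup.mem_centralizer_singleton_iff] at hx ⊢
  have hx' : Commute x (g * h) := hx
  have h1 : Commute x ((g * h) ^ orderOf h) := hx'.pow_right _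
  rw [hc.mul_pow, pow_orderOf_eq_one, mul_one] at h1
  obtain ⟨k, hk⟩ := exists_pow_eq_self_of_coprime hcop.symm
  have h2 : Commute x ((g ^ orderOf h) ^ k) := h1.pow_right _
  rw [hk] at h2
  exact h2

theorem cs_dvd_cs_mul_left {g h : G} (hc : Commute g h)
    (hcop : (orderOf g).Coprime (orderOf h)) : cs g ∣ cs (g * h) :=
  Subgroup.index_dvd_of_le (centralizer_mul_le hc hcop)

theorem cs_dvd_cs_mul_right {g h : G} (hc : Commute g h)
    (hcop : (orderOf g).Coprime (orderOf h)) : cs h ∣ cs (g * h) := by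
  have := cs_dvd_cs_mul_left hc.symm hcop.symm
  rwa [hc.symm.eq] at this

theorem mul_ne_one_of_coprime {g h : G} (hg : g ≠ 1) (hcop : (orderOf g).Coprime (orderOf h)) :
    g * h ≠ 1 := by
  intro h1
  have : h = g⁻¹ := eq_inv_of_mul_eq_one_right h1
  rw [this, orderOf_inv, Nat.coprime_self] at hcop
  exact hg (orderOf_eq_one_iff.mp hcop)

/-- The hypotheses on the class sizes of `G`. -/
structure Hyp (G : Type*) [Group G] (B : Set ℕ) (m : ℕ) : Prop where
  m_ne : m ≠ 0
  dvd : ∀ g : G, cs g ∣ m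
  kind : ∀ g : G, g ≠ 1 → K B m (cs g) ∨ K Bᶜ m (cs g)
  excl : ∀ g : G, ¬ (K B m (cs g) ∧ K Bᶜ m (cs g))

theorem Hyp.compl {B : Set ℕ} {m : ℕ} (H : Hyp G B m) : Hyp G Bᶜ m where
  m_ne := H.m_ne
  dvd := H.dvd
  kind := fun g hg => by rw [compl_compl]; exact (H.kind g hg).symm
  excl := fun g h => by rw [compl_compl] at h; exact H.excl g ⟨h.2, h.1⟩

theorem Hyp.same_kind {B : Set ℕ} {m : ℕ} (H : Hyp G B m) {g h : G} (hg : g ≠ 1) (hh : h ≠ 1)
    (hc : Commute g h) (hcop : (orderOf g).Coprime (orderOf h)) (hK : K B m (cs g)) :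
    K B m (cs h) := by
  have d1 := cs_dvd_cs_mul_left hc hcop
  have d2 := cs_dvd_cs_mul_right hc hcop
  have hKgh : K B m (cs (g * h)) := K_mono H.m_ne d1 (H.dvd _) hK
  rcases H.kind h hh with h1 | h1
  · exact h1
  · exact absurd ⟨hKgh, K_mono H.m_ne d2 (H.dvd _) h1⟩ (H.excl (g * h))

variable [Finite G]

theorem card_centralizer_mul_cs (g : G) :
    Nat.card (Subgroup.centralizer ({g} : Set G)) * cs g = Nat.card G :=
  Subgroup.card_mul_index _

theorem cs_dvd_card (g : G) : cs g ∣ Nat.card G := Subgroup.index_dvd_card _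

theorem cs_ne_zero (g : G) : cs g ≠ 0 := Subgroup.index_ne_zero_of_finite

theorem factorization_centralizer (g : G) (ℓ : ℕ) :
    (Nat.card (Subgroup.centralizer ({g} : Set G))).factorization ℓ + (cs g).factorization ℓ
      = (Nat.card G).factorization ℓ := by
  rw [← card_centralizer_mul_cs g, Nat.factorization_mul Nat.card_pos.ne' (cs_ne_zero g)]
  rfl

theorem factorization_cs_of_central_in_sylow {ℓ : ℕ} [Fact ℓ.Prime] (L : Sylow ℓ G) {z : G}
    (hz : ∀ x ∈ L, x * z = z * x) : (cs z).factorization ℓ = 0 := by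
  have hle : (L : Subgroup G) ≤ Subgroup.centralizer ({z} : Set G) := by
    intro x hx
    rw [Subgroup.mem_centralizer_singleton_iff]
    exact hz x hx
  have h1 : ℓ ^ (Nat.card G).factorization ℓ ∣ Nat.card (Subgroup.centralizer ({z} : Set G)) := by
    rw [← L.card_eq_multiplicity]
    exact Subgroup.card_dvd_of_le hle
  have h2 := (Nat.Prime.pow_dvd_iff_le_factorization (Fact.out : ℓ.Prime) Nat.card_pos.ne').mp h1
  have h3 := factorization_centralizer z ℓ
  omega

theorem exists_central_of_isPGroup {ℓ : ℕ} [Fact ℓ.Prime] (P : Subgroup G) (hP : IsPGroup ℓ P)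
    (hne : P ≠ ⊥) : ∃ z : G, z ∈ P ∧ z ≠ 1 ∧ ∀ x ∈ P, x * z = z * x := by
  haveI : Nontrivial P := (Subgroup.nontrivial_iff_ne_bot P).mpr hne
  haveI := hP.center_nontrivial
  obtain ⟨⟨z, hz⟩, hz1⟩ := exists_ne (1 : Subgroup.center P)
  refine ⟨(z : G), z.2, ?_, ?_⟩
  · intro h
    exact hz1 (Subtype.ext (Subtype.ext h))
  · intro x hx
    have := (Subgroup.mem_center_iff.mp hz) ⟨x, hx⟩
    exact congrArg Subtype.val this

theorem exists_kind_of_prime {B : Set ℕ} {m : ℕ} (H : Hyp G B m) (hmG : m ∣ Nat.card G)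
    {t : ℕ} (ht : t.Prime) (htB : t ∈ B) (htm : t ∣ m) :
    ∃ u : G, u ≠ 1 ∧ (∃ k : ℕ, orderOf u = t ^ k) ∧ K B m (cs u) := by
  haveI : Fact t.Prime := ⟨ht⟩
  obtain ⟨T⟩ := (inferInstance : Nonempty (Sylow t G))
  obtain ⟨u, huT, hu1, hucent⟩ := exists_central_of_isPGroup (T : Subgroup G) T.isPGroup'
    (T.ne_bot_of_dvd_card (dvd_trans htm hmG))
  refine ⟨u, hu1, ?_, ?_⟩
  · obtain ⟨k, hk⟩ := (IsPGroup.iff_orderOf.mp T.isPGroup') ⟨u, huT⟩
    exact ⟨k, by rw [← hk]; exact (Subgroup.orderOf_mk u huT).symm⟩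
  · have h0 := factorization_cs_of_central_in_sylow T hucent
    rcases H.kind u hu1 with h1 | h1
    · exact h1
    · have h2 := h1 t ht (fun h => (Set.mem_compl_iff _ _).mp h htB)
      have h3 := (Nat.Prime.dvd_iff_one_le_factorization ht H.m_ne).mp htm
      omega

theorem key {B : Set ℕ} {m : ℕ} (H : Hyp G B m) {ℓ : ℕ} [Fact ℓ.Prime]
    (hlt : m.factorization ℓ < (Nat.card G).factorization ℓ)
    (hfull : ∀ g : G, K B m (cs g) → (cs g).factorization ℓ = m.factorization ℓ)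
    {u : G} (hu1 : u ≠ 1) (hcop : (orderOf u).Coprime ℓ) (hKu : K B m (cs u)) :
    ∃ L : Sylow ℓ G, ∀ z : G, z ∈ L → z ≠ 1 → (∀ x ∈ L, x * z = z * x) → K B m (cs z) := by
  have hℓ : ℓ.Prime := Fact.out
  obtain ⟨D'⟩ := (inferInstance : Nonempty (Sylow ℓ (Subgroup.centralizer ({u} : Set G))))
  have hDC : (D' : Subgroup _).map (Subgroup.centralizer ({u} : Set G)).subtype
      ≤ Subgroup.centralizer ({u} : Set G) := Subgroup.map_subtype_le _
  have hDp : IsPGroup ℓ ((D' : Subgroup _).map (Subgroup.centralizer ({u} : Set G)).subtype) :=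
    D'.isPGroup'.map _
  have hDcard : Nat.card ((D' : Subgroup _).map (Subgroup.centralizer ({u} : Set G)).subtype)
      = ℓ ^ (Nat.card (Subgroup.centralizer ({u} : Set G))).factorization ℓ := by
    rw [Subgroup.card_map_of_injective (Subgroup.subtype_injective _)]
    exact D'.card_eq_multiplicity
  generalize (D' : Subgroup _).map (Subgroup.centralizer ({u} : Set G)).subtype = D at hDC hDp hDcard
  have hvC : (Nat.card (Subgroup.centralizer ({u} : Set G))).factorization ℓ + m.factorization ℓ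
      = (Nat.card G).factorization ℓ := by
    have := factorization_centralizer u ℓ
    rw [hfull u hKu] at this
    exact this
  have hDne : D ≠ ⊥ := by
    intro h0
    have h1 : Nat.card D = 1 := by rw [h0]; exact Subgroup.card_bot
    rw [hDcard] at h1
    have : (Nat.card (Subgroup.centralizer ({u} : Set G))).factorization ℓ = 0 := by
      by_contra hne
      exact absurd h1 (Nat.one_lt_pow hne hℓ.one_lt).ne'
    omega
  obtain ⟨y, hyD, hy1, hycent⟩ := exists_central_of_isPGroup D hDp hDne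
  have hyu : Commute u y := by
    have := hDC hyD
    rw [Subgroup.mem_centralizer_singleton_iff] at this
    exact this.symm
  obtain ⟨k, hk⟩ := (IsPGroup.iff_orderOf.mp hDp) ⟨y, hyD⟩
  have hyord : orderOf y = ℓ ^ k := by rw [← hk]; exact (Subgroup.orderOf_mk y hyD).symm
  have hcopy : (orderOf u).Coprime (orderOf y) := by rw [hyord]; exact hcop.pow_right k
  have hKy : K B m (cs y) := H.same_kind hu1 hy1 hyu hcopy hKu
  have hvCy : (Nat.card (Subgroup.centralizer ({y} : Set G))).factorization ℓ + m.factorization ℓ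
      = (Nat.card G).factorization ℓ := by
    have := factorization_centralizer y ℓ
    rw [hfull y hKy] at this
    exact this
  obtain ⟨L, hDL⟩ := hDp.exists_le_sylow
  refine ⟨L, fun z hzL hz1 hzcent => ?_⟩
  have hzD : z ∈ D := by
    have hEL : D ⊔ Subgroup.zpowers z ≤ L := sup_le hDL ((Subgroup.zpowers_le).mpr hzL)
    have hEp : IsPGroup ℓ ↥(D ⊔ Subgroup.zpowers z) := L.isPGroup'.to_le hEL
    have hEC : D ⊔ Subgroup.zpowers z ≤ Subgroup.centralizer ({y} : Set G) := by
      apply sup_le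
      · intro x hx
        rw [Subgroup.mem_centralizer_singleton_iff]
        exact hycent x hx
      · rw [Subgroup.zpowers_le, Subgroup.mem_centralizer_singleton_iff]
        exact (hzcent y (hDL hyD)).symm
    obtain ⟨j, hj⟩ := (IsPGroup.iff_card.mp hEp)
    have hdvd : ℓ ^ j ∣ Nat.card (Subgroup.centralizer ({y} : Set G)) := by
      rw [← hj]; exact Subgroup.card_dvd_of_le hEC
    have hjle := (Nat.Prime.pow_dvd_iff_le_factorization hℓ Nat.card_pos.ne').mp hdvd
    have hle : Nat.card ↥(D ⊔ Subgroup.zpowers z) ≤ Nat.card D := by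
      rw [hj, hDcard]
      exact Nat.pow_le_pow_right hℓ.pos (by omega)
    have heq : D = D ⊔ Subgroup.zpowers z := Subgroup.eq_of_le_of_card_ge le_sup_left hle
    rw [heq]
    exact (le_sup_right : Subgroup.zpowers z ≤ D ⊔ Subgroup.zpowers z) (Subgroup.mem_zpowers z)
  have hzu : Commute u z := by
    have := hDC hzD
    rw [Subgroup.mem_centralizer_singleton_iff] at this
    exact this.symm
  obtain ⟨k', hk'⟩ := (IsPGroup.iff_orderOf.mp L.isPGroup') ⟨z, hzL⟩
  have hzord : orderOf z = ℓ ^ k' := by rw [← hk']; exact (Subgroup.orderOf_mk z hzL).symm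
  exact H.same_kind hu1 hz1 hzu (by rw [hzord]; exact hcop.pow_right k') hKu

theorem contra_one {B : Set ℕ} {m : ℕ} (H : Hyp G B m) (hmG : m ∣ Nat.card G) {ℓ : ℕ}
    (hℓ : ℓ.Prime) (hlt : m.factorization ℓ < (Nat.card G).factorization ℓ) (hℓB : ℓ ∉ B)
    (hℓm : ℓ ∣ m) {t : ℕ} (ht : t.Prime) (htB : t ∈ B) (htm : t ∣ m) : False := by
  haveI : Fact ℓ.Prime := ⟨hℓ⟩
  obtain ⟨u, hu1, ⟨k, hk⟩, hKu⟩ := exists_kind_of_prime H hmG ht htB htm
  have htℓ : t ≠ ℓ := fun h => hℓB (h ▸ htB)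
  have hcop : (orderOf u).Coprime ℓ := by
    rw [hk]; exact Nat.Coprime.pow_left k ((Nat.coprime_primes ht hℓ).mpr htℓ)
  obtain ⟨L, hL⟩ := key H hlt (fun g hg => hg ℓ hℓ hℓB) hu1 hcop hKu
  have hLne : (L : Subgroup G) ≠ ⊥ := L.ne_bot_of_dvd_card (dvd_trans hℓm hmG)
  obtain ⟨z, hzL, hz1, hzcent⟩ := exists_central_of_isPGroup (L : Subgroup G) L.isPGroup' hLne
  have h1 := hL z hzL hz1 hzcent ℓ hℓ hℓB
  have h2 := factorization_cs_of_central_in_sylow L hzcent
  have h3 := (Nat.Prime.dvd_iff_one_le_factorization hℓ H.m_ne).mp hℓm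
  omega

theorem contra_two {B : Set ℕ} {m : ℕ} (H : Hyp G B m) (hmG : m ∣ Nat.card G) {ℓ : ℕ}
    (hℓ : ℓ.Prime) (hlt : m.factorization ℓ < (Nat.card G).factorization ℓ) (hℓm : ¬ ℓ ∣ m)
    {t : ℕ} (ht : t.Prime) (htB : t ∈ B) (htm : t ∣ m)
    {t' : ℕ} (ht' : t'.Prime) (htB' : t' ∉ B) (htm' : t' ∣ m) : False := by
  haveI : Fact ℓ.Prime := ⟨hℓ⟩
  have hfull : ∀ g : G, (cs g).factorization ℓ = m.factorization ℓ := by
    intro g
    have h0 : m.factorization ℓ = 0 := Nat.factorization_eq_zero_of_not_dvd hℓm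
    have h1 : (cs g).factorization ℓ = 0 :=
      Nat.factorization_eq_zero_of_not_dvd (fun h => hℓm (dvd_trans h (H.dvd g)))
    rw [h0, h1]
  obtain ⟨u, hu1, ⟨k, hk⟩, hKu⟩ := exists_kind_of_prime H hmG ht htB htm
  obtain ⟨u', hu1', ⟨k', hk'⟩, hKu'⟩ := exists_kind_of_prime H.compl hmG ht'
    ((Set.mem_compl_iff _ _).mpr htB') htm'
  have htℓ : t ≠ ℓ := fun h => hℓm (h ▸ htm)
  have htℓ' : t' ≠ ℓ := fun h => hℓm (h ▸ htm')
  obtain ⟨L₁, hL₁⟩ := key H hlt (fun g _ => hfull g) hu1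
    (by rw [hk]; exact Nat.Coprime.pow_left k ((Nat.coprime_primes ht hℓ).mpr htℓ)) hKu
  obtain ⟨L₂, hL₂⟩ := key H.compl hlt (fun g _ => hfull g) hu1'
    (by rw [hk']; exact Nat.Coprime.pow_left k' ((Nat.coprime_primes ht' hℓ).mpr htℓ')) hKu'
  have hℓG : ℓ ∣ Nat.card G := by
    rw [Nat.Prime.dvd_iff_one_le_factorization hℓ Nat.card_pos.ne']
    omega
  have hLne : (L₁ : Subgroup G) ≠ ⊥ := L₁.ne_bot_of_dvd_card hℓG
  obtain ⟨z, hzL, hz1, hzcent⟩ := exists_central_of_isPGroup (L₁ : Subgroup G) L₁.isPGroup' hLne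
  obtain ⟨g, hg⟩ := MulAction.exists_smul_eq G L₁ L₂
  have hmem : ∀ x : G, x ∈ (L₂ : Subgroup G) ↔ g⁻¹ * x * g ∈ (L₁ : Subgroup G) := by
    intro x
    rw [← hg, Sylow.coe_subgroup_smul, Subgroup.mem_pointwise_smul_iff_inv_smul_mem]
    simp [MulAut.smul_def]
  have hK2 : K Bᶜ m (cs (g * z * g⁻¹)) := by
    apply hL₂
    · have : g⁻¹ * (g * z * g⁻¹) * g = z := by group
      exact (hmem _).mpr (by rw [this]; exact hzL)
    · intro h
      apply hz1
      have : z = g⁻¹ * (g * z * g⁻¹) * g := by group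
      rw [this, h]; group
    · intro x hx
      have hx' := hzcent _ ((hmem x).mp hx)
      calc x * (g * z * g⁻¹) = g * (g⁻¹ * x * g * z) * g⁻¹ := by group
        _ = g * (z * (g⁻¹ * x * g)) * g⁻¹ := by rw [hx']
        _ = g * z * g⁻¹ * x := by group
  rw [cs_conj] at hK2
  exact H.excl z ⟨hL₁ z hzL hz1 hzcent, hK2⟩

theorem card_eq_of_hyp {B : Set ℕ} {m : ℕ} (H : Hyp G B m)
    (hB : ∃ g : G, K B m (cs g)) (hB' : ∃ g : G, K Bᶜ m (cs g))
    (ht : ∃ t : ℕ, t.Prime ∧ t ∈ B ∧ t ∣ m) (ht' : ∃ t : ℕ, t.Prime ∧ t ∉ B ∧ t ∣ m) :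
    Nat.card G = m := by
  have hG0 : Nat.card G ≠ 0 := Nat.card_pos.ne'
  obtain ⟨g₁, hg₁⟩ := hB
  obtain ⟨g₂, hg₂⟩ := hB'
  have hmG : m ∣ Nat.card G := by
    rw [← Nat.factorization_le_iff_dvd H.m_ne hG0]
    intro r
    by_cases hr : r.Prime
    · by_cases hrB : r ∈ B
      · have e1 := hg₂ r hr (fun h => (Set.mem_compl_iff _ _).mp h hrB)
        have e2 := (Nat.factorization_le_iff_dvd (cs_ne_zero g₂) hG0).mpr (cs_dvd_card g₂) r
        omega
      · have e1 := hg₁ r hr hrB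
        have e2 := (Nat.factorization_le_iff_dvd (cs_ne_zero g₁) hG0).mpr (cs_dvd_card g₁) r
        omega
    · rw [Nat.factorization_eq_zero_of_not_prime _ hr]; exact Nat.zero_le _
  by_contra hne
  have : ∃ ℓ : ℕ, m.factorization ℓ < (Nat.card G).factorization ℓ := by
    by_contra hall
    push Not at hall
    exact hne (Nat.dvd_antisymm ((Nat.factorization_le_iff_dvd hG0 H.m_ne).mp hall) hmG)
  obtain ⟨ℓ, hlt⟩ := this
  have hℓ : ℓ.Prime := by
    by_contra hnp
    have h0 := Nat.factorization_eq_zero_of_not_prime (Nat.card G) hnp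
    omega
  obtain ⟨t, htp, htB, htm⟩ := ht
  obtain ⟨t', htp', htB', htm'⟩ := ht'
  by_cases hℓm : ℓ ∣ m
  · by_cases hℓB : ℓ ∈ B
    · exact contra_one H.compl hmG hℓ hlt (fun h => (Set.mem_compl_iff _ _).mp h hℓB) hℓm htp'
        ((Set.mem_compl_iff _ _).mpr htB') htm'
    · exact contra_one H hmG hℓ hlt hℓB hℓm htp htB htm
  · exact contra_two H hmG hℓ hlt hℓm htp htB htm htp' htB' htm'

end Aux

section MSide

variable {M : Type*} [Group M] [Finite M]

/-- No element of order `a * b` with `a ∈ B`, `b ∉ B` primes dividing the order. -/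
def Disc (M : Type*) [Group M] (B : Set ℕ) : Prop :=
  ∀ a ∈ B, ∀ b ∉ B, a.Prime → b.Prime → a ∣ Nat.card M → b ∣ Nat.card M →
    ¬ ∃ x : M, orderOf x = a * b

theorem Disc.compl {B : Set ℕ} (h : Disc M B) : Disc M Bᶜ := by
  intro a ha b hb hap hbp ham hbm ⟨x, hx⟩
  have hb' : b ∈ B := by
    by_contra hcon
    exact hb ((Set.mem_compl_iff _ _).mpr hcon)
  exact h b hb' a ((Set.mem_compl_iff _ _).mp ha) hbp hap hbm ham ⟨x, by rw [hx, mul_comm]⟩

theorem kind_M {B : Set ℕ} (hd : Disc M B) (x : M) {a : ℕ} (ha : a.Prime)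
    (hax : a ∣ orderOf x) (haB : a ∈ B) : K B (Nat.card M) (cs x) := by
  intro b hb hbB
  have hnd : ¬ b ∣ Nat.card (Subgroup.centralizer ({x} : Set M)) := by
    intro hdvd
    haveI : Fact b.Prime := ⟨hb⟩
    obtain ⟨y, hy⟩ := exists_prime_orderOf_dvd_card' b hdvd
    have hy' : orderOf (y : M) = b := by rw [Subgroup.orderOf_coe]; exact hy
    have hyx : Commute (y : M) x := by
      have := y.2
      rw [Subgroup.mem_centralizer_singleton_iff] at this
      exact this
    have hx'ord : orderOf (x ^ (orderOf x / a)) = a :=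
      orderOf_pow_orderOf_div (orderOf_pos x).ne' hax
    have hcomm : Commute (x ^ (orderOf x / a)) (y : M) := (hyx.symm).pow_left _
    have hab : a ≠ b := fun h => hbB (h ▸ haB)
    have hord : orderOf (x ^ (orderOf x / a) * (y : M)) = a * b := by
      rw [hcomm.orderOf_mul_eq_mul_orderOf_of_coprime
        (by rw [hx'ord, hy']; exact (Nat.coprime_primes ha hb).mpr hab), hx'ord, hy']
    exact hd a haB b hbB ha hb (dvd_trans hax (orderOf_dvd_natCard x))
      (dvd_trans hdvd (Subgroup.card_subgroup_dvd_card _)) ⟨_, hord⟩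
  have h0 : (Nat.card (Subgroup.centralizer ({x} : Set M))).factorization b = 0 :=
    Nat.factorization_eq_zero_of_not_dvd hnd
  have := factorization_centralizer x b
  omega

theorem kind_M_or {B : Set ℕ} (hd : Disc M B) (x : M) (hx : x ≠ 1) :
    K B (Nat.card M) (cs x) ∨ K Bᶜ (Nat.card M) (cs x) := by
  have h1 : orderOf x ≠ 1 := fun h => hx (orderOf_eq_one_iff.mp h)
  obtain ⟨a, ha, hax⟩ := Nat.exists_prime_and_dvd h1
  by_cases haB : a ∈ B
  · exact Or.inl (kind_M hd x ha hax haB)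
  · exact Or.inr (kind_M hd.compl x ha hax ((Set.mem_compl_iff _ _).mpr haB))

theorem excl_M {B : Set ℕ} (h1 : 1 < Nat.card M) (x : M) :
    ¬ (K B (Nat.card M) (cs x) ∧ K Bᶜ (Nat.card M) (cs x)) := by
  rintro ⟨hK, hK'⟩
  have heq : cs x = Nat.card M := eq_of_K_of_K_compl Nat.card_pos.ne' (cs_ne_zero x) hK hK'
  have h2 := card_centralizer_mul_cs x
  rw [heq] at h2
  have h3 : Nat.card (Subgroup.centralizer ({x} : Set M)) = 1 :=
    Nat.eq_of_mul_eq_mul_right (Nat.card_pos (α := M)) (by rw [h2, one_mul])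
  rw [Subgroup.card_eq_one] at h3
  have hx : x ∈ Subgroup.centralizer ({x} : Set M) := by
    rw [Subgroup.mem_centralizer_singleton_iff]
  rw [h3, Subgroup.mem_bot] at hx
  rw [hx, cs_one] at heq
  omega

end MSide

/-- Let G and M be finite groups with trivial centres and the same set of conjugacy class sizes, and suppose the prime graph of M is disconnected: the prime divisors of #M split into two non-empty parts such that M has no element of order pq with p in one part and q in the other. Then #G = #M. -/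
theorem result {G M : Type*}
    [Group G] [Finite G] [Group M] [Finite M] (hZG : Subgroup.center G = ⊥) (hZM : Subgroup.center M = ⊥)
    (h : Set.range (fun g : G => (Subgroup.centralizer ({g} : Set G)).index) = Set.range (fun g : M => (Subgroup.centralizer ({g} : Set M)).index))
    (hdisc : ∃ A : Set ℕ, (∃ a ∈ A, a.Prime ∧ a ∣ Nat.card M) ∧ (∃ b ∉ A, b.Prime ∧ b ∣ Nat.card M) ∧
      ∀ a ∈ A, ∀ b ∉ A, a.Prime → b.Prime → a ∣ Nat.card M → b ∣ Nat.card M → ¬ ∃ x : M, orderOf x = a * b) :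
    Nat.card G = Nat.card M := by
  obtain ⟨A, ⟨a, haA, hap, ham⟩, ⟨b, hbA, hbp, hbm⟩, hno⟩ := hdisc
  have hd : Disc M A := hno
  have hM1 : 1 < Nat.card M := lt_of_lt_of_le hap.one_lt (Nat.le_of_dvd Nat.card_pos ham)
  have hGM : ∀ g : G, ∃ x : M, cs x = cs g := by
    intro g
    have hmem : cs g ∈ Set.range (fun g : G => (Subgroup.centralizer ({g} : Set G)).index) :=
      ⟨g, rfl⟩
    rw [h] at hmem
    obtain ⟨x, hx⟩ := hmem
    exact ⟨x, hx⟩
  have hMG : ∀ x : M, ∃ g : G, cs g = cs x := by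
    intro x
    have hmem : cs x ∈ Set.range (fun g : M => (Subgroup.centralizer ({g} : Set M)).index) :=
      ⟨x, rfl⟩
    rw [← h] at hmem
    obtain ⟨g, hg⟩ := hmem
    exact ⟨g, hg⟩
  have H : Hyp G A (Nat.card M) :=
    { m_ne := Nat.card_pos.ne'
      dvd := fun g => by
        obtain ⟨x, hx⟩ := hGM g
        rw [← hx]; exact cs_dvd_card x
      kind := fun g hg => by
        obtain ⟨x, hx⟩ := hGM g
        have hx1 : x ≠ 1 := by
          rintro rfl
          rw [cs_one] at hx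
          exact hg (eq_one_of_cs_eq_one hZG hx.symm)
        rw [← hx]
        exact kind_M_or hd x hx1
      excl := fun g => by
        obtain ⟨x, hx⟩ := hGM g
        rw [← hx]; exact excl_M hM1 x }
  apply card_eq_of_hyp H
  · haveI : Fact a.Prime := ⟨hap⟩
    obtain ⟨x, hx⟩ := exists_prime_orderOf_dvd_card' a ham
    obtain ⟨g, hg⟩ := hMG x
    exact ⟨g, by rw [hg]; exact kind_M hd x hap (by rw [hx]) haA⟩
  · haveI : Fact b.Prime := ⟨hbp⟩
    obtain ⟨x, hx⟩ := exists_prime_orderOf_dvd_card' b hbm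
    obtain ⟨g, hg⟩ := hMG x
    have hbx : b ∣ orderOf x := by rw [hx]
    have hbA' : b ∈ Aᶜ := (Set.mem_compl_iff _ _).mpr hbA
    exact ⟨g, by rw [hg]; exact kind_M hd.compl x hbp hbx hbA'⟩
  · exact ⟨a, hap, haA, ham⟩
  · exact ⟨b, hbp, hbA, hbm⟩

end Cfsg.Agent.S4184
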