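import Cfsg.Statements.S4186
import Mathlib

set_option autoImplicit false
open Cfsg

namespace Cfsg.Agent.S4186

/-- Let T and X be subgroups of a group with T a finite 2-group normalizing X but not centralizing it. Then some element of T inverts some non-identity element of X under conjugation. -/
theorem result {G : Type*} [Group G] (T X : Subgroup G) [Finite ↥T] (hT : IsPGroup 2 ↥T) (hTN : T ≤ Subgroup.normalizer (X : Set G)) (hTC : ¬ T ≤ Subgroup.centralizer (X : Set G)) : ∃ t ∈ T, ∃ x ∈ X, x ≠ 1 ∧ t * x * t⁻¹ = x⁻¹ := by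
  classical
  have hex : ∃ n : ℕ, ∃ t ∈ T, t ∉ Subgroup.centralizer (X : Set G) ∧ orderOf t = n := by
    obtain ⟨t, htT, htC⟩ := SetLike.not_le_iff_exists.mp hTC
    exact ⟨_, t, htT, htC, rfl⟩
  obtain ⟨t, htT, htC, hn⟩ := Nat.find_spec hex
  have hmin : ∀ m, m < Nat.find hex → ¬ ∃ t ∈ T, t ∉ Subgroup.centralizer (X : Set G) ∧ orderOf t = m :=
    fun m hm => Nat.find_min hex hm
  -- the order of t is a power of two, and t ≠ 1
  have ht1 : t ≠ 1 := by
    rintro rfl
    exact htC (Subgroup.one_mem _)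
  obtain ⟨k, hk⟩ := hT ⟨t, htT⟩
  have hk' : t ^ 2 ^ k = 1 := by
    have := congrArg Subtype.val hk
    simpa using this
  have hdvd : orderOf t ∣ 2 ^ k := orderOf_dvd_of_pow_eq_one hk'
  obtain ⟨j, hj, hj'⟩ := (Nat.dvd_prime_pow Nat.prime_two).mp hdvd
  have hj0 : j ≠ 0 := by
    rintro rfl
    rw [pow_zero, orderOf_eq_one_iff] at hj'
    exact ht1 hj'
  have h2dvd : 2 ∣ orderOf t := by
    rw [hj']
    exact dvd_pow_self 2 hj0
  have hpos : 0 < orderOf t := by
    rw [hj']; positivity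
  -- t^2 centralizes X
  have ht2 : t ^ 2 ∈ Subgroup.centralizer (X : Set G) := by
    by_contra h
    refine hmin (orderOf (t ^ 2)) ?_ ⟨t ^ 2, T.pow_mem htT 2, h, rfl⟩
    rw [← hn, orderOf_pow_of_dvd (by norm_num) h2dvd]
    exact Nat.div_lt_self hpos (by norm_num)
  -- pick y ∈ X not commuting with t
  have hy : ∃ y ∈ X, y * t ≠ t * y := by
    by_contra h
    push Not at h
    exact htC (Subgroup.mem_centralizer_iff.mpr h)
  obtain ⟨y, hyX, hyt⟩ := hy
  have htN := hTN htT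
  have hconj : t * y * t⁻¹ ∈ X := (Subgroup.mem_normalizer_iff.mp htN y).mp hyX
  refine ⟨t, htT, y⁻¹ * (t * y * t⁻¹), X.mul_mem (X.inv_mem hyX) hconj, ?_, ?_⟩
  · intro h
    apply hyt
    have : t * y * t⁻¹ = y := by
      have := congrArg (fun z => y * z) h
      simpa using this
    calc y * t = (t * y * t⁻¹) * t := by rw [this]
      _ = t * y := by group
  · have hc : y * t ^ 2 = t ^ 2 * y := Subgroup.mem_centralizer_iff.mp ht2 y hyX
    have hc' : t * t * y = y * (t * t) := by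
      rw [pow_two] at hc
      rw [hc, mul_assoc]
    calc t * (y⁻¹ * (t * y * t⁻¹)) * t⁻¹ = t * y⁻¹ * t⁻¹ * (t * t * y) * t⁻¹ * t⁻¹ := by group
      _ = t * y⁻¹ * t⁻¹ * (y * (t * t)) * t⁻¹ * t⁻¹ := by rw [hc']
      _ = (y⁻¹ * (t * y * t⁻¹))⁻¹ := by group

end Cfsg.Agent.S4186
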