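import Cfsg.Statements.S4188
import Cfsg.Agent.Helper70.TwoGenF

set_option autoImplicit false
open Cfsg

namespace Cfsg.Agent.S4188

/-- Let G be a finite group that is the semidirect product of a normal abelian subgroup N of odd order by a 2-subgroup P, and suppose N is the unique minimal normal subgroup of G. Then the index of the Frattini subgroup of P in P is at most #N − 1. -/
theorem result {G : Type*} [Group G] [Finite G] (N P : Subgroup G) (hN : N.Normal) (hNab : IsMulCommutative ↥N) (hNodd : Odd (Nat.card ↥N)) (hP : IsPGroup 2 ↥P) (hdisj : N ⊓ P = ⊥) (hprod : N ⊔ P = ⊤) (hmin : N ≠ ⊥ ∧ ∀ M : Subgroup G, M.Normal → M ≠ ⊥ → N ≤ M) : (frattini ↥P).index ≤ Nat.card ↥N - 1 := by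
  have : Fact (Nat.Prime 2) := ⟨Nat.prime_two⟩
  obtain ⟨hNne, hmin'⟩ := hmin
  have hcard1 : Nat.card N ≠ 1 := fun h => hNne ((Subgroup.eq_bot_iff_card N).mpr h)
  obtain ⟨r, hr_def⟩ : ∃ r, r = (Nat.card N).minFac := ⟨_, rfl⟩
  have hr : r.Prime := by rw [hr_def]; exact Nat.minFac_prime hcard1
  have hrdvd : r ∣ Nat.card N := by rw [hr_def]; exact Nat.minFac_dvd _
  have hr2 : r ≠ 2 := by
    intro h
    rw [h] at hrdvd
    exact (Nat.not_even_iff_odd.mpr hNodd) (even_iff_two_dvd.mpr hrdvd)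
  have hfr : Fact r.Prime := ⟨hr⟩
  have hcomm : ∀ a ∈ N, ∀ b ∈ N, a * b = b * a := by
    intro a ha b hb
    have h1 : (⟨a, ha⟩ : N) * ⟨b, hb⟩ = ⟨b, hb⟩ * ⟨a, ha⟩ := mul_comm' _ _
    exact congrArg Subtype.val h1
  -- the subgroup of elements of order dividing `r`
  let Nr : Subgroup G :=
    { carrier := {x | x ∈ N ∧ x ^ r = 1}
      mul_mem' := by
        rintro a b ⟨ha, ha2⟩ ⟨hb, hb2⟩
        refine ⟨N.mul_mem ha hb, ?_⟩
        have hc : Commute a b := hcomm a ha b hb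
        rw [hc.mul_pow, ha2, hb2, one_mul]
      one_mem' := ⟨N.one_mem, one_pow r⟩
      inv_mem' := by
        rintro a ⟨ha, ha2⟩
        exact ⟨N.inv_mem ha, by rw [inv_pow, ha2, inv_one]⟩ }
  have hNrn : Nr.Normal := by
    refine ⟨fun a ha g => ?_⟩
    obtain ⟨ha1, ha2⟩ := ha
    exact ⟨hN.conj_mem a ha1 g, by rw [conj_pow, ha2, mul_one, mul_inv_cancel]⟩
  have hNrne : Nr ≠ ⊥ := by
    obtain ⟨x, hx⟩ := exists_prime_orderOf_dvd_card' (G := N) r hrdvd
    intro h
    have hxr : (x : G) ∈ Nr := by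
      refine ⟨x.2, ?_⟩
      have h1 : x ^ r = 1 := by rw [← hx]; exact pow_orderOf_eq_one x
      have h2 := congrArg Subtype.val h1
      simpa using h2
    rw [h, Subgroup.mem_bot] at hxr
    have hx1 : x = 1 := Subtype.ext hxr
    rw [hx1, orderOf_one] at hx
    exact hr.one_lt.ne hx
  have hexp : ∀ x ∈ N, x ^ r = 1 := fun x hx => (hmin' Nr hNrn hNrne hx).2
  have hNp : IsPGroup r N := by
    intro x
    refine ⟨1, ?_⟩
    rw [pow_one]
    apply Subtype.ext
    have := hexp x x.2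
    simpa using this
  obtain ⟨n, hn⟩ := IsPGroup.iff_card.mp hNp
  have hn1 : 1 ≤ n := by
    by_contra hcon
    have h0 : n = 0 := by omega
    rw [h0, pow_zero] at hn
    exact hcard1 hn
  -- the conjugation action is faithful
  let C : Subgroup G := P ⊓ Subgroup.centralizer (N : Set G)
  have hCmem : ∀ c, c ∈ C ↔ c ∈ P ∧ ∀ x ∈ N, x * c = c * x := by
    intro c
    show c ∈ P ∧ c ∈ Subgroup.centralizer (N : Set G) ↔ _
    rw [Subgroup.mem_centralizer_iff]
    rfl
  have hCn : C.Normal := by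
    refine ⟨fun c hc g => ?_⟩
    rw [hCmem] at hc
    obtain ⟨hcP, hcN⟩ := hc
    have hg : g ∈ N ⊔ P := by rw [hprod]; exact Subgroup.mem_top g
    obtain ⟨y, hy, p, hp, rfl⟩ := Subgroup.mem_sup_of_normal_left.mp hg
    have h1 : p * c * p⁻¹ ∈ C := by
      rw [hCmem]
      refine ⟨P.mul_mem (P.mul_mem hp hcP) (P.inv_mem hp), ?_⟩
      intro x hx
      have hx' : p⁻¹ * x * p⁻¹⁻¹ ∈ N := hN.conj_mem x hx p⁻¹
      have h2 := hcN _ hx'
      calc x * (p * c * p⁻¹) = p * ((p⁻¹ * x * p⁻¹⁻¹) * c) * p⁻¹ := by group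
        _ = p * (c * (p⁻¹ * x * p⁻¹⁻¹)) * p⁻¹ := by rw [h2]
        _ = p * c * p⁻¹ * x := by group
    have h3 := ((hCmem _).mp h1).2 y hy
    have h4 : y * p * c * (y * p)⁻¹ = p * c * p⁻¹ := by
      calc y * p * c * (y * p)⁻¹ = (y * (p * c * p⁻¹)) * y⁻¹ := by group
        _ = (p * c * p⁻¹ * y) * y⁻¹ := by rw [h3]
        _ = p * c * p⁻¹ := by group
    rw [h4]
    exact h1
  have hCbot : C = ⊥ := by
    by_contra hne
    have h1 := hmin' C hCn hne
    have h2 : N ≤ N ⊓ P := le_inf le_rfl (h1.trans inf_le_left)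
    rw [hdisj] at h2
    exact hNne (le_bot_iff.mp h2)
  let _instN : CommGroup N :=
    { (inferInstance : Group N) with mul_comm := fun a b => mul_comm' a b }
  let ρ : P →* MulAut N := (MulAut.conjNormal (H := N)).comp P.subtype
  have hinj : Function.Injective ρ := by
    rw [injective_iff_map_eq_one]
    intro g hg
    have hgC : (g : G) ∈ C := by
      rw [hCmem]
      refine ⟨g.2, fun x hx => ?_⟩
      have h1 := congrArg (fun φ : MulAut N => ((φ ⟨x, hx⟩ : N) : G)) hg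
      have h2 : (g : G) * x * (g : G)⁻¹ = x := h1
      calc x * (g : G) = ((g : G) * x * (g : G)⁻¹) * g := by rw [h2]
        _ = g * x := by group
    rw [hCbot, Subgroup.mem_bot] at hgC
    exact Subtype.ext hgC
  have key := Cfsg.Agent.Helper70.fi_le_of_faithful_mul hr hr2 hn1 ρ hP hinj hn
  rw [hn]
  exact key

end Cfsg.Agent.S4188
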