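import Cfsg.Statements.S4196
import Cfsg.Agent.Helper69.Basic

set_option autoImplicit false
open Cfsg

namespace Cfsg.Agent.S4196

open scoped Pointwise

/-- A finite group G has elementary abelian Sylow 2-subgroups (commutative with every element squaring to the identity) if and only if every 2-element of G has a Sylow 2-subgroup in its centralizer and is conjugate to its inverse. -/
theorem result {G : Type*} [Group G] [Finite G] (P : Sylow 2 G) :
    (IsMulCommutative (P : Subgroup G) ∧ ∀ x ∈ (P : Subgroup G), x ^ 2 = 1) ↔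
      ∀ x : G, (∃ k : ℕ, orderOf x = 2 ^ k) → (∃ Q : Sylow 2 G, (Q : Subgroup G) ≤ Subgroup.centralizer ({x} : Set G)) ∧ IsConj x x⁻¹ := by
  have : Fact (Nat.Prime 2) := ⟨Nat.prime_two⟩
  constructor
  · rintro ⟨hcomm, hexp⟩ x ⟨k, hk⟩
    -- x lies in a Sylow 2-subgroup Q = g • P
    have hpg : IsPGroup 2 (Subgroup.zpowers x) := IsPGroup.of_card (n := k) (by rw [Nat.card_zpowers, hk])
    obtain ⟨Q, hQ⟩ := hpg.exists_le_sylow
    obtain ⟨g, hg⟩ := MulAction.exists_smul_eq G P Q
    have hxQ : x ∈ (Q : Subgroup G) := hQ (Subgroup.mem_zpowers x)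
    have hmem : ∀ y, y ∈ (Q : Subgroup G) ↔ ∃ s ∈ (P : Subgroup G), g * s * g⁻¹ = y := by
      intro y
      have hQe : (Q : Subgroup G) = MulAut.conj g • (P : Subgroup G) := by
        rw [← hg]; exact Sylow.coe_subgroup_smul (g := g) (P := P)
      rw [hQe, Subgroup.mem_smul_pointwise_iff_exists]
      simp [MulAut.smul_def]
    have hPcomm : ∀ a ∈ (P : Subgroup G), ∀ b ∈ (P : Subgroup G), a * b = b * a := by
      intro a ha b hb
      have := hcomm.is_comm.comm ⟨a, ha⟩ ⟨b, hb⟩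
      exact congrArg Subtype.val this
    obtain ⟨s, hs, rfl⟩ := (hmem x).mp hxQ
    refine ⟨⟨Q, ?_⟩, ?_⟩
    · intro y hy
      obtain ⟨t, ht, rfl⟩ := (hmem y).mp hy
      rw [Subgroup.mem_centralizer_iff]
      intro h hh
      rw [Set.mem_singleton_iff] at hh
      subst hh
      have := hPcomm s hs t ht
      calc g * s * g⁻¹ * (g * t * g⁻¹) = g * (s * t) * g⁻¹ := by group
        _ = g * (t * s) * g⁻¹ := by rw [this]
        _ = g * t * g⁻¹ * (g * s * g⁻¹) := by group
    · have h2 : (g * s * g⁻¹) ^ 2 = 1 := by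
        have := hexp s hs
        rw [pow_two] at this
        calc (g * s * g⁻¹) ^ 2 = g * (s * s) * g⁻¹ := by rw [pow_two]; group
          _ = 1 := by rw [this]; group
      have h3 : (g * s * g⁻¹)⁻¹ = g * s * g⁻¹ := by
        rw [inv_eq_iff_mul_eq_one, ← pow_two, h2]
      rw [h3]
  · intro h
    have hexp : ∀ x ∈ (P : Subgroup G), x ^ 2 = 1 := by
      intro x hx
      have hord : ∃ k : ℕ, orderOf x = 2 ^ k := by
        obtain ⟨k, hk⟩ := (IsPGroup.iff_orderOf.mp P.isPGroup') ⟨x, hx⟩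
        exact ⟨k, by rw [← hk, ← Subgroup.orderOf_coe]⟩
      obtain ⟨⟨Q, hQ⟩, hreal⟩ := h x hord
      have hinv := Cfsg.Agent.Helper69.inv_eq_self_of_two_central x Q hQ hreal
      rw [pow_two]
      nth_rewrite 1 [← hinv]
      simp
    refine ⟨⟨⟨?_⟩⟩, hexp⟩
    rintro ⟨a, ha⟩ ⟨b, hb⟩
    apply Subtype.ext
    show a * b = b * a
    have h1 := hexp a ha
    have h2 := hexp b hb
    have h3 := hexp (a * b) (Subgroup.mul_mem _ ha hb)
    have ha' : a⁻¹ = a := by rw [inv_eq_iff_mul_eq_one, ← pow_two, h1]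
    have hb' : b⁻¹ = b := by rw [inv_eq_iff_mul_eq_one, ← pow_two, h2]
    have hab' : (a * b)⁻¹ = a * b := by rw [inv_eq_iff_mul_eq_one, ← pow_two, h3]
    calc a * b = (a * b)⁻¹ := hab'.symm
      _ = b⁻¹ * a⁻¹ := by group
      _ = b * a := by rw [ha', hb']

end Cfsg.Agent.S4196
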