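import Cfsg.Statements.S4230

set_option autoImplicit false
open Cfsg

namespace Cfsg.Agent.S4230

open Polynomial in
theorem isRoot_iff (p : ℕ) [Fact p.Prime] (x : ZMod p) (k m : ℕ) (hm : ¬ p ∣ m) :
    (cyclotomic (p ^ k * m) (ZMod p)).IsRoot x ↔ orderOf x = m := by
  haveI : NeZero ((m : ℕ) : ZMod p) := ⟨by
    rw [Ne, ZMod.natCast_eq_zero_iff]; exact hm⟩
  have h0 : (cyclotomic m (ZMod p)).IsRoot x ↔ orderOf x = m := by
    rw [isRoot_cyclotomic_iff, IsPrimitiveRoot.iff_orderOf]
  rcases Nat.eq_zero_or_pos k with hk | hk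
  · subst hk
    simpa using h0
  · rw [cyclotomic_mul_prime_pow_eq (ZMod p) hm hk, ← h0]
    have hpos : p ^ k - p ^ (k - 1) ≠ 0 := by
      have : p ^ (k - 1) < p ^ k := Nat.pow_lt_pow_right (Fact.out : p.Prime).one_lt (by omega)
      omega
    simp only [IsRoot.def, eval_pow]
    exact pow_eq_zero_iff hpos

/-- Let p be an odd prime, q a natural number not divisible by p, and e the multiplicative order of q modulo p. For a natural number f, p divides the value at q of the f-th cyclotomic polynomial if and only if f = e·p^j for some j ≥ 0. -/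
theorem result (p q f : ℕ) (hp : p.Prime) (hp2 : p ≠ 2) (hpq : ¬ p ∣ q) :
    ((p : ℤ) ∣ (Polynomial.cyclotomic f ℤ).eval (q : ℤ)) ↔ ∃ j : ℕ, f = orderOf (q : ZMod p) * p ^ j := by
  haveI : Fact p.Prime := ⟨hp⟩
  have hq0 : (q : ZMod p) ≠ 0 := by
    rw [Ne, ZMod.natCast_eq_zero_iff]; exact hpq
  have he_dvd : orderOf (q : ZMod p) ∣ p - 1 := ZMod.orderOf_dvd_card_sub_one hq0
  have he_pos : 0 < orderOf (q : ZMod p) := by
    rcases Nat.eq_zero_or_pos (orderOf (q : ZMod p)) with h | h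
    · rw [h, zero_dvd_iff] at he_dvd
      have := hp.one_lt
      omega
    · exact h
  have he_ndvd : ¬ p ∣ orderOf (q : ZMod p) := by
    intro h
    have h1 : p ∣ p - 1 := h.trans he_dvd
    have h2 := Nat.le_of_dvd (by have := hp.one_lt; omega) h1
    have := hp.one_lt
    omega
  have hL : ((p : ℤ) ∣ (Polynomial.cyclotomic f ℤ).eval (q : ℤ)) ↔
      (Polynomial.cyclotomic f (ZMod p)).IsRoot (q : ZMod p) := by
    rw [← ZMod.intCast_zmod_eq_zero_iff_dvd, Polynomial.IsRoot.def,
      ← Polynomial.map_cyclotomic_int f (ZMod p)]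
    have := Polynomial.eval_intCast_map (Int.castRingHom (ZMod p)) (Polynomial.cyclotomic f ℤ) (q : ℤ)
    simp only [Int.cast_natCast, eq_intCast] at this
    rw [this]
  rw [hL]
  rcases Nat.eq_zero_or_pos f with hf | hf
  · subst hf
    simp only [Polynomial.cyclotomic_zero, Polynomial.IsRoot.def, Polynomial.eval_one, one_ne_zero,
      false_iff]
    rintro ⟨j, hj⟩
    have : 0 < orderOf (q : ZMod p) * p ^ j := Nat.mul_pos he_pos (pow_pos hp.pos j)
    omega
  · obtain ⟨k, m, hm, hfm⟩ := Nat.exists_eq_pow_mul_and_not_dvd (Nat.pos_iff_ne_zero.mp hf) p hp.ne_one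
    rw [hfm, isRoot_iff p (q : ZMod p) k m hm]
    constructor
    · intro h
      exact ⟨k, by rw [h, mul_comm]⟩
    · rintro ⟨j, hj⟩
      set e := orderOf (q : ZMod p) with he
      have hcop_e : Nat.Coprime (p ^ k) e := Nat.Coprime.pow_left k ((Nat.Prime.coprime_iff_not_dvd hp).mpr he_ndvd)
      have hcop_m : Nat.Coprime (p ^ j) m := Nat.Coprime.pow_left j ((Nat.Prime.coprime_iff_not_dvd hp).mpr hm)
      have h1 : p ^ k ∣ p ^ j := by
        have : p ^ k ∣ e * p ^ j := ⟨m, hj.symm⟩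
        exact hcop_e.dvd_of_dvd_mul_left this
      have h2 : p ^ j ∣ p ^ k := by
        have : p ^ j ∣ m * p ^ k := ⟨e, by rw [mul_comm m, hj]; ring⟩
        exact hcop_m.dvd_of_dvd_mul_left this
      have h3 : p ^ k = p ^ j := Nat.dvd_antisymm h1 h2
      rw [h3, mul_comm] at hj
      exact (Nat.eq_of_mul_eq_mul_right (pow_pos hp.pos j) hj).symm

end Cfsg.Agent.S4230
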