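import Cfsg.Statements.S4231
import Cfsg.Agent.S2119

set_option autoImplicit false
open Cfsg

namespace Cfsg.Agent.S4231

section aux

open Equiv Equiv.Perm
open scoped Nat

/-- a group of order `p ^ j`, `j ≤ 1`, is commutative. -/
theorem comm_of_card {K : Type*} [Group K] {p j : ℕ} [Fact p.Prime] (hj : j ≤ 1)
    (hK : Nat.card K = p ^ j) (u v : K) : u * v = v * u := by
  have hj' : j = 0 ∨ j = 1 := by omega
  rcases hj' with rfl | rfl
  · rw [pow_zero] at hK
    haveI : Subsingleton K := (Nat.card_eq_one_iff_unique.mp hK).1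
    exact Subsingleton.elim _ _
  · rw [pow_one] at hK
    haveI := isCyclic_of_prime_card hK
    obtain ⟨g, hg⟩ := IsCyclic.exists_generator (α := K)
    obtain ⟨a, rfl⟩ := Subgroup.mem_zpowers_iff.mp (hg u)
    obtain ⟨b, rfl⟩ := Subgroup.mem_zpowers_iff.mp (hg v)
    exact zpow_mul_comm g a b

/-- a `p`-subgroup of the symmetric group of degree `n < p²` is commutative. -/
theorem pgroup_comm_of_lt_sq {n p : ℕ} [hp : Fact p.Prime] (hn : n < p ^ 2)
    (R : Subgroup (Perm (Fin n))) (hR : IsPGroup p R) (a b : Perm (Fin n)) (ha : a ∈ R)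
    (hb : b ∈ R) : a * b = b * a := by
  classical
  apply Equiv.Perm.ext
  intro x
  -- the action of `R` on the orbit of `x`
  obtain ⟨k, hk⟩ := hR.card_orbit x
  have hle : Nat.card (MulAction.orbit R x) ≤ n := by
    have h1 := Nat.card_le_card_of_injective (Subtype.val : MulAction.orbit R x → Fin n)
      Subtype.val_injective
    simpa using h1
  have hk1 : k ≤ 1 := by
    by_contra hk2
    have h1 : p ^ 2 ≤ p ^ k := Nat.pow_le_pow_right hp.out.pos (by omega)
    rw [hk] at hle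
    omega
  have hm : Nat.card (MulAction.orbit R x) ≤ p := by
    rw [hk]
    calc p ^ k ≤ p ^ 1 := Nat.pow_le_pow_right hp.out.pos hk1
      _ = p := pow_one p
  let ρ : R →* Perm (MulAction.orbit R x) := MulAction.toPermHom R (MulAction.orbit R x)
  have hrange : IsPGroup p ρ.range := hR.of_surjective ρ.rangeRestrict ρ.rangeRestrict_surjective
  obtain ⟨j, hj⟩ := IsPGroup.iff_card.mp hrange
  have hj1 : j ≤ 1 := by
    by_contra hj2
    have h1 : p ^ 2 ∣ p ^ j := pow_dvd_pow p (by omega)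
    have h2 : Nat.card ρ.range ∣ Nat.card (Perm (MulAction.orbit R x)) :=
      Subgroup.card_subgroup_dvd_card _
    rw [hj, Nat.card_perm] at h2
    have h3 : (Nat.card (MulAction.orbit R x))! ∣ p ! := Nat.factorial_dvd_factorial hm
    have h4 : p ^ 2 ∣ p ! := h1.trans (h2.trans h3)
    have h5 : p ! = p * (p - 1)! := (Nat.mul_factorial_pred hp.out.ne_zero).symm
    rw [h5, pow_two] at h4
    have h6 : p ∣ (p - 1)! := Nat.dvd_of_mul_dvd_mul_left hp.out.pos h4
    have h7 := (Nat.Prime.dvd_factorial hp.out).mp h6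
    have := hp.out.pos
    omega
  have hcomm := comm_of_card hj1 hj (⟨ρ ⟨a, ha⟩, ⟨_, rfl⟩⟩ : ρ.range) ⟨ρ ⟨b, hb⟩, ⟨_, rfl⟩⟩
  have h1 : ρ ⟨a, ha⟩ * ρ ⟨b, hb⟩ = ρ ⟨b, hb⟩ * ρ ⟨a, ha⟩ := congrArg Subtype.val hcomm
  have h2 : (((ρ ⟨a, ha⟩ * ρ ⟨b, hb⟩) ⟨x, MulAction.mem_orbit_self x⟩ :
      MulAction.orbit R x) : Fin n) =
      (((ρ ⟨b, hb⟩ * ρ ⟨a, ha⟩) ⟨x, MulAction.mem_orbit_self x⟩ : MulAction.orbit R x) : Fin n) := by
    rw [h1]
  exact h2

/-- a permutation with a prescribed cycle type `{a, b}` or `{2, 2, b}`. -/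
theorem exists_even_of_type {n : ℕ} (m : Multiset ℕ) (hsum : m.sum ≤ n) (h2 : ∀ a ∈ m, 2 ≤ a)
    (hev : Even (m.sum + Multiset.card m)) :
    ∃ σ : Perm (Fin n), σ ∈ alternatingGroup (Fin n) ∧ orderOf σ = m.lcm := by
  obtain ⟨σ, hσ⟩ := (Equiv.Perm.exists_with_cycleType_iff (Fin n)).mpr
    ⟨by simpa using hsum, h2⟩
  refine ⟨σ, ?_, ?_⟩
  · rw [Equiv.Perm.mem_alternatingGroup, Equiv.Perm.sign_of_cycleType, hσ]
    exact hev.neg_one_pow
  · rw [← Equiv.Perm.lcm_cycleType, hσ]

theorem exists_order_mul {n p q : ℕ} (hp : p.Prime) (hq : q.Prime) (hpq : p ≠ q)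
    (hp2 : p ^ 2 ≤ n) (hq2 : q ^ 2 ≤ n) :
    ∃ σ : Perm (Fin n), σ ∈ alternatingGroup (Fin n) ∧ orderOf σ = p * q := by
  have hp2' := hp.two_le
  have hq2' := hq.two_le
  by_cases hp' : p = 2
  · subst hp'
    have hqodd : Odd q := hq.odd_of_ne_two (Ne.symm hpq)
    have hq3 : 3 ≤ q := by
      rcases hqodd with ⟨k, hk⟩
      omega
    obtain ⟨σ, hσ, ho⟩ := exists_even_of_type (n := n) ({2, 2, q} : Multiset ℕ)
      (by simp; nlinarith) (by simp; exact hq2') (by
        simp
        rcases hqodd with ⟨k, hk⟩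
        exact ⟨k + 4, by omega⟩)
    refine ⟨σ, hσ, ?_⟩
    rw [ho]
    have hc : Nat.Coprime 2 q := (Nat.coprime_primes Nat.prime_two hq).mpr hpq
    simp [lcm_eq_nat_lcm, hc.lcm_eq_mul]
  · by_cases hq' : q = 2
    · subst hq'
      have hpodd : Odd p := hp.odd_of_ne_two hp'
      have hp3 : 3 ≤ p := by
        rcases hpodd with ⟨k, hk⟩
        omega
      obtain ⟨σ, hσ, ho⟩ := exists_even_of_type (n := n) ({2, 2, p} : Multiset ℕ)
        (by simp; nlinarith) (by simp; exact hp2') (by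
          simp
          rcases hpodd with ⟨k, hk⟩
          exact ⟨k + 4, by omega⟩)
      refine ⟨σ, hσ, ?_⟩
      rw [ho]
      have hc : Nat.Coprime 2 p := (Nat.coprime_primes Nat.prime_two hp).mpr (Ne.symm hp')
      simp [lcm_eq_nat_lcm, hc.lcm_eq_mul, mul_comm]
    · have hpodd : Odd p := hp.odd_of_ne_two hp'
      have hqodd : Odd q := hq.odd_of_ne_two hq'
      obtain ⟨σ, hσ, ho⟩ := exists_even_of_type (n := n) ({p, q} : Multiset ℕ)
        (by simp; nlinarith) (by simp; exact ⟨hp2', hq2'⟩) (by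
          simp
          rcases hpodd with ⟨k, hk⟩
          rcases hqodd with ⟨l, hl⟩
          exact ⟨k + l + 2, by omega⟩)
      refine ⟨σ, hσ, ?_⟩
      rw [ho]
      have hc : Nat.Coprime p q := (Nat.coprime_primes hp hq).mpr hpq
      simp [lcm_eq_nat_lcm, hc.lcm_eq_mul]

/-- Sylow subgroups consisting of permutation-induced automorphisms are commutative when
`n < r²`. -/
theorem sylow_comm_of_range {n r : ℕ} [Fact r.Prime] (hn4 : 4 ≤ n) (hnr : n < r ^ 2)
    (G : Subgroup (MulAut (alternatingGroup (Fin n)))) (P : Sylow r G)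
    (hrange : ∀ u : G, u ∈ P → ∃ σ : Perm (Fin n),
      MulAut.conjNormal σ = (u : MulAut (alternatingGroup (Fin n)))) :
    IsMulCommutative (P : Subgroup G) := by
  classical
  have hinj : Function.Injective
      (MulAut.conjNormal : Perm (Fin n) →* MulAut (alternatingGroup (Fin n))) :=
    Cfsg.Agent.S2119.inj (by simpa using hn4)
  obtain ⟨R, hRdef⟩ : ∃ R : Subgroup (Perm (Fin n)),
      R = (((P : Subgroup G).map G.subtype)).comap MulAut.conjNormal := ⟨_, rfl⟩
  have hR : IsPGroup r R := by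
    rintro ⟨σ, hσ⟩
    rw [hRdef] at hσ
    obtain ⟨u, huP, hu⟩ := Subgroup.mem_map.mp (Subgroup.mem_comap.mp hσ)
    obtain ⟨k, hk⟩ := P.isPGroup' ⟨u, huP⟩
    refine ⟨k, Subtype.ext ?_⟩
    show σ ^ r ^ k = 1
    apply hinj
    rw [map_pow, map_one, ← hu]
    have h1 : u ^ r ^ k = 1 := by simpa using congrArg Subtype.val hk
    have h2 := congrArg (G.subtype) h1
    simpa using h2
  refine ⟨⟨fun u v => ?_⟩⟩
  obtain ⟨σ, hσ⟩ := hrange u.1 u.2
  obtain ⟨τ, hτ⟩ := hrange v.1 v.2
  have hσR : σ ∈ R := by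
    rw [hRdef]
    exact Subgroup.mem_comap.mpr (Subgroup.mem_map.mpr ⟨u.1, u.2, hσ.symm⟩)
  have hτR : τ ∈ R := by
    rw [hRdef]
    exact Subgroup.mem_comap.mpr (Subgroup.mem_map.mpr ⟨v.1, v.2, hτ.symm⟩)
  have hc := pgroup_comm_of_lt_sq hnr R hR σ τ hσR hτR
  have h1 := congrArg
    (MulAut.conjNormal : Perm (Fin n) →* MulAut (alternatingGroup (Fin n))) hc
  rw [map_mul, map_mul, hσ, hτ] at h1
  apply Subtype.ext; apply Subtype.ext
  exact h1

open Cfsg.Agent.Helper69.ThreeCyc in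
/-- an automorphism of the alternating group preserving three-cycles is induced by a
permutation (the argument of `Cfsg.Agent.S2119.surj`). -/
theorem surj_of_preserves {α : Type*} [DecidableEq α] [Fintype α] (h4 : 4 ≤ Fintype.card α)
    (θ : MulAut (alternatingGroup α))
    (hθ : ∀ c : alternatingGroup α, IsThreeCycle (c : Perm α) →
      IsThreeCycle ((θ c : alternatingGroup α) : Perm α)) :
    ∃ σ : Perm α, MulAut.conjNormal σ = θ := by
  classical
  obtain ⟨a, b, hab⟩ : ∃ a b : α, a ≠ b := Fintype.one_lt_card_iff.mp (by omega)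
  let t : α → alternatingGroup α := fun x =>
    if h : x ≠ a ∧ x ≠ b then
      ⟨c3 a b x, (c3_isThreeCycle hab h.1.symm h.2.symm).mem_alternatingGroup⟩
    else 1
  have ht : ∀ x, x ≠ a → x ≠ b → ((t x : alternatingGroup α) : Perm α) = c3 a b x := by
    intro x hxa hxb
    simp only [t, dif_pos (And.intro hxa hxb)]
  let S : α → Perm α := fun x => ((θ (t x) : alternatingGroup α) : Perm α)
  have hs3 : ∀ x, x ≠ a → x ≠ b → IsThreeCycle (S x) := by
    intro x hxa hxb
    apply hθ (t x)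
    rw [ht x hxa hxb]; exact c3_isThreeCycle hab hxa.symm hxb.symm
  have hrel : ∀ x y, x ≠ a → x ≠ b → y ≠ a → y ≠ b → x ≠ y →
      S x * S y * (S x * S y) = 1 := by
    intro x y hxa hxb hya hyb hxy
    have h1 : t x * t y * (t x * t y) = 1 := by
      apply Subtype.ext
      simp only [Subgroup.coe_mul, ht x hxa hxb, ht y hya hyb, Subgroup.coe_one]
      exact c3_mul_c3_sq hab hxa hxb hya hyb hxy
    have h2 := congrArg θ h1
    simp only [map_mul, map_one] at h2
    have h3 := congrArg Subtype.val h2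
    simpa only [Subgroup.coe_mul, Subgroup.coe_one] using h3
  have hnerev : ∀ x y, x ≠ a → x ≠ b → y ≠ a → y ≠ b → S x ≠ (S y)⁻¹ := by
    intro x y hxa hxb hya hyb h
    have h1 : θ (t x) = θ ((t y)⁻¹) := by
      apply Subtype.ext
      rw [map_inv, Subgroup.coe_inv]
      exact h
    have h2 := θ.injective h1
    have h3 := congrArg Subtype.val h2
    rw [Subgroup.coe_inv, ht x hxa hxb, ht y hya hyb, c3_inv hab hya.symm hyb.symm] at h3
    exact c3_ne_c3_rev hab hxa hxb hya hyb h3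
  have hinj : ∀ x y, x ≠ a → x ≠ b → y ≠ a → y ≠ b → S x = S y → x = y := by
    intro x y hxa hxb hya hyb h
    have h2 := θ.injective (Subtype.ext h)
    have h3 := congrArg Subtype.val h2
    rw [ht x hxa hxb, ht y hya hyb] at h3
    exact c3_injective hab hxa hxb hya hyb h3
  -- two points outside {a, b}
  obtain ⟨x₁, hx₁, x₂, hx₂, hx12⟩ : ∃ c ∈ (Finset.univ \ {a, b} : Finset α),
      ∃ d ∈ (Finset.univ \ {a, b} : Finset α), c ≠ d := by
    apply Finset.one_lt_card.mp
    have h1 : (Finset.univ \ {a, b} : Finset α).card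
        = Fintype.card α - ({a, b} : Finset α).card := by
      rw [Finset.card_sdiff_of_subset (Finset.subset_univ _), Finset.card_univ]
    have h2 : ({a, b} : Finset α).card ≤ 2 := Finset.card_le_two
    omega
  simp only [Finset.mem_sdiff, Finset.mem_univ, Finset.mem_insert, Finset.mem_singleton,
    true_and, not_or] at hx₁ hx₂
  obtain ⟨hx1a, hx1b⟩ := hx₁
  obtain ⟨hx2a, hx2b⟩ := hx₂
  -- normal form for S x₁, S x₂
  have hnf : ∃ a' b' c' d' : α, a' ≠ b' ∧ a' ≠ c' ∧ b' ≠ c' ∧ a' ≠ d' ∧ b' ≠ d' ∧ c' ≠ d' ∧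
      S x₁ = c3 a' b' c' ∧ S x₂ = c3 a' b' d' := by
    obtain ⟨u, v, w, huv, huw, hvw, hS1⟩ := exists_eq_c3 (hs3 x₁ hx1a hx1b)
    have hr := hrel x₁ x₂ hx1a hx1b hx2a hx2b hx12
    have hn := hnerev x₂ x₁ hx2a hx2b hx1a hx1b
    rw [hS1] at hr
    rw [hS1, c3_inv huv huw hvw] at hn
    have r1 : c3 u v w = c3 v w u := c3_rot huv huw hvw
    have r2 : c3 u v w = c3 w u v := by rw [r1, c3_rot hvw huv.symm huw.symm]
    have h32 := hs3 x₂ hx2a hx2b
    rcases K0 huv huw hvw h32 hr hn with h | h | h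
    · obtain ⟨-, d, hd1, hd2, hd3, hform⟩ := K1 huv huw hvw h32 hr h
      exact ⟨v, w, u, d, hvw, huv.symm, huw.symm, hd2.symm, hd3.symm, hd1.symm,
        hS1.trans r1, hform⟩
    · obtain ⟨-, d, hd1, hd2, hd3, hform⟩ := K1 hvw huv.symm huw.symm h32 (r1 ▸ hr) h
      exact ⟨w, u, v, d, huw.symm, hvw.symm, huv, hd2.symm, hd3.symm, hd1.symm,
        hS1.trans r2, hform⟩
    · obtain ⟨-, d, hd1, hd2, hd3, hform⟩ := K1 huw.symm hvw.symm huv h32 (r2 ▸ hr) h
      exact ⟨u, v, w, d, huv, huw, hvw, hd2.symm, hd3.symm, hd1.symm, hS1, hform⟩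
  obtain ⟨a', b', c', d', hab', hac', hbc', had', hbd', hcd', hS1, hS2⟩ := hnf
  have hall : ∀ x, ∃ e, x ≠ a → x ≠ b → (e ≠ a' ∧ e ≠ b' ∧ S x = c3 a' b' e) := by
    intro x
    by_cases hxa : x = a
    · exact ⟨a, fun h => absurd hxa h⟩
    by_cases hxb : x = b
    · exact ⟨a, fun _ h => absurd hxb h⟩
    by_cases hx1 : x = x₁
    · exact ⟨c', fun _ _ => ⟨hac'.symm, hbc'.symm, hx1 ▸ hS1⟩⟩
    by_cases hx2 : x = x₂
    · exact ⟨d', fun _ _ => ⟨had'.symm, hbd'.symm, hx2 ▸ hS2⟩⟩
    have hr1 := hrel x₁ x hx1a hx1b hxa hxb (Ne.symm hx1)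
    have hr2 := hrel x₂ x hx2a hx2b hxa hxb (Ne.symm hx2)
    have hn1 := hnerev x x₁ hxa hxb hx1a hx1b
    have hn2 := hnerev x x₂ hxa hxb hx2a hx2b
    rw [hS1] at hr1
    rw [hS2] at hr2
    rw [hS1, c3_inv hab' hac' hbc'] at hn1
    rw [hS2, c3_inv hab' had' hbd'] at hn2
    obtain ⟨e, he1, he2, -, -, hform⟩ :=
      K2 hab' hac' hbc' had' hbd' hcd' (hs3 x hxa hxb) hr1 hr2 hn1 hn2
    exact ⟨e, fun _ _ => ⟨he1, he2, hform⟩⟩
  choose e he using hall
  let σ₀ : α → α := fun z => if z = a then a' else if z = b then b' else e z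
  have hσ₀ : Function.Injective σ₀ := by
    intro z z' h
    have hE : ∀ x y, x ≠ a → x ≠ b → y ≠ a → y ≠ b → e x = e y → x = y := by
      intro x y hxa hxb hya hyb hxy
      apply hinj x y hxa hxb hya hyb
      rw [(he x hxa hxb).2.2, (he y hya hyb).2.2, hxy]
    have hE1 : ∀ x, x ≠ a → x ≠ b → e x ≠ a' := fun x hxa hxb => (he x hxa hxb).1
    have hE2 : ∀ x, x ≠ a → x ≠ b → e x ≠ b' := fun x hxa hxb => (he x hxa hxb).2.1
    simp only [σ₀] at h
    grind
  let σ : Perm α := Equiv.ofBijective σ₀ ⟨hσ₀, Finite.injective_iff_surjective.mp hσ₀⟩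
  have hσapp : ∀ z, σ z = σ₀ z := fun z => rfl
  have hσa : σ a = a' := by rw [hσapp]; simp [σ₀]
  have hσb : σ b = b' := by rw [hσapp]; simp [σ₀, hab.symm]
  have hσx : ∀ x, x ≠ a → x ≠ b → σ x = e x := by
    intro x hxa hxb; rw [hσapp]; simp [σ₀, hxa, hxb]
  have hcl : Subgroup.closure {y : alternatingGroup α | ∃ x, x ≠ a ∧ x ≠ b ∧ y = t x} = ⊤ := by
    rw [eq_top_iff]
    intro y _
    have hy : (y : Perm α) ∈
        Subgroup.closure {p : Perm α | ∃ x, x ≠ a ∧ x ≠ b ∧ p = c3 a b x} := by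
      rw [closure_c3_eq hab]; exact y.2
    have himg : {p : Perm α | ∃ x, x ≠ a ∧ x ≠ b ∧ p = c3 a b x}
        = (alternatingGroup α).subtype ''
          {y : alternatingGroup α | ∃ x, x ≠ a ∧ x ≠ b ∧ y = t x} := by
      ext p; constructor
      · rintro ⟨x, hxa, hxb, rfl⟩; exact ⟨t x, ⟨x, hxa, hxb, rfl⟩, ht x hxa hxb⟩
      · rintro ⟨y, ⟨x, hxa, hxb, rfl⟩, rfl⟩; exact ⟨x, hxa, hxb, ht x hxa hxb⟩
    rw [himg, ← MonoidHom.map_closure] at hy
    obtain ⟨z, hz, hzy⟩ := hy
    have hzy' : z = y := Subtype.ext hzy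
    rwa [← hzy']
  refine ⟨σ, ?_⟩
  apply MulEquiv.toMonoidHom_injective
  apply MonoidHom.eq_of_eqOn_dense hcl
  rintro y ⟨x, hxa, hxb, rfl⟩
  apply Subtype.ext
  show ((MulAut.conjNormal σ (t x) : alternatingGroup α) : Perm α) = S x
  rw [MulAut.conjNormal_apply, ht x hxa hxb, conj_c3, hσa, hσb, hσx x hxa hxb]
  exact (he x hxa hxb).2.2.symm

/-- number of permutations of `Fin 6` of cycle type `m^K`. -/
theorem card_type_replicate (K m : ℕ) (hK : 0 < K) (hm : 2 ≤ m) (hKm : K * m ≤ 6) :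
    (Finset.univ.filter fun g : Perm (Fin 6) => g.cycleType = Multiset.replicate K m).card =
      720 / ((6 - K * m)! * m ^ K * K !) := by
  rw [Equiv.Perm.card_of_cycleType]
  have hK' : K ≠ 0 := by omega
  rw [if_pos]
  · simp [Multiset.toFinset_replicate, hK', mul_comm, Nat.factorial]
  · refine ⟨by simpa [mul_comm] using hKm, ?_⟩
    intro a ha
    rw [Multiset.eq_of_mem_replicate ha]; exact hm

theorem ct_three {σ : Perm (Fin 6)} (ho : orderOf σ = 3) :
    σ.cycleType = Multiset.replicate 1 3 ∨ σ.cycleType = Multiset.replicate 2 3 := by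
  obtain ⟨n, hn⟩ := Equiv.Perm.cycleType_prime_order (σ := σ) (by rw [ho]; norm_num)
  rw [ho] at hn
  have hsum := Equiv.Perm.sum_cycleType σ
  rw [hn, Multiset.sum_replicate, smul_eq_mul] at hsum
  have h' := Finset.card_le_univ σ.support
  rw [Fintype.card_fin] at h'
  have hn' : n = 0 ∨ n = 1 := by omega
  rcases hn' with rfl | rfl
  · left; exact hn
  · right; exact hn

/-- the square of an automorphism of `A₆` preserves three-cycles. -/
theorem theta_sq_pres (θ : MulAut (alternatingGroup (Fin 6))) (c : alternatingGroup (Fin 6))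
    (hc : IsThreeCycle (c : Perm (Fin 6))) :
    IsThreeCycle ((θ (θ c) : alternatingGroup (Fin 6)) : Perm (Fin 6)) := by
  classical
  have hord : ∀ w : alternatingGroup (Fin 6),
      orderOf ((θ w : alternatingGroup (Fin 6)) : Perm (Fin 6)) = orderOf (w : Perm (Fin 6)) := by
    intro w
    rw [Subgroup.orderOf_coe, MulEquiv.orderOf_eq, Subgroup.orderOf_coe]
  have hdich : ∀ w : alternatingGroup (Fin 6), orderOf (w : Perm (Fin 6)) = 3 →
      (IsThreeCycle (w : Perm (Fin 6)) ∨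
        (w : Perm (Fin 6)).cycleType = Multiset.replicate 2 3) := by
    intro w hw
    rcases ct_three hw with h | h
    · left; exact h
    · right; exact h
  by_cases hex : ∃ c0 : alternatingGroup (Fin 6), IsThreeCycle (c0 : Perm (Fin 6)) ∧
      IsThreeCycle ((θ c0 : alternatingGroup (Fin 6)) : Perm (Fin 6))
  · obtain ⟨c0, hc0, hθc0⟩ := hex
    have hpres : ∀ c' : alternatingGroup (Fin 6), IsThreeCycle (c' : Perm (Fin 6)) →
        IsThreeCycle ((θ c' : alternatingGroup (Fin 6)) : Perm (Fin 6)) := by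
      intro c' hc'
      obtain ⟨g, hg⟩ := isConj_iff.mp (alternatingGroup.isThreeCycle_isConj (by simp) hc0 hc')
      rw [← hg, map_mul, map_mul, map_inv, Subgroup.coe_mul, Subgroup.coe_mul, Subgroup.coe_inv]
      unfold IsThreeCycle
      rw [Equiv.Perm.cycleType_conj]
      exact hθc0
    exact hpres _ (hpres c hc)
  · push Not at hex
    have hmap : ∀ c' : alternatingGroup (Fin 6), IsThreeCycle (c' : Perm (Fin 6)) →
        ((θ c' : alternatingGroup (Fin 6)) : Perm (Fin 6)).cycleType = Multiset.replicate 2 3 := by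
      intro c' hc'
      rcases hdich (θ c') (by rw [hord]; exact hc'.orderOf) with h | h
      · exact absurd h (hex c' hc')
      · exact h
    by_contra hnot
    have hd := hmap c hc
    have hd3 : orderOf ((θ c : alternatingGroup (Fin 6)) : Perm (Fin 6)) = 3 := by
      rw [hord]; exact hc.orderOf
    have hdd : ((θ (θ c) : alternatingGroup (Fin 6)) : Perm (Fin 6)).cycleType =
        Multiset.replicate 2 3 := by
      rcases hdich (θ (θ c)) (by rw [hord]; exact hd3) with h | h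
      · exact absurd h hnot
      · exact h
    obtain ⟨T1, hT1⟩ : ∃ T1 : Finset (Perm (Fin 6)),
        T1 = Finset.univ.filter fun g : Perm (Fin 6) => g.cycleType = Multiset.replicate 1 3 :=
      ⟨_, rfl⟩
    obtain ⟨T2, hT2⟩ : ∃ T2 : Finset (Perm (Fin 6)),
        T2 = Finset.univ.filter fun g : Perm (Fin 6) => g.cycleType = Multiset.replicate 2 3 :=
      ⟨_, rfl⟩
    obtain ⟨F, hF⟩ : ∃ F : Perm (Fin 6) → Perm (Fin 6), ∀ σ (h : σ ∈ alternatingGroup (Fin 6)),
        F σ = ((θ ⟨σ, h⟩ : alternatingGroup (Fin 6)) : Perm (Fin 6)) :=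
      ⟨fun σ => if h : σ ∈ alternatingGroup (Fin 6) then
        ((θ ⟨σ, h⟩ : alternatingGroup (Fin 6)) : Perm (Fin 6)) else σ,
        fun σ h => by simp only [dif_pos h]⟩
    have hT1c : ∀ σ ∈ T1, IsThreeCycle σ := by
      intro σ hσ
      rw [hT1] at hσ
      exact (Finset.mem_filter.mp hσ).2
    have hT1A : ∀ σ ∈ T1, σ ∈ alternatingGroup (Fin 6) :=
      fun σ hσ => (hT1c σ hσ).mem_alternatingGroup
    have hFT : ∀ σ ∈ T1, F σ ∈ T2 := by
      intro σ hσ
      rw [hF σ (hT1A σ hσ), hT2, Finset.mem_filter]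
      exact ⟨Finset.mem_univ _, hmap ⟨σ, hT1A σ hσ⟩ (hT1c σ hσ)⟩
    have hinj : Set.InjOn F T1 := by
      intro σ hσ τ hτ h
      rw [hF σ (hT1A σ hσ), hF τ (hT1A τ hτ)] at h
      have h1 := θ.injective (Subtype.ext h)
      exact Subtype.mk.inj h1
    have hcard : (T1.image F).card = T1.card := Finset.card_image_of_injOn hinj
    have himg : T1.image F = T2 := by
      apply Finset.eq_of_subset_of_card_le
      · intro τ hτ
        obtain ⟨σ, hσ, rfl⟩ := Finset.mem_image.mp hτ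
        exact hFT σ hσ
      · rw [hcard, hT1, hT2, card_type_replicate 1 3 (by norm_num) (by norm_num) (by norm_num),
          card_type_replicate 2 3 (by norm_num) (by norm_num) (by norm_num)]
        decide
    have hmem : ((θ (θ c) : alternatingGroup (Fin 6)) : Perm (Fin 6)) ∈ T1.image F := by
      rw [himg, hT2]
      exact Finset.mem_filter.mpr ⟨Finset.mem_univ _, hdd⟩
    obtain ⟨σ, hσ, hσeq⟩ := Finset.mem_image.mp hmem
    rw [hF σ (hT1A σ hσ)] at hσeq
    have h1 := θ.injective (Subtype.ext hσeq)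
    have h2 : σ = ((θ c : alternatingGroup (Fin 6)) : Perm (Fin 6)) := congrArg Subtype.val h1
    have h3 : σ.cycleType = Multiset.replicate 1 3 := hT1c σ hσ
    rw [h2, hd] at h3
    exact absurd h3 (by decide)

/-- automorphisms of `A₆` of odd order are induced by permutations. -/
theorem mem_range_of_odd (θ : MulAut (alternatingGroup (Fin 6))) (hodd : Odd (orderOf θ)) :
    ∃ σ : Perm (Fin 6), MulAut.conjNormal σ = θ := by
  have hsq : ∃ σ : Perm (Fin 6), MulAut.conjNormal σ = θ * θ := by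
    apply surj_of_preserves (by simp) (θ * θ)
    intro c hc
    exact theta_sq_pres θ c hc
  obtain ⟨σ, hσ⟩ := hsq
  have hcop : Nat.Coprime 2 (orderOf θ) :=
    (Nat.Prime.coprime_iff_not_dvd Nat.prime_two).mpr
      (by rw [← even_iff_two_dvd]; exact Nat.not_even_iff_odd.mpr hodd)
  obtain ⟨m, hm⟩ := exists_pow_eq_self_of_coprime hcop
  refine ⟨σ ^ m, ?_⟩
  rw [map_pow, hσ, ← pow_two, hm]

end aux

/-- Let n ≥ 5 and let G be a group of automorphisms of the alternating group of degree n containing all inner automorphisms. If p ≠ q are primes and G has no element of order pq, then every Sylow p-subgroup of G is abelian or every Sylow q-subgroup of G is abelian. -/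
theorem result (n : ℕ) (hn : 5 ≤ n) (G : Subgroup (MulAut (alternatingGroup (Fin n))))
    (hG : (MulAut.conj : alternatingGroup (Fin n) →* MulAut (alternatingGroup (Fin n))).range ≤ G)
    (p q : ℕ) [Fact p.Prime] [Fact q.Prime] (hpq : p ≠ q) (h : ∀ g : G, orderOf g ≠ p * q) :
    (∀ P : Sylow p G, IsMulCommutative (P : Subgroup G)) ∨ (∀ Q : Sylow q G, IsMulCommutative (Q : Subgroup G)) := by
  classical
  have hp : p.Prime := Fact.out
  have hq : q.Prime := Fact.out
  by_cases h6 : n = 6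
  · subst h6
    have key : ∀ (r : ℕ) [Fact r.Prime], r ≠ 2 →
        ∀ P : Sylow r G, IsMulCommutative (P : Subgroup G) := by
      intro r hr hr2 P
      have hr3 : 3 ≤ r := by
        have := hr.out.two_le
        omega
      apply sylow_comm_of_range (by norm_num) (by nlinarith) G P
      intro u hu
      apply mem_range_of_odd
      obtain ⟨k, hk⟩ := (IsPGroup.iff_orderOf.mp P.isPGroup') ⟨u, hu⟩
      rw [Subgroup.orderOf_mk] at hk
      rw [Subgroup.orderOf_coe, hk]
      exact (hr.out.odd_of_ne_two hr2).pow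
    by_cases hp2 : p = 2
    · right
      exact key q (by rw [← hp2]; exact Ne.symm hpq)
    · left
      exact key p hp2
  · by_contra hcon
    rw [not_or] at hcon
    obtain ⟨hP, hQ⟩ := hcon
    push Not at hP hQ
    obtain ⟨P, hPn⟩ := hP
    obtain ⟨Q, hQn⟩ := hQ
    have hbij := Cfsg.Agent.S2119.result n (by omega) h6
    have hp2 : p ^ 2 ≤ n := by
      by_contra hlt
      apply hPn
      exact sylow_comm_of_range (by omega) (by omega) G P (fun u _ => hbij.2 u.1)
    have hq2 : q ^ 2 ≤ n := by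
      by_contra hlt
      apply hQn
      exact sylow_comm_of_range (by omega) (by omega) G Q (fun u _ => hbij.2 u.1)
    obtain ⟨σ, hσA, hσo⟩ := exists_order_mul hp hq hpq hp2 hq2
    have hmem : (MulAut.conjNormal σ : MulAut (alternatingGroup (Fin n))) ∈ G := by
      apply hG
      refine ⟨⟨σ, hσA⟩, ?_⟩
      ext x
      simp [MulAut.conjNormal_apply]
    apply h ⟨MulAut.conjNormal σ, hmem⟩
    rw [Subgroup.orderOf_mk, orderOf_injective _ hbij.1, hσo]

end Cfsg.Agent.S4231
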