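import Cfsg.Statements.S4236
import Cfsg.Agent.Helper95.Syl35C

set_option autoImplicit false
open Cfsg

namespace Cfsg.Agent.S4236

universe u

/-- Strong induction on the order: a group with `35` Sylow `17`-subgroups would have a proper
normal subgroup of index prime to `17`, which again has `35` Sylow `17`-subgroups. -/
theorem card_sylow_seventeen_ne_aux (n : ℕ) :
    ∀ (G : Type u) [Group G] [Finite G], Nat.card G = n → Nat.card (Sylow 17 G) ≠ 35 := by
  induction n using Nat.strong_induction_on with
  | _ n ih =>
    intro G _ _ hn h35
    have : Fact (Nat.Prime 17) := ⟨by norm_num⟩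
    obtain ⟨K, hKn, hKidx, hKco⟩ :=
      Cfsg.Agent.Helper95.exists_normal_coprime_of_card_sylow_35 h35
    have hKcard : Nat.card K < n := by
      have h1 := Subgroup.card_mul_index K
      rw [hn] at h1
      have hpos : 0 < Nat.card K := Nat.card_pos
      have hidx0 : K.index ≠ 0 := by
        intro h0
        rw [h0, Nat.mul_zero] at h1
        have : 0 < Nat.card G := Nat.card_pos
        omega
      have h2 : 2 ≤ K.index := by omega
      calc Nat.card K < Nat.card K * 2 := by omega
        _ ≤ Nat.card K * K.index := Nat.mul_le_mul_left _ h2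
        _ = n := h1
    have hsyl : Nat.card (Sylow 17 K) = Nat.card (Sylow 17 G) :=
      Cfsg.Agent.Helper71.card_sylow_of_normal_of_coprime K hKco
    exact ih (Nat.card K) hKcard K rfl (hsyl.trans h35)

/-- No finite group has exactly 35 Sylow 17-subgroups. -/
theorem result {G : Type*} [Group G] [Finite G] : Nat.card (Sylow 17 G) ≠ 35 := by
  exact card_sylow_seventeen_ne_aux (Nat.card G) G rfl

end Cfsg.Agent.S4236
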