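import Cfsg.Statements.S4237
import Cfsg.Agent.Helper65.Kulakoff

set_option autoImplicit false
universe u v
open Cfsg

namespace Cfsg.Agent.S4237

open Cfsg.Agent.Helper65.SubCount

attribute [local instance] cjAct

theorem index_stabilizer_smul {Γ X : Type*} [Group Γ] [MulAction Γ X] (g : Γ) (x : X) :
    (MulAction.stabilizer Γ (g • x)).index = (MulAction.stabilizer Γ x).index := by
  rw [MulAction.index_stabilizer, MulAction.index_stabilizer, MulAction.orbit_smul]

theorem card_fiber_val {α : Type*} (A : α → Prop) (x : α) (hx : A x) :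
    Nat.card {y : {z // A z} // y.1 = x} = 1 := by
  rw [Nat.card_eq_one_iff_unique]
  exact ⟨⟨fun a b => Subtype.ext (Subtype.ext (a.2.trans b.2.symm))⟩, ⟨⟨⟨x, hx⟩, rfl⟩⟩⟩

theorem card_fiber_val_of_not {α : Type*} (A : α → Prop) (x : α) (hx : ¬ A x) :
    Nat.card {y : {z // A z} // y.1 = x} = 0 := by
  have : IsEmpty {y : {z // A z} // y.1 = x} := ⟨fun y => hx (y.2 ▸ y.1.2)⟩
  exact Nat.card_of_isEmpty

/-- A `p`-subgroup normalized by a Sylow `p`-subgroup lies in it. -/
theorem le_sylow_of_normalizes {G : Type*} [Group G] [Finite G] {p : ℕ} [Fact p.Prime]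
    (P : Sylow p G) {H : Subgroup G} (hH : IsPGroup p H)
    (hN : (P : Subgroup G) ≤ Subgroup.normalizer (H : Set G)) : H ≤ (P : Subgroup G) := by
  have hsup : IsPGroup p ↥(H ⊔ (P : Subgroup G)) :=
    IsPGroup.to_sup_of_normal_left' hH P.isPGroup' hN
  have h3 := P.is_maximal' hsup le_sup_right
  exact le_sup_left.trans (le_of_eq h3)

theorem eq_or_eq_of_card_mul_prime {G : Type*} [Group G] [Finite G] {p : ℕ} [Fact p.Prime]
    {A B C : Subgroup G} (hAB : A ≤ B) (hBC : B ≤ C) (h : Nat.card A * p = Nat.card C) :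
    B = A ∨ B = C := by
  have hp : p.Prime := Fact.out
  obtain ⟨d, hd⟩ := Subgroup.card_dvd_of_le hAB
  have hA0 : 0 < Nat.card A := Nat.card_pos
  have h2 : Nat.card B ∣ Nat.card C := Subgroup.card_dvd_of_le hBC
  rw [hd, ← h] at h2
  have h3 : d ∣ p := Nat.dvd_of_mul_dvd_mul_left hA0 h2
  rcases (Nat.dvd_prime hp).mp h3 with h4 | h4
  · left
    symm
    apply Subgroup.eq_of_le_of_card_ge hAB
    rw [hd, h4, mul_one]
  · right
    apply Subgroup.eq_of_le_of_card_ge hBC
    rw [hd, h4, h]

/-- `H` has order `p ^ a`, lies outside `P`, and its `P`-orbit has length dividing `p`. -/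
def Near {G : Type*} [Group G] (P : Subgroup G) (p a : ℕ) (H : Subgroup G) : Prop :=
  (Nat.card H = p ^ a ∧ ¬ H ≤ P) ∧ (MulAction.stabilizer ↥P H).index ∣ p

/-- `H · N_P(H)`. -/
def nsup {G : Type*} [Group G] (P H : Subgroup G) : Subgroup G :=
  H ⊔ (P ⊓ Subgroup.normalizer (H : Set G))

theorem card_inf_normalizer_mul_prime {G : Type*} [Group G] [Finite G] {p : ℕ} [Fact p.Prime]
    (P : Sylow p G) (H : Subgroup G) (hH : IsPGroup p H) (hHP : ¬ H ≤ (P : Subgroup G))
    (hidx : (MulAction.stabilizer ↥(P : Subgroup G) H).index ∣ p) :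
    Nat.card ↥((P : Subgroup G) ⊓ Subgroup.normalizer (H : Set G)) * p =
      Nat.card ↥(P : Subgroup G) := by
  have hp : p.Prime := Fact.out
  have h1 := card_inf_normalizer_mul_index (P : Subgroup G) H
  rcases (Nat.dvd_prime hp).mp hidx with h | h
  · exfalso
    rw [h, mul_one] at h1
    have h2 : (P : Subgroup G) ⊓ Subgroup.normalizer (H : Set G) = (P : Subgroup G) :=
      Subgroup.eq_of_le_of_card_ge inf_le_left (le_of_eq h1.symm)
    exact hHP (le_sylow_of_normalizes P hH (inf_eq_left.mp h2))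
  · rw [h] at h1
    exact h1

theorem near_facts {G : Type*} [Group G] [Finite G] {p : ℕ} [Fact p.Prime]
    (P : Sylow p G) (H : Subgroup G) (hH : IsPGroup p H) (hHP : ¬ H ≤ (P : Subgroup G))
    (hidx : (MulAction.stabilizer ↥(P : Subgroup G) H).index ∣ p) :
    nsup (P : Subgroup G) H ⊓ (P : Subgroup G) =
        (P : Subgroup G) ⊓ Subgroup.normalizer (H : Set G) ∧
      IsPGroup p ↥(nsup (P : Subgroup G) H) ∧
      Nat.card ↥(nsup (P : Subgroup G) H) = Nat.card ↥(P : Subgroup G) := by
  have hp : p.Prime := Fact.out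
  have hc := card_inf_normalizer_mul_prime P H hH hHP hidx
  show (H ⊔ ((P : Subgroup G) ⊓ Subgroup.normalizer (H : Set G))) ⊓ (P : Subgroup G) =
        (P : Subgroup G) ⊓ Subgroup.normalizer (H : Set G) ∧
      IsPGroup p ↥(H ⊔ ((P : Subgroup G) ⊓ Subgroup.normalizer (H : Set G))) ∧
      Nat.card ↥(H ⊔ ((P : Subgroup G) ⊓ Subgroup.normalizer (H : Set G))) =
        Nat.card ↥(P : Subgroup G)
  obtain ⟨NP, hNP⟩ : ∃ NP, NP = (P : Subgroup G) ⊓ Subgroup.normalizer (H : Set G) := ⟨_, rfl⟩
  rw [← hNP] at hc ⊢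
  have hNPP : NP ≤ (P : Subgroup G) := by rw [hNP]; exact inf_le_left
  have hNPN : NP ≤ Subgroup.normalizer (H : Set G) := by rw [hNP]; exact inf_le_right
  have hNPp : IsPGroup p NP := P.isPGroup'.to_le hNPP
  have hS : IsPGroup p ↥(H ⊔ NP) := IsPGroup.to_sup_of_normal_left' hH hNPp hNPN
  have hSP : ¬ (P : Subgroup G) ≤ H ⊔ NP := by
    intro hle
    have h3 := P.is_maximal' hS hle
    exact hHP (le_sup_left.trans (le_of_eq h3))
  have hQ : (H ⊔ NP) ⊓ (P : Subgroup G) = NP := by
    rcases eq_or_eq_of_card_mul_prime (le_inf le_sup_right hNPP)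
      (inf_le_right : (H ⊔ NP) ⊓ (P : Subgroup G) ≤ (P : Subgroup G)) hc with h | h
    · exact h
    · exfalso
      exact hSP (inf_eq_right.mp h)
  refine ⟨hQ, hS, ?_⟩
  obtain ⟨P', hP'⟩ := hS.exists_le_sylow
  have hcP' : Nat.card ↥(P' : Subgroup G) = Nat.card ↥(P : Subgroup G) := by
    rw [Sylow.card_eq_multiplicity, Sylow.card_eq_multiplicity]
  rcases eq_or_eq_of_card_mul_prime (le_sup_right : NP ≤ H ⊔ NP) hP' (hc.trans hcP'.symm)
    with h | h
  · exfalso
    exact hHP ((le_sup_left.trans (le_of_eq h)).trans hNPP)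
  · rw [h, hcP']

theorem near_iff {G : Type*} [Group G] [Finite G] {p : ℕ} [Fact p.Prime]
    (P : Sylow p G) (a : ℕ) (S : Subgroup G)
    (hQc : Nat.card ↥(S ⊓ (P : Subgroup G)) * p = Nat.card ↥(P : Subgroup G))
    (hSc : Nat.card S = Nat.card ↥(P : Subgroup G)) (H : Subgroup G) (hH : Nat.card H = p ^ a) :
    (Near (P : Subgroup G) p a H ∧ nsup (P : Subgroup G) H = S) ↔
      ((Nat.card H = p ^ a ∧ H ≤ S ∧
        S ⊓ (P : Subgroup G) ≤ Subgroup.normalizer (H : Set G)) ∧
          ¬ H ≤ S ⊓ (P : Subgroup G)) := by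
  have hHp : IsPGroup p H := IsPGroup.of_card hH
  constructor
  · rintro ⟨⟨⟨-, hHP⟩, hidx⟩, hS⟩
    obtain ⟨h1, -, -⟩ := near_facts P H hHp hHP hidx
    rw [hS] at h1
    have hHS : H ≤ S := by
      rw [← hS]
      exact (le_sup_left : H ≤ H ⊔ ((P : Subgroup G) ⊓ Subgroup.normalizer (H : Set G)))
    refine ⟨⟨hH, hHS, ?_⟩, fun h => hHP (h.trans inf_le_right)⟩
    rw [h1]
    exact inf_le_right
  · rintro ⟨⟨-, hHS, hQN⟩, hHQ⟩
    have hHP : ¬ H ≤ (P : Subgroup G) := fun h => hHQ (le_inf hHS h)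
    have hNPne : (P : Subgroup G) ⊓ Subgroup.normalizer (H : Set G) ≠ (P : Subgroup G) := by
      intro h
      exact hHP (le_sylow_of_normalizes P hHp (inf_eq_left.mp h))
    have hNP : (P : Subgroup G) ⊓ Subgroup.normalizer (H : Set G) = S ⊓ (P : Subgroup G) := by
      rcases eq_or_eq_of_card_mul_prime (le_inf inf_le_right hQN :
        S ⊓ (P : Subgroup G) ≤ (P : Subgroup G) ⊓ Subgroup.normalizer (H : Set G))
        inf_le_left hQc with h | h
      · exact h
      · exact absurd h hNPne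
    have hidx : (MulAction.stabilizer ↥(P : Subgroup G) H).index ∣ p := by
      have h1 := card_inf_normalizer_mul_index (P : Subgroup G) H
      rw [hNP, ← hQc] at h1
      have h2 := Nat.eq_of_mul_eq_mul_left Nat.card_pos h1
      rw [h2]
    refine ⟨⟨⟨hH, hHP⟩, hidx⟩, ?_⟩
    show H ⊔ ((P : Subgroup G) ⊓ Subgroup.normalizer (H : Set G)) = S
    rw [hNP]
    rcases eq_or_eq_of_card_mul_prime
      (le_sup_right : S ⊓ (P : Subgroup G) ≤ H ⊔ S ⊓ (P : Subgroup G))
      (sup_le hHS inf_le_left) (hQc.trans hSc.symm) with h | h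
    · exfalso
      exact hHQ (le_sup_left.trans (le_of_eq h))
    · exact h

theorem near_smul {G : Type*} [Group G] [Finite G] {p : ℕ} [Fact p.Prime]
    (P : Sylow p G) (a : ℕ) (g : ↥(P : Subgroup G)) (H : Subgroup G)
    (h : Near (P : Subgroup G) p a H) : Near (P : Subgroup G) p a (g • H) := by
  obtain ⟨⟨h1, h2⟩, h3⟩ := h
  refine ⟨⟨(card_cj _ _).trans h1, fun h => h2 ((cj_le_iff_of_mem g.2).mp h)⟩, ?_⟩
  rw [index_stabilizer_smul]
  exact h3

theorem nsup_smul {G : Type*} [Group G] (P : Subgroup G) (g : ↥P) (H : Subgroup G) :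
    nsup P (g • H) = g • nsup P H := by
  show cj (g : G) H ⊔ (P ⊓ Subgroup.normalizer ((cj (g : G) H : Subgroup G) : Set G)) =
    cj (g : G) (H ⊔ (P ⊓ Subgroup.normalizer (H : Set G)))
  rw [cj_sup, cj_inf, cj_normalizer, cj_eq_self_of_mem g.2]

/-- The subgroups of order `p ^ a` outside `P` whose `P`-orbit has length `p`: their number is
divisible by `p ^ 2`. -/
theorem card_near_dvd {G : Type*} [Group G] [Finite G] {p : ℕ} [Fact p.Prime]
    (P : Sylow p G) (a : ℕ) (ha : p ^ (a + 1) ∣ Nat.card G) :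
    p ^ 2 ∣ Nat.card {H : Subgroup G // Near (P : Subgroup G) p a H} := by
  classical
  have hp : p.Prime := Fact.out
  have hcP := P.card_eq_multiplicity
  have hn : a + 1 ≤ (Nat.card G).factorization p :=
    (hp.pow_dvd_iff_le_factorization Nat.card_pos.ne').mp ha
  have hle : ∀ (g : ↥(P : Subgroup G)) (S : Subgroup G),
      Nat.card {y : {H : Subgroup G // Near (P : Subgroup G) p a H} //
        nsup (P : Subgroup G) y.1 = S} ≤
      Nat.card {y : {H : Subgroup G // Near (P : Subgroup G) p a H} //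
        nsup (P : Subgroup G) y.1 = g • S} := by
    intro g S
    apply Nat.card_le_card_of_injective
      (fun y : {y : {H : Subgroup G // Near (P : Subgroup G) p a H} //
          nsup (P : Subgroup G) y.1 = S} =>
        (⟨⟨g • y.1.1, near_smul P a g y.1.1 y.1.2⟩, by
          show nsup (P : Subgroup G) (g • y.1.1) = g • S
          rw [nsup_smul, y.2]⟩ :
          {y : {H : Subgroup G // Near (P : Subgroup G) p a H} //
            nsup (P : Subgroup G) y.1 = g • S}))
    intro y y' hyy'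
    have h1 : g • y.1.1 = g • y'.1.1 := congrArg (fun z => z.1.1) hyy'
    exact Subtype.ext (Subtype.ext (MulAction.injective g h1))
  apply dvd_card_of_orbit_fibers (Γ := ↥(P : Subgroup G))
    (fun y : {H : Subgroup G // Near (P : Subgroup G) p a H} => nsup (P : Subgroup G) y.1) (p ^ 2)
  · intro g S
    apply le_antisymm
    · have := hle g⁻¹ (g • S)
      rwa [inv_smul_smul] at this
    · exact hle g S
  · intro S
    by_cases hne : Nonempty {y : {H : Subgroup G // Near (P : Subgroup G) p a H} //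
        nsup (P : Subgroup G) y.1 = S}
    swap
    · have : IsEmpty {y : {H : Subgroup G // Near (P : Subgroup G) p a H} //
          nsup (P : Subgroup G) y.1 = S} := not_nonempty_iff.mp hne
      rw [Nat.card_of_isEmpty, mul_zero]
      exact dvd_zero _
    obtain ⟨⟨⟨H₀, ⟨hH₀c, hH₀P⟩, hH₀i⟩, hH₀S⟩⟩ := hne
    have hH₀S' : nsup (P : Subgroup G) H₀ = S := hH₀S
    have hH₀p : IsPGroup p H₀ := IsPGroup.of_card hH₀c
    obtain ⟨f1, f2, f3⟩ := near_facts P H₀ hH₀p hH₀P hH₀i
    rw [hH₀S'] at f1 f2 f3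
    have hQc : Nat.card ↥(S ⊓ (P : Subgroup G)) * p = Nat.card ↥(P : Subgroup G) := by
      rw [f1]
      exact card_inf_normalizer_mul_prime P H₀ hH₀p hH₀P hH₀i
    have hH₀S'' : H₀ ≤ S := by
      rw [← hH₀S']
      exact (le_sup_left : H₀ ≤ H₀ ⊔ ((P : Subgroup G) ⊓ Subgroup.normalizer (H₀ : Set G)))
    -- the orbit of `S` is nontrivial
    have hidxS : p ∣ (MulAction.stabilizer ↥(P : Subgroup G) S).index := by
      obtain ⟨j, hj⟩ := (P.isPGroup').index (MulAction.stabilizer ↥(P : Subgroup G) S)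
      rcases Nat.eq_zero_or_pos j with h0 | h0
      · exfalso
        rw [h0, pow_zero, Subgroup.index_eq_one] at hj
        have hPN : (P : Subgroup G) ≤ Subgroup.normalizer (S : Set G) := by
          intro g hg
          have hmem : (⟨g, hg⟩ : ↥(P : Subgroup G)) ∈
              MulAction.stabilizer ↥(P : Subgroup G) S := by
            rw [hj]
            exact Subgroup.mem_top _
          exact (cj_eq_self_iff g S).mp (MulAction.mem_stabilizer_iff.mp hmem)
        exact hH₀P (hH₀S''.trans (le_sylow_of_normalizes P f2 hPN))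
      · rw [hj]
        exact dvd_pow_self p (by omega)
    -- the fibre over `S`
    have hfib : p ∣ Nat.card {y : {H : Subgroup G // Near (P : Subgroup G) p a H} //
        nsup (P : Subgroup G) y.1 = S} := by
      have e1 : Nat.card {y : {H : Subgroup G // Near (P : Subgroup G) p a H} //
          nsup (P : Subgroup G) y.1 = S} =
          Nat.card {H : Subgroup G // (Nat.card H = p ^ a ∧ H ≤ S ∧
            S ⊓ (P : Subgroup G) ≤ Subgroup.normalizer (H : Set G)) ∧
              ¬ H ≤ S ⊓ (P : Subgroup G)} := by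
        apply Nat.card_congr
        exact
          { toFun := fun y => ⟨y.1.1,
              (near_iff P a S hQc f3 y.1.1 y.1.2.1.1).mp ⟨y.1.2, y.2⟩⟩
            invFun := fun H => ⟨⟨H.1, ((near_iff P a S hQc f3 H.1 H.2.1.1).mpr H.2).1⟩,
              ((near_iff P a S hQc f3 H.1 H.2.1.1).mpr H.2).2⟩
            left_inv := fun y => rfl
            right_inv := fun H => rfl }
      have e2 := card_subtype_split (fun H : Subgroup G => Nat.card H = p ^ a ∧ H ≤ S ∧
        S ⊓ (P : Subgroup G) ≤ Subgroup.normalizer (H : Set G))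
        (fun H => H ≤ S ⊓ (P : Subgroup G))
      have e3 : Nat.card {H : Subgroup G // (Nat.card H = p ^ a ∧ H ≤ S ∧
          S ⊓ (P : Subgroup G) ≤ Subgroup.normalizer (H : Set G)) ∧ H ≤ S ⊓ (P : Subgroup G)} =
          Nat.card {H : Subgroup G // Nat.card H = p ^ a ∧ H ≤ S ⊓ (P : Subgroup G) ∧
            S ⊓ (P : Subgroup G) ≤ Subgroup.normalizer (H : Set G)} :=
        Nat.card_congr (Equiv.subtypeEquivRight (fun H =>
          ⟨fun h => ⟨h.1.1, h.2, h.1.2.2⟩, fun h => ⟨⟨h.1, h.2.1.trans inf_le_left, h.2.2⟩, h.2.1⟩⟩))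
      have hQp : IsPGroup p ↥(S ⊓ (P : Subgroup G)) := f2.to_le inf_le_left
      have hSdvd : p ^ a ∣ Nat.card S := by
        rw [f3, hcP]
        exact pow_dvd_pow p (by omega)
      have hQdvd : p ^ a ∣ Nat.card ↥(S ⊓ (P : Subgroup G)) := by
        have h1 : p ^ (Nat.card G).factorization p =
            p ^ ((Nat.card G).factorization p - 1) * p := by
          rw [← pow_succ]
          congr 1
          omega
        rw [hcP, h1] at hQc
        rw [Nat.eq_of_mul_eq_mul_right hp.pos hQc]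
        exact pow_dvd_pow p (by omega)
      have m1 := card_normalized_modEq_one (S ⊓ (P : Subgroup G)) S inf_le_left hQp a hSdvd
      have m2 := card_normalized_modEq_one (S ⊓ (P : Subgroup G)) (S ⊓ (P : Subgroup G))
        le_rfl hQp a hQdvd
      rw [e1]
      rw [e3] at e2
      have h5 : Nat.card {H : Subgroup G // Nat.card H = p ^ a ∧ H ≤ S ⊓ (P : Subgroup G) ∧
            S ⊓ (P : Subgroup G) ≤ Subgroup.normalizer (H : Set G)} +
          Nat.card {H : Subgroup G // (Nat.card H = p ^ a ∧ H ≤ S ∧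
            S ⊓ (P : Subgroup G) ≤ Subgroup.normalizer (H : Set G)) ∧
              ¬ H ≤ S ⊓ (P : Subgroup G)} ≡
          Nat.card {H : Subgroup G // Nat.card H = p ^ a ∧ H ≤ S ⊓ (P : Subgroup G) ∧
            S ⊓ (P : Subgroup G) ≤ Subgroup.normalizer (H : Set G)} + 0 [MOD p] := by
        rw [← e2, add_zero]
        exact m1.trans m2.symm
      exact (Nat.modEq_zero_iff_dvd).mp (Nat.ModEq.add_left_cancel' _ h5)
    rw [pow_two]
    exact mul_dvd_mul hidxS hfib

/-- An invariant set of points all of whose orbit lengths are divisible by `d` has cardinality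
divisible by `d`. -/
theorem dvd_card_of_pred {Γ X : Type*} [Group Γ] [MulAction Γ X] [Finite X] (A : X → Prop)
    (d : ℕ) (hinv : ∀ (g : Γ) (x : X), A x → A (g • x))
    (hdvd : ∀ x, A x → d ∣ (MulAction.stabilizer Γ x).index) : d ∣ Nat.card {x // A x} := by
  apply dvd_card_of_orbit_fibers (Γ := Γ) (fun y : {x // A x} => y.1) d
  · intro g x
    by_cases hx : A x
    · rw [card_fiber_val A x hx, card_fiber_val A (g • x) (hinv g x hx)]
    · have hx' : ¬ A (g • x) := by
        intro h
        have := hinv g⁻¹ (g • x) h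
        rw [inv_smul_smul] at this
        exact hx this
      rw [card_fiber_val_of_not A x hx, card_fiber_val_of_not A (g • x) hx']
  · intro x
    by_cases hx : A x
    · rw [card_fiber_val A x hx, mul_one]
      exact hdvd x hx
    · rw [card_fiber_val_of_not A x hx, mul_zero]
      exact dvd_zero _

/-- The subgroups of order `p ^ a` outside `P` whose `P`-orbit has length at least `p ^ 2`:
their number is divisible by `p ^ 2`. -/
theorem card_far_dvd {G : Type*} [Group G] [Finite G] {p : ℕ} [Fact p.Prime]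
    (P : Sylow p G) (a : ℕ) :
    p ^ 2 ∣ Nat.card {H : Subgroup G // (Nat.card H = p ^ a ∧ ¬ H ≤ (P : Subgroup G)) ∧
      ¬ ((MulAction.stabilizer ↥(P : Subgroup G) H).index ∣ p)} := by
  classical
  have hp : p.Prime := Fact.out
  apply dvd_card_of_pred (Γ := ↥(P : Subgroup G))
    (fun H : Subgroup G => (Nat.card H = p ^ a ∧ ¬ H ≤ (P : Subgroup G)) ∧
      ¬ ((MulAction.stabilizer ↥(P : Subgroup G) H).index ∣ p)) (p ^ 2)
  · rintro g H ⟨⟨h1, h2⟩, h3⟩
    refine ⟨⟨(card_cj _ _).trans h1, fun h => h2 ((cj_le_iff_of_mem g.2).mp h)⟩, ?_⟩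
    rw [index_stabilizer_smul]
    exact h3
  · intro S hS
    obtain ⟨j, hj⟩ := (P.isPGroup').index (MulAction.stabilizer ↥(P : Subgroup G) S)
    rw [hj]
    apply pow_dvd_pow
    by_contra hlt
    apply hS.2
    rw [hj]
    have hj1 : j = 0 ∨ j = 1 := by omega
    rcases hj1 with h | h
    · rw [h, pow_zero]; exact one_dvd p
    · rw [h, pow_one]

/-- Modulo `p ^ 2`, the number of subgroups of order `p ^ a` of `G` equals that of a Sylow
`p`-subgroup (when `p ^ (a + 1)` divides the order of `G`). -/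
theorem card_subgroups_modEq_sylow {G : Type*} [Group G] [Finite G] {p : ℕ} [Fact p.Prime]
    (P : Sylow p G) (a : ℕ) (ha : p ^ (a + 1) ∣ Nat.card G) :
    Nat.card {H : Subgroup G // Nat.card H = p ^ a} ≡
      Nat.card {K : Subgroup ↥(P : Subgroup G) // Nat.card K = p ^ a} [MOD p ^ 2] := by
  have e1 := card_subtype_split (fun H : Subgroup G => Nat.card H = p ^ a)
    (fun H => H ≤ (P : Subgroup G))
  have e2 := card_subtype_split
    (fun H : Subgroup G => Nat.card H = p ^ a ∧ ¬ H ≤ (P : Subgroup G))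
    (fun H => (MulAction.stabilizer ↥(P : Subgroup G) H).index ∣ p)
  have d1 : p ^ 2 ∣ Nat.card {H : Subgroup G //
      (Nat.card H = p ^ a ∧ ¬ H ≤ (P : Subgroup G)) ∧
        (MulAction.stabilizer ↥(P : Subgroup G) H).index ∣ p} := card_near_dvd P a ha
  have d2 := card_far_dvd P a
  rw [e1, card_subgroups_le, e2]
  have h := (Nat.modEq_zero_iff_dvd.mpr (dvd_add d1 d2)).add_left
    (Nat.card {K : Subgroup ↥(P : Subgroup G) // Nat.card K = p ^ a})
  rwa [add_zero] at h

/-- Let G be a finite group, p a prime and a a natural number such that p^(a+1) divides the order of G. Then the number of subgroups of G of order p^a is congruent to 1 or to 1 + p modulo p². -/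
theorem result {G : Type*} [Group G] [Finite G] (p a : ℕ) (hp : p.Prime) (hdvd : p ^ (a + 1) ∣ Nat.card G) :
    Nat.card {H : Subgroup G // Nat.card H = p ^ a} ≡ 1 [MOD p ^ 2] ∨
      Nat.card {H : Subgroup G // Nat.card H = p ^ a} ≡ 1 + p [MOD p ^ 2] := by
  have : Fact p.Prime := ⟨hp⟩
  by_cases hp2 : p = 2
  · subst hp2
    have h1 := Cfsg.Agent.Helper66.card_subgroups_prime_pow_modEq_one 2 a hp
      ((pow_dvd_pow 2 (Nat.le_succ a)).trans hdvd)
    have h2 : Nat.card {H : Subgroup G // Nat.card H = 2 ^ a} % 4 = 1 ∨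
        Nat.card {H : Subgroup G // Nat.card H = 2 ^ a} % 4 = 3 := by
      unfold Nat.ModEq at h1
      omega
    rcases h2 with h | h
    · left; exact h
    · right; exact h
  · obtain ⟨P⟩ : Nonempty (Sylow p G) := inferInstance
    have h1 := card_subgroups_modEq_sylow P a hdvd
    have hcP := P.card_eq_multiplicity
    have hn : a + 1 ≤ (Nat.card G).factorization p :=
      (hp.pow_dvd_iff_le_factorization Nat.card_pos.ne').mp hdvd
    by_cases hcyc : IsCyclic ↥(P : Subgroup G)
    · left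
      refine h1.trans ?_
      rw [Cfsg.Agent.Helper66.card_subgroups_of_isCyclic p a hp
        (by rw [hcP]; exact pow_dvd_pow p (by omega))]
    · rcases Nat.eq_zero_or_pos a with ha0 | ha0
      · left
        subst ha0
        have h3 : Nat.card {H : Subgroup G // Nat.card H = p ^ 0} = 1 := by
          rw [Nat.card_eq_one_iff_unique]
          refine ⟨⟨fun A B => Subtype.ext ?_⟩, ⟨⟨⊥, by simp⟩⟩⟩
          have hA : Nat.card ↥A.1 = 1 := A.2.trans (pow_zero p)
          have hB : Nat.card ↥B.1 = 1 := B.2.trans (pow_zero p)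
          rw [Subgroup.card_eq_one] at hA hB
          rw [hA, hB]
        rw [h3]
      · right
        exact h1.trans (Cfsg.Agent.Helper65.Kulakoff.card_subgroups_modEq hp2 _
          ↥(P : Subgroup G) hcP hcyc a ha0 (by omega))

end Cfsg.Agent.S4237
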