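import Cfsg.Statements.S4238
import Cfsg.Agent.Helper70.FrobComp2
import Cfsg.Agent.Helper70.PNilSection

set_option autoImplicit false
open Cfsg

namespace Cfsg.Agent.S4238

open Subgroup Cfsg.Agent.Helper70

/-- Let G be a finite group and p a prime. Then G has a normal p-complement if and only if every section K = H/N of G (N a normal subgroup of a subgroup H) whose largest normal subgroup of order prime to p is trivial contains an element whose order equals the exponent of K. -/
theorem result {G : Type*} [Group G] [Finite G] (p : ℕ) [Fact p.Prime] :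
    Cfsg.HasNormalPComplement p G ↔
      ∀ (H : Subgroup G) (N : Subgroup H) [N.Normal], Cfsg.pPrimeCore p (H ⧸ N) = ⊥ →
        ∃ k : H ⧸ N, orderOf k = Monoid.exponent (H ⧸ N) := by
  constructor
  · intro h H N _ hcore
    have h1 : HasNPC p (H ⧸ N) :=
      HasNPC.of_surjective (QuotientGroup.mk' N) (QuotientGroup.mk'_surjective N)
        ((hasNormalPComplement_iff_hasNPC.mp h).subgroup H)
    obtain ⟨L, hLn, hLc, k, hLi⟩ := h1
    have hL : L = ⊥ := by
      rw [eq_bot_iff, ← hcore]
      exact le_sSup ⟨hLn, hLc⟩
    rw [hL, Subgroup.index_bot] at hLi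
    exact exists_orderOf_eq_exponent_of_isPGroup (IsPGroup.of_card hLi)
  · intro h
    by_contra hne
    rw [hasNormalPComplement_iff_hasNPC] at hne
    obtain ⟨H, N, hNn, h1, h2, h3⟩ := exists_min_section hne
    obtain ⟨hc2, hc5⟩ := min_section_facts h1 h2 h3
    have hcore : Cfsg.pPrimeCore p (H ⧸ N) = ⊥ := by
      unfold Cfsg.pPrimeCore
      rw [eq_bot_iff]
      apply sSup_le
      rintro M ⟨hMn, hMc⟩
      rw [hc2 M hMn hMc]
    obtain ⟨k, hk⟩ := h H N hcore
    exact hc5 k hk

end Cfsg.Agent.S4238
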