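-- Statement S4242: groups all of whose maximal subgroups of order divisible by p are nilpotent.
import Cfsg.Statements.S4242
import Cfsg.Agent.Helper70.NilMax

set_option autoImplicit false
open Cfsg

namespace Cfsg.Agent.S4242

open Subgroup Cfsg.Agent.Helper70

universe u

theorem nilpotent_of_le {G : Type*} [Group G] {A B : Subgroup G} (h : A ≤ B)
    (hB : Group.IsNilpotent B) : Group.IsNilpotent A := by
  have : Group.IsNilpotent (A.subgroupOf B) := inferInstance
  exact Group.nilpotent_of_mulEquiv (Subgroup.subgroupOfEquivOfLe h)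

section Forward

variable {G : Type u} [Group G] [Finite G] {p : ℕ} [hp : Fact p.Prime]

omit [Finite G] hp in
theorem eq_one_of_pow_of_coprime (x : G) (k : ℕ) (hx : x ^ p ^ k = 1)
    (hcop : (orderOf x).Coprime p) : x = 1 := by
  have h1 : orderOf x ∣ p ^ k := orderOf_dvd_of_pow_eq_one hx
  have h2 : (orderOf x).Coprime (p ^ k) := Nat.Coprime.pow_right k hcop
  have h3 : orderOf x = 1 := Nat.Coprime.eq_one_of_dvd h2 h1
  exact orderOf_eq_one_iff.mp h3

theorem dvd_card_of_pGroup_ne_bot (Q : Subgroup G) (hQ : IsPGroup p Q) (hQb : Q ≠ ⊥) :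
    p ∣ Nat.card Q := by
  obtain ⟨n, hn⟩ := IsPGroup.iff_card.mp hQ
  rw [hn]
  have : n ≠ 0 := by
    rintro rfl
    rw [pow_zero] at hn
    exact hQb (Subgroup.card_eq_one.mp hn)
  exact dvd_pow_self p this

variable (hyp : ∀ M : Subgroup G, IsCoatom M → p ∣ Nat.card M → Group.IsNilpotent M)

omit hp in
include hyp in
theorem nil_of_proper (A : Subgroup G) (hA : A ≠ ⊤) (hpA : p ∣ Nat.card A) :
    Group.IsNilpotent A := by
  rcases eq_top_or_exists_le_coatom A with h | ⟨M, hM, hAM⟩
  · exact absurd h hA
  · exact nilpotent_of_le hAM (hyp M hM (hpA.trans (Subgroup.card_dvd_of_le hAM)))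

include hyp in
/-- In a proper subgroup of order divisible by `p`, `p`-elements commute with `p'`-elements. -/
theorem commute_of_proper (A : Subgroup G) (hA : A ≠ ⊤) (hpA : p ∣ Nat.card A) (x h : G)
    (hx : x ∈ A) (hh : h ∈ A) (k : ℕ) (hxk : x ^ p ^ k = 1) (hcop : (orderOf h).Coprime p) :
    x * h = h * x := by
  have hAn : Group.IsNilpotent A := nil_of_proper hyp A hA hpA
  have := commute_of_isNilpotent (G := A) (p := p) ⟨x, hx⟩ ⟨h, hh⟩ k
    (Subtype.ext (by simpa using hxk)) (by rwa [Subgroup.orderOf_mk])
  simpa using congrArg Subtype.val this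

include hyp in
theorem forward (hpG : p ∣ Nat.card G) (hnil : ¬ Group.IsNilpotent G)
    (hmin : ¬ Cfsg.IsMinimalNonNilpotent G) :
    ∃ Z K : Subgroup G, Z.Normal ∧ K.Normal ∧ Z ⊓ K = ⊥ ∧ Z ⊔ K = ⊤ ∧ Nat.card Z = p ∧
      Cfsg.IsMinimalNonNilpotent K ∧ ¬ p ∣ Nat.card K := by
  have hpp := hp.out
  have hH : ∃ H : Subgroup G, IsCoatom H ∧ ¬ Group.IsNilpotent H := by
    by_contra hcon
    push Not at hcon
    apply hmin
    refine ⟨hnil, fun A hA => ?_⟩
    rcases eq_top_or_exists_le_coatom A with h | ⟨M, hM, hAM⟩
    · exact absurd h hA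
    · exact nilpotent_of_le hAM (hcon M hM)
  obtain ⟨H, hHc, hHn⟩ := hH
  have hpH : ¬ p ∣ Nat.card H := fun h => hHn (hyp H hHc h)
  have hHcop : ∀ x ∈ H, (orderOf x).Coprime p := by
    intro x hx
    have h1 : orderOf x ∣ Nat.card H := by
      have := orderOf_dvd_natCard (⟨x, hx⟩ : H)
      rwa [Subgroup.orderOf_mk] at this
    exact Nat.Coprime.coprime_dvd_left h1 ((Nat.Prime.coprime_iff_not_dvd hpp).mpr hpH).symm
  obtain ⟨P⟩ : Nonempty (Sylow p G) := inferInstance
  have hPb : (P : Subgroup G) ≠ ⊥ := P.ne_bot_of_dvd_card hpG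
  have hPpow : ∀ x ∈ (P : Subgroup G), ∃ k : ℕ, x ^ p ^ k = 1 := by
    intro x hx
    obtain ⟨k, hk⟩ := P.isPGroup' ⟨x, hx⟩
    exact ⟨k, by simpa using congrArg Subtype.val hk⟩
  have hPH : ∀ x ∈ (P : Subgroup G), x ∈ H → x = 1 := by
    intro x hxP hxH
    obtain ⟨k, hk⟩ := hPpow x hxP
    exact eq_one_of_pow_of_coprime x k hk (hHcop x hxH)
  have hpP : p ∣ Nat.card (P : Subgroup G) := dvd_card_of_pGroup_ne_bot _ P.isPGroup' hPb
  by_cases hPn : (P : Subgroup G).Normal
  · -- Case A: `P` is normal
    have hsup : (P : Subgroup G) ⊔ H = ⊤ := by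
      apply hHc.2
      refine lt_of_le_of_ne le_sup_right ?_
      intro h
      have h1 : (P : Subgroup G) ≤ H := by rw [h]; exact le_sup_left
      exact hPb (eq_bot_iff.mpr fun x hx => Subgroup.mem_bot.mpr (hPH x hx (h1 hx)))
    -- proper subgroups of `H` are nilpotent and centralize `P`
    have hC1 : ∀ H₁ : Subgroup G, H₁ ≤ H → H₁ ≠ H →
        Group.IsNilpotent H₁ ∧ ∀ h ∈ H₁, ∀ x ∈ (P : Subgroup G), x * h = h * x := by
      intro H₁ hle hne
      have hA : (P : Subgroup G) ⊔ H₁ ≠ ⊤ := by
        intro htop
        apply hne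
        apply le_antisymm hle
        intro h hh
        have h1 : h ∈ (((P : Subgroup G) ⊔ H₁ : Subgroup G) : Set G) := by rw [htop]; trivial
        rw [Subgroup.normal_mul] at h1
        obtain ⟨x, hx, h₁, hh₁, rfl⟩ := Set.mem_mul.mp h1
        have hxH : x ∈ H := by
          have : x = (x * h₁) * h₁⁻¹ := by group
          rw [this]; exact H.mul_mem hh (H.inv_mem (hle hh₁))
        have := hPH x hx hxH
        rw [this, one_mul]; exact hh₁
      have hpA : p ∣ Nat.card ((P : Subgroup G) ⊔ H₁ : Subgroup G) :=
        hpP.trans (Subgroup.card_dvd_of_le le_sup_left)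
      refine ⟨nilpotent_of_le le_sup_right (nil_of_proper hyp _ hA hpA), ?_⟩
      intro h hh x hx
      obtain ⟨k, hk⟩ := hPpow x hx
      exact commute_of_proper hyp _ hA hpA x h (le_sup_left (a := (P : Subgroup G)) hx)
        (le_sup_right (a := (P : Subgroup G)) hh) k hk (hHcop h (hle hh))
    -- `H` centralizes `P`
    have hC2 : ∀ h ∈ H, ∀ x ∈ (P : Subgroup G), x * h = h * x := by
      intro h hh x hx
      have hz : zpowers h ≠ H := by
        intro heq
        apply hHn
        rw [← heq]
        open scoped IsMulCommutative in infer_instance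
      exact (hC1 (zpowers h) (by rw [zpowers_le]; exact hh) hz).2 h (mem_zpowers h) x hx
    -- `H` is minimal non-nilpotent
    have hC3 : Cfsg.IsMinimalNonNilpotent H := by
      refine ⟨hHn, fun S hS => ?_⟩
      have hle : S.map H.subtype ≤ H := by
        rintro _ ⟨y, -, rfl⟩
        exact y.2
      have hne : S.map H.subtype ≠ H := by
        intro heq
        apply hS
        rw [eq_top_iff]
        intro y _
        have h1 : (y : G) ∈ S.map H.subtype := by rw [heq]; exact y.2
        obtain ⟨y', hy', hyy'⟩ := h1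
        have : y' = y := Subtype.ext hyy'
        rw [← this]; exact hy'
      have h1 := (hC1 _ hle hne).1
      exact Group.nilpotent_of_mulEquiv
        (Subgroup.equivMapOfInjective S H.subtype H.subtype_injective).symm
    -- central elements of `P` generate `P`
    have hL : ∀ z ∈ (P : Subgroup G), (∀ y ∈ (P : Subgroup G), y * z = z * y) → z ≠ 1 →
        (P : Subgroup G) = zpowers z := by
      intro z hz hzc hz1
      have hcomm : ∀ g : G, g * z = z * g := by
        intro g
        have h1 : g ∈ (((P : Subgroup G) ⊔ H : Subgroup G) : Set G) := by rw [hsup]; trivial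
        rw [Subgroup.normal_mul] at h1
        obtain ⟨x, hx, h, hh, rfl⟩ := Set.mem_mul.mp h1
        have e1 := hzc x hx
        have e2 := hC2 h hh z hz
        calc x * h * z = x * (h * z) := by group
          _ = x * (z * h) := by rw [e2]
          _ = (x * z) * h := by group
          _ = z * (x * h) := by rw [e1]; group
      have hn : (zpowers z).Normal := by
        constructor
        intro n hn g
        obtain ⟨k, rfl⟩ := mem_zpowers_iff.mp hn
        have h1 : Commute g (z ^ k) := (show Commute g z from hcomm g).zpow_right k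
        have h2 : g * z ^ k * g⁻¹ = z ^ k := by rw [h1.eq]; group
        rw [h2]; exact zpow_mem (mem_zpowers z) k
      have hzH : z ∉ H := fun h => hz1 (hPH z hz h)
      have htop : zpowers z ⊔ H = ⊤ := by
        apply hHc.2
        refine lt_of_le_of_ne le_sup_right ?_
        intro h
        exact hzH (by rw [h]; exact (le_sup_left : zpowers z ≤ zpowers z ⊔ H) (mem_zpowers z))
      apply le_antisymm
      · intro y hy
        have h1 : y ∈ ((zpowers z ⊔ H : Subgroup G) : Set G) := by rw [htop]; trivial
        rw [Subgroup.normal_mul] at h1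
        obtain ⟨a, ha, h, hh, rfl⟩ := Set.mem_mul.mp h1
        have haP : a ∈ (P : Subgroup G) := by
          have : zpowers z ≤ (P : Subgroup G) := by rw [zpowers_le]; exact hz
          exact this ha
        have hhP : h ∈ (P : Subgroup G) := by
          have : h = a⁻¹ * (a * h) := by group
          rw [this]
          exact Subgroup.mul_mem _ (Subgroup.inv_mem _ haP) hy
        rw [hPH h hhP hh, mul_one]; exact ha
      · rw [zpowers_le]; exact hz
    -- `|P| = p`
    have hcardP : Nat.card (P : Subgroup G) = p := by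
      have : Nontrivial (P : Subgroup G) := (Subgroup.nontrivial_iff_ne_bot _).mpr hPb
      have h1 : Nontrivial (Subgroup.center (P : Subgroup G)) := P.isPGroup'.center_nontrivial
      obtain ⟨z, hz⟩ := exists_ne (1 : Subgroup.center (P : Subgroup G))
      have hzP : ((z : (P : Subgroup G)) : G) ∈ (P : Subgroup G) := (z : (P : Subgroup G)).2
      have hzc : ∀ y ∈ (P : Subgroup G), y * ((z : (P : Subgroup G)) : G) =
          ((z : (P : Subgroup G)) : G) * y := by
        intro y hy
        have := (Subgroup.mem_center_iff.mp z.2) ⟨y, hy⟩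
        exact congrArg Subtype.val this
      have hz1 : ((z : (P : Subgroup G)) : G) ≠ 1 := by
        intro h
        apply hz
        apply Subtype.ext
        apply Subtype.ext
        exact h
      set w : G := ((z : (P : Subgroup G)) : G) with hw
      have hP1 := hL w hzP hzc hz1
      have hwp : w ^ p = 1 := by
        by_contra hne
        have hP2 := hL (w ^ p) (Subgroup.pow_mem _ hzP p) (by
          intro y hy
          exact ((show Commute y w from hzc y hy).pow_right p).eq) hne
        have h2 : Nat.card (zpowers w) = Nat.card (zpowers (w ^ p)) := by rw [← hP1, ← hP2]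
        rw [Nat.card_zpowers, Nat.card_zpowers] at h2
        have h3 : p ∣ orderOf w := by
          obtain ⟨k, hk⟩ := hPpow w hzP
          obtain ⟨j, -, hj⟩ := (Nat.dvd_prime_pow hpp).mp (orderOf_dvd_of_pow_eq_one hk)
          rw [hj]
          have hj0 : j ≠ 0 := by
            rintro rfl
            rw [pow_zero] at hj
            exact hz1 (orderOf_eq_one_iff.mp hj)
          exact dvd_pow_self p hj0
        have h4 : orderOf (w ^ p) = orderOf w / p := orderOf_pow_of_dvd hpp.ne_zero h3
        rw [h4] at h2
        have h5 : orderOf w / p < orderOf w := Nat.div_lt_self (orderOf_pos w) hpp.one_lt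
        omega
      have h6 : orderOf w = p := orderOf_eq_prime hwp hz1
      rw [hP1, Nat.card_zpowers, h6]
    have hHnorm : H.Normal := by
      rw [← normalizer_eq_top_iff, eq_top_iff, ← hsup]
      apply sup_le
      · intro x hx
        rw [mem_normalizer_iff]
        intro h
        have key : ∀ h ∈ H, x * h * x⁻¹ = h := by
          intro h hh
          rw [hC2 h hh x hx]; group
        constructor
        · intro hh
          rw [key h hh]; exact hh
        · intro hh
          have h1 := key _ hh
          have h2 : h = x * h * x⁻¹ := by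
            have : x * (x * h * x⁻¹) * x⁻¹ = x * h * x⁻¹ := h1
            have h3 : x * h * x⁻¹ = h := by
              calc x * h * x⁻¹ = x⁻¹ * (x * (x * h * x⁻¹) * x⁻¹) * x := by group
                _ = x⁻¹ * (x * h * x⁻¹) * x := by rw [this]
                _ = h := by group
            exact h3.symm
          rw [h2]; exact hh
      · exact le_normalizer
    refine ⟨(P : Subgroup G), H, hPn, hHnorm, ?_, hsup, hcardP, hC3, hpH⟩
    exact eq_bot_iff.mpr fun x hx => Subgroup.mem_bot.mpr (hPH x hx.1 hx.2)
  · -- Case B: `P` is not normal; contradiction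
    exfalso
    have hB1 : ∀ Q : Subgroup G, IsPGroup p Q → Q ≠ ⊥ → normalizer (Q : Set G) ≠ ⊤ := by
      intro Q hQ hQb htop
      have hQn : Q.Normal := normalizer_eq_top_iff.mp htop
      have hQH : ¬ Q ≤ H := by
        intro hle
        apply hQb
        rw [eq_bot_iff]
        intro x hx
        obtain ⟨k, hk⟩ := hQ ⟨x, hx⟩
        have hxk : x ^ p ^ k = 1 := by simpa using congrArg Subtype.val hk
        exact Subgroup.mem_bot.mpr (eq_one_of_pow_of_coprime x k hxk (hHcop x (hle hx)))
      have hsup : H ⊔ Q = ⊤ := by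
        apply hHc.2
        refine lt_of_le_of_ne le_sup_left ?_
        intro h
        exact hQH (by rw [h]; exact le_sup_right)
      have hidx : Q.index ∣ Nat.card H := by
        have h1 := Subgroup.relIndex_sup_right (H := H) (K := Q)
        rw [hsup, Subgroup.relIndex_top_right] at h1
        rw [h1]
        exact Subgroup.index_dvd_card (Q.subgroupOf H)
      have hcop : Q.index.Coprime p :=
        Nat.Coprime.coprime_dvd_left hidx ((Nat.Prime.coprime_iff_not_dvd hpp).mpr hpH).symm
      have := sylow_eq_of_normal_of_coprime_index Q hQ hcop P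
      exact hPn (this ▸ hQn)
    have hF : FrobCond p G := by
      apply frobCond_of_local
      intro Q hQ hQb
      have hpN : p ∣ Nat.card (normalizer (Q : Set G)) :=
        (dvd_card_of_pGroup_ne_bot Q hQ hQb).trans (Subgroup.card_dvd_of_le le_normalizer)
      have : Group.IsNilpotent (normalizer (Q : Set G)) :=
        nil_of_proper hyp _ (hB1 Q hQ hQb) hpN
      exact hasNPC_of_isNilpotent p
    obtain ⟨K, hKn, hKc, k, hKi⟩ := hF.hasNPC
    have hHK : H ≤ K := fun x hx => mem_of_coprime_orderOf_of_index_pow K hKi x (hHcop x hx)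
    have hKtop : K ≠ ⊤ := by
      rintro rfl
      rw [Subgroup.card_top] at hKc
      exact hpp.one_lt.ne' (Nat.Coprime.eq_one_of_dvd hKc.symm hpG)
    have hKH : K = H := by
      by_contra hne
      exact hKtop (hHc.2 _ (lt_of_le_of_ne hHK (Ne.symm hne)))
    subst hKH
    -- the normalizer of `P` is everything
    apply hPn
    rw [← normalizer_eq_top_iff]
    by_contra hNtop
    have hidx : (normalizer ((P : Subgroup G) : Set G)).index ≠ 1 :=
      fun h => hNtop (Subgroup.index_eq_one.mp h)
    obtain ⟨r, hr, hrd⟩ := Nat.exists_prime_and_dvd hidx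
    by_cases hrp : r = p
    · subst hrp
      exact P.not_dvd_index (hrd.trans (Subgroup.index_dvd_of_le le_normalizer))
    · have : Fact r.Prime := ⟨hr⟩
      have hRK : ∀ R : Sylow r G, (R : Subgroup G) ≤ K := by
        intro R x hx
        obtain ⟨j, hj⟩ := R.isPGroup' ⟨x, hx⟩
        have hxj : x ^ r ^ j = 1 := by simpa using congrArg Subtype.val hj
        apply mem_of_coprime_orderOf_of_index_pow K hKi x
        exact Nat.Coprime.coprime_dvd_left (orderOf_dvd_of_pow_eq_one hxj)
          (Nat.Coprime.pow_left j ((Nat.coprime_primes hr hpp).mpr hrp))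
      obtain ⟨R₀⟩ : Nonempty (Sylow r G) := inferInstance
      have hcard : ¬ p ∣ Nat.card (Sylow r G) := by
        rw [R₀.card_eq_index_normalizer]
        have hFr : normalizer ((R₀ : Subgroup G) : Set G) ⊔ K = ⊤ :=
          Sylow.normalizer_sup_eq_top' R₀ (hRK R₀)
        have hdvd := index_dvd_card_of_sup_eq_top _ _ hFr
        intro hpd
        exact hpH (hpd.trans hdvd)
      obtain ⟨R, hR⟩ := P.isPGroup'.nonempty_fixed_point_of_prime_not_dvd_card (Sylow r G) hcard
      have hPR : (P : Subgroup G) ≤ normalizer ((R : Subgroup G) : Set G) := by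
        intro x hx
        have h1 : x • R = R := hR ⟨x, hx⟩
        exact Sylow.smul_eq_iff_mem_normalizer.mp h1
      have hRcop : ∀ x ∈ (R : Subgroup G), (orderOf x).Coprime p := fun x hx => hHcop x (hRK R hx)
      have hRC : (R : Subgroup G) ≤ centralizer ((P : Subgroup G) : Set G) := by
        by_cases hRP : (R : Subgroup G) ⊔ (P : Subgroup G) = ⊤
        · exfalso
          have hRn : (R : Subgroup G).Normal := by
            rw [← normalizer_eq_top_iff, eq_top_iff, ← hRP]
            exact sup_le le_normalizer hPR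
          apply hHn
          have hKR : K ≤ (R : Subgroup G) := by
            intro y hy
            have h1 : y ∈ (((R : Subgroup G) ⊔ (P : Subgroup G) : Subgroup G) : Set G) := by
              rw [hRP]; trivial
            rw [Subgroup.normal_mul] at h1
            obtain ⟨x, hx, u, hu, rfl⟩ := Set.mem_mul.mp h1
            have huK : u ∈ K := by
              have : u = x⁻¹ * (x * u) := by group
              rw [this]; exact K.mul_mem (K.inv_mem (hRK R hx)) hy
            rw [hPH u hu huK, mul_one]; exact hx
          have : Group.IsNilpotent (R : Subgroup G) := R.isPGroup'.isNilpotent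
          exact nilpotent_of_le hKR this
        · intro x hx
          rw [mem_centralizer_iff]
          intro u hu
          obtain ⟨j, hj⟩ := hPpow u hu
          have hpA : p ∣ Nat.card ((R : Subgroup G) ⊔ (P : Subgroup G) : Subgroup G) :=
            hpP.trans (Subgroup.card_dvd_of_le le_sup_right)
          exact commute_of_proper hyp _ hRP hpA u x (le_sup_right (a := (R : Subgroup G)) hu)
            (le_sup_left (b := (P : Subgroup G)) hx) j hj (hRcop x hx)
      have hRN : (R : Subgroup G) ≤ normalizer ((P : Subgroup G) : Set G) :=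
        hRC.trans (Subgroup.centralizer_le_normalizer _)
      exact R.not_dvd_index (hrd.trans (Subgroup.index_dvd_of_le hRN))

end Forward

section Backward

variable {G : Type u} [Group G] [Finite G] {p : ℕ} [hp : Fact p.Prime]

theorem backward (Z K : Subgroup G) (hZn : Z.Normal) (hKn : K.Normal) (hZK : Z ⊓ K = ⊥)
    (hsup : Z ⊔ K = ⊤) (hZc : Nat.card Z = p) (hKmin : Cfsg.IsMinimalNonNilpotent K)
    (hpK : ¬ p ∣ Nat.card K) (M : Subgroup G) (hM : IsCoatom M) (hpM : p ∣ Nat.card M) :
    Group.IsNilpotent M := by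
  have hpp := hp.out
  -- decomposition of elements
  have hdec : ∀ g : G, ∃ z ∈ Z, ∃ k ∈ K, g = z * k := by
    intro g
    have h1 : g ∈ ((Z ⊔ K : Subgroup G) : Set G) := by rw [hsup]; trivial
    rw [Subgroup.normal_mul] at h1
    obtain ⟨z, hz, k, hk, rfl⟩ := Set.mem_mul.mp h1
    exact ⟨z, hz, k, hk, rfl⟩
  -- `Z` is central
  have hZK' := Subgroup.commute_of_normal_of_disjoint Z K hZn hKn (disjoint_iff.mpr hZK)
  have hZcyc : IsCyclic Z := isCyclic_of_prime_card hZc
  have hZcomm : ∀ a ∈ Z, ∀ b ∈ Z, a * b = b * a := by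
    intro a ha b hb
    have : IsMulCommutative Z := hZcyc.isMulCommutative
    have h1 : (⟨a, ha⟩ : Z) * ⟨b, hb⟩ = ⟨b, hb⟩ * ⟨a, ha⟩ := mul_comm' _ _
    exact congrArg Subtype.val h1
  have hcentral : ∀ z ∈ Z, ∀ g : G, g * z = z * g := by
    intro z hz g
    obtain ⟨z', hz', k, hk, rfl⟩ := hdec g
    have e1 := hZcomm z' hz' z hz
    have e2 := (hZK' z k hz hk).eq
    calc z' * k * z = z' * (k * z) := by group
      _ = z' * (z * k) := by rw [e2]
      _ = (z' * z) * k := by group
      _ = z * (z' * k) := by rw [e1]; group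
  -- `Z ≤ M`
  have hZidx : Z.index.Coprime p := by
    have h1 := Subgroup.relIndex_sup_right (H := K) (K := Z)
    rw [sup_comm, hsup, Subgroup.relIndex_top_right] at h1
    rw [h1]
    exact Nat.Coprime.coprime_dvd_left (Subgroup.index_dvd_card (Z.subgroupOf K))
      ((Nat.Prime.coprime_iff_not_dvd hpp).mpr hpK).symm
  have hZM : Z ≤ M := by
    obtain ⟨x, hx⟩ := exists_prime_orderOf_dvd_card' (G := M) p hpM
    have hxo : orderOf (x : G) = p := by rw [Subgroup.orderOf_coe]; exact hx
    have hxZ : (x : G) ∈ Z := by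
      rw [← QuotientGroup.eq_one_iff]
      have h1 : ((x : G) : G ⧸ Z) ^ p = 1 := by
        rw [← QuotientGroup.mk_pow, ← hxo, pow_orderOf_eq_one]; rfl
      have h2 : ((x : G) : G ⧸ Z) ^ Z.index = 1 := by
        rw [Subgroup.index_eq_card]; exact pow_card_eq_one'
      have h3 : orderOf ((x : G) : G ⧸ Z) ∣ p := orderOf_dvd_of_pow_eq_one h1
      have h4 : orderOf ((x : G) : G ⧸ Z) ∣ Z.index := orderOf_dvd_of_pow_eq_one h2
      have h5 : orderOf ((x : G) : G ⧸ Z) = 1 :=
        Nat.Coprime.eq_one_of_dvd (Nat.Coprime.coprime_dvd_left h4 hZidx) h3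
      exact orderOf_eq_one_iff.mp h5
    have hle : zpowers (x : G) ≤ Z := by rw [zpowers_le]; exact hxZ
    have hcard : Nat.card Z ≤ Nat.card (zpowers (x : G)) := by
      rw [Nat.card_zpowers, hxo, hZc]
    have heq : zpowers (x : G) = Z := Subgroup.eq_of_le_of_card_ge hle hcard
    rw [← heq, zpowers_le]
    exact x.2
  have hKM : ¬ K ≤ M := by
    intro h
    exact hM.1 (eq_top_iff.mpr (hsup ▸ sup_le hZM h))
  have hMKnil : Group.IsNilpotent (M ⊓ K : Subgroup G) := by
    have h1 : (M ⊓ K).subgroupOf K ≠ ⊤ := by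
      intro h
      rw [Subgroup.subgroupOf_eq_top] at h
      exact hKM (h.trans inf_le_left)
    have h2 := hKmin.2 _ h1
    exact Group.nilpotent_of_mulEquiv (Subgroup.subgroupOfEquivOfLe (inf_le_right : M ⊓ K ≤ K))
  -- the homomorphism `M → G ⧸ Z`
  let f : M →* G ⧸ Z := (QuotientGroup.mk' Z).comp M.subtype
  have hker : f.rangeRestrict.ker ≤ center M := by
    rw [MonoidHom.ker_rangeRestrict]
    intro x hx
    have hxZ : (x : G) ∈ Z := by
      have : ((x : G) : G ⧸ Z) = 1 := hx
      exact (QuotientGroup.eq_one_iff _).mp this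
    rw [Subgroup.mem_center_iff]
    intro y
    apply Subtype.ext
    exact hcentral (x : G) hxZ (y : G)
  have hrange : Group.IsNilpotent f.range := by
    let g : (M ⊓ K : Subgroup G) →* f.range :=
      f.rangeRestrict.comp (Subgroup.inclusion (inf_le_left : M ⊓ K ≤ M))
    have hg : Function.Surjective g := by
      rintro ⟨_, ⟨m, rfl⟩⟩
      obtain ⟨z, hz, k, hk, hmk⟩ := hdec (m : G)
      have hkM : k ∈ M := by
        have : k = z⁻¹ * (m : G) := by rw [hmk]; group
        rw [this]; exact M.mul_mem (M.inv_mem (hZM hz)) m.2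
      refine ⟨⟨k, hkM, hk⟩, ?_⟩
      apply Subtype.ext
      show ((k : G) : G ⧸ Z) = ((m : G) : G ⧸ Z)
      rw [hmk, QuotientGroup.mk_mul, (QuotientGroup.eq_one_iff z).mpr hz, one_mul]
    exact Group.nilpotent_of_surjective g hg
  exact Subgroup.isNilpotent_of_ker_le_center f.rangeRestrict hker

end Backward

/-- Let G be a finite group and p a prime dividing its order. Every maximal subgroup of G of order divisible by p is nilpotent if and only if G is nilpotent, or G is a minimal non-nilpotent group, or G is the internal direct product of a normal subgroup of order p and a normal minimal non-nilpotent subgroup of order prime to p. -/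
theorem result {G : Type*} [Group G] [Finite G] (p : ℕ) (hp : p.Prime) (hpG : p ∣ Nat.card G) :
    (∀ M : Subgroup G, IsCoatom M → p ∣ Nat.card M → Group.IsNilpotent M) ↔
      (Group.IsNilpotent G ∨ Cfsg.IsMinimalNonNilpotent G ∨
        ∃ Z K : Subgroup G, Z.Normal ∧ K.Normal ∧ Z ⊓ K = ⊥ ∧ Z ⊔ K = ⊤ ∧ Nat.card Z = p ∧
          Cfsg.IsMinimalNonNilpotent K ∧ ¬ p ∣ Nat.card K) := by
  have : Fact p.Prime := ⟨hp⟩
  constructor
  · intro hyp
    by_cases hnil : Group.IsNilpotent G
    · exact Or.inl hnil
    · by_cases hmin : Cfsg.IsMinimalNonNilpotent G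
      · exact Or.inr (Or.inl hmin)
      · exact Or.inr (Or.inr (forward hyp hpG hnil hmin))
  · rintro (hnil | hmin | ⟨Z, K, hZn, hKn, hZK, hsup, hZc, hKmin, hpK⟩)
    · intro M _ _
      infer_instance
    · intro M hM _
      exact hmin.2 M hM.1
    · intro M hM hpM
      exact backward Z K hZn hKn hZK hsup hZc hKmin hpK M hM hpM

end Cfsg.Agent.S4242
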