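import Cfsg.Statements.S4244

set_option autoImplicit false
open Cfsg

namespace Cfsg.Agent.S4244

/-- For a normal subgroup `N` of a finite group, `|N : N ∩ K|` divides `|G : K|`. -/
theorem relIndex_normal_dvd_index {G : Type*} [Group G] [Finite G] (N K : Subgroup G) [N.Normal] :
    K.relIndex N ∣ K.index := by
  have h1 : (N ⊓ K).relIndex N * N.relIndex (K ⊔ N) = (N ⊓ K).relIndex (K ⊔ N) :=
    Subgroup.relIndex_mul_relIndex _ _ _ inf_le_left le_sup_right
  have h2 : (N ⊓ K).relIndex K * K.relIndex (K ⊔ N) = (N ⊓ K).relIndex (K ⊔ N) :=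
    Subgroup.relIndex_mul_relIndex _ _ _ inf_le_right le_sup_left
  rw [Subgroup.inf_relIndex_left, Subgroup.relIndex_sup_right] at h1
  rw [Subgroup.inf_relIndex_right] at h2
  have hb : N.relIndex K ≠ 0 := by
    unfold Subgroup.relIndex
    exact Subgroup.index_ne_zero_of_finite
  have h3 : K.relIndex (K ⊔ N) = K.relIndex N := by
    have : N.relIndex K * K.relIndex (K ⊔ N) = N.relIndex K * K.relIndex N := by
      rw [h2, ← h1, mul_comm]
    exact Nat.eq_of_mul_eq_mul_left (Nat.pos_of_ne_zero hb) this
  rw [← h3]
  exact Subgroup.relIndex_dvd_index_of_le le_sup_left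

/-- Let H be a subnormal subgroup of a finite group G. Then for every subgroup K of G the index of H ∩ K in H divides the index of K in G. -/
theorem result {G : Type*} [Group G] [Finite G] (H : Subgroup G) (hH : H.IsSubnormal) (K : Subgroup G) :
    (H ⊓ K).relIndex H ∣ K.index := by
  rw [Subgroup.inf_relIndex_left]
  induction hH with
  | top => rw [Subgroup.relIndex_top_right]
  | step H K' hle _ hn ih =>
    have h1 : K.relIndex H = (K.subgroupOf K').relIndex (H.subgroupOf K') :=
      (Subgroup.relIndex_subgroupOf hle).symm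
    rw [h1]
    have h2 : (K.subgroupOf K').relIndex (H.subgroupOf K') ∣ (K.subgroupOf K').index :=
      relIndex_normal_dvd_index (H.subgroupOf K') (K.subgroupOf K')
    exact h2.trans ih

end Cfsg.Agent.S4244
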