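import Cfsg.Statements.S4249
import Cfsg.Agent.Helper65.HughesThompson

set_option autoImplicit false
universe u v w
open Cfsg

namespace Cfsg.Agent.S4249

open Cfsg.Agent.Helper19 Cfsg.Agent.Helper65

/-- The subgroup generated by a conjugation-invariant set is normal. -/
theorem normal_closure_of_conj_invariant {G : Type*} [Group G] (S : Set G)
    (hS : ∀ g s, s ∈ S → g * s * g⁻¹ ∈ S) : (Subgroup.closure S).Normal := by
  constructor
  intro n hn g
  induction hn using Subgroup.closure_induction with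
  | mem x hx => exact Subgroup.subset_closure (hS g x hx)
  | one => simp
  | mul x y _ _ hx hy =>
    have : g * (x * y) * g⁻¹ = (g * x * g⁻¹) * (g * y * g⁻¹) := by group
    rw [this]; exact mul_mem hx hy
  | inv x _ hx =>
    have : g * x⁻¹ * g⁻¹ = (g * x * g⁻¹)⁻¹ := by group
    rw [this]; exact inv_mem hx

/-- A proper normal subgroup outside of which every element has `p`-th power `1` is nilpotent. -/
theorem nil_of_outside {Γ : Type u} [Group Γ] [Finite Γ] (p : ℕ) [hp : Fact p.Prime]
    (N : Subgroup Γ) [hN : N.Normal] (hNtop : N ≠ ⊤) (hout : ∀ g : Γ, g ∉ N → g ^ p = 1) :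
    Group.IsNilpotent N := by
  obtain ⟨y, hy⟩ : ∃ y, y ∉ N := by
    by_contra h
    push Not at h
    exact hNtop (eq_top_iff.mpr fun x _ => h x)
  have hyp : y ^ p = 1 := hout y hy
  have hy1 : y ≠ 1 := fun h => hy (h ▸ N.one_mem)
  have hord : orderOf y = p := orderOf_eq_prime hyp hy1
  set Γ₁ : Subgroup Γ := N ⊔ Subgroup.zpowers y with hΓ₁
  have hNle : N ≤ Γ₁ := le_sup_left
  have hnorm : (N.subgroupOf Γ₁).Normal := inferInstance
  have hidx : (N.subgroupOf Γ₁).index = p := by
    show N.relIndex Γ₁ = p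
    rw [hΓ₁, Subgroup.relIndex_sup_left]
    have hdvd : N.relIndex (Subgroup.zpowers y) ∣ p := by
      have := Subgroup.relIndex_dvd_card N (Subgroup.zpowers y)
      rwa [Nat.card_zpowers, hord] at this
    rcases (Nat.dvd_prime hp.out).mp hdvd with h | h
    · exfalso
      rw [Subgroup.relIndex_eq_one] at h
      exact hy (h (Subgroup.mem_zpowers y))
    · exact h
  have hsp : ∀ g : ↥Γ₁, g ∉ N.subgroupOf Γ₁ → g ^ p = 1 := by
    intro g hg
    have : (g : Γ) ∉ N := fun h => hg (Subgroup.mem_subgroupOf.mpr h)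
    have h1 := hout _ this
    apply Subtype.ext
    simpa using h1
  have hnil : Group.IsNilpotent ↥(N.subgroupOf Γ₁) :=
    hughes_thompson_kegel p (N.subgroupOf Γ₁) hidx hsp
  exact (Group.isNilpotent_congr (Subgroup.subgroupOfEquivOfLe hNle)).mp hnil

/-- Let G be a finite group and p a prime such that G is not a p-group, and suppose the Hughes subgroup H_p(G), generated by all elements g with g^p ≠ 1, is a proper subgroup. Then H_p(G) is nilpotent and has index p in G. -/
theorem result {G : Type*} [Group G] [Finite G] (p : ℕ) (hp : p.Prime) (hG : ¬ IsPGroup p G)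
    (hH : Subgroup.closure {g : G | g ^ p ≠ 1} ≠ ⊤) :
    Group.IsNilpotent (Subgroup.closure {g : G | g ^ p ≠ 1}) ∧ (Subgroup.closure {g : G | g ^ p ≠ 1}).index = p := by
  have hpf : Fact p.Prime := ⟨hp⟩
  set S : Set G := {g : G | g ^ p ≠ 1} with hS
  set H : Subgroup G := Subgroup.closure S with hHdef
  have hSH : ∀ g : G, g ∉ H → g ^ p = 1 := by
    intro g hg
    by_contra h
    exact hg (Subgroup.subset_closure h)
  have hHn : H.Normal := by
    apply normal_closure_of_conj_invariant
    intro g s hs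
    show (g * s * g⁻¹) ^ p ≠ 1
    rw [conj_pow]
    intro h
    apply hs
    have : s ^ p = g⁻¹ * (g * s ^ p * g⁻¹) * g := by group
    rw [this, h]; group
  -- an element of `H` of order prime to `p`
  obtain ⟨u, huH, hu1, hucop⟩ : ∃ u : G, u ∈ H ∧ u ≠ 1 ∧ (orderOf u).Coprime p := by
    have : ∃ g : G, ∀ k : ℕ, g ^ p ^ k ≠ 1 := by
      by_contra h
      push Not at h
      exact hG h
    obtain ⟨g, hg⟩ := this
    obtain ⟨k, hk⟩ := exists_pow_coprime p g
    refine ⟨g ^ p ^ k, ?_, hg k, hk⟩
    apply Subgroup.subset_closure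
    show (g ^ p ^ k) ^ p ≠ 1
    rw [← pow_mul, ← pow_succ]
    exact hg (k + 1)
  have hnilH : Group.IsNilpotent H := nil_of_outside p H hH hSH
  refine ⟨hnilH, ?_⟩
  by_contra hidx
  -- the quotient is a nontrivial `p`-group
  have hQp : IsPGroup p (G ⧸ H) := by
    intro q
    induction q using QuotientGroup.induction_on with
    | H g =>
      refine ⟨1, ?_⟩
      by_cases hg : g ∈ H
      · rw [(QuotientGroup.eq_one_iff g).mpr hg, one_pow]
      · rw [pow_one, ← QuotientGroup.mk_pow, hSH g hg, QuotientGroup.mk_one]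
  have hQnt : Nontrivial (G ⧸ H) := by
    rw [← Finite.one_lt_card_iff_nontrivial]
    have h1 : H.index ≠ 1 := fun h => hH (Subgroup.index_eq_one.mp h)
    have h0 : H.index ≠ 0 := Subgroup.index_ne_zero_of_finite
    have : Nat.card (G ⧸ H) = H.index := rfl
    omega
  have hcnt : Nontrivial (Subgroup.center (G ⧸ H)) := hQp.center_nontrivial
  obtain ⟨⟨z, hzc⟩, hz1⟩ := exists_ne (1 : Subgroup.center (G ⧸ H))
  have hz1' : z ≠ 1 := fun h => hz1 (Subtype.ext h)
  obtain ⟨x, rfl⟩ := QuotientGroup.mk_surjective z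
  have hxH : x ∉ H := fun h => hz1' ((QuotientGroup.eq_one_iff x).mpr h)
  have hxp : x ^ p = 1 := hSH x hxH
  set Z : Subgroup (G ⧸ H) := Subgroup.zpowers (QuotientGroup.mk x : G ⧸ H) with hZ
  have hZc : Z ≤ Subgroup.center (G ⧸ H) := by
    rw [hZ, Subgroup.zpowers_le]; exact hzc
  have hZn : Z.Normal := by
    constructor
    intro n hn g
    have : g * n * g⁻¹ = n := by
      have := Subgroup.mem_center_iff.mp (hZc hn) g
      rw [this]; group
    rw [this]; exact hn
  set G₁ : Subgroup G := Z.comap (QuotientGroup.mk' H) with hG₁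
  have hG₁n : G₁.Normal := Subgroup.Normal.comap hZn _
  have hHG₁ : H ≤ G₁ := by
    intro h hh
    show (QuotientGroup.mk' H) h ∈ Z
    have : (QuotientGroup.mk' H) h = 1 := (QuotientGroup.eq_one_iff h).mpr hh
    rw [this]; exact Z.one_mem
  have hxG₁ : x ∈ G₁ := by
    show (QuotientGroup.mk' H) x ∈ Z
    exact Subgroup.mem_zpowers _
  have hG₁top : G₁ ≠ ⊤ := by
    intro htop
    apply hidx
    have hZtop : Z = ⊤ := by
      rw [eq_top_iff]
      intro q _
      obtain ⟨g, rfl⟩ := QuotientGroup.mk_surjective q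
      have : g ∈ G₁ := by rw [htop]; trivial
      exact this
    have hord : orderOf (QuotientGroup.mk x : G ⧸ H) = p := by
      apply orderOf_eq_prime
      · rw [← QuotientGroup.mk_pow, hxp, QuotientGroup.mk_one]
      · exact hz1'
    have h1 : Nat.card Z = p := by rw [hZ, Nat.card_zpowers, hord]
    have h2 : Nat.card Z = Nat.card (G ⧸ H) := by
      rw [hZtop]; exact Subgroup.card_top
    show Nat.card (G ⧸ H) = p
    rw [← h2, h1]
  have hnilG₁ : Group.IsNilpotent G₁ :=
    nil_of_outside p G₁ hG₁top (fun g hg => hSH g (fun h => hg (hHG₁ h)))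
  have hcomm : (⟨x, hxG₁⟩ : G₁) * ⟨u, hHG₁ huH⟩ = ⟨u, hHG₁ huH⟩ * ⟨x, hxG₁⟩ := by
    apply commute_of_coprime_of_nilpotent G₁ _ _ p (orderOf u) hucop.symm
    · apply Subtype.ext; simpa using hxp
    · apply Subtype.ext; simp [pow_orderOf_eq_one]
  have hcomm' : x * u = u * x := congrArg Subtype.val hcomm
  have hxu : x * u ∉ H := by
    intro h
    apply hxH
    have : x = (x * u) * u⁻¹ := by group
    rw [this]; exact H.mul_mem h (H.inv_mem huH)
  have h1 : (x * u) ^ p = 1 := hSH _ hxu
  rw [(Commute.mul_pow (show Commute x u from hcomm') p), hxp, one_mul] at h1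
  have h2 : orderOf u ∣ p := orderOf_dvd_of_pow_eq_one h1
  have h3 : orderOf u = 1 := Nat.eq_one_of_dvd_one (hucop ▸ Nat.dvd_gcd dvd_rfl h2)
  exact hu1 (orderOf_eq_one_iff.mp h3)

end Cfsg.Agent.S4249
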