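import Cfsg.Statements.S4250
import Cfsg.Agent.Helper33.AlperinTame
import Cfsg.Agent.Helper33.TransferControl

set_option autoImplicit false
universe u v w
open Cfsg

namespace Cfsg.Agent.S4250

open Cfsg.Agent.Helper33
open scoped commutatorElement

/-- Along a general chain starting at a single element `a`, the element `a⁻¹ (q⁻¹ a q)` lies in any
subgroup containing the corresponding elements of every step. -/
theorem gchain_focal {G : Type*} [Group G] {St : Subgroup G → G → Prop} {D : Subgroup G}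
    (hstep : ∀ T x, St T x → ∀ a ∈ T, a⁻¹ * (x⁻¹ * a * x) ∈ D) :
    ∀ {l : List (Subgroup G × G)} {a : G}, GChain St ({a} : Set G) l →
      a⁻¹ * ((prodOf l)⁻¹ * a * prodOf l) ∈ D
  | [], a, _ => by
    rw [prodOf_nil]
    simp
  | s :: l, a, h => by
    have ha : a ∈ s.1 := h.2.1 (Set.mem_singleton a)
    have h1 := hstep s.1 s.2 h.1 a ha
    have h' := h.2.2
    have e : conjSet s.2 ({a} : Set G) = {s.2⁻¹ * a * s.2} := Set.image_singleton
    rw [e] at h'
    have h2 := gchain_focal hstep h'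
    have := D.mul_mem h1 h2
    rw [prodOf_cons]
    have e2 : a⁻¹ * (s.2⁻¹ * a * s.2) *
        ((s.2⁻¹ * a * s.2)⁻¹ * ((prodOf l)⁻¹ * (s.2⁻¹ * a * s.2) * prodOf l)) =
        a⁻¹ * ((s.2 * prodOf l)⁻¹ * a * (s.2 * prodOf l)) := by group
    rwa [e2] at this

/-- Let P be a Sylow p-subgroup of a finite group G. Call an intersection H = P ∩ Q with a Sylow p-subgroup Q tame when N_P(H) and N_Q(H) are Sylow p-subgroups of N_G(H). Then P ∩ G′ is generated by [P, N_G(P)] together with the commutator subgroups [P ∩ Q, ⟨x⟩] for all tame intersections P ∩ Q and all p-elements x of N_G(P ∩ Q). -/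
theorem result {G : Type*} [Group G] [Finite G] (p : ℕ) [Fact p.Prime] (P : Sylow p G) :
    (P : Subgroup G) ⊓ commutator G =
      ⁅(P : Subgroup G), Subgroup.normalizer ((P : Subgroup G) : Set G)⁆ ⊔
        ⨆ (Q : Sylow p G) (_ : (¬ p ∣ ((P : Subgroup G) ⊓ Subgroup.normalizer (((P : Subgroup G) ⊓ (Q : Subgroup G) : Subgroup G) : Set G)).relIndex (Subgroup.normalizer (((P : Subgroup G) ⊓ (Q : Subgroup G) : Subgroup G) : Set G)) ∧ ¬ p ∣ ((Q : Subgroup G) ⊓ Subgroup.normalizer (((P : Subgroup G) ⊓ (Q : Subgroup G) : Subgroup G) : Set G)).relIndex (Subgroup.normalizer (((P : Subgroup G) ⊓ (Q : Subgroup G) : Subgroup G) : Set G))))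
          (x : G) (_ : x ∈ Subgroup.normalizer (((P : Subgroup G) ⊓ (Q : Subgroup G) : Subgroup G) : Set G) ∧ ∃ k : ℕ, orderOf x = p ^ k),
          ⁅(P : Subgroup G) ⊓ (Q : Subgroup G), Subgroup.zpowers x⁆ := by
  have key : ∀ (T : Subgroup G) (N : Subgroup G) (b x : G), b ∈ T → x ∈ N →
      b⁻¹ * (x⁻¹ * b * x) ∈ ⁅T, N⁆ := by
    intro T N b x hb hx
    have h1 : ⁅b⁻¹, x⁻¹⁆ ∈ ⁅T, N⁆ :=
      Subgroup.commutator_mem_commutator (T.inv_mem hb) (N.inv_mem hx)
    have e : ⁅b⁻¹, x⁻¹⁆ = b⁻¹ * (x⁻¹ * b * x) := by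
      rw [commutatorElement_def]; group
    rwa [e] at h1
  apply le_antisymm
  · have h := sylow_inf_commutator_le P (D := ⁅(P : Subgroup G), Subgroup.normalizer ((P : Subgroup G) : Set G)⁆ ⊔
        ⨆ (Q : Sylow p G) (_ : (¬ p ∣ ((P : Subgroup G) ⊓ Subgroup.normalizer (((P : Subgroup G) ⊓ (Q : Subgroup G) : Subgroup G) : Set G)).relIndex (Subgroup.normalizer (((P : Subgroup G) ⊓ (Q : Subgroup G) : Subgroup G) : Set G)) ∧ ¬ p ∣ ((Q : Subgroup G) ⊓ Subgroup.normalizer (((P : Subgroup G) ⊓ (Q : Subgroup G) : Subgroup G) : Set G)).relIndex (Subgroup.normalizer (((P : Subgroup G) ⊓ (Q : Subgroup G) : Subgroup G) : Set G))))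
          (x : G) (_ : x ∈ Subgroup.normalizer (((P : Subgroup G) ⊓ (Q : Subgroup G) : Subgroup G) : Set G) ∧ ∃ k : ℕ, orderOf x = p ^ k),
          ⁅(P : Subgroup G) ⊓ (Q : Subgroup G), Subgroup.zpowers x⁆) ?_
    · rw [commutator_def]; exact h
    intro a ha g hg
    have hdec := alperin_tame P ({a} : Set G) g (Set.singleton_subset_iff.mpr ha)
      (by
        have e : conjSet g ({a} : Set G) = {g⁻¹ * a * g} := Set.image_singleton
        rw [e]; exact Set.singleton_subset_iff.mpr hg)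
    obtain ⟨l, hl, rfl⟩ := hdec
    apply gchain_focal _ hl
    intro T x hT b hb
    obtain ⟨Q, rfl, hx, ht1, ht2, hQ⟩ := hT
    rcases hQ with hQP | hk
    · apply Subgroup.mem_sup_left
      rw [hQP, inf_idem] at hb hx
      exact key _ _ b x hb hx
    · apply Subgroup.mem_sup_right
      apply Subgroup.mem_iSup_of_mem Q
      apply Subgroup.mem_iSup_of_mem ⟨ht1, ht2⟩
      apply Subgroup.mem_iSup_of_mem x
      apply Subgroup.mem_iSup_of_mem ⟨hx, hk⟩
      exact key _ _ b x hb (Subgroup.mem_zpowers x)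
  · have hcomm : ∀ (T N : Subgroup G), ⁅T, N⁆ ≤ commutator G := by
      intro T N
      rw [commutator_def]
      exact Subgroup.commutator_mono le_top le_top
    have hnorm : ∀ (T N : Subgroup G), N ≤ Subgroup.normalizer (T : Set G) → ⁅T, N⁆ ≤ T := by
      intro T N hN
      rw [Subgroup.commutator_le]
      intro a ha n hn
      have h1 : n * a⁻¹ * n⁻¹ ∈ T :=
        (Subgroup.mem_normalizer_iff.mp (hN hn) a⁻¹).mp (T.inv_mem ha)
      have e : ⁅a, n⁆ = a * (n * a⁻¹ * n⁻¹) := by
        rw [commutatorElement_def]; group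
      rw [e]
      exact T.mul_mem ha h1
    apply sup_le
    · exact le_inf (hnorm _ _ le_rfl) (hcomm _ _)
    · apply iSup_le; intro Q
      apply iSup_le; intro _
      apply iSup_le; intro x
      apply iSup_le; intro hx
      refine le_inf ?_ (hcomm _ _)
      refine le_trans (hnorm _ _ ?_) inf_le_left
      rw [Subgroup.zpowers_le]
      exact hx.1

end Cfsg.Agent.S4250
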