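import Cfsg.Statements.S4260

set_option autoImplicit false
open Cfsg

namespace Cfsg.Agent.S4260

/-- Let H be a Hall subgroup of a finite group G (the order of H is coprime to its index) such that x^[G : H] lies in H for every x in G. Then H is normal in G. -/
theorem result {G : Type*} [Group G] [Finite G] (H : Subgroup G) (hHall : (Nat.card H).Coprime H.index)
    (hexp : ∀ x : G, x ^ H.index ∈ H) : H.Normal := by
  refine ⟨fun h hh g => ?_⟩
  set y := g * h * g⁻¹ with hy
  have hord : orderOf y = orderOf h := by
    have : SemiconjBy g h y := by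
      simp [SemiconjBy, hy]
    exact (this.orderOf_eq).symm
  have hdvd : orderOf h ∣ Nat.card H := by
    have := orderOf_dvd_natCard (⟨h, hh⟩ : H)
    rwa [Subgroup.orderOf_mk] at this
  have hcop : (H.index).Coprime (orderOf y) := by
    rw [hord]; exact (Nat.Coprime.coprime_dvd_left hdvd hHall).symm
  have hmem : y ^ H.index ∈ H := hexp y
  obtain ⟨m, hm⟩ := exists_pow_eq_self_of_coprime hcop
  rw [← hm]
  exact H.pow_mem hmem m

end Cfsg.Agent.S4260
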