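import Cfsg.Statements.S4261
import Cfsg.Agent.Helper70.Index

set_option autoImplicit false
open Cfsg

namespace Cfsg.Agent.S4261

open Cfsg.Agent.Helper70

/-- Core-free case. -/
theorem core_free_case {G : Type*} [Group G] [Finite G] (hG : Group.IsSolvable G) (M : Subgroup G)
    (hM : IsCoatom M) (hcore : M.normalCore = ⊥) (hexp : ∀ x : G, x ^ M.index = 1) : M.Normal := by
  classical
  obtain ⟨n, hn⟩ := hG.solvable
  have hex : ∃ j, derivedSeries G j ≤ M := ⟨n, by rw [hn]; exact bot_le⟩
  have hj0 : Nat.find hex ≠ 0 := by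
    intro h0
    have := Nat.find_spec hex
    rw [h0, derivedSeries_zero, top_le_iff] at this
    exact hM.1 this
  obtain ⟨i, hi⟩ := Nat.exists_eq_succ_of_ne_zero hj0
  have hA1 : ¬ derivedSeries G i ≤ M := Nat.find_min hex (by omega)
  have hA2 : derivedSeries G (i + 1) ≤ M := by
    have := Nat.find_spec hex
    rwa [hi] at this
  set A := derivedSeries G i with hA
  have hAA : ⁅A, A⁆ = ⊥ := by
    have h1 : derivedSeries G (i + 1) ≤ M.normalCore := Subgroup.normal_le_normalCore.mpr hA2
    rw [hcore, le_bot_iff] at h1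
    rw [← h1, derivedSeries_succ]
  have hcomm : ∀ a ∈ A, ∀ b ∈ A, a * b = b * a := by
    intro a ha b hb
    have := Subgroup.commutator_mem_commutator ha hb
    rw [hAA, Subgroup.mem_bot, commutatorElement_eq_one_iff_mul_comm] at this
    exact this
  have hsup : M ⊔ A = ⊤ := by
    apply hM.2
    refine lt_of_le_of_ne le_sup_left ?_
    intro h
    apply hA1
    rw [h]; exact le_sup_right
  have hinfN : (A ⊓ M).Normal := by
    rw [← Subgroup.normalizer_eq_top_iff, eq_top_iff, ← hsup, sup_le_iff]
    constructor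
    · rw [Subgroup.le_normalizer_iff]
      intro h hh k hk
      exact ⟨(inferInstance : A.Normal).conj_mem k hk.1 h, M.mul_mem (M.mul_mem hh hk.2) (M.inv_mem hh)⟩
    · rw [Subgroup.le_normalizer_iff]
      intro h hh k hk
      have : h * k * h⁻¹ = k := by rw [hcomm h hh k hk.1]; group
      rw [this]; exact hk
  have hinf : A ⊓ M = ⊥ := by
    have h1 : A ⊓ M ≤ M.normalCore := Subgroup.normal_le_normalCore.mpr inf_le_right
    rwa [hcore, le_bot_iff] at h1
  have hidx : M.index = Nat.card A := index_eq_card_of_sup_eq_top_of_inf_eq_bot A M hsup hinf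
  have hAbot : A ≠ ⊥ := by
    intro h; apply hA1; rw [h]; exact bot_le
  have hcard1 : Nat.card A ≠ 1 := by
    intro h; exact hAbot (Subgroup.card_eq_one.mp h)
  obtain ⟨p, hp, hpdvd⟩ := Nat.exists_prime_and_dvd hcard1
  have : Fact p.Prime := ⟨hp⟩
  let B : Subgroup G :=
    { carrier := {a | a ∈ A ∧ a ^ p = 1}
      mul_mem' := by
        rintro a b ⟨ha, ha'⟩ ⟨hb, hb'⟩
        refine ⟨A.mul_mem ha hb, ?_⟩
        rw [(show Commute a b from hcomm a ha b hb).mul_pow, ha', hb', one_mul]
      one_mem' := ⟨A.one_mem, one_pow p⟩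
      inv_mem' := by
        rintro a ⟨ha, ha'⟩
        exact ⟨A.inv_mem ha, by rw [inv_pow, ha', inv_one]⟩ }
  have hBmem : ∀ a, a ∈ B ↔ a ∈ A ∧ a ^ p = 1 := fun a => Iff.rfl
  have hBN : B.Normal := by
    refine ⟨fun a ha g => ?_⟩
    rw [hBmem] at ha ⊢
    refine ⟨(inferInstance : A.Normal).conj_mem a ha.1 g, ?_⟩
    rw [conj_pow, ha.2]; group
  have hBA : B ≤ A := fun a ha => ((hBmem a).mp ha).1
  have hBbot : B ≠ ⊥ := by
    obtain ⟨x, hx⟩ := exists_prime_orderOf_dvd_card' (G := A) p hpdvd
    intro h
    have hxB : (x : G) ∈ B := by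
      rw [hBmem]
      refine ⟨x.2, ?_⟩
      have := pow_orderOf_eq_one x
      rw [hx] at this
      exact_mod_cast congrArg Subtype.val this
    rw [h, Subgroup.mem_bot] at hxB
    have hx1 : x = 1 := Subtype.ext hxB
    rw [hx1, orderOf_one] at hx
    exact hp.one_lt.ne hx
  have hBinf : B ⊓ M = ⊥ := by
    rw [eq_bot_iff, ← hinf]
    exact inf_le_inf_right M hBA
  have hBsup : M ⊔ B = ⊤ := by
    apply hM.2
    refine lt_of_le_of_ne le_sup_left ?_
    intro h
    have h1 : B ≤ M := by rw [h]; exact le_sup_right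
    apply hBbot
    rw [eq_bot_iff, ← hBinf]
    exact le_inf le_rfl h1
  have hidxB : M.index = Nat.card B := index_eq_card_of_sup_eq_top_of_inf_eq_bot B M hBsup hBinf
  have hBp : IsPGroup p B := by
    intro b
    refine ⟨1, ?_⟩
    apply Subtype.ext
    have := ((hBmem b.1).mp b.2).2
    simpa using this
  obtain ⟨k, hk⟩ := IsPGroup.iff_card.mp hBp
  have hGp : IsPGroup p G := by
    intro x
    refine ⟨k, ?_⟩
    rw [← hk, ← hidxB]
    exact hexp x
  have hnil := hGp.isNilpotent
  exact Subgroup.NormalizerCondition.normal_of_coatom M Group.normalizerCondition_of_isNilpotent hM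

/-- Let M be a maximal subgroup of a finite solvable group G such that x^[G : M] lies in M for every x in G. Then M is normal in G. -/
theorem result {G : Type*} [Group G] [Finite G] (hG : Group.IsSolvable G) (M : Subgroup G) (hM : IsCoatom M)
    (hexp : ∀ x : G, x ^ M.index ∈ M) : M.Normal := by
  have hNM : M.normalCore ≤ M := Subgroup.normalCore_le M
  have hker : (QuotientGroup.mk' M.normalCore).ker ≤ M := by rw [QuotientGroup.ker_mk']; exact hNM
  have hsurj : Function.Surjective (QuotientGroup.mk' M.normalCore) :=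
    QuotientGroup.mk'_surjective M.normalCore
  have hexpN : ∀ x : G, x ^ M.index ∈ M.normalCore := by
    intro x b
    have := hexp (b * x * b⁻¹)
    rwa [conj_pow] at this
  have hM' : IsCoatom (M.map (QuotientGroup.mk' M.normalCore)) :=
    isCoatom_map_of_surjective _ hsurj M hM hker
  have hidx : (M.map (QuotientGroup.mk' M.normalCore)).index = M.index :=
    Subgroup.index_map_eq _ hsurj hker
  have hcore : (M.map (QuotientGroup.mk' M.normalCore)).normalCore = ⊥ := by
    rw [eq_bot_iff]
    have h1 : ((M.map (QuotientGroup.mk' M.normalCore)).normalCore).comap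
        (QuotientGroup.mk' M.normalCore) ≤ M.normalCore := by
      apply Subgroup.normal_le_normalCore.mpr
      refine (Subgroup.comap_mono (Subgroup.normalCore_le _)).trans ?_
      rw [Subgroup.comap_map_eq_self hker]
    have h2 := Subgroup.map_mono (f := QuotientGroup.mk' M.normalCore) h1
    rw [Subgroup.map_comap_eq_self_of_surjective hsurj] at h2
    refine h2.trans ?_
    rw [(Subgroup.map_eq_bot_iff M.normalCore).mpr (by rw [QuotientGroup.ker_mk'])]
  have hexp' : ∀ x : G ⧸ M.normalCore, x ^ (M.map (QuotientGroup.mk' M.normalCore)).index = 1 := by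
    intro x
    obtain ⟨y, rfl⟩ := hsurj x
    rw [hidx, ← map_pow]
    exact (QuotientGroup.eq_one_iff _).mpr (hexpN y)
  have hGN : Group.IsSolvable (G ⧸ M.normalCore) := inferInstance
  have hnormal := core_free_case hGN _ hM' hcore hexp'
  have := hnormal.comap (QuotientGroup.mk' M.normalCore)
  rwa [Subgroup.comap_map_eq_self hker] at this

end Cfsg.Agent.S4261
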