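import Mathlib
import Cfsg.Statements.S4262
import Cfsg.Agent.Helper68.MaxCent

set_option autoImplicit false
open Cfsg

namespace Cfsg.Agent.S4262

open Subgroup

/-- Let G be a finite group in which the centralizer of every non-central element is a maximal subgroup of G. Then G is solvable. -/
theorem result {G : Type*} [Group G] [Finite G]
    (h : ∀ g : G, g ∉ Subgroup.center G → IsCoatom (Subgroup.centralizer ({g} : Set G))) :
    Group.IsSolvable G := by
  have hZsolv : Group.IsSolvable (Subgroup.center G) :=
    Group.isSolvable_of_comm (fun x y => Subtype.ext ((Subgroup.mem_center_iff.mp y.2 x)))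
  suffices hq : Group.IsSolvable (G ⧸ Subgroup.center G) from
    Group.isSolvable_of_ker_le_range (Subgroup.center G).subtype
      (QuotientGroup.mk' (Subgroup.center G)) (by simp)
  by_cases hab : ∀ a b : G ⧸ Subgroup.center G, a * b = b * a
  · exact Group.isSolvable_of_comm hab
  · have hna : ∃ a b : G ⧸ Subgroup.center G, a * b ≠ b * a := by
      by_contra hcon
      apply hab
      intro a b
      by_contra hne
      exact hcon ⟨a, b, hne⟩
    have hZ := Cfsg.Agent.Helper68.center_quotient_eq_bot_of_maxCent h hna
    have hmc := Cfsg.Agent.Helper68.maxCent_quotient_of_maxCent h hna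
    obtain ⟨a, b, hne⟩ := hna
    have : Nontrivial (G ⧸ Subgroup.center G) := ⟨⟨a * b, b * a, hne⟩⟩
    obtain ⟨x₀, hx₀, hn, hab'⟩ := hmc.exists_normal_abelian hZ
    obtain ⟨-, -, ⟨t, ht⟩, -⟩ := hmc.structure hZ x₀ hx₀ hn hab'
    have hsol : Group.IsSolvable
        ↥(centralizer ({x₀} : Set (G ⧸ Subgroup.center G)) ⊔ zpowers t) :=
      Cfsg.Agent.Helper21.isSolvable_sup (by rw [Subgroup.normalizer_eq_top]; exact le_top)
        (Group.isSolvable_of_comm (fun x y => Subtype.ext (hab' x x.2 y y.2)))
        (Group.isSolvable_of_comm (fun x y => mul_comm' x y))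
    rw [ht] at hsol
    exact Group.isSolvable_of_surjective (f := (⊤ : Subgroup (G ⧸ Subgroup.center G)).subtype)
      (fun g => ⟨⟨g, Subgroup.mem_top g⟩, rfl⟩)

end Cfsg.Agent.S4262
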