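-- Statement S4263: the Fitting subgroup consists of the elements x with x^[G:H] ∈ H for every subgroup H.
import Cfsg.Statements.S4263
import Cfsg.Agent.Helper71.Fitting

set_option autoImplicit false
open Cfsg

namespace Cfsg.Agent.S4263

/-- Let G be a finite group. An element x lies in the Fitting subgroup F(G) if and only if, for every subgroup H of G, the power x^[G : H] lies in H. -/
theorem result {G : Type*} [Group G] [Finite G] (x : G) :
    x ∈ Cfsg.fittingSubgroup G ↔ ∀ H : Subgroup G, x ^ H.index ∈ H := by
  constructor
  · intro hx H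
    have hnil := Helper71.fittingSubgroup_isNilpotent G
    have hnorm := Helper71.fittingSubgroup_normal G
    have h1 : (⟨x, hx⟩ : Cfsg.fittingSubgroup G) ^
        (H.subgroupOf (Cfsg.fittingSubgroup G)).index ∈ H.subgroupOf (Cfsg.fittingSubgroup G) :=
      Helper71.pow_index_mem_of_isNilpotent _ _
    rw [Subgroup.mem_subgroupOf] at h1
    have h2 : x ^ H.relIndex (Cfsg.fittingSubgroup G) ∈ H := by
      simpa [Subgroup.relIndex] using h1
    obtain ⟨c, hc⟩ := Helper71.relIndex_dvd_index_of_normal_right H (Cfsg.fittingSubgroup G)
    rw [hc, pow_mul]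
    exact H.pow_mem h2 c
  · intro h
    have hnorm := Helper71.fittingSubgroup_normal G
    apply Helper71.mem_of_forall_prime_pow_mem
    intro p hp
    have : Fact p.Prime := ⟨hp⟩
    obtain ⟨P0⟩ : Nonempty (Sylow p G) := inferInstance
    refine ⟨(P0 : Subgroup G).index, P0.not_dvd_index, ?_⟩
    apply Helper71.sylowCore_le_fittingSubgroup p G
    unfold Helper71.sylowCore
    rw [Subgroup.mem_iInf]
    intro P
    have hidx : (P : Subgroup G).index = (P0 : Subgroup G).index := by
      have h1 := (P : Subgroup G).card_mul_index
      have h2 := (P0 : Subgroup G).card_mul_index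
      have h3 : Nat.card (P : Subgroup G) = Nat.card (P0 : Subgroup G) := by
        rw [Sylow.card_eq_multiplicity, Sylow.card_eq_multiplicity]
      have hpos : 0 < Nat.card (P : Subgroup G) := Nat.card_pos
      apply Nat.eq_of_mul_eq_mul_left hpos
      rw [h1, h3, h2]
    rw [← hidx]
    exact h P

end Cfsg.Agent.S4263
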