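-- Statement S4269: pronormality criterion for supplements of abelian normal subgroups.
import Cfsg.Statements.S4269
import Cfsg.Agent.Helper71.Conj

set_option autoImplicit false
open Cfsg

namespace Cfsg.Agent.S4269

open Cfsg.Agent.Helper71
open scoped commutatorElement

/-- If `U` is invariant under conjugation by `H`, then `⁅H, U⁆ ≤ U`. -/
theorem commutator_le_of_invariant {G : Type*} [Group G] (H U : Subgroup G)
    (hU : ∀ h ∈ H, U.map (MulAut.conj h).toMonoidHom = U) : ⁅H, U⁆ ≤ U := by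
  rw [Subgroup.commutator_le]
  intro h hh u hu
  rw [commutatorElement_def]
  have h1 : h * u * h⁻¹ ∈ U.map (MulAut.conj h).toMonoidHom := conj_mem_map_conj U h hu
  rw [hU h hh] at h1
  exact U.mul_mem h1 (U.inv_mem hu)

/-- `H` normalizes `⁅H, U⁆` when `U` is `H`-invariant. -/
theorem conj_mem_commutator_of_invariant {G : Type*} [Group G] (H U : Subgroup G)
    (hU : ∀ h ∈ H, U.map (MulAut.conj h).toMonoidHom = U) :
    ∀ a ∈ H, ∀ w ∈ ⁅H, U⁆, a * w * a⁻¹ ∈ ⁅H, U⁆ := by
  intro a ha w hw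
  have h1 : a * w * a⁻¹ ∈ (⁅H, U⁆).map (MulAut.conj a).toMonoidHom := conj_mem_map_conj _ a hw
  rw [Subgroup.map_commutator, hU a ha, map_conj_eq_self_of_mem H ha] at h1
  exact h1

/-- Let G be a finite group, V an abelian normal subgroup and H a subgroup with HV = G. Then H is pronormal in G (H and gHg⁻¹ are conjugate inside the subgroup they generate, for every g) if and only if every H-invariant subgroup U of V satisfies U = N_U(H)·[H, U], that is, U is the join of U ∩ N_G(H) and the commutator subgroup [H, U]. -/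
theorem result {G : Type*} [Group G] [Finite G]
    (V : Subgroup G) [V.Normal] (hV : IsMulCommutative ↥V) (H : Subgroup G) (hHV : H ⊔ V = ⊤) :
    Cfsg.IsPronormal H ↔
      ∀ U : Subgroup G, U ≤ V → (∀ h ∈ H, U.map (MulAut.conj h).toMonoidHom = U) →
        U = (U ⊓ Subgroup.normalizer (H : Set G)) ⊔ ⁅H, U⁆ := by
  have hVcomm : ∀ a ∈ V, ∀ b ∈ V, a * b = b * a := fun a ha b hb => setLike_mul_comm ha hb
  constructor
  · -- pronormal ⇒ criterion
    intro hpro U hUV hU
    have hWU : ⁅H, U⁆ ≤ U := commutator_le_of_invariant H U hU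
    apply le_antisymm
    · intro u hu
      obtain ⟨x, hx, heq⟩ := hpro u
      have hle : H ⊔ H.map (MulAut.conj u).toMonoidHom ≤ ⁅H, U⁆ ⊔ H := by
        apply sup_le le_sup_right
        intro y hy
        rw [mem_map_conj] at hy
        -- y = u * (u⁻¹ y u) * u⁻¹ = ⁅u, h⁆ * h
        have e : y = ⁅u⁻¹ * y * u, u⁆⁻¹ * (u⁻¹ * y * u) := by
          rw [commutatorElement_def]; group
        rw [e]
        exact Subgroup.mul_mem_sup
          (Subgroup.inv_mem _ (Subgroup.commutator_mem_commutator hy hu)) hy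
      obtain ⟨w, hw, a, ha, rfl⟩ :=
        exists_mul_of_mem_sup ⁅H, U⁆ H (conj_mem_commutator_of_invariant H U hU) (hle hx)
      rw [map_conj_mul, map_conj_eq_self_of_mem H ha] at heq
      have hn : w⁻¹ * u ∈ Subgroup.normalizer (H : Set G) := mem_normalizer_of_map_conj_eq H heq
      have hwu : w⁻¹ * u ∈ U := U.mul_mem (U.inv_mem (hWU hw)) hu
      have e : u = w * (w⁻¹ * u) := by group
      rw [e, sup_comm]
      exact Subgroup.mul_mem_sup hw ⟨hwu, hn⟩
    · exact sup_le inf_le_left hWU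
  · -- criterion ⇒ pronormal
    intro hcond g
    have hVn : ∀ a ∈ H, ∀ w ∈ V, a * w * a⁻¹ ∈ V := fun a _ w hw =>
      Subgroup.Normal.conj_mem inferInstance w hw a
    have hg : g ∈ V ⊔ H := by rw [sup_comm, hHV]; exact Subgroup.mem_top g
    obtain ⟨v, hv, h0, hh0, rfl⟩ := exists_mul_of_mem_sup V H hVn hg
    rw [map_conj_mul, map_conj_eq_self_of_mem H hh0]
    -- the H-invariant subgroup generated by v
    set S : Set G := {x | ∃ h ∈ H, x = h * v * h⁻¹} with hS
    set U : Subgroup G := Subgroup.closure S with hUdef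
    have hSV : S ⊆ V := by
      rintro x ⟨h, hh, rfl⟩
      exact hVn h hh v hv
    have hUV : U ≤ V := (Subgroup.closure_le V).mpr hSV
    have hvU : v ∈ U := Subgroup.subset_closure ⟨1, H.one_mem, by simp⟩
    have hUinv : ∀ h ∈ H, U.map (MulAut.conj h).toMonoidHom = U := by
      intro h hh
      rw [hUdef, MonoidHom.map_closure]
      congr 1
      ext x
      constructor
      · rintro ⟨y, ⟨k, hk, rfl⟩, rfl⟩
        refine ⟨h * k, H.mul_mem hh hk, ?_⟩
        simp [MulAut.conj_apply, mul_assoc]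
      · rintro ⟨k, hk, rfl⟩
        refine ⟨(h⁻¹ * k) * v * (h⁻¹ * k)⁻¹, ⟨h⁻¹ * k, H.mul_mem (H.inv_mem hh) hk, rfl⟩, ?_⟩
        simp [MulAut.conj_apply, mul_assoc]
    have hWU : ⁅H, U⁆ ≤ U := commutator_le_of_invariant H U hUinv
    have hUeq := hcond U hUV hUinv
    have hv' : v ∈ ⁅H, U⁆ ⊔ (U ⊓ Subgroup.normalizer (H : Set G)) := by
      rw [sup_comm, ← hUeq]; exact hvU
    have hnorm2 : ∀ a ∈ U ⊓ Subgroup.normalizer (H : Set G), ∀ w ∈ ⁅H, U⁆,
        a * w * a⁻¹ ∈ ⁅H, U⁆ := by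
      intro a ha w hw
      have hc := hVcomm a (hUV ha.1) w (hUV (hWU hw))
      have e : a * w * a⁻¹ = w := by rw [hc]; group
      rw [e]; exact hw
    obtain ⟨w, hw, a, ha, hvwa⟩ := exists_mul_of_mem_sup _ _ hnorm2 hv'
    have hconj : H.map (MulAut.conj v).toMonoidHom = H.map (MulAut.conj w).toMonoidHom := by
      rw [hvwa, map_conj_mul, map_conj_eq_self_of_mem_normalizer H ha.2]
    refine ⟨w, ?_, hconj⟩
    -- ⁅H, U⁆ ≤ H ⊔ H^v
    set M : Subgroup G := H ⊔ H.map (MulAut.conj v).toMonoidHom with hM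
    have hHM : H ≤ M := le_sup_left
    have hcM : ∀ h ∈ H, ⁅h, v⁆ ∈ M := by
      intro h hh
      have e : ⁅h, v⁆ = h * (v * h⁻¹ * v⁻¹) := by rw [commutatorElement_def]; group
      rw [e]
      exact Subgroup.mul_mem_sup hh (conj_mem_map_conj H v (H.inv_mem hh))
    have key : ∀ u ∈ U, u ∈ V ∧ ∀ h ∈ H, ⁅h, u⁆ ∈ M := by
      intro u hu
      rw [hUdef] at hu
      induction hu using Subgroup.closure_induction with
      | mem y hy =>
        refine ⟨hSV hy, ?_⟩
        obtain ⟨k, hk, rfl⟩ := hy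
        intro h hh
        have e : ⁅h, k * v * k⁻¹⁆ = k * ⁅k⁻¹ * h * k, v⁆ * k⁻¹ := by
          simp only [commutatorElement_def]; group
        rw [e]
        exact M.mul_mem (M.mul_mem (hHM hk)
          (hcM _ (H.mul_mem (H.mul_mem (H.inv_mem hk) hh) hk))) (M.inv_mem (hHM hk))
      | one =>
        refine ⟨V.one_mem, ?_⟩
        intro h _
        simp
      | mul y z _ _ hy hz =>
        refine ⟨V.mul_mem hy.1 hz.1, ?_⟩
        intro h hh
        have hzc : h * z * h⁻¹ * z⁻¹ ∈ V := V.mul_mem (hVn h hh z hz.1) (V.inv_mem hz.1)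
        have hc := hVcomm _ hzc _ (V.inv_mem hy.1)
        have e : ⁅h, y * z⁆ = ⁅h, y⁆ * ⁅h, z⁆ := by
          simp only [commutatorElement_def]
          calc h * (y * z) * h⁻¹ * (y * z)⁻¹
              = h * y * h⁻¹ * ((h * z * h⁻¹ * z⁻¹) * y⁻¹) := by group
            _ = h * y * h⁻¹ * (y⁻¹ * (h * z * h⁻¹ * z⁻¹)) := by rw [hc]
            _ = h * y * h⁻¹ * y⁻¹ * (h * z * h⁻¹ * z⁻¹) := by group
        rw [e]
        exact M.mul_mem (hy.2 h hh) (hz.2 h hh)
      | inv y _ hy =>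
        refine ⟨V.inv_mem hy.1, ?_⟩
        intro h hh
        have hyc : (h * y * h⁻¹)⁻¹ ∈ V := V.inv_mem (hVn h hh y hy.1)
        have hc := hVcomm _ hyc _ hy.1
        have e : ⁅h, y⁻¹⁆ = ⁅h, y⁆⁻¹ := by
          simp only [commutatorElement_def]
          calc h * y⁻¹ * h⁻¹ * y⁻¹⁻¹ = (h * y * h⁻¹)⁻¹ * y := by group
            _ = y * (h * y * h⁻¹)⁻¹ := hc
            _ = (h * y * h⁻¹ * y⁻¹)⁻¹ := by group
        rw [e]
        exact M.inv_mem (hy.2 h hh)
    have hWM : ⁅H, U⁆ ≤ M := by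
      rw [Subgroup.commutator_le]
      intro h hh u hu
      exact (key u hu).2 h hh
    exact hWM hw

end Cfsg.Agent.S4269
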