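import Cfsg.Statements.S4270
import Cfsg.Agent.Helper71.Pronormal

set_option autoImplicit false
open Cfsg

namespace Cfsg.Agent.S4270

/-- Let p be a prime and G a finite group with a normal subgroup A such that, both in A and in G/A, every subgroup containing a Sylow p-subgroup of that group is pronormal in that group. Let T be a Sylow p-subgroup of A. Then every subgroup of G containing a Sylow p-subgroup of G is pronormal in G if and only if (i) every subgroup of N_G(T)/T containing a Sylow p-subgroup of N_G(T)/T is pronormal there, and (ii) for every subgroup H of G containing a Sylow p-subgroup of G, the image of N_G(H) in G/A is the full normalizer of the image of H. (Pronormal: H and gHg⁻¹ are conjugate inside the subgroup they generate, for every g.) -/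
theorem result {G : Type*} [Group G] [Finite G] {p : ℕ} [Fact p.Prime]
    (A : Subgroup G) [A.Normal] (hA : (∀ K : Subgroup ↥A, (∃ P : Sylow p ↥A, (P : Subgroup ↥A) ≤ K) → Cfsg.IsPronormal K)) (hQ : (∀ K : Subgroup (G ⧸ A), (∃ P : Sylow p (G ⧸ A), (P : Subgroup (G ⧸ A)) ≤ K) → Cfsg.IsPronormal K))
    (T : Subgroup G) (hT : ∃ P : Sylow p ↥A, (P : Subgroup ↥A).map A.subtype = T) [(T.subgroupOf (Subgroup.normalizer (T : Set G))).Normal] :
    (∀ K : Subgroup G, (∃ P : Sylow p G, (P : Subgroup G) ≤ K) → Cfsg.IsPronormal K) ↔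
      ((∀ K : Subgroup (↥(Subgroup.normalizer (T : Set G)) ⧸ T.subgroupOf (Subgroup.normalizer (T : Set G))), (∃ P : Sylow p (↥(Subgroup.normalizer (T : Set G)) ⧸ T.subgroupOf (Subgroup.normalizer (T : Set G))), (P : Subgroup (↥(Subgroup.normalizer (T : Set G)) ⧸ T.subgroupOf (Subgroup.normalizer (T : Set G)))) ≤ K) → Cfsg.IsPronormal K) ∧
        ∀ K : Subgroup G, (∃ P : Sylow p G, (P : Subgroup G) ≤ K) →
          (Subgroup.normalizer (K : Set G)).map (QuotientGroup.mk' A) = Subgroup.normalizer ((K.map (QuotientGroup.mk' A) : Subgroup (G ⧸ A)) : Set (G ⧸ A))) := by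
  obtain ⟨P₀, hT⟩ := hT
  have hTp : IsPGroup p T := by rw [← hT]; exact P₀.isPGroup'.map A.subtype
  constructor
  · intro hall
    refine ⟨fun K hK =>
      Cfsg.Agent.Helper71.isPronormal_quotient_normalizer A P₀ T hT hall K hK, ?_⟩
    intro K hK
    apply le_antisymm (Subgroup.le_normalizer_map _)
    intro gbar hgbar
    obtain ⟨g, rfl⟩ := QuotientGroup.mk'_surjective A gbar
    obtain ⟨x, hx, hxeq⟩ := hall K hK g
    have hm : x⁻¹ * g ∈ Subgroup.normalizer (K : Set G) :=
      Cfsg.Agent.Helper71.mem_normalizer_of_map_conj_eq K hxeq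
    have hx' : QuotientGroup.mk' A x ∈ K.map (QuotientGroup.mk' A) := by
      have h1 : QuotientGroup.mk' A x ∈
          (K ⊔ K.map (MulAut.conj g).toMonoidHom).map (QuotientGroup.mk' A) :=
        Subgroup.mem_map_of_mem _ hx
      rw [Subgroup.map_sup, Cfsg.Agent.Helper71.map_map_conj,
        Cfsg.Agent.Helper71.map_conj_eq_self_of_mem_normalizer _ hgbar, sup_idem] at h1
      exact h1
    obtain ⟨k, hk, hkeq⟩ := hx'
    refine ⟨k * (x⁻¹ * g), Subgroup.mul_mem _ (Subgroup.le_normalizer hk) hm, ?_⟩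
    rw [map_mul, hkeq, map_mul, map_inv]
    group
  · rintro ⟨hYT, hii⟩
    apply Cfsg.Agent.Helper71.isPronormal_of_forall_sylow_ge T hTp
    intro K P hTP hPK
    have hPY := Cfsg.Agent.Helper71.sylow_le_normalizer_of_le A P₀ T hT P hTP
    have hcore := Cfsg.Agent.Helper71.exists_conj_of_mem_normal A hA P₀ T hT K (hTP.trans hPK)
      (Cfsg.Agent.Helper71.exists_conj_inf_normalizer T hYT K P (hTP.trans hPK) hPK hPY)
    intro g
    have hKbar : Cfsg.IsPronormal (K.map (QuotientGroup.mk' A)) :=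
      hQ _ ⟨Sylow.mapSurjective (QuotientGroup.mk'_surjective A) P, by
        rw [Sylow.coe_mapSurjective]; exact Subgroup.map_mono hPK⟩
    obtain ⟨xbar, hxbar, hxeq⟩ := hKbar (QuotientGroup.mk' A g)
    rw [← Cfsg.Agent.Helper71.map_map_conj, ← Subgroup.map_sup] at hxbar
    obtain ⟨x, hx, rfl⟩ := hxbar
    apply Cfsg.Agent.Helper71.exists_conj_of_mul K (show g = x * (x⁻¹ * g) by group) hx
    have h1 : (QuotientGroup.mk' A x)⁻¹ * QuotientGroup.mk' A g ∈ Subgroup.normalizer
        (((K.map (QuotientGroup.mk' A) : Subgroup (G ⧸ A))) : Set (G ⧸ A)) :=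
      Cfsg.Agent.Helper71.mem_normalizer_of_map_conj_eq _ hxeq
    rw [← hii K ⟨P, hPK⟩] at h1
    obtain ⟨n, hn, hneq⟩ := h1
    have ha : x⁻¹ * g * n⁻¹ ∈ A := by
      rw [← QuotientGroup.eq_one_iff, QuotientGroup.mk_mul, QuotientGroup.mk_mul,
        QuotientGroup.mk_inv, QuotientGroup.mk_inv]
      have h2 : (QuotientGroup.mk n : G ⧸ A) =
          (QuotientGroup.mk x : G ⧸ A)⁻¹ * (QuotientGroup.mk g : G ⧸ A) := hneq
      rw [h2]
      group
    obtain ⟨w, hw, hweq⟩ := hcore _ ha
    have e : K.map (MulAut.conj (x⁻¹ * g)).toMonoidHom =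
        K.map (MulAut.conj (x⁻¹ * g * n⁻¹)).toMonoidHom := by
      conv_lhs => rw [show x⁻¹ * g = x⁻¹ * g * n⁻¹ * n by group,
        Cfsg.Agent.Helper71.map_conj_mul,
        Cfsg.Agent.Helper71.map_conj_eq_self_of_mem_normalizer K hn]
    rw [e]
    exact ⟨w, hw, hweq⟩

end Cfsg.Agent.S4270
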