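import Cfsg.Statements.S4271
import Cfsg.Agent.Helper71.Pronormal

set_option autoImplicit false
open Cfsg

namespace Cfsg.Agent.S4271

/-- Let p be a prime and G a finite group with a normal subgroup A such that every subgroup of A containing a Sylow p-subgroup of A is pronormal in A, and the Sylow p-subgroups of G/A are self-normalizing. Let T be a Sylow p-subgroup of A. Then every subgroup of G containing a Sylow p-subgroup of G is pronormal in G if and only if every subgroup of N_G(T)/T containing a Sylow p-subgroup of N_G(T)/T is pronormal in N_G(T)/T. (Pronormal: H and gHg⁻¹ are conjugate inside the subgroup they generate, for every g.) -/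
theorem result {G : Type*} [Group G] [Finite G] {p : ℕ} [Fact p.Prime]
    (A : Subgroup G) [A.Normal] (hA : (∀ K : Subgroup ↥A, (∃ P : Sylow p ↥A, (P : Subgroup ↥A) ≤ K) → Cfsg.IsPronormal K))
    (hQ : ∀ P : Sylow p (G ⧸ A), Subgroup.normalizer ((P : Subgroup (G ⧸ A)) : Set (G ⧸ A)) = P)
    (T : Subgroup G) (hT : ∃ P : Sylow p ↥A, (P : Subgroup ↥A).map A.subtype = T) [(T.subgroupOf (Subgroup.normalizer (T : Set G))).Normal] :
    (∀ K : Subgroup G, (∃ P : Sylow p G, (P : Subgroup G) ≤ K) → Cfsg.IsPronormal K) ↔ (∀ K : Subgroup (↥(Subgroup.normalizer (T : Set G)) ⧸ T.subgroupOf (Subgroup.normalizer (T : Set G))), (∃ P : Sylow p (↥(Subgroup.normalizer (T : Set G)) ⧸ T.subgroupOf (Subgroup.normalizer (T : Set G))), (P : Subgroup (↥(Subgroup.normalizer (T : Set G)) ⧸ T.subgroupOf (Subgroup.normalizer (T : Set G)))) ≤ K) → Cfsg.IsPronormal K) := by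
  obtain ⟨P₀, hT⟩ := hT
  have hTp : IsPGroup p T := by rw [← hT]; exact P₀.isPGroup'.map A.subtype
  constructor
  · intro hall K hK
    exact Cfsg.Agent.Helper71.isPronormal_quotient_normalizer A P₀ T hT hall K hK
  · intro hYT
    apply Cfsg.Agent.Helper71.isPronormal_of_forall_sylow_ge T hTp
    intro K P hTP hPK
    have hPY := Cfsg.Agent.Helper71.sylow_le_normalizer_of_le A P₀ T hT P hTP
    have hcore := Cfsg.Agent.Helper71.exists_conj_of_mem_normal A hA P₀ T hT K (hTP.trans hPK)
      (Cfsg.Agent.Helper71.exists_conj_inf_normalizer T hYT K P (hTP.trans hPK) hPK hPY)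
    intro g
    obtain ⟨u, hu, hueq⟩ := Cfsg.Agent.Helper71.exists_conj_eq_of_maximal_pgroup
      (K ⊔ K.map (MulAut.conj g).toMonoidHom) (P : Subgroup G)
      ((P : Subgroup G).map (MulAut.conj g).toMonoidHom) (hPK.trans le_sup_left)
      ((Subgroup.map_mono hPK).trans le_sup_right) P.isPGroup' (P.isPGroup'.map _)
      (by rw [Subgroup.card_map_of_injective (MulAut.conj g).injective])
      (fun R hR _ hPR => P.is_maximal' hR hPR)
    apply Cfsg.Agent.Helper71.exists_conj_of_mul K (show g = u * (u⁻¹ * g) by group) hu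
    have hn : u⁻¹ * g ∈ Subgroup.normalizer ((P : Subgroup G) : Set G) :=
      Cfsg.Agent.Helper71.mem_normalizer_of_map_conj_eq _ hueq
    generalize u⁻¹ * g = n at hn
    have h1 : QuotientGroup.mk' A n ∈ Subgroup.normalizer
        ((((P : Subgroup G).map (QuotientGroup.mk' A) : Subgroup (G ⧸ A))) : Set (G ⧸ A)) :=
      Subgroup.le_normalizer_map _ (Subgroup.mem_map_of_mem _ hn)
    have h2 := hQ (Sylow.mapSurjective (QuotientGroup.mk'_surjective A) P)
    rw [Sylow.coe_mapSurjective] at h2
    rw [h2] at h1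
    obtain ⟨s, hs, hseq⟩ := h1
    have ha : n * s⁻¹ ∈ A := by
      rw [← QuotientGroup.eq_one_iff, QuotientGroup.mk_mul, QuotientGroup.mk_inv]
      have : (QuotientGroup.mk s : G ⧸ A) = QuotientGroup.mk n := hseq
      rw [this, mul_inv_cancel]
    obtain ⟨w, hw, hweq⟩ := hcore (n * s⁻¹) ha
    have e : K.map (MulAut.conj n).toMonoidHom = K.map (MulAut.conj (n * s⁻¹)).toMonoidHom := by
      conv_lhs => rw [show n = n * s⁻¹ * s by group, Cfsg.Agent.Helper71.map_conj_mul,
        Cfsg.Agent.Helper71.map_conj_eq_self_of_mem K (hPK hs)]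
    rw [e]
    exact ⟨w, hw, hweq⟩

end Cfsg.Agent.S4271
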