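import Cfsg.Statements.S4303
import Cfsg.Agent.Helper71.HallBase

set_option autoImplicit false
universe u
open Cfsg

namespace Cfsg.Agent.S4303

open Cfsg.Agent.Helper71

/-- The conclusion of M. Hall's theorem for a number `n`. -/
def IsHallProd (p : ℕ) (n : ℕ) : Prop :=
  ∃ l : List ℕ, l.prod = n ∧
    ∀ m ∈ l, (IsPrimePow m ∧ m % p = 1) ∨
      ∃ (S : Type u) (_ : Group S) (_ : Finite S), IsSimpleGroup S ∧ m = Nat.card (Sylow p S)

theorem isHallProd_one (p : ℕ) : IsHallProd.{u} p 1 :=
  ⟨[], rfl, by intro m hm; simp at hm⟩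

theorem isHallProd_mul {p a b : ℕ} (ha : IsHallProd.{u} p a) (hb : IsHallProd.{u} p b) :
    IsHallProd.{u} p (a * b) := by
  obtain ⟨l₁, h₁, h₁'⟩ := ha
  obtain ⟨l₂, h₂, h₂'⟩ := hb
  refine ⟨l₁ ++ l₂, by rw [List.prod_append, h₁, h₂], ?_⟩
  intro m hm
  rcases List.mem_append.mp hm with h | h
  · exact h₁' m h
  · exact h₂' m h

theorem isHallProd_of_prime_parts {p n : ℕ} (hn : n ≠ 0)
    (h : ∀ q : ℕ, q.Prime → q ^ n.factorization q % p = 1) : IsHallProd.{u} p n := by
  refine ⟨n.primeFactors.toList.map (fun q => q ^ n.factorization q), ?_, ?_⟩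
  · rw [Finset.prod_map_toList]
    have h1 := Nat.prod_factorization_pow_eq_self hn
    rw [Finsupp.prod, Nat.support_factorization] at h1
    exact h1
  · intro m hm
    obtain ⟨q, hq, rfl⟩ := List.mem_map.mp hm
    rw [Finset.mem_toList] at hq
    have hqp : q.Prime := Nat.prime_of_mem_primeFactors hq
    left
    refine ⟨?_, h q hqp⟩
    have hpos : 0 < n.factorization q :=
      hqp.factorization_pos_of_dvd hn (Nat.dvd_of_mem_primeFactors hq)
    exact (Nat.Prime.isPrimePow hqp).pow hpos.ne'

theorem card_subgroup_lt {G : Type*} [Group G] [Finite G] (H : Subgroup G) (h : H ≠ ⊤) :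
    Nat.card H < Nat.card G :=
  lt_of_le_of_ne (Subgroup.card_le_card_group H) (fun h' => h ((Subgroup.card_eq_iff_eq_top H).mp h'))

theorem card_quotient_lt {G : Type*} [Group G] [Finite G] (K : Subgroup G) [K.Normal]
    (h : K ≠ ⊥) : Nat.card (G ⧸ K) < Nat.card G := by
  have h1 : 1 < Nat.card K := (Subgroup.one_lt_card_iff_ne_bot K).mpr h
  have h2 := Subgroup.card_mul_index K
  rw [Subgroup.index_eq_card] at h2
  have h3 : 0 < Nat.card (G ⧸ K) := Nat.card_pos
  nlinarith

theorem main (p : ℕ) [Fact p.Prime] : ∀ (n : ℕ) (G : Type u) [Group G] [Finite G],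
    Nat.card G = n → IsHallProd.{u} p (Nat.card (Sylow p G)) := by
  intro n
  induction n using Nat.strong_induction_on with
  | _ n ih =>
    intro G _ _ hG
    by_cases hsimple : IsSimpleGroup G
    · refine ⟨[Nat.card (Sylow p G)], by simp, ?_⟩
      intro m hm
      rw [List.mem_singleton] at hm
      right
      exact ⟨G, inferInstance, inferInstance, hsimple, hm⟩
    by_cases htriv : Subsingleton G
    · have h1 : Nat.card (Sylow p G) = 1 := by
        obtain ⟨P⟩ : Nonempty (Sylow p G) := inferInstance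
        rw [card_sylow_eq_index_normalizer' P]
        have : Subgroup.normalizer ((P : Subgroup G) : Set G) = ⊤ := Subsingleton.elim _ _
        rw [this, Subgroup.index_top]
      rw [h1]
      exact isHallProd_one p
    obtain ⟨K, hKn, hKbot, hKtop⟩ : ∃ K : Subgroup G, K.Normal ∧ K ≠ ⊥ ∧ K ≠ ⊤ := by
      by_contra hcon
      push Not at hcon
      have : Nontrivial G := not_subsingleton_iff_nontrivial.mp htriv
      exact hsimple ⟨fun K hK => by
        by_cases h : K = ⊥
        · exact Or.inl h
        · exact Or.inr (hcon K hK h)⟩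
    obtain ⟨P⟩ : Nonempty (Sylow p G) := inferInstance
    by_cases hsup : (P : Subgroup G) ⊔ K = ⊤
    · by_cases hnorm : Subgroup.normalizer ((((P : Subgroup G) ⊓ K : Subgroup G)) : Set G) = ⊤
      · by_cases hinf : (P : Subgroup G) ⊓ K = ⊥
        · exact isHallProd_of_prime_parts Nat.card_pos.ne'
            (fun q hq => prime_pow_part_mod_eq_one P K hsup hinf q hq)
        · have hDn : ((P : Subgroup G) ⊓ K).Normal := Subgroup.normalizer_eq_top_iff.mp hnorm
          have hDp : IsPGroup p ((P : Subgroup G) ⊓ K : Subgroup G) :=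
            P.isPGroup'.to_le inf_le_left
          rw [← card_sylow_quotient_of_isPGroup ((P : Subgroup G) ⊓ K) hDp]
          exact ih _ (hG ▸ card_quotient_lt _ hinf) _ rfl
      · rw [card_sylow_eq_mul_of_sup_eq_top P K hsup]
        exact isHallProd_mul (ih _ (hG ▸ card_subgroup_lt K hKtop) _ rfl)
          (ih _ (hG ▸ card_subgroup_lt _ hnorm) _ rfl)
    · rw [card_sylow_eq_mul_of_normal P K]
      exact isHallProd_mul (ih _ (hG ▸ card_quotient_lt K hKbot) _ rfl)
        (ih _ (hG ▸ card_subgroup_lt _ hsup) _ rfl)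

/-- For a finite group `G` and a prime `p`, the number of Sylow `p`-subgroups of `G` is a product of natural numbers each of which is either a prime power congruent to 1 modulo `p` or the number of Sylow `p`-subgroups of some finite simple group. -/
theorem result {G : Type u} [Group G] [Finite G]
    (p : ℕ) [Fact p.Prime] :
    ∃ l : List ℕ, l.prod = Nat.card (Sylow p G) ∧
      ∀ m ∈ l, (IsPrimePow m ∧ m % p = 1) ∨
        ∃ (S : Type u) (_ : Group S) (_ : Finite S), IsSimpleGroup S ∧ m = Nat.card (Sylow p S) := by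
  exact main p _ G rfl

end Cfsg.Agent.S4303
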