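import Cfsg.Statements.S4331
-- import your own Cfsg.Agent.* helpers here

set_option autoImplicit false
open Cfsg

namespace Cfsg.Agent.S4331
/-!
The example is `G = AΓL(1,9) = F₉ ⋊ ΓL(1,9)` of order `144`, with `A` generated by the Frobenius
automorphism.  `ΓL(1,9)` is the semidihedral group `C₈ ⋊ C₂` of order `16`.
-/

abbrev C8 := Multiplicative (ZMod 8)
abbrev C2 := Multiplicative (ZMod 2)
abbrev V := Multiplicative (ZMod 3 × ZMod 3)

/-- The multiplier `3 ^ e`. -/
def mult (e : C2) : ZMod 8 := if e.toAdd = 0 then 1 else 3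

/-- The automorphism `k ↦ 3 ^ e * k` of `ℤ/8`. -/
def psiEquiv (e : C2) : C8 ≃* C8 where
  toFun k := Multiplicative.ofAdd (mult e * k.toAdd)
  invFun k := Multiplicative.ofAdd (mult e * k.toAdd)
  left_inv := by revert e; decide
  right_inv := by revert e; decide
  map_mul' := by revert e; decide

def psi : C2 →* MulAut C8 where
  toFun := psiEquiv
  map_one' := by apply MulEquiv.ext; decide
  map_mul' := by intro a b; apply MulEquiv.ext; revert a b; decide

/-- The semidihedral group of order `16`. -/
abbrev T := C8 ⋊[psi] C2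

instance : Fintype T := Fintype.ofEquiv _ SemidirectProduct.equivProd.symm

/-- The `n`-th power of the matrix `[[1,-1],[1,1]]` (multiplication by `1 + i` on `F₃[i]`)
applied to `v`. -/
def mpow : ℕ → ZMod 3 × ZMod 3 → ZMod 3 × ZMod 3
  | 0, v => v
  | (n+1), v => let w := mpow n v; (w.1 - w.2, w.1 + w.2)

/-- The action of `T` on `F₉ = F₃[i]`: `(k, e)` acts as `x ↦ (1 + i) ^ k * conj^e x`. -/
def act (t : T) (v : ZMod 3 × ZMod 3) : ZMod 3 × ZMod 3 :=
  mpow (t.left.toAdd.val) (if t.right.toAdd = 0 then v else (v.1, -v.2))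

def actEquiv (t : T) : V ≃* V where
  toFun v := Multiplicative.ofAdd (act t v.toAdd)
  invFun v := Multiplicative.ofAdd (act t⁻¹ v.toAdd)
  left_inv := by revert t; decide
  right_inv := by revert t; decide
  map_mul' := by revert t; decide

def phi : T →* MulAut V where
  toFun := actEquiv
  map_one' := by apply MulEquiv.ext; decide
  map_mul' := by intro a b; apply MulEquiv.ext; revert a b; decide

/-- The group `AΓL(1,9)` of order `144`. -/
abbrev G := V ⋊[phi] T

instance : Fintype G := Fintype.ofEquiv _ SemidirectProduct.equivProd.symm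

/-- The Frobenius automorphism. -/
def a : G := ⟨1, ⟨1, Multiplicative.ofAdd 1⟩⟩

/-- The translation by `i`. -/
def w : G := ⟨Multiplicative.ofAdd (0, 1), 1⟩

set_option maxRecDepth 100000 in
theorem D1 : ∀ c : G, ∃ h : G,
    (h * c * h⁻¹).left = 1 ∨ (h * c * h⁻¹) * a = a * (h * c * h⁻¹) := by
  decide +kernel

theorem a_ne_one : a ≠ 1 := by decide

theorem a_sq : a ^ 2 = 1 := by decide

theorem z_ne_one : a * (w * a⁻¹ * w⁻¹) ≠ 1 := by decide

theorem z_cube : (a * (w * a⁻¹ * w⁻¹)) ^ 3 = 1 := by decide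

theorem T_pow : ∀ t : T, t ^ 16 = 1 := by decide

/-- Every subgroup of a finite `p`-group is subnormal. -/
theorem isSubnormal_of_isPGroup {P : Type*} [Group P] [Finite P] {p : ℕ} [Fact p.Prime]
    (hP : IsPGroup p P) : ∀ (n : ℕ) (H : Subgroup P), Nat.card P - Nat.card H ≤ n →
      H.IsSubnormal := by
  have hnil : Group.IsNilpotent P := hP.isNilpotent
  have hnc : NormalizerCondition P := Group.normalizerCondition_of_isNilpotent
  intro n
  induction n with
  | zero =>
    intro H hH
    have : H = ⊤ := Subgroup.eq_top_of_le_card H (by omega)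
    rw [this]; exact Subgroup.IsSubnormal.top
  | succ n ih =>
    intro H hH
    by_cases htop : H = ⊤
    · rw [htop]; exact Subgroup.IsSubnormal.top
    · have hlt : H < Subgroup.normalizer (H : Set P) := hnc H (lt_top_iff_ne_top.mpr htop)
      have hcard : Nat.card H < Nat.card (Subgroup.normalizer (H : Set P)) := by
        by_contra hge
        exact hlt.ne (Subgroup.eq_of_le_of_card_ge hlt.le (by omega))
      have hle : Nat.card (Subgroup.normalizer (H : Set P)) ≤ Nat.card P :=
        Subgroup.card_le_card_group _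
      exact Subgroup.IsSubnormal.step H _ hlt.le (ih _ (by omega))
        (Subgroup.normal_subgroupOf_of_le_normalizer le_rfl)

/-- The complement `ΓL(1,9)` as a subgroup. -/
def Tsub : Subgroup G := (SemidirectProduct.inr : T →* G).range

theorem Tsub_isPGroup : IsPGroup 2 Tsub := by
  rintro ⟨g, t, rfl⟩
  refine ⟨4, ?_⟩
  apply Subtype.ext
  have : (SemidirectProduct.inr t : G) ^ 16 = 1 := by
    rw [← map_pow, T_pow, map_one]
  simpa using this

theorem mem_Tsub_of_left {g : G} (h : g.left = 1) : g ∈ Tsub :=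
  ⟨g.right, SemidirectProduct.ext h.symm rfl⟩

theorem a_mem_Tsub : a ∈ Tsub := mem_Tsub_of_left rfl

instance : Fact (Nat.Prime 2) := ⟨Nat.prime_two⟩

theorem subnormal_of_good (g : G)
    (hg : g.left = 1 ∨ g * a = a * g) :
    ((Subgroup.zpowers a).subgroupOf (Subgroup.zpowers a ⊔ Subgroup.zpowers g)).IsSubnormal := by
  rcases hg with hg | hg
  · have hle : Subgroup.zpowers a ⊔ Subgroup.zpowers g ≤ Tsub := by
      refine sup_le ?_ ?_
      · rw [Subgroup.zpowers_le]; exact a_mem_Tsub
      · rw [Subgroup.zpowers_le]; exact mem_Tsub_of_left hg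
    have hp : IsPGroup 2 (Subgroup.zpowers a ⊔ Subgroup.zpowers g : Subgroup G) :=
      Tsub_isPGroup.to_le hle
    exact isSubnormal_of_isPGroup hp _ _ le_rfl
  · apply Subgroup.Normal.isSubnormal
    apply Subgroup.normal_subgroupOf_of_le_normalizer
    refine sup_le Subgroup.le_normalizer ?_
    rw [Subgroup.zpowers_le, Subgroup.mem_normalizer_iff]
    intro y
    constructor
    · intro hy
      obtain ⟨k, rfl⟩ := Subgroup.mem_zpowers_iff.mp hy
      have hc : Commute g (a ^ k) := (Commute.zpow_right hg k)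
      have : g * a ^ k * g⁻¹ = a ^ k := by
        rw [hc.eq, mul_inv_cancel_right]
      rw [this]; exact hy
    · intro hy
      obtain ⟨k, hk⟩ := Subgroup.mem_zpowers_iff.mp hy
      have hc : Commute g (a ^ k) := (Commute.zpow_right hg k)
      have : y = a ^ k := by
        have h1 : y = g⁻¹ * (g * y * g⁻¹) * g := by group
        rw [h1, ← hk, mul_assoc, ← hc.eq, inv_mul_cancel_left]
      rw [this]; exact Subgroup.zpow_mem_zpowers a k

theorem card_A : Nat.card (Subgroup.zpowers a) = 2 := by
  rw [Nat.card_zpowers]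
  exact orderOf_eq_prime a_sq a_ne_one

theorem not_le_pCore : ¬ Subgroup.zpowers a ≤ Cfsg.pCore 2 G := by
  intro hle
  have hpg : IsPGroup 2 (Cfsg.pCore 2 G) :=
    Sylow.sSup_of_normal _ (fun H hH => hH.2) (fun H hH => hH.1)
  have hnorm : (Cfsg.pCore 2 G).Normal := Subgroup.sSup_normal _ (fun _ h => h.1)
  have ha : a ∈ Cfsg.pCore 2 G := hle (Subgroup.mem_zpowers a)
  have hz : a * (w * a⁻¹ * w⁻¹) ∈ Cfsg.pCore 2 G :=
    mul_mem ha (hnorm.conj_mem _ (inv_mem ha) w)
  obtain ⟨k, hk⟩ := hpg ⟨_, hz⟩
  have hk' : (a * (w * a⁻¹ * w⁻¹)) ^ 2 ^ k = 1 := by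
    simpa using congrArg Subtype.val hk
  have h3 : orderOf (a * (w * a⁻¹ * w⁻¹)) = 3 :=
    orderOf_eq_prime z_cube z_ne_one
  have hdvd : 3 ∣ 2 ^ k := by
    rw [← h3]; exact orderOf_dvd_of_pow_eq_one hk'
  have := (Nat.Prime.dvd_of_dvd_pow Nat.prime_three hdvd)
  omega

theorem solvable_G : Group.IsSolvable G := by
  have hT : Group.IsSolvable T :=
    Group.isSolvable_of_ker_le_range (SemidirectProduct.inl : C8 →* T)
      (SemidirectProduct.rightHom : T →* C2)
      (le_of_eq SemidirectProduct.range_inl_eq_ker_rightHom.symm)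
  exact Group.isSolvable_of_ker_le_range (SemidirectProduct.inl : V →* G)
    (SemidirectProduct.rightHom : G →* T)
    (le_of_eq SemidirectProduct.range_inl_eq_ker_rightHom.symm)

/-- There is a finite solvable group G with a subgroup A of order 2 such that every conjugacy class of G contains an element g for which A is subnormal in the subgroup generated by A and g, and yet A is not contained in O_2(G). (So the corresponding criteria for odd primes fail at the prime 2, even for solvable groups.) -/
theorem result :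
    ∃ (G : Type) (_ : Group G) (_ : Finite G) (A : Subgroup G), Group.IsSolvable G ∧ Nat.card A = 2 ∧
      (∀ c : G, ∃ g : G, IsConj c g ∧ (A.subgroupOf (A ⊔ Subgroup.zpowers g)).IsSubnormal) ∧
      ¬ A ≤ Cfsg.pCore 2 G := by
  refine ⟨G, inferInstance, inferInstance, Subgroup.zpowers a, solvable_G, card_A, ?_, not_le_pCore⟩
  intro c
  obtain ⟨h, hh⟩ := D1 c
  exact ⟨h * c * h⁻¹, isConj_iff.mpr ⟨h, rfl⟩, subnormal_of_good _ hh⟩

end Cfsg.Agent.S4331
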