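import Cfsg.Statements.S4332

set_option autoImplicit false
open Pointwise
open Cfsg

namespace Cfsg.Agent.S4332

/-! ### Computational layer: permutations of `{0,…,7}` as base-8 codes -/

/-- The `i`-th base-8 digit of `c`. -/
def dg (c i : ℕ) : ℕ := Nat.mod (Nat.div c (Nat.pow 8 i)) 8

theorem dg_eq (c i : ℕ) : dg c i = c / 8 ^ i % 8 := rfl

theorem dg_lt (c i : ℕ) : dg c i < 8 := Nat.mod_lt _ (by norm_num)

def all8 (f : ℕ → Bool) : Bool := f 0 && f 1 && f 2 && f 3 && f 4 && f 5 && f 6 && f 7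

theorem all8_iff (f : ℕ → Bool) : all8 f = true ↔ ∀ i < 8, f i = true := by
  unfold all8
  simp only [Bool.and_eq_true]
  constructor
  · rintro ⟨⟨⟨⟨⟨⟨⟨h0, h1⟩, h2⟩, h3⟩, h4⟩, h5⟩, h6⟩, h7⟩ i hi
    interval_cases i <;> assumption
  · intro h
    exact ⟨⟨⟨⟨⟨⟨⟨h 0 (by norm_num), h 1 (by norm_num)⟩, h 2 (by norm_num)⟩, h 3 (by norm_num)⟩,
      h 4 (by norm_num)⟩, h 5 (by norm_num)⟩, h 6 (by norm_num)⟩, h 7 (by norm_num)⟩

theorem nbeq_iff (a b : ℕ) : Nat.beq a b = true ↔ a = b :=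
  ⟨Nat.eq_of_beq_eq_true, fun h => h ▸ Nat.beq_refl a⟩

/-- Codes `a + 8 b + 64 d` of the 56 three-element subsets `{a < b < d}` of `{0,…,7}`. -/
def triples : List ℕ := [136, 200, 264, 328, 392, 456, 208, 272, 336, 400, 464, 280, 344, 408, 472,
  352, 416, 480, 424, 488, 496, 209, 273, 337, 401, 465, 281, 345, 409, 473, 353, 417, 481, 425,
  489, 497, 282, 346, 410, 474, 354, 418, 482, 426, 490, 498, 355, 419, 483, 427, 491, 499, 428,
  492, 500, 501]

noncomputable def anyC (f : ℕ → Bool) (l : List ℕ) : Bool :=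
  List.rec false (fun h _ ih => f h || ih) l

theorem anyC_iff (f : ℕ → Bool) (l : List ℕ) : anyC f l = true ↔ ∃ h ∈ l, f h = true := by
  induction l with
  | nil => simp [anyC]
  | cons a l ih =>
    have : anyC f (a :: l) = (f a || anyC f l) := rfl
    rw [this, Bool.or_eq_true, ih]
    simp

/-- Membership of `x` in the triple coded by `Y`. -/
def inY (Y x : ℕ) : Bool := Nat.beq x (dg Y 0) || Nat.beq x (dg Y 1) || Nat.beq x (dg Y 2)

theorem inY_iff (Y x : ℕ) : inY Y x = true ↔ (x = dg Y 0 ∨ x = dg Y 1 ∨ x = dg Y 2) := by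
  unfold inY
  rw [Bool.or_eq_true, Bool.or_eq_true, nbeq_iff, nbeq_iff, nbeq_iff, or_assoc]

/-- The permutation coded by `c` maps the triple `Y` onto itself or off itself. -/
def tst (c Y : ℕ) : Bool :=
  (inY Y (dg c (dg Y 0)) && inY Y (dg c (dg Y 1)) && inY Y (dg c (dg Y 2))) ||
  (!inY Y (dg c (dg Y 0)) && !inY Y (dg c (dg Y 1)) && !inY Y (dg c (dg Y 2)))

noncomputable def chk (c : ℕ) : Bool := anyC (tst c) triples

noncomputable def packF (l : List ℕ) : ℕ := List.rec 0 (fun a _ ih => Nat.add a (Nat.mul 8 ih)) l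

noncomputable def elemB (a : ℕ) (l : List ℕ) : Bool := List.rec false (fun b _ ih => Nat.beq a b || ih) l

theorem elemB_iff (a : ℕ) (l : List ℕ) : elemB a l = true ↔ a ∈ l := by
  induction l with
  | nil => simp [elemB]
  | cons b l ih =>
    have : elemB a (b :: l) = (Nat.beq a b || elemB a l) := rfl
    rw [this, Bool.or_eq_true, ih, nbeq_iff]
    simp

noncomputable def go (k : ℕ) : List ℕ → Bool :=
  Nat.rec (fun l => chk (packF l)) (fun _ ih l => all8 fun a => elemB a l || ih (a :: l)) k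

theorem go_sound : ∀ (l' l : List ℕ), go l'.length l = true → (∀ a ∈ l', a < 8) →
    (l'.reverse ++ l).Nodup → chk (packF (l'.reverse ++ l)) = true := by
  intro l'
  induction l' with
  | nil =>
    intro l h _ _
    have h0 : go ([] : List ℕ).length l = chk (packF l) := rfl
    rw [h0] at h
    simpa using h
  | cons a l'' ih =>
    intro l h hlt hnd
    have hstep : go (a :: l'').length l = all8 fun b => elemB b l || go l''.length (b :: l) := rfl
    rw [hstep, all8_iff] at h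
    have ha := h a (hlt a (by simp))
    have hnd' : (l''.reverse ++ a :: l).Nodup := by
      simpa [List.reverse_cons, List.append_assoc] using hnd
    have hnot : elemB a l = false := by
      rw [Bool.eq_false_iff, Ne, elemB_iff]
      intro hmem
      have := List.nodup_append.mp hnd'
      exact (List.nodup_cons.mp this.2.1).1 hmem
    rw [hnot, Bool.false_or] at ha
    have := ih (a :: l) ha (fun b hb => hlt b (by simp [hb])) hnd'
    simpa [List.reverse_cons, List.append_assoc] using this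

set_option maxRecDepth 100000 in
theorem go8 : go 8 [] = true := by decide +kernel

theorem triples_key : ∀ Y ∈ triples, dg Y 0 ≠ dg Y 1 ∧ dg Y 0 ≠ dg Y 2 ∧ dg Y 1 ≠ dg Y 2 := by
  decide +kernel

theorem dg_pack (a0 a1 a2 a3 a4 a5 a6 a7 : ℕ) (h0 : a0 < 8) (h1 : a1 < 8) (h2 : a2 < 8) (h3 : a3 < 8)
    (h4 : a4 < 8) (h5 : a5 < 8) (h6 : a6 < 8) (h7 : a7 < 8) :
    dg (packF [a0, a1, a2, a3, a4, a5, a6, a7]) 0 = a0 ∧ dg (packF [a0, a1, a2, a3, a4, a5, a6, a7]) 1 = a1 ∧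
    dg (packF [a0, a1, a2, a3, a4, a5, a6, a7]) 2 = a2 ∧ dg (packF [a0, a1, a2, a3, a4, a5, a6, a7]) 3 = a3 ∧
    dg (packF [a0, a1, a2, a3, a4, a5, a6, a7]) 4 = a4 ∧ dg (packF [a0, a1, a2, a3, a4, a5, a6, a7]) 5 = a5 ∧
    dg (packF [a0, a1, a2, a3, a4, a5, a6, a7]) 6 = a6 ∧ dg (packF [a0, a1, a2, a3, a4, a5, a6, a7]) 7 = a7 := by
  have e : packF [a0, a1, a2, a3, a4, a5, a6, a7] =
      a0 + 8 * (a1 + 8 * (a2 + 8 * (a3 + 8 * (a4 + 8 * (a5 + 8 * (a6 + 8 * (a7 + 8 * 0))))))) := rfl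
  rw [e]
  simp only [dg_eq]
  norm_num
  refine ⟨?_, ?_, ?_, ?_, ?_, ?_, ?_, ?_⟩ <;> omega

/-! ### Linking the computation with permutations -/

/-- The property extracted from the computation. -/
def Good (y : Equiv.Perm (Fin 8)) : Prop :=
  ∃ a b d : Fin 8, a ≠ b ∧ a ≠ d ∧ b ≠ d ∧
    (((y a = a ∨ y a = b ∨ y a = d) ∧ (y b = a ∨ y b = b ∨ y b = d) ∧ (y d = a ∨ y d = b ∨ y d = d)) ∨
     (¬ (y a = a ∨ y a = b ∨ y a = d) ∧ ¬ (y b = a ∨ y b = b ∨ y b = d) ∧
       ¬ (y d = a ∨ y d = b ∨ y d = d)))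

theorem chk_sound (y : Equiv.Perm (Fin 8)) (c : ℕ) (hc : ∀ i : Fin 8, dg c i.val = (y i).val)
    (h : chk c = true) : Good y := by
  unfold chk at h
  rw [anyC_iff] at h
  obtain ⟨Y, hY, ht⟩ := h
  obtain ⟨n1, n2, n3⟩ := triples_key Y hY
  have e : ∀ (i : ℕ) (x : Fin 8), (y ⟨dg Y i, dg_lt _ _⟩ = x) ↔ dg c (dg Y i) = x.val := by
    intro i x
    rw [hc ⟨dg Y i, dg_lt _ _⟩, Fin.val_inj]
  refine ⟨⟨dg Y 0, dg_lt _ _⟩, ⟨dg Y 1, dg_lt _ _⟩, ⟨dg Y 2, dg_lt _ _⟩,
    fun h => n1 (congrArg Fin.val h), fun h => n2 (congrArg Fin.val h),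
    fun h => n3 (congrArg Fin.val h), ?_⟩
  unfold tst at ht
  simp only [Bool.or_eq_true, Bool.and_eq_true, Bool.not_eq_true', Bool.eq_false_iff, ne_eq,
    inY_iff] at ht
  simp only [e]
  rcases ht with ⟨⟨h1, h2⟩, h3⟩ | ⟨⟨h1, h2⟩, h3⟩
  · exact Or.inl ⟨h1, h2, h3⟩
  · exact Or.inr ⟨h1, h2, h3⟩

theorem good_all (y : Equiv.Perm (Fin 8)) : Good y := by
  have hnd : ([(y 7).val, (y 6).val, (y 5).val, (y 4).val, (y 3).val, (y 2).val, (y 1).val,
      (y 0).val].reverse ++ []).Nodup := by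
    simp [Fin.val_inj, y.injective.eq_iff]
  have hs := go_sound [(y 7).val, (y 6).val, (y 5).val, (y 4).val, (y 3).val, (y 2).val, (y 1).val,
      (y 0).val] [] go8
    (by
      intro a ha
      simp only [List.mem_cons, List.not_mem_nil, or_false] at ha
      rcases ha with rfl | rfl | rfl | rfl | rfl | rfl | rfl | rfl <;> exact Fin.isLt _)
    hnd
  obtain ⟨d0, d1, d2, d3, d4, d5, d6, d7⟩ := dg_pack (y 0).val (y 1).val (y 2).val (y 3).val (y 4).val
    (y 5).val (y 6).val (y 7).val (Fin.isLt _) (Fin.isLt _) (Fin.isLt _) (Fin.isLt _) (Fin.isLt _)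
    (Fin.isLt _) (Fin.isLt _) (Fin.isLt _)
  refine chk_sound y _ ?_ hs
  intro i
  fin_cases i
  exacts [d0, d1, d2, d3, d4, d5, d6, d7]

/-! ### Commuting three-cycles -/

theorem in_key : ∀ a b : Fin 8, a ≠ b → ∀ d : Fin 8, a ≠ d → b ≠ d →
    ∀ a' : Fin 8, (a' = a ∨ a' = b ∨ a' = d) → ∀ b' : Fin 8, (b' = a ∨ b' = b ∨ b' = d) → a' ≠ b' →
    ∀ d' : Fin 8, (d' = a ∨ d' = b ∨ d' = d) → a' ≠ d' → b' ≠ d' →
    ∀ x : Fin 8, Equiv.swap a b (Equiv.swap a d (Equiv.swap a' b' (Equiv.swap a' d' x))) =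
      Equiv.swap a' b' (Equiv.swap a' d' (Equiv.swap a b (Equiv.swap a d x))) := by
  decide +kernel

theorem conj_three (y : Equiv.Perm (Fin 8)) (a b d : Fin 8) :
    y * (Equiv.swap a b * Equiv.swap a d) * y⁻¹ =
      Equiv.swap (y a) (y b) * Equiv.swap (y a) (y d) := by
  rw [Equiv.swap_apply_apply, Equiv.swap_apply_apply]
  group

theorem comm_of_good (y : Equiv.Perm (Fin 8)) (h : Good y) :
    ∃ t : Equiv.Perm (Fin 8), t.IsThreeCycle ∧ Commute t (y * t * y⁻¹) := by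
  obtain ⟨a, b, d, hab, had, hbd, h⟩ := h
  refine ⟨Equiv.swap a b * Equiv.swap a d, Equiv.Perm.isThreeCycle_swap_mul_swap_same hab had hbd, ?_⟩
  rcases h with ⟨h1, h2, h3⟩ | ⟨h1, h2, h3⟩
  · rw [conj_three]
    have k := in_key a b hab d had hbd (y a) h1 (y b) h2 (fun e => hab (y.injective e))
      (y d) h3 (fun e => had (y.injective e)) (fun e => hbd (y.injective e))
    show _ * _ = _ * _
    ext x
    simp only [Equiv.Perm.mul_apply]
    rw [k x]
  · apply Equiv.Perm.Disjoint.commute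
    intro x
    by_cases hx : x = a ∨ x = b ∨ x = d
    · right
      have e : y (y⁻¹ x) = x := y.apply_symm_apply x
      have hn : y⁻¹ x ≠ a ∧ y⁻¹ x ≠ b ∧ y⁻¹ x ≠ d := by
        refine ⟨fun h => ?_, fun h => ?_, fun h => ?_⟩
        · rw [h] at e
          rw [e] at h1
          exact h1 hx
        · rw [h] at e
          rw [e] at h2
          exact h2 hx
        · rw [h] at e
          rw [e] at h3
          exact h3 hx
      rw [Equiv.Perm.mul_apply, Equiv.Perm.mul_apply, Equiv.Perm.mul_apply,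
        Equiv.swap_apply_of_ne_of_ne hn.1 hn.2.2, Equiv.swap_apply_of_ne_of_ne hn.1 hn.2.1, e]
    · left
      rw [not_or, not_or] at hx
      rw [Equiv.Perm.mul_apply, Equiv.swap_apply_of_ne_of_ne hx.1 hx.2.2,
        Equiv.swap_apply_of_ne_of_ne hx.1 hx.2.1]

theorem main (y : Equiv.Perm (Fin 8)) :
    ∃ t : Equiv.Perm (Fin 8), t.IsThreeCycle ∧ Commute t (y * t * y⁻¹) :=
  comm_of_good y (good_all y)

/-! ### First part -/

theorem part1 (σ : Equiv.Perm (Fin 8)) (hσ : σ.IsThreeCycle) (c : Equiv.Perm (Fin 8)) :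
    ∃ g : Equiv.Perm (Fin 8), IsConj c g ∧
      ((Subgroup.zpowers σ).subgroupOf
        (Subgroup.zpowers σ ⊔ MulAut.conj g • Subgroup.zpowers σ)).IsSubnormal := by
  obtain ⟨t, ht, hcomm⟩ := main c
  have hconj : IsConj σ t := Equiv.Perm.isConj_iff_cycleType_eq.mpr (hσ.trans ht.symm)
  obtain ⟨k, hk⟩ := isConj_iff.mp hconj
  refine ⟨k⁻¹ * c * k, isConj_iff.mpr ⟨k⁻¹, by group⟩, ?_⟩
  have hτ : σ * ((k⁻¹ * c * k) * σ * (k⁻¹ * c * k)⁻¹) = ((k⁻¹ * c * k) * σ * (k⁻¹ * c * k)⁻¹) * σ := by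
    have h1 : t * (c * t * c⁻¹) = c * t * c⁻¹ * t := hcomm
    rw [← hk] at h1
    have h2 : k⁻¹ * (k * σ * k⁻¹ * (c * (k * σ * k⁻¹) * c⁻¹)) * k =
        k⁻¹ * (c * (k * σ * k⁻¹) * c⁻¹ * (k * σ * k⁻¹)) * k := by rw [h1]
    convert h2 using 1 <;> group
  have hK : Subgroup.zpowers σ ⊔ MulAut.conj (k⁻¹ * c * k) • Subgroup.zpowers σ ≤
      Subgroup.centralizer (Subgroup.zpowers σ : Set (Equiv.Perm (Fin 8))) := by
    apply sup_le
    · rw [Subgroup.zpowers_le, Subgroup.mem_centralizer_iff]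
      rintro h ⟨n, rfl⟩
      exact ((Commute.refl σ).zpow_left n).eq
    · intro x hx
      rw [Subgroup.mem_pointwise_smul_iff_inv_smul_mem] at hx
      obtain ⟨n, hn⟩ := hx
      have hx' : x = ((k⁻¹ * c * k) * σ * (k⁻¹ * c * k)⁻¹) ^ n := by
        have h3 : x = MulAut.conj (k⁻¹ * c * k) • ((MulAut.conj (k⁻¹ * c * k))⁻¹ • x) := by
          rw [smul_inv_smul]
        rw [h3, ← hn]
        simp only [MulAut.smul_def, MulAut.conj_apply]
        rw [conj_zpow]
      rw [Subgroup.mem_centralizer_iff]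
      rintro h ⟨m, rfl⟩
      rw [hx']
      have hc : Commute σ ((k⁻¹ * c * k) * σ * (k⁻¹ * c * k)⁻¹) := hτ
      exact ((hc.zpow_left m).zpow_right n).eq
  have hN : ((Subgroup.zpowers σ).subgroupOf
      (Subgroup.zpowers σ ⊔ MulAut.conj (k⁻¹ * c * k) • Subgroup.zpowers σ)).Normal := by
    constructor
    intro n hn k'
    rw [Subgroup.mem_subgroupOf] at hn ⊢
    have hk' := hK k'.2
    rw [Subgroup.mem_centralizer_iff] at hk'
    have h4 := hk' n.1 hn
    have h5 : ((k' * n * k'⁻¹ : _) : Equiv.Perm (Fin 8)) = n.1 := by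
      simp only [Subgroup.coe_mul, Subgroup.coe_inv]
      rw [← h4]
      group
    rw [h5]
    exact hn
  exact hN.isSubnormal

/-! ### Second part -/

theorem part2 : Cfsg.pCore 3 (Equiv.Perm (Fin 8)) = ⊥ := by
  unfold Cfsg.pCore
  rw [eq_bot_iff]
  apply sSup_le
  rintro N ⟨hN, hp⟩
  have hsimple : IsSimpleGroup (alternatingGroup (Fin 8)) :=
    alternatingGroup.isSimpleGroup (by simp)
  have hnorm : (N.subgroupOf (alternatingGroup (Fin 8))).Normal := Subgroup.normal_subgroupOf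
  rcases hnorm.eq_bot_or_eq_top with h | h
  · rw [Subgroup.subgroupOf_eq_bot] at h
    intro x hx
    rw [Subgroup.mem_bot]
    have hx2 : x * x ∈ alternatingGroup (Fin 8) := by
      rw [Equiv.Perm.mem_alternatingGroup, map_mul, Int.units_mul_self]
    have h1 : x * x = 1 := by
      have := h.le_bot (Subgroup.mem_inf.mpr ⟨N.mul_mem hx hx, hx2⟩)
      simpa using this
    obtain ⟨k, hk⟩ := hp ⟨x, hx⟩
    have hk' : x ^ 3 ^ k = 1 := by simpa using congrArg Subtype.val hk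
    have d1 : orderOf x ∣ 2 := orderOf_dvd_of_pow_eq_one (by rw [pow_two]; exact h1)
    have d2 : orderOf x ∣ 3 ^ k := orderOf_dvd_of_pow_eq_one hk'
    have d3 : orderOf x ∣ Nat.gcd 2 (3 ^ k) := Nat.dvd_gcd d1 d2
    have hg : Nat.gcd 2 (3 ^ k) = 1 := Nat.Coprime.pow_right k (by norm_num)
    rw [hg, Nat.dvd_one, orderOf_eq_one_iff] at d3
    exact d3
  · rw [Subgroup.subgroupOf_eq_top] at h
    exfalso
    have hu : (Equiv.swap (0 : Fin 8) 1 * Equiv.swap (2 : Fin 8) 3) ∈ alternatingGroup (Fin 8) := by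
      rw [Equiv.Perm.mem_alternatingGroup, map_mul, Equiv.Perm.sign_swap (by decide),
        Equiv.Perm.sign_swap (by decide)]
      rfl
    have huN := h hu
    obtain ⟨k, hk⟩ := hp ⟨_, huN⟩
    have hk' : (Equiv.swap (0 : Fin 8) 1 * Equiv.swap (2 : Fin 8) 3) ^ 3 ^ k = 1 := by
      simpa using congrArg Subtype.val hk
    have hu2 : (Equiv.swap (0 : Fin 8) 1 * Equiv.swap (2 : Fin 8) 3) ^ 2 = 1 := by decide
    have hu1 : (Equiv.swap (0 : Fin 8) 1 * Equiv.swap (2 : Fin 8) 3) ≠ 1 := by decide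
    have d1 : orderOf (Equiv.swap (0 : Fin 8) 1 * Equiv.swap (2 : Fin 8) 3) ∣ 2 :=
      orderOf_dvd_of_pow_eq_one hu2
    have d2 : orderOf (Equiv.swap (0 : Fin 8) 1 * Equiv.swap (2 : Fin 8) 3) ∣ 3 ^ k :=
      orderOf_dvd_of_pow_eq_one hk'
    have d3 := Nat.dvd_gcd d1 d2
    have hg : Nat.gcd 2 (3 ^ k) = 1 := Nat.Coprime.pow_right k (by norm_num)
    rw [hg, Nat.dvd_one, orderOf_eq_one_iff] at d3
    exact hu1 d3

/-- In the symmetric group of degree 8, let A be the subgroup generated by a 3-cycle. Then every conjugacy class contains an element g for which A is subnormal in the subgroup generated by A and its conjugate by g, although O_3 of the symmetric group of degree 8 is trivial. -/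
theorem result
    (σ : Equiv.Perm (Fin 8)) (hσ : σ.IsThreeCycle) :
    (∀ c : Equiv.Perm (Fin 8), ∃ g : Equiv.Perm (Fin 8), IsConj c g ∧
      ((Subgroup.zpowers σ).subgroupOf (Subgroup.zpowers σ ⊔ MulAut.conj g • Subgroup.zpowers σ)).IsSubnormal) ∧
    Cfsg.pCore 3 (Equiv.Perm (Fin 8)) = ⊥ :=
  ⟨part1 σ hσ, part2⟩

end Cfsg.Agent.S4332
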