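import Cfsg.Statements.S4333
import Cfsg.Agent.Helper72.Subnormal

set_option autoImplicit false
open Pointwise
open Cfsg

namespace Cfsg.Agent.S4333

theorem conj_smul_eq_map {G : Type*} [Group G] (x : G) (A : Subgroup G) :
    MulAut.conj x • A = A.map (MulAut.conj x).toMonoidHom := rfl

/-- Let A be a subgroup of a finite group G. If A is subnormal in the subgroup generated by A and its conjugate by g⁻¹ a g, for every a ∈ A and every g ∈ G, then A is subnormal in G. (A sharpening of Wielandt's subnormality criterion: only conjugates of A by conjugates of elements of A are needed.) -/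
theorem result {G : Type*} [Group G] [Finite G]
    (A : Subgroup G)
    (h : ∀ a ∈ A, ∀ g : G, (A.subgroupOf (A ⊔ MulAut.conj (g⁻¹ * a * g) • A)).IsSubnormal) :
    A.IsSubnormal := by
  have key := Cfsg.Agent.Helper72.subnIn_of_forall_conj A (Nat.card (⊤ : Subgroup G)) ⊤ le_rfl
    le_top (by
      intro a ha g _
      have h1 := h a ha g
      rw [conj_smul_eq_map] at h1
      exact Cfsg.Agent.Helper72.subnIn_of_isSubnormal_subgroupOf le_sup_left h1)
  exact key.isSubnormal_of Subgroup.IsSubnormal.top

end Cfsg.Agent.S4333
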