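import Cfsg.Statements.S4334
import Cfsg.Agent.S0581
import Cfsg.Agent.Helper50.PrimePow

set_option autoImplicit false
open Cfsg

namespace Cfsg.Agent.S4334

open Cfsg.Agent.Helper50 Cfsg.Agent.Helper70

/-- a factor of a Hall subgroup which is a product of commuting `σ`- and `τ`-subgroups -/
theorem hall_factor {G : Type*} [Group G] [Finite G] {σ τ : Set ℕ} (hd : Disjoint σ τ)
    {A B : Subgroup G} (hA : IsPiSubgroup σ A) (hB : IsPiSubgroup τ B)
    (hc : ∀ a ∈ A, ∀ b ∈ B, a * b = b * a)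
    (hH : ∀ p : ℕ, p.Prime → p ∈ σ → ¬ p ∣ (A ⊔ B).index) :
    ∀ p : ℕ, p.Prime → p ∈ σ → ¬ p ∣ A.index := by
  intro p hp hpσ hdvd
  have hAN : A ≤ Subgroup.normalizer (B : Set G) := fun a ha =>
    centralizer_le_normalizer' B
      (Subgroup.mem_centralizer_iff.mpr fun b hb => (hc a ha b hb).symm)
  have hinf : A ⊓ B = ⊥ := by
    rw [← Subgroup.card_eq_one]
    by_contra hne
    obtain ⟨q, hq, hqd⟩ := Nat.exists_prime_and_dvd hne
    exact Set.disjoint_left.mp hd (hA q hq (hqd.trans (Subgroup.card_dvd_of_le inf_le_left)))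
      (hB q hq (hqd.trans (Subgroup.card_dvd_of_le inf_le_right)))
  have hcard := card_mul_card_eq_of_le_normalizer hAN
  rw [hinf, Subgroup.card_bot, mul_one] at hcard
  have e1 : Nat.card A * A.relIndex (A ⊔ B) = Nat.card ↥(A ⊔ B) := by
    have := Subgroup.relIndex_mul_relIndex ⊥ A (A ⊔ B) bot_le le_sup_left
    rwa [Subgroup.relIndex_bot_left, Subgroup.relIndex_bot_left] at this
  have e2 : A.relIndex (A ⊔ B) = Nat.card B := by
    rw [← hcard] at e1
    exact Nat.eq_of_mul_eq_mul_left Nat.card_pos e1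
  have e3 := Subgroup.relIndex_mul_index (le_sup_left : A ≤ A ⊔ B)
  rw [← e3, e2] at hdvd
  rcases (Nat.Prime.dvd_mul hp).mp hdvd with h | h
  · exact Set.disjoint_left.mp hd hpσ (hB p hp h)
  · exact hH p hp hpσ h

/-- Wielandt: every `σ`-subgroup lies in a conjugate of the nilpotent Hall `σ`-subgroup `A`. -/
theorem wiel {G : Type*} [Group G] [Finite G] {σ : Set ℕ} {A : Subgroup G}
    (hA : IsPiSubgroup σ A) (nil : Group.IsNilpotent A)
    (idxA : ∀ p : ℕ, p.Prime → p ∈ σ → ¬ p ∣ A.index) (Q : Subgroup G) (hQ : IsPiSubgroup σ Q) :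
    ∃ x : G, Q ≤ A.map (MulAut.conj x).toMonoidHom := by
  have hHall : (Nat.card A).Coprime A.index := by
    by_contra hn
    obtain ⟨p, hp, h1, h2⟩ := Nat.Prime.not_coprime_iff_dvd.mp hn
    exact idxA p hp (hA p hp h1) h2
  have hprimes : ∀ p : ℕ, p.Prime → p ∣ Nat.card Q → p ∣ Nat.card A := by
    intro p hp hpQ
    have h1 : p ∣ Nat.card G := hpQ.trans (Subgroup.card_subgroup_dvd_card Q)
    rw [← Subgroup.card_mul_index A] at h1
    rcases (Nat.Prime.dvd_mul hp).mp h1 with h | h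
    · exact h
    · exact absurd h (idxA p hp (hQ p hp hpQ))
  obtain ⟨x, hx⟩ := Cfsg.Agent.S0581.result A Q nil hHall hprimes
  exact ⟨x, hx⟩

theorem index_map_conj {G : Type*} [Group G] [Finite G] (B : Subgroup G) (x : G) :
    (B.map (MulAut.conj x).toMonoidHom).index = B.index := by
  have h1 := Subgroup.card_mul_index (B.map (MulAut.conj x).toMonoidHom)
  have h2 := Subgroup.card_mul_index B
  rw [card_map_conj, ← h2] at h1
  exact Nat.eq_of_mul_eq_mul_left Nat.card_pos h1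

theorem map_conj_le_centralizer {G : Type*} [Group G] {A B : Subgroup G}
    (comm : ∀ a ∈ A, ∀ b ∈ B, a * b = b * a) {T : Subgroup G} {x : G}
    (hT : T ≤ A.map (MulAut.conj x).toMonoidHom) :
    B.map (MulAut.conj x).toMonoidHom ≤ Subgroup.centralizer (T : Set G) := by
  intro b hb
  rw [Subgroup.mem_centralizer_iff]
  intro t ht
  obtain ⟨b₀, hb₀, rfl⟩ := (mem_map_conj B x b).mp hb
  obtain ⟨a₀, ha₀, rfl⟩ := (mem_map_conj A x t).mp (hT ht)
  have := comm a₀ ha₀ b₀ hb₀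
  calc x * a₀ * x⁻¹ * (x * b₀ * x⁻¹) = x * (a₀ * b₀) * x⁻¹ := by group
    _ = x * (b₀ * a₀) * x⁻¹ := by rw [this]
    _ = _ := by group

/-- key lemma: `p`-elements normalizing a subgroup of a conjugate of `A` centralize it, when
`B` commutes with `A` and has index prime to `p`. -/
theorem key_lemma {G : Type*} [Group G] [Finite G] {A B : Subgroup G}
    (comm : ∀ a ∈ A, ∀ b ∈ B, a * b = b * a) {p : ℕ} (hp : p.Prime) (idx : ¬ p ∣ B.index)
    {T : Subgroup G} {x : G} (hT : T ≤ A.map (MulAut.conj x).toMonoidHom) {g : G}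
    (hg : g ∈ Subgroup.normalizer (T : Set G)) {k : ℕ} (hk : orderOf g = p ^ k) :
    g ∈ Subgroup.centralizer (T : Set G) := by
  haveI : Fact p.Prime := ⟨hp⟩
  have hidx' : ¬ p ∣ (B.map (MulAut.conj x).toMonoidHom).index := by
    rw [index_map_conj]; exact idx
  exact mem_centralizer_of_index_coprime hidx' (map_conj_le_centralizer comm hT) hg hk

/-- `q`-elements normalizing a `p`-subgroup centralize it (`p ≠ q` both in `σ`). -/
theorem key3 {G : Type*} [Group G] [Finite G] {σ : Set ℕ} {A : Subgroup G}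
    (hA : IsPiSubgroup σ A) (nil : Group.IsNilpotent A)
    (idxA : ∀ p : ℕ, p.Prime → p ∈ σ → ¬ p ∣ A.index) {p q : ℕ} (hp : p.Prime) (hq : q.Prime)
    (hpσ : p ∈ σ) (hqσ : q ∈ σ) (hpq : q ≠ p) {Q : Subgroup G} (hQ : IsPGroup p Q) {g : G}
    (hg : g ∈ Subgroup.normalizer (Q : Set G)) {k : ℕ} (hk : orderOf g = q ^ k) :
    g ∈ Subgroup.centralizer (Q : Set G) := by
  haveI : Fact p.Prime := ⟨hp⟩
  have hZN : Subgroup.zpowers g ≤ Subgroup.normalizer (Q : Set G) :=
    (Subgroup.zpowers_le).mpr hg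
  have hMσ : IsPiSubgroup σ (Subgroup.zpowers g ⊔ Q) := by
    intro r hr hrM
    have hc := card_mul_card_eq_of_le_normalizer hZN
    have h1 : r ∣ Nat.card (Subgroup.zpowers g) * Nat.card Q := by
      rw [hc]; exact Dvd.dvd.mul_right hrM _
    obtain ⟨j, hj⟩ := IsPGroup.iff_card.mp hQ
    rw [Nat.card_zpowers, hk, hj] at h1
    rcases (Nat.Prime.dvd_mul hr).mp h1 with h | h
    · rw [(Nat.prime_dvd_prime_iff_eq hr hq).mp (hr.dvd_of_dvd_pow h)]; exact hqσ
    · rw [(Nat.prime_dvd_prime_iff_eq hr hp).mp (hr.dvd_of_dvd_pow h)]; exact hpσ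
  obtain ⟨x, hx⟩ := wiel hA nil idxA _ hMσ
  haveI : Group.IsNilpotent ↥(Subgroup.zpowers g ⊔ Q) :=
    Cfsg.Agent.S0581.isNilpotent_of_le_conj A nil x _ hx
  rw [Subgroup.mem_centralizer_iff]
  intro a ha
  have haM : a ∈ Subgroup.zpowers g ⊔ Q := (le_sup_right : Q ≤ Subgroup.zpowers g ⊔ Q) ha
  have hgM : g ∈ Subgroup.zpowers g ⊔ Q :=
    (le_sup_left : Subgroup.zpowers g ≤ Subgroup.zpowers g ⊔ Q) (Subgroup.mem_zpowers g)
  obtain ⟨j, hj⟩ := hQ ⟨a, ha⟩
  have haj : (⟨a, haM⟩ : ↥(Subgroup.zpowers g ⊔ Q)) ^ p ^ j = 1 := by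
    apply Subtype.ext
    have := congrArg Subtype.val hj
    simpa using this
  have hgo : (orderOf (⟨g, hgM⟩ : ↥(Subgroup.zpowers g ⊔ Q))).Coprime p := by
    rw [Subgroup.orderOf_mk, hk]
    exact Nat.Coprime.pow_left k ((Nat.coprime_primes hq hp).mpr hpq)
  have := commute_of_isNilpotent (⟨a, haM⟩ : ↥(Subgroup.zpowers g ⊔ Q)) ⟨g, hgM⟩ j haj hgo
  exact congrArg Subtype.val this

/-- every `π`-subgroup satisfies Frobenius' condition for the primes of `σ` -/
theorem frobCond_of {G : Type*} [Group G] [Finite G] {σ τ π : Set ℕ} (hπ : π = σ ∪ τ)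
    {A B : Subgroup G} (hA : IsPiSubgroup σ A) (nil : Group.IsNilpotent A)
    (comm : ∀ a ∈ A, ∀ b ∈ B, a * b = b * a)
    (idxA : ∀ p : ℕ, p.Prime → p ∈ σ → ¬ p ∣ A.index)
    (idxB : ∀ p : ℕ, p.Prime → p ∈ τ → ¬ p ∣ B.index)
    (K : Subgroup G) (hK : IsPiSubgroup π K) (p : ℕ) (hp : p.Prime) (hpσ : p ∈ σ) :
    FrobCond p ↥K := by
  haveI : Fact p.Prime := ⟨hp⟩
  intro Q₀ hQ₀ g₀ hg₀ hcop
  have hQp : IsPGroup p ↥(Q₀.map K.subtype) := hQ₀.map K.subtype
  have hgN : (g₀ : G) ∈ Subgroup.normalizer ((Q₀.map K.subtype : Subgroup G) : Set G) :=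
    Subgroup.le_normalizer_map K.subtype ⟨g₀, hg₀, rfl⟩
  have hQσ : IsPiSubgroup σ (Q₀.map K.subtype) := by
    intro r hr hrQ
    obtain ⟨j, hj⟩ := IsPGroup.iff_card.mp hQp
    rw [hj] at hrQ
    rw [(Nat.prime_dvd_prime_iff_eq hr hp).mp (hr.dvd_of_dvd_pow hrQ)]; exact hpσ
  have hord : orderOf (g₀ : G) = orderOf g₀ := Subgroup.orderOf_coe g₀
  have hle : Subgroup.zpowers (g₀ : G) ≤
      Subgroup.centralizer ((Q₀.map K.subtype : Subgroup G) : Set G) := by
    apply le_of_forall_prime_pow_mem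
    intro y hy r k hr hyk
    have hyN : y ∈ Subgroup.normalizer ((Q₀.map K.subtype : Subgroup G) : Set G) :=
      (Subgroup.zpowers_le.mpr hgN) hy
    by_cases hk0 : k = 0
    · subst hk0
      rw [pow_zero, orderOf_eq_one_iff] at hyk
      rw [hyk]; exact one_mem _
    have hry : r ∣ orderOf (g₀ : G) := by
      have h1 : r ∣ orderOf y := hyk ▸ dvd_pow_self r hk0
      exact h1.trans (orderOf_dvd_of_mem_zpowers hy)
    have hrp : r ≠ p := by
      rintro rfl
      rw [hord] at hry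
      have h2 := Nat.dvd_gcd hry (dvd_refl r)
      rw [hcop] at h2
      exact hr.one_lt.ne' (Nat.dvd_one.mp h2)
    have hrK : r ∣ Nat.card K := by
      rw [hord] at hry
      exact hry.trans (orderOf_dvd_natCard g₀)
    have hrπ : r ∈ π := hK r hr hrK
    rw [hπ] at hrπ
    rcases hrπ with hrσ | hrτ
    · exact key3 hA nil idxA hp hr hpσ hrσ hrp hQp hyN hyk
    · obtain ⟨x, hx⟩ := wiel hA nil idxA _ hQσ
      exact key_lemma comm hr (idxB r hr hrτ) hx hyN hyk
  have hgC := hle (Subgroup.mem_zpowers _)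
  rw [Subgroup.mem_centralizer_iff] at hgC ⊢
  intro q hq
  apply Subtype.ext
  exact hgC (q : G) ⟨q, hq, rfl⟩

/-- every `π`-subgroup lies in a conjugate of `A ⊔ B` -/
theorem exists_conj_ge {G : Type*} [Group G] [Finite G] {σ τ π : Set ℕ} (hπ : π = σ ∪ τ)
    (hd : Disjoint σ τ)
    {A B : Subgroup G} (hA : IsPiSubgroup σ A) (nil : Group.IsNilpotent A)
    (comm : ∀ a ∈ A, ∀ b ∈ B, a * b = b * a)
    (idxA : ∀ p : ℕ, p.Prime → p ∈ σ → ¬ p ∣ A.index)
    (idxB : ∀ p : ℕ, p.Prime → p ∈ τ → ¬ p ∣ B.index)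
    (dtau : ∀ T : Subgroup G, IsPiSubgroup τ T →
      ∃ x : G, T ≤ B.map (MulAut.conj x).toMonoidHom)
    (K : Subgroup G) (hK : IsPiSubgroup π K) :
    ∃ x : G, K ≤ (A ⊔ B).map (MulAut.conj x).toMonoidHom := by
  classical
  set gY : Set ↥K := {y | ∃ r k : ℕ, r.Prime ∧ r ∈ τ ∧ orderOf y = r ^ k} with hgY
  set Y : Subgroup ↥K := Subgroup.closure gY with hY
  have hYn : Y.Normal := by
    rw [← Subgroup.normalizer_eq_top_iff, eq_top_iff]
    apply le_normalizer_closure
    rintro g - y ⟨r, k, hr, hrτ, hy⟩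
    exact ⟨r, k, hr, hrτ, by rw [← hy]; exact MulEquiv.orderOf_eq (MulAut.conj g) y⟩
  -- `|Y|` is a `τ`-number
  have hYτ : ∀ p : ℕ, p.Prime → p ∣ Nat.card Y → p ∈ τ := by
    intro p hp hpY
    have hpK : p ∣ Nat.card K := hpY.trans (Subgroup.card_subgroup_dvd_card Y)
    have hpπ := hK p hp hpK
    rw [hπ] at hpπ
    rcases hpπ with hpσ | hpτ
    · exfalso
      haveI : Fact p.Prime := ⟨hp⟩
      obtain ⟨N, hNn, hNc, k, hNi⟩ :=
        (frobCond_of hπ hA nil comm idxA idxB K hK p hp hpσ).hasNPC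
      have hYN : Y ≤ N := by
        rw [hY, Subgroup.closure_le]
        rintro y ⟨r, j, hr, hrτ, hy⟩
        haveI := hNn
        apply mem_of_coprime_orderOf_of_index_pow N hNi y
        rw [hy]
        apply Nat.Coprime.pow_left
        rw [Nat.coprime_primes hr hp]
        rintro rfl
        exact Set.disjoint_left.mp hd hpσ hrτ
      have h1 : p ∣ Nat.card N := hpY.trans (Subgroup.card_dvd_of_le hYN)
      have h2 := Nat.dvd_gcd h1 (dvd_refl p)
      rw [hNc] at h2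
      exact hp.one_lt.ne' (Nat.dvd_one.mp h2)
    · exact hpτ
  -- the index of `Y` is a `σ`-number
  have hYσ : ∀ r : ℕ, r.Prime → r ∣ Y.index → r ∈ σ := by
    intro r hr hrY
    have hrK : r ∣ Nat.card K := hrY.trans (Subgroup.index_dvd_card Y)
    have hrπ := hK r hr hrK
    rw [hπ] at hrπ
    rcases hrπ with hrσ | hrτ
    · exact hrσ
    · exfalso
      haveI : Fact r.Prime := ⟨hr⟩
      obtain ⟨R⟩ : Nonempty (Sylow r ↥K) := inferInstance
      have hRY : (R : Subgroup ↥K) ≤ Y := by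
        intro y hy
        apply Subgroup.subset_closure
        obtain ⟨k, hk⟩ := (IsPGroup.iff_orderOf.mp R.isPGroup') ⟨y, hy⟩
        exact ⟨r, k, hr, hrτ, by rw [← hk]; exact Subgroup.orderOf_coe (⟨y, hy⟩ : ↥(R : Subgroup ↥K))⟩
      exact R.not_dvd_index (hrY.trans (Subgroup.index_dvd_of_le hRY))
  have hcop : (Nat.card Y).Coprime Y.index := by
    by_contra hn
    obtain ⟨p, hp, h1, h2⟩ := Nat.Prime.not_coprime_iff_dvd.mp hn
    exact Set.disjoint_left.mp hd (hYσ p hp h2) (hYτ p hp h1)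
  obtain ⟨S, hS⟩ := Subgroup.exists_right_complement'_of_coprime hcop
  have hScard : Nat.card S = Y.index := by
    have h1 := hS.card_mul_card
    have h2 := Subgroup.card_mul_index Y
    rw [← h2] at h1
    exact Nat.eq_of_mul_eq_mul_left Nat.card_pos h1
  have hY'τ : IsPiSubgroup τ (Y.map K.subtype) := by
    intro p hp h
    rw [Subgroup.card_map_of_injective K.subtype_injective] at h
    exact hYτ p hp h
  have hS'σ : IsPiSubgroup σ (S.map K.subtype) := by
    intro p hp h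
    rw [Subgroup.card_map_of_injective K.subtype_injective, hScard] at h
    exact hYσ p hp h
  have hKsup : K = Y.map K.subtype ⊔ S.map K.subtype := by
    rw [← Subgroup.map_sup, hS.sup_eq_top, ← MonoidHom.range_eq_map, Subgroup.range_subtype]
  have hS'N : S.map K.subtype ≤ Subgroup.normalizer ((Y.map K.subtype : Subgroup G) : Set G) := by
    rintro s ⟨s₀, -, rfl⟩
    exact Subgroup.le_normalizer_map K.subtype
      ⟨s₀, by rw [Subgroup.normalizer_eq_top]; trivial, rfl⟩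
  obtain ⟨x, hx⟩ := dtau _ hY'τ
  -- `S'` centralizes `Y'`
  have hS'C : S.map K.subtype ≤ Subgroup.centralizer ((Y.map K.subtype : Subgroup G) : Set G) := by
    apply le_of_forall_prime_pow_mem
    intro s hs p k hp hsk
    by_cases hk0 : k = 0
    · subst hk0
      rw [pow_zero, orderOf_eq_one_iff] at hsk
      rw [hsk]; exact one_mem _
    have hpS : p ∣ Nat.card ↥(S.map K.subtype) := by
      have h1 : p ∣ orderOf s := hsk ▸ dvd_pow_self p hk0
      have h2 := orderOf_dvd_natCard (⟨s, hs⟩ : ↥(S.map K.subtype))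
      rw [Subgroup.orderOf_mk] at h2
      exact h1.trans h2
    have hpσ := hS'σ p hp hpS
    exact key_lemma (A := B) (B := A) (fun a ha b hb => (comm b hb a ha).symm) hp
      (idxA p hp hpσ) hx (hS'N hs) hsk
  -- Wielandt in `C`
  set C := Subgroup.centralizer ((Y.map K.subtype : Subgroup G) : Set G) with hC
  set A' := A.map (MulAut.conj x).toMonoidHom with hA'
  have hA'C : A' ≤ C := map_conj_le_centralizer (fun a ha b hb => (comm b hb a ha).symm) hx
  have hnil' : Group.IsNilpotent ↥(A'.subgroupOf C) := by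
    haveI := nil
    haveI h1 : Group.IsNilpotent ↥A' :=
      Group.nilpotent_of_mulEquiv (A.equivMapOfInjective _ (MulAut.conj x).injective)
    exact Group.nilpotent_of_mulEquiv (Subgroup.subgroupOfEquivOfLe hA'C).symm
  have hcardA' : Nat.card ↥(A'.subgroupOf C) = Nat.card A := by
    rw [Nat.card_congr (Subgroup.subgroupOfEquivOfLe hA'C).toEquiv, hA', card_map_conj]
  have hidxA' : (A'.subgroupOf C).index ∣ A.index := by
    have h1 : (A'.subgroupOf C).index = A'.relIndex C := rfl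
    rw [h1, ← index_map_conj A x]
    exact Dvd.intro _ (Subgroup.relIndex_mul_index hA'C)
  have hHall' : (Nat.card ↥(A'.subgroupOf C)).Coprime (A'.subgroupOf C).index := by
    rw [hcardA']
    by_contra hn
    obtain ⟨p, hp, h1, h2⟩ := Nat.Prime.not_coprime_iff_dvd.mp hn
    exact idxA p hp (hA p hp h1) (h2.trans hidxA')
  have hprimes' : ∀ p : ℕ, p.Prime → p ∣ Nat.card ↥((S.map K.subtype).subgroupOf C) →
      p ∣ Nat.card ↥(A'.subgroupOf C) := by
    intro p hp hpS
    rw [Nat.card_congr (Subgroup.subgroupOfEquivOfLe hS'C).toEquiv] at hpS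
    rw [hcardA']
    have hpσ := hS'σ p hp hpS
    have h1 : p ∣ Nat.card G := hpS.trans (Subgroup.card_subgroup_dvd_card _)
    rw [← Subgroup.card_mul_index A] at h1
    rcases (Nat.Prime.dvd_mul hp).mp h1 with h | h
    · exact h
    · exact absurd h (idxA p hp hpσ)
  obtain ⟨c, hc⟩ := Cfsg.Agent.S0581.result (A'.subgroupOf C)
    ((S.map K.subtype).subgroupOf C) hnil' hHall' hprimes'
  refine ⟨(c : G) * x, ?_⟩
  rw [hKsup]
  apply sup_le
  · intro y hy
    rw [Cfsg.Agent.Helper2.mem_map_conj_iff]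
    have h1 : (c : G)⁻¹ * y * c = y := by
      have := Subgroup.mem_centralizer_iff.mp c.2 y hy
      rw [mul_assoc, this]; group
    have h2 := (Cfsg.Agent.Helper2.mem_map_conj_iff B x y).mp (hx hy)
    have h3 : ((c : G) * x)⁻¹ * y * ((c : G) * x) = x⁻¹ * ((c : G)⁻¹ * y * c) * x := by group
    rw [h3, h1]
    exact (le_sup_right : B ≤ A ⊔ B) h2
  · intro s hs
    have hsC : s ∈ C := hS'C hs
    have h1 := hc (Subgroup.mem_subgroupOf.mpr hs :
      (⟨s, hsC⟩ : ↥C) ∈ (S.map K.subtype).subgroupOf C)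
    rw [Cfsg.Agent.Helper10.mem_conj_smul_iff, Subgroup.mem_subgroupOf] at h1
    have h2 : (c : G)⁻¹ * s * c ∈ A' := by simpa using h1
    have h3 := (Cfsg.Agent.Helper2.mem_map_conj_iff A x _).mp h2
    rw [Cfsg.Agent.Helper2.mem_map_conj_iff]
    have h4 : ((c : G) * x)⁻¹ * s * ((c : G) * x) = x⁻¹ * ((c : G)⁻¹ * s * c) * x := by group
    rw [h4]
    exact (le_sup_left : A ≤ A ⊔ B) h3

/-- Let σ and τ be disjoint sets of primes with union π. Suppose a finite group G has a Hall π-subgroup H which is the direct product of a nilpotent σ-subgroup and a τ-subgroup (two elementwise-commuting subgroups generating H), and that the maximal τ-subgroups of G are pairwise conjugate. Then the maximal π-subgroups of G are pairwise conjugate. -/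
theorem result {G : Type*} [Group G] [Finite G]
    (σ τ π : Set ℕ) (hπ : π = σ ∪ τ) (hd : Disjoint σ τ) (H Hs Ht : Subgroup G) (hH : Cfsg.IsPiHall π H)
    (hs : Cfsg.IsPiSubgroup σ Hs) (ht : Cfsg.IsPiSubgroup τ Ht) (hsn : Group.IsNilpotent Hs)
    (hjoin : Hs ⊔ Ht = H) (hcomm : ∀ a ∈ Hs, ∀ b ∈ Ht, a * b = b * a) (hD : Cfsg.IsDPiGroup τ G) :
    Cfsg.IsDPiGroup π G := by
  subst hjoin
  have hπσ : ∀ p, p ∈ σ → p ∈ π := fun p h => hπ ▸ Or.inl h
  have hπτ : ∀ p, p ∈ τ → p ∈ π := fun p h => hπ ▸ Or.inr h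
  have idxA : ∀ p : ℕ, p.Prime → p ∈ σ → ¬ p ∣ Hs.index :=
    hall_factor hd hs ht hcomm (fun p hp hpσ => hH.2 p hp (hπσ p hpσ))
  have idxB : ∀ p : ℕ, p.Prime → p ∈ τ → ¬ p ∣ Ht.index :=
    hall_factor hd.symm ht hs (fun a ha b hb => (hcomm b hb a ha).symm)
      (fun p hp hpτ => by rw [sup_comm]; exact hH.2 p hp (hπτ p hpτ))
  have hmaxHt : Maximal (IsPiSubgroup τ) Ht := by
    refine ⟨ht, ?_⟩
    intro M hM hle
    rw [← Subgroup.relIndex_eq_one]
    by_contra hne
    obtain ⟨q, hq, hqd⟩ := Nat.exists_prime_and_dvd hne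
    have h1 : q ∣ Nat.card M := hqd.trans (Subgroup.relIndex_dvd_card Ht M)
    have h2 : q ∣ Ht.index := hqd.trans (Dvd.intro _ (Subgroup.relIndex_mul_index hle))
    exact idxB q hq (hM q hq h1) h2
  have dtau : ∀ T : Subgroup G, IsPiSubgroup τ T →
      ∃ x : G, T ≤ Ht.map (MulAut.conj x).toMonoidHom := by
    intro T hT
    obtain ⟨M, hTM, hM⟩ := Finite.exists_le_maximal (p := IsPiSubgroup τ) hT
    obtain ⟨g, hg⟩ := hD Ht M hmaxHt hM
    exact ⟨g, hg ▸ hTM⟩
  have key : ∀ K : Subgroup G, IsPiSubgroup π K →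
      ∃ x : G, K ≤ (Hs ⊔ Ht).map (MulAut.conj x).toMonoidHom :=
    exists_conj_ge hπ hd hs hsn hcomm idxA idxB dtau
  have hπH : ∀ x : G, IsPiSubgroup π ((Hs ⊔ Ht).map (MulAut.conj x).toMonoidHom) := by
    intro x p hp h
    rw [Cfsg.Agent.Helper50.card_map_conj] at h
    exact hH.1 p hp h
  intro A B hA hB
  obtain ⟨a, ha⟩ := key A hA.1
  obtain ⟨b, hb⟩ := key B hB.1
  have eA : A = (Hs ⊔ Ht).map (MulAut.conj a).toMonoidHom := le_antisymm ha (hA.2 (hπH a) ha)
  have eB : B = (Hs ⊔ Ht).map (MulAut.conj b).toMonoidHom := le_antisymm hb (hB.2 (hπH b) hb)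
  refine ⟨b * a⁻¹, ?_⟩
  rw [eA, eB, Subgroup.map_map]
  congr 1
  ext y
  simp [MulAut.conj_apply, mul_assoc]

end Cfsg.Agent.S4334
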