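import Cfsg.Statements.S4337

set_option autoImplicit false
open Cfsg

namespace Cfsg.Agent.S4337

open Equiv Equiv.Perm

/-- The symmetric group on four letters is solvable. -/
theorem sol_fin4 : Group.IsSolvable (Perm (Fin 4)) := by
  have hA : Group.IsSolvable (alternatingGroup (Fin 4)) := by
    have h4 : Nat.card (Fin 4) = 4 := by simp
    have hk := alternatingGroup.kleinFour_eq_commutator (α := Fin 4) h4
    have hkl := alternatingGroup.kleinFour_isKleinFour (α := Fin 4) h4
    refine ⟨⟨2, ?_⟩⟩
    rw [derivedSeries_succ, derivedSeries_one, ← hk, Subgroup.commutator_eq_bot_iff_le_centralizer]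
    intro x hx y hy
    have hc := mul_comm_of_exponent_two hkl.exponent_two (⟨y, hy⟩ : alternatingGroup.kleinFour (Fin 4)) ⟨x, hx⟩
    exact congrArg Subtype.val hc
  exact Group.isSolvable_of_ker_le_range (alternatingGroup (Fin 4)).subtype Perm.sign
    (by rw [Subgroup.range_subtype]; exact le_rfl)

theorem sol_small (α : Type) [Fintype α] [DecidableEq α] (h : Fintype.card α ≤ 4) :
    Group.IsSolvable (Perm α) := by
  obtain ⟨ι⟩ : Nonempty (α ↪ Fin 4) := Function.Embedding.nonempty_of_card_le (by simpa using h)
  have := sol_fin4
  exact Group.isSolvable_of_isSolvable_injective (Equiv.Perm.viaEmbeddingHom_injective ι)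

theorem sol_of_support {n : ℕ} (T : Finset (Fin n)) (hT : T.card ≤ 4) (S : Set (Perm (Fin n)))
    (hS : ∀ σ ∈ S, σ.support ⊆ T) : Group.IsSolvable (Subgroup.closure S) := by
  have hle : Subgroup.closure S ≤ (ofSubtype : Perm {x // x ∈ T} →* Perm (Fin n)).range := by
    rw [Subgroup.closure_le]
    intro σ hσ
    rw [SetLike.mem_coe, mem_range_ofSubtype_iff]
    intro x hx
    exact hS σ hσ hx
  have : Group.IsSolvable (Perm {x // x ∈ T}) := sol_small _ (by simpa using hT)
  have : Group.IsSolvable (ofSubtype : Perm {x // x ∈ T} →* Perm (Fin n)).range :=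
    Group.isSolvable_of_surjective (MonoidHom.rangeRestrict_surjective _)
  exact Group.isSolvable_of_isSolvable_injective (Subgroup.inclusion_injective hle)

theorem comm_case {G : Type*} [Group G] (a b c : G)
    (hab : Group.IsSolvable (Subgroup.closure ({a, b} : Set G)))
    (hca : Commute a c) (hcb : Commute b c) :
    Group.IsSolvable (Subgroup.closure ({a, b, c} : Set G)) := by
  have hcomm : ∀ (m : Subgroup.closure ({a, b} : Set G)) (k : Subgroup.zpowers c),
      Commute (m : G) (k : G) := by
    rintro ⟨m, hm⟩ ⟨k, hk⟩
    obtain ⟨i, rfl⟩ := Subgroup.mem_zpowers_iff.mp hk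
    have hmc : Commute m c := by
      have hle : Subgroup.closure ({a, b} : Set G) ≤ Subgroup.centralizer ({c} : Set G) := by
        rw [Subgroup.closure_le]
        intro x hx
        rw [SetLike.mem_coe, Subgroup.mem_centralizer_iff]
        intro y hy
        rw [Set.mem_singleton_iff] at hy
        subst hy
        rcases hx with rfl | rfl
        · exact hca.eq.symm
        · exact hcb.eq.symm
      have := Subgroup.mem_centralizer_iff.mp (hle hm) c rfl
      exact this.symm
    exact hmc.zpow_right i
  let f := MonoidHom.noncommCoprod (Subgroup.closure ({a, b} : Set G)).subtype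
    (Subgroup.zpowers c).subtype hcomm
  have : Group.IsSolvable (Subgroup.zpowers c) := by
    apply Group.isSolvable_of_comm
    rintro ⟨x, hx⟩ ⟨y, hy⟩
    obtain ⟨i, rfl⟩ := Subgroup.mem_zpowers_iff.mp hx
    obtain ⟨j, rfl⟩ := Subgroup.mem_zpowers_iff.mp hy
    apply Subtype.ext
    show c ^ i * c ^ j = c ^ j * c ^ i
    rw [← zpow_add, ← zpow_add, add_comm]
  have : Group.IsSolvable f.range := Group.isSolvable_of_surjective f.rangeRestrict_surjective
  have hle : Subgroup.closure ({a, b, c} : Set G) ≤ f.range := by
    rw [Subgroup.closure_le]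
    intro x hx
    rcases hx with rfl | rfl | rfl
    · exact ⟨(⟨x, Subgroup.subset_closure (by simp)⟩, 1), mul_one x⟩
    · exact ⟨(⟨x, Subgroup.subset_closure (by simp)⟩, 1), mul_one x⟩
    · exact ⟨(1, ⟨x, Subgroup.mem_zpowers x⟩), one_mul x⟩
  exact Group.isSolvable_of_isSolvable_injective (Subgroup.inclusion_injective hle)

theorem card_le_four {α : Type*} [DecidableEq α] (A B C : Finset α) (hA : A.card = 2)
    (hB : B.card = 2) (hC : C.card = 2) (h1 : ¬ Disjoint A B) (h2 : ¬ Disjoint C (A ∪ B)) :
    (A ∪ B ∪ C).card ≤ 4 := by
  have e1 := Finset.card_union_add_card_inter A B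
  have e2 := Finset.card_union_add_card_inter (A ∪ B) C
  have p1 : 1 ≤ (A ∩ B).card := Finset.card_pos.mpr (Finset.not_disjoint_iff_nonempty_inter.mp h1)
  have p2 : 1 ≤ ((A ∪ B) ∩ C).card := by
    rw [Finset.inter_comm]
    exact Finset.card_pos.mpr (Finset.not_disjoint_iff_nonempty_inter.mp h2)
  omega

theorem swap_case {n : ℕ} (a b c : Perm (Fin n)) (ha : a.IsSwap) (hb : b.IsSwap)
    (h : Disjoint c.support (a.support ∪ b.support)) :
    Group.IsSolvable (Subgroup.closure ({a, b, c} : Set (Perm (Fin n)))) := by
  rw [Finset.disjoint_union_right] at h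
  have hac : Commute a c := (Equiv.Perm.disjoint_iff_disjoint_support.mpr h.1.symm).commute
  have hbc : Commute b c := (Equiv.Perm.disjoint_iff_disjoint_support.mpr h.2.symm).commute
  refine comm_case a b c (sol_of_support (a.support ∪ b.support) ?_ _ ?_) hac hbc
  · have := Finset.card_union_le a.support b.support
    rw [card_support_eq_two.mpr ha, card_support_eq_two.mpr hb] at this
    exact this
  · intro σ hσ
    rcases hσ with rfl | rfl
    · exact Finset.subset_union_left
    · exact Finset.subset_union_right

/-- In a finite symmetric group, any three transpositions generate a solvable subgroup. -/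
theorem result (n : ℕ) (a b c : Equiv.Perm (Fin n))
    (ha : a.IsSwap) (hb : b.IsSwap) (hc : c.IsSwap) :
    Group.IsSolvable (Subgroup.closure ({a, b, c} : Set (Equiv.Perm (Fin n)))) := by
  have ca := card_support_eq_two.mpr ha
  have cb := card_support_eq_two.mpr hb
  have cc := card_support_eq_two.mpr hc
  by_cases h1 : Disjoint c.support (a.support ∪ b.support)
  · exact swap_case a b c ha hb h1
  by_cases h2 : Disjoint b.support (a.support ∪ c.support)
  · have e : ({a, b, c} : Set (Perm (Fin n))) = {a, c, b} := by
      ext x; simp only [Set.mem_insert_iff, Set.mem_singleton_iff]; tauto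
    rw [e]
    exact swap_case a c b ha hc h2
  by_cases h3 : Disjoint a.support (b.support ∪ c.support)
  · have e : ({a, b, c} : Set (Perm (Fin n))) = {b, c, a} := by
      ext x; simp only [Set.mem_insert_iff, Set.mem_singleton_iff]; tauto
    rw [e]
    exact swap_case b c a hb hc h3
  · by_cases hab : Disjoint a.support b.support
    · have hac : ¬ Disjoint a.support c.support := by
        intro h; exact h3 (Finset.disjoint_union_right.mpr ⟨hab, h⟩)
      have hbc : ¬ Disjoint b.support c.support := by
        intro h; exact h2 (Finset.disjoint_union_right.mpr ⟨hab.symm, h⟩)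
      have hb' : ¬ Disjoint b.support (a.support ∪ c.support) := h2
      have hcard := card_le_four a.support c.support b.support ca cc cb hac hb'
      refine sol_of_support (a.support ∪ c.support ∪ b.support) hcard _ ?_
      intro σ hσ
      rcases hσ with rfl | rfl | rfl
      · exact Finset.subset_union_left.trans Finset.subset_union_left
      · exact Finset.subset_union_right
      · exact Finset.subset_union_right.trans Finset.subset_union_left
    · have hcard := card_le_four a.support b.support c.support ca cb cc hab h1
      refine sol_of_support (a.support ∪ b.support ∪ c.support) hcard _ ?_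
      intro σ hσ
      rcases hσ with rfl | rfl | rfl
      · exact Finset.subset_union_left.trans Finset.subset_union_left
      · exact Finset.subset_union_right.trans Finset.subset_union_left
      · exact Finset.subset_union_right

end Cfsg.Agent.S4337
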