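import Cfsg.Statements.S4341
import Cfsg.Agent.Helper72.SylowNormal

set_option autoImplicit false
open Cfsg

namespace Cfsg.Agent.S4341

open Cfsg.Agent.Helper72 in
/-- Let K be a normal subgroup of a finite group G, p a prime and P a Sylow p-subgroup of G; let N be the normalizer of P ∩ K inside the subgroup PK. Then the number of Sylow p-subgroups of G equals the product of the numbers of Sylow p-subgroups of G/K, of K, and of N/(P ∩ K). (The normality of P ∩ K in N, which always holds, is assumed as a hypothesis so that the quotient can be formed.) -/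
theorem result {G : Type*} [Group G] [Finite G]
    (p : ℕ) [Fact p.Prime] (K : Subgroup G) [K.Normal] (P : Sylow p G) (N : Subgroup G)
    (hN : N = ((P : Subgroup G) ⊔ K) ⊓ Subgroup.normalizer (((P : Subgroup G) ⊓ K : Subgroup G) : Set G))
    [hn : (((P : Subgroup G) ⊓ K).subgroupOf N).Normal] :
    Nat.card (Sylow p G) =
      Nat.card (Sylow p (G ⧸ K)) * Nat.card (Sylow p K) * Nat.card (Sylow p (N ⧸ ((P : Subgroup G) ⊓ K).subgroupOf N)) := by
  have hAB : Subgroup.normalizer ((P : Subgroup G) : Set G) ≤
      Subgroup.normalizer (((P : Subgroup G) ⊓ K : Subgroup G) : Set G) :=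
    normalizer_le_normalizer_inf (P : Subgroup G) K
  have hPA : (P : Subgroup G) ≤ Subgroup.normalizer ((P : Subgroup G) : Set G) :=
    Subgroup.le_normalizer
  have hNB : N ≤ Subgroup.normalizer (((P : Subgroup G) ⊓ K : Subgroup G) : Set G) := by
    rw [hN]; exact inf_le_right
  have hNPK : N ≤ (P : Subgroup G) ⊔ K := by
    rw [hN]; exact inf_le_left
  have hPN : (P : Subgroup G) ≤ N := by
    rw [hN]; exact le_inf le_sup_left (hPA.trans hAB)
  have h1 := card_sylow_eq_mul P K
  have h2 : (Subgroup.normalizer ((P : Subgroup G) : Set G)).relIndex K =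
      (Subgroup.normalizer ((P : Subgroup G) : Set G)).relIndex
        (Subgroup.normalizer (((P : Subgroup G) ⊓ K : Subgroup G) : Set G) ⊓ K) *
      (Subgroup.normalizer (((P : Subgroup G) ⊓ K : Subgroup G) : Set G)).relIndex K := by
    have := Subgroup.relIndex_mul_relIndex
      (Subgroup.normalizer ((P : Subgroup G) : Set G) ⊓ K)
      (Subgroup.normalizer (((P : Subgroup G) ⊓ K : Subgroup G) : Set G) ⊓ K) K
      (inf_le_inf_right K hAB) inf_le_right
    rw [Subgroup.inf_relIndex_right, Subgroup.inf_relIndex_right] at this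
    rw [← this]
    congr 1
    rw [← Subgroup.inf_relIndex_right (Subgroup.normalizer ((P : Subgroup G) : Set G))
      (Subgroup.normalizer (((P : Subgroup G) ⊓ K : Subgroup G) : Set G) ⊓ K)]
    congr 1
    rw [← inf_assoc, inf_of_le_left hAB]
  have h3 : Nat.card (Sylow p K) =
      (Subgroup.normalizer (((P : Subgroup G) ⊓ K : Subgroup G) : Set G)).relIndex K :=
    card_sylow_normal_eq_relIndex P K
  have h4 : Nat.card (Sylow p (N ⧸ ((P : Subgroup G) ⊓ K).subgroupOf N)) =
      Nat.card (Sylow p N) :=
    card_sylow_quotient_of_isPGroup _ ((P.isPGroup'.to_le inf_le_left).comap_subtype)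
  have h5 : Nat.card (Sylow p N) =
      (Subgroup.normalizer ((P : Subgroup G) : Set G)).relIndex N :=
    card_sylow_eq_relIndex P N hPN
  have h6 : (Subgroup.normalizer ((P : Subgroup G) : Set G)).relIndex N =
      (Subgroup.normalizer ((P : Subgroup G) : Set G)).relIndex
        (Subgroup.normalizer (((P : Subgroup G) ⊓ K : Subgroup G) : Set G) ⊓ K) := by
    apply relIndex_eq_of_sup
    · rw [hN]
      exact le_inf (inf_le_right.trans le_sup_right) inf_le_left
    · exact hNB.trans (Subgroup.le_normalizer.trans (normalizer_le_normalizer_inf _ K))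
    · intro n hnN
      obtain ⟨u, hu, k, hk, rfl⟩ := Subgroup.mem_sup_of_normal_right.mp (hNPK hnN)
      have huN : u ∈ N := hPN hu
      have hkN : k ∈ N := by
        have := N.mul_mem (N.inv_mem huN) hnN
        simpa using this
      exact Subgroup.mul_mem_sup ⟨hPA hu, huN⟩ ⟨hNB hkN, hk⟩
  rw [h1, h2, h4, h5, h6, h3]
  ring

end Cfsg.Agent.S4341
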