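import Cfsg.Statements.S4342

set_option autoImplicit false
open Cfsg

namespace Cfsg.Agent.S4342

/-- Sylow subgroups of `G` lie in a normal subgroup of index prime to `p`. -/
theorem sylow_le_of_not_dvd_index {G : Type*} [Group G] [Finite G]
    (p : ℕ) [Fact p.Prime] (H : Subgroup G) [H.Normal] (hp : ¬ p ∣ H.index) (P : Sylow p G) :
    (P : Subgroup G) ≤ H := by
  have h1 : IsPGroup p ((P : Subgroup G).map (QuotientGroup.mk' H)) := P.isPGroup'.map _
  obtain ⟨k, hk⟩ := IsPGroup.iff_card.mp h1
  have h2 : Nat.card ((P : Subgroup G).map (QuotientGroup.mk' H)) ∣ Nat.card (G ⧸ H) :=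
    Subgroup.card_subgroup_dvd_card _
  rw [← Subgroup.index_eq_card, hk] at h2
  have hk0 : k = 0 := by
    by_contra hne
    exact hp ((dvd_pow_self p hne).trans h2)
  rw [hk0, pow_zero, Subgroup.card_eq_one] at hk
  rw [← QuotientGroup.ker_mk' H]
  exact (Subgroup.map_eq_bot_iff _).mp hk

/-- The number of Sylow subgroups of a normal subgroup of index prime to `p`. -/
theorem card_sylow_of_not_dvd_index {G : Type*} [Group G] [Finite G]
    (p : ℕ) [Fact p.Prime] (H : Subgroup G) [H.Normal] (hp : ¬ p ∣ H.index) :
    Nat.card (Sylow p H) = Nat.card (Sylow p G) := by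
  symm
  refine Nat.card_congr (Equiv.ofBijective
    (fun P : Sylow p G => P.subtype (sylow_le_of_not_dvd_index p H hp P)) ⟨?_, ?_⟩)
  · intro P Q h
    exact Sylow.subtype_injective h
  · intro Q
    have h1 : IsPGroup p ((Q : Subgroup H).map H.subtype) := Q.isPGroup'.map _
    have h2 : ¬ p ∣ ((Q : Subgroup H).map H.subtype).index := by
      rw [Subgroup.index_map_subtype]
      exact Nat.Prime.not_dvd_mul Fact.out Q.not_dvd_index hp
    refine ⟨h1.toSylow h2, ?_⟩
    apply Sylow.ext
    rw [Sylow.coe_subtype, IsPGroup.toSylow_coe]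
    exact Subgroup.comap_map_eq_self_of_injective H.subtype_injective _

/-- The number of Sylow subgroups of the central quotient. -/
theorem card_sylow_quotient_center {K : Type*} [Group K] [Finite K] (p : ℕ) [Fact p.Prime] :
    Nat.card (Sylow p (K ⧸ Subgroup.center K)) = Nat.card (Sylow p K) := by
  symm
  have hsurj := QuotientGroup.mk'_surjective (Subgroup.center K)
  refine Nat.card_congr (Equiv.ofBijective (Sylow.mapSurjective hsurj) ⟨?_, ?_⟩)
  · intro P P' h
    have h1 : (P : Subgroup K).map (QuotientGroup.mk' (Subgroup.center K)) =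
        (P' : Subgroup K).map (QuotientGroup.mk' (Subgroup.center K)) := by
      have := congrArg (fun S : Sylow p (K ⧸ Subgroup.center K) => S.toSubgroup) h
      exact this
    have h2 : (P : Subgroup K) ⊔ Subgroup.center K = (P' : Subgroup K) ⊔ Subgroup.center K := by
      have := congrArg (Subgroup.comap (QuotientGroup.mk' (Subgroup.center K))) h1
      rwa [Subgroup.comap_map_eq, Subgroup.comap_map_eq, QuotientGroup.ker_mk'] at this
    have h3 : (P : Subgroup K) ⊔ Subgroup.center K ≤
        Subgroup.normalizer ((P : Subgroup K) : Set K) := by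
      refine sup_le Subgroup.le_normalizer ?_
      rw [Subgroup.le_normalizer_iff]
      intro z hz u hu
      rw [Subgroup.mem_center_iff] at hz
      rw [← hz u, mul_inv_cancel_right]
      exact hu
    have h4 : (P' : Subgroup K) ≤ Subgroup.normalizer ((P : Subgroup K) : Set K) :=
      (le_sup_left.trans h2.symm.le).trans h3
    have h5 : IsPGroup p ((P' : Subgroup K) ⊔ (P : Subgroup K) : Subgroup K) :=
      IsPGroup.to_sup_of_normal_right' P'.isPGroup' P.isPGroup' h4
    have h6 := P.is_maximal' h5 le_sup_right
    have h7 : (P' : Subgroup K) ≤ (P : Subgroup K) := by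
      rw [← h6]; exact le_sup_left
    exact Sylow.ext (P'.is_maximal' P.isPGroup' h7)
  · exact Sylow.mapSurjective_surjective hsurj p

/-- Let H be a normal subgroup of a finite group G and p a prime not dividing the index of H. Then the number of Sylow p-subgroups of H/Z(H) equals the number of Sylow p-subgroups of G. -/
theorem result {G : Type*} [Group G] [Finite G]
    (p : ℕ) [Fact p.Prime] (H : Subgroup G) [H.Normal] (hp : ¬ p ∣ H.index) :
    Nat.card (Sylow p (H ⧸ Subgroup.center H)) = Nat.card (Sylow p G) := by
  rw [card_sylow_quotient_center, card_sylow_of_not_dvd_index p H hp]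

end Cfsg.Agent.S4342
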