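import Cfsg.Statements.S4343
-- import your own Cfsg.Agent.* helpers here

set_option autoImplicit false
open Cfsg

namespace Cfsg.Agent.S4343

open scoped Pointwise

section
variable {S : Type*} [Group S] [Finite S] {p : ℕ} [Fact p.Prime]

omit [Finite S] [Fact p.Prime] in
theorem mem_smul_sylow_iff (g : S) (P : Sylow p S) (x : S) :
    x ∈ ((g • P : Sylow p S) : Subgroup S) ↔ g⁻¹ * x * g ∈ (P : Subgroup S) := by
  rw [Sylow.coe_subgroup_smul, Subgroup.mem_pointwise_smul_iff_inv_smul_mem]
  simp [MulAut.smul_def]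

theorem normalCore_sylow_eq_bot [IsSimpleGroup S] (hS : ¬ IsMulCommutative S) (P : Sylow p S) :
    (P : Subgroup S).normalCore = ⊥ := by
  rcases (Subgroup.normalCore_normal (P : Subgroup S)).eq_bot_or_eq_top with h | h
  · exact h
  · exfalso
    have hP : (P : Subgroup S) = ⊤ := top_le_iff.mp (h ▸ Subgroup.normalCore_le _)
    have hpg : IsPGroup p S := by
      intro g
      obtain ⟨k, hk⟩ := P.isPGroup' ⟨g, by rw [hP]; trivial⟩
      exact ⟨k, by simpa using congrArg Subtype.val hk⟩
    have hc := hpg.center_nontrivial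
    rcases (inferInstance : (Subgroup.center S).Normal).eq_bot_or_eq_top with h' | h'
    · rw [Subgroup.nontrivial_iff_ne_bot] at hc
      exact hc h'
    · apply hS
      refine ⟨⟨fun a b => ?_⟩⟩
      have hb : b ∈ Subgroup.center S := by rw [h']; trivial
      exact Subgroup.mem_center_iff.mp hb a

theorem relIndex_one_or_prime (hn : Nat.card (Sylow p S) < p ^ 2) (P Q : Sylow p S) :
    (Q : Subgroup S).relIndex (P : Subgroup S) = 1 ∨
      (Q : Subgroup S).relIndex (P : Subgroup S) = p := by
  have h1 : (Q : Subgroup S).relIndex (P : Subgroup S) =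
      (Subgroup.normalizer ((Q : Subgroup S) : Set S)).relIndex (P : Subgroup S) := by
    have e : (P : Subgroup S) ⊓ Subgroup.normalizer ((Q : Subgroup S) : Set S) =
        (P : Subgroup S) ⊓ (Q : Subgroup S) := P.isPGroup'.inf_normalizer_sylow Q
    rw [← Subgroup.inf_relIndex_left (P : Subgroup S) (Subgroup.normalizer _),
      e, Subgroup.inf_relIndex_left]
  have h2 : (Subgroup.normalizer ((Q : Subgroup S) : Set S)).relIndex (P : Subgroup S) ≤
      Nat.card (Sylow p S) := by
    rw [Q.card_eq_index_normalizer, ← Subgroup.relIndex_top_right]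
    exact Subgroup.relIndex_le_of_le_right le_top
      (by rw [Subgroup.relIndex_top_right]; exact Subgroup.index_ne_zero_of_finite)
  obtain ⟨k, hk⟩ := P.isPGroup'.index ((Q : Subgroup S).subgroupOf P)
  have hk' : (Q : Subgroup S).relIndex (P : Subgroup S) = p ^ k := hk
  have hlt : p ^ k < p ^ 2 := by rw [← hk', h1]; exact lt_of_le_of_lt h2 hn
  have hk2 : k < 2 := (Nat.pow_lt_pow_iff_right (Fact.out : p.Prime).one_lt).mp hlt
  interval_cases k
  · left; simpa using hk'
  · right; simpa using hk'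

theorem commutator_mem_of_relIndex (P : Sylow p S) (H : Subgroup S)
    (h : H.relIndex (P : Subgroup S) = 1 ∨ H.relIndex (P : Subgroup S) = p)
    (a b : S) (ha : a ∈ P) (hb : b ∈ P) : a * b * a⁻¹ * b⁻¹ ∈ H := by
  have hp : p.Prime := Fact.out
  rcases h with h | h
  · have hPH : (P : Subgroup S) ≤ H := Subgroup.relIndex_eq_one.mp h
    exact hPH (mul_mem (mul_mem (mul_mem ha hb) (inv_mem ha)) (inv_mem hb))
  · have hidx : (H.subgroupOf (P : Subgroup S)).index = p := h
    obtain ⟨n, hn⟩ := IsPGroup.iff_card.mp P.isPGroup'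
    have hn0 : n ≠ 0 := by
      rintro rfl
      have h1 : (H.subgroupOf (P : Subgroup S)).index ∣ Nat.card (P : Subgroup S) :=
        Subgroup.index_dvd_card _
      rw [hidx, hn, pow_zero] at h1
      exact hp.one_lt.ne' (Nat.dvd_one.mp h1)
    have hnorm : (H.subgroupOf (P : Subgroup S)).Normal := by
      apply Subgroup.normal_of_index_eq_minFac_card
      rw [hidx, hn, hp.pow_minFac hn0]
    have hcard : Nat.card ((P : Subgroup S) ⧸ H.subgroupOf (P : Subgroup S)) = p := by
      rw [← Subgroup.index_eq_card]; exact hidx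
    have hcyc : IsCyclic ((P : Subgroup S) ⧸ H.subgroupOf (P : Subgroup S)) :=
      isCyclic_of_prime_card hcard
    have hcomm : ∀ x y : (P : Subgroup S) ⧸ H.subgroupOf (P : Subgroup S), x * y = y * x :=
      fun x y => (IsCyclic.commGroup (α := (P : Subgroup S) ⧸ H.subgroupOf (P : Subgroup S))).mul_comm x y
    have hmem : (⟨a, ha⟩ * ⟨b, hb⟩ * ⟨a, ha⟩⁻¹ * ⟨b, hb⟩⁻¹ : (P : Subgroup S)) ∈
        H.subgroupOf (P : Subgroup S) := by
      rw [← QuotientGroup.eq_one_iff]
      simp only [QuotientGroup.mk_mul, QuotientGroup.mk_inv]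
      rw [hcomm (↑(⟨a, ha⟩ : (P : Subgroup S))) (↑(⟨b, hb⟩ : (P : Subgroup S)))]
      group
    exact hmem

/-- Sylow subgroups are abelian. -/
theorem sylow_comm [IsSimpleGroup S] (hS : ¬ IsMulCommutative S)
    (hn : Nat.card (Sylow p S) < p ^ 2) (P : Sylow p S) (a b : S) (ha : a ∈ P) (hb : b ∈ P) :
    a * b = b * a := by
  have hmem : a * b * a⁻¹ * b⁻¹ ∈ (P : Subgroup S).normalCore := by
    intro g
    have h1 := commutator_mem_of_relIndex P ((g⁻¹ • P : Sylow p S) : Subgroup S)
      (relIndex_one_or_prime hn P (g⁻¹ • P)) a b ha hb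
    have h2 := (mem_smul_sylow_iff g⁻¹ P _).mp h1
    rw [inv_inv] at h2
    exact h2
  rw [normalCore_sylow_eq_bot hS P, Subgroup.mem_bot] at hmem
  have : a * b = (a * b * a⁻¹ * b⁻¹) * (b * a) := by group
  rw [this, hmem, one_mul]

/-- Brodkey's theorem in the simple case: two Sylow subgroups intersect trivially. -/
theorem exists_inf_eq_bot [IsSimpleGroup S] (hS : ¬ IsMulCommutative S)
    (hn : Nat.card (Sylow p S) < p ^ 2) :
    ∃ P Q : Sylow p S, (P : Subgroup S) ⊓ (Q : Subgroup S) = ⊥ := by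
  obtain ⟨⟨P, Q⟩, hmin⟩ := Finite.exists_min
    (fun PQ : Sylow p S × Sylow p S => Nat.card ((PQ.1 : Subgroup S) ⊓ (PQ.2 : Subgroup S) : Subgroup S))
  refine ⟨P, Q, ?_⟩
  set D : Subgroup S := (P : Subgroup S) ⊓ (Q : Subgroup S) with hD
  have hPN : (P : Subgroup S) ≤ Subgroup.normalizer (D : Set S) := by
    intro u hu
    rw [Subgroup.mem_normalizer_iff]
    intro d
    constructor
    · intro hd
      have : u * d = d * u := sylow_comm hS hn P u d hu hd.1
      rw [this]; simpa using hd
    · intro hd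
      have h1 : u * d * u⁻¹ ∈ (P : Subgroup S) := hd.1
      have h2 : d ∈ (P : Subgroup S) := by
        have := mul_mem (mul_mem (inv_mem hu) h1) hu
        simpa [mul_assoc] using this
      have : u * d = d * u := sylow_comm hS hn P u d hu h2
      rw [this] at hd; simpa using hd
  have hQN : ∀ y ∈ (Q : Subgroup S), y ∈ Subgroup.normalizer (D : Set S) := by
    intro u hu
    rw [Subgroup.mem_normalizer_iff]
    intro d
    constructor
    · intro hd
      have : u * d = d * u := sylow_comm hS hn Q u d hu hd.2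
      rw [this]; simpa using hd
    · intro hd
      have h1 : u * d * u⁻¹ ∈ (Q : Subgroup S) := hd.2
      have h2 : d ∈ (Q : Subgroup S) := by
        have := mul_mem (mul_mem (inv_mem hu) h1) hu
        simpa [mul_assoc] using this
      have : u * d = d * u := sylow_comm hS hn Q u d hu h2
      rw [this] at hd; simpa using hd
  -- `D` lies in every Sylow subgroup
  have key : ∀ R : Sylow p S, D ≤ (R : Subgroup S) := by
    intro R
    set N := Subgroup.normalizer (D : Set S) with hN
    have hH : IsPGroup p (((R : Subgroup S) ⊓ N).subgroupOf N) :=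
      (R.isPGroup'.to_le inf_le_left).comap_subtype
    obtain ⟨Q', hQ'⟩ := hH.exists_le_sylow
    obtain ⟨n, hn'⟩ := MulAction.exists_smul_eq N Q' (P.subtype hPN)
    have hconj : ∀ x ∈ (R : Subgroup S), x ∈ N → (n : S) * x * (n : S)⁻¹ ∈ (P : Subgroup S) := by
      intro x hxR hxN
      have h1 : (⟨x, hxN⟩ : N) ∈ Q' := hQ' (show (⟨x, hxN⟩ : N) ∈ ((R : Subgroup S) ⊓ N).subgroupOf N from ⟨hxR, hxN⟩)
      have h2 : n * (⟨x, hxN⟩ : N) * n⁻¹ ∈ ((n • Q' : Sylow p N) : Subgroup N) := by
        rw [mem_smul_sylow_iff]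
        have e : n⁻¹ * (n * (⟨x, hxN⟩ : N) * n⁻¹) * n = ⟨x, hxN⟩ := by group
        rw [e]
        exact h1
      rw [hn'] at h2
      exact h2
    have hle : (((n : S) • R : Sylow p S) : Subgroup S) ⊓ (Q : Subgroup S) ≤ D := by
      intro y hy
      have hy1 := (mem_smul_sylow_iff (n : S) R y).mp hy.1
      have hyN : y ∈ N := hQN y hy.2
      have hxN : (n : S)⁻¹ * y * (n : S) ∈ N := mul_mem (mul_mem (inv_mem n.2) hyN) n.2
      have := hconj _ hy1 hxN
      refine ⟨?_, hy.2⟩
      have e : (n : S) * ((n : S)⁻¹ * y * (n : S)) * (n : S)⁻¹ = y := by group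
      rw [e] at this
      exact this
    have heq : (((n : S) • R : Sylow p S) : Subgroup S) ⊓ (Q : Subgroup S) = D :=
      Subgroup.eq_of_le_of_card_ge hle (hmin ((n : S) • R, Q))
    intro d hd
    have hd' : (n : S) * d * (n : S)⁻¹ ∈ D := (Subgroup.mem_normalizer_iff.mp n.2 d).mp hd
    rw [← heq] at hd'
    have := (mem_smul_sylow_iff (n : S) R _).mp hd'.1
    have e : (n : S)⁻¹ * ((n : S) * d * (n : S)⁻¹) * (n : S) = d := by group
    rw [e] at this
    exact this
  rw [eq_bot_iff, ← normalCore_sylow_eq_bot hS P]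
  intro d hd g
  have h1 := key (g⁻¹ • P) hd
  have h2 := (mem_smul_sylow_iff g⁻¹ P d).mp h1
  rw [inv_inv] at h2
  exact h2

end

/-- Let S be a finite non-abelian simple group and p a prime dividing its order. If S has fewer than p² Sylow p-subgroups, then its Sylow p-subgroups have order p. -/
theorem result {S : Type*} [Group S] [Finite S]
    [IsSimpleGroup S] (hS : ¬ IsMulCommutative S) (p : ℕ) [Fact p.Prime] (hp : p ∣ Nat.card S)
    (hn : Nat.card (Sylow p S) < p ^ 2) (P : Sylow p S) : Nat.card P = p := by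
  obtain ⟨P₀, Q₀, h0⟩ := exists_inf_eq_bot hS hn
  have h1 : (Q₀ : Subgroup S).relIndex (P₀ : Subgroup S) = Nat.card P₀ := by
    rw [← Subgroup.inf_relIndex_left, h0, Subgroup.relIndex_bot_left]
  have h2 : Nat.card P₀ = Nat.card P := by
    rw [Sylow.card_eq_multiplicity, Sylow.card_eq_multiplicity]
  have h3 : Nat.card P ≠ 1 := by
    intro h
    exact P.ne_bot_of_dvd_card hp (Subgroup.card_eq_one.mp h)
  rcases relIndex_one_or_prime hn P₀ Q₀ with h | h
  · rw [h1, h2] at h; exact absurd h h3
  · rw [h1, h2] at h; exact h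

end Cfsg.Agent.S4343
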