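import Cfsg.Statements.S4344

set_option autoImplicit false
open Cfsg

namespace Cfsg.Agent.S4344

open scoped Pointwise

/-- Let S be a finite non-abelian simple group, M a maximal subgroup of S and C a cyclic normal subgroup of M. If a Sylow p-subgroup P of S (for a prime p dividing the order of S) is contained in C, then the number of Sylow p-subgroups of S equals the index of M. -/
theorem result {S : Type*} [Group S] [Finite S]
    [IsSimpleGroup S] (hS : ¬ IsMulCommutative S) (p : ℕ) [Fact p.Prime] (hp : p ∣ Nat.card S)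
    (M : Subgroup S) (hM : IsCoatom M) (C : Subgroup S) (hCM : C ≤ M) (hCn : (C.subgroupOf M).Normal)
    (hC : IsCyclic C) (P : Sylow p S) (hP : (P : Subgroup S) ≤ C) :
    Nat.card (Sylow p S) = M.index := by
  rw [P.card_eq_index_normalizer]
  -- C is commutative
  have hCc : ∀ a ∈ C, ∀ b ∈ C, a * b = b * a := by
    intro a ha b hb
    have := @mul_comm' ↥C _ IsCyclic.isMulCommutative ⟨a, ha⟩ ⟨b, hb⟩
    exact congrArg Subtype.val this
  -- C normalizes P
  have hCP : C ≤ Subgroup.normalizer ((P : Subgroup S) : Set S) := by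
    rw [Subgroup.le_normalizer_iff]
    intro a ha u hu
    rw [hCc a ha u (hP hu), mul_inv_cancel_right]
    exact hu
  -- M normalizes C
  have hMC : M ≤ Subgroup.normalizer (C : Set S) :=
    (Subgroup.normal_subgroupOf_iff_le_normalizer hCM).mp hCn
  -- M normalizes P
  have hMP : M ≤ Subgroup.normalizer ((P : Subgroup S) : Set S) := by
    rw [Subgroup.le_normalizer_iff]
    intro m hm u hu
    have hP' : IsPGroup p (MulAut.conj m • (P : Subgroup S) : Subgroup S) :=
      P.isPGroup'.of_equiv (Subgroup.equivSMul (MulAut.conj m) (P : Subgroup S))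
    have hle : (MulAut.conj m • (P : Subgroup S) : Subgroup S) ≤ C := by
      intro y hy
      obtain ⟨v, hv, rfl⟩ := (Subgroup.mem_smul_pointwise_iff_exists _ _ _).mp hy
      rw [MulAut.smul_def, MulAut.conj_apply]
      exact (Subgroup.le_normalizer_iff.mp hMC) m hm v (hP hv)
    have hsup : IsPGroup p ((MulAut.conj m • (P : Subgroup S) : Subgroup S) ⊔ (P : Subgroup S) :
        Subgroup S) :=
      IsPGroup.to_sup_of_normal_right' hP' P.isPGroup' (hle.trans hCP)
    have hmax := P.is_maximal' hsup le_sup_right
    have h1 : m * u * m⁻¹ ∈ (MulAut.conj m • (P : Subgroup S) : Subgroup S) := by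
      have h3 := Subgroup.smul_mem_pointwise_smul _ (MulAut.conj m) (P : Subgroup S) hu
      rwa [MulAut.smul_def, MulAut.conj_apply] at h3
    have h2 : m * u * m⁻¹ ∈ ((MulAut.conj m • (P : Subgroup S) : Subgroup S) ⊔ (P : Subgroup S) :
        Subgroup S) := Subgroup.mem_sup_left h1
    rw [hmax] at h2
    exact h2
  -- the normalizer is proper
  have hne : Subgroup.normalizer ((P : Subgroup S) : Set S) ≠ ⊤ := by
    intro htop
    have hnorm : (P : Subgroup S).Normal := Subgroup.normalizer_eq_top_iff.mp htop
    rcases hnorm.eq_bot_or_eq_top with hb | ht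
    · exact P.ne_bot_of_dvd_card hp hb
    · apply hS
      refine ⟨⟨fun a b => ?_⟩⟩
      have ha : a ∈ C := hP (by rw [ht]; trivial)
      have hb : b ∈ C := hP (by rw [ht]; trivial)
      exact hCc a ha b hb
  have heq : Subgroup.normalizer ((P : Subgroup S) : Set S) = M := by
    by_contra hne'
    exact hne (hM.2 _ (lt_of_le_of_ne hMP (Ne.symm hne')))
  exact congrArg Subgroup.index heq

end Cfsg.Agent.S4344
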