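import Cfsg.Statements.S4345
import Cfsg.Agent.Helper72.SylowCount
-- import your own Cfsg.Agent.* helpers here

set_option autoImplicit false
open Cfsg

namespace Cfsg.Agent.S4345

universe u

open scoped commutatorElement

/-- A nontrivial finite solvable group has a nontrivial normal `q`-subgroup for some prime `q`. -/
theorem exists_normal_pgroup (G : Type u) [Group G] [Finite G] [Nontrivial G]
    (hG : Group.IsSolvable G) :
    ∃ (q : ℕ) (_ : q.Prime) (K : Subgroup G), K.Normal ∧ K ≠ ⊥ ∧ IsPGroup q K := by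
  classical
  have hex : ∃ n, derivedSeries G n = ⊥ := hG.solvable
  have hn0 : Nat.find hex ≠ 0 := by
    intro h0
    have := Nat.find_spec hex
    rw [h0, derivedSeries_zero] at this
    exact top_ne_bot this
  obtain ⟨m, hm⟩ := Nat.exists_eq_succ_of_ne_zero hn0
  have hA : derivedSeries G m ≠ ⊥ := by
    intro h
    have := Nat.find_min' hex h
    omega
  have hAA : ⁅derivedSeries G m, derivedSeries G m⁆ = ⊥ := by
    have := Nat.find_spec hex
    rw [hm, Nat.succ_eq_add_one, derivedSeries_succ] at this
    exact this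
  set A := derivedSeries G m with hAdef
  have hAn : A.Normal := inferInstance
  have comm : ∀ a ∈ A, ∀ b ∈ A, Commute a b := by
    intro a ha b hb
    have h1 : ⁅a, b⁆ ∈ ⁅A, A⁆ := Subgroup.commutator_mem_commutator ha hb
    rw [hAA, Subgroup.mem_bot] at h1
    exact commutatorElement_eq_one_iff_mul_comm.mp h1
  have hcard : Nat.card A ≠ 1 := by
    intro h
    exact hA (Subgroup.card_eq_one.mp h)
  obtain ⟨q, hq, hqd⟩ := Nat.exists_prime_and_dvd hcard
  haveI : Fact q.Prime := ⟨hq⟩
  obtain ⟨x, hx⟩ := exists_prime_orderOf_dvd_card' q hqd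
  let K : Subgroup G :=
    { carrier := {y | y ∈ A ∧ y ^ q = 1}
      mul_mem' := by
        rintro a b ⟨ha, ha'⟩ ⟨hb, hb'⟩
        exact ⟨A.mul_mem ha hb, by rw [(comm a ha b hb).mul_pow, ha', hb', one_mul]⟩
      one_mem' := ⟨A.one_mem, one_pow q⟩
      inv_mem' := by
        rintro a ⟨ha, ha'⟩
        exact ⟨A.inv_mem ha, by rw [inv_pow, ha', inv_one]⟩ }
  refine ⟨q, hq, K, ⟨?_⟩, ?_, ?_⟩
  · rintro y ⟨hy, hy'⟩ g
    exact ⟨hAn.conj_mem y hy g, by rw [conj_pow, hy', mul_one, mul_inv_cancel]⟩
  · intro hK
    have hxK : (x : G) ∈ K := by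
      refine ⟨x.2, ?_⟩
      have : x ^ q = 1 := by rw [← hx]; exact pow_orderOf_eq_one x
      have := congrArg (fun z : A => (z : G)) this
      simpa using this
    rw [hK, Subgroup.mem_bot] at hxK
    have : x = 1 := Subtype.ext hxK
    rw [this, orderOf_one] at hx
    exact hq.one_lt.ne hx
  · intro g
    refine ⟨1, ?_⟩
    have := g.2.2
    apply Subtype.ext
    simpa using this

theorem card_sylow_dvd_card (G : Type u) [Group G] [Finite G] (p : ℕ) [Fact p.Prime] :
    Nat.card (Sylow p G) ∣ Nat.card G := by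
  obtain ⟨P⟩ : Nonempty (Sylow p G) := inferInstance
  rw [P.card_eq_index_normalizer]
  exact Subgroup.index_dvd_card _

theorem aux (p ℓ : ℕ) [Fact p.Prime] (hℓ : ℓ.Prime) :
    ∀ (n : ℕ) (G : Type u) [Group G] [Finite G], Group.IsSolvable G → Nat.card G = n →
      ℓ ^ (Nat.card (Sylow p G)).factorization ℓ ≡ 1 [MOD p] := by
  intro n
  induction n using Nat.strong_induction_on with
  | _ n ih =>
    intro G _ _ hG hn
    by_cases htriv : Nat.card G = 1
    · have h1 : Nat.card (Sylow p G) = 1 := by
        have := card_sylow_dvd_card G p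
        rw [htriv] at this
        exact Nat.dvd_one.mp this
      rw [h1]
      simp [Nat.ModEq]
    · haveI : Nontrivial G := by
        rw [← Finite.one_lt_card_iff_nontrivial]
        have : Nat.card G ≠ 0 := Nat.card_pos.ne'
        omega
      obtain ⟨q, hq, K, hKn, hKbot, hKq⟩ := exists_normal_pgroup G hG
      haveI := hKn
      haveI := hG
      haveI : Fact q.Prime := ⟨hq⟩
      obtain ⟨P⟩ : Nonempty (Sylow p G) := inferInstance
      have hmul := Cfsg.Agent.Helper72.card_sylow_eq_mul P K
      set m := (Subgroup.normalizer ((P : Subgroup G) : Set G)).relIndex K with hmdef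
      have hm1 : m ≡ 1 [MOD p] := by
        rw [hmdef, ← Cfsg.Agent.Helper72.card_sylow_sup P K]
        exact card_sylow_modEq_one p _
      obtain ⟨c, hc⟩ := IsPGroup.iff_card.mp hKq
      have hmd : m ∣ q ^ c := by
        rw [← hc]
        exact Subgroup.relIndex_dvd_card _ _
      obtain ⟨j, -, hj⟩ := (Nat.dvd_prime_pow hq).mp hmd
      have hlt : Nat.card (G ⧸ K) < n := by
        rw [← hn, Subgroup.card_eq_card_quotient_mul_card_subgroup K]
        have h1 : 1 < Nat.card K := by
          rw [Subgroup.one_lt_card_iff_ne_bot]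
          exact hKbot
        have h2 : 0 < Nat.card (G ⧸ K) := Nat.card_pos
        nlinarith
      have hIH := ih (Nat.card (G ⧸ K)) hlt (G ⧸ K) inferInstance rfl
      have hpos1 : Nat.card (Sylow p (G ⧸ K)) ≠ 0 := Nat.card_pos.ne'
      have hpos2 : m ≠ 0 := by
        rw [hj]
        exact pow_ne_zero _ hq.pos.ne'
      rw [hmul, Nat.factorization_mul hpos1 hpos2, Finsupp.add_apply, pow_add]
      have h3 : ℓ ^ m.factorization ℓ ≡ 1 [MOD p] := by
        rw [hj, Nat.Prime.factorization_pow hq]
        by_cases hlq : ℓ = q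
        · subst hlq
          simp only [Finsupp.single_eq_same]
          rw [← hj]
          exact hm1
        · simp [Ne.symm hlq, Nat.ModEq]
      simpa using hIH.mul h3

/-- Let G be a finite solvable group and p, ℓ primes. Then the largest power of ℓ dividing the number of Sylow p-subgroups of G is congruent to 1 modulo p. -/
theorem result {G : Type*} [Group G] [Finite G]
    (hG : Group.IsSolvable G) (p ℓ : ℕ) [Fact p.Prime] (hℓ : ℓ.Prime) :
    ℓ ^ (Nat.card (Sylow p G)).factorization ℓ ≡ 1 [MOD p] := by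
  exact aux p ℓ hℓ (Nat.card G) G hG rfl

end Cfsg.Agent.S4345
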