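import Cfsg.Statements.S4354

set_option autoImplicit false
open Cfsg

namespace Cfsg.Agent.S4354

open scoped Pointwise

section aux

variable {G : Type*} [Group G] [Finite G] {p : ℕ} [Fact p.Prime]

/-- A Sylow subgroup of `G` meets a normal subgroup `N` in a subgroup of index prime to `p`. -/
theorem not_dvd_relIndex_normal (P : Sylow p G) (N : Subgroup G) [N.Normal] :
    ¬ p ∣ (P : Subgroup G).relIndex N := by
  obtain ⟨Q, hQ⟩ := Sylow.exists_comap_subtype_eq (default : Sylow p N)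
  obtain ⟨g, rfl⟩ := MulAction.exists_smul_eq G Q P
  have h1 : ((g • Q : Sylow p G) : Subgroup G).relIndex N = (Q : Subgroup G).relIndex N := by
    rw [Sylow.coe_subgroup_smul]
    conv_lhs => rw [← Subgroup.Normal.conj_smul_eq_self g N]
    exact Subgroup.relIndex_pointwise_smul _ _ _
  rw [h1]
  have h2 : (Q : Subgroup G).relIndex N = ((default : Sylow p N) : Subgroup N).index := by
    rw [← hQ]; rfl
  rw [h2]
  exact Sylow.not_dvd_index _

/-- A `p`-subgroup `R` between `A` and `N`, where `A` has index prime to `p` in `N`, equals `A`. -/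
theorem eq_of_isPGroup_of_not_dvd_relIndex {A R N : Subgroup G} (hAR : A ≤ R) (hRN : R ≤ N)
    (hR : IsPGroup p R) (h : ¬ p ∣ A.relIndex N) : R ≤ A := by
  rw [← Subgroup.relIndex_eq_one]
  have h1 := Subgroup.relIndex_mul_relIndex A R N hAR hRN
  obtain ⟨k, hk⟩ := hR.index (A.subgroupOf R)
  have hk' : A.relIndex R = p ^ k := hk
  rcases Nat.eq_zero_or_pos k with rfl | hkpos
  · simpa using hk'
  · exfalso
    apply h
    rw [← h1, hk']
    exact Dvd.dvd.mul_right (dvd_pow_self p hkpos.ne') _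

/-- If the class of `y` has size prime to `p`, some Sylow `p`-subgroup centralizes `y`. -/
theorem exists_sylow_le_centralizer (y : G)
    (h : ¬ p ∣ (Subgroup.centralizer ({y} : Set G)).index) :
    ∃ P₁ : Sylow p G, (P₁ : Subgroup G) ≤ Subgroup.centralizer ({y} : Set G) := by
  obtain ⟨S⟩ := (inferInstance : Nonempty (Sylow p (Subgroup.centralizer ({y} : Set G))))
  have hp : IsPGroup p ((S : Subgroup (Subgroup.centralizer ({y} : Set G))).map
      (Subgroup.centralizer ({y} : Set G)).subtype) := S.isPGroup'.map _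
  have hidx : ¬ p ∣ ((S : Subgroup (Subgroup.centralizer ({y} : Set G))).map
      (Subgroup.centralizer ({y} : Set G)).subtype).index := by
    rw [Subgroup.index_map_subtype]
    exact Nat.Prime.not_dvd_mul Fact.out S.not_dvd_index h
  refine ⟨hp.toSylow hidx, ?_⟩
  rw [IsPGroup.toSylow_coe]
  exact Subgroup.map_subtype_le _

omit [Finite G] [Fact p.Prime] in
/-- A `p`-element centralized by a Sylow `p`-subgroup lies in it. -/
theorem mem_sylow_of_le_centralizer (P₁ : Sylow p G) (y : G) (hy : IsPGroup p (Subgroup.zpowers y))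
    (h : (P₁ : Subgroup G) ≤ Subgroup.centralizer ({y} : Set G)) : y ∈ P₁ := by
  have hn : Subgroup.zpowers y ≤ Subgroup.normalizer ((P₁ : Subgroup G) : Set G) := by
    rw [Subgroup.le_normalizer_iff]
    intro a ha k hk
    obtain ⟨n, rfl⟩ := Subgroup.mem_zpowers_iff.mp ha
    have hky : Commute k y := Subgroup.mem_centralizer_singleton_iff.mp (h hk)
    have : y ^ n * k * (y ^ n)⁻¹ = k := by
      rw [(hky.zpow_right n).eq.symm, mul_inv_cancel_right]
    rw [this]; exact hk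
  have h1 : IsPGroup p (Subgroup.zpowers y ⊔ (P₁ : Subgroup G) : Subgroup G) :=
    IsPGroup.to_sup_of_normal_right' hy P₁.isPGroup' hn
  have h2 := P₁.is_maximal' h1 le_sup_right
  have : y ∈ Subgroup.zpowers y ⊔ (P₁ : Subgroup G) :=
    Subgroup.mem_sup_left (Subgroup.mem_zpowers y)
  rw [h2] at this
  exact this

/-- Key coprimality step: if conjugation by `c ∈ N` agrees on the abelian "Sylow" `Q` of `N`
with conjugation by the inverse of the `p`-element `y`, then `y` centralizes `Q`. -/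
theorem commute_of_conj_eq {Q N : Subgroup G} (hQN : Q ≤ N)
    (hab : ∀ a ∈ Q, ∀ b ∈ Q, a * b = b * a) (hidx : ¬ p ∣ Q.relIndex N)
    (y : G) (k : ℕ) (hy : orderOf y = p ^ k) (hyQ : ∀ u ∈ Q, y⁻¹ * u * y ∈ Q)
    (c : G) (hc : c ∈ N) (hcy : ∀ u ∈ Q, c * u * c⁻¹ = y⁻¹ * u * y) :
    ∀ u ∈ Q, y * u = u * y := by
  -- powers
  have hpow : ∀ m : ℕ, ∀ u ∈ Q, c ^ m * u * (c ^ m)⁻¹ = (y ^ m)⁻¹ * u * y ^ m := by
    intro m
    induction m with
    | zero => intro u _; simp
    | succ m ih =>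
      intro u hu
      have h1 : c ^ (m + 1) * u * (c ^ (m + 1))⁻¹ = c ^ m * (c * u * c⁻¹) * (c ^ m)⁻¹ := by
        rw [pow_succ]; group
      rw [h1, hcy u hu, ih _ (hyQ u hu), pow_succ']
      group
  have hpowQ : ∀ m : ℕ, ∀ u ∈ Q, c ^ m * u * (c ^ m)⁻¹ ∈ Q := by
    intro m
    induction m with
    | zero => intro u hu; simpa using hu
    | succ m ih =>
      intro u hu
      have h1 : c ^ (m + 1) * u * (c ^ (m + 1))⁻¹ = c ^ m * (c * u * c⁻¹) * (c ^ m)⁻¹ := by
        rw [pow_succ]; group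
      rw [h1]
      exact ih _ (by rw [hcy u hu]; exact hyQ u hu)
  -- c normalizes Q
  have hcn : Subgroup.zpowers c ≤ Subgroup.normalizer (Q : Set G) := by
    rw [Subgroup.le_normalizer_iff]
    intro a ha u hu
    obtain ⟨n, rfl⟩ := mem_powers_iff_mem_zpowers.mpr ha
    exact hpowQ n u hu
  have hcM : c ∈ N ⊓ Subgroup.normalizer (Q : Set G) :=
    ⟨hc, hcn (Subgroup.mem_zpowers c)⟩
  have hQM : Q ≤ N ⊓ Subgroup.normalizer (Q : Set G) := le_inf hQN Subgroup.le_normalizer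
  have hnorm : (Q.subgroupOf (N ⊓ Subgroup.normalizer (Q : Set G))).Normal :=
    Subgroup.normal_subgroupOf_of_le_normalizer inf_le_right
  have hm : ¬ p ∣ Q.relIndex (N ⊓ Subgroup.normalizer (Q : Set G)) := by
    intro hdvd
    apply hidx
    rw [← Subgroup.relIndex_mul_relIndex Q _ N hQM inf_le_left]
    exact Dvd.dvd.mul_right hdvd _
  have hcm : c ^ (Q.relIndex (N ⊓ Subgroup.normalizer (Q : Set G))) ∈ Q := by
    have := Subgroup.pow_index_mem (Q.subgroupOf (N ⊓ Subgroup.normalizer (Q : Set G)))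
      (⟨c, hcM⟩ : ↥(N ⊓ Subgroup.normalizer (Q : Set G)))
    rw [Subgroup.mem_subgroupOf] at this
    rw [Subgroup.relIndex]
    simpa using this
  -- y ^ m commutes with Q
  have hym : ∀ u ∈ Q, y ^ (Q.relIndex (N ⊓ Subgroup.normalizer (Q : Set G))) * u =
      u * y ^ (Q.relIndex (N ⊓ Subgroup.normalizer (Q : Set G))) := by
    intro u hu
    have h1 := hpow (Q.relIndex (N ⊓ Subgroup.normalizer (Q : Set G))) u hu
    have h2 : c ^ (Q.relIndex (N ⊓ Subgroup.normalizer (Q : Set G))) * u *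
        (c ^ (Q.relIndex (N ⊓ Subgroup.normalizer (Q : Set G))))⁻¹ = u := by
      rw [hab _ hcm u hu, mul_inv_cancel_right]
    rw [h2] at h1
    calc y ^ (Q.relIndex (N ⊓ Subgroup.normalizer (Q : Set G))) * u
        = y ^ (Q.relIndex (N ⊓ Subgroup.normalizer (Q : Set G))) *
          ((y ^ (Q.relIndex (N ⊓ Subgroup.normalizer (Q : Set G))))⁻¹ * u *
            y ^ (Q.relIndex (N ⊓ Subgroup.normalizer (Q : Set G)))) := by rw [← h1]
      _ = u * y ^ (Q.relIndex (N ⊓ Subgroup.normalizer (Q : Set G))) := by group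
  have hcop : (Q.relIndex (N ⊓ Subgroup.normalizer (Q : Set G))).Coprime (orderOf y) := by
    rw [hy]
    exact Nat.Coprime.pow_right k ((Nat.Prime.coprime_iff_not_dvd Fact.out).mpr hm).symm
  obtain ⟨j, hj⟩ := exists_pow_eq_self_of_coprime hcop
  intro u hu
  have : Commute (y ^ (Q.relIndex (N ⊓ Subgroup.normalizer (Q : Set G)))) u := hym u hu
  have h3 := this.pow_left j
  rw [hj] at h3
  exact h3.eq

/-- Part 1: under the class-size condition, if the Sylow `p`-subgroups of the normal subgroup `N`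
are abelian, every element of a Sylow `p`-subgroup `P` of `G` centralizes `P ⊓ N`. -/
theorem commute_inf_normal (N : Subgroup G) [hNn : N.Normal]
    (hcls : ∀ x : G, (∃ k : ℕ, orderOf x = p ^ k) →
      ¬ p ∣ (Subgroup.centralizer ({x} : Set G)).index)
    (hN : ∀ S : Sylow p N, IsMulCommutative S)
    (P : Sylow p G) (y : G) (hy : y ∈ P) :
    ∀ u ∈ (P : Subgroup G) ⊓ N, y * u = u * y := by
  obtain ⟨k, hk⟩ : ∃ k : ℕ, orderOf y = p ^ k := by
    obtain ⟨k, hk⟩ := (IsPGroup.iff_orderOf.mp P.isPGroup') ⟨y, hy⟩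
    exact ⟨k, by rw [← hk]; exact (Subgroup.orderOf_coe (⟨y, hy⟩ : (P : Subgroup G)))⟩
  obtain ⟨P₁, hP₁⟩ := exists_sylow_le_centralizer y (hcls y ⟨k, hk⟩)
  obtain ⟨g, rfl⟩ := MulAction.exists_smul_eq G P P₁
  have hidx : ¬ p ∣ ((P : Subgroup G) ⊓ N).relIndex N := by
    rw [Subgroup.inf_relIndex_right]; exact not_dvd_relIndex_normal P N
  let SQ : Sylow p N :=
    (P.isPGroup'.comap_subtype (K := N)).toSylow (not_dvd_relIndex_normal P N)
  have hSQ : (SQ : Subgroup N).map N.subtype = (P : Subgroup G) ⊓ N :=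
    Subgroup.subgroupOf_map_subtype _ _
  have hfr := Sylow.normalizer_sup_eq_top SQ
  rw [hSQ] at hfr
  have hg : g ∈ (N ⊔ Subgroup.normalizer (((P : Subgroup G) ⊓ N : Subgroup G) : Set G) :
      Subgroup G) := by
    rw [sup_comm, hfr]; trivial
  rw [← SetLike.mem_coe, Subgroup.normal_mul] at hg
  obtain ⟨n, hn, h, hh, rfl⟩ := Set.mem_mul.mp hg
  have hab : ∀ a ∈ (P : Subgroup G) ⊓ N, ∀ b ∈ (P : Subgroup G) ⊓ N, a * b = b * a := by
    intro a ha b hb
    have ha' : (⟨a, ha.2⟩ : N) ∈ SQ := ha.1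
    have hb' : (⟨b, hb.2⟩ : N) ∈ SQ := hb.1
    have := @mul_comm' ↥SQ _ (hN SQ) ⟨⟨a, ha.2⟩, ha'⟩ ⟨⟨b, hb.2⟩, hb'⟩
    exact congrArg (fun x : ↥SQ => ((x : N) : G)) this
  have hcomm : ∀ u' ∈ (P : Subgroup G),
      (n * h) * u' * (n * h)⁻¹ * y = y * ((n * h) * u' * (n * h)⁻¹) := by
    intro u' hu'
    have hmem : (n * h) * u' * (n * h)⁻¹ ∈ (((n * h) • P : Sylow p G) : Subgroup G) := by
      rw [Sylow.coe_subgroup_smul]
      exact Subgroup.smul_mem_pointwise_smul u' (MulAut.conj (n * h)) _ hu'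
    exact Subgroup.mem_centralizer_singleton_iff.mp (hP₁ hmem)
  refine commute_of_conj_eq inf_le_right hab hidx y k hk ?_ (y⁻¹ * n⁻¹ * y * n) ?_ ?_
  · intro u hu
    have hu1 : u ∈ (P : Subgroup G) := hu.1
    have hu2 : u ∈ N := hu.2
    refine Subgroup.mem_inf.mpr ⟨(P : Subgroup G).mul_mem
      ((P : Subgroup G).mul_mem ((P : Subgroup G).inv_mem hy) hu1) hy, ?_⟩
    simpa using hNn.conj_mem u hu2 y⁻¹
  · refine N.mul_mem ?_ hn
    simpa using hNn.conj_mem n⁻¹ (N.inv_mem hn) y⁻¹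
  · intro u hu
    have h1 : h⁻¹ * u * h ∈ (P : Subgroup G) ⊓ N :=
      (Subgroup.mem_normalizer_iff''.mp hh u).mp hu
    have h2 := hcomm _ h1.1
    have h3 : (n * h) * (h⁻¹ * u * h) * (n * h)⁻¹ = n * u * n⁻¹ := by group
    rw [h3] at h2
    have h4 : (y⁻¹ * n⁻¹ * y * n) * u * (y⁻¹ * n⁻¹ * y * n)⁻¹ =
        y⁻¹ * n⁻¹ * (y * (n * u * n⁻¹)) * y⁻¹ * n * y := by group
    rw [h4, ← h2]; group

/-- Main claim: under the class-size condition, if the Sylow `p`-subgroups of `N` and of `G ⧸ N`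
are abelian then so are those of `G`. -/
theorem sylow_comm_of_normal (N : Subgroup G) [hNn : N.Normal]
    (hcls : ∀ x : G, (∃ k : ℕ, orderOf x = p ^ k) →
      ¬ p ∣ (Subgroup.centralizer ({x} : Set G)).index)
    (hN : ∀ S : Sylow p N, IsMulCommutative S)
    (hQ : ∀ S : Sylow p (G ⧸ N), IsMulCommutative S)
    (P : Sylow p G) : ∀ y ∈ P, ∀ u ∈ P, y * u = u * y := by
  intro y hy
  obtain ⟨k, hk⟩ : ∃ k : ℕ, orderOf y = p ^ k := by
    obtain ⟨k, hk⟩ := (IsPGroup.iff_orderOf.mp P.isPGroup') ⟨y, hy⟩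
    exact ⟨k, by rw [← hk]; exact (Subgroup.orderOf_coe (⟨y, hy⟩ : (P : Subgroup G)))⟩
  obtain ⟨P₁, hP₁⟩ := exists_sylow_le_centralizer y (hcls y ⟨k, hk⟩)
  have hyP₁ : y ∈ P₁ := mem_sylow_of_le_centralizer P₁ y
    (IsPGroup.of_card (n := k) (by rw [Nat.card_zpowers, hk])) hP₁
  have hsurj := QuotientGroup.mk'_surjective N
  have hPC : (P : Subgroup G) ≤ (Subgroup.centralizer
      ({(QuotientGroup.mk' N) y} : Set (G ⧸ N))).comap (QuotientGroup.mk' N) := by
    intro u hu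
    rw [Subgroup.mem_comap, Subgroup.mem_centralizer_singleton_iff]
    have h1 : (QuotientGroup.mk' N) u ∈ P.mapSurjective hsurj := Subgroup.mem_map_of_mem _ hu
    have h2 : (QuotientGroup.mk' N) y ∈ P.mapSurjective hsurj := Subgroup.mem_map_of_mem _ hy
    have := @mul_comm' ↥(P.mapSurjective hsurj) _ (hQ _) ⟨_, h1⟩ ⟨_, h2⟩
    exact congrArg Subtype.val this
  have hP₁C : (P₁ : Subgroup G) ≤ (Subgroup.centralizer
      ({(QuotientGroup.mk' N) y} : Set (G ⧸ N))).comap (QuotientGroup.mk' N) := by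
    intro u hu
    rw [Subgroup.mem_comap, Subgroup.mem_centralizer_singleton_iff]
    have := Subgroup.mem_centralizer_singleton_iff.mp (hP₁ hu)
    rw [← map_mul, ← map_mul, this]
  obtain ⟨c, hc⟩ := MulAction.exists_smul_eq
    ((Subgroup.centralizer ({(QuotientGroup.mk' N) y} : Set (G ⧸ N))).comap (QuotientGroup.mk' N))
    (P.subtype hPC) (P₁.subtype hP₁C)
  rw [Sylow.smul_subtype] at hc
  have hc' : (c • P : Sylow p G) = P₁ := Sylow.subtype_injective hc
  have hc'' : (MulAut.conj (c : G) • (P : Subgroup G)) = (P₁ : Subgroup G) := by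
    rw [← hc']; rfl
  have hy' : (c : G)⁻¹ * y * c ∈ (P : Subgroup G) := by
    have h1 : y ∈ MulAut.conj (c : G) • (P : Subgroup G) := by rw [hc'']; exact hyP₁
    rw [Subgroup.mem_pointwise_smul_iff_inv_smul_mem] at h1
    simpa [MulAut.smul_def] using h1
  have hy'comm : ∀ u ∈ (P : Subgroup G),
      ((c : G)⁻¹ * y * c) * u = u * ((c : G)⁻¹ * y * c) := by
    intro u hu
    have hmem : (c : G) * u * (c : G)⁻¹ ∈ (P₁ : Subgroup G) := by
      rw [← hc'']
      exact Subgroup.smul_mem_pointwise_smul u (MulAut.conj (c : G)) _ hu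
    have h1 := Subgroup.mem_centralizer_singleton_iff.mp (hP₁ hmem)
    have h2 : ((c : G)⁻¹ * y * c) * u = (c : G)⁻¹ * (y * ((c : G) * u * (c : G)⁻¹)) * c := by
      group
    rw [h2, ← h1]; group
  have hdN : y⁻¹ * ((c : G)⁻¹ * y * c) ∈ N := by
    have h1 := c.2
    rw [Subgroup.mem_comap, Subgroup.mem_centralizer_singleton_iff] at h1
    rw [← QuotientGroup.eq_one_iff, ← QuotientGroup.mk'_apply]
    simp only [map_mul, map_inv]
    rw [mul_assoc ((QuotientGroup.mk' N) (c : G))⁻¹, ← h1]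
    group
  have hdP : y⁻¹ * ((c : G)⁻¹ * y * c) ∈ (P : Subgroup G) :=
    (P : Subgroup G).mul_mem ((P : Subgroup G).inv_mem hy) hy'
  intro u hu
  have hd := commute_inf_normal N hcls hN P u hu (y⁻¹ * ((c : G)⁻¹ * y * c))
    (Subgroup.mem_inf.mpr ⟨hdP, hdN⟩)
  have h3 := hy'comm u hu
  have e : y = ((c : G)⁻¹ * y * c) * (y⁻¹ * ((c : G)⁻¹ * y * c))⁻¹ := by group
  have key : ∀ (y' d u : G), y' * u = u * y' → u * d = d * u →
      (y' * d⁻¹) * u = u * (y' * d⁻¹) := by
    intro y' d u h1 h2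
    have h2' : d⁻¹ * u = u * d⁻¹ := by
      rw [eq_mul_inv_iff_mul_eq, mul_assoc, h2, ← mul_assoc, inv_mul_cancel, one_mul]
    rw [mul_assoc, h2', ← mul_assoc, h1, mul_assoc]
  have h4 := key _ _ _ h3 hd
  rwa [← e] at h4

/-- The class-size condition passes to normal subgroups. -/
theorem cls_normal (N : Subgroup G) [hNn : N.Normal]
    (hcls : ∀ x : G, (∃ k : ℕ, orderOf x = p ^ k) →
      ¬ p ∣ (Subgroup.centralizer ({x} : Set G)).index) :
    ∀ x : N, (∃ k : ℕ, orderOf x = p ^ k) →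
      ¬ p ∣ (Subgroup.centralizer ({x} : Set N)).index := by
  rintro x ⟨k, hk⟩ hdvd
  have hx : ∃ k : ℕ, orderOf (x : G) = p ^ k := ⟨k, by rw [Subgroup.orderOf_coe]; exact hk⟩
  obtain ⟨P₁, hP₁⟩ := exists_sylow_le_centralizer (x : G) (hcls (x : G) hx)
  have h1 : Subgroup.centralizer ({x} : Set N) =
      (Subgroup.centralizer ({(x : G)} : Set G)).subgroupOf N := by
    ext z
    rw [Subgroup.mem_subgroupOf, Subgroup.mem_centralizer_singleton_iff,
      Subgroup.mem_centralizer_singleton_iff]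
    constructor
    · intro h; exact congrArg Subtype.val h
    · intro h; exact Subtype.ext h
  rw [h1] at hdvd
  have h2 : (Subgroup.centralizer ({(x : G)} : Set G)).relIndex N ∣ (P₁ : Subgroup G).relIndex N :=
    Subgroup.relIndex_dvd_of_le_left N hP₁
  exact not_dvd_relIndex_normal P₁ N (dvd_trans hdvd h2)

/-- The class-size condition passes to quotients. -/
theorem cls_quotient (N : Subgroup G) [hNn : N.Normal]
    (hcls : ∀ x : G, (∃ k : ℕ, orderOf x = p ^ k) →
      ¬ p ∣ (Subgroup.centralizer ({x} : Set G)).index) :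
    ∀ x : G ⧸ N, (∃ k : ℕ, orderOf x = p ^ k) →
      ¬ p ∣ (Subgroup.centralizer ({x} : Set (G ⧸ N))).index := by
  rintro x ⟨k, hk⟩ hdvd
  have hsurj := QuotientGroup.mk'_surjective N
  have hpg : IsPGroup p (Subgroup.zpowers x) :=
    IsPGroup.of_card (n := k) (by rw [Nat.card_zpowers, hk])
  obtain ⟨S, hS⟩ := hpg.exists_le_sylow
  obtain ⟨P, rfl⟩ := Sylow.mapSurjective_surjective hsurj p S
  have hx : x ∈ (P : Subgroup G).map (QuotientGroup.mk' N) := hS (Subgroup.mem_zpowers x)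
  obtain ⟨g, hg, rfl⟩ := Subgroup.mem_map.mp hx
  obtain ⟨j, hj⟩ := (IsPGroup.iff_orderOf.mp P.isPGroup') ⟨g, hg⟩
  have hg' : ∃ j : ℕ, orderOf g = p ^ j :=
    ⟨j, by rw [← hj]; exact (Subgroup.orderOf_coe (⟨g, hg⟩ : (P : Subgroup G)))⟩
  apply hcls g hg'
  have h1 : (Subgroup.centralizer ({g} : Set G)).map (QuotientGroup.mk' N) ≤
      Subgroup.centralizer ({(QuotientGroup.mk' N) g} : Set (G ⧸ N)) := by
    have := Subgroup.map_centralizer_le_centralizer_image {g} (QuotientGroup.mk' N)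
    simpa using this
  exact (hdvd.trans (Subgroup.index_dvd_of_le h1)).trans (Subgroup.index_map_dvd _ hsurj)

end aux

/-- Let G be a finite group and p a prime such that the Sylow p-subgroups of G are non-abelian while every element of p-power order has conjugacy class size prime to p, and suppose no nontrivial proper normal subgroup N of G has this property and no quotient G/N by such an N has it. Then G is simple. -/
theorem result {G : Type*} [Group G] [Finite G]
    (p : ℕ) [Fact p.Prime] (h : ((∃ P : Sylow p G, ¬ IsMulCommutative P) ∧ ∀ x : G, (∃ k : ℕ, orderOf x = p ^ k) → ¬ p ∣ (Subgroup.centralizer ({x} : Set G)).index))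
    (hmin : ∀ (N : Subgroup G) [N.Normal], N ≠ ⊥ → N ≠ ⊤ →
      ¬ ((∃ P : Sylow p N, ¬ IsMulCommutative P) ∧ ∀ x : N, (∃ k : ℕ, orderOf x = p ^ k) → ¬ p ∣ (Subgroup.centralizer ({x} : Set N)).index) ∧
      ¬ ((∃ P : Sylow p (G ⧸ N), ¬ IsMulCommutative P) ∧ ∀ x : (G ⧸ N), (∃ k : ℕ, orderOf x = p ^ k) → ¬ p ∣ (Subgroup.centralizer ({x} : Set (G ⧸ N))).index)) :
    IsSimpleGroup G := by
  obtain ⟨⟨P, hP⟩, hcls⟩ := h
  have hnt : Nontrivial G := by
    by_contra hnt
    rw [not_nontrivial_iff_subsingleton] at hnt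
    apply hP
    exact ⟨⟨fun a b => Subsingleton.elim _ _⟩⟩
  refine { toNontrivial := hnt, eq_bot_or_eq_top_of_normal := fun N hN => ?_ }
  by_contra hcon
  rw [not_or] at hcon
  obtain ⟨hb, ht⟩ := hcon
  obtain ⟨h1, h2⟩ := hmin N hb ht
  have hNab : ∀ S : Sylow p N, IsMulCommutative S := by
    intro S
    by_contra hS
    exact h1 ⟨⟨S, hS⟩, cls_normal N hcls⟩
  have hQab : ∀ S : Sylow p (G ⧸ N), IsMulCommutative S := by
    intro S
    by_contra hS
    exact h2 ⟨⟨S, hS⟩, cls_quotient N hcls⟩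
  apply hP
  have := sylow_comm_of_normal N hcls hNab hQab P
  exact ⟨⟨fun a b => Subtype.ext (this a a.2 b b.2)⟩⟩

end Cfsg.Agent.S4354
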