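import Cfsg.Statements.S4365

set_option autoImplicit false
open Cfsg

namespace Cfsg.Agent.S4365

section aux
variable {P : Type*} [Group P] [Finite P]

theorem eq_of_le_of_index_eq {H K : Subgroup P} (hle : H ≤ K) (hidx : H.index = K.index) :
    H = K := by
  have h1 := Subgroup.relIndex_mul_index hle
  rw [hidx] at h1
  have hK : K.index ≠ 0 := Subgroup.index_ne_zero_of_finite
  have h2 : H.relIndex K = 1 := by
    have : H.relIndex K * K.index = 1 * K.index := by rw [one_mul]; exact h1
    exact Nat.eq_of_mul_eq_mul_right (Nat.pos_of_ne_zero hK) this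
  exact le_antisymm hle (Subgroup.relIndex_eq_one.mp h2)

theorem relIndex_le_index (H K : Subgroup P) : H.relIndex K ≤ H.index := by
  have h1 := Subgroup.relIndex_mul_index (inf_le_right : H ⊓ K ≤ K)
  rw [Subgroup.inf_relIndex_right] at h1
  have h2 := Subgroup.index_inf_le (H := H) (K := K)
  rw [← h1] at h2
  have hK : K.index ≠ 0 := Subgroup.index_ne_zero_of_finite
  exact Nat.le_of_mul_le_mul_right h2 (Nat.pos_of_ne_zero hK)

omit [Finite P] in
theorem centralizer_mul_central (w z : P) (hz : z ∈ Subgroup.center P) :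
    Subgroup.centralizer ({w * z} : Set P) = Subgroup.centralizer ({w} : Set P) := by
  ext h
  rw [Subgroup.mem_centralizer_singleton_iff, Subgroup.mem_centralizer_singleton_iff]
  have hz' := Subgroup.mem_center_iff.mp hz
  constructor
  · intro hh
    have : h * w * z = w * h * z := by
      calc h * w * z = h * (w * z) := by rw [mul_assoc]
        _ = w * z * h := hh
        _ = w * (z * h) := by rw [mul_assoc]
        _ = w * (h * z) := by rw [← hz' h]
        _ = w * h * z := by rw [mul_assoc]
    exact mul_right_cancel this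
  · intro hh
    calc h * (w * z) = h * w * z := by rw [mul_assoc]
      _ = w * h * z := by rw [hh]
      _ = w * (h * z) := by rw [mul_assoc]
      _ = w * (z * h) := by rw [hz' h]
      _ = w * z * h := by rw [mul_assoc]

end aux

/-- Let P be a finite p-group whose conjugacy class sizes are exactly 1 and pᵃ for some a ≥ 1. Then every element of P has its p-th power in the center of P (P/Z(P) has exponent p). -/
theorem result {P : Type*} [Group P] [Finite P] (p : ℕ) [Fact p.Prime]
    (hP : IsPGroup p P) (a : ℕ) (ha : 1 ≤ a)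
    (hcs : {k : ℕ | ∃ x : P, (Subgroup.centralizer ({x} : Set P)).index = k} = {1, p ^ a}) (x : P) :
    x ^ p ∈ Subgroup.center P := by
  classical
  by_contra hxp
  have hp : p.Prime := Fact.out
  have hZn : (Subgroup.center P).Normal := inferInstance
  have hidx : ∀ g : P, (Subgroup.centralizer ({g} : Set P)).index = 1 ∨
      (Subgroup.centralizer ({g} : Set P)).index = p ^ a := by
    intro g
    have : (Subgroup.centralizer ({g} : Set P)).index ∈ ({1, p ^ a} : Set ℕ) := by
      rw [← hcs]; exact ⟨g, rfl⟩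
    simpa using this
  have hnc : ∀ g : P, g ∉ Subgroup.center P →
      (Subgroup.centralizer ({g} : Set P)).index = p ^ a := by
    intro g hg
    rcases hidx g with h | h
    · exfalso; apply hg
      rw [Subgroup.index_eq_one, Subgroup.centralizer_eq_top_iff_subset] at h
      exact h (Set.mem_singleton g)
    · exact h
  have hF4 : ∀ g h : P, g ∉ Subgroup.center P → h ∉ Subgroup.center P →
      Subgroup.centralizer ({g} : Set P) ≤ Subgroup.centralizer ({h} : Set P) →
      Subgroup.centralizer ({g} : Set P) = Subgroup.centralizer ({h} : Set P) := by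
    intro g h hg hh hle
    exact eq_of_le_of_index_eq hle (by rw [hnc g hg, hnc h hh])
  have hpowle : ∀ (g : P) (n : ℕ), Subgroup.centralizer ({g} : Set P) ≤
      Subgroup.centralizer ({g ^ n} : Set P) := by
    intro g n h hh
    rw [Subgroup.mem_centralizer_singleton_iff] at hh ⊢
    have hc : Commute h g := hh
    exact (hc.pow_right n).eq
  have hx : x ∉ Subgroup.center P := fun h => hxp ((Subgroup.center P).pow_mem h p)
  have hC : Subgroup.centralizer ({x ^ p} : Set P) = Subgroup.centralizer ({x} : Set P) :=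
    (hF4 x (x ^ p) hx hxp (hpowle x p)).symm
  -- an element of order p in the centre of P / Z
  obtain ⟨u, huZ, hu2, hup⟩ : ∃ u : P, u ∉ Subgroup.center P ∧
      (∀ g : P, u * g * u⁻¹ * g⁻¹ ∈ Subgroup.center P) ∧ u ^ p ∈ Subgroup.center P := by
    have hnt : Nontrivial (P ⧸ Subgroup.center P) := by
      refine ⟨⟨(QuotientGroup.mk x : P ⧸ Subgroup.center P), 1, ?_⟩⟩
      intro h
      exact hx ((QuotientGroup.eq_one_iff x).mp h)
    have hPq : IsPGroup p (P ⧸ Subgroup.center P) := hP.to_quotient _
    have hcn := hPq.center_nontrivial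
    have hPc : IsPGroup p (Subgroup.center (P ⧸ Subgroup.center P)) := hPq.to_subgroup _
    have hdvd : p ∣ Nat.card (Subgroup.center (P ⧸ Subgroup.center P)) := by
      rcases hPc.card_eq_or_dvd with h | h
      · exfalso
        have := Finite.one_lt_card (α := Subgroup.center (P ⧸ Subgroup.center P))
        omega
      · exact h
    obtain ⟨⟨ub, hub⟩, hord⟩ := exists_prime_orderOf_dvd_card' p hdvd
    have hord' : orderOf ub = p := by
      rw [← hord]; exact Subgroup.orderOf_coe (⟨ub, hub⟩ : Subgroup.center (P ⧸ Subgroup.center P))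
    obtain ⟨u, rfl⟩ := QuotientGroup.mk_surjective ub
    refine ⟨u, ?_, ?_, ?_⟩
    · intro h
      have h1 : (QuotientGroup.mk u : P ⧸ Subgroup.center P) = 1 := (QuotientGroup.eq_one_iff u).mpr h
      rw [h1, orderOf_one] at hord'
      exact hp.one_lt.ne hord'
    · intro g
      rw [← QuotientGroup.eq_one_iff]
      have h1 := Subgroup.mem_center_iff.mp hub (QuotientGroup.mk g)
      rw [QuotientGroup.mk_mul, QuotientGroup.mk_mul, QuotientGroup.mk_mul, QuotientGroup.mk_inv,
        QuotientGroup.mk_inv, ← h1]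
      group
    · rw [← QuotientGroup.eq_one_iff, QuotientGroup.mk_pow, ← hord', pow_orderOf_eq_one]
  -- Lemma A
  have hA : ∀ g : P, g ^ p ∉ Subgroup.center P →
      Subgroup.centralizer ({g} : Set P) = Subgroup.centralizer ({u} : Set P) := by
    intro g hgp
    have hg : g ∉ Subgroup.center P := fun h => hgp ((Subgroup.center P).pow_mem h p)
    have hz1 : (g ^ p)⁻¹ * (g * u) ^ p ∈ Subgroup.center P := by
      rw [← QuotientGroup.eq]
      have hcomm : Commute (QuotientGroup.mk g : P ⧸ Subgroup.center P) (QuotientGroup.mk u) := by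
        have h1 := (QuotientGroup.eq_one_iff _).mpr (hu2 g)
        rw [QuotientGroup.mk_mul, QuotientGroup.mk_mul, QuotientGroup.mk_mul, QuotientGroup.mk_inv,
          QuotientGroup.mk_inv] at h1
        have h2 : (QuotientGroup.mk u : P ⧸ Subgroup.center P) * QuotientGroup.mk g =
            QuotientGroup.mk g * QuotientGroup.mk u := by
          rw [mul_inv_eq_one, mul_inv_eq_iff_eq_mul] at h1
          exact h1
        exact h2.symm
      have hup' : (QuotientGroup.mk u : P ⧸ Subgroup.center P) ^ p = 1 := by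
        rw [← QuotientGroup.mk_pow, QuotientGroup.eq_one_iff]; exact hup
      rw [QuotientGroup.mk_pow, QuotientGroup.mk_pow, QuotientGroup.mk_mul, hcomm.mul_pow, hup',
        mul_one]
    have hgu : (g * u) ^ p = g ^ p * ((g ^ p)⁻¹ * (g * u) ^ p) := by group
    have hgup : (g * u) ^ p ∉ Subgroup.center P := by
      intro h; apply hgp
      have : g ^ p = (g * u) ^ p * ((g ^ p)⁻¹ * (g * u) ^ p)⁻¹ := by group
      rw [this]; exact (Subgroup.center P).mul_mem h ((Subgroup.center P).inv_mem hz1)
    have hgu' : g * u ∉ Subgroup.center P := fun h => hgup ((Subgroup.center P).pow_mem h p)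
    have e1 : Subgroup.centralizer ({g * u} : Set P) =
        Subgroup.centralizer ({(g * u) ^ p} : Set P) := hF4 _ _ hgu' hgup (hpowle _ p)
    have e2 : Subgroup.centralizer ({g} : Set P) = Subgroup.centralizer ({g ^ p} : Set P) :=
      hF4 _ _ hg hgp (hpowle _ p)
    have e3 : Subgroup.centralizer ({(g * u) ^ p} : Set P) =
        Subgroup.centralizer ({g ^ p} : Set P) := by
      have := centralizer_mul_central (g ^ p) _ hz1
      rwa [← hgu] at this
    apply hF4 g u hg huZ
    intro h hh
    have h1 : h ∈ Subgroup.centralizer ({g * u} : Set P) := by rw [e1, e3, ← e2]; exact hh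
    rw [Subgroup.mem_centralizer_singleton_iff] at hh h1 ⊢
    have : g * (h * u) = g * (u * h) := by rw [← mul_assoc, ← hh, mul_assoc, h1, mul_assoc]
    exact mul_left_cancel this
  have hxu : Subgroup.centralizer ({x} : Set P) = Subgroup.centralizer ({u} : Set P) := hA x hxp
  have hconjZ : ∀ (w : P) (g : P), w ∉ Subgroup.center P → g * w * g⁻¹ ∉ Subgroup.center P := by
    intro w g hw h
    apply hw
    have := hZn.conj_mem _ h g⁻¹
    simpa [mul_assoc] using this
  have hconj : ∀ g : P, Subgroup.centralizer ({g * x * g⁻¹} : Set P) =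
      Subgroup.centralizer ({x} : Set P) := by
    intro g
    rw [hxu]
    apply hA
    rw [conj_pow]
    exact hconjZ _ g hxp
  have hconjD : ∀ g : P, g * x * g⁻¹ ∈
      Subgroup.centralizer ((Subgroup.centralizer ({x} : Set P) : Subgroup P) : Set P) := by
    intro g
    rw [Subgroup.mem_centralizer_iff]
    intro h hh
    rw [SetLike.mem_coe, ← hconj g, Subgroup.mem_centralizer_singleton_iff] at hh
    exact hh
  have hDcent : ∀ w ∈ Subgroup.centralizer
      ((Subgroup.centralizer ({x} : Set P) : Subgroup P) : Set P), w ∉ Subgroup.center P →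
      Subgroup.centralizer ({w} : Set P) = Subgroup.centralizer ({x} : Set P) := by
    intro w hw hwZ
    symm
    apply hF4 x w hx hwZ
    intro h hh
    rw [Subgroup.mem_centralizer_singleton_iff]
    exact hw h hh
  obtain ⟨y, hy⟩ : ∃ y : P, y ∉ Subgroup.centralizer ({x} : Set P) := by
    by_contra hcon
    apply hx
    have htop : Subgroup.centralizer ({x} : Set P) = ⊤ := by
      rw [Subgroup.eq_top_iff']
      intro y
      by_contra hy
      exact hcon ⟨y, hy⟩
    rw [Subgroup.centralizer_eq_top_iff_subset] at htop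
    exact htop (Set.mem_singleton x)
  have hyZ : y ∉ Subgroup.center P := by
    intro h
    apply hy
    rw [Subgroup.mem_centralizer_singleton_iff]
    exact (Subgroup.mem_center_iff.mp h x).symm
  have hinf : Subgroup.centralizer ({y} : Set P) ⊓
      Subgroup.centralizer ((Subgroup.centralizer ({x} : Set P) : Subgroup P) : Set P) ≤
      Subgroup.center P := by
    intro w hw
    obtain ⟨hw1, hw2⟩ := Subgroup.mem_inf.mp hw
    by_contra hwZ
    apply hy
    rw [← hDcent w hw2 hwZ, Subgroup.mem_centralizer_singleton_iff]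
    rw [Subgroup.mem_centralizer_singleton_iff] at hw1
    exact hw1.symm
  have hDZ : (Subgroup.center P).relIndex
      (Subgroup.centralizer ((Subgroup.centralizer ({x} : Set P) : Subgroup P) : Set P)) ≤ p ^ a := by
    have hne : (Subgroup.centralizer ({y} : Set P) ⊓
      Subgroup.centralizer ((Subgroup.centralizer ({x} : Set P) : Subgroup P) : Set P)).relIndex
      (Subgroup.centralizer ((Subgroup.centralizer ({x} : Set P) : Subgroup P) : Set P)) ≠ 0 :=
      Subgroup.index_ne_zero_of_finite
    have h1 := Subgroup.relIndex_le_of_le_left hinf hne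
    rw [Subgroup.inf_relIndex_right] at h1
    have h2 := relIndex_le_index (Subgroup.centralizer ({y} : Set P))
      (Subgroup.centralizer ((Subgroup.centralizer ({x} : Set P) : Subgroup P) : Set P))
    rw [hnc y hyZ] at h2
    exact h1.trans h2
  -- pigeonhole
  have hex : ∃ g : P, g ∉ Subgroup.centralizer ({x} : Set P) ∧
      g * x * g⁻¹ * x⁻¹ ∈ Subgroup.center P := by
    by_contra hcon
    have hH : ∀ g : P, g * x * g⁻¹ * x⁻¹ ∈ Subgroup.center P →
        g ∈ Subgroup.centralizer ({x} : Set P) := by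
      intro g hg
      by_contra h
      exact hcon ⟨g, h, hg⟩
    let φ : P ⧸ Subgroup.centralizer ({x} : Set P) → P ⧸ Subgroup.center P :=
      Quotient.lift (fun g : P => (QuotientGroup.mk (g * x * g⁻¹) : P ⧸ Subgroup.center P)) (by
        intro g h hgh
        have hgh' : g⁻¹ * h ∈ Subgroup.centralizer ({x} : Set P) := QuotientGroup.leftRel_apply.mp hgh
        rw [Subgroup.mem_centralizer_singleton_iff] at hgh'
        have : h * x * h⁻¹ = g * x * g⁻¹ := by
          have e : h = g * (g⁻¹ * h) := by group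
          rw [e]
          calc g * (g⁻¹ * h) * x * (g * (g⁻¹ * h))⁻¹
              = g * ((g⁻¹ * h) * x) * (g⁻¹ * h)⁻¹ * g⁻¹ := by group
            _ = g * (x * (g⁻¹ * h)) * (g⁻¹ * h)⁻¹ * g⁻¹ := by rw [hgh']
            _ = g * x * g⁻¹ := by group
        show (QuotientGroup.mk (g * x * g⁻¹) : P ⧸ Subgroup.center P) = QuotientGroup.mk (h * x * h⁻¹)
        rw [this])
    have hφmk : ∀ g : P, φ (QuotientGroup.mk g) = QuotientGroup.mk (g * x * g⁻¹) := fun g => rfl
    have hφinj : Function.Injective φ := by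
      intro q₁ q₂
      induction q₁ using QuotientGroup.induction_on with
      | H g =>
      induction q₂ using QuotientGroup.induction_on with
      | H h =>
      intro heq
      rw [hφmk, hφmk, QuotientGroup.eq] at heq
      rw [QuotientGroup.eq]
      apply hH
      have h1 := hZn.conj_mem _ heq (x * g⁻¹)
      have h2 : x * g⁻¹ * ((g * x * g⁻¹)⁻¹ * (h * x * h⁻¹)) * (x * g⁻¹)⁻¹ =
          g⁻¹ * h * x * (g⁻¹ * h)⁻¹ * x⁻¹ := by group
      rw [h2] at h1
      exact h1
    have hsub : Set.range φ ⊆ ((Subgroup.centralizer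
        ((Subgroup.centralizer ({x} : Set P) : Subgroup P) : Set P)).map
        (QuotientGroup.mk' (Subgroup.center P)) : Set (P ⧸ Subgroup.center P)) \ {1} := by
      rintro _ ⟨q, rfl⟩
      induction q using QuotientGroup.induction_on with
      | H g =>
      rw [hφmk]
      refine ⟨Subgroup.mem_map_of_mem _ (hconjD g), ?_⟩
      intro h1
      rw [Set.mem_singleton_iff, QuotientGroup.eq_one_iff] at h1
      exact hconjZ x g hx h1
    have h1 : (Set.range φ).ncard = Nat.card (P ⧸ Subgroup.centralizer ({x} : Set P)) := by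
      rw [← Set.image_univ, Set.ncard_image_of_injective _ hφinj, Set.ncard_univ]
    have h2 := Set.ncard_le_ncard hsub (Set.toFinite _)
    rw [Set.ncard_sdiff_singleton_of_mem (Subgroup.one_mem _), h1, ← Subgroup.index_eq_card,
      hnc x hx] at h2
    have h3 : ((Subgroup.centralizer
        ((Subgroup.centralizer ({x} : Set P) : Subgroup P) : Set P)).map
        (QuotientGroup.mk' (Subgroup.center P)) : Set (P ⧸ Subgroup.center P)).ncard ≤ p ^ a := by
      rw [← Nat.card_coe_set_eq]
      have := Subgroup.relIndex_ker (QuotientGroup.mk' (Subgroup.center P))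
        (K := Subgroup.centralizer ((Subgroup.centralizer ({x} : Set P) : Subgroup P) : Set P))
      rw [QuotientGroup.ker_mk'] at this
      exact le_of_eq_of_le this.symm hDZ
    have hpos : 0 < p ^ a := pow_pos hp.pos a
    omega
  obtain ⟨g, hgC, hgZ⟩ := hex
  -- powers of g
  have hz0 : ∀ n : ℕ, g ^ n * x * (g ^ n)⁻¹ = x * (g * x * g⁻¹ * x⁻¹) ^ n := by
    intro n
    induction n with
    | zero => simp
    | succ n ih =>
      have hz := Subgroup.mem_center_iff.mp hgZ
      have e1 : g ^ (n + 1) * x * (g ^ (n + 1))⁻¹ = g * (g ^ n * x * (g ^ n)⁻¹) * g⁻¹ := by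
        rw [pow_succ']; group
      rw [e1, ih, pow_succ']
      have e2 : g * (x * (g * x * g⁻¹ * x⁻¹) ^ n) * g⁻¹ =
          (g * x * g⁻¹ * x⁻¹) * x * (g * ((g * x * g⁻¹ * x⁻¹) ^ n) * g⁻¹) := by group
      have hzn : (g * x * g⁻¹ * x⁻¹) ^ n ∈ Subgroup.center P := (Subgroup.center P).pow_mem hgZ n
      have e3 : g * ((g * x * g⁻¹ * x⁻¹) ^ n) * g⁻¹ = (g * x * g⁻¹ * x⁻¹) ^ n := by
        rw [(Subgroup.mem_center_iff.mp hzn g), mul_inv_cancel_right]
      rw [e2, e3, ← hz x, mul_assoc]
  have hz0ne : g * x * g⁻¹ * x⁻¹ ≠ 1 := by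
    intro h
    apply hgC
    rw [Subgroup.mem_centralizer_singleton_iff]
    rw [mul_inv_eq_one, mul_inv_eq_iff_eq_mul] at h
    exact h
  obtain ⟨k, hk⟩ := (IsPGroup.iff_orderOf.mp hP) (g * x * g⁻¹ * x⁻¹)
  have hk0 : k ≠ 0 := by
    intro h
    rw [h, pow_zero, orderOf_eq_one_iff] at hk
    exact hz0ne hk
  obtain ⟨j, rfl⟩ : ∃ j, k = j + 1 := Nat.exists_eq_succ_of_ne_zero hk0
  -- g₀ = g ^ (p ^ j), z₁ = z₀ ^ (p ^ j)
  have hz1ne : (g * x * g⁻¹ * x⁻¹) ^ (p ^ j) ≠ 1 := by
    intro h
    have := orderOf_dvd_of_pow_eq_one h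
    rw [hk] at this
    have hlt : p ^ j < p ^ (j + 1) := Nat.pow_lt_pow_right hp.one_lt (Nat.lt_succ_self j)
    exact absurd (Nat.le_of_dvd (pow_pos hp.pos j) this) (not_le.mpr hlt)
  have hz1p : ((g * x * g⁻¹ * x⁻¹) ^ (p ^ j)) ^ p = 1 := by
    rw [← pow_mul, ← pow_succ, ← hk, pow_orderOf_eq_one]
  have hz1Z : (g * x * g⁻¹ * x⁻¹) ^ (p ^ j) ∈ Subgroup.center P :=
    (Subgroup.center P).pow_mem hgZ _
  have hg0 : g ^ (p ^ j) * x ^ p * (g ^ (p ^ j))⁻¹ = x ^ p := by
    rw [← conj_pow, hz0 (p ^ j)]
    have hcomm : Commute x ((g * x * g⁻¹ * x⁻¹) ^ (p ^ j)) :=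
      (Subgroup.mem_center_iff.mp hz1Z x)
    rw [hcomm.mul_pow, hz1p, mul_one]
  have hg0C : g ^ (p ^ j) ∈ Subgroup.centralizer ({x} : Set P) := by
    rw [← hC, Subgroup.mem_centralizer_singleton_iff]
    calc g ^ (p ^ j) * x ^ p = (g ^ (p ^ j) * x ^ p * (g ^ (p ^ j))⁻¹) * g ^ (p ^ j) := by group
      _ = x ^ p * g ^ (p ^ j) := by rw [hg0]
  rw [Subgroup.mem_centralizer_singleton_iff] at hg0C
  apply hz1ne
  have h5 := hz0 (p ^ j)
  have h6 : g ^ (p ^ j) * x * (g ^ (p ^ j))⁻¹ = x := by
    rw [hg0C, mul_inv_cancel_right]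
  rw [h6] at h5
  exact (mul_eq_left.mp h5.symm)

end Cfsg.Agent.S4365
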