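import Cfsg.Statements.S4370
import Cfsg.Agent.Helper53.Nilp
import Cfsg.Agent.Helper53.QuatIso
import Cfsg.Agent.Helper53.Quat2
import Cfsg.Agent.Helper29.UniqueOrderP

set_option autoImplicit false
open Cfsg

namespace Cfsg.Agent.S4370

/-- Let G be a finite non-abelian nilpotent group. Then the centralizer of every non-central element of G is cyclic if and only if G is isomorphic to the direct product of a generalized quaternion group and a cyclic group of odd order. -/
theorem result {G : Type*} [Group G] [Finite G] (hG : Group.IsNilpotent G)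
    (hna : ¬ IsMulCommutative G) :
    (∀ x : G, x ∉ Subgroup.center G → IsCyclic (Subgroup.centralizer ({x} : Set G))) ↔
      ∃ (k m : ℕ), 1 ≤ k ∧ Odd m ∧ Nonempty (G ≃* QuaternionGroup (2 ^ k) × Multiplicative (ZMod m)) := by
  constructor
  · intro hcyc
    classical
    -- Step 1: a prime p with noncommutative Sylow p-subgroup.
    have h1 : ∃ (p : ℕ) (_ : Fact p.Prime) (P : Sylow p G), ∃ a ∈ (P : Subgroup G),
        ∃ b ∈ (P : Subgroup G), a * b ≠ b * a := by
      by_contra hcon
      push Not at hcon
      apply hna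
      have hcen : ∀ (q : ℕ) [Fact q.Prime] (Q : Sylow q G),
          (Q : Subgroup G) ≤ Subgroup.center G := by
        intro q hq Q x hx
        obtain ⟨H, -, hcomm, e, he⟩ := Cfsg.Agent.Helper53.nilpotent_sylow_prod hG q Q
        rw [Subgroup.mem_center_iff]
        intro g
        obtain ⟨y, rfl⟩ := e.surjective g
        rw [he]
        have e1 : x * (y.1 : G) = (y.1 : G) * x := hcon q hq Q x hx y.1 y.1.2
        have e2 : x * (y.2 : G) = (y.2 : G) * x := hcomm x hx y.2 y.2.2
        rw [mul_assoc, ← e2, ← mul_assoc, ← e1, mul_assoc]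
      have htop : (⊤ : Subgroup G) ≤ Subgroup.center G := by
        apply Cfsg.Agent.Helper53.le_of_sylow_map_le
        intro q _ Q
        have hQp : IsPGroup q ((Q : Subgroup (⊤ : Subgroup G)).map (⊤ : Subgroup G).subtype) :=
          Q.2.map _
        obtain ⟨Q', hQ'⟩ := hQp.exists_le_sylow
        exact hQ'.trans (hcen q Q')
      exact ⟨⟨fun a b => (Subgroup.mem_center_iff.mp (htop (Subgroup.mem_top b)) a)⟩⟩
    obtain ⟨p, hpF, P, a, haP, b, hbP, hab⟩ := h1
    have hp : p.Prime := hpF.out
    obtain ⟨H, hcop, hcomm, e, he⟩ := Cfsg.Agent.Helper53.nilpotent_sylow_prod hG p P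
    have hac : a ∉ Subgroup.center G := fun h => hab ((Subgroup.mem_center_iff.mp h b).symm)
    have hCa := hcyc a hac
    have hHle : H ≤ Subgroup.centralizer ({a} : Set G) := by
      intro h hh
      rw [Subgroup.mem_centralizer_singleton_iff]
      exact (hcomm a haP h hh).symm
    have hHcyc : IsCyclic H := Subgroup.isCyclic_of_le hHle
    -- a central element of order p in P
    have hPnt : Nontrivial (P : Subgroup G) :=
      ⟨⟨⟨a, haP⟩, ⟨b, hbP⟩, fun h => hab (by
        have h' : a = b := congrArg Subtype.val h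
        rw [h'])⟩⟩
    obtain ⟨z, hzP, hzo, hzc⟩ : ∃ z ∈ (P : Subgroup G), orderOf z = p ∧
        ∀ x ∈ (P : Subgroup G), x * z = z * x := by
      have hcn : Nontrivial (Subgroup.center (P : Subgroup G)) := P.2.center_nontrivial
      have hcp : IsPGroup p (Subgroup.center (P : Subgroup G)) := P.2.to_subgroup _
      have hdvd : p ∣ Nat.card (Subgroup.center (P : Subgroup G)) := by
        rcases hcp.card_eq_or_dvd with h | h
        · exact absurd h (Finite.one_lt_card).ne'
        · exact h
      obtain ⟨w, hw⟩ := exists_prime_orderOf_dvd_card' p hdvd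
      refine ⟨((w : (P : Subgroup G)) : G), (w : (P : Subgroup G)).2, ?_, ?_⟩
      · rw [Subgroup.orderOf_coe, Subgroup.orderOf_coe]; exact hw
      · intro x hx
        have := Subgroup.mem_center_iff.mp w.2 ⟨x, hx⟩
        exact congrArg Subtype.val this
    have hkey : ∀ t ∈ (P : Subgroup G), t ^ p = 1 → t ∈ Subgroup.zpowers z := by
      intro t htP htp
      by_cases htc : t ∈ Subgroup.center G
      · apply Cfsg.Agent.Helper53.mem_zpowers_of_pow_prime_eq_one _ hCa p hp z t _ _ hzo htp
        · rw [Subgroup.mem_centralizer_singleton_iff]; exact (hzc a haP).symm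
        · rw [Subgroup.mem_centralizer_singleton_iff]
          exact (Subgroup.mem_center_iff.mp htc a).symm
      · apply Cfsg.Agent.Helper53.mem_zpowers_of_pow_prime_eq_one _ (hcyc t htc) p hp z t _ _
          hzo htp
        · rw [Subgroup.mem_centralizer_singleton_iff]; exact (hzc t htP).symm
        · rw [Subgroup.mem_centralizer_singleton_iff]
    have huniq : ∀ H1 K1 : Subgroup (P : Subgroup G), Nat.card H1 = p → Nat.card K1 = p →
        H1 = K1 := by
      have hz' : ∀ H1 : Subgroup (P : Subgroup G), Nat.card H1 = p →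
          H1 = Subgroup.zpowers (⟨z, hzP⟩ : (P : Subgroup G)) := by
        intro H1 hH1
        have hle : H1 ≤ Subgroup.zpowers (⟨z, hzP⟩ : (P : Subgroup G)) := by
          intro t ht
          have htp : ((t : (P : Subgroup G)) : G) ^ p = 1 := by
            have h1 : (⟨t, ht⟩ : H1) ^ p = 1 := by
              have h0 := pow_card_eq_one' (x := (⟨t, ht⟩ : H1))
              rwa [hH1] at h0
            have h2 := congrArg (fun u : H1 => ((u : (P : Subgroup G)) : G)) h1
            simpa using h2
          obtain ⟨i, hi⟩ := Subgroup.mem_zpowers_iff.mp (hkey t t.2 htp)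
          rw [Subgroup.mem_zpowers_iff]
          exact ⟨i, Subtype.ext (by simpa using hi)⟩
        apply Subgroup.eq_of_le_of_card_ge hle
        rw [hH1, Nat.card_zpowers, Subgroup.orderOf_mk, hzo]
      intro H1 K1 h1 h2
      rw [hz' H1 h1, hz' K1 h2]
    have hPnc : ¬ IsCyclic (P : Subgroup G) := by
      intro hc
      obtain ⟨g, hg⟩ := hc.exists_generator
      obtain ⟨i, hi⟩ := Subgroup.mem_zpowers_iff.mp (hg ⟨a, haP⟩)
      obtain ⟨j, hj⟩ := Subgroup.mem_zpowers_iff.mp (hg ⟨b, hbP⟩)
      have h3 : (⟨a, haP⟩ : (P : Subgroup G)) * ⟨b, hbP⟩ = ⟨b, hbP⟩ * ⟨a, haP⟩ := by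
        rw [← hi, ← hj, ← zpow_add, ← zpow_add, add_comm]
      exact hab (congrArg Subtype.val h3)
    have hp2 : p = 2 := by
      by_contra hp2
      obtain ⟨n, hn⟩ := (IsPGroup.iff_card.mp P.2)
      exact hPnc (Cfsg.Agent.Helper29.isCyclic_of_unique_subgroup_odd hp2 n hn huniq)
    subst hp2
    rcases Cfsg.Agent.Helper53.isCyclic_or_quaternion_of_unique_subgroup P.2 huniq with
      hc | ⟨n, hn1, ⟨eQ⟩⟩
    · exact absurd hc hPnc
    · refine ⟨n, Nat.card H, hn1, Nat.Coprime.odd_of_right hcop, ⟨?_⟩⟩
      exact e.symm.trans (MulEquiv.prodCongr eQ (zmodCyclicMulEquiv hHcyc).symm)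
  · rintro ⟨k, m, hk, hm, ⟨e⟩⟩ x hx
    classical
    have hNZ : NeZero (2 ^ k) := ⟨by positivity⟩
    have hQ2 : IsPGroup 2 (QuaternionGroup (2 ^ k)) := by
      apply IsPGroup.of_card (n := k + 2)
      rw [Nat.card_eq_fintype_card, QuaternionGroup.card]; ring
    obtain ⟨z, hzdef⟩ : ∃ z : QuaternionGroup (2 ^ k),
        z = QuaternionGroup.xa (0 : ZMod (2 * 2 ^ k)) ^ 2 := ⟨_, rfl⟩
    have hzo : orderOf z = 2 := by
      rw [hzdef, orderOf_pow, QuaternionGroup.orderOf_xa]; rfl
    have hzz : z * z = 1 := by
      have h0 := pow_orderOf_eq_one z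
      rw [hzo] at h0
      rw [← pow_two]; exact h0
    have hza : z = QuaternionGroup.a ((2 ^ k : ℕ) : ZMod (2 * 2 ^ k)) := by
      rw [hzdef, QuaternionGroup.xa_sq]
    have huniq : ∀ t : QuaternionGroup (2 ^ k), orderOf t = 2 → t = z := by
      intro t ht
      rcases t with i | i
      · have h1 : QuaternionGroup.a i ∈ Subgroup.zpowers
            (QuaternionGroup.a (1 : ZMod (2 * 2 ^ k)) : QuaternionGroup (2 ^ k)) := by
          have : (QuaternionGroup.a (1 : ZMod (2 * 2 ^ k)) : QuaternionGroup (2 ^ k)) ^ i.val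
              = QuaternionGroup.a i := by
            rw [QuaternionGroup.a_one_pow, ZMod.natCast_zmod_val]
          rw [← this]; exact Subgroup.pow_mem _ (Subgroup.mem_zpowers _) _
        have h2 : z ∈ Subgroup.zpowers
            (QuaternionGroup.a (1 : ZMod (2 * 2 ^ k)) : QuaternionGroup (2 ^ k)) := by
          rw [hza, ← QuaternionGroup.a_one_pow]
          exact Subgroup.pow_mem _ (Subgroup.mem_zpowers _) _
        have h3 : QuaternionGroup.a i ∈ Subgroup.zpowers z :=
          Cfsg.Agent.Helper53.mem_zpowers_of_pow_prime_eq_one _ inferInstance 2 Nat.prime_two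
            z _ h2 h1 hzo (by
              have h0 := pow_orderOf_eq_one (QuaternionGroup.a i : QuaternionGroup (2 ^ k))
              rwa [ht] at h0)
        obtain ⟨j, hj⟩ := Subgroup.mem_zpowers_iff.mp h3
        rcases Int.even_or_odd' j with ⟨c, hc | hc⟩
        · exfalso
          rw [hc, zpow_mul, zpow_ofNat, pow_two, hzz, one_zpow] at hj
          rw [← hj, orderOf_one] at ht
          omega
        · rw [hc, zpow_add, zpow_mul, zpow_ofNat, pow_two, hzz, one_zpow, one_mul, zpow_one] at hj
          exact hj.symm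
      · rw [QuaternionGroup.orderOf_xa] at ht
        omega
    have hzcen : ∀ g : QuaternionGroup (2 ^ k), g * z = z * g := by
      intro g
      have h1 : orderOf (g * z * g⁻¹) = 2 := by
        rw [Cfsg.Agent.Helper53.orderOf_conj_eq]; exact hzo
      have h2 := huniq _ h1
      calc g * z = g * z * g⁻¹ * g := by group
        _ = z * g := by rw [h2]
    -- the Q-component of e x is not central
    have hq : ∃ g : QuaternionGroup (2 ^ k), g * (e x).1 ≠ (e x).1 * g := by
      by_contra hcon
      push Not at hcon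
      apply hx
      rw [Subgroup.mem_center_iff]
      intro g
      apply e.injective
      rw [map_mul, map_mul]
      apply Prod.ext
      · exact hcon (e g).1
      · exact mul_comm _ _
    obtain ⟨g0, hg0⟩ := hq
    obtain ⟨q, hqdef⟩ : ∃ q, q = (e x).1 := ⟨_, rfl⟩
    rw [← hqdef] at hg0
    obtain ⟨D, hDdef⟩ : ∃ D : Subgroup (QuaternionGroup (2 ^ k)),
        D = Subgroup.centralizer ({q} : Set (QuaternionGroup (2 ^ k))) := ⟨_, rfl⟩
    have hDmem : ∀ d, d ∈ D ↔ d * q = q * d := by
      intro d; rw [hDdef, Subgroup.mem_centralizer_singleton_iff]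
    have hzD : z ∈ D := by rw [hDmem]; exact (hzcen q).symm
    have hqD : q ∈ D := by rw [hDmem]
    -- D is commutative
    have hDcomm : ∀ a ∈ D, ∀ b ∈ D, a * b = b * a := by
      by_contra hcon
      push Not at hcon
      obtain ⟨a, haD, b, hbD, hab⟩ := hcon
      have hD2 : IsPGroup 2 D := hQ2.to_subgroup D
      have hzo' : orderOf (⟨z, hzD⟩ : D) = 2 := by rw [Subgroup.orderOf_mk]; exact hzo
      have huniq' : ∀ t : D, orderOf t = 2 → t = ⟨z, hzD⟩ := by
        intro t ht
        apply Subtype.ext
        apply huniq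
        rw [Subgroup.orderOf_coe]; exact ht
      have hw : ∀ g : D, g * (⟨q, hqD⟩ : D) = ⟨q, hqD⟩ * g := by
        intro g
        apply Subtype.ext
        exact (hDmem g).mp g.2
      have hnc : ∃ g h : D, g * h ≠ h * g :=
        ⟨⟨a, haD⟩, ⟨b, hbD⟩, fun h => hab (congrArg Subtype.val h)⟩
      rcases Cfsg.Agent.Helper53.central_eq_one_or_of_unique_invol hD2 _ hzo' huniq' hnc _ hw
        with h | h
      · have hq1 : q = 1 := congrArg Subtype.val h
        apply hg0; rw [hq1, mul_one, one_mul]
      · have hqz : q = z := congrArg Subtype.val h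
        apply hg0; rw [hqz]; exact hzcen g0
    obtain ⟨u, huD, hDu⟩ := Cfsg.Agent.Helper53.exists_zpowers_eq_of_unique_invol hQ2 z hzo huniq D
      hDcomm hzD
    have hDcyc : IsCyclic D := by rw [hDu]; infer_instance
    have hNZm : NeZero m := ⟨by rcases hm with ⟨c, hc⟩; omega⟩
    have hprodcyc : IsCyclic (↥D × Multiplicative (ZMod m)) := by
      rw [Group.isCyclic_prod_iff]
      refine ⟨hDcyc, inferInstance, ?_⟩
      obtain ⟨r, hr⟩ := IsPGroup.iff_card.mp (hQ2.to_subgroup D)
      have hcm : Nat.card (Multiplicative (ZMod m)) = m := by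
        rw [Nat.card_eq_fintype_card, Fintype.card_multiplicative, ZMod.card]
      rw [hr, hcm]
      exact Nat.Coprime.pow_left r (Nat.coprime_two_left.mpr hm)
    -- map the centralizer of x into D × C
    have hmemD : ∀ y : Subgroup.centralizer ({x} : Set G), (e (y : G)).1 ∈ D := by
      intro y
      rw [hDmem, hqdef]
      have h1 : (y : G) * x = x * (y : G) := Subgroup.mem_centralizer_singleton_iff.mp y.2
      have h2 := congrArg (fun w => (e w).1) h1
      simpa using h2
    let f : Subgroup.centralizer ({x} : Set G) →* ↥D × Multiplicative (ZMod m) :=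
      { toFun := fun y => (⟨(e (y : G)).1, hmemD y⟩, (e (y : G)).2)
        map_one' := by
          apply Prod.ext
          · apply Subtype.ext; simp
          · simp
        map_mul' := by
          intro y1 y2
          apply Prod.ext
          · apply Subtype.ext; simp
          · simp }
    have hf : Function.Injective f := by
      intro y1 y2 h
      have h1 : (e (y1 : G)).1 = (e (y2 : G)).1 := congrArg (fun w => ((w.1 : D) : QuaternionGroup (2 ^ k))) h
      have h2 : (e (y1 : G)).2 = (e (y2 : G)).2 :=
        congrArg (fun w : ↥D × Multiplicative (ZMod m) => w.2) h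
      apply Subtype.ext
      apply e.injective
      exact Prod.ext h1 h2
    exact isCyclic_of_injective f hf

end Cfsg.Agent.S4370
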