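import Cfsg.Statements.S4377

set_option autoImplicit false
open Cfsg

namespace Cfsg.Agent.S4377

theorem card_pow_eq_one_eq_sum {G : Type*} [Group G] [Finite G] {n : ℕ} (hn : n ≠ 0) :
    Nat.card {g : G // g ^ n = 1} = ∑ m ∈ n.divisors, Nat.card {g : G // orderOf g = m} := by
  classical
  have := Fintype.ofFinite G
  have h1 := sum_card_orderOf_eq_card_pow_eq_one (G := G) hn
  have h2 : Nat.card {g : G // g ^ n = 1} = (Finset.univ.filter (fun x : G => x ^ n = 1)).card := by
    rw [Nat.card_eq_fintype_card, Fintype.card_subtype]
  have h3 : ∀ m, Nat.card {g : G // orderOf g = m} =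
      (Finset.univ.filter (fun x : G => orderOf x = m)).card := by
    intro m
    rw [Nat.card_eq_fintype_card, Fintype.card_subtype]
  rw [h2, ← h1]
  exact Finset.sum_congr rfl (fun m _ => (h3 m).symm)

theorem card_pow_card_mul {G : Type*} [Group G] [Finite G] (k : ℕ) :
    Nat.card {g : G // g ^ (Nat.card G * k) = 1} = Nat.card G := by
  have : ∀ g : G, g ^ (Nat.card G * k) = 1 := fun g => by
    rw [pow_mul, pow_card_eq_one', one_pow]
  exact Nat.card_congr (Equiv.subtypeUnivEquiv this)

/-- Two finite groups have the same number of elements of each order if and only if, for every n, they have the same number of elements g with gⁿ = 1. -/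
theorem result {G H : Type*} [Group G] [Finite G] [Group H] [Finite H] :
    (∀ n : ℕ, Nat.card {g : G // orderOf g = n} = Nat.card {h : H // orderOf h = n}) ↔
      ∀ n : ℕ, Nat.card {g : G // g ^ n = 1} = Nat.card {h : H // h ^ n = 1} := by
  constructor
  · intro h
    have key : ∀ n : ℕ, n ≠ 0 →
        Nat.card {g : G // g ^ n = 1} = Nat.card {h : H // h ^ n = 1} := by
      intro n hn
      rw [card_pow_eq_one_eq_sum hn, card_pow_eq_one_eq_sum hn]
      exact Finset.sum_congr rfl (fun m _ => h m)
    intro n
    rcases eq_or_ne n 0 with rfl | hn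
    · have hG : Nat.card G ≠ 0 := Nat.card_pos.ne'
      have hH : Nat.card H ≠ 0 := Nat.card_pos.ne'
      have h1 := key (Nat.card G * Nat.card H) (mul_ne_zero hG hH)
      rw [card_pow_card_mul, mul_comm, card_pow_card_mul] at h1
      have e1 : Nat.card {g : G // g ^ 0 = 1} = Nat.card G :=
        Nat.card_congr (Equiv.subtypeUnivEquiv (fun g => pow_zero g))
      have e2 : Nat.card {g : H // g ^ 0 = 1} = Nat.card H :=
        Nat.card_congr (Equiv.subtypeUnivEquiv (fun g => pow_zero g))
      rw [e1, e2, h1]
    · exact key n hn
  · intro h n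
    induction n using Nat.strong_induction_on with
    | _ n ih =>
      rcases eq_or_ne n 0 with rfl | hn
      · have e1 : IsEmpty {g : G // orderOf g = 0} :=
          ⟨fun g => (orderOf_pos g.1).ne' g.2⟩
        have e2 : IsEmpty {g : H // orderOf g = 0} :=
          ⟨fun g => (orderOf_pos g.1).ne' g.2⟩
        rw [Nat.card_of_isEmpty, Nat.card_of_isEmpty]
      · have h1 := h n
        rw [card_pow_eq_one_eq_sum hn, card_pow_eq_one_eq_sum hn,
          ← Nat.insert_self_properDivisors hn,
          Finset.sum_insert Nat.self_notMem_properDivisors,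
          Finset.sum_insert Nat.self_notMem_properDivisors] at h1
        have h2 : ∑ m ∈ n.properDivisors, Nat.card {g : G // orderOf g = m} =
            ∑ m ∈ n.properDivisors, Nat.card {g : H // orderOf g = m} :=
          Finset.sum_congr rfl (fun m hm => ih m (Nat.mem_properDivisors.mp hm).2)
        omega

end Cfsg.Agent.S4377
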