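import Cfsg.Statements.S4381
import Cfsg.Agent.Helper72.CoprimeAct
import Cfsg.Agent.Helper72.MaschkeElem
import Cfsg.Agent.Helper2.PGroup

set_option autoImplicit false
open Pointwise
open Cfsg

namespace Cfsg.Agent.S4381

open scoped commutatorElement

section
variable {A G : Type*} [Group A] [Group G] [MulDistribMulAction A G]

/-- `A`-invariant subgroup. -/
def AInv (A : Type*) {G : Type*} [Group A] [Group G] [MulDistribMulAction A G]
    (L : Subgroup G) : Prop :=
  ∀ a : A, ∀ x ∈ L, a • x ∈ L

/-- Maximal `A`-invariant subgroup. -/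
def MaxAInv (A : Type*) {G : Type*} [Group A] [Group G] [MulDistribMulAction A G]
    (M : Subgroup G) : Prop :=
  M ≠ ⊤ ∧ AInv A M ∧ ∀ L : Subgroup G, M < L → AInv A L → L = ⊤

theorem ainv_bot : AInv A (⊥ : Subgroup G) := by
  intro a x hx
  rw [Subgroup.mem_bot] at hx ⊢
  rw [hx, smul_one]

theorem ainv_frattini : AInv A (frattini G) := by
  intro a x hx
  have h := Subgroup.characteristic_iff_map_eq.mp
    (inferInstance : (frattini G).Characteristic) (MulDistribMulAction.toMulAut A G a)
  rw [← h]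
  exact Subgroup.mem_map_of_mem _ hx

theorem ainv_sup {M N : Subgroup G} (hM : AInv A M) (hN : AInv A N) : AInv A (M ⊔ N) := by
  intro a
  have h : M ⊔ N ≤ (M ⊔ N).comap (MulDistribMulAction.toMonoidHom G a) := by
    apply sup_le
    · intro x hx
      exact Subgroup.mem_sup_left (hM a x hx)
    · intro x hx
      exact Subgroup.mem_sup_right (hN a x hx)
  exact fun x hx => h hx

theorem exists_maxAInv_ge [Finite G] {U : Subgroup G} (hU : AInv A U) (hne : U ≠ ⊤) :
    ∃ M : Subgroup G, MaxAInv A M ∧ U ≤ M := by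
  obtain ⟨M, ⟨hUM, hMne, hMinv⟩, hmax⟩ := Set.exists_max_image
    {V : Subgroup G | U ≤ V ∧ V ≠ ⊤ ∧ AInv A V} (fun V => Nat.card V) (Set.toFinite _)
    ⟨U, le_rfl, hne, hU⟩
  refine ⟨M, ⟨hMne, hMinv, ?_⟩, hUM⟩
  intro L hML hL
  by_contra hLne
  have h1 : Nat.card L ≤ Nat.card M := hmax L ⟨hUM.trans hML.le, hLne, hL⟩
  have h2 : M = L := Subgroup.eq_of_le_of_card_ge hML.le h1
  exact hML.ne h2

theorem frattini_le_of_maxAInv [Finite G] {M : Subgroup G} (hM : MaxAInv A M) :
    frattini G ≤ M := by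
  by_contra hle
  have hlt : M < M ⊔ frattini G := by
    refine lt_of_le_of_ne le_sup_left ?_
    intro h
    exact hle (h ▸ le_sup_right)
  have htop := hM.2.2 _ hlt (ainv_sup hM.2.1 ainv_frattini)
  exact hM.1 (frattini_nongenerating htop)

omit [Group A] [MulDistribMulAction A G] in
theorem card_conj_smul (c : G) (M : Subgroup G) :
    Nat.card (MulAut.conj c • M : Subgroup G) = Nat.card M := by
  rw [Subgroup.pointwise_smul_def]
  exact Subgroup.card_map_of_injective (fun x y h => (MulAut.conj c).injective h)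

omit [Group A] [MulDistribMulAction A G] in
theorem conj_smul_eq_of_frattini_le [Finite G] {p : ℕ} [Fact p.Prime] (hG : IsPGroup p G)
    {M : Subgroup G} (h : frattini G ≤ M) (c : G) : MulAut.conj c • M = M := by
  have hcomm : commutator G ≤ M := (Helper2.commutator_le_frattini_of_isPGroup hG).trans h
  have hn : M.Normal := by
    constructor
    intro n hn g
    have e : g * n * g⁻¹ = ⁅g, n⁆ * n := by rw [commutatorElement_def]; group
    rw [e]
    refine M.mul_mem (hcomm ?_) hn
    rw [commutator_def]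
    exact Subgroup.commutator_mem_commutator (Subgroup.mem_top g) (Subgroup.mem_top n)
  exact Subgroup.Normal.conj_smul_eq_self c M

/-- An `A`-invariant subgroup of a `p`-group has an `A`-invariant supplement meeting it inside
the Frattini subgroup (Maschke on the Frattini quotient). -/
theorem exists_ainv_compl [Finite A] [Finite G] {p : ℕ} [Fact p.Prime] (hG : IsPGroup p G)
    (hcop : (Nat.card A).Coprime p) {M : Subgroup G} (hM : AInv A M) :
    ∃ W : Subgroup G, AInv A W ∧ M ⊓ W ≤ frattini G ∧ M ⊔ W = ⊤ := by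
  have hΦinv : ∀ a : A, frattini G ≤ (frattini G).comap (MulDistribMulAction.toMonoidHom G a) :=
    fun a x hx => ainv_frattini a x hx
  let α : A → (G ⧸ frattini G) →* (G ⧸ frattini G) := fun a =>
    QuotientGroup.map (frattini G) (frattini G) (MulDistribMulAction.toMonoidHom G a) (hΦinv a)
  have hαmk : ∀ (a : A) (g : G), α a (QuotientGroup.mk g) = QuotientGroup.mk (a • g) :=
    fun a g => rfl
  have hcomm : ∀ x y : G ⧸ frattini G, x * y = y * x := by
    intro x y
    induction x using QuotientGroup.induction_on with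
    | H x =>
      induction y using QuotientGroup.induction_on with
      | H y =>
        rw [← QuotientGroup.mk_mul, ← QuotientGroup.mk_mul, QuotientGroup.eq]
        have e : (x * y)⁻¹ * (y * x) = ⁅y⁻¹, x⁻¹⁆ := by rw [commutatorElement_def]; group
        rw [e]
        apply Helper2.commutator_le_frattini_of_isPGroup hG
        rw [commutator_def]
        exact Subgroup.commutator_mem_commutator (Subgroup.mem_top _) (Subgroup.mem_top _)
  have hexp : ∀ v : G ⧸ frattini G, v ^ p = 1 := by
    intro v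
    induction v using QuotientGroup.induction_on with
    | H g =>
      rw [← QuotientGroup.mk_pow, QuotientGroup.eq_one_iff]
      exact Helper2.pow_mem_frattini_of_isPGroup hG g
  have hα1 : ∀ v, α 1 v = v := by
    intro v
    induction v using QuotientGroup.induction_on with
    | H g => rw [hαmk, one_smul]
  have hαm : ∀ a b v, α (a * b) v = α a (α b v) := by
    intro a b v
    induction v using QuotientGroup.induction_on with
    | H g => rw [hαmk, hαmk, hαmk, mul_smul]
  have hS : ∀ a, ∀ v ∈ M.map (QuotientGroup.mk' (frattini G)),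
      α a v ∈ M.map (QuotientGroup.mk' (frattini G)) := by
    intro a v hv
    obtain ⟨m, hm, rfl⟩ := Subgroup.mem_map.mp hv
    exact Subgroup.mem_map.mpr ⟨a • m, hM a m hm, rfl⟩
  obtain ⟨W, hWinv, hdisj, hsum⟩ := Helper72.maschke_elemAb hcomm (Fact.out : p.Prime) hexp hcop
    α hα1 hαm (M.map (QuotientGroup.mk' (frattini G))) hS
  refine ⟨W.comap (QuotientGroup.mk' (frattini G)), ?_, ?_, ?_⟩
  · intro a x hx
    rw [Subgroup.mem_comap] at hx ⊢
    exact hWinv a _ hx
  · intro x hx
    obtain ⟨hxM, hxW⟩ := Subgroup.mem_inf.mp hx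
    have h1 : (QuotientGroup.mk' (frattini G) x) ∈ M.map (QuotientGroup.mk' (frattini G)) ⊓ W :=
      ⟨Subgroup.mem_map_of_mem _ hxM, hxW⟩
    rw [hdisj, Subgroup.mem_bot] at h1
    exact (QuotientGroup.eq_one_iff x).mp h1
  · rw [eq_top_iff]
    intro g _
    obtain ⟨s, hs, w, hw, hgw⟩ := hsum (QuotientGroup.mk' (frattini G) g)
    obtain ⟨m, hm, rfl⟩ := Subgroup.mem_map.mp hs
    have hmw : m⁻¹ * g ∈ W.comap (QuotientGroup.mk' (frattini G)) := by
      rw [Subgroup.mem_comap, map_mul, map_inv, hgw, inv_mul_cancel_left]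
      exact hw
    have e : g = m * (m⁻¹ * g) := by group
    rw [e]
    exact Subgroup.mul_mem _ (Subgroup.mem_sup_left hm) (Subgroup.mem_sup_right hmw)

/-- If all maximal `A`-invariant subgroups have the same order, `G` is a `p`-group. -/
theorem isPGroup_of_conj [Finite A] [Finite G] (hcop : (Nat.card A).Coprime (Nat.card G))
    (hsol : Group.IsSolvable A ∨ Group.IsSolvable G)
    (H : ∀ M N : Subgroup G, MaxAInv A M → MaxAInv A N →
      ∃ c : G, (∀ a : A, a • c = c) ∧ N = MulAut.conj c • M) :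
    ∃ p : ℕ, p.Prime ∧ IsPGroup p G := by
  rcases subsingleton_or_nontrivial G with hs | hn
  · exact ⟨2, Nat.prime_two, fun g => ⟨0, by rw [Subsingleton.elim g 1, one_pow]⟩⟩
  · obtain ⟨M₀, hM₀, -⟩ := exists_maxAInv_ge (A := A) ainv_bot (bot_ne_top (α := Subgroup G))
    have hidx : M₀.index ≠ 1 := fun h => hM₀.1 (Subgroup.index_eq_one.mp h)
    have hpp : (M₀.index.minFac).Prime := Nat.minFac_prime hidx
    have : Fact (M₀.index.minFac).Prime := ⟨hpp⟩
    have hpdvd : M₀.index.minFac ∣ M₀.index := Nat.minFac_dvd _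
    obtain ⟨P, hP⟩ := Helper72.coprimeAct_exists_invariant_sylow hcop hsol M₀.index.minFac
    refine ⟨M₀.index.minFac, hpp, ?_⟩
    have htop : (P : Subgroup G) = ⊤ := by
      by_contra hne
      obtain ⟨Mp, hMp, hPM⟩ := exists_maxAInv_ge (A := A) (U := (P : Subgroup G)) hP hne
      obtain ⟨c, -, hc⟩ := H M₀ Mp hM₀ hMp
      have hcard : Nat.card Mp = Nat.card M₀ := by
        rw [hc]; exact card_conj_smul c M₀
      have h1 : Nat.card P ∣ Nat.card M₀ := hcard ▸ Subgroup.card_dvd_of_le hPM
      have h2 : Nat.card P * M₀.index.minFac ∣ Nat.card G := by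
        rw [← Subgroup.card_mul_index M₀]
        exact Nat.mul_dvd_mul h1 hpdvd
      rw [Sylow.card_eq_multiplicity, ← pow_succ] at h2
      exact Nat.pow_succ_factorization_not_dvd (Nat.card_pos.ne') hpp h2
    intro g
    obtain ⟨k, hk⟩ := P.isPGroup' ⟨g, htop ▸ Subgroup.mem_top g⟩
    exact ⟨k, by simpa [Subtype.ext_iff] using hk⟩

/-- In a `p`-group with irreducible action on the Frattini quotient, the maximal `A`-invariant
subgroups are exactly the Frattini subgroup (when proper). -/
theorem maxAInv_iff_of_irred [Finite G]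
    (hirr : ∀ L : Subgroup G, frattini G < L → AInv A L → L = ⊤) (M : Subgroup G) :
    MaxAInv A M ↔ (M = frattini G ∧ M ≠ ⊤) := by
  constructor
  · intro hM
    refine ⟨?_, hM.1⟩
    rcases lt_or_eq_of_le (frattini_le_of_maxAInv hM) with h | h
    · exact absurd (hirr M h hM.2.1) hM.1
    · exact h.symm
  · rintro ⟨rfl, hne⟩
    exact ⟨hne, ainv_frattini, hirr⟩

end

/-- Let the finite group A act by automorphisms on the finite group G with the orders of A and G coprime, and assume that A or G is solvable. Call a proper A-invariant subgroup of G maximal A-invariant when no A-invariant subgroup lies strictly between it and G. Then all maximal A-invariant subgroups of G are conjugate under elements of the fixed-point subgroup C_G(A) if and only if G is a p-group for some prime p and A leaves invariant no subgroup strictly between the Frattini subgroup of G and G. In that case, if G is nontrivial, the Frattini subgroup is the only maximal A-invariant subgroup (a trivial G has none). -/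
theorem result {A G : Type*} [Group A] [Finite A]
    [Group G] [Finite G] [MulDistribMulAction A G] (hcop : (Nat.card A).Coprime (Nat.card G)) (hsol : Group.IsSolvable A ∨ Group.IsSolvable G) :
    ((∀ M N : Subgroup G, (M ≠ ⊤ ∧ (∀ a : A, ∀ x ∈ M, a • x ∈ M) ∧ ∀ L : Subgroup G, M < L → (∀ a : A, ∀ x ∈ L, a • x ∈ L) → L = ⊤) → (N ≠ ⊤ ∧ (∀ a : A, ∀ x ∈ N, a • x ∈ N) ∧ ∀ L : Subgroup G, N < L → (∀ a : A, ∀ x ∈ L, a • x ∈ L) → L = ⊤) →
        ∃ c : G, (∀ a : A, a • c = c) ∧ N = MulAut.conj c • M) ↔
      ((∃ p : ℕ, p.Prime ∧ IsPGroup p G) ∧ ∀ L : Subgroup G, frattini G < L → (∀ a : A, ∀ x ∈ L, a • x ∈ L) → L = ⊤)) ∧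
    (((∃ p : ℕ, p.Prime ∧ IsPGroup p G) ∧ ∀ L : Subgroup G, frattini G < L → (∀ a : A, ∀ x ∈ L, a • x ∈ L) → L = ⊤) →
      ∀ M : Subgroup G, (M ≠ ⊤ ∧ (∀ a : A, ∀ x ∈ M, a • x ∈ M) ∧ ∀ L : Subgroup G, M < L → (∀ a : A, ∀ x ∈ L, a • x ∈ L) → L = ⊤) ↔ (M = frattini G ∧ M ≠ ⊤)) := by
  refine ⟨⟨?_, ?_⟩, ?_⟩
  · -- conjugacy ⇒ p-group and irreducible
    intro H
    have H' : ∀ M N : Subgroup G, MaxAInv A M → MaxAInv A N →
        ∃ c : G, (∀ a : A, a • c = c) ∧ N = MulAut.conj c • M := H
    obtain ⟨p, hpp, hG⟩ := isPGroup_of_conj hcop hsol H'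
    refine ⟨⟨p, hpp, hG⟩, ?_⟩
    intro L hΦL hL
    by_contra hLne
    have : Fact p.Prime := ⟨hpp⟩
    obtain ⟨M₁, hM₁, hLM⟩ := exists_maxAInv_ge (A := A) (U := L) hL hLne
    -- every maximal invariant subgroup equals `M₁`
    have huniq : ∀ N : Subgroup G, MaxAInv A N → N = M₁ := by
      intro N hN
      obtain ⟨c, -, hc⟩ := H' M₁ N hM₁ hN
      rw [hc]
      exact conj_smul_eq_of_frattini_le hG (frattini_le_of_maxAInv hM₁) c
    -- `p` divides `|G|`
    have hcop' : (Nat.card A).Coprime p := by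
      obtain ⟨n, hn⟩ := IsPGroup.iff_card.mp hG
      have hn0 : n ≠ 0 := by
        rintro rfl
        rw [pow_zero] at hn
        have hsub : Subsingleton G := (Nat.card_eq_one_iff_unique.mp hn).1
        exact hLne (Subsingleton.elim _ _)
      rw [hn] at hcop
      exact Nat.Coprime.coprime_dvd_right (dvd_pow_self p hn0) hcop
    obtain ⟨W, hW, hMW, hsup⟩ := exists_ainv_compl hG hcop' hM₁.2.1
    by_cases hWtop : W = ⊤
    · rw [hWtop, inf_top_eq] at hMW
      exact (lt_of_lt_of_le hΦL (hLM.trans hMW)).false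
    · obtain ⟨M', hM', hWM'⟩ := exists_maxAInv_ge (A := A) (U := W) hW hWtop
      rw [huniq M' hM'] at hWM'
      rw [sup_eq_left.mpr hWM'] at hsup
      exact hM₁.1 hsup
  · -- p-group and irreducible ⇒ conjugacy
    rintro ⟨-, hirr⟩ M N hM hN
    have hirr' : ∀ L : Subgroup G, frattini G < L → AInv A L → L = ⊤ := hirr
    have h1 := (maxAInv_iff_of_irred hirr' M).mp hM
    have h2 := (maxAInv_iff_of_irred hirr' N).mp hN
    refine ⟨1, fun a => smul_one a, ?_⟩
    rw [map_one, one_smul, h1.1, h2.1]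
  · rintro ⟨-, hirr⟩ M
    have hirr' : ∀ L : Subgroup G, frattini G < L → AInv A L → L = ⊤ := hirr
    exact maxAInv_iff_of_irred hirr' M

end Cfsg.Agent.S4381
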