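import Cfsg.Statements.S4387
import Cfsg.Agent.Helper73.ConjCover

set_option autoImplicit false
open Cfsg
open Pointwise

namespace Cfsg.Agent.S4387

/-- Let G be a non-trivial finite group in which any two maximal subgroups are conjugate. Then G is cyclic of prime-power order. -/
theorem result {G : Type*} [Group G] [Finite G] [Nontrivial G]
    (h : ∀ M N : Subgroup G, IsCoatom M → IsCoatom N → ∃ g : G, N = MulAut.conj g • M) :
    IsCyclic G ∧ IsPrimePow (Nat.card G) := by
  classical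
  have hbt : (⊥ : Subgroup G) ≠ ⊤ := bot_ne_top
  obtain ⟨M, hM, -⟩ := (eq_top_or_exists_le_coatom (⊥ : Subgroup G)).resolve_left hbt
  have hcyc : IsCyclic G := by
    by_contra hnc
    obtain ⟨g, hg⟩ := Cfsg.Agent.Helper73.exists_not_mem_conj M hM.1
    have hz : Subgroup.zpowers g ≠ ⊤ := by
      intro htop
      exact hnc (isCyclic_iff_exists_zpowers_eq_top.2 ⟨g, htop⟩)
    obtain ⟨N, hN, hgN⟩ := (eq_top_or_exists_le_coatom (Subgroup.zpowers g)).resolve_left hz
    obtain ⟨k, rfl⟩ := h M N hM hN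
    exact hg k (hgN (Subgroup.mem_zpowers g))
  refine ⟨hcyc, ?_⟩
  -- every proper subgroup lies in M
  have hcomm : ∀ a b : G, a * b = b * a := by
    obtain ⟨g₀, hg₀⟩ := hcyc.exists_generator
    intro a b
    obtain ⟨i, rfl⟩ := hg₀ a
    obtain ⟨j, rfl⟩ := hg₀ b
    exact (Commute.zpow_zpow_self g₀ i j).eq
  have hconj : ∀ g : G, MulAut.conj g • M = M := by
    intro g
    ext x
    rw [Subgroup.mem_pointwise_smul_iff_inv_smul_mem]
    have : (MulAut.conj g)⁻¹ • x = x := by
      simp only [MulAut.smul_def, MulAut.conj_inv_apply]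
      rw [hcomm g⁻¹ x, inv_mul_cancel_right]
    rw [this]
  have hle : ∀ K : Subgroup G, K ≠ ⊤ → K ≤ M := by
    intro K hK
    obtain ⟨N, hN, hKN⟩ := (eq_top_or_exists_le_coatom K).resolve_left hK
    obtain ⟨k, rfl⟩ := h M N hM hN
    rw [hconj k] at hKN
    exact hKN
  obtain ⟨g₀, hg₀⟩ := hcyc.exists_generator
  have hord : orderOf g₀ = Nat.card G := orderOf_eq_card_of_forall_mem_zpowers hg₀
  have hg₀M : g₀ ∉ M := by
    intro hmem
    apply hM.1
    rw [eq_top_iff]
    intro x _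
    obtain ⟨i, rfl⟩ := hg₀ x
    exact M.zpow_mem hmem i
  have hpow : ∀ p : ℕ, p.Prime → p ∣ Nat.card G → g₀ ^ p ∈ M := by
    intro p hp hpn
    apply hle (Subgroup.zpowers (g₀ ^ p)) _ (Subgroup.mem_zpowers _)
    intro htop
    have hc : Nat.card (Subgroup.zpowers (g₀ ^ p)) = Nat.card G := by
      rw [htop, Subgroup.card_top]
    rw [Nat.card_zpowers, orderOf_pow' g₀ hp.ne_zero, hord, Nat.gcd_eq_right hpn] at hc
    have hpos : 0 < Nat.card G := Nat.card_pos
    have h2 := hp.two_le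
    obtain ⟨m, hm⟩ := hpn
    rw [hm, Nat.mul_div_cancel_left m hp.pos] at hc
    have hmpos : 0 < m := by
      rcases Nat.eq_zero_or_pos m with h0 | h0
      · subst h0; omega
      · exact h0
    nlinarith
  rw [isPrimePow_iff_unique_prime_dvd]
  have hne1 : Nat.card G ≠ 1 := by
    have := Finite.one_lt_card (α := G)
    omega
  obtain ⟨p, hp, hpn⟩ := Nat.exists_prime_and_dvd hne1
  refine ⟨p, ⟨hp, hpn⟩, ?_⟩
  rintro q ⟨hq, hqn⟩
  by_contra hqp
  have hcop : Nat.Coprime p q := (Nat.coprime_primes hp hq).2 (fun h => hqp h.symm)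
  apply hg₀M
  have hgcd : g₀ ^ (Nat.gcd p q) ∈ M := by
    have h1 := hpow p hp hpn
    have h2 := hpow q hq hqn
    have : g₀ ^ ((Nat.gcd p q : ℕ) : ℤ) ∈ M := by
      rw [Nat.gcd_eq_gcd_ab, zpow_add, zpow_mul, zpow_mul]
      exact M.mul_mem (M.zpow_mem (by simpa using h1) _) (M.zpow_mem (by simpa using h2) _)
    simpa using this
  rw [hcop.gcd_eq_one, pow_one] at hgcd
  exact hgcd

end Cfsg.Agent.S4387
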