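import Cfsg.Statements.S4396
import Mathlib
import Cfsg.Agent.Helper10.FrobMain

set_option autoImplicit false
open Cfsg

namespace Cfsg.Agent.S4396

/-- Let the finite group A act faithfully and linearly on a finite-dimensional vector space V over a field k, and suppose A is a Frobenius group with nilpotent kernel F (every Frobenius kernel is nilpotent) and complement H such that F fixes no nonzero vector. Then V is free as a module for H: there is a subspace W with V the direct sum of the translates hW, h ∈ H. (No assumption on the characteristic of k.) -/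
theorem result {k V A : Type*} [Field k] [AddCommGroup V] [Module k V] [FiniteDimensional k V] [Group A] [Finite A] [DecidableEq A]
    (ρ : Representation k A V) (hρ : Function.Injective ρ)
    (Fk Hc : Subgroup A) [Fk.Normal] (hHc : Cfsg.IsFrobeniusComplement Hc) (hker : Cfsg.frobeniusKernel Hc = (Fk : Set A)) (hnil : Group.IsNilpotent ↥Fk)
    (hCF : ∀ v : V, (∀ f ∈ Fk, ρ f v = v) → v = 0) :
    ∃ W : Submodule k V, DirectSum.IsInternal (fun h : ↥Hc => W.map (ρ (h : A))) := by
  classical
  have : Fintype ↥Hc := Fintype.ofFinite _
  have hfpf : ∀ h ∈ Hc, h ≠ 1 → ∀ f ∈ Fk, f * h = h * f → f = 1 := by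
    intro h hh h1 f hf hfh
    by_contra hf1
    have hfk : f ∈ Cfsg.frobeniusKernel Hc := by rw [hker]; exact hf
    rcases hfk with h0 | h0
    · exact hf1 h0
    · have hfH : f ∉ Hc := by
        have h2 := h0 1
        rwa [map_one, one_smul] at h2
      have hbot := hHc.2.2 f hfH
      have hmem : h ∈ (⊥ : Subgroup A) := by
        rw [← hbot]
        refine Subgroup.mem_inf.mpr ⟨hh, ?_⟩
        rw [Subgroup.mem_pointwise_smul_iff_inv_smul_mem]
        have h3 : (MulAut.conj f)⁻¹ • h = h := by
          rw [← map_inv, MulAut.smul_def, MulAut.conj_apply, inv_inv]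
          rw [mul_assoc, ← hfh, ← mul_assoc, inv_mul_cancel, one_mul]
        rw [h3]
        exact hh
      rw [Subgroup.mem_bot] at hmem
      exact h1 hmem
  obtain ⟨W, hW⟩ := Cfsg.Agent.Helper10.frb_main Fk Hc hnil hfpf _ V ρ rfl hCF
  exact ⟨W, hW.isInternal⟩

end Cfsg.Agent.S4396
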