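import Cfsg.Statements.S4399
import Cfsg.Agent.Helper73.Taussky

set_option autoImplicit false
open Cfsg

namespace Cfsg.Agent.S4399

open Cfsg.Agent.Helper73

/-- Let S be a finite 2-group whose commutator quotient S/[S,S] is a Klein four-group (order 4 and exponent 2). Then S itself has order 4, or S is dihedral of order at least 8, semidihedral of order at least 16 (order 2^(k+4) with an element a of order 2^(k+3) and an involution b with b a b⁻¹ = a^(2^(k+2)−1)), or generalized quaternion of order at least 8. -/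
theorem result {S : Type*} [Group S] [Finite S] (h2 : IsPGroup 2 S) (hab : Nat.card (Abelianization S) = 4)
    (hexp : ∀ x : Abelianization S, x ^ 2 = 1) :
    Nat.card S = 4 ∨
    ((∃ k : ℕ, Nonempty (S ≃* DihedralGroup (2 ^ (k + 2)))) ∨
      (∃ k : ℕ, Nat.card S = 2 ^ (k + 4) ∧ ∃ a b : S, orderOf a = 2 ^ (k + 3) ∧ orderOf b = 2 ∧ b * a * b⁻¹ = a ^ (2 ^ (k + 2) - 1)) ∨
      (∃ k : ℕ, Nonempty (S ≃* QuaternionGroup (2 ^ (k + 1))))) := by
  have hidx : (commutator S).index = 4 := by
    rw [Subgroup.index_eq_card]; exact hab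
  have hsq : ∀ g : S, g ^ 2 ∈ commutator S := by
    intro g
    have := hexp (Abelianization.of g)
    rw [← map_pow] at this
    exact (QuotientGroup.eq_one_iff _).1 this
  obtain ⟨n, hn⟩ := (IsPGroup.iff_card (p := 2) (G := S)).1 h2
  have hdvd : 4 ∣ Nat.card S := hidx ▸ Subgroup.index_dvd_card (commutator S)
  rw [hn] at hdvd
  have hn2 : 2 ≤ n := by
    have : (2 : ℕ) ^ 2 ∣ 2 ^ n := by simpa using hdvd
    exact (Nat.pow_dvd_pow_iff_le_right (by norm_num)).1 this
  rcases Nat.lt_or_ge n 3 with hlt | hge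
  · left
    have : n = 2 := by omega
    rw [hn, this]; norm_num
  · right
    obtain ⟨m, rfl⟩ : ∃ m, n = m + 3 := ⟨n - 3, by omega⟩
    obtain ⟨a, ha⟩ := exists_cyclic_index_two m S hn hidx hsq
    rcases taussky_structure m hn hidx a ha with ⟨x, hx, hax, hxx | hxx⟩ | ⟨hm, b, hb, hba⟩
    · left
      refine ⟨m, ?_⟩
      have : NeZero (2 ^ (m + 2)) := ⟨by positivity⟩
      exact nonempty_mulEquiv_dihedralGroup (2 ^ (m + 2)) a x (by rw [hn]; ring) ha hxx hax hx
    · right; right
      refine ⟨m, ?_⟩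
      have : NeZero (2 ^ (m + 1)) := ⟨by positivity⟩
      exact nonempty_mulEquiv_quaternionGroup (2 ^ (m + 1)) a x (by rw [hn]; ring)
        (by rw [ha]; ring) hxx hax hx
    · right; left
      obtain ⟨k, rfl⟩ : ∃ k, m = k + 1 := ⟨m - 1, by omega⟩
      exact ⟨k, hn, a, b, ha, hb, hba⟩

end Cfsg.Agent.S4399
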