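import Cfsg.Statements.S4398
import Cfsg.Agent.Helper29.PCube2
import Cfsg.Agent.Helper29.MaxClass2
import Cfsg.Agent.S4399

set_option autoImplicit false
open Cfsg

namespace Cfsg.Agent.S4398

/-- Let S be a finite 2-group of sectional 2-rank at most 2 that contains a subgroup isomorphic to the dihedral group of order 8 or to the quaternion group of order 8. Then S is dihedral of order at least 8, semidihedral of order at least 16 (order 2^(k+4) with an element a of order 2^(k+3) and an involution b with b a b⁻¹ = a^(2^(k+2)−1)), or generalized quaternion of order at least 8. -/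
theorem result {S : Type*} [Group S] [Finite S] (h2 : IsPGroup 2 S) (hr : Cfsg.SectionalPRankLE 2 2 S)
    (hsub : ∃ H : Subgroup S, Nonempty (↥H ≃* DihedralGroup 4) ∨ Nonempty (↥H ≃* QuaternionGroup 2)) :
    ((∃ k : ℕ, Nonempty (S ≃* DihedralGroup (2 ^ (k + 2)))) ∨
      (∃ k : ℕ, Nat.card S = 2 ^ (k + 4) ∧ ∃ a b : S, orderOf a = 2 ^ (k + 3) ∧ orderOf b = 2 ∧ b * a * b⁻¹ = a ^ (2 ^ (k + 2) - 1)) ∨
      (∃ k : ℕ, Nonempty (S ≃* QuaternionGroup (2 ^ (k + 1))))) := by
  have : Fact (Nat.Prime 2) := ⟨Nat.prime_two⟩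
  obtain ⟨H, hH⟩ := hsub
  have hHcard : Nat.card H = 2 ^ 3 := by
    rcases hH with ⟨⟨e⟩⟩ | ⟨⟨e⟩⟩
    · rw [Nat.card_congr e.toEquiv, DihedralGroup.nat_card]; norm_num
    · rw [Nat.card_congr e.toEquiv, Nat.card_eq_fintype_card, QuaternionGroup.card]; norm_num
  have hna : ¬ IsMulCommutative H := by
    intro hc
    rcases hH with ⟨⟨e⟩⟩ | ⟨⟨e⟩⟩
    · have h1 := hc.is_comm.comm (e.symm (DihedralGroup.r 1)) (e.symm (DihedralGroup.sr 0))
      have h3 := congrArg e h1
      simp only [map_mul, MulEquiv.apply_symm_apply] at h3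
      exact absurd h3 (by decide)
    · have h1 := hc.is_comm.comm (e.symm (QuaternionGroup.a 1)) (e.symm (QuaternionGroup.xa 0))
      have h3 := congrArg e h1
      simp only [map_mul, MulEquiv.apply_symm_apply] at h3
      exact absurd h3 (by decide)
  have hC := Cfsg.Agent.Helper29.centralizer_le_of_sectional h2 hr H hHcard hna
  obtain ⟨n, hn⟩ := IsPGroup.iff_card.mp h2
  have hn3 : 3 ≤ n := by
    have h1 : 2 ^ 3 ∣ 2 ^ n := by rw [← hHcard, ← hn]; exact Subgroup.card_subgroup_dvd_card H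
    exact (Nat.pow_dvd_pow_iff_le_right (by norm_num)).mp h1
  have hcl := Cfsg.Agent.Helper29.maxclass_of_cube (p := 2) n hn H hHcard hna hC
  obtain ⟨hidx, hsq⟩ := Cfsg.Agent.Helper29.maxclass_commutator n hn3 hn hcl
  have hab : Nat.card (Abelianization S) = 4 := hidx
  have hexp' : ∀ x : S ⧸ commutator S, x ^ 2 = 1 := by
    intro x
    obtain ⟨g, rfl⟩ := QuotientGroup.mk_surjective x
    rw [← QuotientGroup.mk_pow, QuotientGroup.eq_one_iff]
    exact hsq g
  have hexp : ∀ x : Abelianization S, x ^ 2 = 1 := hexp'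
  rcases Cfsg.Agent.S4399.result h2 hab hexp with h4 | h
  · exfalso
    rw [hn] at h4
    have h5 : 2 ^ 3 ≤ 2 ^ n := Nat.pow_le_pow_right (by norm_num) hn3
    omega
  · exact h

end Cfsg.Agent.S4398
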