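import Cfsg.Statements.S4400
import Cfsg.Agent.Helper58.SecRankCore

set_option autoImplicit false
open Cfsg

namespace Cfsg.Agent.S4400

/-- Let S be a finite 2-group of sectional 2-rank at most 4, and let P and Q be normal non-abelian subgroups of S whose centres have order 2 and are different. Then P and Q commute elementwise and intersect trivially, and PQ contains its own centralizer in S. -/
theorem result {S : Type*} [Group S] [Finite S] (h2 : IsPGroup 2 S) (hr : Cfsg.SectionalPRankLE 2 4 S)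
    (P Q : Subgroup S) [P.Normal] [Q.Normal] (hP : ¬ IsMulCommutative ↥P) (hQ : ¬ IsMulCommutative ↥Q)
    (hZP : Nat.card ↥(Subgroup.center ↥P) = 2) (hZQ : Nat.card ↥(Subgroup.center ↥Q) = 2)
    (hne : (Subgroup.center ↥P).map P.subtype ≠ (Subgroup.center ↥Q).map Q.subtype) :
    ⁅P, Q⁆ = ⊥ ∧ P ⊓ Q = ⊥ ∧ Subgroup.centralizer ((P ⊔ Q : Subgroup S) : Set S) ≤ P ⊔ Q := by
  have hf2 : Fact (Nat.Prime 2) := ⟨Nat.prime_two⟩
  obtain ⟨z, hz, hzc, hzu, hz1⟩ := Cfsg.Agent.Helper58.center_two_data P hZP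
  obtain ⟨w, hw, hwc, hwu, hw1⟩ := Cfsg.Agent.Helper58.center_two_data Q hZQ
  have hzw : z ≠ w := by
    intro h
    apply hne
    ext x
    rw [Cfsg.Agent.Helper58.mem_map_center_iff_eq hz hzc hzu,
      Cfsg.Agent.Helper58.mem_map_center_iff_eq hw hwc hwu, h]
  have hPn : ∀ g : S, ∀ a ∈ P, g * a * g⁻¹ ∈ P := fun g a ha => Subgroup.Normal.conj_mem inferInstance a ha g
  have hQn : ∀ g : S, ∀ a ∈ Q, g * a * g⁻¹ ∈ Q := fun g a ha => Subgroup.Normal.conj_mem inferInstance a ha g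
  have hP' : ¬ ∀ a ∈ P, ∀ b ∈ P, a * b = b * a := by
    intro h
    apply hP
    exact ⟨⟨fun a b => Subtype.ext (h a a.2 b b.2)⟩⟩
  have hQ' : ¬ ∀ a ∈ Q, ∀ b ∈ Q, a * b = b * a := by
    intro h
    apply hQ
    exact ⟨⟨fun a b => Subtype.ext (h a a.2 b b.2)⟩⟩
  -- `z` is central in `S`
  have hzQ : ∀ q ∈ Q, q * z = z * q := by
    intro q _
    have hmem : q * z * q⁻¹ ∈ P := hPn q z hz
    have hcen : ∀ b ∈ P, q * z * q⁻¹ * b = b * (q * z * q⁻¹) := by
      intro b hb
      have hb' : q⁻¹ * b * q ∈ P := by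
        have := hPn q⁻¹ b hb
        rwa [inv_inv] at this
      have h1 := hzc (q⁻¹ * b * q) hb'
      symm
      calc b * (q * z * q⁻¹) = q * (q⁻¹ * b * q * z) * q⁻¹ := by group
        _ = q * (z * (q⁻¹ * b * q)) * q⁻¹ := by rw [h1]
        _ = q * z * q⁻¹ * b := by group
    rcases hzu _ hmem hcen with h | h
    · exfalso
      apply hz1
      have : z = q⁻¹ * (q * z * q⁻¹) * q := by group
      rw [this, h]; group
    · calc q * z = (q * z * q⁻¹) * q := by group
        _ = z * q := by rw [h]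
  have hinf : P ⊓ Q = ⊥ :=
    Cfsg.Agent.Helper58.core_inf_eq_bot (h2.to_subgroup P) (fun p _ q hq => hQn p q hq) hzu hwu hzQ hzw
  have hcomm : ∀ p ∈ P, ∀ q ∈ Q, p * q = q * p :=
    Cfsg.Agent.Helper58.core_commute (fun p _ q hq => hQn p q hq) (fun q _ p hp => hPn q p hp) hinf
  refine ⟨?_, hinf, ?_⟩
  · rw [Subgroup.commutator_eq_bot_iff_le_centralizer]
    intro p hp
    rw [Subgroup.mem_centralizer_iff]
    intro q hq
    exact (hcomm p hp q hq).symm
  · intro c hc
    rw [Subgroup.mem_centralizer_iff] at hc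
    exact Cfsg.Agent.Helper58.core_centralizer h2 hr hP' hQ' hz hw hzc hwc hzu hwu hinf hcomm
      (fun p hp => (hc p (Subgroup.mem_sup_left hp)).symm)
      (fun q hq => (hc q (Subgroup.mem_sup_right hq)).symm)

end Cfsg.Agent.S4400
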