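import Cfsg.Statements.S4401
import Cfsg.Agent.Helper58.SecRankNorm

set_option autoImplicit false
open Cfsg

namespace Cfsg.Agent.S4401

/-- Let S be a finite 2-group of sectional 2-rank at most 4 and P a proper non-abelian subgroup whose centre has order 2. Let S₀ be the centralizer in S of Z(P) and suppose P is normal in S₀. Then either S₀ = S, or P has sectional 2-rank at most 2 and S₀ has index 2 in S. -/
theorem result {S : Type*} [Group S] [Finite S] (h2 : IsPGroup 2 S) (hr : Cfsg.SectionalPRankLE 2 4 S)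
    (P : Subgroup S) (hPlt : P ≠ ⊤) (hP : ¬ IsMulCommutative ↥P) (hZP : Nat.card ↥(Subgroup.center ↥P) = 2)
    (S₀ : Subgroup S) (hS₀ : S₀ = Subgroup.centralizer (((Subgroup.center ↥P).map P.subtype : Subgroup S) : Set S))
    (hPn : ∀ s ∈ S₀, ∀ x ∈ P, s * x * s⁻¹ ∈ P) :
    S₀ = ⊤ ∨ (Cfsg.SectionalPRankLE 2 2 ↥P ∧ S₀.index = 2) := by
  obtain ⟨z, hz, hzc, hzu, hz1⟩ := Cfsg.Agent.Helper58.center_two_data P hZP
  have hP' : ¬ ∀ a ∈ P, ∀ b ∈ P, a * b = b * a := by
    intro h
    apply hP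
    exact ⟨⟨fun a b => Subtype.ext (h a a.2 b b.2)⟩⟩
  have hmem : ∀ s, s ∈ S₀ ↔ s * z = z * s := by
    intro s
    rw [hS₀, Subgroup.mem_centralizer_iff]
    constructor
    · intro h
      have hzm : z ∈ (((Subgroup.center ↥P).map P.subtype : Subgroup S) : Set S) :=
        (Cfsg.Agent.Helper58.mem_map_center_iff_eq hz hzc hzu z).mpr (Or.inr rfl)
      exact (h z hzm).symm
    · intro h x hx
      rcases (Cfsg.Agent.Helper58.mem_map_center_iff_eq hz hzc hzu x).mp hx with h1 | h1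
      · rw [h1]; simp
      · rw [h1]; exact h.symm
  let D : Cfsg.Agent.Helper58.SecData S :=
    { P := P, S₀ := S₀, z := z, hS2 := h2, hr := hr, hP := hP', hz := hz, hzc := hzc, hzu := hzu,
      hz1 := hz1, hS₀ := hmem, hPn := hPn }
  by_cases hS : S₀ = ⊤
  · left; exact hS
  · right
    exact ⟨D.rank_two_of_ne_top hS, D.index_eq_two hS⟩

end Cfsg.Agent.S4401
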