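import Cfsg.Statements.S4404
import Mathlib
import Cfsg.Agent.Helper16.NGDefs
import Cfsg.Agent.Helper16.NGP6
import Cfsg.Agent.Helper15.NGINIT
import Cfsg.Agent.Helper47.NGHALL
import Cfsg.Agent.Helper74.NGCASE1
import Cfsg.Agent.Helper77.NGCASE2A
import Cfsg.Agent.Helper10.NGCASE2B
import Cfsg.Agent.Helper36.NGKEY2

set_option autoImplicit false
open Cfsg

namespace Cfsg.Agent.S4404

/-- Let S be a finite solvable group and M a normal elementary abelian 2-subgroup of S. Suppose S contains an elementary abelian subgroup of order p³ for some odd prime p, and a cyclic 3-subgroup Q such that the cubes of the elements of Q centralize M and the commutator subgroup [Q, M] has order 4 (a four-group inside M). Then S contains an elementary abelian subgroup F of order r³, for some odd prime r, whose centralizer of [Q, M] in F — the subgroup C_F([Q, M]) — is not cyclic. -/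
theorem result {S : Type*} [Group S] [Finite S]
    [Group.IsSolvable S] (M : Subgroup S) [M.Normal] (hM : Cfsg.IsElementaryAbelian 2 M)
    (p : ℕ) (hp : p.Prime) (hp2 : p ≠ 2) (E : Subgroup S) (hE : Cfsg.IsElementaryAbelian p E) (hE3 : Nat.card ↥E = p ^ 3)
    (Q : Subgroup S) (hQc : IsCyclic ↥Q) (hQ3 : IsPGroup 3 ↥Q)
    (hQ1 : ∀ x ∈ Q, x ^ 3 ∈ Subgroup.centralizer (M : Set S)) (hQM : Nat.card ↥⁅Q, M⁆ = 4) :
    ∃ (r : ℕ) (F : Subgroup S), r.Prime ∧ r ≠ 2 ∧ Cfsg.IsElementaryAbelian r F ∧ Nat.card ↥F = r ^ 3 ∧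
      ¬ IsCyclic ↥(F ⊓ Subgroup.centralizer ((⁅Q, M⁆ : Subgroup S) : Set S)) := by
  classical
  have : Fact p.Prime := ⟨hp⟩
  obtain ⟨x, hxQ, hcfg⟩ := Cfsg.Agent.Helper15.NGINIT.ng_init M hM Q hQc hQ3 hQ1 hQM
  -- x ≠ 1
  have hx1 : x ≠ 1 := by
    rintro rfl
    have hV : (⁅Q, M⁆ : Subgroup S) = ⊥ := by
      rw [eq_bot_iff]
      intro v hv
      obtain ⟨m, -, rfl⟩ := (hcfg.hV v).1 hv
      simp
    rw [hV] at hQM
    simp at hQM
  have hEp : IsPGroup p ↥E := IsPGroup.of_card hE3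
  obtain ⟨H, hHodd, hQH, g, hg⟩ := Cfsg.Agent.Helper47.NGHALL.ng_hall Q hQ3 p hp hp2 E hEp
  obtain ⟨hE'el, hE'card, hE'mem⟩ := Cfsg.Agent.Helper16.NGP6.ng_conj_elem p E hE g
  set E' := E.map (MulAut.conj g).toMonoidHom with hE'def
  have hE'H : E' ≤ H := by
    rintro _ ⟨e, he, rfl⟩
    simpa [MulAut.conj_apply] using hg e he
  have hxH : x ∈ H := hQH hxQ
  by_cases hrk : Cfsg.PRankLE 3 2 ↥H
  · -- Case 2
    have hp3 : p ≠ 3 := by
      rintro rfl
      have h1 := hrk (E'.subgroupOf H) (by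
          have hE'c := hE'el.1
          rw [isMulCommutative_iff]
          rintro ⟨a, ha⟩ ⟨b, hb⟩
          have := mul_comm' (⟨(a : S), ha⟩ : E') ⟨(b : S), hb⟩
          have h3 : (a : S) * (b : S) = (b : S) * (a : S) := congrArg Subtype.val this
          apply Subtype.ext; apply Subtype.ext
          simpa using h3) (by
          intro a ha
          apply Subtype.ext
          simpa using hE'el.2 (a : S) ha)
      rw [Nat.card_congr (Subgroup.subgroupOfEquivOfLe hE'H).toEquiv, hE'card, hE3] at h1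
      norm_num at h1
    have hp5 : 5 ≤ p := by
      have h2 := hp.two_le
      rcases Nat.lt_or_ge p 5 with h | h
      · interval_cases p
        · exact absurd rfl hp2
        · exact absurd rfl hp3
        · exact absurd hp (by norm_num)
      · exact h
    have hE'p : IsPGroup p ↥E' := IsPGroup.of_card (hE'card.trans hE3)
    obtain ⟨P, hPH, hPp, hxP, g', hg'⟩ :=
      Cfsg.Agent.Helper77.NGCASE2A.ng_case2a H hHodd x hxH hx1 hcfg.x3 hrk p hp hp5 E' hE'H hE'p
    obtain ⟨hFel, hFcard, hFmem⟩ := Cfsg.Agent.Helper16.NGP6.ng_conj_elem p E' hE'el g'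
    set F := E'.map (MulAut.conj g').toMonoidHom with hFdef
    have hFP : F ≤ P := by
      rintro _ ⟨e, he, rfl⟩
      simpa [MulAut.conj_apply] using hg' e he
    have hidx := Cfsg.Agent.Helper16.NGP6.ng_p6 hcfg p hp hp5 P hPp hxP
    exact ⟨p, F, hp, hp2, hFel, by rw [hFcard, hE'card, hE3],
      Cfsg.Agent.Helper10.NGCASE2B.ng_case2b _ p hp hp5 P F hFP hFel
        (by rw [hFcard, hE'card, hE3]) hidx⟩
  · -- Case 1
    obtain ⟨A, -, hAel, hA3, hxA⟩ := Cfsg.Agent.Helper74.NGCASE1.ng_case1 H x hxH hcfg.x3 hrk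
    have : Fact (Nat.Prime 3) := ⟨by norm_num⟩
    exact ⟨3, A, by norm_num, by norm_num, hAel, hA3,
      Cfsg.Agent.Helper36.NGKEY2.ng_key hcfg 3 (by norm_num) A hAel hA3 hxA⟩

end Cfsg.Agent.S4404
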