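-- Statement S4405: order 320, extraspecial O_2 of minus type, outer involution centralizer.
import Cfsg.Statements.S4405
import Cfsg.Agent.Helper30.Ord320Main
import Cfsg.Agent.Helper22.SolvableCore
import Cfsg.Agent.Helper3.Burnside2
import Cfsg.Agent.Helper24.PLen

set_option autoImplicit false
open Cfsg

namespace Cfsg.Agent.S4405

/-- Let G be a finite group of order 320 = 64·5 whose largest normal 2-subgroup H = O₂(G) equals the Fitting subgroup F(G) and is extraspecial of order 32 containing no elementary abelian subgroup of order 8 (so H is the central product of a quaternion group and a dihedral group of order 8). If T is an involution of G outside H whose centralizer in H contains an elementary abelian subgroup of order 4, then C_H(T) itself is elementary abelian of order 4. -/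
theorem result {G : Type*} [Group G] [Finite G]
    (hG : Nat.card G = 320) (hHF : Cfsg.pCore 2 G = Cfsg.fittingSubgroup G)
    (hex : Cfsg.IsExtraspecial 2 ↥(Cfsg.pCore 2 G)) (h32 : Nat.card ↥(Cfsg.pCore 2 G) = 32)
    (hminus : ∀ A : Subgroup G, A ≤ Cfsg.pCore 2 G → Cfsg.IsElementaryAbelian 2 A → Nat.card ↥A ≤ 4)
    (T : G) (hT : orderOf T = 2) (hTH : T ∉ Cfsg.pCore 2 G)
    (V : Subgroup G) (hV : V ≤ Cfsg.pCore 2 G ⊓ Subgroup.centralizer ({T} : Set G)) (hV4 : Nat.card ↥V = 4) (hVe : Cfsg.IsElementaryAbelian 2 V) :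
    Nat.card ↥(Cfsg.pCore 2 G ⊓ Subgroup.centralizer ({T} : Set G)) = 4 ∧
      Cfsg.IsElementaryAbelian 2 (Cfsg.pCore 2 G ⊓ Subgroup.centralizer ({T} : Set G)) := by
  have hsol : Group.IsSolvable G :=
    Cfsg.Agent.Helper3.isSolvable_of_card_eq 2 5 6 1 Nat.prime_two Nat.prime_five
      (by rw [hG]; norm_num)
  have hcent : Subgroup.centralizer (Cfsg.pCore 2 G : Set G) ≤ Cfsg.pCore 2 G := by
    have h := Cfsg.Agent.Helper22.centralizer_fittingSubgroup_le_of_isSolvable (G := G)
    rwa [← hHF] at h
  exact Cfsg.Agent.Helper30.ord320_centralizer (Cfsg.pCore 2 G) (Cfsg.pCore_normal 2 G) hG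
    (fun N hN hp => Cfsg.Agent.Helper24.le_pCore hN hp) hcent hex h32 hminus T hT hTH V hV hV4 hVe

end Cfsg.Agent.S4405
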