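import Mathlib
import Cfsg.Statements.S4406

set_option autoImplicit false
open Cfsg

namespace Cfsg.Agent.S4406

abbrev A4 := ↥(alternatingGroup (Fin 4))

def Concl (u₁ u₂ w₁ w₂ x y : A4) : Prop :=
    (((x * u₁ * x⁻¹ = u₂ ∧ y * w₁ * y⁻¹ = w₂) ∨ (x * u₁ * x⁻¹ = u₁ * u₂ ∧ y * w₁ * y⁻¹ = w₁ * w₂)) ∧
     ((x * u₂ * x⁻¹ = u₁ ∧ y * w₂ * y⁻¹ = w₁) ∨ (x * u₂ * x⁻¹ = u₁ * u₂ ∧ y * w₂ * y⁻¹ = w₁ * w₂))) ∨
    (((x * u₁ * x⁻¹ = u₂ ∧ y⁻¹ * w₁ * y = w₂) ∨ (x * u₁ * x⁻¹ = u₁ * u₂ ∧ y⁻¹ * w₁ * y = w₁ * w₂)) ∧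
     ((x * u₂ * x⁻¹ = u₁ ∧ y⁻¹ * w₂ * y = w₁) ∨ (x * u₂ * x⁻¹ = u₁ * u₂ ∧ y⁻¹ * w₂ * y = w₁ * w₂)))

instance instDecConcl (u₁ u₂ w₁ w₂ x y : A4) : Decidable (Concl u₁ u₂ w₁ w₂ x y) := by
  unfold Concl; infer_instance

def P2 (u₁ u₂ w₁ w₂ : A4) : Prop :=
  ∀ x : A4, x ≠ 1 → x ^ 3 = 1 → ∀ y : A4, y ≠ 1 → y ^ 3 = 1 → Concl u₁ u₂ w₁ w₂ x y

instance instDecP2 (u₁ u₂ w₁ w₂ : A4) : Decidable (P2 u₁ u₂ w₁ w₂) := by
  unfold P2; infer_instance

def P1 (u₁ u₂ : A4) : Prop :=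
    ∀ w₁ : A4, w₁ ≠ 1 → w₁ ^ 2 = 1 → ∀ w₂ : A4, w₂ ≠ 1 → w₂ ^ 2 = 1 → w₁ ≠ w₂ → P2 u₁ u₂ w₁ w₂

instance instDecP1 (u₁ u₂ : A4) : Decidable (P1 u₁ u₂) := by
  unfold P1; infer_instance

set_option maxRecDepth 100000 in
theorem key : ∀ u₁ : A4, u₁ ≠ 1 → u₁ ^ 2 = 1 → ∀ u₂ : A4, u₂ ≠ 1 → u₂ ^ 2 = 1 → u₁ ≠ u₂ → P1 u₁ u₂ := by
  decide +kernel

theorem sq_or_cube : ∀ v : A4, v ^ 2 = 1 ∨ v ^ 3 = 1 := by decide

theorem card_A4 : Nat.card A4 = 12 := by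
  have h := two_mul_card_alternatingGroup (α := Fin 4)
  rw [Fintype.card_perm, Fintype.card_fin] at h
  have h4 : Nat.factorial 4 = 24 := by decide
  have h5 : Nat.card A4 = Fintype.card ↥(alternatingGroup (Fin 4)) := Nat.card_eq_fintype_card
  omega

theorem sq_of_two_pow (v : A4) (k : ℕ) (h : v ^ (2 ^ k) = 1) : v ^ 2 = 1 := by
  rcases sq_or_cube v with h2 | h3
  · exact h2
  · have hg := (pow_gcd_eq_one (a := v)).2 ⟨h, h3⟩
    have hc : Nat.gcd (2 ^ k) 3 = 1 := Nat.Coprime.pow_left k (by norm_num)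
    rw [hc, pow_one] at hg
    rw [hg, one_pow]

theorem cube_of_three_pow (v : A4) (k : ℕ) (h : v ^ (3 ^ k) = 1) : v ^ 3 = 1 := by
  rcases sq_or_cube v with h2 | h3
  · have hg := (pow_gcd_eq_one (a := v)).2 ⟨h, h2⟩
    have hc : Nat.gcd (3 ^ k) 2 = 1 := Nat.Coprime.pow_left k (by norm_num)
    rw [hc, pow_one] at hg
    rw [hg, one_pow]
  · exact h3

/-- A subgroup of `A₄` that is a `3`-group has at most three elements. -/
theorem card_le_three (K : Subgroup A4) (hK : IsPGroup 3 K) : Nat.card K ≤ 3 := by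
  have : Fact (Nat.Prime 3) := ⟨by norm_num⟩
  obtain ⟨n, hn⟩ := IsPGroup.iff_card.1 hK
  have hdvd : Nat.card K ∣ Nat.card A4 := Subgroup.card_subgroup_dvd_card K
  have h12 : Nat.card A4 = 12 := card_A4
  rw [hn, h12] at hdvd
  rw [hn]
  have hn2 : n < 3 := by
    by_contra hcon
    have : 3 ^ 3 ∣ 12 := (pow_dvd_pow 3 (by omega : 3 ≤ n)).trans hdvd
    omega
  interval_cases n
  · norm_num
  · norm_num
  · omega

/-- In the direct product P = A₄ × A₄, let X be the Sylow 2-subgroup, X₁ and X₂ its intersections with the two direct factors, Q a Sylow 3-subgroup and Q₁, Q₂ its intersections with the two factors. Then every subgroup B of X of order 4 either meets X₁ or X₂ nontrivially, or is normalized by one of the two subgroups of Q of order 3 other than Q₁ and Q₂. -/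
theorem result
    (X : Sylow 2 (↥(alternatingGroup (Fin 4)) × ↥(alternatingGroup (Fin 4))))
    (Q : Sylow 3 (↥(alternatingGroup (Fin 4)) × ↥(alternatingGroup (Fin 4))))
    (B : Subgroup (↥(alternatingGroup (Fin 4)) × ↥(alternatingGroup (Fin 4)))) (hBX : B ≤ (X : Subgroup _)) (hB4 : Nat.card ↥B = 4) :
    B ⊓ ((X : Subgroup _) ⊓ Subgroup.prod ⊤ ⊥) ≠ ⊥ ∨ B ⊓ ((X : Subgroup _) ⊓ Subgroup.prod ⊥ ⊤) ≠ ⊥ ∨
      ∃ R : Subgroup (↥(alternatingGroup (Fin 4)) × ↥(alternatingGroup (Fin 4))), R ≤ (Q : Subgroup _) ∧ Nat.card ↥R = 3 ∧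
        R ≠ (Q : Subgroup _) ⊓ Subgroup.prod ⊤ ⊥ ∧ R ≠ (Q : Subgroup _) ⊓ Subgroup.prod ⊥ ⊤ ∧ R ≤ Subgroup.normalizer (B : Set _) := by
  classical
  have : Fact (Nat.Prime 3) := ⟨by norm_num⟩
  have : Fact (Nat.Prime 2) := ⟨by norm_num⟩
  by_contra hcon
  push Not at hcon
  obtain ⟨h1, h2, h3⟩ := hcon
  -- elements of X have components of square one
  have hXsq : ∀ g : A4 × A4, g ∈ (X : Subgroup (A4 × A4)) → g.1 ^ 2 = 1 ∧ g.2 ^ 2 = 1 := by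
    intro g hg
    obtain ⟨k, hk⟩ := X.isPGroup' ⟨g, hg⟩
    have hk' : g ^ (2 ^ k) = 1 := by
      have := congrArg Subtype.val hk
      simpa using this
    have hk1 : g.1 ^ (2 ^ k) = 1 := by
      have := congrArg Prod.fst hk'
      simpa using this
    have hk2 : g.2 ^ (2 ^ k) = 1 := by
      have := congrArg Prod.snd hk'
      simpa using this
    exact ⟨sq_of_two_pow _ k hk1, sq_of_two_pow _ k hk2⟩
  have hQcube : ∀ g : A4 × A4, g ∈ (Q : Subgroup (A4 × A4)) → g.1 ^ 3 = 1 ∧ g.2 ^ 3 = 1 := by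
    intro g hg
    obtain ⟨k, hk⟩ := Q.isPGroup' ⟨g, hg⟩
    have hk' : g ^ (3 ^ k) = 1 := by
      have := congrArg Subtype.val hk
      simpa using this
    have hk1 : g.1 ^ (3 ^ k) = 1 := by
      have := congrArg Prod.fst hk'
      simpa using this
    have hk2 : g.2 ^ (3 ^ k) = 1 := by
      have := congrArg Prod.snd hk'
      simpa using this
    exact ⟨cube_of_three_pow _ k hk1, cube_of_three_pow _ k hk2⟩
  -- consequences of the trivial intersections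
  have hB1 : ∀ g : A4 × A4, g ∈ B → g.2 = 1 → g = 1 := by
    intro g hg hg2
    have : g ∈ B ⊓ ((X : Subgroup (A4 × A4)) ⊓ Subgroup.prod ⊤ ⊥) :=
      Subgroup.mem_inf.2 ⟨hg, Subgroup.mem_inf.2 ⟨hBX hg,
        Subgroup.mem_prod.2 ⟨Subgroup.mem_top _, Subgroup.mem_bot.2 hg2⟩⟩⟩
    rw [h1] at this
    simpa using this
  have hB2 : ∀ g : A4 × A4, g ∈ B → g.1 = 1 → g = 1 := by
    intro g hg hg2
    have : g ∈ B ⊓ ((X : Subgroup (A4 × A4)) ⊓ Subgroup.prod ⊥ ⊤) :=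
      Subgroup.mem_inf.2 ⟨hg, Subgroup.mem_inf.2 ⟨hBX hg,
        Subgroup.mem_prod.2 ⟨Subgroup.mem_bot.2 hg2, Subgroup.mem_top _⟩⟩⟩
    rw [h2] at this
    simpa using this
  -- two generators of B
  have hBne : B ≠ ⊥ := by
    intro hb
    rw [hb, Subgroup.card_bot] at hB4
    omega
  obtain ⟨⟨b₁, hb₁B⟩, hb₁'⟩ := (Subgroup.ne_bot_iff_exists_ne_one).1 hBne
  have hb₁ : b₁ ≠ 1 := fun h => hb₁' (Subtype.ext h)
  have hb₁sq : b₁ ^ 2 = 1 := by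
    have := hXsq b₁ (hBX hb₁B)
    exact Prod.ext (by simpa using this.1) (by simpa using this.2)
  have hord₁ : orderOf b₁ = 2 := orderOf_eq_prime hb₁sq hb₁
  have hz : Nat.card (Subgroup.zpowers b₁) = 2 := by rw [Nat.card_zpowers, hord₁]
  have hzle : Subgroup.zpowers b₁ ≤ B := (Subgroup.zpowers_le).2 hb₁B
  obtain ⟨b₂, hb₂B, hb₂z⟩ : ∃ b₂ : A4 × A4, b₂ ∈ B ∧ b₂ ∉ Subgroup.zpowers b₁ := by
    by_contra hno
    push Not at hno
    have : B = Subgroup.zpowers b₁ := le_antisymm hno hzle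
    rw [this, hz] at hB4
    omega
  have hb₂ : b₂ ≠ 1 := fun h => hb₂z (h ▸ Subgroup.one_mem _)
  have hb₂ne : b₂ ≠ b₁ := fun h => hb₂z (h ▸ Subgroup.mem_zpowers _)
  have hb₂sq : b₂ ^ 2 = 1 := by
    have := hXsq b₂ (hBX hb₂B)
    exact Prod.ext (by simpa using this.1) (by simpa using this.2)
  have hb₁₂ : b₁ * b₂ ≠ 1 := by
    intro h
    apply hb₂ne
    have h' : b₁ * b₁ = 1 := by rw [← pow_two]; exact hb₁sq
    exact (mul_left_cancel (h.trans h'.symm))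
  -- B is generated by b₁ and b₂
  have hBcl : B = Subgroup.closure {b₁, b₂} := by
    symm
    have hle : Subgroup.closure {b₁, b₂} ≤ B := by
      rw [Subgroup.closure_le]
      intro g hg
      rcases hg with rfl | rfl
      · exact hb₁B
      · exact hb₂B
    apply Subgroup.eq_of_le_of_card_ge hle
    rw [hB4]
    have hdvd : Nat.card (Subgroup.closure {b₁, b₂}) ∣ 4 := by
      have := Subgroup.card_dvd_of_le hle
      rwa [hB4] at this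
    have hzle' : Subgroup.zpowers b₁ ≤ Subgroup.closure {b₁, b₂} :=
      (Subgroup.zpowers_le).2 (Subgroup.subset_closure (by simp))
    have hge : 2 ≤ Nat.card (Subgroup.closure {b₁, b₂}) := by
      have := Subgroup.card_le_of_le hzle'
      rwa [hz] at this
    have hne2 : Nat.card (Subgroup.closure {b₁, b₂}) ≠ 2 := by
      intro h2'
      have : Subgroup.zpowers b₁ = Subgroup.closure {b₁, b₂} :=
        Subgroup.eq_of_le_of_card_ge hzle' (by rw [hz, h2'])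
      exact hb₂z (this ▸ Subgroup.subset_closure (by simp))
    have hle4 : Nat.card (Subgroup.closure {b₁, b₂}) ≤ 4 := Nat.le_of_dvd (by norm_num) hdvd
    interval_cases h : Nat.card (Subgroup.closure {b₁, b₂})
    · exact absurd rfl hne2
    · omega
    · exact le_refl 4
  -- components
  obtain ⟨u₁, w₁⟩ := b₁
  obtain ⟨u₂, w₂⟩ := b₂
  have hu₁ : u₁ ≠ 1 := fun h => hb₁ (hB2 _ hb₁B h)
  have hw₁ : w₁ ≠ 1 := fun h => hb₁ (hB1 _ hb₁B h)
  have hu₂ : u₂ ≠ 1 := fun h => hb₂ (hB2 _ hb₂B h)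
  have hw₂ : w₂ ≠ 1 := fun h => hb₂ (hB1 _ hb₂B h)
  have hu₁sq : u₁ ^ 2 = 1 := (hXsq _ (hBX hb₁B)).1
  have hw₁sq : w₁ ^ 2 = 1 := (hXsq _ (hBX hb₁B)).2
  have hu₂sq : u₂ ^ 2 = 1 := (hXsq _ (hBX hb₂B)).1
  have hw₂sq : w₂ ^ 2 = 1 := (hXsq _ (hBX hb₂B)).2
  have h12B : ((u₁, w₁) : A4 × A4) * (u₂, w₂) ∈ B := B.mul_mem hb₁B hb₂B
  have hu₁₂ : u₁ ≠ u₂ := by
    intro h
    apply hb₁₂
    apply hB2 _ h12B
    change u₁ * u₂ = 1
    rw [h, ← pow_two]; exact hu₂sq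
  have hw₁₂ : w₁ ≠ w₂ := by
    intro h
    apply hb₁₂
    apply hB1 _ h12B
    change w₁ * w₂ = 1
    rw [h, ← pow_two]; exact hw₂sq
  -- structure of Q
  have hQ9 : Nat.card (Q : Subgroup (A4 × A4)) = 9 := by
    obtain ⟨n, hn⟩ := IsPGroup.iff_card.1 Q.isPGroup'
    have hidx := Q.not_dvd_index
    have hmul := Subgroup.card_mul_index (Q : Subgroup (A4 × A4))
    have h144 : Nat.card (A4 × A4) = 144 := by
      rw [Nat.card_prod, card_A4]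
    rw [h144] at hmul
    have hn' : Nat.card (Q : Subgroup (A4 × A4)) = 3 ^ n := hn
    rw [hn'] at hmul ⊢
    have hn5 : n < 5 := by
      by_contra hcon
      have h5 : 3 ^ 5 ∣ 144 := (pow_dvd_pow 3 (by omega : 5 ≤ n)).trans (Dvd.intro _ hmul)
      omega
    interval_cases n
    · exfalso; apply hidx; rw [show (Q : Subgroup (A4 × A4)).index = 144 by omega]; norm_num
    · exfalso; apply hidx; rw [show (Q : Subgroup (A4 × A4)).index = 48 by omega]; norm_num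
    · norm_num
    · omega
    · omega
  set Q₁ : Subgroup A4 := (Q : Subgroup (A4 × A4)).map (MonoidHom.fst A4 A4) with hQ₁
  set Q₂ : Subgroup A4 := (Q : Subgroup (A4 × A4)).map (MonoidHom.snd A4 A4) with hQ₂
  have hQ₁p : IsPGroup 3 Q₁ := Q.isPGroup'.map _
  have hQ₂p : IsPGroup 3 Q₂ := Q.isPGroup'.map _
  have hQ₁c := card_le_three Q₁ hQ₁p
  have hQ₂c := card_le_three Q₂ hQ₂p
  have hQle : (Q : Subgroup (A4 × A4)) ≤ Q₁.prod Q₂ := by
    intro g hg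
    rw [Subgroup.mem_prod]
    exact ⟨Subgroup.mem_map_of_mem _ hg, Subgroup.mem_map_of_mem _ hg⟩
  have hprodcard : Nat.card (Q₁.prod Q₂) = Nat.card Q₁ * Nat.card Q₂ := by
    rw [Nat.card_congr (Subgroup.prodEquiv Q₁ Q₂).toEquiv, Nat.card_prod]
  have hQeq : (Q : Subgroup (A4 × A4)) = Q₁.prod Q₂ := by
    apply Subgroup.eq_of_le_of_card_ge hQle
    rw [hprodcard, hQ9]
    nlinarith
  have hQ₁3 : Nat.card Q₁ = 3 := by
    have h9 : Nat.card Q₁ * Nat.card Q₂ = 9 := by rw [← hprodcard, ← hQeq, hQ9]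
    nlinarith
  have hQ₂3 : Nat.card Q₂ = 3 := by
    have h9 : Nat.card Q₁ * Nat.card Q₂ = 9 := by rw [← hprodcard, ← hQeq, hQ9]
    nlinarith
  have hQ₁ne : Q₁ ≠ ⊥ := by
    intro hb; rw [hb, Subgroup.card_bot] at hQ₁3; omega
  have hQ₂ne : Q₂ ≠ ⊥ := by
    intro hb; rw [hb, Subgroup.card_bot] at hQ₂3; omega
  obtain ⟨⟨x, hxQ⟩, hx'⟩ := (Subgroup.ne_bot_iff_exists_ne_one).1 hQ₁ne
  have hx : x ≠ 1 := fun h => hx' (Subtype.ext h)
  obtain ⟨⟨y, hyQ⟩, hy''⟩ := (Subgroup.ne_bot_iff_exists_ne_one).1 hQ₂ne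
  have hy : y ≠ 1 := fun h => hy'' (Subtype.ext h)
  have hxyQ : ((x, y) : A4 × A4) ∈ (Q : Subgroup (A4 × A4)) := by
    rw [hQeq, Subgroup.mem_prod]; exact ⟨hxQ, hyQ⟩
  have hxy'Q : ((x, y⁻¹) : A4 × A4) ∈ (Q : Subgroup (A4 × A4)) := by
    rw [hQeq, Subgroup.mem_prod]; exact ⟨hxQ, Q₂.inv_mem hyQ⟩
  have hx3 : x ^ 3 = 1 := (hQcube _ hxyQ).1
  have hy3 : y ^ 3 = 1 := (hQcube _ hxyQ).2
  have hy'3 : y⁻¹ ^ 3 = 1 := (hQcube _ hxy'Q).2
  have hy' : y⁻¹ ≠ 1 := fun h => hy (inv_eq_one.1 h)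
  -- general construction of R
  have hR : ∀ z : A4, z ≠ 1 → z ^ 3 = 1 → ((x, z) : A4 × A4) ∈ (Q : Subgroup (A4 × A4)) →
      (∀ g : A4 × A4, g ∈ B → (x, z) * g * (x, z)⁻¹ ∈ B) → False := by
    intro z hz hz3 hzQ hconj
    have hc3 : ((x, z) : A4 × A4) ^ 3 = 1 := Prod.ext (by simpa using hx3) (by simpa using hz3)
    have hcne : ((x, z) : A4 × A4) ≠ 1 := fun h => hx (congrArg Prod.fst h)
    have hord : orderOf ((x, z) : A4 × A4) = 3 := orderOf_eq_prime hc3 hcne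
    apply h3 (Subgroup.zpowers ((x, z) : A4 × A4)) ((Subgroup.zpowers_le).2 hzQ)
      (by rw [Nat.card_zpowers, hord])
    · intro heq
      have hmem : ((x, z) : A4 × A4) ∈ (Q : Subgroup (A4 × A4)) ⊓ Subgroup.prod ⊤ ⊥ :=
        heq ▸ Subgroup.mem_zpowers _
      have := Subgroup.mem_prod.1 (Subgroup.mem_inf.1 hmem).2
      exact hz (Subgroup.mem_bot.1 this.2)
    · intro heq
      have hmem : ((x, z) : A4 × A4) ∈ (Q : Subgroup (A4 × A4)) ⊓ Subgroup.prod ⊥ ⊤ :=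
        heq ▸ Subgroup.mem_zpowers _
      have := Subgroup.mem_prod.1 (Subgroup.mem_inf.1 hmem).2
      exact hx (Subgroup.mem_bot.1 this.1)
    · rw [Subgroup.zpowers_le, Subgroup.mem_normalizer_iff]
      intro g
      constructor
      · exact hconj g
      · intro hg
        have h1' := hconj _ (hconj _ hg)
        have h2' : (x, z) * ((x, z) * ((x, z) * g * (x, z)⁻¹) * (x, z)⁻¹) * (x, z)⁻¹ = g := by
          have hc3' : ((x, z) : A4 × A4) * (x, z) * (x, z) = 1 := by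
            rw [← pow_two, ← pow_succ]; exact hc3
          calc (x, z) * ((x, z) * ((x, z) * g * (x, z)⁻¹) * (x, z)⁻¹) * (x, z)⁻¹
              = ((x, z) * (x, z) * (x, z)) * g * ((x, z) * (x, z) * (x, z))⁻¹ := by group
            _ = g := by rw [hc3']; group
        rw [h2'] at h1'
        exact h1'
  -- reduce invariance of B to the generators
  have hgen : ∀ c : A4 × A4, c * (u₁, w₁) * c⁻¹ ∈ B → c * (u₂, w₂) * c⁻¹ ∈ B →
      ∀ g : A4 × A4, g ∈ B → c * g * c⁻¹ ∈ B := by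
    intro c hc1 hc2 g hg
    have hle : B ≤ B.comap (MulAut.conj c).toMonoidHom := by
      conv_lhs => rw [hBcl]
      rw [Subgroup.closure_le]
      intro g hg
      rcases hg with rfl | rfl
      · simpa using hc1
      · simpa using hc2
    have := hle hg
    simpa using this
  have hkey := key u₁ hu₁ hu₁sq u₂ hu₂ hu₂sq hu₁₂ w₁ hw₁ hw₁sq w₂ hw₂ hw₂sq hw₁₂ x hx hx3 y hy hy3
  rcases hkey with ⟨ha, hb⟩ | ⟨ha, hb⟩
  · apply hR y hy hy3 hxyQ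
    apply hgen
    · rcases ha with ⟨e1, e2⟩ | ⟨e1, e2⟩
      · have : ((x, y) : A4 × A4) * (u₁, w₁) * (x, y)⁻¹ = (u₂, w₂) := Prod.ext e1 e2
        rw [this]; exact hb₂B
      · have : ((x, y) : A4 × A4) * (u₁, w₁) * (x, y)⁻¹ = (u₁, w₁) * (u₂, w₂) := Prod.ext e1 e2
        rw [this]; exact h12B
    · rcases hb with ⟨e1, e2⟩ | ⟨e1, e2⟩
      · have : ((x, y) : A4 × A4) * (u₂, w₂) * (x, y)⁻¹ = (u₁, w₁) := Prod.ext e1 e2
        rw [this]; exact hb₁B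
      · have : ((x, y) : A4 × A4) * (u₂, w₂) * (x, y)⁻¹ = (u₁, w₁) * (u₂, w₂) := Prod.ext e1 e2
        rw [this]; exact h12B
  · apply hR y⁻¹ hy' hy'3 hxy'Q
    apply hgen
    · rcases ha with ⟨e1, e2⟩ | ⟨e1, e2⟩
      · have : ((x, y⁻¹) : A4 × A4) * (u₁, w₁) * (x, y⁻¹)⁻¹ = (u₂, w₂) :=
          Prod.ext e1 (by simpa using e2)
        rw [this]; exact hb₂B
      · have : ((x, y⁻¹) : A4 × A4) * (u₁, w₁) * (x, y⁻¹)⁻¹ = (u₁, w₁) * (u₂, w₂) :=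
          Prod.ext e1 (by simpa using e2)
        rw [this]; exact h12B
    · rcases hb with ⟨e1, e2⟩ | ⟨e1, e2⟩
      · have : ((x, y⁻¹) : A4 × A4) * (u₂, w₂) * (x, y⁻¹)⁻¹ = (u₁, w₁) :=
          Prod.ext e1 (by simpa using e2)
        rw [this]; exact hb₁B
      · have : ((x, y⁻¹) : A4 × A4) * (u₂, w₂) * (x, y⁻¹)⁻¹ = (u₁, w₁) * (u₂, w₂) :=
          Prod.ext e1 (by simpa using e2)
        rw [this]; exact h12B

end Cfsg.Agent.S4406
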