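import Cfsg.Statements.S4407
import Cfsg.Agent.Helper58.NineDihFin

set_option autoImplicit false
open Cfsg

namespace Cfsg.Agent.S4407

/-- Let S be a finite group with a normal elementary abelian subgroup A of order 9 that is self-centralizing (C_S(A) = A), and a dihedral subgroup X of order 8 with S = AX. Let M be a finite-dimensional module for S over the field with two elements that is faithful and irreducible. Then M has 16 elements, and X contains exactly one subgroup B of order 4 and exponent 2 whose fixed points on M form a subspace with exactly 2 elements (equivalently, M is free of rank one over the group algebra of B). -/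
theorem result {S : Type*} [Group S] [Finite S]
    (A : Subgroup S) [A.Normal] (hA : Cfsg.IsElementaryAbelian 3 A) (hA9 : Nat.card ↥A = 9)
    (hAC : Subgroup.centralizer (A : Set S) = A) (X : Subgroup S) (hX : Nonempty (↥X ≃* DihedralGroup 4)) (hAX : A ⊔ X = ⊤)
    {M : Type*} [AddCommGroup M] [Module (ZMod 2) M] [Finite M] (ρ : Representation (ZMod 2) S M)
    (hfaith : Function.Injective ρ)
    (hirr : ∀ N : Submodule (ZMod 2) M, (∀ s : S, ∀ m ∈ N, ρ s m ∈ N) → N = ⊥ ∨ N = ⊤) (hM : Nontrivial M) :
    Nat.card M = 16 ∧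
      ∃! B : Subgroup S, B ≤ X ∧ Nat.card ↥B = 4 ∧ (∀ b ∈ B, b ^ 2 = 1) ∧
        Nat.card {m : M // ∀ b ∈ B, ρ b m = m} = 2 := by
  obtain ⟨φ⟩ := hX
  have hcomm : ∀ y ∈ A, ∀ z ∈ A, y * z = z * y := fun y hy z hz => by
    have := hA.1.is_comm.comm ⟨y, hy⟩ ⟨z, hz⟩
    exact congrArg Subtype.val this
  have hrange : (X.subtype.comp φ.symm.toMonoidHom).range = X := by
    ext x
    constructor
    · rintro ⟨d, rfl⟩
      exact (φ.symm d).2
    · intro hx
      exact ⟨φ ⟨x, hx⟩, by simp⟩
  exact Cfsg.Agent.Helper58.NineDih.nine_dih_main A hcomm hA.2 hA9 hAC X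
    (X.subtype.comp φ.symm.toMonoidHom) (X.subtype_injective.comp φ.symm.injective) hrange hAX
    ρ hfaith hirr hM

end Cfsg.Agent.S4407
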