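import Mathlib
import Cfsg.Statements.S4408
import Cfsg.Agent.Helper73.ElemAb2Sel
import Cfsg.Agent.Helper73.FittingSolvable

set_option autoImplicit false
open Cfsg

namespace Cfsg.Agent.S4408

/-- Let S be a finite solvable group whose Fitting subgroup F(S) has odd order, and let I be an elementary abelian 2-subgroup of S of order 2ⁿ with n ≥ 1. Then F(S) contains subgroups A₁, …, Aₙ of prime order, each normalized by I, pairwise commuting and generating a subgroup A of order |A₁|⋯|Aₙ| (their internal direct product), such that no non-identity element of I centralizes A. -/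
theorem result {S : Type*} [Group S] [Finite S]
    [Group.IsSolvable S] (hF : Odd (Nat.card ↥(Cfsg.fittingSubgroup S)))
    (I : Subgroup S) (hI : Cfsg.IsElementaryAbelian 2 I) (n : ℕ) (hn : 1 ≤ n) (hIn : Nat.card ↥I = 2 ^ n) :
    ∃ f : Fin n → Subgroup S, (∀ i, (Nat.card ↥(f i)).Prime) ∧ (∀ i, f i ≤ Cfsg.fittingSubgroup S) ∧
      (∀ i, I ≤ Subgroup.normalizer ((f i) : Set S)) ∧ (∀ i j, i ≠ j → ∀ a ∈ f i, ∀ b ∈ f j, a * b = b * a) ∧
      Nat.card ↥(⨆ i, f i) = ∏ i, Nat.card ↥(f i) ∧ I ⊓ Subgroup.centralizer ((⨆ i, f i : Subgroup S) : Set S) = ⊥ := by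
  classical
  have hF₀n : (Cfsg.fittingSubgroup S).Normal := Cfsg.Agent.Helper71.fittingSubgroup_normal S
  have hF₀nil : Group.IsNilpotent (Cfsg.fittingSubgroup S) :=
    Cfsg.Agent.Helper71.fittingSubgroup_isNilpotent S
  let L : Subgroup S := Cfsg.fittingSubgroup S ⊔ I
  have hFL : Cfsg.fittingSubgroup S ≤ L := le_sup_left
  have hIL : I ≤ L := le_sup_right
  let F : Subgroup L := (Cfsg.fittingSubgroup S).subgroupOf L
  let I' : Subgroup L := I.subgroupOf L
  have hFn : F.Normal := hF₀n.subgroupOf L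
  have eF : ↥F ≃* ↥(Cfsg.fittingSubgroup S) := Subgroup.subgroupOfEquivOfLe hFL
  have hFnil : Group.IsNilpotent F := (Group.isNilpotent_congr eF).2 hF₀nil
  have hFodd : Odd (Nat.card F) := by
    rw [Nat.card_congr eF.toEquiv]; exact hF
  have hI2 : ∀ t ∈ I', t ^ 2 = 1 := by
    intro t ht
    apply Subtype.ext
    have := hI.2 (t : S) (Subgroup.mem_subgroupOf.1 ht)
    simpa using this
  have hIcomm : ∀ s ∈ I, ∀ t ∈ I, s * t = t * s := by
    intro s hs t ht
    have := hI.1
    have h := (isMulCommutative_iff.1 this) ⟨s, hs⟩ ⟨t, ht⟩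
    exact congrArg Subtype.val h
  have hIc : ∀ s ∈ I', ∀ t ∈ I', s * t = t * s := by
    intro s hs t ht
    apply Subtype.ext
    exact hIcomm _ (Subgroup.mem_subgroupOf.1 hs) _ (Subgroup.mem_subgroupOf.1 ht)
  have hFI : F ⊔ I' = ⊤ := by
    rw [← Subgroup.subgroupOf_sup hFL hIL, Subgroup.subgroupOf_self]
  have hfaith : ∀ t ∈ I', (∀ x ∈ F, t * x = x * t) → t = 1 := by
    intro t ht hx
    have htI : (t : S) ∈ I := Subgroup.mem_subgroupOf.1 ht
    have hcent : (t : S) ∈ Subgroup.centralizer (Cfsg.fittingSubgroup S : Set S) := by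
      rw [Subgroup.mem_centralizer_iff]
      intro x hxF
      have := hx ⟨x, hFL hxF⟩ (Subgroup.mem_subgroupOf.2 hxF)
      exact (congrArg Subtype.val this).symm
    have htF : (t : S) ∈ Cfsg.fittingSubgroup S :=
      Cfsg.Agent.Helper73.centralizer_fittingSubgroup_le hcent
    have h1 : (t : S) = 1 :=
      Cfsg.Agent.Helper73.eq_one_of_sq_eq_one_of_odd (Cfsg.fittingSubgroup S) hF _ htF
        (by rw [← pow_two]; exact hI.2 _ htI)
    exact Subtype.ext h1
  have hcard : Nat.card I' = 2 ^ n := by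
    rw [Nat.card_congr (Subgroup.subgroupOfEquivOfLe hIL).toEquiv]; exact hIn
  obtain ⟨f, h1, h2, h3, h4, h5, h6⟩ :=
    Cfsg.Agent.Helper73.exists_prime_family F I' hFnil hFodd hI2 hIc hFI hfaith n hcard
  have hinj : Function.Injective L.subtype := Subgroup.subtype_injective L
  refine ⟨fun i => (f i).map L.subtype, ?_, ?_, ?_, ?_, ?_, ?_⟩
  · intro i
    rw [Subgroup.card_map_of_injective hinj]; exact h1 i
  · intro i
    rw [Subgroup.map_le_iff_le_comap]
    exact h2 i
  · intro i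
    apply Cfsg.Agent.Helper73.le_normalizer_of_conj_mem
    rintro s hs _ ⟨x, hx, rfl⟩
    have hs' : (⟨s, hIL hs⟩ : L) ∈ I' := Subgroup.mem_subgroupOf.2 hs
    have := (Subgroup.mem_normalizer_iff.1 (h3 i hs') x).1 hx
    exact ⟨_, this, rfl⟩
  · rintro i j hij _ ⟨x, hx, rfl⟩ _ ⟨y, hy, rfl⟩
    exact congrArg Subtype.val (h4 i j hij x hx y hy)
  · rw [← Subgroup.map_iSup, Subgroup.card_map_of_injective hinj, h5]
    apply Finset.prod_congr rfl
    intro i _
    rw [Subgroup.card_map_of_injective hinj]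
  · rw [eq_bot_iff]
    intro t ht
    have htI : t ∈ I := ht.1
    have ht' : (⟨t, hIL htI⟩ : L) ∈ I' ⊓ Subgroup.centralizer ((⨆ i, f i : Subgroup L) : Set L) := by
      refine Subgroup.mem_inf.2 ⟨Subgroup.mem_subgroupOf.2 htI, ?_⟩
      refine Subgroup.mem_centralizer_iff.2 ?_
      intro x hx
      apply Subtype.ext
      have hx' : (x : S) ∈ (⨆ i, (f i).map L.subtype) := by
        rw [← Subgroup.map_iSup]
        exact ⟨x, hx, rfl⟩
      exact Subgroup.mem_centralizer_iff.1 ht.2 (x : S) hx'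
    rw [h6, Subgroup.mem_bot] at ht'
    rw [Subgroup.mem_bot]
    exact congrArg Subtype.val ht'

end Cfsg.Agent.S4408
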