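import Cfsg.Statements.S4410
import Mathlib
import Cfsg.Agent.Helper10.TransK
import Cfsg.Agent.Helper63.HHPSol
import Cfsg.Agent.Helper63.PSolv
import Cfsg.Agent.Helper1.PPrimeCore

set_option autoImplicit false
open Cfsg

namespace Cfsg.Agent.S4410

open scoped commutatorElement

section setup

variable {V : Type*} [AddCommGroup V] [Module (ZMod 2) V]

/-- The action of a group of linear automorphisms on `Multiplicative V`. -/
def linAct (S : Subgroup (V ≃ₗ[ZMod 2] V)) : ↥S →* MulAut (Multiplicative V) where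
  toFun s := AddEquiv.toMultiplicative ((s : V ≃ₗ[ZMod 2] V).toAddEquiv)
  map_one' := by ext; rfl
  map_mul' := by intro a b; ext; rfl

theorem linAct_apply (S : Subgroup (V ≃ₗ[ZMod 2] V)) (s : ↥S) (m : Multiplicative V) :
    linAct S s m = Multiplicative.ofAdd ((s : V ≃ₗ[ZMod 2] V) (Multiplicative.toAdd m)) := rfl

/-- The ambient semidirect product. -/
abbrev Amb (S : Subgroup (V ≃ₗ[ZMod 2] V)) : Type _ := Multiplicative V ⋊[linAct S] ↥S

theorem linEquiv_finite [Finite V] : Finite (V ≃ₗ[ZMod 2] V) :=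
  Finite.of_injective (fun e => (e : V → V)) DFunLike.coe_injective

theorem amb_finite [Finite V] (S : Subgroup (V ≃ₗ[ZMod 2] V)) : Finite (Amb S) := by
  haveI := linEquiv_finite (V := V)
  exact Finite.of_equiv _ (SemidirectProduct.equivProd (N := Multiplicative V) (G := ↥S)
    (φ := linAct S)).symm

/-- conjugation formula -/
theorem amb_conj (S : Subgroup (V ≃ₗ[ZMod 2] V)) (s : ↥S) (m : Multiplicative V) :
    (SemidirectProduct.inr s : Amb S) * SemidirectProduct.inl m * (SemidirectProduct.inr s)⁻¹ =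
      SemidirectProduct.inl (linAct S s m) := by
  rw [SemidirectProduct.inl_aut, map_inv]

theorem amb_ffhyp [Finite V] (S : Subgroup (V ≃ₗ[ZMod 2] V)) (hS : Group.IsSolvable ↥S)
    (hO2 : Cfsg.pCore 2 ↥S = ⊥) :
    Helper10.FFHyp 2 ((SemidirectProduct.inl : Multiplicative V →* Amb S).range)
      ((SemidirectProduct.inr : ↥S →* Amb S).range)
      ((Cfsg.pPrimeCore 2 ↥S).map (SemidirectProduct.inr : ↥S →* Amb S)) := by
  haveI := linEquiv_finite (V := V)
  haveI : Fact (Nat.Prime 2) := ⟨Nat.prime_two⟩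
  haveI := amb_finite S
  have hPS : Cfsg.IsPSolvable 2 ↥S := Helper63.PSolv.isPSolvable_of_isSolvable 2 _ hS
  have hcent := Helper63.HHP.centralizer_pPrimeCore_le hPS hO2
  have hcop : (Nat.card (Cfsg.pPrimeCore 2 ↥S)).Coprime 2 := Helper1.pPrimeCore_coprime 2
  haveI hQn : (Cfsg.pPrimeCore 2 ↥S).Normal := Helper1.pPrimeCore_normal 2
  refine ⟨?_, ?_, ?_, ?_, ?_, ?_, ?_⟩
  · rw [Helper10.elemAb_iff]
    constructor
    · rintro _ ⟨a, rfl⟩ _ ⟨b, rfl⟩
      rw [← map_mul, ← map_mul, mul_comm]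
    · rintro _ ⟨a, rfl⟩
      rw [← map_pow]
      have : a ^ 2 = 1 := by
        rw [pow_two]
        exact congrArg Multiplicative.ofAdd (ZModModule.add_self (Multiplicative.toAdd a))
      rw [this, map_one]
  · haveI : ((SemidirectProduct.inl : Multiplicative V →* Amb S).range).Normal := by
      rw [SemidirectProduct.range_inl_eq_ker_rightHom]
      exact MonoidHom.normal_ker _
    rw [Subgroup.normalizer_eq_top]
    exact le_top
  · rw [eq_bot_iff]
    rintro x ⟨⟨s, rfl⟩, hx⟩
    rw [Subgroup.mem_bot]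
    have hx' : (SemidirectProduct.inr s : Amb S) ∈ Subgroup.centralizer
        (((SemidirectProduct.inl : Multiplicative V →* Amb S).range : Subgroup (Amb S)) :
          Set (Amb S)) := hx
    rw [Subgroup.mem_centralizer_iff] at hx'
    have hs1 : s = 1 := by
      apply Subtype.ext
      apply LinearEquiv.ext
      intro v
      have h1 := hx' (SemidirectProduct.inl (Multiplicative.ofAdd v)) ⟨_, rfl⟩
      have h2 := amb_conj S s (Multiplicative.ofAdd v)
      rw [← h1] at h2
      have h3 : (SemidirectProduct.inl (Multiplicative.ofAdd v) : Amb S) =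
          SemidirectProduct.inl (linAct S s (Multiplicative.ofAdd v)) := by
        rw [← h2]; group
      have h4 := SemidirectProduct.inl_injective h3
      rw [linAct_apply] at h4
      have h5 := congrArg Multiplicative.toAdd h4
      simpa using h5.symm
    rw [hs1, map_one]
  · exact Subgroup.map_le_range _ _
  · apply Helper49.mem_normalizer_of_forall_conj
    rintro _ ⟨s, rfl⟩ _ ⟨q, hq, rfl⟩
    refine ⟨s * q * s⁻¹, hQn.conj_mem q hq s, ?_⟩
    rw [map_mul, map_mul, map_inv]
  · rw [Subgroup.card_map_of_injective SemidirectProduct.inr_injective]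
    exact (Nat.Prime.coprime_iff_not_dvd Nat.prime_two).mp hcop.symm
  · rintro _ ⟨s, rfl⟩ hx2 hxc
    have hs2 : s ^ 2 = 1 := by
      apply SemidirectProduct.inr_injective (N := Multiplicative V) (φ := linAct S)
      rw [map_pow, map_one]; exact hx2
    have hsc : s ∈ Subgroup.centralizer (Cfsg.pPrimeCore 2 ↥S : Set ↥S) := by
      rw [Subgroup.mem_centralizer_iff]
      intro q hq
      rw [Subgroup.mem_centralizer_iff] at hxc
      have h1 := hxc (SemidirectProduct.inr q) (Subgroup.mem_map_of_mem _ hq)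
      apply SemidirectProduct.inr_injective (N := Multiplicative V) (φ := linAct S)
      rw [map_mul, map_mul]; exact h1
    have hsQ := hcent hsc
    have h3 : orderOf s ∣ 2 := orderOf_dvd_of_pow_eq_one hs2
    have h4 : orderOf s ∣ Nat.card (Cfsg.pPrimeCore 2 ↥S) := by
      have := orderOf_dvd_natCard (⟨s, hsQ⟩ : ↥(Cfsg.pPrimeCore 2 ↥S))
      rwa [Subgroup.orderOf_mk] at this
    have h5 : orderOf s = 1 := Nat.eq_one_of_dvd_coprimes hcop h4 h3
    rw [orderOf_eq_one_iff.mp h5, map_one]

end setup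

/-- Let V be a finite-dimensional vector space over the field with two elements and S a solvable group of linear automorphisms of V with O₂(S) = 1. If P ∈ S has order 4 and (P − 1)³ = 0 on V, then the image of (P − 1)² has at least 4 elements; equivalently, in the decomposition of V into indecomposable modules for the cyclic group generated by P, at least two summands have dimension 3. -/
theorem result
    {V : Type*} [AddCommGroup V] [Module (ZMod 2) V] [Finite V]
    (S : Subgroup (V ≃ₗ[ZMod 2] V)) (hS : Group.IsSolvable ↥S) (hO2 : Cfsg.pCore 2 ↥S = ⊥)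
    (P : V ≃ₗ[ZMod 2] V) (hPS : P ∈ S) (hP4 : orderOf P = 4)
    (hcub : ((P : V →ₗ[ZMod 2] V) - LinearMap.id) ^ 3 = 0) :
    4 ≤ Nat.card ↥(LinearMap.range (((P : V →ₗ[ZMod 2] V) - LinearMap.id) ^ 2)) := by
  haveI := linEquiv_finite (V := V)
  haveI : Fact (Nat.Prime 2) := ⟨Nat.prime_two⟩
  haveI := amb_finite S
  by_contra hcon
  have hlt : Nat.card ↥(LinearMap.range (((P : V →ₗ[ZMod 2] V) - LinearMap.id) ^ 2)) < 4 :=
    not_le.mp hcon
  have hff := amb_ffhyp S hS hO2
  have ha4 : (SemidirectProduct.inr (⟨P, hPS⟩ : ↥S) : Amb S) ^ 4 = 1 := by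
    rw [← map_pow]
    have : (⟨P, hPS⟩ : ↥S) ^ 4 = 1 := by
      apply Subtype.ext
      show P ^ 4 = 1
      rw [← hP4]; exact pow_orderOf_eq_one P
    rw [this, map_one]
  have ha2 : (SemidirectProduct.inr (⟨P, hPS⟩ : ↥S) : Amb S) ^ 2 ≠ 1 := by
    intro h
    rw [← map_pow] at h
    have h1 : (⟨P, hPS⟩ : ↥S) ^ 2 = 1 :=
      SemidirectProduct.inr_injective (N := Multiplicative V) (φ := linAct S)
        (by rw [map_one]; exact h)
    have h2 : P ^ 2 = 1 := congrArg Subtype.val h1
    have h3 := orderOf_dvd_of_pow_eq_one h2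
    rw [hP4] at h3
    omega
  have hAc : Nat.card (Subgroup.zpowers ((SemidirectProduct.inr (⟨P, hPS⟩ : ↥S) : Amb S) ^ 2)) = 2 := by
    rw [Nat.card_zpowers]
    apply orderOf_eq_prime
    · rw [← pow_mul]; exact ha4
    · exact ha2
  have hAH : Subgroup.zpowers ((SemidirectProduct.inr (⟨P, hPS⟩ : ↥S) : Amb S) ^ 2) ≤
      (SemidirectProduct.inr : ↥S →* Amb S).range := by
    rw [Subgroup.zpowers_le]
    exact Subgroup.pow_mem _ (MonoidHom.mem_range.mpr ⟨_, rfl⟩) 2
  have hD : Nat.card ↥(⁅(SemidirectProduct.inl : Multiplicative V →* Amb S).range,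
      Subgroup.zpowers ((SemidirectProduct.inr (⟨P, hPS⟩ : ↥S) : Amb S) ^ 2)⁆) = 2 := by
    have hRgc : Nat.card ↥((AddSubgroup.toSubgroup
        (LinearMap.range (((P : V →ₗ[ZMod 2] V) - LinearMap.id) ^ 2)).toAddSubgroup).map
          (SemidirectProduct.inl : Multiplicative V →* Amb S)) =
        Nat.card ↥(LinearMap.range (((P : V →ₗ[ZMod 2] V) - LinearMap.id) ^ 2)) := by
      rw [Subgroup.card_map_of_injective SemidirectProduct.inl_injective]
      exact Nat.card_congr ⟨fun x => ⟨Multiplicative.toAdd x.1, x.2⟩,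
        fun y => ⟨Multiplicative.ofAdd y.1, y.2⟩, fun _ => rfl, fun _ => rfl⟩
    have hle : ⁅(SemidirectProduct.inl : Multiplicative V →* Amb S).range,
        Subgroup.zpowers ((SemidirectProduct.inr (⟨P, hPS⟩ : ↥S) : Amb S) ^ 2)⁆ ≤
        (AddSubgroup.toSubgroup
          (LinearMap.range (((P : V →ₗ[ZMod 2] V) - LinearMap.id) ^ 2)).toAddSubgroup).map
            (SemidirectProduct.inl : Multiplicative V →* Amb S) := by
      rw [Subgroup.commutator_le]
      rintro _ ⟨m, rfl⟩ g hg
      rcases Helper10.card_two_enum hAc (Subgroup.mem_zpowers _) ha2 g hg with h | h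
      · rw [h, commutatorElement_one_right]; exact Subgroup.one_mem _
      · rw [h]
        have h1 : (SemidirectProduct.inr (⟨P, hPS⟩ : ↥S) : Amb S) ^ 2 =
            SemidirectProduct.inr ((⟨P, hPS⟩ : ↥S) ^ 2) := by rw [map_pow]
        have h2 : ⁅(SemidirectProduct.inl m : Amb S),
            (SemidirectProduct.inr (⟨P, hPS⟩ : ↥S) : Amb S) ^ 2⁆ =
            SemidirectProduct.inl (m * (linAct S ((⟨P, hPS⟩ : ↥S) ^ 2) m)⁻¹) := by
          rw [commutatorElement_def, map_mul, map_inv, ← amb_conj, h1]; group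
        rw [h2]
        refine ⟨_, ?_, rfl⟩
        show Multiplicative.toAdd (m * (linAct S ((⟨P, hPS⟩ : ↥S) ^ 2) m)⁻¹) ∈
          LinearMap.range (((P : V →ₗ[ZMod 2] V) - LinearMap.id) ^ 2)
        rw [linAct_apply]
        refine ⟨Multiplicative.toAdd m, ?_⟩
        have e1 := ZModModule.add_self (P (Multiplicative.toAdd m))
        have e2 := ZModModule.add_self (P (P (Multiplicative.toAdd m)))
        have e3 : P (P (Multiplicative.toAdd m)) = - P (P (Multiplicative.toAdd m)) := by
          rw [eq_neg_iff_add_eq_zero]; exact e2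
        have e4 : ((((⟨P, hPS⟩ : ↥S) ^ 2 : ↥S) : V ≃ₗ[ZMod 2] V)) (Multiplicative.toAdd m) =
            P (P (Multiplicative.toAdd m)) := rfl
        rw [e4]
        have e5 : ((((P : V →ₗ[ZMod 2] V) - LinearMap.id) ^ 2 : V →ₗ[ZMod 2] V)
            (Multiplicative.toAdd m)) =
            P (P (Multiplicative.toAdd m)) - P (Multiplicative.toAdd m)
              - P (Multiplicative.toAdd m) + Multiplicative.toAdd m := by
          rw [pow_two]
          simp only [Module.End.mul_apply, LinearMap.sub_apply, LinearMap.id_apply,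
            LinearEquiv.coe_coe, map_sub]
          abel
        rw [e5]
        have e6 : Multiplicative.toAdd (m * (Multiplicative.ofAdd
            (P (P (Multiplicative.toAdd m))))⁻¹) =
            Multiplicative.toAdd m - P (P (Multiplicative.toAdd m)) := by
          rw [toAdd_mul, toAdd_inv, toAdd_ofAdd, sub_eq_add_neg]
        rw [e6]
        calc P (P (Multiplicative.toAdd m)) - P (Multiplicative.toAdd m)
              - P (Multiplicative.toAdd m) + Multiplicative.toAdd m
            = P (P (Multiplicative.toAdd m)) - (P (Multiplicative.toAdd m)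
              + P (Multiplicative.toAdd m)) + Multiplicative.toAdd m := by abel
          _ = P (P (Multiplicative.toAdd m)) + Multiplicative.toAdd m := by rw [e1, sub_zero]
          _ = - P (P (Multiplicative.toAdd m)) + Multiplicative.toAdd m := by rw [← e3]
          _ = Multiplicative.toAdd m - P (P (Multiplicative.toAdd m)) := by abel
    have hne : ⁅(SemidirectProduct.inl : Multiplicative V →* Amb S).range,
        Subgroup.zpowers ((SemidirectProduct.inr (⟨P, hPS⟩ : ↥S) : Amb S) ^ 2)⁆ ≠ ⊥ := by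
      intro h
      have h1 := Subgroup.commutator_eq_bot_iff_le_centralizer.mp h
      have h2 := Subgroup.le_centralizer_iff.mp h1
      have h3 := le_inf hAH h2
      rw [hff.hf] at h3
      exact ha2 (Subgroup.mem_bot.mp (h3 (Subgroup.mem_zpowers _)))
    have hVp : IsPGroup 2 ((SemidirectProduct.inl : Multiplicative V →* Amb S).range) :=
      Helper10.elemAb_isPGroup hff.hV
    have hDV := Helper10.commutator_le_of_le_normalizer
      ((SemidirectProduct.inl : Multiplicative V →* Amb S).range) _ (hAH.trans hff.hHV)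
    have hDp := hVp.to_le hDV
    obtain ⟨k, hk⟩ := IsPGroup.iff_card.mp hDp
    have hcard_le := Subgroup.card_le_of_le hle
    rw [hRgc, hk] at hcard_le
    have hk1 : k ≠ 0 := by
      rintro rfl
      rw [pow_zero] at hk
      exact hne (Subgroup.card_eq_one.mp hk)
    have hk2 : k < 2 := by
      by_contra hk2
      have : 2 ^ 2 ≤ 2 ^ k := Nat.pow_le_pow_right (by norm_num) (not_lt.mp hk2)
      omega
    have hk3 : k = 1 := by omega
    rw [hk, hk3, pow_one]
  have hT : Helper10.IsTSub 2 ((SemidirectProduct.inl : Multiplicative V →* Amb S).range)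
      ((SemidirectProduct.inr : ↥S →* Amb S).range)
      (Subgroup.zpowers ((SemidirectProduct.inr (⟨P, hPS⟩ : ↥S) : Amb S) ^ 2)) := ⟨hAH, hAc, hD⟩
  obtain ⟨W, hWV, hW4, hAW, hall⟩ := hff.plane_two hT
  have haH : (SemidirectProduct.inr (⟨P, hPS⟩ : ↥S) : Amb S) ∈
      (SemidirectProduct.inr : ↥S →* Amb S).range := ⟨_, rfl⟩
  have haN : (SemidirectProduct.inr (⟨P, hPS⟩ : ↥S) : Amb S) ∈ Subgroup.normalizer
      ((Subgroup.zpowers ((SemidirectProduct.inr (⟨P, hPS⟩ : ↥S) : Amb S) ^ 2) :
        Subgroup (Amb S)) : Set (Amb S)) := by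
    apply Helper49.mem_normalizer_of_forall_conj
      (N := Subgroup.zpowers (SemidirectProduct.inr (⟨P, hPS⟩ : ↥S) : Amb S)) _
      (Subgroup.mem_zpowers _)
    intro g hg x hx
    have hx' : x ∈ Subgroup.zpowers (SemidirectProduct.inr (⟨P, hPS⟩ : ↥S) : Amb S) :=
      (Subgroup.zpowers_le.mpr (Subgroup.pow_mem _ (Subgroup.mem_zpowers _) 2)) hx
    obtain ⟨i, rfl⟩ := Subgroup.mem_zpowers_iff.mp hg
    obtain ⟨j, hj⟩ := Subgroup.mem_zpowers_iff.mp hx'
    have e : (SemidirectProduct.inr (⟨P, hPS⟩ : ↥S) : Amb S) ^ i * x *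
        ((SemidirectProduct.inr (⟨P, hPS⟩ : ↥S) : Amb S) ^ i)⁻¹ = x := by
      rw [← hj]; group
    rw [e]; exact hx
  obtain ⟨-, t', ht'A, hat'⟩ := hall _ haH haN
  rcases Helper10.card_two_enum hAc (Subgroup.mem_zpowers _) ha2 t' ht'A with h | h
  · rw [h, mul_one] at hat'
    have h1 : (SemidirectProduct.inr (⟨P, hPS⟩ : ↥S) : Amb S) ^ 2 ∈
        Subgroup.zpowers ((SemidirectProduct.inr (⟨P, hPS⟩ : ↥S) : Amb S) ^ 2) ⊓
          Subgroup.centralizer (W : Set (Amb S)) :=
      Subgroup.mem_inf.mpr ⟨Subgroup.mem_zpowers _, Subgroup.pow_mem _ hat' 2⟩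
    rw [hAW] at h1
    exact ha2 (Subgroup.mem_bot.mp h1)
  · rw [h] at hat'
    have h6 : ((SemidirectProduct.inr (⟨P, hPS⟩ : ↥S) : Amb S) *
        (SemidirectProduct.inr (⟨P, hPS⟩ : ↥S) : Amb S) ^ 2) ^ 2 =
        (SemidirectProduct.inr (⟨P, hPS⟩ : ↥S) : Amb S) ^ 2 := by
      have : ((SemidirectProduct.inr (⟨P, hPS⟩ : ↥S) : Amb S) *
          (SemidirectProduct.inr (⟨P, hPS⟩ : ↥S) : Amb S) ^ 2) ^ 2 =
          (SemidirectProduct.inr (⟨P, hPS⟩ : ↥S) : Amb S) ^ 4 *
            (SemidirectProduct.inr (⟨P, hPS⟩ : ↥S) : Amb S) ^ 2 := by group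
      rw [this, ha4, one_mul]
    have h1 : (SemidirectProduct.inr (⟨P, hPS⟩ : ↥S) : Amb S) ^ 2 ∈
        Subgroup.zpowers ((SemidirectProduct.inr (⟨P, hPS⟩ : ↥S) : Amb S) ^ 2) ⊓
          Subgroup.centralizer (W : Set (Amb S)) := by
      refine Subgroup.mem_inf.mpr ⟨Subgroup.mem_zpowers _, ?_⟩
      have h7 := Subgroup.pow_mem _ hat' 2
      rwa [h6] at h7
    rw [hAW] at h1
    exact ha2 (Subgroup.mem_bot.mp h1)

end Cfsg.Agent.S4410
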