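import Cfsg.Statements.S4412
import Cfsg.Agent.Helper48.Broad2

set_option autoImplicit false
open Cfsg

namespace Cfsg.Agent.S4412

/-- Let p be an odd prime, P a finite p-group and I an elementary abelian subgroup of order 8 of Aut(P). Call T ∈ I, T ≠ 1, broad when its fixed-point subgroup C_P(T) is not cyclic. Suppose I has a proper subgroup I₀ containing no broad element such that the product of any two broad elements lies in I₀. Then P is abelian of rank exactly 3 (generated by three elements but not by two), there are exactly three broad elements and they generate I, and I₀ is exactly the set of products of two broad elements. -/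
theorem result
    {P : Type*} [Group P] [Finite P] (p : ℕ) (hp : p.Prime) (hp2 : p ≠ 2) (hP : IsPGroup p P)
    (I : Subgroup (MulAut P)) (hI : Cfsg.IsElementaryAbelian 2 I) (hI8 : Nat.card ↥I = 8)
    (I₀ : Subgroup (MulAut P)) (hI₀ : I₀ < I)
    (hdisj : ∀ T ∈ I₀, T ≠ 1 → ∃ g : P, ∀ x : P, (T x = x ↔ x ∈ Subgroup.zpowers g))
    (hprod : ∀ T ∈ I, ∀ T' ∈ I, T ≠ 1 → T' ≠ 1 → (¬ ∃ g : P, ∀ x : P, (T x = x ↔ x ∈ Subgroup.zpowers g)) →
      (¬ ∃ g : P, ∀ x : P, (T' x = x ↔ x ∈ Subgroup.zpowers g)) → T * T' ∈ I₀) :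
    IsMulCommutative P ∧ (∃ a b c : P, Subgroup.closure {a, b, c} = ⊤) ∧ (¬ ∃ a b : P, Subgroup.closure {a, b} = ⊤) ∧
      Nat.card {T : MulAut P // T ∈ I ∧ T ≠ 1 ∧ ¬ ∃ g : P, ∀ x : P, (T x = x ↔ x ∈ Subgroup.zpowers g)} = 3 ∧
      Subgroup.closure {T : MulAut P | T ∈ I ∧ T ≠ 1 ∧ ¬ ∃ g : P, ∀ x : P, (T x = x ↔ x ∈ Subgroup.zpowers g)} = I ∧
      (I₀ : Set (MulAut P)) = {S : MulAut P | ∃ T T' : MulAut P, T ∈ I ∧ T' ∈ I ∧ T ≠ 1 ∧ T' ≠ 1 ∧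
        (¬ ∃ g : P, ∀ x : P, (T x = x ↔ x ∈ Subgroup.zpowers g)) ∧ (¬ ∃ g : P, ∀ x : P, (T' x = x ↔ x ∈ Subgroup.zpowers g)) ∧ S = T * T'} := by
  have hIsq : ∀ T ∈ I, T * T = 1 := fun T hT => by rw [← pow_two]; exact hI.2 T hT
  have hIc : ∀ S ∈ I, ∀ T ∈ I, S * T = T * S := by
    intro S hS T hT
    have := hI.1.is_comm.comm (⟨S, hS⟩ : ↥I) ⟨T, hT⟩
    exact congrArg Subtype.val this
  have hinvne : ∀ x : P, x ≠ 1 → x⁻¹ ≠ x :=
    fun x hx => Cfsg.Agent.Helper48.broad_inv_ne_self hp hp2 hP hx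
  have hI8' : Nat.card ↥I = 8 := hI8
  -- a four-group of non-broad elements
  obtain ⟨T₁, hT₁I, hT₁0, hT₁⟩ : ∃ T₁ : MulAut P, T₁ ∈ I ∧ T₁ ∉ I₀ ∧
      ∀ S ∈ I, S ≠ 1 → (¬ ∃ g : P, ∀ x : P, (S x = x ↔ x ∈ Subgroup.zpowers g)) →
        S * T₁ ∈ I₀ := by
    by_cases hB : ∃ T ∈ I, T ≠ 1 ∧ ¬ ∃ g : P, ∀ x : P, (T x = x ↔ x ∈ Subgroup.zpowers g)
    · obtain ⟨T, hTI, hT1, hTb⟩ := hB
      refine ⟨T, hTI, fun h => hTb (hdisj T h hT1), ?_⟩
      intro S hS hS1 hSb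
      exact hprod S hS T hTI hS1 hT1 hSb hTb
    · obtain ⟨T, hTI, hT0⟩ := SetLike.exists_of_lt hI₀
      refine ⟨T, hTI, hT0, ?_⟩
      intro S hS hS1 hSb
      exact absurd ⟨S, hS, hS1, hSb⟩ hB
  obtain ⟨J, hI₀J, hJI, hT₁J, hJhyp⟩ :=
    Cfsg.Agent.Helper48.broad_exists_hyperplane I hIsq hIc I₀ hI₀.le T₁ hT₁0
  have hJcard := Cfsg.Agent.Helper48.broad_card_of_hyperplane I J hJI T₁ hT₁I hT₁J hJhyp
  have hJ4 : Nat.card ↥J = 4 := by omega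
  have hJnb : ∀ S ∈ J, S ≠ 1 → ∃ g : P, ∀ x : P, (S x = x ↔ x ∈ Subgroup.zpowers g) := by
    intro S hS hS1
    by_contra hSb
    have h1 : S * T₁ ∈ J := hI₀J (hT₁ S (hJI hS) hS1 hSb)
    have h2 := J.mul_mem (J.inv_mem hS) h1
    rw [inv_mul_cancel_left] at h2
    exact hT₁J h2
  obtain ⟨a, b, ha, hb, ha1, hb1, hab, hJenum⟩ :=
    Cfsg.Agent.Helper48.broad_four_enum J hJ4 (fun T hT => hIsq T (hJI hT))
  have hab1 : a * b ≠ 1 := by
    intro h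
    apply hab
    have h' := hIsq b (hJI hb)
    exact mul_right_cancel (h.trans h'.symm)
  obtain ⟨g₁, h₁⟩ := hJnb a ha ha1
  obtain ⟨g₂, h₂⟩ := hJnb b hb hb1
  obtain ⟨g₃, h₃⟩ := hJnb (a * b) (J.mul_mem ha hb) hab1
  obtain ⟨hcomm, hgen, hg₁, hg₂, hg₃, ha1', ha2, ha3, hb1', hb2, hb3, e₁, e₂, e₃, he₁I, he₂I, he₃I,
    h11, h12, h13, h21, h22, h23, h31, h32, h33, hae, hbe, habe, henum, hT0inv⟩ :=
    Cfsg.Agent.Helper48.broad_structure hp hp2 hP I hIsq hIc hI8' J hJI hJ4 a b ha hb hJenum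
      g₁ g₂ g₃ h₁ h₂ h₃
  -- broadness criterion
  have hbroad : ∀ (e S : MulAut P) (u v : P), e ∈ I → S ∈ I → e u = u → e v = v → S u = u →
      S v = v⁻¹ → u ≠ 1 → v ≠ 1 → ¬ ∃ g : P, ∀ x : P, (e x = x ↔ x ∈ Subgroup.zpowers g) := by
    rintro e S u v he hS heu hev hSu hSv hu hv ⟨g, hg⟩
    have hu' : u ∈ Subgroup.zpowers g := (hg u).mp heu
    have hv' : v ∈ Subgroup.zpowers g := (hg v).mp hev
    obtain ⟨k, rfl⟩ := Subgroup.mem_zpowers_iff.mp hu'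
    obtain ⟨l, rfl⟩ := Subgroup.mem_zpowers_iff.mp hv'
    have hSg : S g ∈ Subgroup.zpowers g := by
      rw [← hg]
      have hc : (e * S) g = (S * e) g := by rw [hIc e he S hS]
      have hc' : e (S g) = S (e g) := hc
      rw [hc', (hg g).mpr (Subgroup.mem_zpowers g)]
    rcases Cfsg.Agent.Helper48.broad_fix_or_inv hp hp2 hP S (hIsq S hS) g hSg with h | h
    · rw [map_zpow, h] at hSv
      exact hinvne _ hv hSv.symm
    · rw [map_zpow, h, inv_zpow] at hSu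
      exact hinvne _ hu hSu
  have haI := hJI ha
  have hbI := hJI hb
  have hbr₁ : ¬ ∃ g : P, ∀ x : P, (e₁ x = x ↔ x ∈ Subgroup.zpowers g) :=
    hbroad e₁ b g₂ g₃ he₁I hbI h12 h13 hb2 hb3 hg₂ hg₃
  have hbr₂ : ¬ ∃ g : P, ∀ x : P, (e₂ x = x ↔ x ∈ Subgroup.zpowers g) :=
    hbroad e₂ a g₁ g₃ he₂I haI h21 h23 ha1' ha3 hg₁ hg₃
  have hbr₃ : ¬ ∃ g : P, ∀ x : P, (e₃ x = x ↔ x ∈ Subgroup.zpowers g) :=
    hbroad e₃ a g₁ g₂ he₃I haI h31 h32 ha1' ha2 hg₁ hg₂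
  have he₁1 : e₁ ≠ 1 := by
    intro h
    rw [h] at h11
    exact hinvne _ hg₁ h11.symm
  have he₂1 : e₂ ≠ 1 := by
    intro h
    rw [h] at h22
    exact hinvne _ hg₂ h22.symm
  have he₃1 : e₃ ≠ 1 := by
    intro h
    rw [h] at h33
    exact hinvne _ hg₃ h33.symm
  have h12ne : e₁ ≠ e₂ := by
    intro h
    rw [h, h21] at h11
    exact hinvne _ hg₁ h11.symm
  have h13ne : e₁ ≠ e₃ := by
    intro h
    rw [h, h31] at h11
    exact hinvne _ hg₁ h11.symm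
  have h23ne : e₂ ≠ e₃ := by
    intro h
    rw [h, h32] at h22
    exact hinvne _ hg₂ h22.symm
  -- the product of all three is not broad
  have hT0nb : ∃ g : P, ∀ x : P, ((e₁ * e₂ * e₃) x = x ↔ x ∈ Subgroup.zpowers g) := by
    refine ⟨1, fun x => ?_⟩
    rw [hT0inv, Subgroup.zpowers_one_eq_bot, Subgroup.mem_bot]
    constructor
    · intro h
      by_contra hne
      exact hinvne x hne h
    · intro h
      rw [h, inv_one]
  have hanb : ∃ g : P, ∀ x : P, ((e₂ * e₃) x = x ↔ x ∈ Subgroup.zpowers g) := by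
    rw [← hae]; exact ⟨g₁, h₁⟩
  have hbnb : ∃ g : P, ∀ x : P, ((e₁ * e₃) x = x ↔ x ∈ Subgroup.zpowers g) := by
    rw [← hbe]; exact ⟨g₂, h₂⟩
  have habnb : ∃ g : P, ∀ x : P, ((e₁ * e₂) x = x ↔ x ∈ Subgroup.zpowers g) := by
    rw [← habe]; exact ⟨g₃, h₃⟩
  have hset : {T : MulAut P | T ∈ I ∧ T ≠ 1 ∧
      ¬ ∃ g : P, ∀ x : P, (T x = x ↔ x ∈ Subgroup.zpowers g)} = {e₁, e₂, e₃} := by
    ext T
    constructor
    · rintro ⟨hTI, hT1, hTb⟩
      rcases henum T hTI with h | h | h | h | h | h | h | h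
      · exact absurd h hT1
      · rw [h] at hTb; exact absurd hanb hTb
      · rw [h] at hTb; exact absurd hbnb hTb
      · rw [h] at hTb; exact absurd habnb hTb
      · exact Or.inl h
      · exact Or.inr (Or.inl h)
      · exact Or.inr (Or.inr h)
      · rw [h] at hTb; exact absurd hT0nb hTb
    · intro hT
      rcases hT with h | h | h
      · rw [h]; exact ⟨he₁I, he₁1, hbr₁⟩
      · rw [h]; exact ⟨he₂I, he₂1, hbr₂⟩
      · rw [Set.mem_singleton_iff] at h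
        rw [h]; exact ⟨he₃I, he₃1, hbr₃⟩
  have h12I₀ : e₁ * e₂ ∈ I₀ := hprod e₁ he₁I e₂ he₂I he₁1 he₂1 hbr₁ hbr₂
  have h13I₀ : e₁ * e₃ ∈ I₀ := hprod e₁ he₁I e₃ he₃I he₁1 he₃1 hbr₁ hbr₃
  have h23I₀ : e₂ * e₃ ∈ I₀ := hprod e₂ he₂I e₃ he₃I he₂1 he₃1 hbr₂ hbr₃
  refine ⟨⟨⟨fun x y => hcomm x y⟩⟩, ⟨g₁, g₂, g₃, hgen⟩, ?_, ?_, ?_, ?_⟩
  · exact Cfsg.Agent.Helper48.broad_not_two_generated hp hp2 hP hcomm g₁ g₂ g₃ hg₁ hg₂ hg₃
      e₂ e₃ h21 h22 h31 h32 h33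
  · change Nat.card ↥({T : MulAut P | T ∈ I ∧ T ≠ 1 ∧
      ¬ ∃ g : P, ∀ x : P, (T x = x ↔ x ∈ Subgroup.zpowers g)}) = 3
    rw [hset, Nat.card_coe_set_eq, Set.ncard_eq_three]
    exact ⟨e₁, e₂, e₃, h12ne, h13ne, h23ne, rfl⟩
  · rw [hset]
    apply le_antisymm
    · rw [Subgroup.closure_le]
      intro T hT
      rcases hT with h | h | h
      · rw [h]; exact he₁I
      · rw [h]; exact he₂I
      · rw [Set.mem_singleton_iff] at h
        rw [h]; exact he₃I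
    · intro S hS
      have m1 : e₁ ∈ Subgroup.closure ({e₁, e₂, e₃} : Set (MulAut P)) :=
        Subgroup.subset_closure (by simp)
      have m2 : e₂ ∈ Subgroup.closure ({e₁, e₂, e₃} : Set (MulAut P)) :=
        Subgroup.subset_closure (by simp)
      have m3 : e₃ ∈ Subgroup.closure ({e₁, e₂, e₃} : Set (MulAut P)) :=
        Subgroup.subset_closure (by simp)
      rcases henum S hS with h | h | h | h | h | h | h | h
      · rw [h]; exact Subgroup.one_mem _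
      · rw [h]; exact Subgroup.mul_mem _ m2 m3
      · rw [h]; exact Subgroup.mul_mem _ m1 m3
      · rw [h]; exact Subgroup.mul_mem _ m1 m2
      · rw [h]; exact m1
      · rw [h]; exact m2
      · rw [h]; exact m3
      · rw [h]; exact Subgroup.mul_mem _ (Subgroup.mul_mem _ m1 m2) m3
  · ext S
    constructor
    · intro hS
      have hS' : S ∈ I₀ := hS
      rcases henum S (hI₀.le hS') with h | h | h | h | h | h | h | h
      · exact ⟨e₁, e₁, he₁I, he₁I, he₁1, he₁1, hbr₁, hbr₁, by rw [h, hIsq e₁ he₁I]⟩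
      · exact ⟨e₂, e₃, he₂I, he₃I, he₂1, he₃1, hbr₂, hbr₃, h⟩
      · exact ⟨e₁, e₃, he₁I, he₃I, he₁1, he₃1, hbr₁, hbr₃, h⟩
      · exact ⟨e₁, e₂, he₁I, he₂I, he₁1, he₂1, hbr₁, hbr₂, h⟩
      · rw [h] at hS'; exact absurd (hdisj e₁ hS' he₁1) hbr₁
      · rw [h] at hS'; exact absurd (hdisj e₂ hS' he₂1) hbr₂
      · rw [h] at hS'; exact absurd (hdisj e₃ hS' he₃1) hbr₃
      · exfalso
        rw [h] at hS'
        have h4 : (e₁ * e₂ * e₃)⁻¹ * (e₁ * e₂) ∈ I₀ := I₀.mul_mem (I₀.inv_mem hS') h12I₀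
        have h5 : (e₁ * e₂ * e₃)⁻¹ * (e₁ * e₂) = e₃ := by
          have h6 : e₃⁻¹ = e₃ := inv_eq_of_mul_eq_one_left (hIsq e₃ he₃I)
          rw [mul_inv_rev, inv_mul_cancel_right, h6]
        rw [h5] at h4
        exact hbr₃ (hdisj e₃ h4 he₃1)
    · rintro ⟨T, T', hT, hT', hT1, hT'1, hTb, hT'b, rfl⟩
      exact hprod T hT T' hT' hT1 hT'1 hTb hT'b

end Cfsg.Agent.S4412
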