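import Cfsg.Statements.S4413
import Cfsg.Agent.Helper48.ES2Aut3

set_option autoImplicit false
open Cfsg

namespace Cfsg.Agent.S4413

/-- Let P be an extraspecial 2-group of order 32 with no elementary abelian subgroup of order 8 (the central product of a dihedral and a quaternion group of order 8). Then the inner automorphism group of P has order 16 and the outer automorphism group Aut(P)/Inn(P) is isomorphic to the symmetric group of degree 5; in particular Aut(P) has order 1920. -/
theorem result {P : Type*} [Group P] [Finite P]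
    (hex : Cfsg.IsExtraspecial 2 P) (h32 : Nat.card P = 32)
    (hminus : ∀ A : Subgroup P, Cfsg.IsElementaryAbelian 2 A → Nat.card ↥A ≤ 4)
    [(MulAut.conj : P →* MulAut P).range.Normal] :
    Nat.card ↥(MulAut.conj : P →* MulAut P).range = 16 ∧ Nat.card (MulAut P) = 1920 ∧
      Nonempty ((MulAut P ⧸ (MulAut.conj : P →* MulAut P).range) ≃* Equiv.Perm (Fin 5)) := by
  have hc := Cfsg.Agent.Helper48.comm_mem_center_of_isExtraspecial hex
  have h2 : Nat.card (Subgroup.center P) = 2 := hex.2
  have hcard : Nat.card P = 2 ^ (2 * (1 + 1) + 1) := by rw [h32]; norm_num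
  have hP : ¬ Cfsg.Agent.Helper48.ES2Plus P (1 + 1) := by
    rintro ⟨A, hA, hAc⟩
    have := hminus A ⟨Cfsg.Agent.Helper48.isMulCommutative_of_sq_eq_one A hA, hA⟩
    rw [hAc] at this
    norm_num at this
  obtain ⟨ρ, hsurj, hker, hInn⟩ := Cfsg.Agent.Helper48.aut_es2_minus_32 hc h2 hcard hP
  refine ⟨hInn, ?_, ?_⟩
  · have h1 := Subgroup.card_mul_index ρ.ker
    rw [Subgroup.index_ker, MonoidHom.range_eq_top.mpr hsurj, Subgroup.card_top, Nat.card_perm,
      hker, hInn] at h1
    rw [← h1]
    simp [Nat.factorial]
  · exact ⟨(QuotientGroup.quotientMulEquivOfEq hker.symm).trans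
      (QuotientGroup.quotientKerEquivOfSurjective ρ hsurj)⟩

end Cfsg.Agent.S4413
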