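import Cfsg.Statements.S4414
import Cfsg.Agent.Helper63.N14D1
import Cfsg.Agent.Helper27.N14B1c
import Cfsg.Agent.Helper27.N14B1d
import Cfsg.Agent.Helper27.N14C2
import Cfsg.Agent.Helper27.N14G1
import Cfsg.Agent.Helper29.N14A3
import Cfsg.Agent.Helper31.N14A1
import Cfsg.Agent.Helper31.N14A2
import Cfsg.Agent.Helper31.N14B2
import Cfsg.Agent.Helper31.N14C1
import Cfsg.Agent.Helper33.N14C4
import Cfsg.Agent.Helper49.N14D2b
import Cfsg.Agent.Helper55.N14D2
import Cfsg.Agent.Helper63.N14D3b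
import Cfsg.Agent.Helper66.N14B1b
import Cfsg.Agent.Helper66.N14D4
import Cfsg.Agent.Helper70.N14B1a
import Cfsg.Agent.Helper85.N14D3a
import Cfsg.Agent.Helper91.N14A4
import Cfsg.Agent.Helper91.N14D2a

set_option autoImplicit false
open Cfsg

namespace Cfsg.Agent.S4414

open Cfsg.Agent.Helper63.N14

/-- Let S be a finite solvable group whose order is divisible only by the primes 2, p, q (p, q distinct odd primes), with a Sylow system S₂, S_p, S_q (pairwise permutable Sylow subgroups) such that: S_p is a minimal normal subgroup of S of order p or p²; S_q has order q and [S_p, S_q] = S_p; and O₂(S) = 1. Let E be an irreducible module for S over the field with two elements on which S_p acts faithfully, and E₀ the subspace of fixed points of S₂. Then either E₀ has at least 8 elements, or E₀ has exactly 4 elements and S_q does not leave E₀ invariant. -/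
theorem result {S : Type*} [Group S] [Finite S]
    [Group.IsSolvable S] (p q : ℕ) (hp : p.Prime) (hq : q.Prime) (hp2 : p ≠ 2) (hq2 : q ≠ 2) (hpq : p ≠ q)
    (hπ : ∀ r : ℕ, r.Prime → r ∣ Nat.card S → r = 2 ∨ r = p ∨ r = q)
    (S₂ : Sylow 2 S) (Sp : Sylow p S) (Sq : Sylow q S)
    (h2q : Nat.card ↥((S₂ : Subgroup S) ⊔ (Sq : Subgroup S)) = Nat.card ↥S₂ * Nat.card ↥Sq)
    (h2p : Nat.card ↥((S₂ : Subgroup S) ⊔ (Sp : Subgroup S)) = Nat.card ↥S₂ * Nat.card ↥Sp)
    (hpq' : Nat.card ↥((Sp : Subgroup S) ⊔ (Sq : Subgroup S)) = Nat.card ↥Sp * Nat.card ↥Sq)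
    (hSpN : (Sp : Subgroup S).Normal) (hSpmin : ∀ N : Subgroup S, N.Normal → N ≤ (Sp : Subgroup S) → N = ⊥ ∨ N = (Sp : Subgroup S))
    (hSpcard : Nat.card ↥Sp = p ∨ Nat.card ↥Sp = p ^ 2)
    (hSq : Nat.card ↥Sq = q) (hcomm : ⁅(Sp : Subgroup S), (Sq : Subgroup S)⁆ = (Sp : Subgroup S))
    (hO2 : Cfsg.pCore 2 S = ⊥)
    {E : Type*} [AddCommGroup E] [Module (ZMod 2) E] [Finite E] (ρ : Representation (ZMod 2) S E) (hE : Nontrivial E)
    (hirr : ∀ N : Submodule (ZMod 2) E, (∀ s : S, ∀ m ∈ N, ρ s m ∈ N) → N = ⊥ ∨ N = ⊤)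
    (hfaith : ∀ x ∈ (Sp : Subgroup S), ρ x = 1 → x = 1) :
    8 ≤ Nat.card {v : E // ∀ s ∈ (S₂ : Subgroup S), ρ s v = v} ∨
      (Nat.card {v : E // ∀ s ∈ (S₂ : Subgroup S), ρ s v = v} = 4 ∧
        ∃ x ∈ (Sq : Subgroup S), ∃ v : E, (∀ s ∈ (S₂ : Subgroup S), ρ s v = v) ∧ ¬ ∀ s ∈ (S₂ : Subgroup S), ρ s (ρ x v) = ρ x v) := by
  classical
  haveI : Fintype (Subgroup S) := Fintype.ofFinite _
  obtain ⟨A, hA⟩ : ∃ A : Subgroup S, A = (Sp : Subgroup S) := ⟨_, rfl⟩
  have hAN : A.Normal := by rw [hA]; exact hSpN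
  have hAcard : Nat.card A = p ∨ Nat.card A = p ^ 2 := by rw [hA]; exact hSpcard
  have hp1 : 1 < p := hp.one_lt
  have hpodd : Odd p := hp.odd_of_ne_two hp2
  have hqodd : Odd q := hq.odd_of_ne_two hq2
  have hAne : A ≠ ⊥ := by
    intro h
    rw [h, Subgroup.card_bot] at hAcard
    rcases hAcard with h1 | h1
    · omega
    · have : 1 < p ^ 2 := Nat.one_lt_pow (by norm_num) hp1
      omega
  have hAodd : Odd (Nat.card A) := by
    rcases hAcard with h1 | h1
    · rw [h1]; exact hpodd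
    · rw [h1]; exact hpodd.pow
  have hAcop : (Nat.card A).Coprime q := by
    have hpq1 : Nat.Coprime p q := (Nat.coprime_primes hp hq).mpr hpq
    rcases hAcard with h1 | h1
    · rw [h1]; exact hpq1
    · rw [h1]; exact Nat.Coprime.pow_left 2 hpq1
  obtain ⟨hAab, hAexp⟩ := Cfsg.Agent.Helper31.N14.elemAb p hp A hAN (by rw [hA]; exact hSpmin) hAcard
  have hfixA := Cfsg.Agent.Helper31.N14.fixA_eq_zero ρ A hAN hAne hirr (by rw [hA]; exact hfaith)
  have hcent := Cfsg.Agent.Helper91.N14.cent_trivial q hq A (Sq : Subgroup S) hAN hAab hAcop hSq (by rw [hA]; exact hcomm)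
  have hdec := Cfsg.Agent.Helper29.N14.prod_decomp p q hp hq hp2 hq2 hpq hπ S₂ Sp Sq h2q hSpN
  have h2P : IsPGroup 2 (S₂ : Subgroup S) := S₂.isPGroup'
  -- the projections
  obtain ⟨e, he⟩ : ∃ e : Subgroup S → Module.End (ZMod 2) E, e = eH ρ A p := ⟨_, rfl⟩
  have hsum : ∑ K : Subgroup S, e K = 1 := by
    rw [he]; exact Cfsg.Agent.Helper70.N14.eH_sum ρ p hp hp2 A hAab hAexp hAcard hfixA
  have horth : ∀ K K' : Subgroup S, K ≠ K' → e K * e K' = 0 := by
    rw [he]; exact Cfsg.Agent.Helper66.N14.eH_orth ρ p hp hp2 A hAab hAexp hAcard hfixA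
  have hequiv : ∀ (s : S) (K : Subgroup S), ρ s * e K = e (cj s K) * ρ s := by
    rw [he]; exact Cfsg.Agent.Helper27.N14.eH_equiv ρ p A hAN
  have hidem : ∀ K : Subgroup S, e K * e K = e K := by
    intro K
    have h1 : e K * ∑ K' : Subgroup S, e K' = e K * e K := by
      rw [Finset.mul_sum]
      exact Finset.sum_eq_single K (fun K' _ hK' => horth K K' (Ne.symm hK'))
        (fun h => absurd (Finset.mem_univ K) h)
    rw [← h1, hsum, mul_one]
  have hhyp : ∀ K : Subgroup S, e K ≠ 0 → IsHyp A p K := by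
    intro K hK
    by_contra h
    apply hK
    rw [he]
    unfold eH
    rw [if_neg h]
  -- a nonzero projection
  obtain ⟨K₁, hK₁⟩ : ∃ K : Subgroup S, e K ≠ 0 := by
    by_contra h
    push Not at h
    have h1 : (1 : Module.End (ZMod 2) E) = 0 := by
      rw [← hsum]
      exact Finset.sum_eq_zero (fun K _ => h K)
    obtain ⟨v, hv⟩ := exists_ne (0 : E)
    apply hv
    have h2 : (1 : Module.End (ZMod 2) E) v = 0 := by rw [h1]; rfl
    exact h2
  have hcjA : ∀ (s : S) (K : Subgroup S), K ≤ A → cj s K ≤ A := by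
    intro s K hK x hx
    obtain ⟨k, hk, rfl⟩ := mem_cj.mp hx
    exact hAN.conj_mem k (hK hk) s
  have hcjfix : ∀ (a : S) (K : Subgroup S), a ∈ A → K ≤ A → cj a K = K := by
    intro a K ha hK
    ext x
    rw [mem_cj]
    constructor
    · rintro ⟨k, hk, rfl⟩
      have h1 : a * k * a⁻¹ = k := by
        rw [hAab a ha k (hK hk), mul_inv_cancel_right]
      rw [h1]; exact hk
    · intro hx
      refine ⟨x, hx, ?_⟩
      rw [hAab a ha x (hK hx), mul_inv_cancel_right]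
  have hQ : ∀ x ∈ (Sq : Subgroup S), x ^ q = 1 := by
    intro x hx
    have h1 : (⟨x, hx⟩ : ↥(Sq : Subgroup S)) ^ Nat.card ↥(Sq : Subgroup S) = 1 :=
      pow_card_eq_one'
    have h3 := congrArg Subtype.val h1
    have h4 : x ^ Nat.card ↥(Sq : Subgroup S) = 1 := by
      simpa only [Subgroup.coe_pow, Subgroup.coe_one] using h3
    have h5 : Nat.card ↥(Sq : Subgroup S) = q := hSq
    calc x ^ q = x ^ Nat.card ↥(Sq : Subgroup S) := congrArg (fun n => x ^ n) h5.symm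
      _ = 1 := h4
  have h2fix : ∀ P' : Subgroup S, IsPGroup 2 P' → ∀ W : Submodule (ZMod 2) E,
      (∀ s ∈ P', ∀ w ∈ W, ρ s w ∈ W) → W ≠ ⊥ → ∃ w ∈ W, w ≠ 0 ∧ ∀ s ∈ P', ρ s w = w :=
    fun P' hP' W hW hne => Cfsg.Agent.Helper27.N14.two_group_fixed ρ P' hP' W hW hne
  by_cases htr : ∀ K : Subgroup S, e K ≠ 0 → ∃ s ∈ (S₂ : Subgroup S), cj s K₁ = K
  · -- the Sylow 2-subgroup is transitive
    left
    have hΩ : ∀ (s : S) (K : Subgroup S), K ∈ {K : Subgroup S | e K ≠ 0} →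
        cj s K ∈ {K : Subgroup S | e K ≠ 0} := by
      intro s K hK h0
      apply hK
      have h1 : ρ s * e K = 0 := by rw [hequiv, h0, zero_mul]
      have h2 : ρ s⁻¹ * (ρ s * e K) = e K := by
        rw [← mul_assoc, ← map_mul, inv_mul_cancel, map_one, one_mul]
      rw [← h2, h1, mul_zero]
    obtain ⟨K, hKΩ, hKq⟩ := Cfsg.Agent.Helper66.N14.exists_fixed_of_transitive (fun s K => cj s K) cj_one cj_mul
      {K : Subgroup S | e K ≠ 0} hΩ K₁ hK₁ S₂ htr q hq hq2 Sq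
    have hKhyp : IsHyp A p K := hhyp K hKΩ
    have hKne : ∃ w : E, w ≠ 0 ∧ ∀ k ∈ K, ρ k w = w := by
      have h1 : ∃ u : E, e K u ≠ 0 := by
        by_contra h
        push Not at h
        exact hKΩ (LinearMap.ext h)
      obtain ⟨u, hu⟩ := h1
      refine ⟨e K u, hu, ?_⟩
      have h2 : eH ρ A p K (e K u) = e K u := by
        rw [← he]
        change (e K * e K) u = e K u
        rw [hidem]
      exact (Cfsg.Agent.Helper27.N14.eH_fix ρ p A hAodd K hKhyp (e K u)).mp h2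
    have hKq' : ∀ x ∈ (Sq : Subgroup S), ∀ k ∈ K, x * k * x⁻¹ ∈ K := by
      intro x hx k hk
      have h1 : x * k * x⁻¹ ∈ cj x K := mem_cj.mpr ⟨k, hk, rfl⟩
      rw [hKq x hx] at h1
      exact h1
    obtain ⟨N₁, hN1, hN2, hN3, hN4, hN5⟩ := Cfsg.Agent.Helper55.N14.n1_group A hAN (S₂ : Subgroup S)
      (Sq : Subgroup S) K hKhyp.1 hKq'
      (fun x t hx ht => Cfsg.Agent.Helper91.N14.cent_quot_comm p hp A hAN hAab K hKhyp x t hx ht)
      (fun N₁ hN₁ hN₁K => Cfsg.Agent.Helper49.N14.n1_two_group p q hp hq hq2 A hAN hAab (S₂ : Subgroup S)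
        (Sq : Subgroup S) h2P hSq h2q hcent K hKhyp N₁ hN₁ hN₁K)
    obtain ⟨W, hW, hWK, hWA, hWq, hWt, hWc⟩ := Cfsg.Agent.Helper85.N14.core_W ρ A hAab (S₂ : Subgroup S)
      (Sq : Subgroup S) K hKhyp.1 hKne hKq' N₁ hN1 hN2 hN3 hN4 hN5 h2fix
    have hfrob : ∀ g ∈ (Sq : Subgroup S), g ≠ 1 → ∀ W' : Submodule (ZMod 2) E,
        (∀ a ∈ A, ∀ w ∈ W', ρ a w ∈ W') → (∀ w ∈ W', ρ g w ∈ W') → W' ≠ ⊥ →
        ∃ w ∈ W', w ≠ 0 ∧ ρ g w = w := by
      intro g hg hg1 W' hWA' hWg' hW'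
      refine Cfsg.Agent.Helper63.N14.frob_fixed ρ A hAN hAodd hfixA g q hq (hQ g hg) ?_ W' hWA' hWg' hW'
      intro i hi0 hiq a ha hcomm'
      refine hcent (g ^ i) (pow_mem hg i) ?_ a ha hcomm'
      intro h1
      have h2 : orderOf g ∣ i := orderOf_dvd_of_pow_eq_one h1
      have h3 : orderOf g ∣ q := orderOf_dvd_of_pow_eq_one (hQ g hg)
      rcases (Nat.dvd_prime hq).mp h3 with h4 | h4
      · exact hg1 (orderOf_eq_one_iff.mp h4)
      · rw [h4] at h2
        exact absurd (Nat.le_of_dvd hi0 h2) (by omega)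
    have h8 := Cfsg.Agent.Helper63.N14.core_count ρ q hq hq2 A hAN hAab hfixA (S₂ : Subgroup S) (Sq : Subgroup S)
      h2P hSq hcent K W hW hWK hWA hWq hWt hWc h2fix hfrob
    refine le_trans h8 ?_
    have hlift : ∀ w : {w : E // (∀ k ∈ K, ρ k w = w) ∧
        ∀ t ∈ (S₂ : Subgroup S), (∀ k ∈ K, t * k * t⁻¹ ∈ K) → ρ t w = w},
        ∃ v : E, (∀ s ∈ (S₂ : Subgroup S), ρ s v = v) ∧ e K v = w.1 := by
      intro w
      have hw1 : e K w.1 = w.1 := by
        rw [he]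
        exact (Cfsg.Agent.Helper27.N14.eH_fix ρ p A hAodd K hKhyp w.1).mpr w.2.1
      obtain ⟨v, hv1, hv2, -⟩ := Cfsg.Agent.Helper31.N14.lift_fixed ρ (fun s K => cj s K) cj_one cj_mul e horth hequiv
        (S₂ : Subgroup S) K w.1 hw1 (fun t ht htK => w.2.2 t ht (fun k hk => by
          have h1 : t * k * t⁻¹ ∈ cj t K := mem_cj.mpr ⟨k, hk, rfl⟩
          rw [htK] at h1
          exact h1))
      exact ⟨v, hv1, hv2⟩
    choose f hf1 hf2 using hlift
    refine Nat.card_le_card_of_injective (fun w => ⟨f w, hf1 w⟩) ?_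
    intro w w' h
    apply Subtype.ext
    have h1 : f w = f w' := congrArg Subtype.val h
    rw [← hf2 w, ← hf2 w', h1]
  · -- at least two orbits
    push Not at htr
    obtain ⟨K₂, hK₂, hK₂'⟩ := htr
    by_cases h8 : 8 ≤ Nat.card {v : E // ∀ s ∈ (S₂ : Subgroup S), ρ s v = v}
    · left; exact h8
    · right
      have htrans : ∀ O : Set (Subgroup S), K₁ ∈ O →
          (∀ s ∈ (S₂ : Subgroup S), ∀ K ∈ O, cj s K ∈ O) →
          (∀ x ∈ (Sq : Subgroup S), ∀ K ∈ O, cj x K ∈ O) → ∀ K, e K ≠ 0 → K ∈ O := by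
        intro O hO1 hO2 hOq K hK
        obtain ⟨s, hs⟩ := Cfsg.Agent.Helper31.N14.trans_of_irr ρ (fun s K => cj s K) cj_one cj_mul e horth hequiv hirr
          K₁ K hK₁ hK
        obtain ⟨a, ha, t, ht, x, hx, rfl⟩ := hdec s
        have h1 : cj (a * t * x) K₁ = cj t (cj x K₁) := by
          rw [mul_assoc, cj_mul, cj_mul]
          exact hcjfix a _ (by rw [hA]; exact ha) (hcjA t _ (hcjA x _ (hhyp K₁ hK₁).1))
        change cj (a * t * x) K₁ = K at hs
        rw [← hs, h1]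
        exact hO2 t ht _ (hOq x hx _ hO1)
      have horb : ∀ i : Subgroup S, e i ≠ 0 → ∃ v : E,
          (∀ s ∈ (S₂ : Subgroup S), ρ s v = v) ∧ e i v ≠ 0 ∧
          ∀ j, e j v ≠ 0 → ∃ s ∈ (S₂ : Subgroup S), cj s i = j := by
        intro i hi
        exact Cfsg.Agent.Helper27.N14.orbit_vector ρ (fun s K => cj s K) cj_one cj_mul e hequiv (S₂ : Subgroup S)
          h2P i hi (hidem i) h2fix
          (fun w hw hfix => Cfsg.Agent.Helper31.N14.lift_fixed ρ (fun s K => cj s K) cj_one cj_mul e horth hequiv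
            (S₂ : Subgroup S) i w hw hfix)
      exact Cfsg.Agent.Helper33.N14.two_orbits ρ (fun s K => cj s K) cj_one cj_mul e hequiv
        (S₂ : Subgroup S) (Sq : Subgroup S) q hqodd hQ K₁ K₂ hK₂' (horb K₁ hK₁)
        (horb K₂ hK₂) htrans (not_le.mp h8)

end Cfsg.Agent.S4414
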