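-- S4415 (helper63, CALL S4415): the three-element commutator of the 3'-core on a module with a
-- cubic block.  Assembled from 64 pieces proved by the team (modules imported below); the
-- abstract configuration is `Cfsg.Agent.Helper63.N15.Cfg` (file `Helper63/N15Defs.lean`).
import Cfsg.Statements.S4415
import Cfsg.Agent.Helper63.N15Defs
import Cfsg.Agent.Helper12.N15p1a
import Cfsg.Agent.Helper12.N15p5c
import Cfsg.Agent.Helper20.N15a2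
import Cfsg.Agent.Helper20.N15a3
import Cfsg.Agent.Helper20.N15sm7
import Cfsg.Agent.Helper26.N15p3a
import Cfsg.Agent.Helper29.N15m4d
import Cfsg.Agent.Helper29.N15m4f
import Cfsg.Agent.Helper37.N15p1b
import Cfsg.Agent.Helper37.N15p1c
import Cfsg.Agent.Helper37.N15p2b
import Cfsg.Agent.Helper37.N15p3c
import Cfsg.Agent.Helper4.N15a1
import Cfsg.Agent.Helper4.N15c3
import Cfsg.Agent.Helper4.N15c5
import Cfsg.Agent.Helper4.N15m3
import Cfsg.Agent.Helper4.N15pair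
import Cfsg.Agent.Helper41.N15C1
import Cfsg.Agent.Helper41.N15C2
import Cfsg.Agent.Helper41.N15MINN
import Cfsg.Agent.Helper41.N15PCEN
import Cfsg.Agent.Helper41.N15TP
import Cfsg.Agent.Helper51.N15M12
import Cfsg.Agent.Helper57.N15p0
import Cfsg.Agent.Helper57.N15p2a
import Cfsg.Agent.Helper57.N15p5b
import Cfsg.Agent.Helper58.N15bas_indep
import Cfsg.Agent.Helper58.N15bas_n
import Cfsg.Agent.Helper58.N15bas_w
import Cfsg.Agent.Helper58.N15det1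
import Cfsg.Agent.Helper58.N15lc4
import Cfsg.Agent.Helper58.N15lz
import Cfsg.Agent.Helper58.N15qz
import Cfsg.Agent.Helper58.N15sm
import Cfsg.Agent.Helper59.N15c7b
import Cfsg.Agent.Helper59.N15m1a
import Cfsg.Agent.Helper59.N15m2
import Cfsg.Agent.Helper59.N15m4a
import Cfsg.Agent.Helper62.N15p0b
import Cfsg.Agent.Helper63.N15m1b
import Cfsg.Agent.Helper66.N15P2C
import Cfsg.Agent.Helper66.N15P4
import Cfsg.Agent.Helper66.N15P4G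
import Cfsg.Agent.Helper66.N15P4M
import Cfsg.Agent.Helper66.N15P5A
import Cfsg.Agent.Helper69.N15m4c
import Cfsg.Agent.Helper73.N15c7c1
import Cfsg.Agent.Helper73.N15c7c2
import Cfsg.Agent.Helper73.N15c7y
import Cfsg.Agent.Helper75.N15f1
import Cfsg.Agent.Helper75.N15f2
import Cfsg.Agent.Helper75.N15f3
import Cfsg.Agent.Helper75.N15fq
import Cfsg.Agent.Helper83.N15m4b
import Cfsg.Agent.Helper83.N15p3d
import Cfsg.Agent.Helper83.N15p3e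
import Cfsg.Agent.Helper84.N15C4A
import Cfsg.Agent.Helper84.N15C4B
import Cfsg.Agent.Helper84.N15C7A
import Cfsg.Agent.Helper84.N15M4E
import Cfsg.Agent.Helper91.N15c4c
import Cfsg.Agent.Helper91.N15c6
import Cfsg.Agent.Helper91.N15c8
import Cfsg.Agent.Helper91.N15m4det

set_option autoImplicit false
open Cfsg

namespace Cfsg.Agent.S4415

open Cfsg.Agent.Helper63.N15
open Cfsg.Agent.Helper12.N15 (p1a p5c)
open Cfsg.Agent.Helper20.N15 (sm7 a2 a3)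
open Cfsg.Agent.Helper26.N15 (p3a)
open Cfsg.Agent.Helper29.N15 (m4d m4f)
open Cfsg.Agent.Helper37.N15 (p1b p1c p2b p3c)
open Cfsg.Agent.Helper4.N15 (a1 m3 pair c3 c5)
open Cfsg.Agent.Helper41.N15 (minn c1 c2 tp pcen)
open Cfsg.Agent.Helper51.N15 (m12)
open Cfsg.Agent.Helper57.N15 (p0 p2a p5b)
open Cfsg.Agent.Helper58.N15 (bas_indep bas_n bas_w lz lc4 det1 sm qz)
open Cfsg.Agent.Helper59.N15 (m1a m2 m4a c7b)
open Cfsg.Agent.Helper62.N15 (p0b)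
open Cfsg.Agent.Helper66.N15 (p2c p4g p4m p4 p5a)
open Cfsg.Agent.Helper69.N15 (m4c)
open Cfsg.Agent.Helper73.N15 (c7y c7c1 c7c2)
open Cfsg.Agent.Helper75.N15 (f1 f2 f3 fq)
open Cfsg.Agent.Helper83.N15 (m4b p3d p3e)
open Cfsg.Agent.Helper84.N15 (m4e c4a c4b c7a)
open Cfsg.Agent.Helper91.N15 (m4det c4c c6 c8)

section abs

variable {G : Type*} [Group G] [Finite G] {V : Type*} [AddCommGroup V] [Module (ZMod 3) V]
  [Finite V] {ρ : Representation (ZMod 3) G V} {R : Subgroup G} {b q₁ q₂ q₃ : G} {v₁ v₂ v₃ : V}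

/-- Step A (glue): no nontrivial normal abelian subgroup of order prime to `6`. -/
theorem stepA (c : Cfg ρ R b q₁ q₂ q₃ v₁ v₂ v₃) :
    ∀ N : Subgroup G, N.Normal → (∀ x ∈ N, ∀ y ∈ N, x * y = y * x) →
      (Nat.card N).Coprime 6 → N = ⊥ := by
  intro N hN hab hcop
  have hodd : Odd (Nat.card N) := by
    rcases Nat.even_or_odd (Nat.card N) with h | h
    · exfalso
      have h2 : 2 ∣ Nat.gcd (Nat.card N) 6 := Nat.dvd_gcd h.two_dvd (by norm_num)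
      rw [Nat.Coprime] at hcop
      rw [hcop] at h2
      omega
    · exact h
  have hpow : ∀ x ∈ N, x ^ Nat.card N = 1 := by
    intro x hx
    have h1 : (⟨x, hx⟩ : ↥N) ^ Nat.card ↥N = 1 := pow_card_eq_one'
    have h3 := congrArg Subtype.val h1
    simpa only [Subgroup.coe_pow, Subgroup.coe_one] using h3
  have k1 : ∀ x ∈ N, q₁ * x = x * q₁ → q₂ * x * q₂⁻¹ = x⁻¹ → x = 1 :=
    fun x hx h1 h2 => a1 c (fun y m => sm ρ y m) x _ (hpow x hx) hcop h1 h2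
  have k2 : ∀ x ∈ N, q₂ * x = x * q₂ → q₃ * x * q₃⁻¹ = x⁻¹ → x = 1 :=
    fun x hx h1 h2 => a1 c.rot (fun y m => sm ρ y m) x _ (hpow x hx) hcop h1 h2
  have k3 : ∀ x ∈ N, q₃ * x = x * q₃ → q₁ * x * q₁⁻¹ = x⁻¹ → x = 1 :=
    fun x hx h1 h2 => a1 c.rot.rot (fun y m => sm ρ y m) x _ (hpow x hx) hcop h1 h2
  have h := a2 N hN hab hodd c.q11 c.q22 c.q12 c.q21 k1 k2 k3
  exact a3 c N hN hodd (fun x hx => (h x hx).1) (fun x hx => (h x hx).2)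

/-- Case (M) (glue). -/
theorem caseM (c : Cfg ρ R b q₁ q₂ q₃ v₁ v₂ v₃) (A : Subgroup G) (hAn : A.Normal)
    (hA2 : ∀ x ∈ A, x ^ 2 = 1) (hAb : ¬ ∀ x ∈ A, x * b = b * x) : IsV4 R ∨ IsES32 R := by
  obtain ⟨m, W, χ, hW⟩ := m1a ρ A hAn hA2
  obtain ⟨n, e, hmono⟩ := m1b c (bas_n c) A hAn hAb m W χ hW
  have hn := m2 c (f1 c) (f3 c) n e hmono
  rcases m12 ρ b n e hmono hn with ⟨e₁, e₂, e₃, h3⟩ | ⟨e₁, e₂, e₃, e₄, h4⟩
  · exact Or.inl (m3 c e₁ e₂ e₃ h3)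
  · right
    have ha := m4a c e₁ e₂ e₃ e₄ h4
    have hd4 : ∀ g : G, Det4 ρ g e₁ e₂ e₃ e₄ :=
      fun g => m4det ρ b e₁ e₂ e₃ e₄ h4 g (det1 c g)
    have hb := m4b c e₁ e₂ e₃ e₄ h4 ha hd4 (fq c)
    have hc := m4c c e₁ e₂ e₃ e₄ h4 ha hd4 hb (fq c)
    exact m4f c hb.1 hc.1 hc.2 (m4e c e₁ e₂ e₃ e₄ h4 ha hb (fq c))
      (m4d c e₁ e₂ e₃ e₄ h4 ha hd4)

/-- Case (C) (glue). -/
theorem caseC (c : Cfg ρ R b q₁ q₂ q₃ v₁ v₂ v₃) (hC : HC R b) : False := by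
  have hA := stepA c
  have hc1 := c1 c hA hC (f2 c) (lz c) (lc4 c)
  have hminn : MinnStmt R := minn c.sol
  have hc2 := c2 c hc1 hminn
  have htp : TProps R (T2 R) := tp R
  have hz : ZProps ρ (T2 R) := c3 c hc1 htp pair pcen
  obtain ⟨M, hMn, hMR, hM2, x, hxM, hxZ⟩ := hc2 R c.Rn le_rfl ⟨q₁, c.q1R, qz c⟩
  have hTnZ : ∃ t ∈ T2 R, ¬ IsZ ρ t := ⟨x, htp.2.2.2 M hMn hMR hM2 hxM, hxZ⟩
  have hnc : ¬ ∀ t ∈ T2 R, t * b = b * t := by
    intro h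
    obtain ⟨t, ht, htZ⟩ := hTnZ
    exact htZ (lz c t (fun g => f2 c (T2 R) htp.1 h t ht g))
  have hV : Nat.card V = 81 := c4c c htp hz hnc (fun t => c4a c t) (fun x s => c4b c x s)
  have h32 := c5 c (T2 R) hz hV
  have hc6 := c6 c hc2 htp hz pair
  have hRT : R ≤ T2 R := by
    by_contra hne
    have hlt : T2 R < R := lt_of_le_of_ne htp.2.1 (fun h => hne (le_of_eq h.symm))
    obtain ⟨Y, hYn, hTY, hYR, r, hr, hpow, hcm⟩ := hminn R (T2 R) c.Rn le_rfl htp.1 hlt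
    obtain ⟨hr5, y, hyY, hyT, hyr⟩ := c7y (T2 R) Y c.R3 htp hYn hYR hTY r hr hpow
    have hsm7 := sm7 ρ c.faith hV
    obtain ⟨hr5', hfpf⟩ := c7a c htp hz hc6 h32 hsm7 y (hYR hyY) hyT r hr hr5 hyr
    subst hr5'
    have hfpf' : ∀ y' ∈ Y, y' ∉ T2 R → y' ^ 5 = 1 →
        ∀ t ∈ T2 R, IsZ ρ (y' * t * y'⁻¹ * t⁻¹) → IsZ ρ t :=
      fun y' hy' hy'T hy'5 =>
        (c7a c htp hz hc6 h32 hsm7 y' (hYR hy') hy'T 5 hr (le_refl 5) hy'5).2
    have hby := c7b c htp hz hTnZ h32 Y hYn hTY.le hcm hfpf' y hyY hyT hyr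
    obtain ⟨h32', hiff⟩ := c7c2 c htp hz hTnZ (f2 c) (lz c) h32 y hyr hfpf hby
    obtain ⟨⟨t₁, ht₁, hz₁, hsq₁⟩, ⟨t₂, ht₂, hz₂, hsq₂⟩⟩ := c7c1 c (T2 R) hz (by omega)
    exact hsq₂ ((hiff t₁ ht₁ t₂ ht₂ hz₁ hz₂).mp hsq₁)
  exact c8 c hC hz hRT (fq c)

/-- The abstract theorem (glue). -/
theorem abs_main (c : Cfg ρ R b q₁ q₂ q₃ v₁ v₂ v₃) : IsV4 R ∨ IsES32 R := by
  by_cases hC : HC R b
  · exact (caseC c hC).elim
  · unfold HC at hC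
    push Not at hC
    obtain ⟨A, hAn, hAR, hA2, x, hx, hxb⟩ := hC
    exact caseM c A hAn hA2 (fun h => hxb (h x hx))

end abs

/-- Let S be a finite solvable group acting faithfully on a finite-dimensional space E over the field with three elements, with O₃(S) = 1. Let B ≤ S have order 3 and suppose: E = E₀ ⊕ E₁ with B fixing E₁ pointwise, E₀ B-invariant of order 27 and indecomposable under B (a generator of B has a single Jordan block on E₀); B normalizes but does not centralize some subgroup Q of S that is elementary abelian of order 4; and B is the centre of a Sylow 3-subgroup of S. Put R = [O_{3'}(S), B]. Then R is elementary abelian of order 4 or extraspecial of order 32 containing an elementary abelian subgroup of order 8 (a central product of two quaternion groups), and E is the direct sum of a subspace fixed pointwise by R and an RB-invariant subspace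 on which the subgroup RB acts faithfully and irreducibly. -/
theorem result {S : Type*} [Group S] [Finite S]
    [Group.IsSolvable S] {E : Type*} [AddCommGroup E] [Module (ZMod 3) E] [Finite E] (ρ : Representation (ZMod 3) S E)
    (hfaith : Function.Injective ρ) (hO3 : Cfsg.pCore 3 S = ⊥)
    (B : Subgroup S) (hB : Nat.card ↥B = 3) (b : S) (hb : Subgroup.zpowers b = B)
    (E₀ E₁ : Submodule (ZMod 3) E) (hE01 : E₀ ⊓ E₁ = ⊥) (hE01' : E₀ ⊔ E₁ = ⊤)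
    (hE1 : ∀ v ∈ E₁, ρ b v = v) (hE0inv : ∀ v ∈ E₀, ρ b v ∈ E₀) (hE0 : Nat.card ↥E₀ = 27)
    (hind : ∃ v ∈ E₀, ρ b (ρ b v - v) - (ρ b v - v) ≠ 0)
    (Q : Subgroup S) (hQ : Cfsg.IsElementaryAbelian 2 Q) (hQ4 : Nat.card ↥Q = 4)
    (hBQ : B ≤ Subgroup.normalizer (Q : Set S)) (hBQ' : ¬ B ≤ Subgroup.centralizer (Q : Set S))
    (P : Sylow 3 S) (hBZ : (Subgroup.center ↥(P : Subgroup S)).map (P : Subgroup S).subtype = B) :
    ((Cfsg.IsElementaryAbelian 2 ⁅Cfsg.pPrimeCore 3 S, B⁆ ∧ Nat.card ↥⁅Cfsg.pPrimeCore 3 S, B⁆ = 4) ∨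
      (Cfsg.IsExtraspecial 2 ↥⁅Cfsg.pPrimeCore 3 S, B⁆ ∧ Nat.card ↥⁅Cfsg.pPrimeCore 3 S, B⁆ = 32 ∧
        ∃ A : Subgroup S, A ≤ ⁅Cfsg.pPrimeCore 3 S, B⁆ ∧ Cfsg.IsElementaryAbelian 2 A ∧ Nat.card ↥A = 8)) ∧
    ∃ F₀ F₁ : Submodule (ZMod 3) E, F₀ ⊓ F₁ = ⊥ ∧ F₀ ⊔ F₁ = ⊤ ∧
      (∀ r ∈ ⁅Cfsg.pPrimeCore 3 S, B⁆, ∀ v ∈ F₁, ρ r v = v) ∧ (∀ r ∈ ⁅Cfsg.pPrimeCore 3 S, B⁆ ⊔ B, ∀ v ∈ F₀, ρ r v ∈ F₀) ∧
      (∀ r ∈ ⁅Cfsg.pPrimeCore 3 S, B⁆ ⊔ B, (∀ v ∈ F₀, ρ r v = v) → r = 1) ∧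
      (∀ N : Submodule (ZMod 3) E, N ≤ F₀ → (∀ r ∈ ⁅Cfsg.pPrimeCore 3 S, B⁆ ⊔ B, ∀ v ∈ N, ρ r v ∈ N) → N = ⊥ ∨ N = F₀) := by
  classical
  obtain ⟨hKn, hK3⟩ := p0 S
  obtain ⟨K, hKdef⟩ : ∃ K : Subgroup S, K = Cfsg.pPrimeCore 3 S := ⟨_, rfl⟩
  rw [← hKdef] at hKn hK3 ⊢
  obtain ⟨hcc, hRK, hBnorm⟩ := p0b K B hKn hK3 hB
  obtain ⟨hb3, q₁, q₂, q₃, hq1Q, hq2Q, hq3Q, hq1ne, h11, h22, h33, h12, h21, hb1, hb2, hb3'⟩ :=
    p1b B b hb hB Q hQ hQ4 hBQ hBQ'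
  have hbB : b ∈ B := hb ▸ Subgroup.mem_zpowers b
  have hbP : b ∈ (P : Subgroup S) ∧ ∀ x ∈ (P : Subgroup S), x * b = b * x := by
    have h1 : b ∈ (Subgroup.center ↥(P : Subgroup S)).map (P : Subgroup S).subtype := by
      rw [hBZ]; exact hbB
    obtain ⟨y, hy, hyb⟩ := Subgroup.mem_map.mp h1
    have hyb' : (y : S) = b := hyb
    refine ⟨hyb' ▸ y.2, fun x hx => ?_⟩
    have h2 := Subgroup.mem_center_iff.mp hy ⟨x, hx⟩
    have h3 := congrArg Subtype.val h2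
    rw [← hyb']
    exact h3
  have hQ2 : IsPGroup 2 Q := IsPGroup.of_card (n := 2) (by rw [hQ4]; norm_num)
  have hQb : ∀ h ∈ Q, b * h * b⁻¹ ∈ Q := by
    intro h hh
    have h1 := hBQ hbB
    exact (Subgroup.mem_normalizer_iff.mp h1 h).mp hh
  have hK' := p1a P b hbP.1 hbP.2 Q hQ2 hQb
  rw [← hKdef] at hK'
  obtain ⟨hq1R, hq2R, hq3R⟩ := p1c K B b hbB q₁ q₂ q₃ h11 h22 h33 h12 h21 hb1 hb2 hb3'
    (by
      rintro h (rfl | rfl | rfl)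
      · exact hK' _ hq1Q
      · exact hK' _ hq2Q
      · exact hK' _ hq3Q)
  obtain ⟨hN, hrk⟩ := p2a ρ b hb3 E₀ E₁ hE01' hE1 hE0inv hE0
  have hdecQ := p2b ρ q₁ q₂ h11 h22 (h12.trans h21.symm)
  obtain ⟨v₁, v₂, v₃, hv1, hbv1, hbv2, hbv3, s11, s12, s13, s21, s22, s23, s31, s32, s33, hdec⟩ :=
    p2c ρ hfaith b q₁ q₂ q₃ hb3 hq1ne h11 h22 h33 h12 h21 hb1 hb2 hb3' hN hrk hdecQ
  obtain ⟨R, hRdef⟩ : ∃ R : Subgroup S, R = ⁅K, B⁆ := ⟨_, rfl⟩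
  rw [← hRdef] at hcc hRK hBnorm hq1R hq2R hq3R ⊢
  have hR3 : (Nat.card ↥R).Coprime 3 :=
    Nat.Coprime.coprime_dvd_left (Subgroup.card_dvd_of_le hRK) hK3
  obtain ⟨F₀, F₁, h01, h01', hF1, hgen, hmin, hmin2⟩ := p3a ρ R hR3
  have hinv := p3c ρ R B hBnorm F₀ hgen hmin
  have hRne : R ≠ ⊥ := by
    intro h
    rw [h] at hq1R
    exact hq1ne (Subgroup.mem_bot.mp hq1R)
  have hfaithF := p3d ρ hfaith R B b hb hb3 hR3 hBnorm hcc hRne F₀ hgen hinv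
  have hirrF := p3e ρ R B b q₁ q₂ q₃ v₁ v₂ v₃ hb hBnorm hcc hq1R hq2R h11 h22 h12 h21 hbv1 hbv2
    hbv3 s11 s12 s13 s21 s22 s23 hdec F₀ F₁ h01 hF1 hmin
  have hbG : b ∈ R ⊔ B := (le_sup_right : B ≤ R ⊔ B) hbB
  have hq1G : q₁ ∈ R ⊔ B := (le_sup_left : R ≤ R ⊔ B) hq1R
  have hq2G : q₂ ∈ R ⊔ B := (le_sup_left : R ≤ R ⊔ B) hq2R
  have hq3G : q₃ ∈ R ⊔ B := (le_sup_left : R ≤ R ⊔ B) hq3R
  have h3 : ∀ v : E, -v - v = v := by
    intro v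
    have h : (3 : ZMod 3) • v = 0 := by
      have : (3 : ZMod 3) = 0 := by decide
      rw [this, zero_smul]
    have h' : v + v + v = 0 := by
      have : (3 : ZMod 3) • v = v + v + v := by
        rw [show (3 : ZMod 3) = 1 + 1 + 1 by norm_num, add_smul, add_smul, one_smul]
      rw [← this]; exact h
    have : -v - v - v = -(v + v + v) := by abel
    have h4 : -v - v - v = 0 := by rw [this, h', neg_zero]
    exact sub_eq_zero.mp h4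
  have hv1F : v₁ ∈ F₀ := by
    have h := hgen q₂ hq2R v₁
    rw [s21, h3] at h
    exact h
  have hv2F : v₂ ∈ F₀ := by
    have h := hgen q₁ hq1R v₂
    rw [s12, h3] at h
    exact h
  have hv3F : v₃ ∈ F₀ := by
    have h := hgen q₁ hq1R v₃
    rw [s13, h3] at h
    exact h
  have hg := p4g R B b hb hR3 hBnorm hcc hbG
  have hm := p4m ρ R B b q₁ q₂ q₃ v₁ v₂ v₃ F₀ hinv hfaithF hirrF hdec hbG hq1G hq2G hq3G
    hv1F hv2F hv3F
  have hcfg := p4 ρ R B b q₁ q₂ q₃ v₁ v₂ v₃ F₀ hinv hbG hq1G hq2G hq3G hv1F hv2F hv3F hg hm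
    hb3 hq1R hq2R hq3R h11 h22 h33 h12 h21 hb1 hb2 hb3' hv1 hbv1 hbv2 hbv3 s11 s12 s13 s21 s22
    s23 s31 s32 s33
  have habs := abs_main hcfg
  have hRG : R ≤ R ⊔ B := le_sup_left
  refine ⟨?_, F₀, F₁, h01, h01', ?_, hinv, hfaithF, hirrF⟩
  · rcases habs with h | h
    · left
      exact p5b R ((p5a (R ⊔ B) R hRG).1 h)
    · right
      exact p5c R ((p5a (R ⊔ B) R hRG).2 h)
  · intro r hr v hv
    exact (hF1 v).mp hv r hr

end Cfsg.Agent.S4415
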