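import Cfsg.Statements.S4420

set_option autoImplicit false
open Cfsg

namespace Cfsg.Agent.S4420

theorem comm_of_sq {H : Type*} [Group H] (h : ∀ x : H, x ^ 2 = 1) (a b : H) : a * b = b * a := by
  have ha : a⁻¹ = a := by
    rw [inv_eq_iff_mul_eq_one, ← pow_two]; exact h a
  have hb : b⁻¹ = b := by
    rw [inv_eq_iff_mul_eq_one, ← pow_two]; exact h b
  have hab : (a * b)⁻¹ = a * b := by
    rw [inv_eq_iff_mul_eq_one, ← pow_two]; exact h (a * b)
  rw [mul_inv_rev, ha, hb] at hab
  exact hab.symm

theorem inverts {H : Type*} [Group H] (A : Subgroup H) (hD : ∀ x : H, x ∉ A → x ^ 2 = 1)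
    (x : H) (hx : x ∉ A) (a : H) (ha : a ∈ A) : x * a * x⁻¹ = a⁻¹ := by
  have hxa : x * a ∉ A := fun h => hx (by simpa using A.mul_mem h (A.inv_mem ha))
  have h1 := hD x hx
  have h2 := hD (x * a) hxa
  have hxinv : x⁻¹ = x := by
    rw [inv_eq_iff_mul_eq_one, ← pow_two]; exact h1
  rw [hxinv, eq_inv_iff_mul_eq_one]
  rw [pow_two] at h2
  calc x * a * x * a = x * a * (x * a) := by group
    _ = 1 := h2

theorem comm_of_inverts {H : Type*} [Group H] (A : Subgroup H) (x : H)
    (hinv : ∀ a ∈ A, x * a * x⁻¹ = a⁻¹) (a b : H) (ha : a ∈ A) (hb : b ∈ A) : a * b = b * a := by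
  have h1 := hinv (a * b) (A.mul_mem ha hb)
  have h2 := hinv a ha
  have h3 := hinv b hb
  have h4 : x * (a * b) * x⁻¹ = (x * a * x⁻¹) * (x * b * x⁻¹) := by group
  rw [h4, h2, h3, mul_inv_rev] at h1
  have h5 := congrArg (fun z => z⁻¹) h1
  simpa using h5.symm

/-- Structure of groups in which every element outside some proper subgroup has square 1. Let H be a finite group with a proper subgroup A such that every element outside A has square 1. Then H has an abelian normal subgroup B of index 2 such that every element outside B is an involution inverting every element of B; and if H is not an elementary abelian 2-group, B is the only abelian normal subgroup of index 2 with this property. -/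
theorem result {H : Type*} [Group H] [Finite H] (A : Subgroup H) (hA : A ≠ ⊤) (hD : ∀ x : H, x ∉ A → x ^ 2 = 1) :
    ∃ B : Subgroup H, B.Normal ∧ IsMulCommutative ↥B ∧ B.index = 2 ∧
      (∀ x : H, x ∉ B → x ^ 2 = 1 ∧ ∀ b ∈ B, x * b * x⁻¹ = b⁻¹) ∧
      (¬ (IsMulCommutative H ∧ ∀ x : H, x ^ 2 = 1) →
        ∀ B' : Subgroup H, B'.Normal → IsMulCommutative ↥B' → B'.index = 2 →
          (∀ x : H, x ∉ B' → x ^ 2 = 1 ∧ ∀ b ∈ B', x * b * x⁻¹ = b⁻¹) → B' = B) := by
  classical
  obtain ⟨x₀, hx₀⟩ : ∃ x₀ : H, x₀ ∉ A := by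
    by_contra hcon
    push Not at hcon
    exact hA (eq_top_iff.2 (fun x _ => hcon x))
  have hAcomm : ∀ a b : H, a ∈ A → b ∈ A → a * b = b * a :=
    comm_of_inverts A x₀ (inverts A hD x₀ hx₀)
  by_cases hidx : A.index = 2
  · refine ⟨A, Subgroup.normal_of_index_eq_two hidx, ?_, hidx, ?_, ?_⟩
    · rw [isMulCommutative_iff]
      rintro ⟨a, ha⟩ ⟨b, hb⟩
      exact Subtype.ext (hAcomm a b ha hb)
    · intro x hx
      exact ⟨hD x hx, inverts A hD x hx⟩
    · intro hnot B' hB'n hB'c hB'i hB'
      by_contra hne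
      apply hnot
      -- there is y ∈ A \ B'
      have hnle : ¬ A ≤ B' := by
        intro hle
        apply hne
        symm
        apply Subgroup.eq_of_le_of_card_ge hle
        have h1 := Subgroup.card_mul_index A
        have h2 := Subgroup.card_mul_index B'
        rw [hidx] at h1
        rw [hB'i] at h2
        omega
      obtain ⟨y, hyA, hyB'⟩ := SetLike.not_le_iff_exists.1 hnle
      have hsq : ∀ x : H, x ^ 2 = 1 := by
        intro x
        by_cases hxA : x ∈ A
        · by_cases hxB : x ∈ B'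
          · have h1 := (hB' y hyB').2 x hxB
            have h2 := hAcomm y x hyA hxA
            rw [h2, mul_inv_cancel_right] at h1
            rw [pow_two]
            calc x * x = x * x⁻¹ := by rw [← h1]
              _ = 1 := mul_inv_cancel x
          · exact (hB' x hxB).1
        · exact hD x hxA
      refine ⟨?_, hsq⟩
      rw [isMulCommutative_iff]
      exact comm_of_sq hsq
  · -- A has index at least 3: all elements have square 1
    have hex : ∃ b : H, b * x₀ ∉ A ∧ b ∉ A := by
      by_contra hcon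
      push Not at hcon
      apply hidx
      rw [Subgroup.index_eq_two_iff_exists_notMem_and]
      refine ⟨x₀, hx₀, ?_⟩
      intro b
      by_cases hb : b * x₀ ∈ A
      · exact Or.inl hb
      · exact Or.inr (hcon b hb)
    obtain ⟨y, hyx, hy⟩ := hex
    have hsq : ∀ x : H, x ^ 2 = 1 := by
      intro a
      by_cases ha : a ∈ A
      · have h1 := inverts A hD x₀ hx₀ a ha
        have h2 := inverts A hD y hy a⁻¹ (A.inv_mem ha)
        have h3 := inverts A hD (y * x₀) hyx a ha
        have h4 : y * x₀ * a * (y * x₀)⁻¹ = y * (x₀ * a * x₀⁻¹) * y⁻¹ := by group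
        rw [h4, h1, h2, inv_inv] at h3
        rw [pow_two]
        calc a * a = a * a⁻¹ := by rw [← h3]
          _ = 1 := mul_inv_cancel a
      · exact hD a ha
    have hcomm := comm_of_sq hsq
    have hp : IsPGroup 2 H := fun g => ⟨1, by simpa using hsq g⟩
    obtain ⟨n, hn⟩ := IsPGroup.iff_card.1 hp
    have hn0 : n ≠ 0 := by
      rintro rfl
      rw [pow_zero] at hn
      have : Subsingleton H := (Nat.card_eq_one_iff_unique.1 hn).1
      exact hx₀ (by rw [Subsingleton.elim x₀ 1]; exact A.one_mem)
    have : Fact (Nat.Prime 2) := ⟨Nat.prime_two⟩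
    obtain ⟨B, hB⟩ := Sylow.exists_subgroup_card_pow_prime (G := H) 2 (n := n - 1)
      (by rw [hn]; exact pow_dvd_pow 2 (Nat.sub_le n 1))
    have hBi : B.index = 2 := by
      have h1 := Subgroup.card_mul_index B
      rw [hB, hn] at h1
      have h2 : (2 : ℕ) ^ n = 2 ^ (n - 1) * 2 := by
        rw [← pow_succ]; congr 1; omega
      rw [h2] at h1
      exact Nat.eq_of_mul_eq_mul_left (by positivity) h1
    refine ⟨B, Subgroup.normal_of_index_eq_two hBi, ?_, hBi, ?_, ?_⟩
    · rw [isMulCommutative_iff]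
      rintro ⟨a, ha⟩ ⟨b, hb⟩
      exact Subtype.ext (hcomm a b)
    · intro x _
      refine ⟨hsq x, fun b _ => ?_⟩
      rw [hcomm x b, mul_inv_cancel_right, eq_inv_iff_mul_eq_one, ← pow_two]
      exact hsq b
    · intro hnot
      exact absurd ⟨isMulCommutative_iff.2 hcomm, hsq⟩ hnot

end Cfsg.Agent.S4420
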