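import Cfsg.Statements.S4866
import Cfsg.Agent.Helper80.OrbitCount
import Cfsg.Agent.Helper80.Gagola2
import Cfsg.Agent.Helper3.BrauerPerm2

set_option autoImplicit false
open Cfsg

namespace Cfsg.Agent.S4866

open Cfsg.Agent.Helper80 Cfsg.Agent.Helper3
open scoped ComplexConjugate

variable {G : Type*} [Group G]

/-- Conjugation by `g⁻¹` on a normal subgroup, as a plain map. -/
def cj (K : Subgroup G) [K.Normal] (g : G) (k : K) : K := MulAut.conjNormal g k

theorem cj_coe (K : Subgroup G) [K.Normal] (g : G) (k : K) :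
    ((cj K g k : K) : G) = g * k * g⁻¹ := MulAut.conjNormal_apply g k

theorem cj_one (K : Subgroup G) [K.Normal] (k : K) : cj K 1 k = k :=
  Subtype.ext (by rw [cj_coe]; group)

theorem cj_mul (K : Subgroup G) [K.Normal] (g h : G) (k : K) :
    cj K (g * h) k = cj K g (cj K h k) :=
  Subtype.ext (by rw [cj_coe, cj_coe, cj_coe]; group)

theorem cj_mem (K : Subgroup G) [K.Normal] (c k : K) : cj K (c : G) k = c * k * c⁻¹ :=
  Subtype.ext (by rw [cj_coe]; simp)

/-- The action of `G` on the irreducible characters of a normal subgroup. -/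
noncomputable def actI (K : Subgroup G) [K.Normal] (g : G) (θ : IrrCharacter K) :
    IrrCharacter K :=
  ⟨fun k => (θ : K → ℂ) (cj K g⁻¹ k), irr_conjNormal K θ.2 g⁻¹⟩

theorem actI_apply (K : Subgroup G) [K.Normal] (g : G) (θ : IrrCharacter K) (k : K) :
    (actI K g θ : K → ℂ) k = (θ : K → ℂ) (cj K g⁻¹ k) := rfl

theorem actI_one (K : Subgroup G) [K.Normal] (θ : IrrCharacter K) : actI K 1 θ = θ := by
  apply Subtype.ext
  funext k
  rw [actI_apply, inv_one, cj_one]

theorem actI_mul (K : Subgroup G) [K.Normal] (g h : G) (θ : IrrCharacter K) :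
    actI K (g * h) θ = actI K g (actI K h θ) := by
  apply Subtype.ext
  funext k
  rw [actI_apply, actI_apply, actI_apply, mul_inv_rev, cj_mul]

theorem actI_mem (K : Subgroup G) [K.Normal] (c : G) (hc : c ∈ K) (θ : IrrCharacter K) :
    actI K c θ = θ := by
  apply Subtype.ext
  funext k
  rw [actI_apply]
  have h1 : cj K c⁻¹ k = (⟨c, hc⟩ : K)⁻¹ * k * (⟨c, hc⟩ : K)⁻¹⁻¹ := by
    have := cj_mem K (⟨c, hc⟩ : K)⁻¹ k
    rw [← this]
    rfl
  rw [h1]
  exact Cfsg.Agent.Helper80.isCharacter_conj (Cfsg.Agent.Helper80.isCharacter_of_irr θ.2) k _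

theorem conjIrr_actI (K : Subgroup G) [K.Normal] (g : G) (θ : IrrCharacter K) :
    conjIrr (actI K g θ) = actI K g (conjIrr θ) := rfl

/-- The action of `G` on the classes of a normal subgroup. -/
def actC (K : Subgroup G) [K.Normal] (g : G) (C : ConjClasses K) : ConjClasses K :=
  ConjClasses.map (MulAut.conjNormal g : K ≃* K).toMonoidHom C

theorem actC_mk (K : Subgroup G) [K.Normal] (g : G) (k : K) :
    actC K g (ConjClasses.mk k) = ConjClasses.mk (cj K g k) := rfl

theorem actC_one (K : Subgroup G) [K.Normal] (C : ConjClasses K) : actC K 1 C = C := by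
  obtain ⟨k, rfl⟩ := ConjClasses.exists_rep C
  rw [actC_mk, cj_one]

theorem actC_mul (K : Subgroup G) [K.Normal] (g h : G) (C : ConjClasses K) :
    actC K (g * h) C = actC K g (actC K h C) := by
  obtain ⟨k, rfl⟩ := ConjClasses.exists_rep C
  rw [actC_mk, actC_mk, actC_mk, cj_mul]

theorem actC_mem (K : Subgroup G) [K.Normal] (c : G) (hc : c ∈ K) (C : ConjClasses K) :
    actC K c C = C := by
  obtain ⟨k, rfl⟩ := ConjClasses.exists_rep C
  rw [actC_mk, ConjClasses.mk_eq_mk_iff_isConj]
  have := cj_mem K (⟨c, hc⟩ : K) k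
  have h1 : cj K c k = (⟨c, hc⟩ : K) * k * (⟨c, hc⟩ : K)⁻¹ := this
  rw [h1]
  exact (isConj_iff.mpr ⟨_, rfl⟩).symm

theorem isConj_inv_inv {H : Type*} [Group H] {a b : H} (h : IsConj a b) : IsConj a⁻¹ b⁻¹ := by
  obtain ⟨c, hc⟩ := isConj_iff.mp h
  exact isConj_iff.mpr ⟨c, by rw [← hc]; group⟩

/-- Inversion on classes. -/
def invC {H : Type*} [Group H] (C : ConjClasses H) : ConjClasses H :=
  Quotient.map (fun x : H => x⁻¹) (fun _ _ h => isConj_inv_inv h) C

theorem invC_mk {H : Type*} [Group H] (k : H) :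
    invC (ConjClasses.mk k) = ConjClasses.mk k⁻¹ := rfl

theorem invC_invC {H : Type*} [Group H] (C : ConjClasses H) : invC (invC C) = C := by
  obtain ⟨k, rfl⟩ := ConjClasses.exists_rep C
  rw [invC_mk, invC_mk, inv_inv]

theorem invC_actC (K : Subgroup G) [K.Normal] (g : G) (C : ConjClasses K) :
    invC (actC K g C) = actC K g (invC C) := by
  obtain ⟨k, rfl⟩ := ConjClasses.exists_rep C
  rw [actC_mk, invC_mk, invC_mk, actC_mk]
  congr 1
  apply Subtype.ext
  rw [cj_coe]
  simp only [Subgroup.coe_inv, cj_coe]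
  group

theorem actC_equivalence (K : Subgroup G) [K.Normal] (Q : ConjClasses K → Prop) :
    Equivalence (fun C D : {C : ConjClasses K // Q C} => ∃ g : G, D.1 = actC K g C.1) := by
  refine ⟨fun C => ⟨1, (actC_one K C.1).symm⟩, ?_, ?_⟩
  · rintro C D ⟨g, hg⟩
    refine ⟨g⁻¹, ?_⟩
    rw [hg, ← actC_mul, inv_mul_cancel, actC_one]
  · rintro C D E ⟨g, hg⟩ ⟨h, hh⟩
    exact ⟨h * g, by rw [hh, hg, actC_mul]⟩

/-- Let K be a normal subgroup of odd index in the finite group G. Then G has as many orbits on the real-valued irreducible complex characters of K (acting by conjugation) as it has orbits on the conjugacy classes of K that are real in K; equivalently, the number of G-orbits of real-valued irreducible characters of K equals the number of G-conjugacy classes of elements of K that are conjugate in K to their inverses. -/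
theorem result {G : Type*} [Group G] [Finite G] (K : Subgroup G) [K.Normal] (hodd : Odd K.index) : Nat.card (Quot (fun θ η : {θ : Cfsg.IrrCharacter ↥K // (∀ k : ↥K, ((θ : ↥K → ℂ) k).im = 0)} => ∃ g : G, ∀ k k' : ↥K, (k' : G) = g * (k : G) * g⁻¹ → (η.1 : ↥K → ℂ) k' = (θ.1 : ↥K → ℂ) k)) = Nat.card (Quot (fun x y : {x : ↥K // IsConj x x⁻¹} => ∃ g : G, (y.1 : G) = g * x.1 * g⁻¹)) := by
  classical
  have : Fintype G := Fintype.ofFinite G
  have hGpos : 0 < Nat.card G := Nat.card_pos
  -- the character side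
  have hQI : ∀ (g : G) (θ : IrrCharacter K), (∀ k : K, ((θ : K → ℂ) k).im = 0) →
      ∀ k : K, ((actI K g θ : K → ℂ) k).im = 0 := by
    intro g θ h k
    rw [actI_apply]
    exact h _
  have hL := burnside_quot (actI K) (actI_one K) (actI_mul K)
    (fun θ : IrrCharacter K => ∀ k : K, ((θ : K → ℂ) k).im = 0) hQI
  have eL : Nat.card (Quot (fun θ η : {θ : Cfsg.IrrCharacter ↥K // (∀ k : ↥K, ((θ : ↥K → ℂ) k).im = 0)} => ∃ g : G, ∀ k k' : ↥K, (k' : G) = g * (k : G) * g⁻¹ → (η.1 : ↥K → ℂ) k' = (θ.1 : ↥K → ℂ) k))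
      = Nat.card (Quot (fun x y : {θ : IrrCharacter K // ∀ k : K, ((θ : K → ℂ) k).im = 0} =>
          ∃ g : G, y.1 = actI K g x.1)) := by
    apply Nat.card_congr
    refine Quot.congrRight ?_
    intro θ η
    constructor
    · rintro ⟨g, hg⟩
      refine ⟨g, ?_⟩
      apply Subtype.ext
      funext k'
      rw [actI_apply]
      apply hg
      rw [cj_coe]
      group
    · rintro ⟨g, hg⟩
      refine ⟨g, ?_⟩
      intro k k' hk
      rw [hg, actI_apply]
      have hkk : cj K g⁻¹ k' = k := Subtype.ext (by rw [cj_coe, hk]; group)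
      rw [hkk]
  -- the class side
  have hQC : ∀ (g : G) (C : ConjClasses K), invC C = C → invC (actC K g C) = actC K g C := by
    intro g C h
    rw [invC_actC, h]
  have hR := burnside_quot (actC K) (actC_one K) (actC_mul K)
    (fun C : ConjClasses K => invC C = C) hQC
  have eR : Nat.card (Quot (fun x y : {x : ↥K // IsConj x x⁻¹} => ∃ g : G, (y.1 : G) = g * x.1 * g⁻¹))
      = Nat.card (Quot (fun C D : {C : ConjClasses K // invC C = C} =>
          ∃ g : G, D.1 = actC K g C.1)) := by
    refine card_quot_eq_of_surjective _ _ (actC_equivalence K _)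
      (fun x => ⟨ConjClasses.mk x.1, by
        rw [invC_mk, ConjClasses.mk_eq_mk_iff_isConj]; exact x.2.symm⟩) ?_ ?_
    · rintro ⟨C, hC⟩
      obtain ⟨k, rfl⟩ := ConjClasses.exists_rep C
      rw [invC_mk, ConjClasses.mk_eq_mk_iff_isConj] at hC
      exact ⟨⟨k, hC.symm⟩, rfl⟩
    · intro x y
      constructor
      · rintro ⟨g, hg⟩
        refine ⟨g, ?_⟩
        show ConjClasses.mk y.1 = actC K g (ConjClasses.mk x.1)
        rw [actC_mk]
        congr 1
        apply Subtype.ext
        rw [cj_coe, hg]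
      · rintro ⟨g, hg⟩
        have hg' : ConjClasses.mk y.1 = actC K g (ConjClasses.mk x.1) := hg
        rw [actC_mk, ConjClasses.mk_eq_mk_iff_isConj] at hg'
        obtain ⟨c, hc⟩ := isConj_iff.mp hg'.symm
        refine ⟨(c : G) * g, ?_⟩
        have := congrArg (Subtype.val) hc
        simp only [Subgroup.coe_mul, Subgroup.coe_inv, cj_coe] at this
        rw [← this]
        group
  -- Brauer's permutation lemma for each `g`
  have hmid : ∀ g : G, Nat.card {θ : IrrCharacter K // (∀ k : K, ((θ : K → ℂ) k).im = 0) ∧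
      actI K g θ = θ} = Nat.card {C : ConjClasses K // invC C = C ∧ actC K g C = C} := by
    intro g
    have hb := brauer_perm (fun k : K => (cj K g⁻¹ k)⁻¹) (fun θ => conjIrr (actI K g θ))
      (fun θ k => by
        rw [conjIrr_apply, actI_apply]
        exact (Cfsg.Agent.Helper80.isCharacter_inv
          (Cfsg.Agent.Helper80.isCharacter_of_irr θ.2) _).symm)
      (fun C => invC (actC K g⁻¹ C) = C) (fun k => by
        rw [actC_mk, invC_mk, ConjClasses.mk_eq_mk_iff_isConj]
        exact ⟨IsConj.symm, IsConj.symm⟩)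
    have e1 : Nat.card {θ : IrrCharacter K // (∀ k : K, ((θ : K → ℂ) k).im = 0) ∧
        actI K g θ = θ} = Nat.card {θ : IrrCharacter K // conjIrr (actI K g θ) = θ} := by
      apply Nat.card_congr
      refine Equiv.subtypeEquivRight ?_
      intro θ
      rw [twisted_fixed_iff K hodd (actI K) (actI_one K) (actI_mul K) (actI_mem K) conjIrr
        conjIrr_conjIrr (conjIrr_actI K) g θ, conjIrr_eq_iff]
    have e2 : Nat.card {C : ConjClasses K // invC C = C ∧ actC K g C = C}
        = Nat.card {C : ConjClasses K // invC (actC K g⁻¹ C) = C} := by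
      apply Nat.card_congr
      refine Equiv.subtypeEquivRight ?_
      intro C
      rw [twisted_fixed_iff K hodd (actC K) (actC_one K) (actC_mul K) (actC_mem K) invC
        invC_invC (invC_actC K) g⁻¹ C, act_inv_eq_iff (actC K) (actC_one K) (actC_mul K)]
    rw [e1, e2, hb]
  rw [eL, eR]
  have hfin : Nat.card (Quot (fun x y : {θ : IrrCharacter K // ∀ k : K, ((θ : K → ℂ) k).im = 0} =>
          ∃ g : G, y.1 = actI K g x.1)) * Nat.card G
      = Nat.card (Quot (fun C D : {C : ConjClasses K // invC C = C} =>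
          ∃ g : G, D.1 = actC K g C.1)) * Nat.card G := by
    rw [hL, hR]
    exact Finset.sum_congr rfl (fun g _ => hmid g)
  exact Nat.eq_of_mul_eq_mul_right hGpos hfin

end Cfsg.Agent.S4866
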