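import Cfsg.Statements.S4455
import Cfsg.Agent.Helper80.ResExt
import Cfsg.Agent.S4866

set_option autoImplicit false
open Cfsg

namespace Cfsg.Agent.S4455

open Cfsg.Agent.Helper80 Cfsg.Agent.S4866

/-- Restriction to `O^p(G)`, with a junk value when the restriction is not irreducible. -/
noncomputable def resIrr {G : Type*} [Group G] (p : ℕ) (χ : IrrCharacter G) :
    IrrCharacter (pResidual p G) :=
  haveI := Classical.propDecidable
    (IsIrrCharacter (pResidual p G) (fun n : pResidual p G => (χ : G → ℂ) n))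
  if h : IsIrrCharacter (pResidual p G) (fun n : pResidual p G => (χ : G → ℂ) n) then ⟨_, h⟩
  else trivIrr _

theorem resIrr_of_irr {G : Type*} [Group G] (p : ℕ) (χ : IrrCharacter G)
    (h : IsIrrCharacter (pResidual p G) (fun n : pResidual p G => (χ : G → ℂ) n)) :
    resIrr p χ = ⟨_, h⟩ := by
  unfold resIrr
  rw [dif_pos h]

theorem charDegree_restrict {G : Type*} [Group G] (N : Subgroup G) (χ : G → ℂ) :
    charDegree (fun n : N => χ n) = charDegree χ := rfl

/-- Fix a prime p and a finite group G. Let s be the sum of χ(1)² over the irreducible characters χ of G whose degree is not divisible by p and whose determinantal order o(χ) is not divisible by p. Then the order of O^p(G), the subgroup generated by the elements of order prime to p, is congruent to s modulo p. -/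
theorem result {G : Type*} [Group G] [Finite G] (p : ℕ) (hp : p.Prime) : (Nat.card (Cfsg.pResidual p G) : ℤ) ≡ (∑ᶠ χ ∈ {χ : Cfsg.IrrCharacter G | ¬ p ∣ Cfsg.charDegree (χ : G → ℂ) ∧ ¬ p ∣ Cfsg.detOrder (χ : G → ℂ)}, (Cfsg.charDegree (χ : G → ℂ) : ℤ) ^ 2) [ZMOD p] := by
  classical
  haveI : Fact p.Prime := ⟨hp⟩
  obtain ⟨k, hk⟩ := pResidual_index (G := G) p
  letI : Fintype (pResidual p G) := Fintype.ofFinite _
  letI : Fintype (IrrCharacter (pResidual p G)) := Fintype.ofFinite _
  obtain ⟨P⟩ : Nonempty (Sylow p G) := inferInstance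
  obtain ⟨B, hB⟩ : ∃ B : Set (IrrCharacter (pResidual p G)), B =
      {θ | (∀ g : (P : Subgroup G), actI (pResidual p G) (g : G) θ = θ) ∧
        ¬ p ∣ charDegree (θ : pResidual p G → ℂ)} := ⟨_, rfl⟩
  have hBmem : ∀ θ, θ ∈ B ↔ ((∀ g : (P : Subgroup G), actI (pResidual p G) (g : G) θ = θ) ∧
        ¬ p ∣ charDegree (θ : pResidual p G → ℂ)) := by
    intro θ
    rw [hB]
    rfl
  -- the fixed point congruence
  have h1 : Nat.card (pResidual p G) ≡ ∑ θ : IrrCharacter (pResidual p G),
      (if θ ∈ B then charDegree (θ : pResidual p G → ℂ) ^ 2 else 0) [MOD p] := by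
    rw [Nat.card_eq_fintype_card, ← irr_sum_charDegree_sq]
    refine (sum_modEq_sum_fixed P.2 (fun (g : (P : Subgroup G)) θ => actI (pResidual p G) (g : G) θ)
      (fun θ => actI_one (pResidual p G) θ) (fun g h θ => actI_mul (pResidual p G) (g : G) (h : G) θ)
      (fun θ => charDegree (θ : pResidual p G → ℂ) ^ 2) (fun g θ => ?_)).trans ?_
    · have h2 : (actI (pResidual p G) (g : G) θ : pResidual p G → ℂ) 1 =
          (θ : pResidual p G → ℂ) 1 := by
        rw [actI_apply]
        have h3 : cj (pResidual p G) (g : G)⁻¹ (1 : pResidual p G) = 1 :=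
          Subtype.ext (by rw [cj_coe (pResidual p G)]; simp)
        rw [h3]
      show charDegree (actI (pResidual p G) (g : G) θ : pResidual p G → ℂ) ^ 2 = _
      unfold charDegree
      rw [h2]
    · apply Nat.ModEq.sum
      intro θ _
      by_cases hfix : ∀ g : (P : Subgroup G), actI (pResidual p G) (g : G) θ = θ
      · rw [if_pos hfix]
        by_cases hpd : p ∣ charDegree (θ : pResidual p G → ℂ)
        · rw [if_neg (fun h => ((hBmem θ).mp h).2 hpd)]
          exact Nat.modEq_zero_iff_dvd.mpr (dvd_pow hpd two_ne_zero)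
        · rw [if_pos ((hBmem θ).mpr ⟨hfix, hpd⟩)]
      · rw [if_neg hfix, if_neg (fun h => hfix ((hBmem θ).mp h).1)]
  -- the bijection
  have hbij : Set.BijOn (resIrr p) {χ : Cfsg.IrrCharacter G |
      ¬ p ∣ Cfsg.charDegree (χ : G → ℂ) ∧ ¬ p ∣ Cfsg.detOrder (χ : G → ℂ)} B := by
    refine ⟨?_, ?_, ?_⟩
    · intro χ hχ
      have hirr := restrict_irr_of_not_dvd (pResidual p G) hk χ.2 hχ.1
      rw [resIrr_of_irr p χ hirr, hBmem]
      refine ⟨fun g => Subtype.ext (funext fun n => ?_), ?_⟩
      · rw [actI_apply]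
        show (χ : G → ℂ) ((cj (pResidual p G) (g : G)⁻¹ n : pResidual p G) : G) = (χ : G → ℂ) n
        rw [cj_coe]
        exact isCharacter_conj (isCharacter_of_irr χ.2) _ _
      · show ¬ p ∣ charDegree (fun n : pResidual p G => (χ : G → ℂ) n)
        rw [charDegree_restrict]
        exact hχ.1
    · intro χ₁ hχ₁ χ₂ hχ₂ heq
      have hirr₁ := restrict_irr_of_not_dvd (pResidual p G) hk χ₁.2 hχ₁.1
      have hirr₂ := restrict_irr_of_not_dvd (pResidual p G) hk χ₂.2 hχ₂.1
      rw [resIrr_of_irr p χ₁ hirr₁, resIrr_of_irr p χ₂ hirr₂] at heq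
      have hres : ∀ n : pResidual p G, (χ₁ : G → ℂ) n = (χ₂ : G → ℂ) n :=
        fun n => congrFun (congrArg Subtype.val heq) n
      exact Subtype.ext (irr_extension_pResidual_unique _ _ χ₁.2 χ₂.2 hres hirr₁ hχ₁.1 hχ₁.2
        hχ₂.2)
    · intro θ hθ
      rw [hBmem] at hθ
      obtain ⟨S, hS⟩ : ∃ S : Subgroup G, ∀ g, g ∈ S ↔ actI (pResidual p G) g θ = θ :=
        ⟨{ carrier := {g | actI (pResidual p G) g θ = θ}
           mul_mem' := by
             intro a b ha hb
             show actI (pResidual p G) (a * b) θ = θ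
             rw [actI_mul]
             have ha' : actI (pResidual p G) a θ = θ := ha
             have hb' : actI (pResidual p G) b θ = θ := hb
             rw [hb', ha']
           one_mem' := actI_one _ θ
           inv_mem' := by
             intro a ha
             show actI (pResidual p G) a⁻¹ θ = θ
             have ha' : actI (pResidual p G) a θ = θ := ha
             have h2 := actI_mul (pResidual p G) a⁻¹ a θ
             rw [inv_mul_cancel, actI_one, ha'] at h2
             exact h2.symm }, fun g => Iff.rfl⟩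
      have hStop : S = ⊤ := by
        rw [← top_le_iff, ← Cfsg.Agent.Helper47.pResidual_sup_sylow P]
        refine sup_le (fun g hg => (hS g).mpr (actI_mem _ g hg θ)) (fun g hg => (hS g).mpr ?_)
        exact hθ.1 ⟨g, hg⟩
      have hall : ∀ g : G, actI (pResidual p G) g θ = θ := by
        intro g
        rw [← hS, hStop]
        exact Subgroup.mem_top g
      have hinv : ∀ (g : G) (n : pResidual p G), (θ : pResidual p G → ℂ) ⟨g * n * g⁻¹,
          (inferInstance : (pResidual p G).Normal).conj_mem (n : G) n.2 g⟩ =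
          (θ : pResidual p G → ℂ) n := by
        intro g n
        have h2 := congrFun (congrArg Subtype.val (hall g⁻¹)) n
        rw [actI_apply, inv_inv] at h2
        have hcj : cj (pResidual p G) g n = ⟨g * n * g⁻¹,
            (inferInstance : (pResidual p G).Normal).conj_mem (n : G) n.2 g⟩ :=
          Subtype.ext (cj_coe _ g n)
        rw [hcj] at h2
        exact h2
      obtain ⟨χ, hχ, hχN, hdet⟩ := exists_irr_extension_pResidual (θ : pResidual p G → ℂ) θ.2
        hinv hθ.2
      have hres : (fun n : pResidual p G => χ n) = (θ : pResidual p G → ℂ) := funext hχN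
      have hdeg : charDegree χ = charDegree (θ : pResidual p G → ℂ) := by
        rw [← charDegree_restrict (pResidual p G) χ, hres]
      refine ⟨⟨χ, hχ⟩, ⟨?_, hdet⟩, ?_⟩
      · show ¬ p ∣ charDegree χ
        rw [hdeg]
        exact hθ.2
      · have hirr : IsIrrCharacter (pResidual p G) (fun n : pResidual p G => χ n) := by
          rw [hres]
          exact θ.2
        rw [resIrr_of_irr p ⟨χ, hχ⟩ hirr]
        exact Subtype.ext hres
  -- assemble
  have h2 : (∑ᶠ χ ∈ {χ : Cfsg.IrrCharacter G | ¬ p ∣ Cfsg.charDegree (χ : G → ℂ) ∧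
      ¬ p ∣ Cfsg.detOrder (χ : G → ℂ)}, (Cfsg.charDegree (χ : G → ℂ) : ℤ) ^ 2) =
      ∑ᶠ θ ∈ B, (charDegree (θ : pResidual p G → ℂ) : ℤ) ^ 2 := by
    refine finsum_mem_eq_of_bijOn (resIrr p) hbij ?_
    intro χ hχ
    have hirr := restrict_irr_of_not_dvd (pResidual p G) hk χ.2 hχ.1
    rw [resIrr_of_irr p χ hirr]
    show _ = (charDegree (fun n : pResidual p G => (χ : G → ℂ) n) : ℤ) ^ 2
    rw [charDegree_restrict]
  have h3 : (∑ᶠ θ ∈ B, (charDegree (θ : pResidual p G → ℂ) : ℤ) ^ 2) =
      ((∑ θ : IrrCharacter (pResidual p G),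
        (if θ ∈ B then charDegree (θ : pResidual p G → ℂ) ^ 2 else 0) : ℕ) : ℤ) := by
    rw [finsum_mem_def, finsum_eq_sum_of_fintype, Nat.cast_sum]
    apply Finset.sum_congr rfl
    intro θ _
    rw [Set.indicator_apply]
    by_cases hθ : θ ∈ B
    · rw [if_pos hθ, if_pos hθ, Nat.cast_pow]
    · rw [if_neg hθ, if_neg hθ, Nat.cast_zero]
  rw [h2, h3]
  exact Int.natCast_modEq_iff.mpr h1

end Cfsg.Agent.S4455
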