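import Cfsg.Statements.S4517
import Cfsg.Agent.Helper82.PrincipalTwo

set_option autoImplicit false
open Cfsg

namespace Cfsg.Agent.S4517

/-- Let G be a finite group, M a maximal ideal of the algebraic integers containing 2, and k a natural number coprime to the order of G with g ^ k = g⁻¹ for every element g of odd order (so that g ↦ g ^ k induces a field automorphism of the character values inverting the roots of unity of odd order). If B is a 2-block of full defect (its defect equals the exponent of 2 in the order of G) that is stable under χ ↦ χ ∘ (· ^ k), then B is the principal 2-block. -/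
theorem result {G : Type*} [Group G] [Finite G] (M : Ideal Cfsg.AlgInt) (hM : Cfsg.IsPModular 2 M) (k : ℕ) (hk : Nat.Coprime k (Nat.card G)) (hk₂ : ∀ g : G, Odd (orderOf g) → g ^ k = g⁻¹) (B : Set (Cfsg.IrrCharacter G)) (hB : Cfsg.IsPBlock M B) (hdef : Cfsg.blockDefect 2 B = (Nat.card G).factorization 2) (hstab : ∀ χ ∈ B, ∃ ψ ∈ B, ∀ g : G, (ψ : G → ℂ) g = (χ : G → ℂ) (g ^ k)) : B = Cfsg.principalBlock M G := by
  classical
  have : Fintype G := Fintype.ofFinite G
  have : Fact (Nat.Prime 2) := ⟨Nat.prime_two⟩
  have hMm := hM.2.1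
  obtain ⟨ψ, hψ, hψodd⟩ := Helper82.exists_not_dvd_degree_of_blockDefect hMm hB hdef
  obtain ⟨ψ', hψ', hψ'eq⟩ := hstab ψ hψ
  have hodd : Odd (Cfsg.charDegree (ψ : G → ℂ)) := by
    rw [← Nat.not_even_iff_odd, even_iff_two_dvd]
    exact hψodd
  have hmem : ψ ∈ Cfsg.principalBlock M G := by
    apply Helper82.mem_principalBlock_of_twist hM ψ ψ' hodd
      (Helper16.sameBlock_of_mem hMm hB hψ hψ')
    intro g hg
    rw [hψ'eq g, hk₂ g hg]
  rw [Helper16.eq_blockOf_of_mem hMm hB hψ]
  exact Helper16.blockOf_eq_of_mem hMm hmem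

end Cfsg.Agent.S4517
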