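-- Statement S4518 (row 4518).
import Cfsg.Statements.S4518
import Cfsg.Agent.Helper75.Clifford

set_option autoImplicit false
open Cfsg

namespace Cfsg.Agent.S4518

open Cfsg.Agent.Helper75

/-- Let N be a normal subgroup of the finite group G of index not divisible by the prime p, and let σ be a Galois automorphism of p-power order, given by a number k prime to the order of G with k^(p^e) ≡ 1 modulo that order, acting on characters by χ^σ(g) = χ(g^k). If the irreducible character χ of G is fixed by σ, then every irreducible constituent θ of the restriction of χ to N is fixed by σ. -/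
theorem result {G : Type*} [Group G] [Fintype G] (p : ℕ) [Fact p.Prime] (N : Subgroup G) [N.Normal] [Fintype N] (hidx : ¬ p ∣ N.index) (k e : ℕ) (hk : Nat.Coprime k (Nat.card G)) (hke : k ^ (p ^ e) ≡ 1 [MOD Nat.card G]) (χ : Cfsg.IrrCharacter G) (hχ : ∀ g : G, (χ : G → ℂ) (g ^ k) = (χ : G → ℂ) g) (θ : Cfsg.IrrCharacter N) (hθ : Cfsg.classInner (fun n : N => (χ : G → ℂ) n) (θ : N → ℂ) ≠ 0) : ∀ n : N, (θ : N → ℂ) (n ^ k) = (θ : N → ℂ) n := by
  classical
  obtain ⟨χ, hχirr⟩ := χ
  obtain ⟨θ, hθirr⟩ := θ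
  simp only at hχ hθ ⊢
  have hkN : Nat.Coprime k (Nat.card N) :=
    Nat.Coprime.coprime_dvd_right (Subgroup.card_subgroup_dvd_card N) hk
  -- the Galois twist on functions on N
  let T : (N → ℂ) → (N → ℂ) := fun φ n => φ (n ^ k)
  -- the conjugation action of G on functions on N
  let act1 : MulAction G N := MulAction.compHom N (MulAut.conjNormal (H := N))
  let act2 : MulAction G (N → ℂ) := arrowAction
  have hsmul : ∀ (g : G) (φ : N → ℂ) (n : N), (g • φ) n = φ (MulAut.conjNormal g⁻¹ n) :=
    fun g φ n => rfl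
  have hT : ∀ (g : G) (φ : N → ℂ), T (g • φ) = g • T φ := by
    intro g φ
    funext n
    show (g • φ) (n ^ k) = (g • T φ) n
    rw [hsmul, hsmul, map_pow]
  -- T θ is an irreducible character of N occurring in χ restricted to N
  have hTirr : Cfsg.IsIrrCharacter N (T θ) := isIrrCharacter_pow k hkN hθirr
  have hTinner : Cfsg.classInner (fun n : N => χ n) (T θ) ≠ 0 := by
    have : Cfsg.classInner (fun n : N => χ n) (T θ) = Cfsg.classInner (fun n : N => χ n) θ := by
      unfold Cfsg.classInner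
      congr 1
      rw [← Equiv.sum_comp (powCoprime hkN.symm) (fun n : N => χ n * (starRingEnd ℂ) (θ n))]
      apply Finset.sum_congr rfl
      intro n _
      show χ n * (starRingEnd ℂ) (θ (n ^ k)) = χ ((n ^ k : N) : G) * (starRingEnd ℂ) (θ (n ^ k))
      rw [Subgroup.coe_pow, hχ]
    rw [this]; exact hθ
  -- Clifford: T θ lies in the orbit of θ
  have hTθ : T θ ∈ MulAction.orbit G θ := by
    obtain ⟨g₁, hg₁⟩ := clifford_irrCharacter N χ hχirr θ (T θ) hθirr hTirr hθ hTinner
    refine ⟨g₁, ?_⟩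
    funext n
    show (g₁ • θ) n = T θ n
    rw [hsmul, hg₁]
    congr 1
    simp
  have hTΩ : ∀ φ ∈ MulAction.orbit G θ, T φ ∈ MulAction.orbit G θ := by
    rintro _ ⟨g, rfl⟩
    show T (g • θ) ∈ MulAction.orbit G θ
    rw [hT]
    obtain ⟨g₁, hg₁⟩ := hTθ
    rw [← hg₁]
    exact ⟨g * g₁, by simp [mul_smul]⟩
  -- the orbit is finite, of size dividing the index of N
  have : Finite (MulAction.orbit G θ) := Set.finite_range _
  let _ : Fintype (MulAction.orbit G θ) := Fintype.ofFinite _
  have hNstab : N ≤ MulAction.stabilizer G θ := by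
    intro n₀ hn₀
    rw [MulAction.mem_stabilizer_iff]
    funext n
    rw [hsmul]
    obtain ⟨b, τ, -, rfl⟩ := hθirr
    have e1 : MulAut.conjNormal n₀⁻¹ n = (⟨n₀, hn₀⟩ : N)⁻¹ * n * (⟨n₀, hn₀⟩ : N)⁻¹⁻¹ := by
      ext; simp
    rw [e1, Representation.char_conj]
  have hcard : ¬ p ∣ Fintype.card (MulAction.orbit G θ) := by
    intro hdvd
    apply hidx
    have h1 : (MulAction.stabilizer G θ).index ∣ N.index := Subgroup.index_dvd_of_le hNstab
    rw [MulAction.index_stabilizer, ← Nat.card_coe_set_eq, Nat.card_eq_fintype_card] at h1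
    exact dvd_trans hdvd h1
  -- T as a self-map of the orbit, of order dividing p ^ e
  let f : Function.End (MulAction.orbit G θ) := fun φ => ⟨T φ.1, hTΩ φ.1 φ.2⟩
  have hfpow : ∀ (j : ℕ) (φ : MulAction.orbit G θ) (n : N), ((f ^ j) φ).1 n = φ.1 (n ^ (k ^ j)) := by
    intro j
    induction j with
    | zero => intro φ n; rw [pow_zero, pow_zero, pow_one]; rfl
    | succ j ih =>
      intro φ n
      rw [pow_succ]
      show ((f ^ j) (f φ)).1 n = _
      rw [ih]
      show φ.1 ((n ^ k ^ j) ^ k) = _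
      rw [← pow_mul, ← pow_succ]
  have hf1 : f ^ p ^ e = 1 := by
    funext φ
    apply Subtype.ext
    funext n
    rw [hfpow]
    show φ.1 (n ^ k ^ p ^ e) = φ.1 n
    have h1 : k ^ p ^ e ≡ 1 [MOD orderOf n] :=
      hke.of_dvd (by
        have h2 : orderOf n ∣ Nat.card N := orderOf_dvd_natCard n
        exact dvd_trans h2 (Subgroup.card_subgroup_dvd_card N))
    have h5 : n ^ k ^ p ^ e = n := by
      have := (pow_eq_pow_iff_modEq (x := n)).mpr h1
      simpa using this
    rw [h5]
  have hmod := Equiv.Perm.card_fixedPoints_modEq (f := f) (p := p) (n := e) hf1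
  have hfix : ∃ φ : MulAction.orbit G θ, f φ = φ := by
    by_contra hcon
    push Not at hcon
    have hempty : IsEmpty (Function.fixedPoints f) := ⟨fun x => hcon x.1 x.2⟩
    have h0 : Fintype.card (Function.fixedPoints f) = 0 := Fintype.card_eq_zero
    rw [h0] at hmod
    exact hcard ((Nat.modEq_zero_iff_dvd).mp hmod)
  obtain ⟨⟨φ₀, g₀, rfl⟩, hφ₀⟩ := hfix
  have h3 : T (g₀ • θ) = g₀ • θ := congrArg Subtype.val hφ₀
  rw [hT] at h3
  have h4 : T θ = θ := smul_left_cancel g₀ h3
  intro n
  exact congrFun h4 n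

end Cfsg.Agent.S4518
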