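import Cfsg.Statements.S4521
import Cfsg.Agent.Helper76.CentralProd

set_option autoImplicit false
open Cfsg

namespace Cfsg.Agent.S4521

/-- Let the finite group G be generated by subgroups U₁ and U₂ that commute elementwise and whose intersection is a p-group, and let M be a maximal ideal of the algebraic integers containing the prime p. If the irreducible character χ of G has the irreducible constituents ψ₁ on U₁ and ψ₂ on U₂, then χ lies in the principal block of G if and only if ψ₁ and ψ₂ lie in the principal blocks of U₁ and U₂. -/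
theorem result {G : Type*} [Group G] [Fintype G] (p : ℕ) [Fact p.Prime] (M : Ideal Cfsg.AlgInt) (hM : Cfsg.IsPModular p M) (U₁ U₂ : Subgroup G) [Fintype U₁] [Fintype U₂] (hcomm : ∀ u ∈ U₁, ∀ v ∈ U₂, u * v = v * u) (hgen : U₁ ⊔ U₂ = ⊤) (hZ : IsPGroup p ↥(U₁ ⊓ U₂)) (χ : Cfsg.IrrCharacter G) (ψ₁ : Cfsg.IrrCharacter U₁) (ψ₂ : Cfsg.IrrCharacter U₂) (h₁ : Cfsg.classInner (fun u : U₁ => (χ : G → ℂ) u) (ψ₁ : U₁ → ℂ) ≠ 0) (h₂ : Cfsg.classInner (fun u : U₂ => (χ : G → ℂ) u) (ψ₂ : U₂ → ℂ) ≠ 0) : χ ∈ Cfsg.principalBlock M G ↔ (ψ₁ ∈ Cfsg.principalBlock M U₁ ∧ ψ₂ ∈ Cfsg.principalBlock M U₂) := by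
  classical
  have hMm := hM.2.1
  have key := Helper76.omega_pregInd_central_prod (p := p) hcomm hgen hZ χ ψ₁ ψ₂ h₁ h₂
  rw [Helper75.mem_principalBlock_iff_omega hM, Helper75.mem_principalBlock_iff_omega hM,
    Helper75.mem_principalBlock_iff_omega hM, key]
  have hr1 : Cfsg.MemLocalRing M (Helper81.omega (ψ₁ : U₁ → ℂ) (Helper75.pregInd p U₁)) :=
    Helper16.omega_memLocalRing hMm ψ₁ (Helper75.pregInd_isClassFunction p)
      (Helper75.pregInd_memLocalRing hMm p)
  have hr2 : Cfsg.MemLocalRing M (Helper81.omega (ψ₂ : U₂ → ℂ) (Helper75.pregInd p U₂)) :=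
    Helper16.omega_memLocalRing hMm ψ₂ (Helper75.pregInd_isClassFunction p)
      (Helper75.pregInd_memLocalRing hMm p)
  constructor
  · intro h
    exact ⟨fun h1 => h (Helper77.memLocalIdeal_mul' hMm h1 hr2),
      fun h2 => h (Helper77.memLocalIdeal_mul hMm hr1 h2)⟩
  · rintro ⟨h1, h2⟩ h
    apply h2
    have hne : Helper81.omega (ψ₁ : U₁ → ℂ) (Helper75.pregInd p U₁) ≠ 0 := by
      intro h0
      rw [h0] at h1
      exact h1 (Helper77.memLocalIdeal_zero hMm)
    have hinv := Helper77.memLocalRing_inv hMm hr1 h1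
    have h3 := Helper77.memLocalIdeal_mul hMm hinv h
    rwa [← mul_assoc, inv_mul_cancel₀ hne, one_mul] at h3

end Cfsg.Agent.S4521
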