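import Cfsg.Statements.S4538
import Cfsg.Agent.Helper40.DZMain
import Cfsg.Agent.S0955
import Cfsg.Agent.S0914
import Cfsg.Agent.Helper77.Defect
import Cfsg.Agent.Helper16.DefectGroup
import Cfsg.Agent.Helper16.DefectZero

set_option autoImplicit false
open Cfsg
namespace Cfsg.Agent.S4538

open Cfsg.Agent.Helper40.DZ Cfsg.Agent.Helper44.PSLn Cfsg.Agent.Helper40.DZMain in
/-- Let F be a finite field of characteristic p and n ≥ 2. Relative to a maximal ideal M of the algebraic integers containing p, the group SL(n, F) has exactly one p-block of defect zero, and every other p-block has full defect (its defect equals the exponent of p in the order of the group, so its defect groups are Sylow p-subgroups). -/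
theorem result {F : Type*} [Field F] [Fintype F] (n : ℕ) (hn : 2 ≤ n) (p : ℕ) [Fact p.Prime] [CharP F p] (M : Ideal Cfsg.AlgInt) (hM : Cfsg.IsPModular p M) : Nat.card {B : Set (Cfsg.IrrCharacter (Matrix.SpecialLinearGroup (Fin n) F)) // Cfsg.IsPBlock M B ∧ Cfsg.blockDefect p B = 0} = 1 ∧ ∀ B : Set (Cfsg.IrrCharacter (Matrix.SpecialLinearGroup (Fin n) F)), Cfsg.IsPBlock M B → Cfsg.blockDefect p B = 0 ∨ Cfsg.blockDefect p B = (Nat.card (Matrix.SpecialLinearGroup (Fin n) F)).factorization p := by
  classical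
  have hp : p.Prime := Fact.out
  have hn0 : 0 < n := by omega
  have hMm : M.IsMaximal := hM.2.1
  have hP : M.IsPrime := hMm.isPrime
  obtain ⟨f, -, hqf⟩ := FiniteField.card F p
  have hf1 : 1 ≤ (f : ℕ) := f.pos
  set G := Matrix.SpecialLinearGroup (Fin n) F with hG
  -- the unitriangular subgroup is a Sylow `p`-subgroup
  have hUp : IsPGroup p (UniS n F) := isPGroup_UniS p f hqf
  have hUidx : ¬ p ∣ (UniS n F).index := not_dvd_index_UniS p f hqf hf1 hn0
  have hUcard : Nat.card (UniS n F) = p ^ (Nat.card G).factorization p := by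
    have h1 := (uniSyl p f hqf hf1 hn0 : Sylow p G).card_eq_multiplicity
    rw [← h1]
    exact congrArg (fun H : Subgroup G => Nat.card H) (uniSyl_coe p f hqf hf1 hn0).symm
  have hUq : Nat.card (UniS n F) = Fintype.card F ^ (∑ i ∈ Finset.range n, i) := card_UniS
  -- nontrivial elements of `U` are `p`-singular
  have hsing : ∀ u ∈ UniS n F, u ≠ 1 → p ∣ orderOf u := by
    intro u hu hu1
    obtain ⟨k, hk⟩ := hUp ⟨u, hu⟩
    have hk' : u ^ (p ^ k) = 1 := by
      have := congrArg Subtype.val hk
      simpa using this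
    obtain ⟨j, -, hjo⟩ := (Nat.dvd_prime_pow hp).1 (orderOf_dvd_of_pow_eq_one hk')
    have hj0 : j ≠ 0 := by
      rintro rfl
      rw [pow_zero, orderOf_eq_one_iff] at hjo
      exact hu1 hjo
    rw [hjo]
    exact dvd_pow_self p hj0
  -- the Steinberg character
  have hStirr : Cfsg.IsIrrCharacter G (stSL n F) :=
    Cfsg.Agent.Helper40.SteinbergPSL.restrict_isIrr hn0 (fun _ => 1) monotone_const (by simp)
  set St : Cfsg.IrrCharacter G := ⟨stSL n F, hStirr⟩ with hStdef
  have hSt1 : (St : G → ℂ) 1 = ((Fintype.card F ^ (∑ i ∈ Finset.range n, i) : ℕ) : ℂ) := by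
    show stSL n F 1 = _
    unfold stSL
    rw [map_one, Cfsg.Agent.Helper40.SteinbergPSL.steinberg_degree]
    push_cast
    rfl
  have hStdeg : Cfsg.charDegree (St : G → ℂ) = Nat.card (UniS n F) := by
    rw [Cfsg.charDegree, hSt1, hUq, Complex.natCast_re, Nat.floor_natCast]
  -- a block of defect zero is the block of the Steinberg character
  have huniq : ∀ B : Set (Cfsg.IrrCharacter G), Cfsg.IsPBlock M B → Cfsg.blockDefect p B = 0 →
      B = Cfsg.blockOf M (St : G → ℂ) := by
    intro B hB hd
    obtain ⟨χ, hχ⟩ := Cfsg.Agent.Helper16.exists_mem_of_isPBlock hMm hB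
    obtain ⟨d, ρ, hρ, hρχ⟩ := χ.2
    have hvan : ∀ u ∈ UniS n F, u ≠ 1 → ρ.character u = 0 := by
      intro u hu hu1
      rw [hρχ]
      exact Cfsg.Agent.Helper16.irr_eq_zero_of_blockDefect_zero hp hd hχ (hsing u hu hu1)
    have hχSt : (χ : G → ℂ) = stSL n F := by
      rw [← hρχ]
      exact st_unique hn0 ρ hρ hvan
    have hχeq : χ = St := Subtype.ext hχSt
    rw [Cfsg.Agent.Helper16.eq_blockOf_of_mem hMm hB hχ, hχeq]
  -- the block of the Steinberg character has defect zero
  have hex : Cfsg.blockDefect p (Cfsg.blockOf M (St : G → ℂ)) = 0 := by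
    have h1 : Cfsg.blockOf M (St : G → ℂ) = {St} := by
      apply (Cfsg.Agent.S0914.result p M hM St).1
      rw [hStdeg]
      have h2 : Nat.card G / Nat.card (UniS n F) = (UniS n F).index := by
        rw [← Subgroup.card_mul_index (UniS n F)]
        exact Nat.mul_div_cancel_left _ Nat.card_pos
      rw [h2]
      exact hUidx
    rw [h1]
    unfold Cfsg.blockDefect
    rw [Set.image_singleton, csInf_singleton, hStdeg, hUcard, hp.factorization_pow,
      Finsupp.single_eq_same]
    exact Nat.sub_self _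
  refine ⟨?_, ?_⟩
  · rw [Nat.card_eq_one_iff_unique]
    refine ⟨⟨fun a b => ?_⟩, ⟨⟨Cfsg.blockOf M (St : G → ℂ), ⟨St, rfl⟩, hex⟩⟩⟩
    apply Subtype.ext
    rw [huniq a.1 a.2.1 a.2.2, huniq b.1 b.2.1 b.2.2]
  · intro B hB
    obtain ⟨D, hD⟩ := Cfsg.Agent.Helper16.exists_isDefectGroup (p := p) hMm hB
    have hcard := Cfsg.Agent.Helper77.card_of_isDefectGroup hM hB hD
    obtain ⟨g, hg, hDg, hcg, hDp⟩ := Cfsg.Agent.Helper16.isDefectGroup_exists_data hD
    by_cases hD1 : D = ⊥
    · left
      rw [hD1, Subgroup.card_bot] at hcard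
      by_contra h0
      have : 1 < p ^ Cfsg.blockDefect p B := Nat.one_lt_pow h0 hp.one_lt
      omega
    · right
      have hreg : ¬ p ∣ orderOf g := by
        intro hdvd
        apply hg.2.1
        rw [Cfsg.Agent.Helper77.blockCoeff_eq_zero_of_dvd_orderOf hM hB hdvd]
        exact Cfsg.Agent.Helper77.memLocalIdeal_zero hMm
      have hrad := Cfsg.Agent.S0955.result p M hM B hB D hD
      have hcen := radical_central p hn0 D hDp hD1 hrad g hDg hreg
      have htop : Subgroup.centralizer ({g} : Set G) = ⊤ := by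
        rw [eq_top_iff]
        intro y _
        rw [Subgroup.mem_centralizer_iff]
        intro h hh
        rw [Set.mem_singleton_iff] at hh
        subst hh
        exact (Subgroup.mem_center_iff.mp hcen y).symm
      rw [htop, Subgroup.card_top] at hcg
      exact Nat.pow_right_injective hp.two_le (hcard.symm.trans hcg)

end Cfsg.Agent.S4538
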