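import Cfsg.Statements.S4539
import Cfsg.Agent.Helper73.MajArith
import Cfsg.Agent.Helper73.MajContrib
import Cfsg.Agent.Helper75.MajorBlock

set_option autoImplicit false
open Cfsg

namespace Cfsg.Agent.S4539

/-- Let B be a p-block of the finite group G (relative to a maximal ideal M of the algebraic integers containing p) of defect d with defect group D. Let z be an element of D commuting with every element of D, and let b be a block of the centralizer C of z with defect group D that induces B (a major subsection (z, b)). If b has p-regular rank at most two, then B contains at most p ^ d irreducible characters. -/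
theorem result {G : Type*} [Group G] [Finite G] (p : ℕ) [Fact p.Prime] (M : Ideal Cfsg.AlgInt) (hM : Cfsg.IsPModular p M) (B : Set (Cfsg.IrrCharacter G)) (hB : Cfsg.IsPBlock M B) (D : Subgroup G) (hD : Cfsg.IsDefectGroup p M B D) (z : G) (hzD : z ∈ D) (hzc : ∀ d ∈ D, d * z = z * d) (b : Set (Cfsg.IrrCharacter ↥(Subgroup.centralizer ({z} : Set G)))) (hb : Cfsg.IsInducedBlock M (Subgroup.centralizer ({z} : Set G)) b B) (hbD : Cfsg.IsDefectGroup p M b (D.subgroupOf (Subgroup.centralizer ({z} : Set G)))) (hl : Cfsg.blockRank p b ≤ 2) : Nat.card B ≤ p ^ Cfsg.blockDefect p B := by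
  classical
  have := Fintype.ofFinite G
  let _ : Fintype (Subgroup.centralizer ({z} : Set G)) := Fintype.ofFinite _
  have := Fintype.ofFinite (Cfsg.IrrCharacter G)
  obtain ⟨BF, hBFdef⟩ : ∃ BF : Finset (Cfsg.IrrCharacter G),
      BF = Finset.univ.filter (fun χ : Cfsg.IrrCharacter G => χ ∈ B) := ⟨_, rfl⟩
  have hBF : ∀ χ, χ ∈ BF ↔ χ ∈ B := by
    intro χ
    rw [hBFdef]
    simp
  have hcardB : Nat.card B = BF.card := by
    rw [Nat.card_eq_fintype_card, hBFdef, Fintype.card_subtype]
  rw [hcardB]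
  have hMm := hM.2.1
  have hp := hM.1
  have hbblk := hb.1
  -- `z` is a `p`-element
  have hcardD := Helper77.card_of_isDefectGroup hM hB hD
  have hu : ∃ j : ℕ, orderOf z = p ^ j := by
    have h1 := Subgroup.orderOf_dvd_natCard D hzD
    rw [hcardD] at h1
    obtain ⟨j, -, hj⟩ := (Nat.dvd_prime_pow hp).mp h1
    exact ⟨j, hj⟩
  -- the defects agree
  have hDC : D ≤ Subgroup.centralizer ({z} : Set G) := by
    intro x hx
    rw [Subgroup.mem_centralizer_iff]
    intro s hs
    rw [Set.mem_singleton_iff] at hs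
    rw [hs]
    exact (hzc x hx).symm
  obtain ⟨d, hd⟩ : ∃ d : ℕ, Cfsg.blockDefect p B = d := ⟨_, rfl⟩
  have hq : Cfsg.blockDefect p b = d := by
    have h1 := Helper77.card_of_isDefectGroup hM hbblk hbD
    have h2 : Nat.card (D.subgroupOf (Subgroup.centralizer ({z} : Set G))) = Nat.card D :=
      Nat.card_congr (Subgroup.subgroupOfEquivOfLe hDC).toEquiv
    rw [h2, hcardD, hd] at h1
    exact (Nat.pow_right_injective hp.two_le h1).symm
  rw [hd]
  have huC : z ∈ (Subgroup.centralizer ({z} : Set G)) := by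
    rw [Subgroup.mem_centralizer_iff]
    intro s hs
    rw [Set.mem_singleton_iff] at hs
    rw [hs]
  have hcent : ∀ h : (Subgroup.centralizer ({z} : Set G)), z * (h : G) = (h : G) * z :=
    fun c => Subgroup.mem_centralizer_iff.mp c.2 z rfl
  have hHC : ∀ g : G, z * g = g * z → g ∈ Subgroup.centralizer ({z} : Set G) := by
    intro g hg
    rw [Subgroup.mem_centralizer_iff]
    intro s hs
    rw [Set.mem_singleton_iff] at hs
    rw [hs]
    exact hg
  obtain ⟨α, β, γ, x, y, h1, h2, h3, h4, hx, hxi, hy, hyi, hform⟩ :=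
    Helper73.maj_contrib_coords (G := G) (Subgroup.centralizer ({z} : Set G)) hM z huC hcent hu
      hbblk hq hl
  have hn : Nat.card G ≠ 0 := Nat.card_pos.ne'
  choose σ hσ using fun u : (ZMod (Nat.card G))ˣ =>
    Helper75.exists_ringEquiv_pow (Nat.card G) hn (u : ZMod (Nat.card G)).val
      (ZMod.val_coe_unit_coprime u)
  refine Helper73.maj_card_le (Nat.card G) σ hσ BF
    (fun χ => Cfsg.blockHeight p B (χ : G → ℂ)) p d (Cfsg.blockRank p b) hp.two_le hl
    α β γ h1 h2 h3 h4 x y hx hxi hy hyi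
    (fun χ ψ => Helper75.contrib (Subgroup.centralizer ({z} : Set G)) z b p d
      (χ : G → ℂ) (ψ : G → ℂ)) hform ?_ ?_ ?_ ?_ ?_
  · intro χ _
    exact Helper75.contrib_row hM z hu B b hb BF hBF d χ
  · exact Helper75.contrib_trace hM z hu B b hb BF hBF d
  · intro χ hχ hne
    exact Helper73.maj_contrib_mean_ge hM z hu hbblk hq hd σ hσ ((hBF χ).mp hχ) hne
  · intro ψ₀ hψ₀ h0 χ hχ hzero
    have hψ₀B := (hBF ψ₀).mp hψ₀
    have hχB := (hBF χ).mp hχ
    have hmem : Cfsg.MemLocalIdeal M
        (Helper75.contrib (Subgroup.centralizer ({z} : Set G)) z b p d (ψ₀ : G → ℂ) (χ : G → ℂ)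
          / (p : ℂ) ^ Cfsg.blockHeight p B (χ : G → ℂ)) := by
      rw [hzero, zero_div]
      exact Helper77.memLocalIdeal_zero hMm
    have h5 := Helper75.contrib_div_memLocalIdeal (Subgroup.centralizer ({z} : Set G)) hM z huC
      hcent hHC hu hbblk hB hd ψ₀ hψ₀B hχB hmem
    rw [h0, pow_zero, div_one] at h5
    exact Helper75.contrib_not_memLocalIdeal (Subgroup.centralizer ({z} : Set G)) hM z huC hcent
      hu hb hq hψ₀B h0 hψ₀B h0 h5
  · obtain ⟨ψ₀, hψ₀, h0⟩ := Helper16.exists_height_zero (p := p) hMm hB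
    exact ⟨ψ₀, (hBF ψ₀).mpr hψ₀, h0⟩

end Cfsg.Agent.S4539
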