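import Cfsg.Statements.S4541
import Cfsg.Agent.Helper75.KZero

set_option autoImplicit false
open Cfsg

namespace Cfsg.Agent.S4541

/-- Let B be a 2-block of the finite group G (relative to a maximal ideal M of the algebraic integers containing 2), u a 2-element, and b a block of the centralizer of u inducing B (a subsection (u, b)), of defect q and 2-regular rank l; write s for the integer square root of l and k₀(B) for the number of members of B of height zero. If s is odd then k₀(B) ≤ s·2 ^ q, and otherwise (s + 1)·k₀(B) ≤ l·2 ^ q; in particular k₀(B) ≤ 2 ^ q when l ≤ 3. -/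
theorem result {G : Type*} [Group G] [Finite G] (M : Ideal Cfsg.AlgInt) (hM : Cfsg.IsPModular 2 M) (B : Set (Cfsg.IrrCharacter G)) (hB : Cfsg.IsPBlock M B) (u : G) (hu : ∃ j : ℕ, orderOf u = 2 ^ j) (b : Set (Cfsg.IrrCharacter ↥(Subgroup.centralizer ({u} : Set G)))) (hb : Cfsg.IsInducedBlock M (Subgroup.centralizer ({u} : Set G)) b B) : (Odd (Nat.sqrt (Cfsg.blockRank 2 b)) → Nat.card {χ : Cfsg.IrrCharacter G // χ ∈ B ∧ Cfsg.blockHeight 2 B (χ : G → ℂ) = 0} ≤ Nat.sqrt (Cfsg.blockRank 2 b) * 2 ^ Cfsg.blockDefect 2 b) ∧ (¬ Odd (Nat.sqrt (Cfsg.blockRank 2 b)) → (Nat.sqrt (Cfsg.blockRank 2 b) + 1) * Nat.card {χ : Cfsg.IrrCharacter G // χ ∈ B ∧ Cfsg.blockHeight 2 B (χ : G → ℂ) = 0} ≤ Cfsg.blockRank 2 b * 2 ^ Cfsg.blockDefect 2 b) ∧ (Cfsg.blockRank 2 b ≤ 3 → Nat.card {χ : Cfsg.IrrCharacter G // χ ∈ B ∧ Cfsg.blockHeight 2 B (χ : G → ℂ) = 0} ≤ 2 ^ Cfsg.blockDefect 2 b) := by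
  classical
  have := Fintype.ofFinite G
  let _ : Fintype (Subgroup.centralizer ({u} : Set G)) := Fintype.ofFinite _
  have := Fintype.ofFinite (Cfsg.IrrCharacter G)
  obtain ⟨B0, hB0def⟩ : ∃ B0 : Finset (Cfsg.IrrCharacter G),
      B0 = Finset.univ.filter (fun χ : Cfsg.IrrCharacter G =>
        χ ∈ B ∧ Cfsg.blockHeight 2 B (χ : G → ℂ) = 0) := ⟨_, rfl⟩
  have hB0 : ∀ χ, χ ∈ B0 ↔ χ ∈ B ∧ Cfsg.blockHeight 2 B (χ : G → ℂ) = 0 := by
    intro χ
    rw [hB0def]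
    simp
  have hcard : Nat.card {χ : Cfsg.IrrCharacter G // χ ∈ B ∧ Cfsg.blockHeight 2 B (χ : G → ℂ) = 0}
      = B0.card := by
    rw [Nat.card_eq_fintype_card, hB0def, Fintype.card_subtype]
  rw [hcard]
  rcases Helper75.kzero_bound hM B u hu b hb B0 hB0 with h0 | ⟨t, ht, h1, h2⟩
  · rw [h0]
    simp
  · exact Helper75.kzero_arith _ _ _ t ht h1 h2

end Cfsg.Agent.S4541
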