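import Cfsg.Statements.S4549
import Cfsg.Agent.Helper80.PrincipalGalois
import Cfsg.Agent.Helper81.BlockKer
import Cfsg.Agent.Helper79.Codegree
import Cfsg.Agent.Helper79.Quotient

set_option autoImplicit false
open Cfsg

namespace Cfsg.Agent.S4549

open scoped ComplexConjugate

theorem three_pow_two_pow (a : ℕ) : ∃ c : ℕ, 3 ^ (2 ^ a) = 1 + 2 ^ (a + 1) * c := by
  induction a with
  | zero => exact ⟨1, by norm_num⟩
  | succ a ih =>
    obtain ⟨c, hc⟩ := ih
    refine ⟨c + 2 ^ a * c ^ 2, ?_⟩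
    rw [pow_succ 2 a, pow_mul, hc]
    ring

/-- The exponent `k ^ (2 ^ a)` acts trivially on `G` for `a = |G|`. -/
theorem pow_pow_two_pow_eq {G : Type*} [Group G] [Finite G] (k : ℕ)
    (hk₁ : ∀ g : G, (∃ j : ℕ, orderOf g = 2 ^ j) → g ^ k = g ^ 3)
    (hk₂ : ∀ g : G, Odd (orderOf g) → g ^ k = g) (g : G) :
    g ^ (k ^ (2 ^ Nat.card G)) = g := by
  have hn : orderOf g ≠ 0 := (orderOf_pos g).ne'
  obtain ⟨j, t, ht, hjt⟩ := Nat.exists_eq_two_pow_mul_odd hn
  have htpos : 0 < t := ht.pos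
  -- `k ≡ 3 [MOD 2 ^ j]`
  have h1 : k ≡ 3 [MOD 2 ^ j] := by
    have ho : orderOf (g ^ t) = 2 ^ j := by
      rw [orderOf_pow' g htpos.ne', hjt, Nat.gcd_eq_right (Dvd.intro_left _ rfl),
        Nat.mul_div_cancel _ htpos]
    have := hk₁ (g ^ t) ⟨j, ho⟩
    rw [pow_eq_pow_iff_modEq, ho] at this
    exact this
  -- `k ≡ 1 [MOD t]`
  have h2 : k ≡ 1 [MOD t] := by
    have h2j : 0 < 2 ^ j := Nat.pos_of_ne_zero (by positivity)
    have ho : orderOf (g ^ (2 ^ j)) = t := by
      rw [orderOf_pow' g h2j.ne', hjt, Nat.gcd_eq_right (Dvd.intro _ rfl),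
        Nat.mul_div_cancel_left _ h2j]
    have := hk₂ (g ^ (2 ^ j)) (by rw [ho]; exact ht)
    nth_rewrite 2 [← pow_one (g ^ (2 ^ j))] at this
    rw [pow_eq_pow_iff_modEq, ho] at this
    exact this
  have hj : j ≤ Nat.card G + 1 := by
    have h3 : 2 ^ j ≤ Nat.card G := by
      have h4 : 2 ^ j ∣ orderOf g := Dvd.intro _ hjt.symm
      exact le_trans (Nat.le_of_dvd (orderOf_pos g) h4) (orderOf_le_card)
    have h5 : j < 2 ^ j := Nat.lt_two_pow_self
    omega
  have h3 : k ^ (2 ^ Nat.card G) ≡ 1 [MOD 2 ^ j] := by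
    have h4 : k ^ (2 ^ Nat.card G) ≡ 3 ^ (2 ^ Nat.card G) [MOD 2 ^ j] := h1.pow _
    refine h4.trans ?_
    obtain ⟨c, hc⟩ := three_pow_two_pow (Nat.card G)
    rw [hc]
    have h5 : 2 ^ j ∣ 2 ^ (Nat.card G + 1) * c :=
      Dvd.dvd.mul_right (pow_dvd_pow 2 hj) c
    exact (Nat.modEq_iff_dvd' (Nat.le_add_right 1 _)).mpr (by simpa using h5) |>.symm
  have h4 : k ^ (2 ^ Nat.card G) ≡ 1 [MOD t] := by
    have := h2.pow (2 ^ Nat.card G)
    rwa [one_pow] at this
  have hcop : Nat.Coprime (2 ^ j) t :=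
    Nat.Coprime.pow_left j (Nat.coprime_two_left.mpr ht)
  have h5 : k ^ (2 ^ Nat.card G) ≡ 1 [MOD 2 ^ j * t] :=
    (Nat.modEq_and_modEq_iff_modEq_mul hcop).mp ⟨h3, h4⟩
  rw [← hjt] at h5
  have h6 := (pow_eq_pow_iff_modEq (x := g)).mpr h5
  rwa [pow_one] at h6

/-- Let G be a finite group and M a maximal ideal of the algebraic integers containing 2. Let k be a natural number with g ^ k = g ^ 3 for every 2-element g and g ^ k = g for every element g of odd order (such k exist); an irreducible character χ is unchanged by g ↦ g ^ k exactly when it is fixed by the field automorphism that cubes the 2-power roots of unity and fixes the roots of unity of odd order. Then G has a normal 2-complement if and only if every member χ of the principal 2-block of odd degree with χ (g ^ k) = χ g for all g has degree one. -/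
theorem result {G : Type*} [Group G] [Finite G] (M : Ideal Cfsg.AlgInt) (hM : Cfsg.IsPModular 2 M) (k : ℕ) (hk₁ : ∀ g : G, (∃ j : ℕ, orderOf g = 2 ^ j) → g ^ k = g ^ 3) (hk₂ : ∀ g : G, Odd (orderOf g) → g ^ k = g) : Cfsg.HasNormalPComplement 2 G ↔ ∀ χ ∈ Cfsg.principalBlock M G, Odd (Cfsg.charDegree (χ : G → ℂ)) → (∀ g : G, (χ : G → ℂ) (g ^ k) = (χ : G → ℂ) g) → Cfsg.charDegree (χ : G → ℂ) = 1 := by
  have : Fact (Nat.Prime 2) := ⟨Nat.prime_two⟩
  have hp : Nat.Prime 2 := Nat.prime_two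
  constructor
  · rintro ⟨P, N, hN, hc⟩ χ hχ hodd _
    have : Fintype G := Fintype.ofFinite G
    have : Fintype N := Fintype.ofFinite N
    have hNp : ¬ 2 ∣ Nat.card N := by
      have h1 : (P : Subgroup G).index = Nat.card N := hc.index_eq_card
      rw [← h1]
      exact P.not_dvd_index
    have hker : ∀ n ∈ N, (χ : G → ℂ) n = (χ : G → ℂ) 1 :=
      Helper81.apply_eq_one_of_sameBlock hM N hNp (χ := Helper80.trivIrr G) (ψ := χ) hχ
        (fun n _ => rfl)
    obtain ⟨ψ, hψ, hψχ⟩ := Helper79.exists_irr_deflation N χ.2 hker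
    have hdvd : Cfsg.charDegree ψ ∣ Nat.card (G ⧸ N) :=
      Helper79.irr_charDegree_dvd_card (⟨ψ, hψ⟩ : Cfsg.IrrCharacter (G ⧸ N))
    have hdeg_eq : Cfsg.charDegree ψ = Cfsg.charDegree (χ : G → ℂ) := by
      unfold Cfsg.charDegree
      rw [← hψχ 1]
      rfl
    have hcard : Nat.card (G ⧸ N) = Nat.card (P : Subgroup G) := by
      have h1 : N.index = Nat.card (P : Subgroup G) := hc.symm.index_eq_card
      rw [← h1]
      rfl
    obtain ⟨e, he⟩ := (IsPGroup.iff_card).mp P.2
    rw [hdeg_eq, hcard, he] at hdvd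
    obtain ⟨j, -, hj⟩ := (Nat.dvd_prime_pow hp).mp hdvd
    rw [hj] at hodd ⊢
    have hj0 : j = 0 := by
      by_contra hne
      exact (Nat.not_even_iff_odd.mpr hodd) (even_iff_two_dvd.mpr (dvd_pow_self 2 hne))
    rw [hj0, pow_zero]
  · intro h
    -- `k` is prime to `|G|`
    have hk : Nat.Coprime k (Nat.card G) := by
      apply Nat.coprime_of_dvd
      intro r hr hrk hrG
      have : Fact r.Prime := ⟨hr⟩
      obtain ⟨g, hg⟩ := exists_prime_orderOf_dvd_card' (G := G) r hrG
      have hgk : g ^ k = 1 := by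
        rw [← orderOf_dvd_iff_pow_eq_one, hg]
        exact hrk
      by_cases hr2 : r = 2
      · have h3 := hk₁ g ⟨1, by rw [hg, hr2, pow_one]⟩
        rw [hgk] at h3
        have h4 : orderOf g ∣ 3 := orderOf_dvd_of_pow_eq_one h3.symm
        rw [hg, hr2] at h4
        omega
      · have hodd : Odd (orderOf g) := by
          rw [hg]
          exact hr.odd_of_ne_two hr2
        have h3 := hk₂ g hodd
        rw [hgk] at h3
        rw [← h3, orderOf_one] at hg
        exact hr.one_lt.ne hg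
    let P : Sylow 2 G := default
    apply Helper80.hasNormalPComplement_of_forall_hom_pow P
    intro μ hμ
    have hμ2 : ∀ y : (P : Subgroup G), μ y ^ 2 = 1 := by
      intro y
      have := congrArg (fun f : (P : Subgroup G) →* ℂˣ => f y) hμ
      simpa [MonoidHom.pow_apply] using this
    refine Helper80.exists_hom_extension_of_galois hM P (Helper75.powTwist k hk) (Nat.card G)
      ?_ ?_ ?_ μ ?_ ?_
    · intro χ
      apply Subtype.ext
      funext g
      rw [Helper75.powTwist_iterate, pow_pow_two_pow_eq k hk₁ hk₂ g]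
    · intro χ hχ
      exact Helper75.powTwist_mem_principalBlock M k hk χ hχ
    · intro χ
      exact Helper75.charDegree_powTwist k hk χ
    · intro χ _
      unfold Cfsg.classInner
      congr 1
      have hcop : (Nat.card (P : Subgroup G)).Coprime 3 := by
        obtain ⟨e, he⟩ := (IsPGroup.iff_card).mp P.2
        rw [he]
        exact Nat.Coprime.pow_left e (by norm_num)
      rw [← Equiv.sum_comp (powCoprime hcop)
        (fun z : (P : Subgroup G) => (χ : G → ℂ) z * conj ((μ z : ℂˣ) : ℂ))]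
      refine Finset.sum_congr rfl fun y _ => ?_
      have hy2 : ∃ j : ℕ, orderOf (y : G) = 2 ^ j := by
        obtain ⟨j, hj⟩ := (IsPGroup.iff_orderOf.mp P.2) y
        exact ⟨j, by rw [Subgroup.orderOf_coe, hj]⟩
      have h1 : (Helper75.powTwist k hk χ : G → ℂ) (y : G) = (χ : G → ℂ) ((y : G) ^ 3) := by
        rw [Helper75.powTwist_apply, hk₁ (y : G) hy2]
      have h2 : μ (y ^ 3) = μ y := by
        rw [map_pow, pow_succ, hμ2 y, one_mul]
      show (Helper75.powTwist k hk χ : G → ℂ) (y : G) * conj ((μ y : ℂˣ) : ℂ)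
        = (χ : G → ℂ) ((powCoprime hcop y : (P : Subgroup G)) : G)
          * conj ((μ (powCoprime hcop y) : ℂˣ) : ℂ)
      rw [h1, powCoprime_apply, h2]
      rfl
    · intro χ hχ hfix hodd
      apply h χ hχ hodd
      intro g
      have := congrArg (fun ψ : Cfsg.IrrCharacter G => (ψ : G → ℂ) g) hfix
      simpa [Helper75.powTwist_apply] using this

end Cfsg.Agent.S4549
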