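import Cfsg.Statements.S4550
import Cfsg.Agent.Helper75.BlockTwist
import Cfsg.Agent.Helper81.Blocks

set_option autoImplicit false
open Cfsg

namespace Cfsg.Agent.S4550


open Cfsg.Agent.Helper75 in
theorem coprime_aux {G : Type*} [Group G] [Finite G] (k : ℕ)
    (hk₁ : ∀ g : G, (∃ j : ℕ, orderOf g = 2 ^ j) → g ^ k = g ^ 3)
    (hk₂ : ∀ g : G, Odd (orderOf g) → g ^ k = g) : Nat.Coprime k (Nat.card G) := by
  apply Nat.coprime_of_dvd
  intro q hq hqk hqG
  have : Fact q.Prime := ⟨hq⟩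
  obtain ⟨g, hg⟩ := exists_prime_orderOf_dvd_card' q hqG
  have hgk : g ^ k = 1 := by
    rw [← orderOf_dvd_iff_pow_eq_one, hg]; exact hqk
  have hg1 : g ≠ 1 := by
    rintro rfl
    rw [orderOf_one] at hg
    exact hq.one_lt.ne hg
  rcases hq.eq_two_or_odd' with rfl | hodd
  · have h := hk₁ g ⟨1, by rw [hg, pow_one]⟩
    rw [hgk] at h
    have h2 : g ^ 2 = 1 := by rw [← hg]; exact pow_orderOf_eq_one g
    have : g ^ 3 = g := by rw [pow_succ, h2, one_mul]
    rw [this] at h
    exact hg1 h.symm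
  · have h := hk₂ g (by rw [hg]; exact hodd)
    rw [hgk] at h
    exact hg1 h.symm

theorem pow_fix_aux {G : Type*} [Group G] [Finite G] (k : ℕ)
    (hk₁ : ∀ g : G, (∃ j : ℕ, orderOf g = 2 ^ j) → g ^ k = g ^ 3)
    (hk₂ : ∀ g : G, Odd (orderOf g) → g ^ k = g) (g : G) :
    g ^ (k ^ (2 ^ (Nat.card G))) = g := by
  have hn : orderOf g ≠ 0 := (orderOf_pos g).ne'
  obtain ⟨a, b, hb, hab⟩ := Nat.exists_eq_two_pow_mul_odd hn
  have hb0 : b ≠ 0 := by rintro rfl; simp at hb
  have h2a : (2 : ℕ) ^ a ≠ 0 := by positivity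
  have h1 : k ≡ 3 [MOD 2 ^ a] := by
    have hx : orderOf (g ^ b) = 2 ^ a := by
      rw [orderOf_pow_of_dvd hb0 ⟨2 ^ a, by rw [hab, mul_comm]⟩, hab,
        Nat.mul_div_cancel _ (Nat.pos_of_ne_zero hb0)]
    have h := hk₁ (g ^ b) ⟨a, hx⟩
    rw [← pow_mul, ← pow_mul, pow_eq_pow_iff_modEq, hab, mul_comm (2 ^ a) b] at h
    exact Nat.ModEq.mul_left_cancel' hb0 h
  have h2 : k ≡ 1 [MOD b] := by
    have hx : orderOf (g ^ 2 ^ a) = b := by
      rw [orderOf_pow_of_dvd h2a ⟨b, hab⟩, hab,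
        Nat.mul_div_cancel_left _ (Nat.pos_of_ne_zero h2a)]
    have h := hk₂ (g ^ 2 ^ a) (by rw [hx]; exact hb)
    rw [← pow_mul, pow_eq_pow_iff_modEq, hab] at h
    have h' : 2 ^ a * k ≡ 2 ^ a * 1 [MOD 2 ^ a * b] := by rw [mul_one]; exact h
    exact Nat.ModEq.mul_left_cancel' h2a h'
  have hale : a ≤ Nat.card G := by
    have h1 : a < 2 ^ a := Nat.lt_two_pow_self
    have h2 : 2 ^ a ≤ orderOf g := Nat.le_of_dvd (orderOf_pos g) ⟨b, hab⟩
    have h3 : orderOf g ≤ Nat.card G := Nat.le_of_dvd Nat.card_pos (orderOf_dvd_natCard g)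
    omega
  have h3 : k ^ (2 ^ (Nat.card G)) ≡ 1 [MOD 2 ^ a] := by
    have h3' : (3 : ℕ) ^ (2 ^ (Nat.card G)) ≡ 1 [MOD 2 ^ a] := by
      rcases Nat.eq_zero_or_pos a with rfl | ha
      · rw [pow_zero]; exact Nat.modEq_one
      · obtain ⟨a', rfl⟩ : ∃ a', a = a' + 1 := ⟨a - 1, by omega⟩
        have hc : Nat.Coprime 3 (2 ^ (a' + 1)) := Nat.Coprime.pow_right _ (by norm_num)
        have ht := Nat.ModEq.pow_totient hc
        rw [Nat.totient_prime_pow_succ Nat.prime_two] at ht
        have ht' : (3 : ℕ) ^ 2 ^ a' ≡ 1 [MOD 2 ^ (a' + 1)] := by simpa using ht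
        have : 2 ^ (Nat.card G) = 2 ^ a' * 2 ^ (Nat.card G - a') := by
          rw [← pow_add]; congr 1; omega
        rw [this, pow_mul]
        simpa using ht'.pow (2 ^ (Nat.card G - a'))
    exact (h1.pow _).trans h3'
  have h4 : k ^ (2 ^ (Nat.card G)) ≡ 1 [MOD b] := by
    simpa using h2.pow (2 ^ (Nat.card G))
  have hcop : Nat.Coprime (2 ^ a) b := Nat.Coprime.pow_left a (Nat.coprime_two_left.mpr hb)
  have h5 : k ^ (2 ^ (Nat.card G)) ≡ 1 [MOD orderOf g] := by
    rw [hab]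
    exact (Nat.modEq_and_modEq_iff_modEq_mul hcop).mp ⟨h3, h4⟩
  have h6 : g ^ (k ^ (2 ^ (Nat.card G))) = g ^ 1 := pow_eq_pow_iff_modEq.mpr h5
  rw [h6, pow_one]

/-- Let G be a finite group of even order and M a maximal ideal of the algebraic integers containing 2. Let k be a natural number with g ^ k = g ^ 3 for every 2-element g and g ^ k = g for every element g of odd order (such k exist); an irreducible character χ is unchanged by g ↦ g ^ k exactly when it is fixed by the field automorphism that cubes the 2-power roots of unity and fixes the roots of unity of odd order. Then the number of members χ of the principal 2-block of odd degree with χ (g ^ k) = χ g for all g is even. -/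
theorem result {G : Type*} [Group G] [Finite G] (M : Ideal Cfsg.AlgInt) (hM : Cfsg.IsPModular 2 M) (hev : Even (Nat.card G)) (k : ℕ) (hk₁ : ∀ g : G, (∃ j : ℕ, orderOf g = 2 ^ j) → g ^ k = g ^ 3) (hk₂ : ∀ g : G, Odd (orderOf g) → g ^ k = g) : Even (Nat.card {χ : Cfsg.IrrCharacter G // χ ∈ Cfsg.principalBlock M G ∧ Odd (Cfsg.charDegree (χ : G → ℂ)) ∧ ∀ g : G, (χ : G → ℂ) (g ^ k) = (χ : G → ℂ) g}) := by
  classical
  have hk : Nat.Coprime k (Nat.card G) := coprime_aux k hk₁ hk₂
  have hfix := pow_fix_aux k hk₁ hk₂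
  let _ : Fintype G := Fintype.ofFinite G
  let _ : Fintype (IrrCharacter G) := Fintype.ofFinite _
  have hP : M.IsPrime := hM.2.1.isPrime
  set S : Finset (IrrCharacter G) := Finset.univ.filter
    (fun χ => χ ∈ principalBlock M G ∧ Odd (charDegree (χ : G → ℂ))) with hS
  have hmem : ∀ χ : IrrCharacter G, χ ∈ S ↔
      (χ ∈ principalBlock M G ∧ Odd (charDegree (χ : G → ℂ))) := by
    intro χ
    rw [hS, Finset.mem_filter]
    exact ⟨fun h => h.2, fun h => ⟨Finset.mem_univ _, h⟩⟩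
  have hSeven : Even S.card := by
    have h := Cfsg.Agent.Helper81.dvd_sum_block_degree_sq hM (even_iff_two_dvd.mp hev)
      (Cfsg.Agent.Helper81.trivIrr G)
    rw [← Cfsg.Agent.Helper81.principalBlock_eq] at h
    have hcast : ((∑ ψ ∈ Finset.univ.filter
        (fun ψ : Cfsg.IrrCharacter G => ψ ∈ Cfsg.principalBlock M G),
          (Cfsg.charDegree (ψ : G → ℂ)) ^ 2 : ℕ) : ZMod 2) = (S.card : ZMod 2) := by
      rw [Nat.cast_sum, hS, ← Finset.filter_filter, Finset.card_filter, Nat.cast_sum]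
      apply Finset.sum_congr rfl
      intro ψ _
      by_cases hodd : Odd (charDegree (ψ : G → ℂ))
      · rw [if_pos hodd, Nat.cast_pow, (ZMod.natCast_eq_one_iff_odd).mpr hodd]; simp
      · rw [if_neg hodd, Nat.cast_pow,
          (ZMod.natCast_eq_zero_iff_even).mpr (Nat.not_odd_iff_even.mp hodd)]; simp
    rw [even_iff_two_dvd, ← ZMod.natCast_eq_zero_iff, ← hcast, ZMod.natCast_eq_zero_iff]
    exact h
  let f : Function.End ↥S := fun x => ⟨Cfsg.Agent.Helper75.powTwist k hk x.1, by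
    have hx := (hmem _).mp x.2
    exact (hmem _).mpr ⟨Cfsg.Agent.Helper75.powTwist_mem_principalBlock M k hk _ hx.1,
      by rw [Cfsg.Agent.Helper75.charDegree_powTwist]; exact hx.2⟩⟩
  have hfval : ∀ (j : ℕ) (x : ↥S), ((f ^ j) x).1 = (Cfsg.Agent.Helper75.powTwist k hk)^[j] x.1 := by
    intro j
    induction j with
    | zero => intro x; rfl
    | succ j ih =>
      intro x
      rw [pow_succ, Function.iterate_succ, Function.comp_apply]
      exact ih (f x)
  have hf : f ^ 2 ^ (Nat.card G) = 1 := by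
    funext x
    apply Subtype.ext
    rw [hfval]
    apply Subtype.ext
    funext g
    rw [Cfsg.Agent.Helper75.powTwist_iterate, hfix g]
    rfl
  have : Fact (Nat.Prime 2) := ⟨Nat.prime_two⟩
  have hmod := Equiv.Perm.card_fixedPoints_modEq (f := f) (p := 2) (n := Nat.card G) hf
  rw [Fintype.card_coe] at hmod
  have hfixed_even : Even (Fintype.card (Function.fixedPoints f)) := by
    rw [even_iff_two_dvd] at hSeven ⊢
    exact (Nat.modEq_zero_iff_dvd.mp (hmod.symm.trans (Nat.modEq_zero_iff_dvd.mpr hSeven)))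
  let e : {χ : Cfsg.IrrCharacter G // χ ∈ Cfsg.principalBlock M G ∧
      Odd (Cfsg.charDegree (χ : G → ℂ)) ∧ ∀ g : G, (χ : G → ℂ) (g ^ k) = (χ : G → ℂ) g} ≃
      Function.fixedPoints f :=
    { toFun := fun x => ⟨⟨x.1, (hmem _).mpr ⟨x.2.1, x.2.2.1⟩⟩, by
          show f _ = _
          apply Subtype.ext
          apply Subtype.ext
          funext g
          exact x.2.2.2 g⟩
      invFun := fun y => ⟨y.1.1, by
          have h1 := (hmem _).mp y.1.2
          refine ⟨h1.1, h1.2, fun g => ?_⟩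
          have h2 : f y.1 = y.1 := y.2
          have h3 := congrArg (fun z : ↥S => (z.1 : G → ℂ) g) h2
          exact h3⟩
      left_inv := fun x => rfl
      right_inv := fun y => rfl }
  rw [Nat.card_congr e, Nat.card_eq_fintype_card]
  exact hfixed_even

end Cfsg.Agent.S4550
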