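import Cfsg.Statements.S4553
import Cfsg.Agent.Helper80.ResExt2

set_option autoImplicit false
open Cfsg

namespace Cfsg.Agent.S4553

open Cfsg.Agent.Helper80

/-- Let G be a finite group, p a prime, P a Sylow p-subgroup, N the p-residual of G (the subgroup generated by the elements of order prime to p, the smallest normal subgroup with G/N a p-group), and M a maximal ideal of the algebraic integers containing p; suppose G/N is cyclic and nontrivial. Let k be a natural number with g ^ k = g ^ (1 + p) for every p-element g and g ^ k = g for every element g of order prime to p (so that χ (g ^ k) is the image of χ g under the field automorphism that raises p-power roots of unity to the power 1 + p and fixes the roots of unity of order prime to p). Then the number of members χ of the principal block of G of degree prime to p with χ (g ^ k) = χ g for all g equals p times the number of members θ of the principal block of N of degree prime to p that are invariant under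 conjugation by P and satisfy θ (n ^ k) = θ n for all n. -/
theorem result {G : Type*} [Group G] [Finite G] (p : ℕ) [Fact p.Prime] (M : Ideal Cfsg.AlgInt) (hM : Cfsg.IsPModular p M) (P : Sylow p G) (N : Subgroup G) [hN : N.Normal] (hNres : N = Cfsg.pResidual p G) (hcyc : IsCyclic (G ⧸ N)) (hnt : N ≠ ⊤) (k : ℕ) (hk₁ : ∀ g : G, (∃ j : ℕ, orderOf g = p ^ j) → g ^ k = g ^ (1 + p)) (hk₂ : ∀ g : G, Nat.Coprime (orderOf g) p → g ^ k = g) : Nat.card {χ : Cfsg.IrrCharacter G // χ ∈ Cfsg.principalBlock M G ∧ ¬ p ∣ Cfsg.charDegree (χ : G → ℂ) ∧ ∀ g : G, (χ : G → ℂ) (g ^ k) = (χ : G → ℂ) g} = p * Nat.card {θ : Cfsg.IrrCharacter ↥N // θ ∈ Cfsg.principalBlock M ↥N ∧ ¬ p ∣ Cfsg.charDegree (θ : ↥N → ℂ) ∧ (∀ x ∈ (P : Subgroup G), ∀ n : ↥N, (θ : ↥N → ℂ) ⟨x * n * x⁻¹, hN.conj_mem n n.2 x⟩ = (θ : ↥N → ℂ) n) ∧ ∀ n : ↥N, (θ : ↥N → ℂ) (n ^ k) = (θ : ↥N → ℂ) n} := by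
  classical
  subst hNres
  have hp : p.Prime := Fact.out
  have hkcop : Nat.Coprime k (Nat.card G) := coprime_card_of_pow_conditions k hk₁ hk₂
  obtain ⟨a, ha⟩ := pResidual_index (G := G) p
  have hpdvd : p ∣ Nat.card (G ⧸ pResidual p G) := by
    rw [← Subgroup.index_eq_card, ha]
    apply dvd_pow_self
    intro h0
    rw [h0, pow_zero] at ha
    exact hnt (Subgroup.index_eq_one.mp ha)
  have hNreg : ∀ g : G, ¬ p ∣ orderOf g → g ∈ pResidual p G := fun g hg =>
    Cfsg.Agent.Helper47.mem_pResidual_of_coprime ((Nat.Prime.coprime_iff_not_dvd hp).mpr hg).symm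
  have hfinG : Finite (IrrCharacter G) := inferInstance
  have hfinN : Finite (IrrCharacter (pResidual p G)) := inferInstance
  -- the restriction map
  obtain ⟨r, hr⟩ : ∃ r : {χ : Cfsg.IrrCharacter G // χ ∈ Cfsg.principalBlock M G ∧
      ¬ p ∣ Cfsg.charDegree (χ : G → ℂ) ∧ ∀ g : G, (χ : G → ℂ) (g ^ k) = (χ : G → ℂ) g} →
      {θ : Cfsg.IrrCharacter (pResidual p G) // θ ∈ Cfsg.principalBlock M (pResidual p G) ∧
      ¬ p ∣ Cfsg.charDegree (θ : pResidual p G → ℂ) ∧ (∀ x ∈ (P : Subgroup G),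
      ∀ n : pResidual p G, (θ : pResidual p G → ℂ) ⟨x * n * x⁻¹, hN.conj_mem n n.2 x⟩ =
        (θ : pResidual p G → ℂ) n) ∧
      ∀ n : pResidual p G, (θ : pResidual p G → ℂ) (n ^ k) = (θ : pResidual p G → ℂ) n},
      ∀ x (n : pResidual p G), ((r x).1 : pResidual p G → ℂ) n = (x.1 : G → ℂ) n := by
    refine ⟨fun x => ⟨⟨fun n : pResidual p G => (x.1 : G → ℂ) n,
      restrict_irr_of_not_dvd (pResidual p G) ha x.1.2 x.2.2.1⟩, ?_, ?_, ?_, ?_⟩, fun x n => rfl⟩
    · exact (mem_principalBlock_restrict_iff hM (pResidual p G) hNreg x.1 _ (fun _ => rfl)).mp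
        x.2.1
    · show ¬ p ∣ charDegree (fun n : pResidual p G => (x.1 : G → ℂ) n)
      rw [charDegree_subgroup_restrict]
      exact x.2.2.1
    · intro y _ n
      show (x.1 : G → ℂ) (y * n * y⁻¹) = (x.1 : G → ℂ) n
      exact isCharacter_conj (isCharacter_of_irr x.1.2) _ _
    · intro n
      show (x.1 : G → ℂ) ((n ^ k : pResidual p G) : G) = (x.1 : G → ℂ) n
      rw [Subgroup.coe_pow]
      exact x.2.2.2 n
  apply card_eq_mul_of_fiber r p
  intro θ
  -- the canonical extension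
  have hinv := invariant_of_sylow_invariant P hN (θ.1 : pResidual p G → ℂ)
    (isCharacter_of_irr θ.1.2) θ.2.2.2.1
  obtain ⟨χ₀, hχ₀, hχ₀N, hdet⟩ := exists_irr_extension_pResidual (θ.1 : pResidual p G → ℂ)
    θ.1.2 hinv θ.2.2.1
  have hχ₀c := isCharacter_of_irr hχ₀
  have hres₀ : (fun n : pResidual p G => χ₀ n) = (θ.1 : pResidual p G → ℂ) := funext hχ₀N
  have hdeg₀ : charDegree χ₀ = charDegree (θ.1 : pResidual p G → ℂ) := by
    rw [← charDegree_subgroup_restrict (pResidual p G) χ₀, hres₀]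
  have hpd₀ : ¬ p ∣ charDegree χ₀ := by
    rw [hdeg₀]
    exact θ.2.2.1
  have hχ₀1 : χ₀ 1 = (charDegree χ₀ : ℂ) :=
    Cfsg.Agent.Helper79.isCharacter_one_eq_charDegree hχ₀c
  have hcop : Nat.Coprime (pResidual p G).index (charDegree χ₀) := by
    rw [ha]
    exact Nat.Coprime.pow_left a ((Nat.Prime.coprime_iff_not_dvd hp).mpr hpd₀)
  -- the canonical extension is fixed by the Galois twist
  have hσ₀ : ∀ g : G, χ₀ (g ^ k) = χ₀ g := by
    have hirrσ : IsIrrCharacter G (fun g => χ₀ (g ^ k)) :=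
      Cfsg.Agent.Helper75.isIrrCharacter_pow k hkcop hχ₀
    have hresσ : ∀ n : pResidual p G, (fun g => χ₀ (g ^ k)) (n : G) = χ₀ n := by
      intro n
      show χ₀ ((n : G) ^ k) = χ₀ n
      rw [← Subgroup.coe_pow, hχ₀N, hχ₀N]
      exact θ.2.2.2.2 n
    have hirrN : IsIrrCharacter (pResidual p G)
        (fun n : pResidual p G => (fun g => χ₀ (g ^ k)) (n : G)) := by
      have : (fun n : pResidual p G => (fun g => χ₀ (g ^ k)) (n : G)) =
          (θ.1 : pResidual p G → ℂ) := by
        funext n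
        rw [hresσ, hχ₀N]
      rw [this]
      exact θ.1.2
    have hdσ : ¬ p ∣ charDegree (fun g => χ₀ (g ^ k)) := by
      have : charDegree (fun g => χ₀ (g ^ k)) = charDegree χ₀ := by
        show ⌊(χ₀ (1 ^ k)).re⌋₊ = ⌊(χ₀ 1).re⌋₊
        rw [one_pow]
      rw [this]
      exact hpd₀
    have hoσ : ¬ p ∣ detOrder (fun g => χ₀ (g ^ k)) := fun h =>
      hdet (dvd_trans h (detOrder_pow_dvd k hkcop hχ₀c))
    have h1 := irr_extension_pResidual_unique (fun g => χ₀ (g ^ k)) χ₀ hirrσ hχ₀ hresσ hirrN hdσ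
      hoσ hdet
    exact fun g => congrFun h1 g
  -- the fibre
  have hmk : ∀ (β : (G ⧸ pResidual p G) →* ℂˣ) (n : pResidual p G),
      (β.comp (QuotientGroup.mk' (pResidual p G))) (n : G) = 1 := by
    intro β n
    rw [MonoidHom.comp_apply, QuotientGroup.mk'_apply, (QuotientGroup.eq_one_iff (n : G)).mpr n.2,
      map_one]
  have hΦ : ∀ β : {β : (G ⧸ pResidual p G) →* ℂˣ // ∀ c, β c ^ p = 1},
      ∃ y : {x // r x = θ}, (y.1.1 : G → ℂ) = fun g =>
        ((β.1.comp (QuotientGroup.mk' (pResidual p G))) g : ℂ) * χ₀ g := by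
    intro β
    obtain ⟨f, hf⟩ : ∃ f : G →* ℂˣ, f = β.1.comp (QuotientGroup.mk' (pResidual p G)) := ⟨_, rfl⟩
    have hfN : ∀ n : pResidual p G, f n = 1 := fun n => by rw [hf]; exact hmk β.1 n
    have hfp : ∀ g : G, f g ^ p = 1 := fun g => by
      rw [hf, MonoidHom.comp_apply]
      exact β.2 _
    have hirr : IsIrrCharacter G (fun g => (f g : ℂ) * χ₀ g) :=
      Cfsg.Agent.Helper79.isIrrCharacter_twist f hχ₀
    have hres : ∀ n : pResidual p G, (fun g => (f g : ℂ) * χ₀ g) (n : G) =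
        (θ.1 : pResidual p G → ℂ) n := by
      intro n
      show (f n : ℂ) * χ₀ n = _
      rw [hfN, Units.val_one, one_mul, hχ₀N]
    have hx : (⟨fun g => (f g : ℂ) * χ₀ g, hirr⟩ : IrrCharacter G) ∈ Cfsg.principalBlock M G ∧
        ¬ p ∣ Cfsg.charDegree (fun g => (f g : ℂ) * χ₀ g) ∧
        ∀ g : G, (fun g => (f g : ℂ) * χ₀ g) (g ^ k) = (fun g => (f g : ℂ) * χ₀ g) g := by
      refine ⟨?_, ?_, ?_⟩
      · exact (mem_principalBlock_restrict_iff hM (pResidual p G) hNreg
          ⟨fun g => (f g : ℂ) * χ₀ g, hirr⟩ θ.1 hres).mpr θ.2.1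
      · have : charDegree (fun g => (f g : ℂ) * χ₀ g) = charDegree χ₀ := by
          show ⌊((f 1 : ℂ) * χ₀ 1).re⌋₊ = ⌊(χ₀ 1).re⌋₊
          rw [map_one, Units.val_one, one_mul]
        rw [this]
        exact hpd₀
      · intro g
        show (f (g ^ k) : ℂ) * χ₀ (g ^ k) = (f g : ℂ) * χ₀ g
        rw [hσ₀, map_pow, hom_pow_eq_of_pow_conditions P k hk₁ f hfN g, pow_add, pow_one, hfp,
          mul_one]
    refine ⟨⟨⟨⟨fun g => (f g : ℂ) * χ₀ g, hirr⟩, hx⟩, ?_⟩, ?_⟩
    · apply Subtype.ext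
      apply Subtype.ext
      funext n
      rw [hr]
      exact hres n
    · show (fun g => (f g : ℂ) * χ₀ g) = _
      rw [hf]
  choose Φ hΦ' using hΦ
  have hinj : Function.Injective Φ := by
    intro β β' h
    have h1 : (fun g => ((β.1.comp (QuotientGroup.mk' (pResidual p G))) g : ℂ) * χ₀ g) =
        fun g => ((β'.1.comp (QuotientGroup.mk' (pResidual p G))) g : ℂ) * χ₀ g := by
      rw [← hΦ' β, ← hΦ' β', h]
    have h2 := twist_injective_of_coprime (pResidual p G) hχ₀c (charDegree χ₀) hχ₀1 hcop _ _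
      (hmk β.1) (hmk β'.1) h1
    apply Subtype.ext
    apply MonoidHom.ext
    intro c
    obtain ⟨g, rfl⟩ := QuotientGroup.mk_surjective c
    have h3 := congrArg (fun F : G →* ℂˣ => F g) h2
    simp only [MonoidHom.comp_apply, QuotientGroup.mk'_apply] at h3
    exact h3
  have hsurj : Function.Surjective Φ := by
    intro y
    have hyres : ∀ n : pResidual p G, (y.1.1 : G → ℂ) n = (θ.1 : pResidual p G → ℂ) n := by
      intro n
      rw [← hr y.1 n, y.2]
    obtain ⟨b, hbN, hb⟩ := exists_hom_of_extensions (pResidual p G) (θ.1 : pResidual p G → ℂ)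
      θ.1.2 χ₀ (y.1.1 : G → ℂ) hχ₀ y.1.1.2 hχ₀N hyres
    have hbk : b ^ k = b := by
      apply twist_injective_of_coprime (pResidual p G) hχ₀c (charDegree χ₀) hχ₀1 hcop
      · intro n
        rw [MonoidHom.pow_apply, hbN, one_pow]
      · exact hbN
      · funext g
        have h1 := y.1.2.2.2 g
        rw [hb] at h1
        simp only at h1
        rw [hσ₀, map_pow] at h1
        rw [MonoidHom.pow_apply]
        exact h1
    have hbp : ∀ g : G, b g ^ p = 1 := by
      intro g
      have h1 := congrArg (fun F : G →* ℂˣ => F g) hbk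
      simp only [MonoidHom.pow_apply] at h1
      rw [hom_pow_eq_of_pow_conditions P k hk₁ b hbN g, pow_add, pow_one] at h1
      exact mul_left_cancel (a := b g) (by rw [h1, mul_one])
    have hker : pResidual p G ≤ b.ker := fun n hn => MonoidHom.mem_ker.mpr (hbN ⟨n, hn⟩)
    refine ⟨⟨QuotientGroup.lift (pResidual p G) b hker, ?_⟩, ?_⟩
    · intro c
      obtain ⟨g, rfl⟩ := QuotientGroup.mk_surjective c
      rw [QuotientGroup.lift_mk]
      exact hbp g
    · apply Subtype.ext
      apply Subtype.ext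
      apply Subtype.ext
      rw [hΦ', hb]
      funext g
      rw [MonoidHom.comp_apply, QuotientGroup.mk'_apply, QuotientGroup.lift_mk]
  rw [← Nat.card_congr (Equiv.ofBijective Φ ⟨hinj, hsurj⟩)]
  exact card_hom_pow_eq_one_of_cyclic hpdvd

end Cfsg.Agent.S4553
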