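import Cfsg.Statements.S4558
import Cfsg.Agent.Helper75.Eigen

set_option autoImplicit false
open Cfsg

namespace Cfsg.Agent.S4558

/-- If a character χ of a finite group G vanishes at an element of p-power order, then p divides the degree χ(1). -/
theorem result {G : Type*} [Group G] [Finite G] (p : ℕ) [Fact p.Prime] (χ : G → ℂ) (hχ : Cfsg.IsCharacter G χ) (g : G) (hg : ∃ j : ℕ, orderOf g = p ^ j) (h0 : χ g = 0) : p ∣ Cfsg.charDegree χ := by
  obtain ⟨n, ρ, rfl⟩ := hχ
  obtain ⟨j, hj⟩ := hg
  have hp : p.Prime := Fact.out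
  have hdeg : Cfsg.charDegree ρ.character = n := by
    unfold Cfsg.charDegree
    rw [Representation.char_one]
    simp
  rw [hdeg]
  have hm : p ^ j ≠ 0 := pow_ne_zero _ hp.ne_zero
  have hf : (ρ g) ^ (p ^ j) = 1 := by
    rw [← map_pow, ← hj, pow_orderOf_eq_one, map_one]
  obtain ⟨s, hs1, hs2, hs3⟩ := Cfsg.Agent.Helper75.exists_eigen_multiset (ρ g) (p ^ j) hm hf
  have hsum : s.sum = 0 := by
    have := hs3 1
    simp only [pow_one, Multiset.map_id'] at this
    rw [← this]
    exact h0
  have := Cfsg.Agent.Helper75.prime_dvd_card_of_sum_eq_zero p hp j s hs1 hsum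
  rw [hs2] at this
  simpa using this

end Cfsg.Agent.S4558
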