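import Cfsg.Statements.S4563
import Mathlib
import Cfsg.Agent.Helper4.FRInd
import Cfsg.Agent.Helper1.HallConv

set_option autoImplicit false
open Cfsg

namespace Cfsg.Agent.S4563

open scoped Pointwise

/-- Let χ be an irreducible character of the finite group H that is fully ramified over the normal subgroup Z: the restriction of χ to Z is e times an irreducible character of Z with e ^ 2 equal to the index of Z. If K is a proper normal subgroup of H containing Z and χ is induced from a character of K, then H/K is solvable; in particular, if K is solvable then so is H. -/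
theorem result {H : Type*} [Group H] [Fintype H] (Z : Subgroup H) [Z.Normal] (χ : Cfsg.IrrCharacter H) (hfr : ∃ (θ : Cfsg.IrrCharacter ↥Z) (e : ℕ), e ^ 2 = Z.index ∧ ∀ z : ↥Z, (χ : H → ℂ) z = (e : ℂ) * (θ : ↥Z → ℂ) z) (K : Subgroup H) [K.Normal] [Fintype K] (hZK : Z ≤ K) (hK : K ≠ ⊤) (φ : ↥K → ℂ) (hφ : Cfsg.IsCharacter ↥K φ) (hind : Cfsg.indFun K φ = (χ : H → ℂ)) : Group.IsSolvable (H ⧸ K) ∧ (Group.IsSolvable ↥K → Group.IsSolvable H) := by
  classical
  obtain ⟨θ, e, he, hres⟩ := hfr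
  have hχc : IsCharacter H (χ : H → ℂ) := Helper15.isChar_of_irr χ.2
  have hsolv : Group.IsSolvable (H ⧸ K) := by
    apply Helper1.hall_converse_aux (Nat.card (H ⧸ K)) (H ⧸ K) rfl
    intro p hp
    haveI : Fact p.Prime := ⟨hp⟩
    obtain ⟨St, Q, P₁, hZQ, hQdef, hStN, hFr, hcop, hmap, hpQK⟩ := Helper4.frg_setup Z K hZK p
    have hQSt : Q ≤ St := by rw [hQdef]; exact inf_le_left
    have hQK : Q ≤ K := by rw [hQdef]; exact inf_le_right
    have : Fintype Z := Fintype.ofFinite _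
    have : Fintype Q := Fintype.ofFinite _
    have : Fintype St := Fintype.ofFinite _
    obtain ⟨ξ, a, c, hξirr, ha, hc, hξv, hξZ, hχξ⟩ :=
      Helper4.frc_sylow (χ : H → ℂ) χ.2 (θ : Z → ℂ) θ.2 e he hres St (hZQ.trans hQSt) hcop
    have hξc : IsCharacter St ξ := Helper15.isChar_of_irr hξirr
    have hξn := Helper4.frc_norm_Q hZQ hQSt (θ : Z → ℂ) θ.2 ξ a ha hξv hξZ
    have hξQc : IsCharacter Q (fun q : Q => ξ ⟨q, hQSt q.2⟩) :=
      Helper79.isCharacter_comp hξc (Subgroup.inclusion hQSt)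
    have hξQ0 : (fun q : Q => ξ ⟨q, hQSt q.2⟩) ≠ 0 := by
      intro h0
      have h1 := congrFun h0 1
      have h2 : ξ 1 ≠ 0 := Helper81.irr_one_ne_zero ⟨ξ, hξirr⟩
      exact h2 h1
    obtain ⟨μ, hμ⟩ := Helper15.exists_constituent (Helper15.isClassFunction_of_isChar hξQc) hξQ0
    have hμc : IsCharacter Q (μ : Q → ℂ) := Helper15.isChar_of_irr μ.2
    have hFinv : ∀ g : Subgroup.normalizer (Q : Set H),
        Helper4.frcSmul Q g (fun q : Q => (χ : H → ℂ) q) = fun q : Q => (χ : H → ℂ) q := by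
      intro g
      funext q
      rw [Helper4.frcSmul_apply]
      show (χ : H → ℂ) ((g : H)⁻¹ * q * g) = (χ : H → ℂ) q
      have h := Helper79.isCharacter_conj_eq hχc (q : H) (g : H)⁻¹
      rw [← h, inv_inv]
    -- arithmetic facts
    have hrel : Q.relIndex St = Nat.card P₁ := Helper4.frc_relIndex_eq_card p P₁ hQdef hmap
    have hStidx : ¬ p ∣ St.index := Helper4.frc_not_dvd_index p P₁ hQdef hmap hpQK
    have hθ1 : (θ : Z → ℂ) 1 ≠ 0 := Helper81.irr_one_ne_zero θ
    have hec : e = c * a := by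
      have h1 := hres 1
      have h2 := hχξ 1
      have h3 := hξZ 1
      have h4 : (χ : H → ℂ) (((1 : Z) : H)) = (χ : H → ℂ) (((1 : St) : H)) := rfl
      have h5 : ξ ⟨((1 : Z) : H), (hZQ.trans hQSt) (1 : Z).2⟩ = ξ 1 := rfl
      rw [h5] at h3
      rw [h4, h2, h3] at h1
      have h6 : ((c : ℂ) * (a : ℂ)) * (θ : Z → ℂ) 1 = (e : ℂ) * (θ : Z → ℂ) 1 := by
        rw [← h1]; ring
      have h7 := mul_right_cancel₀ hθ1 h6
      exact_mod_cast h7.symm
    have hidx : Z.relIndex St * St.index = Z.index := Subgroup.relIndex_mul_index (hZQ.trans hQSt)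
    have ha0 : a ≠ 0 := by
      intro h0
      rw [h0] at ha
      have h1 : Z.relIndex St = 0 := by rw [← ha]; norm_num
      rw [h1, Nat.zero_mul] at hidx
      exact Subgroup.index_ne_zero_of_finite hidx.symm
    have hc2 : c ^ 2 = St.index := by
      have h1 : a ^ 2 * c ^ 2 = a ^ 2 * St.index := by
        calc a ^ 2 * c ^ 2 = (c * a) ^ 2 := by ring
          _ = Z.index := by rw [← hec, he]
          _ = a ^ 2 * St.index := by rw [ha, hidx]
      exact Nat.eq_of_mul_eq_mul_left (by positivity) h1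
    have hpc : ¬ p ∣ c := by
      intro h
      apply hStidx
      rw [← hc2]
      exact dvd_pow h two_ne_zero
    obtain ⟨m, hm⟩ := Helper15.inner_nat hξQc hμc
    have hχQ : classInner (fun q : Q => (χ : H → ℂ) q) (μ : Q → ℂ) = (c : ℂ) * (m : ℂ) := by
      have h1 : (fun q : Q => (χ : H → ℂ) q) = (c : ℂ) • (fun q : Q => ξ ⟨q, hQSt q.2⟩) := by
        funext q
        exact hχξ ⟨q, hQSt q.2⟩
      rw [h1, Helper15.classInner_smul_left, hm]
    have hdiv : ∀ (A : Subgroup H), Q ≤ A → ∀ (hAS : A ≤ St),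
        (∀ (a : H) (ha : a ∈ A), Helper4.frcSmul Q ⟨a, hStN (hAS ha)⟩ (μ : Q → ℂ) = μ) →
        ∃ r : ℕ, classInner (fun q : Q => ξ ⟨q, hQSt q.2⟩) (μ : Q → ℂ)
          = (r : ℂ) * (Q.relIndex A : ℂ) := by
      intro A hQA hAS hAfix
      obtain ⟨W, hW⟩ := Helper4.frc_ind_dvd K φ hφ hQK (hAS.trans hStN) (μ : Q → ℂ) hμc hAfix
      rw [hind, hχQ] at hW
      have hWn : Nat.card K * (c * m) = Nat.card A * W := by exact_mod_cast hW
      have hcK : Nat.card Q * Q.relIndex K = Nat.card K := Helper4.frg_card_mul_relIndex hQK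
      have hcA : Nat.card Q * Q.relIndex A = Nat.card A := Helper4.frg_card_mul_relIndex hQA
      have hQpos : 0 < Nat.card Q := Nat.card_pos
      have h1 : Q.relIndex K * (c * m) = Q.relIndex A * W := by
        apply Nat.eq_of_mul_eq_mul_left hQpos
        calc Nat.card Q * (Q.relIndex K * (c * m)) = Nat.card Q * Q.relIndex K * (c * m) := by ring
          _ = Nat.card A * W := by rw [hcK, hWn]
          _ = Nat.card Q * (Q.relIndex A * W) := by rw [← hcA]; ring
      have h2 : Q.relIndex A ∣ Q.relIndex St :=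
        Dvd.intro _ (Subgroup.relIndex_mul_relIndex Q A St hQA hAS)
      obtain ⟨n, hn⟩ := IsPGroup.iff_card.mp P₁.isPGroup'
      rw [hrel, hn] at h2
      obtain ⟨i, -, hi⟩ := (Nat.dvd_prime_pow hp).mp h2
      have h3 : Nat.Coprime (p ^ i) (Q.relIndex K * c) :=
        Nat.Coprime.pow_left i (Nat.Coprime.mul_right
          ((Nat.Prime.coprime_iff_not_dvd hp).mpr hpQK)
          ((Nat.Prime.coprime_iff_not_dvd hp).mpr hpc))
      have h4 : p ^ i ∣ m := by
        apply Nat.Coprime.dvd_of_dvd_mul_left h3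
        refine ⟨W, ?_⟩
        rw [← hi, ← h1]; ring
      obtain ⟨r, hr⟩ := h4
      refine ⟨r, ?_⟩
      rw [hm, hr, hi]; push_cast; ring
    have hstab : ∀ (s : H) (hs : s ∈ St),
        Helper4.frcSmul Q ⟨s, hStN hs⟩ (μ : Q → ℂ) = μ → s ∈ Q :=
      fun s hs hfix => Helper4.frc_stab_le' hQSt hStN ξ hξc hξn (μ : Q → ℂ) μ.2 hμ hdiv s hs hfix
    have horb := Helper4.frc_orbit_card' hQSt hStN ξ hξc hξn (μ : Q → ℂ) μ.2 hμ hstab
      (fun q : Q => (χ : H → ℂ) q) c hc (fun q => hχξ ⟨q, hQSt q.2⟩) hFinv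
    obtain ⟨M, hM⟩ := Helper4.frc_endgame p P₁ hQdef hFr hmap hpQK (μ : Q → ℂ) hμc horb
    exact ⟨M, by rw [hM, Sylow.card_eq_multiplicity]⟩
  refine ⟨hsolv, fun hKs => ?_⟩
  haveI := hKs
  haveI := hsolv
  exact solvable_of_ker_le_range K.subtype (QuotientGroup.mk' K)
    (by rw [QuotientGroup.ker_mk', Subgroup.range_subtype])

end Cfsg.Agent.S4563
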