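import Cfsg.Statements.S4564
import Mathlib
import Cfsg.Agent.Helper4.FRCyc
import Cfsg.Agent.Helper4.FRGroup

set_option autoImplicit false
open Cfsg

namespace Cfsg.Agent.S4564

open scoped Pointwise

/-- Let χ be an irreducible character of the finite group H that is fully ramified over the normal subgroup Z: the restriction of χ to Z is e times an irreducible character of Z with e ^ 2 equal to the index of Z. Let K be a normal subgroup of H containing Z and P a cyclic Sylow p-subgroup of H/K. Then P has a complement in H/K: a subgroup meeting P trivially whose product with P is the whole group. -/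
theorem result {H : Type*} [Group H] [Finite H] (Z : Subgroup H) [Z.Normal] (χ : Cfsg.IrrCharacter H) (hfr : ∃ (θ : Cfsg.IrrCharacter ↥Z) (e : ℕ), e ^ 2 = Z.index ∧ ∀ z : ↥Z, (χ : H → ℂ) z = (e : ℂ) * (θ : ↥Z → ℂ) z) (K : Subgroup H) [K.Normal] (hZK : Z ≤ K) (p : ℕ) [Fact p.Prime] (P : Sylow p (H ⧸ K)) (hcyc : IsCyclic P) : ∃ M : Subgroup (H ⧸ K), M.IsComplement' (P : Subgroup (H ⧸ K)) := by
  classical
  obtain ⟨θ, e, he, hres⟩ := hfr
  have hp : p.Prime := Fact.out
  have : Fintype H := Fintype.ofFinite H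
  obtain ⟨St, Q, P₁, hZQ, hQdef, hStN, hFr, hcop, hmap, hpQK⟩ := Helper4.frg_setup Z K hZK p
  have hQSt : Q ≤ St := by rw [hQdef]; exact inf_le_left
  have hQK : Q ≤ K := by rw [hQdef]; exact inf_le_right
  have : Fintype Z := Fintype.ofFinite _
  have : Fintype Q := Fintype.ofFinite _
  have : Fintype St := Fintype.ofFinite _
  obtain ⟨ξ, a, c, hξirr, ha, hc, hξv, hξZ, hχξ⟩ :=
    Helper4.frc_sylow (χ : H → ℂ) χ.2 (θ : Z → ℂ) θ.2 e he hres St (hZQ.trans hQSt) hcop
  have hξc : IsCharacter St ξ := Helper15.isChar_of_irr hξirr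
  have hξn := Helper4.frc_norm_Q hZQ hQSt (θ : Z → ℂ) θ.2 ξ a ha hξv hξZ
  have hξQc : IsCharacter Q (fun q : Q => ξ ⟨q, hQSt q.2⟩) :=
    Helper79.isCharacter_comp hξc (Subgroup.inclusion hQSt)
  have hξQ0 : (fun q : Q => ξ ⟨q, hQSt q.2⟩) ≠ 0 := by
    intro h0
    have h1 := congrFun h0 1
    have h2 : ξ 1 ≠ 0 := Helper81.irr_one_ne_zero ⟨ξ, hξirr⟩
    exact h2 h1
  obtain ⟨μ, hμ⟩ := Helper15.exists_constituent (Helper15.isClassFunction_of_isChar hξQc) hξQ0
  -- cyclic sections
  haveI hP₁cyc : IsCyclic P₁ :=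
    isCyclic_of_surjective (Sylow.equiv P P₁) (Sylow.equiv P P₁).surjective
  have hcycA : ∀ (A : Subgroup H), Q ≤ A → A ≤ St → ∀ (_hn : (Q.subgroupOf A).Normal),
      IsCyclic (A ⧸ Q.subgroupOf A) := by
    intro A hQA hASt hn
    obtain ⟨f, hf⟩ : ∃ f : A →* H ⧸ K, ∀ x : A, f x = QuotientGroup.mk' K (x : H) :=
      ⟨(QuotientGroup.mk' K).comp A.subtype, fun x => rfl⟩
    have hker : Q.subgroupOf A = f.ker := by
      ext x
      rw [Subgroup.mem_subgroupOf, MonoidHom.mem_ker, hf, QuotientGroup.mk'_apply,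
        QuotientGroup.eq_one_iff, hQdef, Subgroup.mem_inf]
      exact ⟨fun h => h.2, fun h => ⟨hASt x.2, h⟩⟩
    have hrange : f.range ≤ (P₁ : Subgroup (H ⧸ K)) := by
      rintro _ ⟨x, rfl⟩
      rw [hf, ← hmap]
      exact Subgroup.mem_map_of_mem _ (hASt x.2)
    haveI : IsCyclic f.range :=
      isCyclic_of_injective (Subgroup.inclusion hrange) (Subgroup.inclusion_injective hrange)
    have e1 : A ⧸ Q.subgroupOf A ≃* A ⧸ f.ker := QuotientGroup.quotientMulEquivOfEq hker
    have e2 : A ⧸ f.ker ≃* f.range := QuotientGroup.quotientKerEquivRange f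
    exact isCyclic_of_surjective (e1.trans e2).symm (e1.trans e2).symm.surjective
  -- the invariant function
  have hχc : IsCharacter H (χ : H → ℂ) := Helper15.isChar_of_irr χ.2
  have hFinv : ∀ g : Subgroup.normalizer (Q : Set H),
      Helper4.frcSmul Q g (fun q : Q => (χ : H → ℂ) q) = fun q : Q => (χ : H → ℂ) q := by
    intro g
    funext q
    rw [Helper4.frcSmul_apply]
    show (χ : H → ℂ) ((g : H)⁻¹ * q * g) = (χ : H → ℂ) q
    have h := Helper79.isCharacter_conj_eq hχc (q : H) (g : H)⁻¹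
    rw [← h, inv_inv]
  have horb := Helper4.frc_orbit_card hZQ hQSt hStN hcycA ξ hξc hξv hξn (μ : Q → ℂ) μ.2 hμ
    (fun q : Q => (χ : H → ℂ) q) c hc (fun q => hχξ ⟨q, hQSt q.2⟩) hFinv
  letI act : MulAction (Subgroup.normalizer (Q : Set H)) (Q → ℂ) := Helper4.frcAct Q
  obtain ⟨T, hT⟩ : ∃ T : Subgroup (Subgroup.normalizer (Q : Set H)),
      T = MulAction.stabilizer (Subgroup.normalizer (Q : Set H)) (μ : Q → ℂ) := ⟨_, rfl⟩
  have hTidx : T.index = Q.relIndex St := by
    rw [hT, MulAction.index_stabilizer]; exact horb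
  have hTmem : ∀ g : Subgroup.normalizer (Q : Set H),
      g ∈ T ↔ Helper4.frcSmul Q g (μ : Q → ℂ) = μ := by
    intro g; rw [hT]; exact MulAction.mem_stabilizer_iff
  obtain ⟨f, hf⟩ : ∃ f : Subgroup.normalizer (Q : Set H) →* H ⧸ K,
      ∀ x, f x = QuotientGroup.mk' K (x : H) :=
    ⟨(QuotientGroup.mk' K).comp (Subgroup.normalizer (Q : Set H)).subtype, fun x => rfl⟩
  have hfsurj : Function.Surjective f := by
    intro y
    obtain ⟨h, rfl⟩ := QuotientGroup.mk'_surjective K y
    have h1 : h ∈ Subgroup.normalizer (Q : Set H) ⊔ K := by rw [hFr]; exact Subgroup.mem_top h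
    have h2 : h ∈ ((Subgroup.normalizer (Q : Set H) : Subgroup H) : Set H) * (K : Set H) := by
      rw [← Subgroup.mul_normal]; exact h1
    obtain ⟨n, hn, k, hk, rfl⟩ := Set.mem_mul.mp h2
    refine ⟨⟨n, hn⟩, ?_⟩
    rw [hf]
    show QuotientGroup.mk' K n = QuotientGroup.mk' K (n * k)
    rw [map_mul]
    have hk1 : QuotientGroup.mk' K k = 1 := (QuotientGroup.eq_one_iff k).mpr hk
    rw [hk1, mul_one]
  have hker : f.ker = K.subgroupOf (Subgroup.normalizer (Q : Set H)) := by
    ext x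
    rw [MonoidHom.mem_ker, hf, Subgroup.mem_subgroupOf]
    exact QuotientGroup.eq_one_iff (x : H)
  have hμc : IsCharacter Q (μ : Q → ℂ) := Helper15.isChar_of_irr μ.2
  have hQT : Q.subgroupOf (Subgroup.normalizer (Q : Set H)) ≤ T := by
    intro x hx
    rw [hTmem]
    exact Helper4.frcSmul_self Q hμc (x : H) (Subgroup.mem_subgroupOf.mp hx)
  have hrel : Q.relIndex St = Nat.card P₁ := by
    have h1 : Q.relIndex St = K.relIndex St := by
      rw [hQdef]; exact Subgroup.inf_relIndex_left St K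
    have h2 : K.relIndex St = Nat.card (St.map (QuotientGroup.mk' K)) := by
      have := Subgroup.relIndex_ker (K := St) (f := QuotientGroup.mk' K)
      rwa [QuotientGroup.ker_mk'] at this
    rw [h1, h2, hmap]
  have hTpow : ∃ n, T.index = p ^ n := by
    rw [hTidx, hrel]
    exact IsPGroup.iff_card.mp P₁.isPGroup'
  have hBT : K.subgroupOf (Subgroup.normalizer (Q : Set H)) ≤ T := by
    obtain ⟨B, hB⟩ : ∃ B : Subgroup (Subgroup.normalizer (Q : Set H)),
        B = K.subgroupOf (Subgroup.normalizer (Q : Set H)) := ⟨_, rfl⟩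
    haveI : B.Normal := by rw [hB]; infer_instance
    rw [← hB]
    apply Subgroup.relIndex_eq_one.mp
    have h1 : T.relIndex B ∣ T.index := by
      rw [← Helper4.frg_relIndex_sup T B]
      exact Subgroup.relIndex_dvd_index_of_le le_sup_right
    have h2 : T.relIndex B ∣ Q.relIndex K := by
      have h3 : T.relIndex B ∣ (Q.subgroupOf (Subgroup.normalizer (Q : Set H))).relIndex B :=
        Subgroup.relIndex_dvd_of_le_left B hQT
      have h4 : (Q.subgroupOf (Subgroup.normalizer (Q : Set H))).relIndex B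
          = Q.relIndex (K ⊓ Subgroup.normalizer (Q : Set H)) := by
        rw [hB, ← Subgroup.inf_subgroupOf_right K (Subgroup.normalizer (Q : Set H))]
        exact Subgroup.relIndex_subgroupOf inf_le_right
      have h5 : Q.relIndex (K ⊓ Subgroup.normalizer (Q : Set H)) ∣ Q.relIndex K := by
        have := Subgroup.relIndex_mul_relIndex Q (K ⊓ Subgroup.normalizer (Q : Set H)) K
          (le_inf hQK Subgroup.le_normalizer) inf_le_left
        exact Dvd.intro _ this
      rw [h4] at h3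
      exact h3.trans h5
    obtain ⟨n, hn⟩ := hTpow
    rw [hn] at h1
    obtain ⟨i, -, hi⟩ := (Nat.dvd_prime_pow hp).mp h1
    rw [hi] at h2 ⊢
    rcases Nat.eq_zero_or_pos i with h0 | h0
    · rw [h0, pow_zero]
    · exact absurd ((dvd_pow_self p h0.ne').trans h2) hpQK
  obtain ⟨M, hM⟩ : ∃ M : Subgroup (H ⧸ K), M = T.map f := ⟨_, rfl⟩
  have hMidx : M.index = T.index := by
    rw [hM]; exact Subgroup.index_map_eq (H := T) hfsurj (by rw [hker]; exact hBT)
  have hcardP : Nat.card P = Q.relIndex St := by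
    rw [hrel]
    exact Nat.card_congr (Sylow.equiv P P₁).toEquiv
  have hcard : Nat.card M * Nat.card P = Nat.card (H ⧸ K) := by
    rw [hcardP, ← hTidx, ← hMidx]; exact Subgroup.card_mul_index M
  refine ⟨M, Subgroup.isComplement'_of_coprime hcard ?_⟩
  have h2 : (P : Subgroup (H ⧸ K)).index * Nat.card P = Nat.card (H ⧸ K) :=
    Subgroup.index_mul_card _
  have h3 : Nat.card M = (P : Subgroup (H ⧸ K)).index :=
    Nat.eq_of_mul_eq_mul_right Nat.card_pos (hcard.trans h2.symm)
  rw [h3]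
  exact (Sylow.card_coprime_index P).symm

end Cfsg.Agent.S4564
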