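import Cfsg.Statements.S4565
import Mathlib
import Cfsg.Agent.Helper4.FullyRam
import Cfsg.Agent.S0886

set_option autoImplicit false
open Cfsg

namespace Cfsg.Agent.S4565

open scoped ComplexConjugate

/-- Let χ be an irreducible character of the finite group H that is fully ramified over the normal subgroup Z: the restriction of χ to Z is e times an irreducible character of Z with e ^ 2 equal to the index of Z. If Z ≠ H, then H/Z has no cyclic subgroup that is its own centralizer. -/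
theorem result {H : Type*} [Group H] [Finite H] (Z : Subgroup H) [Z.Normal] (χ : Cfsg.IrrCharacter H) (hfr : ∃ (θ : Cfsg.IrrCharacter ↥Z) (e : ℕ), e ^ 2 = Z.index ∧ ∀ z : ↥Z, (χ : H → ℂ) z = (e : ℂ) * (θ : ↥Z → ℂ) z) (hZ : Z ≠ ⊤) (C : Subgroup (H ⧸ Z)) (hC : IsCyclic C) : Subgroup.centralizer (C : Set (H ⧸ Z)) ≠ C := by
  classical
  intro hcent
  obtain ⟨θ, e, he, hres⟩ := hfr
  letI : Fintype H := Fintype.ofFinite H
  letI : Fintype ↥Z := Fintype.ofFinite _
  set K : Subgroup H := C.comap (QuotientGroup.mk' Z) with hK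
  letI : Fintype ↥K := Fintype.ofFinite _
  have hmemK : ∀ x : H, x ∈ K ↔ (QuotientGroup.mk x : H ⧸ Z) ∈ C := fun x => Iff.rfl
  have hZK : Z ≤ K := by
    intro z hz
    rw [hmemK, (QuotientGroup.eq_one_iff z).2 hz]
    exact C.one_mem
  let π : ↥K →* ↥C := ((QuotientGroup.mk' Z).comp K.subtype).codRestrict C (fun k => k.2)
  have hπval : ∀ k : ↥K, ((π k : ↥C) : H ⧸ Z) = QuotientGroup.mk (k : H) := fun k => rfl
  have hπs : Function.Surjective π := by
    rintro ⟨q, hq⟩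
    obtain ⟨x, rfl⟩ := QuotientGroup.mk_surjective q
    exact ⟨⟨x, hq⟩, rfl⟩
  have hπk : ∀ k : ↥K, π k = 1 ↔ k ∈ Z.subgroupOf K := by
    intro k
    rw [Subgroup.mem_subgroupOf, ← QuotientGroup.eq_one_iff, Subtype.ext_iff]
    rfl
  have hQ : ∀ a b : ↥C, a * b = b * a := by
    intro a b
    obtain ⟨g, hg⟩ := hC.exists_generator
    obtain ⟨i, rfl⟩ := Subgroup.mem_zpowers_iff.1 (hg a)
    obtain ⟨j, rfl⟩ := Subgroup.mem_zpowers_iff.1 (hg b)
    rw [← zpow_add, ← zpow_add, add_comm]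
  have he0 : (e : ℂ) ≠ 0 := by
    have : e ≠ 0 := by
      intro h0
      rw [h0] at he
      have := Subgroup.index_ne_zero_of_finite (H := Z)
      simp at he
      exact this he.symm
    exact_mod_cast this
  have hχcl : IsClassFunction H (χ : H → ℂ) :=
    Cfsg.Agent.Helper75.isCharacter_isClassFunction' (Cfsg.Agent.Helper79.irr_isCharacter χ)
  -- θ is H-invariant
  have hθinv : ∀ (g : H) (z : ↥Z) (hz : g * z * g⁻¹ ∈ Z), (θ : ↥Z → ℂ) ⟨g * z * g⁻¹, hz⟩ = (θ : ↥Z → ℂ) z := by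
    intro g z hz
    have h1 := hres ⟨g * z * g⁻¹, hz⟩
    have h2 := hres z
    have h3 : (χ : H → ℂ) (g * z * g⁻¹) = (χ : H → ℂ) z := hχcl z g
    have h1' : (χ : H → ℂ) (g * z * g⁻¹) = (e : ℂ) * (θ : ↥Z → ℂ) ⟨g * z * g⁻¹, hz⟩ := h1
    rw [h3, h2] at h1'
    exact (mul_left_cancel₀ he0 h1').symm
  -- the subgroup N of K
  set N : Subgroup ↥K := Z.subgroupOf K with hN
  letI : Fintype ↥N := Fintype.ofFinite _
  let θ' : ↥N → ℂ := fun n => (θ : ↥Z → ℂ) ⟨((n : ↥K) : H), Subgroup.mem_subgroupOf.1 n.2⟩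
  have hθ' : IsIrrCharacter ↥N θ' :=
    (Cfsg.Agent.Helper79.isIrrCharacter_mulEquiv (Subgroup.subgroupOfEquivOfLe hZK)).2 θ.2
  have hcyc : IsCyclic (↥K ⧸ N) := by
    obtain ⟨q₀, hq₀⟩ := hC.exists_generator
    obtain ⟨k₀, hk₀⟩ := hπs q₀
    refine ⟨⟨(QuotientGroup.mk k₀ : ↥K ⧸ N), ?_⟩⟩
    intro y
    obtain ⟨k, rfl⟩ := QuotientGroup.mk_surjective y
    obtain ⟨i, hi⟩ := Subgroup.mem_zpowers_iff.1 (hq₀ (π k))
    refine ⟨i, ?_⟩
    show (QuotientGroup.mk k₀ : ↥K ⧸ N) ^ i = QuotientGroup.mk k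
    rw [← QuotientGroup.mk_zpow, QuotientGroup.eq]
    rw [← hπk, map_mul, map_inv, map_zpow, hk₀, hi, inv_mul_cancel]
  obtain ⟨lam, hlamirr, hlamN⟩ := Cfsg.Agent.S0886.result N hcyc θ' hθ' (by
    intro g n
    exact hθinv (g : H) ⟨((n : ↥K) : H), Subgroup.mem_subgroupOf.1 n.2⟩ _)
  have hlamZ : ∀ z : ↥Z, lam ⟨z, hZK z.2⟩ = (θ : ↥Z → ℂ) z := by
    intro z
    have := hlamN ⟨⟨z, hZK z.2⟩, Subgroup.mem_subgroupOf.2 z.2⟩
    exact this
  have hlamNirr : IsIrrCharacter ↥N (fun n : ↥N => lam n) := by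
    have : (fun n : ↥N => lam n) = θ' := funext hlamN
    rw [this]
    exact hθ'
  -- generator and the element c
  obtain ⟨q₀, hq₀⟩ := hC.exists_generator
  obtain ⟨k₁, hk₁⟩ := hπs q₀
  obtain ⟨n, hnN, hn⟩ := Cfsg.Agent.Helper4.exists_coset_ne_zero N hQ π hπs hπk lam
    (Cfsg.Agent.Helper79.isCharacter_of_irr hlamirr) hlamNirr k₁
  set c : ↥K := k₁ * n with hc
  have hπc : π c = q₀ := by
    rw [hc, map_mul, (hπk n).2 hnN, mul_one, hk₁]
  have hcZ : (c : H) ∉ Z := by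
    intro hcz
    have h1 : π c = 1 := (hπk c).2 (Subgroup.mem_subgroupOf.2 hcz)
    rw [hπc] at h1
    have hCbot : C = ⊥ := by
      rw [eq_bot_iff]
      intro y hy
      obtain ⟨i, hi⟩ := Subgroup.mem_zpowers_iff.1 (hq₀ ⟨y, hy⟩)
      rw [h1, one_zpow] at hi
      have := congrArg Subtype.val hi
      exact Subgroup.mem_bot.2 this.symm
    apply hZ
    rw [eq_top_iff]
    intro x _
    have hx : (QuotientGroup.mk x : H ⧸ Z) ∈ Subgroup.centralizer (C : Set (H ⧸ Z)) := by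
      rw [Subgroup.mem_centralizer_iff]
      intro y hy
      rw [hCbot] at hy
      have : y = 1 := hy
      rw [this, one_mul, mul_one]
    rw [hcent, hCbot] at hx
    exact (QuotientGroup.eq_one_iff x).1 (Subgroup.mem_bot.1 hx)
  letI : Fintype (↥C →* ℂˣ) := Fintype.ofFinite _
  have hK0 : (Nat.card ↥K : ℂ) ≠ 0 := by exact_mod_cast Nat.card_pos.ne'
  -- vanishing of the induced twists
  have key : ∀ μ : ↥C →* ℂˣ, ∑ x : H,
      extendByZero K (fun k : ↥K => ((μ.comp π) k : ℂ) * lam k) (x⁻¹ * (c : H) * x) = 0 := by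
    intro μ
    have hirr : IsIrrCharacter ↥K (fun k : ↥K => ((μ.comp π) k : ℂ) * lam k) :=
      Cfsg.Agent.Helper79.isIrrCharacter_twist (μ.comp π) hlamirr
    have h0 := Cfsg.Agent.Helper4.indFun_vanish_of_fullyRam Z (χ : H → ℂ) χ.2 (θ : ↥Z → ℂ) θ.2 e he
      hres K hZK _ hirr (by
        intro z
        show ((μ (π ⟨z, hZK z.2⟩) : ℂˣ) : ℂ) * lam ⟨z, hZK z.2⟩ = (θ : ↥Z → ℂ) z
        rw [(hπk ⟨z, hZK z.2⟩).2 (Subgroup.mem_subgroupOf.2 z.2), map_one, Units.val_one, one_mul,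
          hlamZ z]) (c : H) hcZ
    unfold indFun at h0
    rcases mul_eq_zero.1 h0 with h | h
    · exact absurd (inv_eq_zero.1 h) hK0
    · exact h
  have hT : ∑ x : H, ∑ μ : ↥C →* ℂˣ, (((μ q₀)⁻¹ : ℂˣ) : ℂ) *
      extendByZero K (fun k : ↥K => ((μ.comp π) k : ℂ) * lam k) (x⁻¹ * (c : H) * x) = 0 := by
    rw [Finset.sum_comm]
    apply Finset.sum_eq_zero
    intro μ _
    rw [← Finset.mul_sum, key μ, mul_zero]
  have hterm : ∀ x : H, ∑ μ : ↥C →* ℂˣ, (((μ q₀)⁻¹ : ℂˣ) : ℂ) *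
      extendByZero K (fun k : ↥K => ((μ.comp π) k : ℂ) * lam k) (x⁻¹ * (c : H) * x)
      = if x ∈ K then (Fintype.card (↥C →* ℂˣ) : ℂ) * lam c else 0 := by
    intro x
    by_cases hy : x⁻¹ * (c : H) * x ∈ K
    · simp_rw [Cfsg.Agent.Helper3.extendByZero_of_mem K _ hy]
      have hfac : ∑ μ : ↥C →* ℂˣ, (((μ q₀)⁻¹ : ℂˣ) : ℂ) *
          (((μ.comp π) ⟨x⁻¹ * (c : H) * x, hy⟩ : ℂ) * lam ⟨x⁻¹ * (c : H) * x, hy⟩)
          = (∑ μ : ↥C →* ℂˣ, (((μ q₀)⁻¹ : ℂˣ) : ℂ) * ((μ (π ⟨x⁻¹ * (c : H) * x, hy⟩) : ℂˣ) : ℂ))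
            * lam ⟨x⁻¹ * (c : H) * x, hy⟩ := by
        rw [Finset.sum_mul]
        apply Finset.sum_congr rfl
        intro μ _
        simp only [MonoidHom.comp_apply]
        ring
      rw [hfac]
      by_cases hx : x ∈ K
      · rw [if_pos hx]
        have hyeq : (⟨x⁻¹ * (c : H) * x, hy⟩ : ↥K) = (⟨x, hx⟩ : ↥K)⁻¹ * c * (⟨x, hx⟩ : ↥K)⁻¹⁻¹ := by
          apply Subtype.ext
          simp
        have hπy : π ⟨x⁻¹ * (c : H) * x, hy⟩ = q₀ := by
          rw [hyeq, map_mul, map_mul, hπc, hQ _ q₀, mul_assoc, ← map_mul, mul_inv_cancel, map_one,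
            mul_one]
        rw [hπy, Cfsg.Agent.Helper4.sum_hom_inv_mul_self]
        congr 1
        rw [hyeq]
        exact Cfsg.Agent.Helper75.isCharacter_isClassFunction'
          (Cfsg.Agent.Helper79.isCharacter_of_irr hlamirr) c _
      · rw [if_neg hx]
        have hπy : π ⟨x⁻¹ * (c : H) * x, hy⟩ ≠ q₀ := by
          intro heq
          apply hx
          have h1 : (QuotientGroup.mk (x⁻¹ * (c : H) * x) : H ⧸ Z) = (q₀ : H ⧸ Z) :=
            congrArg Subtype.val heq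
          have h2 : (QuotientGroup.mk (c : H) : H ⧸ Z) = (q₀ : H ⧸ Z) :=
            congrArg Subtype.val hπc
          have hcomm : (q₀ : H ⧸ Z) * QuotientGroup.mk x = QuotientGroup.mk x * (q₀ : H ⧸ Z) := by
            rw [QuotientGroup.mk_mul, QuotientGroup.mk_mul, QuotientGroup.mk_inv, h2] at h1
            calc (q₀ : H ⧸ Z) * QuotientGroup.mk x
                = QuotientGroup.mk x * ((QuotientGroup.mk x)⁻¹ * (q₀ : H ⧸ Z) * QuotientGroup.mk x) := by
                  group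
              _ = QuotientGroup.mk x * (q₀ : H ⧸ Z) := by rw [h1]
          have h3 : (QuotientGroup.mk x : H ⧸ Z) ∈ Subgroup.centralizer (C : Set (H ⧸ Z)) := by
            rw [Subgroup.mem_centralizer_iff]
            intro y hy'
            obtain ⟨i, hi⟩ := Subgroup.mem_zpowers_iff.1 (hq₀ ⟨y, hy'⟩)
            have hy2 : (q₀ : H ⧸ Z) ^ i = y := by
              have := congrArg Subtype.val hi
              simpa using this
            rw [← hy2]
            have hc' : Commute (q₀ : H ⧸ Z) (QuotientGroup.mk x) := hcomm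
            exact (hc'.zpow_left i).eq
          rw [hcent] at h3
          exact h3
        rw [Cfsg.Agent.Helper4.sum_hom_inv_mul_of_ne hQ hπy, zero_mul]
    · rw [if_neg (fun hx => hy (K.mul_mem (K.mul_mem (K.inv_mem hx) c.2) hx))]
      simp_rw [Cfsg.Agent.Helper3.extendByZero_of_not_mem K _ hy]
      simp
  simp_rw [hterm] at hT
  rw [← Finset.sum_filter, Finset.sum_const, nsmul_eq_mul] at hT
  have hcard : ((Finset.univ.filter (fun x : H => x ∈ K)).card : ℂ) ≠ 0 := by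
    have : (c : H) ∈ Finset.univ.filter (fun x : H => x ∈ K) := by
      rw [Finset.mem_filter]
      exact ⟨Finset.mem_univ _, c.2⟩
    exact_mod_cast (Finset.card_pos.2 ⟨_, this⟩).ne'
  have hQc : (Fintype.card (↥C →* ℂˣ) : ℂ) ≠ 0 := by
    exact_mod_cast Fintype.card_ne_zero
  rcases mul_eq_zero.1 hT with h | h
  · exact hcard h
  · rcases mul_eq_zero.1 h with h' | h'
    · exact hQc h'
    · exact hn h'

end Cfsg.Agent.S4565
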