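import Cfsg.Statements.S4566
import Mathlib

set_option autoImplicit false
open Cfsg

namespace Cfsg.Agent.S4566

open scoped ComplexConjugate

/-- Schur's lemma: an endomorphism commuting with an irreducible complex representation is a
scalar. -/
theorem schur_scalar {G : Type*} [Group G] {V : Type*} [AddCommGroup V] [Module ℂ V]
    [FiniteDimensional ℂ V] (ρ : Representation ℂ G V) [ρ.IsIrreducible] (T : Module.End ℂ V)
    (hT : ∀ g, T * ρ g = ρ g * T) : ∃ c : ℂ, T = c • (1 : Module.End ℂ V) := by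
  let f : Representation.IntertwiningMap ρ ρ := ⟨T, hT⟩
  obtain ⟨c, hc⟩ :=
    (Representation.IsIrreducible.algebraMap_intertwiningMap_bijective_of_isAlgClosed (ρ := ρ)).2 f
  refine ⟨c, ?_⟩
  have h := congrArg Representation.IntertwiningMap.toLinearMap hc
  rw [Representation.IntertwiningMap.algebraMap_apply] at h
  rw [show f.toLinearMap = T from rfl] at h
  rw [← h]
  rfl

/-- A central element acts by a scalar in an irreducible representation, so translating by it
multiplies the character by that scalar. -/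
theorem central_scalar {G : Type*} [Group G] {V : Type*} [AddCommGroup V] [Module ℂ V]
    [FiniteDimensional ℂ V] (ρ : Representation ℂ G V) [ρ.IsIrreducible] (z : G)
    (hz : z ∈ Subgroup.center G) :
    ∃ c : ℂ, ∀ g, ρ.character (g * z) = c * ρ.character g := by
  obtain ⟨c, hc⟩ := schur_scalar ρ (ρ z) (fun g => by
    rw [← map_mul, ← map_mul, (Subgroup.mem_center_iff.mp hz g)])
  refine ⟨c, fun g => ?_⟩
  unfold Representation.character
  rw [map_mul, hc, mul_smul_comm, mul_one, map_smul, smul_eq_mul]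

/-- The space of an irreducible representation is nonzero, so the degree is nonzero. -/
theorem char_one_ne_zero {G : Type*} [Group G] {V : Type*} [AddCommGroup V] [Module ℂ V]
    [FiniteDimensional ℂ V] (ρ : Representation ℂ G V) [ρ.IsIrreducible] :
    ρ.character 1 ≠ 0 := by
  rw [Representation.char_one]
  intro h
  have h0 : Module.finrank ℂ V = 0 := by exact_mod_cast h
  have hsub : Subsingleton V := Module.finrank_zero_iff.mp h0
  have hne : (⊥ : Subrepresentation ρ) ≠ ⊤ := bot_ne_top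
  apply hne
  apply Subrepresentation.toSubmodule_injective
  exact Subsingleton.elim _ _

/-- Let N be a central subgroup of the finite group G, ψ a faithful irreducible (hence degree-one) character of N, and χ an irreducible character of G whose restriction to N contains ψ. If g ∈ G and some x ∈ G has commutator x⁻¹ g⁻¹ x g in N but different from 1, then χ g = 0. -/
theorem result {G : Type*} [Group G] [Fintype G] (N : Subgroup G) [Fintype N] (hN : N ≤ Subgroup.center G) (ψ : Cfsg.IrrCharacter ↥N) (hfaith : ∀ n : ↥N, (ψ : ↥N → ℂ) n = (ψ : ↥N → ℂ) 1 → n = 1) (χ : Cfsg.IrrCharacter G) (hover : Cfsg.classInner (fun n : ↥N => (χ : G → ℂ) n) (ψ : ↥N → ℂ) ≠ 0) (g x : G) (hcomm : x⁻¹ * g⁻¹ * x * g ∈ N) (hne : x⁻¹ * g⁻¹ * x * g ≠ 1) : (χ : G → ℂ) g = 0 := by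
  classical
  obtain ⟨n, ρ, hρ, hχ⟩ := χ.2
  obtain ⟨m, σ, hσ, hψ⟩ := ψ.2
  have hc : ∀ z : N, ∃ c : ℂ, ∀ y : G, (χ : G → ℂ) (y * (z : G)) = c * (χ : G → ℂ) y := by
    intro z
    obtain ⟨c, hc⟩ := central_scalar ρ (z : G) (hN z.2)
    exact ⟨c, fun y => by rw [← hχ]; exact hc y⟩
  choose c hc using hc
  have hd : ∀ z : N, ∃ d : ℂ, ∀ k : N, (ψ : N → ℂ) (k * z) = d * (ψ : N → ℂ) k := by
    intro z
    have hz : z ∈ Subgroup.center N := by
      rw [Subgroup.mem_center_iff]
      intro k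
      apply Subtype.ext
      rw [Subgroup.coe_mul, Subgroup.coe_mul]
      exact Subgroup.mem_center_iff.mp (hN z.2) (k : G)
    obtain ⟨d, hd⟩ := central_scalar σ z hz
    exact ⟨d, fun k => by rw [← hψ]; exact hd k⟩
  choose d hd using hd
  set S : ℂ := ∑ k : N, (χ : G → ℂ) (k : G) * conj ((ψ : N → ℂ) k) with hS
  have hS0 : S ≠ 0 := by
    intro h0
    apply hover
    unfold Cfsg.classInner
    rw [← hS, h0, mul_zero]
  have key : ∀ z : N, c z * conj (d z) = 1 := by
    intro z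
    have h1 : S = (c z * conj (d z)) * S := by
      calc S = ∑ k : N, (χ : G → ℂ) ((k * z : N) : G) * conj ((ψ : N → ℂ) (k * z)) :=
            (Equiv.sum_comp (Equiv.mulRight z)
              (fun k : N => (χ : G → ℂ) (k : G) * conj ((ψ : N → ℂ) k))).symm
        _ = ∑ k : N, (c z * conj (d z)) * ((χ : G → ℂ) (k : G) * conj ((ψ : N → ℂ) k)) := by
            apply Finset.sum_congr rfl
            intro k _
            rw [Subgroup.coe_mul, hc, hd, map_mul]
            ring
        _ = (c z * conj (d z)) * S := by rw [← Finset.mul_sum]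
    have h2 : (c z * conj (d z) - 1) * S = 0 := by
      rw [sub_mul, one_mul, ← h1, sub_self]
    rcases mul_eq_zero.mp h2 with h3 | h3
    · exact sub_eq_zero.mp h3
    · exact absurd h3 hS0
  have hψ1 : (ψ : N → ℂ) 1 ≠ 0 := by
    rw [← hψ]
    exact char_one_ne_zero σ
  have hcz : c (⟨x⁻¹ * g⁻¹ * x * g, hcomm⟩ : N)⁻¹ ≠ 1 := by
    intro h1
    have h2 := key (⟨x⁻¹ * g⁻¹ * x * g, hcomm⟩ : N)⁻¹
    rw [h1, one_mul] at h2
    have h3 : d (⟨x⁻¹ * g⁻¹ * x * g, hcomm⟩ : N)⁻¹ = 1 := by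
      have h3' := congrArg conj h2
      simpa using h3'
    have h4 : (ψ : N → ℂ) (⟨x⁻¹ * g⁻¹ * x * g, hcomm⟩ : N)⁻¹ = (ψ : N → ℂ) 1 := by
      have h4' := hd (⟨x⁻¹ * g⁻¹ * x * g, hcomm⟩ : N)⁻¹ 1
      rw [one_mul, h3, one_mul] at h4'
      exact h4'
    have h5 := hfaith _ h4
    apply hne
    have h6 : (⟨x⁻¹ * g⁻¹ * x * g, hcomm⟩ : N) = 1 := inv_eq_one.mp h5
    exact congrArg Subtype.val h6
  have h6 := hc (⟨x⁻¹ * g⁻¹ * x * g, hcomm⟩ : N)⁻¹ g
  have h7 : g * (((⟨x⁻¹ * g⁻¹ * x * g, hcomm⟩ : N)⁻¹ : N) : G) = x⁻¹ * g * x⁻¹⁻¹ := by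
    rw [Subgroup.coe_inv]
    show g * (x⁻¹ * g⁻¹ * x * g)⁻¹ = x⁻¹ * g * x⁻¹⁻¹
    group
  have h8 : (χ : G → ℂ) (x⁻¹ * g * x⁻¹⁻¹) = (χ : G → ℂ) g := by
    rw [← hχ]
    exact Representation.char_conj ρ g x⁻¹
  rw [h7, h8] at h6
  have h9 : (1 - c (⟨x⁻¹ * g⁻¹ * x * g, hcomm⟩ : N)⁻¹) * (χ : G → ℂ) g = 0 := by
    rw [sub_mul, one_mul, ← h6, sub_self]
  rcases mul_eq_zero.mp h9 with h10 | h10
  · exact absurd (sub_eq_zero.mp h10).symm hcz
  · exact h10

end Cfsg.Agent.S4566
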