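import Cfsg.Statements.S4567
import Mathlib
import Cfsg.Agent.Helper76.CentralChar
import Cfsg.Agent.Helper80.CharOrtho
import Cfsg.Agent.Helper3.BrauerPerm

set_option autoImplicit false
open Cfsg

namespace Cfsg.Agent.S4567

open scoped ComplexConjugate

open Cfsg.Agent.Helper76

/-- `g` is *good* for the central subgroup `N`: every `x` with `[x, g] ∈ N` commutes with `g`. -/
def good {G : Type*} [Group G] (N : Subgroup G) (g : G) : Prop :=
  ∀ x : G, x⁻¹ * g⁻¹ * x * g ∈ N → x * g = g * x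

theorem good_mul_central {G : Type*} [Group G] (N : Subgroup G) (hN : N ≤ Subgroup.center G)
    {g : G} (hg : good N g) {z : G} (hz : z ∈ N) : good N (g * z) := by
  intro x hx
  have hc : ∀ a : G, a * z = z * a := fun a => Subgroup.mem_center_iff.mp (hN hz) a
  have e : x⁻¹ * (g * z)⁻¹ * x * (g * z) = x⁻¹ * g⁻¹ * x * g := by
    rw [hc g, mul_inv_rev]
    simp only [mul_assoc]
    rw [← mul_assoc x z g, hc x, mul_assoc, inv_mul_cancel_left]
  rw [e] at hx
  have h := hg x hx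
  calc x * (g * z) = (x * g) * z := (mul_assoc _ _ _).symm
    _ = (g * x) * z := by rw [h]
    _ = g * (x * z) := mul_assoc _ _ _
    _ = g * (z * x) := by rw [hc x]
    _ = (g * z) * x := (mul_assoc _ _ _).symm

theorem good_conj {G : Type*} [Group G] (N : Subgroup G) [hNn : N.Normal] {g : G}
    (hg : good N g) (y : G) : good N (y * g * y⁻¹) := by
  intro x hx
  have e1 : (y⁻¹ * x * y)⁻¹ * g⁻¹ * (y⁻¹ * x * y) * g =
      y⁻¹ * (x⁻¹ * (y * g * y⁻¹)⁻¹ * x * (y * g * y⁻¹)) * y⁻¹⁻¹ := by group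
  have h1 : (y⁻¹ * x * y)⁻¹ * g⁻¹ * (y⁻¹ * x * y) * g ∈ N := by
    rw [e1]
    exact hNn.conj_mem _ hx _
  have h := hg (y⁻¹ * x * y) h1
  calc x * (y * g * y⁻¹) = y * (y⁻¹ * x * y * g) * y⁻¹ := by group
    _ = y * (g * (y⁻¹ * x * y)) * y⁻¹ := by rw [h]
    _ = y * g * y⁻¹ * x := by group

/-- Goodness is a property of the conjugacy class of the coset. -/
theorem good_iff_class {G : Type*} [Group G] (N : Subgroup G) [hNn : N.Normal]
    (hN : N ≤ Subgroup.center G) (g : G) :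
    (∃ g' : G, ConjClasses.mk (g' : G ⧸ N) = ConjClasses.mk (g : G ⧸ N) ∧ good N g') ↔
      good N g := by
  constructor
  · rintro ⟨g', hcl, hg'⟩
    rw [ConjClasses.mk_eq_mk_iff_isConj, isConj_iff] at hcl
    obtain ⟨r, hr⟩ := hcl
    obtain ⟨y, rfl⟩ := QuotientGroup.mk_surjective r
    have h1 : ((y * g' * y⁻¹ : G) : G ⧸ N) = (g : G ⧸ N) := by
      rw [← hr]
      rfl
    have h2 : (y * g' * y⁻¹)⁻¹ * g ∈ N := QuotientGroup.eq.mp h1
    have h3 : g = (y * g' * y⁻¹) * ((y * g' * y⁻¹)⁻¹ * g) := by group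
    rw [h3]
    exact good_mul_central N hN (good_conj N hg' y) h2
  · intro hg
    exact ⟨g, rfl, hg⟩

/-- `κ(x) = g⁻¹ x⁻¹ g x` is multiplicative on the elements where it is central. -/
theorem kappa_mul {G : Type*} [Group G] (N : Subgroup G) (hN : N ≤ Subgroup.center G) (g x y : G)
    (hx : g⁻¹ * x⁻¹ * g * x ∈ N) :
    g⁻¹ * (x * y)⁻¹ * g * (x * y) = (g⁻¹ * x⁻¹ * g * x) * (g⁻¹ * y⁻¹ * g * y) := by
  have hc : ∀ a : G, a * (g⁻¹ * x⁻¹ * g * x) = (g⁻¹ * x⁻¹ * g * x) * a :=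
    fun a => Subgroup.mem_center_iff.mp (hN hx) a
  calc g⁻¹ * (x * y)⁻¹ * g * (x * y) = (g⁻¹ * y⁻¹ * g) * (g⁻¹ * x⁻¹ * g * x) * y := by group
    _ = (g⁻¹ * x⁻¹ * g * x) * (g⁻¹ * y⁻¹ * g) * y := by rw [hc (g⁻¹ * y⁻¹ * g)]
    _ = (g⁻¹ * x⁻¹ * g * x) * (g⁻¹ * y⁻¹ * g * y) := by group

open scoped Classical in
/-- Evaluation of the twisted conjugator count. -/
theorem T_eval {G : Type*} [Group G] [Fintype G] (N : Subgroup G) [hNn : N.Normal] [Fintype N]
    (hN : N ≤ Subgroup.center G) (l : N → ℂ) (hl1 : l 1 = 1)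
    (hlmul : ∀ z w : N, l (z * w) = l z * l w) (hfaith : ∀ z : N, l z = 1 → z = 1) (g : G) :
    ∑ z : N, conj (l z) *
        ((Finset.univ.filter (fun x : G => x * (g * (z : G)) * x⁻¹ = g)).card : ℂ) =
      ∑ x : G, if (good N g ∧ x * g = g * x) then (1 : ℂ) else 0 := by
  classical
  have h1 : ∀ z : N, conj (l z) *
      ((Finset.univ.filter (fun x : G => x * (g * (z : G)) * x⁻¹ = g)).card : ℂ) =
      ∑ x : G, if x * (g * (z : G)) * x⁻¹ = g then conj (l z) else 0 := by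
    intro z
    rw [Finset.card_filter]
    push_cast
    rw [Finset.mul_sum]
    apply Finset.sum_congr rfl
    intro x _
    split_ifs <;> simp
  rw [Finset.sum_congr rfl (fun z _ => h1 z), Finset.sum_comm]
  have hz_eq : ∀ (x : G) (z : N), x * (g * (z : G)) * x⁻¹ = g → (z : G) = g⁻¹ * x⁻¹ * g * x := by
    intro x z hh
    have e : (z : G) = g⁻¹ * (x⁻¹ * (x * (g * (z : G)) * x⁻¹) * x) := by group
    rw [e, hh]
    group
  have h2 : ∀ x : G, ∑ z : N, (if x * (g * (z : G)) * x⁻¹ = g then conj (l z) else 0) =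
      if h : g⁻¹ * x⁻¹ * g * x ∈ N then conj (l ⟨g⁻¹ * x⁻¹ * g * x, h⟩) else 0 := by
    intro x
    by_cases h : g⁻¹ * x⁻¹ * g * x ∈ N
    · rw [dif_pos h, Finset.sum_eq_single ⟨g⁻¹ * x⁻¹ * g * x, h⟩]
      · rw [if_pos]
        show x * (g * (g⁻¹ * x⁻¹ * g * x)) * x⁻¹ = g
        group
      · intro z _ hz
        rw [if_neg]
        intro hh
        apply hz
        apply Subtype.ext
        exact hz_eq x z hh
      · intro h'
        exact absurd (Finset.mem_univ _) h'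
    · rw [dif_neg h]
      apply Finset.sum_eq_zero
      intro z _
      rw [if_neg]
      intro hh
      apply h
      rw [← hz_eq x z hh]
      exact z.2
  rw [Finset.sum_congr rfl (fun x _ => h2 x)]
  by_cases hg : good N g
  · apply Finset.sum_congr rfl
    intro x _
    by_cases hx : x * g = g * x
    · have hk : g⁻¹ * x⁻¹ * g * x = 1 := by
        calc g⁻¹ * x⁻¹ * g * x = g⁻¹ * x⁻¹ * (g * x) := by group
          _ = g⁻¹ * x⁻¹ * (x * g) := by rw [hx]
          _ = 1 := by group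
      have hmem : g⁻¹ * x⁻¹ * g * x ∈ N := by
        rw [hk]
        exact N.one_mem
      rw [dif_pos hmem, if_pos ⟨hg, hx⟩]
      have e : (⟨g⁻¹ * x⁻¹ * g * x, hmem⟩ : N) = 1 := Subtype.ext hk
      rw [e, hl1, map_one]
    · rw [if_neg (fun h => hx h.2), dif_neg]
      intro hmem
      apply hx
      apply hg x
      have e : x⁻¹ * g⁻¹ * x * g = (g⁻¹ * x⁻¹ * g * x)⁻¹ := by group
      rw [e]
      exact N.inv_mem hmem
  · have hrhs : ∑ x : G, (if (good N g ∧ x * g = g * x) then (1 : ℂ) else 0) = 0 := by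
      apply Finset.sum_eq_zero
      intro x _
      rw [if_neg (fun h => hg h.1)]
    rw [hrhs]
    unfold good at hg
    push Not at hg
    obtain ⟨x₀, hx₀N, hx₀⟩ := hg
    have hk0 : g⁻¹ * x₀⁻¹ * g * x₀ ∈ N := by
      have e : g⁻¹ * x₀⁻¹ * g * x₀ = (x₀⁻¹ * g⁻¹ * x₀ * g)⁻¹ := by group
      rw [e]
      exact N.inv_mem hx₀N
    have hk0' : g⁻¹ * x₀⁻¹⁻¹ * g * x₀⁻¹ ∈ N := by
      have e : g⁻¹ * x₀⁻¹⁻¹ * g * x₀⁻¹ = x₀ * (x₀⁻¹ * g⁻¹ * x₀ * g) * x₀⁻¹ := by group
      rw [e]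
      exact hNn.conj_mem _ hx₀N _
    have hk0ne : (⟨g⁻¹ * x₀⁻¹ * g * x₀, hk0⟩ : N) ≠ 1 := by
      intro h
      apply hx₀
      have h' : g⁻¹ * x₀⁻¹ * g * x₀ = 1 := congrArg Subtype.val h
      calc x₀ * g = x₀ * g * (g⁻¹ * x₀⁻¹ * g * x₀) := by rw [h', mul_one]
        _ = g * x₀ := by group
    have hl0 : conj (l ⟨g⁻¹ * x₀⁻¹ * g * x₀, hk0⟩) ≠ 1 := by
      intro h
      apply hk0ne
      apply hfaith
      have h' := congrArg conj h
      simpa using h'
    have hshift : ∀ x : G,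
        (if h : g⁻¹ * (x * x₀)⁻¹ * g * (x * x₀) ∈ N then
          conj (l ⟨g⁻¹ * (x * x₀)⁻¹ * g * (x * x₀), h⟩) else 0) =
        conj (l ⟨g⁻¹ * x₀⁻¹ * g * x₀, hk0⟩) *
          (if h : g⁻¹ * x⁻¹ * g * x ∈ N then conj (l ⟨g⁻¹ * x⁻¹ * g * x, h⟩) else 0) := by
      intro x
      by_cases hx : g⁻¹ * x⁻¹ * g * x ∈ N
      · have e := kappa_mul N hN g x x₀ hx
        have hmem : g⁻¹ * (x * x₀)⁻¹ * g * (x * x₀) ∈ N := by
          rw [e]
          exact N.mul_mem hx hk0
        rw [dif_pos hmem, dif_pos hx]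
        have e' : (⟨g⁻¹ * (x * x₀)⁻¹ * g * (x * x₀), hmem⟩ : N) =
            ⟨g⁻¹ * x⁻¹ * g * x, hx⟩ * ⟨g⁻¹ * x₀⁻¹ * g * x₀, hk0⟩ := Subtype.ext e
        rw [e', hlmul, map_mul, mul_comm]
      · have hmem : ¬ g⁻¹ * (x * x₀)⁻¹ * g * (x * x₀) ∈ N := by
          intro hm
          apply hx
          have e := kappa_mul N hN g (x * x₀) x₀⁻¹ hm
          rw [mul_inv_cancel_right] at e
          rw [e]
          exact N.mul_mem hm hk0'
        rw [dif_neg hmem, dif_neg hx, mul_zero]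
    have hsum : ∑ x : G, (if h : g⁻¹ * x⁻¹ * g * x ∈ N then
          conj (l ⟨g⁻¹ * x⁻¹ * g * x, h⟩) else 0) =
        conj (l ⟨g⁻¹ * x₀⁻¹ * g * x₀, hk0⟩) *
          ∑ x : G, (if h : g⁻¹ * x⁻¹ * g * x ∈ N then
            conj (l ⟨g⁻¹ * x⁻¹ * g * x, h⟩) else 0) := by
      calc ∑ x : G, (if h : g⁻¹ * x⁻¹ * g * x ∈ N then
            conj (l ⟨g⁻¹ * x⁻¹ * g * x, h⟩) else 0)
          = ∑ x : G, (if h : g⁻¹ * (x * x₀)⁻¹ * g * (x * x₀) ∈ N then
              conj (l ⟨g⁻¹ * (x * x₀)⁻¹ * g * (x * x₀), h⟩) else 0) :=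
            (Equiv.sum_comp (Equiv.mulRight x₀) (fun x : G =>
              (if h : g⁻¹ * x⁻¹ * g * x ∈ N then
                conj (l ⟨g⁻¹ * x⁻¹ * g * x, h⟩) else 0))).symm
        _ = ∑ x : G, conj (l ⟨g⁻¹ * x₀⁻¹ * g * x₀, hk0⟩) *
              (if h : g⁻¹ * x⁻¹ * g * x ∈ N then conj (l ⟨g⁻¹ * x⁻¹ * g * x, h⟩) else 0) :=
            Finset.sum_congr rfl (fun x _ => hshift x)
        _ = _ := by rw [Finset.mul_sum]
    have hfin : (1 - conj (l ⟨g⁻¹ * x₀⁻¹ * g * x₀, hk0⟩)) *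
        ∑ x : G, (if h : g⁻¹ * x⁻¹ * g * x ∈ N then
          conj (l ⟨g⁻¹ * x⁻¹ * g * x, h⟩) else 0) = 0 := by
      rw [sub_mul, one_mul, ← hsum, sub_self]
    rcases mul_eq_zero.mp hfin with h | h
    · exact absurd (sub_eq_zero.mp h).symm hl0
    · exact h

/-- The character side: averaging `χ (g z) conj(λ z)` over the central subgroup. -/
theorem char_step {G : Type*} [Group G] [Fintype G] (N : Subgroup G) [Fintype N]
    (hN : N ≤ Subgroup.center G) (ψ : Cfsg.IrrCharacter N) (l : N → ℂ)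
    (hl : ∀ (z k : N), (ψ : N → ℂ) (k * z) = l z * (ψ : N → ℂ) k)
    (hlmul : ∀ z w : N, l (z * w) = l z * l w) (hlnorm : ∀ z : N, l z * conj (l z) = 1)
    (χ : Cfsg.IrrCharacter G) (g : G) :
    ∑ z : N, (χ : G → ℂ) (g * (z : G)) * conj (l z) =
      (if Cfsg.classInner (fun n : N => (χ : G → ℂ) n) (ψ : N → ℂ) ≠ 0 then
        (Fintype.card N : ℂ) else 0) * (χ : G → ℂ) g := by
  classical
  obtain ⟨c, hc⟩ := exists_central_scalar N.subtype (fun z => hN z.2) χ
  have hχ1 := irr_one_ne_zero χ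
  have hψ1 := irr_one_ne_zero ψ
  obtain ⟨-, hcmul⟩ := scalar_mul N.subtype (χ : G → ℂ) hχ1 c hc
  have hc' : ∀ (z : N) (y : G), (χ : G → ℂ) (y * (z : G)) = c z * (χ : G → ℂ) y := hc
  set s := ∑ z : N, c z * conj (l z) with hs
  have hcardN : (Nat.card N : ℂ) ≠ 0 := by exact_mod_cast (Nat.card_pos (α := N)).ne'
  have hinner : Cfsg.classInner (fun n : N => (χ : G → ℂ) n) (ψ : N → ℂ) =
      (Nat.card N : ℂ)⁻¹ * ((χ : G → ℂ) 1 * conj ((ψ : N → ℂ) 1) * s) := by
    unfold Cfsg.classInner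
    congr 1
    rw [hs, Finset.mul_sum]
    apply Finset.sum_congr rfl
    intro z _
    have h1 : (χ : G → ℂ) (z : G) = c z * (χ : G → ℂ) 1 := by
      have h := hc' z 1
      rwa [one_mul] at h
    have h2 : (ψ : N → ℂ) z = l z * (ψ : N → ℂ) 1 := by
      have h := hl z 1
      rwa [one_mul] at h
    beta_reduce
    rw [h1, h2, map_mul]
    ring
  have hlhs : ∑ z : N, (χ : G → ℂ) (g * (z : G)) * conj (l z) = s * (χ : G → ℂ) g := by
    rw [hs, Finset.sum_mul]
    apply Finset.sum_congr rfl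
    intro z _
    rw [hc' z g]
    ring
  rw [hlhs]
  rcases sum_scalar_dichotomy c l hcmul hlmul hlnorm with h0 | heq
  · have h0' : s = 0 := h0
    have hz : Cfsg.classInner (fun n : N => (χ : G → ℂ) n) (ψ : N → ℂ) = 0 := by
      rw [hinner, h0']
      simp
    rw [if_neg (not_not.mpr hz), h0']
  · have hsN : s = (Fintype.card N : ℂ) := by
      rw [hs, Finset.sum_congr rfl (fun z _ => by rw [heq z, hlnorm z])]
      simp
    have hnz : Cfsg.classInner (fun n : N => (χ : G → ℂ) n) (ψ : N → ℂ) ≠ 0 := by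
      rw [hinner, hsN]
      have hcN : (Fintype.card N : ℂ) ≠ 0 := by exact_mod_cast Fintype.card_ne_zero
      have hψ1' : conj ((ψ : N → ℂ) 1) ≠ 0 := by
        intro h
        apply hψ1
        have h' := congrArg conj h
        simpa using h'
      exact mul_ne_zero (inv_ne_zero hcardN) (mul_ne_zero (mul_ne_zero hχ1 hψ1') hcN)
    rw [if_pos hnz, hsN]

/-- Fibre sums over a quotient. -/
theorem sum_comp_mk {G : Type*} [Group G] [Fintype G] (N : Subgroup G) [N.Normal]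
    [Fintype (G ⧸ N)] (f : G ⧸ N → ℂ) :
    ∑ g : G, f (g : G ⧸ N) = (Nat.card N : ℂ) * ∑ q : G ⧸ N, f q := by
  classical
  rw [← Finset.sum_fiberwise Finset.univ (fun g : G => (g : G ⧸ N)) (fun g => f (g : G ⧸ N)),
    Finset.mul_sum]
  apply Finset.sum_congr rfl
  intro q _
  rw [Finset.sum_congr rfl (fun g hg => by rw [(Finset.mem_filter.mp hg).2]), Finset.sum_const,
    nsmul_eq_mul]
  congr 1
  have h := QuotientGroup.card_preimage_mk N ({q} : Set (G ⧸ N))
  have h1 : Nat.card (({q} : Set (G ⧸ N))) = 1 := by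
    rw [Nat.card_coe_set_eq, Set.ncard_singleton]
  rw [h1, mul_one] at h
  have h2 : Nat.card {g : G // (g : G ⧸ N) = q} = Nat.card N := h
  rw [Nat.card_eq_fintype_card, Fintype.card_subtype] at h2
  exact_mod_cast h2

open scoped Classical in
/-- Counting conjugacy classes with a property by counting commuting pairs. -/
theorem class_count {Q : Type*} [Group Q] [Fintype Q] [Fintype (ConjClasses Q)]
    (P : ConjClasses Q → Prop) :
    (Nat.card {C : ConjClasses Q // P C} : ℂ) * (Fintype.card Q : ℂ) =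
      ∑ q : Q, ∑ r : Q, if (P (ConjClasses.mk q) ∧ r * q = q * r) then (1 : ℂ) else 0 := by
  classical
  have h1 : ∀ q : Q, (∑ r : Q, if (P (ConjClasses.mk q) ∧ r * q = q * r) then (1 : ℂ) else 0) =
      if P (ConjClasses.mk q) then (Nat.card (Subgroup.centralizer ({q} : Set Q)) : ℂ) else 0 := by
    intro q
    by_cases hq : P (ConjClasses.mk q)
    · rw [if_pos hq]
      rw [Nat.card_eq_fintype_card, Fintype.card_subtype, Finset.card_filter]
      push_cast
      apply Finset.sum_congr rfl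
      intro r _
      have e : (P (ConjClasses.mk q) ∧ r * q = q * r) ↔
          r ∈ Subgroup.centralizer ({q} : Set Q) := by
        rw [Subgroup.mem_centralizer_iff]
        constructor
        · rintro ⟨-, h⟩ y hy
          rw [Set.mem_singleton_iff] at hy
          rw [hy]
          exact h.symm
        · intro h
          exact ⟨hq, (h q (Set.mem_singleton q)).symm⟩
      simp only [e]
    · rw [if_neg hq]
      apply Finset.sum_eq_zero
      intro r _
      rw [if_neg (fun h => hq h.1)]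
  rw [Finset.sum_congr rfl (fun q _ => h1 q)]
  rw [← Finset.sum_fiberwise Finset.univ (fun q : Q => ConjClasses.mk q)]
  have h2 : ∀ C : ConjClasses Q,
      ∑ q ∈ Finset.univ.filter (fun q : Q => ConjClasses.mk q = C),
        (if P (ConjClasses.mk q) then (Nat.card (Subgroup.centralizer ({q} : Set Q)) : ℂ) else 0) =
      if P C then (Fintype.card Q : ℂ) else 0 := by
    intro C
    by_cases hC : P C
    · rw [if_pos hC, ← Nat.card_eq_fintype_card,
        ← Cfsg.Agent.Helper3.sum_card_centralizer_class C]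
      apply Finset.sum_congr rfl
      intro q hq
      rw [(Finset.mem_filter.mp hq).2, if_pos hC]
    · rw [if_neg hC]
      apply Finset.sum_eq_zero
      intro q hq
      rw [(Finset.mem_filter.mp hq).2, if_neg hC]
  rw [Finset.sum_congr rfl (fun C _ => h2 C)]
  rw [Nat.card_eq_fintype_card, Fintype.card_subtype, Finset.card_filter]
  push_cast
  rw [Finset.sum_mul]
  apply Finset.sum_congr rfl
  intro C _
  split_ifs <;> simp

/-- Let N be a central subgroup of the finite group G and ψ a faithful irreducible (hence degree-one) character of N. Call a coset g N special when every x ∈ G whose commutator x⁻¹ g⁻¹ x g lies in N actually commutes with g (this depends only on the coset). Then the number of irreducible characters of G whose restriction to N contains ψ equals the number of conjugacy classes of G/N consisting of special cosets. -/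
theorem result {G : Type*} [Group G] [Fintype G] (N : Subgroup G) [N.Normal] [Fintype N] (hN : N ≤ Subgroup.center G) (ψ : Cfsg.IrrCharacter ↥N) (hfaith : ∀ n : ↥N, (ψ : ↥N → ℂ) n = (ψ : ↥N → ℂ) 1 → n = 1) : Nat.card {χ : Cfsg.IrrCharacter G // Cfsg.classInner (fun n : ↥N => (χ : G → ℂ) n) (ψ : ↥N → ℂ) ≠ 0} = Nat.card {C : ConjClasses (G ⧸ N) // ∃ g : G, ConjClasses.mk (g : G ⧸ N) = C ∧ ∀ x : G, x⁻¹ * g⁻¹ * x * g ∈ N → x * g = g * x} := by
  classical
  let _ : Fintype (Cfsg.IrrCharacter G) := Fintype.ofFinite _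
  let _ : Fintype (G ⧸ N) := Fintype.ofFinite _
  let _ : Fintype (ConjClasses (G ⧸ N)) := Fintype.ofFinite _
  -- the linear character `l` of `N` with `ψ = ψ(1) l`
  have hNc : ∀ z : N, (MonoidHom.id N) z ∈ Subgroup.center N := by
    intro z
    rw [Subgroup.mem_center_iff]
    intro k
    apply Subtype.ext
    show (k : G) * (z : G) = (z : G) * (k : G)
    exact Subgroup.mem_center_iff.mp (hN z.2) (k : G)
  obtain ⟨l, hl0⟩ := exists_central_scalar (MonoidHom.id N) hNc ψ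
  have hl : ∀ (z k : N), (ψ : N → ℂ) (k * z) = l z * (ψ : N → ℂ) k := hl0
  have hψ1 := irr_one_ne_zero ψ
  obtain ⟨hl1, hlmul⟩ := scalar_mul (MonoidHom.id N) (ψ : N → ℂ) hψ1 l hl0
  have hlnorm := scalar_norm l hl1 hlmul
  have hlfaith : ∀ z : N, l z = 1 → z = 1 := by
    intro z hz
    apply hfaith
    have h := hl z 1
    rw [one_mul, hz, one_mul] at h
    exact h
  -- (A) the character side
  have hA : (Fintype.card N : ℂ) * ((Nat.card {χ : Cfsg.IrrCharacter G //
        Cfsg.classInner (fun n : ↥N => (χ : G → ℂ) n) (ψ : ↥N → ℂ) ≠ 0} : ℂ) *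
        (Fintype.card G : ℂ)) =
      ∑ g : G, ∑ x : G, if (good N g ∧ x * g = g * x) then (1 : ℂ) else 0 := by
    have e1 : ∀ g : G, ∑ x : G, (if (good N g ∧ x * g = g * x) then (1 : ℂ) else 0) =
        ∑ χ : Cfsg.IrrCharacter G,
          ((if Cfsg.classInner (fun n : N => (χ : G → ℂ) n) (ψ : N → ℂ) ≠ 0 then
            (Fintype.card N : ℂ) else 0) * (χ : G → ℂ) g) * conj ((χ : G → ℂ) g) := by
      intro g
      rw [← T_eval N hN l hl1 hlmul hlfaith g]
      have e2 : ∀ z : N, conj (l z) *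
          ((Finset.univ.filter (fun x : G => x * (g * (z : G)) * x⁻¹ = g)).card : ℂ) =
          ∑ χ : Cfsg.IrrCharacter G,
            conj (l z) * ((χ : G → ℂ) (g * (z : G)) * conj ((χ : G → ℂ) g)) := by
        intro z
        rw [← Cfsg.Agent.Helper80.irr_sum_mul_conj (g * (z : G)) g, Finset.mul_sum]
      rw [Finset.sum_congr rfl (fun z _ => e2 z), Finset.sum_comm]
      apply Finset.sum_congr rfl
      intro χ _
      rw [← char_step N hN ψ l hl hlmul hlnorm χ g, Finset.sum_mul]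
      apply Finset.sum_congr rfl
      intro z _
      ring
    rw [Finset.sum_congr rfl (fun g _ => e1 g), Finset.sum_comm]
    have e3 : ∀ χ : Cfsg.IrrCharacter G, ∑ g : G,
        ((if Cfsg.classInner (fun n : N => (χ : G → ℂ) n) (ψ : N → ℂ) ≠ 0 then
          (Fintype.card N : ℂ) else 0) * (χ : G → ℂ) g) * conj ((χ : G → ℂ) g) =
        (if Cfsg.classInner (fun n : N => (χ : G → ℂ) n) (ψ : N → ℂ) ≠ 0 then
          (Fintype.card N : ℂ) else 0) * (Fintype.card G : ℂ) := by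
      intro χ
      have h := Cfsg.Agent.Helper80.irr_orthogonality_conj χ χ
      rw [if_pos rfl] at h
      rw [← h, Finset.mul_sum]
      apply Finset.sum_congr rfl
      intro g _
      ring
    rw [Finset.sum_congr rfl (fun χ _ => e3 χ)]
    have hcardI : (Nat.card {χ : Cfsg.IrrCharacter G //
        Cfsg.classInner (fun n : ↥N => (χ : G → ℂ) n) (ψ : ↥N → ℂ) ≠ 0} : ℂ) =
        ∑ χ : Cfsg.IrrCharacter G,
          if Cfsg.classInner (fun n : ↥N => (χ : G → ℂ) n) (ψ : ↥N → ℂ) ≠ 0 then (1 : ℂ)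
          else 0 := by
      rw [Nat.card_eq_fintype_card, Fintype.card_subtype, Finset.card_filter]
      push_cast
      rfl
    rw [hcardI, Finset.sum_mul, Finset.mul_sum]
    apply Finset.sum_congr rfl
    intro χ _
    split_ifs <;> ring
  -- (B) the class side
  have hcount := class_count (Q := G ⧸ N) (fun C : ConjClasses (G ⧸ N) =>
    ∃ g : G, ConjClasses.mk (g : G ⧸ N) = C ∧ ∀ x : G, x⁻¹ * g⁻¹ * x * g ∈ N → x * g = g * x)
  obtain ⟨F, hF⟩ : ∃ F : G ⧸ N → G ⧸ N → ℂ, ∀ q r, F q r =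
      if ((∃ g' : G, ConjClasses.mk (g' : G ⧸ N) = ConjClasses.mk q ∧
        ∀ x : G, x⁻¹ * g'⁻¹ * x * g' ∈ N → x * g' = g' * x) ∧ r * q = q * r) then (1 : ℂ)
      else 0 := ⟨_, fun _ _ => rfl⟩
  have hcount' : (Nat.card {C : ConjClasses (G ⧸ N) //
        ∃ g : G, ConjClasses.mk (g : G ⧸ N) = C ∧
          ∀ x : G, x⁻¹ * g⁻¹ * x * g ∈ N → x * g = g * x} : ℂ) *
        (Fintype.card (G ⧸ N) : ℂ) = ∑ q : G ⧸ N, ∑ r : G ⧸ N, F q r := by
    rw [hcount]
    refine Finset.sum_congr rfl (fun q _ => Finset.sum_congr rfl (fun r _ => ?_))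
    rw [hF]
    by_cases hc : ((∃ g' : G, ConjClasses.mk (g' : G ⧸ N) = ConjClasses.mk q ∧
        ∀ x : G, x⁻¹ * g'⁻¹ * x * g' ∈ N → x * g' = g' * x) ∧ r * q = q * r)
    · rw [if_pos hc, if_pos hc]
    · rw [if_neg hc, if_neg hc]
  have hpair : ∀ g x : G, (if (good N g ∧ x * g = g * x) then (1 : ℂ) else 0) =
      F (g : G ⧸ N) (x : G ⧸ N) := by
    intro g x
    have hiff : (good N g ∧ x * g = g * x) ↔
        ((∃ g' : G, ConjClasses.mk (g' : G ⧸ N) = ConjClasses.mk (g : G ⧸ N) ∧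
          ∀ x : G, x⁻¹ * g'⁻¹ * x * g' ∈ N → x * g' = g' * x) ∧
          (x : G ⧸ N) * (g : G ⧸ N) = (g : G ⧸ N) * (x : G ⧸ N)) := by
      have hgc := good_iff_class N hN g
      constructor
      · rintro ⟨hg, hx⟩
        refine ⟨hgc.mpr hg, ?_⟩
        rw [← QuotientGroup.mk_mul, ← QuotientGroup.mk_mul, hx]
      · rintro ⟨hg, hx⟩
        have hg' := hgc.mp hg
        refine ⟨hg', ?_⟩
        apply hg' x
        rw [← QuotientGroup.mk_mul, ← QuotientGroup.mk_mul] at hx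
        have h1 := QuotientGroup.eq.mp hx.symm
        have e : x⁻¹ * g⁻¹ * x * g = (g * x)⁻¹ * (x * g) := by group
        rw [e]
        exact h1
    rw [hF]
    exact if_congr hiff rfl rfl
  have hB : ((Nat.card N : ℂ) * (Nat.card N : ℂ)) * ((Nat.card {C : ConjClasses (G ⧸ N) //
        ∃ g : G, ConjClasses.mk (g : G ⧸ N) = C ∧
          ∀ x : G, x⁻¹ * g⁻¹ * x * g ∈ N → x * g = g * x} : ℂ) *
        (Fintype.card (G ⧸ N) : ℂ)) =
      ∑ g : G, ∑ x : G, if (good N g ∧ x * g = g * x) then (1 : ℂ) else 0 := by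
    rw [hcount']
    rw [Finset.sum_congr rfl (fun g _ => Finset.sum_congr rfl (fun x _ => hpair g x))]
    have e5 : ∀ g : G, ∑ x : G, F (g : G ⧸ N) (x : G ⧸ N) =
        (Nat.card N : ℂ) * ∑ r : G ⧸ N, F (g : G ⧸ N) r := by
      intro g
      exact sum_comp_mk N (F (g : G ⧸ N))
    rw [Finset.sum_congr rfl (fun g _ => e5 g), ← Finset.mul_sum,
      sum_comp_mk N (fun q : G ⧸ N => ∑ r : G ⧸ N, F q r), mul_assoc]
  -- conclusion
  have hcard : (Fintype.card G : ℂ) = (Fintype.card (G ⧸ N) : ℂ) * (Fintype.card N : ℂ) := by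
    have h := Subgroup.card_eq_card_quotient_mul_card_subgroup N
    rw [Nat.card_eq_fintype_card, Nat.card_eq_fintype_card, Nat.card_eq_fintype_card] at h
    exact_mod_cast h
  have hNne : (Fintype.card N : ℂ) ≠ 0 := by exact_mod_cast Fintype.card_ne_zero
  have hQne : (Fintype.card (G ⧸ N) : ℂ) ≠ 0 := by exact_mod_cast Fintype.card_ne_zero
  rw [← hB, hcard, Nat.card_eq_fintype_card (α := N)] at hA
  have hfin : (Nat.card {χ : Cfsg.IrrCharacter G //
        Cfsg.classInner (fun n : ↥N => (χ : G → ℂ) n) (ψ : ↥N → ℂ) ≠ 0} : ℂ) =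
      (Nat.card {C : ConjClasses (G ⧸ N) // ∃ g : G, ConjClasses.mk (g : G ⧸ N) = C ∧
          ∀ x : G, x⁻¹ * g⁻¹ * x * g ∈ N → x * g = g * x} : ℂ) := by
    have h2 : ((Fintype.card N : ℂ) * (Fintype.card N : ℂ) * (Fintype.card (G ⧸ N) : ℂ)) ≠ 0 :=
      mul_ne_zero (mul_ne_zero hNne hNne) hQne
    apply mul_left_cancel₀ h2
    linear_combination hA
  exact_mod_cast hfin

end Cfsg.Agent.S4567
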