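import Cfsg.Statements.S4574
import Mathlib
import Cfsg.Agent.Helper75.Galois
import Cfsg.Agent.Helper82.CycloNorm

set_option autoImplicit false
open Cfsg

namespace Cfsg.Agent.S4574

open scoped ComplexConjugate

/-- For a character that does not vanish on the `k`-th powers of `v` (`k` prime to `n`, where
`v ^ n = 1`), the squared absolute values over these powers (indexed by the primitive `n`-th
roots of unity) add up to at least `φ(n)`. -/
theorem sum_normSq_pow_ge {X : Type*} [Group X]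
    {W : Type*} [AddCommGroup W] [Module ℂ W] [FiniteDimensional ℂ W] (ρ : Representation ℂ X W)
    (v : X) (n : ℕ) (hn : n ≠ 0) (hv : v ^ n = 1) (ζ : ℂ) (hζ : IsPrimitiveRoot ζ n) (jj : ℂ → ℕ)
    (hjj : ∀ ξ ∈ primitiveRoots n ℂ, ζ ^ jj ξ = ξ)
    (hne : ∀ ξ ∈ primitiveRoots n ℂ, ρ.character (v ^ jj ξ) ≠ 0) :
    (Nat.totient n : ℝ) ≤ ∑ ξ ∈ primitiveRoots n ℂ, ‖ρ.character (v ^ jj ξ)‖ ^ 2 := by
  classical
  have : NeZero n := ⟨hn⟩
  have hf : (ρ v) ^ n = 1 := by rw [← map_pow, hv, map_one]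
  obtain ⟨s, hs1, -, hs3⟩ := Cfsg.Agent.Helper75.exists_eigen_multiset (ρ v) n hn hf
  let e' : ℂ → ℕ := fun μ =>
    if h : μ ^ n = 1 then Classical.choose (hζ.eq_pow_of_pow_eq_one h) else 0
  have he' : ∀ μ ∈ s, ζ ^ e' μ = μ := by
    intro μ hμ
    simp only [e', dif_pos (hs1 μ hμ)]
    exact (Classical.choose_spec (hζ.eq_pow_of_pow_eq_one (hs1 μ hμ))).2
  have key : ∀ ξ ∈ primitiveRoots n ℂ,
      ((s.map e').map (fun e => ξ ^ e)).sum = ρ.character (v ^ jj ξ) := by
    intro ξ hξ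
    rw [Multiset.map_map]
    have h1 : ρ.character (v ^ jj ξ) = (s.map (fun μ => μ ^ jj ξ)).sum := by
      unfold Representation.character
      rw [map_pow, hs3]
    rw [h1]
    congr 1
    apply Multiset.map_congr rfl
    intro μ hμ
    simp only [Function.comp]
    have h2 : ξ ^ e' μ = (ζ ^ jj ξ) ^ e' μ := by rw [hjj ξ hξ]
    rw [h2, ← pow_mul, mul_comm, pow_mul, he' μ hμ]
  have h2 := Cfsg.Agent.Helper82.sum_normSq_primitiveRoots_ge n (s.map e')
    (fun ξ hξ => by rw [key ξ hξ]; exact hne ξ hξ)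
  rw [Finset.sum_congr rfl (fun ξ hξ => by rw [key ξ hξ])] at h2
  exact h2

/-- First orthogonality relation: `∑ |χ(g)|² = |G|`. -/
theorem sum_normSq_char {G : Type*} [Group G] [Fintype G] {V : Type*} [AddCommGroup V]
    [Module ℂ V] [FiniteDimensional ℂ V] (ρ : Representation ℂ G V) [ρ.IsIrreducible] :
    ∑ g : G, ‖ρ.character g‖ ^ 2 = (Fintype.card G : ℝ) := by
  have hne : (Nat.card G : ℂ) ≠ 0 := by exact_mod_cast (Nat.card_pos (α := G)).ne'
  have : Invertible (Nat.card G : ℂ) := invertibleOfNonzero hne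
  have h1 := Representation.char_orthonormal ρ ρ
  rw [if_pos ⟨Representation.Equiv.refl ρ⟩] at h1
  have h2 : ∑ g : G, ρ.character g * ρ.character g⁻¹ = (Nat.card G : ℂ) := by
    have h3 := congrArg (fun t => (Nat.card G : ℂ) * t) h1
    simp only [← mul_assoc, mul_inv_cancel₀ hne, one_mul, mul_one] at h3
    simpa using h3
  have h4 : ∑ g : G, ρ.character g * ρ.character g⁻¹ =
      ((∑ g : G, ‖ρ.character g‖ ^ 2 : ℝ) : ℂ) := by
    rw [Complex.ofReal_sum]
    apply Finset.sum_congr rfl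
    intro g _
    rw [Cfsg.Agent.Helper75.character_inv_eq_conj, Complex.mul_conj']
    push_cast
    rfl
  rw [h4, Nat.card_eq_fintype_card] at h2
  exact_mod_cast h2

/-- Galois conjugation: for `k` prime to `|G|` there is a field automorphism `σ` of `ℂ` with
`χ (h ^ k) = σ (χ h)` for all `h`. -/
theorem exists_galois {G : Type*} [Group G] [Finite G] {V : Type*} [AddCommGroup V]
    [Module ℂ V] [FiniteDimensional ℂ V] (ρ : Representation ℂ G V) (k : ℕ)
    (hk : Nat.Coprime k (Nat.card G)) :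
    ∃ σ : ℂ ≃+* ℂ, ∀ h : G, ρ.character (h ^ k) = σ (ρ.character h) := by
  obtain ⟨σ, hσ⟩ := Cfsg.Agent.Helper75.exists_ringEquiv_pow (Nat.card G) Nat.card_pos.ne' k hk
  exact ⟨σ, fun h => Cfsg.Agent.Helper75.character_pow_eq ρ σ k hσ h⟩

/-- `|χ(g)| = m` iff `χ(g) χ(g⁻¹) = m²`. -/
theorem norm_eq_iff {G : Type*} [Group G] [Finite G] {V : Type*} [AddCommGroup V]
    [Module ℂ V] [FiniteDimensional ℂ V] (ρ : Representation ℂ G V) (m : ℕ) (g : G) :
    ‖ρ.character g‖ = (m : ℝ) ↔ ρ.character g * ρ.character g⁻¹ = ((m : ℂ)) ^ 2 := by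
  rw [Cfsg.Agent.Helper75.character_inv_eq_conj, Complex.mul_conj']
  constructor
  · intro h
    rw [h]
    push_cast
    rfl
  · intro h
    have h1 : (‖ρ.character g‖ : ℝ) ^ 2 = (m : ℝ) ^ 2 := by exact_mod_cast h
    have h2 : (0 : ℝ) ≤ ‖ρ.character g‖ := norm_nonneg _
    have h3 : (0 : ℝ) ≤ (m : ℝ) := Nat.cast_nonneg m
    nlinarith [sq_nonneg (‖ρ.character g‖ - (m : ℝ)), sq_nonneg (‖ρ.character g‖ + (m : ℝ))]

/-- The set of elements where `χ` is nonzero and not of absolute value `m` is stable under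
`g ↦ g ^ k`, `k` prime to `|G|`. -/
theorem pow_mem_iff {G : Type*} [Group G] [Finite G] {V : Type*} [AddCommGroup V]
    [Module ℂ V] [FiniteDimensional ℂ V] (ρ : Representation ℂ G V) (m : ℕ) (k : ℕ)
    (hk : Nat.Coprime k (Nat.card G)) (g : G) :
    (ρ.character (g ^ k) ≠ 0 ∧ ‖ρ.character (g ^ k)‖ ≠ (m : ℝ)) ↔
      (ρ.character g ≠ 0 ∧ ‖ρ.character g‖ ≠ (m : ℝ)) := by
  obtain ⟨σ, hσ⟩ := exists_galois ρ k hk
  have h1 : ρ.character (g ^ k) = 0 ↔ ρ.character g = 0 := by
    rw [hσ g]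
    exact map_eq_zero_iff σ σ.injective
  have h2 : ‖ρ.character (g ^ k)‖ = (m : ℝ) ↔ ‖ρ.character g‖ = (m : ℝ) := by
    rw [norm_eq_iff, norm_eq_iff, ← inv_pow, hσ g, hσ g⁻¹, ← map_mul]
    constructor
    · intro h
      apply σ.injective
      rw [h, map_pow, map_natCast]
    · intro h
      rw [h, map_pow, map_natCast]
  exact and_congr (not_congr h1) (not_congr h2)

/-- The key inequality, by Galois averaging: on the set where `χ` is nonzero and not of absolute
value `m`, the average of `|χ|²` is at least `1`. -/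
theorem sum_ge_card {G : Type*} [Group G] [Fintype G] {V : Type*} [AddCommGroup V]
    [Module ℂ V] [FiniteDimensional ℂ V] (ρ : Representation ℂ G V) (m : ℕ) :
    (∑ g : G, if (ρ.character g ≠ 0 ∧ ‖ρ.character g‖ ≠ (m : ℝ)) then (1 : ℝ) else 0) ≤
      ∑ g : G, if (ρ.character g ≠ 0 ∧ ‖ρ.character g‖ ≠ (m : ℝ)) then
        ‖ρ.character g‖ ^ 2 else 0 := by
  classical
  set n := Fintype.card G with hn
  have hn0 : n ≠ 0 := Fintype.card_ne_zero
  have hnc : Nat.card G = n := Nat.card_eq_fintype_card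
  have : NeZero n := ⟨hn0⟩
  have hζ := Complex.isPrimitiveRoot_exp n hn0
  set ζ : ℂ := Complex.exp (2 * ↑Real.pi * Complex.I / ↑n) with hζdef
  let jj : ℂ → ℕ := fun ξ =>
    if h : ξ ^ n = 1 then Classical.choose (hζ.eq_pow_of_pow_eq_one h) else 0
  have hjj : ∀ ξ ∈ primitiveRoots n ℂ, ζ ^ jj ξ = ξ := by
    intro ξ hξ
    have h1 : ξ ^ n = 1 := ((mem_primitiveRoots (Nat.pos_of_ne_zero hn0)).mp hξ).pow_eq_one
    simp only [jj, dif_pos h1]
    exact (Classical.choose_spec (hζ.eq_pow_of_pow_eq_one h1)).2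
  have hcop : ∀ ξ ∈ primitiveRoots n ℂ, Nat.Coprime (jj ξ) (Nat.card G) := by
    intro ξ hξ
    rw [hnc]
    have h1 : IsPrimitiveRoot ξ n := (mem_primitiveRoots (Nat.pos_of_ne_zero hn0)).mp hξ
    rw [← hjj ξ hξ] at h1
    exact (hζ.pow_iff_coprime (Nat.pos_of_ne_zero hn0) (jj ξ)).mp h1
  set P : G → Prop := fun g => ρ.character g ≠ 0 ∧ ‖ρ.character g‖ ≠ (m : ℝ) with hP
  set F : G → ℝ := fun g => if P g then ‖ρ.character g‖ ^ 2 else 0 with hF
  have hre : ∀ ξ ∈ primitiveRoots n ℂ, ∑ g : G, F (g ^ jj ξ) = ∑ g : G, F g := by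
    intro ξ hξ
    exact Equiv.sum_comp (powCoprime (hcop ξ hξ).symm) F
  have hpt : ∀ g : G, (if P g then (Nat.totient n : ℝ) else 0) ≤
      ∑ ξ ∈ primitiveRoots n ℂ, F (g ^ jj ξ) := by
    intro g
    by_cases hg : P g
    · rw [if_pos hg]
      have h1 : ∀ ξ ∈ primitiveRoots n ℂ, F (g ^ jj ξ) = ‖ρ.character (g ^ jj ξ)‖ ^ 2 := by
        intro ξ hξ
        have h2 : P (g ^ jj ξ) := (pow_mem_iff ρ m (jj ξ) (hcop ξ hξ) g).mpr hg
        simp only [hF, if_pos h2]
      rw [Finset.sum_congr rfl h1]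
      apply sum_normSq_pow_ge ρ g n hn0 (by rw [hn]; exact pow_card_eq_one) ζ hζ jj hjj
      intro ξ hξ
      exact ((pow_mem_iff ρ m (jj ξ) (hcop ξ hξ) g).mpr hg).1
    · rw [if_neg hg]
      apply Finset.sum_nonneg
      intro ξ _
      simp only [hF]
      split_ifs
      · positivity
      · exact le_rfl
  have hφ : (0 : ℝ) < (Nat.totient n : ℝ) := by
    exact_mod_cast Nat.totient_pos.mpr (Nat.pos_of_ne_zero hn0)
  have h1 : (Nat.totient n : ℝ) * ∑ g : G, (if P g then (1 : ℝ) else 0) ≤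
      (Nat.totient n : ℝ) * ∑ g : G, F g := by
    calc (Nat.totient n : ℝ) * ∑ g : G, (if P g then (1 : ℝ) else 0)
        = ∑ g : G, (if P g then (Nat.totient n : ℝ) else 0) := by
          rw [Finset.mul_sum]
          apply Finset.sum_congr rfl
          intro g _
          split_ifs <;> simp
      _ ≤ ∑ g : G, ∑ ξ ∈ primitiveRoots n ℂ, F (g ^ jj ξ) :=
          Finset.sum_le_sum (fun g _ => hpt g)
      _ = ∑ ξ ∈ primitiveRoots n ℂ, ∑ g : G, F (g ^ jj ξ) := Finset.sum_comm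
      _ = ∑ ξ ∈ primitiveRoots n ℂ, ∑ g : G, F g := Finset.sum_congr rfl hre
      _ = (Nat.totient n : ℝ) * ∑ g : G, F g := by
          rw [Finset.sum_const, Complex.card_primitiveRoots, nsmul_eq_mul]
  exact le_of_mul_le_mul_left h1 hφ

/-- The space of an irreducible representation is nonzero. -/
theorem finrank_pos_of_irr {G : Type*} [Group G] {V : Type*} [AddCommGroup V] [Module ℂ V]
    [FiniteDimensional ℂ V] (ρ : Representation ℂ G V) [ρ.IsIrreducible] :
    0 < Module.finrank ℂ V := by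
  by_contra h
  have h0 : Module.finrank ℂ V = 0 := by omega
  have hsub : Subsingleton V := Module.finrank_zero_iff.mp h0
  have hne : (⊥ : Subrepresentation ρ) ≠ ⊤ := bot_ne_top
  apply hne
  apply Subrepresentation.toSubmodule_injective
  exact Subsingleton.elim _ _

/-- Let χ be an irreducible character of the finite group G, of degree d, and let Z(χ) be the set of elements g with |χ g| = d (the centre of χ). Then χ vanishes on at least (d ^ 2 - 1) · |Z(χ)| elements of G, with equality when every value |χ g| is 0, 1 or d. -/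
theorem result {G : Type*} [Group G] [Fintype G] [DecidableEq G] (χ : G → ℂ) (hχ : Cfsg.IsIrrCharacter G χ) : (Cfsg.charDegree χ ^ 2 - 1) * (Finset.univ.filter (fun g : G => ‖χ g‖ = (Cfsg.charDegree χ : ℝ))).card ≤ (Finset.univ.filter (fun g : G => χ g = 0)).card ∧ ((∀ g : G, ‖χ g‖ = 0 ∨ ‖χ g‖ = 1 ∨ ‖χ g‖ = (Cfsg.charDegree χ : ℝ)) → (Cfsg.charDegree χ ^ 2 - 1) * (Finset.univ.filter (fun g : G => ‖χ g‖ = (Cfsg.charDegree χ : ℝ))).card = (Finset.univ.filter (fun g : G => χ g = 0)).card) := by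
  classical
  obtain ⟨m, ρ, hρ, rfl⟩ := hχ
  have hdeg : Cfsg.charDegree ρ.character = m := by
    unfold Cfsg.charDegree
    rw [Representation.char_one]
    simp
  rw [hdeg]
  have hm : 1 ≤ m := by
    have h1 := finrank_pos_of_irr ρ
    have h2 : 0 < m := by simpa using h1
    exact h2
  have hmR : (1 : ℝ) ≤ (m : ℝ) := by exact_mod_cast hm
  have hsum1 := sum_normSq_char ρ
  have hK := sum_ge_card ρ m
  have hd1 : ∀ g : G, ‖ρ.character g‖ ^ 2 =
      (if ‖ρ.character g‖ = (m : ℝ) then (m : ℝ) ^ 2 else 0) +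
      (if (ρ.character g ≠ 0 ∧ ‖ρ.character g‖ ≠ (m : ℝ)) then ‖ρ.character g‖ ^ 2 else 0) := by
    intro g
    by_cases h0 : ρ.character g = 0
    · have h1 : ¬ ‖ρ.character g‖ = (m : ℝ) := by
        rw [h0, norm_zero]
        intro h
        linarith
      rw [if_neg h1, if_neg (fun h => h.1 h0), h0, norm_zero]
      norm_num
    · by_cases h1 : ‖ρ.character g‖ = (m : ℝ)
      · rw [if_pos h1, if_neg (fun h => h.2 h1), h1, add_zero]
      · rw [if_neg h1, if_pos ⟨h0, h1⟩, zero_add]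
  have hd2 : ∀ g : G, (1 : ℝ) = (if ρ.character g = 0 then (1 : ℝ) else 0) +
      (if ‖ρ.character g‖ = (m : ℝ) then (1 : ℝ) else 0) +
      (if (ρ.character g ≠ 0 ∧ ‖ρ.character g‖ ≠ (m : ℝ)) then (1 : ℝ) else 0) := by
    intro g
    by_cases h0 : ρ.character g = 0
    · have h1 : ¬ ‖ρ.character g‖ = (m : ℝ) := by
        rw [h0, norm_zero]
        intro h
        linarith
      rw [if_pos h0, if_neg h1, if_neg (fun h => h.1 h0)]
      norm_num
    · by_cases h1 : ‖ρ.character g‖ = (m : ℝ)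
      · rw [if_neg h0, if_pos h1, if_neg (fun h => h.2 h1)]
        norm_num
      · rw [if_neg h0, if_neg h1, if_pos ⟨h0, h1⟩]
        norm_num
  have e1 : (Fintype.card G : ℝ) = (m : ℝ) ^ 2 *
      ((Finset.univ.filter (fun g : G => ‖ρ.character g‖ = (m : ℝ))).card : ℝ) +
      ∑ g : G, (if (ρ.character g ≠ 0 ∧ ‖ρ.character g‖ ≠ (m : ℝ)) then
        ‖ρ.character g‖ ^ 2 else 0) := by
    rw [← hsum1, Finset.sum_congr rfl (fun g _ => hd1 g), Finset.sum_add_distrib]
    congr 1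
    rw [← Finset.sum_filter, Finset.sum_const, nsmul_eq_mul, mul_comm]
  have e2 : (Fintype.card G : ℝ) =
      ((Finset.univ.filter (fun g : G => ρ.character g = 0)).card : ℝ) +
      ((Finset.univ.filter (fun g : G => ‖ρ.character g‖ = (m : ℝ))).card : ℝ) +
      ∑ g : G, (if (ρ.character g ≠ 0 ∧ ‖ρ.character g‖ ≠ (m : ℝ)) then (1 : ℝ) else 0) := by
    have h1 : (Fintype.card G : ℝ) = ∑ g : G, (1 : ℝ) := by simp
    rw [h1, Finset.sum_congr rfl (fun g _ => hd2 g), Finset.sum_add_distrib,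
      Finset.sum_add_distrib]
    congr 1
    congr 1
    · rw [← Finset.sum_filter, Finset.sum_const, nsmul_eq_mul, mul_one]
    · rw [← Finset.sum_filter, Finset.sum_const, nsmul_eq_mul, mul_one]
  have hcast : ((m ^ 2 - 1 : ℕ) : ℝ) = (m : ℝ) ^ 2 - 1 := by
    rw [Nat.cast_sub (Nat.one_le_pow _ _ hm)]
    push_cast
    rfl
  constructor
  · have h : ((m ^ 2 - 1 : ℕ) : ℝ) *
        ((Finset.univ.filter (fun g : G => ‖ρ.character g‖ = (m : ℝ))).card : ℝ) ≤
        ((Finset.univ.filter (fun g : G => ρ.character g = 0)).card : ℝ) := by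
      rw [hcast]
      linarith
    exact_mod_cast h
  · intro hall
    have hK' : ∑ g : G, (if (ρ.character g ≠ 0 ∧ ‖ρ.character g‖ ≠ (m : ℝ)) then
        ‖ρ.character g‖ ^ 2 else 0) =
        ∑ g : G, (if (ρ.character g ≠ 0 ∧ ‖ρ.character g‖ ≠ (m : ℝ)) then (1 : ℝ) else 0) := by
      apply Finset.sum_congr rfl
      intro g _
      by_cases hg : (ρ.character g ≠ 0 ∧ ‖ρ.character g‖ ≠ (m : ℝ))
      · rw [if_pos hg, if_pos hg]
        rcases hall g with h | h | h
        · exact absurd (norm_eq_zero.mp h) hg.1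
        · rw [h]
          norm_num
        · exact absurd h hg.2
      · rw [if_neg hg, if_neg hg]
    have h : ((m ^ 2 - 1 : ℕ) : ℝ) *
        ((Finset.univ.filter (fun g : G => ‖ρ.character g‖ = (m : ℝ))).card : ℝ) =
        ((Finset.univ.filter (fun g : G => ρ.character g = 0)).card : ℝ) := by
      rw [hcast]
      linarith
    exact_mod_cast h

end Cfsg.Agent.S4574
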