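import Cfsg.Statements.S4582
import Mathlib.GroupTheory.Transfer

set_option autoImplicit false
open Cfsg

namespace Cfsg.Agent.S4582

open scoped Pointwise

/-- conjugation fusion in `P ⊔ N = ⊤`: conjugates inside `P` differ by elements of `P ⊓ N`
modulo the derived subgroup. -/
theorem fusion_aux {G : Type*} [Group G] (N : Subgroup G) [N.Normal] (P : Subgroup G)
    (hPN : P ⊔ N = ⊤) (t : G) (y : P) (h : t⁻¹ * (y : G) * t ∈ P) :
    Abelianization.of (⟨t⁻¹ * (y : G) * t, h⟩ : P) * (Abelianization.of y)⁻¹ ∈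
      ((P ⊓ N).subgroupOf P).map (Abelianization.of : P →* Abelianization P) := by
  have ht : t ∈ ((P ⊔ N : Subgroup G) : Set G) := by rw [hPN]; trivial
  rw [Subgroup.mul_normal] at ht
  obtain ⟨s, hs, u, hu, rfl⟩ := ht
  -- y₁ = s⁻¹ y s
  set y₁ : P := ⟨s, hs⟩⁻¹ * y * ⟨s, hs⟩ with hy₁
  have hy₁P : (y₁ : G) ∈ P := y₁.2
  have hconj : (s * u)⁻¹ * (y : G) * (s * u) = (y₁ : G) * ((y₁ : G)⁻¹ * u⁻¹ * (y₁ : G) * u) := by
    simp only [hy₁, Subgroup.coe_mul, Subgroup.coe_inv]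
    group
  have hqN : (y₁ : G)⁻¹ * u⁻¹ * (y₁ : G) * u ∈ N := by
    have h1 : (y₁ : G)⁻¹ * u⁻¹ * ((y₁ : G)⁻¹)⁻¹ ∈ N :=
      ‹N.Normal›.conj_mem _ (N.inv_mem hu) _
    have h2 := N.mul_mem h1 hu
    simpa [mul_assoc] using h2
  have hqP : (y₁ : G)⁻¹ * u⁻¹ * (y₁ : G) * u ∈ P := by
    have h1 : (y₁ : G) * ((y₁ : G)⁻¹ * u⁻¹ * (y₁ : G) * u) ∈ P := by rw [← hconj]; exact h
    have h2 := P.mul_mem (P.inv_mem hy₁P) h1
    simpa [mul_assoc] using h2
  set q : P := ⟨(y₁ : G)⁻¹ * u⁻¹ * (y₁ : G) * u, hqP⟩ with hq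
  have hprod : (⟨(s * u)⁻¹ * (y : G) * (s * u), h⟩ : P) = y₁ * q := by
    apply Subtype.ext
    simp only [Subgroup.coe_mul, hq]
    exact hconj
  refine ⟨q, ?_, ?_⟩
  · simp only [SetLike.mem_coe, Subgroup.mem_subgroupOf, hq]
    exact ⟨hqP, hqN⟩
  · rw [hprod, map_mul, hy₁, map_mul, map_mul, map_inv]
    simp [mul_comm, mul_left_comm]

/-- The key lemma: the case `G = PN`. -/
theorem key {G : Type*} [Group G] [Finite G] (N : Subgroup G) [N.Normal] (P : Subgroup G)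
    (hPN : P ⊔ N = ⊤) (hP2 : IsPGroup 2 P) (hidx : Odd P.index)
    (hP : ∀ x ∈ P, x ^ 2 ∈ (P ⊓ N) ⊔ ⁅P, P⁆)
    (hQ : ∀ x ∈ P ⊓ N, x ^ 2 ∈ ⁅P, P⁆)
    (hN : ∀ n ∈ N, ∃ m : ℕ, Odd m ∧ n ^ m ∈ commutator G) :
    ∀ x ∈ P, x ^ 2 ∈ ⁅P, P⁆ := by
  classical
  let φ : P →* Abelianization P := Abelianization.of
  let V : G →* Abelianization P := MonoidHom.transfer φ
  have hA2 : IsPGroup 2 (Abelianization P) := hP2.to_quotient _
  have hcomm_ker : commutator G ≤ V.ker := Abelianization.commutator_subset_ker V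
  -- Claim 1: V kills N
  have hVN : N ≤ V.ker := by
    intro n hn
    obtain ⟨m, hm, hnm⟩ := hN n hn
    have h1 : V n ^ m = 1 := by
      rw [← map_pow]; exact hcomm_ker hnm
    obtain ⟨k, hk⟩ := hA2 (V n)
    have h2 : orderOf (V n) ∣ m := orderOf_dvd_of_pow_eq_one h1
    have h3 : orderOf (V n) ∣ 2 ^ k := orderOf_dvd_of_pow_eq_one hk
    have h4 : orderOf (V n) ∣ Nat.gcd m (2 ^ k) := Nat.dvd_gcd h2 h3
    have h5 : Nat.gcd m (2 ^ k) = 1 := by
      apply Nat.Coprime.pow_right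
      exact (Nat.coprime_two_right.mpr hm)
    rw [h5, Nat.dvd_one, orderOf_eq_one_iff] at h4
    exact h4
  have hφker : ∀ c : P, (c : G) ∈ ⁅P, P⁆ → φ c = 1 := by
    intro c hc
    rw [← Subgroup.map_subtype_commutator] at hc
    obtain ⟨c', hc', hcc⟩ := hc
    have : c' = c := Subtype.ext hcc
    subst this
    exact (QuotientGroup.eq_one_iff c').mpr hc'
  have hPP_ker : ⁅P, P⁆ ≤ V.ker := by
    refine le_trans ?_ hcomm_ker
    rw [commutator_def]
    exact Subgroup.commutator_mono le_top le_top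
  have hS_ker : (P ⊓ N) ⊔ ⁅P, P⁆ ≤ V.ker := sup_le (le_trans inf_le_right hVN) hPP_ker
  intro x hx
  -- Claim 2
  have hV : V x * (φ ⟨x, hx⟩ ^ P.index)⁻¹ ∈ ((P ⊓ N).subgroupOf P).map φ := by
    have : Fintype (Quotient (MulAction.orbitRel (Subgroup.zpowers x) (G ⧸ P))) :=
      Fintype.ofFinite _
    rw [MonoidHom.transfer_eq_prod_quotient_orbitRel_zpowers_quot, Subgroup.index_eq_sum_minimalPeriod P x,
      ← Finset.prod_pow_eq_pow_sum, ← Finset.prod_inv_distrib, ← Finset.prod_mul_distrib]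
    apply Subgroup.prod_mem
    intro q _
    have h1 := fusion_aux N P hPN q.out.out (⟨x, hx⟩ ^ Function.minimalPeriod (x • ·) q.out)
      (by simpa using QuotientGroup.out_conj_pow_minimalPeriod_mem P x q.out)
    rw [← map_pow]
    exact h1
  obtain ⟨q₀, hq₀, hq₀V⟩ := hV
  have hq₀sq : φ q₀ ^ 2 = 1 := by
    rw [← map_pow]
    apply hφker
    have : (q₀ : G) ∈ P ⊓ N := by
      simpa [Subgroup.mem_subgroupOf] using hq₀
    simpa using hQ _ this
  have hVx2 : V x ^ 2 = 1 := by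
    rw [← map_pow]
    exact hS_ker (hP x hx)
  have hVx : V x = φ q₀ * φ ⟨x, hx⟩ ^ P.index := by
    rw [hq₀V]; simp
  have h2m : φ ⟨x, hx⟩ ^ (2 * P.index) = 1 := by
    have : (φ q₀ * φ ⟨x, hx⟩ ^ P.index) ^ 2 = 1 := by rw [← hVx]; exact hVx2
    rw [mul_pow, hq₀sq, one_mul, ← pow_mul] at this
    rw [mul_comm]; exact this
  obtain ⟨k, hk⟩ := hA2 (φ ⟨x, hx⟩)
  have h2 : orderOf (φ ⟨x, hx⟩) ∣ 2 * P.index := orderOf_dvd_of_pow_eq_one h2m
  have h3 : orderOf (φ ⟨x, hx⟩) ∣ 2 ^ k := orderOf_dvd_of_pow_eq_one hk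
  have h4 : orderOf (φ ⟨x, hx⟩) ∣ 2 := by
    have hcop : Nat.Coprime (orderOf (φ ⟨x, hx⟩)) P.index := by
      apply Nat.Coprime.coprime_dvd_left h3
      apply Nat.Coprime.pow_left
      exact (Nat.coprime_two_left.mpr hidx)
    exact hcop.dvd_of_dvd_mul_right h2
  have h5 : φ ⟨x, hx⟩ ^ 2 = 1 := orderOf_dvd_iff_pow_eq_one.mp h4
  rw [← map_pow] at h5
  have h6 : (⟨x, hx⟩ : P) ^ 2 ∈ commutator P := (QuotientGroup.eq_one_iff _).mp h5
  rw [← Subgroup.map_subtype_commutator]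
  exact ⟨_, h6, by simp⟩

/-- Let N be a normal subgroup of the finite group G, P a Sylow 2-subgroup of G and Q = P ∩ N. Suppose that P/QP' and Q/Q' are elementary abelian (every square of an element of P lies in the subgroup generated by Q and the derived subgroup of P, and every square of an element of Q lies in the derived subgroup of Q), and that the commutator factor group N/N' has odd order. Then P/P' is elementary abelian. -/
theorem result {G : Type*} [Group G] [Finite G] (N : Subgroup G) [N.Normal] (P : Sylow 2 G)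
    (hP : ∀ x ∈ (P : Subgroup G), x ^ 2 ∈ ((P : Subgroup G) ⊓ N) ⊔ ⁅(P : Subgroup G), (P : Subgroup G)⁆)
    (hQ : ∀ x ∈ (P : Subgroup G) ⊓ N, x ^ 2 ∈ ⁅(P : Subgroup G) ⊓ N, (P : Subgroup G) ⊓ N⁆)
    (hodd : Odd (Nat.card (Abelianization N))) :
    ∀ x ∈ (P : Subgroup G), x ^ 2 ∈ ⁅(P : Subgroup G), (P : Subgroup G)⁆ := by
  set P₀ : Subgroup G := (P : Subgroup G) with hP₀
  set L : Subgroup G := P₀ ⊔ N with hL
  have hPL : P₀ ≤ L := le_sup_left
  have hNL : N ≤ L := le_sup_right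
  set PL : Subgroup L := P₀.subgroupOf L with hPLdef
  set NL : Subgroup L := N.subgroupOf L with hNLdef
  have : NL.Normal := Subgroup.normal_subgroupOf
  have hmapP : PL.map L.subtype = P₀ := by
    rw [hPLdef, Subgroup.subgroupOf_map_subtype]; exact inf_eq_left.mpr hPL
  have hmapN : NL.map L.subtype = N := by
    rw [hNLdef, Subgroup.subgroupOf_map_subtype]; exact inf_eq_left.mpr hNL
  have hcommP : (⁅PL, PL⁆).map L.subtype = ⁅P₀, P₀⁆ := by
    rw [Subgroup.map_commutator, hmapP]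
  have hcommN : (⁅NL, NL⁆).map L.subtype = ⁅N, N⁆ := by
    rw [Subgroup.map_commutator, hmapN]
  have hinf : (PL ⊓ NL).map L.subtype = P₀ ⊓ N := by
    have : PL ⊓ NL = (P₀ ⊓ N).subgroupOf L := by
      ext y; simp [hPLdef, hNLdef, Subgroup.mem_subgroupOf]
    rw [this, Subgroup.subgroupOf_map_subtype]
    exact inf_eq_left.mpr (le_trans inf_le_left hPL)
  have hsup : PL ⊔ NL = ⊤ := by
    apply Subgroup.map_injective L.subtype_injective
    rw [Subgroup.map_sup, hmapP, hmapN, ← MonoidHom.range_eq_map, Subgroup.range_subtype]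
  have hkey := key NL PL hsup ?_ ?_ ?_ ?_ ?_
  · intro x hx
    have hxL : x ∈ L := hPL hx
    have h1 := hkey ⟨x, hxL⟩ (by simpa [hPLdef, Subgroup.mem_subgroupOf] using hx)
    rw [← hcommP]
    exact ⟨_, h1, rfl⟩
  · -- IsPGroup 2 PL
    exact P.isPGroup'.comap_subtype
  · -- Odd index
    have h1 : PL.index ∣ P₀.index := Subgroup.relIndex_dvd_index_of_le hPL
    have h2 : ¬ 2 ∣ P₀.index := P.not_dvd_index
    rw [← Nat.not_even_iff_odd, even_iff_two_dvd]
    exact fun h => h2 (dvd_trans h h1)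
  · -- hP
    intro x hx
    have h1 := hP (x : G) (by simpa [hPLdef, Subgroup.mem_subgroupOf] using hx)
    rw [← hinf, ← hcommP, ← Subgroup.map_sup] at h1
    obtain ⟨y, hy, hyx⟩ := h1
    have : y = x ^ 2 := Subtype.ext (by simpa using hyx)
    rw [← this]; exact hy
  · -- hQ
    intro x hx
    have hx' : (x : G) ∈ P₀ ⊓ N := by
      rw [← hinf]; exact ⟨x, hx, rfl⟩
    have h1 := hQ (x : G) hx'
    have h2 : ⁅P₀ ⊓ N, P₀ ⊓ N⁆ ≤ ⁅P₀, P₀⁆ := Subgroup.commutator_mono inf_le_left inf_le_left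
    have h3 := h2 h1
    rw [← hcommP] at h3
    obtain ⟨y, hy, hyx⟩ := h3
    have : y = x ^ 2 := Subtype.ext (by simpa using hyx)
    rw [← this]; exact hy
  · -- hN
    intro n hn
    refine ⟨Nat.card (Abelianization N), hodd, ?_⟩
    have hnN : (n : G) ∈ N := by simpa [hNLdef, Subgroup.mem_subgroupOf] using hn
    have h1 : (Abelianization.of (⟨(n : G), hnN⟩ : N)) ^ Nat.card (Abelianization N) = 1 :=
      pow_card_eq_one'
    rw [← map_pow] at h1
    have h2 : (⟨(n : G), hnN⟩ : N) ^ Nat.card (Abelianization N) ∈ commutator N :=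
      (QuotientGroup.eq_one_iff _).mp h1
    have h3 : (n : G) ^ Nat.card (Abelianization N) ∈ ⁅N, N⁆ := by
      rw [← Subgroup.map_subtype_commutator]
      exact ⟨_, h2, by simp⟩
    rw [← hcommN] at h3
    obtain ⟨y, hy, hyx⟩ := h3
    have : y = n ^ Nat.card (Abelianization N) := Subtype.ext (by simpa using hyx)
    rw [← this, commutator_def]
    exact Subgroup.commutator_mono le_top le_top hy

end Cfsg.Agent.S4582
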