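import Cfsg.Statements.S4583
import Cfsg.Agent.Helper76.PrincipalInd
-- import your own Cfsg.Agent.* helpers here

set_option autoImplicit false
open Cfsg

namespace Cfsg.Agent.S4583

/-- Let N be a normal subgroup of the finite group G, p a prime, M a maximal ideal of the algebraic integers containing p, and P a Sylow p-subgroup of G. Let θ be an irreducible character of N of degree prime to p lying in the principal p-block of N, and suppose θ extends to the subgroup NP (some irreducible character of NP restricts to θ). Then some irreducible character χ of G of degree prime to p in the principal p-block of G lies over θ (θ is a constituent of the restriction of χ to N). -/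
theorem result {G : Type*} [Group G] [Finite G] (N : Subgroup G) [N.Normal] (p : ℕ) [Fact p.Prime] (M : Ideal Cfsg.AlgInt) (hM : Cfsg.IsPModular p M) (P : Sylow p G)
    (θ : Cfsg.IrrCharacter N) (hθ : θ ∈ Cfsg.principalBlock M N) (hdeg : ¬ p ∣ Cfsg.charDegree (θ : N → ℂ))
    (hext : ∃ η : Cfsg.IrrCharacter ↥(N ⊔ (P : Subgroup G)), ∀ n : N, (η : ↥(N ⊔ (P : Subgroup G)) → ℂ) (Subgroup.inclusion le_sup_left n) = (θ : N → ℂ) n) :
    ∃ χ : Cfsg.IrrCharacter G, χ ∈ Cfsg.principalBlock M G ∧ ¬ p ∣ Cfsg.charDegree (χ : G → ℂ) ∧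
      haveI := Fintype.ofFinite N; Cfsg.classInner (fun n : N => (χ : G → ℂ) n) (θ : N → ℂ) ≠ 0 := by
  classical
  letI : Fintype G := Fintype.ofFinite G
  letI : Fintype N := Fintype.ofFinite N
  letI : Fintype ↥(N ⊔ (P : Subgroup G)) := Fintype.ofFinite _
  obtain ⟨η, hη⟩ := hext
  have hηB : η ∈ Cfsg.principalBlock M ↥(N ⊔ (P : Subgroup G)) :=
    Cfsg.Agent.Helper76.mem_principalBlock_of_extension hM (N ⊔ (P : Subgroup G)) N le_sup_left
      (fun h hh hreg => Cfsg.Agent.Helper76.pRegular_mem_of_mem_sup N (P : Subgroup G) P.2 hh hreg)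
      θ hθ η hη
  have hidx : ¬ p ∣ (N ⊔ (P : Subgroup G)).index := fun h =>
    P.not_dvd_index (h.trans (Subgroup.index_dvd_of_le le_sup_right))
  have hdegη : ¬ p ∣ Cfsg.charDegree (η : ↥(N ⊔ (P : Subgroup G)) → ℂ) := by
    have h1 : Cfsg.charDegree (η : ↥(N ⊔ (P : Subgroup G)) → ℂ)
        = Cfsg.charDegree (θ : N → ℂ) := by
      unfold Cfsg.charDegree
      rw [← hη 1, map_one]
    rw [h1]
    exact hdeg
  obtain ⟨χ, hχB, hχdeg, hχη⟩ := Cfsg.Agent.Helper76.exists_principal_constituent hM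
    (N ⊔ (P : Subgroup G)) hidx η hηB hdegη
  refine ⟨χ, hχB, hχdeg, ?_⟩
  have hθθ : Cfsg.classInner (fun n : N => (η : ↥(N ⊔ (P : Subgroup G)) → ℂ)
      (Subgroup.inclusion le_sup_left n)) (θ : N → ℂ) ≠ 0 := by
    rw [funext hη, Cfsg.Agent.Helper15.irr_inner_self θ.2]
    exact one_ne_zero
  exact Cfsg.Agent.Helper76.classInner_comp_ne_zero
    (Subgroup.inclusion (le_sup_left : N ≤ N ⊔ (P : Subgroup G)))
    (Cfsg.Agent.Helper79.isCharacter_restrict (Cfsg.Agent.Helper79.irr_isCharacter χ) _) η hχη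
    (Cfsg.Agent.Helper79.irr_isCharacter θ) hθθ

end Cfsg.Agent.S4583
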