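import Cfsg.Statements.S4585
import Cfsg.Agent.Helper76.PGroup

set_option autoImplicit false
open Cfsg

namespace Cfsg.Agent.S4585

open scoped commutatorElement
open Cfsg.Agent.Helper76

variable {P : Type*} [Group P]

/-- In a nilpotent group the lower central series is strictly decreasing until it reaches `⊥`. -/
theorem lcs_strict [hnil : Group.IsNilpotent P] (n : ℕ)
    (h : (⊤ : Subgroup P).lowerCentralSeries (n + 1) = (⊤ : Subgroup P).lowerCentralSeries n) :
    (⊤ : Subgroup P).lowerCentralSeries n = ⊥ := by
  have hk : ∀ k : ℕ, (⊤ : Subgroup P).lowerCentralSeries (n + k) =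
      (⊤ : Subgroup P).lowerCentralSeries n := by
    intro k
    induction k with
    | zero => rfl
    | succ k ih =>
      rw [← add_assoc, Subgroup.lowerCentralSeries_succ, ih, ← Subgroup.lowerCentralSeries_succ, h]
  rw [eq_bot_iff, ← hk (Group.nilpotencyClass P), ← Subgroup.lowerCentralSeries_nilpotencyClass (G := P)]
  exact Subgroup.lowerCentralSeries_antitone _ (Nat.le_add_left _ _)

/-- if `P / P'` has prime order then the second and third terms of the lower central
series coincide -/
theorem lcs_two_eq_of_index_prime [Finite P] {p : ℕ} (hp : p.Prime)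
    (h : (commutator P).index = p) :
    (⊤ : Subgroup P).lowerCentralSeries 2 = (⊤ : Subgroup P).lowerCentralSeries 1 := by
  apply le_antisymm (Subgroup.lowerCentralSeries_antitone _ (by norm_num))
  rw [Subgroup.top_lowerCentralSeries_one]
  set L := (⊤ : Subgroup P).lowerCentralSeries 2 with hL
  have hLn : L.Normal := inferInstance
  have hLle : L ≤ commutator P := by
    rw [← Subgroup.top_lowerCentralSeries_one]
    exact Subgroup.lowerCentralSeries_antitone _ (by norm_num)
  apply commutator_le_of_quotient_comm L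
  have : Fact p.Prime := ⟨hp⟩
  have hc : Nat.card (P ⧸ commutator P) = p := by rw [← Subgroup.index_eq_card, h]
  have hcyc : IsCyclic (P ⧸ commutator P) := isCyclic_of_prime_card hc
  set f : P ⧸ L →* P ⧸ commutator P :=
    QuotientGroup.map L (commutator P) (MonoidHom.id P) (by simpa using hLle) with hf
  refine (f.isMulCommutative_of_isCyclic_of_ker_le_center ?_).is_comm.comm
  intro x hx
  obtain ⟨x, rfl⟩ := QuotientGroup.mk_surjective x
  rw [MonoidHom.mem_ker, hf, QuotientGroup.map_mk, MonoidHom.id_apply,
    QuotientGroup.eq_one_iff] at hx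
  rw [Subgroup.mem_center_iff]
  intro g
  obtain ⟨g, rfl⟩ := QuotientGroup.mk_surjective g
  have h1 : ⁅x, g⁆ ∈ L := by
    rw [hL, Subgroup.lowerCentralSeries_succ, Subgroup.top_lowerCentralSeries_one]
    exact Subgroup.commutator_mem_commutator hx (Subgroup.mem_top g)
  have h2 : ((⁅x, g⁆ : P) : P ⧸ L) = 1 := (QuotientGroup.eq_one_iff _).mpr h1
  rw [commutatorElement_def, QuotientGroup.mk_mul, QuotientGroup.mk_mul, QuotientGroup.mk_mul,
    QuotientGroup.mk_inv, QuotientGroup.mk_inv] at h2
  have h3 : ((x : P) : P ⧸ L) * (g : P ⧸ L) = (g : P ⧸ L) * (x : P ⧸ L) := by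
    calc ((x : P) : P ⧸ L) * (g : P ⧸ L)
        = ((x : P ⧸ L) * (g : P ⧸ L) * (x : P ⧸ L)⁻¹ * (g : P ⧸ L)⁻¹) * ((g : P ⧸ L) * (x : P ⧸ L)) := by
          group
      _ = (g : P ⧸ L) * (x : P ⧸ L) := by rw [h2, one_mul]
  exact h3.symm

/-- Let p be a prime and P a group of order p^4. Then P' has index p^2 in P if and only if P has maximal nilpotency class, that is, nilpotency class exactly 3. -/
theorem result {P : Type*} [Group P] [Finite P] (p : ℕ) [Fact p.Prime] (hP : Nat.card P = p ^ 4) :
    (commutator P).index = p ^ 2 ↔ Group.nilpotencyClass P = 3 := by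
  classical
  have hp : p.Prime := Fact.out
  have hp1 := hp.one_lt
  have hppos := hp.pos
  have hPp : IsPGroup p P := IsPGroup.of_card hP
  have hnil : Group.IsNilpotent P := hPp.isNilpotent
  set γ : ℕ → Subgroup P := (⊤ : Subgroup P).lowerCentralSeries with hγ
  have hγ1 : γ 1 = commutator P := Subgroup.top_lowerCentralSeries_one
  have hanti : Antitone γ := Subgroup.lowerCentralSeries_antitone _
  have hstrict : ∀ n, γ n ≠ ⊥ → γ (n + 1) < γ n := by
    intro n hn
    exact lt_of_le_of_ne (hanti (Nat.le_succ n)) (fun h => hn (lcs_strict n h))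
  have hclass : Group.nilpotencyClass P = 3 ↔ γ 3 = ⊥ ∧ γ 2 ≠ ⊥ := by
    rw [hγ, Subgroup.lowerCentralSeries_eq_bot_iff_nilpotencyClass_le, Ne,
      Subgroup.lowerCentralSeries_eq_bot_iff_nilpotencyClass_le]
    omega
  rw [hclass]
  have hcardidx : Nat.card (commutator P) * (commutator P).index = p ^ 4 := by
    rw [Subgroup.card_mul_index, hP]
  constructor
  · intro hidx
    have hcard1 : Nat.card (γ 1) = p ^ 2 := by
      rw [hγ1]
      rw [hidx] at hcardidx
      have h2 : Nat.card (commutator P) * p ^ 2 = p ^ 2 * p ^ 2 := by rw [hcardidx]; ring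
      exact Nat.eq_of_mul_eq_mul_right (by positivity) h2
    have h1ne : γ 1 ≠ ⊥ := by
      intro h
      rw [h, Subgroup.card_bot] at hcard1
      have : 1 < p ^ 2 := Nat.one_lt_pow (by norm_num) hp1
      omega
    have h21 := hstrict 1 h1ne
    obtain ⟨k, _, hk⟩ := card_subgroup_eq_pow hp hP (γ 2)
    have hk1 : k < 2 := by
      have h1 := card_lt_of_lt h21
      rw [hcard1, hk] at h1
      exact (Nat.pow_lt_pow_iff_right hp1).mp h1
    have h3 : γ 3 = ⊥ := by
      by_cases h2 : γ 2 = ⊥
      · rw [eq_bot_iff, ← h2]; exact hanti (by norm_num)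
      · have h32 := hstrict 2 h2
        obtain ⟨j, _, hj⟩ := card_subgroup_eq_pow hp hP (γ 3)
        have h1 := card_lt_of_lt h32
        rw [hk, hj] at h1
        have hjk : j < k := (Nat.pow_lt_pow_iff_right hp1).mp h1
        have hj0 : j = 0 := by omega
        rw [hj0, pow_zero] at hj
        exact Subgroup.card_eq_one.mp hj
    refine ⟨h3, ?_⟩
    intro h2
    -- P' is central
    have hPZ : commutator P ≤ Subgroup.center P := by
      rw [← hγ1]
      have h4 : γ 2 = ⁅γ 1, (⊤ : Subgroup P)⁆ := rfl
      rw [h4, Subgroup.commutator_eq_bot_iff_le_centralizer] at h2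
      rw [← Subgroup.centralizer_univ]
      simpa using h2
    obtain ⟨a, ha4, ha⟩ := card_subgroup_eq_pow hp hP (Subgroup.center P)
    have ha2 : 2 ≤ a := by
      have h5 := Subgroup.card_le_of_le hPZ
      rw [← hγ1, hcard1, ha] at h5
      exact (Nat.pow_le_pow_iff_right hp1).mp h5
    have hidxZ : Nat.card (Subgroup.center P) * (Subgroup.center P).index = p ^ 4 := by
      rw [Subgroup.card_mul_index, hP]
    -- P is not commutative
    have hnc : ¬ ∀ a b : P, a * b = b * a := by
      intro h
      apply h1ne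
      rw [hγ1, eq_bot_iff, commutator_def, Subgroup.commutator_le]
      intro x _ y _
      rw [Subgroup.mem_bot, commutatorElement_eq_one_iff_mul_comm]
      exact h x y
    have ha4' : a ≠ 4 := by
      intro h
      apply hnc
      have htop : Subgroup.center P = ⊤ := by
        apply Subgroup.eq_top_of_card_eq
        rw [ha, h, hP]
      intro x y
      have hx : x ∈ Subgroup.center P := by rw [htop]; trivial
      exact (Subgroup.mem_center_iff.mp hx y).symm
    have ha3 : a ≠ 3 := by
      intro h
      apply hnc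
      apply comm_of_center_index_dvd_prime hp
      rw [ha, h] at hidxZ
      have h2 : p ^ 3 * (Subgroup.center P).index = p ^ 3 * p := by rw [hidxZ]; ring
      rw [Nat.eq_of_mul_eq_mul_left (by positivity) h2]
    have ha2' : a = 2 := by omega
    rw [ha, ha2'] at hidxZ
    have h6 : p ^ 2 * (Subgroup.center P).index = p ^ 2 * p ^ 2 := by rw [hidxZ]; ring
    have h7 : (Subgroup.center P).index = p ^ 2 := Nat.eq_of_mul_eq_mul_left (by positivity) h6
    have h8 := card_commutator_of_center_index_sq hP h7
    rw [← hγ1, hcard1] at h8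
    have : p < p ^ 2 := by nlinarith
    omega
  · rintro ⟨h3, h2⟩
    have h1ne : γ 1 ≠ ⊥ := by
      intro h
      apply h2
      rw [eq_bot_iff, ← h]; exact hanti (by norm_num)
    have h0ne : γ 0 ≠ ⊥ := by
      intro h
      apply h2
      rw [eq_bot_iff, ← h]; exact hanti (by norm_num)
    have h21 := hstrict 1 h1ne
    have h10 := hstrict 0 h0ne
    obtain ⟨k, _, hk⟩ := card_subgroup_eq_pow hp hP (γ 2)
    have hk1 : 1 ≤ k := by
      by_contra h
      have hk0 : k = 0 := by omega
      rw [hk0, pow_zero] at hk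
      exact h2 (Subgroup.card_eq_one.mp hk)
    obtain ⟨j, hj4, hj⟩ := card_subgroup_eq_pow hp hP (γ 1)
    have hjk : k < j := by
      have h1 := card_lt_of_lt h21
      rw [hk, hj] at h1
      exact (Nat.pow_lt_pow_iff_right hp1).mp h1
    rw [hγ1] at hj
    rw [hj] at hcardidx
    -- j ≠ 4 and j ≠ 3
    have hj4' : j ≠ 4 := by
      intro h
      have : γ 1 = ⊤ := by
        rw [hγ1]
        apply Subgroup.eq_top_of_card_eq
        rw [hj, h, hP]
      rw [this] at h10
      exact lt_irrefl _ h10
    have hj3 : j ≠ 3 := by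
      intro h
      rw [h] at hcardidx
      have h5 : p ^ 3 * (commutator P).index = p ^ 3 * p := by rw [hcardidx]; ring
      have h6 : (commutator P).index = p := Nat.eq_of_mul_eq_mul_left (by positivity) h5
      have h7 := lcs_two_eq_of_index_prime hp h6
      exact absurd h7 (ne_of_lt h21)
    have hj2 : j = 2 := by omega
    rw [hj2] at hcardidx
    have h5 : p ^ 2 * (commutator P).index = p ^ 2 * p ^ 2 := by rw [hcardidx]; ring
    exact Nat.eq_of_mul_eq_mul_left (by positivity) h5

end Cfsg.Agent.S4585
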