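import Cfsg.Statements.S4586
import Cfsg.Agent.Helper76.PGroup

set_option autoImplicit false
open Cfsg

namespace Cfsg.Agent.S4586

open scoped commutatorElement
open Cfsg.Agent.Helper76

variable {P : Type*} [Group P]

/-- the twisted homomorphism `n ↦ π (x n x⁻¹) / π n` into the abelianization of `N` -/
noncomputable def twist (N : Subgroup P) [N.Normal] (x : P) : N →* Abelianization N :=
  ((Abelianization.of).comp (MulAut.conjNormal x : MulAut N).toMonoidHom) / Abelianization.of

theorem twist_apply (N : Subgroup P) [N.Normal] (x : P) (n : N) :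
    twist N x n = Abelianization.of ((MulAut.conjNormal x : MulAut N) n * n⁻¹) := by
  rw [map_mul, map_inv, ← div_eq_mul_inv]
  rfl

theorem coe_conj_mul_inv (N : Subgroup P) [N.Normal] (x : P) (n : N) :
    (((MulAut.conjNormal x : MulAut N) n * n⁻¹ : N) : P) = x * n * x⁻¹ * (n : P)⁻¹ := by
  rw [Subgroup.coe_mul, MulAut.conjNormal_apply, Subgroup.coe_inv]

theorem mem_ker_twist (N : Subgroup P) [N.Normal] (x : P) (n : N) :
    n ∈ (twist N x).ker ↔ x * n * x⁻¹ * (n : P)⁻¹ ∈ (commutator N).map N.subtype := by
  rw [MonoidHom.mem_ker, twist_apply]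
  constructor
  · intro h
    have h1 : (MulAut.conjNormal x : MulAut N) n * n⁻¹ ∈ commutator N :=
      (QuotientGroup.eq_one_iff _).mp h
    exact ⟨_, h1, coe_conj_mul_inv N x n⟩
  · rintro ⟨k, hk, hkx⟩
    have h1 : k = (MulAut.conjNormal x : MulAut N) n * n⁻¹ := by
      apply Subtype.ext
      rw [coe_conj_mul_inv]
      exact hkx
    rw [← h1]
    exact (QuotientGroup.eq_one_iff _).mpr hk

/-- the subgroup `L = N' [N, x]` of `P` -/
noncomputable def ell (N : Subgroup P) [N.Normal] (x : P) : Subgroup P :=
  ((twist N x).range.comap (Abelianization.of : N →* Abelianization N)).map N.subtype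

theorem mem_ell (N : Subgroup P) [N.Normal] (x : P) (n : N) :
    (n : P) ∈ ell N x ↔ Abelianization.of n ∈ (twist N x).range := by
  constructor
  · rintro ⟨m, hm, hmn⟩
    have : m = n := Subtype.ext hmn
    rw [← this]
    exact hm
  · intro h
    exact ⟨n, h, rfl⟩

theorem ell_le (N : Subgroup P) [N.Normal] (x : P) : ell N x ≤ N := by
  rintro _ ⟨m, _, rfl⟩
  exact m.2

theorem commutator_mem_ell (N : Subgroup P) [N.Normal] (x : P) (n : N) :
    ⁅x, (n : P)⁆ ∈ ell N x := by
  have h1 : ⁅x, (n : P)⁆ = (((MulAut.conjNormal x : MulAut N) n * n⁻¹ : N) : P) := by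
    rw [coe_conj_mul_inv, commutatorElement_def]
  rw [h1, mem_ell, ← twist_apply]
  exact ⟨n, rfl⟩

theorem derived_le_ell (N : Subgroup P) [N.Normal] (x : P) :
    (commutator N).map N.subtype ≤ ell N x := by
  rintro _ ⟨c, hc, rfl⟩
  show ((c : N) : P) ∈ ell N x
  rw [mem_ell]
  have : Abelianization.of c = 1 := (QuotientGroup.eq_one_iff _).mpr hc
  rw [this]
  exact Subgroup.one_mem _

/-- `L ≤ P'` -/
theorem ell_le_commutator (N : Subgroup P) [N.Normal] (x : P) : ell N x ≤ commutator P := by
  rintro _ ⟨n, hn, rfl⟩
  have hn' : Abelianization.of n ∈ (twist N x).range := hn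
  obtain ⟨m, hm⟩ := hn'
  rw [twist_apply] at hm
  -- n = (σ m * m⁻¹) * c
  have h1 : ((MulAut.conjNormal x : MulAut N) m * m⁻¹)⁻¹ * n ∈ commutator N := by
    rw [← QuotientGroup.eq]
    exact hm
  have h2 : (n : P) = ⁅x, (m : P)⁆ *
      ((((MulAut.conjNormal x : MulAut N) m * m⁻¹)⁻¹ * n : N) : P) := by
    rw [Subgroup.coe_mul, Subgroup.coe_inv, coe_conj_mul_inv, commutatorElement_def]
    group
  show (n : P) ∈ commutator P
  rw [h2]
  apply Subgroup.mul_mem
  · rw [commutator_def]
    exact Subgroup.commutator_mem_commutator (Subgroup.mem_top _) (Subgroup.mem_top _)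
  · have h3 : (commutator N).map N.subtype ≤ commutator P := by
      rw [Subgroup.map_subtype_commutator, commutator_def]
      exact Subgroup.commutator_mono le_top le_top
    exact h3 ⟨_, h1, rfl⟩

theorem sup_zpowers_eq_top [Finite P] {p : ℕ} (hp : p.Prime) (N : Subgroup P)
    (hN : N.index = p) (x : P) (hx : x ∉ N) : N ⊔ Subgroup.zpowers x = ⊤ := by
  set K := N ⊔ Subgroup.zpowers x with hK
  have hNK : N ≤ K := le_sup_left
  have h1 := Subgroup.relIndex_mul_index hNK
  rw [hN] at h1
  have h2 : K.index ∣ p := Dvd.intro_left _ h1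
  rcases (Nat.dvd_prime hp).mp h2 with h3 | h3
  · exact Subgroup.index_eq_one.mp h3
  · exfalso
    rw [h3] at h1
    have h4 : N.relIndex K = 1 := by
      have : N.relIndex K * p = 1 * p := by rw [h1, one_mul]
      exact Nat.eq_of_mul_eq_mul_right hp.pos this
    rw [Subgroup.relIndex_eq_one] at h4
    exact hx (h4 (le_sup_right (a := N) (Subgroup.mem_zpowers x)))

/-- conjugation by `x` and by `x⁻¹` preserve `L` -/
theorem conj_mem_ell (N : Subgroup P) [hN : N.Normal] (x : P) (l : P) (hl : l ∈ ell N x) :
    x * l * x⁻¹ ∈ ell N x ∧ x⁻¹ * l * x ∈ ell N x := by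
  obtain ⟨n, hn', rfl⟩ := hl
  have hn : Abelianization.of n ∈ (twist N x).range := hn'
  constructor
  · have h1 : x * (n : P) * x⁻¹ = (((MulAut.conjNormal x : MulAut N) n : N) : P) := by
      rw [MulAut.conjNormal_apply]
    show x * (n : P) * x⁻¹ ∈ ell N x
    rw [h1, mem_ell]
    have h2 : Abelianization.of ((MulAut.conjNormal x : MulAut N) n) =
        twist N x n * Abelianization.of n := by
      rw [twist_apply, map_mul, map_inv]; group
    rw [h2]
    exact Subgroup.mul_mem _ ⟨n, rfl⟩ hn
  · have h1 : x⁻¹ * (n : P) * x = (((MulAut.conjNormal x : MulAut N)⁻¹ n : N) : P) := by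
      rw [← map_inv, MulAut.conjNormal_apply, inv_inv]
    show x⁻¹ * (n : P) * x ∈ ell N x
    rw [h1, mem_ell]
    have h2 : Abelianization.of ((MulAut.conjNormal x : MulAut N)⁻¹ n) =
        (twist N x ((MulAut.conjNormal x : MulAut N)⁻¹ n))⁻¹ * Abelianization.of n := by
      rw [twist_apply, map_mul, map_inv, MulAut.apply_inv_self]; group
    rw [h2]
    exact Subgroup.mul_mem _ (Subgroup.inv_mem _ ⟨_, rfl⟩) hn

theorem ell_normal [Finite P] {p : ℕ} (hp : p.Prime) (N : Subgroup P) [hNn : N.Normal]
    (hN : N.index = p) (x : P) (hx : x ∉ N) : (ell N x).Normal := by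
  rw [← Subgroup.normalizer_eq_top_iff, eq_top_iff, ← sup_zpowers_eq_top hp N hN x hx]
  apply sup_le
  · intro m hm
    rw [Subgroup.mem_normalizer_iff]
    intro l
    have key : ∀ (m : P), m ∈ N → ∀ l ∈ ell N x, m * l * m⁻¹ ∈ ell N x := by
      intro m hm l hl
      obtain ⟨n, hn', rfl⟩ := hl
      have hn : Abelianization.of n ∈ (twist N x).range := hn'
      have h1 : m * (n : P) * m⁻¹ = ((⟨m, hm⟩ * n * ⟨m, hm⟩⁻¹ : N) : P) := by simp
      show m * (n : P) * m⁻¹ ∈ ell N x
      rw [h1, mem_ell, map_mul, map_mul, map_inv]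
      have h2 : Abelianization.of (⟨m, hm⟩ : N) * Abelianization.of n *
          (Abelianization.of (⟨m, hm⟩ : N))⁻¹ = Abelianization.of n := by
        rw [mul_comm, ← mul_assoc, inv_mul_cancel, one_mul]
      rw [h2]; exact hn
    constructor
    · exact key m hm l
    · intro h
      have h1 := key m⁻¹ (N.inv_mem hm) _ h
      have h2 : m⁻¹ * (m * l * m⁻¹) * m⁻¹⁻¹ = l := by group
      rwa [h2] at h1
  · rw [Subgroup.zpowers_le, Subgroup.mem_normalizer_iff]
    intro l
    constructor
    · exact fun h => (conj_mem_ell N x l h).1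
    · intro h
      have h1 := (conj_mem_ell N x _ h).2
      have h2 : x⁻¹ * (x * l * x⁻¹) * x = l := by group
      rwa [h2] at h1

/-- `P' ≤ L` -/
theorem commutator_le_ell [Finite P] {p : ℕ} (hp : p.Prime) (N : Subgroup P) [hNn : N.Normal]
    (hN : N.index = p) (x : P) (hx : x ∉ N) : commutator P ≤ ell N x := by
  have hLn : (ell N x).Normal := ell_normal hp N hN x hx
  apply commutator_le_of_quotient_comm (ell N x)
  have : Fact p.Prime := ⟨hp⟩
  have hc : Nat.card (P ⧸ N) = p := by rw [← Subgroup.index_eq_card, hN]
  have hcyc : IsCyclic (P ⧸ N) := isCyclic_of_prime_card hc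
  set f : P ⧸ ell N x →* P ⧸ N :=
    QuotientGroup.map (ell N x) N (MonoidHom.id P) (by simpa using ell_le N x) with hf
  refine (f.isMulCommutative_of_isCyclic_of_ker_le_center ?_).is_comm.comm
  intro n hn
  obtain ⟨n, rfl⟩ := QuotientGroup.mk_surjective n
  rw [MonoidHom.mem_ker, hf, QuotientGroup.map_mk, MonoidHom.id_apply,
    QuotientGroup.eq_one_iff] at hn
  -- the centralizer of mk n in P ⧸ L, pulled back to P, is everything
  set C := (Subgroup.centralizer ({(n : P ⧸ ell N x)} : Set (P ⧸ ell N x))).comap
    (QuotientGroup.mk' (ell N x)) with hC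
  have hCtop : C = ⊤ := by
    rw [eq_top_iff, ← sup_zpowers_eq_top hp N hN x hx]
    apply sup_le
    · intro m hm
      rw [hC, Subgroup.mem_comap, Subgroup.mem_centralizer_iff]
      intro z hz
      rw [Set.mem_singleton_iff] at hz
      rw [hz]
      have h1 : ⁅n, m⁆ ∈ ell N x := by
        apply derived_le_ell N x
        rw [Subgroup.map_subtype_commutator]
        exact Subgroup.commutator_mem_commutator hn hm
      have h2 : (QuotientGroup.mk' (ell N x)) ⁅n, m⁆ = 1 := (QuotientGroup.eq_one_iff _).mpr h1
      rw [map_commutatorElement, commutatorElement_eq_one_iff_mul_comm] at h2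
      exact h2
    · rw [Subgroup.zpowers_le, hC, Subgroup.mem_comap, Subgroup.mem_centralizer_iff]
      intro z hz
      rw [Set.mem_singleton_iff] at hz
      rw [hz]
      have h1 : ⁅x, n⁆ ∈ ell N x := commutator_mem_ell N x ⟨n, hn⟩
      have h2 : (QuotientGroup.mk' (ell N x)) ⁅x, n⁆ = 1 := (QuotientGroup.eq_one_iff _).mpr h1
      rw [map_commutatorElement, commutatorElement_eq_one_iff_mul_comm] at h2
      exact h2.symm
  rw [Subgroup.mem_center_iff]
  intro g
  obtain ⟨g, rfl⟩ := QuotientGroup.mk_surjective g
  have hg : g ∈ C := by rw [hCtop]; trivial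
  rw [hC, Subgroup.mem_comap, Subgroup.mem_centralizer_iff] at hg
  exact (hg _ rfl).symm

/-- the counting identity -/
theorem key [Finite P] {p : ℕ} (hp : p.Prime) (N : Subgroup P) [hNn : N.Normal]
    (hN : N.index = p) (x : P) (hx : x ∉ N) :
    Nat.card (twist N x).ker * Nat.card (commutator P) =
      Nat.card N * Nat.card (commutator N) := by
  have hL : ell N x = commutator P :=
    le_antisymm (ell_le_commutator N x) (commutator_le_ell hp N hN x hx)
  set R := (twist N x).range with hR
  set Lx := R.comap (Abelianization.of : N →* Abelianization N) with hLx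
  have hcardL : Nat.card (commutator P) = Nat.card Lx := by
    rw [← hL]
    exact Subgroup.card_map_of_injective N.subtype_injective
  have hsurj : Function.Surjective (Abelianization.of : N →* Abelianization N) :=
    QuotientGroup.mk_surjective
  have hfinA : Finite (Abelianization N) := Finite.of_surjective _ hsurj
  -- card Lx * index Lx = card N ; index Lx = index R ; card R * index R = card A
  have h1 : Nat.card Lx * Lx.index = Nat.card N := Subgroup.card_mul_index Lx
  have h2 : Lx.index = R.index := Subgroup.index_comap_of_surjective R hsurj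
  have h3 : Nat.card R * R.index = Nat.card (Abelianization N) := Subgroup.card_mul_index R
  have h4 : Nat.card N = Nat.card (Abelianization N) * Nat.card (commutator N) :=
    Subgroup.card_eq_card_quotient_mul_card_subgroup (commutator N)
  have h5 : Nat.card (twist N x).ker * Nat.card R = Nat.card N := by
    have := Subgroup.card_mul_index (twist N x).ker
    rwa [Subgroup.index_ker] at this
  have hRidx : 0 < R.index := Nat.pos_of_ne_zero (Subgroup.index_ne_zero_of_finite)
  -- card Lx = card R * card N'
  have h6 : Nat.card Lx = Nat.card R * Nat.card (commutator N) := by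
    have : Nat.card Lx * R.index = (Nat.card R * Nat.card (commutator N)) * R.index := by
      calc Nat.card Lx * R.index = Nat.card Lx * Lx.index := by rw [h2]
        _ = Nat.card N := h1
        _ = Nat.card (Abelianization N) * Nat.card (commutator N) := h4
        _ = (Nat.card R * R.index) * Nat.card (commutator N) := by rw [h3]
        _ = (Nat.card R * Nat.card (commutator N)) * R.index := by ring
    exact Nat.eq_of_mul_eq_mul_right hRidx this
  rw [hcardL, h6, ← mul_assoc, h5]

/-- Let p be a prime, P a finite p-group and N a normal subgroup of P of index p. For x ∈ P write c(x) for the number of elements n of N whose commutator x n x⁻¹ n⁻¹ lies in the derived subgroup N' (so c(x)/#N' is the order of the centralizer of x acting on N/N'). Then [P : P'] = p² if and only if c(x) = p·#N' for every x ∈ P outside N, and also if and only if c(x) = p·#N' for some x ∈ P outside N. -/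
theorem result {P : Type*} [Group P] [Finite P] (p : ℕ) [Fact p.Prime] (hP : IsPGroup p P) (N : Subgroup P) [N.Normal] (hN : N.index = p) :
    ((commutator P).index = p ^ 2 ↔ ∀ x : P, x ∉ N →
        Nat.card {n : N // x * n * x⁻¹ * (n : P)⁻¹ ∈ (commutator N).map N.subtype} = p * Nat.card (commutator N)) ∧
    ((commutator P).index = p ^ 2 ↔ ∃ x : P, x ∉ N ∧
        Nat.card {n : N // x * n * x⁻¹ * (n : P)⁻¹ ∈ (commutator N).map N.subtype} = p * Nat.card (commutator N)) := by
  classical
  have _hP := hP
  have hp : p.Prime := Fact.out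
  have hppos := hp.pos
  -- the count equals the order of the kernel of the twisted hom
  have hcount : ∀ x : P,
      Nat.card {n : N // x * n * x⁻¹ * (n : P)⁻¹ ∈ (commutator N).map N.subtype} =
        Nat.card (twist N x).ker := by
    intro x
    apply Nat.card_congr
    exact Equiv.subtypeEquivRight (fun n => (mem_ker_twist N x n).symm)
  -- for every x ∉ N the two conditions are equivalent
  have hiff : ∀ x : P, x ∉ N → ((commutator P).index = p ^ 2 ↔
      Nat.card {n : N // x * n * x⁻¹ * (n : P)⁻¹ ∈ (commutator N).map N.subtype} =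
        p * Nat.card (commutator N)) := by
    intro x hx
    rw [hcount x]
    have hkey := key hp N hN x hx
    have hPN : Nat.card N * p = Nat.card P := by
      rw [← hN]; exact Subgroup.card_mul_index N
    have hPP : Nat.card (commutator P) * (commutator P).index = Nat.card P :=
      Subgroup.card_mul_index _
    have hPpos : 0 < Nat.card (commutator P) := Nat.card_pos
    have hN'pos : 0 < Nat.card (commutator N) := Nat.card_pos
    constructor
    · intro hidx
      rw [hidx, ← hPN] at hPP
      -- card P' * p^2 = card N * p  ⟹ card N = card P' * p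
      have h1 : Nat.card N = Nat.card (commutator P) * p := by
        have : Nat.card N * p = (Nat.card (commutator P) * p) * p := by rw [← hPP]; ring
        exact Nat.eq_of_mul_eq_mul_right hppos this
      rw [h1] at hkey
      have h2 : Nat.card (commutator P) * Nat.card (twist N x).ker =
          Nat.card (commutator P) * (p * Nat.card (commutator N)) := by
        rw [mul_comm, hkey]; ring
      exact Nat.eq_of_mul_eq_mul_left hPpos h2
    · intro hker
      rw [hker] at hkey
      -- p * card N' * card P' = card N * card N'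
      have h1 : Nat.card N = p * Nat.card (commutator P) := by
        have : Nat.card (commutator N) * Nat.card N =
            Nat.card (commutator N) * (p * Nat.card (commutator P)) := by
          rw [mul_comm, ← hkey]; ring
        exact Nat.eq_of_mul_eq_mul_left hN'pos this
      rw [← hPN, h1] at hPP
      have h2 : Nat.card (commutator P) * (commutator P).index =
          Nat.card (commutator P) * p ^ 2 := by rw [hPP]; ring
      exact Nat.eq_of_mul_eq_mul_left hPpos h2
  -- there is an element outside N
  have hex : ∃ x : P, x ∉ N := by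
    by_contra hall
    push Not at hall
    have : N = ⊤ := (Subgroup.eq_top_iff' N).mpr hall
    rw [← Subgroup.index_eq_one, hN] at this
    exact hp.one_lt.ne' this
  refine ⟨⟨fun h x hx => (hiff x hx).mp h, fun h => ?_⟩, ⟨fun h => ?_, fun h => ?_⟩⟩
  · obtain ⟨x, hx⟩ := hex
    exact (hiff x hx).mpr (h x hx)
  · obtain ⟨x, hx⟩ := hex
    exact ⟨x, hx, (hiff x hx).mp h⟩
  · obtain ⟨x, hx, hc⟩ := h
    exact (hiff x hx).mpr hc

end Cfsg.Agent.S4586
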