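import Cfsg.Statements.S4591
import Cfsg.Agent.Helper76.PPrimeKer
import Cfsg.Agent.Helper2.TateNormal
import Cfsg.Agent.Helper2.PGroup

set_option autoImplicit false
set_option linter.style.haveILetI false
open Cfsg

namespace Cfsg.Agent.S4591

open scoped commutatorElement

/-- Let G be a finite group, p a prime and P a Sylow p-subgroup, and let N be the largest normal subgroup of G in which P has trivial centralizer (N is normal with C_N(P) = 1 and contains every normal subgroup with that property). Then the intersection of the kernels of the irreducible characters of G of degree prime to p is the normal core in G of the subgroup N·P' (P' the derived subgroup of P). In particular, when G has no nontrivial normal subgroup of order prime to p, that intersection is the normal core of P'. -/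
theorem result {G : Type*} [Group G] [Finite G] (p : ℕ) [Fact p.Prime] (P : Sylow p G) (N : Subgroup G) [N.Normal]
    (hN : N ⊓ Subgroup.centralizer ((P : Subgroup G) : Set G) = ⊥)
    (hmax : ∀ L : Subgroup G, L.Normal → L ⊓ Subgroup.centralizer ((P : Subgroup G) : Set G) = ⊥ → L ≤ N) :
    {g : G | ∀ χ : Cfsg.IrrCharacter G, ¬ p ∣ Cfsg.charDegree (χ : G → ℂ) → (χ : G → ℂ) g = (χ : G → ℂ) 1} =
      ((N ⊔ ⁅(P : Subgroup G), (P : Subgroup G)⁆).normalCore : Set G) := by
  classical
  ext g
  simp only [Set.mem_ofPred_eq, SetLike.mem_coe]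
  constructor
  · intro hg
    let K : Subgroup G := ⨅ χ : {χ : Cfsg.IrrCharacter G // ¬ p ∣ Cfsg.charDegree (χ : G → ℂ)},
      Helper79.charKer (Helper79.irr_isCharacter χ.1)
    have hKmem : ∀ x : G, x ∈ K ↔ ∀ χ : Cfsg.IrrCharacter G,
        ¬ p ∣ Cfsg.charDegree (χ : G → ℂ) → (χ : G → ℂ) x = (χ : G → ℂ) 1 := by
      intro x
      simp only [K, Subgroup.mem_iInf, Helper79.mem_charKer, Subtype.forall]
    haveI hKn : K.Normal := Subgroup.normal_iInf_normal (fun χ => Helper79.charKer_normal _)
    have hgK : g ∈ K := (hKmem g).mpr hg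
    suffices hK : K ≤ N ⊔ ⁅(P : Subgroup G), (P : Subgroup G)⁆ from
      (Subgroup.normal_le_normalCore.mpr hK) hgK
    have ha : K ⊓ (P : Subgroup G) ≤ ⁅(P : Subgroup G), (P : Subgroup G)⁆ := by
      intro y hy
      by_contra hy'
      obtain ⟨χ, hχ, hne⟩ := Helper76.exists_irr_ne_of_not_mem_commutator P hy.2 hy'
      exact hne ((hKmem y).mp hy.1 χ hχ)
    have hfr : ⁅(P : Subgroup G), (P : Subgroup G)⁆
        ≤ (frattini P).map (P : Subgroup G).subtype := by
      have h1 := Helper2.commutator_le_frattini_of_isPGroup (G := (P : Subgroup G)) P.isPGroup'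
      have h2 := Subgroup.map_mono (f := (P : Subgroup G).subtype) h1
      rwa [commutator_def, Subgroup.map_commutator, ← MonoidHom.range_eq_map,
        Subgroup.range_subtype] at h2
    obtain ⟨S, Y0, hY0n, hcompl⟩ :=
      Helper2.hasNormalPComplement_of_normal_inf_sylow_le_frattini P K (ha.trans hfr)
    set Y : Subgroup G := Y0.map K.subtype with hY
    have hcardmul : Nat.card Y0 * Nat.card (S : Subgroup K) = Nat.card K := hcompl.card_mul_card
    have hScard : Nat.card (S : Subgroup K) = p ^ (Nat.card K).factorization p :=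
      S.card_eq_multiplicity
    have hY0cop : ¬ p ∣ Nat.card Y0 := by
      intro hdiv
      have h0 : p * p ^ (Nat.card K).factorization p
          ∣ Nat.card Y0 * p ^ (Nat.card K).factorization p := Nat.mul_dvd_mul hdiv dvd_rfl
      rw [← hScard, hcardmul, hScard, ← pow_succ'] at h0
      exact (Nat.pow_succ_factorization_not_dvd Nat.card_pos.ne' Fact.out) h0
    have hYcard : Nat.card Y = Nat.card Y0 :=
      Subgroup.card_map_of_injective K.subtype_injective
    have hYK : Y ≤ K := by
      rintro _ ⟨y, _, rfl⟩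
      exact y.2
    have hmemY : ∀ k ∈ K, (orderOf k).Coprime p → k ∈ Y := by
      intro k hk hcop
      have hidx : Y0.index = Nat.card (S : Subgroup K) := hcompl.symm.index_eq_card
      have h1 : (⟨k, hk⟩ : K) ^ Y0.index ∈ Y0 := Subgroup.pow_index_mem Y0 _
      have hcop' : (Y0.index).Coprime (orderOf (⟨k, hk⟩ : K)) := by
        rw [hidx, hScard, Subgroup.orderOf_mk]
        exact Nat.Coprime.pow_left _ hcop.symm
      obtain ⟨m, hm⟩ := exists_pow_eq_self_of_coprime hcop'
      have h2 : (⟨k, hk⟩ : K) ∈ Y0 := by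
        rw [← hm]
        exact Y0.pow_mem h1 m
      exact ⟨⟨k, hk⟩, h2, rfl⟩
    have hYord : ∀ y ∈ Y, (orderOf y).Coprime p := by
      rintro _ ⟨y, hy, rfl⟩
      have h1 : orderOf (⟨y, hy⟩ : Y0) ∣ Nat.card Y0 := orderOf_dvd_natCard _
      rw [Subgroup.orderOf_mk] at h1
      rw [Subgroup.coe_subtype, Subgroup.orderOf_coe]
      exact Nat.Coprime.coprime_dvd_left h1
        (Nat.coprime_comm.mp ((Nat.Prime.coprime_iff_not_dvd Fact.out).mpr hY0cop))
    have hYn : Y.Normal := by
      constructor
      intro y hy x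
      apply hmemY _ (hKn.conj_mem y (hYK hy) x)
      have h1 : orderOf (x * y * x⁻¹) = orderOf y := (MulAut.conj x).orderOf_eq y
      rw [h1]
      exact hYord y hy
    have hYcop : ¬ p ∣ Nat.card Y := by
      rw [hYcard]
      exact hY0cop
    have hYker : ∀ χ : Cfsg.IrrCharacter G, ¬ p ∣ Cfsg.charDegree (χ : G → ℂ) →
        ∀ l ∈ Y, (χ : G → ℂ) l = (χ : G → ℂ) 1 :=
      fun χ hχ l hl => (hKmem l).mp (hYK hl) χ hχ
    have hYC := Helper76.inf_centralizer_eq_bot_of_forall_ker P Y hYcop hYker
    have hYN : Y ≤ N := hmax Y hYn hYC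
    intro k hk
    have hS'p : IsPGroup p ((S : Subgroup K).map K.subtype) := S.isPGroup'.map _
    obtain ⟨P', hP'⟩ := hS'p.exists_le_sylow
    obtain ⟨x, hx⟩ := MulAction.exists_smul_eq G P P'
    have hk' : x * k * x⁻¹ ∈ K := hKn.conj_mem k hk x
    have htop : Y0 ⊔ (S : Subgroup K) = ⊤ := hcompl.sup_eq_top
    have hmem : (⟨x * k * x⁻¹, hk'⟩ : K) ∈ ((Y0 ⊔ (S : Subgroup K) : Subgroup K) : Set K) := by
      rw [htop]
      exact Subgroup.mem_top _
    rw [Subgroup.normal_mul] at hmem
    obtain ⟨y, hy, s, hs, hys⟩ := Set.mem_mul.mp hmem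
    have hys' : (y : G) * (s : G) = x * k * x⁻¹ := by
      have h1 := congrArg Subtype.val hys
      simpa using h1
    have hk_eq : k = (x⁻¹ * (y : G) * x) * (x⁻¹ * (s : G) * x) := by
      have h1 : k = x⁻¹ * (x * k * x⁻¹) * x := by group
      rw [h1, ← hys']
      group
    rw [hk_eq]
    apply Subgroup.mul_mem
    · apply Subgroup.mem_sup_left
      apply hYN
      have h1 := hYn.conj_mem (y : G) ⟨y, hy, rfl⟩ x⁻¹
      rwa [inv_inv] at h1
    · apply Subgroup.mem_sup_right
      apply ha
      refine ⟨?_, ?_⟩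
      · have h1 := hKn.conj_mem (s : G) s.2 x⁻¹
        rwa [inv_inv] at h1
      · have hsP' : (s : G) ∈ (P' : Subgroup G) := hP' ⟨s, hs, rfl⟩
        rw [← hx, Sylow.coe_subgroup_smul, Subgroup.mem_pointwise_smul_iff_inv_smul_mem,
          MulAut.smul_def, MulAut.conj_inv_apply] at hsP'
        exact hsP'
  · intro hg χ hχ
    have hNker := Helper76.irr_apply_eq_of_inf_centralizer_eq_bot (P : Subgroup G) P.isPGroup' N hN
      χ hχ
    exact Helper76.irr_apply_eq_of_le_sup_commutator (P : Subgroup G) P.isPGroup' χ hχ N hNker _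
      (Subgroup.normalCore_le _) g hg

end Cfsg.Agent.S4591
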