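import Cfsg.Statements.S4601
import Cfsg.Agent.Helper76.CoprimeSylow

set_option autoImplicit false
open Cfsg

namespace Cfsg.Agent.S4601

universe u

open Cfsg.Agent.Helper76 in
/-- The `q`-solvable case, by induction on `|G|`: the number of Sylow `q`-subgroups is prime to
`p`. -/
theorem key {p q : ℕ} [hp : Fact p.Prime] [hq : Fact q.Prime] :
    ∀ (n : ℕ) (G : Type u) [Group G] [Finite G], Nat.card G = n → IsPSolvableElt q G →
      (∀ y : G, (∃ k : ℕ, orderOf y = q ^ k) →
        ¬ p ∣ (Subgroup.centralizer ({y} : Set G)).index) →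
      ¬ p ∣ Nat.card (Sylow q G) := by
  intro n
  induction n using Nat.strong_induction_on with
  | _ n ih =>
    intro G _ _ hn hs h
    by_cases htriv : (⊤ : Subgroup G) ≤ ⊥
    · -- trivial group
      intro hdvd
      obtain ⟨Q⟩ : Nonempty (Sylow q G) := inferInstance
      have h1 : Nat.card (Sylow q G) ∣ Nat.card G :=
        dvd_trans (Sylow.card_dvd_index Q) (Subgroup.index_dvd_card _)
      have h2 : Nat.card G = 1 := by
        rw [← Subgroup.card_top (G := G), eq_bot_iff.mpr htriv, Subgroup.card_bot]
      rw [h2] at h1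
      exact hp.out.one_lt.ne' (Nat.dvd_one.mp (dvd_trans hdvd h1))
    · obtain ⟨Y, hYn, -, hYbot, hY⟩ := hs.exists_step ⊤ inferInstance ⊥ htriv
      have : Y.Normal := hYn
      have hYne : Y ≠ ⊥ := fun hb => hYbot (hb ▸ le_rfl)
      have hlt : Nat.card (G ⧸ Y) < n := by
        rw [← hn, Subgroup.card_eq_card_quotient_mul_card_subgroup Y]
        have h1 : 1 < Nat.card Y := (Subgroup.one_lt_card_iff_ne_bot Y).mpr hYne
        have h2 : 0 < Nat.card (G ⧸ Y) := Nat.card_pos
        nlinarith
      have hIH : ¬ p ∣ Nat.card (Sylow q (G ⧸ Y)) :=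
        ih (Nat.card (G ⧸ Y)) hlt (G ⧸ Y) rfl (hs.quotient Y)
          (not_dvd_index_centralizer_quotient Y h)
      rcases hY with hYq | hYq'
      · -- `Y` is a `q`-group
        have hYp : IsPGroup q Y := by
          intro y
          obtain ⟨k, hk⟩ := hYq y.1 y.2
          refine ⟨k, ?_⟩
          rw [Subgroup.mem_bot] at hk
          exact Subtype.ext hk
        obtain ⟨Q⟩ : Nonempty (Sylow q G) := inferInstance
        have hYQ : Y ≤ (Q : Subgroup G) := hYp.le_sylow_of_normal Q
        have h1 := index_normalizer_sup_eq_card_sylow_quotient Y Q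
        rw [sup_of_le_left hYQ] at h1
        have h3 : Nat.card (Sylow q G) =
            (Subgroup.normalizer ((Q : Subgroup G) : Set G)).index :=
          Sylow.card_eq_index_normalizer Q
        rw [h3, h1]
        exact hIH
      · -- `Y` is a `q'`-group
        have hYc : (Nat.card Y).Coprime q := by
          rw [card_coprime_iff_forall_orderOf]
          intro y hy
          obtain ⟨m, hm, hym⟩ := hYq' y hy
          rw [Subgroup.mem_bot] at hym
          exact Nat.Coprime.coprime_dvd_left (orderOf_dvd_of_pow_eq_one hym) hm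
        obtain ⟨T⟩ : Nonempty (Sylow p Y) := inferInstance
        obtain ⟨Q, hQ⟩ := exists_sylow_le_normalizer_map_subtype (q := q) Y hYc T
        have hcent : (T : Subgroup Y).map Y.subtype ≤
            Subgroup.normalizer ((Q : Subgroup G) : Set G) := by
          refine le_trans ?_ (Subgroup.centralizer_le_normalizer _)
          intro s hs
          rw [Subgroup.mem_centralizer_iff]
          intro x hx
          obtain ⟨k, hk⟩ := (IsPGroup.iff_orderOf.mp Q.isPGroup') ⟨x, hx⟩
          rw [Subgroup.orderOf_mk] at hk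
          obtain ⟨P₁, hP₁⟩ := exists_sylow_le_of_not_dvd_index (p := p) _ (h x ⟨k, hk⟩)
          exact (commute_of_mem_normalizer_of_sylow_le_centralizer Y hYc T x ⟨k, hk⟩ (hQ hx)
            P₁ hP₁ s hs).symm
        have hrel : ¬ p ∣ ((T : Subgroup Y).map Y.subtype).relIndex Y := by
          have h1 : ((T : Subgroup Y).map Y.subtype).relIndex Y = (T : Subgroup Y).index := by
            unfold Subgroup.relIndex Subgroup.subgroupOf
            rw [Subgroup.comap_map_eq_self_of_injective Y.subtype_injective]
          rw [h1]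
          exact T.not_dvd_index
        have hX : ¬ p ∣ (Subgroup.normalizer
            (((Q : Subgroup G) ⊔ Y : Subgroup G) : Set G)).index := by
          rw [index_normalizer_sup_eq_card_sylow_quotient Y Q]
          exact hIH
        have hfin := not_dvd_index_normalizer_of_sup Y Q _ hcent hrel hX
        have h3 : Nat.card (Sylow q G) =
            (Subgroup.normalizer ((Q : Subgroup G) : Set G)).index :=
          Sylow.card_eq_index_normalizer Q
        rw [h3]
        exact hfin

/-- Let p and q be primes and G a finite group that is p-solvable or q-solvable, in which no q-element has conjugacy class size divisible by p. Then some Sylow p-subgroup of G normalizes some Sylow q-subgroup of G. -/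
theorem result {G : Type*} [Group G] [Finite G] (p q : ℕ) [Fact p.Prime] [Fact q.Prime] (hsolv : Cfsg.IsPSolvable p G ∨ Cfsg.IsPSolvable q G)
    (h : ∀ y : G, (∃ k : ℕ, orderOf y = q ^ k) → ¬ p ∣ (Subgroup.centralizer ({y} : Set G)).index) :
    ∃ (P : Sylow p G) (Q : Sylow q G), (P : Subgroup G) ≤ Subgroup.normalizer ((Q : Subgroup G) : Set G) := by
  by_cases hpq : p = q
  · subst hpq
    obtain ⟨P⟩ : Nonempty (Sylow p G) := inferInstance
    exact ⟨P, P, Subgroup.le_normalizer⟩
  · rcases hsolv with hps | hqs
    · -- the `p`-solvable case: every Sylow `q`-subgroup lies in `O_{p'}(G)`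
      have hs := Cfsg.Agent.Helper76.isPSolvableElt_of_isPSolvable hps
      obtain ⟨Q⟩ : Nonempty (Sylow q G) := inferInstance
      have hQK : (Q : Subgroup G) ≤ Cfsg.pPrimeCore p G := by
        intro x hx
        obtain ⟨k, hk⟩ := (IsPGroup.iff_orderOf.mp Q.isPGroup') ⟨x, hx⟩
        rw [Subgroup.orderOf_mk] at hk
        apply Cfsg.Agent.Helper76.mem_pPrimeCore_of_commute hpq hs x ⟨k, hk⟩
        intro r hr
        obtain ⟨P₁, hP₁⟩ :=
          Cfsg.Agent.Helper76.exists_sylow_le_of_not_dvd_index (p := p) _ (h x ⟨k, hk⟩)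
        have hsurj : Function.Surjective (QuotientGroup.mk' (Cfsg.pPrimeCore p G)) :=
          QuotientGroup.mk'_surjective _
        have h1 : Cfsg.pCore p (G ⧸ Cfsg.pPrimeCore p G) ≤
            (P₁.mapSurjective hsurj : Subgroup _) :=
          IsPGroup.le_sylow_of_normal Cfsg.Agent.Helper76.pCore_isPGroup (P₁.mapSurjective hsurj)
        have h2 := h1 hr
        rw [Sylow.coe_mapSurjective, Subgroup.mem_map] at h2
        obtain ⟨g, hg, rfl⟩ := h2
        have h3 := (Subgroup.mem_centralizer_iff.mp (hP₁ hg)) x (Set.mem_singleton x)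
        show (g : G ⧸ Cfsg.pPrimeCore p G) * (x : G ⧸ Cfsg.pPrimeCore p G) =
          (x : G ⧸ Cfsg.pPrimeCore p G) * (g : G ⧸ Cfsg.pPrimeCore p G)
        rw [← QuotientGroup.mk_mul, ← QuotientGroup.mk_mul, h3]
      obtain ⟨P, hP⟩ := Cfsg.Agent.Helper76.exists_sylow_le_normalizer_of_le_normal (p := p)
        (Cfsg.pPrimeCore p G) Cfsg.Agent.Helper76.pPrimeCore_not_dvd_card Q hQK
      exact ⟨P, Q, hP⟩
    · -- the `q`-solvable case
      have hs := Cfsg.Agent.Helper76.isPSolvableElt_of_isPSolvable hqs
      have hkey := key (p := p) (q := q) (Nat.card G) G rfl hs h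
      obtain ⟨Q⟩ : Nonempty (Sylow q G) := inferInstance
      have h3 : Nat.card (Sylow q G) =
          (Subgroup.normalizer ((Q : Subgroup G) : Set G)).index :=
        Sylow.card_eq_index_normalizer Q
      rw [h3] at hkey
      obtain ⟨P, hP⟩ := Cfsg.Agent.Helper76.exists_sylow_le_of_not_dvd_index _ hkey
      exact ⟨P, Q, hP⟩

end Cfsg.Agent.S4601
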