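import Cfsg.Statements.S4602
import Cfsg.Agent.Helper76.SylowNormalizes

set_option autoImplicit false
open Cfsg

namespace Cfsg.Agent.S4602

/-- Let G be a finite p-solvable group and q a prime different from p. Some Sylow p-subgroup of G normalizes some Sylow q-subgroup of G if and only if q does not divide the order of G/O_{p'}(G), the quotient by the largest normal subgroup of order prime to p. -/
theorem result {G : Type*} [Group G] [Finite G] (p q : ℕ) [Fact p.Prime] [Fact q.Prime] (hpq : p ≠ q) (hsolv : Cfsg.IsPSolvable p G) :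
    (∃ (P : Sylow p G) (Q : Sylow q G), (P : Subgroup G) ≤ Subgroup.normalizer ((Q : Subgroup G) : Set G)) ↔ ¬ q ∣ (Cfsg.pPrimeCore p G).index := by
  have hs : Cfsg.Agent.Helper76.IsPSolvableElt p G :=
    Cfsg.Agent.Helper76.isPSolvableElt_of_isPSolvable hsolv
  constructor
  · rintro ⟨P, Q, hPQ⟩
    have hQK : (Q : Subgroup G) ≤ Cfsg.pPrimeCore p G :=
      Cfsg.Agent.Helper76.sylow_le_pPrimeCore_of_le_normalizer hpq hs P Q hPQ
    intro hdvd
    exact Q.not_dvd_index (dvd_trans hdvd (Subgroup.index_dvd_of_le hQK))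
  · intro hq
    obtain ⟨Q⟩ : Nonempty (Sylow q G) := inferInstance
    have hQK : (Q : Subgroup G) ≤ Cfsg.pPrimeCore p G :=
      Cfsg.Agent.Helper76.sylow_le_of_not_dvd_index_normal _ Q hq
    obtain ⟨P, hP⟩ := Cfsg.Agent.Helper76.exists_sylow_le_normalizer_of_le_normal (p := p)
      (Cfsg.pPrimeCore p G) Cfsg.Agent.Helper76.pPrimeCore_not_dvd_card Q hQK
    exact ⟨P, Q, hP⟩

end Cfsg.Agent.S4602
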