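import Cfsg.Statements.S4604
import Mathlib
import Cfsg.Agent.Helper76.CharInt
import Cfsg.Agent.Helper76.CentralChar
import Cfsg.Agent.Helper80.CharOrtho

set_option autoImplicit false
open Cfsg

namespace Cfsg.Agent.S4604

open scoped ComplexConjugate

open Cfsg.Agent.Helper76

/-- `x ^ (p ^ a) = x' ^ (p ^ a)` for the `p`-regular part `x'` of `x`. -/
theorem pow_eq_pow_regular {G : Type*} [Group G] [Finite G] (p : ℕ) [hp : Fact p.Prime]
    (x x' : G)
    (hx : (∃ k : ℕ, orderOf (x * x'⁻¹) = p ^ k) ∧ Commute (x * x'⁻¹) x' ∧ ¬ p ∣ orderOf x') :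
    x ^ (p ^ (Nat.card G).factorization p) = x' ^ (p ^ (Nat.card G).factorization p) := by
  obtain ⟨⟨k, hk⟩, hcomm, -⟩ := hx
  have h1 : x = (x * x'⁻¹) * x' := by group
  have h2 : p ^ k ∣ Nat.card G := hk ▸ orderOf_dvd_natCard _
  have h3 : k ≤ (Nat.card G).factorization p :=
    (hp.out.pow_dvd_iff_le_factorization Nat.card_pos.ne').mp h2
  have h4 : (x * x'⁻¹) ^ (p ^ (Nat.card G).factorization p) = 1 := by
    apply orderOf_dvd_iff_pow_eq_one.mp
    rw [hk]
    exact pow_dvd_pow p h3
  conv_lhs => rw [h1]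
  rw [hcomm.mul_pow, h4, one_mul]

/-- Conjugacy of the `p ^ a`-th powers of two `p`-regular elements gives conjugacy of the
elements. -/
theorem isConj_of_isConj_pow {G : Type*} [Group G] (p a : ℕ) (hp : p.Prime)
    (x' y' : G) (hx : ¬ p ∣ orderOf x') (hy : ¬ p ∣ orderOf y')
    (h : IsConj (x' ^ (p ^ a)) (y' ^ (p ^ a))) : IsConj x' y' := by
  have hcop : Nat.Coprime (p ^ a) (orderOf x' * orderOf y') := by
    apply Nat.Coprime.pow_left
    exact Nat.Coprime.mul_right ((Nat.Prime.coprime_iff_not_dvd hp).mpr hx)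
      ((Nat.Prime.coprime_iff_not_dvd hp).mpr hy)
  have hb := Nat.gcd_eq_gcd_ab (p ^ a) (orderOf x' * orderOf y')
  rw [hcop] at hb
  have key : ∀ z : G, z ^ (orderOf x' * orderOf y') = 1 →
      z = (z ^ (p ^ a)) ^ (Nat.gcdA (p ^ a) (orderOf x' * orderOf y')) := by
    intro z hz
    have h1 : z = z ^ (((1 : ℕ) : ℤ)) := by simp
    conv_lhs => rw [h1]
    rw [hb, zpow_add, zpow_mul, zpow_mul, zpow_natCast, zpow_natCast, hz, one_zpow, mul_one]
  have hx1 : x' ^ (orderOf x' * orderOf y') = 1 := by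
    rw [pow_mul, pow_orderOf_eq_one, one_pow]
  have hy1 : y' ^ (orderOf x' * orderOf y') = 1 := by
    rw [mul_comm, pow_mul, pow_orderOf_eq_one, one_pow]
  obtain ⟨c, hc⟩ := isConj_iff.mp h
  rw [isConj_iff]
  refine ⟨c, ?_⟩
  have e1 := key x' hx1
  have e2 := key y' hy1
  calc c * x' * c⁻¹
      = c * (x' ^ (p ^ a)) ^ (Nat.gcdA (p ^ a) (orderOf x' * orderOf y')) * c⁻¹ := by rw [← e1]
    _ = (c * x' ^ (p ^ a) * c⁻¹) ^ (Nat.gcdA (p ^ a) (orderOf x' * orderOf y')) :=
        conj_zpow.symm
    _ = (y' ^ (p ^ a)) ^ (Nat.gcdA (p ^ a) (orderOf x' * orderOf y')) := by rw [hc]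
    _ = y' := e2.symm

/-- Let G be a finite group, p a prime and p^a the p-part of the order of G. Let x, y ∈ G and let x′, y′ be their p-regular parts: x′ has order prime to p, commutes with x·x′⁻¹, and x·x′⁻¹ has p-power order (likewise for y). Then x′ and y′ are conjugate in G if and only if for every irreducible character χ of G the algebraic integer χ(x)^(p^a) − χ(y)^(p^a) is p times an algebraic integer. -/
theorem result {G : Type*} [Group G] [Finite G] (p : ℕ) [Fact p.Prime] (x y x' y' : G)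
    (hx : (∃ k : ℕ, orderOf (x * x'⁻¹) = p ^ k) ∧ Commute (x * x'⁻¹) x' ∧ ¬ p ∣ orderOf x')
    (hy : (∃ k : ℕ, orderOf (y * y'⁻¹) = p ^ k) ∧ Commute (y * y'⁻¹) y' ∧ ¬ p ∣ orderOf y') :
    IsConj x' y' ↔ ∀ χ : Cfsg.IrrCharacter G, ∃ γ : Cfsg.AlgInt,
      (χ : G → ℂ) x ^ (p ^ (Nat.card G).factorization p) - (χ : G → ℂ) y ^ (p ^ (Nat.card G).factorization p) = (p : ℂ) * (γ : ℂ) := by
  classical
  have hp : p.Prime := Fact.out
  have hxu := pow_eq_pow_regular p x x' hx
  have hyv := pow_eq_pow_regular p y y' hy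
  have hFD : ∀ (χ : Cfsg.IrrCharacter G) (z : G), ∃ w : ℂ, IsIntegral ℤ w ∧
      (χ : G → ℂ) z ^ (p ^ (Nat.card G).factorization p) =
        (χ : G → ℂ) (z ^ (p ^ (Nat.card G).factorization p)) + (p : ℂ) * w := by
    intro χ z
    obtain ⟨n, ρ, hρ, hχ⟩ := χ.2
    rw [← hχ]
    exact char_pow_prime_pow ρ p hp _ z
  constructor
  · intro hconj χ
    obtain ⟨w1, hw1, e1⟩ := hFD χ x
    obtain ⟨w2, hw2, e2⟩ := hFD χ y
    have heq : (χ : G → ℂ) (x ^ (p ^ (Nat.card G).factorization p)) =
        (χ : G → ℂ) (y ^ (p ^ (Nat.card G).factorization p)) := by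
      rw [hxu, hyv]
      obtain ⟨c, hc⟩ := isConj_iff.mp hconj
      rw [← hc, conj_pow, irr_conj]
    refine ⟨⟨w1 - w2, hw1.sub hw2⟩, ?_⟩
    rw [e1, e2, heq]
    show _ = (p : ℂ) * (w1 - w2)
    ring
  · intro H
    apply isConj_of_isConj_pow p ((Nat.card G).factorization p) hp x' y' hx.2.2 hy.2.2
    by_contra hnc
    have hu_ord : ¬ p ∣ orderOf (x' ^ (p ^ (Nat.card G).factorization p)) :=
      fun h => hx.2.2 (dvd_trans h (orderOf_pow_dvd _))
    have hv_ord : ¬ p ∣ orderOf (y' ^ (p ^ (Nat.card G).factorization p)) :=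
      fun h => hy.2.2 (dvd_trans h (orderOf_pow_dvd _))
    generalize x' ^ (p ^ (Nat.card G).factorization p) = u at hxu hnc hu_ord
    generalize y' ^ (p ^ (Nat.card G).factorization p) = v at hyv hnc hv_ord
    have hδ : ∀ χ : Cfsg.IrrCharacter G, ∃ δ : ℂ, IsIntegral ℤ δ ∧
        (χ : G → ℂ) u - (χ : G → ℂ) v = (p : ℂ) * δ := by
      intro χ
      obtain ⟨γ, hγ⟩ := H χ
      obtain ⟨w1, hw1, e1⟩ := hFD χ x
      obtain ⟨w2, hw2, e2⟩ := hFD χ y
      rw [hxu] at e1
      rw [hyv] at e2
      refine ⟨(γ : ℂ) - w1 + w2, (γ.2.sub hw1).add hw2, ?_⟩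
      linear_combination hγ - e1 + e2
    choose δ hδint hδeq using hδ
    let _ : Fintype G := Fintype.ofFinite G
    let _ : Fintype (Cfsg.IrrCharacter G) := Fintype.ofFinite _
    obtain ⟨Q⟩ : Nonempty (Sylow p (Subgroup.centralizer ({u} : Set G))) := inferInstance
    let _ : Fintype (Q : Subgroup (Subgroup.centralizer ({u} : Set G))) := Fintype.ofFinite _
    obtain ⟨j, hj⟩ : ∃ j : (Q : Subgroup (Subgroup.centralizer ({u} : Set G))) →* G,
        ∀ s, j s = ((s : Subgroup.centralizer ({u} : Set G)) : G) :=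
      ⟨(Subgroup.centralizer ({u} : Set G)).subtype.comp
        (Q : Subgroup (Subgroup.centralizer ({u} : Set G))).subtype, fun _ => rfl⟩
    have hj_inj : Function.Injective j := by
      intro s t hst
      rw [hj, hj] at hst
      exact Subtype.ext (Subtype.ext hst)
    have hju : ∀ s, j s * u = u * j s := by
      intro s
      rw [hj]
      exact (Subgroup.mem_centralizer_iff.mp (s : Subgroup.centralizer ({u} : Set G)).2 u
        (Set.mem_singleton u)).symm
    have hjord : ∀ s, ∃ k : ℕ, orderOf (j s) = p ^ k := by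
      intro s
      rw [orderOf_injective j hj_inj s]
      exact IsPGroup.iff_orderOf.mp Q.isPGroup' s
    -- a conjugate of a `p`-regular element inside `u * j s` forces `s = 1`
    have key : ∀ g : G, ¬ p ∣ orderOf g → ∀ (s : (Q : Subgroup (Subgroup.centralizer ({u} : Set G))))
        (t : G), t * g * t⁻¹ = u * j s → s = 1 := by
      intro g hg s t ht
      obtain ⟨k, hk⟩ := hjord s
      have hco : (orderOf u).Coprime (orderOf (j s)) := by
        rw [hk]
        exact Nat.Coprime.pow_right k ((Nat.Prime.coprime_iff_not_dvd hp).mpr hu_ord).symm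
      have h1 : orderOf (u * j s) = orderOf u * orderOf (j s) :=
        Commute.orderOf_mul_eq_mul_orderOf_of_coprime (hju s).symm hco
      have h2 : orderOf (t * g * t⁻¹) = orderOf g := (MulAut.conj t).orderOf_eq g
      rw [ht, h1, hk] at h2
      have hk0 : k = 0 := by
        by_contra hk0
        apply hg
        rw [← h2]
        exact dvd_mul_of_dvd_right (dvd_pow_self p hk0) _
      rw [hk0, pow_zero, orderOf_eq_one_iff] at hk
      apply hj_inj
      rw [hk, map_one]
    have hsum : ∀ g : G, ¬ p ∣ orderOf g →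
        ∑ s : (Q : Subgroup (Subgroup.centralizer ({u} : Set G))),
          ((Finset.univ.filter (fun t : G => t * g * t⁻¹ = u * j s)).card : ℂ) =
        ((Finset.univ.filter (fun t : G => t * g * t⁻¹ = u)).card : ℂ) := by
      intro g hg
      rw [Finset.sum_eq_single (1 : (Q : Subgroup (Subgroup.centralizer ({u} : Set G))))]
      · rw [map_one, mul_one]
      · intro s _ hs
        have hempty : Finset.univ.filter (fun t : G => t * g * t⁻¹ = u * j s) = ∅ := by
          apply Finset.filter_eq_empty_iff.mpr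
          intro t _ ht
          exact hs (key g hg s t ht)
        rw [hempty, Finset.card_empty, Nat.cast_zero]
      · intro h
        exact absurd (Finset.mem_univ _) h
    -- the coefficients
    have hBint : ∀ χ : Cfsg.IrrCharacter G, IsIntegral ℤ
        ((Fintype.card (Q : Subgroup (Subgroup.centralizer ({u} : Set G))) : ℂ)⁻¹ *
          ∑ s : (Q : Subgroup (Subgroup.centralizer ({u} : Set G))), (χ : G → ℂ) (u * j s)) := by
      intro χ
      obtain ⟨n, ρ, hρ, hχ⟩ := χ.2
      rw [← hχ]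
      exact isIntegral_average_char ρ j u hju (Nat.card G) Nat.card_pos.ne' pow_card_eq_one'
    have hΨ : ∀ g : G, ¬ p ∣ orderOf g →
        ∑ χ : Cfsg.IrrCharacter G,
          conj ((Fintype.card (Q : Subgroup (Subgroup.centralizer ({u} : Set G))) : ℂ)⁻¹ *
            ∑ s : (Q : Subgroup (Subgroup.centralizer ({u} : Set G))), (χ : G → ℂ) (u * j s)) *
            (χ : G → ℂ) g =
        (Fintype.card (Q : Subgroup (Subgroup.centralizer ({u} : Set G))) : ℂ)⁻¹ *
          ((Finset.univ.filter (fun t : G => t * g * t⁻¹ = u)).card : ℂ) := by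
      intro g hg
      rw [← hsum g hg, Finset.mul_sum]
      have e1 : ∀ s : (Q : Subgroup (Subgroup.centralizer ({u} : Set G))),
          (Fintype.card (Q : Subgroup (Subgroup.centralizer ({u} : Set G))) : ℂ)⁻¹ *
            ((Finset.univ.filter (fun t : G => t * g * t⁻¹ = u * j s)).card : ℂ) =
          ∑ χ : Cfsg.IrrCharacter G,
            (Fintype.card (Q : Subgroup (Subgroup.centralizer ({u} : Set G))) : ℂ)⁻¹ *
              ((χ : G → ℂ) g * conj ((χ : G → ℂ) (u * j s))) := by
        intro s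
        rw [← Cfsg.Agent.Helper80.irr_sum_mul_conj g (u * j s), Finset.mul_sum]
      rw [Finset.sum_congr rfl (fun s _ => e1 s), Finset.sum_comm]
      apply Finset.sum_congr rfl
      intro χ _
      rw [map_mul, map_inv₀, Complex.conj_natCast, map_sum, mul_assoc, Finset.sum_mul,
        Finset.mul_sum]
      apply Finset.sum_congr rfl
      intro s _
      ring
    have hΨu := hΨ u hu_ord
    have hΨv := hΨ v hv_ord
    have hcu : (Finset.univ.filter (fun t : G => t * u * t⁻¹ = u)).card =
        Nat.card (Subgroup.centralizer ({u} : Set G)) := by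
      rw [Cfsg.Agent.Helper80.card_conj_eq u u, if_pos (IsConj.refl u)]
    have hcv : (Finset.univ.filter (fun t : G => t * v * t⁻¹ = u)).card = 0 := by
      rw [Cfsg.Agent.Helper80.card_conj_eq v u, if_neg (fun h => hnc h.symm)]
    rw [hcu] at hΨu
    rw [hcv, Nat.cast_zero, mul_zero] at hΨv
    have hidx : (Nat.card (Subgroup.centralizer ({u} : Set G)) : ℂ) =
        (Fintype.card (Q : Subgroup (Subgroup.centralizer ({u} : Set G))) : ℂ) *
          ((Q : Subgroup (Subgroup.centralizer ({u} : Set G))).index : ℂ) := by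
      rw [← Subgroup.card_mul_index (Q : Subgroup (Subgroup.centralizer ({u} : Set G))),
        Nat.card_eq_fintype_card]
      push_cast
      rfl
    have hQne : (Fintype.card (Q : Subgroup (Subgroup.centralizer ({u} : Set G))) : ℂ) ≠ 0 := by
      exact_mod_cast Fintype.card_ne_zero
    rw [hidx, ← mul_assoc, inv_mul_cancel₀ hQne, one_mul] at hΨu
    -- the difference is divisible by `p`
    have hfinal : (((Q : Subgroup (Subgroup.centralizer ({u} : Set G))).index : ℕ) : ℂ) =
        (p : ℂ) * ∑ χ : Cfsg.IrrCharacter G,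
          conj ((Fintype.card (Q : Subgroup (Subgroup.centralizer ({u} : Set G))) : ℂ)⁻¹ *
            ∑ s : (Q : Subgroup (Subgroup.centralizer ({u} : Set G))), (χ : G → ℂ) (u * j s)) *
            δ χ := by
      rw [← hΨu, ← sub_zero (∑ χ : Cfsg.IrrCharacter G, _ * (χ : G → ℂ) u), ← hΨv,
        ← Finset.sum_sub_distrib, Finset.mul_sum]
      apply Finset.sum_congr rfl
      intro χ _
      rw [← mul_sub, hδeq χ]
      ring
    have hint : IsIntegral ℤ (∑ χ : Cfsg.IrrCharacter G,
          conj ((Fintype.card (Q : Subgroup (Subgroup.centralizer ({u} : Set G))) : ℂ)⁻¹ *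
            ∑ s : (Q : Subgroup (Subgroup.centralizer ({u} : Set G))), (χ : G → ℂ) (u * j s)) *
            δ χ) := by
      apply IsIntegral.sum
      intro χ _
      exact (map_isIntegral_int (starRingEnd ℂ) (hBint χ)).mul (hδint χ)
    exact Q.not_dvd_index (dvd_of_natCast_eq_mul_isIntegral _ p hp.ne_zero _ hint hfinal)

end Cfsg.Agent.S4604
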