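import Cfsg.Statements.S4611
import Cfsg.Agent.Helper76.Fong
import Cfsg.Agent.Helper79.Sep

set_option autoImplicit false
set_option linter.style.haveILetI false
open Cfsg

namespace Cfsg.Agent.S4611

/-- Let G be a finite solvable group and π a nonempty set of primes, each dividing the order of G; fix for each p in π a maximal ideal M p of the algebraic integers containing p. Then the only irreducible character lying in the principal p-block for every p in π is the principal character if and only if G is generated by the subgroups O_{p'}(G), p in π (the largest normal subgroups of order prime to p). -/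
theorem result {G : Type*} [Group G] [Finite G] [Group.IsSolvable G] (π : Set ℕ) (hπ : ∀ p ∈ π, p.Prime ∧ p ∣ Nat.card G) (hne : π.Nonempty) (M : ℕ → Ideal Cfsg.AlgInt) (hM : ∀ p ∈ π, Cfsg.IsPModular p (M p)) :
    (∀ χ : Cfsg.IrrCharacter G, (∀ p ∈ π, χ ∈ Cfsg.principalBlock (M p) G) → (χ : G → ℂ) = fun _ => 1) ↔
      ⨆ p ∈ π, Cfsg.pPrimeCore p G = ⊤ := by
  classical
  letI : Fintype G := Fintype.ofFinite G
  constructor
  · intro h
    by_contra hN
    set N : Subgroup G := ⨆ p ∈ π, Cfsg.pPrimeCore p G with hNdef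
    haveI hNn : N.Normal :=
      Subgroup.biSup_normal π (fun p => Cfsg.pPrimeCore p G) (fun p hp => by
        haveI : Fact p.Prime := ⟨(hπ p hp).1⟩
        exact Helper76.pPrimeCore_normal)
    obtain ⟨g, hg⟩ : ∃ g : G, g ∉ N := by
      by_contra hall
      push Not at hall
      exact hN (eq_top_iff.mpr fun g _ => hall g)
    have hg1 : (g : G ⧸ N) ≠ 1 := fun h1 => hg ((QuotientGroup.eq_one_iff g).mp h1)
    obtain ⟨ψ, hψ⟩ : ∃ ψ : Cfsg.IrrCharacter (G ⧸ N),
        (ψ : G ⧸ N → ℂ) (g : G ⧸ N) ≠ (ψ : G ⧸ N → ℂ) 1 := by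
      by_contra hall
      push Not at hall
      have hc := Helper79.isConj_of_forall_irr_eq hall
      exact hg1 (isConj_one_left.mp hc)
    let χ : Cfsg.IrrCharacter G := ⟨fun x => (ψ : G ⧸ N → ℂ) (x : G ⧸ N),
      (Helper79.isIrrCharacter_quotient_iff N _).mp ψ.2⟩
    have hχ : ∀ p ∈ π, χ ∈ Cfsg.principalBlock (M p) G := by
      intro p hp
      haveI : Fact p.Prime := ⟨(hπ p hp).1⟩
      apply Helper76.mem_principalBlock_of_isPSolvableElt (hM p hp)
        (Helper76.isPSolvableElt_of_isSolvable p G)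
      intro n hn
      have hnN : n ∈ N := (le_biSup (fun p => Cfsg.pPrimeCore p G) hp) hn
      show (ψ : G ⧸ N → ℂ) (n : G ⧸ N) = (ψ : G ⧸ N → ℂ) ((1 : G) : G ⧸ N)
      rw [(QuotientGroup.eq_one_iff n).mpr hnN]
      rfl
    have h1 := h χ hχ
    apply hψ
    have e1 : (ψ : G ⧸ N → ℂ) (g : G ⧸ N) = (χ : G → ℂ) g := rfl
    have e2 : (ψ : G ⧸ N → ℂ) 1 = (χ : G → ℂ) 1 := rfl
    rw [e1, e2, h1]
  · intro hsup χ hχ
    have hker : ∀ g : G, (χ : G → ℂ) g = (χ : G → ℂ) 1 := by
      intro g
      have hle : (⨆ p ∈ π, Cfsg.pPrimeCore p G)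
          ≤ Helper79.charKer (Helper79.irr_isCharacter χ) := by
        apply iSup₂_le
        intro p hp n hn
        haveI : Fact p.Prime := ⟨(hπ p hp).1⟩
        exact Helper76.apply_eq_of_mem_principalBlock (hM p hp) χ (hχ p hp) n hn
      have hmem : g ∈ Helper79.charKer (Helper79.irr_isCharacter χ) :=
        hle (hsup ▸ Subgroup.mem_top g)
      exact hmem
    have horth := Helper81.irr_orthonormal χ ⟨fun _ => 1, Helper81.isIrrCharacter_one⟩
    by_cases heq : χ = ⟨fun _ => 1, Helper81.isIrrCharacter_one⟩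
    · rw [heq]
    · exfalso
      rw [if_neg heq] at horth
      have hsum : ∑ g : G, (χ : G → ℂ) g * (1 : ℂ) = (Nat.card G : ℂ) * (χ : G → ℂ) 1 := by
        rw [Finset.sum_congr rfl (fun g _ => by rw [hker g])]
        simp [Nat.card_eq_fintype_card]
      have horth' : (Nat.card G : ℂ)⁻¹ * ∑ g : G, (χ : G → ℂ) g * (1 : ℂ) = 0 := horth
      rw [hsum] at horth'
      have hcard : (Nat.card G : ℂ) ≠ 0 := by
        have : 0 < Nat.card G := Nat.card_pos
        exact_mod_cast this.ne'
      rw [← mul_assoc, inv_mul_cancel₀ hcard, one_mul] at horth'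
      exact Helper81.irr_one_ne_zero χ horth'

end Cfsg.Agent.S4611
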