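import Cfsg.Statements.S4620

set_option autoImplicit false
open Cfsg

namespace Cfsg.Agent.S4620

open scoped Pointwise

variable {H : Type*} [Group H] [Finite H] {p : ℕ} [Fact p.Prime]

theorem mem_conj_smul_iff (g x : H) (S : Subgroup H) :
    x ∈ MulAut.conj g • S ↔ g⁻¹ * x * g ∈ S := by
  rw [Subgroup.mem_pointwise_smul_iff_inv_smul_mem]
  simp [MulAut.smul_def]

theorem smul_eq_iff (g : H) (P : Sylow p H) :
    g • P = P ↔ g ∈ Subgroup.normalizer ((P : Subgroup H) : Set H) :=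
  Sylow.smul_eq_iff_mem_normalizer

/-- The TI property passes to every Sylow `p`-subgroup. -/
theorem ti_all (P : Sylow p H)
    (hTI : ∀ g : H, g ∉ Subgroup.normalizer ((P : Subgroup H) : Set H) →
      (P : Subgroup H) ⊓ (MulAut.conj g • (P : Subgroup H)) = ⊥)
    (P₁ : Sylow p H) (g : H) (hg : g ∉ Subgroup.normalizer ((P₁ : Subgroup H) : Set H)) :
    (P₁ : Subgroup H) ⊓ (MulAut.conj g • (P₁ : Subgroup H)) = ⊥ := by
  obtain ⟨a, rfl⟩ := MulAction.exists_smul_eq H P P₁
  have h1 : a⁻¹ * g * a ∉ Subgroup.normalizer ((P : Subgroup H) : Set H) := by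
    intro h
    apply hg
    rw [← smul_eq_iff] at h ⊢
    rw [mul_smul, mul_smul, inv_smul_eq_iff] at h
    exact h
  have h2 := hTI _ h1
  rw [eq_bot_iff] at h2 ⊢
  intro x hx
  rw [Subgroup.mem_inf] at hx
  obtain ⟨hx1, hx2⟩ := hx
  have hx1' : a⁻¹ * x * a ∈ (P : Subgroup H) := by
    rw [Sylow.coe_subgroup_smul, mem_conj_smul_iff] at hx1
    exact hx1
  have hx2' : a⁻¹ * x * a ∈ MulAut.conj (a⁻¹ * g * a) • (P : Subgroup H) := by
    rw [Sylow.coe_subgroup_smul, mem_conj_smul_iff, mem_conj_smul_iff] at hx2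
    rw [mem_conj_smul_iff]
    convert hx2 using 1
    group
  have h3 := h2 (Subgroup.mem_inf.mpr ⟨hx1', hx2'⟩)
  rw [Subgroup.mem_bot] at h3 ⊢
  have h4 : x = a * (a⁻¹ * x * a) * a⁻¹ := by group
  rw [h4, h3]; group

/-- A `p`-element normalizing a Sylow `p`-subgroup lies in it. -/
theorem mem_sylow_of_normalizer (P₁ : Sylow p H) (y : H) (hy : y ∈ Subgroup.normalizer ((P₁ : Subgroup H) : Set H))
    (hyp : ∃ k : ℕ, orderOf y = p ^ k) : y ∈ (P₁ : Subgroup H) := by
  have h1 : IsPGroup p (Subgroup.zpowers y) := by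
    obtain ⟨k, hk⟩ := hyp
    apply IsPGroup.of_card (n := k)
    rw [Nat.card_zpowers, hk]
  have h2 : Subgroup.zpowers y ⊓ Subgroup.normalizer ((P₁ : Subgroup H) : Set H)
      = Subgroup.zpowers y ⊓ (P₁ : Subgroup H) := h1.inf_normalizer_sylow P₁
  have h3 : y ∈ Subgroup.zpowers y ⊓ Subgroup.normalizer ((P₁ : Subgroup H) : Set H) :=
    Subgroup.mem_inf.mpr ⟨Subgroup.mem_zpowers y, hy⟩
  rw [h2] at h3
  exact (Subgroup.mem_inf.mp h3).2

theorem orderOf_conj' (g x : H) : orderOf (g * x * g⁻¹) = orderOf x := by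
  rw [← MulAut.conj_apply]; exact MulEquiv.orderOf_eq _ x

/-- An element conjugating a nontrivial element of a TI Sylow `P₁` into `P₁` normalizes `P₁`. -/
theorem mem_normalizer_of_conj (P₁ : Sylow p H)
    (hTI : ∀ g : H, g ∉ Subgroup.normalizer ((P₁ : Subgroup H) : Set H) →
      (P₁ : Subgroup H) ⊓ (MulAut.conj g • (P₁ : Subgroup H)) = ⊥)
    (x : H) (hx : x ∈ (P₁ : Subgroup H)) (hx1 : x ≠ 1) (g : H)
    (hg : g * x * g⁻¹ ∈ (P₁ : Subgroup H)) :
    g ∈ Subgroup.normalizer ((P₁ : Subgroup H) : Set H) := by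
  by_contra hgn
  have h1 := hTI g hgn
  have h2 : g * x * g⁻¹ ∈ (P₁ : Subgroup H) ⊓ (MulAut.conj g • (P₁ : Subgroup H)) := by
    refine Subgroup.mem_inf.mpr ⟨hg, ?_⟩
    rw [mem_conj_smul_iff]
    simpa [mul_assoc] using hx
  rw [h1, Subgroup.mem_bot] at h2
  apply hx1
  have h3 : x = g⁻¹ * (g * x * g⁻¹) * g := by group
  rw [h3, h2]; group

/-- A normal subgroup of `H` normalizing a Sylow `p`-subgroup is trivial
when `O_p(H) = O_{p'}(H) = 1`. -/
theorem normal_le_normalizer_eq_bot (hOp : Cfsg.pCore p H = ⊥) (hOp' : Cfsg.pPrimeCore p H = ⊥)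
    (P₁ : Sylow p H) (X : Subgroup H) (hXn : X.Normal)
    (hX : X ≤ Subgroup.normalizer ((P₁ : Subgroup H) : Set H)) : X = ⊥ := by
  have hnorm : (X ⊓ (P₁ : Subgroup H)).Normal := by
    constructor
    intro u hu g
    obtain ⟨hu1, hu2⟩ := Subgroup.mem_inf.mp hu
    have h1 : g * u * g⁻¹ ∈ X := hXn.conj_mem u hu1 g
    refine Subgroup.mem_inf.mpr ⟨h1, ?_⟩
    apply mem_sylow_of_normalizer P₁ _ (hX h1)
    obtain ⟨k, hk⟩ := (IsPGroup.iff_orderOf.mp P₁.isPGroup') ⟨u, hu2⟩
    refine ⟨k, ?_⟩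
    rw [orderOf_conj', ← hk, Subgroup.orderOf_mk]
  have hp : IsPGroup p (X ⊓ (P₁ : Subgroup H) : Subgroup H) := P₁.isPGroup'.to_le inf_le_right
  have h0 : X ⊓ (P₁ : Subgroup H) = ⊥ := by
    rw [eq_bot_iff, ← hOp]
    exact le_sSup ⟨hnorm, hp⟩
  have hcop : (Nat.card X).Coprime p := by
    rw [Nat.coprime_comm, Nat.Prime.coprime_iff_not_dvd (Fact.out)]
    intro hdvd
    obtain ⟨x, hx⟩ := exists_prime_orderOf_dvd_card' p hdvd
    have hxP : (x : H) ∈ (P₁ : Subgroup H) :=
      mem_sylow_of_normalizer P₁ _ (hX x.2) ⟨1, by rw [Subgroup.orderOf_coe, hx, pow_one]⟩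
    have h2 : (x : H) ∈ X ⊓ (P₁ : Subgroup H) := Subgroup.mem_inf.mpr ⟨x.2, hxP⟩
    rw [h0, Subgroup.mem_bot] at h2
    have hx1 : x = 1 := Subtype.ext h2
    rw [hx1, orderOf_one] at hx
    exact (Fact.out : p.Prime).one_lt.ne hx
  rw [eq_bot_iff, ← hOp']
  exact le_sSup ⟨hXn, hcop⟩

/-- product of two `p'`-subgroups, one normalizing the other, consists of `p'`-elements -/
theorem pprime_sup (A B : Subgroup H) (hAB : A ≤ Subgroup.normalizer (B : Set H))
    (hA : ∀ x ∈ A, (orderOf x).Coprime p) (hB : ∀ x ∈ B, (orderOf x).Coprime p) :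
    ∀ x ∈ A ⊔ B, (orderOf x).Coprime p := by
  intro x hx
  have hx' : x ∈ ((A ⊔ B : Subgroup H) : Set H) := hx
  rw [Subgroup.coe_mul_of_left_le_normalizer_right A B hAB] at hx'
  obtain ⟨a, ha, b, hb, rfl⟩ := hx'
  have key : ∀ k : ℕ, ∃ b' ∈ B, (a * b) ^ k = a ^ k * b' := by
    intro k
    induction k with
    | zero => exact ⟨1, B.one_mem, by simp⟩
    | succ k ih =>
      obtain ⟨b', hb', hk⟩ := ih
      refine ⟨a⁻¹ * b' * a * b, ?_, ?_⟩
      · apply B.mul_mem _ hb
        exact (Subgroup.mem_normalizer_iff''.mp (hAB ha) b').mp hb'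
      · rw [pow_succ, hk, pow_succ]; group
  obtain ⟨b', hb', hk⟩ := key (orderOf a)
  rw [pow_orderOf_eq_one, one_mul] at hk
  have h1 : (a * b) ^ (orderOf a * orderOf b') = 1 := by
    rw [pow_mul, hk, pow_orderOf_eq_one]
  have h2 : orderOf (a * b) ∣ orderOf a * orderOf b' := orderOf_dvd_of_pow_eq_one h1
  exact Nat.Coprime.coprime_dvd_left h2 (Nat.Coprime.mul_left (hA a ha) (hB b' hb'))

/-- conjugates of a subgroup normal in the normal subgroup `N` are again normal in `N` -/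
theorem conj_NN (N : Subgroup H) (hNn : N.Normal) (T : Subgroup H) (hT : T ≤ N)
    (hTn : N ≤ Subgroup.normalizer (T : Set H)) (h : H) :
    MulAut.conj h • T ≤ N ∧ N ≤ Subgroup.normalizer ((MulAut.conj h • T : Subgroup H) : Set H) := by
  constructor
  · intro x hx
    rw [mem_conj_smul_iff] at hx
    have h1 := hNn.conj_mem _ (hT hx) h
    have h2 : h * (h⁻¹ * x * h) * h⁻¹ = x := by group
    rwa [h2] at h1
  · intro n hn
    rw [Subgroup.mem_normalizer_iff]
    intro x
    rw [mem_conj_smul_iff, mem_conj_smul_iff]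
    have h1 : h⁻¹ * n * h ∈ N := by
      have := hNn.conj_mem _ hn h⁻¹
      simpa using this
    have h2 := Subgroup.mem_normalizer_iff.mp (hTn h1) (h⁻¹ * x * h)
    rw [h2]
    have h3 : h⁻¹ * n * h * (h⁻¹ * x * h) * (h⁻¹ * n * h)⁻¹ = h⁻¹ * (n * x * n⁻¹) * h := by group
    rw [h3]

/-- A nontrivial `p'`-subgroup normal in a normal subgroup forces `O_{p'}(H) ≠ 1`. -/
theorem pprime_closure (hOp' : Cfsg.pPrimeCore p H = ⊥) (N : Subgroup H) (hNn : N.Normal)
    (T : Subgroup H) (hT : T ≤ N) (hTn : N ≤ Subgroup.normalizer (T : Set H))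
    (hTp : ∀ x ∈ T, (orderOf x).Coprime p) (hT1 : T ≠ ⊥) : False := by
  classical
  have := Fintype.ofFinite H
  -- the partial sups
  have hΦ : ∀ s : Finset H,
      (s.sup (fun h : H => MulAut.conj h • T) ≤ N ∧
        N ≤ Subgroup.normalizer ((s.sup (fun h : H => MulAut.conj h • T) : Subgroup H) : Set H)) ∧
        ∀ x ∈ s.sup (fun h : H => MulAut.conj h • T), (orderOf x).Coprime p := by
    intro s
    induction s using Finset.induction_on with
    | empty =>
      simp only [Finset.sup_empty]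
      refine ⟨⟨bot_le, ?_⟩, ?_⟩
      · intro n _
        rw [Subgroup.mem_normalizer_iff]
        intro x
        simp [Subgroup.mem_bot]
      · intro x hx
        rw [Subgroup.mem_bot] at hx
        subst hx
        simp
    | insert a s _ ih =>
      rw [Finset.sup_insert]
      obtain ⟨⟨ih1, ih2⟩, ih3⟩ := ih
      obtain ⟨c1, c2⟩ := conj_NN N hNn T hT hTn a
      have c3 : ∀ x ∈ MulAut.conj a • T, (orderOf x).Coprime p := by
        intro x hx
        rw [mem_conj_smul_iff] at hx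
        have := hTp _ hx
        have h2 : orderOf (a⁻¹ * x * a) = orderOf x := by
          have := orderOf_conj' a⁻¹ x
          simpa using this
        rwa [h2] at this
      refine ⟨⟨sup_le c1 ih1, ?_⟩, ?_⟩
      · refine le_trans ?_ (Subgroup.normalizer_inf_normalizer_le_normalizer_sup _ _)
        exact le_inf c2 ih2
      · exact pprime_sup _ _ (le_trans c1 ih2) c3 ih3
  set W : Subgroup H := Subgroup.normalClosure (T : Set H) with hW
  have hWle : W ≤ Finset.univ.sup (fun h : H => MulAut.conj h • T) := by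
    rw [hW, Subgroup.normalClosure, Subgroup.closure_le]
    intro x hx
    rw [Group.mem_conjugatesOfSet_iff] at hx
    obtain ⟨t, ht, htx⟩ := hx
    rw [isConj_iff] at htx
    obtain ⟨c, rfl⟩ := htx
    have h1 : MulAut.conj c • T ≤ Finset.univ.sup (fun h : H => MulAut.conj h • T) :=
      Finset.le_sup (f := fun h : H => MulAut.conj h • T) (Finset.mem_univ c)
    apply h1
    rw [mem_conj_smul_iff]
    have h2 : c⁻¹ * (c * t * c⁻¹) * c = t := by group
    rw [h2]; exact ht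
  have hWp : ∀ x ∈ W, (orderOf x).Coprime p := fun x hx => (hΦ Finset.univ).2 x (hWle hx)
  have hWn : W.Normal := Subgroup.normalClosure_normal
  have hW1 : W ≠ ⊥ := by
    intro h
    apply hT1
    rw [eq_bot_iff, ← h]
    exact Subgroup.le_normalClosure
  have hcop : (Nat.card W).Coprime p := by
    rw [Nat.coprime_comm, Nat.Prime.coprime_iff_not_dvd (Fact.out)]
    intro hdvd
    obtain ⟨x, hx⟩ := exists_prime_orderOf_dvd_card' p hdvd
    have h1 := hWp (x : H) x.2
    rw [Subgroup.orderOf_coe, hx] at h1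
    exact (Fact.out : p.Prime).one_lt.ne' (Nat.coprime_self p |>.mp h1)
  apply hW1
  rw [eq_bot_iff, ← hOp']
  exact le_sSup ⟨hWn, hcop⟩

theorem exists_min_card (S : Subgroup H → Prop) (h : ∃ K, S K) :
    ∃ K, S K ∧ ∀ K', S K' → Nat.card K ≤ Nat.card K' := by
  classical
  have h' : ∃ n, ∃ K, S K ∧ Nat.card K = n := by
    obtain ⟨K, hK⟩ := h; exact ⟨_, K, hK, rfl⟩
  obtain ⟨K, hK, hKc⟩ := Nat.find_spec h'
  refine ⟨K, hK, fun K' hK' => ?_⟩
  rw [hKc]
  exact Nat.find_min' h' ⟨K', hK', rfl⟩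

/-- the simplicity step: a minimal normal subgroup `N` has no proper nontrivial subgroup
normal in `N`. -/
theorem simple_step (hOp : Cfsg.pCore p H = ⊥) (hOp' : Cfsg.pPrimeCore p H = ⊥)
    (hTI : ∀ (P₁ : Sylow p H) (g : H), g ∉ Subgroup.normalizer ((P₁ : Subgroup H) : Set H) →
      (P₁ : Subgroup H) ⊓ (MulAut.conj g • (P₁ : Subgroup H)) = ⊥)
    (N : Subgroup H) (hNn : N.Normal) (hN1 : N ≠ ⊥)
    (hNmin : ∀ K : Subgroup H, K.Normal → K ≠ ⊥ → K ≤ N → K = N)
    (T₀ : Subgroup H) (hT₀ : T₀ ≤ N) (hT₀n : N ≤ Subgroup.normalizer (T₀ : Set H)) :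
    T₀ = ⊥ ∨ T₀ = N := by
  by_contra hcon
  push Not at hcon
  obtain ⟨hT₀1, hT₀N⟩ := hcon
  -- choose T of minimal cardinality
  obtain ⟨T, ⟨hT, hTn, hT1⟩, hTmin⟩ := exists_min_card
    (fun A : Subgroup H => A ≤ N ∧ N ≤ Subgroup.normalizer (A : Set H) ∧ A ≠ ⊥)
    ⟨T₀, hT₀, hT₀n, hT₀1⟩
  have hTN : T ≠ N := by
    intro h
    have h1 := hTmin T₀ ⟨hT₀, hT₀n, hT₀1⟩
    rw [h] at h1
    exact hT₀N (Subgroup.eq_of_le_of_card_ge hT₀ h1)
  -- conjugates
  have hconj : ∀ h : H, (MulAut.conj h • T ≤ N ∧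
      N ≤ Subgroup.normalizer ((MulAut.conj h • T : Subgroup H) : Set H)) ∧
      MulAut.conj h • T ≠ ⊥ ∧ Nat.card (MulAut.conj h • T : Subgroup H) = Nat.card T := by
    intro h
    refine ⟨conj_NN N hNn T hT hTn h, ?_, ?_⟩
    · intro hb
      apply hT1
      rw [eq_bot_iff] at hb ⊢
      intro t ht
      have h1 : h * t * h⁻¹ ∈ MulAut.conj h • T := by
        rw [mem_conj_smul_iff]
        have h2 : h⁻¹ * (h * t * h⁻¹) * h = t := by group
        rw [h2]; exact ht
      have h3 := hb h1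
      rw [Subgroup.mem_bot] at h3 ⊢
      have h4 : t = h⁻¹ * (h * t * h⁻¹) * h := by group
      rw [h4, h3]; group
    · exact (Nat.card_congr (Subgroup.equivSMul (MulAut.conj h) T).toEquiv).symm
  -- distinct conjugates meet trivially
  have hdisj : ∀ h : H, MulAut.conj h • T ≠ T → T ⊓ MulAut.conj h • T = ⊥ := by
    intro h hne
    by_contra hnb
    obtain ⟨⟨c1, c2⟩, c3, c4⟩ := hconj h
    have hinfN : N ≤ Subgroup.normalizer ((T ⊓ MulAut.conj h • T : Subgroup H) : Set H) := by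
      intro n hn
      rw [Subgroup.mem_normalizer_iff]
      intro x
      rw [Subgroup.mem_inf, Subgroup.mem_inf,
        ← Subgroup.mem_normalizer_iff.mp (hTn hn) x, ← Subgroup.mem_normalizer_iff.mp (c2 hn) x]
    have h1 := hTmin (T ⊓ MulAut.conj h • T) ⟨le_trans inf_le_left hT, hinfN, hnb⟩
    have h2 : T ⊓ MulAut.conj h • T = T := Subgroup.eq_of_le_of_card_ge inf_le_left h1
    have h3 : T ≤ MulAut.conj h • T := by
      intro t ht
      rw [← h2] at ht
      exact (Subgroup.mem_inf.mp ht).2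
    have h4 : T = MulAut.conj h • T := Subgroup.eq_of_le_of_card_ge h3 (le_of_eq c4)
    exact hne h4.symm
  -- some conjugate is different
  have hex : ∃ h₀ : H, MulAut.conj h₀ • T ≠ T := by
    by_contra hall
    push Not at hall
    have hTnorm : T.Normal := by
      constructor
      intro t ht g
      have h1 : g * t * g⁻¹ ∈ MulAut.conj g • T := by
        rw [mem_conj_smul_iff]
        have h2 : g⁻¹ * (g * t * g⁻¹) * g = t := by group
        rw [h2]; exact ht
      rwa [hall g] at h1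
    exact hTN (hNmin T hTnorm hT1 hT)
  obtain ⟨h₀, hh₀⟩ := hex
  obtain ⟨⟨d1, d2⟩, d3, d4⟩ := hconj h₀
  have hdis := hdisj h₀ hh₀
  -- elements of T and of its conjugate commute
  have hcomm : ∀ x ∈ T, ∀ y ∈ MulAut.conj h₀ • T, y * x * y⁻¹ = x := by
    intro x hx y hy
    have h1 : x * y * x⁻¹ * y⁻¹ ∈ T ⊓ MulAut.conj h₀ • T := by
      refine Subgroup.mem_inf.mpr ⟨?_, ?_⟩
      · have h2 : y * x⁻¹ * y⁻¹ ∈ T :=
          (Subgroup.mem_normalizer_iff.mp (hTn (d1 hy)) x⁻¹).mp (T.inv_mem hx)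
        have h3 := T.mul_mem hx h2
        simpa [mul_assoc] using h3
      · have h2 : x * y * x⁻¹ ∈ MulAut.conj h₀ • T :=
          (Subgroup.mem_normalizer_iff.mp (d2 (hT hx)) y).mp hy
        exact Subgroup.mul_mem _ h2 (Subgroup.inv_mem _ hy)
    rw [hdis, Subgroup.mem_bot] at h1
    have h5 : y * x * y⁻¹ = (x * y * x⁻¹ * y⁻¹)⁻¹ * x := by group
    rw [h5, h1]; simp
  -- does T contain an element of order p?
  by_cases hTp : ∃ x ∈ T, orderOf x = p
  · obtain ⟨x, hxT, hxp⟩ := hTp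
    have hx1 : x ≠ 1 := by
      rintro rfl
      rw [orderOf_one] at hxp
      exact (Fact.out : p.Prime).one_lt.ne hxp
    have hzp : IsPGroup p (Subgroup.zpowers x) := by
      apply IsPGroup.of_card (n := 1)
      rw [Nat.card_zpowers, hxp, pow_one]
    obtain ⟨P₁, hP₁⟩ := hzp.exists_le_sylow
    have hxP : x ∈ (P₁ : Subgroup H) := hP₁ (Subgroup.mem_zpowers x)
    -- the conjugate normalizes P₁
    have hle : MulAut.conj h₀ • T ≤ Subgroup.normalizer ((P₁ : Subgroup H) : Set H) := by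
      intro y hy
      apply mem_normalizer_of_conj P₁ (hTI P₁) x hxP hx1 y
      rw [hcomm x hxT y hy]; exact hxP
    -- y₀ = h₀ x h₀⁻¹
    have hy₀T : h₀ * x * h₀⁻¹ ∈ MulAut.conj h₀ • T := by
      rw [mem_conj_smul_iff]
      have h2 : h₀⁻¹ * (h₀ * x * h₀⁻¹) * h₀ = x := by group
      rw [h2]; exact hxT
    have hy₀p : orderOf (h₀ * x * h₀⁻¹) = p := by rw [orderOf_conj', hxp]
    have hy₀P : h₀ * x * h₀⁻¹ ∈ (P₁ : Subgroup H) :=
      mem_sylow_of_normalizer P₁ _ (hle hy₀T) ⟨1, by rw [hy₀p, pow_one]⟩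
    have hy₀1 : h₀ * x * h₀⁻¹ ≠ 1 := by
      intro h
      rw [h, orderOf_one] at hy₀p
      exact (Fact.out : p.Prime).one_lt.ne hy₀p
    have hNle : N ≤ Subgroup.normalizer ((P₁ : Subgroup H) : Set H) := by
      intro n hn
      apply mem_normalizer_of_conj P₁ (hTI P₁) _ hy₀P hy₀1 n
      have h1 : n * (h₀ * x * h₀⁻¹) * n⁻¹ ∈ MulAut.conj h₀ • T :=
        (Subgroup.mem_normalizer_iff.mp (d2 hn) _).mp hy₀T
      apply mem_sylow_of_normalizer P₁ _ (hle h1)
      exact ⟨1, by rw [orderOf_conj', hy₀p, pow_one]⟩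
    exact hN1 (normal_le_normalizer_eq_bot hOp hOp' P₁ N hNn hNle)
  · -- T is a p'-group
    push Not at hTp
    have hTcop : ∀ x ∈ T, (orderOf x).Coprime p := by
      intro x hx
      rw [Nat.coprime_comm, Nat.Prime.coprime_iff_not_dvd (Fact.out)]
      intro hdvd
      have hpos : 0 < orderOf x := orderOf_pos x
      have h1 : orderOf (x ^ (orderOf x / p)) = p :=
        orderOf_pow_orderOf_div hpos.ne' hdvd
      exact hTp _ (T.pow_mem hx _) h1
    exact pprime_closure hOp' N hNn T hT hTn hTcop hT1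

/-- Let H be a finite group with no nontrivial normal p-subgroup and no nontrivial normal subgroup of order prime to p, whose Sylow p-subgroup P is nontrivial and a trivial-intersection set (P meets its conjugates by elements outside N_H(P) trivially). Then H has a unique minimal normal subgroup N; N is non-abelian simple with trivial centralizer in H (so H embeds in Aut(N)), and a Sylow p-subgroup of N is again a nontrivial trivial-intersection set in N. -/
theorem result {H : Type*} [Group H] [Finite H] (p : ℕ) [Fact p.Prime] (hOp : Cfsg.pCore p H = ⊥) (hOp' : Cfsg.pPrimeCore p H = ⊥) (P : Sylow p H) (hP1 : (P : Subgroup H) ≠ ⊥)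
    (hTI : ∀ g : H, g ∉ Subgroup.normalizer ((P : Subgroup H) : Set H) → (P : Subgroup H) ⊓ (MulAut.conj g • (P : Subgroup H)) = ⊥) :
    ∃ N : Subgroup H, N.Normal ∧ N ≠ ⊥ ∧ (∀ K : Subgroup H, K.Normal → K ≠ ⊥ → N ≤ K) ∧
      IsSimpleGroup N ∧ ¬ IsMulCommutative N ∧ Subgroup.centralizer (N : Set H) = ⊥ ∧
      ∀ Q : Sylow p N, (Q : Subgroup N) ≠ ⊥ ∧
        ∀ n : N, n ∉ Subgroup.normalizer ((Q : Subgroup N) : Set N) → (Q : Subgroup N) ⊓ (MulAut.conj n • (Q : Subgroup N)) = ⊥ := by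
  classical
  have hTI' := ti_all P hTI
  -- Claim A: nontrivial normal subgroups contain elements of order p
  have hA : ∀ K : Subgroup H, K.Normal → K ≠ ⊥ → ∃ x ∈ K, orderOf x = p := by
    intro K hKn hK1
    have hdvd : p ∣ Nat.card K := by
      by_contra hnd
      apply hK1
      rw [eq_bot_iff, ← hOp']
      apply le_sSup
      refine ⟨hKn, ?_⟩
      rw [Nat.coprime_comm, Nat.Prime.coprime_iff_not_dvd (Fact.out)]
      exact hnd
    obtain ⟨x, hx⟩ := exists_prime_orderOf_dvd_card' p hdvd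
    exact ⟨x, x.2, by rw [Subgroup.orderOf_coe, hx]⟩
  -- minimal normal subgroup
  have htop : (⊤ : Subgroup H) ≠ ⊥ := by
    intro h
    apply hP1
    rw [eq_bot_iff, ← h]
    exact le_top
  obtain ⟨N, ⟨hNn, hN1⟩, hNmin'⟩ := exists_min_card
    (fun K : Subgroup H => K.Normal ∧ K ≠ ⊥) ⟨⊤, inferInstance, htop⟩
  have hNmin : ∀ K : Subgroup H, K.Normal → K ≠ ⊥ → K ≤ N → K = N := by
    intro K hKn hK1 hKN
    exact Subgroup.eq_of_le_of_card_ge hKN (hNmin' K ⟨hKn, hK1⟩)
  -- Claim B: the centralizer of N is trivial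
  have hB : Subgroup.centralizer (N : Set H) = ⊥ := by
    by_contra hC
    have hCn : (Subgroup.centralizer (N : Set H)).Normal := Subgroup.normal_centralizer
    obtain ⟨x, hxC, hxp⟩ := hA _ hCn hC
    have hx1 : x ≠ 1 := by
      rintro rfl
      rw [orderOf_one] at hxp
      exact (Fact.out : p.Prime).one_lt.ne hxp
    have hzp : IsPGroup p (Subgroup.zpowers x) := by
      apply IsPGroup.of_card (n := 1)
      rw [Nat.card_zpowers, hxp, pow_one]
    obtain ⟨P₁, hP₁⟩ := hzp.exists_le_sylow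
    have hxP : x ∈ (P₁ : Subgroup H) := hP₁ (Subgroup.mem_zpowers x)
    have hNle : N ≤ Subgroup.normalizer ((P₁ : Subgroup H) : Set H) := by
      intro n hn
      apply mem_normalizer_of_conj P₁ (hTI' P₁) x hxP hx1 n
      have h1 := Subgroup.mem_centralizer_iff.mp hxC n hn
      rw [h1]
      simpa using hxP
    exact hN1 (normal_le_normalizer_eq_bot hOp hOp' P₁ N hNn hNle)
  -- Claim C: N lies in every nontrivial normal subgroup
  have hC : ∀ K : Subgroup H, K.Normal → K ≠ ⊥ → N ≤ K := by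
    intro K hKn hK1
    by_contra hNK
    have hdis : N ⊓ K = ⊥ := by
      by_contra h
      have h1 := hNmin (N ⊓ K) (Subgroup.normal_inf_normal N K) h inf_le_left
      apply hNK
      intro n hn
      rw [← h1] at hn
      exact (Subgroup.mem_inf.mp hn).2
    have h2 : K ≤ Subgroup.centralizer (N : Set H) := by
      intro k hk
      rw [Subgroup.mem_centralizer_iff]
      intro n hn
      exact (Subgroup.commute_of_normal_of_disjoint N K hNn hKn (disjoint_iff.mpr hdis) n k hn hk).eq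
    rw [hB] at h2
    exact hK1 (le_bot_iff.mp h2)
  -- Claim D: N is not commutative
  have hD : ¬ IsMulCommutative N := by
    intro hcomm
    apply hN1
    rw [eq_bot_iff, ← hB]
    intro n hn
    rw [Subgroup.mem_centralizer_iff]
    intro m hm
    have h1 := hcomm.is_comm.comm (⟨m, hm⟩ : N) ⟨n, hn⟩
    exact congrArg Subtype.val h1
  -- Claim E: simplicity
  have hE := simple_step hOp hOp' hTI' N hNn hN1 hNmin
  have hSimple : IsSimpleGroup N := by
    have hnt : Nontrivial N := (Subgroup.nontrivial_iff_ne_bot N).mpr hN1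
    refine ⟨fun T hT => ?_⟩
    have hle : T.map N.subtype ≤ N := by
      rintro _ ⟨t, _, rfl⟩
      exact t.2
    have hnorm : N ≤ Subgroup.normalizer ((T.map N.subtype : Subgroup H) : Set H) := by
      intro n hn
      rw [Subgroup.mem_normalizer_iff]
      intro x
      constructor
      · rintro ⟨t, ht, rfl⟩
        exact ⟨⟨n, hn⟩ * t * ⟨n, hn⟩⁻¹, hT.conj_mem t ht _, by simp⟩
      · rintro ⟨t, ht, htx⟩
        refine ⟨⟨n, hn⟩⁻¹ * t * ⟨n, hn⟩, ?_, ?_⟩
        · have := hT.conj_mem t ht ⟨n, hn⟩⁻¹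
          simpa using this
        · simp only [Subgroup.subtype_apply, Subgroup.coe_mul, Subgroup.coe_inv] at htx ⊢
          rw [htx]; group
    rcases hE (T.map N.subtype) hle hnorm with h | h
    · left
      exact (Subgroup.map_eq_bot_iff_of_injective _ N.subtype_injective).mp h
    · right
      apply Subgroup.map_injective N.subtype_injective
      rw [h, ← MonoidHom.range_eq_map, Subgroup.range_subtype]
  refine ⟨N, hNn, hN1, hC, hSimple, hD, hB, ?_⟩
  intro Q
  -- p divides |N|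
  have hdvd : p ∣ Nat.card N := by
    obtain ⟨x, hxN, hxp⟩ := hA N hNn hN1
    have h1 : orderOf (⟨x, hxN⟩ : N) ∣ Nat.card N := orderOf_dvd_natCard _
    rwa [Subgroup.orderOf_mk, hxp] at h1
  refine ⟨Q.ne_bot_of_dvd_card hdvd, ?_⟩
  intro n hn
  -- the image of Q lies in a Sylow subgroup P₁ of H
  have hQ' : IsPGroup p ((Q : Subgroup N).map N.subtype) := Q.isPGroup'.map _
  obtain ⟨P₁, hP₁⟩ := hQ'.exists_le_sylow
  -- Q = P₁ ∩ N
  have hQeq : ∀ u : N, u ∈ (Q : Subgroup N) ↔ (u : H) ∈ (P₁ : Subgroup H) := by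
    have hR : IsPGroup p ((P₁ : Subgroup H).subgroupOf N) := P₁.isPGroup'.comap_subtype
    have hle : (Q : Subgroup N) ≤ (P₁ : Subgroup H).subgroupOf N := by
      intro u hu
      rw [Subgroup.mem_subgroupOf]
      exact hP₁ ⟨u, hu, rfl⟩
    have h1 := Q.is_maximal' hR hle
    intro u
    rw [← Subgroup.mem_subgroupOf, h1]
  rw [eq_bot_iff]
  intro u hu
  rw [Subgroup.mem_bot]
  by_contra hu1
  obtain ⟨hu2, hu3⟩ := Subgroup.mem_inf.mp hu
  rw [Subgroup.mem_pointwise_smul_iff_inv_smul_mem] at hu3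
  have hu3' : n⁻¹ * u * n ∈ (Q : Subgroup N) := by
    simpa [MulAut.smul_def] using hu3
  have h1 : (u : H) ∈ (P₁ : Subgroup H) := (hQeq u).mp hu2
  have h2 : (n : H)⁻¹ * (u : H) * ((n : H)⁻¹)⁻¹ ∈ (P₁ : Subgroup H) := by
    have := (hQeq _).mp hu3'
    simpa using this
  have h3 : (u : H) ≠ 1 := fun h => hu1 (Subtype.ext h)
  have h4 : (n : H)⁻¹ ∈ Subgroup.normalizer ((P₁ : Subgroup H) : Set H) :=
    mem_normalizer_of_conj P₁ (hTI' P₁) (u : H) h1 h3 _ h2
  have h5 : (n : H) ∈ Subgroup.normalizer ((P₁ : Subgroup H) : Set H) := by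
    have := Subgroup.inv_mem _ h4
    simpa using this
  apply hn
  rw [Subgroup.mem_normalizer_iff]
  intro v
  rw [hQeq, hQeq]
  have h6 := Subgroup.mem_normalizer_iff.mp h5 (v : H)
  simpa using h6

end Cfsg.Agent.S4620
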