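import Cfsg.Statements.S4741
import Cfsg.Agent.Helper78.BlockCount

set_option autoImplicit false
open Cfsg

namespace Cfsg.Agent.S4741

open Cfsg.Agent.Helper81 Cfsg.Agent.Helper78

universe u

section aux

variable {G : Type u} [Group G] [Fintype G] {p : ℕ} [Fact p.Prime] {M : Ideal AlgInt}

/-- The central character value as an algebraic integer. -/
noncomputable def ccA (χ : IrrCharacter G) (g : G) : AlgInt :=
  ⟨centralChar (χ : G → ℂ) g, centralChar_mem_algInt χ g⟩

/-- The character value as an algebraic integer. -/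
noncomputable def chA (χ : IrrCharacter G) (g : G) : AlgInt :=
  ⟨(χ : G → ℂ) g, irr_mem_algInt χ g⟩

omit [Fact p.Prime] in
theorem ccA_sub_mem [hP : M.IsPrime] {χ ψ : IrrCharacter G} (h : ψ ∈ blockOf M (χ : G → ℂ))
    (g : G) : ccA χ g - ccA ψ g ∈ M :=
  Helper78.mem_of_memLocalIdeal (by simpa [ccA] using h g)

theorem star_identity [Fintype (IrrCharacter G)] {r : ℕ} (S : Subgroup G) [Fintype S]
    (x : Fin r → G) (hx : ∀ i j : Fin r, IsConj (x i) (x j) → i = j)
    (hS : ∀ i j : Fin r, ∀ g h : G, IsConj (x i) g → IsConj (x j) h → g * h⁻¹ ∈ S → g = h)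
    (m : IrrCharacter G → ℕ)
    (hm : ∀ χ : IrrCharacter G, ∑ s : S, (χ : G → ℂ) s = (Nat.card S : ℂ) * m χ) (i j : Fin r) :
    ∑ χ : IrrCharacter G, ccA χ (x i) * (chA χ (x j)⁻¹ * (m χ : AlgInt)) =
      if i = j then (S.index : AlgInt) else 0 := by
  classical
  apply Subtype.ext
  rw [AddSubmonoidClass.coe_finsetSum]
  have h := sum_centralChar_mul_subgroup_two (x i) (x j) S (hS i j)
  have hS0 : (Nat.card S : ℂ) ≠ 0 := by exact_mod_cast Nat.card_pos.ne'
  have hGS : (Nat.card G : ℂ) = (Nat.card S : ℂ) * (S.index : ℂ) := by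
    exact_mod_cast (Subgroup.card_mul_index S).symm
  have hiff : IsConj (x i) (x j) ↔ i = j := ⟨hx i j, fun h => h ▸ IsConj.refl _⟩
  have h2 : (Nat.card S : ℂ) * ∑ χ : IrrCharacter G,
      ((ccA χ (x i) * (chA χ (x j)⁻¹ * (m χ : AlgInt)) : AlgInt) : ℂ) =
      (Nat.card S : ℂ) * ((if i = j then (S.index : AlgInt) else 0 : AlgInt) : ℂ) := by
    rw [Finset.mul_sum]
    have e : ∀ χ : IrrCharacter G, (Nat.card S : ℂ) *
        ((ccA χ (x i) * (chA χ (x j)⁻¹ * (m χ : AlgInt)) : AlgInt) : ℂ) =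
        centralChar (χ : G → ℂ) (x i) * (χ : G → ℂ) (x j)⁻¹ * ∑ s : S, (χ : G → ℂ) s := by
      intro χ
      rw [hm χ]
      simp only [ccA, chA]
      push_cast
      ring
    rw [Finset.sum_congr rfl (fun χ _ => e χ), h]
    by_cases hij : i = j
    · rw [if_pos (hiff.mpr hij), if_pos hij, hGS]
      push_cast
      rfl
    · rw [if_neg (fun h => hij (hiff.mp h)), if_neg hij]
      simp
  exact mul_left_cancel₀ hS0 h2

omit [Fact p.Prime] in
theorem term_mem (hM : IsPModular p M) (χ : IrrCharacter G) (y z : G) (h₀ : ℕ)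
    (hy : ((Subgroup.centralizer ({y} : Set G)).index).factorization p = h₀)
    (hz : ((Subgroup.centralizer ({z} : Set G)).index).factorization p = h₀)
    (hχ : (charDegree (χ : G → ℂ)).factorization p ≠ h₀) (c : AlgInt) :
    ccA χ y * (chA χ z⁻¹ * c) ∈ M := by
  rcases lt_or_gt_of_ne hχ with hlt | hgt
  · exact M.mul_mem_right _ (centralChar_mem_of_factorization_lt hM χ y (by rw [hy]; exact hlt))
  · refine M.mul_mem_left _ (M.mul_mem_right _ ?_)
    exact irr_mem_of_factorization_gt hM χ z⁻¹ (by rw [centralizer_inv, hz]; exact hgt)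

theorem exists_minor [Fintype (IrrCharacter G)] (hM : IsPModular p M) {r : ℕ} (S : Sylow p G)
    (x : Fin r → G) (hx : ∀ i j : Fin r, IsConj (x i) (x j) → i = j)
    (hS : ∀ i j : Fin r, ∀ g h : G, IsConj (x i) g → IsConj (x j) h →
      g * h⁻¹ ∈ (S : Subgroup G) → g = h) (h₀ : ℕ)
    (hh₀ : ∀ i, ((Subgroup.centralizer ({x i} : Set G)).index).factorization p = h₀) :
    ∃ e : Fin r → IrrCharacter G,
      (∀ k, (charDegree (e k : G → ℂ)).factorization p = h₀) ∧
      (Matrix.of fun i k => ccA (e k) (x i)).det ∉ M := by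
  classical
  letI : Fintype (S : Subgroup G) := Fintype.ofFinite _
  have hm : ∀ χ : IrrCharacter G, ∃ m : ℕ,
      ∑ s : (S : Subgroup G), (χ : G → ℂ) s = (Nat.card (S : Subgroup G) : ℂ) * m :=
    fun χ => exists_nat_sum_subgroup χ (S : Subgroup G)
  choose m hm using hm
  haveI hmax : M.IsMaximal := hM.2.1
  letI : Field (AlgInt ⧸ M) := Ideal.Quotient.field M
  let W : Matrix (Fin r) {χ : IrrCharacter G // (charDegree (χ : G → ℂ)).factorization p = h₀}
      (AlgInt ⧸ M) := fun i χ => Ideal.Quotient.mk M (ccA χ.1 (x i))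
  let Θ : Matrix {χ : IrrCharacter G // (charDegree (χ : G → ℂ)).factorization p = h₀} (Fin r)
      (AlgInt ⧸ M) := fun χ j => Ideal.Quotient.mk M (chA χ.1 (x j)⁻¹ * (m χ.1 : AlgInt))
  have hWΘ : W * Θ = (Ideal.Quotient.mk M ((S : Subgroup G).index : AlgInt)) •
      (1 : Matrix (Fin r) (Fin r) (AlgInt ⧸ M)) := by
    ext i j
    rw [Matrix.mul_apply]
    have e1 : ∀ χ : {χ : IrrCharacter G // (charDegree (χ : G → ℂ)).factorization p = h₀},
        W i χ * Θ χ j = Ideal.Quotient.mk M (ccA χ.1 (x i) *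
          (chA χ.1 (x j)⁻¹ * (m χ.1 : AlgInt))) := by
      intro χ; simp only [W, Θ, map_mul]
    rw [Finset.sum_congr rfl (fun χ _ => e1 χ)]
    have e2 : ∑ χ : {χ : IrrCharacter G // (charDegree (χ : G → ℂ)).factorization p = h₀},
        Ideal.Quotient.mk M (ccA χ.1 (x i) * (chA χ.1 (x j)⁻¹ * (m χ.1 : AlgInt))) =
        ∑ χ : IrrCharacter G,
          Ideal.Quotient.mk M (ccA χ (x i) * (chA χ (x j)⁻¹ * (m χ : AlgInt))) := by
      rw [← Finset.sum_subtype (Finset.univ.filter (fun χ : IrrCharacter G =>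
        (charDegree (χ : G → ℂ)).factorization p = h₀)) (by simp)
        (fun χ => Ideal.Quotient.mk M (ccA χ (x i) * (chA χ (x j)⁻¹ * (m χ : AlgInt))))]
      apply Finset.sum_filter_of_ne
      intro χ _ hne
      by_contra hχ
      exact hne (Ideal.Quotient.eq_zero_iff_mem.mpr
        (term_mem hM χ (x i) (x j) h₀ (hh₀ i) (hh₀ j) hχ _))
    rw [e2, ← map_sum, star_identity (S : Subgroup G) x hx hS m hm i j, Matrix.smul_apply,
      Matrix.one_apply]
    by_cases hij : i = j
    · rw [if_pos hij, if_pos hij, smul_eq_mul, mul_one]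
    · rw [if_neg hij, if_neg hij, map_zero, smul_zero]
  have hm0 : Ideal.Quotient.mk M ((S : Subgroup G).index : AlgInt) ≠ 0 := by
    intro h0
    have := (natCast_mem_iff hM _).mp (Ideal.Quotient.eq_zero_iff_mem.mp h0)
    exact S.not_dvd_index this
  obtain ⟨e, he⟩ := exists_det_ne_zero W Θ _ hm0 hWΘ
  refine ⟨fun k => (e k).1, fun k => (e k).2, ?_⟩
  intro hmem
  apply he
  have hmap : (Matrix.of fun i k => W i (e k)) =
      (Ideal.Quotient.mk M).mapMatrix (Matrix.of fun i k => ccA (e k).1 (x i)) := by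
    ext i k; rfl
  rw [hmap, ← RingHom.map_det]
  exact Ideal.Quotient.eq_zero_iff_mem.mpr hmem

theorem isDefectGroup_of_data (hM : IsPModular p M) (χ : IrrCharacter G) (y : G)
    (D : Subgroup G)
    (hD : ∃ S : Sylow p (Subgroup.centralizer ({y} : Set G)),
      (S : Subgroup (Subgroup.centralizer ({y} : Set G))).map
        (Subgroup.centralizer ({y} : Set G)).subtype = D)
    (hne : ccA χ y ∉ M)
    (hdef : Cfsg.blockDefect p (blockOf M (χ : G → ℂ)) =
      (Nat.card (Subgroup.centralizer ({y} : Set G))).factorization p) :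
    IsDefectGroup p M (blockOf M (χ : G → ℂ)) D := by
  have hmax := hM.2.1
  haveI hP : M.IsPrime := isPrime_of_isPModular hM
  have hB : IsPBlock M (blockOf M (χ : G → ℂ)) := ⟨χ, rfl⟩
  obtain ⟨g, hg⟩ := Helper77.exists_isDefectClass hmax hB
  let P : Sylow p (Subgroup.centralizer ({g} : Set G)) := default
  have hχB : χ ∈ blockOf M (χ : G → ℂ) := mem_blockOf_self χ
  have hne' : ¬ MemLocalIdeal M (centralChar (χ : G → ℂ) y) :=
    fun h => hne (Helper78.mem_of_memLocalIdeal (z := ccA χ y) h)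
  obtain ⟨t, Q, hle⟩ := Helper77.min_max_right hM hB hg P y ⟨χ, hχB, hne'⟩
  obtain ⟨S, hS⟩ := hD
  have hP'p : IsPGroup p (((P : Subgroup (Subgroup.centralizer ({g} : Set G))).map
      (Subgroup.centralizer ({g} : Set G)).subtype).map (MulAut.conj t).toMonoidHom) :=
    (P.isPGroup'.map _).map _
  have hP'le : ((P : Subgroup (Subgroup.centralizer ({g} : Set G))).map
      (Subgroup.centralizer ({g} : Set G)).subtype).map (MulAut.conj t).toMonoidHom ≤
      Subgroup.centralizer ({y} : Set G) := hle.trans (Subgroup.map_subtype_le _)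
  obtain ⟨c, hc, hle2⟩ := Helper77.exists_le_map_sylow_conj (Subgroup.centralizer ({y} : Set G))
    S _ hP'p hP'le
  rw [hS] at hle2
  have hcardP : Nat.card P = p ^ blockDefect p (blockOf M (χ : G → ℂ)) := by
    have := Helper77.card_of_isDefectGroup hM hB
      (D := (P : Subgroup (Subgroup.centralizer ({g} : Set G))).map
        (Subgroup.centralizer ({g} : Set G)).subtype) ⟨g, hg, P, rfl⟩
    rwa [Subgroup.card_map_of_injective (Subgroup.subtype_injective _)] at this
  have hcardD : Nat.card D = p ^ (Nat.card (Subgroup.centralizer ({y} : Set G))).factorization p := by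
    rw [← hS, Subgroup.card_map_of_injective (Subgroup.subtype_injective _),
      S.card_eq_multiplicity]
  have hcardeq : Nat.card D = Nat.card P := by rw [hcardD, hcardP, hdef]
  have heq : ((P : Subgroup (Subgroup.centralizer ({g} : Set G))).map
      (Subgroup.centralizer ({g} : Set G)).subtype).map (MulAut.conj t).toMonoidHom =
      D.map (MulAut.conj c).toMonoidHom := by
    apply Subgroup.eq_of_le_of_card_ge hle2
    rw [Subgroup.card_map_of_injective (MulEquiv.injective _),
      Subgroup.card_map_of_injective (MulEquiv.injective _),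
      Subgroup.card_map_of_injective (Subgroup.subtype_injective _), hcardeq]
  refine isDefectGroup_of_conj_le hg P D (c⁻¹ * t) ?_ hcardeq
  intro u hu
  have h1 : c * u * c⁻¹ ∈ D.map (MulAut.conj c).toMonoidHom := ⟨u, hu, rfl⟩
  rw [← heq] at h1
  obtain ⟨v, hv, hv2⟩ := h1
  have hv3 : t * v * t⁻¹ = c * u * c⁻¹ := hv2
  have : (c⁻¹ * t)⁻¹ * u * (c⁻¹ * t) = v := by
    calc (c⁻¹ * t)⁻¹ * u * (c⁻¹ * t) = t⁻¹ * (c * u * c⁻¹) * t := by group
      _ = t⁻¹ * (t * v * t⁻¹) * t := by rw [hv3]
      _ = v := by group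
  rw [this]; exact hv

theorem det_not_mem (hM : IsPModular p M) {r : ℕ} (x : Fin r → G) (h₀ : ℕ)
    (hh₀ : ∀ i, ((Subgroup.centralizer ({x i} : Set G)).index).factorization p = h₀)
    (χ₀ ψ : Fin r → IrrCharacter G) (hψ : ∀ k, ψ k ∈ blockOf M (χ₀ k : G → ℂ))
    (hdeg : ∀ k, (charDegree (ψ k : G → ℂ)).factorization p = h₀)
    (hdet : (Matrix.of fun i k => ccA (χ₀ k) (x i)).det ∉ M) :
    ¬ MemLocalIdeal M (Matrix.det (Matrix.of fun i j : Fin r => (ψ i : G → ℂ) (x j))) := by
  intro hmem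
  have hp := (Fact.out : p.Prime)
  haveI hP : M.IsPrime := isPrime_of_isPModular hM
  let Ψ : Matrix (Fin r) (Fin r) AlgInt := Matrix.of fun i j => chA (ψ i) (x j)
  have hΨ : ((Ψ.det : AlgInt) : ℂ) =
      Matrix.det (Matrix.of fun i j : Fin r => (ψ i : G → ℂ) (x j)) := by
    have h1 := RingHom.map_det (algebraMap AlgInt ℂ) Ψ
    have h2 : ((Ψ.det : AlgInt) : ℂ) = algebraMap AlgInt ℂ Ψ.det := rfl
    rw [h2, h1]
    congr 1
  have hΨM : Ψ.det ∈ M := Helper78.mem_of_memLocalIdeal (by rw [hΨ]; exact hmem)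
  have hN' : (Matrix.of fun i k => ccA (ψ k) (x i)).det ∉ M := by
    intro h
    apply hdet
    rw [← Ideal.Quotient.eq_zero_iff_mem, RingHom.map_det] at h ⊢
    have e : (Ideal.Quotient.mk M).mapMatrix (Matrix.of fun i k => ccA (χ₀ k) (x i)) =
        (Ideal.Quotient.mk M).mapMatrix (Matrix.of fun i k => ccA (ψ k) (x i)) := by
      ext i k
      simp only [RingHom.mapMatrix_apply, Matrix.map_apply, Matrix.of_apply]
      exact Ideal.Quotient.eq.mpr (ccA_sub_mem (hψ k) (x i))
    rw [e]; exact h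
  have hscale : ∀ i k,
      ((charDegree (ψ k : G → ℂ) / p ^ (charDegree (ψ k : G → ℂ)).factorization p : ℕ) : AlgInt) *
        ccA (ψ k) (x i) =
      (((Subgroup.centralizer ({x i} : Set G)).index /
        p ^ ((Subgroup.centralizer ({x i} : Set G)).index).factorization p : ℕ) : AlgInt) *
          chA (ψ k) (x i) := by
    intro i k
    apply Subtype.ext
    simp only [ccA, chA]
    push_cast
    exact_mod_cast ordCompl_mul_centralChar p hp (ψ k) (x i) (by rw [hdeg k, hh₀ i])
  have e1 : (∏ k, ((charDegree (ψ k : G → ℂ) /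
        p ^ (charDegree (ψ k : G → ℂ)).factorization p : ℕ) : AlgInt)) *
      (Matrix.of fun i k => ccA (ψ k) (x i)).det =
      (∏ i, (((Subgroup.centralizer ({x i} : Set G)).index /
        p ^ ((Subgroup.centralizer ({x i} : Set G)).index).factorization p : ℕ) : AlgInt)) *
        Ψ.det := by
    rw [← Matrix.det_mul_row, ← Matrix.det_transpose Ψ, ← Matrix.det_mul_column]
    congr 1
    apply Matrix.ext
    intro i k
    simp only [Matrix.of_apply, Matrix.transpose_apply]
    exact hscale i k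
  have hmem2 : (∏ k, ((charDegree (ψ k : G → ℂ) /
        p ^ (charDegree (ψ k : G → ℂ)).factorization p : ℕ) : AlgInt)) *
      (Matrix.of fun i k => ccA (ψ k) (x i)).det ∈ M := by
    rw [e1]; exact M.mul_mem_left _ hΨM
  rcases hP.mem_or_mem hmem2 with h | h
  · rw [← Nat.cast_prod, natCast_mem_iff hM, Prime.dvd_finsetProd_iff hp.prime] at h
    obtain ⟨k, -, hk⟩ := h
    exact Nat.not_dvd_ordCompl hp (charDegree_pos (ψ k)).ne' hk
  · exact hN' h

end aux


/-- Let p be a prime, M a maximal ideal of the algebraic integers containing p, and D a subgroup of the finite group G. Let x₁, …, x_r be pairwise non-conjugate elements of G such that D is a Sylow p-subgroup of the centralizer of each xᵢ, and such that for any conjugates g of some xᵢ and h of some xⱼ the element g h⁻¹ is never a non-identity p-element. Then there are r distinct p-blocks B₁, …, B_r of G, each having D as a defect group, such that for every choice of characters χᵢ ∈ Bᵢ of height zero the determinant of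 the r × r matrix (χᵢ(xⱼ)) does not lie in the local ideal at M. -/
theorem result {G : Type*} [Group G] [Finite G] (p : ℕ) [Fact p.Prime] (M : Ideal Cfsg.AlgInt) (hM : Cfsg.IsPModular p M) (D : Subgroup G) {r : ℕ} (x : Fin r → G) (hx : ∀ i j : Fin r, IsConj (x i) (x j) → i = j) (hD : ∀ i : Fin r, ∃ S : Sylow p ↥(Subgroup.centralizer ({x i} : Set G)), (S : Subgroup ↥(Subgroup.centralizer ({x i} : Set G))).map (Subgroup.centralizer ({x i} : Set G)).subtype = D) (hsep : ∀ i j : Fin r, ∀ g h : G, IsConj (x i) g → IsConj (x j) h → ∀ k : ℕ, 0 < k → orderOf (g * h⁻¹) ≠ p ^ k) : ∃ B : Fin r → Set (Cfsg.IrrCharacter G), Function.Injective B ∧ (∀ i : Fin r, Cfsg.IsPBlock M (B i) ∧ Cfsg.IsDefectGroup p M (B i) D) ∧ ∀ χ : Fin r → Cfsg.IrrCharacter G, (∀ i : Fin r, χ i ∈ B i ∧ Cfsg.blockHeight p (B i) (χ i : G → ℂ) = 0) → ¬ Cfsg.MemLocalIdeal M (Matrix.det (Matrix.of fun i j : Fin r => (χ i : G → ℂ) (x j))) := by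
  classical
  letI : Fintype G := Fintype.ofFinite G
  letI : Fintype (IrrCharacter G) := Fintype.ofFinite _
  have hp := (Fact.out : p.Prime)
  have hmax : M.IsMaximal := hM.2.1
  haveI hP : M.IsPrime := isPrime_of_isPModular hM
  obtain ⟨A, hA⟩ : ∃ A, A = (Nat.card G).factorization p := ⟨_, rfl⟩
  obtain ⟨dD, hdD⟩ : ∃ dD, dD = (Nat.card D).factorization p := ⟨_, rfl⟩
  have hC : ∀ i, (Nat.card (Subgroup.centralizer ({x i} : Set G))).factorization p = dD := by
    intro i
    obtain ⟨S, hS⟩ := hD i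
    rw [hdD, ← hS, Subgroup.card_map_of_injective (Subgroup.subtype_injective _),
      S.card_eq_multiplicity, Nat.factorization_pow, Finsupp.coe_smul, Pi.smul_apply,
      hp.factorization_self, smul_eq_mul, mul_one]
  have hAi : ∀ i, dD + ((Subgroup.centralizer ({x i} : Set G)).index).factorization p = A := by
    intro i
    have h1 := Subgroup.card_mul_index (Subgroup.centralizer ({x i} : Set G))
    rw [hA, ← h1, Nat.factorization_mul Nat.card_pos.ne' Subgroup.index_ne_zero_of_finite,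
      Finsupp.coe_add, Pi.add_apply, hC i]
  have hidx : ∀ i, ((Subgroup.centralizer ({x i} : Set G)).index).factorization p = A - dD := by
    intro i
    have := hAi i
    omega
  let S₀ : Sylow p G := default
  have hS : ∀ i j : Fin r, ∀ g h : G, IsConj (x i) g → IsConj (x j) h →
      g * h⁻¹ ∈ (S₀ : Subgroup G) → g = h := by
    intro i j g h hg hh hgh
    obtain ⟨k, hk⟩ := (IsPGroup.iff_orderOf.mp S₀.isPGroup') ⟨g * h⁻¹, hgh⟩
    rw [Subgroup.orderOf_mk] at hk
    rcases Nat.eq_zero_or_pos k with rfl | hkpos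
    · rw [pow_zero, orderOf_eq_one_iff] at hk
      exact mul_inv_eq_one.mp hk
    · exact absurd hk (hsep i j g h hg hh k hkpos)
  obtain ⟨χ₀, hχ₀deg, hdet⟩ := exists_minor hM S₀ x hx hS (A - dD) hidx
  -- every column of the minor is nonzero mod M
  have hcol : ∀ k, ∃ i, ccA (χ₀ k) (x i) ∉ M := by
    intro k
    by_contra hcon
    push Not at hcon
    apply hdet
    rw [← Ideal.Quotient.eq_zero_iff_mem, RingHom.map_det]
    apply Matrix.det_eq_zero_of_column_eq_zero k
    intro i
    simp only [RingHom.mapMatrix_apply, Matrix.map_apply, Matrix.of_apply]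
    exact Ideal.Quotient.eq_zero_iff_mem.mpr (hcon i)
  have hall : ∀ k, ∀ ψ ∈ blockOf M (χ₀ k : G → ℂ),
      A - dD ≤ (charDegree (ψ : G → ℂ)).factorization p := by
    intro k ψ hψ
    by_contra hlt
    push Not at hlt
    obtain ⟨i, hi⟩ := hcol k
    apply hi
    have h1 : ccA ψ (x i) ∈ M :=
      centralChar_mem_of_factorization_lt hM ψ (x i) (by rw [hidx i]; exact hlt)
    have h2 := ccA_sub_mem hψ (x i)
    have h3 : ccA (χ₀ k) (x i) = (ccA (χ₀ k) (x i) - ccA ψ (x i)) + ccA ψ (x i) := by ring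
    rw [h3]
    exact M.add_mem h2 h1
  have hsInf : ∀ k, sInf ((fun ψ : IrrCharacter G => (charDegree (ψ : G → ℂ)).factorization p) ''
      blockOf M (χ₀ k : G → ℂ)) = A - dD := by
    intro k
    apply le_antisymm
    · exact Nat.sInf_le ⟨χ₀ k, mem_blockOf_self (χ₀ k), hχ₀deg k⟩
    · have hne : ((fun ψ : IrrCharacter G => (charDegree (ψ : G → ℂ)).factorization p) ''
          blockOf M (χ₀ k : G → ℂ)).Nonempty := ⟨_, χ₀ k, mem_blockOf_self (χ₀ k), rfl⟩
      obtain ⟨ψ, hψ, hψe⟩ := Nat.sInf_mem hne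
      rw [← hψe]
      exact hall k ψ hψ
  refine ⟨fun k => blockOf M (χ₀ k : G → ℂ), ?_, ?_, ?_⟩
  · intro k l hkl
    by_contra hne
    apply hdet
    rw [← Ideal.Quotient.eq_zero_iff_mem, RingHom.map_det]
    apply Matrix.det_zero_of_column_eq hne
    intro i
    simp only [RingHom.mapMatrix_apply, Matrix.map_apply, Matrix.of_apply]
    have hl : χ₀ l ∈ blockOf M (χ₀ k : G → ℂ) := by
      have : χ₀ l ∈ blockOf M (χ₀ l : G → ℂ) := mem_blockOf_self (χ₀ l)
      have hkl' : blockOf M (χ₀ k : G → ℂ) = blockOf M (χ₀ l : G → ℂ) := hkl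
      rw [hkl']; exact this
    exact Ideal.Quotient.eq.mpr (ccA_sub_mem hl (x i))
  · intro k
    refine ⟨⟨χ₀ k, rfl⟩, ?_⟩
    obtain ⟨i, hi⟩ := hcol k
    apply isDefectGroup_of_data hM (χ₀ k) (x i) D (hD i) hi
    have h1 := hAi i
    rw [blockDefect, hsInf k, hC i, ← hA]
    omega
  · intro ψ hψ
    apply det_not_mem hM x (A - dD) hidx χ₀ ψ (fun k => (hψ k).1) ?_ hdet
    intro k
    have h1 := (hψ k).2
    rw [blockHeight, hsInf k] at h1
    have h2 := hall k (ψ k) (hψ k).1
    omega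

end Cfsg.Agent.S4741
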