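import Cfsg.Statements.S4742
import Cfsg.Agent.Helper78.StructConst

set_option autoImplicit false
open Cfsg

namespace Cfsg.Agent.S4742

/-- Let p ≠ q be primes dividing the order of the finite group G, and suppose the centralizer of every non-identity p-element of G has order prime to q. Then either G has an irreducible character of p-defect zero, or for every non-identity q-element z of G there are conjugates g, h of z such that g h⁻¹ is a non-identity p-element. -/
theorem result {G : Type*} [Group G] [Finite G] (p q : ℕ) [Fact p.Prime] [Fact q.Prime] (hppq : p ≠ q) (hpG : p ∣ Nat.card G) (hqG : q ∣ Nat.card G) (hC : ∀ g : G, g ≠ 1 → (∃ k : ℕ, orderOf g = p ^ k) → ¬ q ∣ Nat.card ↥(Subgroup.centralizer ({g} : Set G))) : (∃ χ : Cfsg.IrrCharacter G, (Cfsg.charDegree (χ : G → ℂ)).factorization p = (Nat.card G).factorization p) ∨ ∀ z : G, z ≠ 1 → (∃ k : ℕ, orderOf z = q ^ k) → ∃ g h : G, IsConj z g ∧ IsConj z h ∧ g * h⁻¹ ≠ 1 ∧ ∃ k : ℕ, orderOf (g * h⁻¹) = p ^ k := by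
  classical
  letI : Fintype G := Fintype.ofFinite G
  letI : Fintype (IrrCharacter G) := Fintype.ofFinite _
  have hp := (Fact.out : p.Prime)
  have hq := (Fact.out : q.Prime)
  by_contra hcon
  push Not at hcon
  obtain ⟨hno, z, hz1, hzq, hz⟩ := hcon
  let S : Sylow p G := default
  have hS : ∀ g h : G, IsConj z g → IsConj z h → g * h⁻¹ ∈ (S : Subgroup G) → g = h := by
    intro g h hg hh hgh
    by_contra hne
    have hs1 : g * h⁻¹ ≠ 1 := fun h1 => hne (mul_inv_eq_one.mp h1)
    obtain ⟨k, hk⟩ := (IsPGroup.iff_orderOf.mp S.isPGroup') ⟨g * h⁻¹, hgh⟩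
    rw [Subgroup.orderOf_mk] at hk
    exact hz g h hg hh hs1 k hk
  obtain ⟨χ, hχ⟩ := Cfsg.Agent.Helper78.exists_irr_factorization_le p hp z (S : Subgroup G) hS
  apply hno χ
  have hSidx : ((S : Subgroup G).index).factorization p = 0 :=
    Nat.factorization_eq_zero_of_not_dvd S.not_dvd_index
  have hpc : ¬ p ∣ Nat.card (Subgroup.centralizer ({z} : Set G)) := by
    intro hdvd
    obtain ⟨u, hu⟩ := exists_prime_orderOf_dvd_card' p hdvd
    have huG : orderOf (u : G) = p := by rw [Subgroup.orderOf_coe, hu]
    have hu1 : (u : G) ≠ 1 := by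
      intro h; rw [h, orderOf_one] at huG; exact hp.one_lt.ne huG
    apply hC (u : G) hu1 ⟨1, by rw [huG, pow_one]⟩
    have hzu : z ∈ Subgroup.centralizer ({(u : G)} : Set G) := by
      rw [Subgroup.mem_centralizer_iff]
      intro h hh
      rw [Set.mem_singleton_iff] at hh
      subst hh
      have := u.2
      rw [Subgroup.mem_centralizer_iff] at this
      exact (this z rfl).symm
    obtain ⟨k, hk⟩ := hzq
    have hk0 : k ≠ 0 := by
      rintro rfl
      rw [pow_zero, orderOf_eq_one_iff] at hk
      exact hz1 hk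
    have h1 : orderOf (⟨z, hzu⟩ : Subgroup.centralizer ({(u : G)} : Set G)) ∣
        Nat.card (Subgroup.centralizer ({(u : G)} : Set G)) := orderOf_dvd_natCard _
    rw [Subgroup.orderOf_mk, hk] at h1
    exact (dvd_pow_self q hk0).trans h1
  have h1 : Nat.card (Subgroup.centralizer ({z} : Set G)) *
      (Subgroup.centralizer ({z} : Set G)).index = Nat.card G := Subgroup.card_mul_index _
  have hk0 : (Subgroup.centralizer ({z} : Set G)).index ≠ 0 := Subgroup.index_ne_zero_of_finite
  have hc0 : Nat.card (Subgroup.centralizer ({z} : Set G)) ≠ 0 := Nat.card_pos.ne'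
  have e1 : ((Subgroup.centralizer ({z} : Set G)).index).factorization p =
      (Nat.card G).factorization p := by
    rw [← h1, Nat.factorization_mul hc0 hk0, Finsupp.coe_add, Pi.add_apply,
      Nat.factorization_eq_zero_of_not_dvd hpc, zero_add]
  have hle : (Cfsg.charDegree (χ : G → ℂ)).factorization p ≤ (Nat.card G).factorization p :=
    (Nat.factorization_le_iff_dvd (Cfsg.Agent.Helper81.charDegree_pos χ).ne'
      Nat.card_pos.ne').mpr (Cfsg.Agent.Helper78.charDegree_dvd_card χ) p
  omega

end Cfsg.Agent.S4742
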