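import Cfsg.Statements.S4743
import Cfsg.Agent.Helper76.DefectZeroPQ

set_option autoImplicit false
open Cfsg

namespace Cfsg.Agent.S4743

/-- Let p ≠ q be primes dividing the order of the finite group G, suppose the centralizer of every non-identity p-element has order prime to q, and suppose G is p-solvable or q-solvable. Then G has an irreducible character of p-defect zero or an irreducible character of q-defect zero. -/
theorem result {G : Type*} [Group G] [Finite G] (p q : ℕ) [Fact p.Prime] [Fact q.Prime] (hppq : p ≠ q) (hpG : p ∣ Nat.card G) (hqG : q ∣ Nat.card G) (hC : ∀ g : G, g ≠ 1 → (∃ k : ℕ, orderOf g = p ^ k) → ¬ q ∣ Nat.card ↥(Subgroup.centralizer ({g} : Set G))) (hsolv : Cfsg.IsPSolvable p G ∨ Cfsg.IsPSolvable q G) : (∃ χ : Cfsg.IrrCharacter G, (Cfsg.charDegree (χ : G → ℂ)).factorization p = (Nat.card G).factorization p) ∨ (∃ χ : Cfsg.IrrCharacter G, (Cfsg.charDegree (χ : G → ℂ)).factorization q = (Nat.card G).factorization q) := by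
  have hC' := Cfsg.Agent.Helper76.not_dvd_card_centralizer_symm p q hC
  rcases hsolv with hs | hs
  · exact Cfsg.Agent.Helper76.exists_defect_zero_of_no_pq p q hppq hpG hs hC hC'
  · exact (Cfsg.Agent.Helper76.exists_defect_zero_of_no_pq q p hppq.symm hqG hs hC' hC).symm

end Cfsg.Agent.S4743
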