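import Cfsg.Statements.S4744
import Cfsg.Agent.Helper78.StructConst
import Cfsg.Agent.Helper78.NoTwoP

set_option autoImplicit false
open Cfsg

namespace Cfsg.Agent.S4744

/-- Let p be an odd prime and G a finite group of even order divisible by p in which the centralizer of every non-identity p-element has odd order. Then either G has an irreducible character of p-defect zero, or the normalizer of every Sylow p-subgroup P of G has even order and P is abelian. -/
theorem result {G : Type*} [Group G] [Finite G] (p : ℕ) [Fact p.Prime] (hp2 : p ≠ 2) (hpG : p ∣ Nat.card G) (h2G : 2 ∣ Nat.card G) (hC : ∀ g : G, g ≠ 1 → (∃ k : ℕ, orderOf g = p ^ k) → Odd (Nat.card ↥(Subgroup.centralizer ({g} : Set G)))) : (∃ χ : Cfsg.IrrCharacter G, (Cfsg.charDegree (χ : G → ℂ)).factorization p = (Nat.card G).factorization p) ∨ ∀ P : Sylow p G, Even (Nat.card ↥(Subgroup.normalizer ((P : Subgroup G) : Set G))) ∧ IsMulCommutative ↥(P : Subgroup G) := by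
  classical
  let _ : Fintype G := Fintype.ofFinite G
  let _ : Fintype (Cfsg.IrrCharacter G) := Fintype.ofFinite _
  have hp := (Fact.out : p.Prime)
  -- no element of order `2p`
  have h2p : ∀ g : G, orderOf g ≠ 2 * p := by
    intro g hg
    have hg0 : 0 < orderOf g := by rw [hg]; exact Nat.mul_pos (by norm_num) hp.pos
    have hz : orderOf (g ^ 2) = p := by
      rw [orderOf_pow' g (by norm_num : (2 : ℕ) ≠ 0), hg, Nat.gcd_mul_right_left,
        Nat.mul_div_cancel_left p (by norm_num : 0 < 2)]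
    have ht : orderOf (g ^ p) = 2 := by
      rw [orderOf_pow' g hp.ne_zero, hg, Nat.gcd_mul_left_left, Nat.mul_div_cancel _ hp.pos]
    have hz1 : g ^ 2 ≠ 1 := by
      intro h1
      rw [h1, orderOf_one] at hz
      exact hp.one_lt.ne hz
    have hodd := hC (g ^ 2) hz1 ⟨1, by rw [hz, pow_one]⟩
    have hmem : g ^ p ∈ Subgroup.centralizer ({g ^ 2} : Set G) := by
      rw [Subgroup.mem_centralizer_iff]
      intro h hh
      rw [Set.mem_singleton_iff] at hh
      rw [hh, ← pow_add, ← pow_add, add_comm]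
    have hdvd : 2 ∣ Nat.card ↥(Subgroup.centralizer ({g ^ 2} : Set G)) := by
      have h3 := Subgroup.orderOf_dvd_natCard _ hmem
      rw [ht] at h3
      exact h3
    exact (Nat.not_even_iff_odd.mpr hodd) (even_iff_two_dvd.mpr hdvd)
  by_cases hdef : ∃ χ : Cfsg.IrrCharacter G,
      (Cfsg.charDegree (χ : G → ℂ)).factorization p = (Nat.card G).factorization p
  · exact Or.inl hdef
  right
  push Not at hdef
  have hle : ∀ χ : Cfsg.IrrCharacter G,
      (Cfsg.charDegree (χ : G → ℂ)).factorization p ≤ (Nat.card G).factorization p := fun χ =>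
    (Nat.factorization_le_iff_dvd (Cfsg.Agent.Helper81.charDegree_pos χ).ne'
      Nat.card_pos.ne').mpr (Cfsg.Agent.Helper78.charDegree_dvd_card χ) p
  -- every involution inverts a Sylow `p`-subgroup (as in `S4738`)
  have key : ∀ t : G, orderOf t = 2 → ∃ P : Sylow p G, ∀ x ∈ P, t * x * t⁻¹ = x⁻¹ := by
    intro t ht
    let S : Sylow p G := default
    have hex : ∃ g h : G, IsConj t g ∧ IsConj t h ∧ g * h⁻¹ ∈ (S : Subgroup G) ∧ g ≠ h := by
      by_contra hcon
      push Not at hcon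
      obtain ⟨χ, hχ⟩ := Cfsg.Agent.Helper78.exists_irr_factorization_le p hp t (S : Subgroup G) hcon
      apply hdef χ
      have hSidx : ((S : Subgroup G).index).factorization p = 0 :=
        Nat.factorization_eq_zero_of_not_dvd S.not_dvd_index
      have hpc : ¬ p ∣ Nat.card (Subgroup.centralizer ({t} : Set G)) := by
        intro hdvd
        obtain ⟨u, hu⟩ := exists_prime_orderOf_dvd_card' p hdvd
        have huG : orderOf (u : G) = p := by rw [Subgroup.orderOf_coe, hu]
        have hcomm : Commute t (u : G) := by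
          have := u.2
          rw [Subgroup.mem_centralizer_iff] at this
          exact this t rfl
        exact Cfsg.Agent.Helper78.not_commute_of_no_two_p hp2 h2p ht (by rw [huG]) hcomm
      have h1 : Nat.card (Subgroup.centralizer ({t} : Set G)) *
          (Subgroup.centralizer ({t} : Set G)).index = Nat.card G := Subgroup.card_mul_index _
      have hk0 : (Subgroup.centralizer ({t} : Set G)).index ≠ 0 := Subgroup.index_ne_zero_of_finite
      have hc0 : Nat.card (Subgroup.centralizer ({t} : Set G)) ≠ 0 := Nat.card_pos.ne'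
      have e1 : ((Subgroup.centralizer ({t} : Set G)).index).factorization p =
          (Nat.card G).factorization p := by
        rw [← h1, Nat.factorization_mul hc0 hk0, Finsupp.coe_add, Pi.add_apply,
          Nat.factorization_eq_zero_of_not_dvd hpc, zero_add]
      have := hle χ
      omega
    obtain ⟨g, h, hg, hh, hgh, hne⟩ := hex
    obtain ⟨a, ha⟩ := isConj_iff.mp hg
    obtain ⟨a', ha'⟩ := isConj_iff.mp hh
    have hgo : orderOf g = 2 := by
      have := (MulAut.conj a).orderOf_eq t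
      rw [MulAut.conj_apply, ha] at this
      rw [this, ht]
    have hho : orderOf h = 2 := by
      have := (MulAut.conj a').orderOf_eq t
      rw [MulAut.conj_apply, ha'] at this
      rw [this, ht]
    have hgg : g * g = 1 := Cfsg.Agent.Helper78.mul_self_of_orderOf_two hgo
    have hhi : h⁻¹ = h := Cfsg.Agent.Helper78.inv_eq_self_of_orderOf_two hho
    have hu1 : g * h⁻¹ ≠ 1 := fun h1 => hne (mul_inv_eq_one.mp h1)
    have hup : ∃ k : ℕ, orderOf (g * h⁻¹) = p ^ k := by
      obtain ⟨k, hk⟩ := (IsPGroup.iff_orderOf.mp S.isPGroup') ⟨g * h⁻¹, hgh⟩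
      rw [Subgroup.orderOf_mk] at hk
      exact ⟨k, hk⟩
    have hginv : g * (g * h⁻¹) * g⁻¹ = (g * h⁻¹)⁻¹ := by
      rw [mul_inv_rev, inv_inv, ← mul_assoc, hgg, one_mul, hhi]
    have hz : t * (a⁻¹ * (g * h⁻¹) * a) * t⁻¹ = (a⁻¹ * (g * h⁻¹) * a)⁻¹ := by
      have e : t = a⁻¹ * g * a := by rw [← ha]; group
      have e2 : t * (a⁻¹ * (g * h⁻¹) * a) * t⁻¹ = a⁻¹ * (g * (g * h⁻¹) * g⁻¹) * a := by
        rw [e]; group
      rw [e2, hginv]; group
    have hz1 : a⁻¹ * (g * h⁻¹) * a ≠ 1 := by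
      intro h1
      apply hu1
      have : g * h⁻¹ = a * (a⁻¹ * (g * h⁻¹) * a) * a⁻¹ := by group
      rw [this, h1]; group
    have hzp : ∃ k : ℕ, orderOf (a⁻¹ * (g * h⁻¹) * a) = p ^ k := by
      obtain ⟨k, hk⟩ := hup
      refine ⟨k, ?_⟩
      have := (MulAut.conj a⁻¹).orderOf_eq (g * h⁻¹)
      rw [MulAut.conj_apply, inv_inv] at this
      rw [this, hk]
    exact Cfsg.Agent.Helper78.exists_sylow_inverted hp2 h2p ht hz1 hzp hz
  have : Fact (Nat.Prime 2) := ⟨Nat.prime_two⟩
  obtain ⟨t₀, ht₀⟩ := exists_prime_orderOf_dvd_card' 2 h2G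
  obtain ⟨P₀, hP₀⟩ := key t₀ ht₀
  intro P
  refine ⟨?_, ⟨⟨fun a b => Subtype.ext
    (Cfsg.Agent.Helper78.sylow_comm_of_inverted P₀ hP₀ P a.2 b.2)⟩⟩⟩
  -- a conjugate of `t₀` inverts `P`, hence normalizes it
  obtain ⟨g, hg⟩ := MulAction.exists_smul_eq G P₀ P
  have hinv : ∀ x ∈ P, (g * t₀ * g⁻¹) * x * (g * t₀ * g⁻¹)⁻¹ = x⁻¹ := by
    intro x hx
    have h1 := hP₀ _ (Cfsg.Agent.Helper78.conj_mem_of_smul_eq hg hx)
    have e : (g * t₀ * g⁻¹) * x * (g * t₀ * g⁻¹)⁻¹ = g * (t₀ * (g⁻¹ * x * g) * t₀⁻¹) * g⁻¹ := by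
      group
    rw [e, h1]
    group
  have hto : orderOf (g * t₀ * g⁻¹) = 2 := by
    have := (MulAut.conj g).orderOf_eq t₀
    rw [MulAut.conj_apply] at this
    rw [this, ht₀]
  have htt : (g * t₀ * g⁻¹)⁻¹ = g * t₀ * g⁻¹ :=
    Cfsg.Agent.Helper78.inv_eq_self_of_orderOf_two hto
  have hmem : g * t₀ * g⁻¹ ∈ Subgroup.normalizer ((P : Subgroup G) : Set G) := by
    rw [Subgroup.mem_normalizer_iff]
    intro x
    constructor
    · intro hx
      rw [hinv x hx]
      exact inv_mem hx
    · intro hx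
      have h2 := hinv _ hx
      have h3 : (g * t₀ * g⁻¹) * ((g * t₀ * g⁻¹) * x * (g * t₀ * g⁻¹)⁻¹) * (g * t₀ * g⁻¹)⁻¹ = x := by
        rw [htt]
        have h4 : (g * t₀ * g⁻¹) * (g * t₀ * g⁻¹) = 1 :=
          Cfsg.Agent.Helper78.mul_self_of_orderOf_two hto
        calc (g * t₀ * g⁻¹) * ((g * t₀ * g⁻¹) * x * (g * t₀ * g⁻¹)) * (g * t₀ * g⁻¹)
            = ((g * t₀ * g⁻¹) * (g * t₀ * g⁻¹)) * x * ((g * t₀ * g⁻¹) * (g * t₀ * g⁻¹)) := by
              group
          _ = x := by rw [h4, one_mul, mul_one]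
      rw [h3] at h2
      rw [h2]
      exact inv_mem hx
  rw [even_iff_two_dvd, ← hto]
  exact Subgroup.orderOf_dvd_natCard _ hmem

end Cfsg.Agent.S4744
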