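import Cfsg.Statements.S4748
import Cfsg.Agent.Helper82.TIConfig3
import Cfsg.Agent.Helper82.TILinAlg

set_option autoImplicit false
open scoped Pointwise
open Cfsg

namespace Cfsg.Agent.S4748

/-- Let G be a finite p-solvable group whose Sylow p-subgroup P meets each conjugate g P g⁻¹ with g outside N_G(P) trivially, and let χ be a faithful character of G (χ g = χ 1 only for g = 1) whose degree d satisfies d² ≤ |P|. Then P is normal in G. -/
theorem result {G : Type*} [Group G] [Finite G] (p : ℕ) [Fact p.Prime] (hsolv : Cfsg.IsPSolvable p G) (P : Sylow p G) (hTI : ∀ g : G, g ∉ Subgroup.normalizer ((P : Subgroup G) : Set G) → (P : Subgroup G) ⊓ (MulAut.conj g • (P : Subgroup G)) = ⊥) (χ : G → ℂ) (hχ : Cfsg.IsCharacter G χ) (hfaith : ∀ g : G, χ g = χ 1 → g = 1) (hdeg : Cfsg.charDegree χ ^ 2 ≤ Nat.card ↥(P : Subgroup G)) : (P : Subgroup G).Normal := by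
  classical
  by_contra hP
  obtain ⟨n, ρ, rfl⟩ := hχ
  have hfin : Module.finrank ℂ (Fin n → ℂ) = n := by simp
  have hdeg' : Cfsg.charDegree ρ.character = n := by
    unfold Cfsg.charDegree
    rw [Representation.character, map_one, LinearMap.trace_one, hfin]
    simp
  have hfaith' : ∀ g : G, g ≠ 1 → ρ g ≠ 1 := by
    intro g hg h1
    apply hg
    apply hfaith
    have h2 : ρ g = ρ 1 := by rw [h1, map_one]
    simp only [Representation.character, h2]
  have hs := Helper76.isPSolvableElt_of_isPSolvable hsolv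
  have hnc := Helper82.ti_not_pcent hs P hTI hP
  have hKn : (Cfsg.pPrimeCore p G).Normal := Helper76.pPrimeCore_normal
  have hKp : ∀ k ∈ Cfsg.pPrimeCore p G, (orderOf k).Coprime p :=
    Helper76.pPrimeCore_forall_coprime
  have hKc : ¬ p ∣ Nat.card (Cfsg.pPrimeCore p G) := by
    have h1 := Helper76.pPrimeCore_coprime (p := p) (G := G)
    exact (Nat.Prime.coprime_iff_not_dvd (Fact.out)).mp h1.symm
  obtain ⟨q, Q, hq, hQq, hQK, hQinv, hQnc⟩ :=
    Helper82.exists_inv_sylow_not_cent (P : Subgroup G) P.isPGroup' (Cfsg.pPrimeCore p G) hKc hnc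
  obtain ⟨R, hRQ, hRinv, hRnc, hRmin⟩ := Helper82.exists_minimal_not_cent hQinv hQnc
  have hcfg : Helper82.MinCfg p (P : Subgroup G) R :=
    { inv := hRinv
      ncent := hRnc
      min := hRmin
      pP := P.isPGroup'
      pR := fun r hr => hKp r (hQK (hRQ hr))
      nil := ⟨q, hq, hQq.to_le hRQ⟩
      ti := fun x hx hx1 a ha hxa =>
        Helper82.ti_centralizer P hTI (Cfsg.pPrimeCore p G) hKn hKp hx hx1 (hQK (hRQ ha)) hxa }
  have hPbot : (P : Subgroup G) ≠ ⊥ := by
    intro h
    apply hP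
    rw [h]
    exact Subgroup.normal_bot
  have hcardP : 1 < Nat.card (P : Subgroup G) := (Subgroup.one_lt_card_iff_ne_bot _).mpr hPbot
  rw [hdeg'] at hdeg
  by_cases hab : ∀ a ∈ R, ∀ b ∈ R, a * b = b * a
  · obtain ⟨a₀, ha₀, ha₀1⟩ : ∃ a ∈ R, a ≠ 1 := by
      by_contra hcon
      push Not at hcon
      exact hcfg.ne_bot ((Subgroup.eq_bot_iff_forall R).mpr hcon)
    have h1 := Helper82.card_le_finrank_of_abelian ρ (P : Subgroup G) R hRinv hab
      (fun z hz hz1 b hb => hcfg.surj_of_abelian hab hPbot hz hz1 hb) ha₀ (hfaith' a₀ ha₀1)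
    rw [hfin] at h1
    nlinarith
  · push Not at hab
    obtain ⟨a, ha, b, hb, hne⟩ := hab
    have hc : a⁻¹ * b * a * b⁻¹ ≠ 1 := by
      intro h1
      apply hne
      have h2 : b * a = a * (a⁻¹ * b * a * b⁻¹) * b := by group
      rw [h1, mul_one] at h2
      exact h2.symm
    have h1 := Helper82.card_le_of_nonabelian ρ (P : Subgroup G) R
      (Helper82.fix (P : Subgroup G) R) (Helper82.fix_le _ _) hRinv (Helper82.pcent_fix _ _)
      (fun c hc r hr => hcfg.fix_central hc hr) (fun a ha r hr => hcfg.comm_mem_fix ha hr)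
      (fun S hS hSinv hSne => Helper82.le_fix_of_pcent hS (hRmin S hS hSinv hSne)) ha hb
      (hfaith' _ hc)
    have h2 := hcfg.card_le
    rw [hfin] at h1
    have h3 : 0 < Nat.card (Helper82.fix (P : Subgroup G) R) := Nat.card_pos
    nlinarith

end Cfsg.Agent.S4748
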