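import Cfsg.Statements.S4750
import Cfsg.Agent.Helper67.TIVal
import Cfsg.Agent.Helper79.TISylow
-- import your own Cfsg.Agent.* helpers here

set_option autoImplicit false
open scoped Pointwise
open Cfsg

namespace Cfsg.Agent.S4750

/-- Let P be a Sylow p-subgroup of the finite group G that meets each conjugate g P g⁻¹ with g outside N_G(P) trivially, χ a character of G with χ(1)² ≤ |P|, and H a subgroup of G containing N_G(P). Then the inner product of χ with itself over G equals the inner product over H of the restriction of χ to H. -/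
theorem result {G : Type*} [Group G] [Fintype G] [DecidableEq G] (p : ℕ) [Fact p.Prime] (P : Sylow p G) (hTI : ∀ g : G, g ∉ Subgroup.normalizer ((P : Subgroup G) : Set G) → (P : Subgroup G) ⊓ (MulAut.conj g • (P : Subgroup G)) = ⊥) (χ : G → ℂ) (hχ : Cfsg.IsCharacter G χ) (hdeg : Cfsg.charDegree χ ^ 2 ≤ Nat.card ↥(P : Subgroup G)) (H : Subgroup G) [Fintype ↥H] (hH : Subgroup.normalizer ((P : Subgroup G) : Set G) ≤ H) : Cfsg.classInner χ χ = Cfsg.classInner (fun h : ↥H => χ h) (fun h : ↥H => χ h) := by
  classical
  obtain ⟨n, ρ, rfl⟩ := hχ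
  have hfr : Module.finrank ℂ (Fin n → ℂ) = n := by simp
  have hdegn : Cfsg.charDegree ρ.character = n := by
    unfold Cfsg.charDegree
    rw [Representation.char_one, hfr]
    simp
  rw [hdegn] at hdeg
  -- the conjugation representation on endomorphisms
  have hdim : Module.finrank ℂ ((Fin n → ℂ) →ₗ[ℂ] (Fin n → ℂ)) ≤ Nat.card (P : Subgroup G) := by
    rw [Module.finrank_linearMap, hfr, ← sq]
    exact hdeg
  have hfix_iff : ∀ (K : Subgroup G) (f : (Fin n → ℂ) →ₗ[ℂ] (Fin n → ℂ)),
      f ∈ Helper79.commutant ρ K ↔ ∀ h ∈ K, (Representation.linHom ρ ρ) h f = f := by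
    intro K f
    rw [Helper79.mem_commutant]
    constructor
    · intro hf h hh
      apply LinearMap.ext
      intro v
      rw [Representation.linHom_apply]
      have h1 := LinearMap.congr_fun (hf h hh) (ρ h⁻¹ v)
      have h2 : ρ h (ρ h⁻¹ v) = v := by
        rw [← Module.End.mul_apply, ← map_mul, mul_inv_cancel, map_one, Module.End.one_apply]
      simp only [LinearMap.comp_apply] at h1 ⊢
      rw [← h1, h2]
    · intro hf h hh
      have h1 := hf h hh
      rw [Representation.linHom_apply] at h1
      apply LinearMap.ext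
      intro v
      have h2 := LinearMap.congr_fun h1 (ρ h v)
      have h3 : ρ h⁻¹ (ρ h v) = v := by
        rw [← Module.End.mul_apply, ← map_mul, inv_mul_cancel, map_one, Module.End.one_apply]
      simp only [LinearMap.comp_apply] at h2 ⊢
      rw [← h2, h3]
  have hcomm : Helper79.commutant ρ H = Helper79.commutant ρ ⊤ := by
    apply le_antisymm
    · intro f hf
      rw [hfix_iff] at hf ⊢
      rcases Nat.eq_zero_or_pos n with hn | hn
      · subst hn
        intro h _
        apply LinearMap.ext
        intro v
        funext i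
        exact Fin.elim0 i
      have hne : (LinearMap.id : (Fin n → ℂ) →ₗ[ℂ] (Fin n → ℂ)) ≠ 0 := by
        intro h0
        have h1 := congrArg (fun g : (Fin n → ℂ) →ₗ[ℂ] (Fin n → ℂ) => g (fun _ => 1) ⟨0, hn⟩) h0
        simp at h1
      have hidfix : ∀ g : G, (Representation.linHom ρ ρ) g LinearMap.id = LinearMap.id := by
        intro g
        rw [Representation.linHom_apply, LinearMap.id_comp, ← Module.End.mul_eq_comp, ← map_mul,
          mul_inv_cancel, map_one]
        rfl
      intro g _
      exact Helper67.tiv_fixed_eq p P hTI H hH (Representation.linHom ρ ρ) hdim LinearMap.id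
        hne hidfix f hf g
    · exact Helper79.commutant_anti ρ le_top
  have h1 := Helper79.finrank_commutant_eq_sum ρ H
  have h2 := Helper79.finrank_commutant_eq_sum ρ (⊤ : Subgroup G)
  rw [hcomm, h2] at h1
  unfold Cfsg.classInner
  rw [← h1]
  congr 1
  · rw [Nat.card_congr (Subgroup.topEquiv (G := G)).toEquiv]
  · exact (Fintype.sum_equiv (Subgroup.topEquiv (G := G)).toEquiv _ _ (fun x => rfl)).symm

end Cfsg.Agent.S4750
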