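import Cfsg.Statements.S4754
import Cfsg.Agent.Helper79.Sep

set_option autoImplicit false
open Cfsg

namespace Cfsg.Agent.S4754

/-- For elements x, y of a finite group G, the conjugacy class of x y equals the set of all products of a conjugate of x with a conjugate of y if and only if χ(1) χ(a x a⁻¹ b y b⁻¹) = χ(x) χ(y) for all a, b ∈ G and every irreducible character χ. -/
theorem result {G : Type*} [Group G] [Finite G] (x y : G) : (∀ z : G, IsConj (x * y) z ↔ ∃ a b : G, z = a * x * a⁻¹ * (b * y * b⁻¹)) ↔ ∀ (a b : G) (χ : Cfsg.IrrCharacter G), (χ : G → ℂ) 1 * (χ : G → ℂ) (a * x * a⁻¹ * (b * y * b⁻¹)) = (χ : G → ℂ) x * (χ : G → ℂ) y := by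
  classical
  have : Fintype G := Fintype.ofFinite G
  have hG : (Fintype.card G : ℂ) ≠ 0 := by exact_mod_cast Fintype.card_ne_zero
  constructor
  · intro H a b χ
    have hχ := Helper79.irr_isCharacter χ
    have h1 : (χ : G → ℂ) 1 ≠ 0 := Helper80.irr_one_ne_zero χ
    -- all products of conjugates are conjugate to x * y
    have hconj : ∀ c d : G, (χ : G → ℂ) (c * x * c⁻¹ * (d * y * d⁻¹)) = (χ : G → ℂ) (x * y) := by
      intro c d
      exact (Helper79.isCharacter_eq_of_isConj hχ ((H _).mpr ⟨c, d, rfl⟩)).symm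
    have hsum := Helper80.irr_sum_conj_mul χ x y
    have h2 : ∀ c : G, (χ : G → ℂ) (c * x * c⁻¹ * y) = (χ : G → ℂ) (x * y) := by
      intro c
      have := hconj c 1
      simpa using this
    simp only [h2, Finset.sum_const, Finset.card_univ, nsmul_eq_mul] at hsum
    rw [hconj a b]
    field_simp at hsum
    linear_combination hsum
  · intro K z
    constructor
    · intro hz
      obtain ⟨c, hc⟩ := isConj_iff.mp hz
      exact ⟨c, c, by rw [← hc]; group⟩
    · rintro ⟨a, b, rfl⟩
      apply Helper79.isConj_of_forall_irr_eq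
      intro χ
      have h1 : (χ : G → ℂ) 1 ≠ 0 := Helper80.irr_one_ne_zero χ
      have e1 := K a b χ
      have e2 := K 1 1 χ
      simp only [one_mul, inv_one, mul_one] at e2
      exact mul_left_cancel₀ h1 (e2.trans e1.symm)

end Cfsg.Agent.S4754
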