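import Cfsg.Statements.S4755
import Cfsg.Agent.S4754

set_option autoImplicit false
open Cfsg

namespace Cfsg.Agent.S4755

/-- Let x, y be non-identity elements of the finite group G such that χ(x' y') = χ(x') χ(y') for all conjugates x' of x, y' of y and every irreducible character χ. Then the conjugacy class of x y is the set of all products of a conjugate of x with a conjugate of y; every irreducible character of degree greater than 1 vanishes at x y; and the conjugacy class of x y is the coset of the commutator subgroup containing x y. -/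
theorem result {G : Type*} [Group G] [Finite G] (x y : G) (hx : x ≠ 1) (hy : y ≠ 1) (h : ∀ (a b : G) (χ : Cfsg.IrrCharacter G), (χ : G → ℂ) (a * x * a⁻¹ * (b * y * b⁻¹)) = (χ : G → ℂ) (a * x * a⁻¹) * (χ : G → ℂ) (b * y * b⁻¹)) : (∀ z : G, IsConj (x * y) z ↔ ∃ a b : G, z = a * x * a⁻¹ * (b * y * b⁻¹)) ∧ (∀ χ : Cfsg.IrrCharacter G, (χ : G → ℂ) 1 ≠ 1 → (χ : G → ℂ) (x * y) = 0) ∧ (∀ z : G, IsConj (x * y) z ↔ (x * y)⁻¹ * z ∈ commutator G) := by
  classical
  have : Fintype G := Fintype.ofFinite G
  have : Fintype (Cfsg.IrrCharacter G) := Fintype.ofFinite _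
  have hG : (Fintype.card G : ℂ) ≠ 0 := by exact_mod_cast Fintype.card_ne_zero
  -- key: (χ 1 - 1) * (χ x * χ y) = 0
  have key : ∀ χ : Cfsg.IrrCharacter G,
      ((χ : G → ℂ) 1 - 1) * ((χ : G → ℂ) x * (χ : G → ℂ) y) = 0 := by
    intro χ
    have hχ := Helper79.irr_isCharacter χ
    have h1 : (χ : G → ℂ) 1 ≠ 0 := Helper80.irr_one_ne_zero χ
    have hsum := Helper80.irr_sum_conj_mul χ x y
    have h2 : ∀ c : G, (χ : G → ℂ) (c * x * c⁻¹ * y) = (χ : G → ℂ) x * (χ : G → ℂ) y := by
      intro c
      have := h c 1 χ
      simp only [one_mul, inv_one, mul_one] at this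
      rw [this, Helper79.isCharacter_conj_eq hχ]
    simp only [h2, Finset.sum_const, Finset.card_univ, nsmul_eq_mul] at hsum
    field_simp at hsum
    linear_combination hsum
  have hprod : ∀ (a b : G) (χ : Cfsg.IrrCharacter G),
      (χ : G → ℂ) (a * x * a⁻¹ * (b * y * b⁻¹)) = (χ : G → ℂ) x * (χ : G → ℂ) y := by
    intro a b χ
    have hχ := Helper79.irr_isCharacter χ
    rw [h a b χ, Helper79.isCharacter_conj_eq hχ, Helper79.isCharacter_conj_eq hχ]
  have hvanish : ∀ χ : Cfsg.IrrCharacter G, (χ : G → ℂ) 1 ≠ 1 → (χ : G → ℂ) (x * y) = 0 := by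
    intro χ hχ1
    have h1 := hprod 1 1 χ
    simp only [one_mul, inv_one, mul_one] at h1
    rw [h1]
    rcases mul_eq_zero.mp (key χ) with h2 | h2
    · exact absurd (sub_eq_zero.mp h2) hχ1
    · exact h2
  refine ⟨?_, hvanish, ?_⟩
  · rw [Cfsg.Agent.S4754.result x y]
    intro a b χ
    rw [hprod a b χ]
    linear_combination key χ
  · intro z
    constructor
    · intro hz
      obtain ⟨c, hc⟩ := isConj_iff.mp hz
      rw [← hc]
      have hmem := Subgroup.commutator_mem_commutator (Subgroup.mem_top ((x * y)⁻¹))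
        (Subgroup.mem_top c)
      rw [commutatorElement_def, inv_inv] at hmem
      rw [commutator_def]
      convert hmem using 1
      group
    · intro hz
      by_contra hcon
      have horth := Helper80.irr_column_orthogonality_of_not_isConj hcon
      have hterm : ∀ χ : Cfsg.IrrCharacter G,
          (χ : G → ℂ) (x * y) * (starRingEnd ℂ) ((χ : G → ℂ) z) =
            if (χ : G → ℂ) 1 = 1 then 1 else 0 := by
        intro χ
        by_cases hχ1 : (χ : G → ℂ) 1 = 1
        · rw [if_pos hχ1]
          obtain ⟨f, hf⟩ := Helper79.isCharacter_linear (Helper79.irr_isCharacter χ) hχ1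
          have hz' : z = (x * y) * ((x * y)⁻¹ * z) := by group
          have hfz : f z = f (x * y) := by
            rw [hz', map_mul, Helper79.hom_apply_eq_one_of_mem_commutator f hz, mul_one]
          rw [hf, hf, hfz, Complex.mul_conj, Complex.normSq_eq_norm_sq,
            Helper79.norm_hom_apply]
          simp
        · rw [if_neg hχ1, hvanish χ hχ1, zero_mul]
      simp only [hterm] at horth
      rw [Finset.sum_boole] at horth
      have hcard : (Finset.univ.filter fun χ : Cfsg.IrrCharacter G => (χ : G → ℂ) 1 = 1).card = 0 := by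
        exact_mod_cast horth
      rw [Finset.card_eq_zero] at hcard
      have hmem : Helper79.trivIrr G ∈
          (Finset.univ.filter fun χ : Cfsg.IrrCharacter G => (χ : G → ℂ) 1 = 1) := by
        simp
      rw [hcard] at hmem
      exact absurd hmem (Finset.notMem_empty _)

end Cfsg.Agent.S4755
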