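import Cfsg.Statements.S4757
import Cfsg.Agent.Helper79.Sep

set_option autoImplicit false
open Cfsg

namespace Cfsg.Agent.S4757

/-- The order of a join with a normal subgroup has no new prime divisors. -/
theorem not_dvd_card_sup {G : Type*} [Group G] [Finite G] {p : ℕ} (hp : p.Prime) (A B : Subgroup G)
    [B.Normal] (hA : ¬ p ∣ Nat.card A) (hB : ¬ p ∣ Nat.card B) : ¬ p ∣ Nat.card ↥(A ⊔ B) := by
  have h1 : Nat.card B * B.relIndex (A ⊔ B) = Nat.card ↥(A ⊔ B) := by
    have := Subgroup.relIndex_mul_relIndex (⊥ : Subgroup G) B (A ⊔ B) bot_le le_sup_right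
    simpa using this
  rw [← h1, Subgroup.relIndex_sup_right]
  intro h
  rcases (Nat.Prime.dvd_mul hp).1 h with h | h
  · exact hB h
  · exact hA (h.trans (Subgroup.relIndex_dvd_card B A))

/-- A join of normal subgroups of order prime to `p` has order prime to `p`. -/
theorem not_dvd_card_sSup {G : Type*} [Group G] [Finite G] {p : ℕ} (hp : p.Prime)
    (S : Set (Subgroup G)) (hS : ∀ N ∈ S, N.Normal ∧ ¬ p ∣ Nat.card N) :
    ¬ p ∣ Nat.card ↥(sSup S) := by
  classical
  have : Fintype (Subgroup G) := Fintype.ofFinite _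
  have key : ∀ T : Finset (Subgroup G), (∀ N ∈ T, N.Normal ∧ ¬ p ∣ Nat.card N) →
      (T.sup id).Normal ∧ ¬ p ∣ Nat.card ↥(T.sup id) := by
    intro T hT
    refine Finset.sup_induction (p := fun N : Subgroup G => N.Normal ∧ ¬ p ∣ Nat.card N) ?_ ?_ hT
    · refine ⟨inferInstance, ?_⟩
      rw [Subgroup.card_bot]
      exact hp.one_lt.ne' ∘ Nat.dvd_one.1
    · rintro A ⟨hAn, hA⟩ B ⟨hBn, hB⟩
      exact ⟨Subgroup.sup_normal A B, not_dvd_card_sup hp A B hA hB⟩
  have h2 := (key S.toFinset (by simpa using hS)).2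
  rwa [Finset.sup_id_eq_sSup, Set.coe_toFinset] at h2

/-- The core `O(G)` of a finite group has odd order. -/
theorem oddCore_odd (G : Type*) [Group G] [Finite G] : ¬ 2 ∣ Nat.card (Cfsg.oddCore G) := by
  apply not_dvd_card_sSup Nat.prime_two
  intro N hN
  refine ⟨hN.1, ?_⟩
  have h2 : (Nat.card N).Coprime 2 := hN.2
  exact (Nat.Prime.coprime_iff_not_dvd Nat.prime_two).mp h2.symm

/-- Group-theoretic part: a self-centralizing involution outside a subgroup of index 2. -/
theorem structure_of_card_centralizer {G : Type*} [Group G] [Finite G] (u : G) (hu : u ≠ 1)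
    (hC : Nat.card (Subgroup.centralizer ({u} : Set G)) = 2) (f : G →* ℂˣ) (hfu : f u = -1)
    (hf2 : ∀ g, f g = 1 ∨ f g = -1) :
    orderOf u = 2 ∧ Subgroup.zpowers u ⊔ Cfsg.oddCore G = ⊤ ∧
      Subgroup.centralizer ({u} : Set G) = Subgroup.zpowers u := by
  classical
  have hle : Subgroup.zpowers u ≤ Subgroup.centralizer ({u} : Set G) := by
    rw [Subgroup.zpowers_le]
    exact Subgroup.mem_centralizer_singleton_iff.mpr rfl
  have hdvd : orderOf u ∣ 2 := by
    rw [← Nat.card_zpowers, ← hC]
    exact Subgroup.card_dvd_of_le hle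
  have ho : orderOf u = 2 := by
    rcases (Nat.dvd_prime Nat.prime_two).mp hdvd with h | h
    · exact absurd (orderOf_eq_one_iff.mp h) hu
    · exact h
  have hcz : Subgroup.centralizer ({u} : Set G) = Subgroup.zpowers u := by
    symm
    apply Subgroup.eq_of_le_of_card_ge hle
    rw [hC, Nat.card_zpowers, ho]
  refine ⟨ho, ?_, hcz⟩
  have hneg : (-1 : ℂˣ) ≠ 1 := by
    intro h
    have := congrArg (fun x : ℂˣ => (x : ℂ)) h
    norm_num at this
  have huK : u ∉ f.ker := by
    rw [MonoidHom.mem_ker, hfu]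
    exact hneg
  have hu2 : u * u = 1 := by
    rw [← sq, ← ho]
    exact pow_orderOf_eq_one u
  have hu_inv : u⁻¹ = u := inv_eq_of_mul_eq_one_left hu2
  have hzp : ∀ k : G, k ∈ Subgroup.zpowers u → k = 1 ∨ k = u := by
    intro k hk
    obtain ⟨n, rfl⟩ := Subgroup.mem_zpowers_iff.mp hk
    rw [← zpow_mod_orderOf, ho]
    push_cast
    rcases Int.emod_two_eq_zero_or_one n with h | h
    · left; rw [h]; simp
    · right; rw [h]; simp
  have hKodd : ¬ 2 ∣ Nat.card f.ker := by
    have : Fintype f.ker := Fintype.ofFinite _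
    let σ : Function.End f.ker := fun k =>
      ⟨u * k * u⁻¹, (inferInstance : f.ker.Normal).conj_mem k k.2 u⟩
    have hσ : σ ^ 2 ^ 1 = 1 := by
      funext k
      apply Subtype.ext
      have : (σ * σ) k = σ (σ k) := rfl
      rw [pow_one, sq, this]
      show u * (u * (k : G) * u⁻¹) * u⁻¹ = k
      rw [hu_inv]
      calc u * (u * (k : G) * u) * u = (u * u) * k * (u * u) := by group
        _ = k := by rw [hu2]; group
    have _i : Fact (Nat.Prime 2) := ⟨Nat.prime_two⟩
    have hmod := Equiv.Perm.card_fixedPoints_modEq (p := 2) (n := 1) hσ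
    have hfix : Fintype.card (Function.fixedPoints σ) = 1 := by
      rw [Fintype.card_eq_one_iff]
      refine ⟨⟨1, ?_⟩, ?_⟩
      · show σ 1 = 1
        apply Subtype.ext
        show u * (1 : G) * u⁻¹ = 1
        group
      · rintro ⟨k, hk⟩
        apply Subtype.ext
        apply Subtype.ext
        show (k : G) = 1
        have h1 : u * (k : G) * u⁻¹ = k := congrArg Subtype.val hk
        have h2 : (k : G) ∈ Subgroup.centralizer ({u} : Set G) := by
          rw [Subgroup.mem_centralizer_singleton_iff]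
          calc (k : G) * u = (u * (k : G) * u⁻¹) * u := by rw [h1]
            _ = u * k := by group
        rw [hcz] at h2
        rcases hzp _ h2 with h3 | h3
        · exact h3
        · exact absurd (h3 ▸ k.2) huK
    rw [hfix] at hmod
    intro h2
    rw [Nat.card_eq_fintype_card] at h2
    have h3 : Fintype.card f.ker % 2 = 1 % 2 := hmod
    omega
  have hKle : f.ker ≤ Cfsg.oddCore G := by
    apply le_sSup
    exact ⟨inferInstance, ((Nat.Prime.coprime_iff_not_dvd Nat.prime_two).mpr hKodd).symm⟩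
  rw [eq_top_iff]
  intro g _
  rcases hf2 g with h | h
  · exact Subgroup.mem_sup_right (hKle (MonoidHom.mem_ker.mpr h))
  · have h1 : g * u⁻¹ ∈ f.ker := by
      rw [MonoidHom.mem_ker, map_mul, map_inv, h, hfu]
      simp
    have h2 : g = (g * u⁻¹) * u := by group
    rw [h2]
    exact Subgroup.mul_mem _ (Subgroup.mem_sup_right (hKle h1))
      (Subgroup.mem_sup_left (Subgroup.mem_zpowers u))

/-- Group-theoretic part, converse: `G = ⟨u⟩ O(G)` with `u` an involution is not perfect. -/
theorem commutator_ne_top_of_structure {G : Type*} [Group G] [Finite G] (u : G)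
    (h2 : orderOf u = 2) (hsup : Subgroup.zpowers u ⊔ Cfsg.oddCore G = ⊤) :
    commutator G ≠ ⊤ := by
  intro htop
  have hodd := oddCore_odd G
  have huO : u ∉ Cfsg.oddCore G := by
    intro hmem
    apply hodd
    have h3 : orderOf (⟨u, hmem⟩ : Cfsg.oddCore G) = 2 := by
      rw [← h2]
      exact Subgroup.orderOf_mk u hmem
    rw [← h3]
    exact orderOf_dvd_natCard _
  have hcyc : IsCyclic (G ⧸ Cfsg.oddCore G) := by
    refine ⟨⟨((u : G) : G ⧸ Cfsg.oddCore G), fun q => ?_⟩⟩
    induction q using QuotientGroup.induction_on with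
    | H g =>
      have hg : g ∈ ((Subgroup.zpowers u ⊔ Cfsg.oddCore G : Subgroup G) : Set G) := by
        rw [hsup]; trivial
      rw [Subgroup.mul_normal] at hg
      obtain ⟨a, ha, b, hb, rfl⟩ := Set.mem_mul.mp hg
      obtain ⟨n, rfl⟩ := Subgroup.mem_zpowers_iff.mp ha
      refine Subgroup.mem_zpowers_iff.mpr ⟨n, ?_⟩
      rw [QuotientGroup.mk_mul, (QuotientGroup.eq_one_iff b).mpr hb, mul_one,
        QuotientGroup.mk_zpow]
  let _i : CommGroup (G ⧸ Cfsg.oddCore G) := IsCyclic.commGroup
  have hle : commutator G ≤ Cfsg.oddCore G := by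
    have := Abelianization.commutator_subset_ker (QuotientGroup.mk' (Cfsg.oddCore G))
    rwa [QuotientGroup.ker_mk'] at this
  rw [htop] at hle
  exact huO (hle (Subgroup.mem_top u))

/-- Let u ≠ 1 be an element of the finite group G and c a complex number such that every non-principal irreducible character χ satisfies χ(1) − χ(u) = c or χ(u) = 0. Then the following are equivalent: (a) u has order 2, G is generated by u together with O(G), the largest normal subgroup of G of odd order, and the centralizer of u is {1, u}; (b) G is not perfect; (c) c = 2. -/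
theorem result {G : Type*} [Group G] [Finite G] (u : G) (hu : u ≠ 1) (c : ℂ) (hyp : ∀ χ : Cfsg.IrrCharacter G, (χ : G → ℂ) ≠ (fun _ => (1 : ℂ)) → ((χ : G → ℂ) 1 - (χ : G → ℂ) u = c ∨ (χ : G → ℂ) u = 0)) : ((orderOf u = 2 ∧ Subgroup.zpowers u ⊔ Cfsg.oddCore G = ⊤ ∧ Subgroup.centralizer ({u} : Set G) = Subgroup.zpowers u) ↔ commutator G ≠ ⊤) ∧ (commutator G ≠ ⊤ ↔ c = 2) := by
  classical
  have : Fintype G := Fintype.ofFinite G
  have : Fintype (Cfsg.IrrCharacter G) := Fintype.ofFinite _
  have F1 := Helper80.irr_sum_degree_mul_of_ne_one (G := G) hu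
  have F2 := Helper80.irr_column_orthogonality_of_isConj (IsConj.refl u)
  set T : Cfsg.IrrCharacter G := Helper79.trivIrr G with hT
  have hT1 : ∀ g : G, (T : G → ℂ) g = 1 := fun g => rfl
  have hneT : ∀ χ : Cfsg.IrrCharacter G, χ ≠ T → (χ : G → ℂ) ≠ fun _ => (1 : ℂ) :=
    fun χ h h' => h (Subtype.ext h')
  have hdeg : ∀ χ : Cfsg.IrrCharacter G, ∃ d : ℕ, 0 < d ∧ (χ : G → ℂ) 1 = d :=
    fun χ => ⟨_, Helper80.irr_degree_pos χ, Helper80.irr_one_eq χ⟩
  -- values of nontrivial linear characters
  have hlin : ∀ f : G →* ℂˣ, f ≠ 1 → (f u : ℂ) = 1 - c := by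
    intro f hf
    let χ : Cfsg.IrrCharacter G := ⟨fun g => (f g : ℂ), Helper79.isIrrCharacter_of_hom f⟩
    have hne : (χ : G → ℂ) ≠ fun _ => 1 := by
      intro h
      apply hf
      ext g
      have := congrFun h g
      simpa [χ] using this
    rcases hyp χ hne with h | h
    · have h1 : ((f 1 : ℂˣ) : ℂ) - (f u : ℂ) = c := h
      rw [map_one, Units.val_one] at h1
      linear_combination -h1
    · exact absurd h (Units.ne_zero _)
  -- positivity obstruction
  have hpos : (∀ χ : Cfsg.IrrCharacter G, χ ≠ T →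
      0 ≤ ((χ : G → ℂ) 1 * (χ : G → ℂ) u).re) → False := by
    intro h
    have h1 : (∑ χ : Cfsg.IrrCharacter G, (χ : G → ℂ) 1 * (χ : G → ℂ) u).re = 0 := by
      rw [F1]; simp
    rw [Complex.re_sum] at h1
    have h2 : ((T : G → ℂ) 1 * (T : G → ℂ) u).re ≤
        ∑ χ : Cfsg.IrrCharacter G, ((χ : G → ℂ) 1 * (χ : G → ℂ) u).re :=
      Finset.single_le_sum
        (f := fun χ : Cfsg.IrrCharacter G => ((χ : G → ℂ) 1 * (χ : G → ℂ) u).re)
        (fun χ _ => by
          by_cases hχ : χ = T
          · rw [hχ, hT1, hT1]; simp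
          · exact h χ hχ) (Finset.mem_univ T)
    rw [h1, hT1, hT1] at h2
    norm_num at h2
  have hc0 : c ≠ 0 := by
    intro hc
    apply hpos
    intro χ hχ
    obtain ⟨d, hd, hd1⟩ := hdeg χ
    rcases hyp χ (hneT χ hχ) with h | h
    · have h3 : (χ : G → ℂ) u = d := by
        rw [hc] at h
        rw [← hd1]
        linear_combination -h
      rw [hd1, h3]
      have : ((d : ℂ) * (d : ℂ)).re = (d : ℝ) * d := by simp
      rw [this]
      positivity
    · rw [h]; simp
  -- not perfect → c = 2, together with the unique nontrivial linear character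
  have hnp : commutator G ≠ ⊤ → c = 2 ∧ (orderOf u = 2 ∧
      Subgroup.zpowers u ⊔ Cfsg.oddCore G = ⊤ ∧
      Subgroup.centralizer ({u} : Set G) = Subgroup.zpowers u) := by
    intro hcomm
    obtain ⟨f, hf⟩ := Helper79.commutator_ne_top_iff.mp hcomm
    have hfinv : f⁻¹ ≠ 1 := by
      intro h
      apply hf
      ext g
      have h' := congrArg (fun φ : G →* ℂˣ => φ g) h
      simp only [MonoidHom.inv_apply, MonoidHom.one_apply, inv_eq_one] at h'
      rw [h']
      rfl
    have h1 := hlin f hf
    have h2 := hlin f⁻¹ hfinv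
    have h3 : ((f⁻¹ u : ℂˣ) : ℂ) = ((f u : ℂˣ) : ℂ)⁻¹ := by
      rw [MonoidHom.inv_apply, Units.val_inv_eq_inv_val]
    have hne0 : ((f u : ℂˣ) : ℂ) ≠ 0 := Units.ne_zero _
    have hc2 : c = 2 := by
      have h4 : (1 - c) * (1 - c) = 1 := by
        have h7 : ((f u : ℂˣ) : ℂ)⁻¹ = ((f u : ℂˣ) : ℂ) := by rw [← h3, h2, h1]
        have h8 : ((f u : ℂˣ) : ℂ) * ((f u : ℂˣ) : ℂ) = 1 := by
          nth_rewrite 1 [← h7]
          exact inv_mul_cancel₀ hne0
        rw [h1] at h8
        exact h8
      have h5 : c * (c - 2) = 0 := by linear_combination h4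
      rcases mul_eq_zero.mp h5 with h6 | h6
      · exact absurd h6 hc0
      · linear_combination h6
    refine ⟨hc2, ?_⟩
    have hval : ∀ f' : G →* ℂˣ, f' ≠ 1 → (f' u : ℂ) = -1 := by
      intro f' hf'
      rw [hlin f' hf', hc2]; norm_num
    have hmul : ∀ f₁ f₂ : G →* ℂˣ, f₁ ≠ 1 → f₂ ≠ 1 → f₁ * f₂ = 1 := by
      intro f₁ f₂ hf₁ hf₂
      by_contra hne
      have e := hval (f₁ * f₂) hne
      rw [MonoidHom.mul_apply, Units.val_mul, hval f₁ hf₁, hval f₂ hf₂] at e
      norm_num at e
    have hff : f * f = 1 := hmul f f hf hf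
    have hfu : f u = -1 := by
      apply Units.ext
      rw [hval f hf]
      simp
    have hf2 : ∀ g, f g = 1 ∨ f g = -1 := by
      intro g
      have h4 : f g * f g = 1 := by
        have := congrArg (fun φ : G →* ℂˣ => φ g) hff
        simpa using this
      have h5 : ((f g : ℂˣ) : ℂ) * ((f g : ℂˣ) : ℂ) = 1 := by
        rw [← Units.val_mul, h4]; rfl
      rcases mul_self_eq_one_iff.mp h5 with h6 | h6
      · left; exact Units.ext h6
      · right; apply Units.ext; rw [h6]; simp
    let lam : Cfsg.IrrCharacter G := ⟨fun g => (f g : ℂ), Helper79.isIrrCharacter_of_hom f⟩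
    have hlamT : T ≠ lam := by
      intro h
      apply hf
      ext g
      have := congrFun (congrArg Subtype.val h) g
      simpa [lam, hT1] using this.symm
    have hA : ∀ χ : Cfsg.IrrCharacter G, χ ≠ T → χ ≠ lam → (χ : G → ℂ) u = 0 := by
      intro χ hχT hχl
      by_contra hne
      have e1 : (χ : G → ℂ) 1 - (χ : G → ℂ) u = 2 := by
        rcases hyp χ (hneT χ hχT) with h | h
        · rw [h, hc2]
        · exact absurd h hne
      let mu : Cfsg.IrrCharacter G :=
        ⟨fun g => (f g : ℂ) * (χ : G → ℂ) g, Helper79.isIrrCharacter_twist f χ.2⟩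
      by_cases hmu : mu = T
      · apply hχl
        apply Subtype.ext
        funext g
        have h4 : (f g : ℂ) * (χ : G → ℂ) g = 1 := congrFun (congrArg Subtype.val hmu) g
        show (χ : G → ℂ) g = (f g : ℂ)
        rcases hf2 g with h5 | h5
        · rw [h5] at h4 ⊢
          simpa using h4
        · rw [h5] at h4 ⊢
          simp only [Units.val_neg, Units.val_one] at h4 ⊢
          linear_combination -h4
      · have hmu1 : (mu : G → ℂ) 1 = (χ : G → ℂ) 1 := by
          show ((f 1 : ℂˣ) : ℂ) * (χ : G → ℂ) 1 = _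
          rw [map_one]; simp
        have hmuu : (mu : G → ℂ) u = - (χ : G → ℂ) u := by
          show ((f u : ℂˣ) : ℂ) * (χ : G → ℂ) u = _
          rw [hfu]; simp
        rcases hyp mu (hneT mu hmu) with h | h
        · rw [hmu1, hmuu, hc2] at h
          apply hne
          linear_combination (e1 - h) / (-2)
        · rw [hmuu] at h
          exact hne (neg_eq_zero.mp h)
    have hcard : Nat.card (Subgroup.centralizer ({u} : Set G)) = 2 := by
      have h4 : ∑ χ : Cfsg.IrrCharacter G,
          (χ : G → ℂ) u * (starRingEnd ℂ) ((χ : G → ℂ) u) =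
          (T : G → ℂ) u * (starRingEnd ℂ) ((T : G → ℂ) u) +
          (lam : G → ℂ) u * (starRingEnd ℂ) ((lam : G → ℂ) u) := by
        apply Finset.sum_eq_add T lam hlamT
        · intro χ _ hχ
          rw [hA χ hχ.1 hχ.2, zero_mul]
        · intro h; exact absurd (Finset.mem_univ _) h
        · intro h; exact absurd (Finset.mem_univ _) h
      rw [h4, hT1] at F2
      have h5 : (lam : G → ℂ) u = -1 := hval f hf
      rw [h5] at F2
      have h6 : ((2 : ℕ) : ℂ) = (Nat.card (Subgroup.centralizer ({u} : Set G)) : ℂ) := by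
        rw [← F2]; simp; norm_num
      exact_mod_cast h6.symm
    exact structure_of_card_centralizer u hu hcard f hfu hf2
  -- c = 2 → not perfect
  have hc2np : c = 2 → commutator G ≠ ⊤ := by
    intro hc2 hperf
    apply hpos
    intro χ hχ
    obtain ⟨d, hd, hd1⟩ := hdeg χ
    rcases hyp χ (hneT χ hχ) with h | h
    · have h3 : (χ : G → ℂ) u = (d : ℂ) - 2 := by
        rw [hc2] at h
        rw [← hd1]
        linear_combination -h
      rw [hd1, h3]
      have hd2 : 2 ≤ d := by
        by_contra hlt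
        have hd' : d = 1 := by omega
        rw [hd'] at hd1
        obtain ⟨f, hf⟩ := Helper79.isCharacter_linear (Helper79.irr_isCharacter χ)
          (by simpa using hd1)
        have hfne : f ≠ 1 := by
          intro h1
          apply hneT χ hχ
          funext g
          rw [hf g, h1]
          simp
        exact (Helper79.commutator_ne_top_iff.mpr ⟨f, hfne⟩) hperf
      have : ((d : ℂ) * ((d : ℂ) - 2)).re = (d : ℝ) * ((d : ℝ) - 2) := by simp
      rw [this]
      have hd3 : (2 : ℝ) ≤ d := by exact_mod_cast hd2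
      nlinarith
    · rw [h]; simp
  refine ⟨⟨fun h => commutator_ne_top_of_structure u h.1 h.2.1, fun h => (hnp h).2⟩,
    ⟨fun h => (hnp h).1, hc2np⟩⟩

end Cfsg.Agent.S4757
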