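import Cfsg.Statements.S4762
import Cfsg.Agent.Helper79.Linear
import Cfsg.Agent.Helper76.PSolvable
import Cfsg.Agent.Helper70.FrattiniAut2

set_option autoImplicit false
open Cfsg

namespace Cfsg.Agent.S4762

open scoped ComplexConjugate commutatorElement

/-- A group with centre of order 2: the central involution. -/
theorem exists_central_involution {Q : Type*} [Group Q]
    (hZ : Nat.card (Subgroup.center Q) = 2) :
    ∃ z : Q, z ∈ Subgroup.center Q ∧ z ≠ 1 ∧ ∀ c ∈ Subgroup.center Q, c = 1 ∨ c = z := by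
  obtain ⟨z, hz1, hzu⟩ := (Nat.card_eq_two_iff' (1 : Subgroup.center Q)).mp hZ
  refine ⟨z, z.2, fun h => hz1 (Subtype.ext h), ?_⟩
  intro c hc
  by_cases h : c = 1
  · exact Or.inl h
  · right
    have h1 : (⟨c, hc⟩ : Subgroup.center Q) ≠ 1 := fun h' => h (congrArg Subtype.val h')
    have := hzu ⟨c, hc⟩ h1
    exact congrArg Subtype.val this

/-- Extraspecial 2-groups have exactly one irreducible character of even degree. -/
theorem unique_of_extraspecial {G : Type*} [Group G] [Finite G]
    (hE : Cfsg.IsExtraspecial 2 G) :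
    Nat.card {χ : Cfsg.IrrCharacter G // 2 ∣ Cfsg.charDegree (χ : G → ℂ)} = 1 := by
  classical
  obtain ⟨⟨hP, hfr, hcz⟩, hZ⟩ := hE
  have : Fintype G := Fintype.ofFinite G
  have _f2 : Fact (Nat.Prime 2) := ⟨Nat.prime_two⟩
  obtain ⟨z, hzc, hz1, hzall⟩ := exists_central_involution hZ
  have : Fintype (Subgroup.center G) := Fintype.ofFinite _
  have hsum2 : ∀ F : G → ℂ, ∑ n : Subgroup.center G, F n = F 1 + F z := by
    intro F
    have huniv : (Finset.univ : Finset (Subgroup.center G)) = {1, ⟨z, hzc⟩} := by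
      ext n
      simp only [Finset.mem_univ, Finset.mem_insert, Finset.mem_singleton, true_iff]
      rcases hzall n n.2 with h | h
      · left; exact Subtype.ext h
      · right; exact Subtype.ext h
    rw [huniv, Finset.sum_pair]
    · rfl
    · intro h; exact hz1 (congrArg Subtype.val h).symm
  have key : ∀ χ : Cfsg.IrrCharacter G, 2 ∣ Cfsg.charDegree (χ : G → ℂ) →
      (∀ g, g ∉ Subgroup.center G → (χ : G → ℂ) g = 0) ∧ (χ : G → ℂ) z = - (χ : G → ℂ) 1 ∧
        2 * Cfsg.charDegree (χ : G → ℂ) ^ 2 = Nat.card G := by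
    intro χ hχ
    have hnl : Cfsg.charDegree (χ : G → ℂ) ≠ 1 := by
      intro h; rw [h] at hχ; omega
    have hker : ∃ x ∈ Subgroup.center G, (χ : G → ℂ) x ≠ (χ : G → ℂ) 1 := by
      by_contra hcon
      push Not at hcon
      apply hnl
      apply Helper79.irr_linear_of_commutator_le_ker
      rw [hcz]; exact hcon
    have hz0 := Helper79.irr_sum_coset_eq_zero χ.2 (Subgroup.center G) hker
    have hpair : ∀ g, (χ : G → ℂ) g + (χ : G → ℂ) (g * z) = 0 := by
      intro g
      have := hz0 g
      rw [hsum2 (fun n => (χ : G → ℂ) (g * n))] at this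
      simpa using this
    have hvan : ∀ g, g ∉ Subgroup.center G → (χ : G → ℂ) g = 0 := by
      intro g hg
      obtain ⟨h, hh⟩ : ∃ h : G, h * g ≠ g * h := by
        by_contra hcon
        push Not at hcon
        exact hg (Subgroup.mem_center_iff.mpr hcon)
      have hcm : h * g * h⁻¹ * g⁻¹ ∈ Subgroup.center G := by
        rw [← hcz, commutator_def]
        exact Subgroup.commutator_mem_commutator (Subgroup.mem_top h) (Subgroup.mem_top g)
      have hne : h * g * h⁻¹ * g⁻¹ ≠ 1 := by
        intro h1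
        apply hh
        calc h * g = (h * g * h⁻¹ * g⁻¹) * (g * h) := by group
          _ = g * h := by rw [h1, one_mul]
      have heq : h * g * h⁻¹ * g⁻¹ = z := (hzall _ hcm).resolve_left hne
      have hconj : h * g * h⁻¹ = g * z := by
        calc h * g * h⁻¹ = (h * g * h⁻¹ * g⁻¹) * g := by group
          _ = z * g := by rw [heq]
          _ = g * z := (Subgroup.mem_center_iff.mp hzc g).symm
      have h2 := hpair g
      rw [← hconj, Helper79.isCharacter_conj_eq (Helper79.irr_isCharacter χ)] at h2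
      have h3 : (2 : ℂ) * (χ : G → ℂ) g = 0 := by rw [two_mul]; exact h2
      simpa using h3
    have hzval : (χ : G → ℂ) z = - (χ : G → ℂ) 1 := by
      have := hpair 1
      rw [one_mul] at this
      exact eq_neg_of_add_eq_zero_right this
    refine ⟨hvan, hzval, ?_⟩
    have hn := Helper80.irr_orthogonality_conj χ χ
    rw [if_pos rfl] at hn
    have hsub : ∑ g ∈ ({1, z} : Finset G), (χ : G → ℂ) g * conj ((χ : G → ℂ) g) =
        ∑ g : G, (χ : G → ℂ) g * conj ((χ : G → ℂ) g) := by
      apply Finset.sum_subset (Finset.subset_univ _)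
      intro g _ hg
      have hgc : g ∉ Subgroup.center G := by
        intro hc
        rcases hzall g hc with h | h <;> simp [h] at hg
      rw [hvan g hgc]
      simp
    rw [← hsub, Finset.sum_pair (Ne.symm hz1), hzval,
      Helper79.isCharacter_one_eq_charDegree (Helper79.irr_isCharacter χ)] at hn
    have h4 : ((2 * Cfsg.charDegree (χ : G → ℂ) ^ 2 : ℕ) : ℂ) = ((Fintype.card G : ℕ) : ℂ) := by
      rw [← hn]
      push_cast
      simp only [map_neg, Complex.conj_natCast]
      ring
    rw [Nat.card_eq_fintype_card]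
    exact_mod_cast h4
  rw [Nat.card_eq_one_iff_unique]
  constructor
  · constructor
    rintro ⟨χ, hχ⟩ ⟨χ', hχ'⟩
    apply Subtype.ext
    obtain ⟨h1, h2, h3⟩ := key χ hχ
    obtain ⟨h1', h2', h3'⟩ := key χ' hχ'
    have hd : Cfsg.charDegree (χ : G → ℂ) = Cfsg.charDegree (χ' : G → ℂ) := by
      have : Cfsg.charDegree (χ : G → ℂ) ^ 2 = Cfsg.charDegree (χ' : G → ℂ) ^ 2 := by omega
      exact Nat.pow_left_injective two_ne_zero this
    have hone : (χ : G → ℂ) 1 = (χ' : G → ℂ) 1 := by
      rw [Helper79.isCharacter_one_eq_charDegree (Helper79.irr_isCharacter χ),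
        Helper79.isCharacter_one_eq_charDegree (Helper79.irr_isCharacter χ'), hd]
    apply Subtype.ext
    funext g
    by_cases hg : g ∈ Subgroup.center G
    · rcases hzall g hg with rfl | rfl
      · exact hone
      · rw [h2, h2', hone]
    · rw [h1 g hg, h1' g hg]
  · have hne : commutator G ≠ ⊥ := by
      rw [hcz]
      intro h
      rw [h, Subgroup.card_bot] at hZ
      omega
    obtain ⟨χ, hχ⟩ := Helper79.exists_nonlinear_of_commutator_ne_bot hne
    exact ⟨⟨χ, (Helper79.irr_pgroup_dvd_degree_iff hP χ).mpr hχ⟩⟩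

/-- The arithmetic heart: `p^i + (p^k)² = p^j p^i` forces `p = 2`, `j = 1`. -/
theorem arith {p i j k : ℕ} (hp : p.Prime) (h : p ^ i + (p ^ k) ^ 2 = p ^ j * p ^ i) :
    p = 2 ∧ j = 1 := by
  have hpi : 0 < p ^ i := pow_pos hp.pos i
  have hpk : 0 < (p ^ k) ^ 2 := pow_pos (pow_pos hp.pos k) 2
  have hj : j ≠ 0 := by
    rintro rfl
    rw [pow_zero, one_mul] at h
    omega
  have hpj : 2 ≤ p ^ j := by
    calc 2 ≤ p := hp.two_le
      _ = p ^ 1 := (pow_one p).symm
      _ ≤ p ^ j := Nat.pow_le_pow_right hp.pos (Nat.one_le_iff_ne_zero.mpr hj)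
  obtain ⟨m, hm⟩ : ∃ m, p ^ j = m + 1 := ⟨p ^ j - 1, by omega⟩
  have h2 : m * p ^ i = (p ^ k) ^ 2 := by
    rw [hm] at h
    nlinarith
  have hmdvd : m ∣ p ^ (k * 2) := by
    rw [pow_mul]
    exact Dvd.intro _ h2
  obtain ⟨l, -, hl⟩ := (Nat.dvd_prime_pow hp).mp hmdvd
  have hl0 : l = 0 := by
    by_contra hl0
    have h3 : p ∣ m := by rw [hl]; exact dvd_pow_self p hl0
    have h4 : p ∣ p ^ j := dvd_pow_self p hj
    rw [hm] at h4
    have h5 : p ∣ 1 := (Nat.dvd_add_right h3).mp h4
    exact hp.one_lt.ne' (Nat.dvd_one.mp h5)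
  rw [hl0, pow_zero] at hl
  rw [hl] at hm
  have hp2 : p = 2 := by
    have h4 : p ∣ 2 := by
      have : p ∣ p ^ j := dvd_pow_self p hj
      rwa [hm] at this
    exact (Nat.prime_dvd_prime_iff_eq hp Nat.prime_two).mp h4
  refine ⟨hp2, ?_⟩
  subst hp2
  have : 2 ^ j = 2 ^ 1 := by rw [hm]; norm_num
  exact Nat.pow_right_injective (le_refl 2) this

/-- A subgroup of prime index is maximal. -/
theorem isCoatom_of_index_prime {G : Type*} [Group G] (K : Subgroup G) (h : K.index.Prime) :
    IsCoatom K := by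
  refine ⟨fun ht => ?_, fun H hH => ?_⟩
  · rw [ht, Subgroup.index_top] at h
    exact Nat.not_prime_one h
  · have h1 := Subgroup.relIndex_mul_index hH.le
    rcases (Nat.dvd_prime h).mp ⟨_, h1.symm⟩ with h2 | h2
    · exact absurd (Subgroup.relIndex_eq_one.mp h2) (not_le_of_gt hH)
    · rw [h2] at h1
      have hpos : 0 < K.index := h.pos
      have h3 : H.index = 1 := by nlinarith
      exact Subgroup.index_eq_one.mp h3

/-- A nilpotent group with a unique irreducible character of degree divisible by `p` is a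
`p`-group. -/
theorem isPGroup_of_unique {G : Type*} [Group G] [Finite G] [Group.IsNilpotent G] (p : ℕ)
    [Fact p.Prime] (χ0 : Cfsg.IrrCharacter G) (hχ0 : p ∣ Cfsg.charDegree (χ0 : G → ℂ))
    (huniq : ∀ χ : Cfsg.IrrCharacter G, p ∣ Cfsg.charDegree (χ : G → ℂ) → χ = χ0)
    (hvan : ∀ f : G →* ℂˣ, ∀ g : G, f g ≠ 1 → (χ0 : G → ℂ) g = 0) : IsPGroup p G := by
  classical
  have hp : p.Prime := Fact.out
  let P : Sylow p G := default
  have hPn : (P : Subgroup G).Normal :=
    Sylow.normal_of_normalizerCondition Group.normalizerCondition_of_isNilpotent P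
  by_cases hPtop : (P : Subgroup G) = ⊤
  · intro g
    have hg : g ∈ (P : Subgroup G) := by rw [hPtop]; exact Subgroup.mem_top g
    obtain ⟨k, hk⟩ := P.isPGroup' ⟨g, hg⟩
    exact ⟨k, congrArg Subtype.val hk⟩
  exfalso
  set N : Subgroup G := Cfsg.pPrimeCore p G with hN
  have hNn : N.Normal := Helper76.pPrimeCore_normal
  have hNcop : (Nat.card N).Coprime p := Helper76.pPrimeCore_coprime
  -- the index of N is a power of p
  have hNidx0 : N.index ≠ 0 := Subgroup.index_ne_zero_of_finite
  have hNidx : N.index = p ^ N.index.primeFactorsList.length := by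
    apply Nat.eq_prime_pow_of_unique_prime_dvd hNidx0
    intro q hq hqd
    by_contra hqp
    have _fq : Fact q.Prime := ⟨hq⟩
    let Q : Sylow q G := default
    have hQn : (Q : Subgroup G).Normal :=
      Sylow.normal_of_normalizerCondition Group.normalizerCondition_of_isNilpotent Q
    have hQcop : (Nat.card (Q : Subgroup G)).Coprime p := by
      rw [Sylow.card_eq_multiplicity]
      exact Nat.Coprime.pow_left _ ((Nat.coprime_primes hq hp).mpr hqp)
    have hQle : (Q : Subgroup G) ≤ N := Helper76.le_pPrimeCore _ hQn hQcop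
    exact Sylow.not_dvd_index Q (hqd.trans (Subgroup.index_dvd_of_le hQle))
  set k := N.index.primeFactorsList.length with hk
  have hcardG : Nat.card G = Nat.card N * p ^ k := by
    rw [← hNidx]; exact (N.card_mul_index).symm
  have hNpos : 0 < Nat.card N := Nat.card_pos
  have hpN : ¬ p ∣ Nat.card N := fun h =>
    hp.one_lt.ne' (Nat.dvd_one.mp (hNcop.gcd_eq_one ▸ Nat.dvd_gcd h (dvd_refl p)))
  have hPcard : Nat.card (P : Subgroup G) = p ^ k := by
    rw [Sylow.card_eq_multiplicity, hcardG, Nat.factorization_mul hNpos.ne' (pow_pos hp.pos k).ne']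
    simp [Nat.factorization_eq_zero_of_not_dvd hpN, hp.factorization_self]
  have hcompl : Subgroup.IsComplement' (P : Subgroup G) N := by
    apply Subgroup.isComplement'_of_coprime
    · rw [hPcard, hcardG, mul_comm]
    · rw [hPcard]; exact Nat.Coprime.pow_left _ hNcop.symm
  have hdisj : (P : Subgroup G) ⊓ N = ⊥ := hcompl.disjoint.eq_bot
  have hdecomp : ∀ g : G, ∃ x ∈ (P : Subgroup G), ∃ y ∈ N, g = x * y := by
    intro g
    obtain ⟨⟨⟨x, hx⟩, ⟨y, hy⟩⟩, hxy, -⟩ := (Subgroup.isComplement'_def.mp hcompl).existsUnique g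
    exact ⟨x, hx, y, hy, hxy.symm⟩
  by_cases hcomm : commutator G ≤ N
  · -- P is central, restriction to N is irreducible
    have hPcen : (P : Subgroup G) ≤ Subgroup.center G := by
      intro x hx
      rw [Subgroup.mem_center_iff]
      intro g
      have h1 : x * g * x⁻¹ * g⁻¹ ∈ (P : Subgroup G) ⊓ N := by
        refine ⟨?_, ?_⟩
        · have : x * g * x⁻¹ * g⁻¹ = x * (g * x⁻¹ * g⁻¹) := by group
          rw [this]
          exact (P : Subgroup G).mul_mem hx (hPn.conj_mem _ ((P : Subgroup G).inv_mem hx) g)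
        · apply hcomm
          rw [commutator_def]
          exact Subgroup.commutator_mem_commutator (Subgroup.mem_top x) (Subgroup.mem_top g)
      rw [hdisj, Subgroup.mem_bot] at h1
      calc g * x = (x * g * x⁻¹ * g⁻¹)⁻¹ * (x * g) := by group
        _ = x * g := by rw [h1, inv_one, one_mul]
    have hirr := Helper79.isIrrCharacter_restrict_of_center_mul χ0.2 N (fun g => by
      obtain ⟨x, hx, y, hy, hxy⟩ := hdecomp g
      exact ⟨x, hPcen hx, y, hy, hxy⟩)
    have hdvd := Helper79.isIrrCharacter_charDegree_dvd_card hirr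
    have hdeg : Cfsg.charDegree (fun y : N => (χ0 : G → ℂ) y) = Cfsg.charDegree (χ0 : G → ℂ) := rfl
    rw [hdeg] at hdvd
    exact hpN (hχ0.trans hdvd)
  · -- G/N is a non-abelian p-group
    have hne : commutator (G ⧸ N) ≠ ⊥ := by
      intro hbot
      apply hcomm
      have hmap : Subgroup.map (QuotientGroup.mk' N) (commutator G) = commutator (G ⧸ N) := by
        rw [commutator_def, Subgroup.map_commutator, commutator_def]
        have : Subgroup.map (QuotientGroup.mk' N) ⊤ = ⊤ := by
          rw [← MonoidHom.range_eq_map]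
          exact MonoidHom.range_eq_top.mpr (QuotientGroup.mk'_surjective N)
        rw [this]
      rw [hbot, Subgroup.map_eq_bot_iff, QuotientGroup.ker_mk'] at hmap
      exact hmap
    obtain ⟨ψ, hψ⟩ := Helper79.exists_nonlinear_of_commutator_ne_bot hne
    have hQP : IsPGroup p (G ⧸ N) := IsPGroup.of_card (n := k) (by
      rw [← hNidx]; rfl)
    have hpψ : p ∣ Cfsg.charDegree (ψ : G ⧸ N → ℂ) :=
      (Helper79.irr_pgroup_dvd_degree_iff hQP ψ).mpr hψ
    let χ1 := Helper79.irrQuotientEquiv N ψ
    have hχ1deg : Cfsg.charDegree ((χ1 : Cfsg.IrrCharacter G) : G → ℂ) =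
        Cfsg.charDegree (ψ : G ⧸ N → ℂ) := by
      unfold Cfsg.charDegree
      have : ((χ1 : Cfsg.IrrCharacter G) : G → ℂ) 1 = (ψ : G ⧸ N → ℂ) 1 :=
        Helper79.irrQuotientEquiv_apply N ψ 1
      rw [this]
    have hχ1 : (χ1 : Cfsg.IrrCharacter G) = χ0 := huniq _ (by rw [hχ1deg]; exact hpψ)
    have hker : ∀ y ∈ N, (χ0 : G → ℂ) y = (χ0 : G → ℂ) 1 := by
      rw [← hχ1]; exact χ1.2
    -- a linear character of G, trivial on P, nontrivial
    obtain ⟨g0, hg0⟩ : ∃ g : G, g ∉ (P : Subgroup G) := by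
      by_contra hall
      push Not at hall
      exact hPtop (eq_top_iff.mpr fun g _ => hall g)
    have _nt : Nontrivial (G ⧸ (P : Subgroup G)) :=
      ⟨⟨(g0 : G ⧸ (P : Subgroup G)), 1, fun h => hg0 ((QuotientGroup.eq_one_iff g0).mp h)⟩⟩
    have hlt : commutator (G ⧸ (P : Subgroup G)) ≠ ⊤ :=
      (Group.IsSolvable.commutator_lt_top_of_nontrivial (G ⧸ (P : Subgroup G))).ne
    obtain ⟨fbar, hfbar⟩ := Helper79.commutator_ne_top_iff.mp hlt
    obtain ⟨q, hq⟩ : ∃ q : G ⧸ (P : Subgroup G), fbar q ≠ 1 := by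
      by_contra hall
      push Not at hall
      exact hfbar (MonoidHom.ext hall)
    obtain ⟨g, rfl⟩ := QuotientGroup.mk_surjective q
    obtain ⟨x, hx, y, hy, rfl⟩ := hdecomp g
    let f : G →* ℂˣ := fbar.comp (QuotientGroup.mk' (P : Subgroup G))
    have hfy : f y ≠ 1 := by
      intro h1
      apply hq
      have h2 : ((x * y : G) : G ⧸ (P : Subgroup G)) = (y : G ⧸ (P : Subgroup G)) := by
        rw [QuotientGroup.mk_mul, (QuotientGroup.eq_one_iff x).mpr hx, one_mul]
      rw [h2]
      exact h1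
    have h0 := hvan f y hfy
    rw [hker y hy] at h0
    exact Helper80.irr_one_ne_zero χ0 h0

/-- The forward direction. -/
theorem extraspecial_of_unique {G : Type*} [Group G] [Finite G] [Group.IsNilpotent G] (p : ℕ)
    [Fact p.Prime]
    (h : Nat.card {χ : Cfsg.IrrCharacter G // p ∣ Cfsg.charDegree (χ : G → ℂ)} = 1) :
    p = 2 ∧ Cfsg.IsExtraspecial 2 G := by
  classical
  have hp : p.Prime := Fact.out
  obtain ⟨hsub, ⟨⟨χ0, hχ0⟩⟩⟩ := Nat.card_eq_one_iff_unique.mp h
  have huniq : ∀ χ : Cfsg.IrrCharacter G, p ∣ Cfsg.charDegree (χ : G → ℂ) → χ = χ0 := by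
    intro χ hχ
    exact congrArg Subtype.val (hsub.elim ⟨χ, hχ⟩ ⟨χ0, hχ0⟩)
  have hvan : ∀ f : G →* ℂˣ, ∀ g : G, f g ≠ 1 → (χ0 : G → ℂ) g = 0 := by
    intro f g hfg
    have h1 := huniq (Helper79.irrTwist f χ0) (by rw [Helper79.charDegree_irrTwist]; exact hχ0)
    have h2 : (f g : ℂ) * (χ0 : G → ℂ) g = (χ0 : G → ℂ) g := by
      have := congrArg (fun χ : Cfsg.IrrCharacter G => (χ : G → ℂ) g) h1
      simpa [Helper79.irrTwist_apply] using this
    have h3 : ((f g : ℂ) - 1) * (χ0 : G → ℂ) g = 0 := by rw [sub_mul, one_mul, h2, sub_self]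
    rcases mul_eq_zero.mp h3 with h4 | h4
    · exfalso
      apply hfg
      have h5 : (f g : ℂ) = 1 := sub_eq_zero.mp h4
      exact Units.ext h5
    · exact h4
  have hP : IsPGroup p G := isPGroup_of_unique p χ0 hχ0 huniq hvan
  have : Fintype G := Fintype.ofFinite G
  have : Fintype (Cfsg.IrrCharacter G) := Fintype.ofFinite _
  obtain ⟨n, hn⟩ := IsPGroup.iff_card.mp hP
  have hsplit := Helper79.sum_charDegree_sq_split (G := G)
  have hfilter : Finset.univ.filter
      (fun χ : Cfsg.IrrCharacter G => ¬ Cfsg.charDegree (χ : G → ℂ) = 1) = {χ0} := by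
    ext χ
    simp only [Finset.mem_filter, Finset.mem_univ, true_and, Finset.mem_singleton]
    constructor
    · intro hχ
      exact huniq χ ((Helper79.irr_pgroup_dvd_degree_iff hP χ).mpr hχ)
    · intro hχ
      rw [hχ]
      exact (Helper79.irr_pgroup_dvd_degree_iff hP χ0).mp hχ0
  rw [hfilter, Finset.sum_singleton, ← Nat.card_eq_fintype_card] at hsplit
  have hab : Nat.card (commutator G) * (commutator G).index = Nat.card G :=
    (commutator G).card_mul_index
  obtain ⟨i, hi⟩ : ∃ i, (commutator G).index = p ^ i := by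
    have h1 : (commutator G).index ∣ p ^ n := by
      rw [← hn]; exact (commutator G).index_dvd_card
    obtain ⟨i, -, hi⟩ := (Nat.dvd_prime_pow hp).mp h1
    exact ⟨i, hi⟩
  obtain ⟨j, hj⟩ : ∃ j, Nat.card (commutator G) = p ^ j := by
    have h1 : Nat.card (commutator G) ∣ p ^ n := by
      rw [← hn]; exact Subgroup.card_subgroup_dvd_card _
    obtain ⟨j, -, hj⟩ := (Nat.dvd_prime_pow hp).mp h1
    exact ⟨j, hj⟩
  obtain ⟨k, hk⟩ : ∃ k, Cfsg.charDegree (χ0 : G → ℂ) = p ^ k := by
    have h1 := Helper79.irr_charDegree_dvd_card χ0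
    rw [hn] at h1
    obtain ⟨k, -, hk⟩ := (Nat.dvd_prime_pow hp).mp h1
    exact ⟨k, hk⟩
  have harith : p ^ i + (p ^ k) ^ 2 = p ^ j * p ^ i := by
    rw [← hi, ← hj, ← hk, hab, hsplit]
  obtain ⟨hp2, hj1⟩ := arith hp harith
  subst hp2
  have hbcard : Nat.card (commutator G) = 2 := by rw [hj, hj1]; norm_num
  refine ⟨rfl, ?_⟩
  have hcc : commutator G ≤ Subgroup.center G := by
    obtain ⟨w, hw1, hwu⟩ := (Nat.card_eq_two_iff' (1 : commutator G)).mp hbcard
    intro c hc
    rw [Subgroup.mem_center_iff]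
    intro g
    by_cases hc1 : c = 1
    · rw [hc1]; simp
    · have hnorm : (commutator G).Normal := inferInstance
      have hgc : g * c * g⁻¹ ∈ commutator G := hnorm.conj_mem c hc g
      have hgc1 : g * c * g⁻¹ ≠ 1 := by
        intro h1
        apply hc1
        calc c = g⁻¹ * (g * c * g⁻¹) * g := by group
          _ = 1 := by rw [h1]; group
      have e1 : (⟨c, hc⟩ : commutator G) = w :=
        hwu ⟨c, hc⟩ (fun h' => hc1 (congrArg Subtype.val h'))
      have e2 : (⟨g * c * g⁻¹, hgc⟩ : commutator G) = w :=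
        hwu _ (fun h' => hgc1 (congrArg Subtype.val h'))
      have e3 : g * c * g⁻¹ = c := congrArg Subtype.val (e2.trans e1.symm)
      calc g * c = (g * c * g⁻¹) * g := by group
        _ = c * g := by rw [e3]
  have hcc' : Subgroup.center G ≤ commutator G := by
    intro c hc
    by_contra hcn
    obtain ⟨f, hf⟩ := Helper79.exists_hom_apply_ne_one hcn
    exact Helper79.irr_center_ne_zero χ0 hc (hvan f c hf)
  have heq : commutator G = Subgroup.center G := le_antisymm hcc hcc'
  have hZ : Nat.card (Subgroup.center G) = 2 := by rw [← heq]; exact hbcard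
  have hsq : ∀ x : G, x * x ∈ commutator G := by
    intro x
    rw [heq, Subgroup.mem_center_iff]
    intro y
    have huc : x * y * x⁻¹ * y⁻¹ ∈ commutator G := by
      rw [commutator_def]
      exact Subgroup.commutator_mem_commutator (Subgroup.mem_top x) (Subgroup.mem_top y)
    obtain ⟨u, hu⟩ : ∃ u, u = x * y * x⁻¹ * y⁻¹ := ⟨_, rfl⟩
    rw [← hu] at huc
    have hucen : ∀ g, g * u = u * g := Subgroup.mem_center_iff.mp (hcc huc)
    have huu : u * u = 1 := by
      have h1 : (⟨u, huc⟩ : commutator G) ^ Nat.card (commutator G) = 1 := pow_card_eq_one'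
      rw [hbcard, pow_two] at h1
      exact congrArg Subtype.val h1
    have hxy : x * y = u * y * x := by rw [hu]; group
    calc y * (x * x) = (u * u) * y * (x * x) := by rw [huu, one_mul]
      _ = u * (u * y * x) * x := by group
      _ = u * (x * y) * x := by rw [← hxy]
      _ = (u * x) * y * x := by group
      _ = (x * u) * y * x := by rw [hucen x]
      _ = x * (u * y * x) := by group
      _ = x * (x * y) := by rw [← hxy]
      _ = x * x * y := by group
  have hfr : frattini G = Subgroup.center G := by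
    apply le_antisymm
    · intro g hg
      by_contra hgc
      rw [← heq] at hgc
      obtain ⟨f, hf⟩ := Helper79.exists_hom_apply_ne_one hgc
      have hidx : f.ker.index = 2 := by
        rw [Subgroup.index_ker]
        have hle : f.range ≤ rootsOfUnity 2 ℂ := by
          rintro _ ⟨x, rfl⟩
          rw [mem_rootsOfUnity, pow_two, ← map_mul]
          exact Helper79.hom_apply_eq_one_of_mem_commutator f (hsq x)
        have hdvd := Subgroup.card_dvd_of_le hle
        rw [Complex.card_rootsOfUnity] at hdvd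
        rcases (Nat.dvd_prime Nat.prime_two).mp hdvd with h1 | h1
        · exfalso
          have hsub : Subsingleton f.range := (Nat.card_eq_one_iff_unique.mp h1).1
          have : (⟨f g, ⟨g, rfl⟩⟩ : f.range) = 1 := Subsingleton.elim _ _
          exact hf (congrArg Subtype.val this)
        · exact h1
      have hco : IsCoatom f.ker :=
        isCoatom_of_index_prime f.ker (by rw [hidx]; exact Nat.prime_two)
      have := frattini_le_coatom hco hg
      exact hf (MonoidHom.mem_ker.mp this)
    · rw [← heq]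
      exact (Helper70.frattini_pGroup_facts hP).1
  exact ⟨⟨hP, hfr, heq⟩, hZ⟩

/-- Let p be a prime and G a finite nilpotent group. Then G has exactly one irreducible complex character of degree divisible by p if and only if p = 2 and G is an extraspecial 2-group. -/
theorem result {G : Type*} [Group G] [Finite G] [Group.IsNilpotent G] (p : ℕ) [Fact p.Prime] : Nat.card {χ : Cfsg.IrrCharacter G // p ∣ Cfsg.charDegree (χ : G → ℂ)} = 1 ↔ (p = 2 ∧ Cfsg.IsExtraspecial 2 G) := by
  constructor
  · exact extraspecial_of_unique p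
  · rintro ⟨rfl, hE⟩
    exact unique_of_extraspecial hE

end Cfsg.Agent.S4762
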