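import Cfsg.Statements.S4765
import Cfsg.Agent.Helper39.SL2Half
import Cfsg.Agent.Helper79.Quotient

set_option autoImplicit false
open Cfsg

namespace Cfsg.Agent.S4765

open Cfsg.Agent.Helper39 Cfsg.Agent.Helper38 Cfsg.Agent.Helper79

section Aux

variable {F : Type*} [Field F] [Fintype F] [DecidableEq F]

theorem false_of_dvd_succ {p a b : ℕ} (hp : p.Prime) (ha : p ∣ a) (hb : p ∣ b) (h : a = b + 1) :
    False := by
  rw [h] at ha
  have := (Nat.dvd_add_right hb).mp ha
  exact hp.one_lt.ne' (Nat.dvd_one.mp this)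

theorem charDegree_eq_of_one {K : Type*} [Group K] {Φ : K → ℂ} {n : ℕ} (h : Φ 1 = (n : ℂ)) :
    charDegree Φ = n := by
  unfold charDegree
  rw [h]
  simp

/-- The degree of the Steinberg character of `SL₂(F)`. -/
theorem st_one : (psSL (1 : MulChar F ℂ) - trivSL :
    Matrix.SpecialLinearGroup (Fin 2) F → ℂ) 1 = (Fintype.card F : ℂ) := by
  rw [Pi.sub_apply, psSL_one]
  simp [trivSL]

/-- The Steinberg character of `SL₂(F)` is trivial on the centre. -/
theorem st_center (z : Matrix.SpecialLinearGroup (Fin 2) F)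
    (hz : z ∈ Subgroup.center (Matrix.SpecialLinearGroup (Fin 2) F)) :
    (psSL (1 : MulChar F ℂ) - trivSL : Matrix.SpecialLinearGroup (Fin 2) F → ℂ) z =
      (psSL (1 : MulChar F ℂ) - trivSL : Matrix.SpecialLinearGroup (Fin 2) F → ℂ) 1 := by
  rw [Matrix.SpecialLinearGroup.mem_center_iff] at hz
  obtain ⟨r, hr, hrz⟩ := hz
  have hr2 : r * r = 1 := by
    rw [Fintype.card_fin, pow_two] at hr
    exact hr
  have hz' : z = triSL (⟨r, r, hr2, hr2⟩ : Fˣ) 0 := by
    apply Subtype.ext
    rw [triSL_coe, ← hrz]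
    ext i j
    fin_cases i <;> fin_cases j <;> simp [Matrix.scalar]
  have hu : IsUnit r := IsUnit.of_mul_eq_one r hr2
  rw [st_one, hz', Pi.sub_apply, psSL_eq, toGL_triSL, psGL_triGL]
  simp [trivSL, MulChar.one_apply hu]

/-- An irreducible character of `SL₂(F)` of degree divisible by the characteristic is the
Steinberg character. -/
theorem sl2_eq_st_of_dvd (p : ℕ) [Fact p.Prime] [CharP F p]
    {θ : Matrix.SpecialLinearGroup (Fin 2) F → ℂ}
    (hθ : IsIrrCharacter (Matrix.SpecialLinearGroup (Fin 2) F) θ) (hdvd : p ∣ charDegree θ) :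
    θ = psSL (1 : MulChar F ℂ) - trivSL := by
  have hp : p.Prime := Fact.out
  obtain ⟨n, -, hq⟩ := FiniteField.card F p
  have hpq : p ∣ Fintype.card F := by
    rw [hq]
    exact dvd_pow_self p n.pos.ne'
  have hθ1 := isCharacter_one_eq_charDegree (isCharacter_of_irr hθ)
  have hpos : charDegree θ ≠ 0 := by
    intro h0
    have h1 : θ 1 ≠ 0 := by
      obtain ⟨d, σ, hσ, rfl⟩ := hθ
      rw [Representation.char_one]
      have : Nontrivial (Fin d → ℂ) := ((isIrreducible_iff σ).mp hσ).1
      have h2 : 0 < Module.finrank ℂ (Fin d → ℂ) := Module.finrank_pos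
      exact_mod_cast h2.ne'
    rw [hθ1, h0] at h1
    exact h1 (by simp)
  apply sl2_degree_q hθ
  obtain ⟨ψ, hψ⟩ := exists_primitive_addChar (F := F)
  rcases Nat.even_or_odd (Fintype.card F) with heven | hodd
  · -- even `q`: every element is a square
    have hchar : ringChar F = 2 :=
      FiniteField.even_card_iff_char_two.mpr (Nat.even_iff.mp heven)
    obtain ⟨b, hb, hb1, hbt, hdegb, -⟩ := sl2_profile hθ hψ
    have hball : ∀ c : F, c ≠ 0 → b c = b 1 := by
      intro c hc
      obtain ⟨t, ht⟩ := FiniteField.isSquare_of_char_two hchar c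
      have ht0 : t ≠ 0 := by
        rintro rfl
        apply hc
        rw [ht, mul_zero]
      have h1 := hbt 1 t ht0
      rw [one_mul, pow_two, ← ht] at h1
      exact h1
    have hsum : ∑ c : F, b c = b 0 + (Fintype.card F - 1) * b 1 := by
      rw [← Finset.add_sum_erase Finset.univ b (Finset.mem_univ (0 : F))]
      congr 1
      rw [Finset.sum_congr rfl (fun c hc => hball c (Finset.ne_of_mem_erase hc)),
        Finset.sum_const, Finset.card_erase_of_mem (Finset.mem_univ _), Finset.card_univ,
        smul_eq_mul]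
    have hd : charDegree θ = b 0 + (Fintype.card F - 1) * b 1 := by
      rw [← hsum]
      exact_mod_cast hθ1.symm.trans hdegb
    have hq1 : 1 ≤ Fintype.card F := Fintype.card_pos
    have hb1' : b 1 ≤ 1 := hb1 1 one_ne_zero
    rw [hdegb, hsum]
    rw [hd] at hdvd hpos
    rcases sl2_irr_cases hθ with ⟨α, -, rfl⟩ | rfl | h | ⟨η, θ', h1, h2, hθ', hne, hs⟩ | hc
    · exfalso
      have h3 : charDegree (psSL α) = Fintype.card F + 1 := by
        apply charDegree_eq_of_one
        rw [psSL_one]
        push_cast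
        ring
      rw [← hd, h3] at hdvd
      exact false_of_dvd_succ hp hdvd hpq rfl
    · exfalso
      have h3 : charDegree (trivSL (F := F)) = 1 := by
        apply charDegree_eq_of_one
        simp [trivSL]
      rw [← hd, h3] at hdvd
      exact hp.one_lt.ne' (Nat.dvd_one.mp hdvd)
    · have h3 : charDegree θ = Fintype.card F := by
        apply charDegree_eq_of_one
        rw [h, st_one]
      rw [← hd, h3]
    · have hb0 := profile_zero_quad h1 hθ hθ' hne hs hb
      rw [hb0] at hdvd ⊢
      interval_cases hb1v : b 1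
      · exfalso
        simp at hdvd
        exact hp.one_lt.ne' hdvd
      · congr 1
        omega
    · have hb0 := profile_zero_cuspidal hθ hc hb
      rw [hb0] at hdvd hpos
      exfalso
      interval_cases hb1v : b 1
      · simp at hpos
      · simp only [zero_add, mul_one] at hdvd
        exact false_of_dvd_succ hp hpq hdvd (by omega)
  · -- odd `q`
    obtain ⟨k, hk⟩ := hodd
    obtain ⟨ε, hε⟩ := exists_nonsquare_of_odd (F := F) ⟨k, hk⟩
    obtain ⟨s, p', m, -, -, -, hdeg, -, ht⟩ := sl2_odd_types_nat ⟨k, hk⟩ hθ hψ hε hk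
    have hd : charDegree θ = s + (p' + m) * k := by
      exact_mod_cast hθ1.symm.trans hdeg
    rw [hdeg, hk]
    rw [hd] at hdvd hpos
    rw [hk] at hpq
    rcases ht with ⟨rfl, rfl, rfl, -⟩ | ⟨rfl, rfl, rfl, -⟩ | ⟨rfl, rfl, rfl, -⟩ | ⟨rfl, hpm, -⟩ |
      ⟨rfl, h1, h2, h3, -⟩
    · exfalso
      exact false_of_dvd_succ hp hdvd hpq (by ring)
    · exfalso
      simp at hdvd
      exact hp.one_lt.ne' hdvd
    · congr 1
      ring
    · exfalso
      rw [hpm] at hdvd
      exact false_of_dvd_succ hp (Dvd.dvd.mul_left hdvd 2) hpq (by ring)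
    · exfalso
      have h4 : p ∣ 2 * k := by
        have h5 : p' + m = 1 ∨ p' + m = 2 := by omega
        rcases h5 with h5 | h5
        · rw [h5] at hdvd
          simp only [zero_add, one_mul] at hdvd
          exact Dvd.dvd.mul_left hdvd 2
        · rw [h5] at hdvd
          simpa using hdvd
      exact false_of_dvd_succ hp hpq h4 rfl

end Aux

/-- Let F be a finite field of characteristic p with at least 4 elements. Then PSL(2,F) has exactly one irreducible complex character of degree divisible by p, and its degree is the order of F. -/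
theorem result (p : ℕ) [Fact p.Prime] (F : Type*) [Field F] [Fintype F] [CharP F p] (hF : 4 ≤ Fintype.card F) : Nat.card {χ : Cfsg.IrrCharacter (Matrix.ProjectiveSpecialLinearGroup (Fin 2) F) // p ∣ Cfsg.charDegree (χ : Matrix.ProjectiveSpecialLinearGroup (Fin 2) F → ℂ)} = 1 ∧ ∀ χ : Cfsg.IrrCharacter (Matrix.ProjectiveSpecialLinearGroup (Fin 2) F), p ∣ Cfsg.charDegree (χ : Matrix.ProjectiveSpecialLinearGroup (Fin 2) F → ℂ) → Cfsg.charDegree (χ : Matrix.ProjectiveSpecialLinearGroup (Fin 2) F → ℂ) = Fintype.card F := by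
  classical
  have hp : p.Prime := Fact.out
  obtain ⟨n, -, hq⟩ := FiniteField.card F p
  have hpq : p ∣ Fintype.card F := by
    rw [hq]
    exact dvd_pow_self p n.pos.ne'
  have key : ∀ χ : Matrix.ProjectiveSpecialLinearGroup (Fin 2) F → ℂ,
      IsIrrCharacter (Matrix.ProjectiveSpecialLinearGroup (Fin 2) F) χ → p ∣ charDegree χ →
      (fun g : Matrix.SpecialLinearGroup (Fin 2) F =>
        χ (QuotientGroup.mk' (Subgroup.center (Matrix.SpecialLinearGroup (Fin 2) F)) g)) =
        psSL (1 : MulChar F ℂ) - trivSL := by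
    intro χ hχ hd
    apply sl2_eq_st_of_dvd p (isIrrCharacter_comp
      (QuotientGroup.mk' (Subgroup.center (Matrix.SpecialLinearGroup (Fin 2) F)))
      (QuotientGroup.mk'_surjective _) hχ)
    have h1 : charDegree (fun g : Matrix.SpecialLinearGroup (Fin 2) F =>
        χ (QuotientGroup.mk' (Subgroup.center (Matrix.SpecialLinearGroup (Fin 2) F)) g)) =
        charDegree χ := by
      unfold charDegree
      simp
    rw [h1]
    exact hd
  refine ⟨?_, ?_⟩
  · rw [Nat.card_eq_one_iff_unique]
    refine ⟨⟨?_⟩, ?_⟩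
    · rintro ⟨χ₁, h₁⟩ ⟨χ₂, h₂⟩
      apply Subtype.ext
      apply Subtype.ext
      funext y
      obtain ⟨x, rfl⟩ := QuotientGroup.mk'_surjective
        (Subgroup.center (Matrix.SpecialLinearGroup (Fin 2) F)) y
      have e1 := congrFun (key χ₁ χ₁.2 h₁) x
      have e2 := congrFun (key χ₂ χ₂.2 h₂) x
      exact e1.trans e2.symm
    · obtain ⟨ψ, hψ, hψe⟩ := exists_irr_deflation
        (Subgroup.center (Matrix.SpecialLinearGroup (Fin 2) F)) (psSL_one_sub_irr (F := F))
        (fun x hx => st_center x hx)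
      refine ⟨⟨⟨ψ, hψ⟩, ?_⟩⟩
      have h1 : ψ 1 = (Fintype.card F : ℂ) := by
        rw [← st_one]
        exact hψe 1
      show p ∣ charDegree ψ
      rw [charDegree_eq_of_one h1]
      exact hpq
  · intro χ hd
    have e := congrFun (key χ χ.2 hd) 1
    rw [st_one] at e
    simp only [map_one] at e
    exact charDegree_eq_of_one e

end Cfsg.Agent.S4765
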