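import Cfsg.Statements.S4768
import Cfsg.Agent.Helper79.PSing

set_option autoImplicit false
open Cfsg

namespace Cfsg.Agent.S4768

open Cfsg.Agent.Helper79
open scoped commutatorElement

universe u

/-- Inflation of irreducible characters of degree divisible by `p` from `G ⧸ N` to `G`. -/
noncomputable def infl (p : ℕ) {G : Type u} [Group G] (N : Subgroup G) [N.Normal]
    (χ : {χ : IrrCharacter (G ⧸ N) // p ∣ charDegree (χ : G ⧸ N → ℂ)}) :
    {χ : IrrCharacter G // p ∣ charDegree (χ : G → ℂ)} :=
  ⟨⟨fun x => (χ.1 : G ⧸ N → ℂ) (QuotientGroup.mk' N x),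
    isIrrCharacter_comp (QuotientGroup.mk' N) (QuotientGroup.mk'_surjective N) χ.1.2⟩, by
    have h3 : charDegree (fun x : G => (χ.1 : G ⧸ N → ℂ) (QuotientGroup.mk' N x)) =
        charDegree (χ.1 : G ⧸ N → ℂ) := by
      unfold charDegree
      simp
    show p ∣ charDegree (fun x : G => (χ.1 : G ⧸ N → ℂ) (QuotientGroup.mk' N x))
    rw [h3]
    exact χ.2⟩

theorem infl_injective (p : ℕ) {G : Type u} [Group G] (N : Subgroup G) [N.Normal] :
    Function.Injective (infl p N) := by
  intro χ ψ h
  apply Subtype.ext
  apply Subtype.ext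
  funext y
  obtain ⟨x, rfl⟩ := QuotientGroup.mk'_surjective N y
  have h1 := congrArg
    (fun z : {χ : IrrCharacter G // p ∣ charDegree (χ : G → ℂ)} => (z.1 : G → ℂ) x) h
  exact h1

theorem card_quotient_le (p : ℕ) {G : Type u} [Group G] [Finite G] (N : Subgroup G) [N.Normal] :
    Nat.card {χ : IrrCharacter (G ⧸ N) // p ∣ charDegree (χ : G ⧸ N → ℂ)} ≤
      Nat.card {χ : IrrCharacter G // p ∣ charDegree (χ : G → ℂ)} :=
  Nat.card_le_card_of_injective (infl p N) (infl_injective p N)

theorem card_quotient_lt_of (p : ℕ) {G : Type u} [Group G] [Finite G] (N : Subgroup G) [N.Normal]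
    (χ₀ : G → ℂ) (hχ₀ : IsIrrCharacter G χ₀) (hd : p ∣ charDegree χ₀)
    (hk : ∃ n ∈ N, χ₀ n ≠ χ₀ 1) :
    Nat.card {χ : IrrCharacter (G ⧸ N) // p ∣ charDegree (χ : G ⧸ N → ℂ)} <
      Nat.card {χ : IrrCharacter G // p ∣ charDegree (χ : G → ℂ)} := by
  classical
  let := Fintype.ofFinite {χ : IrrCharacter (G ⧸ N) // p ∣ charDegree (χ : G ⧸ N → ℂ)}
  let := Fintype.ofFinite {χ : IrrCharacter G // p ∣ charDegree (χ : G → ℂ)}
  rw [Nat.card_eq_fintype_card, Nat.card_eq_fintype_card]
  apply Fintype.card_lt_of_injective_of_notMem (infl p N) (infl_injective p N)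
    (b := ⟨⟨χ₀, hχ₀⟩, hd⟩)
  rintro ⟨χ, hχ⟩
  obtain ⟨n, hn, hne⟩ := hk
  apply hne
  have h1 : (fun x => (χ.1 : G ⧸ N → ℂ) (QuotientGroup.mk' N x)) = χ₀ := congrArg
    (fun z : {χ : IrrCharacter G // p ∣ charDegree (χ : G → ℂ)} => (z.1 : G → ℂ)) hχ
  rw [← h1]
  show (χ.1 : G ⧸ N → ℂ) (QuotientGroup.mk' N n) = (χ.1 : G ⧸ N → ℂ) (QuotientGroup.mk' N 1)
  rw [map_one, QuotientGroup.mk'_apply, (QuotientGroup.eq_one_iff n).mpr hn]

theorem derivedSeries_map_eq_one {H H' : Type*} [Group H] [Group H'] (f : H →* H') (k : ℕ)
    (h : derivedSeries H' k = ⊥) : ∀ x ∈ derivedSeries H k, f x = 1 := by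
  intro x hx
  have h1 : f x ∈ (derivedSeries H k).map f := Subgroup.mem_map_of_mem f hx
  have h2 := map_derivedSeries_le_derivedSeries f k h1
  rw [h] at h2
  exact Subgroup.mem_bot.mp h2

theorem aux (p : ℕ) [Fact p.Prime] : ∀ (n : ℕ) (G : Type u) [Group G] [Finite G],
    Nat.card G = n → Cfsg.IsPSolvable p G → ∀ Q : Subgroup G, IsPGroup p Q →
    derivedSeries ↥Q
      (Nat.card {χ : Cfsg.IrrCharacter G // p ∣ Cfsg.charDegree (χ : G → ℂ)} + 1) = ⊥ := by
  intro n
  induction n using Nat.strong_induction_on with
  | _ n ih =>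
    intro G _ _ hn hs Q hQ
    have hp : p.Prime := Fact.out
    set nG := Nat.card {χ : Cfsg.IrrCharacter G // p ∣ Cfsg.charDegree (χ : G → ℂ)} with hnG
    by_cases hpp : PPrimeDeg p G
    · -- Itô–Michler: `Q` is abelian
      obtain ⟨S, hSn, hSp, hSi, hSc⟩ := ito_michler_pSolvable p hs hpp
      have hQS : Q ≤ S := by
        intro a ha
        obtain ⟨k, hk⟩ := hQ ⟨a, ha⟩
        have := hSn
        exact mem_of_normal_of_not_dvd_index S hSi (k := k)
          (by simpa using congrArg (fun x : Q => (x : G)) hk)
      have h1 : derivedSeries ↥Q 1 = ⊥ := by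
        rw [derivedSeries_one, commutator_def, Subgroup.commutator_eq_bot_iff_le_centralizer]
        intro x _
        rw [Subgroup.mem_centralizer_iff]
        intro y _
        exact Subtype.ext (hSc y (hQS y.2) x (hQS x.2))
      exact le_bot_iff.mp (h1 ▸ derivedSeries_antitone ↥Q (Nat.le_add_left 1 nG))
    · have hpos : 1 ≤ nG := by
        unfold PPrimeDeg at hpp
        push Not at hpp
        obtain ⟨χ₁, hχ₁, hd₁⟩ := hpp
        have : Nonempty {χ : Cfsg.IrrCharacter G // p ∣ Cfsg.charDegree (χ : G → ℂ)} :=
          ⟨⟨⟨χ₁, hχ₁⟩, hd₁⟩⟩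
        exact Nat.card_pos
      rcases subsingleton_or_nontrivial G with hsub | hnt
      · exact Subgroup.eq_bot_of_subsingleton _
      · obtain ⟨D, hDn, -, hD0, hD⟩ :=
          Helper32.exists_normal_le_of_isPSolvable hp hs (⊤ : Subgroup G) top_ne_bot
        rcases hD with hDp | hDc
        · -- a nontrivial normal abelian `p`-subgroup
          have := hDn
          set N := D ⊓ Subgroup.centralizer (D : Set G) with hNdef
          have hNn : N.Normal := inferInstance
          have hNp : IsPGroup p N := hDp.to_le inf_le_left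
          have hNc : ∀ a ∈ N, ∀ b ∈ N, a * b = b * a := by
            intro a ha b hb
            exact ((Subgroup.mem_centralizer_iff.mp ha.2) b hb.1).symm
          have hN1 : N ≠ ⊥ := by
            have : Nontrivial ↥D := (Subgroup.nontrivial_iff_ne_bot D).mpr hD0
            have := hDp.center_nontrivial
            obtain ⟨z, hz⟩ := exists_ne (1 : Subgroup.center ↥D)
            intro h0
            apply hz
            have h1 : ((z : ↥D) : G) ∈ N := by
              refine Subgroup.mem_inf.mpr ⟨(z : ↥D).2, ?_⟩
              rw [Subgroup.mem_centralizer_iff]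
              intro h hh
              have h2 := (Subgroup.mem_center_iff.mp z.2) ⟨h, hh⟩
              exact congrArg Subtype.val h2
            rw [h0, Subgroup.mem_bot] at h1
            apply Subtype.ext
            apply Subtype.ext
            exact h1
          have hlt : Nat.card (G ⧸ N) < n := hn ▸ card_quotient_lt N hN1
          have hQ' : IsPGroup p ↥(Q.map (QuotientGroup.mk' N)) := hQ.map _
          have hih := ih _ hlt (G ⧸ N) rfl (Helper32.isPSolvable_quotient hp hs N)
            (Q.map (QuotientGroup.mk' N)) hQ'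
          have hker : ∀ x : Q, (QuotientGroup.mk' N).subgroupMap Q x = 1 → (x : G) ∈ N := by
            intro x hx
            have h1 := congrArg Subtype.val hx
            exact (QuotientGroup.eq_one_iff (x : G)).mp h1
          by_cases hall : ∀ χ : G → ℂ, IsIrrCharacter G χ → (∃ n ∈ N, χ n ≠ χ 1) →
              ¬ p ∣ charDegree χ
          · have hcm := commutator_mem_of_pPrimeDeg_over hs N hNp hNc hN1 hall Q hQ
            have hle : derivedSeries ↥Q 1 ≤ N.subgroupOf Q := by
              rw [derivedSeries_one, commutator_def, Subgroup.commutator_le]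
              intro a _ b _
              rw [Subgroup.mem_subgroupOf]
              exact hcm a a.2 b b.2
            have h2 : derivedSeries ↥Q 2 = ⊥ := by
              rw [derivedSeries_succ, Subgroup.commutator_eq_bot_iff_le_centralizer]
              intro x hx
              rw [Subgroup.mem_centralizer_iff]
              intro y hy
              exact Subtype.ext (hNc y (Subgroup.mem_subgroupOf.mp (hle hy)) x
                (Subgroup.mem_subgroupOf.mp (hle hx)))
            exact le_bot_iff.mp (h2 ▸ derivedSeries_antitone ↥Q (by omega : 2 ≤ nG + 1))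
          · push Not at hall
            obtain ⟨χ₀, hχ₀, hk₀, hd₀⟩ := hall
            have hlt' := card_quotient_lt_of p N χ₀ hχ₀ hd₀ hk₀
            have h1 : derivedSeries ↥(Q.map (QuotientGroup.mk' N)) nG = ⊥ :=
              le_bot_iff.mp (hih ▸ derivedSeries_antitone _ hlt')
            have h2 := derivedSeries_map_eq_one ((QuotientGroup.mk' N).subgroupMap Q) nG h1
            rw [derivedSeries_succ, Subgroup.commutator_eq_bot_iff_le_centralizer]
            intro x hx
            rw [Subgroup.mem_centralizer_iff]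
            intro y hy
            exact Subtype.ext (hNc y (hker y (h2 y hy)) x (hker x (h2 x hx)))
        · -- a nontrivial normal `p'`-subgroup
          have := hDn
          have hlt : Nat.card (G ⧸ D) < n := hn ▸ card_quotient_lt D hD0
          have hQ' : IsPGroup p ↥(Q.map (QuotientGroup.mk' D)) := hQ.map _
          have hih := ih _ hlt (G ⧸ D) rfl (Helper32.isPSolvable_quotient hp hs D)
            (Q.map (QuotientGroup.mk' D)) hQ'
          have hker : ∀ x : Q, (QuotientGroup.mk' D).subgroupMap Q x = 1 → (x : G) ∈ D := by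
            intro x hx
            have h1 := congrArg Subtype.val hx
            exact (QuotientGroup.eq_one_iff (x : G)).mp h1
          have h1 : derivedSeries ↥(Q.map (QuotientGroup.mk' D)) (nG + 1) = ⊥ :=
            le_bot_iff.mp (hih ▸ derivedSeries_antitone _
              (Nat.add_le_add_right (card_quotient_le p D) 1))
          have h2 := derivedSeries_map_eq_one ((QuotientGroup.mk' D).subgroupMap Q) (nG + 1) h1
          rw [Subgroup.eq_bot_iff_forall]
          intro x hx
          have h3 : (x : G) ∈ D := hker x (h2 x hx)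
          obtain ⟨k, hk⟩ := hQ x
          have h4 : orderOf x ∣ p ^ k := orderOf_dvd_of_pow_eq_one hk
          have h5 : orderOf (x : G) ∣ Nat.card D := Subgroup.orderOf_dvd_natCard D h3
          rw [Subgroup.orderOf_coe] at h5
          have h6 : Nat.Coprime (p ^ k) (Nat.card D) := Nat.Coprime.pow_left k hDc.symm
          exact orderOf_eq_one_iff.mp (Nat.eq_one_of_dvd_coprimes h6 h4 h5)

/-- Let p be a prime, G a finite p-solvable group and P a Sylow p-subgroup of G. If n is the number of irreducible complex characters of G whose degree is divisible by p, then the (n+1)-st term of the derived series of P is trivial. (The p-solvable case has a direct inductive proof.) -/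
theorem result {G : Type*} [Group G] [Finite G] (p : ℕ) [Fact p.Prime] (hG : Cfsg.IsPSolvable p G) (P : Sylow p G) : derivedSeries ↥(P : Subgroup G) (Nat.card {χ : Cfsg.IrrCharacter G // p ∣ Cfsg.charDegree (χ : G → ℂ)} + 1) = ⊥ := by
  exact aux p (Nat.card G) G rfl hG (P : Subgroup G) P.isPGroup'

end Cfsg.Agent.S4768
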