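import Cfsg.Statements.S4774
import Cfsg.Agent.Helper39.DegreeGraphOdd

set_option autoImplicit false
open Cfsg

namespace Cfsg.Agent.S4774

/-- Let F be a finite field of odd characteristic t with q > 5 elements and let S be isomorphic to PSL(2,F) or to SL(2,F). Then the vertices of the character degree graph of S are the primes dividing q(q²−1); the prime t is adjacent to no vertex; two distinct primes dividing q² − 1 are adjacent exactly when one of them is 2, or both divide q + 1, or both divide q − 1. -/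
theorem result (F : Type*) [Field F] [Fintype F] (t : ℕ) [Fact t.Prime] [CharP F t] (ht : t ≠ 2) (q : ℕ) (hq : Fintype.card F = q) (h5 : 5 < q) {S : Type*} [Group S] [Finite S] (hS : Nonempty (S ≃* Matrix.ProjectiveSpecialLinearGroup (Fin 2) F) ∨ Nonempty (S ≃* Matrix.SpecialLinearGroup (Fin 2) F)) : Cfsg.degreePrimes S = {r : ℕ | r.Prime ∧ r ∣ q * (q ^ 2 - 1)} ∧ ∀ r s : ℕ, (Cfsg.degreeGraph S).Adj r s ↔ (r ≠ s ∧ r.Prime ∧ s.Prime ∧ r ∣ q ^ 2 - 1 ∧ s ∣ q ^ 2 - 1 ∧ (r = 2 ∨ s = 2 ∨ (r ∣ q + 1 ∧ s ∣ q + 1) ∨ (r ∣ q - 1 ∧ s ∣ q - 1))) := by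
  classical
  subst hq
  have hF : ringChar F ≠ 2 := by
    rw [ringChar.eq F t]
    exact ht
  have hodd : Odd (Fintype.card F) := Nat.odd_iff.mpr (FiniteField.odd_card_of_char_ne_two hF)
  have hodd' := hodd
  obtain ⟨k, hk⟩ := hodd
  obtain ⟨n, -, hn⟩ := FiniteField.card F t
  have hk3 : 3 ≤ k := by omega
  rcases hS with h | h
  · obtain ⟨e⟩ := h
    obtain ⟨hD, h1, h2, h3⟩ := Cfsg.Agent.Helper39.charDegrees_psl2_odd hodd' hk hk3
    rw [← Cfsg.Agent.Helper39.charDegrees_mulEquiv e] at hD h1 h2 h3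
    exact Cfsg.Agent.Helper39.degreeGraph_of_degrees_odd (Fact.out : t.Prime) hk hn hD h1 h2 h3
  · obtain ⟨e⟩ := h
    obtain ⟨hD, h1, h2, h3⟩ := Cfsg.Agent.Helper39.charDegrees_sl2_odd hodd' hk (by omega)
    rw [← Cfsg.Agent.Helper39.charDegrees_mulEquiv e] at hD h1 h2 h3
    exact Cfsg.Agent.Helper39.degreeGraph_of_degrees_odd (Fact.out : t.Prime) hk hn hD h1 h2 h3

end Cfsg.Agent.S4774
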