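import Cfsg.Statements.S4782
import Cfsg.Agent.Helper79.PrimeDeg
-- import your own Cfsg.Agent.* helpers here

set_option autoImplicit false
open Cfsg

namespace Cfsg.Agent.S4782

open Cfsg.Agent Cfsg.Agent.Helper79

universe u

/-- Every prime dividing an irreducible character degree is `p` or `q`. -/
def TwoPrimeDeg (p q : ℕ) (G : Type*) [Group G] : Prop :=
  ∀ χ : G → ℂ, IsIrrCharacter G χ → ∀ r : ℕ, r.Prime → r ∣ charDegree χ → r = p ∨ r = q

theorem TwoPrimeDeg.quotient {p q : ℕ} {G : Type*} [Group G] (h : TwoPrimeDeg p q G)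
    (N : Subgroup G) [N.Normal] : TwoPrimeDeg p q (G ⧸ N) := by
  intro χ hχ r hr hdvd
  have h1 := isIrrCharacter_comp (QuotientGroup.mk' N) (QuotientGroup.mk'_surjective N) hχ
  have h3 : charDegree (fun x : G => χ (QuotientGroup.mk' N x)) = charDegree χ := by
    unfold charDegree
    simp
  exact h _ h1 r hr (by rwa [h3])

theorem TwoPrimeDeg.normal {p q : ℕ} {G : Type*} [Group G] [Finite G] (h : TwoPrimeDeg p q G)
    (N : Subgroup G) [N.Normal] : TwoPrimeDeg p q N := by
  classical
  intro θ hθ r hr hdvdr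
  have : Fintype G := Fintype.ofFinite G
  have : Fintype N := Fintype.ofFinite N
  obtain ⟨χ, hχ, hcon⟩ := exists_irr_over_normal N hθ
  obtain ⟨k, hk, -⟩ := Helper15.degree_eq_mul_of_constituent N χ hχ θ hθ hcon
  rw [isCharacter_one_eq_charDegree (isCharacter_of_irr hχ),
    isCharacter_one_eq_charDegree (isCharacter_of_irr hθ)] at hk
  have h1 : charDegree χ = k * charDegree θ := by exact_mod_cast hk
  have hdvd : charDegree θ ∣ charDegree χ := h1 ▸ Dvd.intro_left k rfl
  exact h χ hχ r hr (hdvdr.trans hdvd)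

/-- In a nontrivial finite group there is a nonidentity element whose class size is prime to
`p` (a central element of a Sylow `p`-subgroup, or anything if `p` does not divide the order). -/
theorem exists_ne_one_not_dvd_class {G : Type*} [Group G] [Finite G] [Nontrivial G] (p : ℕ)
    (hp : p.Prime) :
    ∃ x : G, x ≠ 1 ∧ ¬ p ∣ (Subgroup.centralizer ({x} : Set G)).index := by
  classical
  by_cases hpd : p ∣ Nat.card G
  · have : Fact p.Prime := ⟨hp⟩
    obtain ⟨P⟩ : Nonempty (Sylow p G) := inferInstance
    have hPne : (P : Subgroup G) ≠ ⊥ := P.ne_bot_of_dvd_card hpd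
    have : Nontrivial (P : Subgroup G) := (Subgroup.nontrivial_iff_ne_bot _).mpr hPne
    have hcn : Nontrivial (Subgroup.center (P : Subgroup G)) :=
      IsPGroup.center_nontrivial P.isPGroup'
    obtain ⟨⟨z, hz⟩, hz1⟩ := exists_ne (1 : Subgroup.center (P : Subgroup G))
    refine ⟨(z : G), ?_, ?_⟩
    · intro h1
      apply hz1
      apply Subtype.ext
      apply Subtype.ext
      simpa using h1
    · have hle : (P : Subgroup G) ≤ Subgroup.centralizer {(z : G)} := by
        intro a ha
        rw [Subgroup.mem_centralizer_iff]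
        intro y hy
        rw [Set.mem_singleton_iff] at hy
        subst hy
        have h2 := Subgroup.mem_center_iff.mp hz ⟨a, ha⟩
        exact (congrArg Subtype.val h2).symm
      intro hdvd
      exact P.not_dvd_index (hdvd.trans (Subgroup.index_dvd_of_le hle))
  · obtain ⟨x, hx⟩ := exists_ne (1 : G)
    exact ⟨x, hx, fun hdvd => hpd (hdvd.trans (Subgroup.index_dvd_card _))⟩

/-- A nonabelian simple group has irreducible character degrees divisible by at least three
primes. -/
theorem tpd_simple_false {G : Type u} [Group G] [Finite G] [IsSimpleGroup G]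
    (hnc : ¬ ∀ a b : G, a * b = b * a) {p q : ℕ} (hp : p.Prime) (hq : q.Prime)
    (h : TwoPrimeDeg p q G) : False := by
  classical
  obtain ⟨x, hx1, hxp⟩ := exists_ne_one_not_dvd_class (G := G) p hp
  apply irr_not_all_integral_div q hq.two_le x hx1
  intro χ hχne
  have hχ1 : charDegree (χ : G → ℂ) ≠ 1 := fun h1 =>
    hχne (simple_irr_linear_eq_one hnc χ h1)
  by_cases hd : q ∣ charDegree (χ : G → ℂ)
  · obtain ⟨k, hk⟩ := hd
    rw [isCharacter_one_eq_charDegree (irr_isCharacter χ), hk]
    have hq0 : (q : ℂ) ≠ 0 := by exact_mod_cast hq.ne_zero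
    have e : ((q * k : ℕ) : ℂ) * (χ : G → ℂ) x / (q : ℂ) = (k : ℂ) * (χ : G → ℂ) x := by
      push_cast
      field_simp
    rw [e]
    have hk' : IsIntegral ℤ (k : ℂ) := by
      have h0 : IsIntegral ℤ (algebraMap ℤ ℂ (k : ℤ)) := isIntegral_algebraMap
      simpa using h0
    exact IsIntegral.mul hk' (Helper80.isCharacter_isIntegral (irr_isCharacter χ) x)
  · have hcop : Nat.Coprime (charDegree (χ : G → ℂ))
        (Subgroup.centralizer ({x} : Set G)).index := by
      by_contra hnc'
      obtain ⟨r, hr, hr1, hr2⟩ := Nat.Prime.not_coprime_iff_dvd.mp hnc'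
      rcases h _ χ.2 r hr hr1 with rfl | rfl
      · exact hxp hr2
      · exact hd hr1
    rw [simple_irr_vanish_of_coprime hnc χ hχ1 x hx1 hcop]
    simp [isIntegral_zero]

theorem tpd_solvable_aux (p q : ℕ) (hp : p.Prime) (hq : q.Prime) :
    ∀ (n : ℕ) (G : Type u) [Group G] [Finite G], Nat.card G = n →
    TwoPrimeDeg p q G → Group.IsSolvable G := by
  intro n
  induction n using Nat.strong_induction_on with
  | _ n ih =>
    intro G _ _ hn h
    by_cases hsimp : ∃ N : Subgroup G, N.Normal ∧ N ≠ ⊥ ∧ N ≠ ⊤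
    · obtain ⟨N, hN, hbot, htop⟩ := hsimp
      have hlt1 : Nat.card N < n := by
        rw [← hn]
        exact lt_of_le_of_ne (Subgroup.card_le_card_group N)
          (fun h => htop (Subgroup.eq_top_of_card_eq N h))
      have hlt2 : Nat.card (G ⧸ N) < n := by
        rw [← hn, ← Subgroup.index_eq_card, ← Subgroup.index_mul_card N]
        have h1 : 1 < Nat.card N := (Subgroup.one_lt_card_iff_ne_bot N).mpr hbot
        have h2 : 0 < N.index := Nat.pos_of_ne_zero Subgroup.index_ne_zero_of_finite
        nlinarith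
      have s1 : Group.IsSolvable N := ih _ hlt1 N rfl (h.normal N)
      have s2 : Group.IsSolvable (G ⧸ N) := ih _ hlt2 (G ⧸ N) rfl (h.quotient N)
      exact Group.isSolvable_of_ker_le_range N.subtype (QuotientGroup.mk' N) (by simp)
    · by_cases hsub : Subsingleton G
      · exact Group.isSolvable_of_comm (fun a b => Subsingleton.elim _ _)
      · have : Nontrivial G := not_subsingleton_iff_nontrivial.mp hsub
        have : IsSimpleGroup G := ⟨fun N hN => by
          by_contra hcon
          push Not at hcon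
          exact hsimp ⟨N, hN, hcon.1, hcon.2⟩⟩
        by_cases hnc : ∀ a b : G, a * b = b * a
        · exact Group.isSolvable_of_comm hnc
        · exact (tpd_simple_false hnc hp hq h).elim

/-- If the finite group G is not solvable, then at least three distinct primes each divide some irreducible complex character degree of G. -/
theorem result {G : Type*} [Group G] [Finite G] (hG : ¬ Group.IsSolvable G) : ∃ p q r : ℕ, p ≠ q ∧ q ≠ r ∧ p ≠ r ∧ p ∈ Cfsg.degreePrimes G ∧ q ∈ Cfsg.degreePrimes G ∧ r ∈ Cfsg.degreePrimes G := by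
  classical
  by_contra hcon
  apply hG
  -- find two primes covering all of `degreePrimes G`
  have key : ∃ p q : ℕ, p.Prime ∧ q.Prime ∧ ∀ r ∈ Cfsg.degreePrimes G, r = p ∨ r = q := by
    by_cases h0 : ∃ p, p ∈ Cfsg.degreePrimes G
    · obtain ⟨p, hp⟩ := h0
      by_cases h1 : ∃ q, q ∈ Cfsg.degreePrimes G ∧ q ≠ p
      · obtain ⟨q, hq, hqp⟩ := h1
        refine ⟨p, q, hp.1, hq.1, fun r hr => ?_⟩
        by_contra hne
        push Not at hne
        exact hcon ⟨p, q, r, fun e => hqp e.symm, fun e => hne.2 e.symm, fun e => hne.1 e.symm,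
          hp, hq, hr⟩
      · push Not at h1
        exact ⟨p, p, hp.1, hp.1, fun r hr => Or.inl (h1 r hr)⟩
    · push Not at h0
      exact ⟨2, 2, Nat.prime_two, Nat.prime_two, fun r hr => (h0 r hr).elim⟩
  obtain ⟨p, q, hp, hq, hall⟩ := key
  have htp : TwoPrimeDeg p q G := by
    intro χ hχ r hr hdvd
    exact hall r ⟨hr, charDegree χ, ⟨⟨χ, hχ⟩, rfl⟩, hdvd⟩
  exact tpd_solvable_aux p q hp hq _ G rfl htp

end Cfsg.Agent.S4782
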