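import Cfsg.Statements.S4784
import Cfsg.Agent.Helper79.Perm

set_option autoImplicit false
open Cfsg

namespace Cfsg.Agent.S4784

open scoped ComplexConjugate

/-- The principal character is a constituent of the permutation character with multiplicity 1. -/
theorem classInner_perm_triv {G : Type*} [Group G] [Fintype G] (H : Subgroup G) :
    Cfsg.classInner (Cfsg.indFun H (fun _ : H => (1 : ℂ))) (Helper79.trivIrr G : G → ℂ) = 1 := by
  classical
  have : Fintype H := Fintype.ofFinite H
  rw [Helper79.classInner_indFun_one H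
    (Helper79.isCharacter_isClassFunction (Helper79.irr_isCharacter _))]
  have : (Nat.card H : ℂ) ≠ 0 := by exact_mod_cast Nat.card_pos.ne'
  simp [Nat.card_eq_fintype_card]

/-- The indicator of the principal character is 1. -/
theorem indicator_triv {G : Type*} [Group G] [Fintype G] :
    (Nat.card G : ℂ)⁻¹ * ∑ g : G, (Helper79.trivIrr G : G → ℂ) (g * g) = 1 := by
  have : (Nat.card G : ℂ) ≠ 0 := by exact_mod_cast Nat.card_pos.ne'
  simp [Nat.card_eq_fintype_card]

/-- Odd index of the core: only the principal character. -/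
theorem eq_triv_of_odd {G : Type*} [Group G] [Fintype G] (H : Subgroup G)
    (hodd : Odd H.normalCore.index) (χ : Cfsg.IrrCharacter G)
    (h1 : Cfsg.classInner (Cfsg.indFun H (fun _ : H => (1 : ℂ))) (χ : G → ℂ) ≠ 0)
    (h3 : (Nat.card G : ℂ)⁻¹ * ∑ g : G, (χ : G → ℂ) (g * g) = 1) : χ = Helper79.trivIrr G := by
  classical
  set K := H.normalCore with hK
  have hKH : K ≤ H := Subgroup.normalCore_le H
  have hker := Helper79.irr_le_ker_of_classInner_indFun_one_ne_zero H χ h1 K hKH
  obtain ⟨ψ, hψ, hψχ⟩ := Helper79.exists_irr_deflation K χ.2 hker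
  have : Fintype (G ⧸ K) := Fintype.ofFinite _
  have hcop : (Nat.card (G ⧸ K)).Coprime 2 := Nat.coprime_two_right.mpr hodd
  have hsq : ∑ g : G, (χ : G → ℂ) (g * g) = ∑ g : G, (χ : G → ℂ) g := by
    have e1 : ∀ g : G, (χ : G → ℂ) (g * g) = (fun q : G ⧸ K => ψ (q * q)) (g : G ⧸ K) := by
      intro g
      show _ = ψ ((g : G ⧸ K) * (g : G ⧸ K))
      rw [← QuotientGroup.mk_mul, hψχ]
    have e2 : ∀ g : G, (χ : G → ℂ) g = ψ (g : G ⧸ K) := fun g => (hψχ g).symm
    simp only [e1]
    rw [Helper79.sum_comp_quotient_mk K (fun q : G ⧸ K => ψ (q * q))]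
    simp only [e2]
    rw [Helper79.sum_comp_quotient_mk K ψ]
    congr 1
    have := Equiv.sum_comp (powCoprime hcop) ψ
    rw [← this]
    apply Finset.sum_congr rfl
    intro q _
    show ψ (q * q) = ψ (q ^ 2)
    rw [pow_two]
  rw [hsq] at h3
  by_contra hne
  have horth := Helper80.irr_orthogonality_conj χ (Helper79.trivIrr G)
  rw [if_neg hne] at horth
  have h0 : ∑ g : G, (χ : G → ℂ) g = 0 := by
    rw [← horth]
    apply Finset.sum_congr rfl
    intro g _
    simp
  rw [h0, mul_zero] at h3
  exact zero_ne_one h3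

/-- If the principal character is the only constituent with indicator 1, no element outside
`H` has its square in `H`. -/
theorem no_square_of_unique {G : Type*} [Group G] [Fintype G] (H : Subgroup G)
    (huniq : ∀ χ : Cfsg.IrrCharacter G,
      Cfsg.classInner (Cfsg.indFun H (fun _ : H => (1 : ℂ))) (χ : G → ℂ) ≠ 0 →
      (Nat.card G : ℂ)⁻¹ * ∑ g : G, (χ : G → ℂ) (g * g) = 1 → χ = Helper79.trivIrr G) :
    ∀ g : G, g * g ∈ H → g ∈ H := by
  classical
  have : Fintype (Cfsg.IrrCharacter G) := Fintype.ofFinite _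
  have : Fintype H := Fintype.ofFinite H
  set π : G → ℂ := Cfsg.indFun H (fun _ : H => (1 : ℂ)) with hπ
  have hπcf : Cfsg.IsClassFunction G π := Helper3.indFun_isClassFunction H _
  have hπchar : Cfsg.IsCharacter G π := Helper3.isCharacter_indFun H _ Helper79.isCharacter_one
  have hexp := Helper3.classFunction_eq_sum π hπcf
  choose n hn using fun χ : Cfsg.IrrCharacter G =>
    Helper3.classInner_isCharacter_nat hπchar (Helper79.irr_isCharacter χ)
  have hGne : (Nat.card G : ℂ) ≠ 0 := by exact_mod_cast Nat.card_pos.ne'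
  have hHne : (Nat.card H : ℂ) ≠ 0 := by exact_mod_cast Nat.card_pos.ne'
  -- the sum of indicators
  have hsum1 : (Nat.card G : ℂ)⁻¹ * ∑ g : G, π (g * g) =
      ∑ χ : Cfsg.IrrCharacter G, (n χ : ℂ) *
        ((Nat.card G : ℂ)⁻¹ * ∑ g : G, (χ : G → ℂ) (g * g)) := by
    have e : ∀ g : G, π (g * g) =
        ∑ χ : Cfsg.IrrCharacter G, (n χ : ℂ) * (χ : G → ℂ) (g * g) := by
      intro g
      have := congrFun hexp (g * g)
      rw [Finset.sum_apply] at this
      rw [this]
      apply Finset.sum_congr rfl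
      intro χ _
      rw [Pi.smul_apply, smul_eq_mul, hn]
    simp only [e]
    rw [Finset.sum_comm, Finset.mul_sum]
    apply Finset.sum_congr rfl
    intro χ _
    rw [← Finset.mul_sum]
    ring
  have hbound : ∀ χ : Cfsg.IrrCharacter G, ((n χ : ℂ) *
        ((Nat.card G : ℂ)⁻¹ * ∑ g : G, (χ : G → ℂ) (g * g))).re ≤
        if χ = Helper79.trivIrr G then 1 else 0 := by
    intro χ
    by_cases hχ : χ = Helper79.trivIrr G
    · rw [if_pos hχ]
      have h1 : (n χ : ℂ) = 1 := by
        rw [← hn, hχ]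
        exact classInner_perm_triv H
      rw [h1, hχ, indicator_triv]
      simp
    · rw [if_neg hχ]
      by_cases hn0 : n χ = 0
      · simp [hn0]
      · have hne : Cfsg.classInner π (χ : G → ℂ) ≠ 0 := by
          rw [hn]
          exact_mod_cast hn0
        have hν1 : (Nat.card G : ℂ)⁻¹ * ∑ g : G, (χ : G → ℂ) (g * g) ≠ 1 :=
          fun h => hχ (huniq χ hne h)
        rcases (Helper79.irr_frobenius_schur χ.2).1 with h0 | h1 | hm1
        · rw [h0]; simp
        · exact absurd h1 hν1
        · rw [hm1]; simp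
  have hre : ((Nat.card G : ℂ)⁻¹ * ∑ g : G, π (g * g)).re ≤ 1 := by
    rw [hsum1, Complex.re_sum]
    calc ∑ χ : Cfsg.IrrCharacter G, ((n χ : ℂ) *
          ((Nat.card G : ℂ)⁻¹ * ∑ g : G, (χ : G → ℂ) (g * g))).re
        ≤ ∑ χ : Cfsg.IrrCharacter G, (if χ = Helper79.trivIrr G then (1 : ℝ) else 0) :=
          Finset.sum_le_sum (fun χ _ => hbound χ)
      _ = 1 := by simp
  -- the count
  have hcount := Helper79.sum_indFun_one_sq H
  rw [hcount] at hre
  set N := (Finset.univ.filter (fun g : G => g * g ∈ H)).card with hN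
  have hval : (Nat.card G : ℂ)⁻¹ * ((Nat.card H : ℂ)⁻¹ * ((Fintype.card G : ℂ) * (N : ℂ))) =
      (((N : ℝ) / (Nat.card H : ℝ) : ℝ) : ℂ) := by
    rw [Nat.card_eq_fintype_card (α := G)] at hGne ⊢
    push_cast
    field_simp
  rw [hval, Complex.ofReal_re] at hre
  have hHpos : (0 : ℝ) < (Nat.card H : ℝ) := by exact_mod_cast Nat.card_pos
  have hNle : N ≤ Nat.card H := by
    have : (N : ℝ) ≤ (Nat.card H : ℝ) := by
      rwa [div_le_one hHpos] at hre
    exact_mod_cast this
  intro g hg
  by_contra hgH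
  have hsub : Finset.univ.filter (fun g : G => g ∈ H) ⊂
      Finset.univ.filter (fun g : G => g * g ∈ H) := by
    rw [Finset.ssubset_iff_of_subset]
    · exact ⟨g, by simp [hg], by simp [hgH]⟩
    · intro x hx
      simp only [Finset.mem_filter, Finset.mem_univ, true_and] at hx ⊢
      exact H.mul_mem hx hx
  have hlt := Finset.card_lt_card hsub
  have hcardH : (Finset.univ.filter (fun g : G => g ∈ H)).card = Nat.card H := by
    rw [Nat.card_eq_fintype_card, Fintype.card_subtype]
  rw [hcardH] at hlt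
  omega

/-- From "no element outside `H` squares into `H`" to odd index of the core. -/
theorem odd_of_no_square {G : Type*} [Group G] [Finite G] (H : Subgroup G)
    (h : ∀ g : G, g * g ∈ H → g ∈ H) : Odd H.normalCore.index := by
  classical
  rw [← Nat.not_even_iff_odd]
  intro heven
  set K := H.normalCore with hK
  have h2 : 2 ∣ Nat.card (G ⧸ K) := heven.two_dvd
  have _f2 : Fact (Nat.Prime 2) := ⟨Nat.prime_two⟩
  obtain ⟨q, hq⟩ := exists_prime_orderOf_dvd_card' (G := G ⧸ K) 2 h2
  obtain ⟨t, rfl⟩ := QuotientGroup.mk_surjective q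
  have ht1 : (t : G ⧸ K) ≠ 1 := by
    intro h1
    rw [h1, orderOf_one] at hq
    omega
  have ht2 : (t : G ⧸ K) * (t : G ⧸ K) = 1 := by
    rw [← pow_two, ← hq, pow_orderOf_eq_one]
  have htK : t ∉ K := fun hmem => ht1 ((QuotientGroup.eq_one_iff t).mpr hmem)
  have httK : t * t ∈ K := by
    rw [← QuotientGroup.eq_one_iff, QuotientGroup.mk_mul]
    exact ht2
  -- some conjugate of t is outside H
  have hex : ∃ b : G, b * t * b⁻¹ ∉ H := by
    by_contra hcon
    push Not at hcon
    exact htK hcon
  obtain ⟨b, hb⟩ := hex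
  apply hb
  apply h
  have : b * t * b⁻¹ * (b * t * b⁻¹) = b * (t * t) * b⁻¹ := by group
  rw [this]
  exact httK b

/-- Let H be a subgroup of the finite group G and consider the permutation character of G on the cosets of H (the function induced from the principal character of H). Then exactly one irreducible constituent of it is real-valued with Frobenius–Schur indicator +1 (namely the principal character) if and only if the normal core of H has odd index in G. -/
theorem result {G : Type*} [Group G] [Fintype G] (H : Subgroup G) : Nat.card {χ : Cfsg.IrrCharacter G // Cfsg.classInner (Cfsg.indFun H (fun _ : H => (1 : ℂ))) (χ : G → ℂ) ≠ 0 ∧ (∀ g : G, (starRingEnd ℂ) ((χ : G → ℂ) g) = (χ : G → ℂ) g) ∧ (Nat.card G : ℂ)⁻¹ * ∑ g : G, (χ : G → ℂ) (g * g) = 1} = 1 ↔ Odd H.normalCore.index := by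
  classical
  constructor
  · intro hcard
    obtain ⟨hsub, -⟩ := Nat.card_eq_one_iff_unique.mp hcard
    apply odd_of_no_square
    apply no_square_of_unique
    intro χ h1 h3
    have hreal : ∀ g : G, (starRingEnd ℂ) ((χ : G → ℂ) g) = (χ : G → ℂ) g := by
      intro g
      apply Helper79.irr_real_of_indicator_ne_zero χ.2
      rw [h3]
      exact one_ne_zero
    have htriv : Cfsg.classInner (Cfsg.indFun H (fun _ : H => (1 : ℂ)))
          (Helper79.trivIrr G : G → ℂ) ≠ 0 ∧
        (∀ g : G, (starRingEnd ℂ) ((Helper79.trivIrr G : G → ℂ) g) =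
          (Helper79.trivIrr G : G → ℂ) g) ∧
        (Nat.card G : ℂ)⁻¹ * ∑ g : G, (Helper79.trivIrr G : G → ℂ) (g * g) = 1 := by
      refine ⟨?_, ?_, indicator_triv⟩
      · rw [classInner_perm_triv]; exact one_ne_zero
      · intro g; simp
    have := hsub.elim ⟨χ, h1, hreal, h3⟩ ⟨Helper79.trivIrr G, htriv⟩
    exact congrArg Subtype.val this
  · intro hodd
    rw [Nat.card_eq_one_iff_unique]
    refine ⟨⟨fun a b => Subtype.ext ?_⟩, ⟨⟨Helper79.trivIrr G, ?_, ?_, indicator_triv⟩⟩⟩
    · exact (eq_triv_of_odd H hodd a.1 a.2.1 a.2.2.2).trans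
        (eq_triv_of_odd H hodd b.1 b.2.1 b.2.2.2).symm
    · rw [classInner_perm_triv]; exact one_ne_zero
    · intro g; simp

end Cfsg.Agent.S4784
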