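import Cfsg.Statements.S4796
import Cfsg.Agent.Helper79.PrimeCodegree
import Cfsg.Agent.Helper71.Frobenius
import Cfsg.Agent.Helper71.FrobCount

set_option autoImplicit false
open Cfsg

namespace Cfsg.Agent.S4796

open scoped Pointwise

/-- Let G be a finite group with a faithful irreducible complex character χ whose codegree #G / χ(1) is a prime p (for a faithful character the kernel is trivial, so the codegree is #G / χ(1)). Then either G is cyclic of order p, or G is a Frobenius group whose Frobenius kernel has order p: some proper non-trivial subgroup H satisfies H ∩ gHg⁻¹ = 1 for every element g outside H, and the set of elements lying in no conjugate of H, together with the identity, has exactly p elements. -/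
theorem result {G : Type*} [Group G] [Finite G] (χ : Cfsg.IrrCharacter G) (hfaith : ∀ g : G, (χ : G → ℂ) g = (χ : G → ℂ) 1 → g = 1) (p : ℕ) (hp : p.Prime) (hcod : Nat.card G = p * Cfsg.charDegree (χ : G → ℂ)) : (IsCyclic G ∧ Nat.card G = p) ∨ ∃ H : Subgroup G, Cfsg.IsFrobeniusComplement H ∧ Nat.card ↥(Cfsg.frobeniusKernel H) = p := by
  classical
  obtain ⟨hdp, P, hPn, hPcard, hPc⟩ :=
    Helper79.faithful_prime_codegree_structure χ hfaith p hp hcod
  have _hpf : Fact p.Prime := ⟨hp⟩
  set d := Cfsg.charDegree (χ : G → ℂ) with hd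
  have hd0 : 0 < d := Helper80.irr_degree_pos χ
  by_cases hd1 : d = 1
  · left
    rw [hd1, mul_one] at hcod
    exact ⟨isCyclic_of_prime_card hcod, hcod⟩
  · right
    have hidx : P.index = d := by
      have := P.card_mul_index
      rw [hPcard, hcod] at this
      exact Nat.eq_of_mul_eq_mul_left hp.pos this
    have hpd : ¬ p ∣ d := fun h => absurd (Nat.le_of_dvd hd0 h) (not_le.mpr hdp)
    have hcop : Nat.Coprime (Nat.card P) P.index := by
      rw [hPcard, hidx]
      exact (Nat.Prime.coprime_iff_not_dvd hp).mpr hpd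
    obtain ⟨H, hH⟩ := Subgroup.exists_right_complement'_of_coprime hcop
    have hHcard : Nat.card H = d := by
      have := hH.card_mul_card
      rw [hPcard, hcod] at this
      exact Nat.eq_of_mul_eq_mul_left hp.pos this
    have hdisj : P ⊓ H = ⊥ := hH.disjoint.eq_bot
    have hHbot : H ≠ ⊥ := by
      intro h
      rw [h, Subgroup.card_bot] at hHcard
      exact hd1 hHcard.symm
    have hHtop : H ≠ ⊤ := by
      intro h
      rw [h, Subgroup.card_top, hcod] at hHcard
      have := hp.one_lt
      nlinarith
    have hfrob : ∀ g : G, g ∉ H → ∀ y : G, y ∈ H → g⁻¹ * y * g ∈ H → y = 1 := by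
      intro g hg y hy hgy
      obtain ⟨⟨⟨x, hx⟩, ⟨h, hh⟩⟩, hxh, -⟩ := (Subgroup.isComplement'_def.mp hH).existsUnique g
      simp only at hxh
      subst hxh
      have hx1 : x ≠ 1 := by
        rintro rfl
        apply hg
        simpa using hh
      have h1 : x⁻¹ * y * x ∈ H := by
        have : x⁻¹ * y * x = h * ((x * h)⁻¹ * y * (x * h)) * h⁻¹ := by group
        rw [this]
        exact H.mul_mem (H.mul_mem hh hgy) (H.inv_mem hh)
      have h2 : y⁻¹ * (x⁻¹ * y * x) ∈ P ⊓ H := by
        refine ⟨?_, H.mul_mem (H.inv_mem hy) h1⟩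
        have : y⁻¹ * (x⁻¹ * y * x) = (y⁻¹ * x⁻¹ * y⁻¹⁻¹) * x := by group
        rw [this]
        exact P.mul_mem (hPn.conj_mem _ (P.inv_mem hx) _) hx
      rw [hdisj, Subgroup.mem_bot] at h2
      have h3 : x⁻¹ * y * x = y := (inv_mul_eq_one.mp h2).symm
      have hcomm : Commute y x := by
        show y * x = x * y
        calc y * x = x * (x⁻¹ * y * x) := by group
          _ = x * y := by rw [h3]
      have hyP : y ∈ P := by
        apply hPc
        intro z hz
        have hx' : (⟨x, hx⟩ : P) ≠ 1 := by
          intro h'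
          exact hx1 (congrArg Subtype.val h')
        have hgen : (⟨z, hz⟩ : P) ∈ Subgroup.zpowers (⟨x, hx⟩ : P) :=
          mem_zpowers_of_prime_card hPcard hx'
        obtain ⟨k, hk⟩ := hgen
        have hk' : x ^ k = z := by
          have := congrArg Subtype.val hk
          simpa using this
        rw [← hk']
        exact (hcomm.zpow_right k).eq
      have : y ∈ P ⊓ H := ⟨hyP, hy⟩
      rw [hdisj, Subgroup.mem_bot] at this
      exact this
    refine ⟨H, (Helper71.isFrobeniusComplement_iff H).mpr ⟨hHbot, hHtop, hfrob⟩, ?_⟩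
    have hF : ∀ g : G, g ∉ H → ∀ x ∈ H, g⁻¹ * x * g ∈ H → x ∈ (⊥ : Subgroup G) := by
      intro g hg x hx hgx
      rw [Subgroup.mem_bot]
      exact hfrob g hg x hx hgx
    have hc := Helper71.card_kernel_set ⊥ H bot_le hF
    have hcongr : Nat.card ↥(Cfsg.frobeniusKernel H) =
        Nat.card {x : G // x ∈ (⊥ : Subgroup G) ∨ ∀ g : G, g⁻¹ * x * g ∉ H} := by
      apply Nat.card_congr
      refine Equiv.subtypeEquivRight ?_
      intro x
      show (x = 1 ∨ ∀ g : G, x ∉ MulAut.conj g • H) ↔ _
      simp only [Subgroup.mem_bot, Helper71.mem_conj_smul]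
    rw [hcongr, hc, Subgroup.card_bot, one_mul]
    have := H.card_mul_index
    rw [hHcard, hcod, mul_comm] at this
    exact Nat.eq_of_mul_eq_mul_right hd0 this

end Cfsg.Agent.S4796
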