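import Cfsg.Statements.S4797
import Cfsg.Agent.Helper79.PrimeCodegree

set_option autoImplicit false
open Cfsg

namespace Cfsg.Agent.S4797

/-- The codegree of an irreducible complex character χ of a finite group G is [G : ker χ] / χ(1), where ker χ is the set of elements at which χ takes the value χ(1). A non-trivial finite group is perfect if and only if no irreducible complex character of it has prime codegree. -/
theorem result {G : Type*} [Group G] [Finite G] [Nontrivial G] : commutator G = ⊤ ↔ ∀ χ : Cfsg.IrrCharacter G, ¬ ((Nat.card G / (Nat.card {g : G // (χ : G → ℂ) g = (χ : G → ℂ) 1} * Cfsg.charDegree (χ : G → ℂ)))).Prime := by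
  classical
  constructor
  · -- perfect ⇒ no prime codegree
    intro hperf χ hprime
    set p := Nat.card G / (Nat.card {g : G // (χ : G → ℂ) g = (χ : G → ℂ) 1} *
      Cfsg.charDegree (χ : G → ℂ)) with hpdef
    have hdvd := Helper79.irr_card_ker_mul_degree_dvd χ
    have hχ := Helper79.irr_isCharacter χ
    set K := Helper79.charKer hχ with hK
    have _i : K.Normal := Helper79.charKer_normal hχ
    have hKcard : Nat.card K = Nat.card {g : G // (χ : G → ℂ) g = (χ : G → ℂ) 1} :=
      Helper79.card_charKer hχ
    rw [← hKcard] at hdvd hpdef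
    have hG : Nat.card G = p * (Nat.card K * Cfsg.charDegree (χ : G → ℂ)) := by
      rw [hpdef]; exact (Nat.div_mul_cancel hdvd).symm
    obtain ⟨ψ, hψ, hψχ⟩ := Helper79.exists_irr_deflation K χ.2 (fun x hx => hx)
    have hdeg : Cfsg.charDegree ψ = Cfsg.charDegree (χ : G → ℂ) := by
      unfold Cfsg.charDegree
      have : ψ 1 = (χ : G → ℂ) 1 := hψχ 1
      rw [this]
    have hcardQ : Nat.card (G ⧸ K) = p * Cfsg.charDegree ψ := by
      have h3 : Nat.card G = Nat.card (G ⧸ K) * Nat.card K :=
        Subgroup.card_eq_card_quotient_mul_card_subgroup K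
      rw [hG] at h3
      have hKpos : 0 < Nat.card K := Nat.card_pos
      rw [hdeg]
      apply Nat.eq_of_mul_eq_mul_right hKpos
      rw [← h3]; ring
    have hfaith : ∀ q : G ⧸ K, ψ q = ψ 1 → q = 1 := by
      intro q hq
      obtain ⟨g, rfl⟩ := QuotientGroup.mk_surjective q
      rw [hψχ g] at hq
      have h1 : ψ 1 = (χ : G → ℂ) 1 := hψχ 1
      rw [h1] at hq
      exact (QuotientGroup.eq_one_iff g).mpr hq
    have hnp := Helper79.not_perfect_of_faithful_prime_codegree (G := G ⧸ K) ⟨ψ, hψ⟩ hfaith p
      hprime hcardQ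
    apply hnp
    have hmap : Subgroup.map (QuotientGroup.mk' K) (commutator G) = commutator (G ⧸ K) := by
      rw [commutator_def, Subgroup.map_commutator, commutator_def]
      have : Subgroup.map (QuotientGroup.mk' K) ⊤ = ⊤ := by
        rw [← MonoidHom.range_eq_map]
        exact MonoidHom.range_eq_top.mpr (QuotientGroup.mk'_surjective K)
      rw [this]
    rw [← hmap, hperf, ← MonoidHom.range_eq_map]
    exact MonoidHom.range_eq_top.mpr (QuotientGroup.mk'_surjective K)
  · -- no prime codegree ⇒ perfect
    intro h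
    by_contra hne
    obtain ⟨f, p, hp, hidx⟩ := Helper79.exists_hom_ker_index_prime hne
    let χ : Cfsg.IrrCharacter G := ⟨fun g => (f g : ℂ), Helper79.isIrrCharacter_of_hom f⟩
    apply h χ
    have hdeg : Cfsg.charDegree (χ : G → ℂ) = 1 := by
      simp [Cfsg.charDegree, χ]
    have hker : Nat.card {g : G // (χ : G → ℂ) g = (χ : G → ℂ) 1} = Nat.card f.ker := by
      apply Nat.card_congr
      refine Equiv.subtypeEquivRight ?_
      intro g
      show ((f g : ℂˣ) : ℂ) = ((f 1 : ℂˣ) : ℂ) ↔ g ∈ f.ker
      rw [map_one, MonoidHom.mem_ker]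
      constructor
      · intro h1
        exact Units.val_injective h1
      · intro h1
        rw [h1]
    rw [hdeg, hker, mul_one]
    have hmul := f.ker.card_mul_index
    rw [hidx] at hmul
    rw [← hmul, Nat.mul_div_cancel_left _ Nat.card_pos]
    exact hp

end Cfsg.Agent.S4797
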