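import Cfsg.Statements.S4798
import Cfsg.Agent.Helper79.Induced

set_option autoImplicit false
open Cfsg

namespace Cfsg.Agent.S4798

/-- Let p be a prime and χ a faithful irreducible complex character of the finite group G (χ(g) = χ(1) only for g = 1), so that its codegree is #G / χ(1). Then #G / χ(1) is a power of p if and only if χ is induced from a character of a Sylow p-subgroup of G. -/
theorem result {G : Type*} [Group G] [Fintype G] (p : ℕ) [Fact p.Prime] (χ : Cfsg.IrrCharacter G) (hfaith : ∀ g : G, (χ : G → ℂ) g = (χ : G → ℂ) 1 → g = 1) : (∃ k : ℕ, Nat.card G = p ^ k * Cfsg.charDegree (χ : G → ℂ)) ↔ ∃ (P : Sylow p G) (θ : ↥(P : Subgroup G) → ℂ), Cfsg.IsCharacter ↥(P : Subgroup G) θ ∧ (χ : G → ℂ) = Cfsg.indFun (P : Subgroup G) θ := by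
  classical
  have hp : p.Prime := Fact.out
  constructor
  · rintro ⟨k, hk⟩
    let P : Sylow p G := default
    have : Fintype (P : Subgroup G) := Fintype.ofFinite _
    have : Fintype (Cfsg.IrrCharacter (P : Subgroup G)) := Fintype.ofFinite _
    set d := Cfsg.charDegree (χ : G → ℂ) with hd
    have hd0 : 0 < d := Helper80.irr_degree_pos χ
    have hres : Cfsg.IsCharacter (P : Subgroup G) (fun x : (P : Subgroup G) => (χ : G → ℂ) x) :=
      Helper79.isCharacter_restrict (Helper79.irr_isCharacter χ) (P : Subgroup G)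
    obtain ⟨a, ha, -, hdeg⟩ := Helper79.isCharacter_decomp hres
    have hdeg' : d = ∑ η : Cfsg.IrrCharacter (P : Subgroup G),
        a η * Cfsg.charDegree (η : ↥(P : Subgroup G) → ℂ) := hdeg
    have hn : Nat.card (P : Subgroup G) = p ^ (Nat.card G).factorization p :=
      Sylow.card_eq_multiplicity P
    set n := (Nat.card G).factorization p with hndef
    have hidx : ¬ p ∣ (P : Subgroup G).index := Sylow.not_dvd_index P
    have hidx0 : 0 < (P : Subgroup G).index := Nat.pos_of_ne_zero (fun h => hidx (h ▸ dvd_zero p))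
    have hcard : Nat.card G = p ^ n * (P : Subgroup G).index := by
      rw [← hn]; exact ((P : Subgroup G).card_mul_index).symm
    have hkn : k ≤ n := by
      have h1 : p ^ k ∣ p ^ n * (P : Subgroup G).index := by
        rw [← hcard, hk]; exact dvd_mul_right _ _
      have hcop : Nat.Coprime (p ^ k) (P : Subgroup G).index :=
        Nat.Coprime.pow_left _ ((Nat.Prime.coprime_iff_not_dvd hp).mpr hidx)
      have h2 : p ^ k ∣ p ^ n := hcop.dvd_of_dvd_mul_right h1
      exact (Nat.pow_dvd_pow_iff_le_right hp.one_lt).mp h2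
    have hd2 : d = (P : Subgroup G).index * p ^ (n - k) := by
      have h1 : p ^ k * d = p ^ k * ((P : Subgroup G).index * p ^ (n - k)) := by
        rw [← hk, hcard]
        have : p ^ n = p ^ k * p ^ (n - k) := by rw [← pow_add]; congr 1; omega
        rw [this]; ring
      exact Nat.eq_of_mul_eq_mul_left (pow_pos hp.pos k) h1
    -- degrees of the irreducible characters of P are powers of p
    have hpow : ∀ η : Cfsg.IrrCharacter (P : Subgroup G),
        ∃ j, Cfsg.charDegree (η : ↥(P : Subgroup G) → ℂ) = p ^ j := by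
      intro η
      have h1 := Helper79.irr_charDegree_dvd_card η
      rw [hn] at h1
      obtain ⟨j, -, hj⟩ := (Nat.dvd_prime_pow hp).mp h1
      exact ⟨j, hj⟩
    have hdiv : ∀ η : Cfsg.IrrCharacter (P : Subgroup G), a η ≠ 0 →
        p ^ (n - k) ∣ Cfsg.charDegree (η : ↥(P : Subgroup G) → ℂ) := by
      intro η hη
      have hne : Cfsg.classInner (fun x : (P : Subgroup G) => (χ : G → ℂ) x)
          (η : ↥(P : Subgroup G) → ℂ) ≠ 0 := by
        rw [ha]; exact_mod_cast hη
      have h1 := (Helper79.irr_charDegree_le_index_mul χ (P : Subgroup G) η hne).1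
      obtain ⟨j, hj⟩ := hpow η
      rw [hj] at h1 ⊢
      rw [← hd, hd2] at h1
      have h2 : p ^ (n - k) ≤ p ^ j := Nat.le_of_mul_le_mul_left h1 hidx0
      exact pow_dvd_pow p ((Nat.pow_le_pow_iff_right hp.one_lt).mp h2)
    obtain ⟨η, hη0, hηd⟩ : ∃ η : Cfsg.IrrCharacter (P : Subgroup G), a η ≠ 0 ∧
        Cfsg.charDegree (η : ↥(P : Subgroup G) → ℂ) = p ^ (n - k) := by
      by_contra hcon
      push Not at hcon
      have h1 : p ^ (n - k + 1) ∣ d := by
        rw [hdeg']
        apply Finset.dvd_sum
        intro η _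
        by_cases h0 : a η = 0
        · simp [h0]
        · obtain ⟨j, hj⟩ := hpow η
          have h2 := hdiv η h0
          have h3 := hcon η h0
          rw [hj] at h2 h3 ⊢
          have h4 : n - k ≤ j := (Nat.pow_dvd_pow_iff_le_right hp.one_lt).mp h2
          have h5 : j ≠ n - k := fun h => h3 (by rw [h])
          exact Dvd.dvd.mul_left (pow_dvd_pow p (by omega)) _
      rw [hd2, pow_succ, mul_comm (P : Subgroup G).index] at h1
      have h2 : p ∣ (P : Subgroup G).index :=
        Nat.dvd_of_mul_dvd_mul_left (pow_pos hp.pos _) h1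
      exact hidx h2
    have hne : Cfsg.classInner (fun x : (P : Subgroup G) => (χ : G → ℂ) x)
        (η : ↥(P : Subgroup G) → ℂ) ≠ 0 := by
      rw [ha]; exact_mod_cast hη0
    refine ⟨P, (η : ↥(P : Subgroup G) → ℂ), Helper79.irr_isCharacter η, ?_⟩
    exact ((Helper79.irr_charDegree_le_index_mul χ (P : Subgroup G) η hne).2
      (by rw [hηd, ← hd, hd2])).symm
  · rintro ⟨P, θ, hθ, hχ⟩
    have : Fintype (P : Subgroup G) := Fintype.ofFinite _
    have : Fintype (Cfsg.IrrCharacter (P : Subgroup G)) := Fintype.ofFinite _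
    set d := Cfsg.charDegree (χ : G → ℂ) with hd
    have hres : Cfsg.IsCharacter (P : Subgroup G) (fun x : (P : Subgroup G) => (χ : G → ℂ) x) :=
      Helper79.isCharacter_restrict (Helper79.irr_isCharacter χ) (P : Subgroup G)
    obtain ⟨a, ha, -, -⟩ := Helper79.isCharacter_decomp hres
    obtain ⟨c, hc, hcval, hcdeg⟩ := Helper79.isCharacter_decomp hθ
    -- 1 = ⟨χ, χ⟩ = ⟨θ, χ_P⟩ = ∑ c η * a η
    have hone : ∑ η : Cfsg.IrrCharacter (P : Subgroup G), c η * a η = 1 := by
      have h1 := Helper79.irr_classInner_self χ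
      have h2 := Helper3.frobenius_reciprocity (P : Subgroup G) θ (χ : G → ℂ)
        (Helper79.isCharacter_isClassFunction (Helper79.irr_isCharacter χ))
      rw [← hχ, h1] at h2
      have h3 : Cfsg.classInner θ (fun h : (P : Subgroup G) => (χ : G → ℂ) h) =
          ∑ η : Cfsg.IrrCharacter (P : Subgroup G), (c η : ℂ) * (a η : ℂ) := by
        have e1 : ∀ η : Cfsg.IrrCharacter (P : Subgroup G),
            Cfsg.classInner (η : ↥(P : Subgroup G) → ℂ)
              (fun h : (P : Subgroup G) => (χ : G → ℂ) h) = (a η : ℂ) := by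
          intro η
          rw [Helper79.classInner_conj_symm, ha, Complex.conj_natCast]
        calc Cfsg.classInner θ (fun h : (P : Subgroup G) => (χ : G → ℂ) h)
            = (Nat.card (P : Subgroup G) : ℂ)⁻¹ * ∑ x : (P : Subgroup G),
                ∑ η : Cfsg.IrrCharacter (P : Subgroup G),
                  (c η : ℂ) * ((η : ↥(P : Subgroup G) → ℂ) x *
                    (starRingEnd ℂ) ((χ : G → ℂ) x)) := by
              unfold Cfsg.classInner
              congr 1
              apply Finset.sum_congr rfl
              intro x _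
              rw [hcval x, Finset.sum_mul]
              apply Finset.sum_congr rfl
              intro η _
              ring
          _ = ∑ η : Cfsg.IrrCharacter (P : Subgroup G), (c η : ℂ) *
                ((Nat.card (P : Subgroup G) : ℂ)⁻¹ * ∑ x : (P : Subgroup G),
                  (η : ↥(P : Subgroup G) → ℂ) x * (starRingEnd ℂ) ((χ : G → ℂ) x)) := by
              rw [Finset.sum_comm, Finset.mul_sum]
              apply Finset.sum_congr rfl
              intro η _
              rw [← Finset.mul_sum]
              ring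
          _ = ∑ η : Cfsg.IrrCharacter (P : Subgroup G), (c η : ℂ) * (a η : ℂ) := by
              apply Finset.sum_congr rfl
              intro η _
              rw [← e1 η]
              rfl
      rw [h3] at h2
      exact_mod_cast h2.symm
    obtain ⟨η0, h0⟩ : ∃ η0 : Cfsg.IrrCharacter (P : Subgroup G), c η0 * a η0 ≠ 0 := by
      by_contra hcon
      push Not at hcon
      rw [Finset.sum_eq_zero (fun η _ => hcon η)] at hone
      exact zero_ne_one hone
    have hc0 : 1 ≤ c η0 := Nat.pos_of_ne_zero (left_ne_zero_of_mul h0)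
    have ha0 : a η0 ≠ 0 := right_ne_zero_of_mul h0
    have hne : Cfsg.classInner (fun x : (P : Subgroup G) => (χ : G → ℂ) x)
        (η0 : ↥(P : Subgroup G) → ℂ) ≠ 0 := by
      rw [ha]; exact_mod_cast ha0
    have h1 := (Helper79.irr_charDegree_le_index_mul χ (P : Subgroup G) η0 hne).1
    have h2 : d = (P : Subgroup G).index * Cfsg.charDegree θ := by
      rw [hd, hχ]; exact Helper79.charDegree_indFun (P : Subgroup G) hθ
    have h3 : Cfsg.charDegree (η0 : ↥(P : Subgroup G) → ℂ) ≤ Cfsg.charDegree θ := by
      rw [hcdeg]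
      calc Cfsg.charDegree (η0 : ↥(P : Subgroup G) → ℂ)
          ≤ c η0 * Cfsg.charDegree (η0 : ↥(P : Subgroup G) → ℂ) := Nat.le_mul_of_pos_left _ hc0
        _ ≤ _ := Finset.single_le_sum
            (f := fun η : Cfsg.IrrCharacter (P : Subgroup G) =>
              c η * Cfsg.charDegree (η : ↥(P : Subgroup G) → ℂ))
            (fun _ _ => Nat.zero_le _) (Finset.mem_univ η0)
    have hidx : ¬ p ∣ (P : Subgroup G).index := Sylow.not_dvd_index P
    have hidx0 : 0 < (P : Subgroup G).index := Nat.pos_of_ne_zero (fun h => hidx (h ▸ dvd_zero p))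
    have h4 : Cfsg.charDegree θ = Cfsg.charDegree (η0 : ↥(P : Subgroup G) → ℂ) := by
      apply le_antisymm _ h3
      rw [← hd, h2] at h1
      exact Nat.le_of_mul_le_mul_left h1 hidx0
    have hn : Nat.card (P : Subgroup G) = p ^ (Nat.card G).factorization p :=
      Sylow.card_eq_multiplicity P
    set n := (Nat.card G).factorization p with hndef
    have h5 := Helper79.irr_charDegree_dvd_card η0
    rw [hn] at h5
    obtain ⟨j, hjn, hj⟩ := (Nat.dvd_prime_pow hp).mp h5
    refine ⟨n - j, ?_⟩
    rw [h2, h4, hj, ← (P : Subgroup G).card_mul_index, hn]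
    have : p ^ n = p ^ (n - j) * p ^ j := by rw [← pow_add]; congr 1; omega
    rw [this]; ring

end Cfsg.Agent.S4798
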