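import Cfsg.Statements.S4801
import Cfsg.Agent.Helper79.Codegree

set_option autoImplicit false
open Cfsg

namespace Cfsg.Agent.S4801

/-- The codegree of an irreducible complex character χ of a finite group G is [G : ker χ] / χ(1), where ker χ is the set of elements at which χ takes the value χ(1). Let S be a finite simple group and G a finite group such that every codegree of an irreducible character of S is a codegree of an irreducible character of G. Then the order of S divides the order of G. -/
theorem result {S : Type*} [Group S] [Finite S] (hS : IsSimpleGroup S) {G : Type*} [Group G] [Finite G] (hsub : ∀ χ : Cfsg.IrrCharacter S, ∃ ψ : Cfsg.IrrCharacter G, (Nat.card S / (Nat.card {g : S // (χ : S → ℂ) g = (χ : S → ℂ) 1} * Cfsg.charDegree (χ : S → ℂ))) = (Nat.card G / (Nat.card {g : G // (ψ : G → ℂ) g = (ψ : G → ℂ) 1} * Cfsg.charDegree (ψ : G → ℂ)))) : Nat.card S ∣ Nat.card G := by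
  classical
  have hS0 : Nat.card S ≠ 0 := Nat.card_pos.ne'
  have hG0 : Nat.card G ≠ 0 := Nat.card_pos.ne'
  rw [← Nat.factorization_le_iff_dvd hS0 hG0, Finsupp.le_def]
  intro p
  by_cases hp : p.Prime
  swap
  · simp [Nat.factorization_eq_zero_of_not_prime _ hp]
  by_cases hpS : p ∣ Nat.card S
  swap
  · rw [Nat.factorization_eq_zero_of_not_dvd hpS]; exact Nat.zero_le _
  have : Fintype S := Fintype.ofFinite S
  have : Fintype (Cfsg.IrrCharacter S) := Fintype.ofFinite _
  obtain ⟨χ, hχT, hχp⟩ : ∃ χ : Cfsg.IrrCharacter S, χ ≠ Helper79.trivIrr S ∧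
      ¬ p ∣ Cfsg.charDegree (χ : S → ℂ) := by
    by_contra hcon
    push Not at hcon
    have hsum := Helper80.irr_sum_charDegree_sq (G := S)
    rw [← Finset.add_sum_erase _ _ (Finset.mem_univ (Helper79.trivIrr S))] at hsum
    have h1 : Cfsg.charDegree (Helper79.trivIrr S : S → ℂ) = 1 := by
      simp [Cfsg.charDegree]
    have h2 : p ∣ ∑ χ ∈ Finset.univ.erase (Helper79.trivIrr S),
        Cfsg.charDegree (χ : S → ℂ) ^ 2 := by
      apply Finset.dvd_sum
      intro χ hχ
      exact dvd_pow (hcon χ (Finset.ne_of_mem_erase hχ)) two_ne_zero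
    rw [h1] at hsum
    have h3 : p ∣ Fintype.card S := by rwa [← Nat.card_eq_fintype_card]
    rw [← hsum] at h3
    have h4 : p ∣ 1 ^ 2 := (Nat.dvd_add_left h2).mp h3
    rw [one_pow] at h4
    exact hp.one_lt.ne' (Nat.dvd_one.mp h4)
  have _i : IsSimpleGroup S := hS
  obtain ⟨ψ, hψ⟩ := hsub χ
  have hk : Nat.card {g : S // (χ : S → ℂ) g = (χ : S → ℂ) 1} = 1 :=
    Helper79.irr_card_ker_of_isSimpleGroup χ hχT
  rw [hk, one_mul] at hψ
  have hd := Helper79.irr_charDegree_dvd_card χ
  have hm := Helper79.irr_card_ker_mul_degree_dvd ψ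
  have e1 : (Nat.card S / Cfsg.charDegree (χ : S → ℂ)).factorization p =
      (Nat.card S).factorization p := by
    rw [Nat.factorization_div hd]
    simp [Nat.factorization_eq_zero_of_not_dvd hχp]
  have e2 : (Nat.card G / (Nat.card {g : G // (ψ : G → ℂ) g = (ψ : G → ℂ) 1} *
      Cfsg.charDegree (ψ : G → ℂ))).factorization p ≤ (Nat.card G).factorization p := by
    rw [Nat.factorization_div hm]
    simp
  rw [← e1, hψ]
  exact e2

end Cfsg.Agent.S4801
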