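import Cfsg.Statements.S4802
import Cfsg.Agent.Helper79.Normal

set_option autoImplicit false
open Cfsg

namespace Cfsg.Agent.S4802

/-- Let N < M be normal subgroups of the finite group G and g ∈ M ∖ N. Then the conjugacy class of g is exactly M ∖ N if and only if every irreducible complex character of G whose kernel contains N takes the same value at all elements of M ∖ N, and every irreducible complex character of G whose kernel does not contain N vanishes at g. -/
theorem result {G : Type*} [Group G] [Finite G] (N M : Subgroup G) [N.Normal] [M.Normal] (hNM : N < M) (g : G) (hgM : g ∈ M) (hgN : g ∉ N) : {h : G | IsConj g h} = (M : Set G) \ (N : Set G) ↔ ((∀ χ : Cfsg.IrrCharacter G, (∀ x ∈ N, (χ : G → ℂ) x = (χ : G → ℂ) 1) → ∀ x ∈ M, x ∉ N → ∀ y ∈ M, y ∉ N → (χ : G → ℂ) x = (χ : G → ℂ) y) ∧ (∀ χ : Cfsg.IrrCharacter G, (∃ x ∈ N, (χ : G → ℂ) x ≠ (χ : G → ℂ) 1) → (χ : G → ℂ) g = 0)) := by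
  classical
  have : Fintype G := Fintype.ofFinite G
  have : Fintype (Cfsg.IrrCharacter G) := Fintype.ofFinite _
  have : Fintype N := Fintype.ofFinite _
  constructor
  · intro hcl
    have hconj : ∀ x ∈ M, x ∉ N → IsConj g x := by
      intro x hxM hxN
      have : x ∈ {h : G | IsConj g h} := by rw [hcl]; exact ⟨hxM, hxN⟩
      exact this
    refine ⟨?_, ?_⟩
    · intro χ _ x hxM hxN y hyM hyN
      have hχ := Helper79.irr_isCharacter χ
      rw [← Helper79.isCharacter_eq_of_isConj hχ (hconj x hxM hxN),
        ← Helper79.isCharacter_eq_of_isConj hχ (hconj y hyM hyN)]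
    · intro χ hχN
      have hχ := Helper79.irr_isCharacter χ
      have hsum := Helper79.irr_sum_coset_eq_zero χ.2 N hχN g
      have hterm : ∀ n : N, (χ : G → ℂ) (g * (n : G)) = (χ : G → ℂ) g := by
        intro n
        have h1 : g * (n : G) ∈ M := M.mul_mem hgM (hNM.le n.2)
        have h2 : g * (n : G) ∉ N := by
          intro h3
          apply hgN
          have := N.mul_mem h3 (N.inv_mem n.2)
          simpa using this
        exact (Helper79.isCharacter_eq_of_isConj hχ (hconj _ h1 h2)).symm
      simp only [hterm, Finset.sum_const, Finset.card_univ, nsmul_eq_mul] at hsum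
      rcases mul_eq_zero.mp hsum with h | h
      · exact absurd h (by exact_mod_cast Fintype.card_ne_zero)
      · exact h
  · rintro ⟨h1, h2⟩
    ext h
    constructor
    · intro hh
      obtain ⟨c, rfl⟩ := isConj_iff.mp hh
      refine ⟨(inferInstance : M.Normal).conj_mem g hgM c, ?_⟩
      intro hcN
      apply hgN
      have := (inferInstance : N.Normal).conj_mem _ hcN c⁻¹
      simpa [mul_assoc] using this
    · rintro ⟨hhM, hhN⟩
      show IsConj g h
      by_contra hcon
      have horth := Helper80.irr_column_orthogonality_of_not_isConj hcon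
      have hre : (∑ χ : Cfsg.IrrCharacter G,
          (χ : G → ℂ) g * (starRingEnd ℂ) ((χ : G → ℂ) h)).re = 0 := by rw [horth]; simp
      rw [Complex.re_sum] at hre
      have hnonneg : ∀ χ : Cfsg.IrrCharacter G,
          0 ≤ ((χ : G → ℂ) g * (starRingEnd ℂ) ((χ : G → ℂ) h)).re := by
        intro χ
        by_cases hχN : ∀ x ∈ N, (χ : G → ℂ) x = (χ : G → ℂ) 1
        · rw [← h1 χ hχN g hgM hgN h hhM hhN, Complex.mul_conj]
          simp [Complex.normSq_nonneg]
        · push Not at hχN
          rw [h2 χ hχN]
          simp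
      have hle := Finset.single_le_sum (f := fun χ : Cfsg.IrrCharacter G =>
        ((χ : G → ℂ) g * (starRingEnd ℂ) ((χ : G → ℂ) h)).re) (fun χ _ => hnonneg χ)
        (Finset.mem_univ (Helper79.trivIrr G))
      rw [hre] at hle
      simp at hle
      linarith

end Cfsg.Agent.S4802
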