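import Cfsg.Statements.S4808
import Cfsg.Agent.Helper80.CharKer

set_option autoImplicit false
open Cfsg

namespace Cfsg.Agent.S4808

open Cfsg.Agent.Helper80

open scoped Classical

theorem result {G : Type*} [Group G] [Finite G] (p : ℕ) (hp : p.Prime) : p ∣ Nat.card G ↔ ∃ χ : Cfsg.IrrCharacter G, p ∣ (Nat.card G / (Nat.card {g : G // (χ : G → ℂ) g = (χ : G → ℂ) 1} * Cfsg.charDegree (χ : G → ℂ))) := by
  have hdvd : ∀ χ : IrrCharacter G,
      Nat.card {g : G // (χ : G → ℂ) g = (χ : G → ℂ) 1} * Cfsg.charDegree (χ : G → ℂ) ∣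
        Nat.card G := by
    intro χ
    rw [mul_comm]
    exact irr_degree_mul_card_ker_dvd χ
  constructor
  swap
  · rintro ⟨χ, hχ⟩
    exact hχ.trans (Nat.div_dvd_of_dvd (hdvd χ))
  intro hpG
  by_contra hcon
  push Not at hcon
  haveI : Fact p.Prime := ⟨hp⟩
  letI := Fintype.ofFinite G
  letI := Fintype.ofFinite (IrrCharacter G)
  letI := Fintype.ofFinite (Subgroup G)
  -- a maximal normal subgroup `N` with `p ∣ [G : N]`
  have hne : (Finset.univ.filter (fun N : Subgroup G => N.Normal ∧ p ∣ N.index)).Nonempty := by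
    refine ⟨⊥, ?_⟩
    rw [Finset.mem_filter]
    refine ⟨Finset.mem_univ _, Subgroup.normal_bot, ?_⟩
    rw [Subgroup.index_bot]
    exact hpG
  obtain ⟨N, hNmem, hNmax⟩ := Finset.exists_maximal hne
  rw [Finset.mem_filter] at hNmem
  obtain ⟨-, hNn, hNp⟩ := hNmem
  haveI := hNn
  have hmax : ∀ M : Subgroup G, M.Normal → N < M → ¬ p ∣ M.index := by
    intro M hM hNM hpM
    have h1 : M ∈ Finset.univ.filter (fun N : Subgroup G => N.Normal ∧ p ∣ N.index) := by
      rw [Finset.mem_filter]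
      exact ⟨Finset.mem_univ _, hM, hpM⟩
    exact absurd (hNmax h1 hNM.le) (not_le_of_gt hNM)
  -- an element of order `p` modulo `N`
  have hpq : p ∣ Nat.card (G ⧸ N) := by
    rw [← Subgroup.index_eq_card]
    exact hNp
  obtain ⟨q, hq⟩ := exists_prime_orderOf_dvd_card' (G := G ⧸ N) p hpq
  obtain ⟨g, rfl⟩ := QuotientGroup.mk_surjective q
  have hgN : g ∉ N := by
    intro h
    have : ((g : G) : G ⧸ N) = 1 := (QuotientGroup.eq_one_iff g).mpr h
    rw [this, orderOf_one] at hq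
    exact hp.one_lt.ne hq
  have hgp : g ^ p ∈ N := by
    rw [← QuotientGroup.eq_one_iff, QuotientGroup.mk_pow, ← hq, pow_orderOf_eq_one]
  -- `g` lies in every normal subgroup strictly above `N`
  have hgM : ∀ M : Subgroup G, M.Normal → N < M → g ∈ M := by
    intro M hM hNM
    haveI := hM
    have h1 := hmax M hM hNM
    have h2 : ((g : G) : G ⧸ M) ^ p = 1 := by
      rw [← QuotientGroup.mk_pow, QuotientGroup.eq_one_iff]
      exact hNM.le hgp
    have h3 : orderOf ((g : G) : G ⧸ M) ∣ p := orderOf_dvd_of_pow_eq_one h2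
    have h4 : orderOf ((g : G) : G ⧸ M) ∣ Nat.card (G ⧸ M) := orderOf_dvd_natCard _
    rw [← Subgroup.index_eq_card] at h4
    rcases (Nat.dvd_prime hp).mp h3 with h5 | h5
    · rw [← QuotientGroup.eq_one_iff]
      exact orderOf_eq_one_iff.mp h5
    · rw [h5] at h4
      exact absurd h4 h1
  -- the smallest normal subgroup strictly above `N`
  set M₀ : Subgroup G := N ⊔ Subgroup.normalClosure {g} with hM₀
  have hM₀n : M₀.Normal := inferInstance
  have hgM₀ : g ∈ M₀ :=
    (le_sup_right : Subgroup.normalClosure {g} ≤ M₀)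
      (Subgroup.subset_normalClosure (Set.mem_singleton g))
  have hNM₀ : N < M₀ := by
    refine lt_of_le_of_ne le_sup_left ?_
    intro h
    rw [← h] at hgM₀
    exact hgN hgM₀
  have hM₀le : ∀ M : Subgroup G, M.Normal → N < M → M₀ ≤ M := by
    intro M hM hNM
    haveI := hM
    exact sup_le hNM.le (Subgroup.normalClosure_le_normal (by
      intro x hx
      rw [Set.mem_singleton_iff] at hx
      rw [hx]
      exact hgM M hM hNM))
  have hM₀p : ¬ p ∣ M₀.index := hmax M₀ hM₀n hNM₀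
  -- the two sums of squares
  have hsN := irr_sum_sq_of_le_ker (G := G) N
  have hsM := irr_sum_sq_of_le_ker (G := G) M₀
  set SN := Finset.univ.filter (fun χ : IrrCharacter G =>
    ∀ n ∈ N, (χ : G → ℂ) n = (χ : G → ℂ) 1) with hSN
  set SM := Finset.univ.filter (fun χ : IrrCharacter G =>
    ∀ n ∈ M₀, (χ : G → ℂ) n = (χ : G → ℂ) 1) with hSM
  have hsub : SM ⊆ SN := by
    intro χ hχ
    rw [hSM, Finset.mem_filter] at hχ
    rw [hSN, Finset.mem_filter]
    exact ⟨Finset.mem_univ _, fun n hn => hχ.2 n (hNM₀.le hn)⟩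
  have hsplit : ∑ χ ∈ SN, charDegree (χ : G → ℂ) ^ 2 =
      ∑ χ ∈ SN \ SM, charDegree (χ : G → ℂ) ^ 2 + ∑ χ ∈ SM, charDegree (χ : G → ℂ) ^ 2 :=
    (Finset.sum_sdiff hsub).symm
  -- characters in `SN \ SM` have kernel exactly `N`, hence degree divisible by `p`
  have hdiff : ∀ χ ∈ SN \ SM, p ∣ charDegree (χ : G → ℂ) ^ 2 := by
    intro χ hχ
    rw [Finset.mem_sdiff, hSN, hSM, Finset.mem_filter, Finset.mem_filter] at hχ
    obtain ⟨⟨-, h1⟩, h2⟩ := hχ
    have h2' : ¬ ∀ n ∈ M₀, (χ : G → ℂ) n = (χ : G → ℂ) 1 := fun h => h2 ⟨Finset.mem_univ _, h⟩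
    obtain ⟨K, hKn, hK⟩ := isCharacter_ker (isCharacter_of_irr χ.2)
    have hNK : N ≤ K := fun n hn => (hK n).mpr (h1 n hn)
    have hKN : K = N := by
      by_contra hne
      have hlt : N < K := lt_of_le_of_ne hNK (fun h => hne h.symm)
      exact h2' (fun n hn => (hK n).mp (hM₀le K hKn hlt hn))
    have hcard : Nat.card {g : G // (χ : G → ℂ) g = (χ : G → ℂ) 1} = Nat.card N := by
      rw [← hKN]
      exact Nat.card_congr (Equiv.subtypeEquivRight (fun g => (hK g).symm))
    have h3 := hcon χ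
    rw [hcard] at h3
    have h4 := hdvd χ
    rw [hcard] at h4
    obtain ⟨c, hc⟩ := h4
    have h5 : Nat.card G / (Nat.card N * charDegree (χ : G → ℂ)) = c := by
      rw [hc]
      exact Nat.mul_div_cancel_left c (Nat.mul_pos Nat.card_pos (irr_degree_pos χ))
    rw [h5] at h3
    have h6 : Nat.card N * N.index = Nat.card G := N.card_mul_index
    rw [hc, mul_assoc] at h6
    have h7 : N.index = charDegree (χ : G → ℂ) * c := Nat.eq_of_mul_eq_mul_left Nat.card_pos h6
    rw [h7] at hNp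
    rcases (Nat.Prime.dvd_mul hp).mp hNp with h8 | h8
    · exact dvd_pow h8 (by norm_num)
    · exact absurd h8 h3
  have hdiffsum : p ∣ ∑ χ ∈ SN \ SM, charDegree (χ : G → ℂ) ^ 2 := Finset.dvd_sum hdiff
  have hN' : ∑ χ ∈ SN, charDegree (χ : G → ℂ) ^ 2 = N.index := by
    convert hsN
  have hM' : ∑ χ ∈ SM, charDegree (χ : G → ℂ) ^ 2 = M₀.index := by
    convert hsM
  rw [hN', hM'] at hsplit
  rw [hsplit] at hNp
  exact hM₀p ((Nat.dvd_add_right hdiffsum).mp hNp)

end Cfsg.Agent.S4808
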