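import Cfsg.Statements.S4813
import Mathlib
import Cfsg.Agent.Helper4.PrimeDegMain

set_option autoImplicit false
open Cfsg

namespace Cfsg.Agent.S4813

/-- If every irreducible complex character of the finite group G of degree greater than one has prime degree, then G has at most three distinct irreducible character degrees. -/
theorem result {G : Type*} [Group G] [Finite G] (hprime : ∀ d ∈ Cfsg.charDegrees G, d = 1 ∨ d.Prime) : Nat.card ↥(Cfsg.charDegrees G) ≤ 3 := by
  obtain ⟨a, b, hab⟩ := Helper4.primeDeg_main (Nat.card G) G rfl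
    (fun χ => hprime _ ⟨χ, rfl⟩)
  have hsub : Cfsg.charDegrees G ⊆ (({1, a, b} : Finset ℕ) : Set ℕ) := by
    rintro d ⟨χ, rfl⟩
    simp only [Finset.coe_insert, Finset.coe_singleton, Set.mem_insert_iff,
      Set.mem_singleton_iff]
    exact hab χ
  rw [Nat.card_coe_set_eq]
  calc (Cfsg.charDegrees G).ncard ≤ ((({1, a, b} : Finset ℕ) : Set ℕ)).ncard :=
        Set.ncard_le_ncard hsub (Finset.finite_toSet _)
    _ = ({1, a, b} : Finset ℕ).card := Set.ncard_coe_finset _
    _ ≤ 3 := Finset.card_le_three

end Cfsg.Agent.S4813
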