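import Cfsg.Statements.S4825
import Cfsg.Agent.Helper80.RelBlock

set_option autoImplicit false
open Cfsg

namespace Cfsg.Agent.S4825

open Cfsg.Agent.Helper80

/-- Let p be a prime, G a finite group with Sylow p-subgroup P, M a maximal ideal of the algebraic integers containing p, and B a p-block of G with defect group P. Let N be a normal subgroup of G not containing P and θ an irreducible character of N. Then the number of irreducible characters in B of degree prime to p lying over θ (having θ as a constituent on restriction to N) is either 0 or at least 2, and when p ≤ 3 it is divisible by p. -/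
theorem result {G : Type*} [Group G] [Fintype G] (p : ℕ) [Fact p.Prime] (P : Sylow p G) (M : Ideal Cfsg.AlgInt) (hM : Cfsg.IsPModular p M) (B : Set (Cfsg.IrrCharacter G)) (hB : Cfsg.IsPBlock M B) (hBP : Cfsg.IsDefectGroup p M B P) (N : Subgroup G) [N.Normal] [Fintype N] (hPN : ¬ (P : Subgroup G) ≤ N) (θ : Cfsg.IrrCharacter N) :
    (Nat.card {χ : Cfsg.IrrCharacter G // χ ∈ B ∧ ¬ p ∣ Cfsg.charDegree (χ : G → ℂ) ∧ Cfsg.classInner (fun n : N => (χ : G → ℂ) n) (θ : N → ℂ) ≠ 0} = 0 ∨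
      2 ≤ Nat.card {χ : Cfsg.IrrCharacter G // χ ∈ B ∧ ¬ p ∣ Cfsg.charDegree (χ : G → ℂ) ∧ Cfsg.classInner (fun n : N => (χ : G → ℂ) n) (θ : N → ℂ) ≠ 0}) ∧
    (p ≤ 3 → p ∣ Nat.card {χ : Cfsg.IrrCharacter G // χ ∈ B ∧ ¬ p ∣ Cfsg.charDegree (χ : G → ℂ) ∧ Cfsg.classInner (fun n : N => (χ : G → ℂ) n) (θ : N → ℂ) ≠ 0}) := by
  classical
  letI : Fintype (IrrCharacter G) := Fintype.ofFinite _
  have hp : p.Prime := Fact.out
  obtain ⟨x, hxP, hxN⟩ := SetLike.not_le_iff_exists.mp hPN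
  have hxp : ∃ j : ℕ, orderOf x = p ^ j := by
    obtain ⟨j, hj⟩ := (IsPGroup.iff_orderOf.mp P.isPGroup') ⟨x, hxP⟩
    exact ⟨j, by rw [← hj, Subgroup.orderOf_mk]⟩
  have hex : ∀ χ : IrrCharacter G, ∃ n : ℕ,
      classInner (fun n : N => (χ : G → ℂ) n) (θ : N → ℂ) = (n : ℂ) := fun χ =>
    Cfsg.Agent.Helper3.classInner_isCharacter_nat
      (Cfsg.Agent.Helper79.isCharacter_restrict (isCharacter_of_irr χ.2) N)
      (isCharacter_of_irr θ.2)
  choose m hm using hex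
  have key := dvd_sum_block_over hM B hB N (θ : N → ℂ) x hxp hxN m hm
  obtain ⟨c, hc⟩ : ∃ c : ℕ, c = (Cfsg.Agent.Helper3.inertia N (θ : N → ℂ)).index *
      charDegree (θ : N → ℂ) := ⟨_, rfl⟩
  have hcl : ∀ χ : IrrCharacter G, m χ ≠ 0 → charDegree (χ : G → ℂ) = m χ * c := by
    intro χ hχ
    have hne : classInner (fun n : N => (χ : G → ℂ) n) (θ : N → ℂ) ≠ 0 := by
      rw [hm]
      exact_mod_cast hχ
    have h1 := clifford_degree N χ.2 θ.2 hne
    rw [hm, Cfsg.Agent.Helper79.isCharacter_one_eq_charDegree (isCharacter_of_irr χ.2), ← hc] at h1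
    exact_mod_cast h1
  have hmne : ∀ χ : IrrCharacter G,
      classInner (fun n : N => (χ : G → ℂ) n) (θ : N → ℂ) ≠ 0 ↔ m χ ≠ 0 := by
    intro χ
    rw [hm]
    exact Nat.cast_ne_zero
  -- the set of characters counted
  obtain ⟨F, hF⟩ : ∃ F : Finset (IrrCharacter G), F = Finset.univ.filter (fun χ =>
      χ ∈ B ∧ ¬ p ∣ Cfsg.charDegree (χ : G → ℂ) ∧
        Cfsg.classInner (fun n : N => (χ : G → ℂ) n) (θ : N → ℂ) ≠ 0) := ⟨_, rfl⟩
  have hFmem : ∀ χ, χ ∈ F ↔ (χ ∈ B ∧ ¬ p ∣ Cfsg.charDegree (χ : G → ℂ) ∧ m χ ≠ 0) := by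
    intro χ
    rw [hF, Finset.mem_filter, hmne]
    simp
  have hcard : Nat.card {χ : Cfsg.IrrCharacter G // χ ∈ B ∧ ¬ p ∣ Cfsg.charDegree (χ : G → ℂ) ∧
      Cfsg.classInner (fun n : N => (χ : G → ℂ) n) (θ : N → ℂ) ≠ 0} = F.card := by
    rw [Nat.card_eq_fintype_card, Fintype.card_subtype, hF]
  rw [hcard]
  -- the congruence
  have hT : p ∣ ∑ χ ∈ F, charDegree (χ : G → ℂ) ^ 2 := by
    have h1 : c * (∑ χ : IrrCharacter G, if χ ∈ B then m χ * charDegree (χ : G → ℂ) else 0) =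
        ∑ χ : IrrCharacter G, if (χ ∈ B ∧ m χ ≠ 0) then charDegree (χ : G → ℂ) ^ 2 else 0 := by
      rw [Finset.mul_sum]
      apply Finset.sum_congr rfl
      intro χ _
      by_cases hχB : χ ∈ B
      · by_cases hm0 : m χ = 0
        · rw [if_pos hχB, if_neg (fun h => h.2 hm0), hm0, zero_mul, mul_zero]
        · rw [if_pos hχB, if_pos ⟨hχB, hm0⟩, sq]
          nth_rewrite 2 [hcl χ hm0]
          ring
      · rw [if_neg hχB, if_neg (fun h => hχB h.1), mul_zero]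
    have h2 : p ∣ ∑ χ : IrrCharacter G,
        if (χ ∈ B ∧ m χ ≠ 0) then charDegree (χ : G → ℂ) ^ 2 else 0 := by
      rw [← h1]
      exact Dvd.dvd.mul_left key c
    have h3 : (∑ χ : IrrCharacter G,
        if (χ ∈ B ∧ m χ ≠ 0) then charDegree (χ : G → ℂ) ^ 2 else 0) ≡
        ∑ χ ∈ F, charDegree (χ : G → ℂ) ^ 2 [MOD p] := by
      have h4 : ∑ χ ∈ F, charDegree (χ : G → ℂ) ^ 2 = ∑ χ : IrrCharacter G,
          if χ ∈ F then charDegree (χ : G → ℂ) ^ 2 else 0 := by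
        rw [Finset.sum_ite_mem, Finset.univ_inter]
      rw [h4]
      apply Nat.ModEq.sum
      intro χ _
      by_cases hχ : χ ∈ F
      · rw [if_pos hχ, if_pos ⟨((hFmem χ).mp hχ).1, ((hFmem χ).mp hχ).2.2⟩]
      · rw [if_neg hχ]
        by_cases h5 : χ ∈ B ∧ m χ ≠ 0
        · rw [if_pos h5]
          have h6 : p ∣ charDegree (χ : G → ℂ) := by
            by_contra h7
            exact hχ ((hFmem χ).mpr ⟨h5.1, h7, h5.2⟩)
          exact Nat.modEq_zero_iff_dvd.mpr (dvd_pow h6 two_ne_zero)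
        · rw [if_neg h5]
    exact (Nat.modEq_zero_iff_dvd).mp (h3.symm.trans (Nat.modEq_zero_iff_dvd.mpr h2))
  refine ⟨?_, ?_⟩
  · by_contra hcon
    push Not at hcon
    have h1 : F.card = 1 := by omega
    obtain ⟨χ₁, hχ₁⟩ := Finset.card_eq_one.mp h1
    rw [hχ₁, Finset.sum_singleton] at hT
    have h2 : χ₁ ∈ F := by
      rw [hχ₁]
      exact Finset.mem_singleton_self _
    exact ((hFmem χ₁).mp h2).2.1 (hp.dvd_of_dvd_pow hT)
  · intro hp3
    have h1 : (∑ χ ∈ F, charDegree (χ : G → ℂ) ^ 2) ≡ ∑ χ ∈ F, 1 [MOD p] := by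
      apply Nat.ModEq.sum
      intro χ hχ
      have h2 := ((hFmem χ).mp hχ).2.1
      have hp2 : 2 ≤ p := hp.two_le
      have h3 : p = 2 ∨ p = 3 := by omega
      rcases h3 with h3 | h3
      · subst h3
        have h4 : charDegree (χ : G → ℂ) % 2 = 1 := by omega
        show charDegree (χ : G → ℂ) ^ 2 % 2 = 1 % 2
        rw [Nat.pow_mod, h4]
      · subst h3
        have h4 : charDegree (χ : G → ℂ) % 3 = 1 ∨ charDegree (χ : G → ℂ) % 3 = 2 := by omega
        show charDegree (χ : G → ℂ) ^ 2 % 3 = 1 % 3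
        rcases h4 with h4 | h4 <;> rw [Nat.pow_mod, h4]
    rw [Finset.sum_const, smul_eq_mul, mul_one] at h1
    exact (Nat.modEq_zero_iff_dvd).mp (h1.symm.trans (Nat.modEq_zero_iff_dvd.mpr hT))

end Cfsg.Agent.S4825
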