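import Cfsg.Statements.S4835
import Cfsg.Agent.Helper80.Gagola

set_option autoImplicit false
open Cfsg

namespace Cfsg.Agent.S4835

open Cfsg.Agent.Helper80

/-- A nontrivial normal subgroup of a finite group whose nonidentity elements are all conjugate in
the group is elementary abelian for some prime. -/
theorem elemAb_of_conj {G : Type*} [Group G] [Finite G] (N : Subgroup G) (hN : N.Normal)
    (hbot : N ≠ ⊥) (hconj : ∀ x ∈ N, ∀ y ∈ N, x ≠ 1 → y ≠ 1 → IsConj x y) :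
    ∃ p : ℕ, p.Prime ∧ Cfsg.IsElementaryAbelian p N := by
  obtain ⟨c, hc1⟩ := (Subgroup.ne_bot_iff_exists_ne_one (H := N)).mp hbot
  have hc1' : (c : G) ≠ 1 := fun h => hc1 (Subtype.ext h)
  have ho1 : orderOf (c : G) ≠ 1 := fun h => hc1' (orderOf_eq_one_iff.mp h)
  have ho0 : orderOf (c : G) ≠ 0 := (orderOf_pos (c : G)).ne'
  set p := Nat.minFac (orderOf (c : G)) with hp
  have hpp : p.Prime := Nat.minFac_prime ho1
  have hpdvd : p ∣ orderOf (c : G) := Nat.minFac_dvd _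
  set c' : G := (c : G) ^ (orderOf (c : G) / p) with hc'
  have hc'o : orderOf c' = p := orderOf_pow_orderOf_div ho0 hpdvd
  have hc'N : c' ∈ N := N.pow_mem c.2 _
  have hc'1 : c' ≠ 1 := by
    intro h
    rw [h, orderOf_one] at hc'o
    exact hpp.one_lt.ne hc'o
  have hpow : ∀ a ∈ N, a ^ p = 1 := by
    intro a ha
    by_cases ha1 : a = 1
    · rw [ha1, one_pow]
    · obtain ⟨g, hg⟩ := isConj_iff.mp (hconj c' hc'N a ha hc'1 ha1)
      rw [← hg, conj_pow, ← hc'o, pow_orderOf_eq_one, mul_one, mul_inv_cancel]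
  refine ⟨p, hpp, ?_, hpow⟩
  -- commutativity
  haveI : Fact p.Prime := ⟨hpp⟩
  have hpg : IsPGroup p N := by
    intro a
    refine ⟨1, ?_⟩
    rw [pow_one]
    exact Subtype.ext (hpow a a.2)
  haveI : Nontrivial N := by
    refine ⟨⟨⟨c', hc'N⟩, 1, ?_⟩⟩
    intro h
    exact hc'1 (congrArg Subtype.val h)
  haveI : Nontrivial (Subgroup.center N) := hpg.center_nontrivial
  obtain ⟨z, hz1⟩ := exists_ne (1 : Subgroup.center N)
  have hz1' : ((z : N) : G) ≠ 1 := by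
    intro h
    apply hz1
    apply Subtype.ext
    apply Subtype.ext
    exact h
  have hzcomm : ∀ n ∈ N, ((z : N) : G) * n = n * ((z : N) : G) := by
    intro n hn
    have := Subgroup.mem_center_iff.mp z.2 ⟨n, hn⟩
    have h2 := congrArg Subtype.val this
    exact h2.symm
  refine ⟨⟨fun a b => ?_⟩⟩
  apply Subtype.ext
  show (a : G) * b = b * a
  by_cases ha1 : (a : G) = 1
  · rw [ha1, one_mul, mul_one]
  · obtain ⟨g, hg⟩ := isConj_iff.mp (hconj _ (z : N).2 a a.2 hz1' ha1)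
    have hbN : g⁻¹ * (b : G) * g ∈ N := by
      have := hN.conj_mem b b.2 g⁻¹
      rwa [inv_inv] at this
    have h3 := hzcomm _ hbN
    rw [← hg]
    calc g * ((z : N) : G) * g⁻¹ * (b : G)
        = g * (((z : N) : G) * (g⁻¹ * (b : G) * g)) * g⁻¹ := by group
      _ = g * ((g⁻¹ * (b : G) * g) * ((z : N) : G)) * g⁻¹ := by rw [h3]
      _ = (b : G) * (g * ((z : N) : G) * g⁻¹) := by group

theorem result {G : Type*} [Group G] [Finite G] (hG : 2 < Nat.card G) (χ : Cfsg.IrrCharacter G) (hχ : Nat.card {C : ConjClasses G // ∃ g ∈ C.carrier, (χ : G → ℂ) g ≠ 0} = 2) :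
    ∃ N : Subgroup G, N.Normal ∧ N ≠ ⊥ ∧ (∀ K : Subgroup G, K.Normal → K ≠ ⊥ → N ≤ K) ∧
      (∃ p : ℕ, p.Prime ∧ Cfsg.IsElementaryAbelian p N) ∧
      (∀ g : G, (χ : G → ℂ) g ≠ 0 ↔ g ∈ N) ∧
      (∀ x ∈ N, ∀ y ∈ N, x ≠ 1 → y ≠ 1 → ∃ g : G, g * x * g⁻¹ = y) := by
  obtain ⟨N, hNn, hNbot, hNsupp, -, hconj, hmin, -, -⟩ := gagola_subgroup hG χ hχ
  refine ⟨N, hNn, hNbot, hmin, elemAb_of_conj N hNn hNbot hconj, fun g => (hNsupp g).symm, ?_⟩
  intro x hx y hy hx1 hy1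
  exact isConj_iff.mp (hconj x hx y hy hx1 hy1)

end Cfsg.Agent.S4835
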