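import Cfsg.Statements.S4836
import Cfsg.Agent.Helper80.Gagola

set_option autoImplicit false
open Cfsg

namespace Cfsg.Agent.S4836

open Cfsg.Agent.Helper80

theorem result {G : Type*} [Group G] [Finite G] (hG : 2 < Nat.card G) (χ : Cfsg.IrrCharacter G) (hχ : Nat.card {C : ConjClasses G // ∃ g ∈ C.carrier, (χ : G → ℂ) g ≠ 0} = 2) :
    (∀ g : G, (χ : G → ℂ) g = (χ : G → ℂ) 1 → g = 1) ∧
      (∀ ψ : Cfsg.IrrCharacter G, (∀ g : G, (ψ : G → ℂ) g = (ψ : G → ℂ) 1 → g = 1) → ψ = χ) ∧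
      (∀ ψ : Cfsg.IrrCharacter G, Nat.card {C : ConjClasses G // ∃ g ∈ C.carrier, (ψ : G → ℂ) g ≠ 0} = 2 → ψ = χ) := by
  obtain ⟨N, hNn, hNbot, hNsupp, hker, -, -, hfaith, -⟩ := gagola_subgroup hG χ hχ
  have hfaithful_unique : ∀ ψ : Cfsg.IrrCharacter G,
      (∀ g : G, (ψ : G → ℂ) g = (ψ : G → ℂ) 1 → g = 1) → ψ = χ := by
    intro ψ hψ
    by_contra hne
    apply hNbot
    rw [eq_bot_iff]
    intro g hg
    rw [Subgroup.mem_bot]
    exact hψ g (hker ψ hne g hg)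
  refine ⟨hfaith, hfaithful_unique, ?_⟩
  intro ψ hψ
  obtain ⟨-, -, -, -, -, -, -, hfaithψ, -⟩ := gagola_subgroup hG ψ hψ
  exact hfaithful_unique ψ hfaithψ

end Cfsg.Agent.S4836
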