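import Cfsg.Statements.S4837
import Cfsg.Agent.Helper80.Gagola2

set_option autoImplicit false
open Cfsg

namespace Cfsg.Agent.S4837

open Cfsg.Agent.Helper80

theorem result {G : Type*} [Group G] [Finite G] (hG : 2 < Nat.card G) (χ : Cfsg.IrrCharacter G) (hχ : Nat.card {C : ConjClasses G // ∃ g ∈ C.carrier, (χ : G → ℂ) g ≠ 0} = 2) (p : ℕ) [Fact p.Prime] (N : Subgroup G) [N.Normal] (hN : ∀ g : G, g ∈ N ↔ (χ : G → ℂ) g ≠ 0) (hNp : IsPGroup p N) (hN1 : N ≠ ⊥) :
    (∀ x ∈ N, x ≠ 1 → ∃ P : Sylow p G, Subgroup.centralizer ({x} : Set G) = P) ∧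
      (∀ μ : Cfsg.IrrCharacter N, (μ : N → ℂ) ≠ (fun _ => (1 : ℂ)) → ∃ P : Sylow p G, ∀ g : G, g ∈ (P : Subgroup G) ↔ ∀ n n' : N, (n' : G) = g * n * g⁻¹ → (μ : N → ℂ) n' = (μ : N → ℂ) n) := by
  have hp : p.Prime := Fact.out
  constructor
  · intro x hx hx1
    obtain ⟨h1, h2⟩ := gagola_centralizer_isPGroup hG χ hχ p N hN hNp x hx hx1
    exact ⟨h1.toSylow h2, (IsPGroup.toSylow_coe h1 h2).symm⟩
  · intro μ hμ
    obtain ⟨N', hN'n, hN'bot, hN'supp, hker, hconj, hmin, hfaith, hval⟩ := gagola_subgroup hG χ hχ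
    have hNN : N' = N := Subgroup.ext (fun g => by rw [hN'supp, hN])
    rw [hNN] at hconj
    obtain ⟨e, hepos, hn2, hdeg, hval', hcent, hidx⟩ := gagola_arith hG χ hχ N hN
    obtain ⟨x₀, hx₀⟩ := (Subgroup.ne_bot_iff_exists_ne_one).mp hN1
    have hx₀1 : (x₀ : G) ≠ 1 := fun h => hx₀ (Subtype.ext h)
    obtain ⟨hCp, hCidx⟩ := gagola_centralizer_isPGroup hG χ hχ p N hN hNp x₀ x₀.2 hx₀1
    have hT := card_inertia_of_conj N hN1 hconj μ hμ
    have hidx₀ := hidx x₀ x₀.2 hx₀1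
    set T := inertia N (μ : N → ℂ) with hTdef
    set δ := charDegree (μ : N → ℂ) with hδdef
    set C := Subgroup.centralizer ({(x₀ : G)} : Set G) with hCdef
    have hGc : Nat.card G = (Nat.card N - 1) * Nat.card C := by
      rw [← hidx₀, Subgroup.index_mul_card]
    have hnpos : 0 < Nat.card N - 1 := by omega
    have hTc : Nat.card T = Nat.card C * δ ^ 2 := by
      apply Nat.eq_of_mul_eq_mul_left hnpos
      rw [hT, hGc]; ring
    obtain ⟨k, hk⟩ := hNp.exists_card_eq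
    have hδ : δ ∣ Nat.card N := Cfsg.Agent.Helper79.irr_charDegree_dvd_card μ
    rw [hk] at hδ
    obtain ⟨j, -, hj⟩ := (Nat.dvd_prime_pow hp).mp hδ
    obtain ⟨a, ha⟩ := hCp.exists_card_eq
    have hTp : IsPGroup p T := IsPGroup.of_card (n := a + 2 * j) (by rw [hTc, ha, hj]; ring)
    have hTidx : ¬ p ∣ T.index := by
      have h1 : T.index * Nat.card T = Nat.card G := Subgroup.index_mul_card T
      have h2 : T.index * δ ^ 2 = Nat.card N - 1 := by
        apply Nat.eq_of_mul_eq_mul_right (Nat.card_pos : 0 < Nat.card C)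
        rw [← hGc, ← h1, hTc]; ring
      intro h
      apply hCidx
      rw [hidx₀, ← h2]
      exact Dvd.dvd.mul_right h _
    refine ⟨hTp.toSylow hTidx, fun g => ?_⟩
    rw [IsPGroup.toSylow_coe]
    exact mem_inertia_iff N (μ : N → ℂ) g

end Cfsg.Agent.S4837
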