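import Cfsg.Statements.S4838
import Cfsg.Agent.Helper80.Gagola3

set_option autoImplicit false
open Cfsg

namespace Cfsg.Agent.S4838

open Cfsg.Agent.Helper80

theorem result {G : Type*} [Group G] [Finite G] (hG : 2 < Nat.card G) (χ : Cfsg.IrrCharacter G) (hχ : Nat.card {C : ConjClasses G // ∃ g ∈ C.carrier, (χ : G → ℂ) g ≠ 0} = 2) (p : ℕ) [Fact p.Prime] (N : Subgroup G) [N.Normal] (hN : ∀ g : G, g ∈ N ↔ (χ : G → ℂ) g ≠ 0) (hNp : IsPGroup p N) (hN1 : N ≠ ⊥) (P : Sylow p G) :
    (∀ x : G, x ∉ N → Nat.card (Subgroup.centralizer ({x} : Set G)) = Nat.card (Subgroup.centralizer ({(x : G ⧸ N)} : Set (G ⧸ N)))) ∧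
      ((Subgroup.center ↥(P : Subgroup G)).map (P : Subgroup G).subtype ≤ N ∧
        ((Subgroup.center ↥(P : Subgroup G)).map (P : Subgroup G).subtype = N ↔ (P : Subgroup G).Normal)) ∧
      (∃ i : ℕ, Subgroup.upperCentralSeries ↥(P : Subgroup G) i = N.subgroupOf (P : Subgroup G)) := by
  classical
  have hp : p.Prime := Fact.out
  have ha : ∀ x : G, x ∉ N → Nat.card (Subgroup.centralizer ({x} : Set G)) =
      Nat.card (Subgroup.centralizer ({(x : G ⧸ N)} : Set (G ⧸ N))) :=
    fun x hx => gagola_card_centralizer_quotient hG χ hχ N hN x hx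
  obtain ⟨N', hN'n, hN'bot, hN'supp, hker, hconj, hmin, hfaith, hval⟩ := gagola_subgroup hG χ hχ
  have hNN : N' = N := Subgroup.ext (fun g => by rw [hN'supp, hN])
  rw [hNN] at hmin
  obtain ⟨e, hepos, hn2, hdeg, hval', hcent, hidx⟩ := gagola_arith hG χ hχ N hN
  obtain ⟨x₀, hx₀⟩ := (Subgroup.ne_bot_iff_exists_ne_one).mp hN1
  have hx₀1 : (x₀ : G) ≠ 1 := fun h => hx₀ (Subtype.ext h)
  have hCp : ∀ x ∈ N, x ≠ 1 → IsPGroup p (Subgroup.centralizer ({x} : Set G)) ∧
      ¬ p ∣ (Subgroup.centralizer ({x} : Set G)).index :=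
    fun x hx hx1 => gagola_centralizer_isPGroup hG χ hχ p N hN hNp x hx hx1
  set n := Nat.card N with hn
  have hGcard : Nat.card G = (n - 1) * (e ^ 2 * n) := by
    rw [← hidx x₀ x₀.2 hx₀1, ← hcent x₀ x₀.2 hx₀1, Subgroup.index_mul_card]
  have hQcard : Nat.card (G ⧸ N) = e ^ 2 * (n - 1) := by
    have h := Subgroup.card_eq_card_quotient_mul_card_subgroup N
    rw [hGcard] at h
    have h' : Nat.card (G ⧸ N) * n = (e ^ 2 * (n - 1)) * n := by rw [← hn] at h; rw [← h]; ring
    exact Nat.eq_of_mul_eq_mul_right (by omega) h'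
  have hPcard : Nat.card P = e ^ 2 * n := by
    obtain ⟨h1, h2⟩ := hCp x₀ x₀.2 hx₀1
    have h3 := (h1.toSylow h2).card_eq_multiplicity
    rw [P.card_eq_multiplicity, ← h3]
    exact hcent x₀ x₀.2 hx₀1
  have hpn : ¬ p ∣ n - 1 := by
    have := (hCp x₀ x₀.2 hx₀1).2
    rwa [hidx x₀ x₀.2 hx₀1] at this
  obtain ⟨a, ha'⟩ := P.2.exists_card_eq
  have hF1 : ∀ z : G, z ∉ N → ∀ H : Subgroup G, H ≤ Subgroup.centralizer ({z} : Set G) →
      (∃ k, Nat.card H = p ^ k) → Nat.card H ∣ e ^ 2 := by
    intro z hz H hH ⟨k, hk⟩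
    have h1 : Nat.card H ∣ Nat.card (Subgroup.centralizer ({z} : Set G)) :=
      Subgroup.card_dvd_of_le hH
    rw [ha z hz] at h1
    have h2 : Nat.card (Subgroup.centralizer ({(z : G ⧸ N)} : Set (G ⧸ N))) ∣
        Nat.card (G ⧸ N) := Subgroup.card_subgroup_dvd_card _
    rw [hQcard] at h2
    have h3 := h1.trans h2
    have hcop : (Nat.card H).Coprime (n - 1) := by
      rw [hk]
      exact Nat.Coprime.pow_left k ((Nat.Prime.coprime_iff_not_dvd hp).mpr hpn)
    exact hcop.dvd_of_dvd_mul_right h3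
  have hNP : N ≤ P := by
    have h1 : IsPGroup p (↑P ⊔ N : Subgroup G) := IsPGroup.to_sup_of_normal_right P.2 hNp
    have h2 := P.3 h1 le_sup_left
    rw [← h2]
    exact le_sup_right
  have hb1 : (Subgroup.center ↥(P : Subgroup G)).map (P : Subgroup G).subtype ≤ N := by
    intro z hz
    obtain ⟨w, hw, rfl⟩ := Subgroup.mem_map.mp hz
    by_contra hzN
    have hPle : (P : Subgroup G) ≤ Subgroup.centralizer ({(w : G)} : Set G) := by
      intro g hg
      rw [Subgroup.mem_centralizer_iff]
      intro y hy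
      rw [Set.mem_singleton_iff] at hy
      subst hy
      have := (Subgroup.mem_center_iff.mp hw) ⟨g, hg⟩
      exact (congrArg Subtype.val this).symm
    have h1 := hF1 (w : G) hzN P hPle ⟨a, ha'⟩
    rw [hPcard] at h1
    have h2 : e ^ 2 * n ∣ e ^ 2 * 1 := by rwa [mul_one]
    have h3 := Nat.dvd_of_mul_dvd_mul_left (by positivity) h2
    have h4 := Nat.le_of_dvd one_pos h3
    omega
  have hb2 : (Subgroup.center ↥(P : Subgroup G)).map (P : Subgroup G).subtype = N ↔
      (P : Subgroup G).Normal := by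
    constructor
    · intro hZ
      have hPC : ∀ x ∈ N, x ≠ 1 → Subgroup.centralizer ({x} : Set G) = P := by
        intro x hx hx1
        apply P.3 (hCp x hx hx1).1
        intro g hg
        rw [Subgroup.mem_centralizer_iff]
        intro y hy
        rw [Set.mem_singleton_iff] at hy
        subst hy
        rw [← hZ] at hx
        obtain ⟨w, hw, rfl⟩ := Subgroup.mem_map.mp hx
        have := (Subgroup.mem_center_iff.mp hw) ⟨g, hg⟩
        exact (congrArg Subtype.val this).symm
      refine ⟨fun m hm g => ?_⟩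
      have hy : g⁻¹ * x₀ * g ∈ N := by
        have := (inferInstance : N.Normal).conj_mem x₀ x₀.2 g⁻¹
        simpa using this
      have hy1 : g⁻¹ * x₀ * g ≠ 1 := by
        intro h
        apply hx₀1
        have h' : (x₀ : G) = g * (g⁻¹ * x₀ * g) * g⁻¹ := by group
        rw [h', h]; group
      have h1 : m ∈ Subgroup.centralizer ({g⁻¹ * x₀ * g} : Set G) := by
        rw [hPC _ hy hy1]; exact hm
      have h2 := Subgroup.mem_centralizer_iff.mp h1 _ rfl
      rw [← hPC x₀ x₀.2 hx₀1, Subgroup.mem_centralizer_iff]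
      intro y hy'
      rw [Set.mem_singleton_iff] at hy'
      subst hy'
      calc (x₀ : G) * (g * m * g⁻¹) = g * (g⁻¹ * x₀ * g * m) * g⁻¹ := by group
        _ = g * (m * (g⁻¹ * x₀ * g)) * g⁻¹ := by rw [h2]
        _ = g * m * g⁻¹ * x₀ := by group
    · intro hPn
      apply le_antisymm hb1
      apply hmin
      · refine ⟨fun z hz g => ?_⟩
        obtain ⟨w, hw, rfl⟩ := Subgroup.mem_map.mp hz
        have hgw : g * (w : G) * g⁻¹ ∈ (P : Subgroup G) := hPn.conj_mem w w.2 g
        refine Subgroup.mem_map.mpr ⟨⟨g * w * g⁻¹, hgw⟩, ?_, rfl⟩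
        rw [Subgroup.mem_center_iff]
        intro y
        apply Subtype.ext
        have hy' : g⁻¹ * (y : G) * g ∈ (P : Subgroup G) := by
          have := hPn.conj_mem y y.2 g⁻¹
          simpa using this
        have hc := (Subgroup.mem_center_iff.mp hw) ⟨g⁻¹ * y * g, hy'⟩
        have hc' : g⁻¹ * (y : G) * g * w = w * (g⁻¹ * y * g) := congrArg Subtype.val hc
        show (y : G) * (g * w * g⁻¹) = g * w * g⁻¹ * y
        calc (y : G) * (g * w * g⁻¹) = g * (g⁻¹ * y * g * w) * g⁻¹ := by group
          _ = g * (w * (g⁻¹ * y * g)) * g⁻¹ := by rw [hc']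
          _ = g * w * g⁻¹ * y := by group
      · haveI : Nontrivial P :=
          ⟨⟨⟨x₀, hNP x₀.2⟩, 1, fun h => hx₀1 (congrArg Subtype.val h)⟩⟩
        have hnt := IsPGroup.center_nontrivial (P.2)
        obtain ⟨w, hw⟩ := exists_ne (1 : Subgroup.center P)
        intro hbot
        apply hw
        have hmem : ((w : P) : G) ∈ (Subgroup.center P).map (P : Subgroup G).subtype :=
          Subgroup.mem_map.mpr ⟨w, w.2, rfl⟩
        rw [hbot, Subgroup.mem_bot] at hmem
        exact Subtype.ext (Subtype.ext hmem)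
  have hc : ∃ i : ℕ, Subgroup.upperCentralSeries ↥(P : Subgroup G) i =
      N.subgroupOf (P : Subgroup G) := by
    set NP := N.subgroupOf (P : Subgroup G) with hNPdef
    have hNPcard : Nat.card NP = n := Nat.card_congr (Subgroup.subgroupOfEquivOfLe hNP).toEquiv
    have step : ∀ i, Subgroup.upperCentralSeries P i ≤ NP →
        Subgroup.upperCentralSeries P i = NP ∨ Subgroup.upperCentralSeries P (i + 1) ≤ NP := by
      intro i hi
      by_contra hcon
      push Not at hcon
      obtain ⟨hne, hnot⟩ := hcon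
      obtain ⟨z, hz, hzN⟩ := SetLike.not_le_iff_exists.mp hnot
      have hzN' : (z : G) ∉ N := fun h => hzN (Subgroup.mem_subgroupOf.mpr h)
      have h12 := card_le_upperCentralSeries_mul_centralizer i z hz
      have h3 : Nat.card (Subgroup.centralizer ({z} : Set P)) ∣ e ^ 2 := by
        have hle : (Subgroup.centralizer ({z} : Set P)).map (P : Subgroup G).subtype ≤
            Subgroup.centralizer ({(z : G)} : Set G) := by
          intro g hg
          obtain ⟨w, hw, rfl⟩ := Subgroup.mem_map.mp hg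
          rw [Subgroup.mem_centralizer_iff]
          intro y hy
          rw [Set.mem_singleton_iff] at hy
          subst hy
          exact congrArg Subtype.val (Subgroup.mem_centralizer_iff.mp hw z rfl)
        have hcard : Nat.card ((Subgroup.centralizer ({z} : Set P)).map
            (P : Subgroup G).subtype) = Nat.card (Subgroup.centralizer ({z} : Set P)) :=
          Subgroup.card_map_of_injective (Subgroup.subtype_injective _)
        have hpk : ∃ k, Nat.card (Subgroup.centralizer ({z} : Set P)) = p ^ k := by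
          have hd : Nat.card (Subgroup.centralizer ({z} : Set P)) ∣ p ^ a :=
            ha' ▸ Subgroup.card_subgroup_dvd_card _
          obtain ⟨k, -, hk⟩ := (Nat.dvd_prime_pow hp).mp hd
          exact ⟨k, hk⟩
        rw [← hcard]
        exact hF1 (z : G) hzN' _ hle (by rw [hcard]; exact hpk)
      have h4 : Nat.card (Subgroup.centralizer ({z} : Set P)) ≤ e ^ 2 :=
        Nat.le_of_dvd (by positivity) h3
      have h5 : e ^ 2 * n ≤ Nat.card (Subgroup.upperCentralSeries P i) * e ^ 2 := by
        rw [← hPcard]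
        exact h12.trans (Nat.mul_le_mul_left _ h4)
      have h6 : n ≤ Nat.card (Subgroup.upperCentralSeries P i) := by
        have h7 : e ^ 2 * n ≤ e ^ 2 * Nat.card (Subgroup.upperCentralSeries P i) := by
          rw [mul_comm (e ^ 2) (Nat.card (Subgroup.upperCentralSeries P i))]; exact h5
        exact Nat.le_of_mul_le_mul_left h7 (by positivity)
      exact hne (Subgroup.eq_of_le_of_card_ge hi (by rw [hNPcard]; exact h6))
    by_cases hex : ∃ i, Subgroup.upperCentralSeries P i = NP
    · exact hex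
    · have hall : ∀ i, Subgroup.upperCentralSeries P i ≤ NP := by
        intro i
        induction i with
        | zero => rw [Subgroup.upperCentralSeries_zero]; exact bot_le
        | succ i ih =>
          rcases step i ih with h | h
          · exact absurd ⟨i, h⟩ hex
          · exact h
      haveI : Group.IsNilpotent P := P.2.isNilpotent
      obtain ⟨c, hc⟩ := Group.IsNilpotent.nilpotent' (G := P)
      exact ⟨c, le_antisymm (hall c) (hc ▸ le_top)⟩
  exact ⟨ha, ⟨hb1, hb2⟩, hc⟩

end Cfsg.Agent.S4838
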