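import Cfsg.Statements.S4840
import Cfsg.Agent.Helper73.GagolaCore
import Cfsg.Agent.Helper71.GagolaFrob
import Cfsg.Agent.Helper51.PCore

set_option autoImplicit false
open Cfsg

namespace Cfsg.Agent.S4840

/-- Let G be a finite solvable group of order greater than 2 with an irreducible character nonzero on exactly two conjugacy classes. Then there is exactly one prime p with O_p(G) ≠ 1, and the quotient G/O_p(G) has a normal p-complement and commutative Sylow p-subgroups. -/
theorem result {G : Type*} [Group G] [Finite G] [hs : Group.IsSolvable G] (hG : 2 < Nat.card G) (χ : Cfsg.IrrCharacter G) (hχ : Nat.card {C : ConjClasses G // ∃ g ∈ C.carrier, (χ : G → ℂ) g ≠ 0} = 2) :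
    ∃ p : ℕ, p.Prime ∧ (∀ q : ℕ, q.Prime → (Cfsg.pCore q G ≠ ⊥ ↔ q = p)) ∧
      Cfsg.HasNormalPComplement p (G ⧸ Cfsg.pCore p G) ∧ ∀ Q : Sylow p (G ⧸ Cfsg.pCore p G), IsMulCommutative (Q : Subgroup (G ⧸ Cfsg.pCore p G)) := by
  classical
  obtain ⟨N, hNn, hN1, hNsupp, -, hconj, hmin, -, -⟩ :=
    Cfsg.Agent.Helper80.gagola_subgroup hG χ hχ
  have hNnt : Nontrivial N := (Subgroup.nontrivial_iff_ne_bot N).mpr hN1
  have hcard1 : Nat.card N ≠ 1 := fun h => hN1 (Subgroup.card_eq_one.mp h)
  obtain ⟨p, hp, hpd⟩ := Nat.exists_prime_and_dvd hcard1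
  have hpf : Fact p.Prime := ⟨hp⟩
  obtain ⟨y, hy⟩ := exists_prime_orderOf_dvd_card' (G := N) p hpd
  have hyo : orderOf (y : G) = p := by rw [Subgroup.orderOf_coe]; exact hy
  have hy1 : (y : G) ≠ 1 := by
    intro h
    rw [h, orderOf_one] at hyo
    exact hp.one_lt.ne hyo
  -- N is a p-group
  have hNp : IsPGroup p N := by
    intro g
    refine ⟨1, ?_⟩
    rw [pow_one]
    apply Subtype.ext
    rw [Subgroup.coe_pow, Subgroup.coe_one]
    by_cases hg1 : (g : G) = 1
    · rw [hg1, one_pow]
    · obtain ⟨c, hc⟩ := isConj_iff.mp (hconj (y : G) y.2 (g : G) g.2 hy1 hg1)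
      rw [← hc, conj_pow, ← hyo, pow_orderOf_eq_one]
      group
  obtain ⟨hab, hexp, hcentp⟩ :=
    Cfsg.Agent.Helper71.GagolaFrob.basic hG χ hχ p N hNsupp hNp hN1
  refine ⟨p, hp, ?_, ?_⟩
  · -- exactly one prime with nontrivial core
    intro q hq
    constructor
    · intro hqne
      have hle := hmin (Cfsg.pCore q G) (Cfsg.pCore_normal q G) hqne
      have hyq : IsPGroup q (Cfsg.pCore q G) := Cfsg.Agent.Helper51.pCore_isPGroup q G
      obtain ⟨k, hk⟩ := hyq ⟨(y : G), hle y.2⟩
      have hk' : (y : G) ^ q ^ k = 1 := congrArg Subtype.val hk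
      have hdvd : p ∣ q ^ k := by rw [← hyo]; exact orderOf_dvd_of_pow_eq_one hk'
      exact ((Nat.prime_dvd_prime_iff_eq hp hq).mp (hp.dvd_of_dvd_pow hdvd)).symm
    · intro hqp hbot
      rw [hqp] at hbot
      have hle : N ≤ Cfsg.pCore p G := Cfsg.Agent.Helper51.le_pCore N hNn hNp
      rw [hbot] at hle
      exact hN1 (le_bot_iff.mp hle)
  · -- the quotient by the p-core
    have hQp : IsPGroup p (Cfsg.pCore p G) := Cfsg.Agent.Helper51.pCore_isPGroup p G
    have hNQ : N ≤ Cfsg.pCore p G := Cfsg.Agent.Helper51.le_pCore N hNn hNp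
    -- the p-core centralizes N
    have hQcent : ∀ g ∈ Cfsg.pCore p G, ∀ x ∈ N, g * x = x * g := by
      have hQnt : Nontrivial (Cfsg.pCore p G) := by
        rw [Subgroup.nontrivial_iff_ne_bot]
        intro hbot
        rw [hbot] at hNQ
        exact hN1 (le_bot_iff.mp hNQ)
      have hcnt := hQp.center_nontrivial
      obtain ⟨z, hz⟩ := exists_ne (1 : Subgroup.center (Cfsg.pCore p G))
      have hzmem : ((z : Cfsg.pCore p G) : G) ∈
          Subgroup.centralizer (Cfsg.pCore p G : Set G) ⊓ Cfsg.pCore p G := by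
        refine Subgroup.mem_inf.mpr ⟨?_, (z : Cfsg.pCore p G).2⟩
        rw [Subgroup.mem_centralizer_iff]
        intro h hh
        exact congrArg Subtype.val (Subgroup.mem_center_iff.mp z.2 ⟨h, hh⟩)
      have hne : Subgroup.centralizer (Cfsg.pCore p G : Set G) ⊓ Cfsg.pCore p G ≠ ⊥ := by
        intro h
        rw [h, Subgroup.mem_bot] at hzmem
        apply hz
        apply Subtype.ext
        apply Subtype.ext
        exact hzmem
      have hle := hmin _ inferInstance hne
      intro g hg x hx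
      have h1 := (Subgroup.mem_inf.mp (hle hx)).1
      rw [Subgroup.mem_centralizer_iff] at h1
      exact h1 g hg
    -- conversely the centralizer of N lies in the p-core
    have hcentQ : ∀ g : G, (∀ x ∈ N, g * x = x * g) → g ∈ Cfsg.pCore p G := by
      intro g hg
      have hC := (Cfsg.Agent.Helper80.gagola_centralizer_isPGroup hG χ hχ p N hNsupp hNp
        (y : G) y.2 hy1).1
      have hle : Subgroup.centralizer (N : Set G) ≤ Subgroup.centralizer ({(y : G)} : Set G) :=
        Subgroup.centralizer_le (Set.singleton_subset_iff.mpr y.2)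
      have hZp : IsPGroup p (Subgroup.centralizer (N : Set G)) := hC.to_le hle
      have hZ : Subgroup.centralizer (N : Set G) ≤ Cfsg.pCore p G :=
        Cfsg.Agent.Helper51.le_pCore _ inferInstance hZp
      apply hZ
      rw [Subgroup.mem_centralizer_iff]
      intro x hx
      exact (hg x hx).symm
    -- the action of the quotient on N
    have hker : Cfsg.pCore p G ≤ (MulAut.conjNormal : G →* MulAut N).ker := by
      intro g hg
      rw [MonoidHom.mem_ker]
      ext x
      rw [MulAut.conjNormal_apply, MulAut.one_apply, hQcent g hg x x.2]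
      group
    let _ : CommGroup N :=
      { (inferInstance : Group N) with
        mul_comm := fun a b => Subtype.ext (hab a a.2 b b.2) }
    obtain ⟨φ, hφ⟩ : ∃ φ : G ⧸ Cfsg.pCore p G →* MulAut N,
        ∀ g : G, φ (g : G ⧸ Cfsg.pCore p G) = MulAut.conjNormal g :=
      ⟨QuotientGroup.lift (Cfsg.pCore p G) (MulAut.conjNormal : G →* MulAut N) hker,
        fun g => QuotientGroup.lift_mk (Cfsg.pCore p G) hker g⟩
    have hVp : ∀ v : N, v ^ p = 1 := by
      intro v
      apply Subtype.ext
      rw [Subgroup.coe_pow, Subgroup.coe_one]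
      exact hexp v v.2
    have hfix : ∀ g : G ⧸ Cfsg.pCore p G, ∀ v : N, v ≠ 1 → φ g v = v →
        ∃ k : ℕ, orderOf g = p ^ k := by
      intro g v hv hgv
      induction g using QuotientGroup.induction_on with
      | H g =>
        rw [hφ] at hgv
        have h1 := congrArg Subtype.val hgv
        rw [MulAut.conjNormal_apply] at h1
        have h2 : g * (v : G) = (v : G) * g := by
          calc g * (v : G) = g * (v : G) * g⁻¹ * g := by group
            _ = (v : G) * g := by rw [h1]
        have hv1 : (v : G) ≠ 1 := fun h => hv (Subtype.ext h)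
        obtain ⟨k, hk⟩ := hcentp (v : G) v.2 hv1 g h2
        have hdvd : orderOf (g : G ⧸ Cfsg.pCore p G) ∣ p ^ k := by
          rw [← hk]; exact orderOf_map_dvd (QuotientGroup.mk' (Cfsg.pCore p G)) g
        obtain ⟨j, -, hj⟩ := (Nat.dvd_prime_pow hp).mp hdvd
        exact ⟨j, hj⟩
    have hcard : ∃ m : ℕ, Nat.card (G ⧸ Cfsg.pCore p G) = (Nat.card N - 1) * p ^ m := by
      obtain ⟨e, -, -, -, -, -, hidx⟩ := Cfsg.Agent.Helper80.gagola_arith hG χ hχ N hNsupp
      have hC := (Cfsg.Agent.Helper80.gagola_centralizer_isPGroup hG χ hχ p N hNsupp hNp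
        (y : G) y.2 hy1).1
      obtain ⟨c, hc⟩ := hC.exists_card_eq
      obtain ⟨d, hd⟩ := hQp.exists_card_eq
      have h1 := Subgroup.card_mul_index (Subgroup.centralizer ({(y : G)} : Set G))
      rw [hc, hidx (y : G) y.2 hy1] at h1
      have h2 := Subgroup.card_eq_card_quotient_mul_card_subgroup (Cfsg.pCore p G)
      rw [hd] at h2
      have hQC : Cfsg.pCore p G ≤ Subgroup.centralizer ({(y : G)} : Set G) := by
        intro g hg
        rw [Subgroup.mem_centralizer_iff]
        intro x hx
        rw [Set.mem_singleton_iff] at hx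
        rw [hx]
        exact (hQcent g hg (y : G) y.2).symm
      have hdc : d ≤ c := by
        have h3 := Subgroup.card_dvd_of_le hQC
        rw [hc, hd] at h3
        exact (Nat.pow_dvd_pow_iff_le_right hp.one_lt).mp h3
      refine ⟨c - d, ?_⟩
      have h4 : Nat.card (G ⧸ Cfsg.pCore p G) * p ^ d = (Nat.card N - 1) * p ^ (c - d) * p ^ d := by
        rw [← h2, ← h1, mul_assoc, ← pow_add, Nat.sub_add_cancel hdc, mul_comm]
      exact Nat.eq_of_mul_eq_mul_right (pow_pos hp.pos d) h4
    have hOp : Cfsg.Agent.Helper71.sylowCore p (G ⧸ Cfsg.pCore p G) = ⊥ := by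
      rw [eq_bot_iff]
      intro x hx
      have hsn := Cfsg.Agent.Helper71.sylowCore_normal p (G ⧸ Cfsg.pCore p G)
      have hle1 : Cfsg.Agent.Helper71.sylowCore p (G ⧸ Cfsg.pCore p G) ≤
          Cfsg.pCore p (G ⧸ Cfsg.pCore p G) :=
        Cfsg.Agent.Helper51.le_pCore _ hsn
          (Cfsg.Agent.Helper71.sylowCore_isPGroup p (G ⧸ Cfsg.pCore p G))
      have hle2 := Cfsg.Agent.Helper51.comap_pCore_quotient_le (Cfsg.pCore p G) hQp
      induction x using QuotientGroup.induction_on with
      | H g =>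
        have hg : g ∈ Cfsg.pCore p G := hle2 (hle1 hx)
        rw [Subgroup.mem_bot]
        exact (QuotientGroup.eq_one_iff g).mpr hg
    obtain ⟨hnpc, hsyl⟩ := Cfsg.Agent.Helper73.gagola_gt p φ hVp hfix hcard hOp
    exact ⟨hnpc, fun P => ⟨⟨fun a b => Subtype.ext (hsyl P a a.2 b b.2)⟩⟩⟩

end Cfsg.Agent.S4840
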