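import Cfsg.Statements.S4871
import Mathlib
import Cfsg.Agent.Helper4.CliffordExt
import Cfsg.Agent.Helper4.IndIndicator
import Cfsg.Agent.Helper4.IndicatorSub
import Cfsg.Agent.Helper4.InvolInvert
import Cfsg.Agent.Helper75.Ito
import Cfsg.Agent.Helper80.AFT

set_option autoImplicit false
open Cfsg

namespace Cfsg.Agent.S4871

open Cfsg.Agent.Helper75 Cfsg.Agent.Helper4
open scoped ComplexConjugate

/-- Let G be a finite group that is the semidirect product of a normal elementary abelian subgroup N of odd order by a non-trivial 2-subgroup P, with N the unique minimal normal subgroup of G. Consider the strongly real irreducible complex characters of G (Frobenius–Schur indicator +1) whose degree is 1 or even. Then their average degree is at least 4/3: four times their number is at most three times the sum of their degrees. -/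
theorem result {G : Type*} [Group G] [Finite G] (N P : Subgroup G) (hN : N.Normal) (q : ℕ) [Fact q.Prime] (hq : q ≠ 2) (hNel : Cfsg.IsElementaryAbelian q N) (hP : IsPGroup 2 ↥P) (hP1 : P ≠ ⊥) (hdisj : N ⊓ P = ⊥) (hprod : N ⊔ P = ⊤) (hmin : N ≠ ⊥ ∧ ∀ M : Subgroup G, M.Normal → M ≠ ⊥ → N ≤ M) : 4 * Nat.card {χ : Cfsg.IrrCharacter G // (Cfsg.charDegree (χ : G → ℂ) = 1 ∨ 2 ∣ Cfsg.charDegree (χ : G → ℂ)) ∧ (Nat.card G : ℂ)⁻¹ * ∑ᶠ g : G, (χ : G → ℂ) (g * g) = 1} ≤ 3 * (∑ᶠ χ : {χ : Cfsg.IrrCharacter G // (Cfsg.charDegree (χ : G → ℂ) = 1 ∨ 2 ∣ Cfsg.charDegree (χ : G → ℂ)) ∧ (Nat.card G : ℂ)⁻¹ * ∑ᶠ g : G, (χ : G → ℂ) (g * g) = 1}, Cfsg.charDegree (χ.1 : G → ℂ)) := by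
  classical
  haveI := hN
  haveI : Fact (Nat.Prime 2) := ⟨Nat.prime_two⟩
  letI : Fintype G := Fintype.ofFinite G
  letI : Fintype ↥N := Fintype.ofFinite _
  -- basic facts on `N`
  have hNab : ∀ a ∈ N, ∀ b ∈ N, a * b = b * a := by
    intro a ha b hb
    have := hNel.1.is_comm.comm (⟨a, ha⟩ : ↥N) ⟨b, hb⟩
    exact congrArg Subtype.val this
  have hNp : IsPGroup q ↥N := by
    intro a
    refine ⟨1, ?_⟩
    rw [pow_one]
    exact Subtype.ext (hNel.2 a a.2)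
  obtain ⟨k, hk⟩ := IsPGroup.iff_card.1 hNp
  have hqodd : Odd q := (Fact.out : q.Prime).odd_of_ne_two hq
  have hNodd : Odd (Nat.card ↥N) := by rw [hk]; exact hqodd.pow
  obtain ⟨j, hj⟩ := hNodd
  obtain ⟨z, hzP, hz1, hz2, hzc, hzinv⟩ :=
    exists_central_invol_inverting N P hNab ⟨j, hj⟩ hP hP1 hprod hmin
  have hzinv' : z⁻¹ = z := inv_eq_of_mul_eq_one_left hz2
  -- a nontrivial linear character of `N`
  obtain ⟨n₀, hn₀1⟩ := (Subgroup.ne_bot_iff_exists_ne_one).1 hmin.1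
  obtain ⟨lam, hlam⟩ := exists_hom_ne_one_of_comm (H := ↥N)
    (fun a b => hNel.1.is_comm.comm a b) hn₀1
  let φ : Cfsg.IrrCharacter ↥N := Cfsg.Agent.Helper80.homIrr lam
  -- every linear character of `G` is trivial on `N`
  have hfN : ∀ f : G →* ℂˣ, ∀ n ∈ N, f n = 1 := by
    have hfsq : ∀ f : G →* ℂˣ, ∀ m ∈ N, f m * f m = 1 := by
      intro f m hm
      have h1 := congrArg f (hzinv m hm)
      rw [map_mul, map_mul, map_inv, map_inv, mul_comm (f z), mul_assoc, mul_inv_cancel,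
        mul_one] at h1
      exact eq_inv_iff_mul_eq_one.1 h1
    intro f n hn
    have hn1 : n ^ (2 * j + 1) = 1 := by
      have := pow_card_eq_one' (G := ↥N) (x := ⟨n, hn⟩)
      rw [hj] at this
      exact congrArg Subtype.val this
    have hn2 : n = n ^ (j + 1) * n ^ (j + 1) := by
      rw [← pow_add]
      have : j + 1 + (j + 1) = (2 * j + 1) + 1 := by ring
      rw [this, pow_succ, hn1, one_mul]
    rw [hn2, map_mul]
    exact hfsq f _ (N.pow_mem hn _)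
  -- the inertia group
  have hφcl : IsClassFunction ↥N (φ : ↥N → ℂ) :=
    isCharacter_isClassFunction' (Cfsg.Agent.Helper79.isCharacter_of_irr φ.2)
  let I : Subgroup G := inertia N (φ : ↥N → ℂ)
  have hNI : N ≤ I := le_inertia N _ hφcl
  have hT : ∀ g : G, g ∈ I ↔ Cfsg.Agent.Helper75.conjFun N g (φ : ↥N → ℂ) = (φ : ↥N → ℂ) :=
    fun g => mem_inertia N _ g
  letI : Fintype ↥I := Fintype.ofFinite _
  have hIlam : ∀ g ∈ I, ∀ n : ↥N, lam ⟨g * n * g⁻¹, hN.conj_mem n n.2 g⟩ = lam n := by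
    intro g hg n
    have h1 := congrFun ((hT g).1 hg) n
    rw [Cfsg.Agent.Helper75.conjFun_apply] at h1
    exact Units.ext h1
  have hIlam' : ∀ g : G, (∀ n : ↥N, lam ⟨g * n * g⁻¹, hN.conj_mem n n.2 g⟩ = lam n) → g ∈ I := by
    intro g h
    rw [hT]
    funext n
    rw [Cfsg.Agent.Helper75.conjFun_apply]
    show ((lam _ : ℂˣ) : ℂ) = ((lam n : ℂˣ) : ℂ)
    rw [h n]
  -- `z ∉ I`
  have hlam1 : ∀ n : ↥N, lam n * lam n = 1 → lam n = 1 := by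
    intro n h
    have h1 : lam n ^ (2 * j + 1) = 1 := by
      rw [← map_pow, ← hj, pow_card_eq_one', map_one]
    rw [pow_succ, pow_mul, pow_two, h, one_pow, one_mul] at h1
    exact h1
  have hzI : z ∉ I := by
    intro hz
    apply hlam
    apply hlam1
    have h1 := hIlam z hz n₀
    have e : (⟨z * (n₀ : G) * z⁻¹, hN.conj_mem n₀ n₀.2 z⟩ : ↥N) = n₀⁻¹ :=
      Subtype.ext (hzinv n₀ n₀.2)
    rw [e, map_inv] at h1
    calc lam n₀ * lam n₀ = (lam n₀)⁻¹ * lam n₀ := by rw [h1]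
      _ = 1 := inv_mul_cancel _
  -- conjugates of `z`
  have hdec : ∀ x : G, ∃ n ∈ N, ∃ p ∈ P, n * p = x := by
    intro x
    have hx : x ∈ ((N ⊔ P : Subgroup G) : Set G) := by rw [hprod]; trivial
    rw [Subgroup.normal_mul] at hx
    exact Set.mem_mul.1 hx
  have hzconjN : ∀ x : G, x⁻¹ * z * x * z⁻¹ ∈ N := by
    intro x
    obtain ⟨n₁, hn₁, p₁, hp₁, rfl⟩ := hdec x
    have hc : p₁ * z⁻¹ = z⁻¹ * p₁ := by
      rw [hzinv']; exact hzc p₁ hp₁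
    have h1 : (n₁ * p₁)⁻¹ * z * (n₁ * p₁) * z⁻¹
        = p₁⁻¹ * (n₁⁻¹ * (z * n₁ * z⁻¹)) * p₁⁻¹⁻¹ := by
      calc (n₁ * p₁)⁻¹ * z * (n₁ * p₁) * z⁻¹ = p₁⁻¹ * n₁⁻¹ * z * n₁ * (p₁ * z⁻¹) := by group
        _ = p₁⁻¹ * (n₁⁻¹ * (z * n₁ * z⁻¹)) * p₁⁻¹⁻¹ := by rw [hc]; group
    rw [h1]
    exact hN.conj_mem _ (N.mul_mem (N.inv_mem hn₁) (hN.conj_mem n₁ hn₁ z)) p₁⁻¹
  have hzconj : ∀ x : G, x⁻¹ * z * x ∉ I := by
    intro x hx
    apply hzI
    have : z = (x⁻¹ * z * x * z⁻¹)⁻¹ * (x⁻¹ * z * x) := by group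
    rw [this]
    exact I.mul_mem (I.inv_mem (hNI (hzconjN x))) hx
  -- `z` normalizes `I`
  have hzact : ∀ (y : G) (n : G), n ∈ N →
      (z * y * z⁻¹) * n * (z * y * z⁻¹)⁻¹ = y * n * y⁻¹ := by
    intro y n hn
    have h1 : z⁻¹ * n * z = n⁻¹ := by
      have := hzinv n hn
      rw [hzinv'] at this ⊢
      exact this
    have h2 : y * n⁻¹ * y⁻¹ ∈ N := hN.conj_mem _ (N.inv_mem hn) y
    calc (z * y * z⁻¹) * n * (z * y * z⁻¹)⁻¹ = z * (y * (z⁻¹ * n * z) * y⁻¹) * z⁻¹ := by group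
      _ = z * (y * n⁻¹ * y⁻¹) * z⁻¹ := by rw [h1]
      _ = (y * n⁻¹ * y⁻¹)⁻¹ := hzinv _ h2
      _ = y * n * y⁻¹ := by group
  have hzI1 : ∀ y : G, y ∈ I → z * y * z⁻¹ ∈ I := by
    intro y hy
    apply hIlam'
    intro n
    have e : (⟨(z * y * z⁻¹) * (n : G) * (z * y * z⁻¹)⁻¹, hN.conj_mem n n.2 _⟩ : ↥N)
        = ⟨y * (n : G) * y⁻¹, hN.conj_mem n n.2 y⟩ := Subtype.ext (hzact y n n.2)
    rw [e]
    exact hIlam y hy n
  have hzI2 : ∀ y : G, z * y * z⁻¹ ∈ I → y ∈ I := by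
    intro y hy
    have := hzI1 _ hy
    have e : z * (z * y * z⁻¹) * z⁻¹ = y := by
      rw [hzinv']
      calc z * (z * y * z) * z = (z * z) * y * (z * z) := by group
        _ = y := by rw [hz2, one_mul, mul_one]
    rwa [e] at this
  -- the extension of `lam` to `I`
  obtain ⟨mu, hmu⟩ := exists_hom_extension_of_complement N P I hdisj hprod hNI lam hIlam
  let ψ : Cfsg.IrrCharacter ↥I := Cfsg.Agent.Helper80.homIrr mu
  have hψext : ∀ n : ↥N, (ψ : ↥I → ℂ) (Subgroup.inclusion hNI n) = (φ : ↥N → ℂ) n := by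
    intro n
    show ((mu (Subgroup.inclusion hNI n) : ℂˣ) : ℂ) = ((lam n : ℂˣ) : ℂ)
    have hmem : (n : G) * 1 ∈ I := by rw [mul_one]; exact hNI n.2
    have h1 := hmu n 1 P.one_mem hmem
    have e : (⟨(n : G) * 1, hmem⟩ : ↥I) = Subgroup.inclusion hNI n := Subtype.ext (mul_one _)
    rw [e] at h1
    rw [h1]
  have hψz : ∀ (y : ↥I) (hy : z * (y : G) * z⁻¹ ∈ I),
      conj ((ψ : ↥I → ℂ) y) = (ψ : ↥I → ℂ) ⟨z * y * z⁻¹, hy⟩ := by
    intro y hy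
    obtain ⟨n, hn, t, ht, hnt⟩ := hdec (y : G)
    have hy1 : ((⟨n, hn⟩ : ↥N) : G) * t ∈ I := by
      show n * t ∈ I
      rw [hnt]; exact y.2
    have e1 : y = ⟨((⟨n, hn⟩ : ↥N) : G) * t, hy1⟩ := Subtype.ext hnt.symm
    have hzt : z * t * z⁻¹ = t := by rw [← hzc t ht, mul_inv_cancel_right]
    have hconj : z * (y : G) * z⁻¹ = n⁻¹ * t := by
      rw [← hnt]
      calc z * (n * t) * z⁻¹ = (z * n * z⁻¹) * (z * t * z⁻¹) := by group
        _ = n⁻¹ * t := by rw [hzinv n hn, hzt]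
    have hy2 : (((⟨n, hn⟩ : ↥N)⁻¹ : ↥N) : G) * t ∈ I := by
      show n⁻¹ * t ∈ I
      rw [← hconj]; exact hy
    have e2 : (⟨z * (y : G) * z⁻¹, hy⟩ : ↥I) = ⟨(((⟨n, hn⟩ : ↥N)⁻¹ : ↥N) : G) * t, hy2⟩ :=
      Subtype.ext hconj
    have hmy : mu y = lam ⟨n, hn⟩ := by
      rw [e1]
      exact hmu _ t ht hy1
    show conj (((mu y : ℂˣ) : ℂ)) = ((mu ⟨z * y * z⁻¹, hy⟩ : ℂˣ) : ℂ)
    rw [e2, hmu _ t ht hy2, hmy, map_inv, Units.val_inv_eq_inv_val]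
    exact (Complex.inv_eq_conj (Cfsg.Agent.Helper79.norm_hom_apply lam _)).symm
  have hres : resTo hNI (ψ : ↥I → ℂ) = (φ : ↥N → ℂ) := funext hψext
  have hresirr : IsIrrCharacter ↥N (resTo hNI (ψ : ↥I → ℂ)) := by rw [hres]; exact φ.2
  -- twists of ψ
  have htw_irr : ∀ f : G →* ℂˣ, IsIrrCharacter ↥I (fun t : ↥I => ((f t : ℂˣ) : ℂ) * (ψ : ↥I → ℂ) t) :=
    fun f => Cfsg.Agent.Helper79.isIrrCharacter_twist (f.comp I.subtype) ψ.2
  have htw_res : ∀ f : G →* ℂˣ,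
      resTo hNI (fun t : ↥I => ((f t : ℂˣ) : ℂ) * (ψ : ↥I → ℂ) t) = (φ : ↥N → ℂ) := by
    intro f
    funext n
    rw [resTo_apply]
    show ((f (n : G) : ℂˣ) : ℂ) * (ψ : ↥I → ℂ) ⟨n, hNI n.2⟩ = (φ : ↥N → ℂ) n
    rw [hfN f n n.2, ← hψext n]
    simp
    rfl
  have htw_ne : ∀ f : G →* ℂˣ,
      classInner (resTo hNI (fun t : ↥I => ((f t : ℂˣ) : ℂ) * (ψ : ↥I → ℂ) t)) (φ : ↥N → ℂ) ≠ 0 := by
    intro f
    rw [htw_res f, classInner_irr_self φ.2]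
    exact one_ne_zero
  have htw_ind : ∀ f : G →* ℂˣ,
      indFun I (fun t : ↥I => ((f t : ℂˣ) : ℂ) * (ψ : ↥I → ℂ) t)
        = fun g => ((f g : ℂˣ) : ℂ) * indFun I (ψ : ↥I → ℂ) g := by
    intro f
    have hcl : IsClassFunction G (fun g => ((f g : ℂˣ) : ℂ)) :=
      isCharacter_isClassFunction' (Cfsg.Agent.Helper79.isCharacter_of_irr
        (Cfsg.Agent.Helper79.isIrrCharacter_of_hom f))
    have h1 := Cfsg.Agent.Helper15.indFun_mul_restrict I (ψ : ↥I → ℂ) hcl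
    have h2 : (fun t : ↥I => ((f t : ℂˣ) : ℂ) * (ψ : ↥I → ℂ) t)
        = (fun h : ↥I => (ψ : ↥I → ℂ) h * ((f h : ℂˣ) : ℂ)) := by
      funext t
      exact mul_comm _ _
    rw [h2, h1]
    funext g
    rw [Pi.mul_apply]
    exact mul_comm _ _
  have hχ_irr : ∀ f : G →* ℂˣ,
      IsIrrCharacter G (fun g => ((f g : ℂˣ) : ℂ) * indFun I (ψ : ↥I → ℂ) g) := by
    intro f
    rw [← htw_ind f]
    exact (ind_inertia_irr hNI φ.2 hT (htw_irr f) (htw_ne f)).1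
  have hdeg : ∀ f : G →* ℂˣ, charDegree (fun g => ((f g : ℂˣ) : ℂ) * indFun I (ψ : ↥I → ℂ) g)
      = charDegree (φ : ↥N → ℂ) * I.index := by
    intro f
    have h1 : indFun I (ψ : ↥I → ℂ) 1 = ((charDegree (φ : ↥N → ℂ) * I.index : ℕ) : ℂ) := by
      rw [indFun_one]
      have hψ1 : (ψ : ↥I → ℂ) 1 = ((charDegree (φ : ↥N → ℂ) : ℕ) : ℂ) := by
        rw [← Cfsg.Agent.Helper80.irr_one_eq φ, ← hψext 1]
        rfl
      rw [hψ1, ← Subgroup.index_mul_card I]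
      have h3 : (Nat.card ↥I : ℂ) ≠ 0 := by exact_mod_cast Nat.card_pos.ne'
      push_cast
      field_simp
    have key : ∀ (χ : G → ℂ) (n : ℕ), χ 1 = (n : ℂ) → charDegree χ = n := by
      intro χ n h
      unfold charDegree
      rw [h]
      simp
    apply key
    show ((f 1 : ℂˣ) : ℂ) * indFun I (ψ : ↥I → ℂ) 1 = _
    rw [map_one, h1]
    simp
  -- realness and the indicator of the induced character
  have hχreal : ∀ g : G, conj (indFun I (ψ : ↥I → ℂ) g) = indFun I (ψ : ↥I → ℂ) g := by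
    intro g
    rw [conj_indFun]
    exact congrFun (indFun_conj_eq I (ψ : ↥I → ℂ) (fun h => conj ((ψ : ↥I → ℂ) h)) z hzI1 hzI2
      hψz) g
  have hφ1 : (φ : ↥N → ℂ) 1 = 1 := by
    show ((lam 1 : ℂˣ) : ℂ) = 1
    rw [map_one]; rfl
  have hν0 : (Nat.card G : ℂ)⁻¹ * ∑ s : G, indFun I (ψ : ↥I → ℂ) (s * s) = 1 :=
    indicator_ind_of_inverting hNI φ.2 hφ1 hT ψ.2 hres z hz2 hzinv hzconj hχreal
  -- linear characters of indicator one are of square one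
  have hsq : ∀ f : G →* ℂˣ,
      (Nat.card G : ℂ)⁻¹ * ∑ᶠ g : G, (Cfsg.Agent.Helper80.homIrr f : G → ℂ) (g * g) = 1 → f ^ 2 = 1 := by
    intro f hf
    rw [finsum_eq_sum_of_fintype] at hf
    rw [Cfsg.Agent.Helper80.hom_sq_eq_one_iff_real]
    intro g
    have h1 := Cfsg.Agent.Helper79.irr_real_of_indicator_ne_zero (Cfsg.Agent.Helper80.homIrr f).2
      (by rw [hf]; exact one_ne_zero) g
    exact Complex.conj_eq_iff_im.mp h1
  have hνtw : ∀ f : G →* ℂˣ, f ^ 2 = 1 →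
      (Nat.card G : ℂ)⁻¹ * ∑ᶠ g : G, (fun g => ((f g : ℂˣ) : ℂ) * indFun I (ψ : ↥I → ℂ) g) (g * g) = 1 := by
    intro f hf
    rw [finsum_eq_sum_of_fintype, ← hν0]
    congr 1
    apply Finset.sum_congr rfl
    intro s _
    show ((f (s * s) : ℂˣ) : ℂ) * indFun I (ψ : ↥I → ℂ) (s * s) = _
    rw [← pow_two, map_pow, ← MonoidHom.pow_apply, hf, MonoidHom.one_apply, Units.val_one, one_mul]
  -- the degree
  have hdegφ : charDegree (φ : ↥N → ℂ) = 1 := Cfsg.Agent.Helper80.charDegree_homIrr lam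
  have hIeven : 2 ∣ I.index := by
    have hcomp : Subgroup.IsComplement' P N := by
      apply Subgroup.isComplement'_of_disjoint_and_mul_eq_univ
      · rw [disjoint_iff, inf_comm]; exact hdisj
      · rw [← Subgroup.mul_normal, sup_comm, hprod]; rfl
    have h1 : N.index = Nat.card ↥P := hcomp.index_eq_card
    obtain ⟨e, he⟩ := IsPGroup.iff_card.1 hP
    have h2 : I.index ∣ 2 ^ e := by
      rw [← he, ← h1]
      exact Subgroup.index_dvd_of_le hNI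
    obtain ⟨i, -, hi⟩ := (Nat.dvd_prime_pow Nat.prime_two).1 h2
    rcases Nat.eq_zero_or_pos i with h0 | hpos
    · exfalso
      rw [h0, pow_zero] at hi
      apply hzI
      rw [Subgroup.index_eq_one.1 hi]
      trivial
    · rw [hi]
      exact dvd_pow_self 2 hpos.ne'
  have hI2 : 2 ≤ I.index :=
    Nat.le_of_dvd (Nat.pos_of_ne_zero Subgroup.index_ne_zero_of_finite) hIeven
  -- transfer the count to homomorphisms
  letI : Fintype (G →* ℂˣ) := Fintype.ofFinite _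
  let A' : Type _ := {f : G →* ℂˣ //
    (Nat.card G : ℂ)⁻¹ * ∑ᶠ g : G, (Cfsg.Agent.Helper80.homIrr f : G → ℂ) (g * g) = 1}
  letI : Fintype A' := Fintype.ofFinite _
  letI : Fintype {χ : Cfsg.IrrCharacter G // (Cfsg.charDegree (χ : G → ℂ) = 1 ∨ 2 ∣ Cfsg.charDegree (χ : G → ℂ)) ∧ (Nat.card G : ℂ)⁻¹ * ∑ᶠ g : G, (χ : G → ℂ) (g * g) = 1} := Fintype.ofFinite _
  let Φ : A' → {χ : Cfsg.IrrCharacter G // (Cfsg.charDegree (χ : G → ℂ) = 1 ∨ 2 ∣ Cfsg.charDegree (χ : G → ℂ)) ∧ (Nat.card G : ℂ)⁻¹ * ∑ᶠ g : G, (χ : G → ℂ) (g * g) = 1} :=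
    fun f => ⟨⟨fun g => ((f.1 g : ℂˣ) : ℂ) * indFun I (ψ : ↥I → ℂ) g, hχ_irr f.1⟩,
      Or.inr (by rw [hdeg f.1, hdegφ, one_mul]; exact hIeven), hνtw f.1 (hsq f.1 f.2)⟩
  have hinjA : Function.Injective (fun a : A' => Cfsg.Agent.Helper80.homIrr a.1) := by
    intro a b h
    exact Subtype.ext (Cfsg.Agent.Helper80.homIrr_injective h)
  have hfib := Finset.card_le_mul_card_image (f := Φ) (Finset.univ : Finset A') I.index (by
    intro b hb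
    obtain ⟨f₀, -, rfl⟩ := Finset.mem_image.1 hb
    have hcard : (Finset.univ.filter (fun f : A' => Φ f = Φ f₀)).card
        = ((Finset.univ.filter (fun f : A' => Φ f = Φ f₀)).image
            (fun a : A' => Cfsg.Agent.Helper80.homIrr a.1)).card :=
      (Finset.card_image_of_injective _ hinjA).symm
    rw [hcard]
    apply card_hom_restrict_le I f₀.1
    intro χ hχ
    obtain ⟨f, hf, rfl⟩ := Finset.mem_image.1 hχ
    refine ⟨f.1, rfl, ?_⟩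
    have hΦ : Φ f = Φ f₀ := (Finset.mem_filter.1 hf).2
    have hfun : (fun g => ((f.1 g : ℂˣ) : ℂ) * indFun I (ψ : ↥I → ℂ) g)
        = (fun g => ((f₀.1 g : ℂˣ) : ℂ) * indFun I (ψ : ↥I → ℂ) g) :=
      congrArg (fun z : {χ : Cfsg.IrrCharacter G // (Cfsg.charDegree (χ : G → ℂ) = 1 ∨ 2 ∣ Cfsg.charDegree (χ : G → ℂ)) ∧ (Nat.card G : ℂ)⁻¹ * ∑ᶠ g : G, (χ : G → ℂ) (g * g) = 1} => ((z : Cfsg.IrrCharacter G) : G → ℂ)) hΦ
    have hind : indFun I (fun t : ↥I => ((f.1 t : ℂˣ) : ℂ) * (ψ : ↥I → ℂ) t)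
        = indFun I (fun t : ↥I => ((f₀.1 t : ℂˣ) : ℂ) * (ψ : ↥I → ℂ) t) := by
      rw [htw_ind f.1, htw_ind f₀.1, hfun]
    have hψeq := clifford_corr_inj hNI φ.2 hT (htw_irr f.1) (htw_irr f₀.1) (htw_ne f.1) (htw_ne f₀.1) hind
    have := hom_restrict_eq_of_twist_eq hNI ψ.2 hresirr f.1 f₀.1 (hfN f.1) (hfN f₀.1) hψeq
    intro t ht
    exact this ⟨t, ht⟩)
  -- the counting
  let d : {χ : Cfsg.IrrCharacter G // (Cfsg.charDegree (χ : G → ℂ) = 1 ∨ 2 ∣ Cfsg.charDegree (χ : G → ℂ)) ∧ (Nat.card G : ℂ)⁻¹ * ∑ᶠ g : G, (χ : G → ℂ) (g * g) = 1} → ℕ := fun x => Cfsg.charDegree (x.1 : G → ℂ)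
  set Y : Finset {χ : Cfsg.IrrCharacter G // (Cfsg.charDegree (χ : G → ℂ) = 1 ∨ 2 ∣ Cfsg.charDegree (χ : G → ℂ)) ∧ (Nat.card G : ℂ)⁻¹ * ∑ᶠ g : G, (χ : G → ℂ) (g * g) = 1} := (Finset.univ : Finset A').image Φ with hY
  set S₁ : Finset {χ : Cfsg.IrrCharacter G // (Cfsg.charDegree (χ : G → ℂ) = 1 ∨ 2 ∣ Cfsg.charDegree (χ : G → ℂ)) ∧ (Nat.card G : ℂ)⁻¹ * ∑ᶠ g : G, (χ : G → ℂ) (g * g) = 1} := Finset.univ.filter (fun x => d x = 1) with hS₁
  set C : Finset {χ : Cfsg.IrrCharacter G // (Cfsg.charDegree (χ : G → ℂ) = 1 ∨ 2 ∣ Cfsg.charDegree (χ : G → ℂ)) ∧ (Nat.card G : ℂ)⁻¹ * ∑ᶠ g : G, (χ : G → ℂ) (g * g) = 1} := Finset.univ.filter (fun x => ¬ d x = 1) with hC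
  have hdY : ∀ x ∈ Y, d x = I.index := by
    intro x hx
    obtain ⟨f, -, rfl⟩ := Finset.mem_image.1 hx
    show Cfsg.charDegree (fun g => ((f.1 g : ℂˣ) : ℂ) * indFun I (ψ : ↥I → ℂ) g) = I.index
    rw [hdeg f.1, hdegφ, one_mul]
  have hYC : Y ⊆ C := by
    intro x hx
    rw [hC, Finset.mem_filter]
    refine ⟨Finset.mem_univ _, ?_⟩
    rw [hdY x hx]; omega
  have hS₁card : S₁.card ≤ I.index * Y.card := by
    have h1 : S₁.card ≤ (Finset.univ : Finset A').card := by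
      let ι : A' → {χ : Cfsg.IrrCharacter G // (Cfsg.charDegree (χ : G → ℂ) = 1 ∨ 2 ∣ Cfsg.charDegree (χ : G → ℂ)) ∧ (Nat.card G : ℂ)⁻¹ * ∑ᶠ g : G, (χ : G → ℂ) (g * g) = 1} := fun f => ⟨Cfsg.Agent.Helper80.homIrr f.1,
        Or.inl (Cfsg.Agent.Helper80.charDegree_homIrr f.1), f.2⟩
      have hsub : S₁ ⊆ (Finset.univ : Finset A').image ι := by
        intro x hx
        have hx1 : d x = 1 := (Finset.mem_filter.1 hx).2
        obtain ⟨f, hf⟩ := Cfsg.Agent.Helper80.exists_hom_of_linear x.1 hx1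
        rw [Finset.mem_image]
        refine ⟨⟨f, ?_⟩, Finset.mem_univ _, ?_⟩
        · rw [hf]; exact x.2.2
        · exact Subtype.ext hf
      exact (Finset.card_le_card hsub).trans Finset.card_image_le
    exact h1.trans hfib
  have hdC : ∀ x ∈ C, 2 ≤ d x := by
    intro x hx
    have hx1 : ¬ d x = 1 := (Finset.mem_filter.1 hx).2
    have hpos : d x ≠ 0 := by
      intro h0
      have := Cfsg.Agent.Helper80.irr_one_ne_zero x.1
      rw [Cfsg.Agent.Helper80.irr_one_eq] at this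
      apply this
      show ((d x : ℕ) : ℂ) = 0
      rw [h0]; simp
    rcases x.2.1 with h | h
    · exact absurd h hx1
    · exact Nat.le_of_dvd (Nat.pos_of_ne_zero hpos) h
  have hcard : Fintype.card {χ : Cfsg.IrrCharacter G // (Cfsg.charDegree (χ : G → ℂ) = 1 ∨ 2 ∣ Cfsg.charDegree (χ : G → ℂ)) ∧ (Nat.card G : ℂ)⁻¹ * ∑ᶠ g : G, (χ : G → ℂ) (g * g) = 1} = S₁.card + (I.index * 0 + (Y.card + (C \ Y).card)) := by
    rw [← Finset.card_univ, ← Finset.card_filter_add_card_filter_not (fun x : {χ : Cfsg.IrrCharacter G // (Cfsg.charDegree (χ : G → ℂ) = 1 ∨ 2 ∣ Cfsg.charDegree (χ : G → ℂ)) ∧ (Nat.card G : ℂ)⁻¹ * ∑ᶠ g : G, (χ : G → ℂ) (g * g) = 1} => d x = 1),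
      ← Finset.card_sdiff_add_card_eq_card hYC]
    ring
  have hsum : ∑ x : {χ : Cfsg.IrrCharacter G // (Cfsg.charDegree (χ : G → ℂ) = 1 ∨ 2 ∣ Cfsg.charDegree (χ : G → ℂ)) ∧ (Nat.card G : ℂ)⁻¹ * ∑ᶠ g : G, (χ : G → ℂ) (g * g) = 1}, d x = S₁.card + (I.index * Y.card + ∑ x ∈ C \ Y, d x) := by
    rw [← Finset.sum_filter_add_sum_filter_not Finset.univ (fun x => d x = 1) d]
    congr 1
    · rw [Finset.card_eq_sum_ones]
      apply Finset.sum_congr rfl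
      intro x hx
      exact (Finset.mem_filter.1 hx).2
    · rw [← Finset.sum_sdiff hYC, add_comm]
      congr 1
      rw [Finset.sum_congr rfl hdY, Finset.sum_const, smul_eq_mul, mul_comm]
  have hR : 2 * (C \ Y).card ≤ ∑ x ∈ C \ Y, d x := by
    have := Finset.card_nsmul_le_sum (C \ Y) d 2 (fun x hx => hdC x (Finset.mem_sdiff.1 hx).1)
    simpa [mul_comm] using this
  have h2Y : 2 * Y.card ≤ I.index * Y.card := Nat.mul_le_mul_right _ hI2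
  have e1 : Nat.card {χ : Cfsg.IrrCharacter G // (Cfsg.charDegree (χ : G → ℂ) = 1 ∨ 2 ∣ Cfsg.charDegree (χ : G → ℂ)) ∧ (Nat.card G : ℂ)⁻¹ * ∑ᶠ g : G, (χ : G → ℂ) (g * g) = 1} = Fintype.card {χ : Cfsg.IrrCharacter G // (Cfsg.charDegree (χ : G → ℂ) = 1 ∨ 2 ∣ Cfsg.charDegree (χ : G → ℂ)) ∧ (Nat.card G : ℂ)⁻¹ * ∑ᶠ g : G, (χ : G → ℂ) (g * g) = 1} := Nat.card_eq_fintype_card
  have e2 : (∑ᶠ χ : {χ : Cfsg.IrrCharacter G // (Cfsg.charDegree (χ : G → ℂ) = 1 ∨ 2 ∣ Cfsg.charDegree (χ : G → ℂ)) ∧ (Nat.card G : ℂ)⁻¹ * ∑ᶠ g : G, (χ : G → ℂ) (g * g) = 1}, Cfsg.charDegree (χ.1 : G → ℂ)) = ∑ x : {χ : Cfsg.IrrCharacter G // (Cfsg.charDegree (χ : G → ℂ) = 1 ∨ 2 ∣ Cfsg.charDegree (χ : G → ℂ)) ∧ (Nat.card G : ℂ)⁻¹ * ∑ᶠ g : G, (χ : G → ℂ) (g * g) = 1}, d x :=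
    finsum_eq_sum_of_fintype _
  rw [e1, e2, hcard, hsum]
  omega

end Cfsg.Agent.S4871
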