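import Cfsg.Statements.S4873
import Mathlib
import Cfsg.Agent.Helper4.OddIndexReal
import Cfsg.Agent.Helper80.SqrtCount
import Cfsg.Agent.Helper79.FrobSchur

set_option autoImplicit false
open Cfsg

namespace Cfsg.Agent.S4873

open Cfsg.Agent.Helper4
open scoped ComplexConjugate

/-- Let N be a normal subgroup of odd index in the finite group G. Then every irreducible complex character of N with Frobenius–Schur indicator +1 lies under exactly one irreducible character of G with Frobenius–Schur indicator +1. -/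
theorem result {G : Type*} [Group G] [Finite G] (N : Subgroup G) [N.Normal] (hodd : Odd N.index) (φ : Cfsg.IrrCharacter ↥N) (hφ : (Nat.card ↥N : ℂ)⁻¹ * ∑ᶠ g : ↥N, (φ : ↥N → ℂ) (g * g) = 1) : ∃! χ : Cfsg.IrrCharacter G, (Nat.card G : ℂ)⁻¹ * ∑ᶠ g : G, (χ : G → ℂ) (g * g) = 1 ∧ (∑ᶠ n : ↥N, (χ : G → ℂ) n * (starRingEnd ℂ) ((φ : ↥N → ℂ) n)) ≠ 0 := by
  classical
  letI : Fintype G := Fintype.ofFinite G
  letI : Fintype ↥N := Fintype.ofFinite _
  letI : Fintype (IrrCharacter G) := Fintype.ofFinite _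
  letI : Fintype (IrrCharacter ↥N) := Fintype.ofFinite _
  have hN0 : (Nat.card ↥N : ℂ) ≠ 0 := by exact_mod_cast Nat.card_pos.ne'
  have hφ' : (Nat.card ↥N : ℂ)⁻¹ * ∑ g : ↥N, (φ : ↥N → ℂ) (g * g) = 1 := by
    rw [← finsum_eq_sum_of_fintype]; exact hφ
  let ν : IrrCharacter G → ℂ := fun χ => (Nat.card G : ℂ)⁻¹ * ∑ g : G, (χ : G → ℂ) (g * g)
  let c : IrrCharacter G → ℂ := fun χ => ∑ n : ↥N, (χ : G → ℂ) n * conj ((φ : ↥N → ℂ) n)
  have hc : ∀ χ : IrrCharacter G, c χ = (Nat.card ↥N : ℂ) *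
      classInner (fun n : ↥N => (χ : G → ℂ) n) (φ : ↥N → ℂ) := by
    intro χ
    unfold classInner
    rw [← mul_assoc, mul_inv_cancel₀ hN0, one_mul]
  -- square roots of elements of `N` lie in `N`
  have hroot : ∀ n : ↥N, (Finset.univ.filter (fun u : G => u * u = (n : G))).card
      = (Finset.univ.filter (fun v : ↥N => v * v = n)).card := by
    intro n
    symm
    apply Finset.card_bij (fun (v : ↥N) _ => (v : G))
    · intro v hv
      rw [Finset.mem_filter] at hv ⊢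
      exact ⟨Finset.mem_univ _, by rw [← hv.2]; rfl⟩
    · intro v₁ _ v₂ _ h
      exact Subtype.ext h
    · intro u hu
      rw [Finset.mem_filter] at hu
      have huN : u ∈ N := by
        obtain ⟨k, hk⟩ := hodd
        have h1 : u ^ N.index ∈ N := N.pow_index_mem u
        have h2 : u * u ∈ N := by rw [hu.2]; exact n.2
        have h3 : u ^ (2 * k) ∈ N := by
          rw [pow_mul, pow_two]
          exact N.pow_mem h2 k
        have h4 : u = (u ^ (2 * k))⁻¹ * u ^ N.index := by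
          rw [hk, pow_succ, inv_mul_cancel_left]
        rw [h4]
        exact N.mul_mem (N.inv_mem h3) h1
      exact ⟨⟨u, huN⟩, Finset.mem_filter.2 ⟨Finset.mem_univ _, Subtype.ext hu.2⟩, rfl⟩
  have hsumid : ∀ n : ↥N, ∑ χ : IrrCharacter G, conj (ν χ) * (χ : G → ℂ) n
      = ∑ θ : IrrCharacter ↥N, conj ((Nat.card ↥N : ℂ)⁻¹ * ∑ s : ↥N, (θ : ↥N → ℂ) (s * s))
          * (θ : ↥N → ℂ) n := by
    intro n
    have h1 := Cfsg.Agent.Helper80.sum_indicator_mul (G := G) (n : G)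
    have h2 := Cfsg.Agent.Helper80.sum_indicator_mul (G := ↥N) n
    show ∑ χ : IrrCharacter G, conj ((Nat.card G : ℂ)⁻¹ * ∑ g : G, (χ : G → ℂ) (g * g))
      * (χ : G → ℂ) n = _
    rw [Nat.card_eq_fintype_card, Nat.card_eq_fintype_card, h1, h2]
    congr 1
    convert hroot n
  have hA : ∑ χ : IrrCharacter G, conj (ν χ) * c χ = (Nat.card ↥N : ℂ) := by
    have h1 : ∑ χ : IrrCharacter G, conj (ν χ) * c χ
        = ∑ n : ↥N, (∑ χ : IrrCharacter G, conj (ν χ) * (χ : G → ℂ) n) * conj ((φ : ↥N → ℂ) n) := by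
      simp_rw [Finset.sum_mul]
      rw [Finset.sum_comm]
      apply Finset.sum_congr rfl
      intro χ _
      show conj (ν χ) * ∑ n : ↥N, (χ : G → ℂ) n * conj ((φ : ↥N → ℂ) n) = _
      rw [Finset.mul_sum]
      apply Finset.sum_congr rfl
      intro n _
      ring
    rw [h1]
    simp_rw [hsumid, Finset.sum_mul]
    rw [Finset.sum_comm]
    have h2 : ∀ θ : IrrCharacter ↥N,
        ∑ n : ↥N, conj ((Nat.card ↥N : ℂ)⁻¹ * ∑ s : ↥N, (θ : ↥N → ℂ) (s * s)) * (θ : ↥N → ℂ) n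
          * conj ((φ : ↥N → ℂ) n) = if θ = φ then (Nat.card ↥N : ℂ) else 0 := by
      intro θ
      have h3 := Cfsg.Agent.Helper80.irr_orthogonality_conj θ φ
      simp_rw [mul_assoc]
      rw [← Finset.mul_sum, h3]
      split_ifs with h
      · rw [h, hφ', map_one, one_mul, Nat.card_eq_fintype_card]
      · rw [mul_zero]
    simp_rw [h2]
    rw [Finset.sum_ite_eq' Finset.univ φ (fun _ => (Nat.card ↥N : ℂ))]
    simp
  -- existence
  have hex : ∃ χ : IrrCharacter G, ν χ = 1 ∧ c χ ≠ 0 := by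
    by_contra hcon
    have hcon' : ∀ χ : IrrCharacter G, ν χ = 1 → c χ = 0 := by
      intro χ h1
      by_contra h2
      exact hcon ⟨χ, h1, h2⟩
    have hterm : ∀ χ : IrrCharacter G, (conj (ν χ) * c χ).re ≤ 0 := by
      intro χ
      obtain ⟨mχ, hmχ⟩ := Cfsg.Agent.Helper75.exists_nat_mult
        (Cfsg.Agent.Helper79.isCharacter_restrict (Cfsg.Agent.Helper79.isCharacter_of_irr χ.2) N)
      have hcχ : c χ = (Nat.card ↥N : ℂ) * (mχ φ : ℂ) := by rw [hc χ, hmχ φ]
      rcases (Cfsg.Agent.Helper79.irr_frobenius_schur χ.2).1 with h | h | h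
      · have : ν χ = 0 := h
        rw [this]; simp
      · have : ν χ = 1 := h
        rw [hcon' χ this]; simp
      · have : ν χ = -1 := h
        rw [this, hcχ]
        have h5 : (conj (-1 : ℂ) * ((Nat.card ↥N : ℂ) * (mχ φ : ℂ))).re
            = -((Nat.card ↥N : ℝ) * (mχ φ : ℝ)) := by
          simp
        rw [h5]
        have : (0 : ℝ) ≤ (Nat.card ↥N : ℝ) * (mχ φ : ℝ) := by positivity
        linarith
    have h1 := congrArg Complex.re hA
    rw [Complex.re_sum] at h1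
    have h2 : (∑ χ : IrrCharacter G, (conj (ν χ) * c χ).re) ≤ 0 :=
      Finset.sum_nonpos (fun χ _ => hterm χ)
    have h3 : (0 : ℝ) < ((Nat.card ↥N : ℂ)).re := by
      rw [Complex.natCast_re]
      exact_mod_cast Nat.card_pos
    linarith
  have key : ∃! χ : IrrCharacter G, (Nat.card G : ℂ)⁻¹ * ∑ g : G, (χ : G → ℂ) (g * g) = 1 ∧
      (∑ n : ↥N, (χ : G → ℂ) n * conj ((φ : ↥N → ℂ) n)) ≠ 0 := by
    obtain ⟨χ₀, hν₀, hc₀⟩ := hex
    refine ⟨χ₀, ⟨hν₀, hc₀⟩, ?_⟩
    rintro χ ⟨hνχ, hcχ⟩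
    have hνχ' : ν χ = 1 := hνχ
    have hcχ' : c χ ≠ 0 := hcχ
    apply oddReal_irr_unique hodd χ χ₀ ?_ ?_ φ.2 ?_ ?_
    · exact Cfsg.Agent.Helper79.irr_real_of_indicator_ne_zero χ.2
        (by rw [hνχ]; exact one_ne_zero)
    · exact Cfsg.Agent.Helper79.irr_real_of_indicator_ne_zero χ₀.2
        (by
          have : ν χ₀ = 1 := hν₀
          show ν χ₀ ≠ 0
          rw [this]; exact one_ne_zero)
    · rw [hc χ] at hcχ'
      exact right_ne_zero_of_mul hcχ'
    · rw [hc χ₀] at hc₀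
      exact right_ne_zero_of_mul hc₀
  simpa only [finsum_eq_sum_of_fintype] using key

end Cfsg.Agent.S4873
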