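import Cfsg.Statements.S4885
import Cfsg.Agent.Helper76.PQPrincipal
import Cfsg.Agent.Helper76.PPrimeKer
import Cfsg.Agent.Helper76.SylowTools

set_option autoImplicit false
open Cfsg

namespace Cfsg.Agent.S4885

/-- Let p and q be primes dividing the order of the finite group G, and suppose G is p-solvable and q-solvable. Fix maximal ideals of the algebraic integers containing p and q, defining the principal p-block and the principal q-block. If the irreducible characters of degree prime to p in the principal p-block are exactly the irreducible characters of degree prime to q in the principal q-block, then p = q. -/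
theorem result {G : Type*} [Group G] [Finite G] (p q : ℕ) [Fact p.Prime] [Fact q.Prime] (hp : p ∣ Nat.card G) (hq : q ∣ Nat.card G) (hps : Cfsg.IsPSolvable p G) (hqs : Cfsg.IsPSolvable q G) (Mp Mq : Ideal Cfsg.AlgInt) (hMp : Cfsg.IsPModular p Mp) (hMq : Cfsg.IsPModular q Mq) (h : ∀ χ : Cfsg.IrrCharacter G, (χ ∈ Cfsg.principalBlock Mp G ∧ ¬ p ∣ Cfsg.charDegree (χ : G → ℂ)) ↔ (χ ∈ Cfsg.principalBlock Mq G ∧ ¬ q ∣ Cfsg.charDegree (χ : G → ℂ))) : p = q := by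
  classical
  by_contra hpq
  have hKpn : (Cfsg.pPrimeCore p G).Normal := Cfsg.Agent.Helper76.pPrimeCore_normal
  have hKqn : (Cfsg.pPrimeCore q G).Normal := Cfsg.Agent.Helper76.pPrimeCore_normal
  have H1 : ∀ χ : Cfsg.IrrCharacter G, χ ∈ Cfsg.principalBlock Mp G →
      ¬ p ∣ Cfsg.charDegree (χ : G → ℂ) → ¬ q ∣ Cfsg.charDegree (χ : G → ℂ) :=
    fun χ h1 h2 => ((h χ).mp ⟨h1, h2⟩).2
  have H2 : ∀ χ : Cfsg.IrrCharacter G, χ ∈ Cfsg.principalBlock Mq G →
      ¬ q ∣ Cfsg.charDegree (χ : G → ℂ) → ¬ p ∣ Cfsg.charDegree (χ : G → ℂ) :=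
    fun χ h1 h2 => ((h χ).mpr ⟨h1, h2⟩).2
  have h2 : ¬ p ∣ (Cfsg.pPrimeCore q G).index :=
    Cfsg.Agent.Helper76.not_dvd_index_pPrimeCore_of_principal (Ne.symm hpq) hMq hqs hps H2
  -- the quotient by `O_{p'}(G)`
  have hπs : Function.Surjective (QuotientGroup.mk' (Cfsg.pPrimeCore p G)) :=
    QuotientGroup.mk'_surjective _
  have hpdvd : p ∣ Nat.card (G ⧸ Cfsg.pPrimeCore p G) := by
    have e := (Cfsg.pPrimeCore p G).card_mul_index
    rw [← e] at hp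
    rcases (Nat.Prime.dvd_mul (Fact.out : p.Prime)).mp hp with h3 | h3
    · exfalso
      have hc := Cfsg.Agent.Helper76.pPrimeCore_coprime (p := p) (G := G)
      have h4 : p ∣ Nat.gcd (Nat.card (Cfsg.pPrimeCore p G)) p := Nat.dvd_gcd h3 dvd_rfl
      rw [hc] at h4
      exact (Fact.out : p.Prime).one_lt.ne' (Nat.dvd_one.mp h4)
    · rwa [Subgroup.index_eq_card] at h3
  obtain ⟨Pb⟩ : Nonempty (Sylow p (G ⧸ Cfsg.pPrimeCore p G)) := inferInstance
  have hPbcard := Pb.card_eq_multiplicity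
  have hfac : (Nat.card (G ⧸ Cfsg.pPrimeCore p G)).factorization p ≠ 0 :=
    ((Fact.out : p.Prime).factorization_pos_of_dvd Nat.card_pos.ne' hpdvd).ne'
  have hPb1 : 1 < Nat.card (Pb : Subgroup (G ⧸ Cfsg.pPrimeCore p G)) := by
    rw [hPbcard]; exact Nat.one_lt_pow hfac (Fact.out : p.Prime).one_lt
  have : Nontrivial (Pb : Subgroup (G ⧸ Cfsg.pPrimeCore p G)) :=
    (Finite.one_lt_card_iff_nontrivial).mp hPb1
  have : Group.IsNilpotent (Pb : Subgroup (G ⧸ Cfsg.pPrimeCore p G)) := Pb.isPGroup'.isNilpotent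
  have hlt := Group.IsSolvable.commutator_lt_top_of_nontrivial (Pb : Subgroup (G ⧸ Cfsg.pPrimeCore p G))
  obtain ⟨yb, hyb⟩ : ∃ yb : (Pb : Subgroup (G ⧸ Cfsg.pPrimeCore p G)),
      yb ∉ commutator (Pb : Subgroup (G ⧸ Cfsg.pPrimeCore p G)) := by
    by_contra hcon
    push Not at hcon
    exact hlt.ne (eq_top_iff.mpr (fun x _ => hcon x))
  have hyb' : (yb : G ⧸ Cfsg.pPrimeCore p G) ∉
      ⁅(Pb : Subgroup (G ⧸ Cfsg.pPrimeCore p G)), (Pb : Subgroup (G ⧸ Cfsg.pPrimeCore p G))⁆ := by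
    intro hmem
    apply hyb
    have e1 : (commutator (Pb : Subgroup (G ⧸ Cfsg.pPrimeCore p G))).map
        (Pb : Subgroup (G ⧸ Cfsg.pPrimeCore p G)).subtype =
        ⁅(Pb : Subgroup (G ⧸ Cfsg.pPrimeCore p G)), (Pb : Subgroup (G ⧸ Cfsg.pPrimeCore p G))⁆ := by
      rw [commutator_def, Subgroup.map_commutator, ← MonoidHom.range_eq_map,
        Subgroup.range_subtype]
    rw [← e1] at hmem
    obtain ⟨z, hz, hzy⟩ := hmem
    have : z = yb := Subtype.ext hzy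
    rw [← this]; exact hz
  obtain ⟨ψ, hψdeg, hψne⟩ :=
    Cfsg.Agent.Helper76.exists_irr_ne_of_not_mem_commutator Pb yb.2 hyb'
  -- inflate `ψ`
  have hirr := Cfsg.Agent.Helper79.isIrrCharacter_comp
    (QuotientGroup.mk' (Cfsg.pPrimeCore p G)) hπs ψ.2
  have hdeg : Cfsg.charDegree (fun x => (ψ : G ⧸ Cfsg.pPrimeCore p G → ℂ)
      (QuotientGroup.mk' (Cfsg.pPrimeCore p G) x)) =
      Cfsg.charDegree (ψ : G ⧸ Cfsg.pPrimeCore p G → ℂ) := by
    unfold Cfsg.charDegree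
    change ⌊((ψ : G ⧸ Cfsg.pPrimeCore p G → ℂ)
      (QuotientGroup.mk' (Cfsg.pPrimeCore p G) 1)).re⌋₊ = _
    rw [map_one]
  have hmem : (⟨_, hirr⟩ : Cfsg.IrrCharacter G) ∈ Cfsg.principalBlock Mp G := by
    apply Cfsg.Agent.Helper76.mem_principalBlock_of_isPSolvableElt hMp
      (Cfsg.Agent.Helper76.isPSolvableElt_of_isPSolvable hps)
    intro n hn
    change (ψ : G ⧸ Cfsg.pPrimeCore p G → ℂ) (QuotientGroup.mk' (Cfsg.pPrimeCore p G) n) =
      (ψ : G ⧸ Cfsg.pPrimeCore p G → ℂ) (QuotientGroup.mk' (Cfsg.pPrimeCore p G) 1)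
    have h1 : QuotientGroup.mk' (Cfsg.pPrimeCore p G) n = 1 := (QuotientGroup.eq_one_iff n).mpr hn
    rw [h1, map_one]
  have hχdeg : ¬ p ∣ Cfsg.charDegree (((⟨_, hirr⟩ : Cfsg.IrrCharacter G)) : G → ℂ) := by
    change ¬ p ∣ Cfsg.charDegree (fun x => (ψ : G ⧸ Cfsg.pPrimeCore p G → ℂ)
      (QuotientGroup.mk' (Cfsg.pPrimeCore p G) x))
    rw [hdeg]; exact hψdeg
  have hq' := ((h ⟨_, hirr⟩).mp ⟨hmem, hχdeg⟩).1
  have hker := Cfsg.Agent.Helper76.apply_eq_of_mem_principalBlock hMq _ hq'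
  -- lift `yb` to `O_{q'}(G)`
  have hmapn : ((Cfsg.pPrimeCore q G).map (QuotientGroup.mk' (Cfsg.pPrimeCore p G))).Normal :=
    Subgroup.Normal.map hKqn _ hπs
  have hidx : ¬ p ∣ ((Cfsg.pPrimeCore q G).map (QuotientGroup.mk' (Cfsg.pPrimeCore p G))).index :=
    fun hd => h2 (dvd_trans hd (Subgroup.index_map_dvd (Cfsg.pPrimeCore q G) hπs))
  have hPble := Cfsg.Agent.Helper76.sylow_le_of_not_dvd_index_normal
    ((Cfsg.pPrimeCore q G).map (QuotientGroup.mk' (Cfsg.pPrimeCore p G))) Pb hidx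
  obtain ⟨y, hyK, hy⟩ := hPble yb.2
  apply hψne
  have e1 := hker y hyK
  change (ψ : G ⧸ Cfsg.pPrimeCore p G → ℂ) (QuotientGroup.mk' (Cfsg.pPrimeCore p G) y) =
    (ψ : G ⧸ Cfsg.pPrimeCore p G → ℂ) (QuotientGroup.mk' (Cfsg.pPrimeCore p G) 1) at e1
  rw [hy, map_one] at e1
  exact e1

end Cfsg.Agent.S4885
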