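import Cfsg.Statements.S4886
import Cfsg.Agent.Helper76.PQPrincipal
import Cfsg.Agent.Helper76.SylowNormalizes
import Cfsg.Agent.Helper76.SylowTools

set_option autoImplicit false
open Cfsg

namespace Cfsg.Agent.S4886

/-- Let p ≠ q be primes and G a finite group that is p-solvable and q-solvable. Fix maximal ideals of the algebraic integers containing p and q, defining the principal p-block and the principal q-block. Then every irreducible character of degree prime to p in the principal p-block has degree prime to q and every irreducible character of degree prime to q in the principal q-block has degree prime to p, if and only if some Sylow p-subgroup of G commutes elementwise with some Sylow q-subgroup. -/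
theorem result {G : Type*} [Group G] [Finite G] (p q : ℕ) [Fact p.Prime] [Fact q.Prime] (hpq : p ≠ q) (Mp Mq : Ideal Cfsg.AlgInt) (hMp : Cfsg.IsPModular p Mp) (hMq : Cfsg.IsPModular q Mq) (hps : Cfsg.IsPSolvable p G) (hqs : Cfsg.IsPSolvable q G) : ((∀ χ : Cfsg.IrrCharacter G, χ ∈ Cfsg.principalBlock Mp G → ¬ p ∣ Cfsg.charDegree (χ : G → ℂ) → ¬ q ∣ Cfsg.charDegree (χ : G → ℂ)) ∧ (∀ χ : Cfsg.IrrCharacter G, χ ∈ Cfsg.principalBlock Mq G → ¬ q ∣ Cfsg.charDegree (χ : G → ℂ) → ¬ p ∣ Cfsg.charDegree (χ : G → ℂ))) ↔ ∃ (P : Sylow p G) (Q : Sylow q G), ∀ x ∈ (P : Subgroup G), ∀ y ∈ (Q : Subgroup G), x * y = y * x := by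
  classical
  have hp : Fact p.Prime := inferInstance
  have hq : Fact q.Prime := inferInstance
  have hKpn : (Cfsg.pPrimeCore p G).Normal := Cfsg.Agent.Helper76.pPrimeCore_normal
  have hKqn : (Cfsg.pPrimeCore q G).Normal := Cfsg.Agent.Helper76.pPrimeCore_normal
  constructor
  · rintro ⟨H1, H2⟩
    have h1 : ¬ q ∣ (Cfsg.pPrimeCore p G).index :=
      Cfsg.Agent.Helper76.not_dvd_index_pPrimeCore_of_principal hpq hMp hps hqs H1
    have h2 : ¬ p ∣ (Cfsg.pPrimeCore q G).index :=
      Cfsg.Agent.Helper76.not_dvd_index_pPrimeCore_of_principal hpq.symm hMq hqs hps H2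
    obtain ⟨Q⟩ : Nonempty (Sylow q G) := inferInstance
    have hQK : (Q : Subgroup G) ≤ Cfsg.pPrimeCore p G :=
      Cfsg.Agent.Helper76.sylow_le_of_not_dvd_index_normal _ Q h1
    have hQnorm : (Q : Subgroup G) ≤ Subgroup.normalizer ((Cfsg.pPrimeCore q G : Subgroup G) : Set G) := by
      rw [Subgroup.normalizer_eq_top]; exact le_top
    obtain ⟨kQ, hkQ⟩ := IsPGroup.iff_card.mp Q.isPGroup'
    have hcop : (Nat.card (Q : Subgroup G)).Coprime (Nat.card (Cfsg.pPrimeCore q G)) := by
      rw [hkQ]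
      exact Nat.Coprime.pow_left kQ (Cfsg.Agent.Helper76.pPrimeCore_coprime (p := q) (G := G)).symm
    obtain ⟨P₁, hP₁mem, hP₁Q⟩ := Cfsg.Agent.Helper35.exists_invariant_sylow hQnorm hcop
      (Or.inl (Cfsg.Agent.Helper76.isSolvable_of_isPGroup Q.isPGroup')) p
    have hfact : (Nat.card (Cfsg.pPrimeCore q G)).factorization p = (Nat.card G).factorization p := by
      have e := (Cfsg.pPrimeCore q G).card_mul_index
      have hidx0 : (Cfsg.pPrimeCore q G).index ≠ 0 := fun h0 => h2 (h0 ▸ dvd_zero p)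
      rw [← e, Nat.factorization_mul Nat.card_pos.ne' hidx0, Finsupp.add_apply,
        Nat.factorization_eq_zero_of_not_dvd h2, add_zero]
    have hcardP₁ : Nat.card P₁ = p ^ (Nat.card G).factorization p := by
      rw [hP₁mem.2, hfact]
    refine ⟨Sylow.ofCard P₁ hcardP₁, Q, ?_⟩
    intro x hx y hy
    rw [Sylow.coe_ofCard] at hx
    have hP₁p : IsPGroup p P₁ := Cfsg.Agent.Helper35.isPGroup_of_mem_sylowSet hP₁mem
    have hbot : Cfsg.pPrimeCore p G ⊓ P₁ = ⊥ :=
      Cfsg.Agent.Helper76.inf_eq_bot_of_coprime_isPGroup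
        (Cfsg.Agent.Helper76.pPrimeCore_coprime (p := p) (G := G)) hP₁p
    have hy' : y * x⁻¹ * y⁻¹ ∈ P₁ :=
      (Subgroup.mem_normalizer_iff.mp (hP₁Q hy) x⁻¹).mp (P₁.inv_mem hx)
    have hmem : x * y * x⁻¹ * y⁻¹ ∈ Cfsg.pPrimeCore p G ⊓ P₁ := by
      refine Subgroup.mem_inf.mpr ⟨?_, ?_⟩
      · exact Subgroup.mul_mem _ (hKpn.conj_mem y (hQK hy) x) (Subgroup.inv_mem _ (hQK hy))
      · have e : x * y * x⁻¹ * y⁻¹ = x * (y * x⁻¹ * y⁻¹) := by group
        rw [e]; exact P₁.mul_mem hx hy'
    rw [hbot, Subgroup.mem_bot] at hmem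
    calc x * y = (x * y * x⁻¹ * y⁻¹) * (y * x) := by group
      _ = y * x := by rw [hmem, one_mul]
  · rintro ⟨P, Q, hcomm⟩
    have hPQ : (P : Subgroup G) ≤ Subgroup.normalizer ((Q : Subgroup G) : Set G) := by
      intro x hx
      rw [Subgroup.mem_normalizer_iff]
      intro y
      constructor
      · intro hy
        have e : x * y * x⁻¹ = y := by rw [hcomm x hx y hy]; group
        rw [e]; exact hy
      · intro hy
        have h3 := hcomm x hx _ hy
        have e : y = x * y * x⁻¹ := by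
          have e2 : x * (x * y * x⁻¹) = x * y := by rw [h3]; group
          exact (mul_left_cancel e2).symm
        rw [e]; exact hy
    have hQP : (Q : Subgroup G) ≤ Subgroup.normalizer ((P : Subgroup G) : Set G) := by
      intro y hy
      rw [Subgroup.mem_normalizer_iff]
      intro x
      constructor
      · intro hx
        have e : y * x * y⁻¹ = x := by rw [← hcomm x hx y hy]; group
        rw [e]; exact hx
      · intro hx
        have h3 := hcomm _ hx y hy
        have e : x = y * x * y⁻¹ := by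
          have e2 : y * x * y⁻¹ * y = y * (y * x * y⁻¹) := h3
          have e3 : y * x = y * (y * x * y⁻¹) := by rw [← e2]; group
          exact mul_left_cancel e3
        rw [e]; exact hx
    have hQK : (Q : Subgroup G) ≤ Cfsg.pPrimeCore p G :=
      Cfsg.Agent.Helper76.sylow_le_pPrimeCore_of_le_normalizer hpq
        (Cfsg.Agent.Helper76.isPSolvableElt_of_isPSolvable hps) P Q hPQ
    have hPK : (P : Subgroup G) ≤ Cfsg.pPrimeCore q G :=
      Cfsg.Agent.Helper76.sylow_le_pPrimeCore_of_le_normalizer hpq.symm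
        (Cfsg.Agent.Helper76.isPSolvableElt_of_isPSolvable hqs) Q P hQP
    have h1 : ¬ q ∣ (Cfsg.pPrimeCore p G).index := fun hd =>
      Q.not_dvd_index (dvd_trans hd (Subgroup.index_dvd_of_le hQK))
    have h2 : ¬ p ∣ (Cfsg.pPrimeCore q G).index := fun hd =>
      P.not_dvd_index (dvd_trans hd (Subgroup.index_dvd_of_le hPK))
    exact ⟨fun χ hχ _ => Cfsg.Agent.Helper76.not_dvd_charDegree_of_principal hMp h1 χ hχ,
      fun χ hχ _ => Cfsg.Agent.Helper76.not_dvd_charDegree_of_principal hMq h2 χ hχ⟩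

end Cfsg.Agent.S4886
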