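import Cfsg.Statements.S4888
import Cfsg.Agent.Helper80.PrincipalLin
import Cfsg.Agent.Helper80.LinExt
import Cfsg.Agent.Helper81.BlockKer
import Cfsg.Agent.Helper79.Codegree
import Cfsg.Agent.Helper79.Quotient
import Cfsg.Agent.Helper2.Tate
import Cfsg.Agent.Helper2.PResidual
import Cfsg.Agent.Helper2.PGroup

set_option autoImplicit false
open Cfsg

namespace Cfsg.Agent.S4888

/-- Let G be a finite group, p a prime and M a maximal ideal of the algebraic integers containing p. Then all height-zero irreducible characters of the principal p-block of G (equivalently, all its characters of degree prime to p) have the same degree if and only if G has a normal p-complement. -/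
theorem result {G : Type*} [Group G] [Finite G] (p : ℕ) [Fact p.Prime] (M : Ideal Cfsg.AlgInt) (hM : Cfsg.IsPModular p M) : (∃ d : ℕ, ∀ χ : Cfsg.IrrCharacter G, χ ∈ (Cfsg.principalBlock M G) → Cfsg.blockHeight p (Cfsg.principalBlock M G) (χ : G → ℂ) = 0 → Cfsg.charDegree (χ : G → ℂ) = d) ↔ Cfsg.HasNormalPComplement p G := by
  have hp : p.Prime := Fact.out
  have hMm := hM.2.1
  have htriv : Cfsg.charDegree ((Helper80.trivIrr G : Cfsg.IrrCharacter G) : G → ℂ) = 1 := by
    simp [Cfsg.charDegree]
  have hinf : sInf ((fun ψ : Cfsg.IrrCharacter G =>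
      (Cfsg.charDegree (ψ : G → ℂ)).factorization p) '' Cfsg.principalBlock M G) = 0 := by
    apply Nat.eq_zero_of_le_zero
    apply Nat.sInf_le
    refine ⟨Helper80.trivIrr G, Helper77.trivIrr_mem_principalBlock hMm, ?_⟩
    simp [htriv]
  have hheight : ∀ χ : Cfsg.IrrCharacter G,
      Cfsg.blockHeight p (Cfsg.principalBlock M G) (χ : G → ℂ)
        = (Cfsg.charDegree (χ : G → ℂ)).factorization p := by
    intro χ
    unfold Cfsg.blockHeight
    rw [hinf, Nat.sub_zero]
  constructor
  · rintro ⟨d, hd⟩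
    have hd1 : d = 1 := by
      have := hd (Helper80.trivIrr G) (Helper77.trivIrr_mem_principalBlock hMm)
        (by rw [hheight, htriv]; simp)
      rw [← this, htriv]
    have hdeg : ∀ χ ∈ Cfsg.principalBlock M G, Cfsg.charDegree (χ : G → ℂ) ≠ 1 →
        p ∣ Cfsg.charDegree (χ : G → ℂ) := by
      intro χ hχ h1
      by_contra hnd
      apply h1
      rw [← hd1]
      exact hd χ hχ (by rw [hheight]; exact Nat.factorization_eq_zero_of_not_dvd hnd)
    let P : Sylow p G := default
    have hfr : (P : Subgroup G) ⊓ Cfsg.pResidual p G ≤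
        (frattini P).map (P : Subgroup G).subtype := by
      intro z hz
      have hzc : z ∈ commutator G := Cfsg.Agent.Helper2.sylow_inf_pResidual_le_commutator P hz
      have hzP : z ∈ (P : Subgroup G) := hz.1
      have hmem : (⟨z, hzP⟩ : (P : Subgroup G)) ∈ commutator (P : Subgroup G) := by
        apply Cfsg.Agent.Helper80.mem_commutator_of_forall_hom
        intro μ
        obtain ⟨f, hf⟩ := Cfsg.Agent.Helper80.exists_hom_extension_of_principal hM P hdeg μ
        rw [← hf ⟨z, hzP⟩]
        exact Cfsg.Agent.Helper79.hom_apply_eq_one_of_mem_commutator f hzc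
      exact ⟨⟨z, hzP⟩, Cfsg.Agent.Helper2.commutator_le_frattini_of_isPGroup P.2 hmem, rfl⟩
    exact Cfsg.Agent.Helper2.hasNormalPComplement_of_inf_pResidual_le_frattini P hfr
  · rintro ⟨P, N, hN, hc⟩
    refine ⟨1, ?_⟩
    intro χ hχ hh
    rw [hheight] at hh
    have : Fintype G := Fintype.ofFinite G
    have : Fintype N := Fintype.ofFinite N
    have hNp : ¬ p ∣ Nat.card N := by
      have h1 : (P : Subgroup G).index = Nat.card N := hc.index_eq_card
      rw [← h1]
      exact P.not_dvd_index
    have hker : ∀ n ∈ N, (χ : G → ℂ) n = (χ : G → ℂ) 1 :=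
      Helper81.apply_eq_one_of_sameBlock hM N hNp (χ := Helper80.trivIrr G) (ψ := χ) hχ
        (fun n _ => rfl)
    obtain ⟨ψ, hψ, hψχ⟩ := Helper79.exists_irr_deflation N χ.2 hker
    have hdvd : Cfsg.charDegree ψ ∣ Nat.card (G ⧸ N) :=
      Helper79.irr_charDegree_dvd_card (⟨ψ, hψ⟩ : Cfsg.IrrCharacter (G ⧸ N))
    have hdeg_eq : Cfsg.charDegree ψ = Cfsg.charDegree (χ : G → ℂ) := by
      unfold Cfsg.charDegree
      rw [← hψχ 1]
      rfl
    have hcard : Nat.card (G ⧸ N) = Nat.card (P : Subgroup G) := by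
      have h1 : N.index = Nat.card (P : Subgroup G) := hc.symm.index_eq_card
      rw [← h1]
      rfl
    obtain ⟨k, hk⟩ := (IsPGroup.iff_card).mp P.2
    rw [hdeg_eq, hcard, hk] at hdvd
    obtain ⟨j, -, hj⟩ := (Nat.dvd_prime_pow hp).mp hdvd
    rw [hj, hp.factorization_pow] at hh
    have hj0 : j = 0 := by simpa using hh
    rw [hj, hj0, pow_zero]

end Cfsg.Agent.S4888
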