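import Cfsg.Statements.S4892
import Cfsg.Agent.Helper16.PRatBlock
import Cfsg.Agent.Helper78.RelFinal

set_option autoImplicit false
open Cfsg

namespace Cfsg.Agent.S4892

/-- Let p be an odd prime, M a maximal ideal of the algebraic integers containing p, N a normal subgroup of the finite group G, and θ an irreducible character of N that is G-invariant, of degree prime to p, p-rational (values in the field generated over ℚ by a root of unity of order prime to p) and lies in the principal p-block of N. Let Q be a Sylow p-subgroup of N and suppose the index of N·C_G(Q) in G is a power of p. Then θ extends to a p-rational irreducible character of G lying in the principal p-block of G. -/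
theorem result {G : Type*} [Group G] [Finite G] (p : ℕ) [Fact p.Prime] (hp : p ≠ 2) (M : Ideal Cfsg.AlgInt) (hM : Cfsg.IsPModular p M) (N : Subgroup G) [N.Normal] (θ : Cfsg.IrrCharacter ↥N) (hinv : ∀ g : G, ∀ n n' : ↥N, (n' : G) = g * (n : G) * g⁻¹ → (θ : ↥N → ℂ) n' = (θ : ↥N → ℂ) n) (hdeg : ¬ p ∣ Cfsg.charDegree (θ : ↥N → ℂ)) (hrat : ∃ m : ℕ, ¬ p ∣ m ∧ ∀ n : ↥N, (θ : ↥N → ℂ) n ∈ IntermediateField.adjoin ℚ ({Complex.exp (2 * Real.pi * Complex.I / m)} : Set ℂ)) (hB : θ ∈ Cfsg.principalBlock M ↥N) (Q : Sylow p ↥N) (hidx : ∃ a : ℕ, (N ⊔ Subgroup.centralizer (((Q : Subgroup ↥N).map N.subtype : Subgroup G) : Set G)).index = p ^ a) : ∃ χ : Cfsg.IrrCharacter G, χ ∈ (Cfsg.principalBlock M G) ∧ (∃ n : ℕ, ¬ p ∣ n ∧ ∀ g : G, (χ : G → ℂ) g ∈ IntermediateField.adjoin ℚ ({Complex.exp (2 * Real.pi * Complex.I / n)} : Set ℂ)) ∧ ∀ n : ↥N, (χ : G → ℂ) n = (θ : ↥N → ℂ) n := by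
  classical
  have hpp : p.Prime := Fact.out
  have hNn : N.Normal := inferInstance
  obtain ⟨m, hm, hrat⟩ := hrat
  obtain ⟨a, hidx⟩ := hidx
  have hm0 : m ≠ 0 := fun h => hm (by rw [h]; exact dvd_zero p)
  have hGpos : Nat.card G ≠ 0 := Nat.card_pos.ne'
  obtain ⟨c, hcdef⟩ : ∃ c : ℕ, c = m * (Nat.card G / p ^ (Nat.card G).factorization p) :=
    ⟨_, rfl⟩
  have hord : ¬ p ∣ Nat.card G / p ^ (Nat.card G).factorization p :=
    Nat.not_dvd_ordCompl hpp hGpos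
  have hc : ¬ p ∣ c := by
    rw [hcdef]
    intro h
    rcases (Nat.Prime.dvd_mul hpp).mp h with h | h
    · exact hm h
    · exact hord h
  have hc0 : c ≠ 0 := fun h => hc (by rw [h]; exact dvd_zero p)
  have hcop : ∀ k : ℕ, k ≡ 1 [MOD c] → ¬ p ∣ k → Nat.Coprime k (Nat.card G) := by
    intro k hk1 hk2
    have h1 : k ≡ 1 [MOD Nat.card G / p ^ (Nat.card G).factorization p] :=
      hk1.of_dvd (by rw [hcdef]; exact dvd_mul_left _ _)
    have h2 : Nat.Coprime k (Nat.card G / p ^ (Nat.card G).factorization p) := by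
      have := Nat.ModEq.gcd_eq h1
      rw [Nat.Coprime, this]
      simp
    have h3 : Nat.Coprime k (p ^ (Nat.card G).factorization p) :=
      Nat.Coprime.pow_right _ ((Nat.Prime.coprime_iff_not_dvd hpp).mpr hk2).symm
    have h4 := Nat.Coprime.mul_right h3 h2
    rwa [Nat.ordProj_mul_ordCompl_eq_self] at h4
  have hcopS : ∀ (K : Subgroup G) (k : ℕ), k ≡ 1 [MOD c] → ¬ p ∣ k →
      Nat.Coprime k (Nat.card K) := fun K k h1 h2 =>
    Nat.Coprime.coprime_dvd_right (Subgroup.card_subgroup_dvd_card K) (hcop k h1 h2)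
  have hfix : Helper16.PFix p c (θ : N → ℂ) :=
    Helper16.pfix_of_mem_adjoin (by rw [hcdef]; exact dvd_mul_right _ _) hm0 (hcopS N)
      (Helper15.isChar_of_irr θ.2) hrat
  have hinv' : ∀ (g : G) (n : N),
      (θ : N → ℂ) ⟨g * n * g⁻¹, hNn.conj_mem (n : G) n.2 g⟩ = (θ : N → ℂ) n :=
    fun g n => hinv g n _ rfl
  -- the subgroup `H = N C_G(Q)` is normal
  obtain ⟨Q', hQ'⟩ : ∃ Q' : Subgroup G, Q' = (Q : Subgroup N).map N.subtype := ⟨_, rfl⟩
  rw [← hQ'] at hidx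
  obtain ⟨H, hH⟩ : ∃ H : Subgroup G, H = N ⊔ Subgroup.centralizer (Q' : Set G) := ⟨_, rfl⟩
  have hNH : N ≤ H := by rw [hH]; exact le_sup_left
  have hdecomp : ∀ x ∈ H, ∃ n ∈ N, ∃ y ∈ Subgroup.centralizer (Q' : Set G), n * y = x := by
    intro x hx
    have h1 : x ∈ ((N ⊔ Subgroup.centralizer (Q' : Set G) : Subgroup G) : Set G) := by
      rw [← hH]; exact hx
    rw [Subgroup.normal_mul] at h1
    obtain ⟨n, hn, y, hy, hny⟩ := Set.mem_mul.mp h1
    exact ⟨n, hn, y, hy, hny⟩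
  have hHn : H.Normal := by
    rw [← Subgroup.normalizer_eq_top_iff, eq_top_iff, ← Sylow.normalizer_sup_eq_top Q, ← hQ']
    apply sup_le
    · rw [Subgroup.le_normalizer_iff]
      intro x hx k hk
      obtain ⟨n, hn, y, hy, rfl⟩ := hdecomp k hk
      have h1 := Helper75.normalizer_le_normalizer_centralizer' Q' hx
      have h2 : x * y * x⁻¹ ∈ Subgroup.centralizer (Q' : Set G) :=
        (Subgroup.mem_normalizer_iff.mp h1 y).mp hy
      have h3 : x * (n * y) * x⁻¹ = (x * n * x⁻¹) * (x * y * x⁻¹) := by group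
      rw [h3, hH]
      exact Subgroup.mul_mem_sup (hNn.conj_mem n hn x) h2
    · rw [Subgroup.le_normalizer_iff]
      intro n hn k hk
      exact H.mul_mem (H.mul_mem (hNH hn) hk) (H.inv_mem (hNH hn))
  have hidxH : H.index = p ^ a := by rw [hH]; exact hidx
  -- extension to `G`
  obtain ⟨ψ, hψ, hψN⟩ := Helper16.prat_exists_extension hp hc hcop hM N Q
    (by rw [← hQ', ← hH]; exact hHn) a (by rw [← hQ']; exact hidx) θ hB hinv' hdeg hfix
  have hψd : ¬ p ∣ Cfsg.charDegree ψ := by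
    rw [Helper16.pfix_charDegree_eq N hψN]; exact hdeg
  -- the situation inside `H`
  obtain ⟨e, he⟩ : ∃ e : N.subgroupOf H ≃* N, e = Subgroup.subgroupOfEquivOfLe hNH := ⟨_, rfl⟩
  have hecoe : ∀ x : N.subgroupOf H, ((e x : N) : G) = ((x : H) : G) := by
    intro x; rw [he]; rfl
  have hNHn : (N.subgroupOf H).Normal := inferInstance
  obtain ⟨θH, hθH⟩ : ∃ θH : Cfsg.IrrCharacter (N.subgroupOf H), θH = Helper75.irrComp e θ :=
    ⟨_, rfl⟩
  have hθHapp : ∀ x : N.subgroupOf H, (θH : N.subgroupOf H → ℂ) x = (θ : N → ℂ) (e x) := by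
    intro x; rw [hθH]; rfl
  have hθHB : θH ∈ Cfsg.principalBlock M (N.subgroupOf H) := by
    rw [hθH]; exact Helper75.irrComp_mem_principalBlock e hB
  obtain ⟨QH, hQH⟩ : ∃ QH : Sylow p (N.subgroupOf H),
      (QH : Subgroup (N.subgroupOf H)) = (Q : Subgroup N).comap e.toMonoidHom :=
    ⟨Q.comapOfInjective e.toMonoidHom e.injective (by
      intro x _
      exact ⟨e.symm x, e.apply_symm_apply x⟩), rfl⟩
  have hQHmem : ∀ z : H, z ∈ (QH : Subgroup (N.subgroupOf H)).map (N.subgroupOf H).subtype →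
      (z : G) ∈ Q' := by
    rintro z ⟨x, hx, rfl⟩
    have hx' : x ∈ (QH : Subgroup (N.subgroupOf H)) := hx
    rw [hQH, Subgroup.mem_comap] at hx'
    rw [hQ']
    exact ⟨e x, hx', hecoe x⟩
  have hcovH : N.subgroupOf H ⊔ Subgroup.centralizer
      (((QH : Subgroup (N.subgroupOf H)).map (N.subgroupOf H).subtype : Subgroup H) : Set H)
      = ⊤ := by
    rw [eq_top_iff]
    intro x _
    obtain ⟨n, hn, y, hy, hny⟩ := hdecomp (x : G) x.2
    have hyH : y ∈ H := by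
      have : y = n⁻¹ * x := by rw [← hny]; group
      rw [this]
      exact H.mul_mem (H.inv_mem (hNH hn)) x.2
    have hx : x = (⟨n, hNH hn⟩ : H) * ⟨y, hyH⟩ := Subtype.ext hny.symm
    rw [hx]
    apply Subgroup.mul_mem_sup (Subgroup.mem_subgroupOf.mpr hn)
    rw [Subgroup.mem_centralizer_iff]
    intro z hz
    apply Subtype.ext
    exact Subgroup.mem_centralizer_iff.mp hy (z : G) (hQHmem z hz)
  have hdH : ¬ p ∣ Cfsg.charDegree (θH : N.subgroupOf H → ℂ) := by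
    have : Cfsg.charDegree (θH : N.subgroupOf H → ℂ) = Cfsg.charDegree (θ : N → ℂ) := by
      unfold Cfsg.charDegree
      rw [hθHapp, map_one]
    rw [this]; exact hdeg
  have hfixH : Helper16.PFix p c (θH : N.subgroupOf H → ℂ) := by
    intro k hk1 hk2 x
    rw [hθHapp, hθHapp, map_pow]
    exact hfix k hk1 hk2 _
  have hψHirr : Cfsg.IsIrrCharacter H (fun h : H => ψ h) :=
    Helper80.restrict_irr_of_not_dvd H hidxH hψ hψd
  obtain ⟨χ₀, -, hχ₀N, hχ₀J⟩ := Helper78.principal_ext p M hM (N.subgroupOf H) QH hcovH θH hθHB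
    ⟨fun h : H => ψ h, hψHirr⟩ (fun x => by
      show ψ ((x : H) : G) = (θH : N.subgroupOf H → ℂ) x
      rw [hθHapp, ← hψN (e x), hecoe])
  obtain ⟨χ₁, ⟨hχ₁, hχ₁N, hχ₁g⟩, hχ₁fix, hχ₁uniq⟩ := Helper16.pgood_pfix_unique hp hc (hcopS H)
    hM (N.subgroupOf H) QH hcovH θH hθHB hdH hfixH (χ₀ : H → ℂ) χ₀.2 hχ₀N hχ₀J
  -- `χ₁` is `G`-invariant
  have hinv₁ : ∀ (g : G) (h : H), χ₁ ⟨g * h * g⁻¹, hHn.conj_mem (h : G) h.2 g⟩ = χ₁ h := by
    intro g h
    obtain ⟨φ, hφ⟩ : ∃ φ : H ≃* H, φ = MulAut.conjNormal g := ⟨_, rfl⟩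
    have hφcoe : ∀ x : H, ((φ x : H) : G) = g * x * g⁻¹ := by
      intro x; rw [hφ]; exact MulAut.conjNormal_apply g x
    have hφN : ∀ n : H, φ n ∈ N.subgroupOf H ↔ n ∈ N.subgroupOf H := by
      intro n
      rw [Subgroup.mem_subgroupOf, Subgroup.mem_subgroupOf, hφcoe]
      constructor
      · intro h1
        have h2 := hNn.conj_mem _ h1 g⁻¹
        have h3 : g⁻¹ * (g * (n : G) * g⁻¹) * g⁻¹⁻¹ = (n : G) := by group
        rwa [h3] at h2
      · intro h1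
        exact hNn.conj_mem _ h1 g
    have h1 := hχ₁uniq (fun k => χ₁ (φ k)) ⟨(Helper75.irrComp φ ⟨χ₁, hχ₁⟩).2, (by
      intro n
      have hmem : φ (n : H) ∈ N.subgroupOf H := (hφN _).mpr n.2
      show χ₁ (φ (n : H)) = (θH : N.subgroupOf H → ℂ) n
      have h2 : χ₁ (φ (n : H)) = (θH : N.subgroupOf H → ℂ) ⟨φ (n : H), hmem⟩ :=
        hχ₁N ⟨φ (n : H), hmem⟩
      rw [h2, hθHapp, hθHapp, ← hinv' g (e n)]
      refine congrArg (θ : N → ℂ) (Subtype.ext ?_)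
      rw [hecoe]
      show ((φ (n : H) : H) : G) = g * ((e n : N) : G) * g⁻¹
      rw [hφcoe, hecoe]), Helper16.pgood_comp_mulEquiv (N.subgroupOf H) φ hφN hχ₁g⟩ (by
      intro k' hk1 hk2 x
      show χ₁ (φ (x ^ k')) = χ₁ (φ x)
      rw [map_pow]
      exact hχ₁fix k' hk1 hk2 _)
    have h3 : χ₁ (φ h) = χ₁ h := congrFun h1 h
    rw [← h3]
    congr 1
    apply Subtype.ext
    rw [hφcoe]
  have hd₁ : ¬ p ∣ Cfsg.charDegree χ₁ := by
    rw [Helper16.pfix_charDegree_eq (N.subgroupOf H) hχ₁N]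
    exact hdH
  -- extension from `H` to `G`
  obtain ⟨χ, hχ, hχH, hχfix, -⟩ := Helper16.pfix_extension hp hc hcop a H hidxH χ₁ hχ₁ hinv₁ hd₁
    hχ₁fix
  have hreg : ∀ g : G, ¬ p ∣ orderOf g → g ∈ H := by
    intro g hg
    have h1 : orderOf (g : G ⧸ H) ∣ orderOf g := by
      apply orderOf_dvd_of_pow_eq_one
      rw [← QuotientGroup.mk_pow, pow_orderOf_eq_one]
      rfl
    have h2 : orderOf (g : G ⧸ H) ∣ p ^ a := by
      rw [← hidxH, Subgroup.index_eq_card]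
      exact orderOf_dvd_natCard _
    have h3 : orderOf (g : G ⧸ H) ∣ Nat.gcd (orderOf g) (p ^ a) := Nat.dvd_gcd h1 h2
    have h4 : Nat.Coprime (orderOf g) (p ^ a) :=
      Nat.Coprime.pow_right a ((Nat.Prime.coprime_iff_not_dvd hpp).mpr hg).symm
    rw [h4] at h3
    have h5 : (g : G ⧸ H) = 1 := orderOf_eq_one_iff.mp (Nat.dvd_one.mp h3)
    exact (QuotientGroup.eq_one_iff g).mp h5
  refine ⟨⟨χ, hχ⟩, ?_, ⟨c, hc, fun g =>
    Helper16.mem_adjoin_of_pfix hpp hc0 (Helper15.isChar_of_irr hχ) hχfix g⟩, fun n => ?_⟩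
  · exact (Helper80.mem_principalBlock_restrict_iff hM H hreg ⟨χ, hχ⟩ ⟨χ₁, hχ₁⟩ hχH).mpr
      (Helper16.pgood_top (N.subgroupOf H) hχ₁g hχ₁)
  · show χ (n : G) = (θ : N → ℂ) n
    have h1 : χ (n : G) = χ₁ ⟨n, hNH n.2⟩ := hχH ⟨n, hNH n.2⟩
    have h2 : χ₁ ⟨n, hNH n.2⟩ = (θH : N.subgroupOf H → ℂ) ⟨⟨n, hNH n.2⟩, n.2⟩ :=
      hχ₁N ⟨⟨n, hNH n.2⟩, n.2⟩
    rw [h1, h2, hθHapp]
    refine congrArg (θ : N → ℂ) (Subtype.ext ?_)
    rw [hecoe]

end Cfsg.Agent.S4892
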