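import Cfsg.Statements.S4911
import Mathlib
import Cfsg.Agent.Helper4.GlaubClasses2
import Cfsg.Agent.Helper3.BrauerPerm2
import Cfsg.Agent.S4444

set_option autoImplicit false
open Cfsg

namespace Cfsg.Agent.S4911

open Cfsg.Agent.Helper4 Cfsg.Agent.Helper3
open scoped ComplexConjugate

theorem classInner_conj_conj {H : Type*} [Group H] [Fintype H] (f g : H → ℂ) :
    classInner (fun h => conj (f h)) (fun h => conj (g h)) = conj (classInner f g) := by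
  unfold classInner
  rw [map_mul, map_inv₀, map_natCast, map_sum]
  congr 1
  apply Finset.sum_congr rfl
  intro x _
  rw [map_mul]

theorem card_real_inv_irr {Γ : Type*} [Group Γ] [Finite Γ] (p : ℕ) [hp : Fact p.Prime]
    (P K : Subgroup Γ) (hP : IsPGroup p ↥P) (hK : ¬ p ∣ Nat.card ↥K)
    (hPK : P ≤ Subgroup.normalizer (K : Set Γ)) (C : Subgroup Γ)
    (hC : C = K ⊓ Subgroup.centralizer (P : Set Γ)) (hCK : C ≤ K) :
    Nat.card {θ : Cfsg.IrrCharacter ↥K // (∀ k : ↥K, ((θ : ↥K → ℂ) k).im = 0) ∧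
        (∀ x ∈ P, ∀ k k' : ↥K, (k' : Γ) = x * (k : Γ) * x⁻¹ → (θ : ↥K → ℂ) k' = (θ : ↥K → ℂ) k)}
      = Nat.card {β : Cfsg.IrrCharacter ↥C // ∀ c : ↥C, ((β : ↥C → ℂ) c).im = 0} := by
  classical
  letI : Fintype Γ := Fintype.ofFinite Γ
  letI : Fintype ↥K := Fintype.ofFinite _
  letI : Fintype ↥C := Fintype.ofFinite _
  have hnorm : ∀ s ∈ P, ∀ g ∈ K, s * g * s⁻¹ ∈ K := fun s hs g hg =>
    conj_mem_of_le_normalizer hPK hs hg
  have hcop : (Nat.card ↥K).Coprime (Nat.card ↥P) := by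
    obtain ⟨n, hn⟩ := hP.exists_card_eq
    rw [hn]
    exact Nat.Coprime.pow_right n ((Nat.Prime.coprime_iff_not_dvd hp.out).2 hK).symm
  obtain ⟨h1, -, h3, h4⟩ := Cfsg.Agent.S4444.result K P hnorm hcop p hp.out hP C hC hCK
  -- the relation
  let R : Cfsg.IrrCharacter ↥K → Cfsg.IrrCharacter ↥C → Prop := fun χ β =>
    ∃ m : ℕ, Cfsg.classInner (fun c : ↥C => (χ : ↥K → ℂ) ⟨c, hCK c.2⟩) (β : ↥C → ℂ) = (m : ℂ) ∧ ¬ p ∣ m
  have hRconj : ∀ χ β, R χ β → R (conjIrr χ) (conjIrr β) := by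
    rintro χ β ⟨m, hm, hpm⟩
    refine ⟨m, ?_, hpm⟩
    have := classInner_conj_conj (fun c : ↥C => (χ : ↥K → ℂ) ⟨c, hCK c.2⟩) (β : ↥C → ℂ)
    rw [hm, Complex.conj_natCast] at this
    exact this
  have hinvconj : ∀ χ : Cfsg.IrrCharacter ↥K,
      (∀ x ∈ P, ∀ k k' : ↥K, (k' : Γ) = x * (k : Γ) * x⁻¹ → (χ : ↥K → ℂ) k' = (χ : ↥K → ℂ) k) →
      (∀ x ∈ P, ∀ k k' : ↥K, (k' : Γ) = x * (k : Γ) * x⁻¹ →
        (conjIrr χ : ↥K → ℂ) k' = (conjIrr χ : ↥K → ℂ) k) := by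
    intro χ h x hx k k' hk
    rw [conjIrr_apply, conjIrr_apply, h x hx k k' hk]
  -- the map
  have hex : ∀ θ : {θ : Cfsg.IrrCharacter ↥K // (∀ k : ↥K, ((θ : ↥K → ℂ) k).im = 0) ∧
        (∀ x ∈ P, ∀ k k' : ↥K, (k' : Γ) = x * (k : Γ) * x⁻¹ → (θ : ↥K → ℂ) k' = (θ : ↥K → ℂ) k)},
      ∃ β : {β : Cfsg.IrrCharacter ↥C // ∀ c : ↥C, ((β : ↥C → ℂ) c).im = 0}, R θ.1 β.1 := by
    rintro ⟨θ, hreal, hinv⟩
    obtain ⟨β, hβ, huniq⟩ := h1 θ hinv
    have hβ' : R θ β := hβ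
    have h5 : R θ (conjIrr β) := by
      have := hRconj θ β hβ'
      rwa [(conjIrr_eq_iff θ).2 hreal] at this
    have h6 : conjIrr β = β := huniq _ h5
    exact ⟨⟨β, (conjIrr_eq_iff β).1 h6⟩, hβ'⟩
  choose f hf using hex
  apply Nat.card_eq_of_bijective f
  constructor
  · rintro ⟨θ, hreal, hinv⟩ ⟨θ', hreal', hinv'⟩ hff
    have e1 := hf ⟨θ, hreal, hinv⟩
    have e2 := hf ⟨θ', hreal', hinv'⟩
    rw [← hff] at e2
    obtain ⟨m, hm, hpm⟩ := e1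
    obtain ⟨m', hm', hpm'⟩ := e2
    apply Subtype.ext
    exact h3 θ θ' hinv hinv' _ m m' hm hpm hm' hpm'
  · rintro ⟨β, hβreal⟩
    obtain ⟨χ, hinv, m, hm, hpm⟩ := h4 β
    have hχβ : R χ β := ⟨m, hm, hpm⟩
    have h5 : R (conjIrr χ) β := by
      have := hRconj χ β hχβ
      rwa [(conjIrr_eq_iff β).2 hβreal] at this
    obtain ⟨m', hm', hpm'⟩ := h5
    have h6 : conjIrr χ = χ := h3 (conjIrr χ) χ (hinvconj χ hinv) hinv β m' m hm' hpm' hm hpm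
    have hχreal := (conjIrr_eq_iff χ).1 h6
    refine ⟨⟨χ, hχreal, hinv⟩, ?_⟩
    apply Subtype.ext
    obtain ⟨β₀, -, huniq⟩ := h1 χ hinv
    have e1 : R χ (f ⟨χ, hχreal, hinv⟩).1 := hf ⟨χ, hχreal, hinv⟩
    exact (huniq _ e1).trans (huniq _ hχβ).symm

/-- Let P and K be subgroups of a finite group with P a p-group normalizing K and K of order prime to p. Then the number of P-invariant real-valued irreducible complex characters of K equals the number of conjugacy classes of K that are real (closed under inversion) and P-invariant. Moreover, if every real-valued irreducible character of K is P-invariant, then every real element of K (one conjugate in K to its inverse) is conjugate in K to an element centralized by P. -/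
theorem result {G : Type*} [Group G] [Finite G] (p : ℕ) [Fact p.Prime] (P K : Subgroup G) (hP : IsPGroup p ↥P) (hK : ¬ p ∣ Nat.card ↥K) (hPK : P ≤ Subgroup.normalizer (K : Set G)) : Nat.card {θ : Cfsg.IrrCharacter ↥K // (∀ k : ↥K, ((θ : ↥K → ℂ) k).im = 0) ∧ (∀ x ∈ P, ∀ k k' : ↥K, (k' : G) = x * (k : G) * x⁻¹ → (θ : ↥K → ℂ) k' = (θ : ↥K → ℂ) k)} = Nat.card {c : ConjClasses ↥K // (∀ k : ↥K, ConjClasses.mk k = c → IsConj k k⁻¹) ∧ ∀ k : ↥K, ConjClasses.mk k = c → ∀ x ∈ P, ∀ k' : ↥K, (k' : G) = x * (k : G) * x⁻¹ → ConjClasses.mk k' = c} ∧ ((∀ θ : Cfsg.IrrCharacter ↥K, (∀ k : ↥K, ((θ : ↥K → ℂ) k).im = 0) → (∀ x ∈ P, ∀ k k' : ↥K, (k' : G) = x * (k : G) * x⁻¹ → (θ : ↥K → ℂ) k' = (θ : ↥K → ℂ) k)) → ∀ k : ↥K, IsConj k k⁻¹ → ∃ k' : ↥K, IsConj k k' ∧ ∀ x ∈ P, x * (k' : G) * x⁻¹ = (k' : G)) := by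
  classical
  have hsolv : Group.IsSolvable ↥P ∨ Group.IsSolvable ↥K := by
    left
    haveI : Group.IsNilpotent ↥P := hP.isNilpotent
    infer_instance
  have hcop : (Nat.card ↥P).Coprime (Nat.card ↥K) := by
    obtain ⟨n, hn⟩ := hP.exists_card_eq
    rw [hn]
    exact Nat.Coprime.pow_left n ((Nat.Prime.coprime_iff_not_dvd (Fact.out : p.Prime)).2 hK)
  have hpart1 : Nat.card {θ : Cfsg.IrrCharacter ↥K // (∀ k : ↥K, ((θ : ↥K → ℂ) k).im = 0) ∧ (∀ x ∈ P, ∀ k k' : ↥K, (k' : G) = x * (k : G) * x⁻¹ → (θ : ↥K → ℂ) k' = (θ : ↥K → ℂ) k)} = Nat.card {c : ConjClasses ↥K // (∀ k : ↥K, ConjClasses.mk k = c → IsConj k k⁻¹) ∧ ∀ k : ↥K, ConjClasses.mk k = c → ∀ x ∈ P, ∀ k' : ↥K, (k' : G) = x * (k : G) * x⁻¹ → ConjClasses.mk k' = c} := by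
    rw [card_real_inv_irr p P K hP hK hPK (K ⊓ Subgroup.centralizer (P : Set G)) rfl inf_le_left,
      card_real_irr_eq,
      card_real_classes_fixed hPK hcop hsolv (K ⊓ Subgroup.centralizer (P : Set G)) rfl inf_le_left]
  refine ⟨hpart1, ?_⟩
  intro hall k hk
  -- all real classes are invariant
  have hcard : Nat.card {θ : Cfsg.IrrCharacter ↥K // (∀ k : ↥K, ((θ : ↥K → ℂ) k).im = 0) ∧ (∀ x ∈ P, ∀ k k' : ↥K, (k' : G) = x * (k : G) * x⁻¹ → (θ : ↥K → ℂ) k' = (θ : ↥K → ℂ) k)}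
      = Nat.card {θ : Cfsg.IrrCharacter ↥K // ∀ k : ↥K, ((θ : ↥K → ℂ) k).im = 0} :=
    Nat.card_congr (Equiv.subtypeEquivRight (fun θ => ⟨fun h => h.1, fun h => ⟨h, hall θ h⟩⟩))
  rw [hpart1, card_real_irr_eq] at hcard
  have hsub : {c : ConjClasses ↥K | (∀ k : ↥K, ConjClasses.mk k = c → IsConj k k⁻¹) ∧ ∀ k : ↥K, ConjClasses.mk k = c → ∀ x ∈ P, ∀ k' : ↥K, (k' : G) = x * (k : G) * x⁻¹ → ConjClasses.mk k' = c}
      ⊆ {c : ConjClasses ↥K | ∀ k : ↥K, ConjClasses.mk k = c → IsConj k k⁻¹} := fun c hc => hc.1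
  have hseteq := Set.eq_of_subset_of_ncard_le hsub (by
    rw [← Nat.card_coe_set_eq, ← Nat.card_coe_set_eq]
    exact le_of_eq hcard.symm)
  have hkmem : ConjClasses.mk k ∈ {c : ConjClasses ↥K | ∀ k : ↥K, ConjClasses.mk k = c → IsConj k k⁻¹} := by
    intro k' hk'
    exact isConj_inv_of_isConj (ConjClasses.mk_eq_mk_iff_isConj.1 hk').symm hk
  rw [← hseteq] at hkmem
  exact exists_fixed_of_class_inv hPK hcop hsolv k (hkmem.2 k rfl)

end Cfsg.Agent.S4911
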