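import Cfsg.Statements.S4912
import Mathlib
import Cfsg.Agent.Helper4.CliffordExt
import Cfsg.Agent.Helper4.IndIndicator
import Cfsg.Agent.Helper80.AFT

set_option autoImplicit false
open Cfsg

namespace Cfsg.Agent.S4912

open Cfsg.Agent.Helper75 Cfsg.Agent.Helper4
open scoped commutatorElement

/-- Let G be a finite group with a non-abelian minimal normal subgroup N, and let φ be an irreducible complex character of N with stabilizer I in G such that φ extends to an irreducible character of I with Frobenius–Schur indicator +1. Put d = φ(1)·[G : I]. Then the number of linear characters of G with Frobenius–Schur indicator +1 is at most [G : I] times the number of irreducible characters of G of degree d with Frobenius–Schur indicator +1. -/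
theorem result {G : Type*} [Group G] [Finite G] (N : Subgroup G) (hN : N.Normal) (hN1 : N ≠ ⊥) (hmin : ∀ M : Subgroup G, M.Normal → M ≤ N → M = ⊥ ∨ M = N) (hna : ¬ IsMulCommutative ↥N) (φ : Cfsg.IrrCharacter ↥N) (I : Subgroup G) (hI : ∀ g : G, g ∈ I ↔ ∀ n n' : ↥N, (n' : G) = g * (n : G) * g⁻¹ → (φ : ↥N → ℂ) n' = (φ : ↥N → ℂ) n) (hNI : N ≤ I) (hext : ∃ ψ : Cfsg.IrrCharacter ↥I, (Nat.card ↥I : ℂ)⁻¹ * ∑ᶠ g : ↥I, (ψ : ↥I → ℂ) (g * g) = 1 ∧ ∀ n : ↥N, (ψ : ↥I → ℂ) (Subgroup.inclusion hNI n) = (φ : ↥N → ℂ) n) : Nat.card {χ : Cfsg.IrrCharacter G // Cfsg.charDegree (χ : G → ℂ) = 1 ∧ (Nat.card G : ℂ)⁻¹ * ∑ᶠ g : G, (χ : G → ℂ) (g * g) = 1} ≤ I.index * Nat.card {χ : Cfsg.IrrCharacter G // Cfsg.charDegree (χ : G → ℂ) = Cfsg.charDegree (φ : ↥N → ℂ) * I.index ∧ (Nat.card G : ℂ)⁻¹ * ∑ᶠ g : G, (χ : G → ℂ) (g * g) = 1} := by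
  classical
  haveI := hN
  letI : Fintype G := Fintype.ofFinite G
  letI : Fintype ↥N := Fintype.ofFinite _
  letI : Fintype ↥I := Fintype.ofFinite _
  obtain ⟨ψ, hνψ0, hψext⟩ := hext
  have hνψ : (Nat.card ↥I : ℂ)⁻¹ * ∑ s : ↥I, (ψ : ↥I → ℂ) (s * s) = 1 := by
    rw [← finsum_eq_sum_of_fintype]; exact hνψ0
  -- `N ≤ G'`
  have hNcomm : N ≤ commutator G := by
    have hnorm : (⁅N, N⁆ : Subgroup G).Normal := Subgroup.commutator_normal N N
    have hle : ⁅N, N⁆ ≤ N := Subgroup.commutator_le_right N N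
    rcases hmin _ hnorm hle with h | h
    · exfalso
      apply hna
      refine ⟨⟨fun a b => ?_⟩⟩
      have h1 : ⁅(a : G), (b : G)⁆ ∈ (⁅N, N⁆ : Subgroup G) :=
        Subgroup.commutator_mem_commutator a.2 b.2
      rw [h, Subgroup.mem_bot, commutatorElement_def] at h1
      apply Subtype.ext
      show (a : G) * (b : G) = (b : G) * (a : G)
      calc (a : G) * (b : G) = ((a : G) * (b : G) * (a : G)⁻¹ * (b : G)⁻¹) * ((b : G) * (a : G)) := by
            group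
        _ = (b : G) * (a : G) := by rw [h1, one_mul]
    · rw [← h, commutator_def]
      exact Subgroup.commutator_mono le_top le_top
  have hfN : ∀ f : G →* ℂˣ, ∀ n ∈ N, f n = 1 := fun f n hn =>
    Cfsg.Agent.Helper79.hom_apply_eq_one_of_mem_commutator f (hNcomm hn)
  have hT : ∀ g : G, g ∈ I ↔ Cfsg.Agent.Helper75.conjFun N g (φ : ↥N → ℂ) = (φ : ↥N → ℂ) := by
    intro g
    rw [hI g]
    constructor
    · intro h
      funext n
      rw [Cfsg.Agent.Helper75.conjFun_apply]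
      exact h n ⟨g * (n : G) * g⁻¹, hN.conj_mem n n.2 g⟩ rfl
    · intro h n n' hn'
      have h1 := congrFun h n
      rw [Cfsg.Agent.Helper75.conjFun_apply] at h1
      have : n' = ⟨g * (n : G) * g⁻¹, hN.conj_mem n n.2 g⟩ := Subtype.ext hn'
      rw [this]
      exact h1
  have hres : resTo hNI (ψ : ↥I → ℂ) = (φ : ↥N → ℂ) := funext hψext
  have hresirr : IsIrrCharacter ↥N (resTo hNI (ψ : ↥I → ℂ)) := by rw [hres]; exact φ.2
  -- twists of ψ
  have htw_irr : ∀ f : G →* ℂˣ, IsIrrCharacter ↥I (fun t : ↥I => ((f t : ℂˣ) : ℂ) * (ψ : ↥I → ℂ) t) :=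
    fun f => Cfsg.Agent.Helper79.isIrrCharacter_twist (f.comp I.subtype) ψ.2
  have htw_res : ∀ f : G →* ℂˣ,
      resTo hNI (fun t : ↥I => ((f t : ℂˣ) : ℂ) * (ψ : ↥I → ℂ) t) = (φ : ↥N → ℂ) := by
    intro f
    funext n
    rw [resTo_apply]
    show ((f (n : G) : ℂˣ) : ℂ) * (ψ : ↥I → ℂ) ⟨n, hNI n.2⟩ = (φ : ↥N → ℂ) n
    rw [hfN f n n.2, ← hψext n]
    simp
    rfl
  have htw_ne : ∀ f : G →* ℂˣ,
      classInner (resTo hNI (fun t : ↥I => ((f t : ℂˣ) : ℂ) * (ψ : ↥I → ℂ) t)) (φ : ↥N → ℂ) ≠ 0 := by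
    intro f
    rw [htw_res f, classInner_irr_self φ.2]
    exact one_ne_zero
  have htw_ind : ∀ f : G →* ℂˣ,
      indFun I (fun t : ↥I => ((f t : ℂˣ) : ℂ) * (ψ : ↥I → ℂ) t)
        = fun g => ((f g : ℂˣ) : ℂ) * indFun I (ψ : ↥I → ℂ) g := by
    intro f
    have hcl : IsClassFunction G (fun g => ((f g : ℂˣ) : ℂ)) :=
      isCharacter_isClassFunction' (Cfsg.Agent.Helper79.isCharacter_of_irr
        (Cfsg.Agent.Helper79.isIrrCharacter_of_hom f))
    have h1 := Cfsg.Agent.Helper15.indFun_mul_restrict I (ψ : ↥I → ℂ) hcl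
    have h2 : (fun t : ↥I => ((f t : ℂˣ) : ℂ) * (ψ : ↥I → ℂ) t)
        = (fun h : ↥I => (ψ : ↥I → ℂ) h * ((f h : ℂˣ) : ℂ)) := by
      funext t
      exact mul_comm _ _
    rw [h2, h1]
    funext g
    rw [Pi.mul_apply]
    exact mul_comm _ _
  have hχ_irr : ∀ f : G →* ℂˣ,
      IsIrrCharacter G (fun g => ((f g : ℂˣ) : ℂ) * indFun I (ψ : ↥I → ℂ) g) := by
    intro f
    rw [← htw_ind f]
    exact (ind_inertia_irr hNI φ.2 hT (htw_irr f) (htw_ne f)).1
  have hdeg : ∀ f : G →* ℂˣ, charDegree (fun g => ((f g : ℂˣ) : ℂ) * indFun I (ψ : ↥I → ℂ) g)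
      = charDegree (φ : ↥N → ℂ) * I.index := by
    intro f
    have h1 : indFun I (ψ : ↥I → ℂ) 1 = ((charDegree (φ : ↥N → ℂ) * I.index : ℕ) : ℂ) := by
      rw [indFun_one]
      have hψ1 : (ψ : ↥I → ℂ) 1 = ((charDegree (φ : ↥N → ℂ) : ℕ) : ℂ) := by
        rw [← Cfsg.Agent.Helper80.irr_one_eq φ, ← hψext 1]
        rfl
      rw [hψ1, ← Subgroup.index_mul_card I]
      have h3 : (Nat.card ↥I : ℂ) ≠ 0 := by exact_mod_cast Nat.card_pos.ne'
      push_cast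
      field_simp
    have key : ∀ (χ : G → ℂ) (n : ℕ), χ 1 = (n : ℂ) → charDegree χ = n := by
      intro χ n h
      unfold charDegree
      rw [h]
      simp
    apply key
    show ((f 1 : ℂˣ) : ℂ) * indFun I (ψ : ↥I → ℂ) 1 = _
    rw [map_one, h1]
    simp
  -- the indicator of the induced character
  have hν0 : (Nat.card G : ℂ)⁻¹ * ∑ s : G, indFun I (ψ : ↥I → ℂ) (s * s) = 1 :=
    indicator_ind_inertia_eq_one hNI φ.2 hT ψ.2 hres hνψ
  -- linear characters of indicator one are of square one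
  have hsq : ∀ f : G →* ℂˣ,
      (Nat.card G : ℂ)⁻¹ * ∑ᶠ g : G, (Cfsg.Agent.Helper80.homIrr f : G → ℂ) (g * g) = 1 → f ^ 2 = 1 := by
    intro f hf
    rw [finsum_eq_sum_of_fintype] at hf
    rw [Cfsg.Agent.Helper80.hom_sq_eq_one_iff_real]
    intro g
    have h1 := Cfsg.Agent.Helper79.irr_real_of_indicator_ne_zero (Cfsg.Agent.Helper80.homIrr f).2
      (by rw [hf]; exact one_ne_zero) g
    exact Complex.conj_eq_iff_im.mp h1
  have hνtw : ∀ f : G →* ℂˣ, f ^ 2 = 1 →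
      (Nat.card G : ℂ)⁻¹ * ∑ᶠ g : G, (fun g => ((f g : ℂˣ) : ℂ) * indFun I (ψ : ↥I → ℂ) g) (g * g) = 1 := by
    intro f hf
    rw [finsum_eq_sum_of_fintype, ← hν0]
    congr 1
    apply Finset.sum_congr rfl
    intro s _
    show ((f (s * s) : ℂˣ) : ℂ) * indFun I (ψ : ↥I → ℂ) (s * s) = _
    rw [← pow_two, map_pow, ← MonoidHom.pow_apply, hf, MonoidHom.one_apply, Units.val_one, one_mul]
  -- transfer the count to homomorphisms
  letI : Fintype (G →* ℂˣ) := Fintype.ofFinite _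
  let A' : Type _ := {f : G →* ℂˣ //
    (Nat.card G : ℂ)⁻¹ * ∑ᶠ g : G, (Cfsg.Agent.Helper80.homIrr f : G → ℂ) (g * g) = 1}
  letI : Fintype A' := Fintype.ofFinite _
  have hcardlin : Nat.card {χ : Cfsg.IrrCharacter G // Cfsg.charDegree (χ : G → ℂ) = 1 ∧
        (Nat.card G : ℂ)⁻¹ * ∑ᶠ g : G, (χ : G → ℂ) (g * g) = 1}
      = Fintype.card A' := by
    rw [← Nat.card_eq_fintype_card]
    symm
    apply Nat.card_eq_of_bijective
      (fun f : A' => (⟨Cfsg.Agent.Helper80.homIrr f.1,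
          Cfsg.Agent.Helper80.charDegree_homIrr f.1, f.2⟩ :
        {χ : Cfsg.IrrCharacter G // Cfsg.charDegree (χ : G → ℂ) = 1 ∧
          (Nat.card G : ℂ)⁻¹ * ∑ᶠ g : G, (χ : G → ℂ) (g * g) = 1}))
    constructor
    · intro f f' h
      exact Subtype.ext (Cfsg.Agent.Helper80.homIrr_injective (congrArg Subtype.val h))
    · rintro ⟨χ, hχ, hχν⟩
      obtain ⟨f, hf⟩ := Cfsg.Agent.Helper80.exists_hom_of_linear χ hχ
      subst hf
      exact ⟨⟨f, hχν⟩, rfl⟩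
  letI : Fintype {χ : Cfsg.IrrCharacter G // Cfsg.charDegree (χ : G → ℂ) = Cfsg.charDegree (φ : ↥N → ℂ) * I.index ∧
      (Nat.card G : ℂ)⁻¹ * ∑ᶠ g : G, (χ : G → ℂ) (g * g) = 1} :=
    Fintype.ofFinite _
  let Φ : A' → {χ : Cfsg.IrrCharacter G // Cfsg.charDegree (χ : G → ℂ) = Cfsg.charDegree (φ : ↥N → ℂ) * I.index ∧
      (Nat.card G : ℂ)⁻¹ * ∑ᶠ g : G, (χ : G → ℂ) (g * g) = 1} :=
    fun f => ⟨⟨fun g => ((f.1 g : ℂˣ) : ℂ) * indFun I (ψ : ↥I → ℂ) g, hχ_irr f.1⟩, hdeg f.1,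
      hνtw f.1 (hsq f.1 f.2)⟩
  have hinjA : Function.Injective (fun a : A' => Cfsg.Agent.Helper80.homIrr a.1) := by
    intro a b h
    exact Subtype.ext (Cfsg.Agent.Helper80.homIrr_injective h)
  have hfib := Finset.card_le_mul_card_image (f := Φ) (Finset.univ : Finset A') I.index (by
    intro b hb
    obtain ⟨f₀, -, rfl⟩ := Finset.mem_image.1 hb
    have hcard : (Finset.univ.filter (fun f : A' => Φ f = Φ f₀)).card
        = ((Finset.univ.filter (fun f : A' => Φ f = Φ f₀)).image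
            (fun a : A' => Cfsg.Agent.Helper80.homIrr a.1)).card :=
      (Finset.card_image_of_injective _ hinjA).symm
    rw [hcard]
    apply card_hom_restrict_le I f₀.1
    intro χ hχ
    obtain ⟨f, hf, rfl⟩ := Finset.mem_image.1 hχ
    refine ⟨f.1, rfl, ?_⟩
    have hΦ : Φ f = Φ f₀ := (Finset.mem_filter.1 hf).2
    have hfun : (fun g => ((f.1 g : ℂˣ) : ℂ) * indFun I (ψ : ↥I → ℂ) g)
        = (fun g => ((f₀.1 g : ℂˣ) : ℂ) * indFun I (ψ : ↥I → ℂ) g) :=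
      congrArg (fun z : {χ : Cfsg.IrrCharacter G // Cfsg.charDegree (χ : G → ℂ) = Cfsg.charDegree (φ : ↥N → ℂ) * I.index ∧
        (Nat.card G : ℂ)⁻¹ * ∑ᶠ g : G, (χ : G → ℂ) (g * g) = 1} => ((z : Cfsg.IrrCharacter G) : G → ℂ)) hΦ
    have hind : indFun I (fun t : ↥I => ((f.1 t : ℂˣ) : ℂ) * (ψ : ↥I → ℂ) t)
        = indFun I (fun t : ↥I => ((f₀.1 t : ℂˣ) : ℂ) * (ψ : ↥I → ℂ) t) := by
      rw [htw_ind f.1, htw_ind f₀.1, hfun]
    have hψeq := clifford_corr_inj hNI φ.2 hT (htw_irr f.1) (htw_irr f₀.1) (htw_ne f.1) (htw_ne f₀.1) hind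
    have := hom_restrict_eq_of_twist_eq hNI ψ.2 hresirr f.1 f₀.1 (hfN f.1) (hfN f₀.1) hψeq
    intro t ht
    exact this ⟨t, ht⟩)
  rw [hcardlin]
  calc Fintype.card A' = (Finset.univ : Finset A').card := rfl
    _ ≤ I.index * ((Finset.univ : Finset A').image Φ).card := hfib
    _ ≤ I.index * Nat.card {χ : Cfsg.IrrCharacter G // Cfsg.charDegree (χ : G → ℂ) = Cfsg.charDegree (φ : ↥N → ℂ) * I.index ∧
          (Nat.card G : ℂ)⁻¹ * ∑ᶠ g : G, (χ : G → ℂ) (g * g) = 1} := by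
        apply Nat.mul_le_mul_left
        exact (Finset.card_le_univ _).trans (le_of_eq Nat.card_eq_fintype_card.symm)

end Cfsg.Agent.S4912
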