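import Cfsg.Statements.S4914
import Cfsg.Agent.Helper74.RelGl7
import Cfsg.Agent.Helper74.GlaubSub

set_option autoImplicit false
open Cfsg

namespace Cfsg.Agent.S4914

/-- Let P and K be subgroups of a finite group G with P a p-group normalizing K, and suppose K has a normal Sylow p-subgroup Q. Let C be the subgroup of those k ∈ K whose commutator with every element of P lies in Q (so that C/Q is the fixed-point subgroup of P on K/Q). Then there is a bijection f from the P-invariant irreducible complex characters of K onto the P-invariant irreducible complex characters of C such that, for every P-invariant irreducible character χ of K, the multiplicity of f(χ) in the restriction of χ to C is a natural number congruent to 1 or to −1 modulo p, every other P-invariant irreducible character of C occurs in that restriction with multiplicity divisible by p,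 and the degrees of χ and f(χ) are congruent modulo p up to sign. -/
theorem result {G : Type*} [Group G] [Finite G] (p : ℕ) [Fact p.Prime] (P K Q C : Subgroup G) (hP : IsPGroup p ↥P) (hPK : P ≤ Subgroup.normalizer (K : Set G)) (hQK : Q ≤ K) (hQn : ∀ k ∈ K, ∀ q ∈ Q, k * q * k⁻¹ ∈ Q) (hQp : ∃ a : ℕ, Nat.card ↥Q = p ^ a) (hQsyl : ¬ p ∣ Q.relIndex K) (hCK : C ≤ K) (hC : ∀ k : G, k ∈ C ↔ (k ∈ K ∧ ∀ x ∈ P, x * k * x⁻¹ * k⁻¹ ∈ Q)) : ∃ f : {χ : Cfsg.IrrCharacter ↥K // (∀ x ∈ P, ∀ k k' : ↥K, (k' : G) = x * (k : G) * x⁻¹ → (χ : ↥K → ℂ) k' = (χ : ↥K → ℂ) k)} → {ξ : Cfsg.IrrCharacter ↥C // (∀ x ∈ P, ∀ k k' : ↥C, (k' : G) = x * (k : G) * x⁻¹ → (ξ : ↥C → ℂ) k' = (ξ : ↥C → ℂ) k)}, Function.Bijective f ∧ ∀ χ, (∀ ξ : {ξ : Cfsg.IrrCharacter ↥C // (∀ x ∈ P, ∀ k k' : ↥C, (k' : G) = x * (k : G) * x⁻¹ → (ξ : ↥C → ℂ) k' = (ξ : ↥C → ℂ) k)}, ∃ m : ℕ, (Nat.card ↥C : ℂ)⁻¹ * ∑ᶠ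 c : ↥C, (χ.1 : ↥K → ℂ) (Subgroup.inclusion hCK c) * (starRingEnd ℂ) ((ξ.1 : ↥C → ℂ) c) = (m : ℂ) ∧ (ξ = f χ → ((m : ZMod p) = 1 ∨ (m : ZMod p) = -1)) ∧ (ξ ≠ f χ → p ∣ m)) ∧ ((Cfsg.charDegree ((f χ).1 : ↥C → ℂ) : ZMod p) = (Cfsg.charDegree (χ.1 : ↥K → ℂ) : ZMod p) ∨ (Cfsg.charDegree ((f χ).1 : ↥C → ℂ) : ZMod p) = -(Cfsg.charDegree (χ.1 : ↥K → ℂ) : ZMod p)) := by
  classical
  have hp : p.Prime := Fact.out
  letI : Fintype ↥K := Fintype.ofFinite _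
  letI : Fintype ↥C := Fintype.ofFinite _
  -- normalisation facts
  have hnormK : ∀ s ∈ P, ∀ g ∈ K, s * g * s⁻¹ ∈ K := by
    intro s hs g hg
    exact (Subgroup.mem_normalizer_iff.mp (hPK hs) g).mp hg
  have hnormC : ∀ s ∈ P, ∀ c ∈ C, s * c * s⁻¹ ∈ C := by
    intro s hs c hc
    rw [hC] at hc ⊢
    refine ⟨hnormK s hs c hc.1, ?_⟩
    intro x hx
    have h1 := hc.2 (x * s) (P.mul_mem hx hs)
    have h2 := hc.2 s hs
    have h3 := Q.mul_mem h1 (Q.inv_mem h2)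
    convert h3 using 1
    group
  obtain ⟨a, ha⟩ := hQp
  obtain ⟨Q', hQ'def⟩ : ∃ Q' : Subgroup ↥K, Q' = Q.subgroupOf K := ⟨_, rfl⟩
  have hQ'mem : ∀ k : ↥K, k ∈ Q' ↔ (k : G) ∈ Q := fun k => by rw [hQ'def]; rfl
  haveI hQ'n : Q'.Normal := by
    constructor
    intro q hq k
    rw [hQ'mem] at hq ⊢
    exact hQn k k.2 q hq
  have hidx : Q'.index = Q.relIndex K := by rw [hQ'def]; rfl
  have hcard : Nat.card Q' = p ^ a := by
    rw [← ha, hQ'def]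
    exact Nat.card_congr (Subgroup.subgroupOfEquivOfLe hQK).toEquiv
  have hpQ : ¬ p ∣ Q'.index := by rw [hidx]; exact hQsyl
  have hcop : (Nat.card Q').Coprime Q'.index := by
    rw [hcard]
    exact Nat.Coprime.pow_left a ((Nat.Prime.coprime_iff_not_dvd hp).mpr hpQ)
  -- elements of `p`-power order of `K` lie in `Q`
  have hQpow : ∀ k : ↥K, k ^ (p ^ a) = 1 → k ∈ Q' := by
    intro k hk
    have h1 : ((k : ↥K ⧸ Q')) ^ (p ^ a) = 1 := by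
      rw [← QuotientGroup.mk_pow, hk]
      rfl
    have h2 : ((k : ↥K ⧸ Q')) ^ Q'.index = 1 := by
      have := pow_card_eq_one' (G := ↥K ⧸ Q') (x := (k : ↥K ⧸ Q'))
      exact this
    have h3 : orderOf (k : ↥K ⧸ Q') ∣ Nat.gcd (p ^ a) Q'.index :=
      Nat.dvd_gcd (orderOf_dvd_of_pow_eq_one h1) (orderOf_dvd_of_pow_eq_one h2)
    rw [← hcard, hcop.gcd_eq_one, Nat.dvd_one, orderOf_eq_one_iff] at h3
    exact (QuotientGroup.eq_one_iff k).mp h3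
  have hQP : ∀ s ∈ P, ∀ q ∈ Q, s * q * s⁻¹ ∈ Q := by
    intro s hs q hq
    have h1 : (⟨s * q * s⁻¹, hnormK s hs q (hQK hq)⟩ : ↥K) ∈ Q' := by
      apply hQpow
      apply Subtype.ext
      show (s * q * s⁻¹) ^ (p ^ a) = 1
      rw [conj_pow]
      have h2 : (⟨q, hq⟩ : ↥Q) ^ (p ^ a) = 1 := by
        rw [← ha]
        exact pow_card_eq_one'
      have h3 : q ^ (p ^ a) = 1 := congrArg Subtype.val h2
      rw [h3]
      group
    exact (hQ'mem _).mp h1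
  -- the abstract data
  obtain ⟨ι, hι⟩ : ∃ ι : ↥C →* ↥K, ι = Subgroup.inclusion hCK := ⟨_, rfl⟩
  have hιc : ∀ c : ↥C, ((ι c : ↥K) : G) = (c : G) := fun c => by rw [hι]; rfl
  have hιinj : Function.Injective ι := by
    rw [hι]
    exact Subgroup.inclusion_injective hCK
  obtain ⟨φ, hφ⟩ : ∃ φ : ↥P →* MulAut ↥K, ∀ (x : ↥P) (k : ↥K),
      ((φ x k : ↥K) : G) = (x : G) * (k : G) * (x : G)⁻¹ :=
    ⟨Cfsg.Agent.Helper74.conjHom K P hnormK, fun x k => rfl⟩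
  obtain ⟨φC, hφC⟩ : ∃ φC : ↥P →* MulAut ↥C, ∀ (x : ↥P) (c : ↥C),
      ((φC x c : ↥C) : G) = (x : G) * (c : G) * (x : G)⁻¹ :=
    ⟨Cfsg.Agent.Helper74.conjHom C P hnormC, fun x c => rfl⟩
  have hcompat : ∀ (x : ↥P) (c : ↥C), ι (φC x c) = φ x (ι c) := by
    intro x c
    apply Subtype.ext
    rw [hιc, hφC, hφ, hιc]
  have hQ'φ : ∀ x : ↥P, ∀ y ∈ Q', φ x y ∈ Q' := by
    intro x y hy
    rw [hQ'mem] at hy ⊢
    rw [hφ]
    exact hQP x x.2 y hy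
  have hC' : ∀ k : ↥K, k ∈ ι.range ↔ ∀ x : ↥P, φ x k * k⁻¹ ∈ Q' := by
    intro k
    constructor
    · rintro ⟨c, rfl⟩ x
      rw [hQ'mem]
      show ((φ x (ι c) : ↥K) : G) * ((ι c : ↥K) : G)⁻¹ ∈ Q
      rw [hφ, hιc]
      exact ((hC c).mp c.2).2 x x.2
    · intro h
      have hkC : (k : G) ∈ C := by
        rw [hC]
        refine ⟨k.2, fun x hx => ?_⟩
        have h1 := (hQ'mem _).mp (h ⟨x, hx⟩)
        have h2 : ((φ ⟨x, hx⟩ k * k⁻¹ : ↥K) : G) = x * (k : G) * x⁻¹ * (k : G)⁻¹ := by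
          show ((φ ⟨x, hx⟩ k : ↥K) : G) * ((k : ↥K) : G)⁻¹ = _
          rw [hφ]
        rw [h2] at h1
        exact h1
      exact ⟨⟨k, hkC⟩, Subtype.ext (hιc _)⟩
  obtain ⟨R1, R2, R3, R4⟩ :=
    Cfsg.Agent.Helper74.rg_main p hP ι hιinj φ φC hcompat Q' hQ'φ hcop hpQ hC'
  -- invariance in the two languages
  have hKconv : ∀ χ : ↥K → ℂ, (∀ x ∈ P, ∀ k k' : ↥K, (k' : G) = x * (k : G) * x⁻¹ → χ k' = χ k) ↔
      (∀ (x : ↥P) (k : ↥K), χ (φ x k) = χ k) := by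
    intro χ
    constructor
    · intro h x k
      exact h x x.2 k (φ x k) (hφ x k)
    · intro h x hx k k' hk'
      have h1 : k' = φ ⟨x, hx⟩ k := Subtype.ext (by rw [hφ]; exact hk')
      rw [h1]
      exact h ⟨x, hx⟩ k
  have hCconv : ∀ ξ : ↥C → ℂ, (∀ x ∈ P, ∀ k k' : ↥C, (k' : G) = x * (k : G) * x⁻¹ → ξ k' = ξ k) ↔
      (∀ (x : ↥P) (c : ↥C), ξ (φC x c) = ξ c) := by
    intro ξ
    constructor
    · intro h x k
      exact h x x.2 k (φC x k) (hφC x k)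
    · intro h x hx k k' hk'
      have h1 : k' = φC ⟨x, hx⟩ k := Subtype.ext (by rw [hφC]; exact hk')
      rw [h1]
      exact h ⟨x, hx⟩ k
  have hci : ∀ (χ : ↥K → ℂ) (ξ : ↥C → ℂ), (Nat.card ↥C : ℂ)⁻¹ *
      ∑ᶠ c : ↥C, χ (Subgroup.inclusion hCK c) * (starRingEnd ℂ) (ξ c) =
      classInner (fun c => χ (ι c)) ξ := by
    intro χ ξ
    unfold classInner
    rw [finsum_eq_sum_of_fintype, hι]
  have hnd : ∀ m : ℕ, ((m : ZMod p) = 1 ∨ (m : ZMod p) = -1) → ¬ p ∣ m := by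
    intro m h hd
    have h0 : (m : ZMod p) = 0 := (ZMod.natCast_eq_zero_iff m p).mpr hd
    rw [h0] at h
    rcases h with h | h
    · exact zero_ne_one h
    · have h1 : (1 : ZMod p) = 0 := by
        have := congrArg (fun z : ZMod p => -z) h
        simpa using this.symm
      exact one_ne_zero h1
  have hnat : ∀ (χ : IrrCharacter ↥K) (ξ : IrrCharacter ↥C), ∃ m : ℕ,
      classInner (fun c => (χ : ↥K → ℂ) (ι c)) (ξ : ↥C → ℂ) = (m : ℂ) := fun χ ξ =>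
    Cfsg.Agent.Helper15.inner_nat
      (Cfsg.Agent.Helper79.isCharacter_comp (Cfsg.Agent.Helper79.irr_isCharacter χ) ι)
      (Cfsg.Agent.Helper79.irr_isCharacter ξ)
  -- the map
  have hex : ∀ χ : {χ : Cfsg.IrrCharacter ↥K // (∀ x ∈ P, ∀ k k' : ↥K,
      (k' : G) = x * (k : G) * x⁻¹ → (χ : ↥K → ℂ) k' = (χ : ↥K → ℂ) k)},
      ∃ ξ : {ξ : Cfsg.IrrCharacter ↥C // (∀ x ∈ P, ∀ k k' : ↥C,
        (k' : G) = x * (k : G) * x⁻¹ → (ξ : ↥C → ℂ) k' = (ξ : ↥C → ℂ) k)},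
        ∃ m : ℕ, classInner (fun c => (χ.1 : ↥K → ℂ) (ι c)) (ξ.1 : ↥C → ℂ) = (m : ℂ) ∧
          ((m : ZMod p) = 1 ∨ (m : ZMod p) = -1) := by
    intro χ
    obtain ⟨ξ, hξ, hξinv, m, hm, hmod⟩ := R1 χ.1.1 χ.1.2 ((hKconv _).mp χ.2)
    exact ⟨⟨⟨ξ, hξ⟩, (hCconv ξ).mpr hξinv⟩, m, hm, hmod⟩
  choose f hf using hex
  have hkey : ∀ (χ : {χ : Cfsg.IrrCharacter ↥K // (∀ x ∈ P, ∀ k k' : ↥K,
      (k' : G) = x * (k : G) * x⁻¹ → (χ : ↥K → ℂ) k' = (χ : ↥K → ℂ) k)})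
      (ξ : {ξ : Cfsg.IrrCharacter ↥C // (∀ x ∈ P, ∀ k k' : ↥C,
        (k' : G) = x * (k : G) * x⁻¹ → (ξ : ↥C → ℂ) k' = (ξ : ↥C → ℂ) k)}) (m : ℕ),
      classInner (fun c => (χ.1 : ↥K → ℂ) (ι c)) (ξ.1 : ↥C → ℂ) = (m : ℂ) → ¬ p ∣ m →
      ξ = f χ := by
    intro χ ξ m hm hpm
    obtain ⟨m₀, hm₀, hmod₀⟩ := hf χ
    have h1 := R2 χ.1.1 χ.1.2 ((hKconv _).mp χ.2) ξ.1.1 (f χ).1.1 ξ.1.2 (f χ).1.2
      ((hCconv _).mp ξ.2) ((hCconv _).mp (f χ).2) m m₀ hm hm₀ hpm (hnd m₀ hmod₀)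
    exact Subtype.ext (Subtype.ext h1)
  refine ⟨f, ⟨?_, ?_⟩, ?_⟩
  · intro χ χ' hχχ'
    obtain ⟨m, hm, hmod⟩ := hf χ
    obtain ⟨m', hm', hmod'⟩ := hf χ'
    rw [← hχχ'] at hm'
    have h1 := R4 χ.1.1 χ'.1.1 χ.1.2 χ'.1.2 ((hKconv _).mp χ.2) ((hKconv _).mp χ'.2)
      (f χ).1.1 (f χ).1.2 ((hCconv _).mp (f χ).2) m m' hm hm' (hnd m hmod) (hnd m' hmod')
    exact Subtype.ext (Subtype.ext h1)
  · intro ξ
    obtain ⟨χ, hχ, hχinv, m, hm, hpm⟩ := R3 ξ.1.1 ξ.1.2 ((hCconv _).mp ξ.2)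
    refine ⟨⟨⟨χ, hχ⟩, (hKconv χ).mpr hχinv⟩, ?_⟩
    exact (hkey ⟨⟨χ, hχ⟩, (hKconv χ).mpr hχinv⟩ ξ m hm hpm).symm
  · intro χ
    obtain ⟨m₀, hm₀, hmod₀⟩ := hf χ
    refine ⟨?_, ?_⟩
    · intro ξ
      obtain ⟨m, hm⟩ := hnat χ.1 ξ.1
      refine ⟨m, ?_, ?_, ?_⟩
      · rw [hci]
        exact hm
      · intro hξ
        rw [hξ, hm₀] at hm
        have h1 : m₀ = m := by exact_mod_cast hm
        rw [← h1]
        exact hmod₀
      · intro hξ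
        by_contra hpm
        exact hξ (hkey χ ξ m hm hpm)
    · refine Cfsg.Agent.Helper74.rg_degree p hP ι φ φC hcompat χ.1.2 ((hKconv _).mp χ.2)
        (f χ).1.2 ((hCconv _).mp (f χ).2) m₀ hm₀ hmod₀ ?_
      intro ξ' hξ' hξ'inv hne m' hm'
      by_contra hpm
      have h1 := hkey χ ⟨⟨ξ', hξ'⟩, (hCconv ξ').mpr hξ'inv⟩ m' hm' hpm
      apply hne
      rw [← h1]

end Cfsg.Agent.S4914
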