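import Cfsg.Statements.S4916
import Cfsg.Agent.Helper81.Blocks

set_option autoImplicit false
open Cfsg

namespace Cfsg.Agent.S4916

/-- Let G be a finite group, p a prime and M a maximal ideal of the algebraic integers containing p. Then the principal character is the only irreducible character of degree prime to p in the principal p-block of G if and only if p does not divide the order of G. -/
theorem result {G : Type*} [Group G] [Finite G] (p : ℕ) [Fact p.Prime] (M : Ideal Cfsg.AlgInt) (hM : Cfsg.IsPModular p M) : (∀ χ : Cfsg.IrrCharacter G, χ ∈ Cfsg.principalBlock M G → ¬ p ∣ Cfsg.charDegree (χ : G → ℂ) → (χ : G → ℂ) = fun _ => (1 : ℂ)) ↔ ¬ p ∣ Nat.card G := by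
  classical
  have := Fintype.ofFinite G
  have := Fintype.ofFinite (Cfsg.IrrCharacter G)
  have hP := Helper81.isPrime_of_isPModular hM
  constructor
  · intro H hp
    have hdvd := Helper81.dvd_sum_block_degree_sq hM hp (Helper81.trivIrr G)
    have hmem : Helper81.trivIrr G ∈ Finset.univ.filter
        (fun ψ : Cfsg.IrrCharacter G => ψ ∈ Cfsg.blockOf M (Helper81.trivIrr G : G → ℂ)) := by
      rw [Finset.mem_filter]
      exact ⟨Finset.mem_univ _, Helper81.mem_blockOf_self _⟩
    rw [← Finset.add_sum_erase _ _ hmem] at hdvd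
    have h1 : Cfsg.charDegree (Helper81.trivIrr G : G → ℂ) = 1 := by
      have h := Helper81.irr_one_eq_charDegree (Helper81.trivIrr G)
      rw [Helper81.trivIrr_apply] at h
      exact_mod_cast h.symm
    have h2 : p ∣ ∑ ψ ∈ (Finset.univ.filter
        (fun ψ : Cfsg.IrrCharacter G => ψ ∈ Cfsg.blockOf M (Helper81.trivIrr G : G → ℂ))).erase
          (Helper81.trivIrr G), Cfsg.charDegree (ψ : G → ℂ) ^ 2 := by
      apply Finset.dvd_sum
      intro ψ hψ
      rw [Finset.mem_erase, Finset.mem_filter] at hψ
      have : p ∣ Cfsg.charDegree (ψ : G → ℂ) := by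
        by_contra hnd
        apply hψ.1
        exact Subtype.ext (H ψ hψ.2.2 hnd)
      exact dvd_pow this two_ne_zero
    rw [h1] at hdvd
    have h3 : p ∣ 1 ^ 2 := (Nat.dvd_add_left h2).mp hdvd
    rw [one_pow] at h3
    exact (Fact.out : p.Prime).one_lt.ne' (Nat.dvd_one.mp h3)
  · intro hp χ hχ _
    by_contra hne
    have hne' : χ ≠ Helper81.trivIrr G := fun h => hne (by rw [h]; rfl)
    have horth := Helper81.irr_orthonormal χ (Helper81.trivIrr G)
    rw [if_neg hne'] at horth
    have hcard : (Nat.card G : ℂ) ≠ 0 := by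
      have : 0 < Nat.card G := Nat.card_pos
      exact_mod_cast this.ne'
    have hsum0 : ∑ g : G, (χ : G → ℂ) g = 0 := by
      simpa [Helper81.trivIrr_apply, hcard] using horth
    have hχ1 := Helper81.irr_one_ne_zero χ
    have hterm : ∀ g : G, Cfsg.MemLocalIdeal M (1 - (χ : G → ℂ) g / (χ : G → ℂ) 1) := by
      intro g
      have hg : Cfsg.MemLocalIdeal M (Cfsg.centralChar (fun _ : G => (1 : ℂ)) g -
          Cfsg.centralChar (χ : G → ℂ) g) := hχ g
      have hkdvd : (Subgroup.centralizer ({g} : Set G)).index ∣ Nat.card G :=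
        Subgroup.index_dvd_card _
      have hpk : ¬ p ∣ (Subgroup.centralizer ({g} : Set G)).index := fun h => hp (h.trans hkdvd)
      have hkR : Cfsg.MemLocalRing M (((Subgroup.centralizer ({g} : Set G)).index : ℂ)⁻¹) :=
        Helper81.memLocalRing_inv (Helper81.memLocalRing_natCast hP.ne_top _)
          (Helper81.not_memLocalIdeal_natCast hM hpk)
      have hk0 : (((Subgroup.centralizer ({g} : Set G)).index : ℕ) : ℂ) ≠ 0 := by
        have : (Subgroup.centralizer ({g} : Set G)).index ≠ 0 := by
          intro h0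
          rw [h0] at hkdvd
          exact (Nat.card_pos (α := G)).ne' (Nat.eq_zero_of_zero_dvd hkdvd)
        exact_mod_cast this
      have hrew : 1 - (χ : G → ℂ) g / (χ : G → ℂ) 1 =
          ((Subgroup.centralizer ({g} : Set G)).index : ℂ)⁻¹ *
            (Cfsg.centralChar (fun _ : G => (1 : ℂ)) g - Cfsg.centralChar (χ : G → ℂ) g) := by
        simp only [Cfsg.centralChar]
        field_simp
      rw [hrew]
      exact Helper81.memLocalIdeal_mul_left hkR hg
    have hS : Cfsg.MemLocalIdeal M (∑ g : G, (1 - (χ : G → ℂ) g / (χ : G → ℂ) 1)) :=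
      Helper81.memLocalIdeal_sum _ _ (fun g _ => hterm g)
    have hval : ∑ g : G, (1 - (χ : G → ℂ) g / (χ : G → ℂ) 1) = (Nat.card G : ℂ) := by
      rw [Finset.sum_sub_distrib, ← Finset.sum_div, hsum0]
      simp [Nat.card_eq_fintype_card]
    rw [hval] at hS
    exact hp ((Helper81.memLocalIdeal_natCast_iff hM).mp hS)

end Cfsg.Agent.S4916
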