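import Cfsg.Statements.S4931
import Cfsg.Agent.Helper76.PPrimeKer
import Cfsg.Agent.Helper2.TateGeneral
import Cfsg.Agent.Helper80.CharOrtho
import Cfsg.Agent.Helper80.CharNormal
import Cfsg.Agent.Helper79.Codegree

set_option autoImplicit false
open Cfsg

namespace Cfsg.Agent.S4931

open scoped commutatorElement Pointwise

universe u

/-- Irreducible characters of `X ⧸ D` separate the elements outside `D`. -/
theorem exists_irr_sep {X : Type u} [Group X] [Finite X] (D : Subgroup X) [D.Normal] {x : X}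
    (hx : x ∉ D) :
    ∃ θ : IrrCharacter X, (∀ d ∈ D, (θ : X → ℂ) d = (θ : X → ℂ) 1) ∧
      (θ : X → ℂ) x ≠ (θ : X → ℂ) 1 ∧ charDegree (θ : X → ℂ) ∣ D.index := by
  classical
  have hx1 : (x : X ⧸ D) ≠ 1 := by
    intro h
    exact hx ((QuotientGroup.eq_one_iff x).mp h)
  have key : ∃ ψ : IrrCharacter (X ⧸ D),
      (ψ : X ⧸ D → ℂ) (x : X ⧸ D) ≠ (ψ : X ⧸ D → ℂ) 1 := by
    by_contra hcon
    push Not at hcon
    have h0 := Helper80.irr_finsum_degree_mul_of_ne_one hx1
    have h1 := Helper80.irr_finsum_degree_sq (G := X ⧸ D)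
    have h2 : ∑ᶠ χ : IrrCharacter (X ⧸ D), (χ : X ⧸ D → ℂ) 1 * (χ : X ⧸ D → ℂ) (x : X ⧸ D)
        = ∑ᶠ χ : IrrCharacter (X ⧸ D), (χ : X ⧸ D → ℂ) 1 * (χ : X ⧸ D → ℂ) 1 :=
      finsum_congr (fun χ => by rw [hcon χ])
    rw [h0, h1] at h2
    have hpos : (Nat.card (X ⧸ D) : ℂ) ≠ 0 := by
      exact_mod_cast (Nat.card_pos (α := X ⧸ D)).ne'
    exact hpos h2.symm
  obtain ⟨ψ, hψ⟩ := key
  refine ⟨⟨fun g => (ψ : X ⧸ D → ℂ) (g : X ⧸ D), Helper80.irr_inflation D ψ.2⟩, ?_, hψ, ?_⟩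
  · intro d hd
    show (ψ : X ⧸ D → ℂ) (d : X ⧸ D) = (ψ : X ⧸ D → ℂ) ((1 : X) : X ⧸ D)
    rw [(QuotientGroup.eq_one_iff d).mpr hd]
    rfl
  · exact Helper79.irr_charDegree_dvd_card ψ

/-- `O^p` of a `p`-group is trivial. -/
theorem pResidual_eq_bot_of_isPGroup {X : Type*} [Group X] {p : ℕ} (h : IsPGroup p X) :
    Cfsg.pResidual p X = ⊥ := by
  rw [Cfsg.pResidual, Subgroup.closure_eq_bot_iff]
  intro g hg
  have hg' : Nat.Coprime (orderOf g) p := hg
  obtain ⟨k, hk⟩ := h g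
  have h1 : orderOf g ∣ p ^ k := orderOf_dvd_of_pow_eq_one hk
  have h2 : Nat.Coprime (orderOf g) (p ^ k) := Nat.Coprime.pow_right k hg'
  have h3 : orderOf g = 1 := Nat.Coprime.eq_one_of_dvd h2 h1
  exact orderOf_eq_one_iff.mp h3

/-- The commutator subgroup of `H ≤ N`, computed inside `N`. -/
theorem map_commutator_subgroupOf {G : Type*} [Group G] (H N : Subgroup G) (hHN : H ≤ N) :
    (⁅H.subgroupOf N, H.subgroupOf N⁆ : Subgroup N).map N.subtype = ⁅H, H⁆ := by
  rw [Subgroup.map_commutator, Subgroup.subgroupOf_map_subtype, inf_of_le_left hHN]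

theorem mem_commutator_subgroupOf {G : Type*} [Group G] (H N : Subgroup G) (hHN : H ≤ N)
    (y : N) : y ∈ (⁅H.subgroupOf N, H.subgroupOf N⁆ : Subgroup N) ↔ (y : G) ∈ ⁅H, H⁆ := by
  rw [← map_commutator_subgroupOf H N hHN]
  constructor
  · intro h
    exact ⟨y, h, rfl⟩
  · rintro ⟨z, hz, hzy⟩
    have : z = y := Subtype.ext hzy
    rwa [← this]

/-- The hard direction: if every irreducible character of `p'`-degree of `N_G(P)` extends to `G`,
then `N_G(P)` has a normal complement. -/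
theorem exists_normal_complement {G : Type u} [Group G] [Finite G] (p : ℕ) [Fact p.Prime]
    (P : Sylow p G)
    (hE : ∀ θ : IrrCharacter ↥(Subgroup.normalizer ((P : Subgroup G) : Set G)),
      ¬ p ∣ charDegree (θ : ↥(Subgroup.normalizer ((P : Subgroup G) : Set G)) → ℂ) →
        ∃ χ : IrrCharacter G, ∀ x : ↥(Subgroup.normalizer ((P : Subgroup G) : Set G)),
          (χ : G → ℂ) x = (θ : ↥(Subgroup.normalizer ((P : Subgroup G) : Set G)) → ℂ) x) :
    ∃ K : Subgroup G, K.Normal ∧ K ⊔ Subgroup.normalizer ((P : Subgroup G) : Set G) = ⊤ ∧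
      K ⊓ Subgroup.normalizer ((P : Subgroup G) : Set G) = ⊥ := by
  classical
  set N : Subgroup G := Subgroup.normalizer ((P : Subgroup G) : Set G) with hNdef
  have hPN : (P : Subgroup G) ≤ N := Subgroup.le_normalizer
  let PN : Sylow p N := P.subtype hPN
  have hPNcoe : (PN : Subgroup N) = (P : Subgroup G).subgroupOf N := Sylow.coe_subtype P hPN
  haveI hDn : ((P : Subgroup G).subgroupOf N).Normal := Subgroup.normal_in_normalizer
  have hDp : IsPGroup p ((P : Subgroup G).subgroupOf N) := by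
    rw [← hPNcoe]; exact PN.2
  set Pd : Subgroup G := ⁅(P : Subgroup G), (P : Subgroup G)⁆ with hPd
  set W : Subgroup G := Subgroup.normalClosure ((P : Subgroup G) : Set G) with hW
  set M : Subgroup G := Subgroup.normalClosure (Pd : Set G) with hM
  have hPW : (P : Subgroup G) ≤ W := Subgroup.le_normalClosure
  have hPdM : Pd ≤ M := Subgroup.le_normalClosure
  have hPdP : Pd ≤ (P : Subgroup G) := by
    rw [hPd, Subgroup.commutator_le]
    intro a ha b hb
    rw [commutatorElement_def]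
    exact (P : Subgroup G).mul_mem ((P : Subgroup G).mul_mem ((P : Subgroup G).mul_mem ha hb)
      ((P : Subgroup G).inv_mem ha)) ((P : Subgroup G).inv_mem hb)
  have hMW : M ≤ W := Subgroup.normalClosure_mono (fun y hy => hPdP hy)
  -- (A1) characters of p'-degree of N are trivial on N ∩ M
  have hker : ∀ θ : IrrCharacter N, ¬ p ∣ charDegree (θ : N → ℂ) →
      ∀ x : N, (x : G) ∈ M → (θ : N → ℂ) x = (θ : N → ℂ) 1 := by
    intro θ hθ x hx
    obtain ⟨χ, hχ⟩ := hE θ hθ
    have hχc := Helper79.isCharacter_of_irr χ.2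
    haveI := Helper79.charKer_normal hχc
    have h1 : M ≤ Helper79.charKer hχc := by
      apply Subgroup.normalClosure_le_normal
      intro y hy
      have hyN : y ∈ N := hPN (hPdP hy)
      rw [SetLike.mem_coe, Helper79.mem_charKer]
      have h2 := Helper76.irr_apply_eq_of_le_sup_commutator ((P : Subgroup G).subgroupOf N) hDp
        θ hθ ⊥ (fun n hn => by rw [Subgroup.mem_bot.mp hn])
        (⁅(P : Subgroup G).subgroupOf N, (P : Subgroup G).subgroupOf N⁆ : Subgroup N) le_sup_right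
        ⟨y, hyN⟩ ((mem_commutator_subgroupOf (P : Subgroup G) N hPN ⟨y, hyN⟩).mpr hy)
      have h3 := hχ ⟨y, hyN⟩
      have h4 := hχ 1
      rw [h3, h2, ← h4]
      rfl
    have h5 := (Helper79.mem_charKer hχc (x : G)).mp (h1 hx)
    rw [← hχ x, h5, ← hχ 1]
    rfl
  -- (A2) characters of N/P are trivial on N ∩ W
  have hkerW : ∀ θ : IrrCharacter N, ¬ p ∣ charDegree (θ : N → ℂ) →
      (∀ d ∈ (P : Subgroup G).subgroupOf N, (θ : N → ℂ) d = (θ : N → ℂ) 1) →
      ∀ x : N, (x : G) ∈ W → (θ : N → ℂ) x = (θ : N → ℂ) 1 := by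
    intro θ hθ hθD x hx
    obtain ⟨χ, hχ⟩ := hE θ hθ
    have hχc := Helper79.isCharacter_of_irr χ.2
    haveI := Helper79.charKer_normal hχc
    have h1 : W ≤ Helper79.charKer hχc := by
      apply Subgroup.normalClosure_le_normal
      intro y hy
      have hyN : y ∈ N := hPN hy
      rw [SetLike.mem_coe, Helper79.mem_charKer]
      have h2 := hθD ⟨y, hyN⟩ (Subgroup.mem_subgroupOf.mpr hy)
      have h3 := hχ ⟨y, hyN⟩
      have h4 := hχ 1
      rw [h3, h2, ← h4]
      rfl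
    have h5 := (Helper79.mem_charKer hχc (x : G)).mp (h1 hx)
    rw [← hχ x, h5, ← hχ 1]
    rfl
  -- (A3) N ∩ W ≤ P
  have hNW : ∀ x ∈ N, x ∈ W → x ∈ (P : Subgroup G) := by
    intro x hxN hxW
    by_contra hxP
    have hxD : (⟨x, hxN⟩ : N) ∉ (P : Subgroup G).subgroupOf N := fun h =>
      hxP (Subgroup.mem_subgroupOf.mp h)
    obtain ⟨θ, hθD, hθx, hθdeg⟩ := exists_irr_sep ((P : Subgroup G).subgroupOf N) hxD
    have hθp : ¬ p ∣ charDegree (θ : N → ℂ) := by
      intro h
      have h1 := PN.not_dvd_index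
      rw [hPNcoe] at h1
      exact h1 (dvd_trans h hθdeg)
    exact hθx (hkerW θ hθp hθD ⟨x, hxN⟩ hxW)
  -- (A4) N ∩ M ≤ P'
  have hNM : ∀ x ∈ N, x ∈ M → x ∈ Pd := by
    intro x hxN hxM
    have hxP : x ∈ (P : Subgroup G) := hNW x hxN (hMW hxM)
    by_contra hxPd
    have hy : (⟨x, hxN⟩ : N) ∈ (PN : Subgroup N) := by
      rw [hPNcoe]; exact Subgroup.mem_subgroupOf.mpr hxP
    have hy' : (⟨x, hxN⟩ : N) ∉ ⁅(PN : Subgroup N), (PN : Subgroup N)⁆ := by
      rw [hPNcoe]
      intro h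
      exact hxPd ((mem_commutator_subgroupOf (P : Subgroup G) N hPN ⟨x, hxN⟩).mp h)
    obtain ⟨θ, hθp, hθx⟩ := Helper76.exists_irr_ne_of_not_mem_commutator PN hy hy'
    exact hθx (hker θ hθp ⟨x, hxN⟩ hxM)
  -- (B) fusion in W is trivial modulo P'
  haveI hMn : M.Normal := Subgroup.normalClosure_normal
  haveI hWn : W.Normal := Subgroup.normalClosure_normal
  have hfus : ∀ x ∈ (P : Subgroup G), ∀ w ∈ W, w⁻¹ * x * w ∈ (P : Subgroup G) →
      x⁻¹ * (w⁻¹ * x * w) ∈ Pd := by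
    intro x hx w hw hy
    set y : G := w⁻¹ * x * w with hydef
    let π : G →* G ⧸ M := QuotientGroup.mk' M
    let C : Subgroup G := (Subgroup.centralizer ({π y} : Set (G ⧸ M))).comap π
    have hCmem : ∀ g : G, g ∈ C ↔ π y * π g = π g * π y := by
      intro g
      show π g ∈ Subgroup.centralizer ({π y} : Set (G ⧸ M)) ↔ _
      rw [Subgroup.mem_centralizer_iff]
      constructor
      · intro h; exact h (π y) rfl
      · intro h z hz
        rw [Set.mem_singleton_iff.mp hz]; exact h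
    have hπcomm : ∀ a b : G, ⁅a, b⁆ ∈ M → π a * π b = π b * π a := by
      intro a b hab
      have h1 : π ⁅a, b⁆ = 1 := (QuotientGroup.eq_one_iff _).mpr hab
      rw [commutatorElement_def, map_mul, map_mul, map_mul, map_inv, map_inv] at h1
      calc π a * π b = (π a * π b * (π a)⁻¹ * (π b)⁻¹) * (π b * π a) := by group
        _ = π b * π a := by rw [h1, one_mul]
    have hPC : (P : Subgroup G) ≤ C := by
      intro g hg
      rw [hCmem]
      exact hπcomm y g (hPdM (Subgroup.commutator_mem_commutator hy hg))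
    let Q : Sylow p G := w⁻¹ • P
    have hQmem : ∀ z : G, z ∈ (Q : Subgroup G) → w * z * w⁻¹ ∈ (P : Subgroup G) := by
      intro z hz
      have h1 : z ∈ MulAut.conj w⁻¹ • (P : Subgroup G) := hz
      rw [Subgroup.mem_pointwise_smul_iff_inv_smul_mem] at h1
      simpa [MulAut.smul_def] using h1
    have hQC : (Q : Subgroup G) ≤ C := by
      intro z hz
      have hh := hQmem z hz
      rw [hCmem]
      apply hπcomm
      have h1 : ⁅x, w * z * w⁻¹⁆ ∈ M := hPdM (Subgroup.commutator_mem_commutator hx hh)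
      have h2 := hMn.conj_mem _ h1 w⁻¹
      have h3 : w⁻¹ * ⁅x, w * z * w⁻¹⁆ * w⁻¹⁻¹ = ⁅y, z⁆ := by
        rw [hydef, commutatorElement_def, commutatorElement_def]; group
      rwa [h3] at h2
    have hQW : (Q : Subgroup G) ≤ W := by
      intro z hz
      have hh := hPW (hQmem z hz)
      have h2 := hWn.conj_mem _ hh w⁻¹
      have h3 : w⁻¹ * (w * z * w⁻¹) * w⁻¹⁻¹ = z := by group
      rwa [h3] at h2
    have hPH : (P : Subgroup G) ≤ C ⊓ W := le_inf hPC hPW
    have hQH : (Q : Subgroup G) ≤ C ⊓ W := le_inf hQC hQW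
    obtain ⟨c, hc⟩ := MulAction.exists_smul_eq ↥(C ⊓ W) (Q.subtype hQH) (P.subtype hPH)
    rw [Sylow.smul_subtype] at hc
    have hc2 : c • Q = P := Sylow.subtype_injective hc
    have hc3 : ((c : G) * w⁻¹) • P = P := by
      rw [mul_smul]; exact hc2
    have hnN : (c : G) * w⁻¹ ∈ N := Sylow.smul_eq_iff_mem_normalizer.mp hc3
    have hnW : (c : G) * w⁻¹ ∈ W := W.mul_mem c.2.2 (W.inv_mem hw)
    have hnP : (c : G) * w⁻¹ ∈ (P : Subgroup G) := hNW _ hnN hnW
    set n : G := (c : G) * w⁻¹ with hn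
    have h1 : π y * π (c : G) = π (c : G) * π y := (hCmem _).mp c.2.1
    have h2 : π n * π x = π x * π n :=
      hπcomm n x (hPdM (Subgroup.commutator_mem_commutator hnP hx))
    have e1 : π y = π (c : G) * π y * (π (c : G))⁻¹ := by rw [← h1]; group
    have e2 : π (c : G) * π y * (π (c : G))⁻¹ = π n * π x * (π n)⁻¹ := by
      rw [← map_inv, ← map_mul, ← map_mul, ← map_inv, ← map_mul, ← map_mul]
      congr 1
      rw [hn, hydef]; group
    have e3 : π n * π x * (π n)⁻¹ = π x := by rw [h2]; group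
    have e4 : π y = π x := by rw [e1, e2, e3]
    have hxyM : x⁻¹ * y ∈ M := QuotientGroup.eq.mp e4.symm
    exact hNM _ (hPN ((P : Subgroup G).mul_mem ((P : Subgroup G).inv_mem hx) hy)) hxyM
  -- (C) focal subgroup of P in W
  let PW : Sylow p W := P.subtype hPW
  have hPWcoe : (PW : Subgroup W) = (P : Subgroup G).subgroupOf W := Sylow.coe_subtype P hPW
  have hfoc : (PW : Subgroup W) ⊓ commutator W ≤ ⁅(PW : Subgroup W), (PW : Subgroup W)⁆ := by
    rw [inf_comm, Subgroup.commutator_inf_eq_focalSubgroup, Subgroup.focalSubgroup_def,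
      Subgroup.closure_le]
    rintro g ⟨hgP, a, ha, u, rfl⟩
    rw [SetLike.mem_coe, hPWcoe, mem_commutator_subgroupOf (P : Subgroup G) W hPW]
    rw [hPWcoe, Subgroup.mem_subgroupOf] at hgP ha
    have ha' : (a : G)⁻¹ ∈ (P : Subgroup G) := (P : Subgroup G).inv_mem ha
    have h1 : ((u : G)⁻¹)⁻¹ * (a : G)⁻¹ * (u : G)⁻¹ ∈ (P : Subgroup G) := by
      have h2 := (P : Subgroup G).mul_mem ha' hgP
      have h3 : (a : G)⁻¹ * ((⁅a, u⁆ : W) : G) = ((u : G)⁻¹)⁻¹ * (a : G)⁻¹ * (u : G)⁻¹ := by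
        rw [commutatorElement_def]; push_cast; group
      rwa [h3] at h2
    have h4 := hfus (a : G)⁻¹ ha' (u : G)⁻¹ (W.inv_mem u.2) h1
    have h5 : ((a : G)⁻¹)⁻¹ * (((u : G)⁻¹)⁻¹ * (a : G)⁻¹ * (u : G)⁻¹) = ((⁅a, u⁆ : W) : G) := by
      rw [commutatorElement_def]; push_cast; group
    rwa [h5] at h4
  -- (D) Tate
  have hT := Helper2.inf_pResidual_le_map_pResidual_of_commutator_inf_le PW (PW : Subgroup W)
    le_rfl hfoc
  rw [pResidual_eq_bot_of_isPGroup PW.2, Subgroup.map_bot] at hT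
  have hTbot : (PW : Subgroup W) ⊓ Cfsg.pResidual p W = ⊥ := le_bot_iff.mp hT
  have hTtop : (PW : Subgroup W) ⊔ Cfsg.pResidual p W = ⊤ := Helper2.sylow_sup_pResidual PW
  -- (E) the complement
  refine ⟨(Cfsg.pResidual p W).map W.subtype, ?_, ?_, ?_⟩
  · refine ⟨fun k hk g => ?_⟩
    obtain ⟨r, hr, rfl⟩ := hk
    have hle := Helper2.map_pResidual_le (MulAut.conjNormal g : MulAut W).toMonoidHom p
    refine ⟨(MulAut.conjNormal g : MulAut W) r, hle ⟨r, hr, rfl⟩, ?_⟩
    simp [MulAut.conjNormal_apply]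
  · rw [eq_top_iff]
    have h1 : N ⊔ W = ⊤ := Sylow.normalizer_sup_eq_top' P hPW
    have h2 : W ≤ (Cfsg.pResidual p W).map W.subtype ⊔ N := by
      intro x hx
      have h3 : (⟨x, hx⟩ : W) ∈ (PW : Subgroup W) ⊔ Cfsg.pResidual p W := by
        rw [hTtop]; exact Subgroup.mem_top _
      have h4 : x ∈ ((PW : Subgroup W) ⊔ Cfsg.pResidual p W).map W.subtype := ⟨⟨x, hx⟩, h3, rfl⟩
      rw [Subgroup.map_sup, hPWcoe, Subgroup.subgroupOf_map_subtype, inf_of_le_left hPW] at h4
      exact (sup_le (le_sup_of_le_right hPN) le_sup_left) h4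
    rw [← h1]
    exact sup_le le_sup_right h2
  · rw [eq_bot_iff]
    rintro x ⟨⟨r, hr, rfl⟩, hxN⟩
    have hxP : (r : G) ∈ (P : Subgroup G) := hNW _ hxN r.2
    have h1 : r ∈ (PW : Subgroup W) ⊓ Cfsg.pResidual p W := by
      refine ⟨?_, hr⟩
      rw [hPWcoe]; exact Subgroup.mem_subgroupOf.mpr hxP
    rw [hTbot, Subgroup.mem_bot] at h1
    rw [h1]; exact Subgroup.mem_bot.mpr rfl

/-- Let G be a finite group, p a prime, P a Sylow p-subgroup. All irreducible characters of p'-degree of N_G(P) extend to G iff N_G(P) has a normal complement in G. -/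
theorem result {G : Type*} [Group G] [Finite G] (p : ℕ) [Fact p.Prime] (P : Sylow p G) :
    (∀ θ : Cfsg.IrrCharacter ↥(Subgroup.normalizer ((P : Subgroup G) : Set G)), ¬ p ∣ Cfsg.charDegree (θ : ↥(Subgroup.normalizer ((P : Subgroup G) : Set G)) → ℂ) →
        ∃ χ : Cfsg.IrrCharacter G, ∀ x : ↥(Subgroup.normalizer ((P : Subgroup G) : Set G)), (χ : G → ℂ) x = (θ : ↥(Subgroup.normalizer ((P : Subgroup G) : Set G)) → ℂ) x) ↔
      ∃ K : Subgroup G, K.Normal ∧ K ⊔ Subgroup.normalizer ((P : Subgroup G) : Set G) = ⊤ ∧ K ⊓ Subgroup.normalizer ((P : Subgroup G) : Set G) = ⊥ := by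
  constructor
  · intro hE
    exact exists_normal_complement p P hE
  · rintro ⟨K, hKn, hsup, hinf⟩ θ _
    haveI := hKn
    let f0 : ↥(Subgroup.normalizer ((P : Subgroup G) : Set G)) →* G ⧸ K :=
      (QuotientGroup.mk' K).comp (Subgroup.normalizer ((P : Subgroup G) : Set G)).subtype
    have hinj : Function.Injective f0 := by
      rw [injective_iff_map_eq_one]
      intro x hx
      have h1 : (x : G) ∈ K := (QuotientGroup.eq_one_iff (x : G)).mp hx
      have h2 : (x : G) ∈ K ⊓ Subgroup.normalizer ((P : Subgroup G) : Set G) := ⟨h1, x.2⟩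
      rw [hinf, Subgroup.mem_bot] at h2
      exact Subtype.ext h2
    have hsurj : Function.Surjective f0 := by
      intro q
      obtain ⟨g, rfl⟩ := QuotientGroup.mk'_surjective K q
      have hg : g ∈ ((K ⊔ Subgroup.normalizer ((P : Subgroup G) : Set G) : Subgroup G) : Set G) := by
        rw [hsup]; exact Subgroup.mem_top g
      rw [Subgroup.normal_mul] at hg
      obtain ⟨k, hk, n, hn, rfl⟩ := Set.mem_mul.mp hg
      refine ⟨⟨n, hn⟩, ?_⟩
      show (QuotientGroup.mk' K) n = (QuotientGroup.mk' K) (k * n)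
      have hk1 : (QuotientGroup.mk' K) k = 1 := (QuotientGroup.eq_one_iff k).mpr hk
      rw [map_mul, hk1, one_mul]
    let e : ↥(Subgroup.normalizer ((P : Subgroup G) : Set G)) ≃* G ⧸ K :=
      MulEquiv.ofBijective f0 ⟨hinj, hsurj⟩
    let f : G →* ↥(Subgroup.normalizer ((P : Subgroup G) : Set G)) :=
      e.symm.toMonoidHom.comp (QuotientGroup.mk' K)
    have hf : Function.Surjective f :=
      e.symm.surjective.comp (QuotientGroup.mk'_surjective K)
    refine ⟨⟨fun g => (θ : ↥(Subgroup.normalizer ((P : Subgroup G) : Set G)) → ℂ) (f g),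
      Helper79.isIrrCharacter_comp f hf θ.2⟩, ?_⟩
    intro x
    have h1 : f (x : G) = x := by
      show e.symm ((QuotientGroup.mk' K) (x : G)) = x
      rw [MulEquiv.symm_apply_eq]
      rfl
    show (θ : ↥(Subgroup.normalizer ((P : Subgroup G) : Set G)) → ℂ) (f (x : G)) = _
    rw [h1]

end Cfsg.Agent.S4931
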