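import Mathlib
import Cfsg.Statements.S4969
import Cfsg.Agent.Helper82.Bessel

set_option autoImplicit false
open Cfsg

namespace Cfsg.Agent.S4969

/-- Let G be a finite group with k conjugacy classes, g ∈ G, and N > 0. Then the sum over the irreducible complex characters χ of G with χ(1) ≥ N of |χ(g)|/χ(1) is at most √(k · #C_G(g)) / N. -/
theorem result {G : Type*} [Group G] [Finite G] (g : G) (N : ℝ) (hN : 0 < N) :
    ∑ᶠ χ : Cfsg.IrrCharacter G, (if N ≤ ‖(χ : G → ℂ) 1‖ then ‖(χ : G → ℂ) g‖ / ‖(χ : G → ℂ) 1‖ else 0) ≤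
      Real.sqrt ((Nat.card (ConjClasses G) : ℝ) * (Nat.card ↥(Subgroup.centralizer ({g} : Set G)) : ℝ)) / N := by
  classical
  set f : Cfsg.IrrCharacter G → ℝ := fun χ =>
    if N ≤ ‖(χ : G → ℂ) 1‖ then ‖(χ : G → ℂ) g‖ / ‖(χ : G → ℂ) 1‖ else 0 with hf
  have hRHS : 0 ≤ Real.sqrt ((Nat.card (ConjClasses G) : ℝ) *
      (Nat.card ↥(Subgroup.centralizer ({g} : Set G)) : ℝ)) / N :=
    div_nonneg (Real.sqrt_nonneg _) hN.le
  by_cases hfin : (Function.support f).Finite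
  · rw [finsum_eq_sum_of_support_subset f (s := hfin.toFinset) (by simp)]
    set F := hfin.toFinset
    have h1 : ∑ χ ∈ F, f χ ≤ ∑ χ ∈ F, ‖(χ : G → ℂ) g‖ / N := by
      refine Finset.sum_le_sum fun χ _ => ?_
      simp only [hf]
      split_ifs with h
      · exact div_le_div_of_nonneg_left (norm_nonneg _) hN h
      · exact div_nonneg (norm_nonneg _) hN.le
    have h2 : (∑ χ ∈ F, ‖(χ : G → ℂ) g‖) ^ 2 ≤
        (F.card : ℝ) * ∑ χ ∈ F, ‖(χ : G → ℂ) g‖ ^ 2 := sq_sum_le_card_mul_sum_sq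
    have h3 : ∑ χ ∈ F, ‖(χ : G → ℂ) g‖ ≤ Real.sqrt ((Nat.card (ConjClasses G) : ℝ) *
        (Nat.card ↥(Subgroup.centralizer ({g} : Set G)) : ℝ)) := by
      apply Real.le_sqrt_of_sq_le
      calc (∑ χ ∈ F, ‖(χ : G → ℂ) g‖) ^ 2
          ≤ (F.card : ℝ) * ∑ χ ∈ F, ‖(χ : G → ℂ) g‖ ^ 2 := h2
        _ ≤ (Nat.card (ConjClasses G) : ℝ) *
            (Nat.card ↥(Subgroup.centralizer ({g} : Set G)) : ℝ) :=
          mul_le_mul (Nat.cast_le.2 (Cfsg.Agent.Helper82.card_le_conjClasses F))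
            (Cfsg.Agent.Helper82.sum_normSq_le F g)
            (Finset.sum_nonneg fun χ _ => sq_nonneg _) (Nat.cast_nonneg _)
    calc ∑ χ ∈ F, f χ ≤ ∑ χ ∈ F, ‖(χ : G → ℂ) g‖ / N := h1
      _ = (∑ χ ∈ F, ‖(χ : G → ℂ) g‖) / N := (Finset.sum_div _ _ _).symm
      _ ≤ _ := div_le_div_of_nonneg_right h3 hN.le
  · rw [finsum_of_infinite_support hfin]
    exact hRHS

end Cfsg.Agent.S4969
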