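import Cfsg.Statements.S4989
import Cfsg.Agent.Helper75.Zeros2

set_option autoImplicit false
open Cfsg

namespace Cfsg.Agent.S4989

/-- Let H be a subgroup of the finite group G and χ an irreducible complex character of G. Then the inner product of the restriction of χ to H with itself, (1/#H)·Σ_{h ∈ H} |χ(h)|², is at most 1 + #(Z ∖ H)/#H, where Z is the set of zeros of χ in G. -/
theorem result {G : Type*} [Group G] [Finite G] (H : Subgroup G) (χ : Cfsg.IrrCharacter G) : (Nat.card ↥H : ℝ)⁻¹ * ∑ᶠ h : ↥H, ‖(χ : G → ℂ) h‖ ^ 2 ≤ 1 + (Set.ncard ({x : G | (χ : G → ℂ) x = 0} \ (H : Set G)) : ℝ) / (Nat.card ↥H : ℝ) := by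
  classical
  obtain ⟨χ, n, ρ, hρ, rfl⟩ := χ
  simp only
  have : Fintype G := Fintype.ofFinite G
  have hHpos : (0 : ℝ) < (Nat.card ↥H : ℝ) := by exact_mod_cast Nat.card_pos
  -- rewrite the finsum over H as a sum over a filter of G
  have hfin : ∑ᶠ h : ↥H, ‖ρ.character (h : G)‖ ^ 2 =
      ∑ g ∈ Finset.univ.filter (fun g : G => g ∈ H), ‖ρ.character g‖ ^ 2 := by
    rw [finsum_eq_sum_of_fintype]
    exact (Finset.sum_subtype (Finset.univ.filter (fun g : G => g ∈ H)) (by simp)
      (fun g => ‖ρ.character g‖ ^ 2)).symm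
  have hcardH : (Nat.card ↥H : ℝ) = ((Finset.univ.filter (fun g : G => g ∈ H)).card : ℝ) := by
    rw [Nat.card_eq_fintype_card, Fintype.card_subtype]
  have hncard : Set.ncard ({x : G | ρ.character x = 0} \ (H : Set G)) =
      ((Finset.univ.filter (fun g : G => g ∉ H)).filter (fun g => ρ.character g = 0)).card := by
    rw [← Set.ncard_coe_finset]
    congr 1
    ext x
    simp [and_comm]
  -- Burnside's argument on the complement of H
  have hS : ∀ g ∈ Finset.univ.filter (fun g : G => g ∉ H), ∀ u : (ZMod (Nat.card G))ˣ,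
      Cfsg.Agent.Helper75.upow g u ∈ Finset.univ.filter (fun g : G => g ∉ H) := by
    intro g hg u
    rw [Finset.mem_filter] at hg ⊢
    exact ⟨Finset.mem_univ _, fun h => hg.2 ((Cfsg.Agent.Helper75.upow_mem_iff H g u).mp h)⟩
  have hB := Cfsg.Agent.Helper75.card_filter_le_sum_normSq ρ
    (Finset.univ.filter (fun g : G => g ∉ H)) hS
  have htot := Cfsg.Agent.Helper75.sum_normSq_character ρ hρ
  have hsplit : ∑ g : G, ‖ρ.character g‖ ^ 2 =
      ∑ g ∈ Finset.univ.filter (fun g : G => g ∈ H), ‖ρ.character g‖ ^ 2 +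
      ∑ g ∈ Finset.univ.filter (fun g : G => g ∉ H), ‖ρ.character g‖ ^ 2 :=
    (Finset.sum_filter_add_sum_filter_not Finset.univ (fun g : G => g ∈ H) _).symm
  have hc1 : ((Finset.univ.filter (fun g : G => g ∉ H)).filter (fun g => ρ.character g ≠ 0)).card +
      ((Finset.univ.filter (fun g : G => g ∉ H)).filter (fun g => ρ.character g = 0)).card =
      (Finset.univ.filter (fun g : G => g ∉ H)).card := by
    rw [add_comm]
    exact Finset.card_filter_add_card_filter_not (s := Finset.univ.filter (fun g : G => g ∉ H))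
      (fun g => ρ.character g = 0)
  have hc2 : (Finset.univ.filter (fun g : G => g ∈ H)).card +
      (Finset.univ.filter (fun g : G => g ∉ H)).card = Fintype.card G := by
    rw [Finset.card_filter_add_card_filter_not, Finset.card_univ]
  rw [hfin, hncard, hcardH]
  rw [hcardH] at hHpos
  rw [inv_mul_eq_div, div_le_iff₀ hHpos, add_mul, one_mul, div_mul_cancel₀ _ hHpos.ne']
  have hc1' := congrArg (Nat.cast (R := ℝ)) hc1
  have hc2' := congrArg (Nat.cast (R := ℝ)) hc2
  push_cast at hc1' hc2'
  rw [Nat.card_eq_fintype_card] at htot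
  linarith

end Cfsg.Agent.S4989
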