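import Cfsg.Statements.S5001
import Cfsg.Agent.Helper80.HeightZeroLin

set_option autoImplicit false
open Cfsg

namespace Cfsg.Agent.S5001

open Cfsg.Agent.Helper80
open scoped ComplexConjugate

/-- Let p be a prime, G a finite group and B a p-block of G (relative to a maximal ideal M of the algebraic integers containing p) with defect group D. Let Z be a central p-subgroup of G contained in D and λ a linear character of Z (a homomorphism to the nonzero complex numbers). Say an irreducible character χ of G lies over λ when χ(z) = χ(1)λ(z) for all z ∈ Z. If some irreducible character in B lying over λ has height zero, then λ extends to a linear character of D. -/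
theorem result {G : Type*} [Group G] [Finite G] (p : ℕ) [Fact p.Prime] (M : Ideal Cfsg.AlgInt) (hM : Cfsg.IsPModular p M) (B : Set (Cfsg.IrrCharacter G)) (hB : Cfsg.IsPBlock M B) (D : Subgroup G) (hD : Cfsg.IsDefectGroup p M B D) (Z : Subgroup G) (hZc : Z ≤ Subgroup.center G) (hZp : IsPGroup p ↥Z) (hZD : Z ≤ D) (lam : ↥Z →* ℂˣ) (χ : Cfsg.IrrCharacter G) (hχ : χ ∈ B) (hover : (∀ z : ↥Z, (χ : G → ℂ) z = (χ : G → ℂ) 1 * (lam z : ℂ))) (h0 : Cfsg.blockHeight p B (χ : G → ℂ) = 0) : (∃ μ : ↥D →* ℂˣ, ∀ z : ↥Z, μ ⟨(z : G), hZD z.2⟩ = lam z) := by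
  classical
  have hDdata : ∃ g : G, IsDefectClass M B g ∧ IsPGroup p D ∧ ∀ d ∈ D, d * g = g * d := by
    obtain ⟨g, hg, P, hP⟩ := hD
    refine ⟨g, hg, ?_, ?_⟩
    · rw [hP]
      exact P.isPGroup'.map _
    · intro d hd
      rw [hP] at hd
      obtain ⟨c, -, rfl⟩ := Subgroup.mem_map.mp hd
      exact (Subgroup.mem_centralizer_iff.mp c.2 g rfl).symm
  obtain ⟨g, hg, hDp, hDg⟩ := hDdata
  -- `χ` is a local unit at `g`
  have hχg : ¬ MemLocalIdeal M ((χ : G → ℂ) g) := by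
    have h1 := Cfsg.Agent.Helper16.height_zero_not_memLocalIdeal hM hB hg (x := 1)
      ⟨0, by simp⟩ (Commute.one_left g) hχ h0
    rwa [one_mul] at h1
  -- central elements act as scalars
  have hscal : ∀ (z : Z) (x : G), (χ : G → ℂ) ((z : G) * x) = (lam z : ℂ) * (χ : G → ℂ) x := by
    intro z x
    obtain ⟨n, ρ, hirr, hρ⟩ := χ.2
    haveI := hirr
    obtain ⟨c, hc⟩ := Cfsg.Agent.Helper15.rep_central_scalar ρ (hZc z.2)
    have h1 := Cfsg.Agent.Helper15.char_of_rep_scalar ρ hc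
    have h2 := hover z
    rw [← hρ] at h2
    rw [h1, Representation.char_one] at h2
    have hn : (Module.finrank ℂ (Fin n → ℂ) : ℂ) ≠ 0 := by
      have := rep_finrank_pos ρ
      exact_mod_cast this.ne'
    have h3 : c = (lam z : ℂ) := by
      have h4 : c * (Module.finrank ℂ (Fin n → ℂ) : ℂ) =
          (lam z : ℂ) * (Module.finrank ℂ (Fin n → ℂ) : ℂ) := by rw [h2, mul_comm]
      exact mul_right_cancel₀ hn h4
    rw [← hρ, Cfsg.Agent.Helper15.char_mul_of_rep_scalar ρ hc x, h3]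
  -- the product group
  letI : Fintype D := Fintype.ofFinite D
  letI : Fintype (Subgroup.zpowers g) := Fintype.ofFinite _
  have hC : ∀ a b : Subgroup.zpowers g, a * b = b * a := by
    intro a b
    obtain ⟨i, hi⟩ := Subgroup.mem_zpowers_iff.mp a.2
    obtain ⟨j, hj⟩ := Subgroup.mem_zpowers_iff.mp b.2
    apply Subtype.ext
    rw [Subgroup.coe_mul, Subgroup.coe_mul, ← hi, ← hj, ← zpow_add, ← zpow_add, add_comm]
  have hcomm : ∀ (d : D) (c : Subgroup.zpowers g), Commute (D.subtype d)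
      ((Subgroup.zpowers g).subtype c) := by
    intro d c
    obtain ⟨i, hi⟩ := Subgroup.mem_zpowers_iff.mp c.2
    show Commute (d : G) (c : G)
    rw [← hi]
    exact Commute.zpow_right (hDg d d.2) i
  obtain ⟨f, hf⟩ : ∃ f : D × Subgroup.zpowers g →* G, ∀ x, f x = (x.1 : G) * (x.2 : G) :=
    ⟨MonoidHom.noncommCoprod D.subtype (Subgroup.zpowers g).subtype hcomm, fun x => rfl⟩
  have hF : IsCharacter (D × Subgroup.zpowers g) (fun x => (χ : G → ℂ) (f x)) :=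
    Cfsg.Agent.Helper79.isCharacter_comp (isCharacter_of_irr χ.2) f
  have hF1 : ¬ MemLocalIdeal M ((fun x => (χ : G → ℂ) (f x))
      ((1 : D), (⟨g, Subgroup.mem_zpowers g⟩ : Subgroup.zpowers g))) := by
    show ¬ MemLocalIdeal M ((χ : G → ℂ) (f ((1 : D), (⟨g, Subgroup.mem_zpowers g⟩ :
      Subgroup.zpowers g))))
    rw [hf]
    simpa using hχg
  obtain ⟨μ, ξ, hne⟩ := exists_linear_of_not_memLocalIdeal hC hDp hM _ hF _ hF1
  refine ⟨μ, fun z => ?_⟩
  unfold classInner at hne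
  have hS := right_ne_zero_of_mul hne
  have hre : ∑ x : D × Subgroup.zpowers g, (χ : G → ℂ) (f x) *
      conj (((μ x.1 : ℂˣ) : ℂ) * (ξ : Subgroup.zpowers g → ℂ) x.2) =
      ((lam z : ℂ) * conj ((μ ⟨(z : G), hZD z.2⟩ : ℂˣ) : ℂ)) *
      ∑ x : D × Subgroup.zpowers g, (χ : G → ℂ) (f x) *
      conj (((μ x.1 : ℂˣ) : ℂ) * (ξ : Subgroup.zpowers g → ℂ) x.2) := by
    rw [Finset.mul_sum]
    rw [← Equiv.sum_comp ((Equiv.mulLeft (⟨(z : G), hZD z.2⟩ : D)).prodCongr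
      (Equiv.refl (Subgroup.zpowers g)))]
    apply Finset.sum_congr rfl
    intro x _
    obtain ⟨d, c⟩ := x
    show (χ : G → ℂ) (f ((⟨(z : G), hZD z.2⟩ : D) * d, c)) *
      conj (((μ ((⟨(z : G), hZD z.2⟩ : D) * d) : ℂˣ) : ℂ) * (ξ : Subgroup.zpowers g → ℂ) c) =
      (lam z : ℂ) * conj ((μ ⟨(z : G), hZD z.2⟩ : ℂˣ) : ℂ) * ((χ : G → ℂ) (f (d, c)) *
      conj (((μ d : ℂˣ) : ℂ) * (ξ : Subgroup.zpowers g → ℂ) c))
    rw [hf, hf]
    show (χ : G → ℂ) ((((⟨(z : G), hZD z.2⟩ : D) * d : D) : G) * (c : G)) * _ = _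
    rw [Subgroup.coe_mul]
    show (χ : G → ℂ) ((z : G) * (d : G) * (c : G)) * _ = _
    rw [mul_assoc (z : G), hscal z, map_mul μ, Units.val_mul, map_mul, map_mul, map_mul]
    ring
  have h1 : (lam z : ℂ) * conj ((μ ⟨(z : G), hZD z.2⟩ : ℂˣ) : ℂ) = 1 := by
    have h2 : ((lam z : ℂ) * conj ((μ ⟨(z : G), hZD z.2⟩ : ℂˣ) : ℂ) - 1) *
        ∑ x : D × Subgroup.zpowers g, (χ : G → ℂ) (f x) *
        conj (((μ x.1 : ℂˣ) : ℂ) * (ξ : Subgroup.zpowers g → ℂ) x.2) = 0 := by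
      rw [sub_mul, one_mul, ← hre, sub_self]
    rcases mul_eq_zero.mp h2 with h3 | h3
    · exact sub_eq_zero.mp h3
    · exact absurd h3 hS
  have hnorm : ((μ ⟨(z : G), hZD z.2⟩ : ℂˣ) : ℂ) * conj ((μ ⟨(z : G), hZD z.2⟩ : ℂˣ) : ℂ) = 1 := by
    have h2 : ((μ ⟨(z : G), hZD z.2⟩ : ℂˣ) : ℂ) ^ orderOf (⟨(z : G), hZD z.2⟩ : D) = 1 := by
      rw [← Units.val_pow_eq_pow_val, ← map_pow, pow_orderOf_eq_one, map_one, Units.val_one]
    have h3 : ‖((μ ⟨(z : G), hZD z.2⟩ : ℂˣ) : ℂ)‖ = 1 :=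
      Complex.norm_eq_one_of_pow_eq_one h2 (orderOf_pos _).ne'
    rw [Complex.mul_conj, Complex.normSq_eq_norm_sq, h3]
    simp
  apply Units.ext
  have h4 : ((μ ⟨(z : G), hZD z.2⟩ : ℂˣ) : ℂ) =
      ((μ ⟨(z : G), hZD z.2⟩ : ℂˣ) : ℂ) * ((lam z : ℂ) * conj ((μ ⟨(z : G), hZD z.2⟩ : ℂˣ) : ℂ)) := by
    rw [h1, mul_one]
  rw [h4]
  linear_combination (lam z : ℂ) * hnorm

end Cfsg.Agent.S5001
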