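import Cfsg.Statements.S5011

set_option autoImplicit false
open Cfsg

namespace Cfsg.Agent.S5011

/-- The elements whose image under `ρ` commutes with the whole image of `ρ`. -/
def commSub {G : Type*} [Group G] {V : Type*} [AddCommGroup V] [Module ℂ V]
    (ρ : Representation ℂ G V) : Subgroup G where
  carrier := {x | ∀ y : G, ρ x * ρ y = ρ y * ρ x}
  mul_mem' := by
    intro a b ha hb y
    simp only [Set.mem_setOf_eq] at ha hb
    rw [map_mul, mul_assoc, hb y, ← mul_assoc, ha y, mul_assoc]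
  one_mem' := by
    intro y
    simp
  inv_mem' := by
    intro a ha y
    simp only [Set.mem_setOf_eq] at ha
    have h1 : ρ a⁻¹ * ρ a = 1 := by rw [← map_mul]; simp
    have h2 : ρ a * ρ a⁻¹ = 1 := by rw [← map_mul]; simp
    calc ρ a⁻¹ * ρ y = ρ a⁻¹ * ρ y * (ρ a * ρ a⁻¹) := by rw [h2, mul_one]
      _ = ρ a⁻¹ * (ρ y * ρ a) * ρ a⁻¹ := by simp only [mul_assoc]
      _ = ρ a⁻¹ * (ρ a * ρ y) * ρ a⁻¹ := by rw [ha y]
      _ = (ρ a⁻¹ * ρ a) * ρ y * ρ a⁻¹ := by simp only [mul_assoc]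
      _ = ρ y * ρ a⁻¹ := by rw [h1, one_mul]

instance commSub_normal {G : Type*} [Group G] {V : Type*} [AddCommGroup V] [Module ℂ V]
    (ρ : Representation ℂ G V) : (commSub ρ).Normal := by
  constructor
  intro n hn g y
  have hn' : ∀ y : G, ρ n * ρ y = ρ y * ρ n := hn
  have h1 : ρ g⁻¹ * ρ g = 1 := by rw [← map_mul]; simp
  have h2 : ρ g * ρ g⁻¹ = 1 := by rw [← map_mul]; simp
  have key := hn' (g⁻¹ * y * g)
  simp only [map_mul] at key ⊢
  calc ρ g * ρ n * ρ g⁻¹ * ρ y = ρ g * (ρ n * (ρ g⁻¹ * ρ y * ρ g)) * ρ g⁻¹ := by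
        simp only [mul_assoc]; rw [h2, mul_one]
    _ = ρ g * ((ρ g⁻¹ * ρ y * ρ g) * ρ n) * ρ g⁻¹ := by rw [key]
    _ = (ρ g * ρ g⁻¹) * ρ y * (ρ g * ρ n * ρ g⁻¹) := by simp only [mul_assoc]
    _ = ρ y * (ρ g * ρ n * ρ g⁻¹) := by rw [h2, one_mul]

theorem result {G : Type*} [Group G] [Finite G] [IsSimpleGroup G]
    (hG : ¬ IsMulCommutative G) {V : Type*} [AddCommGroup V] [Module ℂ V] [FiniteDimensional ℂ V]
    (ρ : Representation ℂ G V)
    (hirr : ∀ W : Submodule ℂ V, (∀ x : G, ∀ v ∈ W, ρ x v ∈ W) → W = ⊥ ∨ W = ⊤)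
    (hdim : 1 < Module.finrank ℂ V) (g : G) (hg : g ≠ 1) :
    ∃ W : Submodule ℂ V, W ≠ ⊥ ∧ W ≠ ⊤ ∧ ∀ c ∈ Subgroup.centralizer ({g} : Set G), ∀ v ∈ W, ρ c v ∈ W := by
  haveI : Nontrivial V := Module.nontrivial_of_finrank_pos (R := ℂ) (by omega)
  -- Schur: an element commuting with the whole image acts as a scalar
  have schur : ∀ x : G, (∀ y : G, ρ x * ρ y = ρ y * ρ x) → ∃ μ : ℂ, ∀ v : V, ρ x v = μ • v := by
    intro x hx
    obtain ⟨μ, hμ⟩ := Module.End.exists_eigenvalue (ρ x)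
    refine ⟨μ, ?_⟩
    have hinv : ∀ y : G, ∀ v ∈ Module.End.eigenspace (ρ x) μ, ρ y v ∈ Module.End.eigenspace (ρ x) μ := by
      intro y v hv
      rw [Module.End.mem_eigenspace_iff] at hv ⊢
      have := congrArg (fun f : V →ₗ[ℂ] V => f v) (hx y)
      simp only [Module.End.mul_apply] at this
      rw [this, hv, map_smul]
    rcases hirr _ hinv with h | h
    · exact absurd h hμ
    · intro v
      have : v ∈ Module.End.eigenspace (ρ x) μ := by rw [h]; trivial
      exact Module.End.mem_eigenspace_iff.mp this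
  obtain ⟨μ, hμ⟩ := Module.End.exists_eigenvalue (ρ g)
  refine ⟨Module.End.eigenspace (ρ g) μ, hμ, ?_, ?_⟩
  · intro htop
    -- ρ g is the scalar μ
    have hgs : ∀ v : V, ρ g v = μ • v := by
      intro v
      have : v ∈ Module.End.eigenspace (ρ g) μ := by rw [htop]; trivial
      exact Module.End.mem_eigenspace_iff.mp this
    have hgN : g ∈ commSub ρ := by
      intro y
      ext v
      simp only [Module.End.mul_apply]
      rw [hgs, hgs, map_smul]
    have hN : commSub ρ = ⊤ := by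
      rcases (commSub_normal ρ).eq_bot_or_eq_top with h | h
      · rw [h, Subgroup.mem_bot] at hgN
        exact absurd hgN hg
      · exact h
    have hall : ∀ x : G, ∃ μ : ℂ, ∀ v : V, ρ x v = μ • v := by
      intro x
      apply schur x
      have : x ∈ commSub ρ := by rw [hN]; trivial
      exact this
    obtain ⟨v, hv⟩ := exists_ne (0 : V)
    have hinv : ∀ x : G, ∀ w ∈ Submodule.span ℂ ({v} : Set V), ρ x w ∈ Submodule.span ℂ ({v} : Set V) := by
      intro x w hw
      obtain ⟨ν, hν⟩ := hall x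
      rw [hν]
      exact Submodule.smul_mem _ _ hw
    rcases hirr _ hinv with h | h
    · rw [Submodule.span_singleton_eq_bot] at h
      exact hv h
    · have h1 : Module.finrank ℂ (Submodule.span ℂ ({v} : Set V)) = 1 := finrank_span_singleton hv
      rw [h] at h1
      rw [finrank_top] at h1
      omega
  · intro c hc v hv
    rw [Module.End.mem_eigenspace_iff] at hv ⊢
    have hcg : g * c = c * g := by
      rw [Subgroup.mem_centralizer_iff] at hc
      exact hc g (Set.mem_singleton g)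
    have h1 : ρ g (ρ c v) = ρ (g * c) v := by rw [map_mul]; rfl
    have h2 : ρ c (ρ g v) = ρ (c * g) v := by rw [map_mul]; rfl
    rw [h1, hcg, ← h2, hv, map_smul]

end Cfsg.Agent.S5011
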