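import Cfsg.Statements.S5075
import Cfsg.Agent.Helper71.McLCore
import Cfsg.Agent.Helper80.McLM
import Cfsg.Agent.Helper80.McLT
import Cfsg.Agent.Helper46.McLU
import Cfsg.Agent.Helper25.McLN
import Cfsg.Agent.Helper19.McLO
import Cfsg.Agent.Helper47.McLP
import Cfsg.Agent.Helper73.McLQ
import Cfsg.Agent.Helper73.McLX
import Cfsg.Agent.Helper52.McLY
import Cfsg.Agent.Helper20.McLS
import Cfsg.Agent.Helper58.McLZ
import Cfsg.Agent.Helper46.McLZ0

set_option autoImplicit false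
open Cfsg

namespace Cfsg.Agent.S5075

open Module Cfsg.Agent.Helper71.McL in
/-- The fixed space of the transvection system of `HW H W` is the fixed space of the group. -/
theorem fix_eq {p : ℕ} [Fact p.Prime] {V : Type*} [AddCommGroup V] [Module (ZMod p) V]
    (H : Subgroup (V ≃ₗ[ZMod p] V)) (W : Submodule (ZMod p) V) (S : TSys (ZMod p) V)
    (hS : ∀ (φ : Dual (ZMod p) V) (v : V), S.Θ φ v ↔ TV (HW H W) φ v) :
    S.Fix = FixG (HW H W) := by
  apply le_antisymm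
  · intro x hx
    rw [mem_FixG]
    intro g hg
    unfold HW at hg
    induction hg using Subgroup.closure_induction with
    | mem g hg =>
      obtain ⟨hgH, φ, v, hvW, hφv, hgx⟩ := hg
      have hTV : TV (HW H W) φ v :=
        ⟨hφv, g, Subgroup.subset_closure ⟨hgH, φ, v, hvW, hφv, hgx⟩, hgx⟩
      have h0 := hx φ v ((hS φ v).mpr hTV)
      rw [hgx, h0, add_zero]
    | one => rfl
    | mul a b _ _ iha ihb => rw [LinearEquiv.mul_apply, ihb, iha]
    | inv a _ iha =>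
      have h1 : a⁻¹ (a x) = x := by
        change a.symm (a x) = x
        exact a.symm_apply_apply x
      rw [iha] at h1
      exact h1
  · intro x hx φ v hΘ
    obtain ⟨hφv, g, hg, hgx⟩ := (hS φ v).mp hΘ
    have h0 := hx g hg
    rw [hgx] at h0
    exact add_eq_left.mp h0


/-- Let p be an odd prime, V a finite-dimensional vector space over the field with p elements, and H a group of linear automorphisms of V generated by transvections (elements of order p fixing a hyperplane pointwise) and having no nontrivial normal p-subgroup. Then for some n ≥ 1 there are a decomposition V = V₀ ⊕ V₁ ⊕ ⋯ ⊕ Vₙ into H-invariant subspaces and a decomposition of H as the internal direct product of normal subgroups H₁, …, Hₙ such that Hⱼ acts trivially on every Vᵢ with i ≠ j, and Hⱼ induces on Vⱼ exactly the special linear group of Vⱼ or exactly the isometry group of a non-degenerate alternating form on Vⱼ. -/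
theorem result {p : ℕ} [Fact p.Prime] (hp : Odd p) {V : Type*} [AddCommGroup V] [Module (ZMod p) V] [Finite V]
    (H : Subgroup (V ≃ₗ[ZMod p] V)) (T : Set (V ≃ₗ[ZMod p] V)) (hHT : H = Subgroup.closure T)
    (hT : ∀ t ∈ T, orderOf t = p ∧
      Module.finrank (ZMod p) ↥(LinearMap.ker ((t : V →ₗ[ZMod p] V) - LinearMap.id)) + 1 =
        Module.finrank (ZMod p) V)
    (hOp : Cfsg.pCore p ↥H = ⊥) :
    ∃ (n : ℕ) (W : Fin (n + 1) → Submodule (ZMod p) V) (K : Fin n → Subgroup (V ≃ₗ[ZMod p] V)),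
      1 ≤ n ∧ DirectSum.IsInternal W ∧
      (∀ h ∈ H, ∀ i, (W i).map (h : V →ₗ[ZMod p] V) = W i) ∧
      (∀ j, K j ≤ H ∧ ((K j).subgroupOf H).Normal) ∧ ⨆ j, K j = H ∧
      (∀ j, K j ⊓ (⨆ j' ∈ {j' : Fin n | j' ≠ j}, K j') = ⊥) ∧
      (∀ j j', j ≠ j' → ∀ a ∈ K j, ∀ b ∈ K j', a * b = b * a) ∧
      (∀ j, ∀ h ∈ K j, ∀ i : Fin (n + 1), i ≠ j.succ → ∀ v ∈ W i, h v = v) ∧
      (∀ j, ∃ ρ : ↥(K j) →* (↥(W j.succ) ≃ₗ[ZMod p] ↥(W j.succ)),
        (∀ (h : ↥(K j)) (v : ↥(W j.succ)), ((ρ h v : ↥(W j.succ)) : V) = (h : V ≃ₗ[ZMod p] V) (v : V)) ∧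
        ((ρ.range : Set (↥(W j.succ) ≃ₗ[ZMod p] ↥(W j.succ))) =
            {f : ↥(W j.succ) ≃ₗ[ZMod p] ↥(W j.succ) | LinearMap.det (f : ↥(W j.succ) →ₗ[ZMod p] ↥(W j.succ)) = 1} ∨
          ∃ B : LinearMap.BilinForm (ZMod p) ↥(W j.succ), B.IsAlt ∧ B.Nondegenerate ∧
            (ρ.range : Set (↥(W j.succ) ≃ₗ[ZMod p] ↥(W j.succ))) = {f : ↥(W j.succ) ≃ₗ[ZMod p] ↥(W j.succ) | ∀ x y, B (f x) (f y) = B x y})) := by
  classical
  have hfinV : Module.Finite (ZMod p) V := Module.Finite.of_finite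
  have hTtv : ∀ t ∈ T, ∃ (φ : Module.Dual (ZMod p) V) (v : V), φ v = 0 ∧ φ ≠ 0 ∧ v ≠ 0 ∧
      ∀ x : V, t x = x + φ x • v :=
    fun t ht => Cfsg.Agent.Helper80.McL.exists_tv_of_order t (hT t ht).1 (hT t ht).2
  have hTH : ∀ t ∈ T, t ∈ H := fun t ht => by
    rw [hHT]
    exact Subgroup.subset_closure ht
  have hH : Cfsg.Agent.Helper71.McL.TGen H := by
    unfold Cfsg.Agent.Helper71.McL.TGen
    apply le_antisymm
    · conv_lhs => rw [hHT]
      apply Subgroup.closure_mono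
      intro t ht
      obtain ⟨φ, v, h0, -, -, htx⟩ := hTtv t ht
      exact ⟨hTH t ht, φ, v, h0, htx⟩
    · rw [Subgroup.closure_le]
      intro g hg
      exact hg.1
  have hunip := Cfsg.Agent.Helper46.McL.unip H hOp
  obtain ⟨SH, hSH⟩ := Cfsg.Agent.Helper80.McL.exists_tsys H
  have h6 : ∀ W : Submodule (ZMod p) V, Cfsg.Agent.Helper71.McL.InvG H W →
      ∀ (φ : Module.Dual (ZMod p) V) (v : V), Cfsg.Agent.Helper71.McL.TV H φ v → φ ≠ 0 → v ≠ 0 →
      (v ∈ W ∧ Cfsg.Agent.Helper71.McL.TV (Cfsg.Agent.Helper71.McL.HW H W) φ v) ∨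
        (v ∈ Cfsg.Agent.Helper71.McL.FixG (Cfsg.Agent.Helper71.McL.HW H W) ∧
          ∀ x ∈ W, φ x = 0) :=
    fun W hW φ v h hφ hv =>
      Cfsg.Agent.Helper19.McL.tv_centre_cases H hunip W hW SH hSH φ v h hφ hv
  have h2ne : (2 : ZMod p) ≠ 0 := by
    intro h
    have h' : ((2 : ℕ) : ZMod p) = 0 := by exact_mod_cast h
    rw [ZMod.natCast_eq_zero_iff] at h'
    have hp2 : p = 2 := (Nat.prime_dvd_prime_iff_eq Fact.out Nat.prime_two).mp h'
    rw [hp2] at hp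
    exact absurd hp (by decide)
  have hblock : ∀ W : Submodule (ZMod p) V, Cfsg.Agent.Helper71.McL.IsBlock H W →
      IsCompl W (Cfsg.Agent.Helper71.McL.FixG (Cfsg.Agent.Helper71.McL.HW H W)) ∧
      (∃ S : Cfsg.Agent.Helper71.McL.TSys (ZMod p) V,
        (∀ (φ : Module.Dual (ZMod p) V) (v : V),
          S.Θ φ v ↔ Cfsg.Agent.Helper71.McL.TV (Cfsg.Agent.Helper71.McL.HW H W) φ v) ∧
        S.Good W) ∧
      ∃ ρ : ↥(Cfsg.Agent.Helper71.McL.HW H W) →* (↥W ≃ₗ[ZMod p] ↥W),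
        (∀ (h : ↥(Cfsg.Agent.Helper71.McL.HW H W)) (v : ↥W),
          ((ρ h v : ↥W) : V) = (h : V ≃ₗ[ZMod p] V) (v : V)) ∧
        ((ρ.range : Set (↥W ≃ₗ[ZMod p] ↥W)) =
            {f : ↥W ≃ₗ[ZMod p] ↥W | LinearMap.det (f : ↥W →ₗ[ZMod p] ↥W) = 1} ∨
          ∃ B : LinearMap.BilinForm (ZMod p) ↥W, B.IsAlt ∧ B.Nondegenerate ∧
            (ρ.range : Set (↥W ≃ₗ[ZMod p] ↥W)) =
              {f : ↥W ≃ₗ[ZMod p] ↥W | ∀ x y, B (f x) (f y) = B x y}) := by
    intro W hW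
    obtain ⟨S, hS⟩ := Cfsg.Agent.Helper80.McL.exists_tsys (Cfsg.Agent.Helper71.McL.HW H W)
    have hG := Cfsg.Agent.Helper25.McL.block_good H hH hunip W hW S hS
    have hfix := fix_eq H W S hS
    obtain ⟨hc, halt⟩ := Cfsg.Agent.Helper71.McL.core h2ne S W hG
    rw [hfix] at hc
    refine ⟨hc, ⟨S, hS, hG⟩, ?_⟩
    have hinvK : Cfsg.Agent.Helper71.McL.InvG (Cfsg.Agent.Helper71.McL.HW H W) W :=
      fun g hg x hx => hW.1 g (Cfsg.Agent.Helper25.McL.mclN_HW_le H W hg) x hx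
    obtain ⟨ρ, hρ⟩ := Cfsg.Agent.Helper73.McL.exists_rho (Cfsg.Agent.Helper71.McL.HW H W) W hinvK
    refine ⟨ρ, hρ, ?_⟩
    rcases halt with hsl | ⟨β, hβ0, hβ⟩
    · left
      refine Cfsg.Agent.Helper52.McL.range_sl H W
        (Cfsg.Agent.Helper71.McL.good_finrank S W hG) hc ?_ ρ hρ
      intro v hv φ hφv hφc
      exact (hS φ v).mp (hsl v hv φ hφv (by rw [hfix]; exact hφc))
    · right
      refine Cfsg.Agent.Helper20.McL.range_sp H W β ?_ ?_ ρ hρ
      · intro v hv hv0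
        have hΘ : S.Θ (β v) v := (hβ v hv hv0 (β v)).mpr ⟨1, (one_smul _ _).symm⟩
        exact hG.not_type2 (β v) v hΘ (hβ0 v hv hv0) hv0
      · intro v hv hv0 φ
        rw [← hS φ v]
        exact hβ v hv hv0 φ
  have hcentre : ∀ (φ : Module.Dual (ZMod p) V) (v : V), Cfsg.Agent.Helper71.McL.TV H φ v →
      φ ≠ 0 → v ≠ 0 → ∃ W : Submodule (ZMod p) V, Cfsg.Agent.Helper71.McL.IsBlock H W ∧ v ∈ W :=
    fun φ v h hφ hv =>
      Cfsg.Agent.Helper47.McL.exists_block H hunip (fun W hW => h6 W hW.1)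
        (fun W hW => (hblock W hW).1.disjoint) φ v h hφ hv
  by_cases hTe : T = ∅
  · apply Cfsg.Agent.Helper46.McL.pack_trivial H
    rw [hHT, hTe, Subgroup.closure_empty]
  let 𝔅 : Set (Submodule (ZMod p) V) := {W | Cfsg.Agent.Helper71.McL.IsBlock H W}
  have hfinS : Finite (Submodule (ZMod p) V) :=
    Finite.of_injective (fun W : Submodule (ZMod p) V => (W : Set V)) SetLike.coe_injective
  have hfin : Finite 𝔅 := Subtype.finite
  have hne : Nonempty 𝔅 := by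
    obtain ⟨t, ht⟩ := Set.nonempty_iff_ne_empty.mpr hTe
    obtain ⟨φ, v, h0, hφ, hv, htx⟩ := hTtv t ht
    obtain ⟨W, hW, -⟩ := hcentre φ v ⟨h0, t, hTH t ht, htx⟩ hφ hv
    exact ⟨⟨W, hW⟩⟩
  have hm : 1 ≤ Nat.card 𝔅 := Nat.card_pos
  let e : Fin (Nat.card 𝔅) ≃ 𝔅 := (Finite.equivFin 𝔅).symm
  let W : Fin (Nat.card 𝔅 + 1) → Submodule (ZMod p) V :=
    Fin.cons (Cfsg.Agent.Helper71.McL.FixG H) (fun j => (e j).1)
  have hWs : ∀ j : Fin (Nat.card 𝔅), W j.succ = (e j).1 := fun j => rfl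
  have hWb : ∀ j : Fin (Nat.card 𝔅), Cfsg.Agent.Helper71.McL.IsBlock H (W j.succ) :=
    fun j => by rw [hWs]; exact (e j).2
  refine Cfsg.Agent.Helper58.McL.pack H T hHT (Nat.card 𝔅) hm W rfl (fun j => (hWb j).1)
    (fun j => (hblock _ (hWb j)).1) ?_ ?_ (fun j => (hblock _ (hWb j)).2.2)
  · intro j k hjk
    obtain ⟨S', hS', hG'⟩ := (hblock _ (hWb k)).2.1
    refine Cfsg.Agent.Helper73.McL.block_le_fix H (W j.succ) (W k.succ) (hWb j) (hWb k) ?_
      (h6 _ (hWb j).1) S' hS' hG'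
    intro heq
    apply hjk
    rw [hWs, hWs] at heq
    exact e.injective (Subtype.ext heq)
  · intro t ht
    obtain ⟨φ, v, h0, hφ, hv, htx⟩ := hTtv t ht
    obtain ⟨W', hW', hvW'⟩ := hcentre φ v ⟨h0, t, hTH t ht, htx⟩ hφ hv
    obtain ⟨j, hj⟩ := e.surjective ⟨W', hW'⟩
    refine ⟨j, ?_⟩
    rw [hWs, hj]
    exact Subgroup.subset_closure ⟨hTH t ht, φ, v, hvW', h0, htx⟩

end Cfsg.Agent.S5075
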