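import Cfsg.Statements.S5125
import Cfsg.Agent.Helper85.Normal2

set_option autoImplicit false
open Cfsg

namespace Cfsg.Agent.S5125

open Cfsg.FusionSystem Cfsg.Agent.Helper85
open scoped commutatorElement

variable {Ω : Type*} [Group Ω]

/-- automorphisms of `U` acting trivially modulo `Q` and, on `U ∩ Q`, modulo `Q₁` -/
def KSub (Q Q₁ : Subgroup Ω) (h : Q₁ ≤ Q) (U : Subgroup Ω) : Subgroup (MulAut U) where
  carrier := {γ | γ ∈ stabMod U Q ∧ ∀ x : U, (x : Ω) ∈ Q → (x : Ω)⁻¹ * ((γ x : U) : Ω) ∈ Q₁}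
  one_mem' := ⟨Subgroup.one_mem _, fun x _ => by simp⟩
  mul_mem' := by
    rintro a b ⟨hs₁, h₁⟩ ⟨hs₂, h₂⟩
    refine ⟨Subgroup.mul_mem _ hs₁ hs₂, fun x hx => ?_⟩
    have hbx : ((b x : U) : Ω) ∈ Q := by
      have h3 : ((b x : U) : Ω) = (x : Ω) * ((x : Ω)⁻¹ * ((b x : U) : Ω)) := by group
      rw [h3]
      exact Q.mul_mem hx (h (h₂ x hx))
    have h4 := Q₁.mul_mem (h₂ x hx) (h₁ (b x) hbx)
    have h5 : (x : Ω)⁻¹ * ((b x : U) : Ω) * (((b x : U) : Ω)⁻¹ * ((a (b x) : U) : Ω))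
        = (x : Ω)⁻¹ * (((a * b) x : U) : Ω) := by
      rw [MulAut.mul_apply]
      group
    rwa [h5] at h4
  inv_mem' := by
    rintro a ⟨hs, h₁⟩
    refine ⟨Subgroup.inv_mem _ hs, fun x hx => ?_⟩
    have hax : a (a⁻¹ x) = x := MulEquiv.apply_symm_apply a x
    have hu : ((a⁻¹ x : U) : Ω) ∈ Q := by
      have h1 := hs (a⁻¹ x)
      rw [hax] at h1
      have h2 := Q.mul_mem hx (Q.inv_mem h1)
      have h3 : (x : Ω) * ((((a⁻¹ x : U) : Ω))⁻¹ * (x : Ω))⁻¹ = ((a⁻¹ x : U) : Ω) := by group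
      rwa [h3] at h2
    have h4 := Q₁.inv_mem (h₁ (a⁻¹ x) hu)
    rw [hax] at h4
    have h5 : (((a⁻¹ x : U) : Ω)⁻¹ * (x : Ω))⁻¹ = (x : Ω)⁻¹ * ((a⁻¹ x : U) : Ω) := by group
    rwa [h5] at h4

/-- Let F be a saturated fusion system over a finite p-group S and Q a subgroup strongly closed in F. If Q has a subgroup Q₁ that is normal in F, with Q/Q₁ abelian and Aut_F(Q₁) a p-group, then Q is normal in F. -/
theorem result {Ω : Type*} [Group Ω] {S : Subgroup Ω} [Finite S] (p : ℕ) [Fact p.Prime] (hS : IsPGroup p S) (F : Cfsg.FusionSystem S) (hF : F.IsSaturated p) (Q Q₁ : Subgroup Ω) (hQ : F.StronglyClosed Q) (hQ₁Q : Q₁ ≤ Q) (hQ₁ : F.IsNormal Q₁) (hab : ⁅Q, Q⁆ ≤ Q₁) (hAut : IsPGroup p ↥(F.autGroup Q₁)) : F.IsNormal Q := by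
  have hsc₁ : F.StronglyClosed Q₁ := stronglyClosed_of_isNormal hQ₁
  have hTn : ∀ s ∈ S, ∀ t ∈ Q, s * t * s⁻¹ ∈ Q := fun s hs t ht => stronglyClosed_conj_mem hQ hs ht
  refine isNormal_of_family hS F hF Q hQ (fun U => KSub Q Q₁ hQ₁Q U) ?_ ?_ ?_
  · -- normalized by Aut_F(U)
    rintro U hU δ hδ κ ⟨hκs, hκ⟩
    refine ⟨stabMod_conj_mem hQ hU hδ hκs, fun x hx => ?_⟩
    have huQ : ((δ⁻¹ x : U) : Ω) ∈ Q :=
      (stronglyClosed_aut_mem_iff hQ hU (Subgroup.inv_mem _ hδ) x).2 hx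
    have h1 := hκ (δ⁻¹ x) huQ
    have h2 : ((δ ((δ⁻¹ x)⁻¹ * κ (δ⁻¹ x)) : U) : Ω) ∈ Q₁ :=
      (stronglyClosed_aut_mem_iff hsc₁ hU hδ _).2 h1
    have h3 : δ ((δ⁻¹ x)⁻¹ * κ (δ⁻¹ x)) = x⁻¹ * (δ * κ * δ⁻¹) x := by
      rw [map_mul, map_inv]
      have h4 : δ (δ⁻¹ x) = x := MulEquiv.apply_symm_apply δ x
      rw [h4]
      rfl
    rw [h3] at h2
    exact h2
  · -- contains the automorphisms induced by `N_Q(U)`
    intro U hU g hg hgN
    refine ⟨normalizerMonoidHom_mem_stabMod hU hTn hg hgN, fun x hx => ?_⟩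
    show (x : Ω)⁻¹ * (g * (x : Ω) * g⁻¹) ∈ Q₁
    have h1 : ⁅(x : Ω)⁻¹, g⁆ ∈ ⁅Q, Q⁆ := Subgroup.commutator_mem_commutator (Q.inv_mem hx) hg
    have h2 : ⁅(x : Ω)⁻¹, g⁆ = (x : Ω)⁻¹ * (g * (x : Ω) * g⁻¹) := by
      rw [commutatorElement_def]
      group
    rw [← h2]
    exact hab h1
  · -- `p`-power order
    rintro U hU κ ⟨hκs, hκ⟩ hκA
    obtain ⟨ψ, hψ, hext, himg⟩ := hQ₁.2 U (U.subtype.comp κ.toMonoidHom) ((mem_autGroup_iff F hU).1 hκA)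
    have hle : Q₁ ≤ U ⊔ Q₁ := le_sup_right
    have hψ₁ : ψ.comp (Subgroup.inclusion hle) ∈ F.Hom Q₁ := restrict_mem F hψ hle
    have hrange : (ψ.comp (Subgroup.inclusion hle)).range = Q₁ := by
      ext y
      constructor
      · rintro ⟨x, rfl⟩
        have h1 : ψ (Subgroup.inclusion hle x) ∈ (Q₁.subgroupOf (U ⊔ Q₁)).map ψ := ⟨_, x.2, rfl⟩
        rwa [himg] at h1
      · intro hy
        have h1 : y ∈ (Q₁.subgroupOf (U ⊔ Q₁)).map ψ := by rw [himg]; exact hy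
        obtain ⟨x, hx, rfl⟩ := h1
        exact ⟨⟨x, hx⟩, rfl⟩
    obtain ⟨κ₁, hκ₁, hκ₁v⟩ := exists_isIso_of_hom F hψ₁ hrange
    have hκ₁A : κ₁ ∈ F.autGroup Q₁ := (mem_autGroup_iff F hQ₁.1).2 hκ₁
    obtain ⟨a, ha⟩ := hAut ⟨κ₁, hκ₁A⟩
    have ha' : κ₁ ^ p ^ a = 1 := by
      have := congrArg Subtype.val ha
      simpa using this
    have hagree : ∀ (x : U) (x' : Q₁), (x : Ω) = (x' : Ω) → ((κ x : U) : Ω) = ((κ₁ x' : Q₁) : Ω) := by
      intro x x' hxx'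
      rw [hκ₁v x']
      have h1 := hext x
      have h2 : Subgroup.inclusion (le_sup_left : U ≤ U ⊔ Q₁) x = Subgroup.inclusion hle x' :=
        Subtype.ext hxx'
      rw [h2] at h1
      exact h1.symm
    have hβfix : ∀ x : U, (x : Ω) ∈ Q₁ → (κ ^ p ^ a) x = x := by
      intro x hx
      apply Subtype.ext
      have h1 := pow_agree κ κ₁ hagree (p ^ a) x (⟨(x : Ω), hx⟩ : Q₁) rfl
      rw [h1, ha']
      rfl
    have hκK : κ ∈ KSub Q Q₁ hQ₁Q U := ⟨hκs, hκ⟩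
    have hβK : κ ^ p ^ a ∈ KSub Q Q₁ hQ₁Q U := Subgroup.pow_mem _ hκK _
    have hUfin : Finite U := finite_of_le hU
    have hUp : IsPGroup p U := hS.to_le hU
    obtain ⟨m, hm⟩ := Helper87.pow_eq_one_of_chain U hUp
      {β | β ∈ KSub Q Q₁ hQ₁Q U ∧ ∀ x : U, (x : Ω) ∈ Q₁ → β x = x}
      (fun α hα k => ⟨Subgroup.pow_mem _ hα.1 k, fun x hx => Helper87.aut_pow_fix α x (hα.2 x hx) k⟩)
      (fun i => if i = 0 then Set.univ else if i = 1 then (Q : Set Ω) else if i = 2 then (Q₁ : Set Ω) else {1}) 3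
      (fun x => by simp)
      (fun x hx => by
        have h1 : (x : Ω) = 1 := by simpa using hx
        exact Subtype.ext h1)
      (fun i hi β hβ x hx => by
        interval_cases i
        · simpa using hβ.1.1 x
        · have h1 : (x : Ω) ∈ Q := by simpa using hx
          simpa using hβ.1.2 x h1
        · have h1 : (x : Ω) ∈ Q₁ := by simpa using hx
          rw [hβ.2 x h1]
          simp)
      (κ ^ p ^ a) ⟨hβK, hβfix⟩
    exact ⟨a + m, by rw [pow_add, pow_mul]; exact hm⟩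

end Cfsg.Agent.S5125
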