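import Cfsg.Statements.S5126
import Cfsg.Agent.Helper84.FusionNK
import Cfsg.Agent.Helper88.FusionNormal
import Cfsg.Agent.Helper88.FusionD
import Cfsg.Agent.Helper87.Radical
import Cfsg.Agent.Helper87.NormSys

set_option autoImplicit false
open Cfsg

namespace Cfsg.Agent.S5126

open Cfsg.FusionSystem
open Cfsg.Agent.Helper88

variable {Ω : Type*} [Group Ω] {S : Subgroup Ω}

theorem exists_ext_of_eq (F : FusionSystem S) {V U Q : Subgroup Ω} (hUV : U = V) (hle : V ≤ U)
    {ψ : V →* Ω} (hψ : ψ ∈ F.Hom V) (hQ : (Q.subgroupOf V).map ψ = Q) :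
    ∃ ψ' ∈ F.Hom U, (∀ x : V, ψ' (Subgroup.inclusion hle x) = ψ x) ∧ (Q.subgroupOf U).map ψ' = Q := by
  subst hUV
  exact ⟨ψ, hψ, fun x => rfl, hQ⟩

/-- A map of `F` on a subgroup containing `R`, mapping `R` onto `R` and with values in `N_S(R)`, is a map of
the normalizer system. -/
theorem mem_normalizerSystem_of (F : FusionSystem S) {R : Subgroup Ω}
    (E : FusionSystem (normalizerIn S R)) (hE : F.IsNormalizerSystem R E) {V : Subgroup Ω} (hRV : R ≤ V)
    (hVN : V ≤ normalizerIn S R) {ψ : V →* Ω} (hψ : ψ ∈ F.Hom V) (hψN : ∀ y : V, ψ y ∈ normalizerIn S R)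
    (hQ : (R.subgroupOf V).map ψ = R) : ψ ∈ E.Hom V := by
  rw [hE V]
  exact ⟨hψ, hVN, hψN, exists_ext_of_eq F (sup_eq_left.2 hRV) le_sup_left hψ hQ⟩

/-- In the normalizer system `N_F(R)`, the subgroup `R` is normal. -/
theorem isNormal_normalizerSystem (F : FusionSystem S) {R : Subgroup Ω} (hRS : R ≤ S)
    (E : FusionSystem (normalizerIn S R)) (hE : F.IsNormalizerSystem R E) : E.IsNormal R := by
  have hRN : R ≤ normalizerIn S R := fun x hx => ⟨hRS hx, Subgroup.le_normalizer hx⟩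
  refine ⟨hRN, fun P φ hφ => ?_⟩
  rw [hE P] at hφ
  obtain ⟨hφF, hPN, hφN, ψ, hψ, hψφ, hψR⟩ := hφ
  refine ⟨ψ, ?_, hψφ, hψR⟩
  refine mem_normalizerSystem_of F E hE le_sup_right (sup_le hPN hRN) hψ (fun y => ?_) hψR
  have h1 := Cfsg.Agent.Helper87.normalizerHom_ext_mem hPN (P' := normalizerIn S R) hφN hψφ hψR y
  exact (sup_le le_rfl hRN) h1

/-- The largest normal `p`-subgroup of a model of the normalizer system of a centric radical subgroup `R`
is the image of `R`. -/
theorem model_pCore [Finite S] {p : ℕ} [Fact p.Prime] (hS : IsPGroup p S) (F : FusionSystem S)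
    {R : Subgroup Ω} (hRc : F.IsCentric R) (hRr : F.IsRadical p R)
    (E : FusionSystem (normalizerIn S R)) (hE : F.IsNormalizerSystem R E) (hEn : E.IsNormal R)
    {G : Type*} [Group G] (ι : ↥(normalizerIn S R) →* G) (hM : E.IsModel p G ι) :
    (pCore p G : Subgroup G) = (R.subgroupOf (normalizerIn S R)).map ι := by
  obtain ⟨hfin, ⟨hinj, hreal⟩, ⟨T, hT⟩, hcent⟩ := hM
  have hRS : R ≤ S := hRc.1
  have hRN : R ≤ normalizerIn S R := fun x hx => ⟨hRS hx, Subgroup.le_normalizer hx⟩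
  have hNS : normalizerIn S R ≤ S := inf_le_left
  have hfN : Finite ↥(normalizerIn S R) := Helper88.finite_of_le hNS
  have hfR : Finite R := Helper88.finite_of_le hRS
  have hQn : (pCore p G).Normal := Subgroup.sSup_normal _ (fun _ hH => hH.1)
  have hQT : pCore p G ≤ ι.range := by
    rw [← hT]
    refine sSup_le (fun N hN => ?_)
    have hNn : N.Normal := hN.1
    exact IsPGroup.le_sylow_of_normal hN.2 T
  -- the conjugation action of `N_S(R)` on `R`
  let θ : ↥(normalizerIn S R) →* MulAut R :=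
    R.normalizerMonoidHom.comp (Subgroup.inclusion (inf_le_right : normalizerIn S R ≤ _))
  have hθ : ∀ (n : ↥(normalizerIn S R)) (x : R), ((θ n x : R) : Ω) = (n : Ω) * x * (n : Ω)⁻¹ :=
    fun n x => rfl
  have hθA : ∀ n : ↥(normalizerIn S R), θ n ∈ F.autGroup R := fun n =>
    autInducedBy_le_autGroup F hRS (Cfsg.Agent.Helper84.conjAut_mem_autInducedBy n.2.1 n.2.2)
  -- every element of `Aut_F(R)` is realized in `G`
  have hrealA : ∀ γ ∈ F.autGroup R, ∃ g : G, ∀ x : R,
      ι (Subgroup.inclusion hRN (γ x)) = g * ι (Subgroup.inclusion hRN x) * g⁻¹ := by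
    intro γ hγ
    have hγF : R.subtype.comp γ.toMonoidHom ∈ F.Hom R := by
      obtain ⟨φ, hφ, hφf⟩ := IsMap.of_mem_autGroup hRS hγ
      have : R.subtype.comp γ.toMonoidHom = φ := by
        ext x
        rw [hφf x, autFun_apply]
        rfl
      rw [this]; exact hφ
    have hγE : R.subtype.comp γ.toMonoidHom ∈ E.Hom R := by
      refine mem_normalizerSystem_of F E hE le_rfl hRN hγF (fun y => hRN (γ y).2) ?_
      ext y
      constructor
      · rintro ⟨x, -, rfl⟩
        exact (γ x).2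
      · intro hy
        refine ⟨γ⁻¹ ⟨y, hy⟩, Subgroup.mem_subgroupOf.2 (γ⁻¹ ⟨y, hy⟩).2, ?_⟩
        show ((γ (γ⁻¹ ⟨y, hy⟩) : R) : Ω) = y
        rw [MulAut.apply_inv_self]
    obtain ⟨g, hg⟩ := (hreal R hRN (R.subtype.comp γ.toMonoidHom) (fun x => hRN (γ x).2)).1 hγE
    exact ⟨g, hg⟩
  -- Step 1: the preimage of the core lies in `R`
  have step1 : ∀ n : ↥(normalizerIn S R), ι n ∈ pCore p G → (n : Ω) ∈ R := by
    intro n hn
    have hK₀p : IsPGroup p (((pCore p G).comap ι).map θ) := by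
      apply IsPGroup.map
      have hp : IsPGroup p (pCore p G) := by
        obtain ⟨T'⟩ : Nonempty (Sylow p G) := inferInstance
        exact T'.2.to_le (sSup_le (fun N hN => by
          have hNn : N.Normal := hN.1
          exact IsPGroup.le_sylow_of_normal hN.2 T'))
      exact hp.comap_of_injective ι hinj
    have hK : ∀ γ ∈ F.autGroup R, ∀ κ ∈ ((pCore p G).comap ι).map θ,
        γ * κ * γ⁻¹ ∈ ((pCore p G).comap ι).map θ := by
      rintro γ hγ _ ⟨m, hm, rfl⟩
      obtain ⟨g, hg⟩ := hrealA γ hγ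
      have h1 : g * ι m * g⁻¹ ∈ pCore p G := hQn.conj_mem _ hm g
      obtain ⟨m', hm'⟩ := hQT h1
      refine ⟨m', by show ι m' ∈ pCore p G; rw [hm']; exact h1, ?_⟩
      ext x
      have hγinv : ι (Subgroup.inclusion hRN (γ⁻¹ x)) = g⁻¹ * ι (Subgroup.inclusion hRN x) * g := by
        have h2 := hg (γ⁻¹ x)
        rw [MulAut.apply_inv_self] at h2
        rw [h2]; group
      have hκj : ∀ y : R, Subgroup.inclusion hRN (θ m y) = m * Subgroup.inclusion hRN y * m⁻¹ :=
        fun y => Subtype.ext (hθ m y)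
      have key : Subgroup.inclusion hRN ((γ * θ m * γ⁻¹) x) = m' * Subgroup.inclusion hRN x * m'⁻¹ := by
        apply hinj
        rw [map_mul, map_mul, map_inv]
        show ι (Subgroup.inclusion hRN (γ (θ m (γ⁻¹ x)))) = _
        rw [hg, hκj, map_mul, map_mul, map_inv, hγinv, hm']
        group
      have key' := congrArg Subtype.val key
      rw [hθ m' x]
      exact key'.symm
    have hmem := Cfsg.Agent.Helper87.mem_pCore_map_of_normal_pgroup (F.autGroup R)
      (((pCore p G).comap ι).map θ) hK₀p hK (κ := θ n) ⟨n, hn, rfl⟩ (hθA n)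
    rw [hRr.2] at hmem
    obtain ⟨r, hr, hrc⟩ := (mem_inn_iff (θ n)).1 hmem
    have hc : r⁻¹ * (n : Ω) ∈ centralizerIn S R := by
      refine Subgroup.mem_inf.2 ⟨S.mul_mem (S.inv_mem (hRS hr)) n.2.1, Subgroup.mem_centralizer_iff.2
        (fun y hy => ?_)⟩
      have h2 := hrc y hy
      rw [autFun_apply' _ hy, hθ] at h2
      -- `n * y * n⁻¹ = r * y * r⁻¹`
      have h3 : (n : Ω) * y = r * y * r⁻¹ * n := by rw [← h2]; group
      calc y * (r⁻¹ * (n : Ω)) = r⁻¹ * (r * y * r⁻¹ * n) := by group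
        _ = r⁻¹ * ((n : Ω) * y) := by rw [h3]
        _ = r⁻¹ * (n : Ω) * y := by group
    have hc' : r⁻¹ * (n : Ω) ∈ R := hRc.2 R (isConj_refl F hRS) hc
    have := R.mul_mem hr hc'
    rwa [mul_inv_cancel_left] at this
  -- Step 2: the image of `R` is normal in `G`
  have step2 : ∀ g : G, ∀ y ∈ (R.subgroupOf (normalizerIn S R)).map ι,
      g * y * g⁻¹ ∈ (R.subgroupOf (normalizerIn S R)).map ι := by
    intro g
    -- the preimage of the core, as a subgroup of `Ω`
    have hQN : ((pCore p G).comap ι).map (normalizerIn S R).subtype ≤ normalizerIn S R :=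
      Subgroup.map_subtype_le _
    have hQι : ∀ x : ↥(((pCore p G).comap ι).map (normalizerIn S R).subtype),
        ι (Subgroup.inclusion hQN x) ∈ pCore p G := by
      rintro ⟨x, y, hy, rfl⟩
      exact hy
    have hmem : ∀ x : ↥(((pCore p G).comap ι).map (normalizerIn S R).subtype),
        ((MulAut.conj g).toMonoidHom.comp (ι.comp (Subgroup.inclusion hQN))) x ∈ ι.range := by
      intro x
      exact hQT (hQn.conj_mem _ (hQι x) g)
    let φ : ↥(((pCore p G).comap ι).map (normalizerIn S R).subtype) →* Ω :=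
      (normalizerIn S R).subtype.comp ((MonoidHom.ofInjective hinj).symm.toMonoidHom.comp
        (MonoidHom.codRestrict ((MulAut.conj g).toMonoidHom.comp (ι.comp (Subgroup.inclusion hQN)))
          ι.range hmem))
    have hφN : ∀ x, φ x ∈ normalizerIn S R := fun x => Subtype.property _
    have hφι : ∀ x, ι ⟨φ x, hφN x⟩ = g * ι (Subgroup.inclusion hQN x) * g⁻¹ := by
      intro x
      exact MonoidHom.apply_ofInjective_symm hinj _
    have hφE : φ ∈ E.Hom _ := (hreal _ hQN φ hφN).2 ⟨g, hφι⟩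
    obtain ⟨f', hf', hf'Q, hf'R⟩ := ((isNormal_iff E R).1 hEn).2 _ (extHom φ) (isMap_extHom hφE)
    obtain ⟨φR, hφR, hφRf⟩ := hf'.restrict (le_sup_right : R ≤ _)
    have hφRR : ∀ x : R, φR x ∈ R := fun x => by rw [hφRf]; exact hf'R x x.2
    obtain ⟨h, hh⟩ := (hreal R hRN φR (fun x => hRN (hφRR x))).1 hφR
    -- `g⁻¹ h` centralizes the core
    have hcen : g⁻¹ * h ∈ Subgroup.centralizer ((pCore p G : Subgroup G) : Set G) := by
      rw [Subgroup.mem_centralizer_iff]
      intro q hq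
      obtain ⟨n, rfl⟩ := hQT hq
      have hnR : (n : Ω) ∈ R := step1 n hq
      have hnQ : (n : Ω) ∈ ((pCore p G).comap ι).map (normalizerIn S R).subtype := ⟨n, hq, rfl⟩
      have e1 := hh ⟨n, hnR⟩
      have e2 := hφι ⟨n, hnQ⟩
      have e3 : φR ⟨n, hnR⟩ = φ ⟨n, hnQ⟩ := by
        rw [hφRf, hf'Q _ hnQ, extHom_apply' φ hnQ]
      have e4 : h * ι n * h⁻¹ = g * ι n * g⁻¹ := by
        have e1' : ι ⟨φR ⟨n, hnR⟩, hRN (hφRR ⟨n, hnR⟩)⟩ = h * ι n * h⁻¹ := e1
        have e2' : ι ⟨φ ⟨n, hnQ⟩, hφN ⟨n, hnQ⟩⟩ = g * ι n * g⁻¹ := e2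
        rw [← e1', ← e2']
        congr 1
        exact Subtype.ext e3
      calc ι n * (g⁻¹ * h) = g⁻¹ * (g * ι n * g⁻¹) * h := by group
        _ = g⁻¹ * (h * ι n * h⁻¹) * h := by rw [e4]
        _ = g⁻¹ * h * ι n := by group
    obtain ⟨c, hc⟩ := hQT (hcent hcen)
    have hcR : (c : Ω) ∈ R := step1 c (by rw [hc]; exact hcent hcen)
    rintro _ ⟨x, hx, rfl⟩
    have hxR : (x : Ω) ∈ R := Subgroup.mem_subgroupOf.1 hx
    have hx'R : (c : Ω)⁻¹ * x * (c : Ω) ∈ R := R.mul_mem (R.mul_mem (R.inv_mem hcR) hxR) hcR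
    have e5 := hh ⟨(c : Ω)⁻¹ * x * (c : Ω), hx'R⟩
    have e6 : (⟨(c : Ω)⁻¹ * x * (c : Ω), hRN hx'R⟩ : ↥(normalizerIn S R)) = c⁻¹ * x * c := Subtype.ext rfl
    have e7 : g * ι x * g⁻¹ = h * ι (c⁻¹ * x * c) * h⁻¹ := by
      rw [map_mul, map_mul, map_inv, hc]
      group
    rw [e7, ← e6]
    refine ⟨⟨φR ⟨(c : Ω)⁻¹ * x * (c : Ω), hx'R⟩, hRN (hφRR _)⟩, Subgroup.mem_subgroupOf.2 (hφRR _), e5⟩
  -- conclusion
  apply le_antisymm
  · intro q hq
    obtain ⟨n, rfl⟩ := hQT hq
    exact ⟨n, Subgroup.mem_subgroupOf.2 (step1 n hq), rfl⟩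
  · have hRn : ((R.subgroupOf (normalizerIn S R)).map ι).Normal := ⟨fun y hy g => step2 g y hy⟩
    have hRp : IsPGroup p ((R.subgroupOf (normalizerIn S R)).map ι) :=
      IsPGroup.map (hS.to_le hRS).comap_subtype ι
    exact le_sSup ⟨hRn, hRp⟩

/-- In a saturated fusion system over a finite p-group S, the normalizer system of a fully normalized, centric, radical subgroup R is constrained, and in every model of that normalizer system the largest normal p-subgroup is the image of R. -/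
theorem result {Ω : Type*} [Group Ω] {S : Subgroup Ω} [Finite S] (p : ℕ) [Fact p.Prime] (hS : IsPGroup p S) (F : Cfsg.FusionSystem S) (hF : F.IsSaturated p) (R : Subgroup Ω) (hRn : F.IsFullyNormalized R) (hRc : F.IsCentric R) (hRr : F.IsRadical p R) (E : Cfsg.FusionSystem (Cfsg.FusionSystem.normalizerIn S R)) (hE : F.IsNormalizerSystem R E) {G : Type*} [Group G] (ι : ↥(Cfsg.FusionSystem.normalizerIn S R) →* G) : E.IsConstrained p ∧ (E.IsModel p G ι → (Cfsg.pCore p G : Subgroup G) = (R.subgroupOf (Cfsg.FusionSystem.normalizerIn S R)).map ι) := by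
  have hRS : R ≤ S := hRc.1
  have hRN : R ≤ normalizerIn S R := fun x hx => ⟨hRS hx, Subgroup.le_normalizer hx⟩
  have hNS : normalizerIn S R ≤ S := inf_le_left
  have hfN : Finite ↥(normalizerIn S R) := Helper88.finite_of_le hNS
  have hEn : E.IsNormal R := isNormal_normalizerSystem F hRS E hE
  have hEsat : E.IsSaturated p := Cfsg.Agent.Helper84.normalizerSystem_saturated p hS F hF R hRn E hE
  refine ⟨⟨hEsat, R, hEn, hRN, fun Q' hQ' => ?_⟩, fun hM => model_pCore hS F hRc hRr E hE hEn ι hM⟩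
  obtain ⟨f, hf, rfl⟩ := (isConj_iff E).1 hQ'
  rw [hf.img_eq_of_mapsTo (isNormal_mapsTo hEn hf le_rfl)]
  intro c hc
  exact hRc.2 R (isConj_refl F hRS) ⟨hNS hc.1, hc.2⟩

end Cfsg.Agent.S5126
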