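import Cfsg.Statements.S5135
import Cfsg.Agent.Helper85.FactorSys

set_option autoImplicit false
open Cfsg

namespace Cfsg.Agent.S5135

open Cfsg.FusionSystem Cfsg.Agent.Helper85
open scoped Pointwise

/-- Let G be a finite group, S a Sylow p-subgroup and H a normal subgroup of G. Then the fusion system of G/H on the image SH/H of S is the factor system of the fusion system of G on S modulo S ∩ H, read through the quotient map restricted to S: for each subgroup P' of SH/H, the conjugation maps by elements of G/H defined on P' with values in SH/H are exactly the homomorphisms induced by the conjugation maps by elements of G defined on the full preimage of P' in S with values in S. -/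
theorem result {G : Type*} [Group G] [Finite G] (p : ℕ) [Fact p.Prime] (S : Sylow p G) (H : Subgroup G) [H.Normal] : (Cfsg.groupFusionSystem (S : Subgroup G)).IsFactorSystem ((S : Subgroup G) ⊓ H) ((QuotientGroup.mk' H).comp (S : Subgroup G).subtype) (Cfsg.groupFusionSystem ((S : Subgroup G).map (QuotientGroup.mk' H))) := by
  have hr : ((QuotientGroup.mk' H).comp (S : Subgroup G).subtype).range =
      (S : Subgroup G).map (QuotientGroup.mk' H) := by
    rw [MonoidHom.range_comp, Subgroup.range_subtype]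
  generalize hθ : (QuotientGroup.mk' H).comp (S : Subgroup G).subtype = θ at hr ⊢
  have hθv : ∀ s : (S : Subgroup G), θ s = ((s : G) : G ⧸ H) := fun s => by rw [← hθ]; rfl
  refine ⟨inf_le_left, fun s => ?_, hr, fun P' φ' => ⟨?_, ?_⟩⟩
  · rw [hθv, QuotientGroup.eq_one_iff]
    exact ⟨fun h => ⟨s.2, h⟩, fun h => h.2⟩
  · rintro ⟨hP', hφ'S, gq, hgq⟩
    refine ⟨hP', ?_⟩
    obtain ⟨g, rfl⟩ := QuotientGroup.mk_surjective gq
    have hKS : preimageAlong θ P' ≤ S := preimageAlong_le θ P'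
    have hKP' : ∀ x : preimageAlong θ P', θ ⟨x, hKS x.2⟩ ∈ P' := by
      intro x
      obtain ⟨_, h⟩ := (mem_preimageAlong θ P' x).1 x.2
      exact h
    have hTM : Cfsg.Agent.Helper84.cj g (preimageAlong θ P') ≤ (S : Subgroup G) ⊔ H := by
      rintro _ ⟨x, hx, rfl⟩
      have h1 := hφ'S ⟨θ ⟨x, hKS hx⟩, hKP' ⟨x, hx⟩⟩
      rw [hgq] at h1
      obtain ⟨s, hs, hs'⟩ := h1
      have hx' : θ ⟨x, hKS hx⟩ = ((x : G) : G ⧸ H) := hθv _
      have hs'' : ((s : G) : G ⧸ H) = ((g * x * g⁻¹ : G) : G ⧸ H) := by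
        rw [QuotientGroup.mk_mul, QuotientGroup.mk_mul, QuotientGroup.mk_inv, ← hx']
        exact hs'
      have h2 : s⁻¹ * (g * x * g⁻¹) ∈ H := QuotientGroup.eq.1 hs''
      have h3 : g * x * g⁻¹ = s * (s⁻¹ * (g * x * g⁻¹)) := by group
      show g * x * g⁻¹ ∈ _
      rw [h3]
      exact Subgroup.mul_mem_sup hs h2
    have hT : IsPGroup p (Cfsg.Agent.Helper84.cj g (preimageAlong θ P')) :=
      Cfsg.Agent.Helper84.isPGroup_cj (S.2.to_le hKS)
    obtain ⟨m, hm, hmS⟩ := Cfsg.Agent.Helper84.exists_cj_le_sylow_of_le S le_sup_left hTM hT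
    have hm' : m ∈ (((S : Subgroup G) : Set G)) * (H : Set G) := by
      rw [← Subgroup.mul_normal]; exact hm
    obtain ⟨s, hs, h, hh, rfl⟩ := Set.mem_mul.1 hm'
    have hconj : ∀ x ∈ preimageAlong θ P', (h * g) * x * (h * g)⁻¹ ∈ (S : Subgroup G) := by
      intro x hx
      have h1 : (s * h) * (g * x * g⁻¹) * (s * h)⁻¹ ∈ (S : Subgroup G) :=
        hmS (Cfsg.Agent.Helper84.cj_mem (Cfsg.Agent.Helper84.cj_mem hx))
      have h2 : (h * g) * x * (h * g)⁻¹ = s⁻¹ * ((s * h) * (g * x * g⁻¹) * (s * h)⁻¹) * s := by group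
      rw [h2]
      exact Subgroup.mul_mem _ (Subgroup.mul_mem _ (Subgroup.inv_mem _ hs) h1) hs
    refine ⟨conjHom (preimageAlong θ P') (h * g), ⟨hKS, fun x => hconj x x.2, h * g, fun x => rfl⟩,
      hKS, fun x => hconj x x.2, hKP', fun x => ?_⟩
    have hh1 : ((h : G) : G ⧸ H) = 1 := (QuotientGroup.eq_one_iff h).2 hh
    have hx' : θ ⟨x, hKS x.2⟩ = ((x : G) : G ⧸ H) := hθv _
    have hR : θ ⟨conjHom (preimageAlong θ P') (h * g) x, hconj x x.2⟩ =
        (((h * g) * x * (h * g)⁻¹ : G) : G ⧸ H) := hθv _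
    rw [hgq]
    show (g : G ⧸ H) * θ ⟨x, hKS x.2⟩ * (g : G ⧸ H)⁻¹ =
      θ ⟨conjHom (preimageAlong θ P') (h * g) x, hconj x x.2⟩
    rw [hx', hR, QuotientGroup.mk_mul, QuotientGroup.mk_mul, QuotientGroup.mk_inv, QuotientGroup.mk_mul, hh1,
      one_mul]
  · rintro ⟨hP', φ, ⟨hKS, hφS, g, hg⟩, hP, hφ, hP'', heq⟩
    refine ⟨hP', fun y => ?_, (g : G ⧸ H), fun y => ?_⟩
    · obtain ⟨x, hx⟩ := exists_preimage_elt θ hr hP' y y.2
      have e : y = ⟨θ ⟨x, hP x.2⟩, hP'' x⟩ := Subtype.ext hx.symm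
      rw [e, heq, hθv]
      exact ⟨φ x, hφ x, rfl⟩
    · obtain ⟨x, hx⟩ := exists_preimage_elt θ hr hP' y y.2
      have e : y = ⟨θ ⟨x, hP x.2⟩, hP'' x⟩ := Subtype.ext hx.symm
      have hx' : θ ⟨x, hP x.2⟩ = ((x : G) : G ⧸ H) := hθv _
      rw [e, heq, hθv]
      show ((φ x : G) : G ⧸ H) = (g : G ⧸ H) * θ ⟨x, hP x.2⟩ * (g : G ⧸ H)⁻¹
      rw [hg x, hx']
      rfl

end Cfsg.Agent.S5135
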