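import Cfsg.Statements.S5136
import Cfsg.Agent.Helper85.Iso

set_option autoImplicit false
open Cfsg

namespace Cfsg.Agent.S5136

open Cfsg.FusionSystem Cfsg.Agent.Helper85

/-- Let F₁ and F₂ be fusion systems over finite p-groups S₁ and S₂ (inside ambient groups Ω₁ and Ω₂). Then their direct product exists: there is a fusion system over S₁ × S₂ inside Ω₁ × Ω₂ whose maps with source P ≤ S₁ × S₂ are exactly the restrictions to P of the homomorphisms (x₁, x₂) ↦ (φ₁ x₁, φ₂ x₂) with φ₁ a map of F₁ on the first projection of P and φ₂ a map of F₂ on the second projection. -/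
theorem result {Ω₁ Ω₂ : Type*} [Group Ω₁] [Group Ω₂] {S₁ : Subgroup Ω₁} {S₂ : Subgroup Ω₂} [Finite S₁] [Finite S₂] (p : ℕ) [Fact p.Prime] (h₁ : IsPGroup p S₁) (h₂ : IsPGroup p S₂) (F₁ : Cfsg.FusionSystem S₁) (F₂ : Cfsg.FusionSystem S₂) : ∃ E : Cfsg.FusionSystem (S₁.prod S₂), Cfsg.FusionSystem.IsProductSystem F₁ F₂ E := by
  have hfst : ∀ {P : Subgroup (Ω₁ × Ω₂)} (x : P),
      (x : Ω₁ × Ω₂).1 ∈ P.map (MonoidHom.fst Ω₁ Ω₂) := fun x => ⟨x, x.2, rfl⟩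
  have hsnd : ∀ {P : Subgroup (Ω₁ × Ω₂)} (x : P),
      (x : Ω₁ × Ω₂).2 ∈ P.map (MonoidHom.snd Ω₁ Ω₂) := fun x => ⟨x, x.2, rfl⟩
  have hinj : ∀ {P : Subgroup (Ω₁ × Ω₂)} {φ : P →* Ω₁ × Ω₂},
      (∃ φ₁ ∈ F₁.Hom (P.map (MonoidHom.fst Ω₁ Ω₂)), ∃ φ₂ ∈ F₂.Hom (P.map (MonoidHom.snd Ω₁ Ω₂)),
        ∀ (x : P) (h₁ : (x : Ω₁ × Ω₂).1 ∈ P.map (MonoidHom.fst Ω₁ Ω₂))
          (h₂ : (x : Ω₁ × Ω₂).2 ∈ P.map (MonoidHom.snd Ω₁ Ω₂)),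
          φ x = (φ₁ ⟨(x : Ω₁ × Ω₂).1, h₁⟩, φ₂ ⟨(x : Ω₁ × Ω₂).2, h₂⟩)) → Function.Injective φ := by
    rintro P φ ⟨φ₁, hφ₁, φ₂, hφ₂, hφ⟩ x y hxy
    rw [hφ x (hfst x) (hsnd x), hφ y (hfst y) (hsnd y)] at hxy
    have e1 := F₁.injective_of_mem hφ₁ (congrArg Prod.fst hxy)
    have e2 := F₂.injective_of_mem hφ₂ (congrArg Prod.snd hxy)
    exact Subtype.ext (Prod.ext (congrArg Subtype.val e1) (congrArg Subtype.val e2))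
  have hval : ∀ {P : Subgroup (Ω₁ × Ω₂)} {φ : P →* Ω₁ × Ω₂},
      (∃ φ₁ ∈ F₁.Hom (P.map (MonoidHom.fst Ω₁ Ω₂)), ∃ φ₂ ∈ F₂.Hom (P.map (MonoidHom.snd Ω₁ Ω₂)),
        ∀ (x : P) (h₁ : (x : Ω₁ × Ω₂).1 ∈ P.map (MonoidHom.fst Ω₁ Ω₂))
          (h₂ : (x : Ω₁ × Ω₂).2 ∈ P.map (MonoidHom.snd Ω₁ Ω₂)),
          φ x = (φ₁ ⟨(x : Ω₁ × Ω₂).1, h₁⟩, φ₂ ⟨(x : Ω₁ × Ω₂).2, h₂⟩)) →
      ∀ x : P, φ x ∈ S₁.prod S₂ := by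
    rintro P φ ⟨φ₁, hφ₁, φ₂, hφ₂, hφ⟩ x
    rw [hφ x (hfst x) (hsnd x)]
    exact Subgroup.mem_prod.2 ⟨(F₁.le_of_mem hφ₁).2 _, (F₂.le_of_mem hφ₂).2 _⟩
  refine ⟨⟨fun P => {φ | P ≤ S₁.prod S₂ ∧
      ∃ φ₁ ∈ F₁.Hom (P.map (MonoidHom.fst Ω₁ Ω₂)), ∃ φ₂ ∈ F₂.Hom (P.map (MonoidHom.snd Ω₁ Ω₂)),
        ∀ (x : P) (h₁ : (x : Ω₁ × Ω₂).1 ∈ P.map (MonoidHom.fst Ω₁ Ω₂))
          (h₂ : (x : Ω₁ × Ω₂).2 ∈ P.map (MonoidHom.snd Ω₁ Ω₂)),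
          φ x = (φ₁ ⟨(x : Ω₁ × Ω₂).1, h₁⟩, φ₂ ⟨(x : Ω₁ × Ω₂).2, h₂⟩)},
    ?_, ?_, ?_, ?_, ?_⟩, fun P φ => Iff.rfl⟩
  · -- le_of_mem
    rintro P φ ⟨hP, h⟩
    exact ⟨hP, hval h⟩
  · -- injective_of_mem
    rintro P φ ⟨hP, h⟩
    exact hinj h
  · -- conj_mem
    intro P g hP hg
    have hP1 : P.map (MonoidHom.fst Ω₁ Ω₂) ≤ S₁ := by
      rintro _ ⟨x, hx, rfl⟩
      exact (Subgroup.mem_prod.1 (hP hx)).1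
    have hP2 : P.map (MonoidHom.snd Ω₁ Ω₂) ≤ S₂ := by
      rintro _ ⟨x, hx, rfl⟩
      exact (Subgroup.mem_prod.1 (hP hx)).2
    obtain ⟨hg1, hg2⟩ := Subgroup.mem_prod.1 hg
    exact ⟨hP, conjHom _ g.1, F₁.conj_mem hP1 hg1, conjHom _ g.2, F₂.conj_mem hP2 hg2,
      fun x _ _ => rfl⟩
  · -- comp_mem
    rintro P Q φ ψ ⟨hP, φ₁, hφ₁, φ₂, hφ₂, hφ⟩ ⟨hQ, ψ₁, hψ₁, ψ₂, hψ₂, hψ⟩ h
    have hc1 : ∀ a : P.map (MonoidHom.fst Ω₁ Ω₂), φ₁ a ∈ Q.map (MonoidHom.fst Ω₁ Ω₂) := by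
      rintro ⟨_, x, hx, rfl⟩
      have e := hφ ⟨x, hx⟩ (hfst ⟨x, hx⟩) (hsnd ⟨x, hx⟩)
      have e' : φ₁ ⟨(MonoidHom.fst Ω₁ Ω₂) x, ⟨x, hx, rfl⟩⟩ = (φ ⟨x, hx⟩).1 := (congrArg Prod.fst e).symm
      rw [e']
      exact ⟨φ ⟨x, hx⟩, h _, rfl⟩
    have hc2 : ∀ a : P.map (MonoidHom.snd Ω₁ Ω₂), φ₂ a ∈ Q.map (MonoidHom.snd Ω₁ Ω₂) := by
      rintro ⟨_, x, hx, rfl⟩
      have e := hφ ⟨x, hx⟩ (hfst ⟨x, hx⟩) (hsnd ⟨x, hx⟩)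
      have e' : φ₂ ⟨(MonoidHom.snd Ω₁ Ω₂) x, ⟨x, hx, rfl⟩⟩ = (φ ⟨x, hx⟩).2 := (congrArg Prod.snd e).symm
      rw [e']
      exact ⟨φ ⟨x, hx⟩, h _, rfl⟩
    refine ⟨hP, ψ₁.comp (φ₁.codRestrict _ hc1), F₁.comp_mem hφ₁ hψ₁ hc1,
      ψ₂.comp (φ₂.codRestrict _ hc2), F₂.comp_mem hφ₂ hψ₂ hc2, fun x k₁ k₂ => ?_⟩
    have e := hφ x k₁ k₂
    have e1 : (⟨(φ x).1, hfst ⟨φ x, h x⟩⟩ : Q.map (MonoidHom.fst Ω₁ Ω₂)) =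
        φ₁.codRestrict _ hc1 ⟨(x : Ω₁ × Ω₂).1, k₁⟩ := Subtype.ext (congrArg Prod.fst e)
    have e2 : (⟨(φ x).2, hsnd ⟨φ x, h x⟩⟩ : Q.map (MonoidHom.snd Ω₁ Ω₂)) =
        φ₂.codRestrict _ hc2 ⟨(x : Ω₁ × Ω₂).2, k₂⟩ := Subtype.ext (congrArg Prod.snd e)
    show ψ ⟨φ x, h x⟩ = _
    rw [hψ ⟨φ x, h x⟩ (hfst _) (hsnd _)]
    exact Prod.ext (congrArg ψ₁ e1) (congrArg ψ₂ e2)
  · -- inv_mem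
    rintro P φ ⟨hP, φ₁, hφ₁, φ₂, hφ₂, hφ⟩
    have hφinj : Function.Injective φ := hinj ⟨φ₁, hφ₁, φ₂, hφ₂, hφ⟩
    have hrS : φ.range ≤ S₁.prod S₂ := by
      rintro _ ⟨x, rfl⟩
      exact hval ⟨φ₁, hφ₁, φ₂, hφ₂, hφ⟩ x
    obtain ⟨χ₁, hχ₁, hχ₁inv⟩ := F₁.inv_mem hφ₁
    obtain ⟨χ₂, hχ₂, hχ₂inv⟩ := F₂.inv_mem hφ₂
    have hle1 : φ.range.map (MonoidHom.fst Ω₁ Ω₂) ≤ φ₁.range := by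
      rintro _ ⟨_, ⟨x, rfl⟩, rfl⟩
      exact ⟨⟨(x : Ω₁ × Ω₂).1, hfst x⟩, (congrArg Prod.fst (hφ x (hfst x) (hsnd x))).symm⟩
    have hle2 : φ.range.map (MonoidHom.snd Ω₁ Ω₂) ≤ φ₂.range := by
      rintro _ ⟨_, ⟨x, rfl⟩, rfl⟩
      exact ⟨⟨(x : Ω₁ × Ω₂).2, hsnd x⟩, (congrArg Prod.snd (hφ x (hfst x) (hsnd x))).symm⟩
    refine ⟨P.subtype.comp (MonoidHom.ofInjective hφinj).symm.toMonoidHom,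
      ⟨hrS, χ₁.comp (Subgroup.inclusion hle1), restrict_mem F₁ hχ₁ hle1,
        χ₂.comp (Subgroup.inclusion hle2), restrict_mem F₂ hχ₂ hle2, ?_⟩, ?_⟩
    · rintro ⟨_, x, rfl⟩ k₁ k₂
      have e : (⟨φ x, ⟨x, rfl⟩⟩ : φ.range) = MonoidHom.ofInjective hφinj x := rfl
      have e0 := hφ x (hfst x) (hsnd x)
      have e1 : Subgroup.inclusion hle1 ⟨(φ x).1, k₁⟩ =
          ⟨φ₁ ⟨(x : Ω₁ × Ω₂).1, hfst x⟩, ⟨_, rfl⟩⟩ := Subtype.ext (congrArg Prod.fst e0)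
      have e2 : Subgroup.inclusion hle2 ⟨(φ x).2, k₂⟩ =
          ⟨φ₂ ⟨(x : Ω₁ × Ω₂).2, hsnd x⟩, ⟨_, rfl⟩⟩ := Subtype.ext (congrArg Prod.snd e0)
      show (((MonoidHom.ofInjective hφinj).symm ⟨φ x, ⟨x, rfl⟩⟩ : P) : Ω₁ × Ω₂) =
        (χ₁ (Subgroup.inclusion hle1 ⟨(φ x).1, k₁⟩), χ₂ (Subgroup.inclusion hle2 ⟨(φ x).2, k₂⟩))
      rw [e, MulEquiv.symm_apply_apply, e1, e2, hχ₁inv, hχ₂inv]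
    · intro x
      have e : (⟨φ x, ⟨x, rfl⟩⟩ : φ.range) = MonoidHom.ofInjective hφinj x := rfl
      show (((MonoidHom.ofInjective hφinj).symm ⟨φ x, ⟨x, rfl⟩⟩ : P) : Ω₁ × Ω₂) = x
      rw [e, MulEquiv.symm_apply_apply]

end Cfsg.Agent.S5136
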