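import Cfsg.Statements.S5137
import Cfsg.Agent.Helper85.ProdSys3
import Cfsg.Agent.Helper87.PCore

set_option autoImplicit false
set_option maxHeartbeats 1000000
open Cfsg

namespace Cfsg.Agent.S5137

open Cfsg.FusionSystem Cfsg.Agent.Helper88 Cfsg.Agent.Helper85

/-- Let F₁ and F₂ be saturated fusion systems over finite p-groups S₁ and S₂. Then their direct product (the fusion system over S₁ × S₂ whose maps are the restrictions of the product maps (φ₁, φ₂)) is saturated. -/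
theorem result {Ω₁ Ω₂ : Type*} [Group Ω₁] [Group Ω₂] {S₁ : Subgroup Ω₁} {S₂ : Subgroup Ω₂} [Finite S₁] [Finite S₂] (p : ℕ) [Fact p.Prime] (h₁ : IsPGroup p S₁) (h₂ : IsPGroup p S₂) (F₁ : Cfsg.FusionSystem S₁) (F₂ : Cfsg.FusionSystem S₂) (hF₁ : F₁.IsSaturated p) (hF₂ : F₂.IsSaturated p) (E : Cfsg.FusionSystem (S₁.prod S₂)) (hE : Cfsg.FusionSystem.IsProductSystem F₁ F₂ E) : E.IsSaturated p := by
  have hfinS : Finite ↥(S₁.prod S₂) := prodSys_finite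
  have hS : IsPGroup p ↥(S₁.prod S₂) := prodSys_isPGroup h₁ h₂
  refine Cfsg.Agent.S5110.result p hS E {P | ∃ P₁ P₂, P₁ ≤ S₁ ∧ P₂ ≤ S₂ ∧ P = P₁.prod P₂}
    ?hS ?hconj ?hsat ?hgen ?hstar
  case hS =>
    rintro P ⟨P₁, P₂, hP₁, hP₂, rfl⟩
    exact Subgroup.prod_mono hP₁ hP₂
  case hconj =>
    rintro P ⟨P₁, P₂, hP₁, hP₂, rfl⟩ Q hQ
    obtain ⟨f, hf, rfl⟩ := (Helper88.isConj_iff E).1 hQ
    obtain ⟨f₁, f₂, hf₁, hf₂, hval⟩ := (prodSys_isMap_prod hE hP₁ hP₂ f).1 hf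
    exact ⟨img P₁ f₁, img P₂ f₂, hf₁.img_le, hf₂.img_le, prodSys_img_prod hf hf₁ hf₂ hval⟩
  case hsat =>
    rintro P ⟨P₁, P₂, hP₁, hP₂, rfl⟩
    obtain ⟨Q₁, hc₁, hfa₁, hr₁⟩ := hF₁ P₁ hP₁
    obtain ⟨Q₂, hc₂, hfa₂, hr₂⟩ := hF₂ P₂ hP₂
    obtain ⟨f₁, hf₁, rfl⟩ := (Helper88.isConj_iff F₁).1 hc₁
    obtain ⟨f₂, hf₂, rfl⟩ := (Helper88.isConj_iff F₂).1 hc₂
    have hf : IsMap E (P₁.prod P₂) (fun x => (f₁ x.1, f₂ x.2)) :=
      (prodSys_isMap_prod hE hP₁ hP₂ _).2 ⟨f₁, f₂, hf₁, hf₂, fun _ _ => rfl⟩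
    refine ⟨(img P₁ f₁).prod (img P₂ f₂), ?_, prodSys_fullyAutomized hE h₁ h₂ hfa₁ hfa₂,
      prodSys_receptive hE hr₁ hr₂⟩
    rw [← prodSys_img_prod hf hf₁ hf₂ (fun _ _ => rfl)]
    exact hf.isConj
  case hgen =>
    intro E' hE' P φ hφ
    obtain ⟨hPS, f₁, f₂, hf₁, hf₂, hval⟩ := (prodSys_isMap_iff hE P _).1 (isMap_extHom hφ)
    have hbig : IsMap E ((P.map (MonoidHom.fst Ω₁ Ω₂)).prod (P.map (MonoidHom.snd Ω₁ Ω₂)))
        (fun x => (f₁ x.1, f₂ x.2)) :=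
      (prodSys_isMap_prod hE hf₁.le hf₂.le _).2 ⟨f₁, f₂, hf₁, hf₂, fun _ _ => rfl⟩
    obtain ⟨φ', hφ', hφ'f⟩ := hbig
    have h1 : IsMap E' ((P.map (MonoidHom.fst Ω₁ Ω₂)).prod (P.map (MonoidHom.snd Ω₁ Ω₂)))
        (fun x => (f₁ x.1, f₂ x.2)) :=
      ⟨φ', hE' _ ⟨_, _, hf₁.le, hf₂.le, rfl⟩ hφ', hφ'f⟩
    exact ((h1.restrict (prodSys_le_prod P)).congr hval).hom_mem (fun x => (extHom_apply φ x).symm)
  case hstar =>
    intro P hPc hPn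
    have hPS : P ≤ S₁.prod S₂ := hPc.1
    refine ⟨P, Helper88.isConj_refl E hPS, fun hle => ?_⟩
    have hP₁S : P.map (MonoidHom.fst Ω₁ Ω₂) ≤ S₁ := by
      rintro _ ⟨x, hx, rfl⟩
      exact (hPS hx).1
    have hP₂S : P.map (MonoidHom.snd Ω₁ Ω₂) ≤ S₂ := by
      rintro _ ⟨x, hx, rfl⟩
      exact (hPS hx).2
    have hPhS : (P.map (MonoidHom.fst Ω₁ Ω₂)).prod (P.map (MonoidHom.snd Ω₁ Ω₂)) ≤ S₁.prod S₂ :=
      Subgroup.prod_mono hP₁S hP₂S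
    have hfinPh : Finite ↥((P.map (MonoidHom.fst Ω₁ Ω₂)).prod (P.map (MonoidHom.snd Ω₁ Ω₂))) :=
      Helper88.finite_of_le hPhS
    have hfinP : Finite P := Helper88.finite_of_le hPS
    have hne : P ≠ (P.map (MonoidHom.fst Ω₁ Ω₂)).prod (P.map (MonoidHom.snd Ω₁ Ω₂)) :=
      fun h => hPn ⟨_, _, hP₁S, hP₂S, h⟩
    obtain ⟨g, hgPh, hgN, hgP⟩ := Helper88.exists_normalizer_of_lt
      (R := (P.map (MonoidHom.fst Ω₁ Ω₂)).prod (P.map (MonoidHom.snd Ω₁ Ω₂)))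
      (hS.to_le hPhS) (prodSys_le_prod P) hne
    have hgS : g ∈ S₁.prod S₂ := hPhS hgPh
    refine Helper84.not_mem_inn_of_centric E hPc hgN hgS hgP
      (hle ⟨Helper84.conjAut_mem_autInducedBy hgS hgN, ?_⟩)
    refine Helper87.mem_pCore_map_of_normal_pgroup (E.autGroup P)
      (autInducedBy ((P.map (MonoidHom.fst Ω₁ Ω₂)).prod (P.map (MonoidHom.snd Ω₁ Ω₂)) ⊓
        Subgroup.normalizer (P : Set (Ω₁ × Ω₂))) P) ?_ ?_
      (Helper84.conjAut_mem_autInducedBy (Subgroup.mem_inf.2 ⟨hgPh, hgN⟩) hgN)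
      (Helper85.autInducedBy_le_autGroup E hPS (Helper84.conjAut_mem_autInducedBy hgS hgN))
    · exact (isPGroup_autInducedBy hS P).to_le
        (Helper84.autInducedBy_mono (inf_le_left.trans hPhS) P)
    · intro γ hγ κ hκ
      obtain ⟨n, hn, hnκ⟩ := (Helper88.mem_autInducedBy_iff _ P κ).1 hκ
      have hγm := (Helper88.mem_autGroup_iff E hPS γ).1 hγ
      obtain ⟨-, f₁, f₂, hf₁, hf₂, hval⟩ := (prodSys_isMap_iff hE P _).1 hγm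
      have hval' : ∀ x : P, (((γ * κ * γ⁻¹) x : P) : Ω₁ × Ω₂) =
          (f₁ n.1, f₂ n.2) * x * (f₁ n.1, f₂ n.2)⁻¹ := by
        intro x
        show ((γ (κ (γ⁻¹ x)) : P) : Ω₁ × Ω₂) = _
        have hy : ((γ⁻¹ x : P) : Ω₁ × Ω₂) ∈ P := (γ⁻¹ x).2
        have h1 : ((γ (κ (γ⁻¹ x)) : P) : Ω₁ × Ω₂) = autFun γ ((κ (γ⁻¹ x) : P) : Ω₁ × Ω₂) :=
          (autFun_apply γ _).symm
        have h2 : (x : Ω₁ × Ω₂) = autFun γ ((γ⁻¹ x : P) : Ω₁ × Ω₂) := by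
          rw [autFun_apply, MulAut.apply_inv_self]
        rw [h1, hnκ, hval _ (conj_mem_of_mem_normalizer hn.2 hy)]
        conv_rhs => rw [h2, hval _ hy]
        apply Prod.ext
        · exact hf₁.map_conj hn.1.1 ⟨_, hy, rfl⟩
        · exact hf₂.map_conj hn.1.2 ⟨_, hy, rfl⟩
      refine (Helper88.mem_autInducedBy_iff _ P _).2 ⟨(f₁ n.1, f₂ n.2),
        ⟨⟨?_, ?_⟩, Helper84.mem_normalizer_of_aut hval'⟩, hval'⟩
      · have h1 : img (P.map (MonoidHom.fst Ω₁ Ω₂)) f₁ = P.map (MonoidHom.fst Ω₁ Ω₂) := by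
          rw [← prodSys_map_fst_img hγm hf₁ hval, img_autFun]
        have h2 := hf₁.apply_mem_img hn.1.1
        rwa [h1] at h2
      · have h1 : img (P.map (MonoidHom.snd Ω₁ Ω₂)) f₂ = P.map (MonoidHom.snd Ω₁ Ω₂) := by
          rw [← prodSys_map_snd_img hγm hf₂ hval, img_autFun]
        have h2 := hf₂.apply_mem_img hn.1.2
        rwa [h1] at h2

end Cfsg.Agent.S5137
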