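import Cfsg.Statements.S5139
import Cfsg.Agent.S5093
import Cfsg.Agent.Helper85.GroupAux
import Cfsg.Agent.Helper86.Residual

set_option autoImplicit false
open Cfsg

namespace Cfsg.Agent.S5139

open Cfsg.FusionSystem Cfsg.Agent.Helper85

/-- An automorphism of `P` of order prime to `p` induced by conjugation by an element of the finite group `G` is
induced by an element of `O^p(G)`. -/
theorem exists_pResidual_conj {G : Type*} [Group G] [Finite G] {p : ℕ} [Fact p.Prime] {P : Subgroup G}
    (a : MulAut P) (ha : Nat.Coprime (orderOf a) p) (g : G) (hg : ∀ x : P, ((a x : P) : G) = g * x * g⁻¹) :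
    ∃ g' ∈ Cfsg.pResidual p G, ∀ x : P, ((a x : P) : G) = g' * x * g'⁻¹ := by
  have hpp : p.Prime := Fact.out
  have hpow : ∀ j : ℕ, ∀ x : P, (((a ^ j) x : P) : G) = g ^ j * x * (g ^ j)⁻¹ := by
    intro j
    induction j with
    | zero => intro x; simp
    | succ j ih =>
      intro x
      rw [pow_succ' a, MulAut.mul_apply, hg, ih, pow_succ' g, mul_inv_rev]
      simp only [mul_assoc]
  have hN0 : orderOf g ≠ 0 := (orderOf_pos g).ne'
  obtain ⟨k, m, hm, hN⟩ := Nat.exists_eq_pow_mul_and_not_dvd hN0 p hpp.one_lt.ne'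
  have hmc : m.Coprime p := ((Nat.Prime.coprime_iff_not_dvd hpp).mpr hm).symm
  have he : (p ^ k) ^ Nat.totient (orderOf a) ≡ 1 [MOD orderOf a] :=
    Nat.ModEq.pow_totient (Nat.Coprime.pow_left k ha.symm)
  have hae : a ^ ((p ^ k) ^ Nat.totient (orderOf a)) = a := by
    have h1 := (pow_eq_pow_iff_modEq (x := a)).2 he
    rwa [pow_one] at h1
  refine ⟨g ^ ((p ^ k) ^ Nat.totient (orderOf a)), Subgroup.subset_closure ?_, fun x => ?_⟩
  · have hdvd : orderOf (g ^ ((p ^ k) ^ Nat.totient (orderOf a))) ∣ m := by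
      apply orderOf_dvd_of_pow_eq_one
      rw [← pow_mul]
      apply (orderOf_dvd_iff_pow_eq_one).1
      rw [hN]
      apply Nat.mul_dvd_mul_right
      exact dvd_pow_self _ (Nat.totient_pos.2 (orderOf_pos a)).ne'
    exact Nat.Coprime.coprime_dvd_left hdvd hmc
  · have h1 := hpow ((p ^ k) ^ Nat.totient (orderOf a)) x
    rwa [hae] at h1

/-- Let G be a finite group with Sylow p-subgroup S and O^p(G) the subgroup generated by the elements of order prime to p. Then the p-residual subsystem of the fusion system of G on S — the saturated subsystem of p-power index over the hyperfocal subgroup — is the fusion system of O^p(G) on S ∩ O^p(G): its maps are exactly the conjugation maps by elements of O^p(G) between subgroups of S ∩ O^p(G). -/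
theorem result {G : Type*} [Group G] [Finite G] (p : ℕ) [Fact p.Prime] (S : Sylow p G) (E : Cfsg.FusionSystem ((Cfsg.groupFusionSystem (S : Subgroup G)).hyperfocalSubgroup p)) (hE : (Cfsg.groupFusionSystem (S : Subgroup G)).IsPResidual p E) : ∃ h : (S : Subgroup G) ⊓ Cfsg.pResidual p G ≤ Cfsg.pResidual p G, ∀ P : Subgroup G, E.Hom P = (Cfsg.fusionSystemOfSubgroup (Cfsg.pResidual p G) ((S : Subgroup G) ⊓ Cfsg.pResidual p G) h).Hom P := by
  refine ⟨inf_le_right, ?_⟩
  haveI : (Cfsg.pResidual p G).Normal := Cfsg.Agent.Helper84.pResidual_normal p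
  have hhyp := Cfsg.Agent.S5093.result p S
  have hsat₂ := saturated_fusionSystemOfSubgroup S (Cfsg.pResidual p G)
  have hidx₂ : (Cfsg.fusionSystemOfSubgroup (Cfsg.pResidual p G) ((S : Subgroup G) ⊓ Cfsg.pResidual p G)
      inf_le_right).HasPPowerIndexIn (Cfsg.groupFusionSystem (S : Subgroup G)) p := by
    refine ⟨?_, hhyp.le, ?_⟩
    · rintro P φ ⟨hP, hφ, g, -, hg⟩
      exact ⟨hP.trans inf_le_left, fun x => (hφ x).1, g, hg⟩
    · intro P hP
      rw [Subgroup.map_le_iff_le_comap]
      refine (Subgroup.closure_le _).2 ?_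
      intro a ha
      have ha' : Nat.Coprime (orderOf a) p := ha
      have haF : IsIso (Cfsg.groupFusionSystem (S : Subgroup G)) (a : MulAut P) :=
        (mem_autGroup_iff _ (hP.trans inf_le_left)).1 a.2
      obtain ⟨-, -, g, hg⟩ := haF
      have ha'' : Nat.Coprime (orderOf (a : MulAut P)) p := by
        rwa [Subgroup.orderOf_coe]
      obtain ⟨g', hg', hg'a⟩ := exists_pResidual_conj (a : MulAut P) ha'' g hg
      refine Subgroup.mem_comap.2 (Subgroup.subset_closure ?_)
      exact ⟨hP, fun x => hP ((a : MulAut P) x).2, g', hg', hg'a⟩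
  exact Cfsg.Agent.Helper86.sameHoms_of_pPowerIndex S.isPGroup' _ E _ hE.1 hsat₂ hE.2 hidx₂ hhyp

end Cfsg.Agent.S5139
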