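import Cfsg.Statements.S5148
import Cfsg.Agent.S5132
import Cfsg.Agent.S5134
import Cfsg.Agent.S5144
import Cfsg.Agent.Helper88.FusionInner

set_option autoImplicit false
open Cfsg

namespace Cfsg.Agent.S5148

open Cfsg.FusionSystem Cfsg.Agent.Helper85

/-- A quasisimple fusion system over a finite p-group S (saturated, equal to its p-residual subsystem, with simple — in particular nontrivial — factor system modulo its centre) has S nonabelian. -/
theorem result {Ω : Type*} [Group Ω] {S : Subgroup Ω} [Finite S] (p : ℕ) [Fact p.Prime] (hS : IsPGroup p S) (F : Cfsg.FusionSystem S) (hq : F.Quasisimple p) : ¬ IsMulCommutative S := by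
  intro hab
  obtain ⟨hF, hhyp, hsimple⟩ := hq
  have hZc : F.IsCentral F.center := Cfsg.Agent.S5144.result F
  have hZ : F.StronglyClosed F.center := by
    refine ⟨hZc.1, fun R hR φ hφ x => ?_⟩
    obtain ⟨ψ, -, h1, h2⟩ := hZc.2 R φ hφ
    have e : Subgroup.inclusion (le_sup_left : R ≤ R ⊔ F.center) x =
        Subgroup.inclusion (le_sup_right : F.center ≤ R ⊔ F.center) ⟨x, hR x.2⟩ := Subtype.ext rfl
    rw [← h1 x, e, h2]
    exact hR x.2
  obtain ⟨E, hE⟩ := Cfsg.Agent.S5132.result p hS F F.center hZ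
  obtain ⟨hEsat, hne, hEn⟩ := hsimple E hE
  have hab' : ∀ x ∈ (⊤ : Subgroup (↥S ⧸ (F.center).subgroupOf S)),
      ∀ y ∈ (⊤ : Subgroup (↥S ⧸ (F.center).subgroupOf S)), x * y = y * x := by
    intro x _ y _
    induction x using QuotientGroup.induction_on with
    | H a =>
      induction y using QuotientGroup.induction_on with
      | H b =>
        rw [← QuotientGroup.mk_mul, ← QuotientGroup.mk_mul, mul_comm' a b]
  have hTsc : E.StronglyClosed (⊤ : Subgroup (↥S ⧸ (F.center).subgroupOf S)) :=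
    ⟨le_rfl, fun R _ φ _ x => Subgroup.mem_top _⟩
  have hSp' : IsPGroup p (⊤ : Subgroup (↥S ⧸ (F.center).subgroupOf S)) :=
    (hS.to_quotient ((F.center).subgroupOf S)).to_subgroup ⊤
  have hnorm := Cfsg.Agent.Helper88.abelian_inner_normal hSp' hEsat hab' hTsc
  rcases hEn ⊤ (innerFusionSystem ⊤) hnorm with h | ⟨_, h⟩
  · exact hne h
  · have hmor := Cfsg.Agent.S5134.result p hS F hF F.center hZ _ E hE
    have key : ∀ (P : Subgroup Ω) (φ : P →* Ω), φ ∈ F.Hom P → ∀ x : P, (x : Ω)⁻¹ * φ x ∈ F.center := by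
      intro P φ hφ x
      obtain ⟨φ', hφ', hP, hφS, hP', heq⟩ := hmor.1.2 P φ hφ
      rw [← h] at hφ'
      obtain ⟨-, g, hg, hφg⟩ := hφ'
      have h1 := heq x
      rw [hφg] at h1
      have h2 : g * (QuotientGroup.mk' ((F.center).subgroupOf S)) ⟨x, hP x.2⟩ * g⁻¹ =
          (QuotientGroup.mk' ((F.center).subgroupOf S)) ⟨x, hP x.2⟩ := by
        rw [hab' g (Subgroup.mem_top _) _ (Subgroup.mem_top _), mul_inv_cancel_right]
      have h3 : (QuotientGroup.mk' ((F.center).subgroupOf S)) ⟨x, hP x.2⟩ =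
          (QuotientGroup.mk' ((F.center).subgroupOf S)) ⟨φ x, hφS x⟩ := h2.symm.trans h1
      have h4 : (QuotientGroup.mk' ((F.center).subgroupOf S)) ((⟨x, hP x.2⟩ : S)⁻¹ * ⟨φ x, hφS x⟩) = 1 := by
        rw [map_mul, map_inv, h3, inv_mul_cancel]
      exact (hE.2.1 _).1 h4
    have hle : F.hyperfocalSubgroup p ≤ F.center := by
      refine (Subgroup.closure_le _).2 ?_
      rintro y ⟨P, α, x, hP, -, rfl⟩
      have hα : IsIso F (α : MulAut P) := (mem_autGroup_iff F hP).1 α.2
      exact key P _ hα x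
    rw [hhyp] at hle
    apply hne
    rw [eq_bot_iff]
    intro q _
    induction q using QuotientGroup.induction_on with
    | H s =>
      rw [Subgroup.mem_bot, QuotientGroup.eq_one_iff]
      exact Subgroup.mem_subgroupOf.2 (hle s.2)

end Cfsg.Agent.S5148
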