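import Cfsg.Statements.S5153
import Cfsg.Agent.Helper85.Sat2

set_option autoImplicit false
open Cfsg

namespace Cfsg.Agent.S5153

open Cfsg.FusionSystem Cfsg.Agent.Helper85

variable {Ω : Type*} [Group Ω]

theorem step {S : Subgroup Ω} {p : ℕ} [Fact p.Prime] [Finite S] (hS : IsPGroup p S) (F : FusionSystem S)
    {U : Subgroup Ω} (D : FusionSystem U) (hD : D.IsNormalIn F p) (P : Subgroup Ω) (hPU : P ≤ U)
    (hP : F.IsFullyNormalized P) : D.IsFullyNormalized P := by
  obtain ⟨⟨-, hF, hsub, hsc, -, -⟩, -⟩ := hD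
  have hUS : U ≤ S := hsc.1
  refine ⟨hPU, fun Q hQ => ?_⟩
  have hQ' : F.IsConj P Q := by
    obtain ⟨φ, hφ, hr⟩ := hQ
    exact ⟨φ, hsub P hφ, hr⟩
  obtain ⟨ψ, hψ, hN, -, -⟩ := exists_normalizer_map_of_fullyNormalized hS F hF hP (isConj_symm F hQ')
  have hle : normalizerIn U Q ≤ normalizerIn S Q := inf_le_inf_right _ hUS
  have hmem : ∀ x : ↥(normalizerIn U Q), ψ (Subgroup.inclusion hle x) ∈ normalizerIn U P := by
    intro x
    refine ⟨?_, (hN _).2⟩
    exact hsc.2 (normalizerIn U Q) inf_le_left _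
      (restrict_mem F (restrict_mem F hψ hle) le_rfl) x
  let f : ↥(normalizerIn U Q) → ↥(normalizerIn U P) := fun x => ⟨ψ (Subgroup.inclusion hle x), hmem x⟩
  have hf : Function.Injective f := by
    intro a b hab
    have h1 : ψ (Subgroup.inclusion hle a) = ψ (Subgroup.inclusion hle b) := congrArg Subtype.val hab
    exact Subgroup.inclusion_injective hle (F.injective_of_mem hψ h1)
  have : Finite ↥(normalizerIn U P) := finite_of_le (inf_le_left.trans hUS : normalizerIn U P ≤ S)
  exact Nat.card_le_card_of_injective f hf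

theorem subnormal_le {T : Subgroup Ω} (E : FusionSystem T) {S : Subgroup Ω} (F : FusionSystem S) (p : ℕ)
    (hE : E.IsSubnormalIn F p) : T ≤ S := by
  induction hE with
  | refl F p => exact le_rfl
  | step _ hDF ih => exact ih.trans hDF.1.2.2.2.1.1

theorem main {T : Subgroup Ω} (E : FusionSystem T) {S : Subgroup Ω} (F : FusionSystem S) (p : ℕ)
    (hE : E.IsSubnormalIn F p) : Fact p.Prime → Finite S → IsPGroup p S →
      ∀ P : Subgroup Ω, P ≤ T → F.IsFullyNormalized P → E.IsFullyNormalized P := by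
  induction hE with
  | refl F p => intro _ _ _ P _ hP; exact hP
  | step hED hDF ih =>
    intro hp hfin hS P hPT hP
    have hTU := subnormal_le _ _ _ hED
    have hUS : _ ≤ _ := hDF.1.2.2.2.1.1
    have hDP := step hS _ _ hDF P (hPT.trans hTU) hP
    exact ih hp (finite_of_le hUS) (hS.to_le hUS) P hPT hDP

/-- Let F be a saturated fusion system over a finite p-group S and E a subnormal subsystem of F over T. Then every subgroup of T that is fully normalized in F is fully normalized in E. -/
theorem result {Ω : Type*} [Group Ω] {S : Subgroup Ω} [Finite S] (p : ℕ) [Fact p.Prime] (hS : IsPGroup p S) (F : Cfsg.FusionSystem S) (hF : F.IsSaturated p) {T : Subgroup Ω} (E : Cfsg.FusionSystem T) (hE : E.IsSubnormalIn F p) (P : Subgroup Ω) (hPT : P ≤ T) (hP : F.IsFullyNormalized P) : E.IsFullyNormalized P :=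
  main E F p hE inferInstance inferInstance hS P hPT hP

end Cfsg.Agent.S5153
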