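import Cfsg.Statements.S5160
import Cfsg.Agent.Helper85.Centric
import Cfsg.Agent.S5095

set_option autoImplicit false
open Cfsg

namespace Cfsg.Agent.S5160

open Cfsg.FusionSystem Cfsg.Agent.Helper85

/-- an automorphism of `S` induced by `g`, whose restriction to a centric subgroup `R` normalized by `g`
lies in `E`, lies in `E` -/
theorem aut_extend {G : Type*} [Group G] [Finite G] {p : ℕ} [Fact p.Prime] (S : Sylow p G)
    (E : FusionSystem (S : Subgroup G)) (hEsat : E.IsSaturated p)
    (hEsub : E.IsSubsystemOf (groupFusionSystem (S : Subgroup G))) :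
    ∀ (n : ℕ) (R : Subgroup G), (groupFusionSystem (S : Subgroup G)).IsCentric R →
      Nat.card ↥(S : Subgroup G) ≤ Nat.card R + n →
      ∀ (g : G) (hgR : g ∈ Subgroup.normalizer (R : Set G))
        (hgS : g ∈ Subgroup.normalizer (((S : Subgroup G)) : Set G)),
        R.normalizerMonoidHom ⟨g, hgR⟩ ∈ E.autGroup R →
        (S : Subgroup G).normalizerMonoidHom ⟨g, hgS⟩ ∈ E.autGroup (S : Subgroup G) := by
  have hS : IsPGroup p ↥(S : Subgroup G) := S.isPGroup'
  have hF := Helper84.groupFS_saturated S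
  intro n
  induction n with
  | zero =>
    intro R hRc hcard g hgR hgS hγ
    have hRS : R = (S : Subgroup G) := Subgroup.eq_of_le_of_card_ge hRc.1 (by simpa using hcard)
    subst hRS
    exact hγ
  | succ n ih =>
    intro R hRc hcard g hgR hgS hγ
    by_cases hRS : R = (S : Subgroup G)
    · subst hRS
      exact hγ
    · have hR : R ≤ (S : Subgroup G) := hRc.1
      have hlt := card_lt_card_normalizerIn hS hR hRS
      have hN₁S : normalizerIn (S : Subgroup G) R ≤ (S : Subgroup G) := inf_le_left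
      have hRN₁ : R ≤ normalizerIn (S : Subgroup G) R := le_inf hR Subgroup.le_normalizer
      have hN₁c : (groupFusionSystem (S : Subgroup G)).IsCentric (normalizerIn (S : Subgroup G) R) :=
        Helper84.centric_of_le _ hRc hRN₁ hN₁S
      have hfinN : Finite ↥(normalizerIn (S : Subgroup G) R) := inferInstance
      have hgN₁ : g ∈ Subgroup.normalizer ((normalizerIn (S : Subgroup G) R : Subgroup G) : Set G) := by
        apply mem_normalizer_of_conj_mem
        intro x hx
        exact ⟨(Subgroup.mem_normalizer_iff.mp hgS x).mp hx.1,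
          Subgroup.mul_mem _ (Subgroup.mul_mem _ hgR hx.2) (Subgroup.inv_mem _ hgR)⟩
      refine ih _ hN₁c (by omega) g hgN₁ hgS ?_
      have hγI : IsIso E (R.normalizerMonoidHom ⟨g, hgR⟩) := (mem_autGroup_iff E hR).1 hγ
      have hrange : (R.subtype.comp (R.normalizerMonoidHom ⟨g, hgR⟩).toMonoidHom).range = R := by
        ext y
        constructor
        · rintro ⟨x, rfl⟩
          exact Subtype.coe_prop _
        · intro hy
          refine ⟨(R.normalizerMonoidHom ⟨g, hgR⟩).symm ⟨y, hy⟩, ?_⟩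
          show (((R.normalizerMonoidHom ⟨g, hgR⟩) ((R.normalizerMonoidHom ⟨g, hgR⟩).symm ⟨y, hy⟩) : R) : G) = y
          rw [MulEquiv.apply_symm_apply]
      have hRcE : E.IsCentric R := isCentric_of_subsystem hEsub hR le_rfl hRc
      have hrecE : E.IsReceptive R := isReceptive_of_isCentric hS E hEsat hRcE
      obtain ⟨ψ, hψ, hψv⟩ := hrecE.2 R _ hγI hrange
      have hle : normalizerIn (S : Subgroup G) R
          ≤ extender (S : Subgroup G) R (R.subtype.comp (R.normalizerMonoidHom ⟨g, hgR⟩).toMonoidHom) := by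
        intro x hx
        refine mem_extender_of hx.1 hx.2 (g * x * g⁻¹) ((Subgroup.mem_normalizer_iff.mp hgS x).mp hx.1)
          (fun r hr => ?_)
        show g * (x * r * x⁻¹) * g⁻¹ = (g * x * g⁻¹) * (g * r * g⁻¹) * (g * x * g⁻¹)⁻¹
        group
      have hγ' : ψ.comp (Subgroup.inclusion hle) ∈ E.Hom (normalizerIn (S : Subgroup G) R) :=
        restrict_mem E hψ hle
      have hφ' : conjHom (normalizerIn (S : Subgroup G) R) g
          ∈ (groupFusionSystem (S : Subgroup G)).Hom (normalizerIn (S : Subgroup G) R) :=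
        ⟨hN₁S, fun x => (Subgroup.mem_normalizer_iff.mp hgS x).mp x.2.1, g, fun x => rfl⟩
      have hagree : ∀ x : ↥(normalizerIn (S : Subgroup G) R), (x : G) ∈ R →
          (ψ.comp (Subgroup.inclusion hle)) x = conjHom (normalizerIn (S : Subgroup G) R) g x := by
        intro x hx
        exact hψv x hx (hle x.2)
      obtain ⟨z, hzR, hzC, hz⟩ := Cfsg.Agent.S5095.result p hS _ hF _ R hRN₁ hRc _ _ (hEsub _ hγ') hφ' hagree
      have hzmem : ∀ x : ↥(normalizerIn (S : Subgroup G) R),
          conjHom (normalizerIn (S : Subgroup G) R) (z : G) x ∈ normalizerIn (S : Subgroup G) R :=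
        fun x => (z * x * z⁻¹).2
      have hcomp := E.comp_mem (E.conj_mem hN₁S (hN₁S z.2)) hγ' hzmem
      have e' : (normalizerIn (S : Subgroup G) R).subtype.comp
            ((normalizerIn (S : Subgroup G) R).normalizerMonoidHom ⟨g, hgN₁⟩).toMonoidHom
          = (ψ.comp (Subgroup.inclusion hle)).comp
            ((conjHom (normalizerIn (S : Subgroup G) R) (z : G)).codRestrict _ hzmem) := by
        ext y
        exact hz y
      rw [mem_autGroup_iff E hN₁S]
      show (normalizerIn (S : Subgroup G) R).subtype.comp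
            ((normalizerIn (S : Subgroup G) R).normalizerMonoidHom ⟨g, hgN₁⟩).toMonoidHom ∈ E.Hom _
      rw [e']
      exact hcomp

/-- the elements of `O^{p'}(N_G(R))` induce automorphisms of `R` that lie in `E` -/
theorem pelement_aut_mem {G : Type*} [Group G] [Finite G] {p : ℕ} [Fact p.Prime] (S : Sylow p G)
    (E : FusionSystem (S : Subgroup G)) (hinv : E.IsInvariantIn (groupFusionSystem (S : Subgroup G)))
    {R : Subgroup G} (hRfn : (groupFusionSystem (S : Subgroup G)).IsFullyNormalized R) :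
    ∀ g ∈ Subgroup.closure {g : G | g ∈ Subgroup.normalizer (R : Set G) ∧ ∃ k : ℕ, orderOf g = p ^ k},
      ∃ hgN : g ∈ Subgroup.normalizer (R : Set G), R.normalizerMonoidHom ⟨g, hgN⟩ ∈ E.autGroup R := by
  have hS : IsPGroup p ↥(S : Subgroup G) := S.isPGroup'
  have hF := Helper84.groupFS_saturated S
  have hR : R ≤ (S : Subgroup G) := hRfn.1
  have hRfin : Finite R := inferInstance
  obtain ⟨-, Rs, hRs⟩ := Helper84.groupFS_fullyAutomized S hRfn
  have hsub : {g : G | g ∈ Subgroup.normalizer (R : Set G) ∧ ∃ k : ℕ, orderOf g = p ^ k} ⊆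
      (((E.autGroup R).comap R.normalizerMonoidHom).map (Subgroup.normalizer (R : Set G)).subtype : Set G) := by
    rintro g₀ ⟨hg₀N, k, hk⟩
    refine ⟨⟨g₀, hg₀N⟩, ?_, rfl⟩
    show R.normalizerMonoidHom ⟨g₀, hg₀N⟩ ∈ E.autGroup R
    have hβF : R.normalizerMonoidHom ⟨g₀, hg₀N⟩ ∈ (groupFusionSystem (S : Subgroup G)).autGroup R := by
      rw [mem_autGroup_iff _ hR]
      exact ⟨hR, fun x => hR (Subtype.coe_prop _), g₀, fun x => rfl⟩
    have hpow : (⟨R.normalizerMonoidHom ⟨g₀, hg₀N⟩, hβF⟩ :
        ↥((groupFusionSystem (S : Subgroup G)).autGroup R)) ^ p ^ k = 1 := by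
      apply Subtype.ext
      show (R.normalizerMonoidHom ⟨g₀, hg₀N⟩) ^ p ^ k = 1
      rw [← map_pow]
      have h0 : (⟨g₀, hg₀N⟩ : ↥(Subgroup.normalizer (R : Set G))) ^ p ^ k = 1 := by
        apply Subtype.ext
        show g₀ ^ p ^ k = 1
        rw [← hk]
        exact pow_orderOf_eq_one g₀
      rw [h0, map_one]
    have hzp : IsPGroup p ↥(Subgroup.zpowers (⟨R.normalizerMonoidHom ⟨g₀, hg₀N⟩, hβF⟩ :
        ↥((groupFusionSystem (S : Subgroup G)).autGroup R))) := by
      rintro ⟨h, hh⟩
      obtain ⟨i, rfl⟩ := Subgroup.mem_zpowers_iff.mp hh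
      refine ⟨k, Subtype.ext ?_⟩
      show ((⟨R.normalizerMonoidHom ⟨g₀, hg₀N⟩, hβF⟩ :
        ↥((groupFusionSystem (S : Subgroup G)).autGroup R)) ^ i) ^ p ^ k = 1
      rw [← zpow_natCast, ← zpow_mul, mul_comm, zpow_mul, zpow_natCast, hpow, one_zpow]
    obtain ⟨a, ha⟩ := sylow_conj Rs hzp
    have h1 : a * ⟨R.normalizerMonoidHom ⟨g₀, hg₀N⟩, hβF⟩ * a⁻¹
        ∈ (Rs : Subgroup ↥((groupFusionSystem (S : Subgroup G)).autGroup R)) := ha _ (Subgroup.mem_zpowers _)
    rw [hRs] at h1
    have h2 : (a : MulAut R) * R.normalizerMonoidHom ⟨g₀, hg₀N⟩ * (a : MulAut R)⁻¹ ∈ E.autGroup R :=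
      autInducedBy_le_autGroup E hR h1
    have h3 := autGroup_conj_mem_of_invariant hS _ hF E hinv hR (Subgroup.inv_mem _ a.2) h2
    have h4 : (a : MulAut R)⁻¹ * ((a : MulAut R) * R.normalizerMonoidHom ⟨g₀, hg₀N⟩ * (a : MulAut R)⁻¹)
        * ((a : MulAut R)⁻¹)⁻¹ = R.normalizerMonoidHom ⟨g₀, hg₀N⟩ := by group
    rw [← h4]
    exact h3
  intro g hg
  obtain ⟨n, hn, rfl⟩ := (Subgroup.closure_le _).2 hsub hg
  exact ⟨n.2, hn⟩

/-- Let G be a finite group with nontrivial Sylow p-subgroup S and F its fusion system on S. Suppose (a) no nontrivial proper subgroup of S is strongly closed in F, and (b) the automorphisms of S induced by G are generated by those induced, for R running over the fully normalized radical centric subgroups of F, by the subgroup of N_G(R) generated by its elements of p-power order. Then F is simple. -/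
theorem result {G : Type*} [Group G] [Finite G] (p : ℕ) [Fact p.Prime] (S : Sylow p G) (hS1 : (S : Subgroup G) ≠ ⊥) (ha : ∀ T : Subgroup G, (Cfsg.groupFusionSystem (S : Subgroup G)).StronglyClosed T → T = ⊥ ∨ T = (S : Subgroup G)) (hb : Cfsg.autInducedBy ⊤ (S : Subgroup G) = ⨆ (R : Subgroup G) (_ : (Cfsg.groupFusionSystem (S : Subgroup G)).IsFullyNormalized R ∧ (Cfsg.groupFusionSystem (S : Subgroup G)).IsRadical p R ∧ (Cfsg.groupFusionSystem (S : Subgroup G)).IsCentric R), Cfsg.autInducedBy (Subgroup.closure {g : G | g ∈ Subgroup.normalizer (R : Set G) ∧ ∃ k : ℕ, orderOf g = p ^ k}) (S : Subgroup G)) : (Cfsg.groupFusionSystem (S : Subgroup G)).IsSimple p := by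
  have hS : IsPGroup p ↥(S : Subgroup G) := S.isPGroup'
  have hF := Helper84.groupFS_saturated S
  refine ⟨hF, hS1, fun T E hE => ?_⟩
  obtain ⟨⟨hEsat, -, hinv⟩, -⟩ := hE
  have hTsc := hinv.2.1
  rcases ha T hTsc with hT | hT
  · exact Or.inl hT
  · right
    subst hT
    have hEsub := hinv.1
    have hfrat := hinv.2.2.2
    refine ⟨rfl, fun P => ?_⟩
    have hsup : (⨆ (R : Subgroup G) (_ : (Cfsg.groupFusionSystem (S : Subgroup G)).IsFullyNormalized R ∧ (Cfsg.groupFusionSystem (S : Subgroup G)).IsRadical p R ∧ (Cfsg.groupFusionSystem (S : Subgroup G)).IsCentric R), Cfsg.autInducedBy (Subgroup.closure {g : G | g ∈ Subgroup.normalizer (R : Set G) ∧ ∃ k : ℕ, orderOf g = p ^ k}) (S : Subgroup G))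
        ≤ E.autGroup (S : Subgroup G) := by
      refine iSup_le fun R => iSup_le fun hR => ?_
      obtain ⟨hRfn, -, hRc⟩ := hR
      intro α hα
      obtain ⟨g, hgK, hg⟩ := mem_autInducedBy_iff.1 hα
      have hgS : g ∈ Subgroup.normalizer (((S : Subgroup G)) : Set G) := by
        apply mem_normalizer_of_conj_mem
        intro x hx
        rw [← hg ⟨x, hx⟩]
        exact (α _).2
      obtain ⟨hgR, hγ⟩ := pelement_aut_mem S E hinv hRfn g hgK
      have h1 := aut_extend S E hEsat hEsub (Nat.card ↥(S : Subgroup G)) R hRc (Nat.le_add_left _ _) g hgR hgS hγ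
      have h2 : α = (S : Subgroup G).normalizerMonoidHom ⟨g, hgS⟩ := by
        apply MulEquiv.ext
        intro x
        apply Subtype.ext
        exact hg x
      rw [h2]
      exact h1
    have hkey : (groupFusionSystem (S : Subgroup G)).autGroup (S : Subgroup G) ≤ E.autGroup (S : Subgroup G) := by
      intro α hα
      have hα' : α ∈ autInducedBy ⊤ (S : Subgroup G) := by
        obtain ⟨-, -, g, hg⟩ := (mem_autGroup_iff _ le_rfl).1 hα
        exact mem_autInducedBy_iff.2 ⟨g, Subgroup.mem_top _, hg⟩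
      rw [hb] at hα'
      exact hsup hα'
    apply Set.Subset.antisymm (hEsub P)
    intro φ hφ
    have hP : P ≤ (S : Subgroup G) := hφ.1
    obtain ⟨α, hα, φ₀, hφ₀, hv⟩ := hfrat P hP φ hφ
    have hαE : α ∈ E.autGroup (S : Subgroup G) := hkey hα
    have hαI : IsIso E α := (mem_autGroup_iff E le_rfl).1 hαE
    have hφ₀S : ∀ x : P, φ₀ x ∈ (S : Subgroup G) := (E.le_of_mem hφ₀).2
    have hcomp := E.comp_mem hφ₀ hαI hφ₀S
    have e' : φ = ((S : Subgroup G).subtype.comp α.toMonoidHom).comp (φ₀.codRestrict _ hφ₀S) := by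
      ext x
      exact hv x (hφ₀S x)
    rw [e']
    exact hcomp

end Cfsg.Agent.S5160
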