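import Cfsg.Statements.S5198
import Cfsg.Agent.Helper84.FusionFocal
import Cfsg.Agent.Helper85.Factor

set_option autoImplicit false
open Cfsg

namespace Cfsg.Agent.S5198

theorem inn_normal (G : Type*) [Group G] : (Cfsg.Inn G).Normal := by
  constructor
  rintro _ ⟨g, rfl⟩ φ
  refine ⟨φ g, ?_⟩
  ext t
  simp [MulAut.conj_apply]

/-- A homomorphism `κ` from `S` to a `p`-group that is compatible with the maps of the system up to conjugacy
in the target kills the hyperfocal subgroup. -/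
theorem hyperfocal_le_ker {Ω : Type*} [Group Ω] {S : Subgroup Ω} {p : ℕ} [Fact p.Prime]
    (F : Cfsg.FusionSystem S) {Γ : Type*} [Group Γ] (hΓ : IsPGroup p Γ) (κ : S →* Γ)
    (hκ : ∀ (P : Subgroup Ω) (φ : P →* Ω), φ ∈ F.Hom P → ∃ γ : Γ,
      ∀ (x : P) (hx : (x : Ω) ∈ S) (hφx : φ x ∈ S), κ ⟨φ x, hφx⟩ = γ * κ ⟨x, hx⟩ * γ⁻¹) :
    F.hyperfocalSubgroup p ≤ κ.ker.map S.subtype := by
  unfold Cfsg.FusionSystem.hyperfocalSubgroup
  rw [Subgroup.closure_le]
  rintro y ⟨P, α, x, hPS, hα, rfl⟩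
  -- the automorphisms of `P` in the system preserving `κ`
  have key : ∀ a : F.autGroup P, a ∈ Cfsg.pResidual p (F.autGroup P) →
      ∀ x : P, κ ⟨((a : MulAut P) x : P), hPS ((a : MulAut P) x).2⟩ = κ ⟨x, hPS x.2⟩ := by
    intro a ha
    refine Subgroup.closure_induction (p := fun (a : F.autGroup P) _ => ∀ x : P,
      κ ⟨((a : MulAut P) x : P), hPS ((a : MulAut P) x).2⟩ = κ ⟨x, hPS x.2⟩) ?_ ?_ ?_ ?_ ha
    · intro a hcop x
      have hcop' : Nat.Coprime (orderOf (a : MulAut P)) p := by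
        rw [Subgroup.orderOf_coe]; exact hcop
      have hmem : P.subtype.comp (a : MulAut P).toMonoidHom ∈ F.Hom P :=
        (Helper84.mem_autGroup_iff F hPS _).mp a.2
      obtain ⟨γ, hγ⟩ := hκ P _ hmem
      have hγ' : ∀ x : P, κ ⟨((a : MulAut P) x : P), hPS ((a : MulAut P) x).2⟩ = γ * κ ⟨x, hPS x.2⟩ * γ⁻¹ :=
        fun x => hγ x (hPS x.2) (hPS ((a : MulAut P) x).2)
      have hpow : ∀ (n : ℕ) (x : P), κ ⟨(((a : MulAut P) ^ n) x : P), hPS (((a : MulAut P) ^ n) x).2⟩ =
          γ ^ n * κ ⟨x, hPS x.2⟩ * (γ ^ n)⁻¹ := by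
        intro n
        induction n with
        | zero => intro x; simp
        | succ n ih =>
          intro x
          have h1 : ((a : MulAut P) ^ (n + 1)) x = ((a : MulAut P) ^ n) ((a : MulAut P) x) := by
            rw [pow_succ]; rfl
          rw [h1, ih, hγ', pow_succ]
          group
      obtain ⟨k, hk⟩ := hΓ γ
      have hfix : ∀ x : P, κ ⟨(((a : MulAut P) ^ p ^ k) x : P), hPS (((a : MulAut P) ^ p ^ k) x).2⟩ =
          κ ⟨x, hPS x.2⟩ := by
        intro x
        rw [hpow, hk]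
        simp
      have hfix' : ∀ (m : ℕ) (x : P),
          κ ⟨((((a : MulAut P) ^ p ^ k) ^ m) x : P), hPS ((((a : MulAut P) ^ p ^ k) ^ m) x).2⟩ =
          κ ⟨x, hPS x.2⟩ := by
        intro m
        induction m with
        | zero => intro x; simp
        | succ m ih =>
          intro x
          have h1 : (((a : MulAut P) ^ p ^ k) ^ (m + 1)) x =
              (((a : MulAut P) ^ p ^ k) ^ m) (((a : MulAut P) ^ p ^ k) x) := by
            rw [pow_succ]; rfl
          rw [h1, ih, hfix]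
      have hcop2 : Nat.Coprime (p ^ k) (orderOf (a : MulAut P)) :=
        Nat.Coprime.pow_left k hcop'.symm
      obtain ⟨m, hm⟩ := exists_pow_eq_self_of_coprime hcop2
      have := hfix' m x
      rw [hm] at this
      exact this
    · intro x
      rfl
    · intro a b _ _ iha ihb x
      have h1 : ((a * b : F.autGroup P) : MulAut P) x = (a : MulAut P) ((b : MulAut P) x) := rfl
      rw [h1, iha, ihb]
    · intro a _ iha x
      have h1 := iha (((a⁻¹ : F.autGroup P) : MulAut P) x)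
      have h2 : (a : MulAut P) (((a⁻¹ : F.autGroup P) : MulAut P) x) = x := by
        rw [Subgroup.coe_inv]
        exact MulAut.apply_inv_self _ _ _
      rw [h2] at h1
      exact h1.symm
  refine ⟨⟨x, hPS x.2⟩⁻¹ * ⟨((α : MulAut P) x : P), hPS ((α : MulAut P) x).2⟩, ?_, rfl⟩
  rw [SetLike.mem_coe, MonoidHom.mem_ker, map_mul, map_inv, key α hα x, inv_mul_cancel]

/-- Let F be a saturated fusion system over a finite p-group S and T a subgroup of S strongly closed in F (so T is normal in S). Then every element x of the hyperfocal subgroup of F acts on T by conjugation as an element of O^p(Aut_F(T))·Inn(T): there is an automorphism of T in the subgroup generated by the elements of Aut_F(T) of order prime to p together with the inner automorphisms of T that agrees with conjugation by x. -/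
theorem result {Ω : Type*} [Group Ω] {S : Subgroup Ω} [Finite S] (p : ℕ) [Fact p.Prime] (hS : IsPGroup p S) (F : Cfsg.FusionSystem S) (hF : F.IsSaturated p) (T : Subgroup Ω) (hT : F.StronglyClosed T) : ∀ x ∈ F.hyperfocalSubgroup p, ∃ α ∈ ((Cfsg.pResidual p ↥(F.autGroup T)).map (F.autGroup T).subtype ⊔ Cfsg.Inn ↥T : Subgroup (MulAut ↥T)), ∀ t : ↥T, ((α t : ↥T) : Ω) = x * (t : Ω) * x⁻¹ := by
  classical
  have hTS : T ≤ S := hT.1
  have hfinT : Finite T := Helper84.finite_of_le hTS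
  have hn : ∀ s : S, (s : Ω) ∈ Subgroup.normalizer (T : Set Ω) := fun s =>
    Helper85.mem_normalizer_of_conj_mem (fun t ht => Helper85.stronglyClosed_conj_mem hT s.2 ht)
  -- conjugation by elements of `S`, as a homomorphism into `Aut_F(T)`
  have hcA : ∀ s : S, Helper84.conjAut T (s : Ω) (hn s) ∈ F.autGroup T := fun s =>
    Helper84.autInducedBy_le_autGroup F hTS (Helper84.conjAut_mem_autInducedBy s.2 (hn s))
  let c : S →* F.autGroup T := MonoidHom.mk' (fun s => ⟨Helper84.conjAut T (s : Ω) (hn s), hcA s⟩) (by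
    intro s s'
    apply Subtype.ext
    apply MulEquiv.ext
    intro t
    apply Subtype.ext
    show (s : Ω) * s' * t * ((s : Ω) * s')⁻¹ = s * (s' * t * (s' : Ω)⁻¹) * (s : Ω)⁻¹
    group)
  have hc_apply : ∀ (s : S) (t : T), (((c s : F.autGroup T) : MulAut T) t : Ω) = s * t * (s : Ω)⁻¹ :=
    fun s t => rfl
  have hInnA : Cfsg.Inn T ≤ F.autGroup T := Helper84.inn_le_autGroup F hTS
  have hRn : (Cfsg.pResidual p (F.autGroup T)).Normal := Helper84.pResidual_normal p
  have hIn : (Cfsg.Inn T).Normal := inn_normal T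
  let N : Subgroup (F.autGroup T) := Cfsg.pResidual p (F.autGroup T) ⊔ (Cfsg.Inn T).subgroupOf (F.autGroup T)
  have hNn : N.Normal := inferInstance
  have hNmap : N.map (F.autGroup T).subtype =
      (Cfsg.pResidual p (F.autGroup T)).map (F.autGroup T).subtype ⊔ Cfsg.Inn T := by
    rw [Subgroup.map_sup, Subgroup.map_subgroupOf_eq_of_le hInnA]
  have hΓ : IsPGroup p (F.autGroup T ⧸ N) := by
    intro q
    obtain ⟨a, rfl⟩ := QuotientGroup.mk_surjective q
    obtain ⟨k, hk⟩ := Helper84.exists_pow_mem_pResidual (p := p) a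
    refine ⟨k, ?_⟩
    rw [← QuotientGroup.mk_pow]
    exact (QuotientGroup.eq_one_iff _).mpr (Subgroup.mem_sup_left hk)
  let κ : S →* F.autGroup T ⧸ N := (QuotientGroup.mk' N).comp c
  have hκ : ∀ (P : Subgroup Ω) (φ : P →* Ω), φ ∈ F.Hom P → ∃ γ : F.autGroup T ⧸ N,
      ∀ (x : P) (hx : (x : Ω) ∈ S) (hφx : φ x ∈ S), κ ⟨φ x, hφx⟩ = γ * κ ⟨x, hx⟩ * γ⁻¹ := by
    intro P φ hφ
    obtain ⟨φ', hφ', hval⟩ := Helper85.exists_extension_mod_stronglyClosed hS F hF T hT P φ hφ
    have hTle : T ≤ P ⊔ T := le_sup_right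
    have hm : (T.subgroupOf (P ⊔ T)).map φ' = T := by
      ext y
      constructor
      · rintro ⟨z, hz, rfl⟩
        exact Helper85.stronglyClosed_map_mem hT hφ' z hz
      · intro hy
        let f : T → T := fun t => ⟨φ' ⟨t, hTle t.2⟩, Helper85.stronglyClosed_map_mem hT hφ' _ t.2⟩
        have hf : Function.Injective f := by
          intro a b hab
          have h1 : φ' ⟨a, hTle a.2⟩ = φ' ⟨b, hTle b.2⟩ := congrArg (fun z : T => (z : Ω)) hab
          have h2 := F.injective_of_mem hφ' h1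
          exact Subtype.ext (congrArg (fun z : ↥(P ⊔ T) => (z : Ω)) h2)
        obtain ⟨t, ht⟩ := Finite.surjective_of_injective hf ⟨y, hy⟩
        exact ⟨⟨t, hTle t.2⟩, t.2, congrArg (fun z : T => (z : Ω)) ht⟩
    let χ : MulAut T := Helper84.restrictIso F hTle hφ' hm
    have hχ_apply : ∀ t : T, ((χ t : T) : Ω) = φ' ⟨t, hTle t.2⟩ := fun t => rfl
    have hχ : χ ∈ F.autGroup T :=
      (Helper84.mem_autGroup_iff_isFIso F hTS χ).mpr (Helper84.isFIso_restrictIso F hTle hφ' hm)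
    refine ⟨QuotientGroup.mk' N ⟨χ, hχ⟩, fun x hx hφx => ?_⟩
    have ht₁ : (φ x)⁻¹ * φ' (Subgroup.inclusion le_sup_left x) ∈ T := hval x
    let i : F.autGroup T := ⟨MulAut.conj (⟨_, ht₁⟩ : T), hInnA ⟨_, rfl⟩⟩
    have hi : i ∈ N := Subgroup.mem_sup_right (Subgroup.mem_subgroupOf.mpr ⟨_, rfl⟩)
    have hrel : c ⟨φ x, hφx⟩ * i * ⟨χ, hχ⟩ = ⟨χ, hχ⟩ * c ⟨x, hx⟩ := by
      apply Subtype.ext
      apply MulEquiv.ext
      intro t
      apply Subtype.ext
      have hxt : (x : Ω) * t * (x : Ω)⁻¹ ∈ T := Helper85.stronglyClosed_conj_mem hT hx t.2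
      have e1 : (⟨(x : Ω) * t * (x : Ω)⁻¹, hTle hxt⟩ : ↥(P ⊔ T)) =
          Subgroup.inclusion le_sup_left x * ⟨t, hTle t.2⟩ * (Subgroup.inclusion le_sup_left x)⁻¹ := rfl
      show φ x * (((φ x)⁻¹ * φ' (Subgroup.inclusion le_sup_left x)) * ((χ t : T) : Ω) *
          ((φ x)⁻¹ * φ' (Subgroup.inclusion le_sup_left x))⁻¹) * (φ x)⁻¹ =
        φ' ⟨(x : Ω) * t * (x : Ω)⁻¹, hTle hxt⟩
      rw [e1, map_mul, map_mul, map_inv, hχ_apply]
      group
    have h2 := congrArg (QuotientGroup.mk' N) hrel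
    rw [map_mul, map_mul, map_mul] at h2
    have h3 : QuotientGroup.mk' N i = 1 := (QuotientGroup.eq_one_iff _).mpr hi
    rw [h3, mul_one] at h2
    exact eq_mul_inv_of_mul_eq h2
  intro x hx
  obtain ⟨s, hs, rfl⟩ := hyperfocal_le_ker F hΓ κ hκ hx
  have h1 : c s ∈ N := (QuotientGroup.eq_one_iff _).mp (MonoidHom.mem_ker.mp hs)
  refine ⟨((c s : F.autGroup T) : MulAut T), ?_, fun t => hc_apply s t⟩
  rw [← hNmap]
  exact Subgroup.mem_map_of_mem (F.autGroup T).subtype h1

end Cfsg.Agent.S5198
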