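import Cfsg.Statements.S5199
import Cfsg.Agent.Helper84.FusionFocal

set_option autoImplicit false
open Cfsg

namespace Cfsg.Agent.S5199

open Cfsg.FusionSystem in
/-- The maps of a fusion system over `U` between subgroups of `T ≤ U`, as a fusion system over `T`. -/
def restrictTo {Ω : Type*} [Group Ω] {U : Subgroup Ω} (F₀ : Cfsg.FusionSystem U) (T : Subgroup Ω)
    (hTU : T ≤ U) : Cfsg.FusionSystem T where
  Hom P := {φ | φ ∈ F₀.Hom P ∧ P ≤ T ∧ ∀ x : P, φ x ∈ T}
  le_of_mem := by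
    rintro P φ ⟨-, hP, hφ⟩
    exact ⟨hP, hφ⟩
  injective_of_mem := by
    rintro P φ ⟨hφ, -⟩
    exact F₀.injective_of_mem hφ
  conj_mem := by
    intro P g hP hg
    refine ⟨F₀.conj_mem (hP.trans hTU) (hTU hg), hP, fun x => ?_⟩
    exact T.mul_mem (T.mul_mem hg (hP x.2)) (T.inv_mem hg)
  comp_mem := by
    rintro P Q φ ψ ⟨hφ, hP, -⟩ ⟨hψ, -, hψT⟩ h
    exact ⟨F₀.comp_mem hφ hψ h, hP, fun x => hψT _⟩
  inv_mem := by
    rintro P φ ⟨hφ, hP, hφT⟩
    obtain ⟨ψ, hψ, hψ'⟩ := F₀.inv_mem hφ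
    refine ⟨ψ, ⟨hψ, ?_, ?_⟩, hψ'⟩
    · rintro _ ⟨x, rfl⟩
      exact hφT x
    · rintro ⟨_, x, rfl⟩
      rw [hψ']
      exact hP x.2

theorem map_pResidual_mem {G G' : Type*} [Group G] [Group G'] (p : ℕ) (f : G →* G') {n : G}
    (hn : n ∈ pResidual p G) : f n ∈ pResidual p G' := by
  refine Subgroup.closure_induction (p := fun n _ => f n ∈ pResidual p G') ?_ ?_ ?_ ?_ hn
  · intro x hx
    apply Subgroup.subset_closure
    exact Nat.Coprime.coprime_dvd_left (orderOf_map_dvd f x) hx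
  · simp
  · intro x y _ _ hx hy
    rw [map_mul]
    exact Subgroup.mul_mem _ hx hy
  · intro x _ hx
    rw [map_inv]
    exact Subgroup.inv_mem _ hx

/-- Let F be a saturated fusion system over a finite p-group S, E a normal subsystem of F over T, and F₀ a normal subsystem of F over a subgroup U containing both T and the hyperfocal subgroup of F, such that F₀ has p-power index in F. Then E is a subsystem of F₀. -/
theorem result {Ω : Type*} [Group Ω] {S : Subgroup Ω} [Finite S] (p : ℕ) [Fact p.Prime] (hS : IsPGroup p S) (F : Cfsg.FusionSystem S) (hF : F.IsSaturated p) {T U : Subgroup Ω} (E : Cfsg.FusionSystem T) (hE : E.IsNormalIn F p) (F₀ : Cfsg.FusionSystem U) (hF₀ : F₀.IsNormalIn F p) (hU : T ⊔ F.hyperfocalSubgroup p ≤ U) (hidx : F₀.HasPPowerIndexIn F p) : E.IsSubsystemOf F₀ := by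
  classical
  have hEF : E.IsSubsystemOf F := hE.1.2.2.1
  have hEsat : E.IsSaturated p := hE.1.1
  have hTU : T ≤ U := le_sup_left.trans hU
  have hUS : U ≤ S := (F.le_of_mem (hidx.1 U (Cfsg.Agent.Helper84.subtype_mem F₀ le_rfl))).1
  have hTS : T ≤ S := hTU.trans hUS
  have hfinT : Finite T := Cfsg.Agent.Helper84.finite_of_le hTS
  have hT : IsPGroup p T := hS.to_le hTS
  have key : E ≤ restrictTo F₀ T hTU := by
    apply Cfsg.Agent.Helper84.alperin p hT E hEsat
    intro R hR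
    have hfn : E.IsFullyNormalized R := by
      rcases hR with hR | hR
      · subst hR
        refine ⟨le_rfl, fun Q _ => ?_⟩
        have h1 : Cfsg.FusionSystem.normalizerIn R Q ≤ Cfsg.FusionSystem.normalizerIn R R := by
          intro x hx
          exact ⟨hx.1, Subgroup.le_normalizer hx.1⟩
        exact Subgroup.card_le_of_le h1
      · exact hR.2.1
    have hRT : R ≤ T := hfn.1
    have hRU : R ≤ U := hRT.trans hTU
    have hRS : R ≤ S := hRT.trans hTS
    obtain ⟨⟨-, Syl, hSyl⟩, -⟩ := Cfsg.Agent.Helper84.saturated_fullyNormalized hT E hEsat hfn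
    have hfinR : Finite R := Cfsg.Agent.Helper84.finite_of_le hRS
    have hle : E.autGroup R ≤ F.autGroup R := by
      intro α hα
      rw [Cfsg.Agent.Helper84.mem_autGroup_iff F hRS]
      exact hEF R ((Cfsg.Agent.Helper84.mem_autGroup_iff E hRT α).mp hα)
    have hmem' : ∀ β : MulAut R, β ∈ F₀.autGroup R → β ∈ (restrictTo F₀ T hTU).autGroup R := by
      intro β hβ
      rw [Cfsg.Agent.Helper84.mem_autGroup_iff _ hRT]
      exact ⟨(Cfsg.Agent.Helper84.mem_autGroup_iff F₀ hRU β).mp hβ, hRT, fun x => hRT (β x).2⟩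
    intro α hα
    obtain ⟨b, hb, r, hr, hbr⟩ := Cfsg.Agent.Helper84.exists_mul_pResidual_sylow Syl ⟨α, hα⟩
    have hα' : α = (b : MulAut R) * (r : MulAut R) := congrArg Subtype.val hbr
    rw [hα']
    apply Subgroup.mul_mem
    · apply hmem'
      apply hidx.2.2 R hRU
      refine ⟨Subgroup.inclusion hle b, map_pResidual_mem p (Subgroup.inclusion hle) hb, rfl⟩
    · apply hmem'
      have hr' : r ∈ (Syl : Subgroup (E.autGroup R)) := hr
      rw [hSyl, Subgroup.mem_subgroupOf] at hr'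
      obtain ⟨g, hg, Hg⟩ := (Cfsg.Agent.Helper84.mem_autInducedBy_iff T R _).mp hr'
      rw [Cfsg.Agent.Helper84.mem_autGroup_iff F₀ hRU]
      exact Cfsg.Agent.Helper84.hom_of_eq F₀ (F₀.conj_mem hRU (hTU hg)) (fun x => Hg x)
  intro P φ hφ
  exact (key P hφ).1

end Cfsg.Agent.S5199
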