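import Cfsg.Statements.S5206
import Cfsg.Agent.Helper99.GroupModel
import Cfsg.Agent.Helper99.QdLocal
import Cfsg.Agent.Helper84.ModelUniq
import Cfsg.Agent.Helper84.FusionGroup2

set_option autoImplicit false
universe u
open Cfsg

namespace Cfsg.Agent.S5206

theorem isSectionOf_of_involves {H : Type*} [Group H] {G : Type*} [Group G]
    (h : Cfsg.Involves H G) : Cfsg.Agent.Helper33.IsSectionOf G H := by
  obtain ⟨K, R, hR, ⟨e⟩⟩ := h
  exact (Cfsg.Agent.Helper33.isSectionOf_quotient_subgroupOf K R).of_surjective e.toMonoidHom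
    e.surjective

theorem involves_of_isSectionOf {H : Type*} [Group H] {G : Type*} [Group G]
    (h : Cfsg.Agent.Helper33.IsSectionOf G H) : Cfsg.Involves H G := by
  obtain ⟨K, R, hR, e⟩ := h.exists_equiv
  exact ⟨K, R, hR, e⟩

/-- Let p be an odd prime, G a finite group and P a Sylow p-subgroup of G. Then the fusion system of G on P is Qd(p)-free (Qd(p), the natural semidirect product of an elementary abelian group of order p² by SL₂(p), is not involved in any model of the normalizer system of a fully normalized centric subgroup) if and only if Qd(p) is not involved in G. -/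
theorem result {G : Type u} [Group G] [Finite G] {p : ℕ} [Fact p.Prime] (hp : p ≠ 2) (P : Sylow p G) : (Cfsg.groupFusionSystem (P : Subgroup G)).IsSectionFree p ↥(Cfsg.qd p) ↔ ¬ Cfsg.Involves ↥(Cfsg.qd p) G := by
  have hS : IsPGroup p ↥(P : Subgroup G) := P.isPGroup'
  have hFsat := Cfsg.Agent.Helper84.groupFS_saturated P
  constructor
  · intro hfree hinv
    have hsec := isSectionOf_of_involves hinv
    obtain ⟨Q₀, hQ₀p, hcen₀, hsec₀⟩ := Cfsg.Agent.Helper99.qdloc_exists p hp hsec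
    obtain ⟨g₁, hg₁⟩ := Cfsg.Agent.Helper84.exists_cj_le_sylow P hQ₀p
    obtain ⟨Q, hconj, hQfn⟩ := Cfsg.Agent.Helper84.exists_fullyNormalized_conj
      (groupFusionSystem (P : Subgroup G)) hg₁
    obtain ⟨-, hQS, g₂, rfl⟩ := (Cfsg.Agent.Helper84.groupFS_isConj_iff _).1 hconj
    obtain ⟨hcen₁, hsec₁⟩ := Cfsg.Agent.Helper99.qdloc_cj p g₁ Q₀ hcen₀ hsec₀
    obtain ⟨hcen, hsecQ⟩ := Cfsg.Agent.Helper99.qdloc_cj p g₂ _ hcen₁ hsec₁
    have hQc : (groupFusionSystem (P : Subgroup G)).IsCentric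
        (Cfsg.Agent.Helper84.cj g₂ (Cfsg.Agent.Helper84.cj g₁ Q₀)) := by
      refine ⟨hQS, fun Q₂ hQ₂ => ?_⟩
      obtain ⟨-, -, g, rfl⟩ := (Cfsg.Agent.Helper84.groupFS_isConj_iff _).1 hQ₂
      exact (Cfsg.Agent.Helper99.qdloc_cj p g _ hcen hsecQ).1 _ inf_le_right
        (hS.to_le inf_le_left)
    have hsyl := (Cfsg.Agent.Helper84.groupFS_fullyNormalized_iff P _ hQS).1 hQfn
    obtain ⟨N, hN⟩ := Cfsg.Agent.Helper84.exists_normalizerSystem
      (groupFusionSystem (P : Subgroup G)) _ hQS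
    obtain ⟨O, hOn, ι, hOc, hmodel⟩ := Cfsg.Agent.Helper99.gm_exists_model P _ hQS hsyl hcen N hN
    have hsecL := Cfsg.Agent.Helper99.qdpr_section_quotient p O hOc hsecQ
    exact hfree _ hQfn hQc N hN _ ι hmodel (involves_of_isSectionOf hsecL)
  · intro hno Q hQfn hQc N hN L _ ι hM hinv
    have hQS : Q ≤ (P : Subgroup G) := hQfn.1
    have hsyl := (Cfsg.Agent.Helper84.groupFS_fullyNormalized_iff P Q hQS).1 hQfn
    have hTM : Cfsg.FusionSystem.normalizerIn (P : Subgroup G) Q ≤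
        Subgroup.normalizer (Q : Set G) := inf_le_right
    have hTS : Cfsg.FusionSystem.normalizerIn (P : Subgroup G) Q ≤ (P : Subgroup G) := inf_le_left
    have hTp : IsPGroup p ↥(Cfsg.FusionSystem.normalizerIn (P : Subgroup G) Q) := hS.to_le hTS
    have hmaxT := (Cfsg.Agent.Helper84.sylowIn_iff hTM).1 hsyl
    have hcen : ∀ D : Subgroup G, D ≤ Subgroup.centralizer (Q : Set G) → IsPGroup p D → D ≤ Q := by
      intro D hD hDp
      have hDM : D ≤ Subgroup.normalizer (Q : Set G) :=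
        hD.trans (Subgroup.centralizer_le_normalizer _)
      obtain ⟨h, hh, hconj⟩ := Cfsg.Agent.Helper84.exists_conj_le_of_maxP hTM hmaxT.1 hmaxT.2 hDM hDp
      intro y hy
      have h1 : h * y * h⁻¹ ∈ Cfsg.FusionSystem.centralizerIn (P : Subgroup G) Q :=
        ⟨hTS (hconj y hy), Cfsg.Agent.Helper99.gm_normalizer_conj_centralizer Q hh (hD hy)⟩
      have h2 : h * y * h⁻¹ ∈ Q :=
        hQc.2 Q (Cfsg.Agent.Helper84.isConj_refl _ hQS) h1
      have h3 := (Subgroup.mem_normalizer_iff.1 (Subgroup.inv_mem _ hh) _).1 h2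
      have e : h⁻¹ * (h * y * h⁻¹) * h⁻¹⁻¹ = y := by group
      rwa [e] at h3
    obtain ⟨O, hOn, ι', hOc, hmodel⟩ := Cfsg.Agent.Helper99.gm_exists_model P Q hQS hsyl hcen N hN
    have hfT : Finite ↥(Cfsg.FusionSystem.normalizerIn (P : Subgroup G) Q) :=
      Cfsg.Agent.Helper84.finite_of_le hTS
    have hNsat := Cfsg.Agent.Helper84.normalizerSystem_saturated p hS
      (groupFusionSystem (P : Subgroup G)) hFsat Q hQfn N hN
    have hQn := Cfsg.Agent.Helper84.nsys_isNormal (groupFusionSystem (P : Subgroup G)) hQS N hN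
    have hQcN := Cfsg.Agent.Helper84.nsys_isCentric (groupFusionSystem (P : Subgroup G)) hQc N hN
    obtain ⟨φ, -⟩ := Cfsg.Agent.Helper84.model_unique p hTp N ⟨hNsat, Q, hQn, hQcN⟩ ι ι' hM hmodel
    apply hno
    apply involves_of_isSectionOf
    have h1 : Cfsg.Agent.Helper33.IsSectionOf G ↥(Subgroup.normalizer (Q : Set G)) :=
      (Cfsg.Agent.Helper33.IsSectionOf.refl G).subgroup _
    have h2 : Cfsg.Agent.Helper33.IsSectionOf G (↥(Subgroup.normalizer (Q : Set G)) ⧸ O) :=
      h1.quotient O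
    have h3 : Cfsg.Agent.Helper33.IsSectionOf G L :=
      h2.of_surjective φ.symm.toMonoidHom φ.symm.surjective
    exact h3.trans (isSectionOf_of_involves hinv)

end Cfsg.Agent.S5206
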