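import Cfsg.Statements.S5214
-- import your own Cfsg.Agent.* helpers here
import Cfsg.Agent.Helper84.FusionNormal
import Cfsg.Agent.Helper29.SuzMainB
import Cfsg.Agent.S1137

set_option autoImplicit false
open Cfsg

namespace Cfsg.Agent.S5214

/-- Let S be a Suzuki 2-group (a finite nonabelian 2-group with more than one involution admitting a cyclic group of automorphisms permuting its involutions regularly). Then S is normal in every saturated fusion system over S (such a group is resistant). -/
theorem result {Ω : Type*} [Group Ω] {S : Subgroup Ω} [Finite S] (hS : IsPGroup 2 S) (F : Cfsg.FusionSystem S) (hF : F.IsSaturated 2) (hsz : Cfsg.IsSuzukiTwoGroup ↥S) : F.IsNormal S := by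
  classical
  have : Fact (Nat.Prime 2) := ⟨Nat.prime_two⟩
  obtain ⟨-, hcomm, -, -⟩ := Cfsg.Agent.Helper29.suz_higman hsz
  obtain ⟨hinvol, hZsq⟩ := Cfsg.Agent.S1137.result hsz
  have hcent : ∀ x : Ω, x ∈ S → x * x = 1 → ∀ g ∈ S, g * x = x * g := by
    intro x hx hxx g hg
    by_cases hx1 : x = 1
    · rw [hx1]; simp
    · have h1 := (hinvol ⟨x, hx⟩).1 ⟨fun h => hx1 (congrArg Subtype.val h), Subtype.ext hxx⟩
      have h2 := Subgroup.mem_center_iff.1 h1.1 ⟨g, hg⟩
      exact congrArg Subtype.val h2
  have hcommsq : ∀ x ∈ S, ∀ g ∈ S, (g * x * g⁻¹ * x⁻¹) * (g * x * g⁻¹ * x⁻¹) = 1 := by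
    intro x hx g hg
    have h1 := hcomm (⟨g, hg⟩ : S)⁻¹ (⟨x, hx⟩ : S)⁻¹
    have h2 := hZsq _ h1
    have h3 := congrArg Subtype.val h2
    simpa using h3
  rw [Cfsg.Agent.Helper84.normal_iff_essential 2 hS F hF S]
  intro P hP
  have hPS : P = S := by
    rcases hP with h | hess
    · exact h
    · by_contra hne
      have hc := hess.1
      have hPle : P ≤ S := hc.1
      have hlt : P < S := lt_of_le_of_ne hPle hne
      have hr := Cfsg.Agent.Helper84.essential_radical 2 hS F P hess
      obtain ⟨t, htS, htN, htP⟩ := Cfsg.Agent.Helper84.exists_mem_normalizer_not_mem hS hlt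
      apply Cfsg.Agent.Helper84.not_mem_inn_of_centric F hc htN htS htP
      have hcentP : ∀ z : P, z * z = 1 → ∀ g : P, g * z = z * g := by
        intro z hz g
        exact Subtype.ext (hcent z (hPle z.2) (congrArg Subtype.val hz) g (hPle g.2))
      let B : Subgroup (MulAut P) :=
        { carrier := {α | (∀ x : P, x * x = 1 → α x = x) ∧
            ∀ x : P, (α x * x⁻¹) * (α x * x⁻¹) = 1}
          one_mem' := ⟨fun x _ => rfl, fun x => by simp⟩
          mul_mem' := by
            rintro α β ⟨ha1, ha2⟩ ⟨hb1, hb2⟩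
            refine ⟨fun x hx => ?_, fun x => ?_⟩
            · rw [MulAut.mul_apply, hb1 x hx, ha1 x hx]
            · have hz := hb2 x
              have hw := ha2 x
              have e1 : β x = (β x * x⁻¹) * x := by group
              have e2 : (α * β) x * x⁻¹ = (β x * x⁻¹) * (α x * x⁻¹) := by
                rw [MulAut.mul_apply]
                conv_lhs => rw [e1]
                rw [map_mul, ha1 _ hz]
                group
              rw [e2]
              have e3 := hcentP (β x * x⁻¹) hz (α x * x⁻¹)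
              calc β x * x⁻¹ * (α x * x⁻¹) * (β x * x⁻¹ * (α x * x⁻¹))
                  = β x * x⁻¹ * ((α x * x⁻¹) * (β x * x⁻¹)) * (α x * x⁻¹) := by group
                _ = β x * x⁻¹ * ((β x * x⁻¹) * (α x * x⁻¹)) * (α x * x⁻¹) := by rw [e3]
                _ = (β x * x⁻¹ * (β x * x⁻¹)) * ((α x * x⁻¹) * (α x * x⁻¹)) := by group
                _ = 1 := by rw [hz, hw, one_mul]
          inv_mem' := by
            rintro α ⟨ha1, ha2⟩
            refine ⟨fun x hx => ?_, fun x => ?_⟩
            · calc α⁻¹ x = α⁻¹ (α x) := by rw [ha1 x hx]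
                _ = x := by simp
            · have hw := ha2 (α⁻¹ x)
              have e1 : α (α⁻¹ x) = x := by simp
              rw [e1] at hw
              have e2 : α⁻¹ x * x⁻¹ = (x * (α⁻¹ x)⁻¹)⁻¹ := by group
              rw [e2, ← mul_inv_rev, hw, inv_one] }
      have hBmem : ∀ α : MulAut P, α ∈ B ↔ (∀ x : P, x * x = 1 → α x = x) ∧
          ∀ x : P, (α x * x⁻¹) * (α x * x⁻¹) = 1 := fun α => Iff.rfl
      have hBsq : ∀ α ∈ B, α * α = 1 := by
        rintro α ⟨ha1, ha2⟩
        refine MulEquiv.ext fun x => ?_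
        have hw := ha2 x
        have e1 : α x = (α x * x⁻¹) * x := by group
        rw [MulAut.mul_apply, MulAut.one_apply]
        have e2 : α (α x) = α (α x * x⁻¹ * x) := congrArg α e1
        rw [e2, map_mul, ha1 _ hw]
        calc α x * x⁻¹ * α x = (α x * x⁻¹ * (α x * x⁻¹)) * x := by group
          _ = x := by rw [hw, one_mul]
      have hBnorm : ∀ (γ α : MulAut P), α ∈ B → γ * α * γ⁻¹ ∈ B := by
        rintro γ α ⟨ha1, ha2⟩
        refine ⟨fun x hx => ?_, fun x => ?_⟩
        · have hy : γ⁻¹ x * γ⁻¹ x = 1 := by rw [← map_mul, hx, map_one]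
          rw [MulAut.mul_apply, MulAut.mul_apply, ha1 _ hy]
          simp
        · have hw := ha2 (γ⁻¹ x)
          have e1 : (γ * α * γ⁻¹) x * x⁻¹ = γ (α (γ⁻¹ x) * (γ⁻¹ x)⁻¹) := by
            rw [MulAut.mul_apply, MulAut.mul_apply, map_mul, map_inv]
            simp
          rw [e1, ← map_mul, hw, map_one]
      have hB'n : (B.subgroupOf (F.autGroup P)).Normal :=
        ⟨fun b hb a => hBnorm a.1 b.1 hb⟩
      have hB'p : IsPGroup 2 (B.subgroupOf (F.autGroup P)) := by
        intro g
        refine ⟨1, ?_⟩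
        apply Subtype.ext
        apply Subtype.ext
        rw [pow_one, pow_two]
        exact hBsq g.1.1 g.2
      have hB'le : B.subgroupOf (F.autGroup P) ≤ pCore 2 (F.autGroup P) := by
        unfold pCore
        exact le_sSup ⟨hB'n, hB'p⟩
      have hcA : Cfsg.Agent.Helper84.conjAut P t htN ∈ F.autGroup P :=
        Cfsg.Agent.Helper84.autInducedBy_le_autGroup F hPle
          (Cfsg.Agent.Helper84.conjAut_mem_autInducedBy htS htN)
      have hcB : Cfsg.Agent.Helper84.conjAut P t htN ∈ B := by
        refine ⟨fun x hx => ?_, fun x => ?_⟩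
        · apply Subtype.ext
          rw [Cfsg.Agent.Helper84.conjAut_apply]
          have h1 := hcent x (hPle x.2) (congrArg Subtype.val hx) t htS
          rw [h1]
          group
        · apply Subtype.ext
          exact hcommsq x (hPle x.2) t htS
      rw [← hr.2]
      exact ⟨⟨_, hcA⟩, hB'le hcB, rfl⟩
  subst hPS
  refine ⟨le_rfl, fun α _ => ?_⟩
  rw [Subgroup.subgroupOf_self]
  exact Subgroup.map_top_of_surjective _ α.surjective

end Cfsg.Agent.S5214
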