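import Cfsg.Statements.S5218
import Cfsg.Agent.Helper86.PowerFix
import Cfsg.Agent.Helper87.Alperin
import Cfsg.Agent.Helper84.FusionNormal

set_option autoImplicit false
open Cfsg

namespace Cfsg.Agent.S5218

open Cfsg.FusionSystem
open scoped IsMulCommutative commutatorElement

/-- Restriction of automorphisms to the centre. -/
def centerRestrict (G : Type*) [Group G] : MulAut G →* MulAut (Subgroup.center G) where
  toFun α :=
    { toFun := fun z => ⟨α z, by
        rw [Subgroup.mem_center_iff]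
        intro g
        have h := Subgroup.mem_center_iff.mp z.2 (α⁻¹ g)
        have h2 := congrArg α h
        rw [map_mul, map_mul, MulAut.apply_inv_self] at h2
        exact h2⟩
      invFun := fun z => ⟨α⁻¹ z, by
        rw [Subgroup.mem_center_iff]
        intro g
        have h := Subgroup.mem_center_iff.mp z.2 (α g)
        have h2 := congrArg (fun y => (α⁻¹ : MulAut G) y) h
        simp only [map_mul, MulAut.inv_apply_self] at h2
        exact h2⟩
      left_inv := fun z => Subtype.ext (MulAut.inv_apply_self _ _ _)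
      right_inv := fun z => Subtype.ext (MulAut.apply_inv_self _ _ _)
      map_mul' := fun a b => Subtype.ext (map_mul α _ _) }
  map_one' := rfl
  map_mul' := fun _ _ => rfl

theorem centerRestrict_apply (G : Type*) [Group G] (α : MulAut G) (z : Subgroup.center G) :
    ((centerRestrict G α z : Subgroup.center G) : G) = α z := rfl

variable {Ω : Type*} [Group Ω]

/-- The elements of the power closure of `Z(S)` are exactly the `p^n`-th powers of elements of `Z(S)`. -/
theorem mem_powerClosure_center_iff (S : Subgroup Ω) (p n : ℕ) (w : Ω) :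
    w ∈ powerClosure p n (S ⊓ Subgroup.centralizer (S : Set Ω)) ↔
      ∃ z ∈ S ⊓ Subgroup.centralizer (S : Set Ω), w = z ^ p ^ n := by
  constructor
  · intro hw
    unfold powerClosure at hw
    induction hw using Subgroup.closure_induction with
    | mem y hy => exact hy
    | one => exact ⟨1, Subgroup.one_mem _, (one_pow _).symm⟩
    | mul a b _ _ ha hb =>
      obtain ⟨z₁, hz₁, rfl⟩ := ha
      obtain ⟨z₂, hz₂, rfl⟩ := hb
      refine ⟨z₁ * z₂, Subgroup.mul_mem _ hz₁ hz₂, ?_⟩
      have hc : Commute z₁ z₂ := Subgroup.mem_centralizer_iff.mp hz₂.2 z₁ hz₁.1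
      exact (hc.mul_pow _).symm
    | inv a _ ha =>
      obtain ⟨z, hz, rfl⟩ := ha
      exact ⟨z⁻¹, Subgroup.inv_mem _ hz, (inv_pow _ _).symm⟩
  · rintro ⟨z, hz, rfl⟩
    exact Subgroup.subset_closure ⟨z, hz, rfl⟩

theorem powerClosure_center_le (S : Subgroup Ω) (p n : ℕ) :
    powerClosure p n (S ⊓ Subgroup.centralizer (S : Set Ω)) ≤ S ⊓ Subgroup.centralizer (S : Set Ω) := by
  intro w hw
  obtain ⟨z, hz, rfl⟩ := (mem_powerClosure_center_iff S p n w).mp hw
  exact Subgroup.pow_mem _ hz _

variable {S : Subgroup Ω}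

/-- The inductive step: automorphisms of a fully automized receptive subgroup preserve the power closure
of the centre, provided all maps with larger source do. -/
theorem aut_step [Finite S] (p : ℕ) [Fact p.Prime] (hS : IsPGroup p S) (F : FusionSystem S) (n : ℕ)
    (hcl : Subgroup.lowerCentralSeries S (n * (p - 1) + 1) = ⊥)
    (R : Subgroup Ω) (hfa : F.IsFullyAutomized p R) (hrec : F.IsReceptive R)
    (hbig : ∀ (P' : Subgroup Ω) (φ' : P' →* Ω), φ' ∈ F.Hom P' → Nat.card R < Nat.card P' →
      ∀ x : P', (x : Ω) ∈ powerClosure p n (S ⊓ Subgroup.centralizer (S : Set Ω)) ↔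
        φ' x ∈ powerClosure p n (S ⊓ Subgroup.centralizer (S : Set Ω)))
    (α : MulAut R) (hα : α ∈ F.autGroup R) (x : R)
    (hx : (x : Ω) ∈ powerClosure p n (S ⊓ Subgroup.centralizer (S : Set Ω))) :
    ((α x : R) : Ω) ∈ powerClosure p n (S ⊓ Subgroup.centralizer (S : Set Ω)) := by
  have hRS : R ≤ S := hfa.1
  have hfR : Finite R := Helper87.finite_of_le hRS
  have hαF : R.subtype.comp α.toMonoidHom ∈ F.Hom R := (Helper87.mem_autGroup_iff F hRS α).mp hα
  by_cases hR : R = S
  · -- automorphisms of `S` preserve the centre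
    obtain ⟨z, hz, hxz⟩ := (mem_powerClosure_center_iff S p n _).mp hx
    have hzR : z ∈ R := by rw [hR]; exact hz.1
    have hx' : x = (⟨z, hzR⟩ : R) ^ p ^ n := Subtype.ext hxz
    rw [hx', map_pow]
    rw [mem_powerClosure_center_iff]
    refine ⟨((α ⟨z, hzR⟩ : R) : Ω), ⟨hRS (α ⟨z, hzR⟩).2, ?_⟩, rfl⟩
    show ((α ⟨z, hzR⟩ : R) : Ω) ∈ Subgroup.centralizer (S : Set Ω)
    rw [Subgroup.mem_centralizer_iff]
    intro g hg
    have hgR : g ∈ R := by rw [hR]; exact hg
    have h1 : (α⁻¹ ⟨g, hgR⟩ : R) * ⟨z, hzR⟩ = ⟨z, hzR⟩ * α⁻¹ ⟨g, hgR⟩ :=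
      Subtype.ext (Subgroup.mem_centralizer_iff.mp hz.2 _ (hRS (α⁻¹ ⟨g, hgR⟩).2))
    have h2 := congrArg (fun y : R => ((α y : R) : Ω)) h1
    simp only [map_mul, MulAut.apply_inv_self, Subgroup.coe_mul] at h2
    exact h2
  by_cases hcR : centralizerIn S R ≤ R
  · -- the centric case
    have hZR : S ⊓ Subgroup.centralizer (S : Set Ω) ≤ R := by
      intro z hz
      apply hcR
      refine ⟨hz.1, ?_⟩
      exact Subgroup.centralizer_le (show (R : Set Ω) ⊆ S from hRS) hz.2
    obtain ⟨P₀, hP₀⟩ := hfa.2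
    have hmemP₀ : ∀ a : F.autGroup R, a ∈ P₀ ↔ (a : MulAut R) ∈ autInducedBy S R := by
      intro a
      constructor
      · intro ha
        have : a ∈ (P₀ : Subgroup (F.autGroup R)) := ha
        rw [hP₀, Subgroup.mem_subgroupOf] at this
        exact this
      · intro ha
        have : a ∈ (P₀ : Subgroup (F.autGroup R)) := by
          rw [hP₀, Subgroup.mem_subgroupOf]; exact ha
        exact this
    let ρ : F.autGroup R →* MulAut (Subgroup.center R) := (centerRestrict R).comp (F.autGroup R).subtype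
    obtain ⟨z, hz, hxz⟩ := (mem_powerClosure_center_iff S p n _).mp hx
    have hzR : z ∈ R := hZR hz
    have hzc : (⟨z, hzR⟩ : R) ∈ Subgroup.center R := by
      rw [Subgroup.mem_center_iff]
      intro g
      exact Subtype.ext (Subgroup.mem_centralizer_iff.mp hz.2 _ (hRS g.2))
    let x₀ : Subgroup.center R := ⟨⟨z, hzR⟩, hzc⟩
    have hx₀ : ∀ a ∈ P₀, ρ a x₀ = x₀ := by
      intro a ha
      obtain ⟨g, hg, hg'⟩ := (Helper87.mem_autInducedBy_iff S R _).mp ((hmemP₀ a).mp ha)
      apply Subtype.ext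
      apply Subtype.ext
      show (((a : MulAut R) ⟨z, hzR⟩ : R) : Ω) = z
      rw [hg']
      show g * z * g⁻¹ = z
      rw [Subgroup.mem_centralizer_iff.mp hz.2 g hg, mul_inv_cancel_right]
    have hT₀ : ∀ a ∈ P₀, ∀ v : Subgroup.center R, (fun u => ρ a u / u)^[n * (p - 1) + 1] v = 1 := by
      intro a ha v
      obtain ⟨g, hg, hg'⟩ := (Helper87.mem_autInducedBy_iff S R _).mp ((hmemP₀ a).mp ha)
      have hk : ∀ k : ℕ, ((((fun u => ρ a u / u)^[k] v : Subgroup.center R) : R) : Ω) ∈
          Subgroup.lowerCentralSeries S k := by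
        intro k
        induction k with
        | zero => exact hRS (v : R).2
        | succ k ih =>
          rw [Function.iterate_succ_apply']
          set u := (fun u => ρ a u / u)^[k] v with hu
          have e : (((ρ a u / u : Subgroup.center R) : R) : Ω) = ⁅g, ((u : R) : Ω)⁆ := by
            show (((a : MulAut R) (u : R) : R) : Ω) / ((u : R) : Ω) = _
            rw [hg', commutatorElement_def, div_eq_mul_inv]
          rw [e, Subgroup.lowerCentralSeries_succ]
          have e2 : ⁅g, ((u : R) : Ω)⁆ = ⁅((u : R) : Ω), g⁆⁻¹ := (commutatorElement_inv _ _).symm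
          rw [e2]
          exact Subgroup.inv_mem _ (Subgroup.commutator_mem_commutator ih hg)
      have h1 := hk (n * (p - 1) + 1)
      rw [hcl, Subgroup.mem_bot] at h1
      exact Subtype.ext (Subtype.ext h1)
    obtain ⟨ν, hν1, hν2, hν3⟩ := Helper86.exists_normalizing_of_sylow ρ p n P₀ x₀ hx₀ hT₀ ⟨α, hα⟩
    -- `ν` extends to the normalizer
    have hνF : R.subtype.comp (ν : MulAut R).toMonoidHom ∈ F.Hom R :=
      (Helper87.mem_autGroup_iff F hRS _).mp ν.2
    obtain ⟨ψ, hψ, hψ'⟩ := hrec.2 R _ hνF (Helper87.range_subtype_comp_aut R _)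
    have hNle : normalizerIn S R ≤ extender S R (R.subtype.comp (ν : MulAut R).toMonoidHom) := by
      intro g hg
      rw [Helper87.mem_extender_iff]
      refine ⟨hg.1, hg.2, ?_⟩
      have hcg : Helper84.conjAut R g hg.2 ∈ autInducedBy S R := Helper84.conjAut_mem_autInducedBy hg.1 hg.2
      have hcgF : Helper84.conjAut R g hg.2 ∈ F.autGroup R := Helper84.autInducedBy_le_autGroup F hRS hcg
      have h1 := hν1 ⟨_, hcgF⟩ ((hmemP₀ _).mpr hcg)
      obtain ⟨h, hh, hh'⟩ := (Helper87.mem_autInducedBy_iff S R _).mp ((hmemP₀ _).mp h1)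
      refine ⟨h, hh, fun y hy => ?_⟩
      have h2 := hh' ((ν : MulAut R) y)
      have h3 : ((ν * ⟨_, hcgF⟩ * ν⁻¹ : F.autGroup R) : MulAut R) ((ν : MulAut R) y) =
          (ν : MulAut R) ⟨g * y * g⁻¹, hy⟩ := by
        show (ν : MulAut R) (Helper84.conjAut R g hg.2 ((ν : MulAut R)⁻¹ ((ν : MulAut R) y))) = _
        rw [MulAut.inv_apply_self]
        congr 1
      rw [h3] at h2
      exact h2
    have hfE : Finite (extender S R (R.subtype.comp (ν : MulAut R).toMonoidHom)) :=
      Helper87.finite_of_le (fun g hg => ((Helper87.mem_extender_iff S R _ g).mp hg).1)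
    have hlt : Nat.card R < Nat.card (extender S R (R.subtype.comp (ν : MulAut R).toMonoidHom)) :=
      lt_of_lt_of_le (Helper87.card_lt_card_normalizerIn hS hRS hR) (Subgroup.card_le_of_le hNle)
    have hCψ := hbig _ ψ hψ hlt
    have hxe : (x : Ω) ∈ extender S R (R.subtype.comp (ν : MulAut R).toMonoidHom) :=
      hNle (Helper87.le_normalizerIn hRS x.2)
    have h3 : (((ν : MulAut R) x : R) : Ω) ∈ powerClosure p n (S ⊓ Subgroup.centralizer (S : Set Ω)) := by
      have h4 := (hCψ ⟨x, hxe⟩).mp hx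
      rw [hψ' x x.2 hxe] at h4
      exact h4
    have h4 : α x = (ν : MulAut R) x := by
      have e : x = ((x₀ ^ p ^ n : Subgroup.center R) : R) := Subtype.ext hxz
      rw [e]
      exact congrArg Subtype.val hν3
    rw [h4]; exact h3
  · -- the non-centric case: extend to a larger subgroup
    obtain ⟨g, hg, hgR⟩ := SetLike.not_le_iff_exists.mp hcR
    obtain ⟨ψ, hψ, hψ'⟩ := hrec.2 R _ hαF (Helper87.range_subtype_comp_aut R α)
    have hRle : R ≤ extender S R (R.subtype.comp α.toMonoidHom) := by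
      intro r hr
      rw [Helper87.mem_extender_iff]
      refine ⟨hRS hr, Subgroup.le_normalizer hr, ((α ⟨r, hr⟩ : R) : Ω), hRS (α ⟨r, hr⟩).2, fun y hy => ?_⟩
      show ((α ⟨r * y * r⁻¹, hy⟩ : R) : Ω) = ((α ⟨r, hr⟩ : R) : Ω) * ((α y : R) : Ω) * ((α ⟨r, hr⟩ : R) : Ω)⁻¹
      have e : (⟨r * y * r⁻¹, hy⟩ : R) = ⟨r, hr⟩ * y * (⟨r, hr⟩ : R)⁻¹ := Subtype.ext rfl
      rw [e, map_mul, map_mul, map_inv]
      rfl
    have hgc : ∀ y ∈ R, y * g = g * y := fun y hy => Subgroup.mem_centralizer_iff.mp hg.2 y hy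
    have hge : g ∈ extender S R (R.subtype.comp α.toMonoidHom) := by
      rw [Helper87.mem_extender_iff]
      refine ⟨hg.1, ?_, 1, S.one_mem, fun y hy => ?_⟩
      · rw [Subgroup.mem_normalizer_iff]
        intro y
        constructor
        · intro hy
          have : g * y * g⁻¹ = y := by rw [← hgc y hy, mul_inv_cancel_right]
          rw [this]; exact hy
        · intro hy
          have h1 := hgc _ hy
          have : y = g * y * g⁻¹ := by
            have h2 : g * y * g⁻¹ * g = g * (g * y * g⁻¹) := h1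
            have h3 : g * y = g * (g * y * g⁻¹) := by simpa using h2
            exact mul_left_cancel h3
          rw [this]; exact hy
      · have e : (⟨g * y * g⁻¹, hy⟩ : R) = y := by
          apply Subtype.ext
          show g * (y : Ω) * g⁻¹ = y
          rw [← hgc y y.2, mul_inv_cancel_right]
        rw [e]; simp
    have hfE : Finite (extender S R (R.subtype.comp α.toMonoidHom)) :=
      Helper87.finite_of_le (fun g hg => ((Helper87.mem_extender_iff S R _ g).mp hg).1)
    have hlt : Nat.card R < Nat.card (extender S R (R.subtype.comp α.toMonoidHom)) := by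
      by_contra hcon
      have := Subgroup.eq_of_le_of_card_ge hRle (not_lt.mp hcon)
      exact hgR (this ▸ hge)
    have hCψ := hbig _ ψ hψ hlt
    have hxe : (x : Ω) ∈ extender S R (R.subtype.comp α.toMonoidHom) := hRle x.2
    have h4 := (hCψ ⟨x, hxe⟩).mp hx
    rw [hψ' x x.2 hxe] at h4
    exact h4

/-- Every map of the system preserves membership in the power closure of the centre. -/
theorem all_maps [Finite S] (p : ℕ) [Fact p.Prime] (hS : IsPGroup p S) (F : FusionSystem S)
    (hF : F.IsSaturated p) (n : ℕ) (hcl : Subgroup.lowerCentralSeries S (n * (p - 1) + 1) = ⊥) :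
    ∀ (P : Subgroup Ω) (φ : P →* Ω), φ ∈ F.Hom P →
      ∀ x : P, (x : Ω) ∈ powerClosure p n (S ⊓ Subgroup.centralizer (S : Set Ω)) ↔
        φ x ∈ powerClosure p n (S ⊓ Subgroup.centralizer (S : Set Ω)) := by
  apply Helper87.alperin_induction hS F hF
    (fun P φ => ∀ x : P, (x : Ω) ∈ powerClosure p n (S ⊓ Subgroup.centralizer (S : Set Ω)) ↔
        φ x ∈ powerClosure p n (S ⊓ Subgroup.centralizer (S : Set Ω)))
  · intro P Q h φ θ _ hθ hC x
    rw [hθ]; exact hC ⟨x, h x.2⟩
  · intro P Q φ ψ θ _ _ hPQ hθ hφC hψC x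
    rw [hθ]; exact (hφC x).trans (hψC ⟨φ x, hPQ x⟩)
  · intro P Q φ ψ _ _ hr hPQ h hφC y
    have hy : (y : Ω) ∈ φ.range := by rw [hr]; exact y.2
    obtain ⟨x, hx⟩ := hy
    have e : y = ⟨φ x, hPQ x⟩ := Subtype.ext hx.symm
    rw [e, h]
    exact (hφC x).symm
  · intro R hfa hrec hbig α hα x
    constructor
    · intro hx
      exact aut_step p hS F n hcl R hfa hrec hbig α hα x hx
    · intro hx
      have h1 := aut_step p hS F n hcl R hfa hrec hbig α⁻¹ (Subgroup.inv_mem _ hα) (α x) hx
      rw [MulAut.inv_apply_self] at h1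
      exact h1

/-- Let p be a prime, n a natural number, S a nontrivial finite p-group of nilpotence class at most n(p−1)+1, and F a saturated fusion system over S. Then the subgroup generated by the pⁿ-th powers of the elements of Z(S) is normal in F. -/
theorem result {Ω : Type*} [Group Ω] {S : Subgroup Ω} [Finite S] (p : ℕ) [Fact p.Prime] (hS : IsPGroup p S) (F : Cfsg.FusionSystem S) (hF : F.IsSaturated p) (n : ℕ) (hS1 : S ≠ ⊥) (hcl : Subgroup.lowerCentralSeries S (n * (p - 1) + 1) = ⊥) : F.IsNormal (Cfsg.powerClosure p n (S ⊓ Subgroup.centralizer (S : Set Ω))) := by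
  have hall := all_maps p hS F hF n hcl
  rw [Helper84.normal_iff_essential p hS F hF]
  intro P hP
  have hPS : P ≤ S := by
    rcases hP with rfl | hess
    · exact le_rfl
    · exact hess.1.1
  have hWP : powerClosure p n (S ⊓ Subgroup.centralizer (S : Set Ω)) ≤ P := by
    refine (powerClosure_center_le S p n).trans ?_
    rcases hP with rfl | hess
    · exact inf_le_left
    · intro z hz
      have hconj : F.IsConj P P := ⟨P.subtype, Helper87.subtype_mem F hPS, Subgroup.range_subtype P⟩
      apply hess.1.2 P hconj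
      exact ⟨hz.1, Subgroup.centralizer_le (show (P : Set Ω) ⊆ S from hPS) hz.2⟩
  refine ⟨hWP, fun α hα => ?_⟩
  have hαF : P.subtype.comp α.toMonoidHom ∈ F.Hom P := (Helper87.mem_autGroup_iff F hPS α).mp hα
  have hC := hall P _ hαF
  ext y
  rw [Subgroup.mem_map, Subgroup.mem_subgroupOf]
  constructor
  · rintro ⟨x, hx, rfl⟩
    rw [Subgroup.mem_subgroupOf] at hx
    exact (hC x).mp hx
  · intro hy
    refine ⟨α⁻¹ y, ?_, MulAut.apply_inv_self _ _ _⟩
    rw [Subgroup.mem_subgroupOf]
    apply (hC (α⁻¹ y)).mpr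
    show ((α (α⁻¹ y) : P) : Ω) ∈ _
    rw [MulAut.apply_inv_self]
    exact hy

end Cfsg.Agent.S5218
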