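import Cfsg.Statements.S5219
import Cfsg.Agent.S5218

set_option autoImplicit false
open Cfsg

namespace Cfsg.Agent.S5219

open Cfsg.FusionSystem
open scoped commutatorElement

/-- If the centre has exponent dividing `m`, then `m`-th powers push the upper central series down one step. -/
theorem pow_mem_upperCentralSeries {G : Type*} [Group G] (m : ℕ)
    (hZ : ∀ z ∈ Subgroup.center G, z ^ m = 1) :
    ∀ i : ℕ, ∀ g ∈ Subgroup.upperCentralSeries G (i + 1), g ^ m ∈ Subgroup.upperCentralSeries G i := by
  intro i
  induction i with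
  | zero =>
    intro g hg
    rw [zero_add, Subgroup.upperCentralSeries_one] at hg
    rw [Subgroup.upperCentralSeries_zero, Subgroup.mem_bot]
    exact hZ g hg
  | succ i ih =>
    intro g hg
    rw [Subgroup.mem_upperCentralSeries_succ_iff]
    intro y
    have hh : ⁅g, y⁆ ∈ Subgroup.upperCentralSeries G (i + 1) := Subgroup.mem_upperCentralSeries_succ_iff.mp hg y
    have hhm := ih _ hh
    set π := QuotientGroup.mk' (Subgroup.upperCentralSeries G i) with hπ
    have hker : ∀ u : G, π u = 1 ↔ u ∈ Subgroup.upperCentralSeries G i := fun u => by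
      rw [hπ, QuotientGroup.mk'_apply, QuotientGroup.eq_one_iff]
    rw [← hker]
    set a := π g with ha
    set b := π y with hb
    set c := π ⁅g, y⁆ with hc
    have hcm : c ^ m = 1 := by rw [hc, ← map_pow]; exact (hker _).mpr hhm
    have hcab : c = a * b * a⁻¹ * b⁻¹ := by
      rw [hc, commutatorElement_def, map_mul, map_mul, map_mul, map_inv, map_inv]
    have hcent : ∀ q : G ⧸ Subgroup.upperCentralSeries G i, c * q = q * c := by
      intro q
      obtain ⟨u, rfl⟩ := QuotientGroup.mk'_surjective (Subgroup.upperCentralSeries G i) q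
      have h1 := Subgroup.mem_upperCentralSeries_succ_iff.mp hh u
      have h2 := (hker _).mpr h1
      rw [commutatorElement_def, map_mul, map_mul, map_mul, map_inv, map_inv] at h2
      change c * π u * c⁻¹ * (π u)⁻¹ = 1 at h2
      show c * π u = π u * c
      have h4 : c * π u * c⁻¹ * (π u)⁻¹ * (π u * c) = 1 * (π u * c) := by rw [h2]
      rw [one_mul] at h4
      rw [← h4]; group
    have hab : a * b * a⁻¹ = c * b := by rw [hcab]; group
    have hk : ∀ k : ℕ, a ^ k * b * (a ^ k)⁻¹ = c ^ k * b := by
      intro k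
      induction k with
      | zero => simp
      | succ k ihk =>
        have e : a ^ (k + 1) * b * (a ^ (k + 1))⁻¹ = a * (a ^ k * b * (a ^ k)⁻¹) * a⁻¹ := by
          rw [pow_succ']; group
        rw [e, ihk]
        have hck : ∀ q : G ⧸ Subgroup.upperCentralSeries G i, c ^ k * q = q * c ^ k := by
          intro q
          have : Commute c q := hcent q
          exact (this.pow_left k)
        calc a * (c ^ k * b) * a⁻¹ = (a * c ^ k) * b * a⁻¹ := by group
          _ = (c ^ k * a) * b * a⁻¹ := by rw [hck a]
          _ = c ^ k * (a * b * a⁻¹) := by group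
          _ = c ^ k * (c * b) := by rw [hab]
          _ = c ^ (k + 1) * b := by rw [pow_succ]; group
    have h5 := hk m
    rw [hcm, one_mul] at h5
    rw [commutatorElement_def, map_mul, map_mul, map_mul, map_inv, map_inv, map_pow]
    show a ^ m * b * (a ^ m)⁻¹ * b⁻¹ = 1
    rw [h5, mul_inv_cancel]

/-- A nilpotent group of class at most `c` whose centre has exponent dividing `m` has exponent dividing `m^c`. -/
theorem pow_eq_one_of_upperCentralSeries {G : Type*} [Group G] (m : ℕ)
    (hZ : ∀ z ∈ Subgroup.center G, z ^ m = 1) :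
    ∀ i : ℕ, ∀ g ∈ Subgroup.upperCentralSeries G i, g ^ m ^ i = 1 := by
  intro i
  induction i with
  | zero =>
    intro g hg
    rw [Subgroup.upperCentralSeries_zero, Subgroup.mem_bot] at hg
    rw [hg, one_pow]
  | succ i ih =>
    intro g hg
    have h1 := ih _ (pow_mem_upperCentralSeries m hZ i g hg)
    rw [pow_succ', pow_mul]
    exact h1

/-- Let p be a prime, n a natural number, S a nontrivial finite p-group of nilpotence class at most n(p−1)+1, and F a saturated fusion system over S with no nontrivial normal subgroup (O_p(F) = 1). Then S has exponent dividing p^(n²(p−1)+n). -/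
theorem result {Ω : Type*} [Group Ω] {S : Subgroup Ω} [Finite S] (p : ℕ) [Fact p.Prime] (hS : IsPGroup p S) (F : Cfsg.FusionSystem S) (hF : F.IsSaturated p) (n : ℕ) (hS1 : S ≠ ⊥) (hcl : Subgroup.lowerCentralSeries S (n * (p - 1) + 1) = ⊥) (hcore : F.core = ⊥) : Monoid.exponent ↥S ∣ p ^ (n ^ 2 * (p - 1) + n) := by
  have hnorm := Cfsg.Agent.S5218.result p hS F hF n hS1 hcl
  have hW : Cfsg.powerClosure p n (S ⊓ Subgroup.centralizer (S : Set Ω)) = ⊥ := by
    rw [eq_bot_iff, ← hcore]
    exact le_sSup hnorm
  have hZ : ∀ z ∈ Subgroup.center (↥S), z ^ p ^ n = 1 := by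
    intro z hz
    have h1 : ((z : Ω)) ^ p ^ n ∈ Cfsg.powerClosure p n (S ⊓ Subgroup.centralizer (S : Set Ω)) := by
      apply Subgroup.subset_closure
      refine ⟨(z : Ω), ⟨z.2, ?_⟩, rfl⟩
      show (z : Ω) ∈ Subgroup.centralizer (S : Set Ω)
      rw [Subgroup.mem_centralizer_iff]
      intro h hh
      have h2 := Subgroup.mem_center_iff.mp hz ⟨h, hh⟩
      exact congrArg Subtype.val h2
    rw [hW, Subgroup.mem_bot] at h1
    exact Subtype.ext h1
  have hU : Subgroup.upperCentralSeries (↥S) (n * (p - 1) + 1) = ⊤ := by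
    rw [← Subgroup.lowerCentralSeries_eq_bot_iff_upperCentralSeries_eq_top]
    have h1 := Subgroup.top_subtype_lowerCentralSeries S (n * (p - 1) + 1)
    rw [hcl] at h1
    exact (Subgroup.map_eq_bot_iff_of_injective _ S.subtype_injective).mp h1
  apply Monoid.exponent_dvd_of_forall_pow_eq_one
  intro g
  have h1 := pow_eq_one_of_upperCentralSeries (p ^ n) hZ (n * (p - 1) + 1) g (by rw [hU]; trivial)
  have e : (p ^ n) ^ (n * (p - 1) + 1) = p ^ (n ^ 2 * (p - 1) + n) := by
    rw [← pow_mul]; congr 1; ring
  rw [e] at h1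
  exact h1

end Cfsg.Agent.S5219
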