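import Cfsg.Statements.S5222
import Cfsg.Agent.Helper86.Tate
import Cfsg.Agent.Helper86.NormSys

set_option autoImplicit false
open Cfsg

namespace Cfsg.Agent.S5222

/-- Let F be a saturated fusion system over a finite p-group S whose normalizer fusion system of S is the inner fusion system of S (Aut_F(S) is a p-group). Then for every subgroup Q of S with [S, S] ≤ Q ≤ Φ(S), the normalizer fusion system of Q in F is the inner fusion system of N_S(Q) = S. -/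
theorem result {Ω : Type*} [Group Ω] {S : Subgroup Ω} [Finite S] (p : ℕ) [Fact p.Prime] (hS : IsPGroup p S) (F : Cfsg.FusionSystem S) (hF : F.IsSaturated p) (hN : ∀ N : Cfsg.FusionSystem (Cfsg.FusionSystem.normalizerIn S S), F.IsNormalizerSystem S N → ∀ P : Subgroup Ω, N.Hom P = (Cfsg.innerFusionSystem (Cfsg.FusionSystem.normalizerIn S S)).Hom P) (Q : Subgroup Ω) (h1 : (commutator ↥S).map S.subtype ≤ Q) (h2 : Q ≤ (frattini ↥S).map S.subtype) : ∀ N : Cfsg.FusionSystem (Cfsg.FusionSystem.normalizerIn S Q), F.IsNormalizerSystem Q N → ∀ P : Subgroup Ω, N.Hom P = (Cfsg.innerFusionSystem (Cfsg.FusionSystem.normalizerIn S Q)).Hom P := by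
  classical
  have hInn := Cfsg.Agent.Helper86.inn_of_normalizerSelf F hN
  have hQS : Q ≤ S := h2.trans (Subgroup.map_subtype_le _)
  have hcomm : ∀ s ∈ S, ∀ t ∈ S, s * t * s⁻¹ * t⁻¹ ∈ Q := by
    intro s hs t ht
    apply h1
    exact ⟨_, Subgroup.commutator_mem_commutator (Subgroup.mem_top (⟨s, hs⟩ : S))
      (Subgroup.mem_top (⟨t, ht⟩ : S)), rfl⟩
  have hfrat : ∀ x : S, (x : Ω) ∈ Q → x ∈ frattini S := by
    intro x hx
    obtain ⟨y, hy, hyx⟩ := h2 hx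
    have : y = x := Subtype.ext hyx
    rw [← this]
    exact hy
  have hQn : ∀ g ∈ S, g ∈ Subgroup.normalizer (Q : Set Ω) :=
    Cfsg.Agent.Helper86.normal_of_comm le_rfl hQS hcomm
  intro N hNsys P
  rw [hNsys P]
  ext φ
  constructor
  · rintro ⟨hφ, hPN, hφN, ψ, hψ, hψφ, hψQ⟩
    have hQH : Q ≤ P ⊔ Q := le_sup_right
    have hHS : P ⊔ Q ≤ S := sup_le (hPN.trans inf_le_left) hQS
    have hψQ' : ∀ x : ↥(P ⊔ Q), (x : Ω) ∈ Q → ψ x ∈ Q := by
      intro x hx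
      have h3 : ψ x ∈ (Q.subgroupOf (P ⊔ Q)).map ψ :=
        Subgroup.mem_map_of_mem ψ (Subgroup.mem_subgroupOf.mpr hx)
      rw [hψQ] at h3
      exact h3
    obtain ⟨s, hs, Hs⟩ :=
      Cfsg.Agent.Helper86.hom_eq_conj_of_stab hS F hF hInn hQH hHS hcomm hfrat ψ hψ hψQ'
    refine ⟨hPN, s, ⟨hs, hQn s hs⟩, fun x => ?_⟩
    rw [← hψφ x, Hs]
    rfl
  · rintro ⟨hPN, g, hg, hφg⟩
    have hPS : P ≤ S := hPN.trans inf_le_left
    have hsup : P ⊔ Q ≤ S := sup_le hPS hQS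
    refine ⟨Cfsg.Agent.Helper86.hom_of_eq F (F.conj_mem hPS hg.1) hφg, hPN, fun x => ?_,
      conjHom (P ⊔ Q) g, F.conj_mem hsup hg.1, fun x => ?_, ?_⟩
    · rw [hφg]
      exact Subgroup.mul_mem _ (Subgroup.mul_mem _ hg (hPN x.2)) (Subgroup.inv_mem _ hg)
    · rw [hφg]
      rfl
    · ext y
      constructor
      · rintro ⟨x, hx, rfl⟩
        exact (Subgroup.mem_normalizer_iff.mp hg.2 _).mp (Subgroup.mem_subgroupOf.mp hx)
      · intro hy
        have hy' : g⁻¹ * y * g⁻¹⁻¹ ∈ Q :=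
          (Subgroup.mem_normalizer_iff.mp (Subgroup.inv_mem _ hg.2) y).mp hy
        have hQH : Q ≤ P ⊔ Q := le_sup_right
        refine ⟨⟨g⁻¹ * y * g⁻¹⁻¹, hQH hy'⟩, Subgroup.mem_subgroupOf.mpr hy', ?_⟩
        show g * (g⁻¹ * y * g⁻¹⁻¹) * g⁻¹ = y
        group

end Cfsg.Agent.S5222
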