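import Cfsg.Statements.S5223
import Cfsg.Agent.Helper87.Inner

set_option autoImplicit false
open Cfsg

namespace Cfsg.Agent.S5223

/-- Let F be a saturated fusion system over a finite p-group S. Suppose there are subgroups Q₀ = S, Q₁, …, Qₙ = 1 (not required to be nested) such that for each i < n the focal subgroup of Qᵢ (generated by the elements x⁻¹φ(x), x ∈ Qᵢ, φ a map of F defined on the cyclic group generated by x) lies in Qᵢ₊₁. Then F is the inner fusion system of S. -/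
theorem result {Ω : Type*} [Group Ω] {S : Subgroup Ω} [Finite S] (p : ℕ) [Fact p.Prime] (hS : IsPGroup p S) (F : Cfsg.FusionSystem S) (hF : F.IsSaturated p) (n : ℕ) (Q : Fin (n + 1) → Subgroup Ω) (hQ0 : Q 0 = S) (hQn : Q (Fin.last n) = ⊥) (hstep : ∀ i : Fin n, Subgroup.closure {y : Ω | ∃ x ∈ Q i.castSucc, ∃ φ ∈ F.Hom (Subgroup.zpowers x), y = x⁻¹ * φ ⟨x, Subgroup.mem_zpowers x⟩} ≤ Q i.succ) : ∀ P : Subgroup Ω, F.Hom P = (Cfsg.innerFusionSystem S).Hom P := by
  classical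
  refine Cfsg.Agent.Helper87.inner_of_aut_pgroup hS F hF ?_
  intro R hRS
  have : Finite R := Cfsg.Agent.Helper87.finite_of_le hRS
  let T : ℕ → Set Ω := fun i => if h : i < n + 1 then (Q ⟨i, h⟩ : Set Ω) else Set.univ
  refine Cfsg.Agent.Helper87.pow_eq_one_of_chain R (hS.to_le hRS) (F.autGroup R : Set (MulAut R))
    (fun α hα k => pow_mem hα k) T n ?_ ?_ ?_
  · intro x
    have h0 : (0 : ℕ) < n + 1 := Nat.succ_pos n
    show (x : Ω) ∈ (if h : 0 < n + 1 then (Q ⟨0, h⟩ : Set Ω) else Set.univ)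
    rw [dif_pos h0]
    have : (⟨0, h0⟩ : Fin (n + 1)) = 0 := rfl
    rw [this, hQ0]
    exact hRS x.2
  · intro x hx
    have hn' : n < n + 1 := Nat.lt_succ_self n
    have hx' : (x : Ω) ∈ (if h : n < n + 1 then (Q ⟨n, h⟩ : Set Ω) else Set.univ) := hx
    rw [dif_pos hn'] at hx'
    have : (⟨n, hn'⟩ : Fin (n + 1)) = Fin.last n := rfl
    rw [this, hQn] at hx'
    exact Subtype.ext (Subgroup.mem_bot.mp hx')
  · intro i hi β hβ x hx
    have hi' : i < n + 1 := Nat.lt_succ_of_lt hi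
    have hi'' : i + 1 < n + 1 := Nat.succ_lt_succ hi
    have hx' : (x : Ω) ∈ (if h : i < n + 1 then (Q ⟨i, h⟩ : Set Ω) else Set.univ) := hx
    rw [dif_pos hi'] at hx'
    show ((x⁻¹ * β x : R) : Ω) ∈ (if h : i + 1 < n + 1 then (Q ⟨i + 1, h⟩ : Set Ω) else Set.univ)
    rw [dif_pos hi'']
    have hβ' := (Cfsg.Agent.Helper87.mem_autGroup_iff F hRS β).mp hβ
    have hle : Subgroup.zpowers (x : Ω) ≤ R := (Subgroup.zpowers_le).mpr x.2
    have hres := Cfsg.Agent.Helper87.hom_restrict F hβ' hle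
    have hmem := hstep ⟨i, hi⟩ (Subgroup.subset_closure
      ⟨(x : Ω), hx', _, hres, rfl⟩)
    exact hmem

end Cfsg.Agent.S5223
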