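import Cfsg.Statements.S5251
import Cfsg.Agent.Helper87.Radical

set_option autoImplicit false
open Cfsg

namespace Cfsg.Agent.S5251


open Cfsg.FusionSystem Cfsg.Agent.Helper87

/-- The chain `S ≥ T ≥ 1`. -/
def chain3 {Ω : Type*} [Group Ω] (S T : Subgroup Ω) : ℕ → Subgroup Ω
  | 0 => S
  | 1 => T
  | _ => ⊥

/-- Let F be a saturated fusion system over a finite p-group S, E a normal subsystem of F over T, and P an F-centric subgroup of S such that P ∩ T is not E-centric. Then some F-conjugate P* of P satisfies Out_S(P*) ∩ O_p(Out_F(P*)) ≠ 1: there is an element of N_S(P*) outside P* whose conjugation action on P* lies in O_p(Aut_F(P*)). In particular P is not both centric and radical in F. -/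
theorem result {Ω : Type*} [Group Ω] {S : Subgroup Ω} [Finite S] (p : ℕ) [Fact p.Prime] (hS : IsPGroup p S) (F : Cfsg.FusionSystem S) (hF : F.IsSaturated p) {T : Subgroup Ω} (E : Cfsg.FusionSystem T) (hE : E.IsNormalIn F p) (P : Subgroup Ω) (hP : F.IsCentric P) (hPT : ¬ E.IsCentric (P ⊓ T)) : (∃ φ ∈ F.Hom P, ∃ x ∈ S ⊓ Subgroup.normalizer (φ.range : Set Ω), x ∉ φ.range ∧ ∃ α ∈ ((Cfsg.pCore p ↥(F.autGroup φ.range)).map (F.autGroup φ.range).subtype : Subgroup (MulAut ↥φ.range)), ∀ y : ↥φ.range, ((α y : ↥φ.range) : Ω) = x * (y : Ω) * x⁻¹) ∧ ¬ F.IsRadical p P := by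
  obtain ⟨⟨hEsat, -, hsub, hT, -, -⟩, -⟩ := hE
  have hTS : T ≤ S := hT.1
  have hPS : P ≤ S := hP.1
  have hTnorm : ∀ s ∈ S, ∀ t ∈ T, s * t * s⁻¹ ∈ T := fun s hs t ht => stronglyClosed_conj_mem F hT hs ht
  -- witnesses for non-centricity
  have hnc : ∃ Q₀, E.IsConj (P ⊓ T) Q₀ ∧ ¬ centralizerIn T Q₀ ≤ Q₀ := by
    by_contra h
    push Not at h
    exact hPT ⟨inf_le_right, h⟩
  obtain ⟨Q₀, ⟨ψ₀, hψ₀, hrψ₀⟩, hQ₀⟩ := hnc
  obtain ⟨c, hcC, hcQ⟩ := SetLike.not_le_iff_exists.mp hQ₀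
  have hψ₀F : ψ₀ ∈ F.Hom (P ⊓ T) := hsub _ hψ₀
  -- a fully automized receptive conjugate R of P ⊓ T
  obtain ⟨R, ⟨φ₁, hφ₁, hr₁⟩, hfa, hrec⟩ := hF (P ⊓ T) (inf_le_left.trans hPS)
  obtain ⟨φ₁', hφ₁', hr₁', χ, hχ, hχ'⟩ := exists_extension_normalizer hS F hfa hrec hφ₁ hr₁
  have hPN : P ≤ normalizerIn S (P ⊓ T) := by
    intro g hg
    refine ⟨hPS hg, ?_⟩
    show g ∈ Subgroup.normalizer ((P ⊓ T : Subgroup Ω) : Set Ω)
    rw [Subgroup.mem_normalizer_iff]
    intro x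
    constructor
    · rintro ⟨hx1, hx2⟩
      exact ⟨P.mul_mem (P.mul_mem hg hx1) (P.inv_mem hg), hTnorm g (hPS hg) x hx2⟩
    · rintro ⟨hx1, hx2⟩
      have e : x = g⁻¹ * (g * x * g⁻¹) * g⁻¹⁻¹ := by group
      rw [e]
      exact ⟨P.mul_mem (P.mul_mem (P.inv_mem hg) hx1) (by simpa using hg),
        hTnorm g⁻¹ (S.inv_mem (hPS hg)) _ hx2⟩
  have hφ : χ.comp (Subgroup.inclusion hPN) ∈ F.Hom P := hom_restrict F hχ hPN
  generalize hφdef : χ.comp (Subgroup.inclusion hPN) = φ at hφ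
  have hφχ : ∀ (x : P), φ x = χ ⟨x, hPN x.2⟩ := fun x => by rw [← hφdef]; rfl
  have hRT : R ≤ T := by
    rw [← hr₁']
    rintro _ ⟨x, rfl⟩
    exact hT.2 (P ⊓ T) inf_le_right φ₁' hφ₁' x
  have hPT' : φ.range ⊓ T = R := by
    apply le_antisymm
    · rintro y ⟨⟨x, rfl⟩, hyT⟩
      obtain ⟨ψ, hψ, -, hψ1, -⟩ := hom_inv F hφ rfl
      have h1 := hom_restrict F hψ (inf_le_left : φ.range ⊓ T ≤ φ.range)
      have h2 := hT.2 (φ.range ⊓ T) inf_le_right _ h1 ⟨φ x, ⟨⟨x, rfl⟩, hyT⟩⟩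
      have h3 : (ψ.comp (Subgroup.inclusion (inf_le_left : φ.range ⊓ T ≤ φ.range)))
          ⟨φ x, ⟨⟨x, rfl⟩, hyT⟩⟩ = x := hψ1 x _
      rw [h3] at h2
      rw [← hr₁']
      refine ⟨⟨x, ⟨x.2, h2⟩⟩, ?_⟩
      rw [hφχ]
      exact (hχ' ⟨x, ⟨x.2, h2⟩⟩ _).symm
    · intro y hy
      refine ⟨?_, hRT hy⟩
      rw [← hr₁'] at hy
      obtain ⟨x, rfl⟩ := hy
      refine ⟨⟨x, x.2.1⟩, ?_⟩
      rw [hφχ]
      exact hχ' x _
  -- an F-isomorphism Q₀ → R, extended to N_S(Q₀)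
  obtain ⟨ψ₀i, hψ₀i, hψ₀ir, hψ₀i1, hψ₀i2⟩ := hom_inv F hψ₀F hrψ₀
  have hψ₀iP : ∀ y : Q₀, ψ₀i y ∈ P ⊓ T := fun y => mem_of_range_eq hψ₀ir y
  have hθ : φ₁.comp (ψ₀i.codRestrict (P ⊓ T) hψ₀iP) ∈ F.Hom Q₀ := F.comp_mem hψ₀i hφ₁ hψ₀iP
  have hrθ : (φ₁.comp (ψ₀i.codRestrict (P ⊓ T) hψ₀iP)).range = R := by
    rw [← hr₁]
    ext z
    constructor
    · rintro ⟨y, rfl⟩
      exact ⟨_, rfl⟩
    · rintro ⟨x, rfl⟩
      refine ⟨⟨ψ₀ x, mem_of_range_eq hrψ₀ x⟩, ?_⟩
      show φ₁ ⟨ψ₀i ⟨ψ₀ x, _⟩, _⟩ = φ₁ x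
      congr 1
      exact Subtype.ext (hψ₀i1 x _)
  obtain ⟨θ', hθ', hrθ', χ₂, hχ₂, hχ₂'⟩ := exists_extension_normalizer hS F hfa hrec hθ hrθ
  have hQ₀S : Q₀ ≤ S := hom_le F hψ₀i
  have hcN : c ∈ normalizerIn S Q₀ := by
    refine ⟨hTS hcC.1, ?_⟩
    show c ∈ Subgroup.normalizer (Q₀ : Set Ω)
    rw [Subgroup.mem_normalizer_iff]
    intro y
    have key : ∀ z ∈ Q₀, c * z * c⁻¹ = z := by
      intro z hz
      have h := hcC.2 z hz
      calc c * z * c⁻¹ = (z * c) * c⁻¹ := by rw [h]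
        _ = z := by group
    constructor
    · intro hy
      rw [key y hy]
      exact hy
    · intro hy
      have h := key _ hy
      have e2 : c * y * c⁻¹ = y := by
        have h3 := congrArg (fun z => c⁻¹ * z * c) h
        calc c * y * c⁻¹ = c⁻¹ * (c * (c * y * c⁻¹) * c⁻¹) * c := by group
          _ = c⁻¹ * (c * y * c⁻¹) * c := h3
          _ = y := by group
      rw [← e2]
      exact hy
  have hc'T : χ₂ ⟨c, hcN⟩ ∈ T := by
    have h1 := hom_restrict F hχ₂ (inf_le_left : normalizerIn S Q₀ ⊓ T ≤ normalizerIn S Q₀)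
    exact hT.2 _ inf_le_right _ h1 ⟨c, ⟨hcN, hcC.1⟩⟩
  have hc'C : χ₂ ⟨c, hcN⟩ ∈ Subgroup.centralizer (R : Set Ω) := by
    intro y hy
    have hy' : y ∈ θ'.range := by rw [hrθ']; exact hy
    obtain ⟨q, rfl⟩ := hy'
    rw [← hχ₂' q (le_normalizerIn hQ₀S q.2), ← map_mul, ← map_mul]
    congr 1
    apply Subtype.ext
    exact hcC.2 q q.2
  have hc'R : χ₂ ⟨c, hcN⟩ ∉ R := by
    intro h
    rw [← hrθ'] at h
    obtain ⟨q, hq⟩ := h
    rw [← hχ₂' q (le_normalizerIn hQ₀S q.2)] at hq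
    have h1 := F.injective_of_mem hχ₂ hq
    apply hcQ
    have h2 : (q : Ω) = c := congrArg Subtype.val h1
    rw [← h2]
    exact q.2
  -- an element of C_T(R) ∖ P* normalizing P*
  have hP'S : φ.range ≤ S := hom_range_le F hφ
  have hfin : Finite φ.range := finite_of_le hP'S
  have hDS : centralizerIn T R ≤ S := inf_le_left.trans hTS
  have hnormD : ∀ s ∈ φ.range, ∀ d ∈ centralizerIn T R, s * d * s⁻¹ ∈ centralizerIn T R := by
    intro s hs d hd
    refine ⟨hTnorm s (hP'S hs) d hd.1, ?_⟩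
    intro y hy
    have hyR : s⁻¹ * y * s ∈ R := by
      rw [← hPT']
      rw [← hPT'] at hy
      refine ⟨Subgroup.mul_mem _ (Subgroup.mul_mem _ (Subgroup.inv_mem _ hs) hy.1) hs, ?_⟩
      have := hTnorm s⁻¹ (S.inv_mem (hP'S hs)) y hy.2
      simpa using this
    have h := hd.2 _ hyR
    calc y * (s * d * s⁻¹) = s * ((s⁻¹ * y * s) * d) * s⁻¹ := by group
      _ = s * (d * (s⁻¹ * y * s)) * s⁻¹ := by rw [h]
      _ = s * d * s⁻¹ * y := by group
  have hDP : ¬ centralizerIn T R ≤ φ.range := by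
    intro h
    apply hc'R
    rw [← hPT']
    exact ⟨h ⟨hc'T, hc'C⟩, hc'T⟩
  obtain ⟨x, hxD, hxN, hxP⟩ := exists_mem_normalizer_not_mem' hS hP'S hDS hnormD hDP
  have hTch : ∀ k < 2, chain3 S T (k + 1) ≤ chain3 S T k := by
    intro k hk
    match k, hk with
    | 0, _ => exact hTS
    | 1, _ => exact bot_le
  have hKp : IsPGroup p (chainStab φ.range (chain3 S T) 2 hTch) :=
    chainStab_isPGroup _ (hS.to_le hP'S) _ _ hTch hP'S (inf_bot_eq _)
  have hinv : ∀ γ ∈ F.autGroup φ.range, ∀ k ≤ 2, ∀ y : φ.range, (y : Ω) ∈ chain3 S T k →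
      ((γ y : φ.range) : Ω) ∈ chain3 S T k := by
    intro γ hγ k hk y hy
    match k, hk, hy with
    | 0, _, _ => exact hP'S (γ y).2
    | 1, _, hy => exact aut_mem_of_stronglyClosed F hT hP'S hγ y hy
    | 2, _, hy =>
      have : y = 1 := Subtype.ext (Subgroup.mem_bot.mp hy)
      rw [this, map_one]
      exact Subgroup.one_mem _
  have hcx : φ.range.normalizerMonoidHom ⟨x, hxN⟩ ∈ chainStab φ.range (chain3 S T) 2 hTch := by
    intro k hk y hy
    have hel : ((y⁻¹ * φ.range.normalizerMonoidHom ⟨x, hxN⟩ y : φ.range) : Ω) =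
        (y : Ω)⁻¹ * x * y * x⁻¹ := by
      rw [Subgroup.coe_mul, Subgroup.normalizerMonoidHom_apply_apply_coe, Subgroup.coe_inv]
      group
    rw [hel]
    match k, hk, hy with
    | 0, _, _ =>
      show (y : Ω)⁻¹ * x * y * x⁻¹ ∈ T
      have h1 := hTnorm _ (S.inv_mem (hP'S y.2)) x hxD.1
      have h2 : (y : Ω)⁻¹ * x * y * x⁻¹ = ((y : Ω)⁻¹ * x * (y : Ω)⁻¹⁻¹) * x⁻¹ := by group
      rw [h2]
      exact T.mul_mem h1 (T.inv_mem hxD.1)
    | 1, _, hy =>
      show (y : Ω)⁻¹ * x * y * x⁻¹ ∈ (⊥ : Subgroup Ω)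
      rw [Subgroup.mem_bot]
      have hyR : (y : Ω) ∈ R := by
        rw [← hPT']
        exact ⟨y.2, hy⟩
      have h1 := hxD.2 y hyR
      calc (y : Ω)⁻¹ * x * y * x⁻¹ = (y : Ω)⁻¹ * (x * y) * x⁻¹ := by group
        _ = (y : Ω)⁻¹ * (y * x) * x⁻¹ := by rw [h1]
        _ = 1 := by group
  have hxS : x ∈ S := hTS hxD.1
  have hcxA := normalizerMonoidHom_mem_autGroup F hP'S ⟨x, hxN⟩ hxS
  have hcore := mem_pCore_map_of_normal_pgroup (F.autGroup φ.range) _ hKp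
    (chainStab_normal F _ _ hTch hinv) hcx hcxA
  refine ⟨⟨φ, hφ, x, ⟨hxS, hxN⟩, hxP, _, hcore, fun y => ?_⟩, ?_⟩
  · rw [Subgroup.normalizerMonoidHom_apply_apply_coe]
  · intro hrad
    let K' : Subgroup (MulAut P) := (chainStab φ.range (chain3 S T) 2 hTch).comap
      (MulAut.congr (MonoidHom.ofInjective (F.injective_of_mem hφ))).toMonoidHom
    have hK'p : IsPGroup p K' := hKp.comap_of_injective _
      (MulAut.congr (MonoidHom.ofInjective (F.injective_of_mem hφ))).injective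
    have hK'n : ∀ γ ∈ F.autGroup P, ∀ κ ∈ K', γ * κ * γ⁻¹ ∈ K' := by
      intro γ hγ κ hκ
      have hκ' : (MulAut.congr (MonoidHom.ofInjective (F.injective_of_mem hφ))) κ ∈
          chainStab φ.range (chain3 S T) 2 hTch := hκ
      show (MulAut.congr (MonoidHom.ofInjective (F.injective_of_mem hφ))).toMonoidHom (γ * κ * γ⁻¹) ∈
          chainStab φ.range (chain3 S T) 2 hTch
      rw [map_mul, map_mul, map_inv]
      exact chainStab_normal F _ _ hTch hinv _ (aut_transport F hφ hγ) _ hκ'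
    have hα₀A := aut_transport_symm F hφ hcxA
    have hα₀K : (MulAut.congr (MonoidHom.ofInjective (F.injective_of_mem hφ))).symm
        (φ.range.normalizerMonoidHom ⟨x, hxN⟩) ∈ K' := by
      show (MulAut.congr (MonoidHom.ofInjective (F.injective_of_mem hφ))).toMonoidHom
        ((MulAut.congr (MonoidHom.ofInjective (F.injective_of_mem hφ))).symm
          (φ.range.normalizerMonoidHom ⟨x, hxN⟩)) ∈ chainStab φ.range (chain3 S T) 2 hTch
      have e : (MulAut.congr (MonoidHom.ofInjective (F.injective_of_mem hφ))).toMonoidHom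
        ((MulAut.congr (MonoidHom.ofInjective (F.injective_of_mem hφ))).symm
          (φ.range.normalizerMonoidHom ⟨x, hxN⟩)) = φ.range.normalizerMonoidHom ⟨x, hxN⟩ :=
        MulEquiv.apply_symm_apply _ _
      rw [e]
      exact hcx
    have h1 := mem_pCore_map_of_normal_pgroup (F.autGroup P) K' hK'p hK'n hα₀K hα₀A
    rw [hrad.2] at h1
    obtain ⟨u, hu⟩ := h1
    have h2 : ∀ y : φ.range, x * (y : Ω) * x⁻¹ =
        ((MonoidHom.ofInjective (F.injective_of_mem hφ) u : φ.range) : Ω) * y *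
          ((MonoidHom.ofInjective (F.injective_of_mem hφ) u : φ.range) : Ω)⁻¹ := by
      intro y
      have h3 : φ.range.normalizerMonoidHom ⟨x, hxN⟩ =
          (MulAut.congr (MonoidHom.ofInjective (F.injective_of_mem hφ))) (MulAut.conj u) := by
        rw [hu, MulEquiv.apply_symm_apply]
      have h4 := congrArg (fun a : MulAut φ.range => ((a y : φ.range) : Ω)) h3
      simp only [Subgroup.normalizerMonoidHom_apply_apply_coe] at h4
      rw [h4]
      show (((MonoidHom.ofInjective (F.injective_of_mem hφ))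
        (MulAut.conj u ((MonoidHom.ofInjective (F.injective_of_mem hφ)).symm y)) : φ.range) : Ω) = _
      simp
    have h5 : ((MonoidHom.ofInjective (F.injective_of_mem hφ) u : φ.range) : Ω)⁻¹ * x ∈
        centralizerIn S φ.range := by
      refine ⟨S.mul_mem (S.inv_mem (hP'S (MonoidHom.ofInjective (F.injective_of_mem hφ) u).2)) hxS, ?_⟩
      intro y hy
      have h6 := h2 ⟨y, hy⟩
      have h7 : x * y = ((MonoidHom.ofInjective (F.injective_of_mem hφ) u : φ.range) : Ω) * y *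
          ((MonoidHom.ofInjective (F.injective_of_mem hφ) u : φ.range) : Ω)⁻¹ * x := by
        calc x * y = (x * y * x⁻¹) * x := by group
          _ = _ := by rw [h6]
      calc y * (((MonoidHom.ofInjective (F.injective_of_mem hφ) u : φ.range) : Ω)⁻¹ * x)
          = ((MonoidHom.ofInjective (F.injective_of_mem hφ) u : φ.range) : Ω)⁻¹ *
            (((MonoidHom.ofInjective (F.injective_of_mem hφ) u : φ.range) : Ω) * y *
              ((MonoidHom.ofInjective (F.injective_of_mem hφ) u : φ.range) : Ω)⁻¹ * x) := by group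
        _ = ((MonoidHom.ofInjective (F.injective_of_mem hφ) u : φ.range) : Ω)⁻¹ * (x * y) := by rw [h7]
        _ = ((MonoidHom.ofInjective (F.injective_of_mem hφ) u : φ.range) : Ω)⁻¹ * x * y := by group
    have h8 := hP.2 φ.range ⟨φ, hφ, rfl⟩ h5
    apply hxP
    have h9 : x = ((MonoidHom.ofInjective (F.injective_of_mem hφ) u : φ.range) : Ω) *
        (((MonoidHom.ofInjective (F.injective_of_mem hφ) u : φ.range) : Ω)⁻¹ * x) := by group
    rw [h9]
    exact Subgroup.mul_mem _ (MonoidHom.ofInjective (F.injective_of_mem hφ) u).2 h8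

end Cfsg.Agent.S5251
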