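import Cfsg.Statements.S5255
import Cfsg.Agent.Helper87.Closed

set_option autoImplicit false
open Cfsg

namespace Cfsg.Agent.S5255


open Cfsg.FusionSystem Cfsg.Agent.Helper87 in
theorem key {Ω : Type*} [Group Ω] {S : Subgroup Ω} [Finite S] (p : ℕ) [Fact p.Prime] (hS : IsPGroup p S)
    (F : Cfsg.FusionSystem S) (hF : F.IsSaturated p) (T : Subgroup Ω) (hT : F.StronglyClosed T) :
    ∀ (P : Subgroup Ω) (φ : P →* Ω), φ ∈ F.Hom P →
      ∀ x : P, (x : Ω) ∈ T ⊔ centralizerIn S T ↔ φ x ∈ T ⊔ centralizerIn S T := by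
  have hTS : T ≤ S := hT.1
  have hnorm : ∀ s ∈ S, ∀ t ∈ T, s * t * s⁻¹ ∈ T := fun s hs t ht => stronglyClosed_conj_mem F hT hs ht
  have hX : ∀ {x : Ω}, x ∈ T ⊔ centralizerIn S T ↔ ∃ c ∈ centralizerIn S T, ∃ t ∈ T, x = c * t := by
    intro x
    rw [sup_comm]
    exact mem_sup_of_normalizes (H := centralizerIn S T) (K := T) (fun a ha k hk => hnorm a ha.1 k hk)
  refine alperin_induction hS F hF
    (fun P φ => ∀ x : P, (x : Ω) ∈ T ⊔ centralizerIn S T ↔ φ x ∈ T ⊔ centralizerIn S T) ?_ ?_ ?_ ?_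
  · intro P Q hQP φ θ hφ hθ hC x
    rw [hθ]
    exact hC ⟨x, hQP x.2⟩
  · intro P Q φ ψ θ hφ hψ hPQ hθ hCφ hCψ x
    rw [hθ]
    exact (hCφ x).trans (hCψ ⟨φ x, hPQ x⟩)
  · intro P Q φ ψ hφ hψ hr hPQ hψφ hC y
    have hy : (y : Ω) ∈ φ.range := by rw [hr]; exact y.2
    obtain ⟨x, hx⟩ := hy
    have h1 := hψφ x
    have h2 : (⟨φ x, hPQ x⟩ : Q) = y := Subtype.ext hx
    rw [h2] at h1
    rw [h1, ← hx]
    exact (hC x).symm
  · intro R hfa hrec hbig α hα
    have hRS : R ≤ S := hfa.1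
    have main : ∀ β ∈ F.autGroup R, ∀ x : R, (x : Ω) ∈ T ⊔ centralizerIn S T →
        ((β x : R) : Ω) ∈ T ⊔ centralizerIn S T := by
      intro β hβ x hx
      by_cases hTR : T ≤ R
      · obtain ⟨c, hc, t, ht, hxe⟩ := hX.mp hx
        have hcR : c ∈ R := by
          have : c = x * t⁻¹ := by rw [hxe]; group
          rw [this]
          exact R.mul_mem x.2 (R.inv_mem (hTR ht))
        have hx' : x = (⟨c, hcR⟩ : R) * ⟨t, hTR ht⟩ := Subtype.ext hxe
        rw [hx', map_mul]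
        have h1 : ((β ⟨t, hTR ht⟩ : R) : Ω) ∈ T := aut_mem_of_stronglyClosed F hT hRS hβ _ ht
        have h2 : ((β ⟨c, hcR⟩ : R) : Ω) ∈ centralizerIn S T := by
          refine ⟨hRS (β ⟨c, hcR⟩).2, ?_⟩
          intro u hu
          have hu' : ((β⁻¹ ⟨u, hTR hu⟩ : R) : Ω) ∈ T :=
            aut_mem_of_stronglyClosed F hT hRS (Subgroup.inv_mem _ hβ) _ hu
          have h3 := hc.2 _ hu'
          have h4 : (β⁻¹ ⟨u, hTR hu⟩ : R) * ⟨c, hcR⟩ = ⟨c, hcR⟩ * (β⁻¹ ⟨u, hTR hu⟩ : R) := Subtype.ext h3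
          have h5 := congrArg (fun z => ((β z : R) : Ω)) h4
          simp only [map_mul, MulAut.apply_inv_self] at h5
          exact h5
        exact Subgroup.mul_mem _ (Subgroup.mem_sup_right h2) (Subgroup.mem_sup_left h1)
      · obtain ⟨t, htT, htN, htR⟩ := exists_mem_normalizer_not_mem hS hRS hTS hnorm hTR
        have hc : R.normalizerMonoidHom ⟨t, htN⟩ ∈ modSubgroup R T :=
          normalizerMonoidHom_mem_modSubgroup
            (fun r hr u hu => stronglyClosed_conj_mem' F hT (hRS hr) hu) ⟨t, htN⟩ htT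
        obtain ⟨κ, hκK, hκA, ν, hνA, hβe, R', hRR', hcard, ψ, hψ, hψ'⟩ :=
          frattini_step hS F hfa hrec (modSubgroup R T) (modSubgroup_normal F hT hRS) ⟨t, htN⟩
            (hTS htT) htR hc β hβ
        have h1 : ((κ x : R) : Ω) ∈ T ⊔ centralizerIn S T := by
          have h2 : ((κ x : R) : Ω) = (x : Ω) * ((x⁻¹ * κ x : R) : Ω) := by simp
          rw [h2]
          exact Subgroup.mul_mem _ hx (Subgroup.mem_sup_left (hκK x))
        have h3 := (hbig R' ψ hψ hcard ⟨κ x, hRR' (κ x).2⟩).mp h1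
        rw [hψ'] at h3
        rw [hβe]
        exact h3
    intro x
    constructor
    · exact main α hα x
    · intro h
      have := main α⁻¹ (Subgroup.inv_mem _ hα) (α x) h
      rw [MulAut.inv_apply_self] at this
      exact this

/-- Let F be a saturated fusion system over a finite p-group S and T a subgroup of S strongly closed in F. Then T·C_S(T) is strongly closed in F. -/
theorem result {Ω : Type*} [Group Ω] {S : Subgroup Ω} [Finite S] (p : ℕ) [Fact p.Prime] (hS : IsPGroup p S) (F : Cfsg.FusionSystem S) (hF : F.IsSaturated p) (T : Subgroup Ω) (hT : F.StronglyClosed T) : F.StronglyClosed (T ⊔ Cfsg.FusionSystem.centralizerIn S T) := by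
  refine ⟨sup_le hT.1 inf_le_left, fun R hR φ hφ x => ?_⟩
  exact (key p hS F hF T hT R φ hφ x).mp (hR x.2)

end Cfsg.Agent.S5255
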