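import Cfsg.Statements.S5274
import Cfsg.Agent.Helper72.FusCHd

set_option autoImplicit false
open Cfsg

namespace Cfsg.Agent.S5274

/-- Let F be a saturated fusion system over a finite 2-group S. Suppose that every element of S is F-conjugate to an element of the centre Z(S) (some map of F defined on the cyclic subgroup it generates sends it into Z(S)). Then S is abelian. -/
theorem result {Ω : Type*} [Group Ω] {S : Subgroup Ω} [Finite S] (hS : IsPGroup 2 ↥S) (F : Cfsg.FusionSystem S) (hF : F.IsSaturated 2) (h : ∀ x ∈ S, ∃ z ∈ S ⊓ Subgroup.centralizer (S : Set Ω), F.IsConjElt x z) : IsMulCommutative ↥S := by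
  have hc := Cfsg.Agent.Helper72.fus_camina_herzog hS F hF h
  exact ⟨⟨fun a b => Subtype.ext (hc a a.2 b b.2)⟩⟩

end Cfsg.Agent.S5274
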