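import Cfsg.Statements.S5284
import Cfsg.Agent.S5283
import Cfsg.Agent.Helper88.AbelianType

set_option autoImplicit false
open Cfsg

namespace Cfsg.Agent.S5284

open Cfsg.FusionSystem Cfsg.Agent.Helper88

section aux

variable (C : Type*) [CommGroup C] (H₁ : Type*) [CommGroup H₁]

/-- `(x, y, h) ↦ (y, x, h)`. -/
def sigmaAut : MulAut ((C × C) × H₁) := MulEquiv.prodCongr MulEquiv.prodComm (MulEquiv.refl H₁)

/-- `(x, y, h) ↦ (y, x⁻¹, h)`. -/
def rhoAut : MulAut ((C × C) × H₁) :=
  MulEquiv.prodCongr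
    { toFun := fun x => (x.2, x.1⁻¹)
      invFun := fun x => (x.2⁻¹, x.1)
      left_inv := fun x => by simp
      right_inv := fun x => by simp
      map_mul' := fun x y => by simp [mul_comm] } (MulEquiv.refl H₁)

/-- `(x, y, h) ↦ (y⁻¹, x y⁻¹, h)`. -/
def omegaAut : MulAut ((C × C) × H₁) :=
  MulEquiv.prodCongr
    { toFun := fun x => (x.2⁻¹, x.1 * x.2⁻¹)
      invFun := fun x => (x.2 * x.1⁻¹, x.1⁻¹)
      left_inv := fun x => by simp
      right_inv := fun x => by simp
      map_mul' := fun x y => by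
        simp only [Prod.fst_mul, Prod.snd_mul, mul_inv, Prod.mk_mul_mk, Prod.mk.injEq, true_and]
        exact mul_mul_mul_comm _ _ _ _ } (MulEquiv.refl H₁)

variable {C H₁}

theorem sigmaAut_apply (x y : C) (h : H₁) : sigmaAut C H₁ ((x, y), h) = ((y, x), h) := rfl

theorem rhoAut_apply (x y : C) (h : H₁) : rhoAut C H₁ ((x, y), h) = ((y, x⁻¹), h) := rfl

theorem omegaAut_apply (x y : C) (h : H₁) : omegaAut C H₁ ((x, y), h) = ((y⁻¹, x * y⁻¹), h) := rfl

theorem sigma_sq : sigmaAut C H₁ ^ 2 ^ 1 = 1 := by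
  apply MulEquiv.ext
  rintro ⟨⟨x, y⟩, h⟩
  rw [pow_one, pow_two, MulAut.mul_apply, sigmaAut_apply, sigmaAut_apply, MulAut.one_apply]

theorem rho_four : rhoAut C H₁ ^ 2 ^ 2 = 1 := by
  apply MulEquiv.ext
  rintro ⟨⟨x, y⟩, h⟩
  have e : (2 : ℕ) ^ 2 = 1 + 1 + 1 + 1 := by norm_num
  rw [e, pow_succ, pow_succ, pow_succ, pow_one]
  simp only [MulAut.mul_apply, rhoAut_apply, inv_inv, MulAut.one_apply]

theorem sigma_inv : (sigmaAut C H₁)⁻¹ = sigmaAut C H₁ := by
  rw [inv_eq_iff_mul_eq_one, ← pow_two]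
  exact sigma_sq

theorem sigma_rho_conj : sigmaAut C H₁ * rhoAut C H₁ * (sigmaAut C H₁)⁻¹ = (rhoAut C H₁)⁻¹ := by
  rw [sigma_inv, eq_inv_iff_mul_eq_one]
  apply MulEquiv.ext
  rintro ⟨⟨x, y⟩, h⟩
  simp only [MulAut.mul_apply, rhoAut_apply, sigmaAut_apply, inv_inv, MulAut.one_apply]

theorem omega_cube : omegaAut C H₁ ^ 3 = 1 := by
  apply MulEquiv.ext
  rintro ⟨⟨x, y⟩, h⟩
  have e : (3 : ℕ) = 1 + 1 + 1 := by norm_num
  rw [e, pow_succ, pow_succ, pow_one]
  simp only [MulAut.mul_apply, omegaAut_apply, MulAut.one_apply, inv_inv, mul_inv_rev]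
  simp

/-- For `p` odd there is a non-abelian `2`-group of automorphisms. -/
theorem exists_bad_odd [Finite C] [Finite H₁] {p : ℕ} (hp : p.Prime) (hp2 : p ≠ 2) (g : C) (hg : g ≠ g⁻¹) :
    ∃ K : Subgroup (MulAut ((C × C) × H₁)), (Nat.card K).Coprime p ∧ ¬ (∀ a ∈ K, ∀ b ∈ K, a * b = b * a) := by
  have h1 : IsPGroup 2 (Subgroup.zpowers (sigmaAut C H₁)) := isPGroup_zpowers_of_pow_eq_one sigma_sq
  have h2 : IsPGroup 2 (Subgroup.zpowers (rhoAut C H₁)) := isPGroup_zpowers_of_pow_eq_one rho_four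
  have hsinv : (sigmaAut C H₁)⁻¹ = sigmaAut C H₁ := sigma_inv
  have hnorm : Subgroup.zpowers (sigmaAut C H₁) ≤ Subgroup.normalizer (Subgroup.zpowers (rhoAut C H₁)) := by
    rw [Subgroup.zpowers_le, Subgroup.mem_normalizer_iff]
    intro h
    constructor
    · intro hh
      obtain ⟨k, rfl⟩ := Subgroup.mem_zpowers_iff.mp hh
      rw [← conj_zpow, sigma_rho_conj]
      exact Subgroup.zpow_mem _ (Subgroup.inv_mem _ (Subgroup.mem_zpowers _)) k
    · intro hh
      obtain ⟨k, hk⟩ := Subgroup.mem_zpowers_iff.mp hh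
      have e : h = (sigmaAut C H₁) * (rhoAut C H₁) ^ k * (sigmaAut C H₁)⁻¹ := by
        rw [hk, hsinv]
        have := sigma_sq (C := C) (H₁ := H₁)
        rw [pow_one, pow_two] at this
        calc h = (sigmaAut C H₁ * sigmaAut C H₁) * h * (sigmaAut C H₁ * sigmaAut C H₁) := by
              rw [this, one_mul, mul_one]
          _ = sigmaAut C H₁ * (sigmaAut C H₁ * h * (sigmaAut C H₁)⁻¹) * sigmaAut C H₁ := by
              rw [hsinv]
              group
      rw [e, ← conj_zpow, sigma_rho_conj]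
      exact Subgroup.zpow_mem _ (Subgroup.inv_mem _ (Subgroup.mem_zpowers _)) k
  have hK : IsPGroup 2 (Subgroup.zpowers (sigmaAut C H₁) ⊔ Subgroup.zpowers (rhoAut C H₁) :
      Subgroup (MulAut ((C × C) × H₁))) := h1.to_sup_of_normal_right' h2 hnorm
  refine ⟨Subgroup.zpowers (sigmaAut C H₁) ⊔ Subgroup.zpowers (rhoAut C H₁), ?_, ?_⟩
  · have : Fact (Nat.Prime 2) := ⟨Nat.prime_two⟩
    obtain ⟨k, hk⟩ := IsPGroup.iff_card.mp hK
    rw [hk]
    exact Nat.Coprime.pow_left k ((Nat.coprime_primes Nat.prime_two hp).mpr (Ne.symm hp2))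
  · intro hcomm
    have h3 := hcomm _ (Subgroup.mem_sup_left (Subgroup.mem_zpowers (sigmaAut C H₁)))
      _ (Subgroup.mem_sup_right (Subgroup.mem_zpowers (rhoAut C H₁)))
    have h4 := congrArg (fun f : MulAut ((C × C) × H₁) => f ((g, 1), 1)) h3
    simp only [MulAut.mul_apply, rhoAut_apply, sigmaAut_apply, Prod.mk.injEq, inv_one, and_true] at h4
    exact hg h4.symm

/-- For `p = 2` there is an automorphism of order `3`. -/
theorem exists_bad_two [Finite C] [Finite H₁] (g : C) (hg : g ≠ 1) :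
    ∃ K : Subgroup (MulAut ((C × C) × H₁)), (Nat.card K).Coprime 2 ∧ ¬ (∀ h ∈ K, h ^ (2 - 1) = 1) := by
  refine ⟨Subgroup.zpowers (omegaAut C H₁), ?_, ?_⟩
  · rw [Nat.card_zpowers]
    have h3 : orderOf (omegaAut C H₁) ∣ 3 := orderOf_dvd_of_pow_eq_one omega_cube
    exact Nat.Coprime.coprime_dvd_left h3 (by norm_num)
  · intro h
    have h1 := h _ (Subgroup.mem_zpowers (omegaAut C H₁))
    have h2 := congrArg (fun f : MulAut ((C × C) × H₁) => f ((g, 1), 1)) h1
    simp only [Nat.add_one_sub_one, pow_one, omegaAut_apply, MulAut.one_apply, Prod.mk.injEq, inv_one,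
      mul_one, and_true] at h2
    exact hg h2.1.symm

/-- Transport of the condition on `p'`-groups of automorphisms along an isomorphism. -/
theorem autos_transport {S T : Type*} [Group S] [Group T] (e : S ≃* T) {p : ℕ}
    (hH : ∀ H : Subgroup (MulAut S), (Nat.card H).Coprime p → IsMulCommutative H ∧ ∀ h ∈ H, h ^ (p - 1) = 1)
    (K : Subgroup (MulAut T)) (hK : (Nat.card K).Coprime p) :
    (∀ a ∈ K, ∀ b ∈ K, a * b = b * a) ∧ ∀ h ∈ K, h ^ (p - 1) = 1 := by
  have hinj : Function.Injective (MulAut.congr e.symm).toMonoidHom := (MulAut.congr e.symm).injective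
  have hcard : Nat.card (K.map (MulAut.congr e.symm).toMonoidHom) = Nat.card K :=
    (Nat.card_congr (K.equivMapOfInjective _ hinj).toEquiv).symm
  obtain ⟨h1, h2⟩ := hH (K.map (MulAut.congr e.symm).toMonoidHom) (by rw [hcard]; exact hK)
  refine ⟨fun a ha b hb => ?_, fun h hh => ?_⟩
  · apply hinj
    rw [map_mul, map_mul]
    exact congrArg Subtype.val (h1.is_comm.comm ⟨_, Subgroup.mem_map_of_mem _ ha⟩
      ⟨_, Subgroup.mem_map_of_mem _ hb⟩)
  · apply hinj
    rw [map_pow, map_one]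
    exact h2 _ (Subgroup.mem_map_of_mem _ hh)

end aux

/-- Let S be a finite abelian p-group. Every saturated fusion system over S is supersoluble (S has a chain of F-strongly closed subgroups from 1 to S with cyclic steps) if and only if the invariants of S are pairwise distinct, that is, S is not isomorphic to a direct product (Z/p^n × Z/p^n) × H with n ≥ 1. -/
theorem result {Ω : Type*} [Group Ω] {S : Subgroup Ω} [Finite S] (p : ℕ) [Fact p.Prime] (hS : IsPGroup p ↥S) (hab : IsMulCommutative ↥S) : (∀ F : Cfsg.FusionSystem S, F.IsSaturated p → (∃ (m : ℕ) (c : Fin (m + 1) → Subgroup Ω), c 0 = ⊥ ∧ c (Fin.last m) = S ∧ (∀ i : Fin (m + 1), F.StronglyClosed (c i)) ∧ ∀ i : Fin m, c i.castSucc ≤ c i.succ ∧ ∃ x ∈ S, c i.succ = c i.castSucc ⊔ Subgroup.zpowers x)) ↔ ¬ ∃ (n : ℕ) (H : Type) (_ : CommGroup H), 0 < n ∧ Nonempty (↥S ≃* (Multiplicative (ZMod (p ^ n)) × Multiplicative (ZMod (p ^ n))) × H) := by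
  have hp : p.Prime := Fact.out
  have hab' : ∀ x ∈ S, ∀ y ∈ S, x * y = y * x := fun x hx y hy =>
    congrArg Subtype.val (hab.is_comm.comm ⟨x, hx⟩ ⟨y, hy⟩)
  rw [Cfsg.Agent.S5283.result p hS]
  constructor
  · rintro ⟨-, hH⟩ ⟨n, H₁, instH, hn, ⟨e⟩⟩
    have hfinT : Finite ((Multiplicative (ZMod (p ^ n)) × Multiplicative (ZMod (p ^ n))) × H₁) :=
      Finite.of_equiv S e.toEquiv
    have hfinC : Finite (Multiplicative (ZMod (p ^ n))) :=
      Finite.of_injective (fun x : Multiplicative (ZMod (p ^ n)) =>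
        (((x, 1), 1) : (Multiplicative (ZMod (p ^ n)) × Multiplicative (ZMod (p ^ n))) × H₁))
        (fun x y h => by simpa using h)
    have hfinH : Finite H₁ :=
      Finite.of_injective (fun x : H₁ =>
        (((1, 1), x) : (Multiplicative (ZMod (p ^ n)) × Multiplicative (ZMod (p ^ n))) × H₁))
        (fun x y h => by simpa using h)
    have hlt : 1 < p ^ n := Nat.one_lt_pow hn.ne' hp.one_lt
    have : Fact (1 < p ^ n) := ⟨hlt⟩
    rcases eq_or_ne p 2 with h2 | h2
    · subst h2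
      obtain ⟨K, hK, hbad⟩ := exists_bad_two (C := Multiplicative (ZMod (2 ^ n))) (H₁ := H₁)
        (Multiplicative.ofAdd 1) (by
          intro h
          have : (1 : ZMod (2 ^ n)) = 0 := congrArg Multiplicative.toAdd h
          exact one_ne_zero this)
      exact hbad (autos_transport e hH K hK).2
    · obtain ⟨K, hK, hbad⟩ := exists_bad_odd (C := Multiplicative (ZMod (p ^ n))) (H₁ := H₁) hp h2
        (Multiplicative.ofAdd 1) (by
          intro h
          have h1 : (1 : ZMod (p ^ n)) = -1 := congrArg Multiplicative.toAdd h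
          have h3 : ((2 : ℕ) : ZMod (p ^ n)) = 0 := by
            have : (1 : ZMod (p ^ n)) + 1 = 0 := by
              nth_rewrite 2 [h1]
              exact add_neg_cancel 1
            push_cast
            rw [← this]
            norm_num
          have h4 := (ZMod.natCast_eq_zero_iff 2 (p ^ n)).mp h3
          have h5 := Nat.le_of_dvd (by norm_num) h4
          have h6 : 3 ≤ p := by
            have := hp.two_le
            omega
          have h7 : p ≤ p ^ n := Nat.le_self_pow hn.ne' p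
          omega)
      exact hbad (autos_transport e hH K hK).1
  · intro hno
    refine ⟨fun F hF => isNormal_self_of_extends (fun P f hf => abelian_extends hF hab' hf), fun H hH => ?_⟩
    have hstep := @exists_steps_of_no_factor ↥S
      { (inferInstance : Group ↥S) with mul_comm := fun a b => hab.is_comm.comm a b } _ p _ hS hno
    obtain ⟨h1, h2⟩ := @autos_of_steps ↥S
      { (inferInstance : Group ↥S) with mul_comm := fun a b => hab.is_comm.comm a b } _ p _ hS hstep H hH
    exact ⟨⟨⟨fun a b => Subtype.ext (h1 a a.2 b b.2)⟩⟩, h2⟩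

end Cfsg.Agent.S5284
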