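import Cfsg.Statements.S5290
import Cfsg.Agent.Helper88.FusionNormalCrit

set_option autoImplicit false
open Cfsg

namespace Cfsg.Agent.S5290

open Cfsg.FusionSystem Cfsg.Agent.Helper88

/-- Let F be a saturated fusion system over a finite p-group S and Q a subgroup of S. Then Q is normal in F (F = N_F(Q)) if and only if the inner fusion system of Q, consisting of the conjugations by elements of Q on subgroups of Q, is a weakly normal subsystem of F (both saturated, Q strongly closed, invariant under F-conjugation, with the Frattini property). -/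
theorem result {Ω : Type*} [Group Ω] {S : Subgroup Ω} [Finite S] (p : ℕ) [Fact p.Prime] (hS : IsPGroup p S)
    (F : Cfsg.FusionSystem S) (hF : F.IsSaturated p)
    (Q : Subgroup Ω) (hQ : Q ≤ S) :
    F.IsNormal Q ↔ (Cfsg.innerFusionSystem Q).IsWeaklyNormalIn F p := by
  have hQfin : Finite Q := finite_of_le hQ
  have hQp : IsPGroup p Q := hS.to_le hQ
  constructor
  · intro hN
    have hsc := stronglyClosed_of_isNormal hN
    refine ⟨innerFusionSystem_saturated hQp, hF, ?_, hsc, ?_, ?_⟩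
    · rintro P φ ⟨hP, g, hg, hφ⟩
      exact (isMap_conj F (hP.trans hQ) (hQ hg)).hom_mem hφ
    · rintro P hPQ φ ⟨-, g, hg, hφ⟩ α hα
      have hM : (P.subgroupOf Q).map (Q.subtype.comp α.toMonoidHom) ≤ Q := by
        rintro _ ⟨x, -, rfl⟩
        exact (α x).2
      refine ⟨conjHom _ ((α ⟨g, hg⟩ : Q) : Ω), ⟨hM, _, (α ⟨g, hg⟩).2, fun x => rfl⟩,
        fun x hφx hαx => ?_⟩
      have e : (⟨φ x, hφx⟩ : Q) = ⟨g, hg⟩ * ⟨x, hPQ x.2⟩ * ⟨g, hg⟩⁻¹ := Subtype.ext (hφ x)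
      rw [e, map_mul, map_mul, map_inv]
      rfl
    · intro P hPQ φ hφ
      obtain ⟨f', α, hf', hf'P, hα, hαf⟩ := isNormal_extend_aut hN (isMap_extHom hφ)
      refine ⟨α, hα, P.subtype, ⟨hPQ, 1, Q.one_mem, fun x => by
        show (x : Ω) = 1 * (x : Ω) * 1⁻¹
        simp⟩, fun x hx => ?_⟩
      have h1 := hαf x (hPQ x.2)
      rw [autFun_apply' α (hPQ x.2), hf'P x x.2, extHom_apply] at h1
      exact h1.symm
  · rintro ⟨-, -, -, hsc, -, hfr⟩
    apply isNormal_of_extends_to_aut hS hF hQ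
    intro P f hPQ hf
    obtain ⟨φ, hφ, hφf⟩ := hf
    obtain ⟨α, hα, φ₀, ⟨-, g, hg, hφ₀⟩, h⟩ := hfr P hPQ φ hφ
    obtain ⟨β, hβA, -, hβf⟩ := exists_aut_conj F hQ
      (mem_normalizerIn_iff.mpr ⟨hQ hg, Subgroup.le_normalizer hg⟩)
    refine ⟨α * β, Subgroup.mul_mem _ hα hβA, fun x hx => ?_⟩
    have hmem : φ₀ ⟨x, hx⟩ ∈ Q := by
      rw [hφ₀]
      exact Q.mul_mem (Q.mul_mem hg (hPQ hx)) (Q.inv_mem hg)
    have e : g * x * g⁻¹ = φ₀ ⟨x, hx⟩ := (hφ₀ ⟨x, hx⟩).symm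
    rw [autFun_mul _ _ (hPQ hx), hβf x (hPQ hx), ← hφf ⟨x, hx⟩, h ⟨x, hx⟩ hmem, e, autFun_apply' α hmem]

end Cfsg.Agent.S5290
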