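import Cfsg.Statements.S5291
import Cfsg.Agent.Helper88.FusionWeakNormal

set_option autoImplicit false
open Cfsg

namespace Cfsg.Agent.S5291

open Cfsg.FusionSystem Cfsg.Agent.Helper88

theorem main {Ω : Type*} [Group Ω] {S : Subgroup Ω} [Finite S] (p : ℕ) [Fact p.Prime] (hS : IsPGroup p S)
    (F : Cfsg.FusionSystem S) (hF : F.IsSaturated p)
    {T : Subgroup Ω} (E : Cfsg.FusionSystem T) (hE : E.IsWeaklyNormalIn F p)
    (R : Subgroup Ω) (hR : E.IsNormal R) (Rs : Subgroup Ω)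
    (hRs : Rs = Subgroup.closure {x : Ω | ∃ φ ∈ F.Hom R, ∃ r : R, x = φ r}) :
    F.IsNormal Rs := by
  obtain ⟨-, -, hinv⟩ := hE
  have hsub := hinv.1
  have hscT := hinv.2.1
  have hTS : T ≤ S := hscT.1
  have hTfin : Finite T := finite_of_le hTS
  have hRT : R ≤ T := hR.1
  have hRs_eq : Rs = sSup {J | ∃ α ∈ F.autGroup T, J = img R (autFun α)} := by
    apply le_antisymm
    · rw [hRs, Subgroup.closure_le]
      rintro _ ⟨φ, hφ, r, rfl⟩
      obtain ⟨α, hα, f₀, hf₀, h⟩ := frattini_ambient hinv hRT (isMap_extHom hφ)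
      have h1 := h r r.2
      rw [extHom_apply] at h1
      have h2 : f₀ r ∈ R := isNormal_mapsTo hR hf₀ le_rfl r r.2
      have hαm : IsMap F R (autFun α) := (IsMap.of_mem_autGroup hTS hα).restrict hRT
      have h3 : img R (autFun α) ≤ sSup {J | ∃ α ∈ F.autGroup T, J = img R (autFun α)} :=
        le_sSup ⟨α, hα, rfl⟩
      show φ r ∈ _
      rw [h1]
      exact h3 (hαm.apply_mem_img h2)
    · apply sSup_le
      rintro _ ⟨α, hα, rfl⟩
      have hαm : IsMap F R (autFun α) := (IsMap.of_mem_autGroup hTS hα).restrict hRT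
      obtain ⟨φ, hφ, hφf⟩ := hαm
      unfold img
      rw [hRs]
      apply Subgroup.closure_mono
      rintro _ ⟨r, hr, rfl⟩
      exact ⟨φ, hφ, ⟨r, hr⟩, (hφf ⟨r, hr⟩).symm⟩
  have hRsE : E.IsNormal Rs := by
    rw [hRs_eq]
    apply isNormal_sSup
    rintro _ ⟨α, hα, rfl⟩
    exact isNormal_img_of_invariant hinv hR hα
  have hRsT : Rs ≤ T := hRsE.1
  have hRsinv : ∀ α ∈ F.autGroup T, ∀ x ∈ Rs, autFun α x ∈ Rs := by
    intro α hα x hx
    have hαm : IsMap F T (autFun α) := IsMap.of_mem_autGroup hTS hα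
    have hcl : ∀ y, y ∈ Subgroup.closure {x : Ω | ∃ φ ∈ F.Hom R, ∃ r : R, x = φ r} → y ∈ T :=
      fun y hy => hRsT (hRs ▸ hy)
    rw [hRs] at hx ⊢
    induction hx using Subgroup.closure_induction with
    | mem y hy =>
      obtain ⟨φ, hφ, r, rfl⟩ := hy
      have h1 : IsMap F R (autFun α ∘ extHom φ) := (isMap_extHom hφ).comp hαm
        (fun x hx => stronglyClosed_mapsTo hscT (isMap_extHom hφ) hRT x hx)
      obtain ⟨ψ, hψ, hψf⟩ := h1
      apply Subgroup.subset_closure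
      refine ⟨ψ, hψ, r, ?_⟩
      rw [hψf r]
      show autFun α (φ r) = autFun α (extHom φ r)
      rw [extHom_apply]
    | one => rw [hαm.map_one]; exact Subgroup.one_mem _
    | mul a b ha hb iha ihb =>
      rw [hαm.map_mul (hcl a ha) (hcl b hb)]
      exact Subgroup.mul_mem _ iha ihb
    | inv a ha iha =>
      rw [hαm.map_inv (hcl a ha)]
      exact Subgroup.inv_mem _ iha
  apply isNormal_of_extends_to_aut hS hF (hRsT.trans hTS)
  intro P f hPRs hf
  obtain ⟨α, hα, f₀, hf₀, hff₀⟩ := frattini_ambient hinv (hPRs.trans hRsT) hf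
  obtain ⟨f₀', hf₀', hf₀'P, hf₀'R⟩ := ((isNormal_iff E Rs).mp hRsE).2 P f₀ hf₀
  have hαm : IsMap F T (autFun α) := IsMap.of_mem_autGroup hTS hα
  have h1 : IsMap F Rs f₀' := isMap_of_subsystem hsub (hf₀'.restrict le_sup_right)
  have h2 : IsMap F Rs (autFun α ∘ f₀') := h1.comp hαm (fun x hx => hRsT (hf₀'R x hx))
  have h3 : ∀ x ∈ Rs, (autFun α ∘ f₀') x ∈ Rs := fun x hx => hRsinv α hα _ (hf₀'R x hx)
  obtain ⟨β, hβ, hβf⟩ := h2.exists_aut (h2.img_eq_of_mapsTo h3)
  refine ⟨β, hβ, fun x hx => ?_⟩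
  rw [hβf x (hPRs hx), hff₀ x hx]
  show autFun α (f₀ x) = autFun α (f₀' x)
  rw [hf₀'P x hx]

/-- Let F be a saturated fusion system over a finite p-group S and E a weakly normal subsystem of F over a subgroup T. Suppose a subgroup R of T is normal in E (E = N_E(R)), and let R* be the subgroup of T generated by the images of R under all maps of F with source R. Then R* is normal in F (F = N_F(R*)). -/
theorem result {Ω : Type*} [Group Ω] {S : Subgroup Ω} [Finite S] (p : ℕ) [Fact p.Prime] (hS : IsPGroup p S)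
    (F : Cfsg.FusionSystem S) (hF : F.IsSaturated p)
    {T : Subgroup Ω} (E : Cfsg.FusionSystem T) (hE : E.IsWeaklyNormalIn F p)
    (R : Subgroup Ω) (hR : E.IsNormal R) :
    F.IsNormal (Subgroup.closure {x : Ω | ∃ φ ∈ F.Hom R, ∃ r : R, x = φ r}) := by
  exact main p hS F hF E hE R hR _ rfl

end Cfsg.Agent.S5291
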