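import Cfsg.Statements.S5292
import Cfsg.Agent.Helper99.PSolvReal

set_option autoImplicit false
universe u
open Cfsg

namespace Cfsg.Agent.S5292

/-- Let F be a saturated fusion system over a finite p-group S. Then F is the fusion system of some finite p-solvable group on a Sylow p-subgroup if and only if F is constrained (some subgroup normal in F is centric in F) and the group of automorphisms that F induces on its largest normal subgroup O_p(F) is p-solvable. -/
theorem result {Ω : Type u} [Group Ω] {S : Subgroup Ω} [Finite S] (p : ℕ) [Fact p.Prime] (hS : IsPGroup p S)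
    (F : Cfsg.FusionSystem S) (hF : F.IsSaturated p) :
    (∃ (G : Type u) (_ : Group G) (_ : Finite G) (ι : S →* G), Cfsg.IsPSolvable p G ∧ F.IsRealizedBy ι ∧
        ∃ T : Sylow p G, (T : Subgroup G) = ι.range) ↔
      (F.IsConstrained p ∧ Cfsg.IsPSolvable p ↥(F.autGroup F.core)) := by
  constructor
  · rintro ⟨G, _, _, ι, hG, hreal, T, hT⟩
    refine ⟨Cfsg.Agent.Helper99.psr_constrained hS F ι hG hreal T hT, ?_⟩
    exact Cfsg.Agent.Helper99.psr_autGroup_isPSolvable F ι hreal hG
      (Cfsg.Agent.Helper85.core_isCentric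
        (Cfsg.Agent.Helper99.psr_constrained hS F ι hG hreal T hT)).1.1
  · rintro ⟨hc, hA⟩
    obtain ⟨hn, hcc⟩ := Cfsg.Agent.Helper85.core_isCentric hc
    obtain ⟨L, _, ι, hM⟩ := Cfsg.Agent.Helper84.exists_model p hS F hF hn hcc
    exact ⟨L, inferInstance, hM.1, ι,
      Cfsg.Agent.Helper99.psr_model_isPSolvable hS F hc hA ι hM, hM.2.1, hM.2.2.1⟩

end Cfsg.Agent.S5292
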