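import Cfsg.Statements.S5294
import Cfsg.Agent.Helper88.FusionNormal

set_option autoImplicit false
universe u
open Cfsg

namespace Cfsg.Agent.S5294

open Cfsg.FusionSystem Cfsg.Agent.Helper88

/-- Let F be a saturated fusion system over a finite p-group S whose centre Z(S) lies in the largest subgroup O_p(F) normal in F. Then the centre Z(F) of F is a direct factor of Z(S): there is a subgroup K of Z(S) with Z(F) ∩ K = 1 and Z(F)K = Z(S). -/
theorem result {Ω : Type u} [Group Ω] {S : Subgroup Ω} [Finite S] (p : ℕ) [Fact p.Prime] (hS : IsPGroup p S)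
    (F : Cfsg.FusionSystem S) (hF : F.IsSaturated p) (hZ : (S ⊓ Subgroup.centralizer (S : Set Ω)) ≤ F.core) :
    ∃ K : Subgroup Ω, K ≤ (S ⊓ Subgroup.centralizer (S : Set Ω)) ∧ F.center ⊓ K = ⊥ ∧ F.center ⊔ K = (S ⊓ Subgroup.centralizer (S : Set Ω)) := by
  have hR := isNormal_core F
  have hV := isNormal_center hR
  have hZV : S ⊓ Subgroup.centralizer (S : Set Ω) ≤ F.core ⊓ Subgroup.centralizer (F.core : Set Ω) := by
    intro z hz
    refine Subgroup.mem_inf.mpr ⟨hZ hz, ?_⟩
    rw [Subgroup.mem_centralizer_iff]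
    intro r hr
    exact Subgroup.mem_centralizer_iff.mp (Subgroup.mem_inf.mp hz).2 r (hR.1 hr)
  have hVfin : Finite (F.core ⊓ Subgroup.centralizer (F.core : Set Ω) : Subgroup Ω) := finite_of_le hV.1
  have hcomm : ∀ x y : (F.core ⊓ Subgroup.centralizer (F.core : Set Ω) : Subgroup Ω), x * y = y * x := by
    rintro ⟨x, hx⟩ ⟨y, hy⟩
    apply Subtype.ext
    exact Subgroup.mem_centralizer_iff.mp (Subgroup.mem_inf.mp hy).2 x (Subgroup.mem_inf.mp hx).1
  have hVp : IsPGroup p (F.core ⊓ Subgroup.centralizer (F.core : Set Ω) : Subgroup Ω) := hS.to_le hV.1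
  obtain ⟨Rr, hRr⟩ := (fullyAutomized_of_isNormal hF hV).1.2
  have hidx : (((autInducedBy S (F.core ⊓ Subgroup.centralizer (F.core : Set Ω))).subgroupOf
      (F.autGroup (F.core ⊓ Subgroup.centralizer (F.core : Set Ω)))).index).Coprime p := by
    have h1 := Rr.not_dvd_index
    rw [hRr] at h1
    exact ((Nat.Prime.coprime_iff_not_dvd Fact.out).mpr h1).symm
  obtain ⟨K, hK1, hK2, hK3⟩ := rel_trace_decomp hcomm hVp _ _ (autInducedBy_le_autGroup F hV.1) hidx
  refine ⟨K.map (Subgroup.subtype _), ?_, ?_, ?_⟩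
  · rw [center_S_eq_of_isNormal hV hZV]
    exact Subgroup.map_mono hK1
  · rw [center_eq_of_isNormal hV hZV, ← Subgroup.map_inf _ _ _ (Subgroup.subtype_injective _), hK2,
      Subgroup.map_bot]
  · rw [center_eq_of_isNormal hV hZV, ← Subgroup.map_sup, hK3, ← center_S_eq_of_isNormal hV hZV]

end Cfsg.Agent.S5294
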