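import Cfsg.Statements.S5298
import Cfsg.Agent.Helper88.StableFix
-- import your own Cfsg.Agent.* helpers here

set_option autoImplicit false
universe u
open Cfsg

namespace Cfsg.Agent.S5298

open Cfsg.Agent.Helper88

theorem hyp_comm_mem {Ω : Type u} [Group Ω] {S : Subgroup Ω} {p : ℕ} [Fact p.Prime]
    {F : Cfsg.FusionSystem S} {R : Subgroup Ω} (hRS : R ≤ S) {κ : MulAut R} (hκ : κ ∈ F.autGroup R)
    {m : ℕ} (hm : m.Coprime p) (hκm : κ ^ m = 1) (y : R) :
    (y : Ω)⁻¹ * ((κ y : R) : Ω) ∈ F.hyperfocalSubgroup p := by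
  refine Subgroup.subset_closure ⟨R, ⟨κ, hκ⟩, y, hRS, ?_, rfl⟩
  refine Subgroup.subset_closure ?_
  show Nat.Coprime (orderOf (⟨κ, hκ⟩ : F.autGroup R)) p
  rw [Subgroup.orderOf_mk]
  exact Nat.Coprime.coprime_dvd_left (orderOf_dvd_of_pow_eq_one hκm) hm

theorem small_card {G : Type*} [Group G] {p : ℕ} [Fact p.Prime] {x : G} (hx1 : x ≠ 1)
    (hxs : x ^ p = 1 ∨ (p = 2 ∧ x ^ 4 = 1)) :
    Nat.card (Subgroup.zpowers x) = p ∨ Nat.card (Subgroup.zpowers x) = 4 := by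
  rw [Nat.card_zpowers]
  rcases hxs with h | ⟨hp2, h4⟩
  · left; exact orderOf_eq_prime h hx1
  · have hd : orderOf x ∣ 2 ^ 2 := orderOf_dvd_of_pow_eq_one (by norm_num; exact h4)
    obtain ⟨k, hk, hk'⟩ := (Nat.dvd_prime_pow Nat.prime_two).mp hd
    have hk0 : k ≠ 0 := by
      rintro rfl
      rw [pow_zero, orderOf_eq_one_iff] at hk'
      exact hx1 hk'
    have : k = 1 ∨ k = 2 := by omega
    rcases this with rfl | rfl
    · left; rw [hk', hp2]; rfl
    · right; rw [hk']; rfl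

theorem conj_of_small {Ω : Type u} [Group Ω] {S : Subgroup Ω} [Finite S] {p : ℕ} [Fact p.Prime]
    {F : Cfsg.FusionSystem S}
    (h : ∀ A B : Subgroup Ω, A ≤ (F.hyperfocalSubgroup p) → B ≤ (F.hyperfocalSubgroup p) → IsCyclic ↥A → (Nat.card ↥A = p ∨ Nat.card ↥A = 4) → IsCyclic ↥B → (Nat.card ↥B = p ∨ Nat.card ↥B = 4) →
      F.homSet A B ⊆ (Cfsg.innerFusionSystem S).Hom A)
    {R : Subgroup Ω} (hRS : R ≤ S) {β : MulAut R} (hβ : β ∈ F.autGroup R) {x : R}
    (hx : (x : Ω) ∈ F.hyperfocalSubgroup p) (hβx : ((β x : R) : Ω) ∈ F.hyperfocalSubgroup p)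
    (hxs : x ^ p = 1 ∨ (p = 2 ∧ x ^ 4 = 1)) :
    ∃ s ∈ S, ((β x : R) : Ω) = s * x * s⁻¹ := by
  by_cases hx1 : x = 1
  · refine ⟨1, S.one_mem, ?_⟩
    rw [hx1, map_one]; simp
  have hx1' : (x : Ω) ≠ 1 := fun h1 => hx1 (Subtype.ext h1)
  have hβx1 : ((β x : R) : Ω) ≠ 1 := by
    intro h1
    apply hx1
    have : β x = 1 := Subtype.ext h1
    exact (map_eq_one_iff β β.injective).mp this
  have hxs' : (x : Ω) ^ p = 1 ∨ (p = 2 ∧ (x : Ω) ^ 4 = 1) := by
    rcases hxs with h1 | ⟨h2, h4⟩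
    · left; rw [← Subgroup.coe_pow, h1]; rfl
    · right; refine ⟨h2, ?_⟩; rw [← Subgroup.coe_pow, h4]; rfl
  have hβxs' : ((β x : R) : Ω) ^ p = 1 ∨ (p = 2 ∧ ((β x : R) : Ω) ^ 4 = 1) := by
    rcases hxs with h1 | ⟨h2, h4⟩
    · left; rw [← Subgroup.coe_pow, ← map_pow, h1, map_one]; rfl
    · right; refine ⟨h2, ?_⟩; rw [← Subgroup.coe_pow, ← map_pow, h4, map_one]; rfl
  have hA : Subgroup.zpowers (x : Ω) ≤ R := (Subgroup.zpowers_le).mpr x.2
  have hmap : IsMap F (Subgroup.zpowers (x : Ω)) (autFun β) := (IsMap.of_mem_autGroup hRS hβ).restrict hA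
  obtain ⟨φ, hφ, hφf⟩ := hmap
  have hφx : φ ⟨(x : Ω), Subgroup.mem_zpowers _⟩ = ((β x : R) : Ω) := by
    rw [hφf]; exact autFun_apply β x
  have hmem : φ ∈ F.homSet (Subgroup.zpowers (x : Ω)) (Subgroup.zpowers ((β x : R) : Ω)) := by
    refine ⟨hφ, fun a => ?_⟩
    obtain ⟨n, hn⟩ := Subgroup.mem_zpowers_iff.mp a.2
    have ha : a = (⟨(x : Ω), Subgroup.mem_zpowers _⟩ : Subgroup.zpowers (x : Ω)) ^ n := by
      apply Subtype.ext
      rw [Subgroup.coe_zpow]; exact hn.symm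
    rw [ha, map_zpow, hφx]
    exact Subgroup.zpow_mem _ (Subgroup.mem_zpowers _) n
  have := h _ _ ((Subgroup.zpowers_le).mpr hx) ((Subgroup.zpowers_le).mpr hβx) inferInstance
    (small_card hx1' hxs') inferInstance (small_card hβx1 hβxs') hmem
  obtain ⟨-, g, hg, hφg⟩ := this
  refine ⟨g, hg, ?_⟩
  rw [← hφx, hφg]

/-- Let F be a saturated fusion system over a finite p-group S. If every map of F between cyclic subgroups of the hyperfocal subgroup of F of order p or 4 is conjugation by an element of S, then F is the inner fusion system of S. -/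
theorem result {Ω : Type u} [Group Ω] {S : Subgroup Ω} [Finite S] (p : ℕ) [Fact p.Prime] (hS : IsPGroup p S)
    (F : Cfsg.FusionSystem S) (hF : F.IsSaturated p)
    (h : ∀ A B : Subgroup Ω, A ≤ (F.hyperfocalSubgroup p) → B ≤ (F.hyperfocalSubgroup p) → IsCyclic ↥A → (Nat.card ↥A = p ∨ Nat.card ↥A = 4) → IsCyclic ↥B → (Nat.card ↥B = p ∨ Nat.card ↥B = 4) →
      F.homSet A B ⊆ (Cfsg.innerFusionSystem S).Hom A) :
    ∀ P : Subgroup Ω, F.Hom P = (Cfsg.innerFusionSystem S).Hom P := by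
  -- automorphisms of order prime to `p` are trivial
  have hK : ∀ (R : Subgroup Ω), R ≤ S → ∀ κ ∈ F.autGroup R, ∀ m : ℕ, m.Coprime p → κ ^ m = 1 → κ = 1 := by
    intro R hRS κ hκ m hm hκm
    have hH : ∀ c ∈ Subgroup.closure {c : R | ∃ y : R, c = y⁻¹ * κ y},
        (c : Ω) ∈ F.hyperfocalSubgroup p := by
      intro c hc
      induction hc using Subgroup.closure_induction with
      | mem c hc =>
        obtain ⟨y, rfl⟩ := hc
        have := hyp_comm_mem hRS hκ hm hκm y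
        simpa using this
      | one => exact Subgroup.one_mem _
      | mul a b _ _ ha hb => exact Subgroup.mul_mem _ ha hb
      | inv a _ ha => exact Subgroup.inv_mem _ ha
    apply mulAut_eq_one_of_conj_small hS hRS κ hm hκm
    intro j x hx hxs
    have hxhyp : (x : Ω) ∈ F.hyperfocalSubgroup p := hH x hx
    have hκj : κ ^ j ∈ F.autGroup R := Subgroup.pow_mem _ hκ j
    have hκjm : (κ ^ j) ^ m = 1 := by rw [← pow_mul, mul_comm, pow_mul, hκm, one_pow]
    have h1 := hyp_comm_mem hRS hκj hm hκjm x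
    have h2 : (((κ ^ j) x : R) : Ω) ∈ F.hyperfocalSubgroup p := by
      have := Subgroup.mul_mem _ hxhyp h1
      simpa using this
    exact conj_of_small h hRS hκj hxhyp h2 hxs
  -- hence all automorphism groups are `p`-groups
  have hP : ∀ (R : Subgroup Ω), R ≤ S → ∀ γ ∈ F.autGroup R, ∃ a : ℕ, γ ^ p ^ a = 1 := by
    intro R hRS γ hγ
    have hRfin : Finite R := finite_of_le hRS
    have hfinM : Finite (MulAut R) := inferInstance
    have hpos : orderOf γ ≠ 0 := (orderOf_pos γ).ne'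
    obtain ⟨a, m, hm, hord⟩ := Nat.exists_eq_pow_mul_and_not_dvd hpos p (Fact.out : p.Prime).ne_one
    refine ⟨a, ?_⟩
    have hκm : (γ ^ p ^ a) ^ m = 1 := by
      rw [← pow_mul, ← hord]; exact pow_orderOf_eq_one γ
    have hcop : m.Coprime p := by
      rw [Nat.coprime_comm]
      exact (Nat.Prime.coprime_iff_not_dvd Fact.out).mpr hm
    exact hK R hRS _ (Subgroup.pow_mem _ hγ _) m hcop hκm
  -- Alperin
  have hall : ∀ (P : Subgroup Ω) (f : Ω → Ω), IsMap F P f → ∃ g ∈ S, ∀ x ∈ P, f x = g * x * g⁻¹ := by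
    intro P f hf
    refine alperin_induction hS hF (fun P f => ∃ g ∈ S, ∀ x ∈ P, f x = g * x * g⁻¹) ?_ ?_ ?_ hf
    · intro R hRa hRr hRc hRrad α hα P hPR
      obtain ⟨hRS, Syl, hSyl⟩ := hRa
      have hpg : IsPGroup p (F.autGroup R) := by
        rintro ⟨γ, hγ⟩
        obtain ⟨a, ha⟩ := hP R hRS γ hγ
        exact ⟨a, Subtype.ext ha⟩
      have htop : (⊤ : Subgroup (F.autGroup R)) = ↑Syl := Syl.is_maximal' (hpg.to_subgroup ⊤) le_top
      have hαS : (⟨α, hα⟩ : F.autGroup R) ∈ (autInducedBy S R).subgroupOf (F.autGroup R) := by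
        rw [← hSyl, ← htop]; exact Subgroup.mem_top _
      obtain ⟨g, hg, hgα⟩ := (mem_autInducedBy_iff' S α).mp (Subgroup.mem_subgroupOf.mp hαS)
      exact ⟨g, hg, fun x hx => hgα x (hPR hx)⟩
    · rintro P Q f g - - ⟨g₁, hg₁, h₁⟩ ⟨g₂, hg₂, h₂⟩ hPQ
      refine ⟨g₂ * g₁, S.mul_mem hg₂ hg₁, fun x hx => ?_⟩
      show g (f x) = _
      rw [h₂ _ (hPQ x hx), h₁ x hx]
      group
    · rintro P f g - ⟨g₁, hg₁, h₁⟩ hgf
      exact ⟨g₁, hg₁, fun x hx => by rw [hgf x hx, h₁ x hx]⟩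
  intro P
  ext φ
  constructor
  · intro hφ
    obtain ⟨g, hg, hgφ⟩ := hall P (extHom φ) (isMap_extHom hφ)
    exact ⟨(F.le_of_mem hφ).1, g, hg, fun x => by rw [← extHom_apply]; exact hgφ x x.2⟩
  · rintro ⟨hPS, g, hg, hφ⟩
    have : φ = conjHom P g := MonoidHom.ext (fun x => hφ x)
    rw [this]
    exact F.conj_mem hPS hg

end Cfsg.Agent.S5298
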