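import Cfsg.Statements.S5297
import Cfsg.Agent.S5298
-- import your own Cfsg.Agent.* helpers here

set_option autoImplicit false
universe u
open Cfsg

namespace Cfsg.Agent.S5297

open Cfsg.Agent.Helper88

open scoped commutatorElement

/-- The subgroup generated by the conjugates under `A` of the elements of `P`. -/
def ncl {G : Type*} [Group G] (A P : Subgroup G) : Subgroup G :=
  Subgroup.closure {v : G | ∃ g ∈ A, ∃ u ∈ P, v = g * u * g⁻¹}

theorem le_ncl {G : Type*} [Group G] (A P : Subgroup G) : P ≤ ncl A P := by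
  intro u hu
  exact Subgroup.subset_closure ⟨1, A.one_mem, u, hu, by simp⟩

theorem ncl_le {G : Type*} [Group G] {A P : Subgroup G} (hPA : P ≤ A) : ncl A P ≤ A := by
  unfold ncl
  rw [Subgroup.closure_le]
  rintro _ ⟨g, hg, u, hu, rfl⟩
  exact A.mul_mem (A.mul_mem hg (hPA hu)) (A.inv_mem hg)

theorem ncl_conj {G : Type*} [Group G] {A P : Subgroup G} {g k : G} (hg : g ∈ A) (hk : k ∈ ncl A P) :
    g * k * g⁻¹ ∈ ncl A P := by
  unfold ncl at hk ⊢
  induction hk using Subgroup.closure_induction with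
  | mem v hv =>
    obtain ⟨g', hg', u, hu, rfl⟩ := hv
    refine Subgroup.subset_closure ⟨g * g', A.mul_mem hg hg', u, hu, ?_⟩
    group
  | one => simp
  | mul a b _ _ iha ihb =>
    have e : g * (a * b) * g⁻¹ = (g * a * g⁻¹) * (g * b * g⁻¹) := by group
    rw [e]; exact Subgroup.mul_mem _ iha ihb
  | inv a _ iha =>
    have e : g * a⁻¹ * g⁻¹ = (g * a * g⁻¹)⁻¹ := by group
    rw [e]; exact Subgroup.inv_mem _ iha

/-- A map of the system between small cyclic subgroups of the hyperfocal subgroup is induced by an automorphism of `S`. -/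
theorem aut_of_small {Ω : Type u} [Group Ω] {S : Subgroup Ω} [Finite S] {p : ℕ} [Fact p.Prime]
    {F : Cfsg.FusionSystem S}
    (h : ∀ A B : Subgroup Ω, A ≤ (F.hyperfocalSubgroup p) → B ≤ (F.hyperfocalSubgroup p) → IsCyclic ↥A → (Nat.card ↥A = p ∨ Nat.card ↥A = 4) → IsCyclic ↥B → (Nat.card ↥B = p ∨ Nat.card ↥B = 4) →
      F.homSet A B ⊆ F.normalizerHom S A)
    {R : Subgroup Ω} (hRS : R ≤ S) {β : MulAut R} (hβ : β ∈ F.autGroup R) {x : R}
    (hx : (x : Ω) ∈ F.hyperfocalSubgroup p) (hβx : ((β x : R) : Ω) ∈ F.hyperfocalSubgroup p)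
    (hxs : x ^ p = 1 ∨ (p = 2 ∧ x ^ 4 = 1)) :
    ∃ a : MulAut S, ((β x : R) : Ω) = ((a ⟨(x : Ω), hRS x.2⟩ : S) : Ω) := by
  by_cases hx1 : x = 1
  · refine ⟨1, ?_⟩
    subst hx1
    simp
  have hx1' : (x : Ω) ≠ 1 := fun h1 => hx1 (Subtype.ext h1)
  have hβx1 : ((β x : R) : Ω) ≠ 1 := by
    intro h1
    apply hx1
    have : β x = 1 := Subtype.ext h1
    exact (map_eq_one_iff β β.injective).mp this
  have hxs' : (x : Ω) ^ p = 1 ∨ (p = 2 ∧ (x : Ω) ^ 4 = 1) := by
    rcases hxs with h1 | ⟨h2, h4⟩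
    · left; rw [← Subgroup.coe_pow, h1]; rfl
    · right; refine ⟨h2, ?_⟩; rw [← Subgroup.coe_pow, h4]; rfl
  have hβxs' : ((β x : R) : Ω) ^ p = 1 ∨ (p = 2 ∧ ((β x : R) : Ω) ^ 4 = 1) := by
    rcases hxs with h1 | ⟨h2, h4⟩
    · left; rw [← Subgroup.coe_pow, ← map_pow, h1, map_one]; rfl
    · right; refine ⟨h2, ?_⟩; rw [← Subgroup.coe_pow, ← map_pow, h4, map_one]; rfl
  have hA : Subgroup.zpowers (x : Ω) ≤ R := (Subgroup.zpowers_le).mpr x.2
  have hmap : IsMap F (Subgroup.zpowers (x : Ω)) (autFun β) := (IsMap.of_mem_autGroup hRS hβ).restrict hA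
  obtain ⟨φ, hφ, hφf⟩ := hmap
  have hφx : φ ⟨(x : Ω), Subgroup.mem_zpowers _⟩ = ((β x : R) : Ω) := by
    rw [hφf]; exact autFun_apply β x
  have hmem : φ ∈ F.homSet (Subgroup.zpowers (x : Ω)) (Subgroup.zpowers ((β x : R) : Ω)) := by
    refine ⟨hφ, fun a => ?_⟩
    obtain ⟨n, hn⟩ := Subgroup.mem_zpowers_iff.mp a.2
    have ha : a = (⟨(x : Ω), Subgroup.mem_zpowers _⟩ : Subgroup.zpowers (x : Ω)) ^ n := by
      apply Subtype.ext
      rw [Subgroup.coe_zpow]; exact hn.symm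
    rw [ha, map_zpow, hφx]
    exact Subgroup.zpow_mem _ (Subgroup.mem_zpowers _) n
  have := h _ _ ((Subgroup.zpowers_le).mpr hx) ((Subgroup.zpowers_le).mpr hβx) inferInstance
    (Cfsg.Agent.S5298.small_card hx1' hxs') inferInstance (Cfsg.Agent.S5298.small_card hβx1 hβxs') hmem
  obtain ⟨-, -, -, ψ, hψ, hψφ, -⟩ := this
  have hm : IsMap F S (extHom ψ) := (isMap_extHom hψ).restrict le_sup_right
  have himg : img S (extHom ψ) = S := hm.img_eq_of_mapsTo (fun y hy => hm.mem hy)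
  obtain ⟨a, -, ha⟩ := hm.exists_aut himg
  refine ⟨a, ?_⟩
  have hxS : (x : Ω) ∈ S := hRS x.2
  have h1 := ha (x : Ω) hxS
  rw [autFun_apply' a hxS] at h1
  rw [h1, ← hφx, ← hψφ]
  exact (extHom_apply' ψ (le_sup_left (a := Subgroup.zpowers (x : Ω)) (Subgroup.mem_zpowers _))).symm

/-- Maps of the system preserve the depth (in the upper central series of `S`) of small elements of the hyperfocal subgroup. -/
theorem depth_of_small {Ω : Type u} [Group Ω] {S : Subgroup Ω} [Finite S] {p : ℕ} [Fact p.Prime]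
    {F : Cfsg.FusionSystem S}
    (h : ∀ A B : Subgroup Ω, A ≤ (F.hyperfocalSubgroup p) → B ≤ (F.hyperfocalSubgroup p) → IsCyclic ↥A → (Nat.card ↥A = p ∨ Nat.card ↥A = 4) → IsCyclic ↥B → (Nat.card ↥B = p ∨ Nat.card ↥B = 4) →
      F.homSet A B ⊆ F.normalizerHom S A)
    {R : Subgroup Ω} (hRS : R ≤ S) {β : MulAut R} (hβ : β ∈ F.autGroup R) {x : R}
    (hx : (x : Ω) ∈ F.hyperfocalSubgroup p) (hβx : ((β x : R) : Ω) ∈ F.hyperfocalSubgroup p)
    (hxs : x ^ p = 1 ∨ (p = 2 ∧ x ^ 4 = 1)) (j : ℕ) (hj : (x : Ω) ∈ ucs S j) :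
    ((β x : R) : Ω) ∈ ucs S j := by
  obtain ⟨a, ha⟩ := aut_of_small h hRS hβ hx hβx hxs
  obtain ⟨y, hy, hyx⟩ := hj
  have hy' : y = ⟨(x : Ω), hRS x.2⟩ := Subtype.ext hyx
  have hchar : (Subgroup.upperCentralSeries S j).map a.toMonoidHom ≤ Subgroup.upperCentralSeries S j :=
    Subgroup.characteristic_iff_map_le.mp inferInstance a
  rw [ha]
  refine ⟨a ⟨(x : Ω), hRS x.2⟩, hchar ⟨y, hy, ?_⟩, rfl⟩
  rw [hy']; rfl

/-- The key induction: elements of order prime to `p` in the normal closure of `Aut_S(R)` in `A` fix every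
`A`-invariant subgroup of `R` inside `Hyp`. -/
theorem fix_invariant {Ω : Type u} [Group Ω] {S : Subgroup Ω} [Finite S] {p : ℕ} [Fact p.Prime]
    (hS : IsPGroup p S) {R : Subgroup Ω} (hRS : R ≤ S)
    (A : Subgroup (MulAut R)) (hPA : autInducedBy S R ≤ A) (Hyp : Subgroup Ω)
    (hdepth : ∀ β ∈ A, ∀ x : R, (x : Ω) ∈ Hyp → ((β x : R) : Ω) ∈ Hyp →
      (x ^ p = 1 ∨ (p = 2 ∧ x ^ 4 = 1)) → ∀ j : ℕ, (x : Ω) ∈ ucs S j → ((β x : R) : Ω) ∈ ucs S j) :
    ∀ (n : ℕ) (D : Subgroup R), Nat.card D = n → (∀ g ∈ A, ∀ x ∈ D, g x ∈ D) →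
      (∀ x ∈ D, (x : Ω) ∈ Hyp) →
      ∀ κ ∈ ncl A (autInducedBy S R), ∀ m : ℕ, m.Coprime p → κ ^ m = 1 → ∀ x ∈ D, κ x = x := by
  have hRfin : Finite R := finite_of_le hRS
  have hRp : IsPGroup p R := hS.to_le hRS
  have hpp : p.Prime := Fact.out
  intro n
  induction n using Nat.strong_induction_on with
  | _ n ih =>
    intro D hn hinv hH κ hκ m hm hκm x hx
    have hκA : κ ∈ A := ncl_le hPA hκ
    by_cases hbot : D = ⊥
    · rw [hbot, Subgroup.mem_bot] at hx
      rw [hx, map_one]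
    have hD₁D : Subgroup.closure {c : R | ∃ y ∈ D, ∃ k ∈ ncl A (autInducedBy S R), ∃ m : ℕ,
        m.Coprime p ∧ k ^ m = 1 ∧ c = y⁻¹ * k y} ≤ D := by
      rw [Subgroup.closure_le]
      rintro _ ⟨y, hy, k, hk, -, -, -, rfl⟩
      exact D.mul_mem (D.inv_mem hy) (hinv k (ncl_le hPA hk) y hy)
    have hD₁inv : ∀ g ∈ A, ∀ c ∈ Subgroup.closure {c : R | ∃ y ∈ D, ∃ k ∈ ncl A (autInducedBy S R),
        ∃ m : ℕ, m.Coprime p ∧ k ^ m = 1 ∧ c = y⁻¹ * k y},
        g c ∈ Subgroup.closure {c : R | ∃ y ∈ D, ∃ k ∈ ncl A (autInducedBy S R), ∃ m : ℕ,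
          m.Coprime p ∧ k ^ m = 1 ∧ c = y⁻¹ * k y} := by
      intro g hg c hc
      induction hc using Subgroup.closure_induction with
      | mem c hc =>
        obtain ⟨y, hy, k, hk, m', hm', hkm', rfl⟩ := hc
        apply Subgroup.subset_closure
        refine ⟨g y, hinv g hg y hy, g * k * g⁻¹, ncl_conj hg hk, m', hm', ?_, ?_⟩
        · rw [conj_pow, hkm']; group
        · rw [map_mul, map_inv, MulAut.mul_apply, MulAut.mul_apply, MulAut.inv_apply_self]
      | one => rw [map_one]; exact Subgroup.one_mem _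
      | mul a b _ _ iha ihb => rw [map_mul]; exact Subgroup.mul_mem _ iha ihb
      | inv a _ iha => rw [map_inv]; exact Subgroup.inv_mem _ iha
    have hxc : x⁻¹ * κ x ∈ Subgroup.closure {c : R | ∃ y ∈ D, ∃ k ∈ ncl A (autInducedBy S R),
        ∃ m : ℕ, m.Coprime p ∧ k ^ m = 1 ∧ c = y⁻¹ * k y} :=
      Subgroup.subset_closure ⟨x, hx, κ, hκ, m, hm, hκm, rfl⟩
    by_cases hC : Subgroup.closure {c : R | ∃ y ∈ D, ∃ k ∈ ncl A (autInducedBy S R), ∃ m : ℕ,
        m.Coprime p ∧ k ^ m = 1 ∧ c = y⁻¹ * k y} = D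
    · obtain ⟨K, hKD, hKlt, hKpow, hKcomm⟩ := exists_frattini_like D (hRp.to_subgroup D) hbot
      have hMK : Subgroup.closure ({u | ∃ a ∈ D, ∃ b ∈ D, u = ⁅a, b⁆} ∪ {u | ∃ a ∈ D, u = a ^ p}) ≤ K := by
        rw [Subgroup.closure_le]
        rintro u (⟨a, ha, b, hb, rfl⟩ | ⟨a, ha, rfl⟩)
        · exact hKcomm a ha b hb
        · exact hKpow a ha
      have hMD := hMK.trans hKD
      have hMlt : Nat.card (Subgroup.closure ({u | ∃ a ∈ D, ∃ b ∈ D, u = ⁅a, b⁆} ∪
          {u | ∃ a ∈ D, u = a ^ p}) : Subgroup R) < Nat.card D :=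
        lt_of_le_of_lt (Subgroup.card_le_of_le hMK) hKlt
      have hMinv : ∀ g ∈ A, ∀ u ∈ Subgroup.closure ({u | ∃ a ∈ D, ∃ b ∈ D, u = ⁅a, b⁆} ∪ {u | ∃ a ∈ D, u = a ^ p}),
          g u ∈ Subgroup.closure ({u | ∃ a ∈ D, ∃ b ∈ D, u = ⁅a, b⁆} ∪ {u | ∃ a ∈ D, u = a ^ p}) := by
        intro g hg u hu
        induction hu using Subgroup.closure_induction with
        | mem u hu =>
          apply Subgroup.subset_closure
          rcases hu with ⟨a, ha, b, hb, rfl⟩ | ⟨a, ha, rfl⟩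
          · left
            exact ⟨g a, hinv g hg a ha, g b, hinv g hg b hb, map_commutatorElement g a b⟩
          · right
            exact ⟨g a, hinv g hg a ha, map_pow g a p⟩
        | one => rw [map_one]; exact Subgroup.one_mem _
        | mul a b _ _ iha ihb => rw [map_mul]; exact Subgroup.mul_mem _ iha ihb
        | inv a _ iha => rw [map_inv]; exact Subgroup.inv_mem _ iha
      have hfixM : ∀ k ∈ ncl A (autInducedBy S R), ∀ m : ℕ, m.Coprime p → k ^ m = 1 →
          ∀ u ∈ Subgroup.closure ({u | ∃ a ∈ D, ∃ b ∈ D, u = ⁅a, b⁆} ∪ {u | ∃ a ∈ D, u = a ^ p}), k u = u :=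
        fun k hk m' hm' hkm' => ih _ (hn ▸ hMlt) _ rfl hMinv (fun y hy => hH y (hMD hy)) k hk m' hm' hkm'
      have hcommM : ∀ a ∈ D, ∀ b ∈ D, ⁅a, b⁆ ∈ Subgroup.closure ({u | ∃ a ∈ D, ∃ b ∈ D, u = ⁅a, b⁆} ∪
          {u | ∃ a ∈ D, u = a ^ p}) :=
        fun a ha b hb => Subgroup.subset_closure (Or.inl ⟨a, ha, b, hb, rfl⟩)
      have hpowM : ∀ a ∈ D, a ^ p ∈ Subgroup.closure ({u | ∃ a ∈ D, ∃ b ∈ D, u = ⁅a, b⁆} ∪
          {u | ∃ a ∈ D, u = a ^ p}) :=
        fun a ha => Subgroup.subset_closure (Or.inr ⟨a, ha, rfl⟩)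
      have hcent : Subgroup.closure {c : R | ∃ y ∈ D, ∃ k ∈ ncl A (autInducedBy S R), ∃ m : ℕ,
          m.Coprime p ∧ k ^ m = 1 ∧ c = y⁻¹ * k y} ≤ Subgroup.centralizer
          ((Subgroup.closure ({u | ∃ a ∈ D, ∃ b ∈ D, u = ⁅a, b⁆} ∪ {u | ∃ a ∈ D, u = a ^ p}) :
            Subgroup R) : Set R) := by
        rw [Subgroup.closure_le]
        rintro _ ⟨y, hy, k, hk, m', hm', hkm', rfl⟩
        rw [SetLike.mem_coe, Subgroup.mem_centralizer_iff]
        intro u hu
        have h1 : y * u * y⁻¹ ∈ Subgroup.closure ({u | ∃ a ∈ D, ∃ b ∈ D, u = ⁅a, b⁆} ∪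
            {u | ∃ a ∈ D, u = a ^ p}) := by
          have h := hcommM y hy u (hMD hu)
          rw [commutatorElement_def] at h
          have e : y * u * y⁻¹ = y * u * y⁻¹ * u⁻¹ * u := by group
          rw [e]
          exact Subgroup.mul_mem _ h hu
        have h2 := hfixM k hk m' hm' hkm' _ h1
        rw [map_mul, map_mul, map_inv, hfixM k hk m' hm' hkm' u hu] at h2
        calc u * (y⁻¹ * k y) = y⁻¹ * (y * u * y⁻¹) * k y := by group
          _ = y⁻¹ * (k y * u * (k y)⁻¹) * k y := by rw [h2]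
          _ = y⁻¹ * k y * u := by group
      rw [hC] at hcent
      have hcomm' : ∀ d ∈ D, ∀ u ∈ Subgroup.closure ({u | ∃ a ∈ D, ∃ b ∈ D, u = ⁅a, b⁆} ∪
          {u | ∃ a ∈ D, u = a ^ p}), u * d = d * u :=
        fun d hd u hu => Subgroup.mem_centralizer_iff.mp (hcent hd) u hu
      -- the small elements of `D` form a subgroup
      have hsmall_mul : ∀ a ∈ D, ∀ b ∈ D, (a ^ p = 1 ∨ (p = 2 ∧ a ^ 4 = 1)) →
          (b ^ p = 1 ∨ (p = 2 ∧ b ^ 4 = 1)) → ((a * b) ^ p = 1 ∨ (p = 2 ∧ (a * b) ^ 4 = 1)) := by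
        intro a ha b hb hsa hsb
        have hzM := hcommM b hb a ha
        have hza : Commute ⁅b, a⁆ a := hcomm' a ha _ hzM
        have hzb : Commute ⁅b, a⁆ b := hcomm' b hb _ hzM
        have hzp : ⁅b, a⁆ ^ p = 1 := by
          have h3 := mul_pow_eq_of_commute a b hza p
          have h4 : a ^ p * b = b * a ^ p := hcomm' b hb _ (hpowM a ha)
          rw [← h4, mul_assoc] at h3
          exact mul_right_cancel (h3.symm.trans (one_mul _).symm)
        by_cases hp2 : p = 2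
        · right
          refine ⟨hp2, ?_⟩
          subst hp2
          have ha4 : a ^ 4 = 1 := by
            rcases hsa with h1 | ⟨-, h1⟩
            · calc a ^ 4 = (a ^ 2) ^ 2 := by rw [← pow_mul]
                _ = 1 := by rw [h1, one_pow]
            · exact h1
          have hb4 : b ^ 4 = 1 := by
            rcases hsb with h1 | ⟨-, h1⟩
            · calc b ^ 4 = (b ^ 2) ^ 2 := by rw [← pow_mul]
                _ = 1 := by rw [h1, one_pow]
            · exact h1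
          rw [mul_pow_class_two a b hza hzb 4, ha4, hb4]
          have hc : Nat.choose 4 2 = 2 * 3 := by decide
          rw [hc, pow_mul, hzp]
          simp
        · left
          have hap : a ^ p = 1 := by
            rcases hsa with h1 | ⟨h1, -⟩
            · exact h1
            · exact absurd h1 hp2
          have hbp : b ^ p = 1 := by
            rcases hsb with h1 | ⟨h1, -⟩
            · exact h1
            · exact absurd h1 hp2
          have hdvd : p ∣ p.choose 2 :=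
            hpp.dvd_choose_self (by norm_num) (lt_of_le_of_ne hpp.two_le (Ne.symm hp2))
          obtain ⟨t, ht⟩ := hdvd
          rw [mul_pow_class_two a b hza hzb p, hap, hbp, ht, pow_mul, hzp]
          simp
      have hsmall_inv : ∀ a : R, (a ^ p = 1 ∨ (p = 2 ∧ a ^ 4 = 1)) →
          (a⁻¹ ^ p = 1 ∨ (p = 2 ∧ a⁻¹ ^ 4 = 1)) := by
        intro a hsa
        rcases hsa with h1 | ⟨h2, h4⟩
        · left; rw [inv_pow, h1, inv_one]
        · right; exact ⟨h2, by rw [inv_pow, h4, inv_one]⟩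
      have hsmall_map : ∀ (g : MulAut R) (a : R), (a ^ p = 1 ∨ (p = 2 ∧ a ^ 4 = 1)) →
          ((g a) ^ p = 1 ∨ (p = 2 ∧ (g a) ^ 4 = 1)) := by
        intro g a hsa
        rcases hsa with h1 | ⟨h2, h4⟩
        · left; rw [← map_pow, h1, map_one]
        · right; exact ⟨h2, by rw [← map_pow, h4, map_one]⟩
      -- depth is preserved on small elements of `D`
      have hdE : ∀ g ∈ A, ∀ y ∈ D, (y ^ p = 1 ∨ (p = 2 ∧ y ^ 4 = 1)) → ∀ j : ℕ, (y : Ω) ∈ ucs S j →
          ((g y : R) : Ω) ∈ ucs S j :=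
        fun g hg y hy hys j hj => hdepth g hg y (hH y hy) (hH _ (hinv g hg y hy)) hys j hj
      -- the normal closure stabilizes the chain
      have hstab : ∀ γ ∈ ncl A (autInducedBy S R), γ ∈ A ∧ ∀ (j : ℕ) (y : R), y ∈ D →
          (y ^ p = 1 ∨ (p = 2 ∧ y ^ 4 = 1)) → (y : Ω) ∈ ucs S (j + 1) →
          ((y⁻¹ * γ y : R) : Ω) ∈ ucs S j := by
        intro γ hγ
        unfold ncl at hγ
        induction hγ using Subgroup.closure_induction with
        | mem v hv =>
          obtain ⟨g, hg, u, hu, rfl⟩ := hv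
          have hgi : g⁻¹ ∈ A := A.inv_mem hg
          refine ⟨A.mul_mem (A.mul_mem hg (hPA hu)) hgi, ?_⟩
          intro j y hy hys hyj
          have hy'D : g⁻¹ y ∈ D := hinv _ hgi y hy
          have hy's := hsmall_map g⁻¹ y hys
          have hy'j : ((g⁻¹ y : R) : Ω) ∈ ucs S (j + 1) := hdE _ hgi y hy hys _ hyj
          obtain ⟨s, hs, hsu⟩ := (mem_autInducedBy_iff' S u).mp hu
          have huy'D : u (g⁻¹ y) ∈ D := hinv u (hPA hu) _ hy'D
          have hcD : (g⁻¹ y)⁻¹ * u (g⁻¹ y) ∈ D := D.mul_mem (D.inv_mem hy'D) huy'D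
          have hcs : ((g⁻¹ y)⁻¹ * u (g⁻¹ y)) ^ p = 1 ∨ (p = 2 ∧ ((g⁻¹ y)⁻¹ * u (g⁻¹ y)) ^ 4 = 1) :=
            hsmall_mul _ (D.inv_mem hy'D) _ huy'D (hsmall_inv _ hy's) (hsmall_map u _ hy's)
          have hcj : (((g⁻¹ y)⁻¹ * u (g⁻¹ y) : R) : Ω) ∈ ucs S j := by
            have h1 := hsu _ (g⁻¹ y).2
            rw [autFun_apply] at h1
            rw [Subgroup.coe_mul, Subgroup.coe_inv, h1]
            exact ucs_comm_mem hy'j hs
          have h2 := hdE g hg _ hcD hcs j hcj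
          have e : y⁻¹ * (g * u * g⁻¹) y = g ((g⁻¹ y)⁻¹ * u (g⁻¹ y)) := by
            rw [map_mul, map_inv, MulAut.apply_inv_self, MulAut.mul_apply, MulAut.mul_apply]
          rw [e]; exact h2
        | one =>
          refine ⟨A.one_mem, fun j y _ _ _ => ?_⟩
          simp
        | mul γ δ _ _ ihγ ihδ =>
          refine ⟨A.mul_mem ihγ.1 ihδ.1, fun j y hy hys hyj => ?_⟩
          have h1 := ihγ.2 j y hy hys hyj
          have h2 := ihδ.2 j y hy hys hyj
          have hδD : δ y ∈ D := hinv δ ihδ.1 y hy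
          have hcD : y⁻¹ * δ y ∈ D := D.mul_mem (D.inv_mem hy) hδD
          have hcs := hsmall_mul _ (D.inv_mem hy) _ hδD (hsmall_inv _ hys) (hsmall_map δ _ hys)
          have h3 := hdE γ ihγ.1 _ hcD hcs j h2
          have e : y⁻¹ * (γ * δ) y = (y⁻¹ * γ y) * γ (y⁻¹ * δ y) := by
            rw [map_mul, map_inv, MulAut.mul_apply]; group
          rw [e, Subgroup.coe_mul]
          exact Subgroup.mul_mem _ h1 h3
        | inv γ _ ihγ =>
          have hgi : γ⁻¹ ∈ A := A.inv_mem ihγ.1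
          refine ⟨hgi, fun j y hy hys hyj => ?_⟩
          have hy'D : γ⁻¹ y ∈ D := hinv _ hgi y hy
          have hy's := hsmall_map γ⁻¹ y hys
          have hy'j : ((γ⁻¹ y : R) : Ω) ∈ ucs S (j + 1) := hdE _ hgi y hy hys _ hyj
          have h1 := ihγ.2 j _ hy'D hy's hy'j
          rw [MulAut.apply_inv_self] at h1
          have e : y⁻¹ * γ⁻¹ y = ((γ⁻¹ y)⁻¹ * y)⁻¹ := by group
          rw [e, Subgroup.coe_inv]
          exact Subgroup.inv_mem _ h1
      -- `κ` fixes the small elements of `D`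
      have hfixE : ∀ (j : ℕ) (y : R), y ∈ D → (y ^ p = 1 ∨ (p = 2 ∧ y ^ 4 = 1)) → (y : Ω) ∈ ucs S j →
          κ y = y := by
        intro j
        induction j with
        | zero =>
          intro y _ _ hyj
          have h1 : y = 1 := Subtype.ext (ucs_zero hyj)
          rw [h1, map_one]
        | succ j ihj =>
          intro y hy hys hyj
          apply mulAut_fix_of_comm_fixed hRp κ hm hκm
          have hκD : κ y ∈ D := hinv κ hκA y hy
          exact ihj _ (D.mul_mem (D.inv_mem hy) hκD)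
            (hsmall_mul _ (D.inv_mem hy) _ hκD (hsmall_inv _ hys) (hsmall_map κ _ hys))
            ((hstab κ hκ).2 j y hy hys hyj)
      obtain ⟨N, hN⟩ := exists_ucs_eq hS
      exact mulAut_fix_of_fix_small hRp κ hm hκm _ D rfl (fun y hy => hinv κ hκA y hy)
        (fun y hy hys => hfixE N y hy hys (by rw [hN]; exact hRS y.2)) x hx
    · have hlt : Nat.card (Subgroup.closure {c : R | ∃ y ∈ D, ∃ k ∈ ncl A (autInducedBy S R), ∃ m : ℕ,
          m.Coprime p ∧ k ^ m = 1 ∧ c = y⁻¹ * k y} : Subgroup R) < Nat.card D := by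
        by_contra hcon
        exact hC (Subgroup.eq_of_le_of_card_ge hD₁D (not_lt.mp hcon))
      have hfixC := ih _ (hn ▸ hlt) _ rfl hD₁inv (fun y hy => hH y (hD₁D hy)) κ hκ m hm hκm
      exact mulAut_fix_of_comm_fixed hRp κ hm hκm (hfixC _ hxc)

/-- Let F be a saturated fusion system over a finite p-group S. If every map of F between cyclic subgroups of the hyperfocal subgroup of F of order p or 4 is a map of the normalizer system of S (it extends to a map of F defined on all of S), then S is normal in F. -/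
theorem result {Ω : Type u} [Group Ω] {S : Subgroup Ω} [Finite S] (p : ℕ) [Fact p.Prime] (hS : IsPGroup p S)
    (F : Cfsg.FusionSystem S) (hF : F.IsSaturated p)
    (h : ∀ A B : Subgroup Ω, A ≤ (F.hyperfocalSubgroup p) → B ≤ (F.hyperfocalSubgroup p) → IsCyclic ↥A → (Nat.card ↥A = p ∨ Nat.card ↥A = 4) → IsCyclic ↥B → (Nat.card ↥B = p ∨ Nat.card ↥B = 4) →
      F.homSet A B ⊆ F.normalizerHom S A) :
    F.IsNormal S := by
  have hsc : F.StronglyClosed S := ⟨le_rfl, fun R _ φ hφ x => (F.le_of_mem hφ).2 x⟩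
  refine isNormal_of_le_radicals hS hF hsc ?_
  intro R hRa hRr hRc hRrad
  have hRS : R ≤ S := hRa.1
  have hRfin : Finite R := finite_of_le hRS
  have hRp : IsPGroup p R := hS.to_le hRS
  have hPA : autInducedBy S R ≤ F.autGroup R := autInducedBy_le_autGroup F hRS
  -- the invariant subgroup generated by the commutators with automorphisms of order prime to `p`
  have hDH : ∀ c ∈ Subgroup.closure {c : R | ∃ y : R, ∃ k ∈ F.autGroup R, ∃ m : ℕ, m.Coprime p ∧ k ^ m = 1 ∧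
      c = y⁻¹ * k y}, (c : Ω) ∈ F.hyperfocalSubgroup p := by
    intro c hc
    induction hc using Subgroup.closure_induction with
    | mem c hc =>
      obtain ⟨y, k, hk, m, hm, hkm, rfl⟩ := hc
      have := Cfsg.Agent.S5298.hyp_comm_mem hRS hk hm hkm y
      simpa using this
    | one => exact Subgroup.one_mem _
    | mul a b _ _ ha hb => exact Subgroup.mul_mem _ ha hb
    | inv a _ ha => exact Subgroup.inv_mem _ ha
  have hDinv : ∀ g ∈ F.autGroup R, ∀ c ∈ Subgroup.closure {c : R | ∃ y : R, ∃ k ∈ F.autGroup R, ∃ m : ℕ,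
      m.Coprime p ∧ k ^ m = 1 ∧ c = y⁻¹ * k y},
      g c ∈ Subgroup.closure {c : R | ∃ y : R, ∃ k ∈ F.autGroup R, ∃ m : ℕ, m.Coprime p ∧ k ^ m = 1 ∧
        c = y⁻¹ * k y} := by
    intro g hg c hc
    induction hc using Subgroup.closure_induction with
    | mem c hc =>
      obtain ⟨y, k, hk, m, hm, hkm, rfl⟩ := hc
      apply Subgroup.subset_closure
      refine ⟨g y, g * k * g⁻¹, Subgroup.mul_mem _ (Subgroup.mul_mem _ hg hk) (Subgroup.inv_mem _ hg), m, hm, ?_, ?_⟩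
      · rw [conj_pow, hkm]; group
      · rw [map_mul, map_inv, MulAut.mul_apply, MulAut.mul_apply, MulAut.inv_apply_self]
    | one => rw [map_one]; exact Subgroup.one_mem _
    | mul a b _ _ iha ihb => rw [map_mul]; exact Subgroup.mul_mem _ iha ihb
    | inv a _ iha => rw [map_inv]; exact Subgroup.inv_mem _ iha
  -- elements of order prime to `p` in the normal closure of `Aut_S(R)` are trivial
  have hK : ∀ κ ∈ ncl (F.autGroup R) (autInducedBy S R), ∀ m : ℕ, m.Coprime p → κ ^ m = 1 → κ = 1 := by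
    intro κ hκ m hm hκm
    have hfix := fix_invariant hS hRS (F.autGroup R) hPA (F.hyperfocalSubgroup p)
      (fun β hβ x hx hβx hxs j hj => depth_of_small h hRS hβ hx hβx hxs j hj) _ _ rfl hDinv hDH
      κ hκ m hm hκm
    ext x
    have := mulAut_fix_of_comm_fixed hRp κ hm hκm
      (hfix (x⁻¹ * κ x) (Subgroup.subset_closure ⟨x, κ, ncl_le hPA hκ, m, hm, hκm, rfl⟩))
    rw [this]; rfl
  have hP : ∀ γ ∈ ncl (F.autGroup R) (autInducedBy S R), ∃ a : ℕ, γ ^ p ^ a = 1 := by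
    intro γ hγ
    have hfinM : Finite (MulAut R) := inferInstance
    have hpos : orderOf γ ≠ 0 := (orderOf_pos γ).ne'
    obtain ⟨a, m, hm, hord⟩ := Nat.exists_eq_pow_mul_and_not_dvd hpos p (Fact.out : p.Prime).ne_one
    refine ⟨a, ?_⟩
    have hκm : (γ ^ p ^ a) ^ m = 1 := by
      rw [← pow_mul, ← hord]; exact pow_orderOf_eq_one γ
    have hcop : m.Coprime p := by
      rw [Nat.coprime_comm]
      exact (Nat.Prime.coprime_iff_not_dvd Fact.out).mpr hm
    exact hK _ (Subgroup.pow_mem _ hγ _) m hcop hκm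
  -- hence the Sylow subgroup `Aut_S(R)` is normal
  have hcl : ∃ Q : Sylow p (F.autGroup R), (Q : Subgroup (F.autGroup R)).Normal := by
    obtain ⟨Syl, hSyl⟩ := hRa.2
    refine ⟨Syl, ?_⟩
    have hpg : IsPGroup p ((ncl (F.autGroup R) (autInducedBy S R)).subgroupOf (F.autGroup R)) := by
      rintro ⟨⟨γ, hγA⟩, hγ⟩
      obtain ⟨a, ha⟩ := hP γ (Subgroup.mem_subgroupOf.mp hγ)
      exact ⟨a, Subtype.ext (Subtype.ext ha)⟩
    have hle : (Syl : Subgroup (F.autGroup R)) ≤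
        (ncl (F.autGroup R) (autInducedBy S R)).subgroupOf (F.autGroup R) := by
      rw [hSyl]
      intro γ hγ
      exact Subgroup.mem_subgroupOf.mpr (le_ncl _ _ (Subgroup.mem_subgroupOf.mp hγ))
    have heq := Syl.is_maximal' hpg hle
    rw [← heq]
    refine ⟨fun n hn g => ?_⟩
    rw [Subgroup.mem_subgroupOf] at hn ⊢
    exact ncl_conj g.2 hn
  have hN := normalizerIn_le_of_radical_pclosed hRa hRc hRrad hcl
  by_contra hne
  have hne' : R ≠ S := fun e => hne (e ▸ le_rfl)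
  obtain ⟨g, hgS, hgN, hgR⟩ := exists_normalizer_of_lt hS hRS hne'
  exact hgR (hN (mem_normalizerIn_iff.mpr ⟨hgS, hgN⟩))

end Cfsg.Agent.S5297
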