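import Cfsg.Statements.S5300
import Cfsg.Agent.Helper88.OmegaFix
-- import your own Cfsg.Agent.* helpers here

set_option autoImplicit false
universe u
open Cfsg

namespace Cfsg.Agent.S5300

open Cfsg.Agent.Helper88

theorem conj_iter {G : Type*} [Group G] {z s : G} {j : ℕ} (h : s * z * s⁻¹ = z ^ j) (i : ℕ) :
    s ^ i * z * (s ^ i)⁻¹ = z ^ (j ^ i) := by
  induction i with
  | zero => simp
  | succ i ih =>
    have h1 : s ^ (i + 1) * z * (s ^ (i + 1))⁻¹ = s * (s ^ i * z * (s ^ i)⁻¹) * s⁻¹ := by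
      rw [pow_succ']; group
    rw [h1, ih, ← conj_pow, h, ← pow_mul, pow_succ']

theorem conj_eq_of_order_p {G : Type*} [Group G] {p : ℕ} [Fact p.Prime] {z s : G} (hz : z ^ p = 1)
    {e : ℕ} (hs : s ^ p ^ e = 1) (h : s * z * s⁻¹ ∈ Subgroup.zpowers z) : s * z * s⁻¹ = z := by
  by_cases hz1 : z = 1
  · subst hz1; simp
  have hord : orderOf z = p := orderOf_eq_prime hz hz1
  have hfin : IsOfFinOrder z := isOfFinOrder_iff_pow_eq_one.mpr ⟨p, (Fact.out : p.Prime).pos, hz⟩
  rw [← hfin.mem_powers_iff_mem_zpowers] at h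
  obtain ⟨j, hj⟩ := (Submonoid.mem_powers_iff _ _).mp h
  have h1 := conj_iter hj.symm (p ^ e)
  rw [hs] at h1
  have h1' : z ^ 1 = z ^ (j ^ p ^ e) := by simpa using h1
  have h2 : 1 ≡ j ^ p ^ e [MOD p] := by
    have h2' : 1 ≡ j ^ p ^ e [MOD orderOf z] := pow_eq_pow_iff_modEq.mp h1'
    rwa [hord] at h2'
  have h3 : (j : ZMod p) = 1 := by
    have h := (ZMod.natCast_eq_natCast_iff _ _ _).mpr h2
    push_cast at h
    rw [ZMod.pow_card_pow] at h
    exact h.symm
  have h4 : j ≡ 1 [MOD p] := by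
    rw [← ZMod.natCast_eq_natCast_iff]; simpa using h3
  rw [← hj]
  have h5 : z ^ j = z ^ 1 := by rw [pow_eq_pow_iff_modEq, hord]; exact h4
  simpa using h5

theorem conj_eq_or_inv_of_order_four {G : Type*} [Group G] {z s : G} (hz : z ^ 4 = 1)
    (h : s * z * s⁻¹ ∈ Subgroup.zpowers z) : s * z * s⁻¹ = z ∨ s * z * s⁻¹ = z⁻¹ := by
  have hfin : IsOfFinOrder z := isOfFinOrder_iff_pow_eq_one.mpr ⟨4, by norm_num, hz⟩
  rw [← hfin.mem_powers_iff_mem_zpowers] at h
  obtain ⟨j, hj⟩ := (Submonoid.mem_powers_iff _ _).mp h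
  rw [pow_eq_pow_mod j hz] at hj
  have hz1 : s * z * s⁻¹ = 1 → z = 1 := by
    intro h1
    have : z = s⁻¹ * (s * z * s⁻¹) * s := by group
    rw [this, h1]; group
  have hj4 : j % 4 < 4 := Nat.mod_lt _ (by norm_num)
  rcases Nat.lt_succ_iff_lt_or_eq.mp hj4 with h3 | h3
  · rcases Nat.lt_succ_iff_lt_or_eq.mp h3 with h2 | h2
    · rcases Nat.lt_succ_iff_lt_or_eq.mp h2 with h1 | h1
      · have h0 : j % 4 = 0 := by omega
        rw [h0, pow_zero] at hj
        have := hz1 hj.symm
        left; rw [this]; group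
      · rw [h1, pow_one] at hj
        left; exact hj.symm
    · rw [h2] at hj
      have h4 : (s * z * s⁻¹) ^ 2 = 1 := by
        rw [← hj, ← pow_mul]; exact hz
      rw [conj_pow] at h4
      have h5 : z ^ 2 = 1 := by
        have : z ^ 2 = s⁻¹ * (s * z ^ 2 * s⁻¹) * s := by group
        rw [this, h4]; group
      rw [h5] at hj
      have := hz1 hj.symm
      left; rw [this]; group
  · rw [h3] at hj
    right
    rw [← hj]
    apply eq_inv_of_mul_eq_one_left
    rw [← pow_succ]; exact hz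

theorem focal_comm_mem {Ω : Type u} [Group Ω] {S : Subgroup Ω} {F : FusionSystem S} {R : Subgroup Ω}
    (hR : R ≤ S) {α : MulAut R} (hα : α ∈ F.autGroup R) (y : R) :
    (y : Ω)⁻¹ * ((α y : R) : Ω) ∈ F.focalSubgroup :=
  Subgroup.subset_closure ⟨R, R.subtype.comp α.toMonoidHom, y, autGroup_hom_mem hR hα, rfl⟩

theorem focal_aut_mem {Ω : Type u} [Group Ω] {S : Subgroup Ω} {F : FusionSystem S} {R : Subgroup Ω}
    (hR : R ≤ S) {α : MulAut R} (hα : α ∈ F.autGroup R) (y : R) (hy : (y : Ω) ∈ F.focalSubgroup) :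
    ((α y : R) : Ω) ∈ F.focalSubgroup := by
  have h1 := focal_comm_mem hR hα y
  have := Subgroup.mul_mem _ hy h1
  simpa using this

/-- Let F be a saturated fusion system over a finite p-group S. If every cyclic subgroup of the focal subgroup of F of order p (of order 2 or 4 when p = 2) is normal in S, then S is normal in F. -/
theorem result {Ω : Type u} [Group Ω] {S : Subgroup Ω} [Finite S] (p : ℕ) [Fact p.Prime] (hS : IsPGroup p S)
    (F : Cfsg.FusionSystem S) (hF : F.IsSaturated p)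
    (hnorm : ∀ x ∈ F.focalSubgroup, (x ^ p = 1 ∨ (p = 2 ∧ x ^ 4 = 1)) → ∀ s ∈ S, s * x * s⁻¹ ∈ Subgroup.zpowers x) :
    F.IsNormal S := by
  have hsc : F.StronglyClosed S := ⟨le_rfl, fun R hR φ hφ x => (F.le_of_mem hφ).2 x⟩
  apply isNormal_of_le_radicals hS hF hsc
  intro R hRa hRr hRc hRrad
  by_contra hSR
  have hRS : R ≤ S := hRc.1
  have hne : R ≠ S := fun h => hSR (h ▸ le_rfl)
  have hRfin : Finite R := finite_of_le hRS
  have hRp : IsPGroup p R := hS.to_le hRS
  obtain ⟨g, hgS, hgN, hgR⟩ := exists_normalizer_of_lt hS hRS hne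
  obtain ⟨β, hβF, hβS, hβg⟩ := exists_aut_conj F hRS (mem_normalizerIn_iff.mpr ⟨hgS, hgN⟩)
  obtain ⟨e, he⟩ := pow_card_eq_one_of_mem hS
  set gens : Set (MulAut R) := {γ : MulAut R | ∃ α ∈ F.autGroup R, ∃ t ∈ autInducedBy S R, γ = α * t * α⁻¹}
    with hgens
  have hUle : Subgroup.closure gens ≤ F.autGroup R := by
    rw [Subgroup.closure_le]
    rintro γ ⟨α, hα, t, ht, rfl⟩
    exact Subgroup.mul_mem _ (Subgroup.mul_mem _ hα (autInducedBy_le_autGroup F hRS ht))
      (Subgroup.inv_mem _ hα)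
  have hUn : ∀ α ∈ F.autGroup R, ∀ γ ∈ Subgroup.closure gens, α * γ * α⁻¹ ∈ Subgroup.closure gens := by
    intro α hα γ hγ
    induction hγ using Subgroup.closure_induction with
    | mem γ hγ =>
      obtain ⟨α', hα', t, ht, rfl⟩ := hγ
      refine Subgroup.subset_closure ⟨α * α', Subgroup.mul_mem _ hα hα', t, ht, ?_⟩
      group
    | one => simp
    | mul x y _ _ hx hy =>
      have : α * (x * y) * α⁻¹ = (α * x * α⁻¹) * (α * y * α⁻¹) := by group
      rw [this]; exact Subgroup.mul_mem _ hx hy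
    | inv x _ hx =>
      have : α * x⁻¹ * α⁻¹ = (α * x * α⁻¹)⁻¹ := by group
      rw [this]; exact Subgroup.inv_mem _ hx
  -- elements of order p in the focal subgroup are fixed
  have hA : ∀ γ ∈ Subgroup.closure gens, ∀ y : R, (y : Ω) ∈ F.focalSubgroup → y ^ p = 1 → γ y = y := by
    intro γ hγ
    induction hγ using Subgroup.closure_induction with
    | mem γ hγ =>
      obtain ⟨α, hα, t, ht, rfl⟩ := hγ
      intro y hy hyp
      obtain ⟨s, hs, hst⟩ := (mem_autInducedBy_iff' S t).mp ht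
      have hzf : ((α⁻¹ y : R) : Ω) ∈ F.focalSubgroup := focal_aut_mem hRS (Subgroup.inv_mem _ hα) y hy
      have hzp : (α⁻¹ y) ^ p = 1 := by rw [← map_pow, hyp, map_one]
      have hzp' : ((α⁻¹ y : R) : Ω) ^ p = 1 := by
        rw [← Subgroup.coe_pow, hzp]; rfl
      have h1 := hnorm _ hzf (Or.inl hzp') s hs
      have h2 := conj_eq_of_order_p hzp' (he s hs) h1
      have h3 : t (α⁻¹ y) = α⁻¹ y := by
        apply Subtype.ext
        rw [← autFun_apply, hst _ (α⁻¹ y).2, h2]
      show α (t (α⁻¹ y)) = y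
      rw [h3]
      exact MulEquiv.apply_symm_apply α y
    | one => intro y _ _; rfl
    | mul a b _ _ ha hb =>
      intro y hy hyp
      show a (b y) = y
      rw [hb y hy hyp, ha y hy hyp]
    | inv a _ ha =>
      intro y hy hyp
      have := ha y hy hyp
      calc a⁻¹ y = a⁻¹ (a y) := by rw [this]
        _ = y := MulEquiv.symm_apply_apply a y
  have hA4 : p = 2 → ∀ γ ∈ Subgroup.closure gens, ∀ y : R, (y : Ω) ∈ F.focalSubgroup → y ^ 4 = 1 →
      (γ y = y ∨ γ y = y⁻¹) := by
    intro hp2 γ hγ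
    induction hγ using Subgroup.closure_induction with
    | mem γ hγ =>
      obtain ⟨α, hα, t, ht, rfl⟩ := hγ
      intro y hy hyp
      obtain ⟨s, hs, hst⟩ := (mem_autInducedBy_iff' S t).mp ht
      have hzf : ((α⁻¹ y : R) : Ω) ∈ F.focalSubgroup := focal_aut_mem hRS (Subgroup.inv_mem _ hα) y hy
      have hzp : (α⁻¹ y) ^ 4 = 1 := by rw [← map_pow, hyp, map_one]
      have hzp' : ((α⁻¹ y : R) : Ω) ^ 4 = 1 := by
        rw [← Subgroup.coe_pow, hzp]; rfl
      have h1 := hnorm _ hzf (Or.inr ⟨hp2, hzp'⟩) s hs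
      rcases conj_eq_or_inv_of_order_four hzp' h1 with h2 | h2
      · left
        have h3 : t (α⁻¹ y) = α⁻¹ y := by
          apply Subtype.ext
          rw [← autFun_apply, hst _ (α⁻¹ y).2, h2]
        show α (t (α⁻¹ y)) = y
        rw [h3]
        exact MulEquiv.apply_symm_apply α y
      · right
        have h3 : t (α⁻¹ y) = (α⁻¹ y)⁻¹ := by
          apply Subtype.ext
          rw [← autFun_apply, hst _ (α⁻¹ y).2, h2]; rfl
        show α (t (α⁻¹ y)) = y⁻¹
        rw [h3, map_inv]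
        congr 1
        exact MulEquiv.apply_symm_apply α y
    | one => intro y _ _; left; rfl
    | mul a b _ _ ha hb =>
      intro y hy hyp
      show a (b y) = y ∨ a (b y) = y⁻¹
      rcases hb y hy hyp with h | h
      · rw [h]; exact ha y hy hyp
      · rw [h, map_inv]
        rcases ha y hy hyp with h' | h'
        · right; rw [h']
        · left; rw [h', inv_inv]
    | inv a _ ha =>
      intro y hy hyp
      rcases ha y hy hyp with h | h
      · left
        calc a⁻¹ y = a⁻¹ (a y) := by rw [h]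
          _ = y := MulEquiv.symm_apply_apply a y
      · right
        have h' : y = (a y)⁻¹ := by rw [h, inv_inv]
        calc a⁻¹ y = a⁻¹ ((a y)⁻¹) := by rw [← h']
          _ = (a⁻¹ (a y))⁻¹ := map_inv _ _
          _ = y⁻¹ := by rw [show a⁻¹ (a y) = y from MulEquiv.symm_apply_apply a y]
  have hUp : ∀ γ ∈ Subgroup.closure gens, ∃ k : ℕ, γ ^ p ^ k = 1 := by
    intro γ hγ
    have hfinM : Finite (MulAut R) := inferInstance
    have hpos : orderOf γ ≠ 0 := (orderOf_pos γ).ne'
    obtain ⟨a, m, hm, hord⟩ := Nat.exists_eq_pow_mul_and_not_dvd hpos p (Fact.out : p.Prime).ne_one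
    refine ⟨a, ?_⟩
    have hκU : γ ^ p ^ a ∈ Subgroup.closure gens := Subgroup.pow_mem _ hγ _
    have hκF : γ ^ p ^ a ∈ F.autGroup R := hUle hκU
    have hκm : (γ ^ p ^ a) ^ m = 1 := by
      rw [← pow_mul, ← hord]; exact pow_orderOf_eq_one γ
    have hcop : m.Coprime p := by
      rw [Nat.coprime_comm]
      exact (Nat.Prime.coprime_iff_not_dvd Fact.out).mpr hm
    apply mulAut_eq_one_of_fix_small hRp (γ ^ p ^ a) hcop hκm
    intro x hx
    have hxf : (x : Ω) ∈ F.focalSubgroup := by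
      induction hx using Subgroup.closure_induction with
      | mem c hc =>
        obtain ⟨y, rfl⟩ := hc
        have := focal_comm_mem hRS hκF y
        simpa using this
      | one => exact Subgroup.one_mem _
      | mul a b _ _ ha hb => exact Subgroup.mul_mem _ ha hb
      | inv a _ ha => exact Subgroup.inv_mem _ ha
    intro hxo
    rcases hxo with hxp | ⟨hp2, hx4⟩
    · exact hA _ hκU x hxf hxp
    · rcases hA4 hp2 _ hκU x hxf hx4 with h | h
      · exact h
      · -- κ x = x⁻¹, κ of odd order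
        have hmodd : Odd m := by
          rw [hp2] at hcop
          exact Nat.Coprime.odd_of_right hcop
        obtain ⟨n, hn⟩ := hmodd
        have h2 : ∀ i : ℕ, ((γ ^ p ^ a) ^ (2 * i)) x = x := by
          intro i
          induction i with
          | zero => simp
          | succ i ih =>
            have : (γ ^ p ^ a) ^ (2 * (i + 1)) = (γ ^ p ^ a) ^ (2 * i) * ((γ ^ p ^ a) * (γ ^ p ^ a)) := by
              rw [← pow_two, ← pow_add, Nat.mul_succ]
            rw [this]
            show ((γ ^ p ^ a) ^ (2 * i)) ((γ ^ p ^ a) ((γ ^ p ^ a) x)) = x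
            rw [h, map_inv, h, inv_inv, ih]
        have h3 : ((γ ^ p ^ a) ^ m) x = (γ ^ p ^ a) x := by
          rw [hn, pow_succ]
          show ((γ ^ p ^ a) ^ (2 * n)) ((γ ^ p ^ a) x) = (γ ^ p ^ a) x
          rw [h, map_inv, h2 n]
        rw [hκm] at h3
        exact h3.symm
  have hβU : β ∈ Subgroup.closure gens :=
    Subgroup.subset_closure ⟨1, Subgroup.one_mem _, β, hβS, by group⟩
  exact hgR (mem_of_radical_centric hRc hRrad (Subgroup.closure gens) hUle hUn hUp hgS hβU hβg)

end Cfsg.Agent.S5300
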