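import Cfsg.Statements.S5301
import Cfsg.Agent.Helper88.FusionC

set_option autoImplicit false
open Cfsg

namespace Cfsg.Agent.S5301

open Cfsg.Agent.Helper88 Cfsg.FusionSystem

universe u

theorem main {Ω : Type u} [Group Ω] {S : Subgroup Ω} [Finite S] (p : ℕ) [Fact p.Prime] (hS : IsPGroup p S)
    (F : Cfsg.FusionSystem S) (hF : F.IsSaturated p)
    (hcl : ∀ P : Subgroup Ω, F.IsFullyNormalized P → F.IsCentric P → F.IsRadical p P →
      ∃ R : Sylow p ↥(F.autGroup P), (R : Subgroup ↥(F.autGroup P)).Normal) :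
    ∀ (n : ℕ) (P : Subgroup Ω) (f : Ω → Ω), Nat.card S - Nat.card P = n → IsMap F P f →
      ∃ f', IsMap F S f' ∧ ∀ x ∈ P, f' x = f x := by
  intro n
  induction n using Nat.strong_induction_on with
  | _ n ih =>
    intro P f hn hf
    have hPS : P ≤ S := hf.le
    by_cases hne : P = S
    · subst hne; exact ⟨f, hf, fun _ _ => rfl⟩
    obtain ⟨Ps, ψ₁, ψ₂, α, hPsa, hPsr, hconj, hψ₁, hψ₁img, hψ₂, hψ₂img, hα, hαimg, hcomm⟩ :=
      alperin_reduction hS hF hf
    have hcardP := card_lt_normalizerIn hS hPS hne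
    have hNle : Nat.card (normalizerIn S P) ≤ Nat.card S := Subgroup.card_le_of_le inf_le_left
    have hP₁S : img P f ≤ S := hf.img_le
    have hcard₁ := hf.card_img
    have hne₁ : img P f ≠ S := by
      intro h
      rw [h] at hcard₁
      exact hne (Subgroup.eq_of_le_of_card_ge hPS (le_of_eq hcard₁))
    have hcardP₁ := card_lt_normalizerIn hS hP₁S hne₁
    have hN₁le : Nat.card (normalizerIn S (img P f)) ≤ Nat.card S := Subgroup.card_le_of_le inf_le_left
    obtain ⟨ψ₁', hψ₁', hψ₁e⟩ := ih _ (by omega) _ _ rfl hψ₁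
    obtain ⟨ψ₂', hψ₂', hψ₂e⟩ := ih _ (by omega) _ _ rfl hψ₂
    have hPsS : Ps ≤ S := hPsa.1
    have hcardPs := isConj_card_eq hconj
    have hPsne : Ps ≠ S := by
      intro h
      rw [h] at hcardPs
      exact hne (Subgroup.eq_of_le_of_card_ge hPS (le_of_eq hcardPs))
    -- extension of `α` to `S`
    have hα' : ∃ α', IsMap F S α' ∧ ∀ x ∈ Ps, α' x = α x := by
      by_cases hc : centralizerIn S Ps ≤ Ps
      · have hPsc : F.IsCentric Ps := isCentric_of_receptive hPsr (isConj_refl F hPsS) hc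
        rcases radical_or_exists hS hPsa with hrad | ⟨g, hgN, hgP, hg⟩
        · exfalso
          have hfn := fullyNormalized_of_automized_receptive hS hPsa hPsr
          have h1 := normalizerIn_le_of_radical_pclosed hPsa hPsc hrad (hcl Ps hfn hPsc hrad)
          obtain ⟨g, hgS, hgN, hgP⟩ := exists_normalizer_of_lt hS hPsS hPsne
          exact hgP (h1 (mem_normalizerIn_iff.mpr ⟨hgS, hgN⟩))
        · obtain ⟨a, ha, haf⟩ := hα.exists_aut hαimg
          obtain ⟨hgS, hgN'⟩ := mem_normalizerIn_iff.mp hgN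
          obtain ⟨α'', hα'', hα''P⟩ := receptive_extend_closure hPsr hα hαimg {g} (by
            intro g' hg'
            rw [Set.mem_singleton_iff] at hg'
            subst hg'
            refine ⟨hgS, hgN', ?_⟩
            obtain ⟨h, hh, hhc⟩ := hg a ha
            refine ⟨h, hh, fun x hx => ?_⟩
            rw [← haf x hx, ← haf _ (conj_mem_of_mem_normalizer hgN' hx)]
            exact hhc x hx)
          have hRS : Subgroup.closure {g} ⊔ Ps ≤ S := hα''.le
          have hlt : Nat.card Ps < Nat.card (Subgroup.closure {g} ⊔ Ps : Subgroup Ω) :=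
            card_lt_of_lt hRS le_sup_right
              (Subgroup.mem_sup_left (Subgroup.subset_closure (Set.mem_singleton g))) hgP
          have hRle : Nat.card (Subgroup.closure {g} ⊔ Ps : Subgroup Ω) ≤ Nat.card S :=
            Subgroup.card_le_of_le hRS
          obtain ⟨α', hα', hα'e⟩ := ih _ (by omega) _ _ rfl hα''
          exact ⟨α', hα', fun x hx => (hα'e x (Subgroup.mem_sup_right hx)).trans (hα''P x hx)⟩
      · obtain ⟨α'', hα'', hα''P⟩ := receptive_extend_centralizer hPsr hα hαimg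
        obtain ⟨g, hg, hgP⟩ := SetLike.not_le_iff_exists.mp hc
        have hRS : centralizerIn S Ps ⊔ Ps ≤ S := hα''.le
        have hlt : Nat.card Ps < Nat.card (centralizerIn S Ps ⊔ Ps : Subgroup Ω) :=
          card_lt_of_lt hRS le_sup_right (Subgroup.mem_sup_left hg) hgP
        have hRle : Nat.card (centralizerIn S Ps ⊔ Ps : Subgroup Ω) ≤ Nat.card S :=
          Subgroup.card_le_of_le hRS
        obtain ⟨α', hα', hα'e⟩ := ih _ (by omega) _ _ rfl hα''
        exact ⟨α', hα', fun x hx => (hα'e x (Subgroup.mem_sup_right hx)).trans (hα''P x hx)⟩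
    obtain ⟨α', hα', hα'e⟩ := hα'
    -- recombine on `S`
    have himg₂ : img S ψ₂' = S := hψ₂'.img_eq_of_mapsTo (fun x hx => hψ₂'.mem hx)
    obtain ⟨ψ₂i, hψ₂i, hψ₂i1, -, -⟩ := hψ₂'.exists_inv
    rw [himg₂] at hψ₂i
    have h3 : IsMap F S (α' ∘ ψ₁') := hψ₁'.comp hα' (fun x hx => hψ₁'.mem hx)
    have h4 : IsMap F S (ψ₂i ∘ (α' ∘ ψ₁')) := h3.comp hψ₂i (fun x hx => h3.mem hx)
    refine ⟨_, h4, fun x hx => ?_⟩
    have hxN : x ∈ normalizerIn S P := le_normalizerIn hPS hx
    have hψ₁x : ψ₁ x ∈ Ps := by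
      rw [← hψ₁img]
      exact (hψ₁.restrict (le_normalizerIn hPS)).apply_mem_img hx
    have hfx : f x ∈ normalizerIn S (img P f) := le_normalizerIn hP₁S (hf.apply_mem_img hx)
    show ψ₂i (α' (ψ₁' x)) = f x
    rw [hψ₁e x hxN, hα'e _ hψ₁x, hcomm x hx, ← hψ₂e _ hfx, hψ₂i1 _ (hP₁S (hf.apply_mem_img hx))]

/-- Let F be a saturated fusion system over a finite p-group S. If for every subgroup P of S that is fully normalized, centric and radical in F the automorphism group that F induces on P has a normal Sylow p-subgroup, then S is normal in F. -/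
theorem result {Ω : Type u} [Group Ω] {S : Subgroup Ω} [Finite S] (p : ℕ) [Fact p.Prime] (hS : IsPGroup p S)
    (F : Cfsg.FusionSystem S) (hF : F.IsSaturated p)
    (hcl : ∀ P : Subgroup Ω, F.IsFullyNormalized P → F.IsCentric P → F.IsRadical p P →
      ∃ R : Sylow p ↥(F.autGroup P), (R : Subgroup ↥(F.autGroup P)).Normal) :
    F.IsNormal S := by
  exact isNormal_self_of_extends (fun P f hf => main p hS F hF hcl _ P f rfl hf)

end Cfsg.Agent.S5301
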