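import Cfsg.Statements.S5315
import Cfsg.Agent.Helper88.FusionCenter
-- import your own Cfsg.Agent.* helpers here

set_option autoImplicit false
open Cfsg

namespace Cfsg.Agent.S5315

open Cfsg.Agent.Helper88 Cfsg.FusionSystem

theorem conj_calc {G : Type*} [Group G] (s a z₀ z₁ : G) (h0s : Commute z₀ s) (h0a : Commute z₀ a)
    (h1s : Commute z₁ s) (h1z : Commute z₁ z₀) :
    (s * z₀)⁻¹ * ((a * z₁) * (s * z₀) * (a * z₁)⁻¹) = s⁻¹ * (a * s * a⁻¹) := by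
  have e1 : z₁ * (s * z₀) = (s * z₀) * z₁ := (h1s.mul_right h1z).eq
  have e2 : z₀ * a⁻¹ = a⁻¹ * z₀ := (h0a.inv_right).eq
  have e3 : z₀ * (s⁻¹ * (a * s * a⁻¹)) = (s⁻¹ * (a * s * a⁻¹)) * z₀ :=
    ((h0s.inv_right).mul_right ((h0a.mul_right h0s).mul_right h0a.inv_right)).eq
  calc (s * z₀)⁻¹ * ((a * z₁) * (s * z₀) * (a * z₁)⁻¹)
      = z₀⁻¹ * s⁻¹ * (a * (z₁ * (s * z₀)) * z₁⁻¹ * a⁻¹) := by group
    _ = z₀⁻¹ * s⁻¹ * (a * ((s * z₀) * z₁) * z₁⁻¹ * a⁻¹) := by rw [e1]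
    _ = z₀⁻¹ * s⁻¹ * (a * s * (z₀ * a⁻¹)) := by group
    _ = z₀⁻¹ * s⁻¹ * (a * s * (a⁻¹ * z₀)) := by rw [e2]
    _ = z₀⁻¹ * ((s⁻¹ * (a * s * a⁻¹)) * z₀) := by group
    _ = z₀⁻¹ * (z₀ * (s⁻¹ * (a * s * a⁻¹))) := by rw [e3]
    _ = s⁻¹ * (a * s * a⁻¹) := by group

/-- The homomorphism induced along `θ` by a kernel-preserving homomorphism. -/
theorem exists_induced_hom {Ω : Type*} [Group Ω] {S : Subgroup Ω} {Ω' : Type*} [Group Ω'] (θ : S →* Ω')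
    {K : Subgroup Ω} (hK : K ≤ S) (φ : K →* Ω)
    (hφ : ∀ x : K, φ x ∈ S) (hker : ∀ x : K, θ ⟨x, hK x.2⟩ = 1 → θ ⟨φ x, hφ x⟩ = 1)
    (P' : Subgroup Ω') (hmem : ∀ x : K, θ ⟨x, hK x.2⟩ ∈ P')
    (hsurj : ∀ y ∈ P', ∃ x : K, θ ⟨x, hK x.2⟩ = y) :
    ∃ φ' : P' →* Ω', ∀ x : K, φ' ⟨θ ⟨x, hK x.2⟩, hmem x⟩ = θ ⟨φ x, hφ x⟩ := by
  have hf : Function.Surjective ((θ.comp (Subgroup.inclusion hK)).codRestrict P' hmem) := by
    rintro ⟨y, hy⟩
    obtain ⟨x, hx⟩ := hsurj y hy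
    exact ⟨x, Subtype.ext hx⟩
  have hfg : ((θ.comp (Subgroup.inclusion hK)).codRestrict P' hmem).ker ≤
      (θ.comp (φ.codRestrict S hφ)).ker := by
    intro x hx
    have h1 : ((θ.comp (Subgroup.inclusion hK)).codRestrict P' hmem) x = 1 := hx
    have h2 : θ ⟨x, hK x.2⟩ = 1 := congrArg Subtype.val h1
    exact hker x h2
  refine ⟨((θ.comp (Subgroup.inclusion hK)).codRestrict P' hmem).liftOfRightInverseAux
    (Function.surjInv hf) (Function.rightInverse_surjInv hf) (θ.comp (φ.codRestrict S hφ)) hfg,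
    fun x => ?_⟩
  exact MonoidHom.liftOfRightInverseAux_comp_apply _ _ (Function.rightInverse_surjInv hf) _ hfg x

/-- The key consequence of centrality in the factor system: every map of `F` is, modulo the centre, the
restriction of a map defined at `x` and moving `x` inside its coset of the centre. -/
theorem exists_map_mod_center {Ω : Type*} [Group Ω] {S : Subgroup Ω} [Finite S]
    (F : Cfsg.FusionSystem S)
    (E : Cfsg.FusionSystem (⊤ : Subgroup (↥S ⧸ (F.center).subgroupOf S)))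
    (hE : F.IsFactorSystem F.center (QuotientGroup.mk' ((F.center).subgroupOf S)) E)
    {Q' : Subgroup (↥S ⧸ (F.center).subgroupOf S)} (hQ' : E.IsCentral Q') (s : S)
    (hs : QuotientGroup.mk' ((F.center).subgroupOf S) s ∈ Q')
    {P : Subgroup Ω} {f : Ω → Ω} (hf : IsMap F P f) :
    ∃ (P₂ : Subgroup Ω) (ψ : Ω → Ω), IsMap F P₂ ψ ∧ P ≤ P₂ ∧ (s : Ω) ∈ P₂ ∧
      (s : Ω)⁻¹ * ψ s ∈ F.center ∧ ∀ y ∈ P, (f y)⁻¹ * ψ y ∈ F.center := by
  obtain ⟨hZS, hker, hrange, hHom⟩ := hE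
  have hc := (isCentral_iff F F.center).mp (isCentral_center F)
  obtain ⟨f₁, hf₁, hf₁P, hf₁Z⟩ := hc.2 P f hf
  have hP₁S : P ⊔ F.center ≤ S := hf₁.le
  -- the image of `P Z` in the quotient and its full preimage
  have hpre : preimageAlong (QuotientGroup.mk' ((F.center).subgroupOf S))
      (imageAlong (QuotientGroup.mk' ((F.center).subgroupOf S)) (P ⊔ F.center)) = P ⊔ F.center := by
    apply le_antisymm
    · rintro _ ⟨t, ht, rfl⟩
      obtain ⟨u, hu, hut⟩ := ht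
      have h1 : QuotientGroup.mk' ((F.center).subgroupOf S) (u⁻¹ * t) = 1 := by
        rw [map_mul, map_inv, hut]; group
      have h2 : ((u⁻¹ * t : S) : Ω) ∈ F.center := (hker _).mp h1
      have h3 : (t : Ω) = (u : Ω) * ((u⁻¹ * t : S) : Ω) := by
        show (t : Ω) = (u : Ω) * ((u : Ω)⁻¹ * (t : Ω))
        group
      show (t : Ω) ∈ P ⊔ F.center
      rw [h3]
      exact Subgroup.mul_mem _ (Subgroup.mem_subgroupOf.mp hu) (Subgroup.mem_sup_right h2)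
    · intro y hy
      exact ⟨⟨y, hP₁S hy⟩, ⟨⟨y, hP₁S hy⟩, Subgroup.mem_subgroupOf.mpr hy, rfl⟩, rfl⟩
  have hf₁' : IsMap F (preimageAlong (QuotientGroup.mk' ((F.center).subgroupOf S))
      (imageAlong (QuotientGroup.mk' ((F.center).subgroupOf S)) (P ⊔ F.center))) f₁ := by
    rw [hpre]; exact hf₁
  obtain ⟨φ, hφ, hφf⟩ := hf₁'
  have hKS : preimageAlong (QuotientGroup.mk' ((F.center).subgroupOf S))
      (imageAlong (QuotientGroup.mk' ((F.center).subgroupOf S)) (P ⊔ F.center)) ≤ S :=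
    (F.le_of_mem hφ).1
  have hφS := (F.le_of_mem hφ).2
  have hmem : ∀ y : preimageAlong (QuotientGroup.mk' ((F.center).subgroupOf S))
      (imageAlong (QuotientGroup.mk' ((F.center).subgroupOf S)) (P ⊔ F.center)),
      QuotientGroup.mk' ((F.center).subgroupOf S) ⟨y, hKS y.2⟩ ∈
        imageAlong (QuotientGroup.mk' ((F.center).subgroupOf S)) (P ⊔ F.center) := by
    intro y
    have hy : (y : Ω) ∈ P ⊔ F.center := hpre.le y.2
    exact ⟨⟨y, hKS y.2⟩, Subgroup.mem_subgroupOf.mpr hy, rfl⟩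
  obtain ⟨φ', hφ'⟩ := exists_induced_hom (QuotientGroup.mk' ((F.center).subgroupOf S)) hKS φ hφS
    (fun y hy => by
      have h1 : (y : Ω) ∈ F.center := (hker _).mp hy
      apply (hker _).mpr
      show φ y ∈ F.center
      rw [hφf y, hf₁Z _ h1]; exact h1)
    (imageAlong (QuotientGroup.mk' ((F.center).subgroupOf S)) (P ⊔ F.center)) hmem
    (by
      rintro _ ⟨u, hu, rfl⟩
      have hu' : (u : Ω) ∈ preimageAlong (QuotientGroup.mk' ((F.center).subgroupOf S))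
          (imageAlong (QuotientGroup.mk' ((F.center).subgroupOf S)) (P ⊔ F.center)) := by
        rw [hpre]; exact Subgroup.mem_subgroupOf.mp hu
      exact ⟨⟨u, hu'⟩, rfl⟩)
  have hφ'E : φ' ∈ E.Hom (imageAlong (QuotientGroup.mk' ((F.center).subgroupOf S)) (P ⊔ F.center)) :=
    (hHom _ φ').mpr ⟨le_top, φ, hφ, hKS, hφS, hmem, hφ'⟩
  obtain ⟨ψ', hψ', hψ'P, hψ'Q⟩ := hQ'.2 _ φ' hφ'E
  obtain ⟨-, ψ, hψ, hP₂S, hψS, hP₂', hind⟩ := (hHom _ ψ').mp hψ'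
  have hPP₂ : P ≤ preimageAlong (QuotientGroup.mk' ((F.center).subgroupOf S))
      (imageAlong (QuotientGroup.mk' ((F.center).subgroupOf S)) (P ⊔ F.center) ⊔ Q') := by
    intro y hy
    have hy1 : y ∈ P ⊔ F.center := Subgroup.mem_sup_left hy
    exact ⟨⟨y, hP₁S hy1⟩, Subgroup.mem_sup_left ⟨⟨y, hP₁S hy1⟩, Subgroup.mem_subgroupOf.mpr hy1, rfl⟩, rfl⟩
  have hsP₂ : (s : Ω) ∈ preimageAlong (QuotientGroup.mk' ((F.center).subgroupOf S))
      (imageAlong (QuotientGroup.mk' ((F.center).subgroupOf S)) (P ⊔ F.center) ⊔ Q') :=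
    ⟨s, Subgroup.mem_sup_right hs, rfl⟩
  refine ⟨_, extHom ψ, isMap_extHom hψ, hPP₂, hsP₂, ?_, fun y hy => ?_⟩
  · rw [extHom_apply' ψ hsP₂]
    have h1 := hind ⟨s, hsP₂⟩
    have h2 := hψ'Q ⟨QuotientGroup.mk' ((F.center).subgroupOf S) s, hs⟩
    have h3 : ψ' ⟨QuotientGroup.mk' ((F.center).subgroupOf S) ⟨(s : Ω), hP₂S hsP₂⟩, hP₂' ⟨s, hsP₂⟩⟩ =
        QuotientGroup.mk' ((F.center).subgroupOf S) s := h2
    rw [h3] at h1
    have h4 : QuotientGroup.mk' ((F.center).subgroupOf S) (s⁻¹ * ⟨ψ ⟨s, hsP₂⟩, hψS _⟩) = 1 := by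
      rw [map_mul, map_inv, ← h1]; group
    exact (hker _).mp h4
  · have hyP₂ := hPP₂ hy
    have hy1 : y ∈ P ⊔ F.center := Subgroup.mem_sup_left hy
    have hyK : y ∈ preimageAlong (QuotientGroup.mk' ((F.center).subgroupOf S))
        (imageAlong (QuotientGroup.mk' ((F.center).subgroupOf S)) (P ⊔ F.center)) := by
      rw [hpre]; exact hy1
    rw [extHom_apply' ψ hyP₂]
    have h1 := hind ⟨y, hyP₂⟩
    have h2 := hψ'P ⟨QuotientGroup.mk' ((F.center).subgroupOf S) ⟨y, hP₁S hy1⟩, hmem ⟨y, hyK⟩⟩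
    have h3 := hφ' ⟨y, hyK⟩
    have h5 : ψ' ⟨QuotientGroup.mk' ((F.center).subgroupOf S) ⟨y, hP₂S hyP₂⟩, hP₂' ⟨y, hyP₂⟩⟩ =
        QuotientGroup.mk' ((F.center).subgroupOf S) ⟨φ ⟨y, hyK⟩, hφS _⟩ := h2.trans h3
    rw [h5] at h1
    have hfy : φ ⟨y, hyK⟩ = f y := by rw [hφf, hf₁P y hy]
    have h4 : QuotientGroup.mk' ((F.center).subgroupOf S)
        ((⟨φ ⟨y, hyK⟩, hφS _⟩ : S)⁻¹ * ⟨ψ ⟨y, hyP₂⟩, hψS _⟩) = 1 := by
      rw [map_mul, map_inv, ← h1]; group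
    have h6 := (hker _).mp h4
    have h7 : (((⟨φ ⟨y, hyK⟩, hφS _⟩ : S)⁻¹ * ⟨ψ ⟨y, hyP₂⟩, hψS _⟩ : S) : Ω) =
        (f y)⁻¹ * ψ ⟨y, hyP₂⟩ := by
      show (φ ⟨y, hyK⟩)⁻¹ * ψ ⟨y, hyP₂⟩ = _
      rw [hfy]
    rw [h7] at h6
    exact h6

/-- An analogue of Grün's lemma for fusion systems. Let F be a saturated fusion system over a finite p-group S that is perfect in the sense that its hyperfocal subgroup is all of S (F coincides with its p-residual subsystem). Then the second centre of F equals its centre: every fusion system over S/(Z(F) ∩ S) that is the factor system of F modulo its centre Z(F), read through the quotient map, has trivial centre. -/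
theorem result {Ω : Type*} [Group Ω] {S : Subgroup Ω} [Finite S] (p : ℕ) [Fact p.Prime] (hS : IsPGroup p S) (F : Cfsg.FusionSystem S) (hF : F.IsSaturated p)
    (hperf : F.hyperfocalSubgroup p = S)
    (E : Cfsg.FusionSystem (⊤ : Subgroup (↥S ⧸ (F.center).subgroupOf S)))
    (hE : F.IsFactorSystem F.center (QuotientGroup.mk' ((F.center).subgroupOf S)) E) : E.center = ⊥ := by
  have hZS : F.center ≤ S := center_le F
  have hZc : ∀ z ∈ F.center, ∀ g ∈ S, g * z = z * g := fun z hz g hg => F.center_le_centralizer hz g hg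
  rw [eq_bot_iff]
  apply sSup_le
  intro Q' hQ' xbar hxbar
  rw [Subgroup.mem_bot]
  obtain ⟨s, rfl⟩ := QuotientGroup.mk'_surjective _ xbar
  have key := fun (P : Subgroup Ω) (f : Ω → Ω) (hf : IsMap F P f) =>
    exists_map_mod_center F E hE hQ' s hxbar hf
  have hsS : (s : Ω) ∈ S := s.2
  -- step 1: commutators with `S` lie in the centre
  have hA1 : ∀ g ∈ S, (s : Ω)⁻¹ * (g * s * g⁻¹) ∈ F.center := by
    intro g hg
    obtain ⟨P₂, ψ, hψ, hSP₂, hsP₂, h1, h2⟩ := key S _ (isMap_conj F le_rfl hg)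
    have h3 := h2 s hsS
    have h4 : (s : Ω)⁻¹ * (g * s * g⁻¹) = ((s : Ω)⁻¹ * ψ s) * ((g * s * g⁻¹)⁻¹ * ψ s)⁻¹ := by group
    rw [h4]
    exact Subgroup.mul_mem _ h1 (Subgroup.inv_mem _ h3)
  -- step 2: every `y⁻¹ f(y)` centralizes `s`
  have hA2 : ∀ (P : Subgroup Ω) (f : Ω → Ω), IsMap F P f → ∀ y ∈ P,
      (y⁻¹ * f y) * s * (y⁻¹ * f y)⁻¹ = s := by
    intro P f hf y hy
    obtain ⟨P₂, ψ, hψ, hPP₂, hsP₂, h1, h2⟩ := key P f hf
    have hyP₂ := hPP₂ hy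
    have hyS : y ∈ S := hf.le hy
    have hfyS : f y ∈ S := hf.mem hy
    have hψyS : ψ y ∈ S := hψ.mem hyP₂
    have hψsS : ψ s ∈ S := hψ.mem hsP₂
    -- `c := s⁻¹ (y s y⁻¹)` is central and fixed by `ψ`
    have hc := hA1 y hyS
    have hcP₂ : (s : Ω)⁻¹ * (y * s * y⁻¹) ∈ P₂ :=
      P₂.mul_mem (P₂.inv_mem hsP₂) (P₂.mul_mem (P₂.mul_mem hyP₂ hsP₂) (P₂.inv_mem hyP₂))
    have hcfix := center_fixed hψ hc hcP₂
    have e1 : ψ ((s : Ω)⁻¹ * (y * s * y⁻¹)) = (ψ s)⁻¹ * (ψ y * ψ s * (ψ y)⁻¹) := by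
      rw [hψ.map_mul (P₂.inv_mem hsP₂) (P₂.mul_mem (P₂.mul_mem hyP₂ hsP₂) (P₂.inv_mem hyP₂)),
        hψ.map_inv hsP₂, hψ.map_conj hyP₂ hsP₂]
    rw [e1] at hcfix
    -- write `ψ s = s z₀`, `ψ y = f y * z₁`
    have hz₀ := h1
    have hz₁ := h2 y hy
    have hψs : ψ s = s * ((s : Ω)⁻¹ * ψ s) := by group
    have hψy : ψ y = f y * ((f y)⁻¹ * ψ y) := by group
    have e2 : (ψ s)⁻¹ * (ψ y * ψ s * (ψ y)⁻¹) = (s : Ω)⁻¹ * (f y * s * (f y)⁻¹) := by
      have := conj_calc (s : Ω) (f y) ((s : Ω)⁻¹ * ψ s) ((f y)⁻¹ * ψ y)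
        (hZc _ hz₀ _ hsS).symm (hZc _ hz₀ _ hfyS).symm (hZc _ hz₁ _ hsS).symm
        (hZc _ hz₁ _ (hZS hz₀)).symm
      rw [← hψs, ← hψy] at this
      exact this
    rw [e2] at hcfix
    -- hcfix : s⁻¹ * (f y * s * (f y)⁻¹) = s⁻¹ * (y * s * y⁻¹)
    have e3 : f y * s * (f y)⁻¹ = y * s * y⁻¹ := mul_left_cancel hcfix
    calc (y⁻¹ * f y) * s * (y⁻¹ * f y)⁻¹ = y⁻¹ * (f y * s * (f y)⁻¹) * y := by group
      _ = y⁻¹ * (y * s * y⁻¹) * y := by rw [e3]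
      _ = s := by group
  -- step 3: `s` is central in `S`, since the hyperfocal subgroup is `S`
  have hA3 : ∀ g ∈ S, g * (s : Ω) = s * g := by
    have hle : F.hyperfocalSubgroup p ≤ Subgroup.centralizer ({(s : Ω)} : Set Ω) := by
      unfold FusionSystem.hyperfocalSubgroup
      rw [Subgroup.closure_le]
      rintro _ ⟨P, α, y, hPS, -, rfl⟩
      have h1 := hA2 P (autFun (α : MulAut P)) (IsMap.of_mem_autGroup hPS α.2) y y.2
      rw [autFun_apply] at h1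
      rw [SetLike.mem_coe, Subgroup.mem_centralizer_singleton_iff]
      calc ((y : Ω)⁻¹ * ((α : MulAut P) y : P)) * s
          = (((y : Ω)⁻¹ * ((α : MulAut P) y : P)) * s * ((y : Ω)⁻¹ * ((α : MulAut P) y : P))⁻¹) *
            ((y : Ω)⁻¹ * ((α : MulAut P) y : P)) := by group
        _ = s * ((y : Ω)⁻¹ * ((α : MulAut P) y : P)) := by rw [h1]
    intro g hg
    rw [← hperf] at hg
    exact Subgroup.mem_centralizer_singleton_iff.mp (hle hg)
  -- step 4: the automorphisms of the generating subgroups fix `s`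
  have hA4 : ∀ R : Subgroup Ω, F.IsFullyAutomized p R → F.IsReceptive R → F.IsCentric R →
      F.IsRadical p R → ∀ α ∈ F.autGroup R, autFun α s = s := by
    intro R hRa hRr hRc hRrad α hα
    have hRS := hRa.1
    have hsR : (s : Ω) ∈ R :=
      centralizerIn_le_of_isCentric hRc (mem_centralizerIn_iff.mpr ⟨hsS, fun y hy => hA3 y (hRS hy)⟩)
    have h := fix_of_mod_fixed hS hRa F.center ⟨s, hsR⟩ ?_ ?_ ?_ α hα
    · rw [autFun_apply' α hsR, h]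
    · intro β hβ
      obtain ⟨P₂, ψ, hψ, hRP₂, hsP₂, h1, h2⟩ := key R _ (IsMap.of_mem_autGroup hRS hβ)
      have h3 := h2 s hsR
      rw [autFun_apply' β hsR] at h3
      have h4 : (((⟨s, hsR⟩ : R)⁻¹ * β ⟨s, hsR⟩ : R) : Ω) =
          ((s : Ω)⁻¹ * ψ s) * (((β ⟨s, hsR⟩ : R) : Ω)⁻¹ * ψ s)⁻¹ := by
        show (s : Ω)⁻¹ * ((β ⟨s, hsR⟩ : R) : Ω) = _
        group
      rw [h4]
      exact Subgroup.mul_mem _ h1 (Subgroup.inv_mem _ h3)
    · intro β hβ z hz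
      apply Subtype.ext
      rw [← autFun_apply]
      exact center_fixed (IsMap.of_mem_autGroup hRS hβ) hz z.2
    · intro t ht
      obtain ⟨g, hg, hgt⟩ := (mem_autInducedBy_iff' S t).mp ht
      apply Subtype.ext
      rw [← autFun_apply, hgt _ hsR]
      show g * (s : Ω) * g⁻¹ = s
      rw [hA3 g hg]; group
  have hcent := isCentral_zpowers_of_fix hS hF hsS hA3 hA4
  have hmem : (s : Ω) ∈ F.center := (le_sSup hcent : Subgroup.zpowers (s : Ω) ≤ F.center)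
    (Subgroup.mem_zpowers _)
  exact (hE.2.1 s).mpr hmem

end Cfsg.Agent.S5315
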