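import Cfsg.Statements.S5319
import Cfsg.Agent.Helper88.SU3Model

set_option autoImplicit false
open Cfsg

namespace Cfsg.Agent.S5319

open Cfsg.Agent.Helper88

/-- Let q be an odd prime power and F a field with q² elements. Then the 2-fusion system of PSU(3,q) (realised as the special unitary group of the standard Hermitian form over F modulo its centre) on a Sylow 2-subgroup is simple. -/
theorem result {F : Type*} [Field F] [Fintype F] (q : ℕ) (hq : Fintype.card F = q ^ 2) (hodd : q % 2 = 1) (S : Sylow 2 (Cfsg.PSU 3 F q)) :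
    (Cfsg.groupFusionSystem (S : Subgroup (Cfsg.PSU 3 F q))).IsSimple 2 := by
  classical
  obtain ⟨σ, hσ⟩ := Helper44.exists_conj hq
  have hoddF : Fintype.card F % 2 = 1 := by rw [hq, Nat.pow_mod, hodd]
  have h2 : (2 : F) ≠ 0 := S5317.two_ne_zero_of_odd hoddF
  have hD := SU3.qwData_SU hq hodd (SU3.u3_mem_SU σ hσ)
  refine hD.isSimple_of_surjective
    (QuotientGroup.mk' (Subgroup.center ↥(Cfsg.SU 3 F q)))
    (QuotientGroup.mk'_surjective _) ?_ ?_ S
  · intro z hz g
    rw [QuotientGroup.ker_mk'] at hz
    exact Subgroup.mem_center_iff.mp hz g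
  · intro z hz k hk
    rw [QuotientGroup.ker_mk'] at hz
    exact SU3.center_SU_no_two hodd h2 z hz k hk

end Cfsg.Agent.S5319
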