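import Cfsg.Statements.S5320
import Mathlib
import Cfsg.Agent.Helper42.PS4e

set_option autoImplicit false
open Cfsg

namespace Cfsg.Agent.S5320

/-- For a finite field F of odd order, the 2-fusion system of the projective symplectic group PSp(4,F) on a Sylow 2-subgroup is simple. -/
theorem result {F : Type*} [Field F] [Fintype F] (hodd : Fintype.card F % 2 = 1) (S : Sylow 2 (Cfsg.PSp 2 F)) :
    (Cfsg.groupFusionSystem (S : Subgroup (Cfsg.PSp 2 F))).IsSimple 2 := by
  classical
  have : Fact (Nat.Prime 2) := ⟨Nat.prime_two⟩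
  have h2 : (2 : F) ≠ 0 := Helper42.PS4.two_ne_zero_of_card hodd
  have he : (2 : F) * 2⁻¹ = 1 := mul_inv_cancel₀ h2
  obtain ⟨x, y, hxy⟩ := Helper42.SL2.exists_sum_sq hodd (-1 : F)
  obtain ⟨S₀, hS₀⟩ := Helper42.PS4.exists_sylow he hxy
  have h := Helper42.PS4.simpleHyp2 he hxy hodd S₀ hS₀
  exact Helper88.isSimple_of_simpleHyp2_surjective (MonoidHom.id _) (fun x => ⟨x, rfl⟩)
    (fun z hz g => by rw [MonoidHom.mem_ker, MonoidHom.id_apply] at hz; rw [hz, mul_one, one_mul])
    (fun z hz _ _ => by rw [MonoidHom.mem_ker, MonoidHom.id_apply] at hz; exact hz) h S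

end Cfsg.Agent.S5320
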