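import Mathlib
import Cfsg.Statements.S5329
import Cfsg.Agent.Helper86.FocalTransfer
import Cfsg.Agent.Helper88.FusionCenter
import Cfsg.Agent.Helper84.FusionFocal

set_option autoImplicit false
open Cfsg

namespace Cfsg.Agent.S5329

/-- For a saturated fusion system F over a finite p-group S, the focal subgroup and the derived subgroup of S meet the centre Z(F) of the system in the same subgroup: foc(F) ∩ Z(F) = S′ ∩ Z(F). -/
theorem result {Ω : Type*} [Group Ω] {S : Subgroup Ω} [Finite S] (p : ℕ) [Fact p.Prime] (hS : IsPGroup p S) (F : Cfsg.FusionSystem S) (hF : F.IsSaturated p) : F.focalSubgroup ⊓ F.center = ⁅(S : Subgroup Ω), (S : Subgroup Ω)⁆ ⊓ F.center := by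
  have hZc : F.IsCentral F.center := Cfsg.Agent.Helper88.isCentral_center F
  have hZ : F.StronglyClosed F.center := by
    refine ⟨hZc.1, fun R hR φ hφ x => ?_⟩
    obtain ⟨ψ, -, h1, h2⟩ := hZc.2 R φ hφ
    have e : Subgroup.inclusion (le_sup_left : R ≤ R ⊔ F.center) x =
        Subgroup.inclusion (le_sup_right : F.center ≤ R ⊔ F.center) ⟨x, hR x.2⟩ := Subtype.ext rfl
    rw [← h1 x, e, h2]
    exact hR x.2
  apply le_antisymm
  · rintro z ⟨hzf, hzc⟩
    refine ⟨?_, hzc⟩
    have hzS : z ∈ S := hZc.1 hzc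
    have key := Cfsg.Agent.Helper86.focal_ker_of_stable hS F hF F.center hZ
      (Abelianization.of : ↥S →* Abelianization ↥S) (by
        intro P φ hφ y hy
        obtain ⟨ψ, -, h1, h2⟩ := hZc.2 P φ hφ
        have e : Subgroup.inclusion (le_sup_left : P ≤ P ⊔ F.center) y =
            Subgroup.inclusion (le_sup_right : F.center ≤ P ⊔ F.center) ⟨y, hy⟩ := Subtype.ext rfl
        have hfix : φ y = (y : Ω) := by
          rw [← h1 y, e, h2]
        congr 1
        exact Subtype.ext hfix) z hzS hzf hzc
    have h1 : (⟨z, hzS⟩ : ↥S) ∈ commutator ↥S := by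
      rw [← Abelianization.ker_of]
      exact key
    have h2 : (commutator ↥S).map S.subtype = ⁅S, S⁆ := by
      rw [commutator_def, Subgroup.map_commutator]
      rw [← MonoidHom.range_eq_map, Subgroup.range_subtype]
    rw [← h2]
    exact ⟨⟨z, hzS⟩, h1, rfl⟩
  · exact inf_le_inf_right _ (Cfsg.Agent.Helper84.commutator_le_focal F)

end Cfsg.Agent.S5329
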