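import Cfsg.Statements.S5331
import Cfsg.Agent.Helper88.FusionInner

set_option autoImplicit false
open Cfsg

namespace Cfsg.Agent.S5331

open Cfsg.FusionSystem Cfsg.Agent.Helper88

/-- If `g` has odd order and `g x - x` is a `g`-fixed element killed by `2`, then `g x = x`. -/
theorem fix_of_step {M : Type*} [AddCommGroup M] (g : M ≃+ M) {k : ℕ} (hk : Odd k)
    (hgk : ∀ x, (g^[k]) x = x) {x : M} (h2 : (2 : ℕ) • (g x - x) = 0) (ht : g (g x - x) = g x - x) :
    g x = x := by
  have hgg : g (g x) = x := by
    have h1 : g (g x) - g x = g x - x := by rw [← map_sub]; exact ht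
    have h3 : g (g x) = x + (2 : ℕ) • (g x - x) := by
      rw [two_nsmul]
      have := eq_add_of_sub_eq h1
      rw [this]; abel
    rw [h3, h2, add_zero]
  obtain ⟨m, rfl⟩ := hk
  have hiter : ∀ j, (g^[2 * j]) x = x := by
    intro j
    induction j with
    | zero => rfl
    | succ j ih =>
      have : 2 * (j + 1) = 2 * j + 2 := by ring
      rw [this, Function.iterate_add_apply]
      show (g^[2 * j]) (g (g x)) = x
      rw [hgg, ih]
  have h := hgk x
  rw [show 2 * m + 1 = (2 * m).succ from rfl, Function.iterate_succ_apply', hiter m] at h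
  exact h

theorem zmod_eq_of_two_mul {b : ℕ} (hb : 1 ≤ b) {z : ZMod (2 ^ b)} (hz : z ≠ 0) (h2 : (2 : ℕ) • z = 0) :
    z = ((2 ^ (b - 1) : ℕ) : ZMod (2 ^ b)) := by
  have hne : NeZero (2 ^ b) := ⟨by positivity⟩
  have hzv : ((z.val : ℕ) : ZMod (2 ^ b)) = z := ZMod.natCast_zmod_val z
  have h3 : ((2 * z.val : ℕ) : ZMod (2 ^ b)) = 0 := by
    rw [Nat.cast_mul, hzv]
    rw [nsmul_eq_mul] at h2
    exact h2
  rw [ZMod.natCast_eq_zero_iff] at h3
  have hb' : 2 ^ b = 2 * 2 ^ (b - 1) := by
    rw [← pow_succ']
    congr 1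
    omega
  have h3' : 2 * 2 ^ (b - 1) ∣ 2 * z.val := by rw [← hb']; exact h3
  have h4 : 2 ^ (b - 1) ∣ z.val := Nat.dvd_of_mul_dvd_mul_left (by norm_num) h3'
  obtain ⟨c, hc⟩ := h4
  have hlt : z.val < 2 ^ b := ZMod.val_lt z
  have hc0 : c ≠ 0 := by
    rintro rfl
    apply hz
    rw [← hzv, hc]
    simp
  have hc2 : c < 2 := by
    by_contra hcon
    push Not at hcon
    have : 2 * 2 ^ (b - 1) ≤ 2 ^ (b - 1) * c := by
      rw [mul_comm]
      exact Nat.mul_le_mul_left _ hcon
    omega
  have hc1 : c = 1 := by omega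
  rw [← hzv, hc, hc1, mul_one]

section prod

variable {n : ℕ} {a : Fin n → ℕ}

theorem div_iff (ha1 : ∀ i, 1 ≤ a i) {x : (i : Fin n) → ZMod (2 ^ a i)} (h2 : (2 : ℕ) • x = 0) (j : ℕ) :
    (∃ y : (i : Fin n) → ZMod (2 ^ a i), x = (2 ^ j : ℕ) • y) ↔ ∀ i, x i ≠ 0 → j < a i := by
  constructor
  · rintro ⟨y, rfl⟩ i hi
    by_contra hcon
    push Not at hcon
    apply hi
    rw [Pi.smul_apply, nsmul_eq_mul]
    have : ((2 ^ j : ℕ) : ZMod (2 ^ a i)) = 0 := by
      rw [ZMod.natCast_eq_zero_iff]
      exact pow_dvd_pow 2 hcon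
    rw [this, zero_mul]
  · intro h
    refine ⟨fun i => if x i = 0 then 0 else ((2 ^ (a i - 1 - j) : ℕ) : ZMod (2 ^ a i)), ?_⟩
    funext i
    rw [Pi.smul_apply]
    by_cases hi : x i = 0
    · rw [if_pos hi, hi, smul_zero]
    · rw [if_neg hi, nsmul_eq_mul, ← Nat.cast_mul, ← pow_add]
      have hj := h i hi
      have e : j + (a i - 1 - j) = a i - 1 := by omega
      rw [e]
      apply zmod_eq_of_two_mul (ha1 i) hi
      have := congrFun h2 i
      rw [Pi.smul_apply] at this
      exact this

theorem fix_two_torsion (ha : StrictMono a) (ha1 : ∀ i, 1 ≤ a i) (g : ((i : Fin n) → ZMod (2 ^ a i)) ≃+ ((i : Fin n) → ZMod (2 ^ a i)))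
    {k : ℕ} (hk : Odd k) (hgk : ∀ x, (g^[k]) x = x) :
    ∀ d i : ℕ, n ≤ i + d → ∀ x : (i : Fin n) → ZMod (2 ^ a i), (2 : ℕ) • x = 0 →
      (∀ j : Fin n, (j : ℕ) < i → x j = 0) → g x = x := by
  intro d
  induction d with
  | zero =>
    intro i hi x _ hx
    have : x = 0 := by
      funext j
      exact hx j (lt_of_lt_of_le j.2 hi)
    rw [this, map_zero]
  | succ d ih =>
    intro i hi x h2 hx
    by_cases hin : n ≤ i
    · have : x = 0 := by
        funext j
        exact hx j (lt_of_lt_of_le j.2 hin)
      rw [this, map_zero]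
    · push Not at hin
      by_cases hxi : x ⟨i, hin⟩ = 0
      · apply ih (i + 1) (by omega) x h2
        intro j hj
        rcases Nat.lt_succ_iff_lt_or_eq.mp hj with h | h
        · exact hx j h
        · have : j = ⟨i, hin⟩ := Fin.ext h
          rw [this]; exact hxi
      · set ii : Fin n := ⟨i, hin⟩ with hii
        have h2g : (2 : ℕ) • g x = 0 := by rw [← map_nsmul, h2, map_zero]
        -- x is divisible by 2^(a ii - 1)
        have hxdiv : ∃ y : (i : Fin n) → ZMod (2 ^ a i), x = (2 ^ (a ii - 1) : ℕ) • y := by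
          rw [div_iff ha1 h2]
          intro j hj
          have hij : ii ≤ j := by
            by_contra hcon
            push Not at hcon
            exact hj (hx j hcon)
          have := ha.monotone hij
          have := ha1 ii
          omega
        have hgxdiv : ∃ y : (i : Fin n) → ZMod (2 ^ a i), g x = (2 ^ (a ii - 1) : ℕ) • y := by
          obtain ⟨y, hy⟩ := hxdiv
          exact ⟨g y, by rw [hy, map_nsmul]⟩
        have hgx0 : ∀ j : Fin n, j < ii → g x j = 0 := by
          intro j hj
          by_contra hcon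
          have h3 := (div_iff ha1 h2g _).mp hgxdiv j hcon
          have h4 := ha hj
          omega
        have hgxi : g x ii ≠ 0 := by
          intro hcon
          have hdiv' : ∃ y : (i : Fin n) → ZMod (2 ^ a i), g x = (2 ^ (a ii) : ℕ) • y := by
            rw [div_iff ha1 h2g]
            intro j hj
            have hij : ii < j := by
              rcases lt_trichotomy j ii with h | h | h
              · exact absurd (hgx0 j h) hj
              · rw [h] at hj; exact absurd hcon hj
              · exact h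
            exact ha hij
          obtain ⟨y, hy⟩ := hdiv'
          have hxdiv' : ∃ y : (i : Fin n) → ZMod (2 ^ a i), x = (2 ^ (a ii) : ℕ) • y := by
            refine ⟨g.symm y, ?_⟩
            rw [← map_nsmul, ← hy, AddEquiv.symm_apply_apply]
          have := (div_iff ha1 h2 _).mp hxdiv' ii hxi
          omega
        have h2t : (2 : ℕ) • (g x - x) = 0 := by rw [smul_sub, h2g, h2, sub_zero]
        apply fix_of_step g hk hgk h2t
        apply ih (i + 1) (by omega) _ h2t
        intro j hj
        rw [Pi.sub_apply]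
        rcases Nat.lt_succ_iff_lt_or_eq.mp hj with h | h
        · rw [hgx0 j h, hx j h, sub_zero]
        · have hj' : j = ii := Fin.ext h
          rw [hj']
          have e1 := zmod_eq_of_two_mul (ha1 ii) hxi (by
            have := congrFun h2 ii
            rw [Pi.smul_apply] at this
            exact this)
          have e2 := zmod_eq_of_two_mul (ha1 ii) hgxi (by
            have := congrFun h2g ii
            rw [Pi.smul_apply] at this
            exact this)
          rw [e1, e2, sub_self]

theorem fix_all (ha : StrictMono a) (ha1 : ∀ i, 1 ≤ a i) (g : ((i : Fin n) → ZMod (2 ^ a i)) ≃+ ((i : Fin n) → ZMod (2 ^ a i)))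
    {k : ℕ} (hk : Odd k) (hgk : ∀ x, (g^[k]) x = x) (x : (i : Fin n) → ZMod (2 ^ a i)) : g x = x := by
  have h1 : ∀ x : (i : Fin n) → ZMod (2 ^ a i), (2 : ℕ) • x = 0 → g x = x := fun x hx =>
    fix_two_torsion ha ha1 g hk hgk n 0 (by omega) x hx (fun j hj => absurd hj (by omega))
  have hR : ∀ j : ℕ, ∀ x : (i : Fin n) → ZMod (2 ^ a i), (2 ^ j : ℕ) • x = 0 → g x = x := by
    intro j
    induction j with
    | zero =>
      intro x hx
      rw [pow_zero, one_smul] at hx
      rw [hx, map_zero]
    | succ j ih =>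
      intro x hx
      have h2x : g ((2 : ℕ) • x) = (2 : ℕ) • x := by
        apply ih
        rw [smul_smul, ← pow_succ]
        exact hx
      have h2t : (2 : ℕ) • (g x - x) = 0 := by
        rw [smul_sub, ← map_nsmul, h2x, sub_self]
      exact fix_of_step g hk hgk h2t (h1 _ h2t)
  apply hR (∑ i, a i)
  funext i
  rw [Pi.smul_apply, nsmul_eq_mul]
  have : ((2 ^ (∑ i, a i) : ℕ) : ZMod (2 ^ a i)) = 0 := by
    rw [ZMod.natCast_eq_zero_iff]
    exact pow_dvd_pow 2 (Finset.single_le_sum (fun _ _ => Nat.zero_le _) (Finset.mem_univ i))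
  rw [this, zero_mul]
  rfl

end prod

/-- Let F be a saturated fusion system over S = C_{2^{a_1}} x ... x C_{2^{a_n}} with a_1 < a_2 < ... < a_n. Then F is the inner fusion system F_S(S) of S. -/
theorem result {Ω : Type*} [Group Ω] {S : Subgroup Ω} [Finite S] (n : ℕ) (a : Fin n → ℕ) (ha : StrictMono a) (ha1 : ∀ i, 1 ≤ a i) (e : ↥S ≃* Multiplicative ((i : Fin n) → ZMod (2 ^ a i))) (F : Cfsg.FusionSystem S) (hF : F.IsSaturated 2) (P : Subgroup Ω) : F.Hom P = (Cfsg.innerFusionSystem S).Hom P := by
  have hab : ∀ x ∈ S, ∀ y ∈ S, x * y = y * x := by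
    intro x hx y hy
    have h1 : (⟨x, hx⟩ : S) * ⟨y, hy⟩ = ⟨y, hy⟩ * ⟨x, hx⟩ := by
      apply e.injective
      rw [map_mul, map_mul, mul_comm]
    exact congrArg Subtype.val h1
  have hp2 : Fact (Nat.Prime 2) := ⟨Nat.prime_two⟩
  apply Set.Subset.antisymm
  · intro φ hφ
    have hP := (F.le_of_mem hφ).1
    obtain ⟨f', hf', hf'P⟩ := abelian_extends hF hab (isMap_extHom hφ)
    have himg : img S f' = S := hf'.img_eq_of_mapsTo (fun x hx => hf'.mem hx)
    obtain ⟨α, hα, hαf⟩ := hf'.exists_aut himg
    have hα1 : α = 1 := by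
      have hodd : Odd (Nat.card (F.autGroup S)) := (abelian_autGroup_coprime hF hab).odd_of_right
      have hpow : α ^ Nat.card (F.autGroup S) = 1 := by
        have h := pow_card_eq_one' (G := F.autGroup S) (x := ⟨α, hα⟩)
        have := congrArg Subtype.val h
        simpa only [Subgroup.coe_pow, Subgroup.coe_one, Subgroup.coe_mk] using this
      set k := Nat.card (F.autGroup S) with hk
      let g : ((i : Fin n) → ZMod (2 ^ a i)) ≃+ ((i : Fin n) → ZMod (2 ^ a i)) :=
        { toFun := fun x => Multiplicative.toAdd (e (α (e.symm (Multiplicative.ofAdd x))))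
          invFun := fun x => Multiplicative.toAdd (e (α.symm (e.symm (Multiplicative.ofAdd x))))
          left_inv := fun x => by simp
          right_inv := fun x => by simp
          map_add' := fun x y => by simp }
      have hg : ∀ x, g x = Multiplicative.toAdd (e (α (e.symm (Multiplicative.ofAdd x)))) := fun _ => rfl
      have hiter : ∀ j x, (g^[j]) x = Multiplicative.toAdd (e ((α ^ j) (e.symm (Multiplicative.ofAdd x)))) := by
        intro j
        induction j with
        | zero => intro x; simp
        | succ j ih =>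
          intro x
          rw [Function.iterate_succ_apply', ih, hg, pow_succ', MulAut.mul_apply]
          simp
      have hgk : ∀ x, (g^[k]) x = x := by
        intro x
        rw [hiter, hpow]
        simp
      have hfix := fix_all ha ha1 g hodd hgk
      ext s
      have h1 := hfix (Multiplicative.toAdd (e s))
      rw [hg] at h1
      have h2 : e (α s) = e s := by simpa using h1
      have h3 := e.injective h2
      rw [h3]
      rfl
    refine ⟨hP, 1, S.one_mem, fun x => ?_⟩
    rw [← extHom_apply φ x, ← hf'P x x.2, ← hαf x (hP x.2), hα1, autFun_one (hP x.2)]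
    simp
  · rintro φ ⟨hP, g, hg, hφ⟩
    exact (isMap_conj F hP hg).hom_mem hφ

end Cfsg.Agent.S5331
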