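-- Statement S5521: base size of M24 on 24 points is 7.
import Cfsg.Statements.S5521
import Cfsg.Agent.Helper91.M24Five

set_option autoImplicit false
open Cfsg

namespace Cfsg.Agent.S5521

open Cfsg.Agent.Helper91

theorem part1 (B : Finset Cfsg.GolayPt) (hB : B.card ≤ 6) :
    ∃ g ∈ Cfsg.M24, g ≠ 1 ∧ ∀ b ∈ B, g b = b := by
  obtain ⟨B', hBB', -, hcard⟩ := Finset.exists_subsuperset_card_eq (Finset.subset_univ B) hB
    (by decide : 6 ≤ (Finset.univ : Finset GolayPt).card)
  have hlen : B'.toList.length = 6 := by rw [Finset.length_toList, hcard]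
  have hnd := B'.nodup_toList
  have hmem : ∀ b ∈ B, b ∈ B'.toList := fun b hb => Finset.mem_toList.2 (hBB' hb)
  generalize B'.toList = l at hlen hnd hmem
  rcases l with _ | ⟨x1, _ | ⟨x2, _ | ⟨x3, _ | ⟨x4, _ | ⟨x5, _ | ⟨x6, _ | ⟨x7, l⟩⟩⟩⟩⟩⟩⟩ <;>
    simp only [List.length_cons, List.length_nil] at hlen <;> try omega
  have hnd5 : [x1, x2, x3, x4, x5].Nodup := by
    refine hnd.sublist ?_
    simp
  obtain ⟨u, hu, hys⟩ := m24_five_trans [x1, x2, x3, x4, x5] rfl hnd5
  obtain ⟨w, hw, hw1, hfix, hwy⟩ := m24_six_stab (u⁻¹ x6)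
  have hinv : ∀ q, u⁻¹ (u q) = q := fun q => Equiv.symm_apply_apply u q
  have hinv' : ∀ q, u (u⁻¹ q) = q := fun q => Equiv.apply_symm_apply u q
  refine ⟨u * w * u⁻¹, mul_mem (mul_mem hu hw) (inv_mem hu), ?_, ?_⟩
  · intro e
    apply hw1
    have : w = u⁻¹ * (u * w * u⁻¹) * u := by group
    rw [this, e]; group
  · simp only [List.cons.injEq, and_true] at hys
    obtain ⟨rfl, rfl, rfl, rfl, rfl⟩ := hys
    have fixq : ∀ q, w q = q → (u * w * u⁻¹) (u q) = u q := by
      intro q hq
      rw [Equiv.Perm.mul_apply, Equiv.Perm.mul_apply, hinv, hq]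
    intro b hb
    have hb' := hmem b hb
    simp only [List.mem_cons, List.not_mem_nil, or_false] at hb'
    rcases hb' with rfl | rfl | rfl | rfl | rfl | rfl
    · exact fixq _ (hfix _ (by decide))
    · exact fixq _ (hfix _ (by decide))
    · exact fixq _ (hfix _ (by decide))
    · exact fixq _ (hfix _ (by decide))
    · exact fixq _ (hfix _ (by decide))
    · have := fixq _ hwy
      rwa [hinv'] at this

theorem part2 : ∃ B : Finset Cfsg.GolayPt, B.card = 7 ∧ ∀ g ∈ Cfsg.M24, (∀ b ∈ B, g b = b) → g = 1 := by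
  refine ⟨{none, some 0, some 1, some 2, some 3, some 5, some 4}, by decide, ?_⟩
  intro g hg hfix
  apply m24_rigid7 hg
  intro p hp
  apply hfix
  revert p
  decide

/-- The Mathieu group M₂₄ in its natural action on the 24 coordinate positions of the binary Golay code has minimal base size exactly 7: every set of at most 6 positions is fixed pointwise by some non-identity element of M₂₄, while some set of 7 positions is fixed pointwise only by the identity. -/
theorem result :
    (∀ B : Finset Cfsg.GolayPt, B.card ≤ 6 → ∃ g ∈ Cfsg.M24, g ≠ 1 ∧ ∀ b ∈ B, g b = b) ∧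
    (∃ B : Finset Cfsg.GolayPt, B.card = 7 ∧ ∀ g ∈ Cfsg.M24, (∀ b ∈ B, g b = b) → g = 1) := by
  exact ⟨part1, part2⟩

end Cfsg.Agent.S5521
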