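import Cfsg.Statements.S5529
import Cfsg.Agent.Helper93.M23Gen

set_option autoImplicit false
open Cfsg

namespace Cfsg.Agent.S5529

/-- Generation of the Mathieu group M₂₃ (the stabiliser of a point in the Mathieu group M₂₄ acting on 24 points) by triples of prime orders. Let p ≤ q ≤ r be primes dividing |M₂₃| = 10200960 = 2⁷·3²·5·7·11·23, not both p and q equal to 2. Then M₂₃ contains elements x, y, z of orders p, q, r with xyz = 1 and ⟨x, y⟩ = M₂₃ if and only if (p, q, r) is none of: (2, 3, r) for any r, (2, 5, 5), (2, 5, 7), (3, 3, 3), (3, 3, 5), (3, 3, 7). -/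
theorem result (p q r : ℕ) (hp : p.Prime) (hq : q.Prime)
    (hr : r.Prime) (hpq : p ≤ q) (hqr : q ≤ r) (hp2 : ¬ (p = 2 ∧ q = 2))
    (hdvd : p ∣ 10200960 ∧ q ∣ 10200960 ∧ r ∣ 10200960) :
    (∃ x y z : Cfsg.Spor.M23, orderOf x = p ∧ orderOf y = q ∧ orderOf z = r ∧ x * y * z = 1 ∧
        Subgroup.closure {x, y} = ⊤) ↔
      ¬ ((p = 2 ∧ q = 3) ∨ (p = 2 ∧ q = 5 ∧ r = 5) ∨ (p = 2 ∧ q = 5 ∧ r = 7) ∨ (p = 3 ∧ q = 3 ∧ r ≤ 7)) := by
  constructor
  · rintro ⟨x, y, z, hx, hy, hz, hxyz, hcl⟩ hbad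
    have hX : orderOf (x : Equiv.Perm GolayPt) = p := by
      rw [Subgroup.orderOf_coe]; exact hx
    have hY : orderOf (y : Equiv.Perm GolayPt) = q := by
      rw [Subgroup.orderOf_coe]; exact hy
    have hxy : x * y = z⁻¹ := eq_inv_of_mul_eq_one_left hxyz
    have hXY : orderOf ((x : Equiv.Perm GolayPt) * (y : Equiv.Perm GolayPt)) = r := by
      have e : ((x * y : ↥Cfsg.Spor.M23) : Equiv.Perm GolayPt) =
          (x : Equiv.Perm GolayPt) * (y : Equiv.Perm GolayPt) := rfl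
      rw [← e, Subgroup.orderOf_coe, hxy, orderOf_inv]
      exact hz
    have hcl' : Subgroup.closure ({(x : Equiv.Perm GolayPt), (y : Equiv.Perm GolayPt)} :
        Set (Equiv.Perm GolayPt)) = Cfsg.Spor.M23 := by
      have h1 := congrArg (Subgroup.map (Cfsg.Spor.M23).subtype) hcl
      rw [MonoidHom.map_closure, ← MonoidHom.range_eq_map, Subgroup.range_subtype, Set.image_pair] at h1
      exact h1
    exact Cfsg.Agent.Helper93.M23Gen.no_gen x.2 y.2 hp hq hr hX hY hXY hcl' hqr hbad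
  · intro hgood
    exact Cfsg.Agent.Helper93.M23Gen.gen_of_good hp hq hr hpq hqr hp2 hdvd hgood

end Cfsg.Agent.S5529
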