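import Cfsg.Statements.S5562
-- import your own Cfsg.Agent.* helpers here

set_option autoImplicit false
open Cfsg

namespace Cfsg.Agent.S5562

theorem comm1 {G : Type*} [Group G] (e x r : G) (he : e * e = 1) (hx : x * x = 1)
    (hr : r * r = e * (x * e * x)) (hxr : x * r * x = r⁻¹) : (e * r) * x = x * (e * r) := by
  have h2 : x * e * x = e * (r * r) := by
    rw [hr, ← mul_assoc e e, he, one_mul]
  have h1 : x * (e * r) = (x * e * x) * (x * r * x) * x := by
    have : (x * e * x) * (x * r * x) * x = x * e * (x * x) * r * (x * x) := by group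
    rw [this, hx]; group
  rw [h1, h2, hxr]; group

theorem comm2 {G : Type*} [Group G] (e x r : G) (he : e * e = 1) (hx : x * x = 1)
    (hr : r * r = e * (x * e * x)) (her : e * r * e = r⁻¹) :
    e * (e * r * x) = (e * r * x) * e := by
  have h2 : x * e * x = e * (r * r) := by
    rw [hr, ← mul_assoc e e, he, one_mul]
  have h1 : (e * r * x) * e = e * r * (x * e * x) * x := by
    have : e * r * (x * e * x) * x = e * r * x * e * (x * x) := by group
    rw [this, hx]; group
  rw [h1, h2]
  have : e * r * (e * (r * r)) * x = (e * r * e) * r * r * x := by group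
  rw [this, her, ← mul_assoc, ← mul_assoc, he]; group

theorem mem_conj {G : Type*} [Group G] (a b : G) : b ∈ conjugatesOf a ↔ IsConj a b := Iff.rfl

/-- conjugation by an involution inverting `c` inverts all powers of `c` -/
theorem inv_pow_of_inv {G : Type*} [Group G] (e c : G) (he : e * e = 1) (hc : e * c * e = c⁻¹) (n : ℕ) :
    e * c ^ n * e = (c ^ n)⁻¹ := by
  have he' : e⁻¹ = e := inv_eq_of_mul_eq_one_left he
  have h := conj_pow (a := e) (b := c) (i := n)
  rw [he', hc] at h
  rw [← h, inv_pow]

/-- the `(j+1)`-st power of an element of order `2j+1` is a square root -/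
theorem sqrt_pow {G : Type*} [Group G] (c : G) (j : ℕ) (hj : c ^ (2 * j + 1) = 1) :
    c ^ (j + 1) * c ^ (j + 1) = c := by
  rw [← pow_add]
  have : j + 1 + (j + 1) = (2 * j + 1) + 1 := by ring
  rw [this, pow_succ, hj, one_mul]

/-- Let G be a finite group, d an involution of G whose conjugates pairwise have products of odd order, and x any involution of G. Then the conjugacy class of d is the disjoint union, over the conjugates a of d commuting with x, of the sets of conjugates of d commuting with ax: every conjugate of d commutes with ax for exactly one conjugate a of d that commutes with x. -/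
theorem result {G : Type*} [Group G] [Finite G] (d : G) (hd : orderOf d = 2)
    (hodd : ∀ a ∈ conjugatesOf d, ∀ b ∈ conjugatesOf d, Odd (orderOf (a * b)))
    (x : G) (hx : orderOf x = 2) :
    ∀ e ∈ conjugatesOf d,
      ∃! a : G, a ∈ conjugatesOf d ∧ Commute a x ∧ Commute e (a * x) := by
  intro e he
  have hdd : d * d = 1 := by rw [← pow_two, ← hd]; exact pow_orderOf_eq_one d
  have hxx : x * x = 1 := by rw [← pow_two, ← hx]; exact pow_orderOf_eq_one x
  have hx' : x⁻¹ = x := inv_eq_of_mul_eq_one_left hxx
  have hsq : ∀ b ∈ conjugatesOf d, b * b = 1 := by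
    intro b hb
    rw [mem_conj, isConj_iff] at hb
    obtain ⟨g, rfl⟩ := hb
    have : g * d * g⁻¹ * (g * d * g⁻¹) = g * (d * d) * g⁻¹ := by group
    rw [this, hdd]; group
  have hee := hsq e he
  have he' : e⁻¹ = e := inv_eq_of_mul_eq_one_left hee
  have hfD : x * e * x ∈ conjugatesOf d := by
    rw [mem_conj] at he ⊢
    refine he.trans ?_
    rw [isConj_iff]
    exact ⟨x, by rw [hx']⟩
  have hff := hsq _ hfD
  obtain ⟨j, hj⟩ := hodd e he _ hfD
  have hcj : (e * (x * e * x)) ^ (2 * j + 1) = 1 := by
    rw [← hj]; exact pow_orderOf_eq_one _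
  -- e inverts c
  have hec : e * (e * (x * e * x)) * e = (e * (x * e * x))⁻¹ := by
    rw [mul_inv_rev, inv_eq_of_mul_eq_one_left hff, he', ← mul_assoc e e, hee, one_mul]
  -- x inverts c
  have hxc : x * (e * (x * e * x)) * x = (e * (x * e * x))⁻¹ := by
    rw [mul_inv_rev, inv_eq_of_mul_eq_one_left hff, he']
    have : x * (e * (x * e * x)) * x = x * e * x * e * (x * x) := by group
    rw [this, hxx, mul_one]
  have hrr := sqrt_pow _ j hcj
  have her := inv_pow_of_inv e _ hee hec (j + 1)
  have hxr := inv_pow_of_inv x _ hxx hxc (j + 1)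
  -- the square root of r
  have hrj : ((e * (x * e * x)) ^ (j + 1)) ^ (2 * j + 1) = 1 := by
    rw [← pow_mul, mul_comm, pow_mul, hcj, one_pow]
  have hss := sqrt_pow _ j hrj
  have hes := inv_pow_of_inv e _ hee her (j + 1)
  refine ⟨e * (e * (x * e * x)) ^ (j + 1), ⟨?_, ?_, ?_⟩, ?_⟩
  · rw [mem_conj] at he ⊢
    refine he.trans ?_
    rw [isConj_iff]
    refine ⟨(((e * (x * e * x)) ^ (j + 1)) ^ (j + 1))⁻¹, ?_⟩
    rw [inv_inv]
    generalize ((e * (x * e * x)) ^ (j + 1)) ^ (j + 1) = s at hss hes
    generalize (e * (x * e * x)) ^ (j + 1) = r at hss her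
    -- s⁻¹ * e * s = e * r, with s * s = r, e * s * e = s⁻¹
    have h1 : s⁻¹ * e * s = s⁻¹ * (e * s * e) * e := by
      have : s⁻¹ * (e * s * e) * e = s⁻¹ * e * s * (e * e) := by group
      rw [this, hee, mul_one]
    rw [h1, hes, ← hss]
    have h2 : e * (s * s) = (e * s * e) * (e * s * e) * e := by
      have : (e * s * e) * (e * s * e) * e = e * s * (e * e) * s * (e * e) := by group
      rw [this, hee]; group
    rw [h2, hes]
  · exact comm1 e x _ hee hxx hrr hxr
  · exact comm2 e x _ hee hxx hrr her
  · rintro a' ⟨ha'D, ha'x, ha'e⟩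
    have haa := hsq a' ha'D
    -- a' e a' = x e x
    have h1 : a' * e * a' = x * e * x := by
      have h := ha'e.eq
      have e1 : a' * (e * (a' * x)) * x = a' * e * a' * (x * x) := by group
      have e2 : a' * (a' * x * e) * x = (a' * a') * (x * e * x) := by group
      rw [h, e2, hxx, haa, one_mul, mul_one] at e1
      exact e1.symm
    have h2 : (e * a') * (e * a') = e * (x * e * x) := by
      rw [← h1]; group
    obtain ⟨j', hj'⟩ := hodd e he a' ha'D
    have h3 : orderOf ((e * a') ^ 2) = orderOf (e * a') := by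
      apply Nat.Coprime.orderOf_pow
      rw [hj']
      exact Nat.coprime_two_right.mpr ⟨j', rfl⟩
    rw [pow_two, h2, hj] at h3
    have h4 : (e * a') ^ (2 * j + 1) = 1 := by
      rw [h3]; exact pow_orderOf_eq_one _
    have h5 := sqrt_pow _ j h4
    rw [← h2, ← pow_two, ← pow_mul]
    have h6 : 2 * (j + 1) = (j + 1) + (j + 1) := by ring
    rw [h6, pow_add, h5, ← mul_assoc, hee, one_mul]

end Cfsg.Agent.S5562
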