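import Cfsg.Statements.S5596
import Cfsg.Agent.Helper93.LargeExtra

set_option autoImplicit false
open Cfsg

namespace Cfsg.Agent.S5596

open Cfsg.Agent.Helper93 in
/-- Setting: `z` is an involution of the finite group `G`; for each element `x`, `Q x` is the largest normal 2-subgroup of the centralizer of `x`; `Q z` is extraspecial and contains its own centralizer in `G`. A subgroup `U` is singular when it is elementary abelian, every non-identity element of `U` is conjugate to `z`, and any two non-identity elements `u`, `v` of `U` are orthogonal (`v ∈ Q u`). Write `QU` for the intersection of the `Q u` and `LU` for the join of the `Q u` over the non-identity `u` in `U`. If `U` is singular of order `2 ^ n` with `n ≥ 2`, then `U ≤ QU ≤ LU`, `LU` normalizes `U`, and `LU` induces on `U` its full automorphism group (the general linear group of dimension `n` over the field with two elements): every automorphism of `U` is conjugation by some element of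 `LU`. -/
theorem result {G : Type*} [Group G] [Finite G]
    (Q : G → Subgroup G)
    (hQ : ∀ x : G, Q x = (Cfsg.pCore 2 ↥(Subgroup.centralizer ({x} : Set G))).map (Subgroup.centralizer ({x} : Set G)).subtype)
    (z : G) (hz : orderOf z = 2) (hE : Cfsg.IsExtraspecial 2 ↥(Q z))
    (hC : Subgroup.centralizer ((Q z : Subgroup G) : Set G) ≤ Q z)
    (U : Subgroup G) (hU2 : ∀ u ∈ U, u * u = 1)
    (hS : ∀ u ∈ U, u ≠ 1 → ∃ g : G, g * z * g⁻¹ = u)
    (hO : ∀ u ∈ U, ∀ v ∈ U, u ≠ 1 → v ≠ 1 → v ∈ Q u)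
    (QU LU : Subgroup G) (hQU : QU = ⨅ u ∈ ((U : Set G) \ {1}), Q u) (hLU : LU = ⨆ u ∈ ((U : Set G) \ {1}), Q u)
    (n : ℕ) (hn : 2 ≤ n) (hcard : Nat.card ↥U = 2 ^ n) :
    U ≤ QU ∧ QU ≤ LU ∧ LU ≤ Subgroup.normalizer (U : Set G) ∧
      ∀ φ : ↥U ≃* ↥U, ∃ g ∈ LU, ∀ u : ↥U, g * (u : G) * g⁻¹ = ((φ u : ↥U) : G) := by
  classical
  have hbase : ESAt Q z := ESAt_base Q hQ z hz hE hC
  have hES : ∀ u ∈ U, u ≠ 1 → ESAt Q u := by
    intro u hu hu1
    obtain ⟨g, rfl⟩ := hS u hu hu1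
    exact ESAt_conj Q hQ z g hbase
  have hmemU : ∀ u : G, u ∈ U → u ≠ 1 → u ∈ ((U : Set G) \ {1}) :=
    fun u hu hu1 => ⟨hu, fun h => hu1 (by rw [Set.mem_singleton_iff] at h; exact h)⟩
  have hUQ : ∀ u ∈ U, u ≠ 1 → U ≤ Q u := by
    intro u hu hu1 y hy
    by_cases hy1 : y = 1
    · rw [hy1]; exact (Q u).one_mem
    · exact hO u hu y hy hu1 hy1
  have hQUQ : ∀ u ∈ U, u ≠ 1 → QU ≤ Q u := by
    intro u hu hu1
    rw [hQU]
    exact iInf₂_le u (hmemU u hu hu1)
  have hQLU : ∀ u ∈ U, u ≠ 1 → Q u ≤ LU := by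
    intro u hu hu1
    rw [hLU]
    exact le_iSup₂ (f := fun u (_ : u ∈ ((U : Set G) \ {1})) => Q u) u (hmemU u hu hu1)
  have hle : LU ≤ stabChain U QU := by
    rw [hLU]
    apply iSup₂_le
    intro u hu
    have hu1 : u ≠ 1 := fun h => hu.2 (by rw [Set.mem_singleton_iff]; exact h)
    exact (hES u hu.1 hu1).le_stabChain Q U QU hu.1 (hUQ u hu.1 hu1) (hQUQ u hu.1 hu1)
  have hLN : ∀ g ∈ LU, ∀ y ∈ U, g * y * g⁻¹ ∈ U ∧ g⁻¹ * y * g ∈ U :=
    fun g hg y hy => ((mem_stabChain_iff U QU g).mp (hle hg)).1 y hy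
  -- `U` is not trivial
  have hex : ∃ u ∈ U, u ≠ 1 := by
    by_contra hcon
    push Not at hcon
    have : Nat.card ↥U = 1 := by
      rw [Nat.card_eq_one_iff_unique]
      refine ⟨⟨fun a b => ?_⟩, ⟨1⟩⟩
      apply Subtype.ext
      rw [hcon a a.2, hcon b b.2]
    rw [hcard] at this
    have h4 : 2 ^ 2 ≤ 2 ^ n := Nat.pow_le_pow_right (by norm_num) hn
    omega
  obtain ⟨u₀, hu₀, hu₀1⟩ := hex
  refine ⟨?_, ?_, ?_, ?_⟩
  · rw [hQU]
    apply le_iInf₂
    intro u hu
    have hu1 : u ≠ 1 := fun h => hu.2 (by rw [Set.mem_singleton_iff]; exact h)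
    exact hUQ u hu.1 hu1
  · exact le_trans (hQUQ u₀ hu₀ hu₀1) (hQLU u₀ hu₀ hu₀1)
  · intro g hg
    rw [Subgroup.mem_normalizer_iff]
    intro y
    constructor
    · intro hy
      exact (hLN g hg y hy).1
    · intro hy
      have := (hLN g hg _ hy).2
      have e : g⁻¹ * (g * y * g⁻¹) * g = y := by group
      rw [e] at this
      exact this
  · intro φ
    exact aut_induced Q U hU2 hES hUQ LU hQLU hLN _ φ rfl

end Cfsg.Agent.S5596
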