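import Cfsg.Statements.S5597
import Cfsg.Agent.Helper93.LargeExtra

set_option autoImplicit false
open Cfsg

namespace Cfsg.Agent.S5597

open Cfsg.Agent.Helper93 in
/-- Setting: `z` is an involution of the finite group `G`; for each element `x`, `Q x` is the largest normal 2-subgroup of the centralizer of `x`; `Q z` is extraspecial and contains its own centralizer in `G`. A subgroup `U` is singular when it is elementary abelian, every non-identity element of `U` is conjugate to `z`, and any two non-identity elements `u`, `v` of `U` are orthogonal (`v ∈ Q u`). Write `QU` for the intersection of the `Q u` and `LU` for the join of the `Q u` over the non-identity `u` in `U`. If `U` is a non-trivial singular subgroup, then `LU` acts trivially on `QU / U` (every commutator of an element of `LU` with an element of `QU` lies in `U`), and for every `x` in `QU` outside `U` the centralizer of `U` in `LU` permutes the coset `x U` transitively: each `x u` with `u ∈ U` is a conjugate of `x` by an element of `LU` centralizing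 `U`. -/
theorem result {G : Type*} [Group G] [Finite G]
    (Q : G → Subgroup G)
    (hQ : ∀ x : G, Q x = (Cfsg.pCore 2 ↥(Subgroup.centralizer ({x} : Set G))).map (Subgroup.centralizer ({x} : Set G)).subtype)
    (z : G) (hz : orderOf z = 2) (hE : Cfsg.IsExtraspecial 2 ↥(Q z))
    (hC : Subgroup.centralizer ((Q z : Subgroup G) : Set G) ≤ Q z)
    (U : Subgroup G) (hU2 : ∀ u ∈ U, u * u = 1)
    (hS : ∀ u ∈ U, u ≠ 1 → ∃ g : G, g * z * g⁻¹ = u)
    (hO : ∀ u ∈ U, ∀ v ∈ U, u ≠ 1 → v ≠ 1 → v ∈ Q u)
    (QU LU : Subgroup G) (hQU : QU = ⨅ u ∈ ((U : Set G) \ {1}), Q u) (hLU : LU = ⨆ u ∈ ((U : Set G) \ {1}), Q u)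
    (hU : U ≠ ⊥) :
    (∀ g ∈ LU, ∀ x ∈ QU, g * x * g⁻¹ * x⁻¹ ∈ U) ∧
      ∀ x ∈ QU, x ∉ U → ∀ u ∈ U, ∃ g ∈ LU ⊓ Subgroup.centralizer (U : Set G), g * x * g⁻¹ = x * u := by
  classical
  have hbase : ESAt Q z := ESAt_base Q hQ z hz hE hC
  have hES : ∀ u ∈ U, u ≠ 1 → ESAt Q u := by
    intro u hu hu1
    obtain ⟨g, rfl⟩ := hS u hu hu1
    exact ESAt_conj Q hQ z g hbase
  have hmemU : ∀ u : G, u ∈ U → u ≠ 1 → u ∈ ((U : Set G) \ {1}) :=
    fun u hu hu1 => ⟨hu, fun h => hu1 (by rw [Set.mem_singleton_iff] at h; exact h)⟩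
  have hUQ : ∀ u ∈ U, u ≠ 1 → U ≤ Q u := by
    intro u hu hu1 y hy
    by_cases hy1 : y = 1
    · rw [hy1]; exact (Q u).one_mem
    · exact hO u hu y hy hu1 hy1
  have hQUQ : ∀ u ∈ U, u ≠ 1 → QU ≤ Q u := by
    intro u hu hu1
    rw [hQU]
    exact iInf₂_le u (hmemU u hu hu1)
  have hQLU : ∀ u ∈ U, u ≠ 1 → Q u ≤ LU := by
    intro u hu hu1
    rw [hLU]
    exact le_iSup₂ (f := fun u (_ : u ∈ ((U : Set G) \ {1})) => Q u) u (hmemU u hu hu1)
  refine ⟨?_, ?_⟩
  · have hle : LU ≤ stabChain U QU := by
      rw [hLU]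
      apply iSup₂_le
      intro u hu
      have hu1 : u ≠ 1 := fun h => hu.2 (by rw [Set.mem_singleton_iff]; exact h)
      exact (hES u hu.1 hu1).le_stabChain Q U QU hu.1 (hUQ u hu.1 hu1) (hQUQ u hu.1 hu1)
    intro g hg x hx
    exact (((mem_stabChain_iff U QU g).mp (hle hg)).2 x hx).1
  · intro x hxQU hxU u hu
    by_cases hu1 : u = 1
    · refine ⟨1, Subgroup.one_mem _, ?_⟩
      rw [hu1]; group
    have hESu := hES u hu hu1
    have hxQ : x ∈ Q u := hQUQ u hu hu1 hxQU
    by_contra hcon
    push Not at hcon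
    apply hxU
    have hfin : (U : Set G).Finite := Set.toFinite _
    have hmem := hESu.mem_closure_of_comm Q hfin.toFinset
      (fun y hy => hUQ u hu hu1 (by simpa using hy)) x hxQ (by
        intro g hg hgU
        have hgc : g ∈ LU ⊓ Subgroup.centralizer (U : Set G) := by
          refine Subgroup.mem_inf.mpr ⟨hQLU u hu hu1 hg, ?_⟩
          rw [Subgroup.mem_centralizer_iff]
          intro y hy
          exact (hgU y (by simpa using hy)).symm
        have hne := hcon g hgc
        rcases hESu.comm_or Q hg hxQ with h1 | h1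
        · exact h1
        · exfalso
          apply hne
          have hxu : x * u = u * x := hESu.central Q hxQ
          have : g * x * g⁻¹ = (g * x) * g⁻¹ := by group
          rw [this, h1, hxu]; group)
    have hcl : Subgroup.closure ((hfin.toFinset : Set G) ∪ {u}) ≤ U := by
      rw [Subgroup.closure_le]
      intro t ht
      rcases ht with ht | ht
      · simpa using ht
      · rw [Set.mem_singleton_iff] at ht; rw [ht]; exact hu
    exact hcl hmem

end Cfsg.Agent.S5597
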