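import Cfsg.Statements.S5598
import Cfsg.Agent.Helper93.LargeExtra

set_option autoImplicit false
open Cfsg

namespace Cfsg.Agent.S5598

open Cfsg.Agent.Helper93 in
/-- Setting: `z` is an involution of the finite group `G`; for each element `x`, `Q x` is the largest normal 2-subgroup of the centralizer of `x`; `Q z` is extraspecial and contains its own centralizer in `G`. A subgroup `U` is singular when it is elementary abelian, every non-identity element of `U` is conjugate to `z`, and any two non-identity elements `u`, `v` of `U` are orthogonal (`v ∈ Q u`). Write `QU` for the intersection of the `Q u` and `LU` for the join of the `Q u` over the non-identity `u` in `U`. If the singular subgroup `U` is generated by a set `T` of non-identity elements, then `QU` is already the intersection of the `Q t` over `t ∈ T`. -/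
theorem result {G : Type*} [Group G] [Finite G]
    (Q : G → Subgroup G)
    (hQ : ∀ x : G, Q x = (Cfsg.pCore 2 ↥(Subgroup.centralizer ({x} : Set G))).map (Subgroup.centralizer ({x} : Set G)).subtype)
    (z : G) (hz : orderOf z = 2) (hE : Cfsg.IsExtraspecial 2 ↥(Q z))
    (hC : Subgroup.centralizer ((Q z : Subgroup G) : Set G) ≤ Q z)
    (U : Subgroup G) (hU2 : ∀ u ∈ U, u * u = 1)
    (hS : ∀ u ∈ U, u ≠ 1 → ∃ g : G, g * z * g⁻¹ = u)
    (hO : ∀ u ∈ U, ∀ v ∈ U, u ≠ 1 → v ≠ 1 → v ∈ Q u)
    (QU LU : Subgroup G) (hQU : QU = ⨅ u ∈ ((U : Set G) \ {1}), Q u) (hLU : LU = ⨆ u ∈ ((U : Set G) \ {1}), Q u)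
    (T : Set G) (hT : Subgroup.closure T = U) (hT1 : (1 : G) ∉ T) :
    QU = ⨅ t ∈ T, Q t := by
  have hbase : ESAt Q z := ESAt_base Q hQ z hz hE hC
  have hES : ∀ u ∈ U, u ≠ 1 → ESAt Q u := by
    intro u hu hu1
    obtain ⟨g, rfl⟩ := hS u hu hu1
    exact ESAt_conj Q hQ z g hbase
  have hTU : T ⊆ U := by
    rw [← hT]; exact Subgroup.subset_closure
  rw [hQU]
  apply le_antisymm
  · apply le_iInf₂
    intro t ht
    have : t ∈ ((U : Set G) \ {1}) := ⟨hTU ht, fun h => hT1 (by rw [Set.mem_singleton_iff] at h; rw [← h]; exact ht)⟩
    exact iInf₂_le t this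
  · apply le_iInf₂
    intro u hu
    obtain ⟨huU, hu1⟩ := hu
    have hu1' : u ≠ 1 := fun h => hu1 (by rw [Set.mem_singleton_iff]; exact h)
    have key : ∀ v ∈ Subgroup.closure T, v = 1 ∨ (⨅ t ∈ T, Q t) ≤ Q v := by
      intro v hv
      induction hv using Subgroup.closure_induction with
      | mem t ht => exact Or.inr (iInf₂_le t ht)
      | one => exact Or.inl rfl
      | mul a b ha hb iha ihb =>
        rw [hT] at ha hb
        by_cases ha1 : a = 1
        · subst ha1; rw [one_mul]; exact ihb
        by_cases hb1 : b = 1
        · subst hb1; rw [mul_one]; exact iha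
        by_cases hab : a * b = 1
        · exact Or.inl hab
        right
        have iha' := iha.resolve_left ha1
        have ihb' := ihb.resolve_left hb1
        have hne : a ≠ b := by
          rintro rfl
          exact hab (hU2 a ha)
        have h1 : Q b ⊓ Q a ≤ Q (a * b) :=
          inter_le_Q_mul Q hQ (hES b hb hb1) (hO b hb a ha hb1 ha1) ha1 hne
            (hO (a * b) (U.mul_mem ha hb) b hb hab hb1)
        exact le_trans (le_inf ihb' iha') h1
      | inv a ha iha =>
        rw [hT] at ha
        have : a⁻¹ = a := by
          have := hU2 a ha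
          exact inv_eq_of_mul_eq_one_left this
        rw [this]; exact iha
    rw [hT] at key
    rcases key u huU with h | h
    · exact absurd h hu1'
    · exact h

end Cfsg.Agent.S5598
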