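import Cfsg.Statements.S5713
-- import your own Cfsg.Agent.* helpers here

set_option autoImplicit false
open Cfsg

namespace Cfsg.Agent.S5713

open MulAction

/-! ### Distinguishing sets -/

section dist

open Classical

variable (G : Type*) {Ω : Type*} [Group G] [MulAction G Ω]

/-- `w` does not distinguish `u` from `v`: the pairs `(u, w)` and `(v, w)` lie in one orbital. -/
def E (u v w : Ω) : Prop := ∃ h : G, h • u = v ∧ h • w = w

variable {G}

lemma E_refl (u w : Ω) : E G u u w := ⟨1, one_smul _ _, one_smul _ _⟩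

lemma E_symm {u v w : Ω} (h : E G u v w) : E G v u w := by
  obtain ⟨h, h1, h2⟩ := h
  exact ⟨h⁻¹, by rw [← h1, inv_smul_smul], by rw [inv_smul_eq_iff, h2]⟩

lemma E_trans {u v z w : Ω} (h1 : E G u v w) (h2 : E G v z w) : E G u z w := by
  obtain ⟨a, a1, a2⟩ := h1
  obtain ⟨b, b1, b2⟩ := h2
  exact ⟨b * a, by rw [mul_smul, a1, b1], by rw [mul_smul, a2, b2]⟩

lemma E_smul (h : G) {u v w : Ω} (he : E G u v w) : E G (h • u) (h • v) (h • w) := by
  obtain ⟨a, a1, a2⟩ := he
  exact ⟨h * a * h⁻¹, by rw [mul_smul, mul_smul, inv_smul_smul, a1],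
    by rw [mul_smul, mul_smul, inv_smul_smul, a2]⟩

variable [Fintype Ω]

variable (G) in
/-- The set of points distinguishing `u` from `v`. -/
noncomputable def D (u v : Ω) : Finset Ω := Finset.univ.filter (fun w => ¬ E G u v w)

lemma mem_D {u v w : Ω} : w ∈ D G u v ↔ ¬ E G u v w := by simp [D]

lemma D_comm (u v : Ω) : D G u v = D G v u := by
  ext w
  simp only [mem_D]
  exact not_congr ⟨E_symm, E_symm⟩

lemma D_triangle (u v z : Ω) : D G u z ⊆ D G u v ∪ D G v z := by
  intro w hw
  rw [Finset.mem_union, mem_D, mem_D]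
  rw [mem_D] at hw
  by_contra hcon
  push Not at hcon
  exact hw (E_trans hcon.1 hcon.2)

lemma card_D_smul (h : G) (u v : Ω) : (D G (h • u) (h • v)).card = (D G u v).card := by
  apply Finset.card_bij (fun w _ => h⁻¹ • w)
  · intro w hw
    rw [mem_D] at hw ⊢
    intro he
    apply hw
    have := E_smul h he
    rwa [smul_inv_smul] at this
  · intro a _ b _ hab
    exact smul_left_cancel _ hab
  · intro w hw
    refine ⟨h • w, ?_, inv_smul_smul h w⟩
    rw [mem_D] at hw ⊢
    intro he
    apply hw
    have := E_smul h⁻¹ he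
    simpa using this

lemma left_mem_D {u v : Ω} (huv : u ≠ v) : u ∈ D G u v := by
  rw [mem_D]
  rintro ⟨h, h1, h2⟩
  exact huv (h2.symm.trans h1)

lemma right_mem_D {u v : Ω} (huv : u ≠ v) : v ∈ D G u v := by
  rw [D_comm]
  exact left_mem_D huv.symm

/-- Out-neighbours for a relation. -/
noncomputable def nb (P : Ω → Ω → Prop) (u : Ω) : Finset Ω := Finset.univ.filter (fun w => P u w)

lemma mem_nb {P : Ω → Ω → Prop} {u w : Ω} : w ∈ nb P u ↔ P u w := by simp [nb]

lemma card_nb_smul {P : Ω → Ω → Prop} (hP : ∀ (h : G) (u v : Ω), P u v → P (h • u) (h • v)) (h : G) (u : Ω) :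
    (nb P (h • u)).card = (nb P u).card := by
  apply Finset.card_bij (fun w _ => h⁻¹ • w)
  · intro w hw
    rw [mem_nb] at hw ⊢
    have := hP h⁻¹ _ _ hw
    rwa [inv_smul_smul] at this
  · intro a _ b _ hab
    exact smul_left_cancel _ hab
  · intro w hw
    refine ⟨h • w, ?_, inv_smul_smul h w⟩
    rw [mem_nb] at hw ⊢
    exact hP h _ _ hw

lemma card_nb_eq [IsPretransitive G Ω] {P : Ω → Ω → Prop}
    (hP : ∀ (h : G) (u v : Ω), P u v → P (h • u) (h • v)) (u v : Ω) :
    (nb P u).card = (nb P v).card := by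
  obtain ⟨h, rfl⟩ := exists_smul_eq G u v
  rw [card_nb_smul hP]

/-- An invariant relation is compatible with `E`. -/
lemma rel_of_E {P : Ω → Ω → Prop} (hP : ∀ (h : G) (u v : Ω), P u v → P (h • u) (h • v)) {u v w : Ω}
    (h1 : P u w) (h2 : E G u v w) : P v w := by
  obtain ⟨h, rfl, hw⟩ := h2
  have := hP h _ _ h1
  rwa [hw] at this

lemma nb_sdiff_subset_D {P : Ω → Ω → Prop} (hP : ∀ (h : G) (u v : Ω), P u v → P (h • u) (h • v))
    (u v : Ω) : nb P u \ nb P v ⊆ D G u v := by
  intro w hw
  rw [Finset.mem_sdiff, mem_nb, mem_nb] at hw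
  rw [mem_D]
  intro he
  exact hw.2 (rel_of_E hP hw.1 he)

/-- Step A: in a connected invariant graph, every `w ≠ u` distinguishes `u` from a neighbour. -/
lemma exists_nb_distinguish {R : Ω → Ω → Prop} (hR : ∀ (h : G) (u v : Ω), R u v → R (h • u) (h • v))
    (hconn : ∀ u v, Relation.ReflTransGen R u v) {u w : Ω} (huw : u ≠ w) :
    ∃ v, R u v ∧ ¬ E G u v w := by
  by_contra hcon
  push Not at hcon
  have key : ∀ v, Relation.ReflTransGen R u v → E G u v w := by
    intro v hv
    induction hv with
    | refl => exact E_refl u w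
    | @tail b c _ hbc ih =>
      obtain ⟨h, h1, h2⟩ := ih
      have h3 : R u (h⁻¹ • c) := by
        have := hR h⁻¹ _ _ hbc
        rwa [← h1, inv_smul_smul] at this
      obtain ⟨h', h1', h2'⟩ := hcon _ h3
      exact ⟨h * h', by rw [mul_smul, h1', smul_inv_smul], by rw [mul_smul, h2', h2]⟩
  obtain ⟨h, h1, h2⟩ := key w (hconn u w)
  exact huw (smul_left_cancel h (h1.trans h2.symm))

lemma card_le_of_conn {R : Ω → Ω → Prop} (hR : ∀ (h : G) (u v : Ω), R u v → R (h • u) (h • v))
    (hconn : ∀ u v, Relation.ReflTransGen R u v) (u : Ω) (M : ℕ)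
    (hM : ∀ v, R u v → (D G u v).card ≤ M) (hirr : ∀ v, R u v → u ≠ v) :
    Fintype.card Ω ≤ (nb R u).card * (M - 1) + 1 := by
  have hsub : Finset.univ.erase u ⊆ (nb R u).biUnion (fun v => (D G u v).erase u) := by
    intro w hw
    rw [Finset.mem_erase] at hw
    obtain ⟨v, hv1, hv2⟩ := exists_nb_distinguish hR hconn (Ne.symm hw.1)
    rw [Finset.mem_biUnion]
    exact ⟨v, mem_nb.mpr hv1, Finset.mem_erase.mpr ⟨hw.1, mem_D.mpr hv2⟩⟩
  have h1 := Finset.card_le_card hsub
  rw [Finset.card_erase_of_mem (Finset.mem_univ u), Finset.card_univ] at h1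
  have h2 : ((nb R u).biUnion (fun v => (D G u v).erase u)).card ≤ (nb R u).card * (M - 1) := by
    calc ((nb R u).biUnion (fun v => (D G u v).erase u)).card
        ≤ ∑ v ∈ nb R u, ((D G u v).erase u).card := Finset.card_biUnion_le
      _ ≤ ∑ _v ∈ nb R u, (M - 1) := by
          apply Finset.sum_le_sum
          intro v hv
          rw [mem_nb] at hv
          rw [Finset.card_erase_of_mem (left_mem_D (hirr v hv))]
          exact Nat.sub_le_sub_right (hM v hv) 1
      _ = (nb R u).card * (M - 1) := by rw [Finset.sum_const, smul_eq_mul]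
  omega

/-- The counting lemma. -/
lemma count_L [IsPretransitive G Ω] {P : Ω → Ω → Prop}
    (hP : ∀ (h : G) (u v : Ω), P u v → P (h • u) (h • v)) (u : Ω) (M : ℕ)
    (hM : ∀ v, v ≠ u → (D G u v).card ≤ M) :
    2 * (nb P u).card * Fintype.card Ω ≤
      M * (Fintype.card Ω - 1) + 2 * (nb P u).card * (nb (fun a b => P b a) u).card := by
  have hκ : ∀ v, (nb P v).card = (nb P u).card := fun v => card_nb_eq hP v u
  have hP' : ∀ (h : G) (a b : Ω), (fun a b => P b a) a b → (fun a b => P b a) (h • a) (h • b) :=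
    fun h a b hab => hP h b a hab
  have hκ' : ∀ w, (nb (fun a b => P b a) w).card = (nb (fun a b => P b a) u).card :=
    fun w => card_nb_eq hP' w u
  have hpt : ∀ v, 2 * (nb P u).card ≤ (if v = u then 0 else M) + 2 * (nb P u ∩ nb P v).card := by
    intro v
    by_cases hvu : v = u
    · subst hvu
      simp
    · rw [if_neg hvu]
      have h1 := nb_sdiff_subset_D hP u v
      have h2 : nb P v \ nb P u ⊆ D G u v := by
        rw [D_comm]
        exact nb_sdiff_subset_D hP v u
      have hdisj : Disjoint (nb P u \ nb P v) (nb P v \ nb P u) := by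
        rw [Finset.disjoint_left]
        intro w hw1 hw2
        rw [Finset.mem_sdiff] at hw1 hw2
        exact hw1.2 hw2.1
      have h3 : (nb P u \ nb P v).card + (nb P v \ nb P u).card ≤ M := by
        rw [← Finset.card_union_of_disjoint hdisj]
        exact (Finset.card_le_card (Finset.union_subset h1 h2)).trans (hM v hvu)
      have h4 := Finset.card_sdiff_add_card_inter (nb P u) (nb P v)
      have h5 := Finset.card_sdiff_add_card_inter (nb P v) (nb P u)
      rw [hκ v, Finset.inter_comm (nb P v)] at h5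
      omega
  have hsum := Finset.sum_le_sum (fun v (_ : v ∈ Finset.univ) => hpt v)
  rw [Finset.sum_const, Finset.card_univ, smul_eq_mul, Finset.sum_add_distrib, ← Finset.mul_sum] at hsum
  have hite : ∑ v : Ω, (if v = u then 0 else M) = M * (Fintype.card Ω - 1) := by
    rw [← Finset.add_sum_erase _ _ (Finset.mem_univ u), if_pos rfl, zero_add]
    rw [Finset.sum_congr rfl (fun v hv => if_neg (Finset.ne_of_mem_erase hv)), Finset.sum_const,
      Finset.card_erase_of_mem (Finset.mem_univ u), Finset.card_univ, smul_eq_mul, mul_comm]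
  have hint : ∑ v : Ω, (nb P u ∩ nb P v).card = (nb P u).card * (nb (fun a b => P b a) u).card := by
    have h1 : ∀ v, (nb P u ∩ nb P v).card = ∑ w ∈ nb P u, if P v w then 1 else 0 := by
      intro v
      rw [← Finset.card_filter]
      congr 1
      ext w
      simp [mem_nb]
    simp only [h1]
    rw [Finset.sum_comm]
    have h2 : ∀ w, (∑ v : Ω, if P v w then 1 else 0) = (nb (fun a b => P b a) u).card := by
      intro w
      rw [← Finset.card_filter]
      exact hκ' w
    simp only [h2, Finset.sum_const, smul_eq_mul]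
  rw [hite, hint] at hsum
  linarith

/-- Connectedness of invariant graphs of a primitive group. -/
lemma conn_of_prim [IsPreprimitive G Ω] {R : Ω → Ω → Prop}
    (hR : ∀ (h : G) (u v : Ω), R u v → R (h • u) (h • v)) (hsymm : ∀ u v, R u v → R v u)
    {x₀ y₀ : Ω} (hne : x₀ ≠ y₀) (hxy : R x₀ y₀) : ∀ u v, Relation.ReflTransGen R u v := by
  have hsym' : ∀ {a b : Ω}, Relation.ReflTransGen R a b → Relation.ReflTransGen R b a := by
    intro a b hab
    induction hab with
    | refl => exact Relation.ReflTransGen.refl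
    | tail _ hbc ih => exact Relation.ReflTransGen.head (hsymm _ _ hbc) ih
  have hsmul : ∀ (h : G) (a b : Ω), Relation.ReflTransGen R a b →
      Relation.ReflTransGen R (h • a) (h • b) := by
    intro h a b hab
    induction hab with
    | refl => exact Relation.ReflTransGen.refl
    | tail _ hbc ih => exact ih.tail (hR h _ _ hbc)
  have hblock : IsBlock G {v | Relation.ReflTransGen R x₀ v} := by
    rw [isBlock_iff_smul_eq_of_mem]
    intro g a ha hga
    have h1 : Relation.ReflTransGen R (g • x₀) x₀ := (hsmul g _ _ ha).trans (hsym' hga)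
    ext v
    rw [Set.mem_smul_set_iff_inv_smul_mem]
    constructor
    · intro hv
      have := hsmul g _ _ hv
      rw [smul_inv_smul] at this
      exact (hsym' h1).trans this
    · intro hv
      have := hsmul g⁻¹ _ _ (h1.trans hv)
      rwa [inv_smul_smul] at this
  have hBuniv : {v | Relation.ReflTransGen R x₀ v} = Set.univ := by
    rcases IsPreprimitive.isTrivialBlock_of_isBlock hblock with h | h
    · exact absurd (h (show x₀ ∈ {v | Relation.ReflTransGen R x₀ v} from Relation.ReflTransGen.refl)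
        (show y₀ ∈ {v | Relation.ReflTransGen R x₀ v} from Relation.ReflTransGen.single hxy)) hne
    · exact h
  intro u v
  have hu : u ∈ {v | Relation.ReflTransGen R x₀ v} := hBuniv ▸ Set.mem_univ u
  have hv : v ∈ {v | Relation.ReflTransGen R x₀ v} := hBuniv ▸ Set.mem_univ v
  exact (hsym' hu).trans hv

/-- Distance at most two. -/
def near (R : Ω → Ω → Prop) (u v : Ω) : Prop := u = v ∨ R u v ∨ ∃ z, R u z ∧ R z v

omit [Group G] [MulAction G Ω] [Fintype Ω] in
lemma exists_far_path {R : Ω → Ω → Prop} (hconn : ∀ u v, Relation.ReflTransGen R u v) {u v : Ω}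
    (hfar : ¬ near R u v) : ∃ z p v', R u z ∧ R z p ∧ R p v' ∧ ¬ near R u v' := by
  have key : ∀ v, Relation.ReflTransGen R u v → ¬ near R u v →
      ∃ p v', near R u p ∧ R p v' ∧ ¬ near R u v' := by
    intro v hv
    induction hv with
    | refl =>
      intro h
      exact absurd (Or.inl rfl) h
    | @tail b c _ hbc ih =>
      intro hc
      by_cases hb : near R u b
      · exact ⟨b, c, hb, hbc, hc⟩
      · exact ih hb
  obtain ⟨p, v', hp, hpv, hv'⟩ := key v (hconn u v) hfar
  rcases hp with rfl | hup | ⟨z, huz, hzp⟩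
  · exact absurd (Or.inr (Or.inl hpv)) hv'
  · exact absurd (Or.inr (Or.inr ⟨p, hup, hpv⟩)) hv'
  · exact ⟨z, p, v', huz, hzp, hpv, hv'⟩

variable (G) in
/-- The orbital of `(x, y)`. -/
def Orb (x y u v : Ω) : Prop := ∃ h : G, h • x = u ∧ h • y = v

variable (G) in
/-- The symmetrised orbital of `(x, y)`. -/
def SOrb (x y u v : Ω) : Prop := Orb G x y u v ∨ Orb G x y v u

lemma Orb_inv (x y : Ω) (h : G) (u v : Ω) (huv : Orb G x y u v) : Orb G x y (h • u) (h • v) := by
  obtain ⟨k, rfl, rfl⟩ := huv
  exact ⟨h * k, mul_smul _ _ _, mul_smul _ _ _⟩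

lemma Orb_ne {x y : Ω} (hxy : x ≠ y) (u v : Ω) (huv : Orb G x y u v) : u ≠ v := by
  obtain ⟨k, rfl, rfl⟩ := huv
  exact fun h => hxy (smul_left_cancel k h)

lemma Orb_D (x y : Ω) (u v : Ω) (huv : Orb G x y u v) : (D G u v).card = (D G x y).card := by
  obtain ⟨k, rfl, rfl⟩ := huv
  exact card_D_smul k x y

lemma SOrb_inv (x y : Ω) (h : G) (u v : Ω) (huv : SOrb G x y u v) : SOrb G x y (h • u) (h • v) := by
  rcases huv with huv | huv
  · exact Or.inl (Orb_inv x y h _ _ huv)
  · exact Or.inr (Orb_inv x y h _ _ huv)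

lemma SOrb_ne {x y : Ω} (hxy : x ≠ y) (u v : Ω) (huv : SOrb G x y u v) : u ≠ v := by
  rcases huv with huv | huv
  · exact Orb_ne hxy _ _ huv
  · exact (Orb_ne hxy _ _ huv).symm

lemma SOrb_D (x y : Ω) (u v : Ω) (huv : SOrb G x y u v) : (D G u v).card = (D G x y).card := by
  rcases huv with huv | huv
  · exact Orb_D x y _ _ huv
  · rw [D_comm]; exact Orb_D x y _ _ huv

/-- Key bound for symmetric connected invariant graphs of small valency. -/
lemma sym_bound [IsPretransitive G Ω] (x : Ω) (m : ℕ)
    (hD2 : ∀ u v : Ω, u ≠ v → (D G u v).card ≤ 2 * m)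
    (P : Ω → Ω → Prop) (hPinv : ∀ (h : G) (u v : Ω), P u v → P (h • u) (h • v))
    (hPsymm : ∀ u v, P u v → P v u) (hPconn : ∀ u v, Relation.ReflTransGen P u v)
    (hPne : ∀ u v, P u v → u ≠ v) (hPk : 2 * (nb P x).card + 1 ≤ Fintype.card Ω) :
    Fintype.card Ω ≤ (2 * m + 1) ^ 2 := by
  have hc := count_L hPinv x (2 * m) (fun v hv => hD2 x v (Ne.symm hv))
  have hnbT : nb (fun a b => P b a) x = nb P x := by
    ext w
    simp only [mem_nb]
    exact ⟨hPsymm _ _, hPsymm _ _⟩
  rw [hnbT] at hc
  have hAP := card_le_of_conn hPinv hPconn x (2 * m) (fun v hv => hD2 x v (hPne x v hv))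
    (fun v hv => hPne x v hv)
  generalize (nb P x).card = κ at *
  generalize Fintype.card Ω = n at *
  have hκ : κ ≤ 2 * m := by
    by_contra hcon
    push Not at hcon
    obtain ⟨n', rfl⟩ : ∃ n', n = n' + 1 := ⟨n - 1, by omega⟩
    simp only [Nat.add_sub_cancel] at hc
    have hPk' : 2 * κ ≤ n' := by omega
    nlinarith [Nat.mul_le_mul_left κ hPk', Nat.mul_le_mul_right n' hcon]
  calc n ≤ κ * (2 * m - 1) + 1 := hAP
    _ ≤ (2 * m) * (2 * m) + 1 := by
        have := Nat.mul_le_mul hκ (Nat.sub_le (2 * m) 1)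
        omega
    _ ≤ (2 * m + 1) ^ 2 := by nlinarith

/-- The bound for primitive groups that are not doubly transitive. -/
lemma uniprimitive_bound [IsPreprimitive G Ω]
    (h2 : ¬ ∀ a a' b b' : Ω, a ≠ a' → b ≠ b' → ∃ h : G, h • a = b ∧ h • a' = b')
    {x y : Ω} (hxy : x ≠ y) :
    Fintype.card Ω ≤ (2 * (D G x y).card + 1) ^ 2 := by
  have hpt : IsPretransitive G Ω := inferInstance
  have hm1 : 1 ≤ (D G x y).card := Finset.card_pos.mpr ⟨x, left_mem_D hxy⟩
  have hRinv := SOrb_inv (G := G) x y
  have hRsymm : ∀ u v, SOrb G x y u v → SOrb G x y v u := fun u v h => h.symm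
  have hRne := SOrb_ne (G := G) hxy
  have hRD := SOrb_D (G := G) x y
  have hRxy : SOrb G x y x y := Or.inl ⟨1, one_smul _ _, one_smul _ _⟩
  have hRconn := conn_of_prim hRinv hRsymm hxy hRxy
  have hA := card_le_of_conn hRinv hRconn x (D G x y).card (fun v hv => (hRD x v hv).le)
    (fun v hv => hRne x v hv)
  have hnpos : 0 < Fintype.card Ω := Fintype.card_pos_iff.mpr ⟨x⟩
  by_cases hnear : ∀ u v, near (SOrb G x y) u v
  · -- all pairs at distance at most two
    have hD2 : ∀ u v : Ω, u ≠ v → (D G u v).card ≤ 2 * (D G x y).card := by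
      intro u v huv
      rcases hnear u v with h | h | ⟨z, h1, h2⟩
      · exact absurd h huv
      · rw [hRD u v h]; omega
      · calc (D G u v).card ≤ (D G u z ∪ D G z v).card := Finset.card_le_card (D_triangle u z v)
          _ ≤ (D G u z).card + (D G z v).card := Finset.card_union_le _ _
          _ = 2 * (D G x y).card := by rw [hRD u z h1, hRD z v h2]; ring
    by_cases hcomp : ∀ u v : Ω, u ≠ v → SOrb G x y u v
    · -- the symmetrised orbital is complete
      have hanti : ∀ a b, Orb G x y a b → ¬ Orb G x y b a := by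
        intro a b hab hba
        apply h2
        have hOsymm : ∀ u v, Orb G x y u v → Orb G x y v u := by
          rintro u v ⟨h, rfl, rfl⟩
          obtain ⟨k, hk1, hk2⟩ := hab
          obtain ⟨l, hl1, hl2⟩ := hba
          refine ⟨h * k⁻¹ * l, ?_, ?_⟩
          · rw [mul_smul, mul_smul, hl1, ← hk2, inv_smul_smul]
          · rw [mul_smul, mul_smul, hl2, ← hk1, inv_smul_smul]
        intro a₁ a₂ b₁ b₂ ha hb
        have hOa : Orb G x y a₁ a₂ := by
          rcases hcomp a₁ a₂ ha with h | h
          · exact h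
          · exact hOsymm _ _ h
        have hOb : Orb G x y b₁ b₂ := by
          rcases hcomp b₁ b₂ hb with h | h
          · exact h
          · exact hOsymm _ _ h
        obtain ⟨k, rfl, rfl⟩ := hOa
        obtain ⟨l, rfl, rfl⟩ := hOb
        exact ⟨l * k⁻¹, by rw [mul_smul, inv_smul_smul], by rw [mul_smul, inv_smul_smul]⟩
      have hpart : (nb (Orb G x y) x).card + (nb (fun a b => Orb G x y b a) x).card + 1
          = Fintype.card Ω := by
        have h1 : Disjoint (nb (Orb G x y) x) (nb (fun a b => Orb G x y b a) x) := by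
          rw [Finset.disjoint_left]
          intro w hw1 hw2
          rw [mem_nb] at hw1 hw2
          exact hanti _ _ hw1 hw2
        have h2 : nb (Orb G x y) x ∪ nb (fun a b => Orb G x y b a) x = Finset.univ.erase x := by
          ext w
          simp only [Finset.mem_union, mem_nb, Finset.mem_erase, Finset.mem_univ, and_true]
          constructor
          · rintro (h | h)
            · exact (Orb_ne hxy _ _ h).symm
            · exact Orb_ne hxy _ _ h
          · intro h
            exact hcomp x w (Ne.symm h)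
        have h3 := Finset.card_union_of_disjoint h1
        rw [h2, Finset.card_erase_of_mem (Finset.mem_univ x), Finset.card_univ] at h3
        omega
      have hM : ∀ v, v ≠ x → (D G x v).card ≤ (D G x y).card :=
        fun v hv => (hRD x v (hcomp x v (Ne.symm hv))).le
      have hc1 := count_L (Orb_inv (G := G) x y) x (D G x y).card hM
      have hOinv' : ∀ (h : G) (a b : Ω), (fun a b => Orb G x y b a) a b →
          (fun a b => Orb G x y b a) (h • a) (h • b) := fun h a b hab => Orb_inv x y h b a hab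
      have hc2 := count_L hOinv' x (D G x y).card hM
      have hnb : nb (fun a b => (fun a b => Orb G x y b a) b a) x = nb (Orb G x y) x := rfl
      rw [hnb] at hc2
      generalize (nb (Orb G x y) x).card = k₁ at *
      generalize (nb (fun a b => Orb G x y b a) x).card = k₂ at *
      generalize (D G x y).card = m at *
      generalize Fintype.card Ω = n at *
      subst hpart
      simp only [Nat.add_sub_cancel] at hc1 hc2
      have h4 : 4 * k₁ * k₂ ≤ (k₁ + k₂) * (k₁ + k₂) := by
        rcases le_total k₁ k₂ with h | h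
        · obtain ⟨d, rfl⟩ := Nat.exists_eq_add_of_le h
          nlinarith
        · obtain ⟨d, rfl⟩ := Nat.exists_eq_add_of_le h
          nlinarith
      have h5 : k₁ + k₂ + 1 ≤ 2 * m := by
        by_contra hcon
        push Not at hcon
        have h6 : 2 * m ≤ k₁ + k₂ := by omega
        have h7 := Nat.mul_le_mul_right (k₁ + k₂) h6
        rcases Nat.eq_zero_or_pos (k₁ + k₂) with h0 | h0
        · omega
        · nlinarith
      nlinarith
    · -- the complement graph is nonempty
      push Not at hcomp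
      obtain ⟨u₀, v₀, huv₀, hnR⟩ := hcomp
      have hR'inv : ∀ (h : G) (a b : Ω), (a ≠ b ∧ ¬ SOrb G x y a b) →
          (h • a ≠ h • b ∧ ¬ SOrb G x y (h • a) (h • b)) := by
        rintro h a b ⟨hab, hnr⟩
        refine ⟨fun he => hab (smul_left_cancel h he), fun hr => hnr ?_⟩
        have := hRinv h⁻¹ _ _ hr
        rwa [inv_smul_smul, inv_smul_smul] at this
      have hR'symm : ∀ a b : Ω, (a ≠ b ∧ ¬ SOrb G x y a b) → (b ≠ a ∧ ¬ SOrb G x y b a) :=
        fun a b ⟨hab, hnr⟩ => ⟨hab.symm, fun hr => hnr (hRsymm _ _ hr)⟩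
      have hR'conn := conn_of_prim (R := fun a b : Ω => a ≠ b ∧ ¬ SOrb G x y a b) hR'inv hR'symm
        huv₀ ⟨huv₀, hnR⟩
      have hpart : (nb (SOrb G x y) x).card + (nb (fun a b : Ω => a ≠ b ∧ ¬ SOrb G x y a b) x).card + 1
          = Fintype.card Ω := by
        have h1 : Disjoint (nb (SOrb G x y) x) (nb (fun a b : Ω => a ≠ b ∧ ¬ SOrb G x y a b) x) := by
          rw [Finset.disjoint_left]
          intro w hw1 hw2
          rw [mem_nb] at hw1 hw2
          exact hw2.2 hw1
        have h2 : nb (SOrb G x y) x ∪ nb (fun a b : Ω => a ≠ b ∧ ¬ SOrb G x y a b) x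
            = Finset.univ.erase x := by
          ext w
          simp only [Finset.mem_union, mem_nb, Finset.mem_erase, Finset.mem_univ, and_true]
          constructor
          · rintro (h | h)
            · exact (hRne _ _ h).symm
            · exact h.1.symm
          · intro h
            by_cases hr : SOrb G x y x w
            · exact Or.inl hr
            · exact Or.inr ⟨Ne.symm h, hr⟩
        have h3 := Finset.card_union_of_disjoint h1
        rw [h2, Finset.card_erase_of_mem (Finset.mem_univ x), Finset.card_univ] at h3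
        omega
      rcases le_total (nb (SOrb G x y) x).card
          (nb (fun a b : Ω => a ≠ b ∧ ¬ SOrb G x y a b) x).card with hle | hle
      · exact sym_bound x _ hD2 (SOrb G x y) hRinv hRsymm hRconn hRne (by omega)
      · exact sym_bound x _ hD2 (fun a b : Ω => a ≠ b ∧ ¬ SOrb G x y a b) hR'inv hR'symm hR'conn
          (fun a b h => h.1) (by omega)
  · -- some pair at distance at least three
    push Not at hnear
    obtain ⟨u, v, huv⟩ := hnear
    obtain ⟨z, p, v', huz, hzp, hpv', hfar⟩ := exists_far_path hRconn huv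
    have hD3 : (D G u v').card ≤ 3 * (D G x y).card := by
      have h1 := (Finset.card_le_card (D_triangle (G := G) u p v')).trans (Finset.card_union_le _ _)
      have h2 := (Finset.card_le_card (D_triangle (G := G) u z p)).trans (Finset.card_union_le _ _)
      rw [hRD u z huz, hRD z p hzp] at h2
      rw [hRD p v' hpv'] at h1
      omega
    have hdisj : Disjoint (nb (SOrb G x y) u) (nb (SOrb G x y) v') := by
      rw [Finset.disjoint_left]
      intro w hw1 hw2
      rw [mem_nb] at hw1 hw2
      exact hfar (Or.inr (Or.inr ⟨w, hw1, hRsymm _ _ hw2⟩))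
    have h1 : nb (SOrb G x y) u ⊆ D G u v' := by
      have := nb_sdiff_subset_D hRinv u v'
      rwa [Finset.sdiff_eq_self_of_disjoint hdisj] at this
    have h2 : nb (SOrb G x y) v' ⊆ D G u v' := by
      have := nb_sdiff_subset_D hRinv v' u
      rwa [Finset.sdiff_eq_self_of_disjoint hdisj.symm, D_comm] at this
    have h3 : (nb (SOrb G x y) u).card + (nb (SOrb G x y) v').card ≤ 3 * (D G x y).card := by
      rw [← Finset.card_union_of_disjoint hdisj]
      exact (Finset.card_le_card (Finset.union_subset h1 h2)).trans hD3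
    rw [card_nb_eq hRinv u x, card_nb_eq hRinv v' x] at h3
    have hκ : (nb (SOrb G x y) x).card ≤ 2 * (D G x y).card := by omega
    calc Fintype.card Ω ≤ (nb (SOrb G x y) x).card * ((D G x y).card - 1) + 1 := hA
      _ ≤ (2 * (D G x y).card) * (D G x y).card + 1 := by
          have := Nat.mul_le_mul hκ (Nat.sub_le (D G x y).card 1)
          omega
      _ ≤ (2 * (D G x y).card + 1) ^ 2 := by nlinarith

end dist

/-! ### The doubly transitive case -/

section twotrans

open Classical

variable {G : Type*} [Group G] [Fintype G]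

lemma card_transporter_mul {X : Type*} [MulAction G X] [DecidableEq X] (T : Finset X)
    (hT : ∀ p ∈ T, ∀ q ∈ T, ∃ h : G, h • p = q) (hT' : ∀ p ∈ T, ∀ h : G, h • p ∈ T)
    {p q : X} (hp : p ∈ T) (hq : q ∈ T) :
    (Finset.univ.filter (fun h : G => h • p = q)).card * T.card = Fintype.card G := by
  have h1 : ∀ q' ∈ T, (Finset.univ.filter (fun h : G => h • p = q')).card =
      (Finset.univ.filter (fun h : G => h • p = q)).card := by
    intro q' hq'
    obtain ⟨k, hk⟩ := hT q' hq' q hq
    apply Finset.card_bij (fun h _ => k * h)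
    · intro h hh
      simp only [Finset.mem_filter, Finset.mem_univ, true_and] at hh ⊢
      rw [mul_smul, hh, hk]
    · intro a _ b _ hab
      exact mul_left_cancel hab
    · intro h hh
      simp only [Finset.mem_filter, Finset.mem_univ, true_and] at hh ⊢
      refine ⟨k⁻¹ * h, ?_, by group⟩
      rw [mul_smul, hh, ← hk, inv_smul_smul]
  have h2 := Finset.card_eq_sum_card_fiberwise (s := (Finset.univ : Finset G)) (t := T)
    (f := fun h => h • p) (fun h _ => hT' p hp h)
  rw [Finset.card_univ, Finset.sum_congr rfl h1, Finset.sum_const, smul_eq_mul] at h2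
  rw [h2, mul_comm]

lemma count_C {X : Type*} [MulAction G X] [DecidableEq X] (T A : Finset X)
    (hT : ∀ p ∈ T, ∀ q ∈ T, ∃ h : G, h • p = q) (hT' : ∀ p ∈ T, ∀ h : G, h • p ∈ T)
    (hA : A ⊆ T) :
    (∑ h : G, (A.filter (fun p => h • p ∈ A)).card) * T.card
      = A.card * A.card * Fintype.card G := by
  have h1 : ∀ h : G, (A.filter (fun p => h • p ∈ A)).card
      = ∑ p ∈ A, ∑ q ∈ A, if h • p = q then 1 else 0 := by
    intro h
    rw [Finset.card_filter]
    apply Finset.sum_congr rfl
    intro p _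
    rw [Finset.sum_ite_eq]
  simp only [h1]
  rw [Finset.sum_comm]
  have h2 : ∀ p ∈ A, (∑ h : G, ∑ q ∈ A, if h • p = q then 1 else 0)
      = ∑ q ∈ A, (Finset.univ.filter (fun h : G => h • p = q)).card := by
    intro p _
    rw [Finset.sum_comm]
    apply Finset.sum_congr rfl
    intro q _
    rw [Finset.card_filter]
  rw [Finset.sum_congr rfl h2, Finset.sum_mul]
  have h3 : ∀ p ∈ A, (∑ q ∈ A, (Finset.univ.filter (fun h : G => h • p = q)).card) * T.card
      = A.card * Fintype.card G := by
    intro p hp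
    rw [Finset.sum_mul]
    rw [Finset.sum_congr rfl (fun q hq => card_transporter_mul T hT hT' (hA hp) (hA hq))]
    rw [Finset.sum_const, smul_eq_mul]
  rw [Finset.sum_congr rfl h3, Finset.sum_const, smul_eq_mul, mul_assoc]

lemma two_trans_bound {Ω : Type*} [MulAction G Ω] [Fintype Ω] [IsPretransitive G Ω]
    (h2 : ∀ a a' b b' : Ω, a ≠ a' → b ≠ b' → ∃ h : G, h • a = b ∧ h • a' = b')
    (S : Finset Ω) (hS : S.Nonempty)
    (hno : ∀ h : G, (S.filter (fun a => h • a ∈ S)).card ≠ 1) :
    Fintype.card Ω ≤ (S.card - 1) ^ 2 + 1 := by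
  have hA := count_C (G := G) (Finset.univ : Finset Ω) S (fun p _ q _ => exists_smul_eq G p q)
    (fun p _ h => Finset.mem_univ _) (Finset.subset_univ S)
  have hB : (∑ h : G, (S.offDiag.filter (fun p => h • p ∈ S.offDiag)).card)
        * (Finset.univ : Finset Ω).offDiag.card
      = S.offDiag.card * S.offDiag.card * Fintype.card G :=
      count_C (G := G) ((Finset.univ : Finset Ω).offDiag) S.offDiag
    (by
      rintro ⟨a, a'⟩ hp ⟨b, b'⟩ hq
      rw [Finset.mem_offDiag] at hp hq
      obtain ⟨h, h1, h2'⟩ := h2 a a' b b' hp.2.2 hq.2.2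
      exact ⟨h, by rw [Prod.smul_mk, h1, h2']⟩)
    (by
      rintro ⟨a, a'⟩ hp h
      rw [Finset.mem_offDiag] at hp
      rw [Prod.smul_mk, Finset.mem_offDiag]
      exact ⟨Finset.mem_univ _, Finset.mem_univ _, fun he => hp.2.2 (smul_left_cancel h he)⟩)
    (Finset.offDiag_mono (Finset.subset_univ S))
  have h3 : ∀ h : G, (S.offDiag.filter (fun p => h • p ∈ S.offDiag))
      = (S.filter (fun a => h • a ∈ S)).offDiag := by
    intro h
    ext ⟨a, a'⟩
    simp only [Finset.mem_filter, Finset.mem_offDiag, Prod.smul_mk]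
    constructor
    · rintro ⟨⟨h1, h2, h3⟩, h4, h5, _⟩
      exact ⟨⟨h1, h4⟩, ⟨h2, h5⟩, h3⟩
    · rintro ⟨⟨h1, h4⟩, ⟨h2, h5⟩, h3⟩
      exact ⟨⟨h1, h2, h3⟩, h4, h5, fun he => h3 (smul_left_cancel h he)⟩
  have h4 : ∑ h : G, (S.filter (fun a => h • a ∈ S)).card
      ≤ ∑ h : G, (S.offDiag.filter (fun p => h • p ∈ S.offDiag)).card := by
    apply Finset.sum_le_sum
    intro h _
    rw [h3, Finset.offDiag_card]
    have := hno h
    generalize (S.filter (fun a => h • a ∈ S)).card = t at *
    rcases Nat.lt_or_ge t 2 with ht | ht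
    · have : t = 0 := by omega
      subst this
      simp
    · have := Nat.mul_le_mul_right t ht
      omega
  rw [Finset.offDiag_card, Finset.offDiag_card, Finset.card_univ] at hB
  rw [Finset.card_univ] at hA
  have hgpos : 0 < Fintype.card G := Fintype.card_pos
  have hspos : 0 < S.card := Finset.card_pos.mpr hS
  have hnpos : 0 < Fintype.card Ω := Fintype.card_pos_iff.mpr ⟨hS.choose⟩
  generalize (∑ h : G, (S.filter (fun a => h • a ∈ S)).card) = A at *
  generalize (∑ h : G, (S.offDiag.filter (fun p => h • p ∈ S.offDiag)).card) = B at *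
  generalize Fintype.card G = γ at *
  obtain ⟨s', hs'⟩ : ∃ s', S.card = s' + 1 := ⟨S.card - 1, by omega⟩
  obtain ⟨n', hn'⟩ : ∃ n', Fintype.card Ω = n' + 1 := ⟨Fintype.card Ω - 1, by omega⟩
  rw [hs', hn'] at hA hB ⊢
  have e1 : (n' + 1) * (n' + 1) - (n' + 1) = n' * (n' + 1) := by
    rw [Nat.sub_eq_iff_eq_add (Nat.le_mul_self _)]; ring
  have e2 : (s' + 1) * (s' + 1) - (s' + 1) = s' * (s' + 1) := by
    rw [Nat.sub_eq_iff_eq_add (Nat.le_mul_self _)]; ring
  rw [e1, e2] at hB
  simp only [Nat.add_sub_cancel]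
  have h5 : ((s' + 1) ^ 2 * γ) * n' ≤ ((s' + 1) ^ 2 * γ) * s' ^ 2 := by
    calc ((s' + 1) ^ 2 * γ) * n' = (A * (n' + 1)) * n' := by rw [hA]; ring
      _ ≤ (B * (n' + 1)) * n' := by
          exact Nat.mul_le_mul_right _ (Nat.mul_le_mul_right _ h4)
      _ = (B * (n' * (n' + 1))) := by ring
      _ = ((s' + 1) ^ 2 * γ) * s' ^ 2 := by rw [hB]; ring
  have h6 := Nat.le_of_mul_le_mul_left h5 (by positivity)
  omega

end twotrans

/-! ### The commutator of two permutations with supports meeting in one point -/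

lemma three_cycle_of_inter {α : Type*} [DecidableEq α] [Fintype α] (σ τ : Equiv.Perm α) (p : α)
    (hσ : σ p ≠ p) (hτ : τ p ≠ p) (h : ∀ x, σ x ≠ x → τ x ≠ x → x = p) :
    (σ * τ * σ⁻¹ * τ⁻¹).IsThreeCycle := by
  have hτσ : τ (σ p) = σ p := by
    by_contra hcon
    have h1 : σ (σ p) ≠ σ p := fun he => hσ (σ.injective he)
    exact hσ (h _ h1 hcon)
  have hne : σ p ≠ τ p := by
    intro he
    rw [he] at hτσ
    exact hτ (τ.injective hτσ)
  have hdisj : Equiv.Perm.Disjoint (Equiv.swap p (σ p) * σ) τ := by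
    intro x
    by_cases hx : τ x = x
    · exact Or.inr hx
    · left
      by_cases hxp : x = p
      · subst hxp
        rw [Equiv.Perm.mul_apply, Equiv.swap_apply_right]
      · have hσx : σ x = x := by
          by_contra hcon
          exact hxp (h x hcon hx)
        rw [Equiv.Perm.mul_apply, hσx]
        apply Equiv.swap_apply_of_ne_of_ne hxp
        intro he
        rw [← hσx] at he
        exact hxp (σ.injective he)
  have hcomm : (Equiv.swap p (σ p) * σ) * τ = τ * (Equiv.swap p (σ p) * σ) := hdisj.commute.eq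
  have key : ∀ (s σ₀ : Equiv.Perm α), σ = s * σ₀ → s * s = 1 → σ₀ * τ = τ * σ₀ →
      σ * τ * σ⁻¹ * τ⁻¹ = s * (τ * s * τ⁻¹) := by
    intro s σ₀ h1 h2 h3
    have hs_inv : s⁻¹ = s := inv_eq_of_mul_eq_one_right h2
    rw [h1, mul_inv_rev, hs_inv]
    calc s * σ₀ * τ * (σ₀⁻¹ * s) * τ⁻¹ = s * (σ₀ * τ) * σ₀⁻¹ * s * τ⁻¹ := by group
      _ = s * (τ * σ₀) * σ₀⁻¹ * s * τ⁻¹ := by rw [h3]
      _ = s * (τ * s * τ⁻¹) := by group
  have h1 := key (Equiv.swap p (σ p)) (Equiv.swap p (σ p) * σ)
    (by rw [← mul_assoc, Equiv.swap_mul_self, one_mul]) (Equiv.swap_mul_self _ _) hcomm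
  rw [← Equiv.swap_apply_apply, hτσ, Equiv.swap_comm p (σ p), Equiv.swap_comm (τ p) (σ p)] at h1
  rw [h1]
  exact Equiv.Perm.isThreeCycle_swap_mul_swap_same hσ hne (Ne.symm hτ)

/-! ### The main bound -/

section main

open Classical

variable {G Ω : Type*} [Group G] [Finite G] [MulAction G Ω] [Fintype Ω]

lemma card_le_sq [IsPreprimitive G Ω] (g : G) {x : Ω} (hx : g • x ≠ x)
    (hno3 : ∀ k : G, Set.ncard {a : Ω | k • a ≠ a} ≠ 3) :
    Fintype.card Ω ≤ (2 * Set.ncard {a : Ω | g • a ≠ a} + 1) ^ 2 := by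
  have hpt : IsPretransitive G Ω := inferInstance
  cases nonempty_fintype G
  have hScard : Set.ncard {a : Ω | g • a ≠ a} = (Finset.univ.filter (fun a : Ω => g • a ≠ a)).card := by
    rw [← Set.ncard_coe_finset]
    congr 1
    ext a
    simp
  rw [hScard]
  generalize hS : Finset.univ.filter (fun a : Ω => g • a ≠ a) = S
  have hmem : ∀ a, a ∈ S ↔ g • a ≠ a := by
    intro a
    rw [← hS]
    simp
  by_cases h2 : ∀ a a' b b' : Ω, a ≠ a' → b ≠ b' → ∃ h : G, h • a = b ∧ h • a' = b'
  · have hno : ∀ h : G, (S.filter (fun a => h • a ∈ S)).card ≠ 1 := by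
      intro h hcard
      rw [Finset.card_eq_one] at hcard
      obtain ⟨p, hp⟩ := hcard
      have hpS : p ∈ S.filter (fun a => h • a ∈ S) := by
        rw [hp]
        exact Finset.mem_singleton_self p
      rw [Finset.mem_filter, hmem, hmem] at hpS
      have hall : ∀ a, g • a ≠ a → g • h • a ≠ h • a → a = p := by
        intro a h1 h2
        have : a ∈ S.filter (fun a => h • a ∈ S) := by
          rw [Finset.mem_filter, hmem, hmem]
          exact ⟨h1, h2⟩
        rw [hp] at this
        exact Finset.mem_singleton.mp this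
      have h3 := three_cycle_of_inter (MulAction.toPerm g : Equiv.Perm Ω)
        (MulAction.toPerm (h⁻¹ * g * h)) p hpS.1
        (by
          rw [MulAction.toPerm_apply, mul_smul, mul_smul]
          intro he
          apply hpS.2
          rw [inv_smul_eq_iff] at he
          exact he)
        (by
          intro a h1 h2
          apply hall a h1
          rw [MulAction.toPerm_apply, mul_smul, mul_smul] at h2
          intro he
          apply h2
          rw [inv_smul_eq_iff]
          exact he)
      apply hno3 (g * (h⁻¹ * g * h) * g⁻¹ * (h⁻¹ * g * h)⁻¹)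
      rw [← card_support_eq_three_iff] at h3
      rw [← h3, ← Set.ncard_coe_finset, Equiv.Perm.coe_support_eq_set_support]
      have hk : (MulAction.toPerm (g * (h⁻¹ * g * h) * g⁻¹ * (h⁻¹ * g * h)⁻¹) : Equiv.Perm Ω)
          = MulAction.toPerm g * MulAction.toPerm (h⁻¹ * g * h) * (MulAction.toPerm g)⁻¹
            * (MulAction.toPerm (h⁻¹ * g * h))⁻¹ := by
        simp only [← MulAction.coe_toPermHom, map_mul, map_inv]
      rw [← hk]
      rfl
    have hb := two_trans_bound h2 S ⟨x, (hmem x).mpr hx⟩ hno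
    calc Fintype.card Ω ≤ (S.card - 1) ^ 2 + 1 := hb
      _ ≤ (2 * S.card + 1) ^ 2 := by
          have h1 : S.card - 1 ≤ 2 * S.card := by omega
          have h2 := Nat.pow_le_pow_left h1 2
          nlinarith
  · have hb := uniprimitive_bound h2 (x := x) (y := g • x) (Ne.symm hx)
    have hDS : D G x (g • x) ⊆ S := by
      intro w hw
      rw [mem_D] at hw
      rw [hmem]
      exact fun hgw => hw ⟨g, rfl, hgw⟩
    have hle := Finset.card_le_card hDS
    calc Fintype.card Ω ≤ (2 * (D G x (g • x)).card + 1) ^ 2 := hb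
      _ ≤ (2 * S.card + 1) ^ 2 := by gcongr

end main

/-- A classification-free minimal-degree bound. Let G be a finite group acting faithfully and primitively on a finite set Ω with n elements, and suppose that the image of G in the symmetric group on Ω does not contain the alternating group on Ω. Then every non-identity element of G moves at least (√n − 1)/2 points of Ω, that is, it fixes at most n − (√n − 1)/2 points. -/
theorem result {G Ω : Type*} [Group G] [Finite G] [MulAction G Ω] [FaithfulSMul G Ω] [Fintype Ω] [DecidableEq Ω]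
    (hprim : MulAction.IsPreprimitive G Ω)
    (hA : ¬ alternatingGroup Ω ≤ (MulAction.toPermHom G Ω).range)
    (g : G) (hg : g ≠ 1) :
    (Real.sqrt (Fintype.card Ω) - 1) / 2 ≤ (Fintype.card Ω : ℝ) - Nat.card (MulAction.fixedBy Ω g) := by
  have hx : ∃ x : Ω, g • x ≠ x := by
    by_contra hcon
    push Not at hcon
    exact hg (FaithfulSMul.eq_of_smul_eq_smul (α := Ω) (fun a => by rw [hcon a, one_smul]))
  obtain ⟨x, hx⟩ := hx
  have hno3 : ∀ k : G, Set.ncard {a : Ω | k • a ≠ a} ≠ 3 := by
    intro k hk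
    apply hA
    have hprim' : IsPreprimitive (MulAction.toPermHom G Ω).range Ω := by
      let φ : G → (MulAction.toPermHom G Ω).range := (MulAction.toPermHom G Ω).rangeRestrict
      let f : Ω →ₑ[φ] Ω := { toFun := id, map_smul' := fun g a => rfl }
      exact IsPreprimitive.of_surjective (f := f) Function.surjective_id
    have h3 : (MulAction.toPerm k : Equiv.Perm Ω).IsThreeCycle := by
      rw [← card_support_eq_three_iff, ← Set.ncard_coe_finset, Equiv.Perm.coe_support_eq_set_support]
      exact hk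
    exact Equiv.Perm.alternatingGroup_le_of_isPreprimitive_of_isThreeCycle_mem hprim' h3 ⟨k, rfl⟩
  have hmain := card_le_sq g hx hno3
  have hfix : Nat.card (MulAction.fixedBy Ω g) + Set.ncard {a : Ω | g • a ≠ a} = Fintype.card Ω := by
    have h1 := Set.ncard_add_ncard_compl (MulAction.fixedBy Ω g)
    rw [Nat.card_eq_fintype_card] at h1
    rw [← h1, Nat.card_coe_set_eq]
    rfl
  generalize Set.ncard {a : Ω | g • a ≠ a} = s at hmain hfix
  have h1 : Real.sqrt (Fintype.card Ω) ≤ 2 * s + 1 := by
    rw [show (2 * (s : ℝ) + 1) = Real.sqrt ((2 * s + 1) ^ 2) from (Real.sqrt_sq (by positivity)).symm]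
    apply Real.sqrt_le_sqrt
    exact_mod_cast hmain
  have h2 : (Fintype.card Ω : ℝ) - Nat.card (MulAction.fixedBy Ω g) = s := by
    rw [← hfix]
    push_cast
    ring
  rw [h2]
  linarith

end Cfsg.Agent.S5713
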