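import Cfsg.Statements.S5729
-- import your own Cfsg.Agent.* helpers here

set_option autoImplicit false
open Cfsg

namespace Cfsg.Agent.S5729

open MulAction

section aux

variable {G X : Type*} [Group G] [MulAction G X]

/-- Burnside's lemma with `Nat.card`. -/
lemma burnside [Fintype G] [Finite X] :
    ∑ g : G, Nat.card (fixedBy X g) = Nat.card (Quotient (orbitRel G X)) * Nat.card G := by
  classical
  have := Fintype.ofFinite X
  have := Fintype.ofFinite (Quotient (orbitRel G X))
  have h := sum_card_fixedBy_eq_card_orbits_mul_card_group G X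
  simp only [Nat.card_eq_fintype_card]
  convert h

lemma card_orbits_of_transitive [IsPretransitive G X] [Nonempty X] :
    Nat.card (Quotient (orbitRel G X)) = 1 := by
  rw [Nat.card_eq_one_iff_unique]
  refine ⟨⟨fun a b => ?_⟩, ?_⟩
  · induction a using Quotient.inductionOn with
    | h a =>
      induction b using Quotient.inductionOn with
      | h b =>
        apply Quotient.sound
        exact exists_smul_eq G b a
  · obtain ⟨x⟩ := ‹Nonempty X›
    exact ⟨⟦x⟧⟩

lemma card_fixedBy_prod (g : G) :
    Nat.card (fixedBy (X × X) g) = Nat.card (fixedBy X g) * Nat.card (fixedBy X g) := by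
  have h : fixedBy (X × X) g = fixedBy X g ×ˢ fixedBy X g := by
    ext ⟨a, b⟩
    simp [mem_fixedBy, Prod.ext_iff]
  rw [h, Nat.card_congr (Equiv.Set.prod _ _), Nat.card_prod]

end aux

/-- Let a finite group G act faithfully and transitively on a set with n ≥ 3 points. Then either G is a Frobenius permutation group (Frobenius as a permutation group: transitive, some non-identity element fixes a point, and no non-identity element fixes two points) of order n(n − 1) and exactly |G|/n of its elements are derangements (fix no point), or the number of derangements is greater than |G|/n. -/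
theorem result {G Ω : Type*} [Group G] [Finite G] [MulAction G Ω] [FaithfulSMul G Ω] [Fintype Ω] (htr : MulAction.IsPretransitive G Ω) (hn : 3 ≤ Fintype.card Ω) :
    ((MulAction.IsPretransitive G Ω ∧ (∃ g : G, g ≠ 1 ∧ ∃ ω : Ω, g • ω = ω) ∧ ∀ g : G, g ≠ 1 → Nat.card (MulAction.fixedBy Ω g) ≤ 1) ∧ Nat.card G = Fintype.card Ω * (Fintype.card Ω - 1) ∧ Fintype.card Ω * Nat.card {g : G // ∀ ω : Ω, g • ω ≠ ω} = Nat.card G) ∨
    Nat.card G < Fintype.card Ω * Nat.card {g : G // ∀ ω : Ω, g • ω ≠ ω} := by
  classical
  have := Fintype.ofFinite G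
  obtain ⟨α, β, γ, hαβ, hαγ, hβγ⟩ := Fintype.two_lt_card_iff.mp (show 2 < Fintype.card Ω by omega)
  have hne : Nonempty Ω := ⟨α⟩
  set n := Fintype.card Ω with hn_def
  set F : G → ℕ := fun g => Nat.card (fixedBy Ω g) with hF
  set r := Nat.card (Quotient (orbitRel G (Ω × Ω))) with hr
  have hGpos : 0 < Nat.card G := Nat.card_pos
  -- first moment
  have h1 : ∑ g : G, F g = Nat.card G := by
    rw [hF, burnside, card_orbits_of_transitive, one_mul]
  -- second moment
  have h2 : ∑ g : G, F g * F g = r * Nat.card G := by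
    rw [hr, ← burnside]
    exact Finset.sum_congr rfl (fun g _ => (card_fixedBy_prod g).symm)
  -- number of derangements
  set D := Nat.card {g : G // ∀ ω : Ω, g • ω ≠ ω} with hD
  have hF0 : ∀ g : G, F g = 0 ↔ ∀ ω : Ω, g • ω ≠ ω := by
    intro g
    simp only [hF]
    rw [Nat.card_eq_zero]
    constructor
    · rintro (h | h)
      · intro ω hω
        exact h.false ⟨ω, hω⟩
      · exact absurd h (not_infinite_iff_finite.mpr inferInstance)
    · intro h
      left
      exact ⟨fun x => h x.1 x.2⟩
  have hD' : ∑ g : G, (if F g = 0 then 1 else 0) = D := by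
    rw [hD, Nat.card_eq_fintype_card, Fintype.card_subtype, Finset.card_filter]
    refine Finset.sum_congr rfl (fun g _ => ?_)
    simp only [hF0]
  have hFn : ∀ g, F g ≤ n := fun g => by
    simp only [hF]
    rw [hn_def, ← Nat.card_eq_fintype_card]
    exact Nat.card_le_card_of_injective Subtype.val Subtype.val_injective
  -- pointwise inequality
  have hpt : ∀ g : G, F g * F g + n ≤ (n + 1) * F g + n * (if F g = 0 then 1 else 0) := by
    intro g
    by_cases h0 : F g = 0
    · simp [h0]
    · simp only [h0, if_false, mul_zero, add_zero]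
      obtain ⟨b, hb⟩ := Nat.exists_eq_add_of_le (hFn g)
      have h1' : 1 ≤ F g := Nat.one_le_iff_ne_zero.mpr h0
      rw [hb]
      nlinarith [Nat.mul_le_mul_left b h1']
  have hsums1 : ∑ g : G, (F g * F g + n) = r * Nat.card G + n * Nat.card G := by
    rw [Finset.sum_add_distrib, h2, Finset.sum_const, Finset.card_univ, smul_eq_mul,
      ← Nat.card_eq_fintype_card, mul_comm (Nat.card G) n]
  have hsums2 : ∑ g : G, ((n + 1) * F g + n * (if F g = 0 then 1 else 0)) =
      (n + 1) * Nat.card G + n * D := by
    rw [Finset.sum_add_distrib, ← Finset.mul_sum, ← Finset.mul_sum, h1, hD']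
  have hsum : r * Nat.card G + n * Nat.card G ≤ (n + 1) * Nat.card G + n * D := by
    rw [← hsums1, ← hsums2]
    exact Finset.sum_le_sum (fun g _ => hpt g)
  have hex : ∀ a b : Ω × Ω, (⟦a⟧ : Quotient (orbitRel G (Ω × Ω))) = ⟦b⟧ → ∃ g : G, g • b = a :=
    fun a b h => Quotient.exact h
  have hqne : (⟦(α, α)⟧ : Quotient (orbitRel G (Ω × Ω))) ≠ ⟦(α, β)⟧ := by
    intro h
    obtain ⟨g, hg⟩ := hex _ _ h
    simp only [Prod.smul_mk, Prod.mk.injEq] at hg
    exact hαβ (smul_left_cancel g (hg.1.trans hg.2.symm))
  have hr2 : 2 ≤ r := by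
    have : Nontrivial (Quotient (orbitRel G (Ω × Ω))) := ⟨_, _, hqne⟩
    exact Finite.one_lt_card_iff_nontrivial.mpr this
  have hexp : (n + 1) * Nat.card G = n * Nat.card G + Nat.card G := by ring
  rcases Nat.lt_or_ge 2 r with h3 | h3'
  · right
    have : 3 * Nat.card G ≤ r * Nat.card G := Nat.mul_le_mul_right _ h3
    linarith
  have hr_eq : r = 2 := le_antisymm h3' hr2
  have hle : Nat.card G ≤ n * D := by
    rw [hr_eq] at hsum
    linarith
  rcases hle.lt_or_eq with hlt | heq
  · right; exact hlt
  left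
  -- pointwise equality
  have hpteq : ∀ g : G, F g * F g + n = (n + 1) * F g + n * (if F g = 0 then 1 else 0) := by
    have hs : ∑ g : G, (F g * F g + n) = ∑ g : G, ((n + 1) * F g + n * (if F g = 0 then 1 else 0)) := by
      rw [hsums1, hsums2, hr_eq]
      linarith
    have := (Finset.sum_eq_sum_iff_of_le (fun g _ => hpt g)).mp hs
    exact fun g => this g (Finset.mem_univ g)
  have hfix1 : ∀ g : G, g ≠ 1 → F g ≤ 1 := by
    intro g hg
    by_contra hcon
    push Not at hcon
    have e := hpteq g
    have h0 : F g ≠ 0 := by omega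
    simp only [h0, if_false, mul_zero, add_zero] at e
    obtain ⟨b, hb⟩ := Nat.exists_eq_add_of_le (hFn g)
    have hbF : b * F g = b := by
      rw [hb] at e
      nlinarith
    have hb0 : b = 0 := by
      by_contra hb0
      have h := Nat.mul_le_mul_left b hcon
      have : 0 < b := Nat.pos_of_ne_zero hb0
      linarith
    have hFn' : F g = n := by omega
    apply hg
    apply FaithfulSMul.eq_of_smul_eq_smul (α := Ω)
    intro ω
    rw [one_smul]
    have huniv : fixedBy Ω g = Set.univ := by
      apply Set.eq_of_subset_of_ncard_le (Set.subset_univ _)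
      rw [Set.ncard_univ, Nat.card_eq_fintype_card, ← hn_def, ← hFn']
      simp only [hF]
      rw [Nat.card_coe_set_eq]
    have : ω ∈ fixedBy Ω g := huniv ▸ Set.mem_univ ω
    exact this
  have h2tr : ∀ δ ε : Ω, δ ≠ ε → ∃ g : G, g • α = δ ∧ g • β = ε := by
    intro δ ε hδε
    by_contra hcon
    have hq2 : (⟦(δ, ε)⟧ : Quotient (orbitRel G (Ω × Ω))) ≠ ⟦(α, β)⟧ := by
      intro h
      obtain ⟨g, hg⟩ := hex _ _ h
      simp only [Prod.smul_mk, Prod.mk.injEq] at hg
      exact hcon ⟨g, hg⟩
    have hq3 : (⟦(δ, ε)⟧ : Quotient (orbitRel G (Ω × Ω))) ≠ ⟦(α, α)⟧ := by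
      intro h
      obtain ⟨g, hg⟩ := hex _ _ h
      simp only [Prod.smul_mk, Prod.mk.injEq] at hg
      exact hδε (hg.1.symm.trans hg.2)
    have : 2 < r := by
      rw [hr, Nat.card_eq_fintype_card]
      exact Fintype.two_lt_card_iff.mpr ⟨_, _, _, hq2, hq3, hqne.symm⟩
    omega
  refine ⟨⟨htr, ?_, ?_⟩, ?_, heq.symm⟩
  · obtain ⟨g, hg1, hg2⟩ := h2tr α γ hαγ
    refine ⟨g, ?_, α, hg1⟩
    rintro rfl
    rw [one_smul] at hg2
    exact hβγ hg2
  · exact fun g hg => hfix1 g hg
  · have hstab : stabilizer G ((α, β) : Ω × Ω) = ⊥ := by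
      rw [eq_bot_iff]
      intro g hg
      rw [mem_stabilizer_iff] at hg
      simp only [Prod.smul_mk, Prod.mk.injEq] at hg
      rw [Subgroup.mem_bot]
      by_contra hg1
      have h1le := hfix1 g hg1
      have h2le : 2 ≤ F g := by
        simp only [hF]
        rw [Nat.card_coe_set_eq, ← Set.ncard_pair hαβ]
        apply Set.ncard_le_ncard _ (Set.toFinite _)
        intro x hx
        rcases hx with rfl | rfl
        · exact hg.1
        · exact hg.2
      omega
    have horbit : orbit G ((α, β) : Ω × Ω) = ((Finset.univ : Finset Ω).offDiag : Set (Ω × Ω)) := by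
      ext ⟨δ, ε⟩
      simp only [Finset.coe_offDiag, Finset.coe_univ, Set.mem_offDiag, Set.mem_univ, true_and]
      constructor
      · rintro ⟨g, hg⟩
        simp only [Prod.smul_mk, Prod.mk.injEq] at hg
        rw [← hg.1, ← hg.2]
        exact fun h => hαβ (smul_left_cancel g h)
      · intro h
        obtain ⟨g, h1, h2⟩ := h2tr δ ε h
        exact ⟨g, by simp [h1, h2]⟩
    have hidx := index_stabilizer G ((α, β) : Ω × Ω)
    rw [hstab, Subgroup.index_bot, horbit, Set.ncard_coe_finset, Finset.offDiag_card,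
      Finset.card_univ, ← hn_def] at hidx
    rw [hidx, Nat.mul_sub_one]

end Cfsg.Agent.S5729
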