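import Cfsg.Statements.S5738
-- import your own Cfsg.Agent.* helpers here
import Cfsg.Agent.Helper95.Singer

set_option autoImplicit false
open Cfsg

namespace Cfsg.Agent.S5738

open Cfsg.Agent.Helper95

section aux

variable {F K : Type*} [Field F] [Field K] [Algebra F K]

/-- The unit of `End_F(K)` given by a field automorphism over `F`. -/
noncomputable def autUnit (σ : K ≃ₐ[F] K) : (Module.End F K)ˣ :=
  ⟨σ.toLinearMap, σ.symm.toLinearMap, by ext x; simp, by ext x; simp⟩

lemma autUnit_apply (σ : K ≃ₐ[F] K) (x : K) :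
    ((autUnit σ : (Module.End F K)ˣ) : Module.End F K) x = σ x := rfl

lemma autUnit_inv_apply (σ : K ≃ₐ[F] K) (x : K) :
    (((autUnit σ)⁻¹ : (Module.End F K)ˣ) : Module.End F K) x = σ.symm x := rfl

lemma autUnit_mem_normalizer (σ : K ≃ₐ[F] K) :
    autUnit σ ∈ Subgroup.normalizer ((singer F K : Subgroup (Module.End F K)ˣ) : Set (Module.End F K)ˣ) := by
  rw [Subgroup.mem_normalizer_iff]
  intro h
  rw [mem_singer_iff, mem_singer_iff]
  constructor
  · rintro ⟨k, hk⟩
    refine ⟨Units.mk0 (σ k) (fun h0 => k.ne_zero (σ.injective (h0.trans (map_zero σ).symm))), fun x => ?_⟩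
    show σ ((h : Module.End F K) (σ.symm x)) = σ k * x
    rw [hk, map_mul, σ.apply_symm_apply]
  · rintro ⟨k, hk⟩
    refine ⟨Units.mk0 (σ.symm k) (fun h0 => k.ne_zero (σ.symm.injective (h0.trans (map_zero σ.symm).symm))),
      fun x => ?_⟩
    have h1 : σ ((h : Module.End F K) (σ.symm (σ x))) = k * σ x := hk (σ x)
    rw [σ.symm_apply_apply] at h1
    apply σ.injective
    rw [h1, Units.val_mk0, map_mul, σ.apply_symm_apply]

/-- The map `(a, σ) ↦ L_a ∘ σ` into the normaliser of the Singer group. -/
noncomputable def toNorm (x : Kˣ × (K ≃ₐ[F] K)) :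
    ↥(Subgroup.normalizer ((singer F K : Subgroup (Module.End F K)ˣ) : Set (Module.End F K)ˣ)) :=
  ⟨lunit F K x.1 * autUnit x.2,
    mul_mem (Subgroup.le_normalizer (⟨x.1, rfl⟩ : lunit F K x.1 ∈ singer F K)) (autUnit_mem_normalizer x.2)⟩

lemma toNorm_apply (x : Kˣ × (K ≃ₐ[F] K)) (y : K) :
    (((toNorm x : ↥(Subgroup.normalizer ((singer F K : Subgroup (Module.End F K)ˣ) : Set (Module.End F K)ˣ))) :
      (Module.End F K)ˣ) : Module.End F K) y = x.1 * x.2 y := rfl

lemma toNorm_injective : Function.Injective (toNorm (F := F) (K := K)) := by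
  rintro ⟨a, σ⟩ ⟨b, τ⟩ h
  have h' : ∀ y : K, (a : K) * σ y = b * τ y := by
    intro y
    have := congrArg (fun u : ↥(Subgroup.normalizer ((singer F K : Subgroup (Module.End F K)ˣ) :
      Set (Module.End F K)ˣ)) => ((u : (Module.End F K)ˣ) : Module.End F K) y) h
    simpa only [toNorm_apply] using this
  have hab : a = b := by
    have := h' 1
    simp only [map_one, mul_one] at this
    exact Units.ext this
  subst hab
  congr 1
  ext y
  exact mul_left_cancel₀ a.ne_zero (h' y)

lemma toNorm_surjective [Finite K] : Function.Surjective (toNorm (F := F) (K := K)) := by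
  rintro ⟨g, hg⟩
  have key : ∀ k : Kˣ, ∃ k' : Kˣ, ∀ x, (g : Module.End F K) (k * x) = k' * (g : Module.End F K) x := by
    intro k
    have h1 := (Subgroup.mem_normalizer_iff.mp hg (lunit F K k)).mp ⟨k, rfl⟩
    obtain ⟨k', hk'⟩ := (mem_singer_iff _).mp h1
    refine ⟨k', fun x => ?_⟩
    rw [← hk' ((g : Module.End F K) x)]
    show _ = (g : Module.End F K) ((k : K) * (((g⁻¹ : (Module.End F K)ˣ) : Module.End F K)
      ((g : Module.End F K) x)))
    rw [unit_inv_apply]
  set a : K := (g : Module.End F K) 1 with ha_def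
  have ha : a ≠ 0 := by
    intro h0
    have : (g : Module.End F K) 1 = (g : Module.End F K) 0 := by rw [← ha_def, h0, map_zero]
    exact one_ne_zero (unit_injective g this)
  have star : ∀ k x : K, (g : Module.End F K) (k * x) * a = (g : Module.End F K) k * (g : Module.End F K) x := by
    intro k x
    by_cases hk : k = 0
    · simp [hk]
    · obtain ⟨k', hk'⟩ := key (Units.mk0 k hk)
      have h1 := hk' 1
      have h2 := hk' x
      simp only [Units.val_mk0, mul_one] at h1 h2
      rw [h2, h1, ← ha_def]
      ring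
  let σ₀ : K →ₐ[F] K :=
    { toFun := fun k => (g : Module.End F K) k * a⁻¹
      map_one' := mul_inv_cancel₀ ha
      map_mul' := fun k l => by
        have := star k l
        field_simp
        linear_combination this
      map_zero' := by simp
      map_add' := fun k l => by simp [add_mul]
      commutes' := fun c => by
        show (g : Module.End F K) (algebraMap F K c) * a⁻¹ = algebraMap F K c
        rw [Algebra.algebraMap_eq_smul_one, map_smul, ← ha_def, smul_mul_assoc, mul_inv_cancel₀ ha] }
  have hσ₀ : ∀ k, σ₀ k = (g : Module.End F K) k * a⁻¹ := fun k => rfl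
  let σ : K ≃ₐ[F] K := AlgEquiv.ofBijective σ₀
    ⟨σ₀.toRingHom.injective, Finite.surjective_of_injective σ₀.toRingHom.injective⟩
  refine ⟨(Units.mk0 a ha, σ), Subtype.ext (Units.ext (LinearMap.ext fun x => ?_))⟩
  rw [toNorm_apply]
  show a * σ₀ x = _
  rw [hσ₀, mul_comm, mul_assoc, inv_mul_cancel₀ ha, mul_one]

end aux

/-- Let F ⊆ K be finite fields with |F| = q and [K : F] = n ≥ 2, so |K| = q^n. Regard K as an n-dimensional F-vector space; the multiplications by non-zero elements of K form a cyclic subgroup of GL_F(K) of order q^n − 1 acting regularly on the non-zero vectors (a Singer group). Its normaliser in GL_F(K) has order n·(q^n − 1). -/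
theorem result {F K : Type*} [Field F] [Fintype F] [Field K] [Fintype K] [Algebra F K] (n : ℕ) (hn : 2 ≤ n) (hdim : Module.finrank F K = n) :
    Nat.card (Subgroup.normalizer (((Units.map ((Algebra.lmul F K : K →ₐ[F] Module.End F K) : K →* Module.End F K)).range : Subgroup (Module.End F K)ˣ) : Set (Module.End F K)ˣ)) = n * (Fintype.card K - 1) := by
  have h := Nat.card_congr (Equiv.ofBijective (toNorm (F := F) (K := K)) ⟨toNorm_injective, toNorm_surjective⟩)
  rw [Nat.card_prod, Nat.card_units, IsGalois.card_aut_eq_finrank, hdim, Nat.card_eq_fintype_card, mul_comm] at h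
  exact h.symm

end Cfsg.Agent.S5738
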