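import Cfsg.Statements.S5739
-- import your own Cfsg.Agent.* helpers here
import Cfsg.Agent.Helper95.Singer

set_option autoImplicit false
open Cfsg

namespace Cfsg.Agent.S5739

open Cfsg.Agent.Helper95

section aux

variable {F K : Type*} [Field F] [Field K] [Algebra F K]

lemma ne_zero_of_intertwine (g : (Module.End F K)ˣ) {k k' : K} (h0 : k ≠ 0)
    (hk : ∀ x, k * (g : Module.End F K) x = (g : Module.End F K) (k' * x)) : k' ≠ 0 := by
  rintro rfl
  have h1 := hk 1
  rw [zero_mul, map_zero] at h1
  rcases mul_eq_zero.mp h1 with h | h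
  · exact h0 h
  · have : (g : Module.End F K) 1 = (g : Module.End F K) 0 := by rw [h, map_zero]
    exact one_ne_zero (unit_injective g this)

/-- The subfield of those `k` whose multiplication map lies in the conjugate by `g` of the algebra of
multiplication maps. -/
noncomputable def conjField (g : (Module.End F K)ˣ) : IntermediateField F K :=
  Subalgebra.toIntermediateField
    { carrier := {k | ∃ k' : K, ∀ x, k * (g : Module.End F K) x = (g : Module.End F K) (k' * x)}
      mul_mem' := by
        rintro a b ⟨a', ha⟩ ⟨b', hb⟩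
        exact ⟨a' * b', fun x => by rw [mul_assoc, hb, ha, mul_assoc]⟩
      add_mem' := by
        rintro a b ⟨a', ha⟩ ⟨b', hb⟩
        exact ⟨a' + b', fun x => by rw [add_mul, ha, hb, add_mul, map_add]⟩
      algebraMap_mem' := fun c => ⟨algebraMap F K c, fun x => by
        rw [Algebra.algebraMap_eq_smul_one, smul_mul_assoc, one_mul, smul_mul_assoc, one_mul, map_smul]⟩ }
    (by
      rintro k ⟨k', hk⟩
      by_cases h0 : k = 0
      · subst h0
        rw [inv_zero]
        exact ⟨0, fun x => by simp⟩
      · have hk'0 : k' ≠ 0 := ne_zero_of_intertwine g h0 hk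
        refine ⟨k'⁻¹, fun x => ?_⟩
        have := hk (k'⁻¹ * x)
        rw [mul_inv_cancel_left₀ hk'0] at this
        rw [← this, inv_mul_cancel_left₀ h0])

lemma mem_conjField (g : (Module.End F K)ˣ) (k : K) :
    k ∈ conjField g ↔ ∃ k' : K, ∀ x, k * (g : Module.End F K) x = (g : Module.End F K) (k' * x) :=
  Iff.rfl

end aux

/-- Let F ⊆ K be finite fields with |F| = q and [K : F] = n ≥ 2, and let M ≤ GL_F(K) be the Singer group of multiplications by non-zero elements of K. If g ∈ GL_F(K) does not normalise M, then the order of M ∩ gMg⁻¹ divides q^r − 1 for some proper divisor r of n. In particular, when n is prime, that order divides q − 1. -/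
theorem result {F K : Type*} [Field F] [Fintype F] [Field K] [Fintype K] [Algebra F K] (n : ℕ) (hn : 2 ≤ n) (hdim : Module.finrank F K = n)
    (g : (Module.End F K)ˣ) (hg : ((Units.map ((Algebra.lmul F K : K →ₐ[F] Module.End F K) : K →* Module.End F K)).range).map (MulAut.conj g).toMonoidHom ≠ (Units.map ((Algebra.lmul F K : K →ₐ[F] Module.End F K) : K →* Module.End F K)).range) :
    ∃ r : ℕ, 1 ≤ r ∧ r ∣ n ∧ r < n ∧ Nat.card ↥(((Units.map ((Algebra.lmul F K : K →ₐ[F] Module.End F K) : K →* Module.End F K)).range).map (MulAut.conj g).toMonoidHom ⊓ (Units.map ((Algebra.lmul F K : K →ₐ[F] Module.End F K) : K →* Module.End F K)).range) ∣ Fintype.card F ^ r - 1 := by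
  change (singer F K).map (MulAut.conj g).toMonoidHom ≠ singer F K at hg
  change ∃ r : ℕ, 1 ≤ r ∧ r ∣ n ∧ r < n ∧
    Nat.card ↥((singer F K).map (MulAut.conj g).toMonoidHom ⊓ singer F K) ∣ Fintype.card F ^ r - 1
  have hfinEnd : Finite (Module.End F K) :=
    Finite.of_injective (fun f : Module.End F K => (f : K → K)) DFunLike.coe_injective
  set E := conjField g with hE
  refine ⟨Module.finrank F E, ?_, ?_, ?_, ?_⟩
  · exact Module.finrank_pos
  · rw [← hdim, ← Module.finrank_mul_finrank F E K]
    exact dvd_mul_right _ _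
  · apply lt_of_le_of_ne
    · rw [← hdim]
      exact Submodule.finrank_le E.toSubalgebra.toSubmodule
    · intro hr
      have htop : ∀ k : K, k ∈ E := by
        have h1 : E.toSubalgebra.toSubmodule = ⊤ :=
          Submodule.eq_top_of_finrank_eq (S := E.toSubalgebra.toSubmodule) (hr.trans hdim.symm)
        intro k
        have h2 : k ∈ E.toSubalgebra.toSubmodule := h1 ▸ Submodule.mem_top
        exact h2
      apply hg
      symm
      apply Subgroup.eq_of_le_of_card_ge
      · intro u hu
        obtain ⟨k, hk⟩ := (mem_singer_iff u).mp hu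
        rw [mem_conj_singer_iff]
        obtain ⟨k', hk'⟩ := (mem_conjField g k).mp (htop k)
        have hk'0 : k' ≠ 0 := ne_zero_of_intertwine g k.ne_zero hk'
        exact ⟨Units.mk0 k' hk'0, fun x => by rw [hk, hk']; rfl⟩
      · rw [Subgroup.card_map_of_injective (MulAut.conj g).injective]
  · let φ : (↥E)ˣ →* (Module.End F K)ˣ := (lunit F K).comp (Units.map ((algebraMap ↥E K : ↥E →+* K) : ↥E →* K))
    have hφ : Function.Injective φ :=
      lunit_injective.comp (Units.map_injective (algebraMap ↥E K).injective)
    have hle : (singer F K).map (MulAut.conj g).toMonoidHom ⊓ singer F K ≤ φ.range := by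
      rintro u ⟨hu1, hu2⟩
      obtain ⟨k, hk⟩ := (mem_singer_iff u).mp hu2
      obtain ⟨k', hk'⟩ := (mem_conj_singer_iff g u).mp hu1
      have hkE : (k : K) ∈ E := (mem_conjField g k).mpr ⟨k', fun x => by rw [← hk, hk']⟩
      refine ⟨Units.mk0 ⟨k, hkE⟩ (fun h => k.ne_zero (congrArg Subtype.val h)), ?_⟩
      apply Units.ext
      apply LinearMap.ext
      intro x
      rw [hk]
      rfl
    have h1 := Subgroup.card_dvd_of_le hle
    have h2 : Nat.card φ.range = Nat.card (↥E)ˣ :=
      (Nat.card_congr (MonoidHom.ofInjective hφ).toEquiv).symm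
    rw [h2, Nat.card_units, Module.natCard_eq_pow_finrank (K := F) (V := ↥E), Nat.card_eq_fintype_card (α := F)] at h1
    exact h1

end Cfsg.Agent.S5739
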