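import Cfsg.Statements.S5747
-- import your own Cfsg.Agent.* helpers here

set_option autoImplicit false
open Cfsg

namespace Cfsg.Agent.S5747

section aux

variable (G : Type*) {Ω : Type*} [Group G] [MulAction G Ω]

/-- The list is a base: only the identity fixes all its members. -/
def BaseL (l : List Ω) : Prop := ∀ g : G, (∀ y ∈ l, g • y = y) → g = 1

/-- The reverse of the list is irredundant: each member is moved by some element fixing all
members that come later in the list. -/
def IrredR : List Ω → Prop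
  | [] => True
  | x :: l => (∃ g : G, (∀ y ∈ l, g • y = y) ∧ g • x ≠ x) ∧ IrredR l

/-- Irredundance of a sequence as in the statement. -/
def IrrF (t : ℕ) (f : Fin t → Ω) : Prop :=
  ∀ i : Fin t, ∃ g : G, (∀ j : Fin t, j < i → g • f j = f j) ∧ g • f i ≠ f i

/-- Being a base, for a sequence as in the statement. -/
def BaseF (t : ℕ) (f : Fin t → Ω) : Prop := ∀ g : G, (∀ i : Fin t, g • f i = f i) → g = 1

lemma irredR_nil : IrredR G ([] : List Ω) := trivial

lemma irredR_cons (x : Ω) (l : List Ω) :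
    IrredR G (x :: l) ↔ (∃ g : G, (∀ y ∈ l, g • y = y) ∧ g • x ≠ x) ∧ IrredR G l := Iff.rfl

lemma irrF_iff (t : ℕ) (f : Fin t → Ω) : IrrF G t f ↔ IrredR G (List.ofFn f).reverse := by
  induction t with
  | zero =>
    simp only [List.ofFn_zero, List.reverse_nil]
    exact ⟨fun _ => trivial, fun _ i => i.elim0⟩
  | succ t ih =>
    rw [List.ofFn_succ', List.concat_eq_append, List.reverse_append, List.reverse_singleton,
      List.singleton_append, irredR_cons, ← ih]
    unfold IrrF
    rw [Fin.forall_fin_succ']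
    constructor
    · rintro ⟨h1, g, hg1, hg2⟩
      refine ⟨⟨g, ?_, hg2⟩, ?_⟩
      · intro y hy
        rw [List.mem_reverse, List.mem_ofFn] at hy
        obtain ⟨j, rfl⟩ := hy
        exact hg1 j.castSucc (Fin.castSucc_lt_last j)
      · intro i
        obtain ⟨g, hg1, hg2⟩ := h1 i
        exact ⟨g, fun j hj => hg1 j.castSucc (Fin.castSucc_lt_castSucc_iff.mpr hj), hg2⟩
    · rintro ⟨⟨g, hg1, hg2⟩, h1⟩
      refine ⟨?_, g, ?_, hg2⟩
      · intro i
        obtain ⟨g, hg1, hg2⟩ := h1 i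
        refine ⟨g, fun j hj => ?_, hg2⟩
        induction j using Fin.lastCases with
        | last =>
          exfalso
          rw [Fin.lt_def] at hj
          simp only [Fin.val_last, Fin.val_castSucc] at hj
          omega
        | cast j' => exact hg1 j' (Fin.castSucc_lt_castSucc_iff.mp hj)
      · intro j hj
        induction j using Fin.lastCases with
        | last => exact absurd hj (lt_irrefl _)
        | cast j' =>
          exact hg1 _ (by rw [List.mem_reverse, List.mem_ofFn]; exact ⟨j', rfl⟩)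

lemma baseF_iff (t : ℕ) (f : Fin t → Ω) : BaseF G t f ↔ BaseL G (List.ofFn f).reverse := by
  unfold BaseF BaseL
  refine forall_congr' fun g => ?_
  constructor
  · intro h hy
    exact h fun i => hy _ (by rw [List.mem_reverse, List.mem_ofFn]; exact ⟨i, rfl⟩)
  · intro h hi
    apply h
    intro y hy
    rw [List.mem_reverse, List.mem_ofFn] at hy
    obtain ⟨j, rfl⟩ := hy
    exact hi j

/-- Any list is of the form `(List.ofFn f).reverse`. -/
lemma exists_seq (l : List Ω) : ∃ (t : ℕ) (f : Fin t → Ω), (List.ofFn f).reverse = l ∧ t = l.length :=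
  ⟨l.reverse.length, l.reverse.get, by rw [List.ofFn_get, List.reverse_reverse], by simp⟩

variable (Ω) in
/-- Irredundant bases are preserved by reordering. -/
def Reorder : Prop :=
  ∀ (t : ℕ) (f : Fin t → Ω) (σ : Equiv.Perm (Fin t)), (BaseF G t f ∧ IrrF G t f) →
    (BaseF G t (f ∘ σ) ∧ IrrF G t (f ∘ σ))

variable (Ω) in
/-- All irredundant bases have the same size. -/
def SameSize : Prop :=
  ∀ (t t' : ℕ) (f : Fin t → Ω) (f' : Fin t' → Ω), (BaseF G t f ∧ IrrF G t f) →
    (BaseF G t' f' ∧ IrrF G t' f') → t = t'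

lemma indepF (hb : Reorder G Ω) (t : ℕ) (f : Fin t → Ω) (hB : BaseF G t f) (hI : IrrF G t f) (i : Fin t) :
    ∃ g : G, (∀ j : Fin t, j ≠ i → g • f j = f j) ∧ g • f i ≠ f i := by
  cases t with
  | zero => exact i.elim0
  | succ t =>
    obtain ⟨-, hI'⟩ := hb (t + 1) f (Equiv.swap i (Fin.last t)) ⟨hB, hI⟩
    obtain ⟨g, hg1, hg2⟩ := hI' (Fin.last t)
    simp only [Function.comp_apply, Equiv.swap_apply_right] at hg2
    refine ⟨g, fun j hj => ?_, hg2⟩
    have hlt : Equiv.swap i (Fin.last t) j < Fin.last t := by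
      apply lt_of_le_of_ne (Fin.le_last _)
      intro h
      apply hj
      have h' := congrArg (Equiv.swap i (Fin.last t)) h
      rw [Equiv.swap_apply_self, Equiv.swap_apply_right] at h'
      exact h'
    have h2 := hg1 _ hlt
    simp only [Function.comp_apply, Equiv.swap_apply_self] at h2
    exact h2

lemma indepL (hb : Reorder G Ω) (l : List Ω) (hB : BaseL G l) (hI : IrredR G l) (x : Ω) (hx : x ∈ l) :
    ∃ g : G, (∀ y ∈ l, y ≠ x → g • y = y) ∧ g • x ≠ x := by
  obtain ⟨t, f, rfl, -⟩ := exists_seq l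
  rw [← baseF_iff] at hB
  rw [← irrF_iff] at hI
  rw [List.mem_reverse, List.mem_ofFn] at hx
  obtain ⟨i, rfl⟩ := hx
  obtain ⟨g, hg1, hg2⟩ := indepF G hb t f hB hI i
  refine ⟨g, fun y hy hne => ?_, hg2⟩
  rw [List.mem_reverse, List.mem_ofFn] at hy
  obtain ⟨j, rfl⟩ := hy
  exact hg1 j (fun h => hne (by rw [h]))

lemma nodup_of_irredR : ∀ l : List Ω, IrredR G l → l.Nodup
  | [], _ => List.nodup_nil
  | x :: l, h => by
    obtain ⟨⟨g, hg1, hg2⟩, h'⟩ := h
    exact List.nodup_cons.mpr ⟨fun hx => hg2 (hg1 x hx), nodup_of_irredR l h'⟩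

/-- Each point of the set is moved by some element fixing all its other points. -/
def IndepS (S : Finset Ω) : Prop :=
  ∀ x ∈ S, ∃ g : G, (∀ y ∈ S, y ≠ x → g • y = y) ∧ g • x ≠ x

/-- The set is a base. -/
def BaseS (S : Finset Ω) : Prop := ∀ g : G, (∀ y ∈ S, g • y = y) → g = 1

lemma irredR_of_indep (A : Finset Ω) (hA : IndepS G A) :
    ∀ l : List Ω, l.Nodup → (∀ x ∈ l, x ∈ A) → IrredR G l
  | [], _, _ => trivial
  | x :: l, hnd, hsub => by
    rw [List.nodup_cons] at hnd
    refine ⟨?_, irredR_of_indep A hA l hnd.2 (fun y hy => hsub y (List.mem_cons_of_mem _ hy))⟩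
    obtain ⟨g, hg1, hg2⟩ := hA x (hsub x List.mem_cons_self)
    exact ⟨g, fun y hy => hg1 y (hsub y (List.mem_cons_of_mem _ hy)) (fun h => hnd.1 (h ▸ hy)), hg2⟩

lemma indepS_of_list [DecidableEq Ω] (hb : Reorder G Ω) (l : List Ω) (hB : BaseL G l) (hI : IrredR G l) :
    IndepS G l.toFinset ∧ BaseS G l.toFinset ∧ l.toFinset.card = l.length := by
  refine ⟨fun x hx => ?_, fun g hg => hB g (fun y hy => hg y (List.mem_toFinset.mpr hy)),
    List.toFinset_card_of_nodup (nodup_of_irredR G l hI)⟩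
  obtain ⟨g, hg1, hg2⟩ := indepL G hb l hB hI x (List.mem_toFinset.mp hx)
  exact ⟨g, fun y hy hne => hg1 y (List.mem_toFinset.mp hy) hne, hg2⟩

lemma exchange [DecidableEq Ω] (hb : Reorder G Ω) (A B : Finset Ω) (hA : IndepS G A) (hAb : BaseS G A)
    (hBb : BaseS G B) (a : Ω) (ha : a ∈ A) :
    ∃ b ∈ B, b ∉ A.erase a ∧ IndepS G (insert b (A.erase a)) ∧ BaseS G (insert b (A.erase a)) := by
  obtain ⟨g₀, hg₀1, hg₀2⟩ := hA a ha
  have hg₀ne : g₀ ≠ 1 := by
    rintro rfl
    exact hg₀2 (one_smul _ _)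
  have hex : ∃ b ∈ B, g₀ • b ≠ b := by
    by_contra hcon
    push Not at hcon
    exact hg₀ne (hBb g₀ hcon)
  obtain ⟨b, hbB, hb2⟩ := hex
  have hbA : b ∉ A.erase a := by
    intro h
    rw [Finset.mem_erase] at h
    exact hb2 (hg₀1 b h.2 h.1)
  refine ⟨b, hbB, hbA, ?_⟩
  set l₀ := (A.erase a).toList with hl₀
  have hl₀nd : l₀.Nodup := Finset.nodup_toList _
  have hl₀mem : ∀ y, y ∈ l₀ ↔ y ∈ A.erase a := fun y => Finset.mem_toList
  have hI₀ : IrredR G l₀ :=
    irredR_of_indep G A hA l₀ hl₀nd (fun x hx => Finset.mem_of_mem_erase ((hl₀mem x).mp hx))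
  have hIL : IrredR G (b :: l₀) := by
    refine ⟨⟨g₀, fun y hy => ?_, hb2⟩, hI₀⟩
    have h := (hl₀mem y).mp hy
    rw [Finset.mem_erase] at h
    exact hg₀1 y h.2 h.1
  have hLset : (b :: l₀).toFinset = insert b (A.erase a) := by
    rw [List.toFinset_cons, hl₀, Finset.toList_toFinset]
  by_cases hcase : ∀ g : G, (∀ y ∈ b :: l₀, g • y = y) → g • a = a
  · have hLb : BaseL G (b :: l₀) := by
      intro g hg
      apply hAb g
      intro y hy
      by_cases hya : y = a
      · rw [hya]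
        exact hcase g hg
      · exact hg y (List.mem_cons_of_mem _ ((hl₀mem y).mpr (Finset.mem_erase.mpr ⟨hya, hy⟩)))
    obtain ⟨h1, h2, -⟩ := indepS_of_list G hb (b :: l₀) hLb hIL
    rw [hLset] at h1 h2
    exact ⟨h1, h2⟩
  · exfalso
    push Not at hcase
    obtain ⟨g, hg1, hg2⟩ := hcase
    have hba : b ≠ a := by
      rintro rfl
      exact hg2 (hg1 b List.mem_cons_self)
    have hIL' : IrredR G (a :: b :: l₀) := ⟨⟨g, hg1, hg2⟩, hIL⟩
    have hmemA : ∀ y ∈ A, y ∈ a :: b :: l₀ := by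
      intro y hy
      by_cases hya : y = a
      · rw [hya]
        exact List.mem_cons_self
      · exact List.mem_cons_of_mem _ (List.mem_cons_of_mem _
          ((hl₀mem y).mpr (Finset.mem_erase.mpr ⟨hya, hy⟩)))
    have hLb' : BaseL G (a :: b :: l₀) := fun g' hg' => hAb g' (fun y hy => hg' y (hmemA y hy))
    obtain ⟨g', hg'1, hg'2⟩ := indepL G hb (a :: b :: l₀) hLb' hIL' b (by simp)
    have hg'one : g' = 1 := by
      apply hAb g'
      intro y hy
      have hyb : y ≠ b := by
        rintro rfl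
        exact hbA (Finset.mem_erase.mpr ⟨hba, hy⟩)
      exact hg'1 y (hmemA y hy) hyb
    exact hg'2 (by rw [hg'one, one_smul])

lemma exists_subset [DecidableEq Ω] (hb : Reorder G Ω) (B : Finset Ω) (hBb : BaseS G B) :
    ∀ (n : ℕ) (A : Finset Ω), (A \ B).card = n → IndepS G A → BaseS G A →
      ∃ A' : Finset Ω, A' ⊆ B ∧ BaseS G A' ∧ A'.card = A.card := by
  intro n
  induction n with
  | zero =>
    intro A hcard hA hAb
    exact ⟨A, Finset.sdiff_eq_empty_iff_subset.mp (Finset.card_eq_zero.mp hcard), hAb, rfl⟩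
  | succ n ih =>
    intro A hcard hA hAb
    have hne : (A \ B).Nonempty := by
      rw [← Finset.card_pos]
      omega
    obtain ⟨a, ha⟩ := hne
    have ha' := Finset.mem_sdiff.mp ha
    obtain ⟨b, hbB, hbA, h1, h2⟩ := exchange G hb A B hA hAb hBb a ha'.1
    have hcard' : (insert b (A.erase a)).card = A.card := by
      rw [Finset.card_insert_of_notMem hbA, Finset.card_erase_of_mem ha'.1]
      have := Finset.card_pos.mpr ⟨a, ha'.1⟩
      omega
    have hsd : (insert b (A.erase a)) \ B = (A \ B).erase a := by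
      ext y
      simp only [Finset.mem_sdiff, Finset.mem_insert, Finset.mem_erase]
      constructor
      · rintro ⟨rfl | ⟨h1, h2⟩, h3⟩
        · exact absurd hbB h3
        · exact ⟨h1, h2, h3⟩
      · rintro ⟨h1, h2, h3⟩
        exact ⟨Or.inr ⟨h1, h2⟩, h3⟩
    obtain ⟨A', hA'1, hA'2, hA'3⟩ := ih (insert b (A.erase a)) (by
      rw [hsd, Finset.card_erase_of_mem ha, hcard]
      rfl) h1 h2
    exact ⟨A', hA'1, hA'2, hA'3.trans hcard'⟩

lemma card_eq_of_indep [DecidableEq Ω] (hb : Reorder G Ω) (A B : Finset Ω) (hA : IndepS G A)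
    (hAb : BaseS G A) (hB : IndepS G B) (hBb : BaseS G B) : A.card = B.card := by
  obtain ⟨A', h1, h2, h3⟩ := exists_subset G hb B hBb _ A rfl hA hAb
  have hAB : A' = B := by
    apply Finset.Subset.antisymm h1
    intro x hx
    by_contra hxA
    obtain ⟨g, hg1, hg2⟩ := hB x hx
    have hg : g = 1 := h2 g (fun y hy => hg1 y (h1 hy) (fun h => hxA (h ▸ hy)))
    exact hg2 (by rw [hg, one_smul])
  rw [← h3, hAB]

open Classical in
/-- Remove the redundant members. -/
noncomputable def pruneR : List Ω → List Ω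
  | [] => []
  | x :: l => if (∃ g : G, (∀ y ∈ l, g • y = y) ∧ g • x ≠ x) then x :: pruneR l else pruneR l

lemma pruneR_fix (g : G) : ∀ l : List Ω, (∀ y ∈ pruneR G l, g • y = y) ↔ (∀ y ∈ l, g • y = y)
  | [] => Iff.rfl
  | x :: l => by
    have ih := pruneR_fix g l
    simp only [pruneR]
    split_ifs with h
    · simp only [List.forall_mem_cons]
      rw [ih]
    · rw [ih]
      simp only [List.forall_mem_cons]
      constructor
      · intro hl
        exact ⟨by_contra fun hx => h ⟨g, hl, hx⟩, hl⟩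
      · exact fun h => h.2

lemma pruneR_irred : ∀ l : List Ω, IrredR G (pruneR G l)
  | [] => trivial
  | x :: l => by
    have ih := pruneR_irred l
    simp only [pruneR]
    split_ifs with h
    · obtain ⟨g, hg1, hg2⟩ := h
      exact ⟨⟨g, (pruneR_fix G g l).mpr hg1, hg2⟩, ih⟩
    · exact ih

lemma pruneR_sublist : ∀ l : List Ω, (pruneR G l).Sublist l
  | [] => List.Sublist.slnil
  | x :: l => by
    have ih := pruneR_sublist l
    simp only [pruneR]
    split_ifs with h
    · exact ih.cons_cons x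
    · exact ih.cons x

lemma reorder_of_sameSize (h : SameSize G Ω) : Reorder G Ω := by
  rintro t f σ ⟨hB, hI⟩
  have hB' : BaseF G t (f ∘ σ) := fun g hg => hB g (fun i => by
    have := hg (σ.symm i)
    simpa using this)
  refine ⟨hB', ?_⟩
  rw [irrF_iff]
  have hBl : BaseL G (List.ofFn (f ∘ σ)).reverse := (baseF_iff G t _).mp hB'
  have hPb : BaseL G (pruneR G (List.ofFn (f ∘ σ)).reverse) :=
    fun g hg => hBl g ((pruneR_fix G g _).mp hg)
  have hPi := pruneR_irred G (List.ofFn (f ∘ σ)).reverse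
  obtain ⟨t', f', hf', ht'⟩ := exists_seq (pruneR G (List.ofFn (f ∘ σ)).reverse)
  have htt := h t t' f f' ⟨hB, hI⟩
    ⟨(baseF_iff G t' f').mpr (hf' ▸ hPb), (irrF_iff G t' f').mpr (hf' ▸ hPi)⟩
  have hlen : (pruneR G (List.ofFn (f ∘ σ)).reverse).length = (List.ofFn (f ∘ σ)).reverse.length := by
    rw [← ht', ← htt]
    simp
  have heq := (pruneR_sublist G (List.ofFn (f ∘ σ)).reverse).eq_of_length hlen
  rw [← heq]
  exact hPi

lemma sameSize_of_reorder (hb : Reorder G Ω) : SameSize G Ω := by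
  classical
  rintro t t' f f' ⟨hB, hI⟩ ⟨hB', hI'⟩
  obtain ⟨h1, h2, h3⟩ := indepS_of_list G hb _ ((baseF_iff G t f).mp hB) ((irrF_iff G t f).mp hI)
  obtain ⟨h1', h2', h3'⟩ :=
    indepS_of_list G hb _ ((baseF_iff G t' f').mp hB') ((irrF_iff G t' f').mp hI')
  have h := card_eq_of_indep G hb _ _ h1 h2 h1' h2'
  rw [h3, h3'] at h
  simpa using h

end aux

/-- Let a finite group G act on a finite set Ω. An irredundant base is a sequence of points ω₁, …, ω_t whose pointwise stabiliser is trivial and in which each ω_i is moved by some element fixing ω₁, …, ω_{i−1}. Then all irredundant bases have the same length if and only if every reordering of an irredundant base is again an irredundant base. -/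
theorem result {G Ω : Type*} [Group G] [Finite G] [MulAction G Ω] [Fintype Ω] :
    (∀ (t t' : ℕ) (f : Fin t → Ω) (f' : Fin t' → Ω), ((∀ g : G, (∀ i : Fin t, g • f i = f i) → g = 1) ∧ ∀ i : Fin t, ∃ g : G, (∀ j : Fin t, j < i → g • f j = f j) ∧ g • f i ≠ f i) → ((∀ g : G, (∀ i : Fin t', g • f' i = f' i) → g = 1) ∧ ∀ i : Fin t', ∃ g : G, (∀ j : Fin t', j < i → g • f' j = f' j) ∧ g • f' i ≠ f' i) → t = t') ↔
    (∀ (t : ℕ) (f : Fin t → Ω) (σ : Equiv.Perm (Fin t)), ((∀ g : G, (∀ i : Fin t, g • f i = f i) → g = 1) ∧ ∀ i : Fin t, ∃ g : G, (∀ j : Fin t, j < i → g • f j = f j) ∧ g • f i ≠ f i) → ((∀ g : G, (∀ i : Fin t, g • (f ∘ σ) i = (f ∘ σ) i) → g = 1) ∧ ∀ i : Fin t, ∃ g : G, (∀ j : Fin t, j < i → g • (f ∘ σ) j = (f ∘ σ) j) ∧ g • (f ∘ σ) i ≠ (f ∘ σ) i)) :=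
  ⟨fun h => reorder_of_sameSize G h, fun h => sameSize_of_reorder G h⟩

end Cfsg.Agent.S5747
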