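import Cfsg.Statements.S5754
-- import your own Cfsg.Agent.* helpers here

set_option autoImplicit false
open Cfsg

namespace Cfsg.Agent.S5754

section aux

variable {F V : Type*} [Field F] [AddCommGroup V] [Module F V]

/-- The reflection `x ↦ x - (B(x, w) / Q(w)) w` as a linear map. -/
noncomputable def reflLin (Q : QuadraticForm F V) (w : V) : V →ₗ[F] V where
  toFun x := x - ((Q w)⁻¹ * QuadraticMap.polar Q x w) • w
  map_add' x y := by
    rw [QuadraticMap.polar_add_left]
    module
  map_smul' c x := by
    simp only [QuadraticMap.polar_smul_left, RingHom.id_apply, smul_eq_mul]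
    module

lemma reflLin_apply (Q : QuadraticForm F V) (w x : V) :
    reflLin Q w x = x - ((Q w)⁻¹ * QuadraticMap.polar Q x w) • w := rfl

lemma polar_reflLin (Q : QuadraticForm F V) (w : V) (hw : Q w ≠ 0) (x : V) :
    QuadraticMap.polar Q (reflLin Q w x) w = - QuadraticMap.polar Q x w := by
  rw [reflLin_apply, QuadraticMap.polar_sub_left, QuadraticMap.polar_smul_left, QuadraticMap.polar_self]
  simp only [smul_eq_mul, nsmul_eq_mul, Nat.cast_ofNat]
  field_simp
  ring

lemma reflLin_involutive (Q : QuadraticForm F V) (w : V) (hw : Q w ≠ 0) :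
    Function.Involutive (reflLin Q w) := by
  intro x
  rw [reflLin_apply, polar_reflLin Q w hw, reflLin_apply]
  module

lemma map_reflLin (Q : QuadraticForm F V) (w : V) (hw : Q w ≠ 0) (x : V) :
    Q (reflLin Q w x) = Q x := by
  rw [reflLin_apply, sub_eq_add_neg, ← neg_smul, QuadraticMap.map_add (⇑Q), QuadraticMap.map_smul,
    QuadraticMap.polar_smul_right]
  simp only [smul_eq_mul]
  field_simp
  ring

/-- The reflection as an isometry. -/
noncomputable def reflIso (Q : QuadraticForm F V) (w : V) (hw : Q w ≠ 0) : Q.IsometryEquiv Q where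
  toLinearEquiv := LinearEquiv.ofInvolutive (reflLin Q w) (reflLin_involutive Q w hw)
  map_app' x := map_reflLin Q w hw x

lemma reflIso_apply (Q : QuadraticForm F V) (w : V) (hw : Q w ≠ 0) (x : V) :
    reflIso Q w hw x = x - ((Q w)⁻¹ * QuadraticMap.polar Q x w) • w := rfl

lemma polar_isometry (Q : QuadraticForm F V) (φ : Q.IsometryEquiv Q) (x y : V) :
    QuadraticMap.polar Q (φ x) (φ y) = QuadraticMap.polar Q x y := by
  simp only [QuadraticMap.polar, ← map_add, QuadraticMap.IsometryEquiv.map_app]

lemma key (Q : QuadraticForm F V) (hQ : Q.Anisotropic) :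
    ∀ (n : ℕ) (u u' : Fin n → V), (∀ i, Q (u i) = Q (u' i)) →
      (∀ i j, QuadraticMap.polar Q (u i) (u j) = QuadraticMap.polar Q (u' i) (u' j)) →
      ∃ φ : Q.IsometryEquiv Q, ∀ i, φ (u i) = u' i := by
  intro n
  induction n with
  | zero =>
    intro u u' _ _
    exact ⟨QuadraticMap.IsometryEquiv.refl Q, fun i => i.elim0⟩
  | succ n ih =>
    intro u u' hq hp
    obtain ⟨φ, hφ⟩ := ih (fun i => u i.castSucc) (fun i => u' i.castSucc) (fun i => hq _)
      (fun i j => hp _ _)
    by_cases h : φ (u (Fin.last n)) = u' (Fin.last n)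
    · refine ⟨φ, fun i => ?_⟩
      induction i using Fin.lastCases with
      | last => exact h
      | cast j => exact hφ j
    · have hw0 : φ (u (Fin.last n)) - u' (Fin.last n) ≠ 0 := sub_ne_zero.mpr h
      have hw : Q (φ (u (Fin.last n)) - u' (Fin.last n)) ≠ 0 := fun h0 => hw0 (hQ _ h0)
      have hqa : Q (φ (u (Fin.last n))) = Q (u' (Fin.last n)) := by
        rw [QuadraticMap.IsometryEquiv.map_app, hq]
      have hQw : Q (φ (u (Fin.last n)) - u' (Fin.last n)) =
          2 * Q (u' (Fin.last n)) - QuadraticMap.polar Q (φ (u (Fin.last n))) (u' (Fin.last n)) := by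
        rw [sub_eq_add_neg, QuadraticMap.map_add (⇑Q), QuadraticMap.map_neg, QuadraticMap.polar_neg_right, hqa]
        ring
      refine ⟨φ.trans (reflIso Q _ hw), fun i => ?_⟩
      induction i using Fin.lastCases with
      | last =>
        show reflIso Q _ hw (φ (u (Fin.last n))) = _
        rw [reflIso_apply]
        have hc : (Q (φ (u (Fin.last n)) - u' (Fin.last n)))⁻¹ *
            QuadraticMap.polar Q (φ (u (Fin.last n))) (φ (u (Fin.last n)) - u' (Fin.last n)) = 1 := by
          rw [QuadraticMap.polar_sub_right, QuadraticMap.polar_self, hqa]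
          simp only [nsmul_eq_mul, Nat.cast_ofNat]
          rw [← hQw]
          exact inv_mul_cancel₀ hw
        rw [hc, one_smul]
        abel
      | cast j =>
        show reflIso Q _ hw (φ (u j.castSucc)) = _
        rw [reflIso_apply, hφ j]
        have hc : QuadraticMap.polar Q (u' j.castSucc) (φ (u (Fin.last n)) - u' (Fin.last n)) = 0 := by
          rw [QuadraticMap.polar_sub_right, ← hφ j, polar_isometry, hφ j, hp, sub_self]
        rw [hc, mul_zero, zero_smul, sub_zero]

end aux

/-- Let V be a finite-dimensional vector space over a finite field F carrying an anisotropic quadratic form Q (Q(v) = 0 only for v = 0). Then the group of all maps v ↦ φ(v) + c, with φ an isometry of Q and c ∈ V, acts on V as a binary permutation group: given n ≥ 2 and two n-tuples u, u' of vectors such that every pair of corresponding entries of u is carried to that of u' by such a map, one such map carries u to u'. -/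
theorem result {F V : Type*} [Field F] [Finite F] [AddCommGroup V] [Module F V] [Module.Finite F V]
    (Q : QuadraticForm F V) (hQ : Q.Anisotropic) (n : ℕ) (hn : 2 ≤ n) (u u' : Fin n → V)
    (h2 : ∀ i j : Fin n, i ≠ j → ∃ (φ : Q.IsometryEquiv Q) (c : V), φ (u i) + c = u' i ∧ φ (u j) + c = u' j) :
    ∃ (φ : Q.IsometryEquiv Q) (c : V), ∀ i, φ (u i) + c = u' i := by
  have hd : ∀ i j : Fin n, Q (u i - u j) = Q (u' i - u' j) := by
    intro i j
    by_cases hij : i = j
    · subst hij; simp
    · obtain ⟨φ, c, h1, h2'⟩ := h2 i j hij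
      rw [← h1, ← h2', add_sub_add_right_eq_sub, ← map_sub, QuadraticMap.IsometryEquiv.map_app]
  let i0 : Fin n := ⟨0, by omega⟩
  have hpol : ∀ x y : V, QuadraticMap.polar Q x y = Q x + Q y - Q (x - y) := by
    intro x y
    rw [sub_eq_add_neg x y, QuadraticMap.map_add (⇑Q), QuadraticMap.map_neg, QuadraticMap.polar_neg_right]
    ring
  obtain ⟨φ, hφ⟩ := key Q hQ n (fun i => u i - u i0) (fun i => u' i - u' i0) (fun i => hd i i0)
    (fun i j => by
      rw [hpol, hpol, hd i i0, hd j i0]
      congr 1
      rw [sub_sub_sub_cancel_right, sub_sub_sub_cancel_right, hd i j])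
  refine ⟨φ, u' i0 - φ (u i0), fun i => ?_⟩
  have := hφ i
  rw [map_sub] at this
  rw [← add_sub_assoc, add_sub_right_comm, this]
  abel

end Cfsg.Agent.S5754
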