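import Cfsg.Statements.S5763

set_option autoImplicit false
open Cfsg

namespace Cfsg.Agent.S5763

/-! ### Computational layer: permutations of `{0,…,7}` as base-8 codes -/

/-- The `i`-th base-8 digit of `c`. -/
def dg (c i : ℕ) : ℕ := Nat.mod (Nat.div c (Nat.pow 8 i)) 8

theorem dg_eq (c i : ℕ) : dg c i = c / 8 ^ i % 8 := rfl

theorem dg_lt (c i : ℕ) : dg c i < 8 := Nat.mod_lt _ (by norm_num)

/-- The fixed-point-free involution `(01)(23)(45)(67)`, on naturals (through its code). -/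
def tN (n : ℕ) : ℕ := dg 14570689 n

def all8 (f : ℕ → Bool) : Bool := f 0 && f 1 && f 2 && f 3 && f 4 && f 5 && f 6 && f 7

theorem all8_iff (f : ℕ → Bool) : all8 f = true ↔ ∀ i < 8, f i = true := by
  unfold all8
  simp only [Bool.and_eq_true]
  constructor
  · rintro ⟨⟨⟨⟨⟨⟨⟨h0, h1⟩, h2⟩, h3⟩, h4⟩, h5⟩, h6⟩, h7⟩ i hi
    interval_cases i <;> assumption
  · intro h
    exact ⟨⟨⟨⟨⟨⟨⟨h 0 (by norm_num), h 1 (by norm_num)⟩, h 2 (by norm_num)⟩, h 3 (by norm_num)⟩,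
      h 4 (by norm_num)⟩, h 5 (by norm_num)⟩, h 6 (by norm_num)⟩, h 7 (by norm_num)⟩

def beqB : Bool → Bool → Bool
  | true, b => b
  | false, b => !b

theorem nbeq_iff (a b : ℕ) : Nat.beq a b = true ↔ a = b :=
  ⟨Nat.eq_of_beq_eq_true, fun h => h ▸ Nat.beq_refl a⟩

theorem beqB_iff (a b : Bool) : beqB a b = true ↔ (a = true ↔ b = true) := by
  cases a <;> cases b <;> simp [beqB]

/-- Codes of 24 involutions of the standard Sylow 2-subgroup. -/
def cands : List ℕ := [16434817, 16434376, 16406152, 14599816, 16434369, 14570689, 11789505, 9925825,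
  14570010, 11788826, 9925146, 14569555, 11788371, 9924691, 6852524, 5017068, 6823845, 4988389,
  2206526, 2177406, 371511, 342391, 16433690, 16433235]

noncomputable def anyC (f : ℕ → Bool) (l : List ℕ) : Bool :=
  List.rec false (fun h _ ih => f h || ih) l

theorem anyC_iff (f : ℕ → Bool) (l : List ℕ) : anyC f l = true ↔ ∃ h ∈ l, f h = true := by
  induction l with
  | nil => simp [anyC]
  | cons a l ih =>
    have : anyC f (a :: l) = (f a || anyC f l) := rfl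
    rw [this, Bool.or_eq_true, ih]
    simp

/-- Code of the inverse of the permutation with code `c`. -/
def invc (c : ℕ) : ℕ :=
  Nat.add (Nat.mul 1 (Nat.pow 8 (dg c 1))) (Nat.add (Nat.mul 2 (Nat.pow 8 (dg c 2)))
    (Nat.add (Nat.mul 3 (Nat.pow 8 (dg c 3))) (Nat.add (Nat.mul 4 (Nat.pow 8 (dg c 4)))
      (Nat.add (Nat.mul 5 (Nat.pow 8 (dg c 5))) (Nat.add (Nat.mul 6 (Nat.pow 8 (dg c 6)))
        (Nat.mul 7 (Nat.pow 8 (dg c 7))))))))

def invOK (c ci : ℕ) : Bool := all8 fun i => Nat.beq (dg ci (dg c i)) i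

def cA (c ci h : ℕ) : Bool :=
  all8 fun i => Nat.beq (dg c (dg h (dg ci (tN (dg c i))))) (tN (dg c (dg h i)))

def q4 (n : ℕ) : ℕ := Nat.div n 4

theorem q4_eq (n : ℕ) : q4 n = n / 4 := rfl

def cB (c h : ℕ) : Bool :=
  all8 fun i => beqB (Nat.beq (q4 (dg c (dg h i))) (q4 (dg c (dg h 0))))
    (Nat.beq (q4 (dg c i)) (q4 (dg c 0)))

noncomputable def chk2 (c ci : ℕ) : Bool :=
  invOK c ci && anyC (fun h => cA c ci h && cB c h) cands

noncomputable def chk (c : ℕ) : Bool := chk2 c (invc c)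

noncomputable def packF (l : List ℕ) : ℕ := List.rec 0 (fun a _ ih => Nat.add a (Nat.mul 8 ih)) l

noncomputable def elemB (a : ℕ) (l : List ℕ) : Bool := List.rec false (fun b _ ih => Nat.beq a b || ih) l

theorem elemB_iff (a : ℕ) (l : List ℕ) : elemB a l = true ↔ a ∈ l := by
  induction l with
  | nil => simp [elemB]
  | cons b l ih =>
    have : elemB a (b :: l) = (Nat.beq a b || elemB a l) := rfl
    rw [this, Bool.or_eq_true, ih, nbeq_iff]
    simp

noncomputable def go (k : ℕ) : List ℕ → Bool :=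
  Nat.rec (fun l => chk (packF l)) (fun _ ih l => all8 fun a => elemB a l || ih (a :: l)) k

theorem go_sound : ∀ (l' l : List ℕ), go l'.length l = true → (∀ a ∈ l', a < 8) →
    (l'.reverse ++ l).Nodup → chk (packF (l'.reverse ++ l)) = true := by
  intro l'
  induction l' with
  | nil =>
    intro l h _ _
    have h0 : go ([] : List ℕ).length l = chk (packF l) := rfl
    rw [h0] at h
    simpa using h
  | cons a l'' ih =>
    intro l h hlt hnd
    have hstep : go (a :: l'').length l = all8 fun b => elemB b l || go l''.length (b :: l) := rfl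
    rw [hstep, all8_iff] at h
    have ha := h a (hlt a (by simp))
    have hnd' : (l''.reverse ++ a :: l).Nodup := by
      simpa [List.reverse_cons, List.append_assoc] using hnd
    have hnot : elemB a l = false := by
      rw [Bool.eq_false_iff, Ne, elemB_iff]
      intro hmem
      have := List.nodup_append.mp hnd'
      exact (List.nodup_cons.mp this.2.1).1 hmem
    rw [hnot, Bool.false_or] at ha
    have := ih (a :: l) ha (fun b hb => hlt b (by simp [hb])) hnd'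
    simpa [List.reverse_cons, List.append_assoc] using this

set_option maxRecDepth 100000 in
theorem go7 : go 7 [7] = true := by decide +kernel

/-! ### The standard Sylow 2-subgroup -/

/-- `(01)(23)(45)(67)` on `Fin 8`. -/
def tF (i : Fin 8) : Fin 8 := ⟨tN i.val, dg_lt _ _⟩

theorem tF_spec : ∀ i : Fin 8, tF (tF i) = i ∧ (tF i).val / 2 = i.val / 2 ∧ (tF i).val ≠ i.val := by
  decide

/-- Permutations commuting with `(01)(23)(45)(67)` and preserving the partition `{0123 | 4567}`. -/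
def P0 : Subgroup (Equiv.Perm (Fin 8)) where
  carrier := {σ | (∀ i, σ (tF i) = tF (σ i)) ∧
    (∀ i j, (σ i).val / 4 = (σ j).val / 4 ↔ i.val / 4 = j.val / 4)}
  mul_mem' := by
    rintro a b ⟨ha1, ha2⟩ ⟨hb1, hb2⟩
    refine ⟨fun i => ?_, fun i j => ?_⟩
    · simp only [Equiv.Perm.mul_apply, hb1, ha1]
    · simp only [Equiv.Perm.mul_apply]
      rw [ha2, hb2]
  one_mem' := ⟨fun _ => rfl, fun _ _ => Iff.rfl⟩
  inv_mem' := by
    rintro a ⟨ha1, ha2⟩
    refine ⟨fun i => ?_, fun i j => ?_⟩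
    · apply a.injective
      rw [ha1]
      simp
    · have := ha2 (a⁻¹ i) (a⁻¹ j)
      rw [show a (a⁻¹ i) = i from a.apply_symm_apply i,
        show a (a⁻¹ j) = j from a.apply_symm_apply j] at this
      exact this.symm

theorem mem_P0 (σ : Equiv.Perm (Fin 8)) : σ ∈ P0 ↔ (∀ i, σ (tF i) = tF (σ i)) ∧
    (∀ i j, (σ i).val / 4 = (σ j).val / 4 ↔ i.val / 4 = j.val / 4) := Iff.rfl

/-- Layer 3: a permutation commuting with `t` and fixing every pair is an involution. -/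
theorem layer3 (ρ : Equiv.Perm (Fin 8)) (h1 : ∀ i, ρ (tF i) = tF (ρ i))
    (h2 : ∀ i, (ρ i).val / 2 = i.val / 2) : ∀ i, ρ (ρ i) = i := by
  intro i
  obtain ⟨t1, t2, t3⟩ := tF_spec i
  have hi := h2 i
  have : (ρ i).val = i.val ∨ (ρ i).val = (tF i).val := by omega
  rcases this with h | h
  · have e : ρ i = i := Fin.ext h
    rw [e, e]
  · have e : ρ i = tF i := Fin.ext h
    rw [e, h1, e, t1]

/-- Layer 2: a permutation commuting with `t` and fixing both blocks squares to one fixing every pair. -/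
theorem layer2 (τ : Equiv.Perm (Fin 8)) (h1 : ∀ i, τ (tF i) = tF (τ i))
    (h2 : ∀ i, (τ i).val / 4 = i.val / 4) : ∀ i, (τ (τ i)).val / 2 = i.val / 2 := by
  intro i
  obtain ⟨t1, t2, t3⟩ := tF_spec i
  obtain ⟨s1, s2, s3⟩ := tF_spec (τ i)
  have b1 := h2 i
  have b2 := h2 (τ i)
  by_cases hc : (τ i).val / 2 = i.val / 2
  · have : (τ i).val = i.val ∨ (τ i).val = (tF i).val := by omega
    rcases this with h | h
    · have e : τ i = i := Fin.ext h
      rw [e, e]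
    · have e : τ i = tF i := Fin.ext h
      rw [e, h1, e, t1]
  · have n1 : (τ (τ i)).val ≠ (τ i).val := by
      intro h
      have e : τ (τ i) = τ i := Fin.ext h
      have e' : τ i = i := τ.injective e
      rw [e'] at hc
      exact hc rfl
    have n2 : (τ (τ i)).val ≠ (tF (τ i)).val := by
      intro h
      have e : τ (τ i) = tF (τ i) := Fin.ext h
      have e2 : τ (tF (τ i)) = τ i := by rw [h1, e, s1]
      have e3 : tF (τ i) = i := τ.injective e2
      have e4 : (tF (τ i)).val = i.val := congrArg Fin.val e3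
      omega
    have l1 := (τ i).isLt
    have l2 := (τ (τ i)).isLt
    have l3 := i.isLt
    have l4 := (tF (τ i)).isLt
    omega

/-- Layer 1: the square of an element of `P0` fixes both blocks. -/
theorem layer1 (σ : Equiv.Perm (Fin 8)) (h : σ ∈ P0) : ∀ i, (σ (σ i)).val / 4 = i.val / 4 := by
  intro i
  have := h.2 (σ i) i
  have l1 := (σ i).isLt
  have l2 := (σ (σ i)).isLt
  have l3 := i.isLt
  omega

theorem pow8 (σ : Equiv.Perm (Fin 8)) (h : σ ∈ P0) : σ ^ 8 = 1 := by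
  have c1 : ∀ i, (σ * σ) (tF i) = tF ((σ * σ) i) := fun i => by
    simp only [Equiv.Perm.mul_apply, h.1]
  have c2 : ∀ i, ((σ * σ) * (σ * σ)) (tF i) = tF (((σ * σ) * (σ * σ)) i) := fun i => by
    simp only [Equiv.Perm.mul_apply, h.1]
  have k1 := layer1 σ h
  have k2 := layer2 (σ * σ) c1 k1
  have k3 := layer3 ((σ * σ) * (σ * σ)) c2 k2
  have e : σ ^ (2 * 2 * 2) = ((σ * σ) * (σ * σ)) * ((σ * σ) * (σ * σ)) := by
    rw [pow_mul, pow_mul, pow_two, pow_two, pow_two]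
  change σ ^ (2 * 2 * 2) = 1
  rw [e]
  ext i
  rw [Equiv.Perm.mul_apply, k3]
  rfl

theorem isP : IsPGroup 2 P0 := fun g => ⟨3, Subtype.ext (by simpa using pow8 g.1 g.2)⟩

/-! ### Linking the computation with permutations -/

theorem cands_key : ∀ h ∈ cands, (∀ i < 8, dg h (dg h i) = i) ∧ (∀ i < 8, dg h (tN i) = tN (dg h i)) ∧
    (∀ i < 8, ∀ j < 8, (dg h i / 4 = dg h j / 4 ↔ i / 4 = j / 4)) ∧ (∃ i < 8, dg h i ≠ i) := by
  decide +kernel

theorem cand_spec (h : ℕ) (hh : h ∈ cands) : ∃ hP : Equiv.Perm (Fin 8), hP ∈ P0 ∧ hP ≠ 1 ∧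
    ∀ i : Fin 8, (hP i).val = dg h i.val := by
  obtain ⟨k1, k2, k3, i, hi, hne⟩ := cands_key h hh
  refine ⟨Function.Involutive.toPerm (fun i : Fin 8 => (⟨dg h i.val, dg_lt _ _⟩ : Fin 8))
    (fun i => Fin.ext (k1 i.val i.isLt)),
    ⟨fun i => Fin.ext (k2 i.val i.isLt), fun i j => k3 i.val i.isLt j.val j.isLt⟩, ?_, fun _ => rfl⟩
  intro h1
  apply hne
  exact congrArg (fun σ : Equiv.Perm (Fin 8) => (σ ⟨i, hi⟩).val) h1

theorem chk_sound (y : Equiv.Perm (Fin 8)) (c : ℕ) (hc : ∀ i : Fin 8, dg c i.val = (y i).val)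
    (h : chk c = true) : ∃ hP ∈ P0, hP ≠ 1 ∧ y * hP * y⁻¹ ∈ P0 := by
  unfold chk chk2 at h
  rw [Bool.and_eq_true, anyC_iff] at h
  obtain ⟨hinv, hcode, hmem, hAB⟩ := h
  rw [Bool.and_eq_true] at hAB
  obtain ⟨hA, hB⟩ := hAB
  unfold invOK at hinv
  rw [all8_iff] at hinv
  unfold cA at hA
  rw [all8_iff] at hA
  unfold cB at hB
  rw [all8_iff] at hB
  obtain ⟨hP, hP0, hne, hval⟩ := cand_spec hcode hmem
  have hc0 : dg c 0 = (y 0).val := hc 0
  have hval0 : (hP 0).val = dg hcode 0 := hval 0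
  refine ⟨hP, hP0, hne, ?_, ?_⟩
  · intro j
    have e1 : y (y⁻¹ j) = j := y.apply_symm_apply j
    have e2 : y (y⁻¹ (tF j)) = tF j := y.apply_symm_apply (tF j)
    show y (hP (y⁻¹ (tF j))) = tF (y (hP (y⁻¹ j)))
    apply Fin.ext
    have inv_i' : dg (invc c) (y (y⁻¹ (tF j))).val = (y⁻¹ (tF j)).val := by
      have := hinv (y⁻¹ (tF j)).val (y⁻¹ (tF j)).isLt
      rw [nbeq_iff, hc] at this
      exact this
    have a := hA (y⁻¹ j).val (y⁻¹ j).isLt
    rw [nbeq_iff, hc (y⁻¹ j), e1] at a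
    have e3 : tN j.val = (y (y⁻¹ (tF j))).val := by rw [e2]; rfl
    rw [e3, inv_i', ← hval (y⁻¹ (tF j)), ← hval (y⁻¹ j), hc, hc] at a
    exact a
  · intro j k
    have e1 : y (y⁻¹ j) = j := y.apply_symm_apply j
    have e2 : y (y⁻¹ k) = k := y.apply_symm_apply k
    show (y (hP (y⁻¹ j))).val / 4 = (y (hP (y⁻¹ k))).val / 4 ↔ j.val / 4 = k.val / 4
    have b1 := hB (y⁻¹ j).val (y⁻¹ j).isLt
    have b2 := hB (y⁻¹ k).val (y⁻¹ k).isLt
    rw [beqB_iff, nbeq_iff, nbeq_iff, ← hval, hc, hc, e1, ← hval0, hc, hc0] at b1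
    rw [beqB_iff, nbeq_iff, nbeq_iff, ← hval, hc, hc, e2, ← hval0, hc, hc0] at b2
    simp only [q4_eq] at b1 b2
    have l1 := (y (hP (y⁻¹ j))).isLt
    have l2 := (y (hP (y⁻¹ k))).isLt
    have l3 := (y (hP 0)).isLt
    have l4 := j.isLt
    have l5 := k.isLt
    have l6 := (y 0).isLt
    omega

theorem dg_pack (a0 a1 a2 a3 a4 a5 a6 a7 : ℕ) (h0 : a0 < 8) (h1 : a1 < 8) (h2 : a2 < 8) (h3 : a3 < 8)
    (h4 : a4 < 8) (h5 : a5 < 8) (h6 : a6 < 8) (h7 : a7 < 8) :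
    dg (packF [a0, a1, a2, a3, a4, a5, a6, a7]) 0 = a0 ∧ dg (packF [a0, a1, a2, a3, a4, a5, a6, a7]) 1 = a1 ∧
    dg (packF [a0, a1, a2, a3, a4, a5, a6, a7]) 2 = a2 ∧ dg (packF [a0, a1, a2, a3, a4, a5, a6, a7]) 3 = a3 ∧
    dg (packF [a0, a1, a2, a3, a4, a5, a6, a7]) 4 = a4 ∧ dg (packF [a0, a1, a2, a3, a4, a5, a6, a7]) 5 = a5 ∧
    dg (packF [a0, a1, a2, a3, a4, a5, a6, a7]) 6 = a6 ∧ dg (packF [a0, a1, a2, a3, a4, a5, a6, a7]) 7 = a7 := by
  have e : packF [a0, a1, a2, a3, a4, a5, a6, a7] =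
      a0 + 8 * (a1 + 8 * (a2 + 8 * (a3 + 8 * (a4 + 8 * (a5 + 8 * (a6 + 8 * (a7 + 8 * 0))))))) := rfl
  rw [e]
  simp only [dg_eq]
  norm_num
  refine ⟨?_, ?_, ?_, ?_, ?_, ?_, ?_, ?_⟩ <;> omega

theorem good_of_left (p y : Equiv.Perm (Fin 8)) (hp : p ∈ P0)
    (h : ∃ hP ∈ P0, hP ≠ 1 ∧ (p * y) * hP * (p * y)⁻¹ ∈ P0) :
    ∃ hP ∈ P0, hP ≠ 1 ∧ y * hP * y⁻¹ ∈ P0 := by
  obtain ⟨hP, h1, h2, h3⟩ := h
  refine ⟨hP, h1, h2, ?_⟩
  have := P0.mul_mem (P0.mul_mem (P0.inv_mem hp) h3) hp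
  convert this using 1
  group

theorem good_of_fix (y : Equiv.Perm (Fin 8)) (h7 : y 7 = 7) :
    ∃ hP ∈ P0, hP ≠ 1 ∧ y * hP * y⁻¹ ∈ P0 := by
  have h7' : (7 : ℕ) = (y 7).val := by rw [h7]; rfl
  have hnd : ([(y 6).val, (y 5).val, (y 4).val, (y 3).val, (y 2).val, (y 1).val,
      (y 0).val].reverse ++ [(y 7).val]).Nodup := by
    simp [Fin.val_inj, y.injective.eq_iff]
  rw [← h7'] at hnd
  have hs := go_sound [(y 6).val, (y 5).val, (y 4).val, (y 3).val, (y 2).val, (y 1).val, (y 0).val] [7] go7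
    (by
      intro a ha
      simp only [List.mem_cons, List.not_mem_nil, or_false] at ha
      rcases ha with rfl | rfl | rfl | rfl | rfl | rfl | rfl <;> exact Fin.isLt _)
    hnd
  obtain ⟨d0, d1, d2, d3, d4, d5, d6, d7⟩ := dg_pack (y 0).val (y 1).val (y 2).val (y 3).val (y 4).val
    (y 5).val (y 6).val 7 (Fin.isLt _) (Fin.isLt _) (Fin.isLt _) (Fin.isLt _) (Fin.isLt _) (Fin.isLt _)
    (Fin.isLt _) (by norm_num)
  refine chk_sound y _ ?_ hs
  intro i
  fin_cases i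
  exacts [d0, d1, d2, d3, d4, d5, d6, d7.trans h7']

theorem trans_key : ∀ v < 7, ∃ h ∈ cands, dg h v = 7 := by decide +kernel

theorem main (y : Equiv.Perm (Fin 8)) : ∃ hP ∈ P0, hP ≠ 1 ∧ y * hP * y⁻¹ ∈ P0 := by
  by_cases h7 : y 7 = 7
  · exact good_of_fix y h7
  · have hv : (y 7).val < 7 := by
      have h1 := (y 7).isLt
      have h2 : (y 7).val ≠ 7 := fun h => h7 (Fin.ext h)
      omega
    obtain ⟨h, hh, hd⟩ := trans_key _ hv
    obtain ⟨p, hp0, -, hpv⟩ := cand_spec h hh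
    apply good_of_left p y hp0
    apply good_of_fix
    apply Fin.ext
    rw [Equiv.Perm.mul_apply, hpv, hd]
    rfl

/-- In the symmetric group on 8 letters any two Sylow 2-subgroups have non-trivial intersection: for a Sylow 2-subgroup H and every element x, H ∩ xHx⁻¹ ≠ 1. -/
theorem result (H : Sylow 2 (Equiv.Perm (Fin 8))) (x : Equiv.Perm (Fin 8)) :
    (H : Subgroup (Equiv.Perm (Fin 8))) ⊓ (H : Subgroup (Equiv.Perm (Fin 8))).map (MulAut.conj x).toMonoidHom ≠ ⊥ := by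
  have : Fact (Nat.Prime 2) := ⟨Nat.prime_two⟩
  obtain ⟨Q, hQ⟩ := IsPGroup.exists_le_sylow isP
  obtain ⟨g, hg⟩ := MulAction.exists_smul_eq (Equiv.Perm (Fin 8)) Q H
  have hmem : ∀ p ∈ P0, g * p * g⁻¹ ∈ (H : Subgroup (Equiv.Perm (Fin 8))) := by
    intro p hp
    rw [← hg, Sylow.coe_subgroup_smul]
    exact Subgroup.smul_mem_pointwise_smul p (MulAut.conj g) _ (hQ hp)
  obtain ⟨h, hh, hne, hc⟩ := main (g⁻¹ * x * g)
  intro hbot
  have hmem2 : g * ((g⁻¹ * x * g) * h * (g⁻¹ * x * g)⁻¹) * g⁻¹ ∈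
      (H : Subgroup (Equiv.Perm (Fin 8))) ⊓
        (H : Subgroup (Equiv.Perm (Fin 8))).map (MulAut.conj x).toMonoidHom := by
    refine Subgroup.mem_inf.mpr ⟨hmem _ hc, ?_⟩
    rw [Subgroup.mem_map]
    refine ⟨g * h * g⁻¹, hmem _ hh, ?_⟩
    simp only [MulEquiv.coe_toMonoidHom, MulAut.conj_apply]
    group
  rw [hbot, Subgroup.mem_bot] at hmem2
  apply hne
  have e : h = (g⁻¹ * x * g)⁻¹ * g⁻¹ * (g * ((g⁻¹ * x * g) * h * (g⁻¹ * x * g)⁻¹) * g⁻¹) * g *
      (g⁻¹ * x * g) := by group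
  rw [e, hmem2]
  group

end Cfsg.Agent.S5763
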