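import Cfsg.Statements.S5798
import Cfsg.Agent.Helper93.TransvMax
import Cfsg.Agent.Helper71.C2Low
import Cfsg.Agent.S5886
import Cfsg.Agent.Helper71.T4Main
import Cfsg.Agent.Helper97.SFMax
import Cfsg.Agent.Helper98.SympMax
import Cfsg.Agent.Helper71.M6Asm
import Cfsg.Agent.Helper71.Q6Main
import Cfsg.Agent.Helper94.S6UA
import Cfsg.Agent.Helper57.S6UB
-- import your own Cfsg.Agent.* helpers here

set_option autoImplicit false
open Cfsg

namespace Cfsg.Agent.S5798

/-- Maximal subgroups of SL_6(q) of geometric type, for a finite field F with q elements (any q); p denotes the characteristic. Each of the following subgroups of GL_6(F), intersected with SL_6(F), is a maximal subgroup of SL_6(F): (1) the stabiliser of any proper non-zero subspace of F^6; (2) for q ≥ 5, the stabiliser of any decomposition of F^6 into 6 independent 1-spaces; (3) for q ≥ 3, the stabiliser of any decomposition of F^6 into 3 independent 2-spaces; (4) the stabiliser of any decomposition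 of F^6 into 2 independent 3-spaces; (5) the normaliser of any degree-2 subfield of the 6 × 6 matrix algebra over F (a commutative subalgebra of dimension 2 in which every non-zero element is invertible); (6) the normaliser of any degree-3 subfield of the 6 × 6 matrix algebra over F (a commutative subalgebra of dimension 3 in which every non-zero element is invertible); (7) for q ≥ 3, the stabiliser of any tensor decomposition F^6 = F^2 ⊗ F^3 (a conjugate of the Kronecker-product subgroup); (8) every subfield group (a conjugate of GL_6(F₀) times the scalars of F) for a subfield F₀ with |F| = |F₀|^r, r prime; (9) for q odd, the group of similarities of any non-degenerate quadratic form on F^6 (either sign); (10) the group of similarities of any non-degenerate symplectic form on F^6; (11) the group of similarities of any non-degenerate unitary form on F^6 (these exist exactly when q is a square). -/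
theorem result {F : Type*} [Field F] [Fintype F] :
    (∀ W : Submodule F (Fin 6 → F), W ≠ ⊥ → W ≠ ⊤ → Cfsg.Geo.IsMaximalIn (Cfsg.Geo.specialLinear (Fin 6) F) (Cfsg.Geo.subspaceStabilizer W ⊓ Cfsg.Geo.specialLinear (Fin 6) F)) ∧
    (5 ≤ Fintype.card F → ∀ D : Fin 6 → Submodule F (Fin 6 → F), Cfsg.Geo.IsMDecomposition 1 D → Cfsg.Geo.IsMaximalIn (Cfsg.Geo.specialLinear (Fin 6) F) (Cfsg.Geo.decompositionStabilizer D ⊓ Cfsg.Geo.specialLinear (Fin 6) F)) ∧
    (3 ≤ Fintype.card F → ∀ D : Fin 3 → Submodule F (Fin 6 → F), Cfsg.Geo.IsMDecomposition 2 D → Cfsg.Geo.IsMaximalIn (Cfsg.Geo.specialLinear (Fin 6) F) (Cfsg.Geo.decompositionStabilizer D ⊓ Cfsg.Geo.specialLinear (Fin 6) F)) ∧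
    (∀ D : Fin 2 → Submodule F (Fin 6 → F), Cfsg.Geo.IsMDecomposition 3 D → Cfsg.Geo.IsMaximalIn (Cfsg.Geo.specialLinear (Fin 6) F) (Cfsg.Geo.decompositionStabilizer D ⊓ Cfsg.Geo.specialLinear (Fin 6) F)) ∧
    (∀ K : Subalgebra F (Matrix (Fin 6) (Fin 6) F), Cfsg.Geo.IsFieldSubalgebra 2 K → Cfsg.Geo.IsMaximalIn (Cfsg.Geo.specialLinear (Fin 6) F) (Cfsg.Geo.subalgebraNormalizer K ⊓ Cfsg.Geo.specialLinear (Fin 6) F)) ∧
    (∀ K : Subalgebra F (Matrix (Fin 6) (Fin 6) F), Cfsg.Geo.IsFieldSubalgebra 3 K → Cfsg.Geo.IsMaximalIn (Cfsg.Geo.specialLinear (Fin 6) F) (Cfsg.Geo.subalgebraNormalizer K ⊓ Cfsg.Geo.specialLinear (Fin 6) F)) ∧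
    (3 ≤ Fintype.card F → ∀ (e : Fin 6 ≃ Fin 2 × Fin 3) (P : Matrix.GeneralLinearGroup (Fin 6) F), Cfsg.Geo.IsMaximalIn (Cfsg.Geo.specialLinear (Fin 6) F) (Cfsg.Geo.tensorProductSubgroup 2 3 e P ⊓ Cfsg.Geo.specialLinear (Fin 6) F)) ∧
    (∀ (F₀ : Subfield F) (r : ℕ) (P : Matrix.GeneralLinearGroup (Fin 6) F), r.Prime → Fintype.card F = Nat.card F₀ ^ r → Cfsg.Geo.IsMaximalIn (Cfsg.Geo.specialLinear (Fin 6) F) (Cfsg.Geo.subfieldSubgroup F₀ P ⊓ Cfsg.Geo.specialLinear (Fin 6) F)) ∧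
    (Odd (Fintype.card F) → ∀ Q : (Fin 6 → F) → F, Cfsg.Geo.IsNondegenerateQuadraticForm Q → Cfsg.Geo.IsMaximalIn (Cfsg.Geo.specialLinear (Fin 6) F) (Cfsg.Geo.quadSimilarityGroup Q ⊓ Cfsg.Geo.specialLinear (Fin 6) F)) ∧
    (∀ f : (Fin 6 → F) → (Fin 6 → F) → F, Cfsg.Geo.IsSymplecticForm f → Cfsg.Geo.IsMaximalIn (Cfsg.Geo.specialLinear (Fin 6) F) (Cfsg.Geo.similarityGroup f ⊓ Cfsg.Geo.specialLinear (Fin 6) F)) ∧
    (∀ (σ : F ≃+* F) (f : (Fin 6 → F) → (Fin 6 → F) → F), Cfsg.Geo.IsUnitaryForm σ f → Cfsg.Geo.IsMaximalIn (Cfsg.Geo.specialLinear (Fin 6) F) (Cfsg.Geo.similarityGroup f ⊓ Cfsg.Geo.specialLinear (Fin 6) F)) := by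
  classical
  have c2 : ∀ {t : ℕ} (m : ℕ) (D : Fin t → Submodule F (Fin 6 → F)),
      Cfsg.Geo.IsMDecomposition m D → (m = 2 → 3 ≤ t) → m ≠ 1 →
      ¬ (m = 1 ∧ Fintype.card F ≤ 4) → ¬ (m = 2 ∧ Fintype.card F = 2) →
      Cfsg.Geo.IsMaximalIn (Cfsg.Geo.specialLinear (Fin 6) F)
        (Cfsg.Geo.decompositionStabilizer D ⊓ Cfsg.Geo.specialLinear (Fin 6) F) := by
    intro t m D hD ht3 hm1 h1 h2
    obtain ⟨P, blk, hfib, hiff⟩ := Cfsg.Agent.Helper98.C2Asm.blk_reduce m D hD
    exact Cfsg.Agent.Helper71.C2Low.c2_core_low 6 m (fun h => absurd h hm1) ht3 hD.pos hD.two_le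
      h1 h2 _ P blk hfib hiff
  refine ⟨?_, ?_, ?_, ?_, ?_, ?_, ?_, ?_, ?_, ?_, ?_⟩
  · intro W hW0 hW1
    haveI : Nontrivial (Fin 6) := Fin.nontrivial_iff_two_le.mpr (by norm_num)
    exact Cfsg.Agent.Helper93.stab_maximal W hW0 hW1
  · intro hq D hD
    obtain ⟨P, blk, hfib, hiff⟩ := Cfsg.Agent.Helper98.C2Asm.blk_reduce 1 D hD
    exact Cfsg.Agent.Helper71.M6Asm.c2_core_six 6 1 (fun _ => le_refl 6) (by norm_num) hD.pos
      hD.two_le (by rintro ⟨-, h⟩; omega) (by norm_num) _ P blk hfib hiff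
  · intro hq D hD
    exact c2 2 D hD (by norm_num) (by norm_num) (by norm_num) (by rintro ⟨-, h⟩; omega)
  · intro D hD
    exact c2 3 D hD (by norm_num) (by norm_num) (by norm_num) (by norm_num)
  · intro K hK
    exact (Cfsg.Agent.S5886.result 6 2 Nat.prime_two (by norm_num) (by norm_num) K hK).2
  · intro K hK
    exact (Cfsg.Agent.S5886.result 6 3 Nat.prime_three (by norm_num) (by norm_num) K hK).2
  · intro hq e P
    exact Cfsg.Agent.Helper71.T4Main.tensor_maximal 6 2 3 (by norm_num) (by norm_num)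
      (by rintro ⟨-, h⟩; omega) e P
  · intro F₀ r P hr hcard
    exact Cfsg.Agent.Helper97.SF.sf_maximal (by norm_num) F₀ r hr hcard P
  · intro hodd Q hQ
    exact Cfsg.Agent.Helper71.Q6Main.quad_similarity_max_six hQ hodd
      (by rw [Fintype.card_fin]; norm_num)
  · intro f hf
    have hB : Cfsg.Agent.Helper98.IsSF (LinearMap.mk₂ F f hf.bilinear.add_left
        (fun c x v => hf.bilinear.smul_left c x v) hf.bilinear.add_right
        (fun c v x => hf.bilinear.smul_right c v x)) :=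
      ⟨hf.skew, hf.alternating, fun v hv => (hf.nondegenerate v hv).1⟩
    exact Cfsg.Agent.Helper98.symp_similarity_max hB (0 : Fin 6) 1 2 (by decide) (by decide)
      (by decide)
  · intro σ f hf
    have h := Cfsg.Agent.Helper94.UF.of_unitary hf
    have hn : 5 < Fintype.card (Fin 6) := by rw [Fintype.card_fin]; norm_num
    exact Cfsg.Agent.Helper57.S6UB.unitary_sim_max6 h hn
      (fun a y₁ y₂ h1 h1' h2 h2' =>
        Cfsg.Agent.Helper94.S6UA.uf_exists_iso_both6 h hn a y₁ y₂ h1 h1' h2 h2')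
      (fun a v hva => Cfsg.Agent.Helper94.S6UA.uf_exists_iso_sum6 h hn a v hva)
      (fun a b₁ c' hbc => by
        obtain ⟨z, hzz, hz⟩ := Cfsg.Agent.Helper94.S6UA.uf_exists_aniso_crit h ![a, b₁, c']
          (by rw [Fintype.card_fin]) 1 2 hbc
        exact ⟨z, hzz, by simpa using hz 0, by simpa using hz 1, by simpa using hz 2⟩)

end Cfsg.Agent.S5798
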