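import Cfsg.Statements.S5837
import Cfsg.Agent.Helper93.TransvMax
import Cfsg.Agent.Helper71.C2Low
import Cfsg.Agent.S5886
import Cfsg.Agent.Helper71.T4Main
import Cfsg.Agent.Helper97.SFMax
import Cfsg.Agent.Helper71.QMTen
import Cfsg.Agent.Helper98.SympMax
import Cfsg.Agent.Helper94.UMax

set_option autoImplicit false
open Cfsg

namespace Cfsg.Agent.S5837

/-- Maximal subgroups of SL_10(q) of geometric type, for a finite field F with q elements (any q); p denotes the characteristic. Each of the following subgroups of GL_10(F), intersected with SL_10(F), is a maximal subgroup of SL_10(F): (1) the stabiliser of any proper non-zero subspace of F^10; (2) for q ≥ 5, the stabiliser of any decomposition of F^10 into 10 independent 1-spaces; (3) for q ≥ 3, the stabiliser of any decomposition of F^10 into 5 independent 2-spaces; (4) the stabiliser of any decomposition of F^10 into 2 independent 5-spaces; (5) the normaliser of any degree-5 subfield of the 10 × 10 matrix algebra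 over F (a commutative subalgebra of dimension 5 in which every non-zero element is invertible); (6) the normaliser of any degree-2 subfield of the 10 × 10 matrix algebra over F (a commutative subalgebra of dimension 2 in which every non-zero element is invertible); (7) for q ≥ 3, the stabiliser of any tensor decomposition F^10 = F^2 ⊗ F^5 (a conjugate of the Kronecker-product subgroup); (8) every subfield group (a conjugate of GL_10(F₀) times the scalars of F) for a subfield F₀ with |F| = |F₀|^r, r prime; (9) for q odd, the group of similarities of any non-degenerate quadratic form on F^10 (either sign); (10) the group of similarities of any non-degenerate symplectic form on F^10; (11) the group of similarities of any non-degenerate unitary form on F^10 (these exist exactly when q is a square). -/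
theorem result {F : Type*} [Field F] [Fintype F] :
    (∀ W : Submodule F (Fin 10 → F), W ≠ ⊥ → W ≠ ⊤ → Cfsg.Geo.IsMaximalIn (Cfsg.Geo.specialLinear (Fin 10) F) (Cfsg.Geo.subspaceStabilizer W ⊓ Cfsg.Geo.specialLinear (Fin 10) F)) ∧
    (5 ≤ Fintype.card F → ∀ D : Fin 10 → Submodule F (Fin 10 → F), Cfsg.Geo.IsMDecomposition 1 D → Cfsg.Geo.IsMaximalIn (Cfsg.Geo.specialLinear (Fin 10) F) (Cfsg.Geo.decompositionStabilizer D ⊓ Cfsg.Geo.specialLinear (Fin 10) F)) ∧
    (3 ≤ Fintype.card F → ∀ D : Fin 5 → Submodule F (Fin 10 → F), Cfsg.Geo.IsMDecomposition 2 D → Cfsg.Geo.IsMaximalIn (Cfsg.Geo.specialLinear (Fin 10) F) (Cfsg.Geo.decompositionStabilizer D ⊓ Cfsg.Geo.specialLinear (Fin 10) F)) ∧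
    (∀ D : Fin 2 → Submodule F (Fin 10 → F), Cfsg.Geo.IsMDecomposition 5 D → Cfsg.Geo.IsMaximalIn (Cfsg.Geo.specialLinear (Fin 10) F) (Cfsg.Geo.decompositionStabilizer D ⊓ Cfsg.Geo.specialLinear (Fin 10) F)) ∧
    (∀ K : Subalgebra F (Matrix (Fin 10) (Fin 10) F), Cfsg.Geo.IsFieldSubalgebra 5 K → Cfsg.Geo.IsMaximalIn (Cfsg.Geo.specialLinear (Fin 10) F) (Cfsg.Geo.subalgebraNormalizer K ⊓ Cfsg.Geo.specialLinear (Fin 10) F)) ∧
    (∀ K : Subalgebra F (Matrix (Fin 10) (Fin 10) F), Cfsg.Geo.IsFieldSubalgebra 2 K → Cfsg.Geo.IsMaximalIn (Cfsg.Geo.specialLinear (Fin 10) F) (Cfsg.Geo.subalgebraNormalizer K ⊓ Cfsg.Geo.specialLinear (Fin 10) F)) ∧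
    (3 ≤ Fintype.card F → ∀ (e : Fin 10 ≃ Fin 2 × Fin 5) (P : Matrix.GeneralLinearGroup (Fin 10) F), Cfsg.Geo.IsMaximalIn (Cfsg.Geo.specialLinear (Fin 10) F) (Cfsg.Geo.tensorProductSubgroup 2 5 e P ⊓ Cfsg.Geo.specialLinear (Fin 10) F)) ∧
    (∀ (F₀ : Subfield F) (r : ℕ) (P : Matrix.GeneralLinearGroup (Fin 10) F), r.Prime → Fintype.card F = Nat.card F₀ ^ r → Cfsg.Geo.IsMaximalIn (Cfsg.Geo.specialLinear (Fin 10) F) (Cfsg.Geo.subfieldSubgroup F₀ P ⊓ Cfsg.Geo.specialLinear (Fin 10) F)) ∧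
    (Odd (Fintype.card F) → ∀ Q : (Fin 10 → F) → F, Cfsg.Geo.IsNondegenerateQuadraticForm Q → Cfsg.Geo.IsMaximalIn (Cfsg.Geo.specialLinear (Fin 10) F) (Cfsg.Geo.quadSimilarityGroup Q ⊓ Cfsg.Geo.specialLinear (Fin 10) F)) ∧
    (∀ f : (Fin 10 → F) → (Fin 10 → F) → F, Cfsg.Geo.IsSymplecticForm f → Cfsg.Geo.IsMaximalIn (Cfsg.Geo.specialLinear (Fin 10) F) (Cfsg.Geo.similarityGroup f ⊓ Cfsg.Geo.specialLinear (Fin 10) F)) ∧
    (∀ (σ : F ≃+* F) (f : (Fin 10 → F) → (Fin 10 → F) → F), Cfsg.Geo.IsUnitaryForm σ f → Cfsg.Geo.IsMaximalIn (Cfsg.Geo.specialLinear (Fin 10) F) (Cfsg.Geo.similarityGroup f ⊓ Cfsg.Geo.specialLinear (Fin 10) F)) := by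
  classical
  have c2 : ∀ {t : ℕ} (m : ℕ) (D : Fin t → Submodule F (Fin 10 → F)),
      Cfsg.Geo.IsMDecomposition m D → (m = 2 → 3 ≤ t) →
      ¬ (m = 1 ∧ Fintype.card F ≤ 4) → ¬ (m = 2 ∧ Fintype.card F = 2) →
      Cfsg.Geo.IsMaximalIn (Cfsg.Geo.specialLinear (Fin 10) F)
        (Cfsg.Geo.decompositionStabilizer D ⊓ Cfsg.Geo.specialLinear (Fin 10) F) := by
    intro t m D hD ht3 h1 h2
    obtain ⟨P, blk, hfib, hiff⟩ := Cfsg.Agent.Helper98.C2Asm.blk_reduce m D hD
    exact Cfsg.Agent.Helper71.C2Low.c2_core_low 10 m (fun _ => by norm_num) ht3 hD.pos hD.two_le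
      h1 h2 _ P blk hfib hiff
  refine ⟨?_, ?_, ?_, ?_, ?_, ?_, ?_, ?_, ?_, ?_, ?_⟩
  · intro W hW0 hW1
    haveI : Nontrivial (Fin 10) := Fin.nontrivial_iff_two_le.mpr (by norm_num)
    exact Cfsg.Agent.Helper93.stab_maximal W hW0 hW1
  · intro hq D hD
    exact c2 1 D hD (by norm_num) (by rintro ⟨-, h⟩; omega) (by norm_num)
  · intro hq D hD
    exact c2 2 D hD (by norm_num) (by norm_num) (by rintro ⟨-, h⟩; omega)
  · intro D hD
    exact c2 5 D hD (by norm_num) (by norm_num) (by norm_num)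
  · intro K hK
    exact (Cfsg.Agent.S5886.result 10 5 Nat.prime_five (by norm_num) (by norm_num) K hK).2
  · intro K hK
    exact (Cfsg.Agent.S5886.result 10 2 Nat.prime_two (by norm_num) (by norm_num) K hK).2
  · intro hq e P
    exact Cfsg.Agent.Helper71.T4Main.tensor_maximal 10 2 5 (by norm_num) (by norm_num)
      (by rintro ⟨-, h⟩; omega) e P
  · intro F₀ r P hr hcard
    exact Cfsg.Agent.Helper97.SF.sf_maximal (by norm_num) F₀ r hr hcard P
  · intro hodd Q hQ
    exact Cfsg.Agent.Helper71.QMTen.quad_similarity_max_ten hQ hodd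
      (by rw [Fintype.card_fin]; norm_num)
  · intro f hf
    have hB : Cfsg.Agent.Helper98.IsSF (LinearMap.mk₂ F f hf.bilinear.add_left
        (fun c x v => hf.bilinear.smul_left c x v) hf.bilinear.add_right
        (fun c v x => hf.bilinear.smul_right c v x)) :=
      ⟨hf.skew, hf.alternating, fun v hv => (hf.nondegenerate v hv).1⟩
    exact Cfsg.Agent.Helper98.symp_similarity_max hB (0 : Fin 10) 1 2 (by decide) (by decide)
      (by decide)
  · intro σ f hf
    exact (Cfsg.Agent.Helper94.UF.of_unitary hf).unitary_sim_max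
      (by rw [Fintype.card_fin]; norm_num)

end Cfsg.Agent.S5837
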