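import Cfsg.Statements.S5893
import Cfsg.Agent.Helper40.SL2EvenMax

set_option autoImplicit false
open Cfsg

namespace Cfsg.Agent.S5893

/-- Let F be a finite field of even order q ≥ 4 and let M be a maximal subgroup of PSL₂(F) (= SL₂(F) = PGL₂(F)). Then one of the following holds: |M| = q(q − 1) (the stabiliser of a point of the projective line, elementary abelian of order q extended by a cyclic group of order q − 1); M is dihedral of order 2(q − 1); M is dihedral of order 2(q + 1); or q = q₀^r for a prime r with q₀ ≠ 2 and M ≅ PSL₂(F₀) with |F₀| = q₀. -/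
theorem result {F : Type*} [Field F] [Fintype F]
    (heven : Even (Fintype.card F)) (h4 : 4 ≤ Fintype.card F) (M : Subgroup (Matrix.ProjectiveSpecialLinearGroup (Fin 2) F)) (hM : IsCoatom M) :
    Nat.card M = Fintype.card F * (Fintype.card F - 1) ∨
    Nonempty (M ≃* DihedralGroup (Fintype.card F - 1)) ∨
    Nonempty (M ≃* DihedralGroup (Fintype.card F + 1)) ∨
    (∃ (F₀ : Type) (_ : Field F₀) (_ : Fintype F₀) (r : ℕ), r.Prime ∧ Fintype.card F₀ ≠ 2 ∧
        Fintype.card F = Fintype.card F₀ ^ r ∧ Nonempty (M ≃* Matrix.ProjectiveSpecialLinearGroup (Fin 2) F₀)) := by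
  classical
  have h2 : (2 : F) = 0 := by
    apply Cfsg.Agent.Helper40.PSL2Sub.two_eq_zero_of_ringChar
    rw [FiniteField.even_card_iff_char_two]
    exact Nat.even_iff.mp heven
  have hinj := Cfsg.Agent.Helper40.PSL2Sub.pr_injective_of_two h2
  have hsurj : Function.Surjective (Cfsg.Agent.Helper44.pr (F := F)) :=
    Cfsg.Agent.Helper44.pr_surjective
  obtain ⟨e, -⟩ : ∃ e : Matrix.SpecialLinearGroup (Fin 2) F ≃*
      Matrix.ProjectiveSpecialLinearGroup (Fin 2) F, ∀ g, e g = Cfsg.Agent.Helper44.pr g :=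
    ⟨MulEquiv.ofBijective Cfsg.Agent.Helper44.pr ⟨hinj, hsurj⟩, fun g => rfl⟩
  have hco : IsCoatom (M.map e.symm.toMonoidHom) :=
    ((MulEquiv.mapSubgroup e.symm).isCoatom_iff M).mpr hM
  obtain ⟨f⟩ : Nonempty (M ≃* M.map e.symm.toMonoidHom) := ⟨e.symm.subgroupMap M⟩
  have hcard : Nat.card (M.map e.symm.toMonoidHom) = Nat.card M :=
    Nat.card_congr f.symm.toEquiv
  rcases Cfsg.Agent.Helper40.SL2Even.coatom_list h2 h4 _ hco with
    h | ⟨⟨d⟩⟩ | ⟨⟨d⟩⟩ | ⟨F₀, i1, i2, r, hr, h2', hF, ⟨d⟩⟩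
  · left; rw [← hcard]; exact h
  · right; left; exact ⟨f.trans d⟩
  · right; right; left; exact ⟨f.trans d⟩
  · right; right; right; exact ⟨F₀, i1, i2, r, hr, h2', hF, ⟨f.trans d⟩⟩

end Cfsg.Agent.S5893
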