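import Cfsg.Statements.S5895
import Cfsg.Agent.Helper98.Affine

set_option autoImplicit false
open Cfsg

namespace Cfsg.Agent.S5895

/-- For every prime p and every d ≥ 2 there is a finite group G with a maximal subgroup M of index p^d and a maximal subgroup H of M that is not second maximal in G: some maximal subgroup K of G contains H without H being maximal in K. (One may take G the affine group V ⋊ GL(V) of V = 𝔽_p^d, M = GL(V), H the stabiliser in M of a line W of V, and K = V ⋊ H, with H < W ⋊ H < K.) So the prime-index hypothesis in the second-maximality criterion cannot be relaxed to prime-power index. -/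
theorem result (p d : ℕ) (hp : p.Prime)
    (hd : 2 ≤ d) :
    ∃ (G : Type) (_ : Group G) (_ : Finite G) (M H K : Subgroup G), IsCoatom M ∧ M.index = p ^ d ∧ H ≤ M ∧
      IsCoatom (H.subgroupOf M) ∧ IsCoatom K ∧ H ≤ K ∧ ¬ IsCoatom (H.subgroupOf K) := by
  have : Fact p.Prime := ⟨hp⟩
  have hfin : Finite ((Fin d → ZMod p) ≃ᵃ[ZMod p] (Fin d → ZMod p)) :=
    Finite.of_injective (fun e => (e : (Fin d → ZMod p) → (Fin d → ZMod p))) DFunLike.coe_injective
  have hw₀ : (Pi.single (⟨0, by omega⟩ : Fin d) (1 : ZMod p) : Fin d → ZMod p) ≠ 0 := by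
    intro h
    have := congrFun h ⟨0, by omega⟩
    simp at this
  have hu : ∀ c : ZMod p, (Pi.single (⟨1, by omega⟩ : Fin d) (1 : ZMod p) : Fin d → ZMod p) ≠
      c • (Pi.single (⟨0, by omega⟩ : Fin d) (1 : ZMod p) : Fin d → ZMod p) := by
    intro c h
    have := congrFun h ⟨1, by omega⟩
    simp [Fin.ext_iff] at this
  obtain ⟨M, H, J, h1, h2, h3, h4, h5, h6, h7⟩ :=
    Cfsg.Agent.Helper98.exists_not_second_maximal_affine (K := ZMod p) _ _ hw₀ hu
  refine ⟨(Fin d → ZMod p) ≃ᵃ[ZMod p] (Fin d → ZMod p), inferInstance, hfin, M, H, J, h1, ?_, h3, h4,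
    h5, h6, h7⟩
  rw [h2, Nat.card_eq_fintype_card, Fintype.card_pi_const, ZMod.card]

end Cfsg.Agent.S5895
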