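import Cfsg.Statements.S5896
import Cfsg.Agent.Helper98.SL2Local

set_option autoImplicit false
open Cfsg

namespace Cfsg.Agent.S5896

/-- Finite perfect groups have solvable maximal subgroups of unbounded derived length: for every d there is a finite perfect group G (equal to its commutator subgroup) with a solvable maximal subgroup H whose derived length exceeds d, i.e. the d-th term of the derived series of H is non-trivial. (Take the derived subgroup of a wreath product S ≀ A₅ with S solvable of large derived length, and H the preimage of a maximal subgroup of A₅.) -/
theorem result (d : ℕ) :
    ∃ (G : Type) (_ : Group G) (_ : Finite G) (H : Subgroup G), commutator G = ⊤ ∧ IsCoatom H ∧ Group.IsSolvable H ∧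
      derivedSeries H d ≠ ⊥ := by
  exact Cfsg.Agent.Helper98.exists_perfect_solvable_maximal d

end Cfsg.Agent.S5896
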