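import Cfsg.Statements.S5902
import Cfsg.Agent.Helper98.Compl

set_option autoImplicit false
open Cfsg

namespace Cfsg.Agent.S5902

/-- Let G be a finite group, X a subgroup whose own subgroup lattice is complemented, and suppose X lies in exactly one maximal subgroup M of G. Then every subgroup H of G not contained in the normal core of M has a complement in the subgroup lattice of G (some C with H ⊔ C = G and H ⊓ C = 1); in particular the subgroup lattice of G modulo the normal core of M is complemented. -/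
theorem result {G : Type*} [Group G] [Finite G] (X M : Subgroup G)
    (hK : ComplementedLattice (Subgroup X))
    (hM : IsCoatom M) (hXM : X ≤ M) (huniq : ∀ M' : Subgroup G, IsCoatom M' → X ≤ M' → M' = M) :
    (∀ H : Subgroup G, ¬ H ≤ M.normalCore → ∃ C : Subgroup G, H ⊔ C = ⊤ ∧ H ⊓ C = ⊥) ∧
    ComplementedLattice (Subgroup (G ⧸ M.normalCore)) := by
  have hA : ∀ H : Subgroup G, ¬ H ≤ M.normalCore → ∃ C : Subgroup G, H ⊔ C = ⊤ ∧ H ⊓ C = ⊥ := by
    intro H hH
    obtain ⟨h, hhH, hh⟩ := SetLike.not_le_iff_exists.mp hH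
    have hh' : ¬ ∀ b : G, b * h * b⁻¹ ∈ M := hh
    push Not at hh'
    obtain ⟨b, hb⟩ := hh'
    apply Cfsg.Agent.Helper98.exists_compl_of_conj b H
    apply Cfsg.Agent.Helper98.exists_compl_of_interval ⊥ X M bot_le
      (Cfsg.Agent.Helper98.interval_bot_of_complementedLattice X hK) huniq
    · intro hle
      apply hb
      apply hle
      exact ⟨h, hhH, rfl⟩
    · exact inf_bot_eq _
  refine ⟨hA, ⟨fun Hbar => ?_⟩⟩
  by_cases hbot : Hbar = ⊥
  · exact ⟨⊤, hbot ▸ isCompl_bot_top⟩
  · set π := QuotientGroup.mk' M.normalCore with hπ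
    have hπs : Function.Surjective π := QuotientGroup.mk'_surjective _
    have hnot : ¬ Hbar.comap π ≤ M.normalCore := by
      intro hle
      apply hbot
      rw [eq_bot_iff]
      intro x hx
      obtain ⟨g, rfl⟩ := hπs x
      have hg : g ∈ M.normalCore := hle hx
      rw [Subgroup.mem_bot]
      exact (QuotientGroup.eq_one_iff g).mpr hg
    obtain ⟨C, hC1, hC2⟩ := hA _ hnot
    refine ⟨C.map π, ?_⟩
    rw [isCompl_iff, disjoint_iff, codisjoint_iff]
    constructor
    · rw [eq_bot_iff]
      rintro x ⟨hx1, hx2⟩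
      obtain ⟨c, hc, rfl⟩ := hx2
      have hcH : c ∈ Hbar.comap π := hx1
      have : c ∈ Hbar.comap π ⊓ C := ⟨hcH, hc⟩
      rw [hC2, Subgroup.mem_bot] at this
      rw [this, map_one]
      exact Subgroup.one_mem _
    · have h1 : (Hbar.comap π ⊔ C).map π = ⊤ := by
        rw [hC1, ← MonoidHom.range_eq_map, MonoidHom.range_eq_top]
        exact hπs
      rw [Subgroup.map_sup, Subgroup.map_comap_eq_self_of_surjective hπs] at h1
      exact h1

end Cfsg.Agent.S5902
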