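import Cfsg.Statements.S5903
import Cfsg.Agent.Helper98.Compl

set_option autoImplicit false
open Cfsg

namespace Cfsg.Agent.S5903

/-- Let G be a finite simple group, X a subgroup lying in exactly one maximal subgroup M of G, and N a subgroup of prime order with N ≤ X that is central in M. If the subgroup lattice of X/N is complemented, then the subgroup lattice of G is complemented. -/
theorem result {G : Type*} [Group G] [Finite G] [IsSimpleGroup G] (X M N : Subgroup G)
    (hM : IsCoatom M) (hXM : X ≤ M) (huniq : ∀ M' : Subgroup G, IsCoatom M' → X ≤ M' → M' = M)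
    (hNX : N ≤ X) (hN : (Nat.card N).Prime) (hcen : ∀ n ∈ N, ∀ m ∈ M, m * n = n * m)
    [(N.subgroupOf X).Normal] (hK : ComplementedLattice (Subgroup (X ⧸ N.subgroupOf X))) :
    ComplementedLattice (Subgroup G) := by
  refine ⟨fun H => ?_⟩
  by_cases hbot : H = ⊥
  · exact ⟨⊤, hbot ▸ isCompl_bot_top⟩
  by_cases htop : H = ⊤
  · exact ⟨⊥, htop ▸ isCompl_top_bot⟩
  have hNbot : N ≠ ⊥ := by
    intro h
    rw [h, Subgroup.card_bot] at hN
    exact Nat.not_prime_one hN
  have key : ∃ g : G, ¬ H.map (MulAut.conj g).toMonoidHom ≤ M ∧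
      ¬ N ≤ H.map (MulAut.conj g).toMonoidHom := by
    by_contra hcon
    push Not at hcon
    -- dichotomy for every conjugating element
    have hall : ∀ y : G, (∀ n ∈ N, y⁻¹ * n * y ∈ H) ∨
        (∀ n ∈ N, ∀ h ∈ H, h * (y⁻¹ * n * y) = (y⁻¹ * n * y) * h) := by
      intro y
      by_cases hy : H.map (MulAut.conj y).toMonoidHom ≤ M
      · right
        intro n hn h hh
        have hm : y * h * y⁻¹ ∈ M := hy ⟨h, hh, rfl⟩
        have hc := hcen n hn _ hm
        calc h * (y⁻¹ * n * y) = y⁻¹ * ((y * h * y⁻¹) * n) * y := by group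
          _ = y⁻¹ * (n * (y * h * y⁻¹)) * y := by rw [hc]
          _ = (y⁻¹ * n * y) * h := by group
      · left
        intro n hn
        have := hcon y hy hn
        rw [Subgroup.mem_map_equiv] at this
        simpa [MulAut.conj_symm_apply] using this
    set A : Set G := {z | ∃ y, ∃ n ∈ N, z = y⁻¹ * n * y ∧ ∀ n' ∈ N, y⁻¹ * n' * y ∈ H} with hA
    set B : Set G := {z | ∃ y, ∃ n ∈ N, z = y⁻¹ * n * y ∧
      ∀ n' ∈ N, ∀ h ∈ H, h * (y⁻¹ * n' * y) = (y⁻¹ * n' * y) * h} with hB
    have hLH : Subgroup.closure A ≤ H := by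
      rw [Subgroup.closure_le]
      rintro z ⟨y, n, hn, rfl, hy⟩
      exact hy n hn
    have hL'c : Subgroup.closure B ≤ Subgroup.centralizer (H : Set G) := by
      rw [Subgroup.closure_le]
      rintro z ⟨y, n, hn, rfl, hy⟩
      rw [SetLike.mem_coe, Subgroup.mem_centralizer_iff]
      intro h hh
      exact hy n hn h hh
    have hsup : Subgroup.closure A ⊔ Subgroup.closure B = ⊤ := by
      have hnc : Subgroup.normalClosure (N : Set G) = ⊤ := by
        rcases (Subgroup.normalClosure_normal (s := (N : Set G))).eq_bot_or_eq_top with h | h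
        · exfalso
          apply hNbot
          rw [eq_bot_iff, ← h]
          exact Subgroup.le_normalClosure
        · exact h
      rw [← Subgroup.closure_union, eq_top_iff, ← hnc]
      apply Subgroup.closure_mono
      intro z hz
      rw [Group.mem_conjugatesOfSet_iff] at hz
      obtain ⟨n, hn, hnz⟩ := hz
      rw [isConj_iff] at hnz
      obtain ⟨c, rfl⟩ := hnz
      rcases hall c⁻¹ with h | h
      · left
        exact ⟨c⁻¹, n, hn, by rw [inv_inv], h⟩
      · right
        exact ⟨c⁻¹, n, hn, by rw [inv_inv], h⟩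
    have hnorm : (Subgroup.closure B).Normal := by
      rw [← Subgroup.normalizer_eq_top_iff, eq_top_iff, ← hsup]
      refine sup_le ?_ Subgroup.le_normalizer
      refine hLH.trans (le_trans ?_ (Subgroup.centralizer_le_normalizer _))
      rw [Subgroup.le_centralizer_iff]
      exact hL'c
    rcases hnorm.eq_bot_or_eq_top with h | h
    · rw [h, sup_bot_eq] at hsup
      exact htop (eq_top_iff.mpr (hsup ▸ hLH))
    · have hHc : H ≤ Subgroup.center G := by
        rw [← Subgroup.centralizer_univ, ← Subgroup.coe_top, ← h, Subgroup.le_centralizer_iff]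
        exact hL'c
      rcases (inferInstance : (Subgroup.center G).Normal).eq_bot_or_eq_top with hc | hc
      · exact hbot (eq_bot_iff.mpr (hc ▸ hHc))
      · have hHn : H.Normal := by
          refine ⟨fun n hn g => ?_⟩
          have : n ∈ Subgroup.center G := hc ▸ Subgroup.mem_top n
          rw [Subgroup.mem_center_iff] at this
          rw [this g, mul_inv_cancel_right]
          exact hn
        rcases hHn.eq_bot_or_eq_top with h' | h'
        · exact hbot h'
        · exact htop h'
  obtain ⟨g, hg1, hg2⟩ := key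
  have hex : ∃ C, H ⊔ C = ⊤ ∧ H ⊓ C = ⊥ := by
    apply Cfsg.Agent.Helper98.exists_compl_of_conj g H
    apply Cfsg.Agent.Helper98.exists_compl_of_interval N X M hNX
      (Cfsg.Agent.Helper98.interval_of_complementedLattice_quotient X N hNX hK) huniq _ hg1
    have : Fact (Nat.card N).Prime := ⟨hN⟩
    rcases Subgroup.eq_bot_or_eq_top_of_prime_card
      ((H.map (MulAut.conj g).toMonoidHom).subgroupOf N) with h | h
    · rw [Subgroup.subgroupOf_eq_bot] at h
      exact disjoint_iff.mp h
    · rw [Subgroup.subgroupOf_eq_top] at h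
      exact absurd h hg2
  obtain ⟨C, h1, h2⟩ := hex
  exact ⟨C, isCompl_iff.mpr ⟨disjoint_iff.mpr h2, codisjoint_iff.mpr h1⟩⟩

end Cfsg.Agent.S5903
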