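import Cfsg.Statements.S5904
-- import your own Cfsg.Agent.* helpers here

set_option autoImplicit false
open scoped Pointwise
open Cfsg

namespace Cfsg.Agent.S5904

/-- Let Ω be a finite set with more than two elements and O ⊆ Ω a subset with exactly as many elements as its complement. Then the setwise stabilizer of O in the symmetric group on Ω is not a maximal subgroup (it is properly contained in the stabilizer of the partition {O, Ω ∖ O}, which is proper). -/
theorem result {Ω : Type*} [Fintype Ω] [DecidableEq Ω] (hΩ : 2 < Fintype.card Ω)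
    (O : Set Ω) (hO : Nat.card O = Nat.card ↥Oᶜ) :
    ¬ IsCoatom (MulAction.stabilizer (Equiv.Perm Ω) O) := by
  classical
  intro hco
  -- O has at least two elements
  have hcard : Nat.card O + Nat.card ↥Oᶜ = Fintype.card Ω := by
    rw [Nat.card_coe_set_eq, Nat.card_coe_set_eq, Set.ncard_add_ncard_compl, Nat.card_eq_fintype_card]
  have h2 : 2 ≤ Nat.card O := by omega
  have h2' : 1 ≤ Nat.card ↥Oᶜ := by omega
  obtain ⟨x, x', hx, hx', hxx'⟩ : ∃ x x', x ∈ O ∧ x' ∈ O ∧ x ≠ x' := by
    rw [Nat.card_coe_set_eq] at h2
    have := (Set.one_lt_ncard_iff (s := O) (Set.toFinite O)).mp h2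
    obtain ⟨a, b, ha, hb, hab⟩ := this
    exact ⟨a, b, ha, hb, hab⟩
  obtain ⟨y, hy⟩ : ∃ y, y ∈ Oᶜ := by
    rw [Nat.card_coe_set_eq] at h2'
    have : Oᶜ.Nonempty := by
      rw [← Set.ncard_pos (Set.toFinite _)]
      exact h2'
    exact this
  -- the stabilizer of the partition {O, Oᶜ}
  let P : Subgroup (Equiv.Perm Ω) :=
    { carrier := {g | g • O = O ∨ g • O = Oᶜ}
      mul_mem' := by
        intro g h hg hh
        rcases hh with hh | hh
        · rcases hg with hg | hg
          · left; rw [mul_smul, hh, hg]
          · right; rw [mul_smul, hh, hg]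
        · rcases hg with hg | hg
          · right; rw [mul_smul, hh, Set.smul_set_compl, hg]
          · left; rw [mul_smul, hh, Set.smul_set_compl, hg, compl_compl]
      one_mem' := by left; simp
      inv_mem' := by
        intro g hg
        rcases hg with hg | hg
        · left
          rw [inv_smul_eq_iff, hg]
        · right
          rw [inv_smul_eq_iff, Set.smul_set_compl, hg, compl_compl] }
  have hSP : MulAction.stabilizer (Equiv.Perm Ω) O ≤ P := by
    intro g hg
    left
    exact hg
  -- a permutation swapping O and Oᶜ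
  obtain ⟨e⟩ : Nonempty ({x // x ∈ O} ≃ {x // x ∈ Oᶜ}) := by
    have : Finite O := Set.toFinite O |>.to_subtype
    have : Finite ↥Oᶜ := Set.toFinite Oᶜ |>.to_subtype
    exact (Finite.card_eq).mp hO
  have hg : e.extendSubtype • O = Oᶜ := by
    ext z
    constructor
    · rintro ⟨w, hw, rfl⟩
      exact e.extendSubtype_mem w hw
    · intro hz
      refine ⟨e.extendSubtype⁻¹ z, ?_, by simp⟩
      by_contra hn
      have := e.extendSubtype_not_mem _ hn
      simp at this
      exact hz this
  have hne : MulAction.stabilizer (Equiv.Perm Ω) O ≠ P := by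
    intro h
    have hmem : e.extendSubtype ∈ P := Or.inr hg
    rw [← h, MulAction.mem_stabilizer_iff, hg] at hmem
    have : x ∈ Oᶜ := by rw [hmem]; exact hx
    exact this hx
  have hPtop : P = ⊤ := hco.2 P (lt_of_le_of_ne hSP hne)
  have hswap : Equiv.swap x y ∈ P := hPtop ▸ Subgroup.mem_top _
  have hyO : y ∈ Equiv.swap x y • O := ⟨x, hx, by simp⟩
  have hx'O : x' ∈ Equiv.swap x y • O := by
    refine ⟨x', hx', ?_⟩
    have hx'y : x' ≠ y := fun h => hy (h ▸ hx')
    simp [Equiv.swap_apply_of_ne_of_ne hxx'.symm hx'y]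
  rcases hswap with h | h
  · rw [h] at hyO
    exact hy hyO
  · rw [h] at hx'O
    exact hx'O hx'

end Cfsg.Agent.S5904
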