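import Cfsg.Statements.S5914
import Cfsg.Agent.Helper98.CharSimple

set_option autoImplicit false
open Cfsg

namespace Cfsg.Agent.S5914

/-- A non-trivial finite group G is characteristically simple (its only characteristic subgroups are 1 and G) if and only if G is isomorphic to a direct power S^n (n ≥ 1) of some simple group S (possibly cyclic of prime order). -/
theorem result {G : Type*} [Group G] [Finite G] [Nontrivial G] :
    (∀ H : Subgroup G, H.Characteristic → H = ⊥ ∨ H = ⊤) ↔
    ∃ (S : Type) (_ : Group S) (_ : IsSimpleGroup S) (n : ℕ), 1 ≤ n ∧ Nonempty (G ≃* (Fin n → S)) := by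
  constructor
  · intro hG
    obtain ⟨N, k, hNs, hk, ⟨e⟩⟩ := Cfsg.Agent.Helper98.exists_pi_of_char_simple hG
    obtain ⟨S, hS, ⟨eS⟩⟩ := Cfsg.Agent.Helper98.exists_small_group N
    exact ⟨S, hS, eS.symm.isSimpleGroup, k, hk, ⟨e.trans (MulEquiv.piCongrRight fun _ => eS)⟩⟩
  · rintro ⟨S, hS, hSs, n, hn, ⟨e⟩⟩ H hH
    have hK := Cfsg.Agent.Helper98.pi_char_eq_bot_or_top (H.map e.toMonoidHom) (by
      rintro β f ⟨h, hh, rfl⟩
      have h1 := (Subgroup.characteristic_iff_le_comap.mp hH) (e.trans (β.trans e.symm)) hh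
      refine ⟨_, h1, ?_⟩
      simp)
    rcases hK with h | h
    · left
      exact (Subgroup.map_eq_bot_iff_of_injective H e.injective).mp h
    · right
      rw [eq_top_iff] at h ⊢
      intro x _
      obtain ⟨y, hy, hxy⟩ := h (Subgroup.mem_top (e x))
      have hyx : y = x := e.injective hxy
      rwa [← hyx]

end Cfsg.Agent.S5914
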