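import Cfsg.Statements.S5939
import Cfsg.Agent.Helper5.DkMax2
import Cfsg.Agent.S0804

set_option autoImplicit false
open Cfsg

namespace Cfsg.Agent.S5939

open Cfsg.Agent.Helper5

/-- PSL2(q) has a maximal subgroup A5 when q = p ≡ ±1 (mod 10), or q = p² with p ≡ ±3 (mod 10). -/
theorem result {F : Type*} [Field F] [Fintype F] (p : ℕ) [Fact p.Prime] [CharP F p] (h : (Fintype.card F = p ∧ (p % 10 = 1 ∨ p % 10 = 9)) ∨ (Fintype.card F = p ^ 2 ∧ (p % 10 = 3 ∨ p % 10 = 7))) : ∃ H : Subgroup (Matrix.ProjectiveSpecialLinearGroup (Fin 2) F), IsCoatom H ∧ Nonempty (H ≃* alternatingGroup (Fin 5)) := by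
  classical
  have hpp : p.Prime := Fact.out
  have hpodd : Odd p := by
    rw [Nat.odd_iff]
    rcases h with ⟨-, h | h⟩ | ⟨-, h | h⟩ <;> omega
  have hodd : Odd (Fintype.card F) := by
    rcases h with ⟨h, -⟩ | ⟨h, -⟩
    · rw [h]
      exact hpodd
    · rw [h]
      exact hpodd.pow
  have h2 : (2 : F) ≠ 0 := two_ne_zero_of_odd hodd
  have h5d : 5 ∣ Fintype.card F * (Fintype.card F ^ 2 - 1) := by
    rcases h with ⟨hq, h⟩ | ⟨hq, h⟩
    · rw [hq]
      exact five_dvd_of_mod p hpp.pos (by omega)
    · rw [hq]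
      apply five_dvd_of_mod _ (Nat.one_le_pow _ _ hpp.pos)
      have h3 : p % 5 = 3 ∨ p % 5 = 2 := by omega
      rw [sq_mod_five]
      rcases h3 with h3 | h3 <;> rw [h3] <;> simp
  obtain ⟨H, ⟨e⟩⟩ := (Cfsg.Agent.S0804.result (F := F) rfl).2 h5d
  have hcH : Nat.card H = 60 := by
    rw [Nat.card_congr e.toEquiv, card_alt_fin_five]
  have hG := two_mul_card_PSL2 h2
  have hGbig : 360 ≤ Nat.card (Matrix.ProjectiveSpecialLinearGroup (Fin 2) F) := by
    have hq9 : 9 ≤ Fintype.card F := by
      rcases h with ⟨hq, h⟩ | ⟨hq, h⟩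
      · rw [hq]
        have := hpp.two_le
        omega
      · rw [hq]
        have h3 : 3 ≤ p := by
          have := hpp.two_le
          omega
        nlinarith
    have h81 : 81 ≤ Fintype.card F ^ 2 := by nlinarith
    have : 9 * 80 ≤ Fintype.card F * (Fintype.card F ^ 2 - 1) := Nat.mul_le_mul hq9 (by omega)
    omega
  have hnm : ¬ MetabLaw H := fun h =>
    not_metab_A5 (h.of_injective e.symm.toMonoidHom e.symm.injective)
  refine ⟨H, ⟨?_, ?_⟩, ⟨e⟩⟩
  · intro htop
    have : Nat.card H = Nat.card (Matrix.ProjectiveSpecialLinearGroup (Fin 2) F) := by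
      rw [htop, Subgroup.card_top]
    omega
  · intro M hHM
    have hlt := card_lt_of_subgroup_lt hHM
    have hdvd := Subgroup.card_dvd_of_le hHM.le
    rcases dickson_laws p M with ⟨h1, -⟩ | ⟨h1, -⟩ | ⟨⟨e'⟩⟩ | ⟨⟨e'⟩⟩ | ⟨⟨e'⟩⟩ |
      ⟨K, _, _, m, hKm, hK⟩
    · exact absurd (h1.of_le hHM.le) hnm
    · exact absurd (h1.of_le hHM.le) hnm
    · have : Nat.card M = 12 := by rw [Nat.card_congr e'.toEquiv, card_alt_fin_four]
      omega
    · have : Nat.card M = 24 := by rw [Nat.card_congr e'.toEquiv, card_perm_fin_four]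
      omega
    · have : Nat.card M = 60 := by rw [Nat.card_congr e'.toEquiv, card_alt_fin_five]
      omega
    · rcases h with ⟨hq, -⟩ | ⟨hq, h⟩
      · rw [hq] at hKm
        obtain ⟨hKp, -⟩ := (Nat.Prime.pow_eq_iff hpp).1 hKm
        exact top_of_equiv_same_card hodd (hKp.trans hq.symm) M hK
      · rw [hq] at hKm
        have hm : m ≠ 0 := by
          rintro rfl
          rw [pow_zero] at hKm
          have := hpp.two_le
          nlinarith
        have hkd : Fintype.card K ∣ p ^ 2 := by
          rw [← hKm]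
          exact dvd_pow_self _ hm
        obtain ⟨j, hj, hkj⟩ := (Nat.dvd_prime_pow hpp).1 hkd
        have hK1 : 1 < Fintype.card K := Fintype.one_lt_card
        interval_cases j
        · rw [pow_zero] at hkj
          omega
        · -- `|K| = p`
          exfalso
          rw [pow_one] at hkj
          have hKodd : Odd (Fintype.card K) := by
            rw [hkj]
            exact hpodd
          have h2K : (2 : K) ≠ 0 := two_ne_zero_of_odd hKodd
          have hcK := two_mul_card_PSL2 h2K
          rw [hkj] at hcK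
          have h5M : 5 ∣ p * (p ^ 2 - 1) := by
            rcases hK with ⟨⟨e'⟩⟩ | ⟨⟨e'⟩⟩
            · have h3 : Nat.card M = Nat.card (Matrix.ProjectiveSpecialLinearGroup (Fin 2) K) :=
                Nat.card_congr e'.toEquiv
              rw [← hcK, ← h3]
              apply Dvd.dvd.mul_left
              rw [hcH] at hdvd
              exact (by norm_num : 5 ∣ 60).trans hdvd
            · have h3 : Nat.card M = p * (p ^ 2 - 1) := by
                rw [Nat.card_congr e'.toEquiv, card_PGL2_eq, hkj]
              rw [← h3]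
              rw [hcH] at hdvd
              exact (by norm_num : 5 ∣ 60).trans hdvd
          rcases five_dvd_cases p hpp h5M with h6 | h6 | h6 <;> omega
        · exact top_of_equiv_same_card hodd (hkj.trans hq.symm) M hK

end Cfsg.Agent.S5939
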