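import Cfsg.Statements.S5940
import Cfsg.Agent.Helper5.DkMax2
import Cfsg.Agent.S0802
import Cfsg.Agent.S0803
import Cfsg.Agent.S0804

set_option autoImplicit false
open Cfsg

namespace Cfsg.Agent.S5940

open Cfsg.Agent.Helper5

/-- For a prime p ≥ 5 with p ≡ ±3 (mod 8) and p ≢ ±1 (mod 10), PSL2(p) has a maximal subgroup isomorphic to A4. -/
theorem result {F : Type*} [Field F] [Fintype F] (p : ℕ) [Fact p.Prime] (hF : Fintype.card F = p) (h5 : 5 ≤ p) (h8 : p % 8 = 3 ∨ p % 8 = 5) (h10 : p % 10 ≠ 1 ∧ p % 10 ≠ 9) : ∃ H : Subgroup (Matrix.ProjectiveSpecialLinearGroup (Fin 2) F), IsCoatom H ∧ Nonempty (H ≃* alternatingGroup (Fin 4)) := by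
  classical
  have hpp : p.Prime := Fact.out
  have : CharP F p := charP_of_card_prime p hF
  have hpodd : Odd p := by
    rw [Nat.odd_iff]
    omega
  have hodd : Odd (Fintype.card F) := by
    rw [hF]
    exact hpodd
  have h2 : (2 : F) ≠ 0 := two_ne_zero_of_odd hodd
  obtain ⟨H, ⟨e⟩⟩ := (Cfsg.Agent.S0802.result (F := F) p 1 (by rw [hF, pow_one])).2
    (by rintro ⟨rfl, -⟩; omega)
  have hcH : Nat.card H = 12 := by
    rw [Nat.card_congr e.toEquiv, card_alt_fin_four]
  have hG := two_mul_card_PSL2 h2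
  rw [hF] at hG
  have hGbig : 60 ≤ Nat.card (Matrix.ProjectiveSpecialLinearGroup (Fin 2) F) := by
    have h25 : 25 ≤ p ^ 2 := by nlinarith
    have : 5 * 24 ≤ p * (p ^ 2 - 1) := Nat.mul_le_mul h5 (by omega)
    omega
  have hn1 : ¬ CommPowLaw p H := fun h =>
    not_commPow_A4 p hpodd (h.of_injective p e.symm.toMonoidHom e.symm.injective)
  have hn2 : ¬ SqCommLaw H := fun h =>
    not_sqComm_A4 (h.of_injective e.symm.toMonoidHom e.symm.injective)
  refine ⟨H, ⟨?_, ?_⟩, ⟨e⟩⟩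
  · intro htop
    have : Nat.card H = Nat.card (Matrix.ProjectiveSpecialLinearGroup (Fin 2) F) := by
      rw [htop, Subgroup.card_top]
    omega
  · intro M hHM
    have hlt := card_lt_of_subgroup_lt hHM
    rcases dickson_laws p M with ⟨-, h1⟩ | ⟨-, h1⟩ | ⟨⟨e'⟩⟩ | ⟨⟨e'⟩⟩ | ⟨⟨e'⟩⟩ |
      ⟨K, _, _, m, hKm, hK⟩
    · exact absurd (h1.of_le p hHM.le) hn1
    · exact absurd (h1.of_le hHM.le) hn2
    · have : Nat.card M = 12 := by rw [Nat.card_congr e'.toEquiv, card_alt_fin_four]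
      omega
    · exfalso
      have h16 := (Cfsg.Agent.S0803.result (F := F) hF).1 ⟨M, ⟨e'⟩⟩
      have h : p % 16 = 3 ∨ p % 16 = 11 ∨ p % 16 = 5 ∨ p % 16 = 13 := by omega
      rw [pow_two, Nat.mul_mod] at h16
      rcases h with h | h | h | h <;> rw [h] at h16 <;> simp at h16
    · have h5d := (Cfsg.Agent.S0804.result (F := F) hF).1 ⟨M, ⟨e'⟩⟩
      rcases five_dvd_cases p hpp h5d with rfl | h | h
      · apply Subgroup.eq_top_of_card_eq
        rw [Nat.card_congr e'.toEquiv, card_alt_fin_five]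
        have h120 : 5 * (5 ^ 2 - 1) = 120 := by norm_num
        rw [h120] at hG
        omega
      · exfalso
        have := Nat.odd_iff.1 hpodd
        omega
      · exfalso
        have := Nat.odd_iff.1 hpodd
        omega
    · rw [hF] at hKm
      obtain ⟨hKp, -⟩ := (Nat.Prime.pow_eq_iff hpp).1 hKm
      exact top_of_equiv_same_card hodd (hKp.trans hF.symm) M hK

end Cfsg.Agent.S5940
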