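import Cfsg.Statements.S5947

set_option autoImplicit false
open Cfsg

namespace Cfsg.Agent.S5947

universe u

section restrict

variable {F : Type*} [Field F] {V : Type*} [AddCommGroup V] [Module F V]

/-- restriction of a subgroup of `GL(V)` to an invariant subspace -/
noncomputable def resU (W : Submodule F V) (U : Subgroup (Module.End F V)ˣ)
    (hW : ∀ u ∈ U, ∀ w ∈ W, (u : Module.End F V) w ∈ W) : U →* (Module.End F W)ˣ :=
  MonoidHom.toHomUnits
    { toFun := fun u => (u.1 : Module.End F V).restrict (hW u.1 u.2)
      map_one' := by ext; rfl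
      map_mul' := fun a b => by ext; rfl }

theorem resU_apply (W : Submodule F V) (U : Subgroup (Module.End F V)ˣ)
    (hW : ∀ u ∈ U, ∀ w ∈ W, (u : Module.End F V) w ∈ W) (u : U) (w : W) :
    (((resU W U hW u : (Module.End F W)ˣ) : Module.End F W) w : V) = (u.1 : Module.End F V) w := rfl

theorem finite_end [Finite V] : Finite (Module.End F V) :=
  Finite.of_injective (fun f : Module.End F V => (f : V → V)) DFunLike.coe_injective

end restrict

/-- A unipotent element of order prime to `p` is trivial. -/
theorem eq_one_of_sq_zero {F : Type*} [Field F] (p : ℕ) [Fact p.Prime] [CharP F p]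
    {V : Type*} [AddCommGroup V] [Module F V] (h : (Module.End F V)ˣ)
    (hNN : ((h : Module.End F V) - 1) * ((h : Module.End F V) - 1) = 0)
    (hcop : (orderOf h).Coprime p) : h = 1 := by
  set N : Module.End F V := (h : Module.End F V) - 1 with hN
  have hh : (h : Module.End F V) = 1 + N := by rw [hN]; abel
  have hpow : ∀ k : ℕ, (h : Module.End F V) ^ k = 1 + k • N := by
    intro k
    induction k with
    | zero => simp
    | succ k ih =>
      rw [pow_succ, ih, hh]
      rw [mul_add, mul_one, add_mul, one_mul, smul_mul_assoc, hNN, smul_zero, add_zero, succ_nsmul]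
      abel
  have hp : h ^ p = 1 := by
    apply Units.ext
    rw [Units.val_pow_eq_pow_val, hpow p, Units.val_one]
    have : (p : ℕ) • N = 0 := by
      rw [← Nat.cast_smul_eq_nsmul F p N, CharP.cast_eq_zero F p, zero_smul]
    rw [this, add_zero]
  have h1 : orderOf h ∣ p := orderOf_dvd_of_pow_eq_one hp
  have h2 : orderOf h = 1 := by
    have := Nat.dvd_gcd (dvd_refl (orderOf h)) h1
    rw [hcop] at this
    exact Nat.dvd_one.mp this
  exact orderOf_eq_one_iff.mp h2


/-- The order of a commutative `p'`-subgroup of `GL(V)` is at most `|V| - 1`, and if equality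
holds then it acts freely on the nonzero vectors. -/
theorem card_bound {F : Type*} [Field F] [Finite F] (p : ℕ) [Fact p.Prime] [CharP F p] :
    ∀ (d : ℕ) (V : Type u) [AddCommGroup V] [Module F V] [Finite V], Module.finrank F V = d →
    ∀ (U : Subgroup (Module.End F V)ˣ), (∀ a ∈ U, ∀ b ∈ U, a * b = b * a) → (Nat.card U).Coprime p →
    (Nat.card U + 1 ≤ Nat.card V ∨ Nat.card V = 1) ∧
    (Nat.card U + 1 = Nat.card V → ∀ u ∈ U, u ≠ 1 → ∀ v : V, v ≠ 0 → (u : Module.End F V) v ≠ v) := by
  intro d
  induction d using Nat.strong_induction_on with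
  | _ d ih =>
  intro V _ _ _ hd U hcomm hcop
  have : Finite (Module.End F V) := finite_end
  by_cases hfree : ∀ u ∈ U, u ≠ 1 → ∀ v : V, v ≠ 0 → (u : Module.End F V) v ≠ v
  · refine ⟨?_, fun _ => hfree⟩
    by_cases hV : Nontrivial V
    · left
      obtain ⟨v, hv⟩ := exists_ne (0 : V)
      let φ : Option U → V := fun o => o.elim 0 (fun u => (u.1 : Module.End F V) v)
      have hφ : Function.Injective φ := by
        intro a b hab
        cases a with
        | none =>
          cases b with
          | none => rfl
          | some b =>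
            exfalso
            have h0 : (b.1 : Module.End F V) v = 0 := hab.symm
            have h1 : ((b.1⁻¹ * b.1 : (Module.End F V)ˣ) : Module.End F V) v = 0 := by
              rw [Units.val_mul, Module.End.mul_apply, h0, map_zero]
            rw [inv_mul_cancel, Units.val_one, Module.End.one_apply] at h1
            exact hv h1
        | some a =>
          cases b with
          | none =>
            exfalso
            have h0 : (a.1 : Module.End F V) v = 0 := hab
            have h1 : ((a.1⁻¹ * a.1 : (Module.End F V)ˣ) : Module.End F V) v = 0 := by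
              rw [Units.val_mul, Module.End.mul_apply, h0, map_zero]
            rw [inv_mul_cancel, Units.val_one, Module.End.one_apply] at h1
            exact hv h1
          | some b =>
            have h0 : (a.1 : Module.End F V) v = (b.1 : Module.End F V) v := hab
            have h1 : ((b.1⁻¹ * a.1 : (Module.End F V)ˣ) : Module.End F V) v = v := by
              rw [Units.val_mul, Module.End.mul_apply, h0, ← Module.End.mul_apply, ← Units.val_mul,
                inv_mul_cancel, Units.val_one, Module.End.one_apply]
            have h2 : b.1⁻¹ * a.1 = 1 := by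
              by_contra hne
              exact hfree _ (U.mul_mem (U.inv_mem b.2) a.2) hne v hv h1
            have h3 : a.1 = b.1 := by
              rw [inv_mul_eq_one] at h2; exact h2.symm
            exact congrArg some (Subtype.ext h3)
      have hle := Nat.card_le_card_of_injective φ hφ
      rwa [Finite.card_option] at hle
    · right
      rw [not_nontrivial_iff_subsingleton] at hV
      exact Nat.card_of_subsingleton (0 : V)
  · push Not at hfree
    obtain ⟨u, hu, hu1, v, hv, huv⟩ := hfree
    suffices h : Nat.card U + 1 < Nat.card V from ⟨Or.inl h.le, fun h' => absurd h' h.ne⟩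
    set T : Module.End F V := (u : Module.End F V) - 1 with hT
    have hcommT : ∀ g ∈ U, (g : Module.End F V) * T = T * (g : Module.End F V) := by
      intro g hg
      have h1 := congrArg Units.val (hcomm g hg u hu)
      simp only [Units.val_mul] at h1
      rw [hT, mul_sub, sub_mul, h1, mul_one, one_mul]
    have hW : ∀ g ∈ U, ∀ w ∈ LinearMap.ker T, (g : Module.End F V) w ∈ LinearMap.ker T := by
      intro g hg w hw
      rw [LinearMap.mem_ker] at hw ⊢
      have h1 := congrArg (fun f : Module.End F V => f w) (hcommT g hg)
      simp only [Module.End.mul_apply] at h1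
      rw [← h1, hw, map_zero]
    have hW' : ∀ g ∈ U, ∀ w ∈ LinearMap.range T, (g : Module.End F V) w ∈ LinearMap.range T := by
      rintro g hg _ ⟨x, rfl⟩
      refine ⟨(g : Module.End F V) x, ?_⟩
      have h1 := congrArg (fun f : Module.End F V => f x) (hcommT g hg)
      simp only [Module.End.mul_apply] at h1
      exact h1.symm
    have hWne : LinearMap.ker T ≠ ⊥ := by
      intro h
      have h1 : v ∈ LinearMap.ker T := by
        rw [LinearMap.mem_ker, hT, LinearMap.sub_apply, huv, Module.End.one_apply, sub_self]
      rw [h] at h1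
      exact hv ((Submodule.mem_bot F).mp h1)
    have hTne : T ≠ 0 := by
      intro h
      apply hu1
      apply Units.ext
      rw [Units.val_one]
      exact sub_eq_zero.mp h
    have hW'ne : LinearMap.range T ≠ ⊥ := by
      intro h
      exact hTne (LinearMap.range_eq_bot.mp h)
    have hrank : Module.finrank F (LinearMap.range T) + Module.finrank F (LinearMap.ker T) = d := by
      rw [← hd]; exact LinearMap.finrank_range_add_finrank_ker T
    have hWnt : Nontrivial (LinearMap.ker T) := (Submodule.nontrivial_iff_ne_bot).mpr hWne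
    have hW'nt : Nontrivial (LinearMap.range T) := (Submodule.nontrivial_iff_ne_bot).mpr hW'ne
    have hWpos : 0 < Module.finrank F (LinearMap.ker T) := Module.finrank_pos
    have hW'pos : 0 < Module.finrank F (LinearMap.range T) := Module.finrank_pos
    have hcomm1 : ∀ a ∈ (resU (LinearMap.ker T) U hW).range, ∀ b ∈ (resU (LinearMap.ker T) U hW).range,
        a * b = b * a := by
      rintro _ ⟨a, rfl⟩ _ ⟨b, rfl⟩
      rw [← map_mul, ← map_mul]
      congr 1
      exact Subtype.ext (hcomm a.1 a.2 b.1 b.2)
    have hcomm2 : ∀ a ∈ (resU (LinearMap.range T) U hW').range, ∀ b ∈ (resU (LinearMap.range T) U hW').range,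
        a * b = b * a := by
      rintro _ ⟨a, rfl⟩ _ ⟨b, rfl⟩
      rw [← map_mul, ← map_mul]
      congr 1
      exact Subtype.ext (hcomm a.1 a.2 b.1 b.2)
    have hcop1 : (Nat.card (resU (LinearMap.ker T) U hW).range).Coprime p :=
      Nat.Coprime.coprime_dvd_left (Subgroup.card_range_dvd _) hcop
    have hcop2 : (Nat.card (resU (LinearMap.range T) U hW').range).Coprime p :=
      Nat.Coprime.coprime_dvd_left (Subgroup.card_range_dvd _) hcop
    obtain ⟨h1, -⟩ := ih (Module.finrank F (LinearMap.ker T)) (by omega) (LinearMap.ker T) rfl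
      (resU (LinearMap.ker T) U hW).range hcomm1 hcop1
    obtain ⟨h2, -⟩ := ih (Module.finrank F (LinearMap.range T)) (by omega) (LinearMap.range T) rfl
      (resU (LinearMap.range T) U hW').range hcomm2 hcop2
    have hcW : Nat.card (LinearMap.ker T) ≠ 1 := by
      intro h
      have := (Nat.card_eq_one_iff_unique.mp h).1
      exact not_subsingleton _ this
    have hcW' : Nat.card (LinearMap.range T) ≠ 1 := by
      intro h
      have := (Nat.card_eq_one_iff_unique.mp h).1
      exact not_subsingleton _ this
    have h1' := h1.resolve_right hcW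
    have h2' := h2.resolve_right hcW'
    -- the kernel of the product map is trivial
    have hker : ∀ h ∈ U, (∀ w ∈ LinearMap.ker T, (h : Module.End F V) w = w) →
        (∀ w ∈ LinearMap.range T, (h : Module.End F V) w = w) → h = 1 := by
      intro h hh hw1 hw2
      apply eq_one_of_sq_zero p h
      · have hNT : ((h : Module.End F V) - 1) * T = 0 := by
          ext x
          rw [Module.End.mul_apply, LinearMap.sub_apply, hw2 _ ⟨x, rfl⟩, Module.End.one_apply, sub_self,
            LinearMap.zero_apply]
        have hTN : T * ((h : Module.End F V) - 1) = 0 := by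
          rw [mul_sub, ← hcommT h hh, mul_one, ← sub_one_mul]
          exact hNT
        ext x
        have hx : ((h : Module.End F V) - 1) x ∈ LinearMap.ker T := by
          rw [LinearMap.mem_ker, ← Module.End.mul_apply, hTN, LinearMap.zero_apply]
        rw [Module.End.mul_apply]
        rw [LinearMap.sub_apply (h : Module.End F V) 1 (((h : Module.End F V) - 1) x), hw1 _ hx,
          Module.End.one_apply, sub_self, LinearMap.zero_apply]
      · have h3 : orderOf h ∣ Nat.card U := by
          have h4 := orderOf_dvd_natCard (⟨h, hh⟩ : U)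
          rwa [← Subgroup.orderOf_coe] at h4
        exact Nat.Coprime.coprime_dvd_left h3 hcop
    have hinj : Function.Injective (fun g : U =>
        ((resU (LinearMap.ker T) U hW).rangeRestrict g, (resU (LinearMap.range T) U hW').rangeRestrict g)) := by
      intro a b hab
      have ha1 : resU (LinearMap.ker T) U hW a = resU (LinearMap.ker T) U hW b :=
        congrArg (fun x => (x.1 : (Module.End F (LinearMap.ker T))ˣ)) hab
      have ha2 : resU (LinearMap.range T) U hW' a = resU (LinearMap.range T) U hW' b :=
        congrArg (fun x => (x.2 : (Module.End F (LinearMap.range T))ˣ)) hab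
      have hk : (b⁻¹ * a : U).1 = 1 := by
        apply hker _ (b⁻¹ * a).2
        · intro w hw
          have h5 : resU (LinearMap.ker T) U hW (b⁻¹ * a) = 1 := by
            rw [map_mul, map_inv, ha1, inv_mul_cancel]
          have h6 := resU_apply (LinearMap.ker T) U hW (b⁻¹ * a) ⟨w, hw⟩
          rw [h5] at h6
          exact h6.symm
        · intro w hw
          have h5 : resU (LinearMap.range T) U hW' (b⁻¹ * a) = 1 := by
            rw [map_mul, map_inv, ha2, inv_mul_cancel]
          have h6 := resU_apply (LinearMap.range T) U hW' (b⁻¹ * a) ⟨w, hw⟩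
          rw [h5] at h6
          exact h6.symm
      have hk' : b⁻¹ * a = 1 := Subtype.ext hk
      rw [inv_mul_eq_one] at hk'
      exact hk'.symm
    have : Finite (Module.End F (LinearMap.ker T)) := finite_end
    have : Finite (Module.End F (LinearMap.range T)) := finite_end
    have hle : Nat.card U ≤ Nat.card (resU (LinearMap.ker T) U hW).range *
        Nat.card (resU (LinearMap.range T) U hW').range := by
      have h7 := Nat.card_le_card_of_injective _ hinj
      rwa [Nat.card_prod] at h7
    have hcV : Nat.card V = Nat.card (LinearMap.range T) * Nat.card (LinearMap.ker T) := by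
      rw [Module.natCard_eq_pow_finrank (K := F) (V := V),
        Module.natCard_eq_pow_finrank (K := F) (V := LinearMap.ker T),
        Module.natCard_eq_pow_finrank (K := F) (V := LinearMap.range T), ← pow_add, hrank, hd]
    have hpos1 : 0 < Nat.card (resU (LinearMap.ker T) U hW).range := Nat.card_pos
    have hpos2 : 0 < Nat.card (resU (LinearMap.range T) U hW').range := Nat.card_pos
    rw [hcV]
    have h8 := Nat.mul_le_mul h2' h1'
    nlinarith


theorem orbit_injective {F : Type*} [Field F] {V : Type*} [AddCommGroup V] [Module F V]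
    (U : Subgroup (Module.End F V)ˣ)
    (hfree : ∀ u ∈ U, u ≠ 1 → ∀ v : V, v ≠ 0 → (u : Module.End F V) v ≠ v) (v : V) (hv : v ≠ 0) :
    Function.Injective (fun o : Option U => o.elim 0 (fun u => (u.1 : Module.End F V) v)) := by
  intro a b hab
  cases a with
  | none =>
    cases b with
    | none => rfl
    | some b =>
      exfalso
      have h0 : (b.1 : Module.End F V) v = 0 := hab.symm
      have h1 : ((b.1⁻¹ * b.1 : (Module.End F V)ˣ) : Module.End F V) v = 0 := by
        rw [Units.val_mul, Module.End.mul_apply, h0, map_zero]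
      rw [inv_mul_cancel, Units.val_one, Module.End.one_apply] at h1
      exact hv h1
  | some a =>
    cases b with
    | none =>
      exfalso
      have h0 : (a.1 : Module.End F V) v = 0 := hab
      have h1 : ((a.1⁻¹ * a.1 : (Module.End F V)ˣ) : Module.End F V) v = 0 := by
        rw [Units.val_mul, Module.End.mul_apply, h0, map_zero]
      rw [inv_mul_cancel, Units.val_one, Module.End.one_apply] at h1
      exact hv h1
    | some b =>
      have h0 : (a.1 : Module.End F V) v = (b.1 : Module.End F V) v := hab
      have h1 : ((b.1⁻¹ * a.1 : (Module.End F V)ˣ) : Module.End F V) v = v := by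
        rw [Units.val_mul, Module.End.mul_apply, h0, ← Module.End.mul_apply, ← Units.val_mul,
          inv_mul_cancel, Units.val_one, Module.End.one_apply]
      have h2 : b.1⁻¹ * a.1 = 1 := by
        by_contra hne
        exact hfree _ (U.mul_mem (U.inv_mem b.2) a.2) hne v hv h1
      have h3 : a.1 = b.1 := by
        rw [inv_mul_eq_one] at h2; exact h2.symm
      exact congrArg some (Subtype.ext h3)

theorem finite_end' {F : Type*} [Field F] {V : Type*} [AddCommGroup V] [Module F V] [Finite V] : Finite (Module.End F V) :=
  Finite.of_injective (fun f : Module.End F V => (f : V → V)) DFunLike.coe_injective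

/-- A commutative subgroup `U` of `GL_F(K)` acting freely on the nonzero vectors with `|U| + 1 = |K|`
is conjugate to the Singer group. -/
theorem conj_of_free {F K : Type*} [Field F] [Finite F] [Field K] [Finite K] [Algebra F K]
    (U : Subgroup (Module.End F K)ˣ) (hcomm : ∀ a ∈ U, ∀ b ∈ U, a * b = b * a)
    (hcard : Nat.card U + 1 = Nat.card K)
    (hfree : ∀ u ∈ U, u ≠ 1 → ∀ v : K, v ≠ 0 → (u : Module.End F K) v ≠ v) :
    ∃ g : (Module.End F K)ˣ, U.map (MulAut.conj g).toMonoidHom =
      (Units.map ((Algebra.lmul F K : K →ₐ[F] Module.End F K) : K →* Module.End F K)).range := by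
  classical
  have : Finite (Module.End F K) := finite_end'
  -- transitivity on nonzero vectors
  have htrans : ∀ w : K, w ≠ 0 → ∃ u ∈ U, (u : Module.End F K) 1 = w := by
    intro w hw
    have hinj := orbit_injective U hfree (1 : K) one_ne_zero
    have hbij := hinj.bijective_of_nat_card_le (by rw [Finite.card_option, hcard])
    obtain ⟨o, ho⟩ := hbij.2 w
    cases o with
    | none => exact absurd ho.symm hw
    | some u => exact ⟨u.1, u.2, ho⟩
  -- the subalgebra spanned by U
  set s : Set (Module.End F K) := (fun u : (Module.End F K)ˣ => (u : Module.End F K)) '' (U : Set (Module.End F K)ˣ) with hs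
  have hs_comm : ∀ a ∈ s, ∀ b ∈ s, a * b = b * a := by
    rintro _ ⟨a, ha, rfl⟩ _ ⟨b, hb, rfl⟩
    rw [← Units.val_mul, ← Units.val_mul, hcomm a ha b hb]
  set A : Subalgebra F (Module.End F K) := Algebra.adjoin F s with hA
  have hAc : IsMulCommutative A := Algebra.isMulCommutative_adjoin F hs_comm
  have hAcomm : ∀ a ∈ A, ∀ b ∈ A, a * b = b * a := by
    intro a ha b hb
    exact congrArg Subtype.val (hAc.is_comm.comm ⟨a, ha⟩ ⟨b, hb⟩)
  have hUA : ∀ u ∈ U, (u : Module.End F K) ∈ A := fun u hu => Algebra.subset_adjoin ⟨u, hu, rfl⟩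
  have hA0 : ∀ a ∈ A, a 1 = 0 → a = 0 := by
    intro a ha h1
    ext w
    by_cases hw : w = 0
    · rw [hw, map_zero, map_zero]
    · obtain ⟨u, hu, rfl⟩ := htrans w hw
      rw [← Module.End.mul_apply, hAcomm a ha _ (hUA u hu), Module.End.mul_apply, h1, map_zero,
        LinearMap.zero_apply]
  have hAU : ∀ a ∈ A, a ≠ 0 → ∃ u ∈ U, (u : Module.End F K) = a := by
    intro a ha hne
    have h1 : a 1 ≠ 0 := fun h => hne (hA0 a ha h)
    obtain ⟨u, hu, hu1⟩ := htrans _ h1
    refine ⟨u, hu, ?_⟩
    have h2 : (u : Module.End F K) - a = 0 := by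
      apply hA0 _ (A.sub_mem (hUA u hu) ha)
      rw [LinearMap.sub_apply, hu1, sub_self]
    exact sub_eq_zero.mp h2
  have hone : (1 : Module.End F K) ≠ 0 := by
    intro h
    have := congrArg (fun f : Module.End F K => f 1) h
    simp at this
  have hfield : IsField A := by
    refine ⟨⟨0, 1, ?_⟩, fun x y => hAc.is_comm.comm x y, ?_⟩
    · intro h
      exact hone (congrArg Subtype.val h).symm
    · intro a ha
      have ha' : (a : Module.End F K) ≠ 0 := fun h => ha (Subtype.ext h)
      obtain ⟨u, hu, hua⟩ := hAU a.1 a.2 ha'
      refine ⟨⟨((u⁻¹ : (Module.End F K)ˣ) : Module.End F K), hUA _ (U.inv_mem hu)⟩, ?_⟩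
      apply Subtype.ext
      show (a : Module.End F K) * ((u⁻¹ : (Module.End F K)ˣ) : Module.End F K) = 1
      rw [← hua, ← Units.val_mul, mul_inv_cancel, Units.val_one]
  -- evaluation at 1
  let ev : A →ₗ[F] K :=
    { toFun := fun a => (a : Module.End F K) 1
      map_add' := fun a b => rfl
      map_smul' := fun c a => rfl }
  have hev : Function.Bijective ev := by
    constructor
    · intro a b hab
      have h1 : (a : Module.End F K) - b = 0 := by
        apply hA0 _ (A.sub_mem a.2 b.2)
        rw [LinearMap.sub_apply]
        exact sub_eq_zero.mpr hab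
      exact Subtype.ext (sub_eq_zero.mp h1)
    · intro w
      by_cases hw : w = 0
      · exact ⟨0, by rw [hw]; rfl⟩
      · obtain ⟨u, hu, hu1⟩ := htrans w hw
        exact ⟨⟨u, hUA u hu⟩, hu1⟩
  have hfin : Module.finrank F A = Module.finrank F K :=
    (LinearEquiv.ofBijective ev hev).finrank_eq
  obtain ⟨p, hp⟩ := CharP.exists F
  have : Fact p.Prime := ⟨CharP.char_is_prime F p⟩
  have : NeZero (Module.finrank F K) := ⟨(Module.finrank_pos (R := F) (M := K)).ne'⟩
  let _ : Field A := hfield.toField
  let τ : K ≃ₐ[F] A :=
    (FiniteField.algEquivExtension F p (Module.finrank F K) K rfl).trans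
      (FiniteField.algEquivExtension F p (Module.finrank F K) A hfin).symm
  -- the conjugating map
  let g : K →ₗ[F] K := ev.comp τ.toLinearMap
  have hg : Function.Bijective g := hev.comp τ.bijective
  let e : K ≃ₗ[F] K := LinearEquiv.ofBijective g hg
  let G : (Module.End F K)ˣ :=
    ⟨e.toLinearMap, e.symm.toLinearMap, by ext x; simp, by ext x; simp⟩
  have hGval : ∀ x, (G : Module.End F K) x = ((τ x : A) : Module.End F K) 1 := fun x => rfl
  have hrel : ∀ k x : K, (G : Module.End F K) (k * x) = ((τ k : A) : Module.End F K) ((G : Module.End F K) x) := by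
    intro k x
    rw [hGval, hGval, map_mul]
    rfl
  have hkey : ∀ u ∈ U, ∀ k : Kˣ, (u : Module.End F K) = ((τ k : A) : Module.End F K) →
      G⁻¹ * u * G⁻¹⁻¹ = Units.map ((Algebra.lmul F K : K →ₐ[F] Module.End F K) : K →* Module.End F K) k := by
    intro u hu k huk
    have h1 : u * G = G * Units.map ((Algebra.lmul F K : K →ₐ[F] Module.End F K) : K →* Module.End F K) k := by
      apply Units.ext
      ext x
      rw [Units.val_mul, Units.val_mul, Module.End.mul_apply, Module.End.mul_apply, huk, ← hrel]
      simp
    rw [inv_inv, mul_assoc, h1, ← mul_assoc, inv_mul_cancel, one_mul]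
  refine ⟨G⁻¹, ?_⟩
  ext x
  constructor
  · rintro ⟨u, hu, rfl⟩
    have h1 : (⟨(u : Module.End F K), hUA u hu⟩ : A) ≠ 0 := by
      intro h
      have h2 := congrArg Subtype.val h
      have h3 : (u : Module.End F K) = 0 := h2
      have h4 : (u : Module.End F K) * ((u⁻¹ : (Module.End F K)ˣ) : Module.End F K) = 1 := by
        rw [← Units.val_mul, mul_inv_cancel, Units.val_one]
      rw [h3, zero_mul] at h4
      exact hone h4.symm
    have h5 : τ.symm ⟨(u : Module.End F K), hUA u hu⟩ ≠ 0 := by
      intro h
      apply h1
      have := congrArg τ h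
      rwa [AlgEquiv.apply_symm_apply, map_zero] at this
    refine ⟨Units.mk0 _ h5, ?_⟩
    rw [MulEquiv.coe_toMonoidHom, MulAut.conj_apply]
    symm
    apply hkey u hu
    rw [Units.val_mk0, AlgEquiv.apply_symm_apply]
  · rintro ⟨k, rfl⟩
    have h1 : ((τ k : A) : Module.End F K) ≠ 0 := by
      intro h
      have h2 : τ (k : K) = 0 := Subtype.ext h
      rw [map_eq_zero_iff τ τ.injective] at h2
      exact k.ne_zero h2
    obtain ⟨u, hu, hua⟩ := hAU _ (τ k : A).2 h1
    refine ⟨u, hu, ?_⟩
    rw [MulEquiv.coe_toMonoidHom, MulAut.conj_apply]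
    exact hkey u hu k hua


/-- Let F ⊆ K be finite fields with |F| = q and [K : F] = n ≥ 2, regard K as an n-dimensional F-vector space, and let M ≤ GL_F(K) be the Singer group of multiplications by non-zero elements of K (cyclic of order q^n − 1). Assume (n, q) ≠ (6, 2), and that it is not the case that n = 2 with q a prime such that q + 1 is a power of 2. Then every abelian subgroup of GL_F(K) of order q^n − 1 is conjugate to M. -/
theorem result {F K : Type*} [Field F] [Fintype F] [Field K] [Fintype K] [Algebra F K] (n : ℕ) (hn : 2 ≤ n) (hdim : Module.finrank F K = n)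
    (hex1 : ¬ (n = 6 ∧ Fintype.card F = 2))
    (hex2 : ¬ (n = 2 ∧ (Fintype.card F).Prime ∧ ∃ a : ℕ, Fintype.card F + 1 = 2 ^ a))
    (U : Subgroup (Module.End F K)ˣ) (hU : IsMulCommutative U) (hcard : Nat.card U = Fintype.card K - 1) :
    ∃ g : (Module.End F K)ˣ, U.map (MulAut.conj g).toMonoidHom = (Units.map ((Algebra.lmul F K : K →ₐ[F] Module.End F K) : K →* Module.End F K)).range := by
  classical
  have hcomm : ∀ a ∈ U, ∀ b ∈ U, a * b = b * a := fun a ha b hb =>
    congrArg Subtype.val (hU.is_comm.comm ⟨a, ha⟩ ⟨b, hb⟩)
  have hcard' : Nat.card U + 1 = Nat.card K := by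
    rw [hcard, Nat.card_eq_fintype_card]
    have : 0 < Fintype.card K := Fintype.card_pos
    omega
  obtain ⟨p, hp⟩ := CharP.exists F
  have : Fact p.Prime := ⟨CharP.char_is_prime F p⟩
  have hpK : p ∣ Nat.card K := by
    rw [Module.natCard_eq_pow_finrank (K := F) (V := K)]
    obtain ⟨e, -, he⟩ := FiniteField.card F p
    rw [Nat.card_eq_fintype_card, he, ← pow_mul]
    have hpos : 0 < Module.finrank F K := Module.finrank_pos
    exact dvd_pow_self p (Nat.mul_ne_zero e.pos.ne' hpos.ne')
  have hcop : (Nat.card U).Coprime p := by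
    apply Nat.Coprime.symm
    rw [Nat.Prime.coprime_iff_not_dvd (Fact.out : p.Prime)]
    intro hdvd
    have h1 : p ∣ 1 := by
      have h2 := (Nat.dvd_add_right hdvd).mp (hcard' ▸ hpK)
      exact h2
    exact (Fact.out : p.Prime).one_lt.ne' (Nat.dvd_one.mp h1)
  have hfree := (card_bound (F := F) p (Module.finrank F K) K rfl U hcomm hcop).2 hcard'
  exact conj_of_free U hcomm hcard' hfree

end Cfsg.Agent.S5947
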