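import Cfsg.Statements.S5989
import Cfsg.Agent.Helper97.NPTWOMAIN
import Cfsg.Agent.Helper13.NPPMAIN
import Cfsg.Agent.Helper49.NPGOODMAIN
import Cfsg.Agent.Helper48.NPBADDIR

set_option autoImplicit false
open scoped MatrixGroups
open Cfsg

namespace Cfsg.Agent.S5989

/-- Elements of prime order of PΩ⁺_n(q), q odd, with no fixed nondegenerate `m`-space of odd dimension. Here `T = PΩ⁺_n(F)`, `n = 2d ≥ 8`, realised through `Ω⁺_n(q)`, the commutator subgroup of the isometry group of `Q = Σ xᵢyᵢ` over the field `F` with `q` elements; an element of `T` of prime order `r` is an element `x` of `Ω⁺_n(q)` with `x^r` scalar and `x` not scalar; `q` and `m` are odd, `1 ≤ m < n/2`. The nondegenerate `m`-spaces (subspaces on which the polar form is nondegenerate) fall into two isometry classes, each an orbit of `T`, and the two actions are equivalent; fix one such space `W₀` and let Ω be the set of nondegenerate `m`-spaces isometric to `W₀`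 (some linear isomorphism preserves `Q`). Let `r` be a prime dividing the size of Ω; for `r ≠ p` let `i` be the multiplicative order of `q` modulo `r`, `c = i` for `i` even and `c = 2i` for `i` odd, and write `k = n mod c`, `ℓ = m mod i`, `ℓ' = m mod c`, `n' = ⌊n/i⌋`, `m' = ⌊m/i⌋`, `t = (r−1)/i`. Then every element of `T` of order `r` fixes a member of Ω if and only if one of: (i) `r = 2`, `n ≡ 2 (mod 4)` and `q ≢ 1 (mod 8)`; (ii) `r ≠ p` odd, `i` odd, `c ≤ m` and `k > ℓ' > 0`; (iii) `r ≠ p` odd, `i` even, and either `k = 0` and `n/i` odd, or `i ≤ m` and `k > ℓ' > 0`. (For `r = p` there is always an element of order `p` fixing no member of Ω.) -/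
theorem result {F : Type*} [Field F] [Fintype F] {p : ℕ} [Fact p.Prime] [CharP F p] {q : ℕ} (hq : Fintype.card F = q)
    (hodd : Odd q) (d m : ℕ) (hd : 4 ≤ d) (hm : Odd m) (hmd : m < d)
    (W₀ : Submodule F (Fin d ⊕ Fin d → F)) (hW₀ : Module.finrank F ↥W₀ = m ∧ Cfsg.Geo.IsNondegenerateOn (QuadraticMap.polar (Cfsg.quadFormPlus d F)) W₀)
    (r : ℕ) [Fact r.Prime]
    (hrΩ : r ∣ Nat.card {W : Submodule F (Fin d ⊕ Fin d → F) // Module.finrank F ↥W = m ∧ Cfsg.Geo.IsNondegenerateOn (QuadraticMap.polar (Cfsg.quadFormPlus d F)) W ∧ Cfsg.Geo.AreIsometricFor (Cfsg.quadFormPlus d F) W W₀})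
    (i c : ℕ) (hi : i = orderOf (q : ZMod r)) (hc : c = if Even i then i else 2 * i) :
    (∀ x : GL (Fin d ⊕ Fin d) F, x ∈ Cfsg.Geo.omegaGL (Cfsg.quadFormPlus d F) →
      (∃ z : F, ((x ^ r : GL (Fin d ⊕ Fin d) F) : Matrix (Fin d ⊕ Fin d) (Fin d ⊕ Fin d) F) = z • (1 : Matrix (Fin d ⊕ Fin d) (Fin d ⊕ Fin d) F)) →
      (∀ z : F, (x : Matrix (Fin d ⊕ Fin d) (Fin d ⊕ Fin d) F) ≠ z • (1 : Matrix (Fin d ⊕ Fin d) (Fin d ⊕ Fin d) F)) →
      ∃ W : Submodule F (Fin d ⊕ Fin d → F), (Module.finrank F ↥W = m ∧ Cfsg.Geo.IsNondegenerateOn (QuadraticMap.polar (Cfsg.quadFormPlus d F)) W ∧ Cfsg.Geo.AreIsometricFor (Cfsg.quadFormPlus d F) W W₀) ∧ W.map (Matrix.toLin' (x : Matrix (Fin d ⊕ Fin d) (Fin d ⊕ Fin d) F)) ≤ W) ↔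
    ((r = 2 ∧ Odd d ∧ q % 8 ≠ 1) ∨
     (r ≠ p ∧ 2 < r ∧ Odd i ∧ c ≤ m ∧ 0 < m % c ∧ m % c < (2 * d) % c) ∨
     (r ≠ p ∧ 2 < r ∧ Even i ∧ (((2 * d) % c = 0 ∧ Odd ((2 * d) / i)) ∨ (i ≤ m ∧ 0 < m % c ∧ m % c < (2 * d) % c)))) := by
  have hr : r.Prime := Fact.out
  have hpp : p.Prime := Fact.out
  have hp2 : p ≠ 2 := by
    intro h
    obtain ⟨n, -, hn⟩ := FiniteField.card F p
    rw [hq, h] at hn
    rw [hn] at hodd
    exact (Nat.not_even_iff_odd.mpr hodd) (Nat.even_pow.mpr ⟨even_two, n.pos.ne'⟩)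
  by_cases hr2 : r = 2
  · subst hr2
    have h2 := Cfsg.Agent.Helper97.NP5989.np_two p q hq hodd d m hd hm hmd W₀ hW₀
    constructor
    · intro h
      exact Or.inl ⟨rfl, h2.1 h⟩
    · rintro (⟨-, h⟩ | ⟨-, h, -⟩ | ⟨-, h, -⟩)
      · exact h2.2 h
      · omega
      · omega
  · have hr3 : 2 < r := by
      have := hr.two_le
      omega
    by_cases hrp : r = p
    · subst hrp
      constructor
      · intro h
        exact absurd h (Cfsg.Agent.Helper13.NP5989.np_p r q hq hodd d m hd hm hmd W₀ hW₀)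
      · rintro (⟨h, -⟩ | ⟨h, -⟩ | ⟨h, -⟩)
        · exact absurd h hr2
        · exact absurd rfl h
        · exact absurd rfl h
    · constructor
      · intro h
        rcases Cfsg.Agent.Helper48.NP5989.np_bad p q hq hodd d m hd hm hmd W₀ hW₀ r hr3 hrp hrΩ i c hi hc h with h1 | h1
        · exact Or.inr (Or.inl ⟨hrp, hr3, h1⟩)
        · exact Or.inr (Or.inr ⟨hrp, hr3, h1⟩)
      · intro h x hxΩ hxr hns
        have hxO : x ∈ Cfsg.isometryGroup F (Cfsg.quadFormPlus d F) := by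
          obtain ⟨y, -, rfl⟩ := hxΩ
          exact y.2
        refine Cfsg.Agent.Helper49.NP5989.np_good p q hq hodd d m hd hm hmd W₀ hW₀ r hr3 hrp i c hi hc ?_ x hxO hxr hns
        rcases h with ⟨h, -⟩ | ⟨-, -, h1, h2, -, h3⟩ | ⟨-, -, h1, h2⟩
        · exact absurd h hr2
        · exact Or.inl ⟨h1, h2, h3⟩
        · refine Or.inr ⟨h1, ?_⟩
          rcases h2 with h2 | ⟨h2, -, h3⟩
          · exact Or.inl h2
          · exact Or.inr ⟨h2, h3⟩

end Cfsg.Agent.S5989
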