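import Cfsg.Statements.S5991
import Cfsg.Agent.Helper58.ODR2GEN
import Cfsg.Agent.Helper66.ODSKM
import Cfsg.Agent.Helper52.ODPKEYM
import Cfsg.Agent.Helper37.ODPCOMBO
import Cfsg.Agent.Helper84.ODDNDSUBCARD
import Cfsg.Agent.Helper47.ODDBADM
import Cfsg.Agent.Helper84.ODNSCAL
import Cfsg.Agent.Helper84.ODSCAL
import Cfsg.Agent.Helper5.ODDBADDIR
import Cfsg.Agent.Helper5.ODDGOOD
import Cfsg.Agent.Helper33.ODDSISO2
import Cfsg.Agent.Helper84.ODDSISO1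
import Cfsg.Agent.Helper33.ODPMF
import Cfsg.Agent.Helper20.ODPMX
import Cfsg.Agent.Helper5.ODPMCONJ
import Cfsg.Agent.Helper66.ODPMC3
import Cfsg.Agent.Helper5.ODPMS
import Cfsg.Agent.Helper20.ODPMK
import Cfsg.Agent.Helper33.ODPMC1
import Cfsg.Agent.Helper35.TSSTDM
import Cfsg.Agent.Helper88.OHOTYPEEVEN
import Cfsg.Agent.Helper37.OHOTYPEODD
import Cfsg.Agent.Helper42.U5996OddOmega
import Cfsg.Agent.Helper97.OForm
import Cfsg.Agent.Helper69.OEEBADDIRcore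

set_option autoImplicit false
open scoped MatrixGroups
open Cfsg

namespace Cfsg.Agent.S5991

open Module Polynomial Cfsg.Geo
open Cfsg.Agent.Helper13.TIu Cfsg.Agent.Helper96.OH Cfsg.Agent.Helper69.OD
open Cfsg.Agent.Helper58.OD59 Cfsg.Agent.Helper66.OD59 Cfsg.Agent.Helper52.OD59 Cfsg.Agent.Helper37.OD59
open Cfsg.Agent.Helper84.OD59 Cfsg.Agent.Helper5.OD59 Cfsg.Agent.Helper33.OD59 Cfsg.Agent.Helper47.OD59
open Cfsg.Agent.Helper20.OD59

theorem s5991_two_ne_zero {F : Type*} [Field F] [Fintype F]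
    (hodd : Odd (Fintype.card F)) : (2 : F) ≠ 0 := by
  have hchar : ringChar F ≠ 2 := by
    intro h
    have := FiniteField.even_card_iff_char_two.mp h
    rcases hodd with ⟨k, hk⟩
    omega
  exact Ring.two_ne_zero hchar

/-- `r = p`, `d` even: the discriminant-class argument. -/
theorem s5991_p_even {F : Type*} [Field F] [Fintype F] {p : ℕ} [Fact p.Prime] [CharP F p]
    (hodd : Odd (Fintype.card F)) (d m : ℕ) (hd : 4 ≤ d) (hde : Even d) (hm : Odd m) (hmd : m < d)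
    (a b : F) (hab : ∀ x y : F, x ^ 2 + a * x * y + b * y ^ 2 = 0 → x = 0 ∧ y = 0)
    (W₀ : Submodule F (((Fin (d - 1) ⊕ Fin (d - 1)) ⊕ Fin 2) → F))
    (hW₀ : Module.finrank F ↥W₀ = m ∧ Cfsg.Geo.IsNondegenerateOn (QuadraticMap.polar (Cfsg.quadFormMinus (d - 1) F a b)) W₀)
    (hL : ∀ x : GL ((Fin (d - 1) ⊕ Fin (d - 1)) ⊕ Fin 2) F, x ∈ Cfsg.Geo.omegaGL (Cfsg.quadFormMinus (d - 1) F a b) →
      (∃ z : F, ((x ^ p : GL ((Fin (d - 1) ⊕ Fin (d - 1)) ⊕ Fin 2) F) : Matrix ((Fin (d - 1) ⊕ Fin (d - 1)) ⊕ Fin 2) ((Fin (d - 1) ⊕ Fin (d - 1)) ⊕ Fin 2) F) = z • (1 : Matrix ((Fin (d - 1) ⊕ Fin (d - 1)) ⊕ Fin 2) ((Fin (d - 1) ⊕ Fin (d - 1)) ⊕ Fin 2) F)) →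
      (∀ z : F, (x : Matrix ((Fin (d - 1) ⊕ Fin (d - 1)) ⊕ Fin 2) ((Fin (d - 1) ⊕ Fin (d - 1)) ⊕ Fin 2) F) ≠ z • (1 : Matrix ((Fin (d - 1) ⊕ Fin (d - 1)) ⊕ Fin 2) ((Fin (d - 1) ⊕ Fin (d - 1)) ⊕ Fin 2) F)) →
      ∃ W : Submodule F (((Fin (d - 1) ⊕ Fin (d - 1)) ⊕ Fin 2) → F), (Module.finrank F ↥W = m ∧
        Cfsg.Geo.IsNondegenerateOn (QuadraticMap.polar (Cfsg.quadFormMinus (d - 1) F a b)) W ∧
        Cfsg.Geo.AreIsometricFor (Cfsg.quadFormMinus (d - 1) F a b) W W₀) ∧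
        W.map (Matrix.toLin' (x : Matrix ((Fin (d - 1) ⊕ Fin (d - 1)) ⊕ Fin 2) ((Fin (d - 1) ⊕ Fin (d - 1)) ⊕ Fin 2) F)) ≤ W) : False := by
  classical
  have h2 : (2 : F) ≠ 0 := s5991_two_ne_zero hodd
  obtain ⟨hQ, hminus⟩ := Cfsg.Agent.Helper35.TS5973.ts_std_minus (F := F) (d - 1) a b hab
  have hcard : Fintype.card ((Fin (d - 1) ⊕ Fin (d - 1)) ⊕ Fin 2) = 2 * d := by
    rw [Fintype.card_sum, Fintype.card_sum, Fintype.card_fin, Fintype.card_fin]; omega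
  have hppr : p.Prime := Fact.out
  obtain ⟨A, hA, hk1, hk2, hk3⟩ := od_pm_exists (F := F) h2 d (by omega) hde a b hab
  obtain ⟨S, Sinv, lam, hlam, hSS, hSS', hS⟩ := od_pm_sim (F := F) h2 (d - 1) a b hab
  have hlam0 : lam ≠ 0 := by
    rintro rfl
    exact hlam ⟨0, by simp⟩
  have hSinv : ∀ v, (Cfsg.quadFormMinus (d - 1) F a b) (Sinv.mulVec v) = lam⁻¹ * (Cfsg.quadFormMinus (d - 1) F a b) v := by
    intro v
    have h1 := hS (Sinv.mulVec v)
    rw [Matrix.mulVec_mulVec, hSS, Matrix.one_mulVec] at h1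
    rw [h1, ← mul_assoc, inv_mul_cancel₀ hlam0, one_mul]
  have hlam' : ¬ IsSquare lam⁻¹ := by
    intro h
    apply hlam
    have := h.inv
    rwa [inv_inv] at this
  obtain ⟨hkk, hk3c, htr⟩ := od_pm_conj S Sinv A hSS hSS'
  have hA' : ∀ v, (Cfsg.quadFormMinus (d - 1) F a b) ((S * A * Sinv).mulVec v) = (Cfsg.quadFormMinus (d - 1) F a b) v := by
    intro v
    rw [← Matrix.mulVec_mulVec, ← Matrix.mulVec_mulVec, hS, hA, hSinv, ← mul_assoc,
      mul_inv_cancel₀ hlam0, one_mul]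
  obtain ⟨W₁, ⟨hG₁a, hG₁b, hG₁c⟩, hinv₁, hAp, hfix₁⟩ :=
    od_pm_key (F := F) p hodd d m hd hde hm hmd a b hab
      (fun W => Module.finrank F ↥W = m ∧
        Cfsg.Geo.IsNondegenerateOn (QuadraticMap.polar (Cfsg.quadFormMinus (d - 1) F a b)) W ∧
        Cfsg.Geo.AreIsometricFor (Cfsg.quadFormMinus (d - 1) F a b) W W₀)
      (fun W hW => ⟨hW.1, hW.2.1⟩) hL A hA hk1 hk2 hk3
  have hk1' : finrank F (LinearMap.ker (Matrix.toLin' (S * A * Sinv) - 1)) = d := by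
    have h9 := hkk 1
    rw [pow_one, pow_one] at h9
    rw [h9, hk1]
  have hk2' : finrank F (LinearMap.ker ((Matrix.toLin' (S * A * Sinv) - 1) ^ 2)) = 2 * d - 1 := by
    rw [hkk 2, hk2]
  obtain ⟨W', ⟨hG'a, hG'b, hG'c⟩, hinv', -, hfix'⟩ :=
    od_pm_key (F := F) p hodd d m hd hde hm hmd a b hab
      (fun W => Module.finrank F ↥W = m ∧
        Cfsg.Geo.IsNondegenerateOn (QuadraticMap.polar (Cfsg.quadFormMinus (d - 1) F a b)) W ∧
        Cfsg.Geo.AreIsometricFor (Cfsg.quadFormMinus (d - 1) F a b) W W₀)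
      (fun W hW => ⟨hW.1, hW.2.1⟩) hL (S * A * Sinv) hA' hk1' hk2' (hk3c 3 hk3)
  obtain ⟨hinv₂, hfin₂⟩ := htr W' hinv'
  obtain ⟨hnd₂, hdim₂, hflip⟩ := od_pm_flip (Cfsg.quadFormMinus (d - 1) F a b) hQ h2 Sinv lam⁻¹ hlam' hSinv W' hG'b
    (by rw [hG'a]; exact hm)
  obtain ⟨e, he, hQe, hE⟩ := od_pm_fix (Cfsg.quadFormMinus (d - 1) F a b) hQ h2 d (by omega) hcard A hA hk1 hk2
  have hsign : (2 * finrank F ↥(W₁ ⊓ LinearMap.ker (Matrix.toLin' A - 1)) = m + 1 ∧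
        2 * finrank F ↥(W'.map (Matrix.toLin' Sinv) ⊓ LinearMap.ker (Matrix.toLin' A - 1)) =
          m + 1) ∨
      (2 * finrank F ↥(W₁ ⊓ LinearMap.ker (Matrix.toLin' A - 1)) + 1 = m ∧
        2 * finrank F ↥(W'.map (Matrix.toLin' Sinv) ⊓ LinearMap.ker (Matrix.toLin' A - 1)) + 1 =
          m) := by
    rw [hfin₂]
    rcases hfix₁ with ⟨h4, h5⟩ | ⟨h4, h5⟩
    · rcases hfix' with ⟨h6, h7⟩ | ⟨h6, h7⟩
      · exact Or.inl ⟨h5, h7⟩
      · exact absurd h6 (by rw [h4]; norm_num)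
    · rcases hfix' with ⟨h6, h7⟩ | ⟨h6, h7⟩
      · exact absurd h6 (by rw [h4]; norm_num)
      · exact Or.inr ⟨h5, h7⟩
  have hC := od_pm_claim (Cfsg.quadFormMinus (d - 1) F a b) hQ h2 d hcard A hA p hppr.pos hAp hk1 e he hQe hE m W₁
    (W'.map (Matrix.toLin' Sinv)) hG₁b hnd₂ hG₁a (hdim₂.trans hG'a) hinv₁ hinv₂ hsign
  have h1 := ods_of_iso (Cfsg.quadFormMinus (d - 1) F a b) hQ W₁ W₀ hG₁c
  have h3 := ods_of_iso (Cfsg.quadFormMinus (d - 1) F a b) hQ W' W₀ hG'c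
  exact iff_not_self (h3.trans (h1.symm.trans (hC.trans hflip)))

/-- Elements of prime order of PΩ⁻_n(q), q odd, with no fixed nondegenerate `m`-space of odd dimension. Here `T = PΩ⁻_n(F)`, `n = 2d ≥ 8`, realised through `Ω⁻_n(q)`, the commutator subgroup of the isometry group of `Q = Σ_{i<d−1} xᵢyᵢ + z₁² + a z₁z₂ + b z₂²` with `z₁² + a z₁z₂ + b z₂²` anisotropic, over the field `F` with `q` elements; an element of `T` of prime order `r` is an element `x` of `Ω⁻_n(q)` with `x^r` scalar and `x` not scalar; `q` and `m` are odd, `1 ≤ m < n/2`. The nondegenerate `m`-spaces fall into two isometry classes, each an orbit of `T`, with equivalent actions; fix one such space `W₀` and let Ω be the set of nondegenerate `m`-spaces isometric to `W₀`. Let `r` be a prime dividing the size of Ω; for `r ≠ p` let `i` be the multiplicative order of `q` modulo `r`, `c = i` for `i` even and `c = 2i` for `i`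 odd, and write `k = n mod c`, `ℓ = m mod i`, `ℓ' = m mod c`, `n' = ⌊n/i⌋`, `m' = ⌊m/i⌋`, `t = (r−1)/i`. Then every element of `T` of order `r` fixes a member of Ω if and only if one of: (i) `r = 2` and (`n ≡ 0 (mod 4)` or `q ≢ 7 (mod 8)`); (ii) `r ≠ p` odd, `i` odd, and `k = 0` or (`c ≤ m` and `k > ℓ' > 0`); (iii) `r ≠ p` odd, `i` even, and either `k = 0` and `n/i` even, or `k > 0`, `i ≤ m` and `k > ℓ' > 0`. (For `r = p` there is always an element of order `p` fixing no member of Ω.) -/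
theorem result {F : Type*} [Field F] [Fintype F] {p : ℕ} [Fact p.Prime] [CharP F p] {q : ℕ} (hq : Fintype.card F = q)
    (hodd : Odd q) (d m : ℕ) (hd : 4 ≤ d) (hm : Odd m) (hmd : m < d) (a b : F) (hab : ∀ x y : F, x ^ 2 + a * x * y + b * y ^ 2 = 0 → x = 0 ∧ y = 0)
    (W₀ : Submodule F ((Fin (d - 1) ⊕ Fin (d - 1)) ⊕ Fin 2 → F)) (hW₀ : Module.finrank F ↥W₀ = m ∧ Cfsg.Geo.IsNondegenerateOn (QuadraticMap.polar (Cfsg.quadFormMinus (d - 1) F a b)) W₀)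
    (r : ℕ) [Fact r.Prime]
    (hrΩ : r ∣ Nat.card {W : Submodule F ((Fin (d - 1) ⊕ Fin (d - 1)) ⊕ Fin 2 → F) // Module.finrank F ↥W = m ∧ Cfsg.Geo.IsNondegenerateOn (QuadraticMap.polar (Cfsg.quadFormMinus (d - 1) F a b)) W ∧ Cfsg.Geo.AreIsometricFor (Cfsg.quadFormMinus (d - 1) F a b) W W₀})
    (i c : ℕ) (hi : i = orderOf (q : ZMod r)) (hc : c = if Even i then i else 2 * i) :
    (∀ x : GL ((Fin (d - 1) ⊕ Fin (d - 1)) ⊕ Fin 2) F, x ∈ Cfsg.Geo.omegaGL (Cfsg.quadFormMinus (d - 1) F a b) →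
      (∃ z : F, ((x ^ r : GL ((Fin (d - 1) ⊕ Fin (d - 1)) ⊕ Fin 2) F) : Matrix ((Fin (d - 1) ⊕ Fin (d - 1)) ⊕ Fin 2) ((Fin (d - 1) ⊕ Fin (d - 1)) ⊕ Fin 2) F) = z • (1 : Matrix ((Fin (d - 1) ⊕ Fin (d - 1)) ⊕ Fin 2) ((Fin (d - 1) ⊕ Fin (d - 1)) ⊕ Fin 2) F)) →
      (∀ z : F, (x : Matrix ((Fin (d - 1) ⊕ Fin (d - 1)) ⊕ Fin 2) ((Fin (d - 1) ⊕ Fin (d - 1)) ⊕ Fin 2) F) ≠ z • (1 : Matrix ((Fin (d - 1) ⊕ Fin (d - 1)) ⊕ Fin 2) ((Fin (d - 1) ⊕ Fin (d - 1)) ⊕ Fin 2) F)) →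
      ∃ W : Submodule F ((Fin (d - 1) ⊕ Fin (d - 1)) ⊕ Fin 2 → F), (Module.finrank F ↥W = m ∧ Cfsg.Geo.IsNondegenerateOn (QuadraticMap.polar (Cfsg.quadFormMinus (d - 1) F a b)) W ∧ Cfsg.Geo.AreIsometricFor (Cfsg.quadFormMinus (d - 1) F a b) W W₀) ∧ W.map (Matrix.toLin' (x : Matrix ((Fin (d - 1) ⊕ Fin (d - 1)) ⊕ Fin 2) ((Fin (d - 1) ⊕ Fin (d - 1)) ⊕ Fin 2) F)) ≤ W) ↔
    ((r = 2 ∧ (Even d ∨ q % 8 ≠ 7)) ∨
     (r ≠ p ∧ 2 < r ∧ Odd i ∧ ((2 * d) % c = 0 ∨ (c ≤ m ∧ 0 < m % c ∧ m % c < (2 * d) % c))) ∨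
     (r ≠ p ∧ 2 < r ∧ Even i ∧ (((2 * d) % c = 0 ∧ Even ((2 * d) / i)) ∨ (0 < (2 * d) % c ∧ i ≤ m ∧ 0 < m % c ∧ m % c < (2 * d) % c)))) := by
  classical
  have hodd' := hodd
  subst hq
  have h2 : (2 : F) ≠ 0 := s5991_two_ne_zero hodd
  obtain ⟨hQ, hminus⟩ := Cfsg.Agent.Helper35.TS5973.ts_std_minus (F := F) (d - 1) a b hab
  have hcard : Fintype.card ((Fin (d - 1) ⊕ Fin (d - 1)) ⊕ Fin 2) = 2 * d := by
    rw [Fintype.card_sum, Fintype.card_sum, Fintype.card_fin, Fintype.card_fin]; omega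
  have hne : Nonempty ((Fin (d - 1) ⊕ Fin (d - 1)) ⊕ Fin 2) := ⟨Sum.inr 0⟩
  have hrpr : r.Prime := Fact.out
  have hppr : p.Prime := Fact.out
  by_cases hr2 : r = 2
  · subst hr2
    have h1 := od_two_iff (Cfsg.quadFormMinus (d - 1) F a b) hQ h2 d m hcard hm hmd W₀ hW₀
    have h3 := od_skew_minus (F := F) hodd d (by omega) a b hab
    rw [h1, h3, not_not]
    constructor
    · intro h; exact Or.inl ⟨rfl, h⟩
    · rintro (⟨-, h⟩ | ⟨-, h, -⟩ | ⟨-, h, -⟩)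
      · exact h
      · omega
      · omega
  have hr2' : 2 < r := lt_of_le_of_ne hrpr.two_le (Ne.symm hr2)
  have hrodd : Odd r := hrpr.odd_of_ne_two hr2
  by_cases hrp : r = p
  · subst hrp
    constructor
    · intro hL
      exfalso
      have hp3 : 3 ≤ r := hr2'
      rcases Nat.even_or_odd d with hde | hdo
      · exact s5991_p_even hodd d m hd hde hm hmd a b hab W₀ hW₀ hL
      · have key := od_p_key_minus (F := F) r hodd d m (by omega) (by omega) a b hab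
          (fun W => Module.finrank F ↥W = m ∧
            Cfsg.Geo.IsNondegenerateOn (QuadraticMap.polar (Cfsg.quadFormMinus (d - 1) F a b)) W ∧
            Cfsg.Geo.AreIsometricFor (Cfsg.quadFormMinus (d - 1) F a b) W W₀)
          (fun W hW => ⟨hW.1, hW.2.1⟩) hL
        obtain ⟨μ, hμ, hpar, hsum, hoddp, hno⟩ := od_p_comb_odd r d m hp3 (by omega) hdo hm
        exact hno (key μ hμ hpar hsum hoddp)
    · rintro (⟨h, -⟩ | ⟨h, -⟩ | ⟨h, -⟩)
      · exact absurd h hr2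
      · exact absurd rfl h
      · exact absurd rfl h
  have hrF : (r : F) ≠ 0 := by
    intro h0
    have h1 := (CharP.cast_eq_zero_iff F p r).mp h0
    exact hrp ((Nat.prime_dvd_prime_iff_eq hppr hrpr).mp h1).symm
  have hi0 : 0 < i := by
    rw [hi]
    exact Cfsg.Agent.Helper69.OE5993.ebd_ord_pos (F := F) r hrF
  have hc0 : 0 < c := by rw [hc]; split_ifs <;> omega
  have hceven : Even c := by
    rw [hc]; split_ifs with h
    · exact h
    · exact even_two_mul i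
  have hmc : 0 < m % c := by
    obtain ⟨t, ht⟩ := hceven
    obtain ⟨s, hs⟩ := hm
    have := Nat.div_add_mod m c
    rcases Nat.eq_zero_or_pos (m % c) with h0 | h0
    · exfalso
      rw [h0, add_zero] at this
      obtain ⟨qq, hqq⟩ : ∃ qq, m = c * qq := ⟨m / c, this.symm⟩
      have h5 : m = 2 * (t * qq) := by rw [hqq, ht]; ring
      omega
    · exact h0
  constructor
  · intro hL
    have hcn : c ≤ 2 * d := by
      by_contra hcon
      push Not at hcon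
      have h5 := od_nd_sub_card (Cfsg.quadFormMinus (d - 1) F a b) hQ h2 r hr2' hrF i c hi hc m ⊤
        (ond_top _ hQ) (by rw [finrank_top, Module.finrank_fintype_fun_eq_card, hcard]; exact hcon)
        W₀ W₀ ⟨⟨hW₀.1, hW₀.2, ⟨LinearEquiv.refl F _, fun w => rfl⟩⟩, le_top⟩
      apply h5
      have e : {W : Submodule F (((Fin (d - 1) ⊕ Fin (d - 1)) ⊕ Fin 2) → F) // (Module.finrank F ↥W = m ∧
            ONd (Cfsg.quadFormMinus (d - 1) F a b) W ∧ AreIsometricFor (Cfsg.quadFormMinus (d - 1) F a b) W W₀) ∧ W ≤ ⊤} ≃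
          {W : Submodule F (((Fin (d - 1) ⊕ Fin (d - 1)) ⊕ Fin 2) → F) // Module.finrank F ↥W = m ∧
            ONd (Cfsg.quadFormMinus (d - 1) F a b) W ∧ AreIsometricFor (Cfsg.quadFormMinus (d - 1) F a b) W W₀} :=
        Equiv.subtypeEquivRight (fun W => and_iff_left le_top)
      rw [Nat.card_congr e]
      exact hrΩ
    by_cases hcond : 0 < (2 * d) % c ∨ (Even i ∧ Odd ((2 * d) / i))
    · obtain ⟨g, hg, hgr, hfix⟩ := od_bad_minus (F := F) p h2 d (by omega) a b hab r hr2' hrp i c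
        hi hc hcn hcond
      have hgΩ : g ∈ Cfsg.Geo.omegaGL (Cfsg.quadFormMinus (d - 1) F a b) :=
        Cfsg.Agent.Helper42.odd_order_mem_omega h2
          (Cfsg.Agent.Helper98.op_qf (Cfsg.quadFormMinus (d - 1) F a b) hQ)
          (Cfsg.Agent.Helper98.op_qf_nondeg (Cfsg.quadFormMinus (d - 1) F a b) hQ) g hg r hrodd
          (by rw [← hgr]; exact pow_orderOf_eq_one g)
      have hg1 : g ^ r = 1 := by rw [← hgr]; exact pow_orderOf_eq_one g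
      obtain ⟨W, hW, hWinv⟩ := hL g hgΩ ⟨1, by rw [hg1, one_smul]; rfl⟩
        (od_nscal (Cfsg.quadFormMinus (d - 1) F a b) hQ hne g hg r hr2' hgr)
      have hT := Cfsg.Agent.Helper69.OE5993.ebd_opres (Cfsg.quadFormMinus (d - 1) F a b) g hg
      have hTr := Cfsg.Agent.Helper69.OE5993.ebd_pow g r hgr
      obtain ⟨h1, h3⟩ := od_bad_dir (Cfsg.quadFormMinus (d - 1) F a b) hQ h2 _ hT r hr2' hrF hTr i c hi hc m hm
        (by rw [hcard]; exact even_two_mul d) W₀ (by rw [hcard]; exact hfix) hrΩ W ⟨hW, hWinv⟩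
      rw [hcard] at h3
      by_cases hie : Even i
      · right; right
        have hci : c = i := by rw [hc, if_pos hie]
        exact ⟨hrp, hr2', hie, Or.inr ⟨by omega, by rw [← hci]; exact h1, hmc, h3⟩⟩
      · right; left
        exact ⟨hrp, hr2', Nat.not_even_iff_odd.mp hie, Or.inr ⟨h1, hmc, h3⟩⟩
    · push Not at hcond
      obtain ⟨hk0, hio⟩ := hcond
      have hk0' : (2 * d) % c = 0 := by omega
      by_cases hie : Even i
      · right; right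
        exact ⟨hrp, hr2', hie, Or.inl ⟨hk0', Nat.not_odd_iff_even.mp (hio hie)⟩⟩
      · right; left
        exact ⟨hrp, hr2', Nat.not_even_iff_odd.mp hie, Or.inl hk0'⟩
  · intro hR x hx hxr hxs
    have hxiso : x ∈ Cfsg.isometryGroup F (Cfsg.quadFormMinus (d - 1) F a b) :=
      Cfsg.Agent.Helper97.Gen.omegaGL_le _ hx
    obtain ⟨z, hz⟩ := hxr
    obtain ⟨T, hT, hTr, hTW⟩ := od_scal (Cfsg.quadFormMinus (d - 1) F a b) hQ hne h2 x hxiso r hrodd z hz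
    have hmn' : m < Fintype.card ((Fin (d - 1) ⊕ Fin (d - 1)) ⊕ Fin 2) := by rw [hcard]; omega
    have fin : (m % c < Fintype.card ((Fin (d - 1) ⊕ Fin (d - 1)) ⊕ Fin 2) % c ∨
        (Fintype.card ((Fin (d - 1) ⊕ Fin (d - 1)) ⊕ Fin 2) % c = 0 ∧ LinearMap.ker (T - 1) ≠ ⊥)) →
        ∃ W : Submodule F (((Fin (d - 1) ⊕ Fin (d - 1)) ⊕ Fin 2) → F), (Module.finrank F ↥W = m ∧
          Cfsg.Geo.IsNondegenerateOn (QuadraticMap.polar (Cfsg.quadFormMinus (d - 1) F a b)) W ∧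
          Cfsg.Geo.AreIsometricFor (Cfsg.quadFormMinus (d - 1) F a b) W W₀) ∧
          W.map (Matrix.toLin' (x : Matrix ((Fin (d - 1) ⊕ Fin (d - 1)) ⊕ Fin 2) ((Fin (d - 1) ⊕ Fin (d - 1)) ⊕ Fin 2) F)) ≤ W := by
      intro hk
      obtain ⟨W, ⟨hW1, hW2, hW3⟩, hW4⟩ := od_good (Cfsg.quadFormMinus (d - 1) F a b) hQ h2 T hT r hr2' hrF hTr
        i c hi hc m hm hmn' hk (ODs (Cfsg.quadFormMinus (d - 1) F a b) W₀)
      exact ⟨W, ⟨hW1, hW2, iso_of_ods (Cfsg.quadFormMinus (d - 1) F a b) hQ h2 W W₀ hW2 hW₀.2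
        (by rw [hW1, hW₀.1]) hW3⟩, (hTW W).mp hW4⟩
    rcases hR with ⟨h, -⟩ | ⟨-, -, hio, hR'⟩ | ⟨-, -, hie, hR'⟩
    · exact absurd h hr2
    · rcases hR' with hk0 | ⟨hcm, h0, hk⟩
      · apply fin
        right
        refine ⟨by rw [hcard]; exact hk0, ?_⟩
        intro hker
        have h5 := Cfsg.Agent.Helper37.OH5992.o_type_odd (Cfsg.quadFormMinus (d - 1) F a b) hQ h2 T hT r hr2'
          hrF hTr (by rw [← hi]; exact hio) ⊤ le_top (ond_top _ hQ)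
          (by rw [top_inf_eq]; exact hker)
        exact hminus h5
      · exact fin (Or.inl (by rw [hcard]; exact hk))
    · rcases hR' with ⟨hk0, hevq⟩ | ⟨-, him, h0, hk⟩
      · apply fin
        right
        refine ⟨by rw [hcard]; exact hk0, ?_⟩
        intro hker
        have h5 := Cfsg.Agent.Helper88.OH5992.o_type_even (Cfsg.quadFormMinus (d - 1) F a b) hQ h2 T hT r hr2'
          hrF hTr (by rw [← hi]; exact hie) ⊤ le_top (ond_top _ hQ)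
          (by rw [top_inf_eq]; exact hker)
        rw [finrank_top, Module.finrank_fintype_fun_eq_card, hcard, ← hi] at h5
        exact hminus (h5.mpr hevq)
      · exact fin (Or.inl (by rw [hcard]; exact hk))

end Cfsg.Agent.S5991
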