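import Cfsg.Statements.S5993
import Cfsg.Agent.Helper69.S5993P
import Cfsg.Agent.Helper69.OEEGOOD
import Cfsg.Agent.Helper69.OEEBADDIR
import Cfsg.Agent.Helper35.OEEGOOD2
import Cfsg.Agent.Helper37.OHOSTD
import Cfsg.Agent.Helper42.U5996OddOmega
import Cfsg.Agent.Helper97.OForm

set_option autoImplicit false
open scoped MatrixGroups
open Cfsg

namespace Cfsg.Agent.S5993

open Module Polynomial Cfsg.Geo
open Cfsg.Agent.Helper13.TIu Cfsg.Agent.Helper96.OH
open Cfsg.Agent.Helper37.OH5992 Cfsg.Agent.Helper69.OE5993 Cfsg.Agent.Helper35.OE5993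

theorem s5993_toLin'_pow_eq {κ : Type} [Fintype κ] [DecidableEq κ] {F : Type*} [Field F]
    (M : Matrix κ κ F) (k : ℕ) : Matrix.toLin' M ^ k = Matrix.toLin' (M ^ k) := by
  induction k with
  | zero => rw [pow_zero, pow_zero, Matrix.toLin'_one]; rfl
  | succ k ih => rw [pow_succ, pow_succ, Matrix.toLin'_mul, ih]; rfl

theorem s5993_two_ne_zero {F : Type*} [Field F] [Fintype F]
    (hodd : Odd (Fintype.card F)) : (2 : F) ≠ 0 := by
  have hchar : ringChar F ≠ 2 := by
    intro h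
    have := FiniteField.even_card_iff_char_two.mp h
    rcases hodd with ⟨k, hk⟩
    omega
  exact Ring.two_ne_zero hchar

theorem s5993_card_idx (d : ℕ) : Fintype.card (Unit ⊕ (Fin d ⊕ Fin d)) = 2 * d + 1 := by
  simp; omega

/-- the isometry attached to an element of the isometry group. -/
theorem s5993_opres_toLin' {κ : Type} [Fintype κ] [DecidableEq κ] {F : Type*} [Field F]
    (Q : (κ → F) → F) (g : GL κ F) (hg : g ∈ Cfsg.isometryGroup F Q) :
    OPres Q (Matrix.toLin' (g : Matrix κ κ F)) := by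
  intro v
  rw [Matrix.toLin'_apply]
  exact (Cfsg.Agent.Helper97.Gen.mem_isometryGroup_iff Q g).mp hg v

theorem s5993_pow_toLin' {κ : Type} [Fintype κ] [DecidableEq κ] {F : Type*} [Field F]
    (g : GL κ F) (r : ℕ) (hg : orderOf g = r) :
    Matrix.toLin' (g : Matrix κ κ F) ^ r = 1 := by
  have h1 : g ^ r = 1 := by rw [← hg]; exact pow_orderOf_eq_one g
  have h2 : (g : Matrix κ κ F) ^ r = 1 := by
    rw [← Units.val_pow_eq_pow_val, h1]; rfl
  rw [s5993_toLin'_pow_eq, h2, Matrix.toLin'_one]; rfl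

/-- Elements of prime order of Ω_n(q), nq odd, with no fixed elliptic `m`-space. Here `T = Ω_n(F)`, `n = 2d+1 ≥ 7`, `q` odd, realised as the commutator subgroup of the isometry group of `Q = x₀² + Σ xᵢyᵢ` over the field `F` with `q` elements (trivial centre, so its elements of prime order `r` are used directly); a nondegenerate `m`-space (even `m`) is a subspace on which the polar form of `Q` is nondegenerate; it is hyperbolic if it contains an `m/2`-dimensional subspace on which `Q` vanishes, elliptic otherwise. Let `m` be even with `2 ≤ m ≤ n − 1` (no restriction `m < n/2`) and let `r` be a prime dividing the number of elliptic `m`-spaces; for `r ≠ p` let `i` be the multiplicative order of `q` modulo `r`, `c = i` for `i` even and `c = 2i` for `i` odd, and write `k = n mod c`, `ℓ' = m mod c`. Then every element of `T` of order `r` fixes some elliptic `m`-space if and only if `r = 2`, or `r ≠ p` is odd and one of: (i) `i` odd, `c ≤ m` and `k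 > ℓ' > 0`; (ii) `i` even, `i ≤ m`, `k > ℓ'`, and `m/i` odd whenever `ℓ' = 0`. (For `r = p` there is always an element of order `p` fixing no elliptic `m`-space.) -/
theorem result {F : Type*} [Field F] [Fintype F] {p : ℕ} [Fact p.Prime] [CharP F p] {q : ℕ} (hq : Fintype.card F = q) (hqodd : Odd q)
    (d m : ℕ) (hd : 3 ≤ d) (hm : 2 ≤ m) (hme : Even m) (hmn : m ≤ 2 * d)
    (r : ℕ) [Fact r.Prime]
    (hrΩ : r ∣ Nat.card {W : Submodule F (Unit ⊕ (Fin d ⊕ Fin d) → F) // Module.finrank F ↥W = m ∧ Cfsg.Geo.IsNondegenerateOn (QuadraticMap.polar (Cfsg.quadFormOdd d F)) W ∧ ¬ Cfsg.Geo.IsPlusTypeOn (Cfsg.quadFormOdd d F) W})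
    (i c : ℕ) (hi : i = orderOf (q : ZMod r)) (hc : c = if Even i then i else 2 * i) :
    (∀ x : GL (Unit ⊕ (Fin d ⊕ Fin d)) F, x ∈ Cfsg.Geo.omegaGL (Cfsg.quadFormOdd d F) → orderOf x = r →
      ∃ W : Submodule F (Unit ⊕ (Fin d ⊕ Fin d) → F), (Module.finrank F ↥W = m ∧ Cfsg.Geo.IsNondegenerateOn (QuadraticMap.polar (Cfsg.quadFormOdd d F)) W ∧ ¬ Cfsg.Geo.IsPlusTypeOn (Cfsg.quadFormOdd d F) W) ∧ W.map (Matrix.toLin' (x : Matrix (Unit ⊕ (Fin d ⊕ Fin d)) (Unit ⊕ (Fin d ⊕ Fin d)) F)) ≤ W) ↔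
    (r = 2 ∨
     (r ≠ p ∧ 2 < r ∧ Odd i ∧ c ≤ m ∧ 0 < m % c ∧ m % c < (2 * d + 1) % c) ∨
     (r ≠ p ∧ 2 < r ∧ Even i ∧ i ≤ m ∧ m % c < (2 * d + 1) % c ∧ (0 < m % c ∨ Odd (m / i)))) := by
  classical
  have hqodd' := hqodd
  subst hq
  have h2 : (2 : F) ≠ 0 := s5993_two_ne_zero hqodd
  have hQ := o_std_nondeg (F := F) h2 d
  have hrpr : r.Prime := Fact.out
  have hcard := s5993_card_idx d
  have hodd : Odd (Fintype.card (Unit ⊕ (Fin d ⊕ Fin d))) := by
    rw [hcard]; exact ⟨d, rfl⟩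
  constructor
  · -- (⟹)
    intro hL
    by_cases hr2 : r = 2
    · exact Or.inl hr2
    have hr2' : 2 < r := lt_of_le_of_ne hrpr.two_le (Ne.symm hr2)
    have hrodd : Odd r := hrpr.odd_of_ne_two hr2
    by_cases hrp : r = p
    · exfalso
      subst hrp
      exact Cfsg.Agent.Helper69.S5993P.s5993_p (F := F) rfl hqodd' d m hd hm hme hmn hL
    have hL' : ∀ g : Matrix.GeneralLinearGroup (Unit ⊕ (Fin d ⊕ Fin d)) F,
        g ∈ Cfsg.isometryGroup F (Cfsg.quadFormOdd d F) → orderOf g = r →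
        ∃ W : Submodule F (Unit ⊕ (Fin d ⊕ Fin d) → F),
          (finrank F W = m ∧ ONd (Cfsg.quadFormOdd d F) W ∧ ¬ OPl (Cfsg.quadFormOdd d F) W) ∧
          W.map (Matrix.toLin'
            (g : Matrix (Unit ⊕ (Fin d ⊕ Fin d)) (Unit ⊕ (Fin d ⊕ Fin d)) F)) ≤ W := by
      intro g hg hgr
      refine hL g ?_ hgr
      have h3 := Cfsg.Agent.Helper42.odd_order_mem_omega h2
        (Cfsg.Agent.Helper98.op_qf (Cfsg.quadFormOdd d F) hQ)
        (Cfsg.Agent.Helper98.op_qf_nondeg (Cfsg.quadFormOdd d F) hQ) g hg r hrodd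
        (by rw [← hgr]; exact pow_orderOf_eq_one g)
      exact h3
    obtain ⟨h1, h3, h4⟩ := oe_bad_dir p h2 d m hme hm hmn r hr2' hrp hrΩ i c hi hc hL'
    by_cases hie : Even i
    · right; right
      have hci : c = i := by rw [hc, if_pos hie]
      refine ⟨hrp, hr2', hie, by rw [← hci]; exact h1, h3, ?_⟩
      rcases h4 with h0 | ⟨-, h0⟩
      · exact Or.inl h0
      · exact Or.inr h0
    · right; left
      refine ⟨hrp, hr2', Nat.not_even_iff_odd.mp hie, h1, ?_, h3⟩
      rcases h4 with h0 | ⟨h0, -⟩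
      · exact h0
      · exact absurd h0 hie
  · -- (⟸)
    intro hR x hx hxr
    have hxiso : x ∈ Cfsg.isometryGroup F (Cfsg.quadFormOdd d F) :=
      Cfsg.Agent.Helper97.Gen.omegaGL_le _ hx
    have hT := s5993_opres_toLin' (Cfsg.quadFormOdd d F) x hxiso
    have hTr := s5993_pow_toLin' x r hxr
    have hmn' : m < Fintype.card (Unit ⊕ (Fin d ⊕ Fin d)) := by rw [hcard]; omega
    have hrF : r ≠ p → (r : F) ≠ 0 := by
      intro hrp h0
      have h1 := (CharP.cast_eq_zero_iff F p r).mp h0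
      exact hrp ((Nat.prime_dvd_prime_iff_eq Fact.out hrpr).mp h1).symm
    rcases hR with hr2 | ⟨hrp, hr2, hio, hcm, h0, hk⟩ | ⟨hrp, hr2, hie, him, hk, hty⟩
    · subst hr2
      obtain ⟨W, ⟨hW1, hW2, hW3⟩, hW4⟩ :=
        oe_good_two (Cfsg.quadFormOdd d F) hQ h2 _ hT hTr m hme hm hmn' hodd False
      exact ⟨W, ⟨hW1, hW2, fun h => hW3.mp h⟩, hW4⟩
    · have hk' : m % c < Fintype.card (Unit ⊕ (Fin d ⊕ Fin d)) % c := by rw [hcard]; exact hk
      exact oe_good (Cfsg.quadFormOdd d F) hQ h2 _ hT r hr2 (hrF hrp) hTr i c hi hc m hme hcm hmn'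
        hk' (Or.inl h0)
    · have hci : c = i := by rw [hc, if_pos hie]
      have hk' : m % c < Fintype.card (Unit ⊕ (Fin d ⊕ Fin d)) % c := by rw [hcard]; exact hk
      refine oe_good (Cfsg.quadFormOdd d F) hQ h2 _ hT r hr2 (hrF hrp) hTr i c hi hc m hme
        (by rw [hci]; exact him) hmn' hk' ?_
      rcases hty with h0 | h0
      · exact Or.inl h0
      · exact Or.inr ⟨hie, h0⟩

end Cfsg.Agent.S5993
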